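import Cfsg.Statements.S1248
import Cfsg.Agent.S3315
import Cfsg.Agent.Lib.Lead.SUCenter
-- import your own Cfsg.Agent.* helpers here

set_option autoImplicit false
open Cfsg

namespace Cfsg.Agent.S1248

open Cfsg.Agent.S3315
open Cfsg.Agent
open scoped commutatorElement

theorem abs_props {F : Type*} [Field F] [Fintype F] [CharP F 2] (hF : Fintype.card F = 4 ^ 2)
    {T : Type*} [Group T] [Finite T] (M : Mod T F 4) :
    Nat.card T = 64 ∧ IsKleinFour (Subgroup.center T) ∧
      Subgroup.center T = Subgroup.closure {x : T | orderOf x = 2} ∧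
      Subgroup.center T = commutator T ∧ Nat.card (T ⧸ Subgroup.center T) = 16 ∧
      ∀ x : T ⧸ Subgroup.center T, x ^ 2 = 1 := by
  classical
  have h2 : ∀ x : F, x + x = 0 := fun x => CharTwo.add_self_eq_zero x
  have hcent : ∀ g : T, g ∈ Subgroup.center T ↔ M.pa g = 0 := by
    intro g
    constructor
    · intro hg
      exact M.pa_of_central hF h2 g (fun y => (Subgroup.mem_center_iff.1 hg y).symm)
    · intro hg
      exact Subgroup.mem_center_iff.2 (fun y => (M.central_of_pa (by norm_num) g hg y).symm)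
  have hT : Nat.card T = 64 := by
    rw [M.card_eq hF]
    norm_num
  have hsurj : ∀ a : F, ∃ g, M.pa g = a := by
    intro a
    obtain ⟨s, hs⟩ := exists_tr hF h2 (a ^ (4 + 1)) (Lead.norm_fixed hF _)
    obtain ⟨g, hg, -⟩ := M.surj a s hs
    exact ⟨g, hg⟩
  -- the coordinate map as a homomorphism
  let f : T →* Multiplicative F :=
    { toFun := fun g => Multiplicative.ofAdd (M.pa g)
      map_one' := by rw [M.pa_one]; rfl
      map_mul' := fun a b => by rw [M.pa_mul]; rfl }
  have hfs : Function.Surjective f := by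
    intro a
    obtain ⟨g, hg⟩ := hsurj (Multiplicative.toAdd a)
    exact ⟨g, congrArg Multiplicative.ofAdd hg⟩
  have hker : f.ker = Subgroup.center T := by
    ext g
    rw [hcent, MonoidHom.mem_ker]
    constructor
    · intro h
      exact congrArg Multiplicative.toAdd h
    · intro h
      show Multiplicative.ofAdd (M.pa g) = 1
      rw [h]
      rfl
  have hcardF : Nat.card (T ⧸ Subgroup.center T) = 16 := by
    rw [← hker, Nat.card_congr (QuotientGroup.quotientKerEquivOfSurjective f hfs).toEquiv]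
    show Nat.card F = 16
    rw [Nat.card_eq_fintype_card, hF]
    norm_num
  have hZ : Nat.card (Subgroup.center T) = 4 := by
    have h1 := Subgroup.card_eq_card_quotient_mul_card_subgroup (Subgroup.center T)
    rw [hT, hcardF] at h1
    omega
  have hps1 : M.ps 1 = 0 := by
    have h1 := M.ps_mul 1 1
    rw [mul_one, M.pa_one, zero_pow (by norm_num), zero_mul, add_zero] at h1
    linear_combination -h1
  have hsq : ∀ g : T, g * g = 1 ↔ M.pa g = 0 := by
    intro g
    constructor
    · intro h
      have h1 := congrArg M.ps h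
      rw [M.ps_mul, hps1, h2, zero_add] at h1
      have h3 : M.pa g ^ 5 = 0 := by linear_combination h1
      exact pow_eq_zero_iff (by norm_num) |>.1 h3
    · intro h
      apply M.ext'
      · rw [M.pa_mul, h, M.pa_one, add_zero]
      · rw [M.ps_mul, hps1, h, zero_pow (by norm_num), zero_mul, add_zero, h2]
  have hord : ∀ g : T, orderOf g = 2 ↔ (g ≠ 1 ∧ M.pa g = 0) := by
    intro g
    constructor
    · intro h
      constructor
      · rintro rfl
        rw [orderOf_one] at h
        omega
      · rw [← hsq, ← pow_two, ← h]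
        exact pow_orderOf_eq_one g
    · rintro ⟨h1, h3⟩
      exact orderOf_eq_prime (by rw [pow_two]; exact (hsq g).2 h3) h1
  have hcomm_pa : ∀ g h : T, M.pa ⁅g, h⁆ = 0 := by
    intro g h
    rw [commutatorElement_def, M.pa_mul, M.pa_mul, M.pa_mul, M.pa_inv h2, M.pa_inv h2]
    have := h2 (M.pa g)
    have := h2 (M.pa h)
    linear_combination h2 (M.pa g) + h2 (M.pa h)
  refine ⟨hT, ?_, ?_, ?_, hcardF, ?_⟩
  · refine ⟨hZ, ?_⟩
    haveI : Nontrivial (Subgroup.center T) := by
      apply Finite.one_lt_card_iff_nontrivial.1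
      rw [hZ]
      norm_num
    rw [Monoid.exponent_eq_prime_iff Nat.prime_two]
    rintro ⟨z, hz⟩ hz1
    rw [Subgroup.orderOf_mk]
    exact (hord z).2 ⟨fun h => hz1 (Subtype.ext h), (hcent z).1 hz⟩
  · apply le_antisymm
    · intro z hz
      by_cases hz1 : z = 1
      · rw [hz1]
        exact Subgroup.one_mem _
      · exact Subgroup.subset_closure ((hord z).2 ⟨hz1, (hcent z).1 hz⟩)
    · rw [Subgroup.closure_le]
      intro x hx
      exact (hcent x).2 ((hord x).1 hx).2
  · apply le_antisymm
    · intro z hz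
      have hz0 := (hcent z).1 hz
      have hw : (M.ps z) ^ 4 = M.ps z := by
        have h1 := M.rel z
        rw [hz0, zero_pow (by norm_num)] at h1
        have h3 := h2 (M.ps z)
        linear_combination h1 - h3
      obtain ⟨y, hy⟩ := exists_tr hF h2 (M.ps z) hw
      obtain ⟨g, hg⟩ := hsurj y
      obtain ⟨h, hh⟩ := hsurj 1
      have hc : ⁅g, h⁆ = z := by
        apply M.ext'
        · rw [hcomm_pa, hz0]
        · have h1 : ⁅g, h⁆ * (h * g) = g * h := by
            rw [commutatorElement_def]
            group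
          have h3 := congrArg M.ps h1
          rw [M.ps_mul, hcomm_pa, zero_pow (by norm_num), zero_mul, add_zero, M.ps_mul, M.ps_mul, hg, hh,
            one_pow, one_mul, mul_one] at h3
          have h4 := h2 y
          linear_combination h3 + hy - h4
      rw [← hc]
      exact Subgroup.commutator_mem_commutator (Subgroup.mem_top g) (Subgroup.mem_top h)
    · rw [commutator_def, Subgroup.commutator_le]
      intro g _ h _
      exact (hcent _).2 (hcomm_pa g h)
  · intro x
    obtain ⟨g, rfl⟩ := QuotientGroup.mk_surjective x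
    rw [← QuotientGroup.mk_pow, QuotientGroup.eq_one_iff, hcent, pow_two, M.pa_mul]
    exact h2 _


/-- Let F be a field with 16 elements and S a Sylow 2-subgroup of PSU(3) over F (the unitary group U₃(4)). Then |S| = 64; the centre Z(S) is a Klein four-group and coincides with the subgroup generated by the involutions of S and with the derived subgroup; and every element of S ⧸ Z(S) squares to the identity, S ⧸ Z(S) having order 16. -/
theorem result {F : Type*} [Field F] [Fintype F] (hF : Fintype.card F = 16) (S : Sylow 2 (Cfsg.PSU 3 F 4)) : Nat.card S = 64 ∧ IsKleinFour (Subgroup.center (S : Subgroup (Cfsg.PSU 3 F 4))) ∧ Subgroup.center (S : Subgroup (Cfsg.PSU 3 F 4)) = Subgroup.closure {x : (S : Subgroup (Cfsg.PSU 3 F 4)) | orderOf x = 2} ∧ Subgroup.center (S : Subgroup (Cfsg.PSU 3 F 4)) = commutator (S : Subgroup (Cfsg.PSU 3 F 4)) ∧ Nat.card ((S : Subgroup (Cfsg.PSU 3 F 4)) ⧸ Subgroup.center (S : Subgroup (Cfsg.PSU 3 F 4))) = 16 ∧ ∀ x : (S : Subgroup (Cfsg.PSU 3 F 4)) ⧸ Subgroup.center (S : Subgroup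 (Cfsg.PSU 3 F 4)), x ^ 2 = 1 := by
  classical
  have hF' : Fintype.card F = 4 ^ 2 := by rw [hF]; norm_num
  haveI : CharP F 2 := charP_of_card (n := 2) (by rw [hF]; norm_num) (le_refl 2)
  haveI : Fact (Nat.Prime 2) := ⟨Nat.prime_two⟩
  have hcen : Subgroup.center (Cfsg.SU 3 F 4) = ⊥ := by
    have h1 := Lead.card_center_SU (n := 3) (F := F) (q := 4) hF' (by norm_num)
    rw [show Nat.gcd 3 (4 + 1) = 1 by norm_num] at h1
    exact Subgroup.card_eq_one.1 h1
  let ι : Cfsg.PSU 3 F 4 ≃* ↥(Cfsg.SU 3 F 4) :=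
    (QuotientGroup.quotientMulEquivOfEq hcen).trans QuotientGroup.quotientBot
  have hcardG : Nat.card ↥(Cfsg.SU 3 F 4) = 2 ^ 6 * 975 := by
    have h1 := Lead.card_GU_eq hF' (n := 3) (by norm_num)
    have h2 := Lead.card_GU (n := 3) hF'
    rw [h1] at h2
    generalize Nat.card ↥(Cfsg.SU 3 F 4) = k at h2 ⊢
    simp only [Finset.prod_range_succ, Finset.prod_range_zero] at h2
    norm_num at h2
    omega
  have hcardP : Nat.card (Cfsg.PSU 3 F 4) = 2 ^ 6 * 975 := by
    rw [Nat.card_congr ι.toEquiv, hcardG]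
  have hfact : (Nat.card (Cfsg.PSU 3 F 4)).factorization 2 = 6 := by
    rw [hcardP, Nat.factorization_mul (by norm_num) (by norm_num), Finsupp.add_apply,
      Nat.factorization_eq_zero_of_not_dvd (by norm_num : ¬ 2 ∣ 975), add_zero,
      Nat.Prime.factorization_pow Nat.prime_two]
    simp
  let P₁ : Subgroup (Cfsg.PSU 3 F 4) := (P0 (q := 4) hF').map ι.symm.toMonoidHom
  have hP₁ : Nat.card P₁ = 2 ^ (Nat.card (Cfsg.PSU 3 F 4)).factorization 2 := by
    rw [hfact, Subgroup.card_map_of_injective ι.symm.injective, (modP0 hF').card_eq hF']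
    norm_num
  let Q0 : Sylow 2 (Cfsg.PSU 3 F 4) := Sylow.ofCard P₁ hP₁
  let e₂ : ↥P₁ ≃* ↥(P0 (q := 4) hF') := (Subgroup.equivMapOfInjective _ _ ι.symm.injective).symm
  let φ : ↥(S : Subgroup (Cfsg.PSU 3 F 4)) ≃* ↥(P0 (q := 4) hF') := (Sylow.equiv S Q0).trans e₂
  let M₀ := modP0 (q := 4) hF'
  let M : Mod ↥(S : Subgroup (Cfsg.PSU 3 F 4)) F 4 :=
    { pa := fun g => M₀.pa (φ g)
      ps := fun g => M₀.ps (φ g)
      ext' := fun g h h1 h3 => φ.injective (M₀.ext' _ _ h1 h3)
      pa_mul := fun g h => by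
        show M₀.pa (φ (g * h)) = _
        rw [map_mul, M₀.pa_mul]
      ps_mul := fun g h => by
        show M₀.ps (φ (g * h)) = _
        rw [map_mul, M₀.ps_mul]
      rel := fun g => M₀.rel _
      surj := fun a s h => by
        obtain ⟨g, h1, h3⟩ := M₀.surj a s h
        exact ⟨φ.symm g, by simpa using h1, by simpa using h3⟩ }
  exact abs_props hF' M

end Cfsg.Agent.S1248
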