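import Cfsg.Statements.S1282
import Cfsg.Agent.Lib.H05.Sig
-- import your own Cfsg.Agent.* helpers here

set_option autoImplicit false
open Cfsg

namespace Cfsg.Agent.S1282

/-- Let A be an elementary abelian p-subgroup of rank at least 3 of the finite group G, q ≠ p a prime, and Q₁, Q₂ q-subgroups normalized by A with D = Q₁ ∩ Q₂ different from both. Then there is a non-identity a ∈ A such that, for i = 1 and i = 2, N_{Q_i}(D) ∩ C_G(a) is not contained in D. -/
theorem result {G : Type*} [Group G] [Finite G] (p : ℕ) [Fact p.Prime] (A : Subgroup G) (hA : Cfsg.IsElementaryAbelian p A) (hA3 : p ^ 3 ≤ Nat.card ↥A) (q : ℕ) [Fact q.Prime] (hqp : q ≠ p) (Q₁ Q₂ : Subgroup G) (h₁ : IsPGroup q ↥Q₁) (h₂ : IsPGroup q ↥Q₂) (hA₁ : A ≤ Subgroup.normalizer (Q₁ : Set G)) (hA₂ : A ≤ Subgroup.normalizer (Q₂ : Set G)) (hD₁ : Q₁ ⊓ Q₂ ≠ Q₁) (hD₂ : Q₁ ⊓ Q₂ ≠ Q₂) : ∃ a ∈ A, a ≠ 1 ∧ ¬ (Subgroup.normalizer ((Q₁ ⊓ Q₂ : Subgroup G) : Set G) ⊓ Q₁ ⊓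 Subgroup.centralizer {a} ≤ Q₁ ⊓ Q₂) ∧ ¬ (Subgroup.normalizer ((Q₁ ⊓ Q₂ : Subgroup G) : Set G) ⊓ Q₂ ⊓ Subgroup.centralizer {a} ≤ Q₁ ⊓ Q₂) := by
  have hpp : p.Prime := Fact.out
  set D := Q₁ ⊓ Q₂ with hD
  have hAD : A ≤ Subgroup.normalizer (D : Set G) := by
    intro a ha
    exact Cfsg.Agent.H13.mem_normalizer_inf (hA₁ ha) (hA₂ ha)
  have key : ∀ Q : Subgroup G, IsPGroup q Q → A ≤ Subgroup.normalizer (Q : Set G) → D ≤ Q → D ≠ Q →
      ∃ B ∈ Cfsg.Agent.H05.hypFam A, ¬ (Subgroup.normalizer (D : Set G) ⊓ Q) ⊓ Subgroup.centralizer (B : Set G) ≤ D := by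
    intro Q hQ hAQ hDQ hne
    set Z := Subgroup.normalizer (D : Set G) ⊓ Q with hZ
    have hZc : (Nat.card Z).Coprime p := by
      have hZq : IsPGroup q Z := hQ.to_le inf_le_right
      obtain ⟨n, hn⟩ := IsPGroup.iff_card.mp hZq
      rw [hn]
      apply Nat.Coprime.pow_left
      exact (Nat.coprime_primes (Fact.out) hpp).mpr hqp
    have hAZ : A ≤ Subgroup.normalizer (Z : Set G) := by
      intro a ha
      apply Cfsg.Agent.H13.mem_normalizer_inf _ (hAQ ha)
      exact Cfsg.Agent.H05.normalizer_of_conj (fun x hx => by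
        rw [Subgroup.mem_normalizer_iff] at hx ⊢
        intro w
        have ha' := hAD ha
        have e1 : (a * x * a⁻¹) * w * (a * x * a⁻¹)⁻¹ = a * (x * (a⁻¹ * w * a) * x⁻¹) * a⁻¹ := by group
        rw [e1]
        constructor
        · intro hw
          have h1 : a⁻¹ * w * a ∈ D := by
            have := (Subgroup.mem_normalizer_iff.mp (inv_mem ha') w).mp hw
            simpa using this
          have h2 := (hx _).mp h1
          exact (Subgroup.mem_normalizer_iff.mp ha' _).mp h2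
        · intro hw
          have h1 : x * (a⁻¹ * w * a) * x⁻¹ ∈ D := by
            have := (Subgroup.mem_normalizer_iff.mp (inv_mem ha') _).mp hw
            simpa [mul_assoc] using this
          have h2 := (hx _).mpr h1
          have := (Subgroup.mem_normalizer_iff.mp ha' _).mp h2
          simpa [mul_assoc] using this)
    have hlt : D < Q := lt_of_le_of_ne hDQ hne
    have hZD : ¬ Z ≤ D := by
      have hl := Cfsg.Agent.H05.lt_inf_normalizer hQ hlt
      intro h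
      rw [inf_comm] at hl
      exact absurd (lt_of_lt_of_le hl h) (lt_irrefl D)
    exact Cfsg.Agent.H05.exists_hyp_not_le hA hZc hAZ hZD
  obtain ⟨B₁, hB₁, h₁'⟩ := key Q₁ h₁ hA₁ inf_le_left hD₁
  obtain ⟨B₂, hB₂, h₂'⟩ := key Q₂ h₂ hA₂ inf_le_right hD₂
  obtain ⟨a, ha, ha1⟩ := Cfsg.Agent.H05.exists_mem_inf_hyp hA hA3 hB₁ hB₂
  obtain ⟨ha₁, ha₂⟩ := Subgroup.mem_inf.mp ha
  refine ⟨a, hB₁.1 ha₁, ha1, ?_, ?_⟩
  · intro hcon
    apply h₁'
    refine le_trans ?_ hcon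
    exact inf_le_inf_left _ (by
      intro y hy
      rw [Cfsg.Agent.H05.mem_C]
      exact (Subgroup.mem_centralizer_iff.mp hy a ha₁))
  · intro hcon
    apply h₂'
    refine le_trans ?_ hcon
    exact inf_le_inf_left _ (by
      intro y hy
      rw [Cfsg.Agent.H05.mem_C]
      exact (Subgroup.mem_centralizer_iff.mp hy a ha₂))


end Cfsg.Agent.S1282
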