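import Mathlib
import Cfsg.Agent.Lib.H01.CharA
import Cfsg.Agent.Lib.H06.CharBrauer
import Cfsg.Statements.S0171
-- import your own Cfsg.Agent.* helpers here

set_option autoImplicit false
open Cfsg

namespace Cfsg.Agent.S0171


/-- Let G = K H with K normal, K ⊓ H trivial, and no non-identity element of H commuting with a non-identity element of K (a Frobenius group with kernel K and complement H). Then every non-principal irreducible character of K induces to an irreducible character of G. -/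
theorem result {G : Type*} [Group G] [Fintype G] (K H : Subgroup G) [K.Normal] (hKH : K ⊓ H = ⊥) (hKH' : K ⊔ H = ⊤) (hfpf : ∀ h ∈ H, h ≠ 1 → ∀ k ∈ K, h * k = k * h → k = 1) (τ : K → ℂ) (hτ : Cfsg.IsIrrCharacter K τ) (hτ1 : τ ≠ fun _ => 1) : Cfsg.IsIrrCharacter G (Cfsg.indFun K τ) := by
  classical
  haveI : Fintype K := Fintype.ofFinite _
  apply Cfsg.Agent.H06.isIrr_indFun_of_stabilizer_le K hτ
  intro x hx
  by_contra hxK
  -- a fixed nonidentity class of `K`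
  have h1 : ∃ θ : K → ℂ, IsIrrCharacter K θ ∧ θ ≠ (fun _ => 1) ∧
      (fun h : K => θ ⟨x * h * x⁻¹, (inferInstance : K.Normal).conj_mem h h.2 x⟩) = θ := ⟨τ, hτ, hτ1, hx⟩
  obtain ⟨k, hk, hconj⟩ := (Cfsg.Agent.H06.exists_fixed_irr_iff_exists_fixed_class K x).mp h1
  rw [isConj_iff] at hconj
  obtain ⟨u, hu⟩ := hconj
  have hu' : (u : G) * (x * k * x⁻¹) * (u : G)⁻¹ = k := congrArg Subtype.val hu
  -- `y = u x` centralizes `k`
  set y := (u : G) * x with hy
  have hyk : y * k = k * y := by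
    have : y * k * y⁻¹ = k := by
      calc y * k * y⁻¹ = (u : G) * (x * k * x⁻¹) * (u : G)⁻¹ := by rw [hy]; group
        _ = k := hu'
    calc y * k = (y * k * y⁻¹) * y := by group
      _ = k * y := by rw [this]
  have hyK : y ∉ K := by
    intro h
    apply hxK
    have : x = (u : G)⁻¹ * y := by rw [hy]; group
    rw [this]
    exact K.mul_mem (K.inv_mem u.2) h
  -- decompose `y = c h`
  have hyt : y ∈ K ⊔ H := by rw [hKH']; trivial
  rw [Subgroup.mem_sup_of_normal_left] at hyt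
  obtain ⟨c, hc, h₀, hh₀, hch⟩ := hyt
  have hh₀1 : h₀ ≠ 1 := by
    intro h
    apply hyK
    rw [← hch, h, mul_one]
    exact hc
  -- the map `a ↦ a⁻¹ h₀ a h₀⁻¹` on `K` is injective, hence surjective
  have hmem : ∀ a : K, (a : G)⁻¹ * (h₀ * a * h₀⁻¹) ∈ K := fun a =>
    K.mul_mem (K.inv_mem a.2) ((inferInstance : K.Normal).conj_mem _ a.2 h₀)
  have hinj : Function.Injective (fun a : K => (⟨_, hmem a⟩ : K)) := by
    intro a b hab
    have h2 : (a : G)⁻¹ * (h₀ * a * h₀⁻¹) = (b : G)⁻¹ * (h₀ * b * h₀⁻¹) := congrArg Subtype.val hab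
    have h3 : h₀ * ((b : G) * (a : G)⁻¹) = ((b : G) * (a : G)⁻¹) * h₀ := by
      have h4 : (b : G) * (a : G)⁻¹ * (h₀ * a * h₀⁻¹) = h₀ * b * h₀⁻¹ := by
        rw [mul_assoc, h2]; group
      calc h₀ * ((b : G) * (a : G)⁻¹) = (h₀ * b * h₀⁻¹) * (h₀ * (a : G)⁻¹ * h₀⁻¹) * h₀ := by group
        _ = ((b : G) * (a : G)⁻¹ * (h₀ * a * h₀⁻¹)) * (h₀ * (a : G)⁻¹ * h₀⁻¹) * h₀ := by rw [h4]
        _ = ((b : G) * (a : G)⁻¹) * h₀ := by group
    have h5 := hfpf h₀ hh₀ hh₀1 _ (K.mul_mem b.2 (K.inv_mem a.2)) h3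
    have h6 : (b : G) = a := by
      have : (b : G) = ((b : G) * (a : G)⁻¹) * a := by group
      rw [this, h5, one_mul]
    exact Subtype.ext h6.symm
  obtain ⟨a, ha⟩ := Finite.surjective_of_injective hinj ⟨c, hc⟩
  have hca : (a : G)⁻¹ * (h₀ * a * h₀⁻¹) = c := congrArg Subtype.val ha
  have hy2 : y = (a : G)⁻¹ * h₀ * a := by
    rw [← hch, ← hca]; group
  -- so `h₀` centralizes `a k a⁻¹`
  have h7 : h₀ * ((a : G) * k * (a : G)⁻¹) = ((a : G) * k * (a : G)⁻¹) * h₀ := by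
    rw [hy2] at hyk
    calc h₀ * ((a : G) * k * (a : G)⁻¹) = (a : G) * ((a : G)⁻¹ * h₀ * a * k) * (a : G)⁻¹ := by group
      _ = (a : G) * (k * ((a : G)⁻¹ * h₀ * a)) * (a : G)⁻¹ := by rw [hyk]
      _ = ((a : G) * k * (a : G)⁻¹) * h₀ := by group
  have h8 := hfpf h₀ hh₀ hh₀1 _ ((inferInstance : K.Normal).conj_mem _ k.2 a) h7
  apply hk
  apply Subtype.ext
  have : (k : G) = (a : G)⁻¹ * ((a : G) * k * (a : G)⁻¹) * a := by group
  rw [this, h8]
  simp


end Cfsg.Agent.S0171
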