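import Cfsg.Statements.S1509
import Cfsg.Agent.Lib.H06.CharSigned

set_option autoImplicit false

open Cfsg

namespace Cfsg.Agent.S1509

open Cfsg.Agent.H06 Cfsg.Agent.H21
open scoped ComplexConjugate

theorem result {X : Type*} [Group X] [Fintype X] (α β γ δ : X → ℂ) (hα : Cfsg.IsIrrCharacter X α ∨ Cfsg.IsIrrCharacter X (-α)) (hβ : Cfsg.IsIrrCharacter X β ∨ Cfsg.IsIrrCharacter X (-β)) (hγ : Cfsg.IsIrrCharacter X γ ∨ Cfsg.IsIrrCharacter X (-γ)) (hδ : Cfsg.IsIrrCharacter X δ ∨ Cfsg.IsIrrCharacter X (-δ)) (u v : ℝ) (hu : u ≠ 0) (hv : v ≠ 0) (hab : Cfsg.classInner α β = 0) (hcd : Cfsg.classInner γ δ = 0) (hmix : Cfsg.classInner (α - β) ((u : ℂ) • γ - (v : ℂ) • δ) = 0) (h1 : α 1 = β 1) (h2 : (u : ℂ) * γ 1 = (v : ℂ) * δ 1) : Cfsg.classInner α γ = 0 ∧ Cfsg.classInner α δ = 0 ∧ Cfsg.classInner β γ = 0 ∧ Cfsg.classInner β δ = 0 := by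
  have hα' : SignedIrr α := hα
  have hβ' : SignedIrr β := hβ
  have hγ' : SignedIrr γ := hγ
  have hδ' : SignedIrr δ := hδ
  have hu' : (u : ℂ) ≠ 0 := by exact_mod_cast hu
  have hv' : (v : ℂ) ≠ 0 := by exact_mod_cast hv
  have hα1 := hα'.one_ne_zero
  have hba : classInner β α = 0 := by
    rw [← classInner_comm_conj, hab, map_zero]
  have hdc : classInner δ γ = 0 := by
    rw [← classInner_comm_conj, hcd, map_zero]
  have hexp : (u : ℂ) * classInner α γ - (v : ℂ) * classInner α δ - (u : ℂ) * classInner β γ +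
      (v : ℂ) * classInner β δ = 0 := by
    rw [classInner_sub_left', classInner_sub_right', classInner_sub_right', classInner_smul_right,
      classInner_smul_right, classInner_smul_right, classInner_smul_right,
      Complex.conj_ofReal, Complex.conj_ofReal] at hmix
    linear_combination hmix
  -- a
  have ha : classInner α γ = 0 := by
    by_contra ha
    obtain ⟨e, he, hγe, hae⟩ := hα'.inner_cases hγ' ha
    have hb : classInner α δ = 0 := by
      have h3 := hcd
      rw [hγe, classInner_smul_left] at h3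
      exact (mul_eq_zero.mp h3).resolve_left (sign_ne_zero he)
    have hc : classInner β γ = 0 := by
      rw [hγe, classInner_smul_right, hba, mul_zero]
    rw [hae, hb, hc] at hexp
    have hd : classInner β δ ≠ 0 := by
      intro hd
      rw [hd] at hexp
      have h3 : (u : ℂ) * e = 0 := by linear_combination hexp
      exact (mul_ne_zero hu' (sign_ne_zero he)) h3
    obtain ⟨f, hf, hδf, hdf⟩ := hβ'.inner_cases hδ' hd
    rw [hdf] at hexp
    have h3 := h2
    rw [hγe, hδf] at h3
    simp only [Pi.smul_apply, smul_eq_mul] at h3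
    rw [← h1] at h3
    have h4 : (u : ℂ) * e = (v : ℂ) * f := by
      apply mul_right_cancel₀ hα1
      linear_combination h3
    have h5 : (u : ℂ) * e = 0 := by linear_combination (1 / 2 : ℂ) * hexp + (1 / 2 : ℂ) * h4
    exact (mul_ne_zero hu' (sign_ne_zero he)) h5
  have hb : classInner α δ = 0 := by
    by_contra hb
    obtain ⟨e, he, hδe, hbe⟩ := hα'.inner_cases hδ' hb
    have hd : classInner β δ = 0 := by
      rw [hδe, classInner_smul_right, hba, mul_zero]
    rw [ha, hbe, hd] at hexp
    have hc : classInner β γ ≠ 0 := by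
      intro hc
      rw [hc] at hexp
      have h3 : (v : ℂ) * e = 0 := by linear_combination -hexp
      exact (mul_ne_zero hv' (sign_ne_zero he)) h3
    obtain ⟨f, hf, hγf, hcf⟩ := hβ'.inner_cases hγ' hc
    rw [hcf] at hexp
    have h3 := h2
    rw [hγf, hδe] at h3
    simp only [Pi.smul_apply, smul_eq_mul] at h3
    rw [← h1] at h3
    have h4 : (u : ℂ) * f = (v : ℂ) * e := by
      apply mul_right_cancel₀ hα1
      linear_combination h3
    have h5 : (v : ℂ) * e = 0 := by linear_combination (-1 / 2 : ℂ) * hexp - (1 / 2 : ℂ) * h4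
    exact (mul_ne_zero hv' (sign_ne_zero he)) h5
  have hc : classInner β γ = 0 := by
    by_contra hc
    obtain ⟨f, hf, hγf, hcf⟩ := hβ'.inner_cases hγ' hc
    have hd : classInner β δ ≠ 0 := by
      intro hd
      rw [ha, hb, hcf, hd] at hexp
      have h3 : (u : ℂ) * f = 0 := by linear_combination -hexp
      exact (mul_ne_zero hu' (sign_ne_zero hf)) h3
    obtain ⟨g, hg, hδg, hdg⟩ := hβ'.inner_cases hδ' hd
    apply sign_ne_zero (e := f * g) (by
      rcases hf with rfl | rfl <;> rcases hg with rfl | rfl <;> simp)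
    have h3 := hcd
    rw [hγf, hδg, classInner_smul_left, classInner_smul_right, hβ'.inner_self, sign_conj hg] at h3
    linear_combination h3
  have hd : classInner β δ = 0 := by
    rw [ha, hb, hc] at hexp
    have h3 : (v : ℂ) * classInner β δ = 0 := by linear_combination hexp
    exact (mul_eq_zero.mp h3).resolve_left hv'
  exact ⟨ha, hb, hc, hd⟩

end Cfsg.Agent.S1509
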