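import Cfsg.Statements.S1514
import Cfsg.Agent.Lib.H06.CharVirtual
import Cfsg.Agent.S1509

set_option autoImplicit false

open Cfsg

namespace Cfsg.Agent.S1514

open Cfsg.Agent.H06 Cfsg.Agent.H21
open scoped ComplexConjugate

theorem result {L : Type*} [Group L] [Fintype L] {G : Type*} [Group G] [Fintype G] (S : Set (L → ℂ)) (hS : S.Nonempty) (hirr : ∀ χ ∈ S, Cfsg.IsIrrCharacter L χ) (hconj : ∀ χ ∈ S, Cfsg.conjFun χ ∈ S ∧ Cfsg.conjFun χ ≠ χ) (τ : (L → ℂ) → (G → ℂ)) (hτ : Cfsg.IsLinearIsometryOn (Cfsg.zspanOn S {1}ᶜ) τ) (hτ1 : ∀ α ∈ Cfsg.zspanOn S {1}ᶜ, τ α 1 = 0) : ∃ R : (L → ℂ) → Finset (G → ℂ), Cfsg.IsCoherenceSystem S τ R := by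
  classical
  obtain ⟨iso_add, iso_z, iso_in, iso_gen⟩ := id hτ
  have hmem : ∀ χ ∈ S, χ ∈ zspan S := fun χ hχ => Submodule.subset_span hχ
  -- the differences
  have hdiff : ∀ χ ∈ S, χ - conjFun χ ∈ zspanOn S {1}ᶜ := by
    intro χ hχ
    refine ⟨Submodule.sub_mem _ (hmem χ hχ) (hmem _ (hconj χ hχ).1), ?_⟩
    intro x hx
    have hx1 : x = 1 := by simpa using hx
    subst hx1
    simp only [Pi.sub_apply, conjFun]
    rw [one_eq_charDegree (isCharacter_of_irr (hirr χ hχ)), Complex.conj_natCast, sub_self]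
  have hcross : ∀ χ ∈ S, classInner χ (conjFun χ) = 0 := fun χ hχ =>
    classInner_irr_ne (hirr χ hχ) (hirr _ (hconj χ hχ).1) (hconj χ hχ).2.symm
  have hnorm : ∀ χ ∈ S, classInner (χ - conjFun χ) (χ - conjFun χ) = 2 := by
    intro χ hχ
    have h1 : classInner (conjFun χ) χ = 0 := by
      rw [← classInner_comm_conj, hcross χ hχ, map_zero]
    rw [classInner_sub_left', classInner_sub_right', classInner_sub_right', hcross χ hχ, h1,
      classInner_irr_self (hirr χ hχ), classInner_irr_self (hirr _ (hconj χ hχ).1)]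
    norm_num
  have hex : ∀ χ : L → ℂ, χ ∈ S → ∃ a b : G → ℂ, SignedIrr a ∧ SignedIrr b ∧ classInner a b = 0 ∧
      τ (χ - conjFun χ) = a + b := by
    intro χ hχ
    apply exists_of_norm_two (iso_gen _ (hdiff χ hχ))
    rw [iso_in _ (hdiff χ hχ) _ (hdiff χ hχ), hnorm χ hχ]
  choose! a b ha hb hab hsum using hex
  have hne : ∀ χ ∈ S, a χ ≠ b χ := by
    intro χ hχ h
    have h1 := hab χ hχ
    rw [← h, (ha χ hχ).inner_self] at h1
    exact one_ne_zero h1
  refine ⟨fun χ => {a χ, b χ}, ?_⟩
  refine
    { nonempty := hS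
      isCharacter := fun χ hχ => isCharacter_of_irr (hirr χ hχ)
      conj_mem := fun χ hχ => (hconj χ hχ).1
      conj_ne := fun χ hχ => (hconj χ hχ).2
      isometry := hτ
      map_one := hτ1
      orthogonal := fun χ hχ φ hφ h => classInner_irr_ne (hirr χ hχ) (hirr φ hφ) h
      orthonormal := ?_
      virtual := ?_
      sum_eq := ?_
      disjoint := ?_ }
  · intro χ hχ α hα β hβ
    have hba : classInner (b χ) (a χ) = 0 := by
      rw [← classInner_comm_conj, hab χ hχ, map_zero]
    simp only [Finset.mem_insert, Finset.mem_singleton] at hα hβ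
    rcases hα with rfl | rfl <;> rcases hβ with rfl | rfl
    · simp [(ha χ hχ).inner_self]
    · simp [hab χ hχ, hne χ hχ]
    · simp [hba, (hne χ hχ).symm]
    · simp [(hb χ hχ).inner_self]
  · intro χ hχ α hα
    simp only [Finset.mem_insert, Finset.mem_singleton] at hα
    rcases hα with rfl | rfl
    · exact (ha χ hχ).isGeneralized
    · exact (hb χ hχ).isGeneralized
  · intro χ hχ
    rw [hsum χ hχ, Finset.sum_pair (hne χ hχ)]
  · intro χ hχ φ hφ h1 h2 α hα β hβ
    -- orthogonality of the differences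
    have h3 : classInner (conjFun φ) χ = 0 := by
      rw [classInner_conjFun_left, h2, map_zero]
    have h4 : classInner (conjFun φ) (conjFun χ) = 0 := by
      rw [classInner_conjFun, h1, map_zero]
    have h5 : classInner (φ - conjFun φ) (χ - conjFun χ) = 0 := by
      rw [classInner_sub_left', classInner_sub_right', classInner_sub_right', h1, h2, h3, h4]
      simp
    have h6 : classInner (a φ + b φ) (a χ + b χ) = 0 := by
      rw [← hsum φ hφ, ← hsum χ hχ, iso_in _ (hdiff φ hφ) _ (hdiff χ hχ), h5]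
    have h7 : (a φ + b φ) 1 = 0 := by
      rw [← hsum φ hφ]
      exact hτ1 _ (hdiff φ hφ)
    have h8 : (a χ + b χ) 1 = 0 := by
      rw [← hsum χ hχ]
      exact hτ1 _ (hdiff χ hχ)
    have hnegb : ∀ {f : G → ℂ}, SignedIrr f →
        (IsIrrCharacter G (-f) ∨ IsIrrCharacter G (- -f)) := by
      intro f hf
      rcases hf with hf | hf
      · right
        simpa using hf
      · left
        exact hf
    have key := Cfsg.Agent.S1509.result (a φ) (-(b φ)) (a χ) (-(b χ)) (ha φ hφ) (hnegb (hb φ hφ))
      (ha χ hχ) (hnegb (hb χ hχ)) 1 1 one_ne_zero one_ne_zero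
      (by rw [classInner_neg_right', hab φ hφ, neg_zero])
      (by rw [classInner_neg_right', hab χ hχ, neg_zero])
      (by
        have : a φ - -(b φ) = a φ + b φ := by simp
        rw [this]
        have h9 : ((1 : ℝ) : ℂ) • a χ - ((1 : ℝ) : ℂ) • -(b χ) = a χ + b χ := by simp
        rw [h9, h6])
      (by
        simp only [Pi.neg_apply]
        have := h7
        simp only [Pi.add_apply] at this
        linear_combination this)
      (by
        simp only [Pi.neg_apply]
        have := h8
        simp only [Pi.add_apply] at this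
        push_cast
        linear_combination this)
    obtain ⟨k1, k2, k3, k4⟩ := key
    rw [classInner_neg_right', neg_eq_zero] at k2
    rw [classInner_neg_left', neg_eq_zero] at k3
    rw [classInner_neg_left', classInner_neg_right', neg_neg] at k4
    simp only [Finset.mem_insert, Finset.mem_singleton] at hα hβ
    rcases hα with rfl | rfl <;> rcases hβ with rfl | rfl <;> assumption

end Cfsg.Agent.S1514
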