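import Cfsg.Statements.S1517
import Cfsg.Agent.Lib.H06.Coher2

set_option autoImplicit false

open Cfsg

namespace Cfsg.Agent.S1517

open Cfsg.Agent.H06 Cfsg.Agent.H21
open scoped ComplexConjugate

universe u v

variable {L : Type u} [Group L] [Fintype L] {G : Type v} [Group G] [Fintype G]
variable {S : Set (L → ℂ)} {τ : (L → ℂ) → (G → ℂ)} {R : (L → ℂ) → Finset (G → ℂ)}

theorem diff_mem (hS : IsCoherenceSystem S τ R) (hdeg : ∀ φ ∈ S, ∀ ψ ∈ S, φ 1 = ψ 1) {χ φ : L → ℂ}
    (hχ : χ ∈ S) (hφ : φ ∈ S) : χ - φ ∈ zspanOn S {1}ᶜ :=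
  mem_zspanOn_one (zspan_sub_mem (mem_zspan hχ) (mem_zspan hφ)) (by
    simp only [Pi.sub_apply]
    rw [hdeg χ hχ φ hφ, sub_self])

theorem orth_of_ne (hS : IsCoherenceSystem S τ R) {χ φ : L → ℂ}
    (hχ : χ ∈ S) (hφ : φ ∈ S) (h1 : φ ≠ χ) (h2 : φ ≠ conjFun χ) :
    ∀ α ∈ R φ, ∀ β ∈ R χ, classInner α β = 0 :=
  hS.disjoint χ hχ φ hφ (hS.orthogonal φ hφ χ hχ h1) (hS.orthogonal φ hφ _ (hS.conj_mem χ hχ) h2)

theorem conj_ne' {χ φ : L → ℂ} (h2 : φ ≠ conjFun χ) : χ ≠ conjFun φ := by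
  intro h
  apply h2
  rw [h, conjFun_conjFun]

/-- The key decomposition. -/
theorem uniform_pair (hS : IsCoherenceSystem S τ R) (hdeg : ∀ φ ∈ S, ∀ ψ ∈ S, φ 1 = ψ 1) {χ φ : L → ℂ}
    (hχ : χ ∈ S) (hφ : φ ∈ S) (h1 : φ ≠ χ) (h2 : φ ≠ conjFun χ) :
    (∀ r ∈ R χ, classInner (τ (χ - φ)) r = 0 ∨ classInner (τ (χ - φ)) r = 1) ∧
      (∑ r ∈ R χ, classInner (τ (χ - φ)) r * conj (classInner (τ (χ - φ)) r) = classInner χ χ) ∧
      τ (χ - φ) = proj (R χ) (τ (χ - φ)) + proj (R φ) (τ (χ - φ)) := by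
  classical
  set a := τ (χ - φ) with ha
  have hdχφ := diff_mem hS hdeg hχ hφ
  have hiso := hS.isometry
  obtain ⟨nχ, -, hnχ⟩ := system_exists_norm hS hχ
  obtain ⟨nφ, -, hnφ⟩ := system_exists_norm hS hφ
  have hχc := hS.conj_mem χ hχ
  have hφc := hS.conj_mem φ hφ
  have e1 : classInner φ χ = 0 := hS.orthogonal φ hφ χ hχ h1
  have e1' : classInner χ φ = 0 := hS.orthogonal χ hχ φ hφ h1.symm
  have e2 : classInner φ (conjFun χ) = 0 := hS.orthogonal φ hφ _ hχc h2
  have e3 : classInner χ (conjFun χ) = 0 := hS.orthogonal χ hχ _ hχc (hS.conj_ne χ hχ).symm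
  have e4 : classInner χ (conjFun φ) = 0 := hS.orthogonal χ hχ _ hφc (conj_ne' h2)
  have e5 : classInner φ (conjFun φ) = 0 := hS.orthogonal φ hφ _ hφc (hS.conj_ne φ hφ).symm
  have haa : classInner a a = ((nχ + nφ : ℕ) : ℂ) := by
    rw [ha, hiso.2.2.1 _ hdχφ _ hdχφ, classInner_sub_left', classInner_sub_right', classInner_sub_right',
      hnχ, hnφ, e1, e1']
    push_cast
    ring
  have hagen : IsGeneralizedCharacter G a := hiso.2.2.2 _ hdχφ
  have hz1 : ∑ r ∈ R χ, classInner a r = nχ := by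
    rw [← classInner_sum_right, ← hS.sum_eq χ hχ, ha, hiso.2.2.1 _ hdχφ _ (diff_mem hS hdeg hχ hχc),
      classInner_sub_left', classInner_sub_right', classInner_sub_right', hnχ, e1, e2, e3]
    ring
  have hz2 : ∑ s ∈ R φ, classInner a s = -(nφ : ℂ) := by
    rw [← classInner_sum_right, ← hS.sum_eq φ hφ, ha, hiso.2.2.1 _ hdχφ _ (diff_mem hS hdeg hφ hφc),
      classInner_sub_left', classInner_sub_right', classInner_sub_right', hnφ, e1', e4, e5]
    ring
  have hgenχ := hS.virtual χ hχ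
  have hgenφ := hS.virtual φ hφ
  have hon1 := hS.orthonormal χ hχ
  have hon2 := hS.orthonormal φ hφ
  have hcross := orth_of_ne hS hχ hφ h1 h2
  have hcross' : ∀ α ∈ R χ, ∀ β ∈ R φ, classInner α β = 0 := by
    intro α hα β hβ
    rw [← classInner_comm_conj, hcross β hβ α hα, map_zero]
  have hdisj : Disjoint (R χ) (R φ) := by
    rw [Finset.disjoint_left]
    intro r hr hr'
    have := hcross' r hr r hr'
    rw [hon1 r hr r hr, if_pos rfl] at this
    exact one_ne_zero this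
  have honU : ∀ a ∈ R χ ∪ R φ, ∀ b ∈ R χ ∪ R φ, classInner a b = if a = b then 1 else 0 := by
    intro x hx y hy
    rcases Finset.mem_union.mp hx with hx | hx <;> rcases Finset.mem_union.mp hy with hy | hy
    · exact hon1 x hx y hy
    · rw [hcross' x hx y hy, if_neg]
      rintro rfl
      exact (Finset.disjoint_left.mp hdisj hx) hy
    · rw [hcross x hx y hy, if_neg]
      rintro rfl
      exact (Finset.disjoint_left.mp hdisj hy) hx
    · exact hon2 x hx y hy
  have hint : ∀ r ∈ R χ ∪ R φ, ∃ n : ℤ, classInner a r = n := by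
    intro r hr
    rcases Finset.mem_union.mp hr with hr | hr
    · exact gen_inner_int hagen (hgenχ r hr)
    · exact gen_inner_int hagen (hgenφ r hr)
  choose! c hc using hint
  have hc1 : ∀ r ∈ R χ, classInner a r = c r := fun r hr => hc r (Finset.mem_union_left _ hr)
  have hc2 : ∀ r ∈ R φ, classInner a r = c r := fun r hr => hc r (Finset.mem_union_right _ hr)
  have hbes := bessel_le_int (R χ ∪ R φ) (fun r => r) honU a c hc (nχ + nφ : ℤ) (by
    rw [haa]
    push_cast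
    rfl)
  rw [Finset.sum_union hdisj] at hbes
  have hz1' : ∑ r ∈ R χ, c r = nχ := by
    rw [Finset.sum_congr rfl hc1] at hz1
    exact_mod_cast hz1
  have hz2' : ∑ s ∈ R φ, c s = -(nφ : ℤ) := by
    rw [Finset.sum_congr rfl hc2] at hz2
    exact_mod_cast hz2
  have hA : ∀ x : ℤ, x ≤ x * x := fun x => by
    have := Int.le_self_sq x
    nlinarith
  have hA' : ∀ x : ℤ, -x ≤ x * x := fun x => by
    have := Int.le_self_sq (-x)
    nlinarith
  have hB1 : ∑ r ∈ R χ, c r ≤ ∑ r ∈ R χ, c r * c r := Finset.sum_le_sum fun r _ => hA _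
  have hB2 : ∑ r ∈ R φ, (-c r) ≤ ∑ r ∈ R φ, c r * c r := Finset.sum_le_sum fun r _ => hA' _
  rw [Finset.sum_neg_distrib, hz2', neg_neg] at hB2
  rw [hz1'] at hB1
  have hE1 : ∑ r ∈ R χ, c r * c r = nχ := by omega
  have hE2 : ∑ r ∈ R φ, c r * c r = nφ := by omega
  refine ⟨?_, ?_, ?_⟩
  · intro r hr
    have h5 : ∑ r ∈ R χ, (c r * c r - c r) = 0 := by
      rw [Finset.sum_sub_distrib, hE1, hz1', sub_self]
    have h6 := (Finset.sum_eq_zero_iff_of_nonneg (fun x _ => by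
      have := hA (c x)
      omega)).mp h5 r hr
    have h7 : c r * (c r - 1) = 0 := by linarith
    rw [hc1 r hr]
    rcases mul_eq_zero.mp h7 with h8 | h8
    · left
      simp [h8]
    · right
      have : c r = 1 := by omega
      simp [this]
  · rw [hnχ]
    have : ∀ r ∈ R χ, classInner a r * conj (classInner a r) = ((c r * c r : ℤ) : ℂ) := by
      intro r hr
      rw [hc1 r hr, map_intCast]
      push_cast
      rfl
    rw [Finset.sum_congr rfl this, ← Int.cast_sum, hE1]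
    simp
  · have h7 := eq_sum_of_bessel_eq (R χ ∪ R φ) (fun r => r) honU a (by
      rw [haa, Finset.sum_union hdisj]
      have : ∀ r ∈ R χ ∪ R φ, classInner a r * conj (classInner a r) = ((c r * c r : ℤ) : ℂ) := by
        intro r hr
        rw [hc r hr, map_intCast]
        push_cast
        rfl
      rw [Finset.sum_congr rfl (fun r hr => this r (Finset.mem_union_left _ hr)),
        Finset.sum_congr rfl (fun r hr => this r (Finset.mem_union_right _ hr)), ← Int.cast_sum,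
        ← Int.cast_sum, hE1, hE2]
      push_cast
      rfl)
    rw [Finset.sum_union hdisj] at h7
    exact h7

/-- Assembling a coherence from a family on `S`. -/
theorem coherent_of_uniform (hS : IsCoherenceSystem S τ R) (hdeg : ∀ φ ∈ S, ∀ ψ ∈ S, φ 1 = ψ 1)
    (μ : (L → ℂ) → (G → ℂ)) (hgen : ∀ χ ∈ S, IsGeneralizedCharacter G (μ χ))
    (hin : ∀ χ ∈ S, ∀ φ ∈ S, classInner (μ χ) (μ φ) = classInner χ φ)
    (hdiff : ∀ χ ∈ S, ∀ φ ∈ S, τ (χ - φ) = μ χ - μ φ) : IsCoherent S {1}ᶜ τ := by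
  classical
  have hne : ∀ χ ∈ S, classInner χ χ ≠ 0 := fun χ hχ => system_char_ne_zero hS hχ
  have hfin : S.Finite := finite_of_orthogonal hS.orthogonal hne
  let T := hfin.toFinset
  have hT : (T : Set (L → ℂ)) = S := hfin.coe_toFinset
  have hmT : ∀ x, x ∈ T ↔ x ∈ S := fun x => by
    rw [← hT]
    rfl
  have hiso : IsLinearIsometryOn (zspan (T : Set (L → ℂ))) (coherExt T μ) :=
    coherExt_isometry (fun x hx y hy h => hS.orthogonal x ((hmT x).mp hx) y ((hmT y).mp hy) h)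
      (fun x hx => hne x ((hmT x).mp hx)) (fun x hx => hgen x ((hmT x).mp hx))
      (fun x hx y hy => hin x ((hmT x).mp hx) y ((hmT y).mp hy))
  rw [hT] at hiso
  have hmem : ∀ x ∈ S, coherExt T μ x = μ x := fun x hx =>
    coherExt_mem (fun x hx y hy h => hS.orthogonal x ((hmT x).mp hx) y ((hmT y).mp hy) h)
      (fun x hx => hne x ((hmT x).mp hx)) ((hmT x).mpr hx)
  obtain ⟨χ₀, hχ₀⟩ := hS.nonempty
  have hτ := hS.isometry
  have h0 : (0 : L → ℂ) ∈ zspanOn S {1}ᶜ := ⟨zspan_zero_mem, fun _ _ => rfl⟩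
  refine ⟨⟨χ₀ - conjFun χ₀, diff_mem hS hdeg hχ₀ (hS.conj_mem χ₀ hχ₀), ?_⟩, coherExt T μ, hiso, ?_⟩
  · intro h
    exact hS.conj_ne χ₀ hχ₀ (sub_eq_zero.mp h).symm
  intro f hf
  have hQ : ∀ g ∈ zspan S, ∃ m : ℤ, g + (-m) • χ₀ ∈ zspanOn S {1}ᶜ ∧
      coherExt T μ g = τ (g + (-m) • χ₀) + m • μ χ₀ := by
    intro g hg
    have hg' : g ∈ Submodule.span ℤ S := hg
    clear hg
    induction hg' using Submodule.span_induction with
    | mem x hx =>
      have e : x + (-1 : ℤ) • χ₀ = x - χ₀ := by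
        rw [neg_smul, one_smul, sub_eq_add_neg]
      refine ⟨1, ?_, ?_⟩
      · rw [e]
        exact diff_mem hS hdeg hx hχ₀
      · rw [e, hmem x hx, hdiff x hx χ₀ hχ₀, one_smul, sub_add_cancel]
    | zero =>
      refine ⟨0, ?_, ?_⟩
      · simpa using h0
      · rw [coherExt_zero]
        simp [iso_zero hτ h0]
    | add a b _ _ ha hb =>
      obtain ⟨m, hm, e⟩ := ha
      obtain ⟨m', hm', e'⟩ := hb
      have hid : a + b + (-(m + m')) • χ₀ = (a + (-m) • χ₀) + (b + (-m') • χ₀) := by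
        rw [neg_add, add_smul]
        abel
      refine ⟨m + m', ?_, ?_⟩
      · rw [hid]
        exact zspanOn_add hm hm'
      · rw [coherExt_add, e, e', hid, hτ.1 _ hm _ hm', add_smul]
        abel
    | smul k a _ ha =>
      obtain ⟨m, hm, e⟩ := ha
      have hid : k • a + (-(k * m)) • χ₀ = k • (a + (-m) • χ₀) := by
        rw [smul_add, smul_smul]
        congr 2
        ring
      refine ⟨k * m, ?_, ?_⟩
      · rw [hid]
        exact zspanOn_closed S _ k _ hm
      · rw [coherExt_zsmul, e, hid, hτ.2.1 _ hm, smul_add, mul_smul]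
  obtain ⟨m, hm, e⟩ := hQ f hf.1
  have hf1 : f 1 = 0 := hf.2 1 (by simp)
  have hm1 : (f + (-m) • χ₀) 1 = 0 := hm.2 1 (by simp)
  simp only [Pi.add_apply, zsmul_apply', hf1] at hm1
  have hχ₀1 : χ₀ 1 ≠ 0 := by
    intro h
    apply hne χ₀ hχ₀
    have hz : χ₀ = 0 := by
      funext x
      have := isCharacter_norm_le (hS.isCharacter χ₀ hχ₀) x
      rw [one_eq_charDegree (hS.isCharacter χ₀ hχ₀)] at h
      have h' : (charDegree χ₀ : ℝ) = 0 := by exact_mod_cast h
      rw [h'] at this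
      simpa using this
    rw [hz]
    exact classInner_zero_left _
  have hm0 : m = 0 := by
    have h3 : ((-m : ℤ) : ℂ) * χ₀ 1 = 0 := by simpa using hm1
    have h4 := (mul_eq_zero.mp h3).resolve_right hχ₀1
    have h5 : (-m : ℤ) = 0 := by exact_mod_cast h4
    omega
  rw [e, hm0]
  simp

theorem tau_swap (hS : IsCoherenceSystem S τ R) (hdeg : ∀ φ ∈ S, ∀ ψ ∈ S, φ 1 = ψ 1) {χ φ : L → ℂ}
    (hχ : χ ∈ S) (hφ : φ ∈ S) : τ (φ - χ) = - τ (χ - φ) := by
  have h := hS.isometry.2.1 _ (diff_mem hS hdeg hχ hφ) (-1)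
  have e : (-1 : ℤ) • (χ - φ) = φ - χ := by
    rw [neg_smul, one_smul, neg_sub]
  rw [e] at h
  rw [h, neg_smul, one_smul]

theorem tau_add (hS : IsCoherenceSystem S τ R) (hdeg : ∀ φ ∈ S, ∀ ψ ∈ S, φ 1 = ψ 1) {χ φ ψ : L → ℂ}
    (hχ : χ ∈ S) (hφ : φ ∈ S) (hψ : ψ ∈ S) : τ (χ - ψ) = τ (χ - φ) + τ (φ - ψ) := by
  rw [← hS.isometry.1 _ (diff_mem hS hdeg hχ hφ) _ (diff_mem hS hdeg hφ hψ), sub_add_sub_cancel]

/-- Independence of the projection. -/
theorem proj_indep (hS : IsCoherenceSystem S τ R) (hdeg : ∀ φ ∈ S, ∀ ψ ∈ S, φ 1 = ψ 1) {χ φ φ' : L → ℂ}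
    (hχ : χ ∈ S) (hφ : φ ∈ S) (hφ' : φ' ∈ S) (h1 : φ ≠ χ) (h2 : φ ≠ conjFun χ) (h1' : φ' ≠ χ)
    (h2' : φ' ≠ conjFun χ) : proj (R χ) (τ (χ - φ)) = proj (R χ) (τ (χ - φ')) := by
  classical
  have key : ∀ r ∈ R χ, classInner (τ (χ - φ)) r = classInner (τ (χ - φ')) r := by
    intro r hr
    have e : τ (χ - φ) = τ (χ - φ') + τ (φ' - φ) := tau_add hS hdeg hχ hφ' hφ
    rw [e, classInner_add_left]
    have h0 : classInner (τ (φ' - φ)) r = 0 := by
      by_cases hc : φ' = φ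
      · have h0' : (0 : L → ℂ) ∈ zspanOn S {1}ᶜ := ⟨zspan_zero_mem, fun _ _ => rfl⟩
        rw [hc, sub_self, iso_zero hS.isometry h0']
        exact classInner_zero_left _
      · by_cases hd : φ' = conjFun φ
        · have e2 : τ (φ' - φ) = - τ (φ - φ') := tau_swap hS hdeg hφ hφ'
          rw [e2, hd, hS.sum_eq φ hφ]
          have h3 : classInner (∑ α ∈ R φ, α) r = 0 := by
            rw [classInner_sum_left]
            exact Finset.sum_eq_zero fun a ha => orth_of_ne hS hχ hφ h1 h2 a ha r hr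
          have h4 : classInner (-(∑ α ∈ R φ, α)) r = - classInner (∑ α ∈ R φ, α) r := by
            have := classInner_zsmul_left (-1) (∑ α ∈ R φ, α) r
            rw [neg_smul, one_smul] at this
            rw [this]
            simp
          rw [h4, h3, neg_zero]
        · obtain ⟨-, -, h5⟩ := uniform_pair hS hdeg hφ' hφ (Ne.symm hc) (fun h => hd (by
            rw [h, conjFun_conjFun]))
          rw [h5, classInner_add_left, proj, proj, classInner_sum_left, classInner_sum_left]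
          rw [Finset.sum_eq_zero, Finset.sum_eq_zero, add_zero]
          · intro a ha
            rw [classInner_smul_left, orth_of_ne hS hχ hφ h1 h2 a ha r hr, mul_zero]
          · intro a ha
            rw [classInner_smul_left, orth_of_ne hS hχ hφ' h1' h2' a ha r hr, mul_zero]
    rw [h0, add_zero]
  rw [proj, proj]
  exact Finset.sum_congr rfl fun r hr => by rw [key r hr]

theorem not_conj_symm {χ φ : L → ℂ} (h2 : φ ≠ conjFun χ) : χ ≠ conjFun φ := conj_ne' h2

/-- Branch A: a third character is always available. -/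
theorem coherent_branchA (hS : IsCoherenceSystem S τ R) (hdeg : ∀ φ ∈ S, ∀ ψ ∈ S, φ 1 = ψ 1)
    (hthird : ∀ χ ∈ S, ∃ φ ∈ S, φ ≠ χ ∧ φ ≠ conjFun χ) : IsCoherent S {1}ᶜ τ := by
  classical
  choose! ω hω1 hω2 hω3 using hthird
  let μ : (L → ℂ) → (G → ℂ) := fun χ => proj (R χ) (τ (χ - ω χ))
  have hμgen : ∀ χ ∈ S, IsGeneralizedCharacter G (μ χ) := fun χ hχ =>
    gen_proj (hS.virtual χ hχ) _ (hS.isometry.2.2.2 _ (diff_mem hS hdeg hχ (hω1 χ hχ)))
  have hμeq : ∀ χ ∈ S, ∀ φ ∈ S, φ ≠ χ → φ ≠ conjFun χ → proj (R χ) (τ (χ - φ)) = μ χ := fun χ hχ φ hφ h1 h2 =>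
    proj_indep hS hdeg hχ hφ (hω1 χ hχ) h1 h2 (hω2 χ hχ) (hω3 χ hχ)
  have hdiff1 : ∀ χ ∈ S, ∀ φ ∈ S, φ ≠ χ → φ ≠ conjFun χ → τ (χ - φ) = μ χ - μ φ := by
    intro χ hχ φ hφ h1 h2
    obtain ⟨-, -, h3⟩ := uniform_pair hS hdeg hχ hφ h1 h2
    have h4 : proj (R φ) (τ (χ - φ)) = - μ φ := by
      rw [← hμeq φ hφ χ hχ h1.symm (conj_ne' h2), tau_swap hS hdeg hχ hφ]
      unfold proj
      rw [← Finset.sum_neg_distrib]
      refine Finset.sum_congr rfl fun r _ => ?_
      have h5 : classInner (-τ (χ - φ)) r = - classInner (τ (χ - φ)) r := by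
        have := classInner_zsmul_left (-1) (τ (χ - φ)) r
        rw [neg_smul, one_smul] at this
        rw [this]
        simp
      rw [h5, neg_smul, neg_neg]
    rw [h3, hμeq χ hχ φ hφ h1 h2, h4, sub_eq_add_neg]
  have hdiff : ∀ χ ∈ S, ∀ φ ∈ S, τ (χ - φ) = μ χ - μ φ := by
    intro χ hχ φ hφ
    by_cases h1 : φ = χ
    · have h0' : (0 : L → ℂ) ∈ zspanOn S {1}ᶜ := ⟨zspan_zero_mem, fun _ _ => rfl⟩
      rw [h1, sub_self, sub_self, iso_zero hS.isometry h0']
    · by_cases h2 : φ = conjFun χ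
      · have hψ := hω1 χ hχ
        have hψ1 := hω2 χ hχ
        have hψ2 := hω3 χ hχ
        rw [tau_add hS hdeg hχ hψ hφ, hdiff1 χ hχ _ hψ hψ1 hψ2,
          hdiff1 _ hψ φ hφ (by rw [h2]; exact hψ2.symm) (by
            rw [h2]
            intro h
            apply hψ1
            have := congrArg conjFun h
            rw [conjFun_conjFun, conjFun_conjFun] at this
            exact this.symm)]
        abel
      · exact hdiff1 χ hχ φ hφ h1 h2
  have hself : ∀ χ ∈ S, classInner (μ χ) (μ χ) = classInner χ χ := by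
    intro χ hχ
    obtain ⟨-, h3, -⟩ := uniform_pair hS hdeg hχ (hω1 χ hχ) (hω2 χ hχ) (hω3 χ hχ)
    show classInner (proj (R χ) _) (proj (R χ) _) = _
    rw [classInner_proj_self (hS.orthonormal χ hχ)]
    exact h3
  have hin : ∀ χ ∈ S, ∀ φ ∈ S, classInner (μ χ) (μ φ) = classInner χ φ := by
    intro χ hχ φ hφ
    by_cases h1 : φ = χ
    · rw [h1]
      exact hself χ hχ
    · rw [hS.orthogonal χ hχ φ hφ (Ne.symm h1)]
      by_cases h2 : φ = conjFun χ
      · -- the norm of `τ (χ - χ̄)`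
        obtain ⟨k, hk⟩ := gen_inner_int (hμgen χ hχ) (hμgen φ hφ)
        obtain ⟨n, -, hn⟩ := system_exists_norm hS hχ
        have hn' : classInner φ φ = n := by
          rw [h2]
          exact classInner_conj_self χ n hn
        have hd := diff_mem hS hdeg hχ hφ
        have h3 := hS.isometry.2.2.1 _ hd _ hd
        rw [hdiff χ hχ φ hφ] at h3
        simp only [classInner_sub_left', classInner_sub_right'] at h3
        rw [hself χ hχ, hself φ hφ,
          hS.orthogonal χ hχ φ hφ (Ne.symm h1), hS.orthogonal φ hφ χ hχ h1, hk,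
          ← classInner_comm_conj (μ χ) (μ φ), hk] at h3
        rw [hk]
        have h4 : (((k : ℂ))) + conj (k : ℂ) = 0 := by
          rw [hn, hn'] at h3
          linear_combination -h3
        rw [map_intCast] at h4
        have h5 : (2 * k : ℤ) = 0 := by
          have : ((2 * k : ℤ) : ℂ) = 0 := by
            push_cast
            linear_combination h4
          exact_mod_cast this
        have h6 : k = 0 := by omega
        simp [h6]
      · exact classInner_proj_of_orth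
          (fun a ha b hb => by
            rw [← classInner_comm_conj, orth_of_ne hS hχ hφ h1 h2 b hb a ha, map_zero]) _ _
  exact coherent_of_uniform hS hdeg μ hμgen hin hdiff

/-- Branch B: `S = {χ₀, χ̄₀}`. -/
theorem coherent_branchB (hS : IsCoherenceSystem S τ R) (hdeg : ∀ φ ∈ S, ∀ ψ ∈ S, φ 1 = ψ 1) {χ₀ : L → ℂ}
    (hχ₀ : χ₀ ∈ S) (hall : ∀ φ ∈ S, φ = χ₀ ∨ φ = conjFun χ₀) : IsCoherent S {1}ᶜ τ := by
  classical
  have hχc := hS.conj_mem χ₀ hχ₀
  obtain ⟨n, -, hn⟩ := system_exists_norm hS hχ₀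
  have hn' : classInner (conjFun χ₀) (conjFun χ₀) = n := classInner_conj_self χ₀ n hn
  have hon := hS.orthonormal χ₀ hχ₀
  have hd := diff_mem hS hdeg hχ₀ hχc
  have hne := (hS.conj_ne χ₀ hχ₀)
  have e3 : classInner χ₀ (conjFun χ₀) = 0 := hS.orthogonal χ₀ hχ₀ _ hχc hne.symm
  have e3' : classInner (conjFun χ₀) χ₀ = 0 := hS.orthogonal _ hχc χ₀ hχ₀ hne
  have hcard : (R χ₀).card = 2 * n := by
    have h1 := hS.isometry.2.2.1 _ hd _ hd
    rw [hS.sum_eq χ₀ hχ₀, classInner_sum_self hon, classInner_sub_left', classInner_sub_right',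
      classInner_sub_right', hn, hn', e3, e3'] at h1
    have : (((R χ₀).card : ℕ) : ℂ) = ((2 * n : ℕ) : ℂ) := by
      rw [h1]
      push_cast
      ring
    exact_mod_cast this
  obtain ⟨P, hPs, hPc⟩ := Finset.exists_subset_card_eq (s := R χ₀) (n := n) (by omega)
  let Q := R χ₀ \ P
  have hQc : Q.card = n := by
    rw [Finset.card_sdiff_of_subset hPs, hcard, hPc]
    omega
  have hQs : Q ⊆ R χ₀ := Finset.sdiff_subset
  have hPon : ∀ a ∈ P, ∀ b ∈ P, classInner a b = if a = b then 1 else 0 := fun a ha b hb =>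
    hon a (hPs ha) b (hPs hb)
  have hQon : ∀ a ∈ Q, ∀ b ∈ Q, classInner a b = if a = b then 1 else 0 := fun a ha b hb =>
    hon a (hQs ha) b (hQs hb)
  have hdisj : Disjoint P Q := Finset.disjoint_sdiff
  have hsum : ∑ r ∈ R χ₀, r = ∑ r ∈ P, r + ∑ r ∈ Q, r := by
    rw [← Finset.sum_union hdisj, Finset.union_sdiff_of_subset hPs]
  have hPQ : classInner (∑ r ∈ P, r) (∑ r ∈ Q, r) = 0 := by
    rw [classInner_sum_left]
    refine Finset.sum_eq_zero fun a ha => ?_
    rw [classInner_sum_right]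
    refine Finset.sum_eq_zero fun b hb => ?_
    rw [hon a (hPs ha) b (hQs hb), if_neg]
    rintro rfl
    exact (Finset.disjoint_left.mp hdisj ha) hb
  have hQP : classInner (∑ r ∈ Q, r) (∑ r ∈ P, r) = 0 := by
    rw [← classInner_comm_conj, hPQ, map_zero]
  let μ : (L → ℂ) → (G → ℂ) := fun χ => if χ = χ₀ then ∑ r ∈ P, r else - ∑ r ∈ Q, r
  have hμ1 : μ χ₀ = ∑ r ∈ P, r := if_pos rfl
  have hμ2 : μ (conjFun χ₀) = - ∑ r ∈ Q, r := if_neg hne
  have hneg : ∀ f g : G → ℂ, classInner (-f) g = - classInner f g := by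
    intro f g
    have := classInner_zsmul_left (-1) f g
    rw [neg_smul, one_smul] at this
    rw [this]
    simp
  have hneg' : ∀ f g : G → ℂ, classInner f (-g) = - classInner f g := by
    intro f g
    have := classInner_zsmul_right (-1) f g
    rw [neg_smul, one_smul] at this
    rw [this]
    simp
  refine coherent_of_uniform hS hdeg μ ?_ ?_ ?_
  · intro χ hχ
    rcases hall χ hχ with h | h
    · rw [h, hμ1]
      exact gen_sum P _ fun r hr => hS.virtual χ₀ hχ₀ r (hPs hr)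
    · rw [h, hμ2, ← Finset.sum_neg_distrib]
      refine gen_sum Q _ fun r hr => ?_
      have := gen_zsmul (hS.virtual χ₀ hχ₀ r (hQs hr)) (-1)
      rwa [neg_smul, one_smul] at this
  · intro χ hχ φ hφ
    rcases hall χ hχ with h | h <;> rcases hall φ hφ with h' | h'
    · rw [h, h', hμ1, hn, classInner_sum_self hPon, hPc]
    · rw [h, h', hμ1, hμ2, hneg', hPQ, e3, neg_zero]
    · rw [h, h', hμ1, hμ2, hneg, hQP, e3', neg_zero]
    · rw [h, h', hμ2, hneg, hneg', hn', classInner_sum_self hQon, hQc, neg_neg]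
  · intro χ hχ φ hφ
    have h0' : (0 : L → ℂ) ∈ zspanOn S {1}ᶜ := ⟨zspan_zero_mem, fun _ _ => rfl⟩
    rcases hall χ hχ with h | h <;> rcases hall φ hφ with h' | h'
    · rw [h, h', sub_self, sub_self, iso_zero hS.isometry h0']
    · rw [h, h', hμ1, hμ2, hS.sum_eq χ₀ hχ₀, hsum, sub_neg_eq_add]
    · rw [h, h', tau_swap hS hdeg hχ₀ hχc, hS.sum_eq χ₀ hχ₀, hsum, hμ1, hμ2, neg_add]
      abel
    · rw [h, h', sub_self, sub_self, iso_zero hS.isometry h0']

theorem result {L : Type*} [Group L] [Fintype L] {G : Type*} [Group G] [Fintype G] (S : Set (L → ℂ)) (τ : (L → ℂ) → (G → ℂ)) (R : (L → ℂ) → Finset (G → ℂ)) (hS : Cfsg.IsCoherenceSystem S τ R) (hdeg : ∀ φ ∈ S, ∀ ψ ∈ S, φ 1 = ψ 1) : Cfsg.IsCoherent S {1}ᶜ τ := by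
  by_cases hb : ∀ χ ∈ S, ∃ φ ∈ S, φ ≠ χ ∧ φ ≠ conjFun χ
  · exact coherent_branchA hS hdeg hb
  · push Not at hb
    obtain ⟨χ₀, hχ₀, h⟩ := hb
    refine coherent_branchB hS hdeg hχ₀ fun φ hφ => ?_
    by_cases h1 : φ = χ₀
    · exact Or.inl h1
    · exact Or.inr (h φ hφ h1)

end Cfsg.Agent.S1517
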