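import Cfsg.Statements.S1519
import Cfsg.Agent.Lib.H06.CoherInd

set_option autoImplicit false
open Cfsg

namespace Cfsg.Agent.S1519

open Cfsg.Agent.H06 Cfsg.Agent.H21

/-- Let K be a solvable normal subgroup of the finite group L and (S, τ, R) a coherence system from L to G where S is the set of functions induced from non-principal irreducible characters of K; write S(A) for those induced from characters whose kernel contains A. Let A, B, C, D be normal subgroups of L with A < K, B < K, B ≤ D ≤ C ≤ K and every commutator of D with C in B. If S(A) is coherent and 4 * [L:C]^2 * [C:D] < ([K:A] − 1)^2, then S(B) is coherent. -/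
theorem result {L : Type*} [Group L] [Fintype L] {G : Type*} [Group G] [Fintype G] (K : Subgroup L) [hK : K.Normal] (hsolv : Group.IsSolvable K) (τ : (L → ℂ) → (G → ℂ)) (R : (L → ℂ) → Finset (G → ℂ)) (hS : Cfsg.IsCoherenceSystem (Cfsg.inducedIrrAbove K ⊥) τ R) (A B C D : Subgroup L) [A.Normal] [B.Normal] [C.Normal] [D.Normal] (hAK : A < K) (hBK : B < K) (hBD : B ≤ D) (hDC : D ≤ C) (hCK : C ≤ K) (hcent : ∀ x ∈ D, ∀ y ∈ C, x * y * x⁻¹ * y⁻¹ ∈ B) (hA : Cfsg.IsCoherent (Cfsg.inducedIrrAbove K A) {1}ᶜ τ) (hlt : 4 * C.index ^ 2 * D.relIndex C < (A.relIndex K - 1) ^ 2) : Cfsg.IsCoherent (Cfsg.inducedIrrAbove K B) {1}ᶜ τ := by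
  classical
  haveI : Fintype K := Fintype.ofFinite _
  have hSc : ∀ φ ∈ inducedIrrAbove K ⊥, φ 1 = (charDegree φ : ℂ) := fun φ hφ =>
    one_eq_charDegree (hS.isCharacter φ hφ)
  let n : (L → ℂ) → ℕ := fun φ =>
    if h : ∃ k : ℕ, 0 < k ∧ classInner φ φ = k then h.choose else 0
  have hn : ∀ φ ∈ inducedIrrAbove K ⊥, classInner φ φ = (n φ : ℂ) ∧ n φ ≠ 0 := by
    intro φ hφ
    have h := system_exists_norm hS hφ
    simp only [n, dif_pos h]
    exact ⟨h.choose_spec.2, h.choose_spec.1.ne'⟩
  let SA : Finset (L → ℂ) := (inducedIrrAbove_finite K A).toFinset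
  let SB : Finset (L → ℂ) := (inducedIrrAbove_finite K B).toFinset
  have hSA : (SA : Set (L → ℂ)) = inducedIrrAbove K A := Set.Finite.coe_toFinset _
  have hSB : (SB : Set (L → ℂ)) = inducedIrrAbove K B := Set.Finite.coe_toFinset _
  have hmemA : ∀ {φ}, φ ∈ SA ↔ φ ∈ inducedIrrAbove K A := by
    intro φ; rw [← Finset.mem_coe, hSA]
  have hmemB : ∀ {φ}, φ ∈ SB ↔ φ ∈ inducedIrrAbove K B := by
    intro φ; rw [← Finset.mem_coe, hSB]
  -- the sum over `S(A)`
  have hsum := sum_deg_sq_induced K A hAK.le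
    (fun χ hχ φ hφ hne => hS.orthogonal χ (inducedIrrAbove_subset K A hχ) φ
      (inducedIrrAbove_subset K A hφ) hne)
    charDegree n (fun φ hφ => hSc φ (inducedIrrAbove_subset K A hφ))
    (fun φ hφ => hn φ (inducedIrrAbove_subset K A hφ)) SA hSA
  -- a linear character
  have hA' : A.subgroupOf K ≠ ⊤ := by
    intro h
    apply hAK.not_ge
    intro x hx
    have : (⟨x, hx⟩ : K) ∈ A.subgroupOf K := by rw [h]; exact Subgroup.mem_top _
    exact Subgroup.mem_subgroupOf.mp this
  haveI : Group.IsSolvable K := hsolv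
  obtain ⟨ω, hω1, hω2⟩ := exists_linear_trivial (A.subgroupOf K) hA'
  have hθ₁ : IsIrrCharacter K (fun k => (ω k : ℂ)) := Cfsg.Agent.H23.isIrrCharacter_hom ω
  have hθ₁S : indFun K (fun k => (ω k : ℂ)) ∈ inducedIrrAbove K A := by
    refine ⟨_, hθ₁, ?_, ?_, rfl⟩
    · intro h
      apply hω2
      ext k
      have := congrFun h k
      simpa using this
    · intro a ha
      have h1 := hω1 a (Subgroup.mem_subgroupOf.mpr ha)
      simp [h1]
  have hdeg₁ : charDegree (indFun K (fun k => (ω k : ℂ))) = K.index := by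
    rw [charDegree_indFun K (isCharacter_of_irr hθ₁)]
    have h1 := one_eq_charDegree (isCharacter_of_irr hθ₁)
    have h2 : ((charDegree (fun k => (ω k : ℂ)) : ℕ) : ℂ) = 1 := by
      rw [← h1]; simp
    have h3 : charDegree (fun k : K => (ω k : ℂ)) = 1 := by exact_mod_cast h2
    rw [h3, mul_one]
  -- the inequality
  have hindex : 0 < K.index := Nat.pos_of_ne_zero Subgroup.index_ne_zero_of_finite
  have hrel : 1 ≤ A.relIndex K :=
    Nat.pos_of_ne_zero (show (A.subgroupOf K).index ≠ 0 from Subgroup.index_ne_zero_of_finite)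
  have hdegB : ∀ φ ∈ inducedIrrAbove K B, K.index ∣ charDegree φ ∧
      2 * charDegree φ < A.relIndex K - 1 := by
    rintro φ ⟨θ, h1, -, h3, rfl⟩
    rw [charDegree_indFun K (isCharacter_of_irr h1)]
    refine ⟨Dvd.intro _ rfl, ?_⟩
    have hb := irr_deg_sq_le θ h1 (B.subgroupOf K) (C.subgroupOf K) (D.subgroupOf K)
      (fun x hx => Subgroup.mem_subgroupOf.mpr (hDC (Subgroup.mem_subgroupOf.mp hx))) (fun b hb => h3 b (Subgroup.mem_subgroupOf.mp hb)) (by
        intro x hx y hy
        rw [Subgroup.mem_subgroupOf]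
        simpa using hcent x (Subgroup.mem_subgroupOf.mp hx) y (Subgroup.mem_subgroupOf.mp hy))
    rw [Subgroup.relIndex_subgroupOf hCK] at hb
    have hCi : C.index = (C.subgroupOf K).index * K.index := by
      have := Subgroup.relIndex_mul_index hCK
      rw [← this]
      rfl
    rw [hCi] at hlt
    have h5 : (2 * (K.index * charDegree θ)) ^ 2 < (A.relIndex K - 1) ^ 2 := by
      calc (2 * (K.index * charDegree θ)) ^ 2 = 4 * K.index ^ 2 * charDegree θ ^ 2 := by ring
        _ ≤ 4 * K.index ^ 2 * ((C.subgroupOf K).index ^ 2 * D.relIndex C) :=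
          Nat.mul_le_mul_left _ hb
        _ = 4 * ((C.subgroupOf K).index * K.index) ^ 2 * D.relIndex C := by ring
        _ < _ := hlt
    exact lt_of_pow_lt_pow_left₀ 2 (Nat.zero_le _) h5
  -- extend
  have hext := coh_extend hS charDegree n hSc (fun φ hφ => (hn φ hφ).1) SA SB
    (by rw [hSA]; exact inducedIrrAbove_subset K A)
    (fun φ hφ => hmemA.mpr (inducedIrrAbove_conj K A (hmemA.mp hφ)))
    (by rw [hSA]; exact hA)
    (by rw [hSB]; exact inducedIrrAbove_subset K B)
    (fun φ hφ => hmemB.mpr (inducedIrrAbove_conj K B (hmemB.mp hφ)))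
    (indFun K (fun k => (ω k : ℂ))) (hmemA.mpr hθ₁S)
    (by
      intro χ hχ
      rw [hdeg₁]
      exact (hdegB χ (hmemB.mp hχ)).1)
    (by
      intro χ hχ
      rw [hsum, hdeg₁]
      have h1 := (hdegB χ (hmemB.mp hχ)).2
      have h2 : ((A.relIndex K : ℕ) : ℝ) - 1 = ((A.relIndex K - 1 : ℕ) : ℝ) := by
        rw [Nat.cast_sub hrel]; simp
      rw [h2]
      have h3 : 2 * charDegree χ * K.index < K.index * (A.relIndex K - 1) := by
        rw [mul_comm K.index]
        exact Nat.mul_lt_mul_of_pos_right h1 hindex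
      exact_mod_cast h3)
  rw [hSB] at hext
  apply coh_restrict hext Set.subset_union_right
  -- a nonzero combination
  obtain ⟨ω', hω'1, hω'2⟩ := exists_linear_trivial (B.subgroupOf K) (by
    intro h
    apply hBK.not_ge
    intro x hx
    have : (⟨x, hx⟩ : K) ∈ B.subgroupOf K := by rw [h]; exact Subgroup.mem_top _
    exact Subgroup.mem_subgroupOf.mp this)
  have hφB : indFun K (fun k => (ω' k : ℂ)) ∈ inducedIrrAbove K B := by
    refine ⟨_, Cfsg.Agent.H23.isIrrCharacter_hom ω', ?_, ?_, rfl⟩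
    · intro h
      apply hω'2
      ext k
      have := congrFun h k
      simpa using this
    · intro a ha
      have h1 := hω'1 a (Subgroup.mem_subgroupOf.mpr ha)
      simp [h1]
  refine ⟨_, system_sub_conj_mem hS (inducedIrrAbove_subset K B)
    (fun φ hφ => inducedIrrAbove_conj K B hφ) hφB, ?_⟩
  intro h
  exact hS.conj_ne _ (inducedIrrAbove_subset K B hφB) (sub_eq_zero.mp h).symm

end Cfsg.Agent.S1519
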