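import Cfsg.Statements.S1520
import Cfsg.Agent.S1519

set_option autoImplicit false
open Cfsg

namespace Cfsg.Agent.S1520

open Cfsg.Agent.H06 Cfsg.Agent.H21
open scoped commutatorElement

/-- Let K be a solvable normal subgroup of the finite group L and (S, τ, R) a coherence system from L to G with S the functions induced from non-principal irreducible characters of K; S(A) the members of S induced from characters whose kernel contains A. Let M ≤ H₁ ≤ H ≤ K be normal subgroups of L such that every term of the lower central series of H eventually lies in M (H/M nilpotent), S(H₁) is coherent and [H:H₁] > 4 * [L:K]^2 + 1. Then S(M) is coherent. -/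
theorem result {L : Type*} [Group L] [Fintype L] {G : Type*} [Group G] [Fintype G] (K : Subgroup L) [hK : K.Normal] (hsolv : Group.IsSolvable K) (τ : (L → ℂ) → (G → ℂ)) (R : (L → ℂ) → Finset (G → ℂ)) (hS : Cfsg.IsCoherenceSystem (Cfsg.inducedIrrAbove K ⊥) τ R) (M H₁ H : Subgroup L) [M.Normal] [H₁.Normal] [H.Normal] (hMH₁ : M ≤ H₁) (hH₁H : H₁ ≤ H) (hHK : H ≤ K) [(M.subgroupOf H).Normal] (hnil : Group.IsNilpotent (↥H ⧸ M.subgroupOf H)) (hcoh : Cfsg.IsCoherent (Cfsg.inducedIrrAbove K H₁) {1}ᶜ τ) (hbig : 4 * K.index ^ 2 + 1 < H₁.relIndex H) : Cfsg.IsCoherent (Cfsg.inducedIrrAbove K M) {1}ᶜ τ := by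
  classical
  -- the chain
  obtain ⟨B, hB0, hBs⟩ : ∃ B : ℕ → Subgroup L, B 0 = H₁ ∧ ∀ n, B (n + 1) = ⁅B n, H⁆ ⊔ M :=
    ⟨fun n => Nat.rec H₁ (fun _ X => ⁅X, H⁆ ⊔ M) n, rfl, fun _ => rfl⟩
  have hBn : ∀ n, (B n).Normal := by
    intro n
    induction n with
    | zero => rw [hB0]; infer_instance
    | succ n ih =>
      rw [hBs]
      haveI := ih
      haveI : (⁅B n, H⁆).Normal := Subgroup.commutator_normal (B n) H
      exact Subgroup.sup_normal _ _
  -- the chain descends
  have hBle : ∀ n, B n ≤ H₁ := by
    intro n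
    induction n with
    | zero => rw [hB0]
    | succ n ih =>
      rw [hBs]
      haveI := hBn n
      exact sup_le ((Subgroup.commutator_le_left (B n) H).trans ih) hMH₁
  have hMB : ∀ n, M ≤ B n := by
    intro n
    cases n with
    | zero => rw [hB0]; exact hMH₁
    | succ n => rw [hBs]; exact le_sup_right
  have hBH : ∀ n, B n ≤ H := fun n => (hBle n).trans hH₁H
  have hlcs : ∀ n, ∀ x, ∀ hx : x ∈ B n, (QuotientGroup.mk' (M.subgroupOf H)) ⟨x, hBH n hx⟩ ∈
      (⊤ : Subgroup (↥H ⧸ M.subgroupOf H)).lowerCentralSeries n := by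
    intro n
    induction n with
    | zero =>
      intro x hx
      exact Subgroup.mem_top _
    | succ n ih =>
      let T : Subgroup L := ((((⊤ : Subgroup (↥H ⧸ M.subgroupOf H)).lowerCentralSeries (n + 1)).comap
        (QuotientGroup.mk' (M.subgroupOf H)))).map H.subtype
      have hle : B (n + 1) ≤ T := by
        rw [hBs]
        refine sup_le ?_ ?_
        · rw [Subgroup.commutator_le]
          intro b hb h hh
          refine ⟨⁅(⟨b, hBH n hb⟩ : H), (⟨h, hh⟩ : H)⁆, ?_, rfl⟩
          change _ ∈ Subgroup.comap _ _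
          rw [Subgroup.mem_comap, map_commutatorElement]
          exact Subgroup.commutator_mem_commutator (ih b hb) (Subgroup.mem_top _)
        · intro x hx
          refine ⟨⟨x, hMH₁.trans hH₁H hx⟩, ?_, rfl⟩
          change _ ∈ Subgroup.comap _ _
          rw [Subgroup.mem_comap]
          have : (QuotientGroup.mk' (M.subgroupOf H)) ⟨x, hMH₁.trans hH₁H hx⟩ = 1 :=
            (QuotientGroup.eq_one_iff _).mpr (Subgroup.mem_subgroupOf.mpr hx)
          rw [this]
          exact Subgroup.one_mem _
      intro x hx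
      obtain ⟨y, hy, rfl⟩ := hle hx
      exact hy
  obtain ⟨n₀, hn₀⟩ := Subgroup.nilpotent_iff_lowerCentralSeries.mp hnil
  have hBM : B n₀ = M := by
    refine le_antisymm ?_ (hMB n₀)
    intro x hx
    have h1 := hlcs n₀ x hx
    rw [hn₀, Subgroup.mem_bot] at h1
    exact Subgroup.mem_subgroupOf.mp ((QuotientGroup.eq_one_iff _).mp h1)
  -- arithmetic
  have hindex : 0 < K.index := Nat.pos_of_ne_zero Subgroup.index_ne_zero_of_finite
  have hBcoh : ∀ n, IsCoherent (inducedIrrAbove K (B n)) {1}ᶜ τ := by
    intro n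
    induction n with
    | zero => rw [hB0]; exact hcoh
    | succ n ih =>
      haveI := hBn n
      haveI := hBn (n + 1)
      have hkpos : 0 < H.relIndex K :=
        Nat.pos_of_ne_zero (show (H.subgroupOf K).index ≠ 0 from Subgroup.index_ne_zero_of_finite)
      have hhpos : 0 < (B n).relIndex H :=
        Nat.pos_of_ne_zero (show ((B n).subgroupOf H).index ≠ 0 from Subgroup.index_ne_zero_of_finite)
      have h1pos : 0 < H₁.relIndex H :=
        Nat.pos_of_ne_zero (show (H₁.subgroupOf H).index ≠ 0 from Subgroup.index_ne_zero_of_finite)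
      have hdvd : H₁.relIndex H ∣ (B n).relIndex H := Subgroup.relIndex_dvd_of_le_left H (hBle n)
      have hhge : 4 * K.index ^ 2 + 1 < (B n).relIndex H :=
        lt_of_lt_of_le hbig (Nat.le_of_dvd hhpos hdvd)
      have hrK : (B n).relIndex K = (B n).relIndex H * H.relIndex K :=
        (Subgroup.relIndex_mul_relIndex _ _ _ (hBH n) hHK).symm
      have hHi : H.index = H.relIndex K * K.index := (Subgroup.relIndex_mul_index hHK).symm
      have hBlt : ∀ m, B m < K := by
        intro m
        refine lt_of_le_of_ne ((hBH m).trans hHK) ?_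
        intro h
        have hrel : (B m).relIndex K = 1 := by rw [h]; exact Subgroup.relIndex_self K
        have h2 : (B m).relIndex K = (B m).relIndex H * H.relIndex K :=
          (Subgroup.relIndex_mul_relIndex _ _ _ (hBH m) hHK).symm
        have h3 : H₁.relIndex H ∣ (B m).relIndex H := Subgroup.relIndex_dvd_of_le_left H (hBle m)
        rw [h2] at hrel
        have h4 : (B m).relIndex H = 1 := Nat.eq_one_of_mul_eq_one_right hrel
        rw [h4] at h3
        have h5 : H₁.relIndex H = 1 := Nat.dvd_one.mp h3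
        omega
      refine Cfsg.Agent.S1519.result K hsolv τ R hS (B n) (B (n + 1)) H (B n) (hBlt n) (hBlt (n + 1))
        (by rw [hBs]; haveI := hBn n; exact sup_le (Subgroup.commutator_le_left (B n) H) (hMB n)) (hBH n) hHK ?_ ih ?_
      · intro x hx y hy
        rw [hBs]
        exact Subgroup.mem_sup_left (Subgroup.commutator_mem_commutator hx hy)
      · rw [hHi, hrK]
        generalize K.index = e at *
        generalize (B n).relIndex H = h at *
        generalize H.relIndex K = k at *
        obtain ⟨m, hm⟩ : ∃ m, h * k = m + 1 := ⟨h * k - 1, by have := Nat.mul_pos hhpos hkpos; omega⟩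
        rw [hm, Nat.add_sub_cancel]
        have key : (4 * (k * e) ^ 2 * h : ℤ) < (m : ℤ) ^ 2 := by
          have hmz : (m : ℤ) = h * k - 1 := by
            have : (h * k : ℤ) = m + 1 := by exact_mod_cast hm
            omega
          rw [hmz]
          have hk1 : (1 : ℤ) ≤ k := by exact_mod_cast hkpos
          have hs : (2 : ℤ) ≤ (h : ℤ) - 4 * e ^ 2 := by
            have : (4 * e ^ 2 + 1 : ℤ) < h := by exact_mod_cast hhge
            omega
          have hks : (2 : ℤ) ≤ k * ((h : ℤ) - 4 * e ^ 2) := by nlinarith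
          have hh0 : (0 : ℤ) ≤ h := by positivity
          have hk0 : (0 : ℤ) ≤ k := by positivity
          have h2 : (0 : ℤ) ≤ h * k * (k * ((h : ℤ) - 4 * e ^ 2) - 2) :=
            mul_nonneg (mul_nonneg hh0 hk0) (by linarith)
          nlinarith [h2]
        exact_mod_cast key
  rw [← hBM]
  exact hBcoh n₀

end Cfsg.Agent.S1520
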