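import Cfsg.Statements.S1521
import Cfsg.Agent.S1520
import Cfsg.Agent.S1517
import Cfsg.Agent.Lib.H06.CoherFrob

set_option autoImplicit false
open Cfsg

namespace Cfsg.Agent.S1521

open Cfsg.Agent.H06 Cfsg.Agent.H21
open scoped commutatorElement

/-- Let K be a solvable normal subgroup of the finite group L of odd order and (S, τ, R) a coherence system from L to G with S the functions induced from non-principal irreducible characters of K; S(A) as before. Let M ≤ K be normal in L with K/M nilpotent, H₁ = [K, K] ⊔ M, H₁ < K < L, and suppose every element of K outside H₁ is centralised modulo H₁ only from inside K (L/H₁ is a Frobenius group with kernel K/H₁). Suppose one of the following: some normal subgroup of L lies strictly between H₁ and K; or [K:H₁] > 4[L:K]^2 + 1; or [K:M] is not a prime power; or [K,K] ≤ M; or [K:M] is a power of a prime p with [L:K] dividing p − 1. Then S(M) is coherent. -/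
theorem result {L : Type*} [Group L] [Fintype L] {G : Type*} [Group G] [Fintype G] (K : Subgroup L) [hK : K.Normal] (hsolv : Group.IsSolvable K) (τ : (L → ℂ) → (G → ℂ)) (R : (L → ℂ) → Finset (G → ℂ)) (hS : Cfsg.IsCoherenceSystem (Cfsg.inducedIrrAbove K ⊥) τ R) (hodd : Odd (Nat.card L)) (M : Subgroup L) [M.Normal] (hMK : M ≤ K) [(M.subgroupOf K).Normal] (hnil : Group.IsNilpotent (↥K ⧸ M.subgroupOf K)) (H₁ : Subgroup L) (hH₁ : H₁ = ⁅K, K⁆ ⊔ M) (hH₁K : H₁ < K) (hKL : K < ⊤) (hfrob : ∀ k ∈ K, k ∉ H₁ → ∀ x : L, x * k * x⁻¹ * k⁻¹ ∈ H₁ → x ∈ K) (hgood : (∃ N : Subgroup L, N.Normal ∧ H₁ < N ∧ N < K) ∨ 4 * K.index ^ 2 + 1 < H₁.relIndex K ∨ (¬ ∃ p m : ℕ, p.Prime ∧ M.relIndex K = p ^ m) ∨ ⁅K, K⁆ ≤ M ∨ (∃ p m : ℕ, p.Prime ∧ M.relIndex K = p ^ m ∧ K.index ∣ p - 1)) : Cfsg.IsCoherent (Cfsg.inducedIrrAbove K M) {1}ᶜ τ := by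
  classical
  have hMH₁ : M ≤ H₁ := by rw [hH₁]; exact le_sup_right
  have hcK : ⁅K, K⁆ ≤ H₁ := by rw [hH₁]; exact le_sup_left
  haveI hH₁n : H₁.Normal := by
    rw [hH₁]
    haveI : (⁅K, K⁆).Normal := Subgroup.commutator_normal K K
    exact Subgroup.sup_normal _ _
  have hcomm : ∀ x ∈ K, ∀ y ∈ K, x * y * x⁻¹ * y⁻¹ ∈ H₁ := fun x hx y hy =>
    hcK (Subgroup.commutator_mem_commutator hx hy)
  haveI : Group.IsSolvable K := hsolv
  -- the first coherent set
  have hA : IsCoherent (inducedIrrAbove K H₁) {1}ᶜ τ := by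
    have hne : (inducedIrrAbove K H₁).Nonempty := by
      obtain ⟨ω, hω1, hω2⟩ := exists_linear_trivial (H₁.subgroupOf K) (by
        intro h
        apply hH₁K.not_ge
        intro x hx
        have : (⟨x, hx⟩ : K) ∈ H₁.subgroupOf K := by rw [h]; exact Subgroup.mem_top _
        exact Subgroup.mem_subgroupOf.mp this)
      refine ⟨_, _, Cfsg.Agent.H23.isIrrCharacter_hom ω, ?_, ?_, rfl⟩
      · intro h
        apply hω2
        ext k
        have := congrFun h k
        simpa using this
      · intro a ha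
        have h1 := hω1 a (Subgroup.mem_subgroupOf.mpr ha)
        simp [h1]
    have hsys := system_restrict hS hne (inducedIrrAbove_subset K H₁)
      (fun χ hχ => inducedIrrAbove_conj K H₁ hχ)
    apply Cfsg.Agent.S1517.result _ τ R hsys
    have hdeg : ∀ φ ∈ inducedIrrAbove K H₁, φ 1 = (K.index : ℂ) := by
      rintro φ ⟨θ, h1, -, h3, rfl⟩
      rw [Cfsg.Agent.H21.indFun_one, one_eq_charDegree (isCharacter_of_irr h1)]
      have h4 := irr_deg_sq_le_of_central h1 ⊤ (by
        intro d _ g
        apply h3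
        exact hcomm d d.2 g g.2)
      rw [Subgroup.card_top] at h4
      have h5 : charDegree θ ^ 2 ≤ 1 := by
        have hpos : 0 < Nat.card K := Nat.card_pos
        have : charDegree θ ^ 2 * Nat.card K ≤ 1 * Nat.card K := by rw [one_mul]; exact h4
        exact Nat.le_of_mul_le_mul_right this hpos
      have h6 : charDegree θ ≠ 0 := by
        intro h0
        apply irr_one_ne_zero' h1
        rw [one_eq_charDegree (isCharacter_of_irr h1), h0]
        simp
      have h7 : charDegree θ = 1 := by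
        have : charDegree θ ≤ 1 := by
          by_contra hc
          push Not at hc
          have : 2 ^ 2 ≤ charDegree θ ^ 2 := Nat.pow_le_pow_left hc 2
          omega
        omega
      rw [h7]
      simp
    intro φ hφ ψ hψ
    rw [hdeg φ hφ, hdeg ψ hψ]
  -- the case of a large index
  have hcase2 : 4 * K.index ^ 2 + 1 < H₁.relIndex K → IsCoherent (inducedIrrAbove K M) {1}ᶜ τ :=
    fun h => Cfsg.Agent.S1520.result K hsolv τ R hS M H₁ K hMH₁ hH₁K.le le_rfl hnil hA h
  have hcase4 : ⁅K, K⁆ ≤ M → IsCoherent (inducedIrrAbove K M) {1}ᶜ τ := by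
    intro h
    have : H₁ = M := by rw [hH₁]; exact sup_eq_right.mpr h
    rw [← this]
    exact hA
  -- numerics
  have heodd : Odd K.index := Odd.of_dvd_nat hodd (Subgroup.index_dvd_card K)
  have hrelodd : ∀ X Y : Subgroup L, Odd (X.relIndex Y) := fun X Y =>
    Odd.of_dvd_nat hodd ((Subgroup.relIndex_dvd_card X Y).trans (Subgroup.card_subgroup_dvd_card Y))
  have hrelpos : ∀ X Y : Subgroup L, 0 < X.relIndex Y := fun X Y =>
    Nat.pos_of_ne_zero (show (X.subgroupOf Y).index ≠ 0 from Subgroup.index_ne_zero_of_finite)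
  have hrel1 : ∀ X Y : Subgroup L, X < Y → 1 < X.relIndex Y := by
    intro X Y h
    have h1 := hrelpos X Y
    by_contra hc
    have h2 : X.relIndex Y = 1 := by omega
    exact h.not_ge (Subgroup.relIndex_eq_one.mp h2)
  have hfK := frob_index_dvd K H₁ K hH₁K.le le_rfl hcomm hfrob
  -- an intermediate normal subgroup
  have hcase1 : (∃ N : Subgroup L, N.Normal ∧ H₁ < N ∧ N < K) →
      IsCoherent (inducedIrrAbove K M) {1}ᶜ τ := by
    rintro ⟨N, hNn, hN1, hN2⟩
    apply hcase2
    haveI := hNn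
    have hu := frob_index_dvd K H₁ N hN1.le hN2.le hcomm hfrob
    have hmul : H₁.relIndex N * N.relIndex K = H₁.relIndex K :=
      Subgroup.relIndex_mul_relIndex _ _ _ hN1.le hN2.le
    have hu1 := hrel1 _ _ hN1
    have hv1 := hrel1 _ _ hN2
    have hv : K.index ∣ N.relIndex K - 1 := by
      rw [← hmul] at hfK
      generalize H₁.relIndex N = u at *
      generalize N.relIndex K = v at *
      have h1 : u * v - 1 = (u - 1) * v + (v - 1) := by
        obtain ⟨a, rfl⟩ : ∃ a, u = a + 1 := ⟨u - 1, by omega⟩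
        obtain ⟨b, rfl⟩ : ∃ b, v = b + 1 := ⟨v - 1, by omega⟩
        simp only [Nat.add_sub_cancel]
        have : (a + 1) * (b + 1) = a * (b + 1) + b + 1 := by ring
        omega
      rw [h1] at hfK
      exact (Nat.dvd_add_right (hu.mul_right _)).mp hfK
    have hU := two_mul_add_one_le heodd (hrelodd H₁ N) hu1 hu
    have hV := two_mul_add_one_le heodd (hrelodd N K) hv1 hv
    rw [← hmul]
    have hepos : 0 < K.index := Nat.pos_of_ne_zero Subgroup.index_ne_zero_of_finite
    calc 4 * K.index ^ 2 + 1 < (2 * K.index + 1) * (2 * K.index + 1) := by nlinarith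
      _ ≤ _ := Nat.mul_le_mul hU hV
  -- the abelianization of `K/M`
  have hidx : (commutator (↥K ⧸ M.subgroupOf K)).index = H₁.relIndex K := by
    have hsurj : Function.Surjective (QuotientGroup.mk' (M.subgroupOf K)) :=
      QuotientGroup.mk'_surjective _
    have h1 : commutator (↥K ⧸ M.subgroupOf K)
        = (commutator K).map (QuotientGroup.mk' (M.subgroupOf K)) := by
      rw [commutator_def, commutator_def, Subgroup.map_commutator,
        ← MonoidHom.range_eq_map, MonoidHom.range_eq_top.mpr hsurj]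
    have h2 : H₁.subgroupOf K = commutator K ⊔ M.subgroupOf K := by
      apply Subgroup.map_injective K.subtype_injective
      rw [Subgroup.map_sup, Subgroup.map_subtype_commutator,
        Subgroup.map_subgroupOf_eq_of_le hH₁K.le, Subgroup.map_subgroupOf_eq_of_le hMK, hH₁]
    rw [h1, Subgroup.index_map, QuotientGroup.ker_mk', MonoidHom.range_eq_top.mpr hsurj,
      Subgroup.index_top, mul_one, ← h2]
    rfl
  have hcardT : Nat.card (↥K ⧸ M.subgroupOf K) = M.relIndex K := rfl
  have hbotT : commutator (↥K ⧸ M.subgroupOf K) = ⊥ → ⁅K, K⁆ ≤ M := by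
    intro h
    rw [Subgroup.commutator_le]
    intro x hx y hy
    have h1 : ((⁅(⟨x, hx⟩ : K), (⟨y, hy⟩ : K)⁆ : K) : ↥K ⧸ M.subgroupOf K) = 1 := by
      have h2 : ⁅((⟨x, hx⟩ : K) : ↥K ⧸ M.subgroupOf K), ((⟨y, hy⟩ : K) : ↥K ⧸ M.subgroupOf K)⁆ ∈
          commutator (↥K ⧸ M.subgroupOf K) :=
        Subgroup.commutator_mem_commutator (Subgroup.mem_top _) (Subgroup.mem_top _)
      rw [h, Subgroup.mem_bot] at h2
      exact h2
    have h3 := (QuotientGroup.eq_one_iff _).mp h1
    exact Subgroup.mem_subgroupOf.mp h3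
  have ha1 : 1 < H₁.relIndex K := hrel1 _ _ hH₁K
  rcases hgood with h | h | h | h | h
  · exact hcase1 h
  · exact hcase2 h
  · -- not a prime power
    obtain ⟨p, hp, hpd⟩ := Nat.exists_prime_and_dvd ha1.ne'
    by_cases hall : ∀ {q : ℕ}, q.Prime → q ∣ H₁.relIndex K → q = p
    · exfalso
      have h1 := Nat.eq_prime_pow_of_unique_prime_dvd (hrelpos H₁ K).ne' hall
      rw [← hidx] at h1
      obtain ⟨b, hb⟩ := nilp_card_prime_pow hnil hp h1
      exact h ⟨p, b, hp, by rw [← hcardT, hb]⟩
    · push Not at hall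
      obtain ⟨q, hq, hqd, hqp⟩ := hall
      exact hcase1 (exists_between_of_two_primes K H₁ hH₁K.le hcomm hp hq hqp.symm hpd hqd)
  · exact hcase4 h
  · -- a prime power
    obtain ⟨p, m, hp, hm, hdvd⟩ := h
    have hd : H₁.relIndex K ∣ p ^ m := by
      rw [← hm]
      exact Subgroup.relIndex_dvd_of_le_left K hMH₁
    obtain ⟨j, -, hj⟩ := (Nat.dvd_prime_pow hp).mp hd
    have hj0 : j ≠ 0 := by
      rintro rfl
      rw [pow_zero] at hj
      omega
    have hpd : p ∣ H₁.relIndex K := by rw [hj]; exact dvd_pow_self p hj0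
    have hpodd : Odd p := Odd.of_dvd_nat (hrelodd H₁ K) hpd
    have hP := two_mul_add_one_le heodd hpodd hp.one_lt hdvd
    by_cases hj1 : j = 1
    · apply hcase4
      apply hbotT
      apply nilp_commutator_eq_bot hnil hp
      rw [hidx, hj, hj1, pow_one]
    · apply hcase2
      have hj2 : 2 ≤ j := by omega
      rw [hj]
      have h1 : p ^ 2 ≤ p ^ j := Nat.pow_le_pow_right hp.pos hj2
      have hepos : 0 < K.index := Nat.pos_of_ne_zero Subgroup.index_ne_zero_of_finite
      have h2 : (2 * K.index + 1) ^ 2 ≤ p ^ 2 := Nat.pow_le_pow_left hP 2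
      nlinarith

end Cfsg.Agent.S1521
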