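import Cfsg.Statements.S0750
import Mathlib
import Cfsg.Agent.Lib.H03.WittSkel

set_option autoImplicit false
open Cfsg

namespace Cfsg.Agent.S0750

open Module QuadraticMap Cfsg.Agent.H03

section
variable {F V : Type*} [Field F] [AddCommGroup V] [Module F V] [FiniteDimensional F V]

lemma Q3 (Q : QuadraticForm F V) (z d e : V) (s t : F) :
    Q (z + s • d + t • e) = Q z + s ^ 2 * Q d + t ^ 2 * Q e + s * polar Q d z + t * polar Q e z + s * t * polar Q d e := by
  rw [QuadraticMap.map_add Q (z + s • d) (t • e), QuadraticMap.map_add Q z (s • d), QuadraticMap.map_smul, QuadraticMap.map_smul,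
    polar_add_left, polar_smul_left, polar_smul_right, polar_smul_right, polar_smul_right, polar_comm Q z d, polar_comm Q z e]
  simp only [smul_eq_mul]
  ring

lemma mk_iso {Q : QuadraticForm F V} (hQ : (polarBilin Q).Nondegenerate) (L : V →ₗ[F] V) (hL : ∀ v, Q (L v) = Q v) :
    ∃ g : V ≃ₗ[F] V, ∀ v, g v = L v := by
  have hpol : ∀ v w, polar Q (L v) (L w) = polar Q v w := by
    intro v w
    simp only [polar, ← map_add, hL]
  have hinj : Function.Injective L := by
    rw [injective_iff_map_eq_zero]
    intro v hv
    apply hQ.1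
    intro w
    change polar Q v w = 0
    rw [← hpol, hv]
    simp
  exact ⟨LinearEquiv.ofInjectiveEndo L hinj, fun v => rfl⟩

lemma exists_e {Q : QuadraticForm F V} (hQ : (polarBilin Q).Nondegenerate) (S : Submodule F V) {x : V} (hx : x ∉ S) :
    ∃ e : V, (∀ s ∈ S, polar Q e s = 0) ∧ polar Q e x = 1 := by
  obtain ⟨l, hl, hlx⟩ := exists_sep S hx
  refine ⟨(LinearMap.BilinForm.toDual (polarBilin Q) hQ).symm l, ?_, ?_⟩
  · intro s hs
    have := LinearMap.BilinForm.apply_toDual_symm_apply (B := polarBilin Q) (hB := hQ) l s
    rw [← hl s hs, ← this]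
    rfl
  · have := LinearMap.BilinForm.apply_toDual_symm_apply (B := polarBilin Q) (hB := hQ) l x
    rw [← hlx, ← this]
    rfl

theorem quad_step {Q : QuadraticForm F V} (hQ : (polarBilin Q).Nondegenerate) (X₀ : Submodule F V) {x y : V}
    (hx : x ∉ X₀) (hy : y ∉ X₀) (hQxy : Q y = Q x) (hp : ∀ u ∈ X₀, polar Q y u = polar Q x u) :
    ∃ g : V ≃ₗ[F] V, (∀ v, Q (g v) = Q v) ∧ (∀ u ∈ X₀, g u = u) ∧ g x = y := by
  classical
  set d := y - x with hd
  have hyd : y = x + d := by rw [hd]; abel
  have hdu : ∀ u ∈ X₀, polar Q d u = 0 := by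
    intro u hu
    rw [hd, polar_sub_left, hp u hu, sub_self]
  have hxd : polar Q d x = - Q d := by
    have h1 : Q (x + d) = Q x + Q d + polar Q x d := QuadraticMap.map_add Q x d
    rw [← hyd, hQxy] at h1
    rw [polar_comm]
    linear_combination -h1
  by_cases hd0 : d = 0
  · refine ⟨LinearEquiv.refl F V, fun _ => rfl, fun _ _ => rfl, ?_⟩
    rw [hyd, hd0, add_zero]
    rfl
  by_cases hQd : Q d = 0
  · -- singular case
    rw [hQd, neg_zero] at hxd
    have hdd : polar Q d d = 0 := by
      rw [polar_self, hQd]; simp
    by_cases hxS : x ∈ X₀ ⊔ Submodule.span F {d}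
    · -- scaling
      obtain ⟨u₀, hu₀, p, hp', hxe⟩ := Submodule.mem_sup.mp hxS
      obtain ⟨c, rfl⟩ := Submodule.mem_span_singleton.mp hp'
      have hc : c ≠ 0 := by
        rintro rfl
        apply hx
        rw [← hxe]
        simpa using hu₀
      have hdX : d ∉ X₀ := by
        intro h
        apply hx
        rw [← hxe]
        exact X₀.add_mem hu₀ (X₀.smul_mem _ h)
      obtain ⟨e₀, he₀, he₀d⟩ := exists_e hQ X₀ hdX
      set e := e₀ - Q e₀ • d with he
      have hQe : Q e = 0 := by
        have := Q3 Q e₀ d d (-(Q e₀)) 0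
        simp only [zero_smul, add_zero, neg_smul] at this
        rw [he, sub_eq_add_neg, this, hQd, hdd, polar_comm, he₀d]
        simp
      have hed : polar Q e d = 1 := by
        rw [he, polar_sub_left, polar_smul_left, hdd, he₀d]
        simp
      have heu : ∀ u ∈ X₀, polar Q e u = 0 := by
        intro u hu
        rw [he, polar_sub_left, polar_smul_left, hdu u hu, he₀ u hu]
        simp
      have hde : polar Q d e = 1 := by rw [polar_comm, hed]
      set a : F := 1 + c⁻¹ with ha
      have ha0 : a ≠ 0 := by
        intro h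
        apply hy
        have hc1 : c = -1 := by
          have : c * a = 0 := by rw [h, mul_zero]
          rw [ha, mul_add, mul_one, mul_inv_cancel₀ hc] at this
          linear_combination this
        rw [hyd, ← hxe, hc1]
        simpa using hu₀
      let L : V →ₗ[F] V := LinearMap.id + ((a - 1) • polarBilin Q e).smulRight d + ((a⁻¹ - 1) • polarBilin Q d).smulRight e
      have hLa : ∀ z, L z = z + ((a - 1) * polar Q e z) • d + ((a⁻¹ - 1) * polar Q d z) • e := fun z => rfl
      obtain ⟨g, hg⟩ := mk_iso hQ L (by
        intro z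
        rw [hLa, Q3, hQd, hQe, hde]
        have : a⁻¹ * a = 1 := inv_mul_cancel₀ ha0
        linear_combination (polar Q e z * polar Q d z) * this)
      refine ⟨g, fun v => by rw [hg, (show L v = L v from rfl)]; rw [hLa, Q3, hQd, hQe, hde]; (have : a⁻¹ * a = 1 := inv_mul_cancel₀ ha0); linear_combination (polar Q e v * polar Q d v) * this, ?_, ?_⟩
      · intro u hu
        rw [hg, hLa, heu u hu, hdu u hu]
        simp
      · have hdfix : L d = a • d := by
          rw [hLa, hed, hdd]
          simp only [mul_one, mul_zero, zero_smul, add_zero]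
          rw [sub_smul, one_smul]
          abel
        have hufix : L u₀ = u₀ := by
          rw [hLa, heu u₀ hu₀, hdu u₀ hu₀]
          simp
        rw [hg, ← hxe, map_add, map_smul, hufix, hdfix, smul_smul, hyd, ← hxe]
        have : c * a = c + 1 := by
          rw [ha, mul_add, mul_one, mul_inv_cancel₀ hc]
        rw [this, add_smul, one_smul, add_assoc]
    · -- Eichler
      obtain ⟨e, he, hex⟩ := exists_e hQ _ hxS
      have hed : polar Q e d = 0 := he d (Submodule.mem_sup_right (Submodule.mem_span_singleton_self d))
      have heu : ∀ u ∈ X₀, polar Q e u = 0 := fun u hu => he u (Submodule.mem_sup_left hu)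
      have hde : polar Q d e = 0 := by rw [polar_comm, hed]
      let L : V →ₗ[F] V := LinearMap.id + (polarBilin Q e - Q e • polarBilin Q d).smulRight d + (-polarBilin Q d).smulRight e
      have hLa : ∀ z, L z = z + (polar Q e z - Q e * polar Q d z) • d + (- polar Q d z) • e := fun z => rfl
      have hLQ : ∀ z, Q (L z) = Q z := by
        intro z
        rw [hLa, Q3, hQd, hde]
        ring
      obtain ⟨g, hg⟩ := mk_iso hQ L hLQ
      refine ⟨g, fun v => by rw [hg, hLQ], ?_, ?_⟩
      · intro u hu
        rw [hg, hLa, heu u hu, hdu u hu]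
        simp
      · rw [hg, hLa, hex, hxd, hyd]
        simp
  · -- reflection
    let L : V →ₗ[F] V := LinearMap.id + ((-(Q d)⁻¹) • polarBilin Q d).smulRight d
    have hLa : ∀ z, L z = z + (-(Q d)⁻¹ * polar Q d z) • d + (0 : F) • d := by
      intro z
      simp only [zero_smul, add_zero]
      rfl
    have hLQ : ∀ z, Q (L z) = Q z := by
      intro z
      rw [hLa, Q3]
      field_simp
      ring
    obtain ⟨g, hg⟩ := mk_iso hQ L hLQ
    refine ⟨g, fun v => by rw [hg, hLQ], ?_, ?_⟩
    · intro u hu
      rw [hg, hLa, hdu u hu]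
      simp
    · rw [hg, hLa, hxd, hyd]
      simp only [zero_smul, add_zero]
      congr 1
      have : -(Q d)⁻¹ * -Q d = 1 := by field_simp
      rw [this, one_smul]

end


/-- Witt's Lemma for quadratic forms over a finite field, in any characteristic: if Q is a quadratic form on a finite-dimensional space V whose polar bilinear form is non-degenerate, then every linear equivalence between subspaces X, Y of V that preserves Q extends to a Q-preserving linear automorphism of V. (In odd characteristic this is the symmetric-bilinear case; in characteristic two it is the statement for non-degenerate quadratic forms.) -/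
theorem result {F V : Type*} [Field F] [Finite F] [AddCommGroup V] [Module F V] [FiniteDimensional F V] (Q : QuadraticForm F V) (hQ : (QuadraticMap.polarBilin Q).Nondegenerate) (X Y : Submodule F V) (φ : X ≃ₗ[F] Y) (hφ : ∀ x : X, Q (φ x : V) = Q (x : V)) : ∃ g : V ≃ₗ[F] V, (∀ v : V, Q (g v) = Q v) ∧ ∀ x : X, g (x : V) = (φ x : V) := by
  classical
  let I : Subgroup (V ≃ₗ[F] V) :=
    { carrier := {g | ∀ v, Q (g v) = Q v}
      mul_mem' := by
        intro a b ha hb v
        change Q (a (b v)) = Q v
        rw [ha, hb]
      one_mem' := fun v => rfl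
      inv_mem' := by
        intro a ha v
        have := ha (a⁻¹ v)
        rw [← this]
        congr 1
        change a (a.symm v) = v
        simp }
  let Compat : ∀ X : Submodule F V, (X →ₗ[F] V) → Prop := fun X f => ∀ x : X, Q (f x) = Q x
  have key := witt_skeleton I Compat
    (by
      intro X X₀ h f hf x
      exact hf _)
    (by
      intro X f g hg hf x
      rw [LinearMap.comp_apply]
      change Q (g (f x)) = Q x
      rw [hg, hf])
    (by
      intro X X₀ h x f hx hinj hf hfix
      have hy : f x ∉ X₀ := by
        intro hy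
        have h1 := hfix ⟨f x, hy⟩
        have h2 := hinj h1
        apply hx
        rw [← h2]
        exact hy
      obtain ⟨g, hg1, hg2, hg3⟩ := quad_step hQ X₀ hx hy (hf x) (by
        intro u huX
        have h1 := hf (x + Submodule.inclusion h ⟨u, huX⟩)
        rw [map_add, hfix ⟨u, huX⟩] at h1
        have h2 : Q ((x + Submodule.inclusion h ⟨u, huX⟩ : X) : V) = Q ((x : V) + u) := rfl
        rw [h2, QuadraticMap.map_add Q, QuadraticMap.map_add Q, hf x] at h1
        linear_combination h1)
      exact ⟨g, hg1, hg2, hg3⟩)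
    _ X rfl (Y.subtype.comp φ.toLinearMap) (Y.injective_subtype.comp φ.injective) (fun x => hφ x)
  obtain ⟨g, hg, he⟩ := key
  exact ⟨g, hg, he⟩

end Cfsg.Agent.S0750
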