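import Cfsg.Statements.S0751
import Mathlib
import Cfsg.Agent.Lib.H03.WittSkel

set_option autoImplicit false
open Cfsg

namespace Cfsg.Agent.S0751

open Module Cfsg.Agent.H03

section
variable {F V : Type*} [Field F] [AddCommGroup V] [Module F V] [FiniteDimensional F V] {σ : F →+* F}

lemma B4 (B : V →ₛₗ[σ] V →ₗ[F] F) (z w d e : V) (s t s' t' : F) :
    B (z + s • d + t • e) (w + s' • d + t' • e) = B z w + s' * B z d + t' * B z e + σ s * B d w + σ t * B e w
      + σ s * s' * B d d + σ s * t' * B d e + σ t * s' * B e d + σ t * t' * B e e := by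
  simp only [map_add, map_smul, LinearMap.map_smulₛₗ, LinearMap.add_apply, LinearMap.smul_apply, smul_eq_mul]
  ring

lemma mk_iso {B : V →ₛₗ[σ] V →ₗ[F] F} (hB : B.Nondegenerate) (L : V →ₗ[F] V) (hL : ∀ u v, B (L u) (L v) = B u v) :
    ∃ g : V ≃ₗ[F] V, ∀ v, g v = L v := by
  have hinj : Function.Injective L := by
    rw [injective_iff_map_eq_zero]
    intro v hv
    apply hB.1
    intro w
    rw [← hL, hv]
    simp
  exact ⟨LinearEquiv.ofInjectiveEndo L hinj, fun v => rfl⟩

lemma exists_e [Finite F] {B : V →ₛₗ[σ] V →ₗ[F] F} (hB : B.Nondegenerate) (S : Submodule F V) {x : V} (hx : x ∉ S) :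
    ∃ e : V, (∀ s ∈ S, B e s = 0) ∧ B e x = 1 := by
  obtain ⟨l, hl, hlx⟩ := exists_sep S hx
  haveI : Finite V := Module.finite_of_finite F
  haveI : Finite (Module.Dual F V) := Module.finite_of_finite F
  have hinj : Function.Injective (fun e : V => B e) := by
    intro a b hab
    have h : a - b = 0 := by
      apply hB.1
      intro w
      have : B a w = B b w := congrArg (fun φ : V →ₗ[F] F => φ w) hab
      rw [map_sub, LinearMap.sub_apply, this, sub_self]
    exact sub_eq_zero.mp h
  have hcard : Nat.card (Module.Dual F V) ≤ Nat.card V := by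
    rw [Module.natCard_eq_pow_finrank (K := F) (V := V), Module.natCard_eq_pow_finrank (K := F) (V := Module.Dual F V),
      Subspace.dual_finrank_eq]
  obtain ⟨e, he⟩ := (hinj.bijective_of_nat_card_le hcard).2 l
  refine ⟨e, ?_, ?_⟩
  · intro s hs
    have : B e s = l s := congrArg (fun φ : V →ₗ[F] F => φ s) he
    rw [this, hl s hs]
  · have : B e x = l x := congrArg (fun φ : V →ₗ[F] F => φ x) he
    rw [this, hlx]

lemma tr_solve (hσ : σ ≠ RingHom.id F) (hσ2 : ∀ a : F, σ (σ a) = a) (E : F) (hE : σ E = E) : ∃ γ : F, γ + σ γ = E := by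
  obtain ⟨u, hu⟩ : ∃ u : F, u + σ u ≠ 0 := by
    by_contra hcon
    push Not at hcon
    apply hσ
    have h21 := hcon 1
    rw [map_one] at h21
    ext c
    have h3 := hcon c
    rw [RingHom.id_apply]
    linear_combination h3 - c * h21
  set τ := u + σ u with hτ
  have hτσ : σ τ = τ := by
    rw [hτ, map_add, hσ2, add_comm]
  refine ⟨E * u / τ, ?_⟩
  rw [map_div₀, map_mul, hE, hτσ]
  field_simp
  rw [hτ]

theorem herm_step [Finite F] (hσ : σ ≠ RingHom.id F) (hσ2 : ∀ a : F, σ (σ a) = a) {B : V →ₛₗ[σ] V →ₗ[F] F}
    (hS : B.IsSymm) (hB : B.Nondegenerate) (X₀ : Submodule F V) {x y : V}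
    (hx : x ∉ X₀) (hy : y ∉ X₀) (hp : ∀ u ∈ X₀, B y u = B x u) (hyy : B y y = B x x) :
    ∃ g : V ≃ₗ[F] V, (∀ u v, B (g u) (g v) = B u v) ∧ (∀ u ∈ X₀, g u = u) ∧ g x = y := by
  classical
  have hsk : ∀ a b, B b a = σ (B a b) := fun a b => (hS.eq a b).symm
  set d := y - x with hd
  have hyd : y = x + d := by rw [hd]; abel
  have hdu : ∀ u ∈ X₀, B d u = 0 := by
    intro u hu
    rw [hd, map_sub, LinearMap.sub_apply, hp u hu, sub_self]
  have hud : ∀ u ∈ X₀, B u d = 0 := by
    intro u hu
    rw [hsk d u, hdu u hu, map_zero]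
  -- the norm of d
  have hxd : B x d = σ (B d x) := hsk d x
  have hN : B d d = - σ (B d x) - B d x := by
    have h1 : B d y = B y y - B x y := by
      rw [hd, map_sub, LinearMap.sub_apply]
    have h2 : B x y = B x x + B x d := by
      rw [hyd, map_add]
    rw [hyy, h2, hxd] at h1
    have h3 : B d y = B d x + B d d := by
      rw [hyd, map_add]
    linear_combination h1 - h3
  by_cases hd0 : d = 0
  · refine ⟨LinearEquiv.refl F V, fun _ _ => rfl, fun _ _ => rfl, ?_⟩
    rw [hyd, hd0, add_zero]
    rfl
  by_cases ha : B d x = 0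
  · have hdd : B d d = 0 := by
      rw [hN, ha, map_zero]
      simp
    by_cases hxS : x ∈ X₀ ⊔ Submodule.span F {d}
    · -- scaling
      obtain ⟨u₀, hu₀, p, hp', hxe⟩ := Submodule.mem_sup.mp hxS
      obtain ⟨c, rfl⟩ := Submodule.mem_span_singleton.mp hp'
      have hc : c ≠ 0 := by
        rintro rfl
        apply hx
        rw [← hxe]
        simpa using hu₀
      have hdX : d ∉ X₀ := by
        intro h
        apply hx
        rw [← hxe]
        exact X₀.add_mem hu₀ (X₀.smul_mem _ h)
      obtain ⟨e₀, he₀, he₀d⟩ := exists_e hB X₀ hdX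
      have hfix0 : σ (- B e₀ e₀) = - B e₀ e₀ := by
        rw [map_neg, hS.eq]
      obtain ⟨μ, hμ⟩ := tr_solve hσ hσ2 _ hfix0
      set e := e₀ + μ • d with he
      have hde₀ : B d e₀ = 1 := by
        rw [hsk e₀ d, he₀d, map_one]
      have hed : B e d = 1 := by
        rw [he, map_add, LinearMap.add_apply, LinearMap.map_smulₛₗ, LinearMap.smul_apply, hdd, he₀d]
        simp
      have hde : B d e = 1 := by
        rw [hsk e d, hed, map_one]
      have hee : B e e = 0 := by
        have : B e e = B e₀ e₀ + μ + σ μ := by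
          rw [he]
          simp only [map_add, map_smul, LinearMap.map_smulₛₗ, LinearMap.add_apply, LinearMap.smul_apply, smul_eq_mul, hdd, he₀d, hde₀]
          ring
        rw [this]
        linear_combination hμ
      have heu : ∀ u ∈ X₀, B e u = 0 := by
        intro u hu
        rw [he, map_add, LinearMap.add_apply, LinearMap.map_smulₛₗ, LinearMap.smul_apply, hdu u hu, he₀ u hu]
        simp
      set a : F := 1 + c⁻¹ with haa
      have ha0 : a ≠ 0 := by
        intro h
        apply hy
        have hc1 : c = -1 := by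
          have : c * a = 0 := by rw [h, mul_zero]
          rw [haa, mul_add, mul_one, mul_inv_cancel₀ hc] at this
          linear_combination this
        rw [hyd, ← hxe, hc1]
        simpa using hu₀
      have hσa0 : σ a ≠ 0 := by
        intro h
        apply ha0
        have := congrArg σ h
        rwa [hσ2, map_zero] at this
      set b : F := (σ a)⁻¹ with hb
      have hσb : σ b = a⁻¹ := by
        rw [hb, map_inv₀, hσ2]
      let L : V →ₗ[F] V := LinearMap.id + ((a - 1) • B e).smulRight d + ((b - 1) • B d).smulRight e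
      have hLa : ∀ z, L z = z + ((a - 1) * B e z) • d + ((b - 1) * B d z) • e := fun z => rfl
      have hLB : ∀ u v, B (L u) (L v) = B u v := by
        intro z w
        rw [hLa, hLa, B4, hdd, hee, hde, hed, hsk d z, hsk e z]
        simp only [map_mul, map_sub, map_one, hσb]
        have h1 : a⁻¹ * a = 1 := inv_mul_cancel₀ ha0
        have h2 : σ a * b = 1 := mul_inv_cancel₀ hσa0
        linear_combination (σ (B d z) * B e w) * h1 + (σ (B e z) * B d w) * h2
      obtain ⟨g, hg⟩ := mk_iso hB L hLB
      refine ⟨g, fun u v => by rw [hg, hg, hLB], ?_, ?_⟩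
      · intro u hu
        rw [hg, hLa, heu u hu, hdu u hu]
        simp
      · have hdfix : L d = a • d := by
          rw [hLa, hed, hdd]
          simp only [mul_one, mul_zero, zero_smul, add_zero]
          rw [sub_smul, one_smul]
          abel
        have hufix : L u₀ = u₀ := by
          rw [hLa, heu u₀ hu₀, hdu u₀ hu₀]
          simp
        rw [hg, ← hxe, map_add, map_smul, hufix, hdfix, smul_smul, hyd, ← hxe]
        have : c * a = c + 1 := by
          rw [haa, mul_add, mul_one, mul_inv_cancel₀ hc]
        rw [this, add_smul, one_smul, add_assoc]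
    · -- Eichler
      obtain ⟨e, he, hex⟩ := exists_e hB _ hxS
      have hed : B e d = 0 := he d (Submodule.mem_sup_right (Submodule.mem_span_singleton_self d))
      have hde : B d e = 0 := by
        rw [hsk e d, hed, map_zero]
      have heu : ∀ u ∈ X₀, B e u = 0 := fun u hu => he u (Submodule.mem_sup_left hu)
      have hfix0 : σ (- B e e) = - B e e := by
        rw [map_neg, hS.eq]
      obtain ⟨γ, hγ⟩ := tr_solve hσ hσ2 _ hfix0
      let L : V →ₗ[F] V := LinearMap.id + (B e + γ • B d).smulRight d + (- B d).smulRight e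
      have hLa : ∀ z, L z = z + (B e z + γ * B d z) • d + (- B d z) • e := fun z => rfl
      have hLB : ∀ u v, B (L u) (L v) = B u v := by
        intro z w
        rw [hLa, hLa, B4, hdd, hde, hed, hsk d z, hsk e z]
        simp only [map_mul, map_add, map_neg, map_zero, hσ2]
        linear_combination (σ (B d z) * B d w) * hγ
      obtain ⟨g, hg⟩ := mk_iso hB L hLB
      refine ⟨g, fun u v => by rw [hg, hg, hLB], ?_, ?_⟩
      · intro u hu
        rw [hg, hLa, heu u hu, hdu u hu]
        simp
      · rw [hg, hLa, hex, ha, hyd]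
        simp
  · -- transvection
    set a := B d x with haa
    let L : V →ₗ[F] V := LinearMap.id + (a⁻¹ • B d).smulRight d
    have hLa : ∀ z, L z = z + (a⁻¹ * B d z) • d + (0 : F) • d := by
      intro z
      simp only [zero_smul, add_zero]
      rfl
    have hσa : σ a ≠ 0 := by
      intro h
      apply ha
      have := congrArg σ h
      rwa [hσ2, map_zero] at this
    have hLB : ∀ u v, B (L u) (L v) = B u v := by
      intro z w
      rw [hLa, hLa, B4, hN, hsk d z]
      simp only [map_mul, map_inv₀, map_zero]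
      field_simp
      ring
    obtain ⟨g, hg⟩ := mk_iso hB L hLB
    refine ⟨g, fun u v => by rw [hg, hg, hLB], ?_, ?_⟩
    · intro u hu
      rw [hg, hLa, hdu u hu]
      simp
    · rw [hg, hLa, hyd, ← haa, inv_mul_cancel₀ ha]
      simp

end


/-- Witt's Lemma for Hermitian forms. Let σ be a non-identity involutive automorphism of a finite field F and B a non-degenerate σ-sesquilinear form on a finite-dimensional F-space V which is conjugate-symmetric (σ (B x y) = B y x). Then every linear equivalence between subspaces X, Y of V preserving B extends to a B-preserving linear automorphism of V. -/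
theorem result {F V : Type*} [Field F] [Finite F] [AddCommGroup V] [Module F V] [FiniteDimensional F V] (σ : F →+* F) (hσ : σ ≠ RingHom.id F) (hσ2 : ∀ a : F, σ (σ a) = a) (B : V →ₛₗ[σ] V →ₗ[F] F) (hS : B.IsSymm) (hB : B.Nondegenerate) (X Y : Submodule F V) (φ : X ≃ₗ[F] Y) (hφ : ∀ x x' : X, B (φ x : V) (φ x' : V) = B (x : V) (x' : V)) : ∃ g : V ≃ₗ[F] V, (∀ u v : V, B (g u) (g v) = B u v) ∧ ∀ x : X, g (x : V) = (φ x : V) := by
  classical
  let I : Subgroup (V ≃ₗ[F] V) :=
    { carrier := {g | ∀ u v, B (g u) (g v) = B u v}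
      mul_mem' := by
        intro a b ha hb u v
        change B (a (b u)) (a (b v)) = B u v
        rw [ha, hb]
      one_mem' := fun u v => rfl
      inv_mem' := by
        intro a ha u v
        have := ha (a⁻¹ u) (a⁻¹ v)
        rw [← this]
        have e : ∀ w, a (a⁻¹ w) = w := fun w => by
          change a (a.symm w) = w
          simp
        rw [e, e] }
  let Compat : ∀ X : Submodule F V, (X →ₗ[F] V) → Prop := fun X f => ∀ x x' : X, B (f x) (f x') = B x x'
  have key := witt_skeleton I Compat
    (by
      intro X X₀ h f hf x x'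
      exact hf _ _)
    (by
      intro X f g hg hf x x'
      rw [LinearMap.comp_apply, LinearMap.comp_apply]
      change B (g (f x)) (g (f x')) = B x x'
      rw [hg, hf])
    (by
      intro X X₀ h x f hx hinj hf hfix
      have hy : f x ∉ X₀ := by
        intro hy
        have h1 := hfix ⟨f x, hy⟩
        have h2 := hinj h1
        apply hx
        rw [← h2]
        exact hy
      obtain ⟨g, hg1, hg2, hg3⟩ := herm_step hσ hσ2 hS hB X₀ hx hy (by
        intro u huX
        have h1 := hf x (Submodule.inclusion h ⟨u, huX⟩)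
        rw [hfix ⟨u, huX⟩] at h1
        exact h1) (hf x x)
      exact ⟨g, hg1, hg2, hg3⟩)
    _ X rfl (Y.subtype.comp φ.toLinearMap) (Y.injective_subtype.comp φ.injective) (fun x x' => hφ x x')
  obtain ⟨g, hg, he⟩ := key
  exact ⟨g, hg, he⟩

end Cfsg.Agent.S0751
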