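import Cfsg.Statements.S0755
import Mathlib

set_option autoImplicit false
open Cfsg

namespace Cfsg.Agent.S0755

universe w

theorem exists_norm {F : Type*} [Field F] [Finite F] (σ : F →+* F) (hσ : σ ≠ RingHom.id F)
    (hσ2 : ∀ a : F, σ (σ a) = a) (a : F) (ha : a ≠ 0) (hfix : σ a = a) : ∃ c : F, c ≠ 0 ∧ σ c * c = a := by
  classical
  obtain ⟨u, hu⟩ : ∃ u, σ u ≠ u := by
    by_contra hcon
    push Not at hcon
    exact hσ (RingHom.ext hcon)
  let s : Fˣ →* Fˣ := Units.map σ.toMonoidHom
  have hs : ∀ c : Fˣ, ((s c : Fˣ) : F) = σ c := fun c => rfl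
  have hss : ∀ c : Fˣ, s (s c) = c := fun c => Units.ext (hσ2 c)
  let N : Fˣ →* Fˣ := MonoidHom.id Fˣ * s
  let T : Fˣ →* Fˣ := MonoidHom.id Fˣ / s
  have hN : ∀ c, N c = c * s c := fun c => rfl
  have hT : ∀ c, T c = c * (s c)⁻¹ := fun c => by
    change c / s c = _
    rw [div_eq_mul_inv]
  have hker : N.ker = T.range := by
    ext c
    rw [MonoidHom.mem_ker, MonoidHom.mem_range, hN]
    constructor
    · intro hc
      have hc' : (c : F) * σ c = 1 := by
        have := congrArg Units.val hc
        simpa [hs] using this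
      -- Hilbert 90
      obtain ⟨v, hv⟩ : ∃ v : F, v + c * σ v ≠ 0 := by
        by_cases h1 : (1 : F) + c * σ 1 = 0
        · refine ⟨u, ?_⟩
          have hcm : (c : F) = -1 := by
            rw [map_one, mul_one] at h1
            linear_combination h1
          rw [hcm]
          intro h
          apply hu
          linear_combination -h
        · exact ⟨1, h1⟩
      let d : Fˣ := Units.mk0 (v + c * σ v) hv
      refine ⟨d, ?_⟩
      rw [hT]
      apply Units.ext
      have hd : ((d : Fˣ) : F) = v + c * σ v := rfl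
      have hsd : ((s d : Fˣ) : F) = σ v + σ c * v := by
        rw [hs, hd, map_add, map_mul, hσ2]
      have hd0 : ((s d : Fˣ) : F) ≠ 0 := (s d).ne_zero
      rw [Units.val_mul, Units.val_inv_eq_inv_val, ← div_eq_mul_inv, div_eq_iff hd0, hd, hsd]
      linear_combination (-v) * hc'
    · rintro ⟨d, rfl⟩
      rw [hT, map_mul, map_inv, hss, mul_assoc, ← mul_assoc (s d)⁻¹, inv_mul_cancel, one_mul, mul_inv_cancel]
  have hle : N.range ≤ T.ker := by
    rintro _ ⟨c, rfl⟩
    rw [MonoidHom.mem_ker, hT, hN, map_mul, hss, mul_comm (s c) c, mul_inv_cancel]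
  have h1 : Nat.card N.ker * Nat.card N.range = Nat.card Fˣ := by
    rw [← Subgroup.index_ker]
    exact Subgroup.card_mul_index _
  have h2 : Nat.card T.ker * Nat.card T.range = Nat.card Fˣ := by
    rw [← Subgroup.index_ker]
    exact Subgroup.card_mul_index _
  have h3 : Nat.card N.range = Nat.card T.ker := by
    rw [hker] at h1
    have hpos : 0 < Nat.card T.range := Nat.card_pos
    have : Nat.card T.range * Nat.card N.range = Nat.card T.range * Nat.card T.ker := by
      rw [h1, mul_comm, h2]
    exact Nat.eq_of_mul_eq_mul_left hpos this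
  have heq : N.range = T.ker := Subgroup.eq_of_le_of_card_ge hle h3.ge
  let a' : Fˣ := Units.mk0 a ha
  have ha' : a' ∈ T.ker := by
    rw [MonoidHom.mem_ker, hT]
    have : s a' = a' := Units.ext hfix
    rw [this, mul_inv_cancel]
  rw [← heq] at ha'
  obtain ⟨c, hc⟩ := ha'
  refine ⟨c, c.ne_zero, ?_⟩
  have := congrArg Units.val hc
  rw [hN, Units.val_mul, hs] at this
  rw [mul_comm]
  exact this

theorem exists_family {F : Type*} [Field F] [Finite F] (σ : F →+* F) (hσ : σ ≠ RingHom.id F)
    (hσ2 : ∀ a : F, σ (σ a) = a) : ∀ (n : ℕ) (V : Type w) [AddCommGroup V] [Module F V] [FiniteDimensional F V]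
    (B : V →ₛₗ[σ] V →ₗ[F] F), B.IsSymm → B.Nondegenerate → Module.finrank F V = n →
    ∃ b : Fin n → V, ∀ i j, B (b i) (b j) = if i = j then 1 else 0 := by
  intro n
  induction n with
  | zero =>
    intro V _ _ _ B _ _ _
    exact ⟨Fin.elim0, fun i => i.elim0⟩
  | succ n ih =>
    intro V _ _ _ B hS hB hn
    have hsw : ∀ x y, B y x = σ (B x y) := fun x y => (hS.eq x y).symm
    -- a vector of non-zero norm
    obtain ⟨v₀, hv₀⟩ : ∃ v : V, B v v ≠ 0 := by
      by_contra hcon
      push Not at hcon
      have hadd : ∀ x y, B x y + σ (B x y) = 0 := by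
        intro x y
        have := hcon (x + y)
        simp only [map_add, LinearMap.add_apply, hcon x, hcon y, zero_add, add_zero] at this
        rw [hsw x y, add_comm] at this
        exact this
      have hV : Nontrivial V := Module.nontrivial_of_finrank_pos (R := F) (by omega)
      obtain ⟨x, hx⟩ := exists_ne (0 : V)
      obtain ⟨y, hy⟩ : ∃ y, B x y ≠ 0 := by
        by_contra hcon2
        push Not at hcon2
        exact hx (hB.1 x hcon2)
      -- the trace vanishes
      have htr : ∀ c : F, c + σ c = 0 := by
        intro c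
        have := hadd x ((c / B x y) • y)
        rw [map_smul, smul_eq_mul, div_mul_cancel₀ _ hy] at this
        exact this
      have h21 := htr 1
      rw [map_one] at h21
      apply hσ
      ext c
      have := htr c
      have h3 : σ c = -c := by linear_combination this
      rw [h3, RingHom.id_apply]
      have h4 : (2 : F) = 0 := by linear_combination h21
      linear_combination (-c) * h21
    have hfix : σ (B v₀ v₀) = B v₀ v₀ := hS.eq v₀ v₀
    obtain ⟨c, hc0, hc⟩ := exists_norm σ hσ hσ2 (B v₀ v₀)⁻¹ (inv_ne_zero hv₀) (by rw [map_inv₀, hfix])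
    set v : V := c • v₀ with hv
    have hvv : B v v = 1 := by
      rw [hv]
      simp only [LinearMap.map_smulₛₗ, LinearMap.smul_apply, smul_eq_mul, map_smul]
      rw [← mul_assoc, mul_comm c, hc, inv_mul_cancel₀ hv₀]
    let φ : V →ₗ[F] F := B v
    let U : Submodule F V := LinearMap.ker φ
    have hU : ∀ x, x ∈ U ↔ B v x = 0 := fun x => Iff.rfl
    have hsurj : Function.Surjective φ := by
      intro a
      refine ⟨a • v, ?_⟩
      change B v (a • v) = a
      rw [map_smul, hvv, smul_eq_mul, mul_one]
    have hfr : Module.finrank F U = n := by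
      have h1 := LinearMap.finrank_range_add_finrank_ker φ
      rw [LinearMap.range_eq_top.2 hsurj, finrank_top, Module.finrank_self, hn] at h1
      change 1 + Module.finrank F U = n + 1 at h1
      omega
    let BU : U →ₛₗ[σ] U →ₗ[F] F := B.domRestrict₁₂ U U
    have hBU : ∀ x y : U, BU x y = B x y := fun _ _ => rfl
    have hSU : BU.IsSymm := ⟨fun x y => by
      rw [hBU, hBU]
      exact hS.eq _ _⟩
    have hleft : ∀ x : U, (∀ y : U, BU x y = 0) → x = 0 := by
      rintro ⟨x, hx⟩ hxy
      apply Subtype.ext
      apply hB.1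
      intro z
      have hxv : B x v = 0 := by
        rw [hsw v x, (hU x).1 hx, map_zero]
      have hu : z - B v z • v ∈ U := by
        rw [hU, (B v).map_sub, (B v).map_smul, hvv, smul_eq_mul, mul_one, sub_self]
      have h1 := hxy ⟨_, hu⟩
      rw [hBU] at h1
      change B x (z - B v z • v) = 0 at h1
      rw [map_sub, map_smul, hxv, smul_zero, sub_zero] at h1
      exact h1
    have hNU : BU.Nondegenerate := by
      refine ⟨hleft, ?_⟩
      intro y hy
      apply hleft
      intro x
      have := hy x
      rw [hBU] at this ⊢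
      rw [hsw x y, this, map_zero]
    obtain ⟨b, hb⟩ := ih U BU hSU hNU hfr
    refine ⟨Fin.cons v (fun i => (b i : V)), ?_⟩
    intro i j
    refine Fin.cases ?_ (fun i => ?_) i <;> refine Fin.cases ?_ (fun j => ?_) j
    · simp [hvv]
    · simp only [Fin.cons_zero, Fin.cons_succ]
      rw [(hU _).1 (b j).2]
      simp [(Fin.succ_ne_zero j).symm]
    · simp only [Fin.cons_zero, Fin.cons_succ]
      rw [hsw v, (hU _).1 (b i).2, map_zero]
      simp [Fin.succ_ne_zero i]
    · simp only [Fin.cons_succ, Fin.succ_inj]
      exact hb i j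


/-- Classification of Hermitian forms over finite fields: if σ is a non-identity involutive automorphism of the finite field F and B is a non-degenerate conjugate-symmetric σ-sesquilinear form on the finite-dimensional space V, then V has a B-orthonormal basis. -/
theorem result {F V : Type*} [Field F] [Finite F] [AddCommGroup V] [Module F V] [FiniteDimensional F V] (σ : F →+* F) (hσ : σ ≠ RingHom.id F) (hσ2 : ∀ a : F, σ (σ a) = a) (B : V →ₛₗ[σ] V →ₗ[F] F) (hS : B.IsSymm) (hB : B.Nondegenerate) : ∃ b : Module.Basis (Fin (Module.finrank F V)) F V, ∀ i j, B (b i) (b j) = if i = j then 1 else 0 := by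
  classical
  obtain ⟨b0, hb0⟩ := exists_family σ hσ hσ2 _ V B hS hB rfl
  have hli : LinearIndependent F b0 := by
    rw [Fintype.linearIndependent_iff]
    intro g hg i
    have := congrArg (B (b0 i)) hg
    rw [map_sum, map_zero] at this
    simp only [map_smul, hb0, smul_eq_mul, mul_ite, mul_one, mul_zero, Finset.sum_ite_eq, Finset.mem_univ, if_true] at this
    exact this
  let b : Module.Basis (Fin (Module.finrank F V)) F V :=
    Module.Basis.mk hli (hli.span_eq_top_of_card_eq_finrank' (by simp)).ge
  have hb : ∀ i, b i = b0 i := by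
    intro i
    simp [b]
  refine ⟨b, fun i j => ?_⟩
  rw [hb, hb]
  exact hb0 i j

end Cfsg.Agent.S0755
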