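import Cfsg.Statements.S0837
import Mathlib
import Cfsg.Agent.S0755
import Cfsg.Agent.Lib.Lead.GUOrder
import Cfsg.Agent.Lib.H03.Block

set_option autoImplicit false
open Cfsg

namespace Cfsg.Agent.S0837

open Matrix

section
variable {F : Type*} [Field F] [Fintype F] {q : ℕ}

local notation "herm" n => Cfsg.hermForm n F q

theorem two_le_q (hF : Fintype.card F = q ^ 2) : 2 ≤ q := by
  have h1 : 1 < Fintype.card F := Fintype.one_lt_card
  rw [hF] at h1
  by_contra h
  have : q ≤ 1 := by omega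
  have h2 : q ^ 2 ≤ 1 := by nlinarith
  omega

theorem exists_ne_frob (hF : Fintype.card F = q ^ 2) : ∃ x : F, x ^ q ≠ x := by
  classical
  by_contra hcon
  push Not at hcon
  have h2 := two_le_q hF
  obtain ⟨g, hg⟩ := IsCyclic.exists_generator (α := Fˣ)
  have hord : orderOf g = Fintype.card Fˣ := (orderOf_eq_card_of_forall_mem_zpowers hg).trans Nat.card_eq_fintype_card
  rw [Fintype.card_units, hF] at hord
  have h3 : g ^ (q - 1) = 1 := by
    apply Units.ext
    have h4 := hcon (g : F)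
    have h5 : (g : F) ^ (q - 1) * g = 1 * g := by
      rw [one_mul, ← pow_succ, show q - 1 + 1 = q by omega, h4]
    simpa using mul_right_cancel₀ g.ne_zero h5
  have h6 := orderOf_dvd_of_pow_eq_one h3
  rw [hord] at h6
  have h7 := Nat.le_of_dvd (by omega) h6
  have : q ^ 2 ≥ 2 * q := by nlinarith
  omega

theorem exists_on (hF : Fintype.card F = q ^ 2) {n : ℕ} (S : Submodule F (Fin n → F))
    (hS : ∀ u ∈ S, (∀ v ∈ S, Cfsg.hermForm n F q u v = 0) → u = 0) :
    ∃ e : Fin (Module.finrank F S) → (Fin n → F), (∀ i, e i ∈ S) ∧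
      ∀ i j, Cfsg.hermForm n F q (e i) (e j) = if i = j then 1 else 0 := by
  obtain ⟨φ, hφ⟩ := Lead.exists_frob hF
  have hσ : φ ≠ RingHom.id F := by
    intro h
    obtain ⟨x, hx⟩ := exists_ne_frob hF
    apply hx
    rw [← hφ, h]
    rfl
  have hσ2 : ∀ a : F, φ (φ a) = a := by
    intro a
    rw [hφ, hφ, ← pow_mul, ← sq, ← hF, FiniteField.pow_card]
  let B : S →ₛₗ[φ] S →ₗ[F] F := LinearMap.mk₂'ₛₗ φ (RingHom.id F) (fun x y => Cfsg.hermForm n F q (y : Fin n → F) (x : Fin n → F))
    (by
      intro x x' y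
      exact Lead.herm_add_right hF _ _ _)
    (by
      intro c x y
      show Cfsg.hermForm n F q _ (c • (x : Fin n → F)) = _
      rw [Lead.herm_smul_right hF, hφ]
      rfl)
    (by
      intro x y y'
      exact Lead.herm_add_left _ _ _)
    (by
      intro c x y
      show Cfsg.hermForm n F q (c • (y : Fin n → F)) _ = _
      rw [Lead.herm_smul_left]
      rfl)
  have hB : ∀ x y : S, B x y = Cfsg.hermForm n F q (y : Fin n → F) (x : Fin n → F) := fun x y => rfl
  have hsymm : B.IsSymm := by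
    refine ⟨fun x y => ?_⟩
    show φ (B x y) = B y x
    rw [hB, hB, hφ, ← Lead.herm_conj hF]
  have hnd : B.Nondegenerate := by
    constructor
    · intro x hx
      have h1 : (x : Fin n → F) = 0 := by
        apply hS _ x.2
        intro v hv
        rw [Lead.herm_conj hF, ← hB x ⟨v, hv⟩, hx, zero_pow]
        exact (two_le_q hF |> fun h => by omega)
      exact Subtype.ext h1
    · intro y hy
      have h1 : (y : Fin n → F) = 0 := by
        apply hS _ y.2
        intro v hv
        rw [← hB ⟨v, hv⟩ y, hy]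
      exact Subtype.ext h1
  obtain ⟨b, hb⟩ := Cfsg.Agent.S0755.exists_family φ hσ hσ2 _ S B hsymm hnd rfl
  refine ⟨fun i => (b i : Fin n → F), fun i => (b i).2, fun i j => ?_⟩
  have := hb j i
  rw [hB] at this
  rw [this]
  simp only [eq_comm]

theorem herm_sum_smul_left {n : ℕ} {ι : Type*} (s : Finset ι) (c : ι → F) (x : ι → (Fin n → F)) (y : Fin n → F) :
    Cfsg.hermForm n F q (∑ i ∈ s, c i • x i) y = ∑ i ∈ s, c i * Cfsg.hermForm n F q (x i) y := by
  rw [Lead.herm_sum_left]
  exact Finset.sum_congr rfl fun i _ => Lead.herm_smul_left _ _ _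

theorem herm_sum_smul_right (hF : Fintype.card F = q ^ 2) {n : ℕ} {ι : Type*} (s : Finset ι) (c : ι → F) (x : ι → (Fin n → F)) (y : Fin n → F) :
    Cfsg.hermForm n F q y (∑ i ∈ s, c i • x i) = ∑ i ∈ s, c i ^ q * Cfsg.hermForm n F q y (x i) := by
  rw [Lead.herm_sum_right hF]
  exact Finset.sum_congr rfl fun i _ => Lead.herm_smul_right hF _ _ _

theorem on_span (hF : Fintype.card F = q ^ 2) {n : ℕ} (S : Submodule F (Fin n → F)) {k : ℕ}
    (hk : Module.finrank F S = k) (e : Fin k → (Fin n → F)) (heS : ∀ i, e i ∈ S)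
    (he : ∀ i j, Cfsg.hermForm n F q (e i) (e j) = if i = j then 1 else 0) (w : Fin n → F) (hw : w ∈ S) :
    w = ∑ i, Cfsg.hermForm n F q w (e i) • e i := by
  classical
  let e' : Fin k → S := fun i => ⟨e i, heS i⟩
  have hli : LinearIndependent F e' := by
    rw [Fintype.linearIndependent_iff]
    intro c hc j
    have h1 := congrArg (fun x : S => Cfsg.hermForm n F q (x : Fin n → F) (e j)) hc
    simp only [Submodule.coe_sum, Submodule.coe_smul, Submodule.coe_zero, e'] at h1
    rw [herm_sum_smul_left] at h1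
    simp only [he, mul_ite, mul_one, mul_zero, Finset.sum_ite_eq', Finset.mem_univ, if_true] at h1
    rw [h1]
    simp [Cfsg.hermForm]
  have hspan := hli.span_eq_top_of_card_eq_finrank' (by simp [hk])
  have hw' : (⟨w, hw⟩ : S) ∈ Submodule.span F (Set.range e') := by rw [hspan]; trivial
  obtain ⟨c, hc⟩ := (Submodule.mem_span_range_iff_exists_fun F).mp hw'
  have hc' : w = ∑ i, c i • e i := by
    have := congrArg Subtype.val hc
    simp only [Submodule.coe_sum, Submodule.coe_smul, e'] at this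
    exact this.symm
  have hj : ∀ j, Cfsg.hermForm n F q w (e j) = c j := by
    intro j
    rw [hc', herm_sum_smul_left]
    simp only [he, mul_ite, mul_one, mul_zero, Finset.sum_ite_eq', Finset.mem_univ, if_true]
  simp only [hj]
  exact hc'

theorem exists_on' (hF : Fintype.card F = q ^ 2) {n k : ℕ} (S : Submodule F (Fin n → F)) (hk : Module.finrank F S = k)
    (hS : ∀ u ∈ S, (∀ v ∈ S, Cfsg.hermForm n F q u v = 0) → u = 0) :
    ∃ e : Fin k → (Fin n → F), (∀ i, e i ∈ S) ∧
      ∀ i j, Cfsg.hermForm n F q (e i) (e j) = if i = j then 1 else 0 := by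
  subst hk
  exact exists_on hF S hS

end

/-- If W ≤ F^n (|F| = q²) is a k-dimensional subspace on which the Hermitian form Σ x_i y_i^q is non-degenerate, then the stabiliser of W in GU_n(q) is isomorphic to GU_k(q) × GU_(n−k)(q). -/
theorem result {F : Type*} [Field F] [Fintype F] {q : ℕ} (hF : Fintype.card F = q ^ 2) (n k : ℕ) (hk : k ≤ n) (W : Submodule F (Fin n → F)) (hWk : Module.finrank F W = k) (hW : ∀ u ∈ W, (∀ v ∈ W, Cfsg.hermForm n F q u v = 0) → u = 0) : Nonempty (↥((Cfsg.stabilizing (Cfsg.glToMat (Fin n) F) (W : Set (Fin n → F))).subgroupOf (Cfsg.GU n F q)) ≃* ↥(Cfsg.GU k F q) × ↥(Cfsg.GU (n - k) F q)) := by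
  classical
  have hq2 := two_le_q hF
  have hq0 : q ≠ 0 := by omega
  -- the orthonormal family of `W`
  obtain ⟨e, heW, he⟩ := exists_on' hF W hWk hW
  -- the orthogonal complement
  let P : Submodule F (Fin n → F) :=
    { carrier := {u | ∀ w ∈ W, Cfsg.hermForm n F q u w = 0}
      add_mem' := fun {a b} ha hb w hw => by rw [Lead.herm_add_left, ha w hw, hb w hw, add_zero]
      zero_mem' := fun w _ => by simp [Cfsg.hermForm]
      smul_mem' := fun c u hu w hw => by rw [Lead.herm_smul_left, hu w hw, mul_zero] }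
  have hP : ∀ u, u ∈ P ↔ ∀ w ∈ W, Cfsg.hermForm n F q u w = 0 := fun u => Iff.rfl
  have hdec : ∀ v, v - ∑ i, Cfsg.hermForm n F q v (e i) • e i ∈ P := by
    intro v w hw
    rw [on_span hF W hWk e heW he w hw, herm_sum_smul_right hF]
    refine Finset.sum_eq_zero fun j _ => ?_
    have : Cfsg.hermForm n F q (v - ∑ i, Cfsg.hermForm n F q v (e i) • e i) (e j) = 0 := by
      rw [sub_eq_add_neg, Lead.herm_add_left, ← neg_one_smul F, Lead.herm_smul_left, herm_sum_smul_left]
      simp only [he, mul_ite, mul_one, mul_zero, Finset.sum_ite_eq', Finset.mem_univ, if_true]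
      ring
    rw [this, mul_zero]
  have hWP : W ⊓ P = ⊥ := by
    rw [eq_bot_iff]
    rintro u ⟨huW, huP⟩
    exact (Submodule.mem_bot F).mpr (hW u huW huP)
  have hWPs : W ⊔ P = ⊤ := by
    rw [eq_top_iff]
    intro v _
    have h1 := hdec v
    have h2 : ∑ i, Cfsg.hermForm n F q v (e i) • e i ∈ W := Submodule.sum_mem _ fun i _ => Submodule.smul_mem _ _ (heW i)
    have h3 : v = ∑ i, Cfsg.hermForm n F q v (e i) • e i + (v - ∑ i, Cfsg.hermForm n F q v (e i) • e i) := by abel
    rw [h3]
    exact Submodule.add_mem_sup h2 h1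
  have hcompl : IsCompl W P := ⟨disjoint_iff.mpr hWP, codisjoint_iff.mpr hWPs⟩
  have hPdim : Module.finrank F P = n - k := by
    have := Submodule.finrank_add_eq_of_isCompl hcompl
    rw [hWk, Module.finrank_fin_fun] at this
    omega
  have hPnd : ∀ u ∈ P, (∀ v ∈ P, Cfsg.hermForm n F q u v = 0) → u = 0 := by
    intro u huP hu
    funext j
    have h1 := hdec (Pi.single j 1)
    have h2 : ∑ i, Cfsg.hermForm n F q (Pi.single j 1) (e i) • e i ∈ W := Submodule.sum_mem _ fun i _ => Submodule.smul_mem _ _ (heW i)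
    have h3 := hu _ h1
    have h4 := huP _ h2
    have h5 : Cfsg.hermForm n F q u (Pi.single j 1) = 0 := by
      have h6 : (Pi.single j 1 : Fin n → F) = ∑ i, Cfsg.hermForm n F q (Pi.single j 1) (e i) • e i + ((Pi.single j 1 : Fin n → F) - ∑ i, Cfsg.hermForm n F q (Pi.single j 1) (e i) • e i) := by abel
      rw [h6, Lead.herm_add_right hF, h3, h4, add_zero]
    rwa [Lead.herm_single hF] at h5
  obtain ⟨e', he'P, he'⟩ := exists_on' hF P hPdim hPnd
  have hcross : ∀ i j, Cfsg.hermForm n F q (e' j) (e i) = 0 := fun i j => he'P j _ (heW i)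
  have hcross' : ∀ i j, Cfsg.hermForm n F q (e i) (e' j) = 0 := by
    intro i j
    rw [Lead.herm_conj hF (e' j) (e i), hcross, zero_pow hq0]
  -- the map
  let Θ₀ : ((Fin k → F) × (Fin (n - k) → F)) →ₗ[F] (Fin n → F) :=
    LinearMap.coprod (Fintype.linearCombination F e) (Fintype.linearCombination F e')
  have hΘ₀ : ∀ a b, Θ₀ (a, b) = ∑ i, a i • e i + ∑ j, b j • e' j := by
    intro a b
    simp [Θ₀, Fintype.linearCombination_apply]
  have hform : ∀ a b a' b', Cfsg.hermForm n F q (Θ₀ (a, b)) (Θ₀ (a', b')) = Cfsg.hermForm k F q a a' + Cfsg.hermForm (n - k) F q b b' := by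
    intro a b a' b'
    have h11 : ∀ i, Cfsg.hermForm n F q (e i) (∑ l, a' l • e l) = a' i ^ q := by
      intro i
      rw [herm_sum_smul_right hF]
      simp only [he, mul_ite, mul_one, mul_zero, Finset.sum_ite_eq, Finset.mem_univ, if_true]
    have h12 : ∀ i, Cfsg.hermForm n F q (e i) (∑ l, b' l • e' l) = 0 := by
      intro i
      rw [herm_sum_smul_right hF]
      simp only [hcross', mul_zero, Finset.sum_const_zero]
    have h21 : ∀ j, Cfsg.hermForm n F q (e' j) (∑ l, a' l • e l) = 0 := by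
      intro j
      rw [herm_sum_smul_right hF]
      simp only [hcross, mul_zero, Finset.sum_const_zero]
    have h22 : ∀ j, Cfsg.hermForm n F q (e' j) (∑ l, b' l • e' l) = b' j ^ q := by
      intro j
      rw [herm_sum_smul_right hF]
      simp only [he', mul_ite, mul_one, mul_zero, Finset.sum_ite_eq, Finset.mem_univ, if_true]
    rw [hΘ₀, hΘ₀, Lead.herm_add_left, Lead.herm_add_right hF, Lead.herm_add_right hF]
    rw [herm_sum_smul_left, herm_sum_smul_left, herm_sum_smul_left, herm_sum_smul_left]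
    simp only [h11, h12, h21, h22, mul_zero, Finset.sum_const_zero, add_zero, zero_add]
    rfl
  have hzero_right : ∀ (r : ℕ) (b : Fin r → F), Cfsg.hermForm r F q b 0 = 0 := by
    intro r b
    simp [Cfsg.hermForm, zero_pow hq0]
  have hzero_left : ∀ (r : ℕ) (b : Fin r → F), Cfsg.hermForm r F q 0 b = 0 := by
    intro r b
    simp [Cfsg.hermForm]
  have hinj : Function.Injective Θ₀ := by
    rw [injective_iff_map_eq_zero]
    rintro ⟨a, b⟩ h
    have h0 : ∀ a' b', Cfsg.hermForm k F q a a' + Cfsg.hermForm (n - k) F q b b' = 0 := by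
      intro a' b'
      rw [← hform, h, hzero_left]
    refine Prod.ext ?_ ?_
    · funext i
      have := h0 (Pi.single i 1) 0
      rwa [hzero_right, add_zero, Lead.herm_single hF] at this
    · funext i
      have := h0 0 (Pi.single i 1)
      rwa [hzero_right, zero_add, Lead.herm_single hF] at this
  have hdim : Module.finrank F ((Fin k → F) × (Fin (n - k) → F)) = Module.finrank F (Fin n → F) := by
    rw [Module.finrank_prod, Module.finrank_fin_fun, Module.finrank_fin_fun, Module.finrank_fin_fun]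
    have : k ≤ n := hk
    omega
  let Θ : ((Fin k → F) × (Fin (n - k) → F)) ≃ₗ[F] (Fin n → F) := LinearEquiv.ofInjectiveOfFinrankEq Θ₀ hinj hdim
  have hΘapp : ∀ x, Θ x = Θ₀ x := fun x => rfl
  have hWiff : ∀ v, v ∈ (W : Set (Fin n → F)) ↔ ∃ a, v = Θ (a, 0) := by
    intro v
    constructor
    · intro hv
      obtain ⟨⟨a, b⟩, rfl⟩ := Θ.surjective v
      refine ⟨a, ?_⟩
      have h1 : Θ₀ (a, b) = Θ₀ (a, 0) + Θ₀ (0, b) := by rw [← map_add]; simp
      rw [hΘapp] at hv ⊢
      have h2 : Θ₀ (a, 0) ∈ W := by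
        rw [hΘ₀]
        simp only [Pi.zero_apply, zero_smul, Finset.sum_const_zero, add_zero]
        exact Submodule.sum_mem _ fun i _ => Submodule.smul_mem _ _ (heW i)
      have h3 : Θ₀ (0, b) ∈ W := by
        have : Θ₀ (0, b) = Θ₀ (a, b) - Θ₀ (a, 0) := by rw [h1]; abel
        rw [this]
        exact Submodule.sub_mem _ hv h2
      have h4 : Θ₀ (0, b) ∈ P := by
        rw [hΘ₀]
        simp only [Pi.zero_apply, zero_smul, Finset.sum_const_zero, zero_add]
        exact Submodule.sum_mem _ fun i _ => Submodule.smul_mem _ _ (he'P i)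
      have h5 : Θ₀ (0, b) = 0 := hW _ h3 h4
      have h6 : (0, b) = (0 : (Fin k → F) × (Fin (n - k) → F)) := hinj (by rw [h5, map_zero])
      have hb : b = 0 := congrArg Prod.snd h6
      rw [hb]
      rfl
    · rintro ⟨a, rfl⟩
      rw [hΘapp, hΘ₀]
      simp only [Pi.zero_apply, zero_smul, Finset.sum_const_zero, add_zero]
      exact Submodule.sum_mem _ fun i _ => Submodule.smul_mem _ _ (heW i)
  let ρ : ↥(Cfsg.GU n F q) →* Matrix (Fin n) (Fin n) F := (Units.coeHom _).comp (Cfsg.GU n F q).subtype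
  let ρ₁ : ↥(Cfsg.GU k F q) →* Matrix (Fin k) (Fin k) F := (Units.coeHom _).comp (Cfsg.GU k F q).subtype
  let ρ₂ : ↥(Cfsg.GU (n - k) F q) →* Matrix (Fin (n - k)) (Fin (n - k)) F := (Units.coeHom _).comp (Cfsg.GU (n - k) F q).subtype
  have hgen : ∀ (r : ℕ) (M : Matrix (Fin r) (Fin r) F), IsUnit M → (∀ u v, Cfsg.hermForm r F q (M *ᵥ u) (M *ᵥ v) = Cfsg.hermForm r F q u v) →
      ∃ h : ↥(Cfsg.GU r F q), ((Units.coeHom _).comp (Cfsg.GU r F q).subtype) h = M := by
    intro r M hM hp
    obtain ⟨u, rfl⟩ := hM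
    exact ⟨⟨u, hp⟩, rfl⟩
  obtain ⟨E⟩ := Cfsg.Agent.H03.Block.block_equiv ρ ρ₁ ρ₂ (Cfsg.hermForm n F q) (Cfsg.hermForm k F q) (Cfsg.hermForm (n - k) F q) Θ (W : Set (Fin n → F))
    (fun x y h => Subtype.ext (Units.ext h)) (fun x y h => Subtype.ext (Units.ext h)) (fun x y h => Subtype.ext (Units.ext h))
    (fun h => h.2) (hgen n) (fun h => h.2) (hgen k) (fun h => h.2) (hgen (n - k))
    hform hWiff (hzero_left k) (hzero_right (n - k))
    (by
      intro a h
      funext i
      have := h (Pi.single i 1)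
      rwa [Lead.herm_single hF] at this)
  have hEq : (Cfsg.stabilizing (Cfsg.glToMat (Fin n) F) (W : Set (Fin n → F))).subgroupOf (Cfsg.GU n F q) = Cfsg.stabilizing ρ (W : Set (Fin n → F)) := by
    ext x
    exact Iff.rfl
  exact ⟨(MulEquiv.subgroupCongr hEq).trans E⟩

end Cfsg.Agent.S0837
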