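import Cfsg.Statements.S0713
import Mathlib
import Cfsg.Agent.Lib.H03.Wagner

set_option autoImplicit false
open Cfsg

namespace Cfsg.Agent.S0713

open Cfsg.Agent.H03 MulAction SubMulAction Equiv.Perm

/-- Jordan's Theorem: a primitive permutation group of degree `n ≥ 5` containing a `p`-cycle for a prime `p ≤ n - 3` contains the alternating group. -/
theorem result {α : Type*} [Fintype α] [DecidableEq α] (G : Subgroup (Equiv.Perm α)) (hG : MulAction.IsPreprimitive G α) {p : ℕ} (hp : p.Prime) (hn : 5 ≤ Fintype.card α) (hpn : p + 3 ≤ Fintype.card α) {g : Equiv.Perm α} (hgc : g.IsCycle) (hgp : g.support.card = p) (hg : g ∈ G) : alternatingGroup α ≤ G := by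
  classical
  have hnc : Nat.card α = Fintype.card α := Nat.card_eq_fintype_card
  -- the fixed set
  let Γ : Finset α := g.support
  let S : Set α := (Γ : Set α)ᶜ
  have hΓc : Γ.card = p := hgp
  have hSc : S.ncard + p = Fintype.card α := by
    have h1 : (Γ : Set α).ncard + S.ncard = Nat.card α := Set.ncard_add_ncard_compl (Γ : Set α)
    rw [Set.ncard_coe_finset, hΓc, hnc] at h1
    omega
  have hmemS : ∀ x, x ∈ S ↔ g x = x := by
    intro x
    simp [S, Γ]
  have hmemΓ : ∀ x, x ∈ Γ ↔ g x ≠ x := by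
    intro x
    simp [Γ]
  obtain ⟨s, hs⟩ : ∃ s, S.ncard = s + 1 := ⟨S.ncard - 1, by omega⟩
  -- multiple transitivity
  have htrans : IsPretransitive (fixingSubgroup G S) (ofFixingSubgroup G S) :=
    Equiv.Perm.isPretransitive_of_isCycle_mem hgc hg
  have hcardF : Nat.card (ofFixingSubgroup G S) = p := by
    rw [← hΓc, Nat.card_eq_fintype_card, Fintype.card_subtype]
    congr 1
    ext x
    simp [S, Γ, mem_ofFixingSubgroup_iff]
  have hprim : IsPreprimitive (fixingSubgroup G S) (ofFixingSubgroup G S) := by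
    apply IsPreprimitive.of_prime_card
    rw [hcardF]
    exact hp
  have hpp := hp.two_le
  have hmp := hG.isMultiplyPreprimitive (s := S) (n := s) hs (by rw [hnc]; omega) hprim
  have htr : IsMultiplyPretransitive G α (s + 2) := IsMultiplyPreprimitive.isMultiplyPretransitive G α (s + 2)
  have htr' : IsMultiplyPretransitive G α (s + 1) :=
    isMultiplyPretransitive_of_le (n := s + 2) (by omega) (by rw [hnc]; omega)
  -- lifting
  have hlift : ∀ τ : Equiv.Perm α, (∀ x ∈ S, τ x ∈ S) → ∃ y ∈ G, ∀ x ∈ S, y x = τ x := by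
    intro τ hτ
    have hcS : Nat.card S = s + 1 := by rw [Nat.card_coe_set_eq, hs]
    haveI : Finite S := Set.toFinite S
    let e : Fin (s + 1) ≃ S := (Finite.equivFinOfCardEq hcS).symm
    obtain ⟨y, hy⟩ := exists_smul_of_fn htr' (fun i => (e i : α)) (fun i => τ (e i))
      (fun i j h => e.injective (Subtype.ext h)) (fun i j h => e.injective (Subtype.ext (τ.injective h)))
    refine ⟨y, y.2, fun x hx => ?_⟩
    have := hy (e.symm ⟨x, hx⟩)
    simp only [Equiv.apply_symm_apply] at this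
    exact this
  -- the maximal p-subgroup
  haveI : Fact p.Prime := ⟨hp⟩
  let F : Subgroup (Equiv.Perm α) := fixingSubgroup (Equiv.Perm α) S
  have memF : ∀ k, k ∈ F ↔ ∀ x ∈ S, k x = x := by
    intro k
    rw [mem_fixingSubgroup_iff]
    rfl
  let H : Subgroup (Equiv.Perm α) := G ⊓ F
  let Q : Subgroup (Equiv.Perm α) := Subgroup.zpowers g
  have hgF : g ∈ F := (memF g).mpr (fun x hx => (hmemS x).mp hx)
  have hQH : Q ≤ H := by
    rw [Subgroup.zpowers_le]
    exact ⟨hg, hgF⟩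
  have hcardQ : Nat.card Q = p := by
    rw [Nat.card_zpowers, hgc.orderOf]
    exact hgp
  have hQp : IsPGroup p Q := by
    rw [IsPGroup.iff_card]
    exact ⟨1, by rw [hcardQ, pow_one]⟩
  have hcardFdvd : Nat.card F ∣ p.factorial := by
    have hinj : Function.Injective (toPermHom F (ofFixingSubgroup (Equiv.Perm α) S)) := by
      rw [injective_iff_map_eq_one]
      rintro ⟨k, hk⟩ hk1
      apply Subtype.ext
      ext x
      by_cases hx : x ∈ S
      · exact (memF k).mp hk x hx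
      · have hxm : x ∈ ofFixingSubgroup (Equiv.Perm α) S := by
          rw [mem_ofFixingSubgroup_iff]
          exact hx
        have := congrArg (fun π : Equiv.Perm (ofFixingSubgroup (Equiv.Perm α) S) => ((π ⟨x, hxm⟩ : ofFixingSubgroup (Equiv.Perm α) S) : α)) hk1
        exact this
    have h1 := Subgroup.card_dvd_of_injective _ hinj
    have hcard2 : Nat.card (ofFixingSubgroup (Equiv.Perm α) S) = p := by
      rw [← hΓc, Nat.card_eq_fintype_card, Fintype.card_subtype]
      congr 1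
      ext x
      simp [S, mem_ofFixingSubgroup_iff]
    rwa [Nat.card_perm, hcard2] at h1
  have hQmax : IsMaxP p H Q := by
    refine ⟨hQH, hQp, fun P hP hPp => ?_⟩
    rw [hcardQ]
    obtain ⟨e, he⟩ := IsPGroup.iff_card.mp hPp
    have hdvd : Nat.card P ∣ p.factorial := (Subgroup.card_dvd_of_le (hP.trans inf_le_right)).trans hcardFdvd
    rw [he] at hdvd ⊢
    by_contra hlt
    push Not at hlt
    have he2 : 2 ≤ e := by
      by_contra h
      have : e ≤ 1 := by omega
      have := Nat.pow_le_pow_right hp.pos this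
      rw [pow_one] at this
      omega
    have h2 : p ^ 2 ∣ p.factorial := (pow_dvd_pow p he2).trans hdvd
    obtain ⟨q, hq⟩ : ∃ q, p = q + 1 := ⟨p - 1, by omega⟩
    rw [hq, Nat.factorial_succ, ← hq, pow_two] at h2
    have h3 : p ∣ q.factorial := Nat.dvd_of_mul_dvd_mul_left hp.pos h2
    have h4 := (hp.dvd_factorial).mp h3
    omega
  -- normaliser elements
  have hlift2 : ∀ τ : Equiv.Perm α, (∀ x ∈ S, τ x ∈ S) → (∀ x ∈ S, τ⁻¹ x ∈ S) → ∃ y ∈ G, y ∈ Subgroup.normalizer (Q : Set (Equiv.Perm α)) ∧ ∀ x ∈ S, y x = τ x := by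
    intro τ hτ hτi
    obtain ⟨y, hyG, hy⟩ := hlift τ hτ
    obtain ⟨h, hhH, hh⟩ := frat hQmax y⁻¹ (by
      intro x hx
      have hxH := hQH hx
      refine ⟨?_, ?_⟩
      · simpa using G.mul_mem (G.mul_mem (G.inv_mem hyG) hxH.1) hyG
      · change y⁻¹ * x * y⁻¹⁻¹ ∈ F
        rw [memF]
        intro u hu
        have hyu := hy u hu
        have h1 : y u ∈ S := by rw [hyu]; exact hτ u hu
        have h2 := (memF x).mp hxH.2 _ h1
        simp only [inv_inv, Equiv.Perm.coe_mul, Function.comp_apply]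
        rw [h2]
        simp)
    rw [inv_inv] at hh
    refine ⟨y * h, G.mul_mem hyG hhH.1, hh, fun x hx => ?_⟩
    rw [Equiv.Perm.mul_apply, (memF h).mp hhH.2 x hx, hy x hx]
  -- three points of S
  have hS3 : 2 < S.ncard := by omega
  obtain ⟨a, b, c, ha, hb, hc, hab, hac, hbc⟩ : ∃ a b c : α, a ∈ S ∧ b ∈ S ∧ c ∈ S ∧ a ≠ b ∧ a ≠ c ∧ b ≠ c := by
    classical
    have h1 : 2 < S.toFinset.card := by
      rw [← Set.ncard_eq_toFinset_card']
      exact hS3
    obtain ⟨a, ha, b, hb, c, hc, hab, hac, hbc⟩ := Finset.two_lt_card.mp h1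
    exact ⟨a, b, c, Set.mem_toFinset.mp ha, Set.mem_toFinset.mp hb, Set.mem_toFinset.mp hc, hab, hac, hbc⟩
  have hswap : ∀ u v : α, u ∈ S → v ∈ S → ∀ x ∈ S, (Equiv.swap u v) x ∈ S := by
    intro u v hu hv x hx
    rcases eq_or_ne x u with h | h
    · rw [h, Equiv.swap_apply_left]
      exact hv
    · rcases eq_or_ne x v with h' | h'
      · rw [h', Equiv.swap_apply_right]
        exact hu
      · rw [Equiv.swap_apply_of_ne_of_ne h h']
        exact hx
  obtain ⟨y₁, hy₁G, hy₁N, hy₁⟩ := hlift2 (Equiv.swap a b) (hswap a b ha hb) (by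
    rw [Equiv.swap_inv]; exact hswap a b ha hb)
  obtain ⟨y₂, hy₂G, hy₂N, hy₂⟩ := hlift2 (Equiv.swap a c) (hswap a c ha hc) (by
    rw [Equiv.swap_inv]; exact hswap a c ha hc)
  -- action on S of inverses
  have hy₁i : ∀ x ∈ S, y₁⁻¹ x = Equiv.swap a b x := by
    intro x hx
    rw [Equiv.Perm.inv_eq_iff_eq, hy₁ _ (hswap a b ha hb x hx), Equiv.swap_apply_self]
  have hy₂i : ∀ x ∈ S, y₂⁻¹ x = Equiv.swap a c x := by
    intro x hx
    rw [Equiv.Perm.inv_eq_iff_eq, hy₂ _ (hswap a c ha hc x hx), Equiv.swap_apply_self]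
  let z : Equiv.Perm α := y₁⁻¹ * y₂⁻¹ * y₁ * y₂
  have hzG : z ∈ G := G.mul_mem (G.mul_mem (G.mul_mem (G.inv_mem hy₁G) (G.inv_mem hy₂G)) hy₁G) hy₂G
  have hzS : ∀ x ∈ S, z x = (Equiv.swap a b * Equiv.swap a c * Equiv.swap a b * Equiv.swap a c) x := by
    intro x hx
    simp only [z, Equiv.Perm.mul_apply]
    have h1 := hswap a c ha hc x hx
    have h2 := hswap a b ha hb _ h1
    have h3 := hswap a c ha hc _ h2
    rw [hy₂ x hx, hy₁ _ h1, hy₂i _ h2, hy₁i _ h3]
  -- z commutes with g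
  have hzcomm : z * g = g * z := by
    obtain ⟨k₁, hk₁⟩ : ∃ k : ℤ, y₁ * g * y₁⁻¹ = g ^ k := by
      have : y₁ * g * y₁⁻¹ ∈ Q := conj_mem_of_normalizer hy₁N (Subgroup.mem_zpowers g)
      obtain ⟨k, hk⟩ := Subgroup.mem_zpowers_iff.mp this
      exact ⟨k, hk.symm⟩
    obtain ⟨k₂, hk₂⟩ : ∃ k : ℤ, y₂ * g * y₂⁻¹ = g ^ k := by
      have : y₂ * g * y₂⁻¹ ∈ Q := conj_mem_of_normalizer hy₂N (Subgroup.mem_zpowers g)
      obtain ⟨k, hk⟩ := Subgroup.mem_zpowers_iff.mp this
      exact ⟨k, hk.symm⟩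
    have e1 : (y₁ * y₂) * g * (y₁ * y₂)⁻¹ = g ^ (k₂ * k₁) := by
      calc (y₁ * y₂) * g * (y₁ * y₂)⁻¹ = y₁ * (y₂ * g * y₂⁻¹) * y₁⁻¹ := by group
        _ = y₁ * g ^ k₂ * y₁⁻¹ := by rw [hk₂]
        _ = (y₁ * g * y₁⁻¹) ^ k₂ := by rw [conj_zpow]
        _ = g ^ (k₂ * k₁) := by rw [hk₁, ← zpow_mul, mul_comm]
    have e2 : (y₂ * y₁) * g * (y₂ * y₁)⁻¹ = g ^ (k₂ * k₁) := by
      calc (y₂ * y₁) * g * (y₂ * y₁)⁻¹ = y₂ * (y₁ * g * y₁⁻¹) * y₂⁻¹ := by group
        _ = y₂ * g ^ k₁ * y₂⁻¹ := by rw [hk₁]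
        _ = (y₂ * g * y₂⁻¹) ^ k₁ := by rw [conj_zpow]
        _ = g ^ (k₂ * k₁) := by rw [hk₂, ← zpow_mul]
    have e3 := e1.trans e2.symm
    calc z * g = (y₂ * y₁)⁻¹ * ((y₁ * y₂) * g * (y₁ * y₂)⁻¹) * (y₁ * y₂) := by
          simp only [z]; group
      _ = (y₂ * y₁)⁻¹ * ((y₂ * y₁) * g * (y₂ * y₁)⁻¹) * (y₁ * y₂) := by rw [e3]
      _ = g * z := by simp only [z]; group
  -- the point of the cycle
  obtain ⟨a₀, ha₀, hcyc⟩ := hgc
  have hzΓ : g (z a₀) ≠ z a₀ := by
    intro h
    have h1 : z (g a₀) = g (z a₀) := by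
      have := congrArg (fun π : Equiv.Perm α => π a₀) hzcomm
      simpa using this
    rw [h] at h1
    exact ha₀ (z.injective h1)
  obtain ⟨j, hj⟩ := hcyc hzΓ
  let t : Equiv.Perm α := (g ^ j)⁻¹ * z
  have htG : t ∈ G := G.mul_mem (G.inv_mem (G.zpow_mem hg j)) hzG
  have ht0 : t a₀ = a₀ := by
    simp only [t, Equiv.Perm.mul_apply]
    rw [← hj]
    simp
  have htcomm : t * g = g * t := by
    have h1 : Commute z g := hzcomm
    have h2 : Commute (g ^ j)⁻¹ g := ((Commute.refl g).zpow_left j).inv_left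
    exact h2.mul_left h1
  have htΓ : ∀ i : ℤ, t ((g ^ i) a₀) = (g ^ i) a₀ := by
    intro i
    have h1 : Commute t (g ^ i) := (show Commute t g from htcomm).zpow_right i
    have h2 := congrArg (fun π : Equiv.Perm α => π a₀) h1.eq
    simp only [Equiv.Perm.mul_apply] at h2
    rw [h2, ht0]
  let π : Equiv.Perm α := Equiv.swap a b * Equiv.swap a c * Equiv.swap a b * Equiv.swap a c
  have hπ3 : π.IsThreeCycle := by
    have h1 : (Equiv.swap a b * Equiv.swap a c).IsThreeCycle := Equiv.Perm.isThreeCycle_swap_mul_swap_same hab hac hbc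
    have h2 := h1.isThreeCycle_sq
    have : π = (Equiv.swap a b * Equiv.swap a c) ^ 2 := by
      simp only [π, pow_two, mul_assoc]
    rw [this]
    exact h2
  have htπ : t = π := by
    ext x
    by_cases hx : x ∈ S
    · have h1 := hzS x hx
      have h2 : π x ∈ S := by
        simp only [π, Equiv.Perm.mul_apply]
        exact hswap a b ha hb _ (hswap a c ha hc _ (hswap a b ha hb _ (hswap a c ha hc _ hx)))
      have h3 : g (π x) = π x := (hmemS _).mp h2
      have h4 : (g ^ j) (π x) = π x := by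
        have : Function.IsFixedPt (g ^ j) (π x) := by
          exact (show Function.IsFixedPt g (π x) from h3).perm_zpow j
        exact this
      simp only [t, Equiv.Perm.mul_apply]
      rw [h1]
      change (g ^ j)⁻¹ (π x) = π x
      rw [Equiv.Perm.inv_eq_iff_eq]
      exact h4.symm
    · have hgx : g x ≠ x := fun h => hx ((hmemS x).mpr h)
      obtain ⟨i, hi⟩ := hcyc hgx
      rw [← hi, htΓ i]
      have h1 : ∀ u ∈ S, (g ^ i) a₀ ≠ u := by
        intro u hu h
        rw [hi] at h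
        rw [h] at hx
        exact hx hu
      have h2 := h1 a ha
      have h3 := h1 b hb
      have h4 := h1 c hc
      simp only [π, Equiv.Perm.mul_apply]
      rw [Equiv.swap_apply_of_ne_of_ne h2 h4, Equiv.swap_apply_of_ne_of_ne h2 h3,
        Equiv.swap_apply_of_ne_of_ne h2 h4, Equiv.swap_apply_of_ne_of_ne h2 h3]
  rw [htπ] at htG
  exact Equiv.Perm.alternatingGroup_le_of_isPreprimitive_of_isThreeCycle_mem hG hπ3 htG

end Cfsg.Agent.S0713
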