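import Mathlib
import Cfsg.Agent.Lib.H08.Transfer2
import Cfsg.Statements.S0111
-- import your own Cfsg.Agent.* helpers here

set_option autoImplicit false
open Cfsg

namespace Cfsg.Agent.S0111


/-- The Thompson transfer lemma states that an involution of a Sylow 2-subgroup P lying outside a subgroup Q of index 2 in P either lies outside some normal subgroup of index 2 in G or is conjugate to an element of Q. -/
theorem result {G : Type*} [Group G] [Finite G] (P : Sylow 2 G) (Q : Subgroup G) (hQP : Q ≤ (P : Subgroup G)) (hQi : Q.relIndex (P : Subgroup G) = 2) (u : G) (hu : orderOf u = 2) (huP : u ∈ (P : Subgroup G)) (huQ : u ∉ Q) : (∃ M : Subgroup G, M.Normal ∧ M.index = 2 ∧ u ∉ M) ∨ ∃ g : G, g * u * g⁻¹ ∈ Q := by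
  classical
  haveI : Fact (Nat.Prime 2) := ⟨Nat.prime_two⟩
  by_cases hc : ∃ g : G, g * u * g⁻¹ ∈ Q
  · exact Or.inr hc
  left
  push Not at hc
  haveI : Fintype (G ⧸ (P : Subgroup G)) := Fintype.ofFinite _
  let H : Subgroup G := (P : Subgroup G)
  let Q₀ : Subgroup H := Q.subgroupOf H
  have hQ₀i : Q₀.index = 2 := hQi
  haveI hQ₀n : Q₀.Normal := Subgroup.normal_of_index_eq_two hQ₀i
  have hA : Nat.card (H ⧸ Q₀) = 2 := hQ₀i
  haveI hcyc : IsCyclic (H ⧸ Q₀) := isCyclic_of_prime_card hA
  letI instA : CommGroup (H ⧸ Q₀) := IsCyclic.commGroup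
  let φ : H →* H ⧸ Q₀ := QuotientGroup.mk' Q₀
  let c : H ⧸ Q₀ := φ ⟨u, huP⟩
  have hker : ∀ x : H, φ x = 1 ↔ (x : G) ∈ Q := fun x => QuotientGroup.eq_one_iff x
  have hc1 : c ≠ 1 := fun h => huQ ((hker _).mp h)
  have hAall : ∀ a : H ⧸ Q₀, a ≠ 1 → a = c := by
    obtain ⟨y, -, hy⟩ := (Nat.card_eq_two_iff' (1 : H ⧸ Q₀)).mp hA
    intro a ha
    rw [hy a ha, hy c hc1]
  have hc2 : c ^ 2 = 1 := by
    rw [← hA]
    exact pow_card_eq_one'
  have hu2 : u ^ 2 = 1 := by rw [← hu]; exact pow_orderOf_eq_one u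
  have hV := Cfsg.Agent.H08.transfer_involution H φ u hu2
  have hf : ∀ ω : G ⧸ H, (if h : (Quotient.out ω)⁻¹ * u * (Quotient.out ω) ∈ H then φ ⟨_, h⟩ else 1) =
      if u • ω = ω then c else 1 := by
    intro ω
    by_cases h : (Quotient.out ω)⁻¹ * u * (Quotient.out ω) ∈ H
    · rw [dif_pos h, if_pos ((Cfsg.Agent.H08.out_conj_mem_iff H u ω).mp h)]
      apply hAall
      intro h1
      have h2 := (hker _).mp h1
      apply hc (Quotient.out ω)⁻¹
      simpa using h2
    · rw [dif_neg h, if_neg]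
      intro h1
      exact h ((Cfsg.Agent.H08.out_conj_mem_iff H u ω).mpr h1)
  let S : Finset (G ⧸ H) := Finset.univ.filter (fun ω => u • ω = ω)
  have hV2 : MonoidHom.transfer φ u = c ^ S.card := by
    rw [hV]
    rw [Finset.prod_congr rfl (fun ω _ => hf ω), Finset.prod_ite, Finset.prod_const_one, mul_one,
      Finset.prod_const]
  -- parity
  have hodd : Odd S.card := by
    have hz : IsPGroup 2 (Subgroup.zpowers u) := by
      apply IsPGroup.of_card (n := 1)
      rw [Nat.card_zpowers, hu, pow_one]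
    have h1 := hz.card_modEq_card_fixedPoints (G ⧸ H)
    have h2 : Nat.card (MulAction.fixedPoints (Subgroup.zpowers u) (G ⧸ H)) = S.card := by
      rw [Nat.card_eq_fintype_card, Fintype.card_subtype]
      congr 1
      ext ω
      simp only [Finset.mem_filter, Finset.mem_univ, true_and, S, MulAction.mem_fixedPoints]
      constructor
      · intro h
        exact h ⟨u, Subgroup.mem_zpowers u⟩
      · intro h x
        obtain ⟨x, k, rfl⟩ := x
        have h3 : ∀ k : ℤ, u ^ k • ω = ω := by
          intro k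
          have : (u ^ k) • ω = ω := by
            have h4 : u ∈ MulAction.stabilizer G ω := h
            exact zpow_mem h4 k
          exact this
        exact h3 k
    rw [h2] at h1
    have h3 : ¬ 2 ∣ Nat.card (G ⧸ H) := P.not_dvd_index
    rw [Nat.odd_iff]
    have h4 : Nat.card (G ⧸ H) % 2 = S.card % 2 := h1
    omega
  obtain ⟨m, hm⟩ := hodd
  have hVc : MonoidHom.transfer φ u = c := by
    rw [hV2, hm, pow_succ, pow_mul, hc2, one_pow, one_mul]
  refine ⟨(MonoidHom.transfer φ).ker, inferInstance, ?_, ?_⟩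
  · rw [Subgroup.index_ker]
    have h1 : Nat.card (MonoidHom.transfer φ).range ∣ 2 := by
      rw [← hA]; exact Subgroup.card_subgroup_dvd_card _
    rcases (Nat.dvd_prime Nat.prime_two).mp h1 with h2 | h2
    · exfalso
      have h3 := (Subgroup.card_eq_one).mp h2
      have h4 : c ∈ (MonoidHom.transfer φ).range := ⟨u, hVc⟩
      rw [h3, Subgroup.mem_bot] at h4
      exact hc1 h4
    · exact h2
  · intro h
    rw [MonoidHom.mem_ker, hVc] at h
    exact hc1 h


end Cfsg.Agent.S0111
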