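import Cfsg.Statements.S1254
import Cfsg.Agent.Lib.H05.Dih
import Cfsg.Agent.Lib.H01.Fusion
-- import your own Cfsg.Agent.* helpers here

set_option autoImplicit false
open Cfsg

namespace Cfsg.Agent.S1254

/-- Let X be a finite group whose Sylow 2-subgroup S is dihedral (of order at least 4). Then X has a normal 2-complement if and only if, for every Klein four-subgroup U ≤ S, the normalizer N_X(U) is generated by C_X(U) and N_S(U). -/
theorem result {X : Type*} [Group X] [Finite X] (S : Sylow 2 X) (m : ℕ) (hm : 2 ≤ m) (eS : (S : Subgroup X) ≃* DihedralGroup m) : Cfsg.HasNormalPComplement 2 X ↔ ∀ U : Subgroup X, U ≤ S → IsKleinFour U → Subgroup.normalizer (U : Set X) = Subgroup.centralizer (U : Set X) ⊔ ((S : Subgroup X) ⊓ Subgroup.normalizer (U : Set X)) := by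
  classical
  haveI : Fact (Nat.Prime 2) := ⟨Nat.prime_two⟩
  constructor
  · rintro ⟨P, K, hK, hc⟩ U hU _
    have hcS : K.IsComplement' (S : Subgroup X) := by
      apply Subgroup.isComplement'_of_coprime
      · rw [Nat.card_congr (Sylow.equiv S P).toEquiv]
        exact hc.card_mul
      · have h1 : Nat.card K = (P : Subgroup X).index := hc.index_eq_card.symm.trans rfl
        obtain ⟨a, ha⟩ := IsPGroup.iff_card.mp S.isPGroup'
        rw [ha, h1]
        apply Nat.Coprime.pow_right
        exact ((Nat.Prime.coprime_iff_not_dvd Nat.prime_two).2 P.not_dvd_index).symm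
    have hdisj := hcS.disjoint
    have keyeq : ∀ n ∈ K, ∀ s ∈ (S : Subgroup X), ∀ u ∈ U, (n * s) * u * (n * s)⁻¹ ∈ (S : Subgroup X) →
        (n * s) * u * (n * s)⁻¹ = s * u * s⁻¹ := by
      intro n hn s hs u hu hin
      have h1 : s * u * s⁻¹ ∈ (S : Subgroup X) := (S : Subgroup X).mul_mem ((S : Subgroup X).mul_mem hs (hU hu)) ((S : Subgroup X).inv_mem hs)
      have h2 : (n * s) * u * (n * s)⁻¹ * (s * u * s⁻¹)⁻¹ ∈ (S : Subgroup X) := (S : Subgroup X).mul_mem hin ((S : Subgroup X).inv_mem h1)
      have h3 : (n * s) * u * (n * s)⁻¹ * (s * u * s⁻¹)⁻¹ = n * ((s * u * s⁻¹) * n⁻¹ * (s * u * s⁻¹)⁻¹) := by group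
      have h4 : (n * s) * u * (n * s)⁻¹ * (s * u * s⁻¹)⁻¹ ∈ K := by
        rw [h3]
        exact K.mul_mem hn (hK.conj_mem _ (K.inv_mem hn) _)
      have h5 := Subgroup.disjoint_def.mp hdisj h4 h2
      exact eq_of_mul_inv_eq_one h5
    apply le_antisymm
    · intro g hg
      obtain ⟨⟨⟨n, hn⟩, ⟨s, hs⟩⟩, hns, -⟩ := hcS.existsUnique g
      have hns' : n * s = g := hns
      subst hns'
      have hin : ∀ u ∈ U, (n * s) * u * (n * s)⁻¹ ∈ U := fun u hu => (Subgroup.mem_normalizer_iff.mp hg u).mp hu
      have hsN : s ∈ Subgroup.normalizer (U : Set X) := by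
        apply H05.nmem_of_conj
        intro u hu
        rw [← keyeq n hn s hs u hu (hU (hin u hu))]
        exact hin u hu
      have hnC : n ∈ Subgroup.centralizer (U : Set X) := by
        rw [Subgroup.mem_centralizer_iff]
        intro u hu
        have h1 : s⁻¹ * u * s ∈ U := by
          have h2 := (Subgroup.mem_normalizer_iff.mp (Subgroup.inv_mem _ hsN) u).mp hu
          simpa using h2
        have h2 := keyeq n hn s hs _ h1 (hU (hin _ h1))
        have h3 : s * (s⁻¹ * u * s) * s⁻¹ = u := by group
        rw [h3] at h2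
        have h4 : n * s * (s⁻¹ * u * s) * (n * s)⁻¹ = n * u * n⁻¹ := by group
        rw [h4] at h2
        calc u * n = n * u * n⁻¹ * n := by rw [h2]
          _ = n * u := by group
      exact Subgroup.mul_mem _ (Subgroup.mem_sup_left hnC) (Subgroup.mem_sup_right ⟨hs, hsN⟩)
    · apply sup_le
      · intro c hc
        rw [Subgroup.mem_centralizer_iff] at hc
        apply H05.nmem_of_conj
        intro u hu
        have h1 := hc u hu
        rw [← h1]
        simpa using hu
      · exact inf_le_right
  · intro h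
    apply Cfsg.Agent.H01.hasNormalPComplement_of_fusion S
    have hmain := H05.dih_fus S hm eS (fun a b => ∃ v ∈ (S : Subgroup X), v * b * v⁻¹ = a)
      (by
        rintro u v ⟨w, hw, rfl⟩
        exact ⟨w⁻¹, (S : Subgroup X).inv_mem hw, by group⟩)
      (by
        rintro u v w ⟨a, ha, rfl⟩ ⟨b, hb, rfl⟩
        exact ⟨a * b, (S : Subgroup X).mul_mem ha hb, by group⟩)
      (fun s hs u hu => ⟨s, hs, rfl⟩)
      (by
        intro U hU hk g hg u hu
        let L : Subgroup X :=
          { carrier := {g | g ∈ Subgroup.normalizer (U : Set X) ∧ ∀ u ∈ U, ∃ v ∈ (S : Subgroup X), v * u * v⁻¹ = g * u * g⁻¹}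
            one_mem' := ⟨Subgroup.one_mem _, fun u hu => ⟨1, Subgroup.one_mem _, rfl⟩⟩
            mul_mem' := by
              rintro a b ⟨ha, ha2⟩ ⟨hb, hb2⟩
              refine ⟨Subgroup.mul_mem _ ha hb, fun u hu => ?_⟩
              have h1 : b * u * b⁻¹ ∈ U := (Subgroup.mem_normalizer_iff.mp hb u).mp hu
              obtain ⟨v, hv, hv2⟩ := ha2 _ h1
              obtain ⟨w, hw, hw2⟩ := hb2 _ hu
              refine ⟨v * w, Subgroup.mul_mem _ hv hw, ?_⟩
              rw [mul_inv_rev]
              calc v * w * u * (w⁻¹ * v⁻¹) = v * (w * u * w⁻¹) * v⁻¹ := by group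
                _ = v * (b * u * b⁻¹) * v⁻¹ := by rw [hw2]
                _ = a * (b * u * b⁻¹) * a⁻¹ := hv2
                _ = _ := by group
            inv_mem' := by
              rintro a ⟨ha, ha2⟩
              refine ⟨Subgroup.inv_mem _ ha, fun u hu => ?_⟩
              have h1 : a⁻¹ * u * a⁻¹⁻¹ ∈ U := (Subgroup.mem_normalizer_iff.mp (Subgroup.inv_mem _ ha) u).mp hu
              obtain ⟨v, hv, hv2⟩ := ha2 _ h1
              refine ⟨v⁻¹, Subgroup.inv_mem _ hv, ?_⟩
              have h3 : a * (a⁻¹ * u * a⁻¹⁻¹) * a⁻¹ = u := by group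
              rw [h3] at hv2
              conv_lhs => rw [← hv2]
              group }
        have hle : Subgroup.centralizer (U : Set X) ⊔ ((S : Subgroup X) ⊓ Subgroup.normalizer (U : Set X)) ≤ L := by
          apply sup_le
          · intro c hc
            rw [Subgroup.mem_centralizer_iff] at hc
            refine ⟨?_, fun u hu => ⟨1, Subgroup.one_mem _, ?_⟩⟩
            · apply H05.nmem_of_conj
              intro u hu
              have h1 := hc u hu
              rw [← h1]
              simpa using hu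
            · have h1 := hc u hu
              rw [← h1]
              group
          · rintro c ⟨hc1, hc2⟩
            exact ⟨hc2, fun u hu => ⟨c, hc1, rfl⟩⟩
        have hgL := hle ((h U hU hk).le hg)
        exact hgL.2 u hu)
    intro x hx u hu
    exact hmain x hx u hu


end Cfsg.Agent.S1254
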