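import Cfsg.Statements.S4359
import Mathlib

set_option autoImplicit false
set_option linter.unusedVariables false
set_option linter.style.haveILetI false
set_option linter.unusedSectionVars false
set_option linter.unusedSimpArgs false

open Cfsg
open scoped commutatorElement Pointwise

namespace Cfsg.Agent.S4359

section Basics

variable {G : Type*} [Group G] [Finite G]

theorem nrm_of_conj {B : Subgroup G} {k : G} (h : ∀ a ∈ B, k * a * k⁻¹ ∈ B) :
    k ∈ Subgroup.normalizer ((B : Subgroup G) : Set G) := by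
  rw [Subgroup.mem_normalizer_iff]
  intro x
  refine ⟨h x, fun hx => ?_⟩
  let φ : B → B := fun a => ⟨k * a.1 * k⁻¹, h _ a.2⟩
  have hφ : Function.Injective φ := by
    intro a b hab
    have : k * a.1 * k⁻¹ = k * b.1 * k⁻¹ := congrArg Subtype.val hab
    exact Subtype.ext (by simpa using this)
  have hs : Function.Surjective φ := Finite.surjective_of_injective hφ
  obtain ⟨a, ha⟩ := hs ⟨_, hx⟩
  have h2 : k * a.1 * k⁻¹ = k * x * k⁻¹ := congrArg Subtype.val ha
  have h3 : a.1 = x := by simpa using h2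
  exact h3 ▸ a.2

theorem card_inf_mul_relIndex (H K : Subgroup G) :
    Nat.card ↥(H ⊓ K) * H.relIndex K = Nat.card K := by
  have h1 := Subgroup.card_mul_index ((H ⊓ K).subgroupOf K)
  rw [Nat.card_congr (Subgroup.subgroupOfEquivOfLe (inf_le_right : H ⊓ K ≤ K)).toEquiv] at h1
  have h2 : ((H ⊓ K).subgroupOf K).index = H.relIndex K := Subgroup.inf_relIndex_right H K
  rwa [h2] at h1

theorem conj_mem_of_index {p : ℕ} [hp : Fact p.Prime] {N E : Subgroup G} (hNE : N ≤ E)
    (hE : IsPGroup p E) (hc : Nat.card E = p * Nat.card N) {e n : G} (he : e ∈ E) (hn : n ∈ N) :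
    e * n * e⁻¹ ∈ N := by
  have hcard : Nat.card (N.subgroupOf E) = Nat.card N :=
    Nat.card_congr (Subgroup.subgroupOfEquivOfLe hNE).toEquiv
  have hpos : 0 < Nat.card N := Nat.card_pos
  have hidx : (N.subgroupOf E).index = p := by
    have h1 := Subgroup.card_mul_index (N.subgroupOf E)
    rw [hcard, hc] at h1
    have : Nat.card N * (N.subgroupOf E).index = Nat.card N * p := by rw [h1]; ring
    exact Nat.eq_of_mul_eq_mul_left hpos this
  have hmin : (Nat.card E).minFac = p := by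
    obtain ⟨m, hm⟩ := IsPGroup.iff_card.1 hE
    rw [hm]
    have hm0 : m ≠ 0 := by
      intro h0
      rw [h0, pow_zero] at hm
      rw [hc] at hm
      have := hp.out.one_lt
      nlinarith
    exact Nat.Prime.pow_minFac hp.out hm0
  have hnorm : (N.subgroupOf E).Normal :=
    Subgroup.normal_of_index_eq_minFac_card (by rw [hidx, hmin])
  exact (Subgroup.normal_subgroupOf_iff hNE).1 hnorm n e hn he

theorem eq_top_of_index {p : ℕ} [hp : Fact p.Prime] {A B E : Subgroup G} (hAB : A ≤ B) (hBE : B ≤ E)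
    (hc : Nat.card E = p * Nat.card A) (hne : A ≠ B) : B = E := by
  obtain ⟨m, hm⟩ := Subgroup.card_dvd_of_le hAB
  obtain ⟨m', hm'⟩ := Subgroup.card_dvd_of_le hBE
  have hpos : 0 < Nat.card A := Nat.card_pos
  have hmm : m * m' = p := by
    have : Nat.card A * (m * m') = Nat.card A * p := by
      rw [← mul_assoc, ← hm, ← hm', hc]; ring
    exact Nat.eq_of_mul_eq_mul_left hpos this
  have hm1 : m ≠ 1 := by
    intro h
    rw [h, mul_one] at hm
    exact hne (Subgroup.eq_of_le_of_card_ge hAB hm.le)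
  have hd : m ∣ p := ⟨m', hmm.symm⟩
  rcases (Nat.dvd_prime hp.out).1 hd with h | h
  · exact absurd h hm1
  · have : m' = 1 := by
      rw [h] at hmm
      have hp0 : 0 < p := hp.out.pos
      nlinarith [Nat.eq_of_mul_eq_mul_left hp0 (hmm.trans (mul_one p).symm)]
    rw [this, mul_one] at hm'
    exact Subgroup.eq_of_le_of_card_ge hBE hm'.le

/-- intersection over an integer range -/
def R (P : ℤ → Subgroup G) (l r : ℤ) : Subgroup G := ⨅ k : ℤ, ⨅ (_ : l ≤ k ∧ k ≤ r), P k

theorem mem_R {P : ℤ → Subgroup G} {l r : ℤ} {x : G} :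
    x ∈ R P l r ↔ ∀ k, l ≤ k → k ≤ r → x ∈ P k := by
  simp only [R, Subgroup.mem_iInf]
  constructor
  · intro h k h1 h2; exact h k ⟨h1, h2⟩
  · intro h k hk; exact h k hk.1 hk.2

theorem mem_R_le_aux {P : ℤ → Subgroup G} {m m₀ : ℕ} {j : ℤ} (h : m₀ = m + 1) :
    R P j (j + (m₀ : ℤ)) ≤ R P j (j + (m : ℤ)) := by
  intro a ha
  rw [mem_R] at ha ⊢
  intro k h1 h2
  exact ha k h1 (by subst h; push_cast; omega)

/-- the position interval `[i, j]`. -/
def I (P : ℤ → Subgroup G) (t : ℕ) (i j : ℤ) : Subgroup G := R P j (i + t - 1)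

/-- the root group at position `x`. -/
def U (P : ℤ → Subgroup G) (t : ℕ) (x : ℤ) : Subgroup G := I P t x x

theorem mem_I {P : ℤ → Subgroup G} {t : ℕ} {i j : ℤ} {x : G} :
    x ∈ I P t i j ↔ ∀ k, j ≤ k → k ≤ i + t - 1 → x ∈ P k := mem_R

theorem I_mono {P : ℤ → Subgroup G} {t : ℕ} {i j i' j' : ℤ} (h1 : i' ≤ i) (h2 : j ≤ j') :
    I P t i j ≤ I P t i' j' := by
  intro x hx
  rw [mem_I] at hx ⊢
  intro k h3 h4
  exact hx k (by omega) (by omega)

theorem mem_I_of {P : ℤ → Subgroup G} {t : ℕ} {i j i' j' i'' j'' : ℤ} {x : G}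
    (h1 : x ∈ I P t i j) (h2 : x ∈ I P t i' j')
    (h : ∀ k, j'' ≤ k → k ≤ i'' + t - 1 → (j ≤ k ∧ k ≤ i + t - 1) ∨ (j' ≤ k ∧ k ≤ i' + t - 1)) :
    x ∈ I P t i'' j'' := by
  rw [mem_I] at h1 h2 ⊢
  intro k h3 h4
  rcases h k h3 h4 with ⟨h5, h6⟩ | ⟨h5, h6⟩
  · exact h1 k h5 h6
  · exact h2 k h5 h6

/-- the system of subgroups -/
structure Sys (P : ℤ → Subgroup G) (g : G) (p t : ℕ) : Prop where
  shift : ∀ k x, x ∈ P k → g⁻¹ * x * g ∈ P (k + 1)
  shift' : ∀ k x, x ∈ P (k + 1) → g * x * g⁻¹ ∈ P k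
  pg : ∀ k, IsPGroup p (P k)
  card : ∀ (l : ℤ) (k : ℕ), k ≤ t → Nat.card (R P l (l + k)) = p ^ (t - k)

/-- commuting of two root groups -/
def Cm (P : ℤ → Subgroup G) (t : ℕ) (x y : ℤ) : Prop :=
  ∀ a ∈ U P t x, ∀ b ∈ U P t y, a * b = b * a

theorem Cm.symm {P : ℤ → Subgroup G} {t : ℕ} {x y : ℤ} (h : Cm P t x y) : Cm P t y x :=
  fun a ha b hb => (h b hb a ha).symm

variable {P : ℤ → Subgroup G} {g : G} {p t : ℕ} [hp : Fact p.Prime]

theorem Sys.card_I (hS : Sys P g p t) {i j : ℤ} (h : i - 1 ≤ j) (h' : j ≤ i + t - 1) :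
    Nat.card (I P t i j) = p ^ (j - i + 1).toNat := by
  have hk : ((t - (j - i + 1).toNat : ℕ) : ℤ) = i + t - 1 - j := by omega
  have h2 := hS.card j (t - (j - i + 1).toNat) (by omega)
  have h3 : I P t i j = R P j (j + ((t - (j - i + 1).toNat : ℕ) : ℤ)) := by
    rw [hk]; unfold I; congr 1; ring
  rw [h3, h2]
  congr 1; omega

theorem Sys.card_U (hS : Sys P g p t) (x : ℤ) (ht : 1 ≤ t) : Nat.card (U P t x) = p := by
  have h := hS.card_I (i := x) (j := x) (by omega) (by omega)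
  have h1 : (x - x + 1).toNat = 1 := by omega
  rw [h1, pow_one] at h
  exact h

theorem Sys.I_bot (hS : Sys P g p t) (i : ℤ) : I P t i (i - 1) = ⊥ := by
  have h := hS.card_I (i := i) (j := i - 1) (by omega) (by omega)
  have h1 : (i - 1 - i + 1).toNat = 0 := by omega
  rw [h1, pow_zero] at h
  exact Subgroup.eq_bot_of_card_eq _ h

theorem Sys.exists_ne_one (hS : Sys P g p t) (x : ℤ) (ht : 1 ≤ t) :
    ∃ z ∈ U P t x, z ≠ 1 := by
  have h := hS.card_U x ht
  have h1 : 1 < Nat.card (U P t x) := by rw [h]; exact hp.out.one_lt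
  haveI : Nontrivial (U P t x) := Finite.one_lt_card_iff_nontrivial.1 h1
  obtain ⟨a, ha⟩ := exists_ne (1 : U P t x)
  exact ⟨a.1, a.2, fun h => ha (Subtype.ext h)⟩

theorem Sys.gen0 (hS : Sys P g p t) (s : ℕ) : ∀ (i : ℤ), (s : ℤ) + 1 ≤ t → ∀ H : Subgroup G,
    (∀ x, i ≤ x → x ≤ i + s → U P t x ≤ H) → I P t i (i + s) ≤ H := by
  induction s with
  | zero =>
    intro i _ H h
    simpa [U] using h i le_rfl (by simp)
  | succ s ih =>
    intro i hs H h
    push_cast at hs
    have hA := ih i (by omega) H (fun x h1 h2 => h x h1 (by push_cast; omega))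
    have hU := h (i + s + 1) (by omega) (by push_cast; omega)
    have hE : (i + ((s + 1 : ℕ) : ℤ)) = i + s + 1 := by push_cast; ring
    rw [hE]
    have ht : 1 ≤ t := by omega
    have hAE : I P t i (i + s) ≤ I P t i (i + s + 1) := I_mono le_rfl (by omega)
    have hVE : U P t (i + s + 1) ≤ I P t i (i + s + 1) := I_mono (by omega) le_rfl
    have hcA := hS.card_I (i := i) (j := i + s) (by omega) (by omega)
    have hcE := hS.card_I (i := i) (j := i + s + 1) (by omega) (by omega)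
    have h1 : (i + s - i + 1).toNat = s + 1 := by omega
    have h2 : (i + s + 1 - i + 1).toNat = s + 2 := by omega
    rw [h1] at hcA
    rw [h2] at hcE
    have hne : I P t i (i + s) ≠ I P t i (i + s) ⊔ U P t (i + s + 1) := by
      intro heq
      have hV : U P t (i + s + 1) ≤ I P t i (i + s) := by rw [heq]; exact le_sup_right
      obtain ⟨z, hz, hz1⟩ := hS.exists_ne_one (i + s + 1) ht
      apply hz1
      have h3 : z ∈ I P t (i + s + 1) (i + s + 1 - 1) := by
        refine mem_I_of (hV hz) hz ?_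
        intro k h4 h5
        by_cases h6 : k ≤ i + t - 1
        · left; exact ⟨by omega, h6⟩
        · right; exact ⟨by omega, by omega⟩
      rw [hS.I_bot] at h3
      exact (Subgroup.mem_bot).1 h3
    have h4 := eq_top_of_index (p := p) (le_sup_left : I P t i (i + s) ≤ _) (sup_le hAE hVE)
      (by rw [hcA, hcE]; ring) hne
    rw [← h4]
    exact sup_le hA hU

theorem Sys.gen (hS : Sys P g p t) {i j : ℤ} (hj : i - 1 ≤ j) (hs : j - i ≤ t - 1) {H : Subgroup G}
    (h : ∀ x, i ≤ x → x ≤ j → U P t x ≤ H) : I P t i j ≤ H := by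
  by_cases h0 : j = i - 1
  · subst h0
    rw [hS.I_bot]
    exact bot_le
  · have h1 : j = i + ((j - i).toNat : ℤ) := by omega
    rw [h1]
    refine hS.gen0 _ i (by omega) H ?_
    intro x h2 h3
    exact h x h2 (by omega)

theorem Sys.comm_mem (hS : Sys P g p t) {i j : ℤ} (hij : i < j) (hs : j - i ≤ t - 1) {x y : G}
    (hx : x ∈ U P t i) (hy : y ∈ U P t j) : ⁅x, y⁆ ∈ I P t (i + 1) (j - 1) := by
  have hE : IsPGroup p (I P t i j) := by
    refine (hS.pg j).to_le ?_
    intro a ha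
    rw [mem_I] at ha
    exact ha j le_rfl (by omega)
  have hx1 : x ∈ I P t i (j - 1) := I_mono (t := t) (P := P) le_rfl (by omega) hx
  have hy2 : y ∈ I P t (i + 1) j := I_mono (t := t) (P := P) (by omega) le_rfl hy
  have hxE : x ∈ I P t i j := I_mono (t := t) (P := P) le_rfl (by omega) hx
  have hyE : y ∈ I P t i j := I_mono (t := t) (P := P) (by omega) le_rfl hy
  have hcE := hS.card_I (i := i) (j := j) (by omega) (by omega)
  have hc1 := hS.card_I (i := i) (j := j - 1) (by omega) (by omega)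
  have hc2 := hS.card_I (i := i + 1) (j := j) (by omega) (by omega)
  have e1 : (j - i + 1).toNat = (j - 1 - i + 1).toNat + 1 := by omega
  have e2 : (j - (i + 1) + 1).toNat = (j - 1 - i + 1).toNat := by omega
  have hcE1 : Nat.card (I P t i j) = p * Nat.card (I P t i (j - 1)) := by
    rw [hcE, hc1, e1, pow_succ]; ring
  have hcE2 : Nat.card (I P t i j) = p * Nat.card (I P t (i + 1) j) := by
    rw [hcE, hc2, e1, e2, pow_succ]; ring
  have m1 : ⁅x, y⁆ ∈ I P t i (j - 1) := by
    rw [commutatorElement_def]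
    have h1 : y * x⁻¹ * y⁻¹ ∈ I P t i (j - 1) :=
      conj_mem_of_index (I_mono le_rfl (by omega)) hE hcE1 hyE (inv_mem hx1)
    have h2 : x * y * x⁻¹ * y⁻¹ = x * (y * x⁻¹ * y⁻¹) := by group
    rw [h2]
    exact mul_mem hx1 h1
  have m2 : ⁅x, y⁆ ∈ I P t (i + 1) j := by
    rw [commutatorElement_def]
    have h1 : x * y * x⁻¹ ∈ I P t (i + 1) j :=
      conj_mem_of_index (I_mono (by omega) le_rfl) hE hcE2 hxE hy2
    exact mul_mem h1 (inv_mem hy2)
  refine mem_I_of m1 m2 ?_
  intro k h3 h4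
  by_cases h6 : k ≤ i + t - 1
  · left; exact ⟨by omega, h6⟩
  · right; exact ⟨by omega, by omega⟩

theorem Sys.comm_iv (hS : Sys P g p t) {i₁ j₁ i₂ j₂ : ℤ} (h1 : i₁ - 1 ≤ j₁) (h1' : j₁ - i₁ ≤ t - 1)
    (h2 : i₂ - 1 ≤ j₂) (h2' : j₂ - i₂ ≤ t - 1)
    (hc : ∀ x y, i₁ ≤ x → x ≤ j₁ → i₂ ≤ y → y ≤ j₂ → Cm P t x y) {a b : G}
    (ha : a ∈ I P t i₁ j₁) (hb : b ∈ I P t i₂ j₂) : a * b = b * a := by
  have h3 : I P t i₂ j₂ ≤ Subgroup.centralizer ({a} : Set G) := by
    refine hS.gen h2 h2' ?_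
    intro y hy1 hy2 b' hb'
    rw [Subgroup.mem_centralizer_singleton_iff]
    have h4 : I P t i₁ j₁ ≤ Subgroup.centralizer ({b'} : Set G) := by
      refine hS.gen h1 h1' ?_
      intro x hx1 hx2 a' ha'
      rw [Subgroup.mem_centralizer_singleton_iff]
      exact hc x y hx1 hx2 hy1 hy2 a' ha' b' hb'
    have h5 := h4 ha
    rw [Subgroup.mem_centralizer_singleton_iff] at h5
    exact h5.symm
  have h5 := h3 hb
  rw [Subgroup.mem_centralizer_singleton_iff] at h5
  exact h5.symm

theorem Sys.climb (hS : Sys P g p t) {D : ℤ} (hD1 : 1 ≤ D) (hDt : D ≤ t - 1)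
    (hH : ∀ x y : ℤ, x - y < D → y - x < D → Cm P t x y)
    (hnc : ∀ i : ℤ, ¬ Cm P t i (i + D)) {i a : ℤ} {x y : G}
    (hx : x ∈ U P t i) (hy : y ∈ U P t (i + D)) (ha1 : 1 ≤ a) (ha : a + D ≤ t - 1)
    (hc : ⁅x, y⁆ ∈ I P t (i + a) (i + D - 1)) : ⁅x, y⁆ ∈ I P t (i + a + 1) (i + D - 1) := by
  have ht : 1 ≤ t := by omega
  by_cases haD : D ≤ a
  · have hc' : ⁅x, y⁆ ∈ I P t (i + D) (i + D - 1) := I_mono (by omega) le_rfl hc
    rw [hS.I_bot, Subgroup.mem_bot] at hc'
    rw [hc']
    exact one_mem _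
  push Not at haD
  obtain ⟨z, hz, hz1⟩ := hS.exists_ne_one (i + a + D) ht
  have hzy : z * y = y * z := hH (i + a + D) (i + D) (by omega) (by omega) z hz y hy
  have hw : ⁅x, z⁆ ∈ I P t (i + 1) (i + a + D - 1) :=
    hS.comm_mem (i := i) (j := i + a + D) (by omega) (by omega) hx hz
  have hw' : ⁅z, x⁆ ∈ I P t (i + 1) (i + a + D - 1) := by
    rw [← commutatorElement_inv]
    exact inv_mem hw
  obtain ⟨w, hwdef⟩ : ∃ w, w = ⁅z, x⁆ := ⟨_, rfl⟩
  rw [← hwdef] at hw'
  have hyw : y * w = w * y := by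
    refine hS.comm_iv (i₁ := i + D) (j₁ := i + D) (i₂ := i + 1) (j₂ := i + a + D - 1)
      (by omega) (by omega) (by omega) (by omega) ?_ hy hw'
    intro x' y' h1 h2 h3 h4
    exact hH x' y' (by omega) (by omega)
  have hcw : ⁅x, y⁆ * w = w * ⁅x, y⁆ := by
    refine hS.comm_iv (i₁ := i + a) (j₁ := i + D - 1) (i₂ := i + 1) (j₂ := i + a + D - 1)
      (by omega) (by omega) (by omega) (by omega) ?_ hc hw'
    intro x' y' h1 h2 h3 h4
    exact hH x' y' (by omega) (by omega)
  have hzx : z * x * z⁻¹ = w * x := by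
    rw [hwdef, commutatorElement_def]; group
  have hzy' : z * y * z⁻¹ = y := by
    rw [hzy]; group
  have hw_y : w⁻¹ * y⁻¹ = y⁻¹ * w⁻¹ := by
    have := congrArg (fun u => u⁻¹) hyw
    simpa using this
  have hconj : z * ⁅x, y⁆ * z⁻¹ = ⁅x, y⁆ := by
    calc z * ⁅x, y⁆ * z⁻¹
        = (z * x * z⁻¹) * (z * y * z⁻¹) * (z * x * z⁻¹)⁻¹ * (z * y * z⁻¹)⁻¹ := by
          rw [commutatorElement_def]; group
      _ = (w * x) * y * (w * x)⁻¹ * y⁻¹ := by rw [hzx, hzy']
      _ = w * x * y * x⁻¹ * (w⁻¹ * y⁻¹) := by group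
      _ = w * x * y * x⁻¹ * (y⁻¹ * w⁻¹) := by rw [hw_y]
      _ = w * ⁅x, y⁆ * w⁻¹ := by rw [commutatorElement_def]; group
      _ = ⁅x, y⁆ := by rw [← hcw]; group
  have hcz : ⁅x, y⁆ ∈ Subgroup.centralizer ({z} : Set G) := by
    rw [Subgroup.mem_centralizer_singleton_iff]
    have : z * ⁅x, y⁆ = ⁅x, y⁆ * z := by
      calc z * ⁅x, y⁆ = z * ⁅x, y⁆ * z⁻¹ * z := by group
        _ = ⁅x, y⁆ * z := by rw [hconj]
    exact this.symm
  by_contra hnot
  have hBC : I P t (i + a + 1) (i + D - 1) ≤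
      I P t (i + a) (i + D - 1) ⊓ Subgroup.centralizer ({z} : Set G) := by
    refine le_inf (I_mono (by omega) le_rfl) ?_
    refine hS.gen (by omega) (by omega) ?_
    intro x' h1 h2 a' ha'
    rw [Subgroup.mem_centralizer_singleton_iff]
    exact hH x' (i + a + D) (by omega) (by omega) a' ha' z hz
  have hc1 := hS.card_I (i := i + a) (j := i + D - 1) (by omega) (by omega)
  have hc2 := hS.card_I (i := i + a + 1) (j := i + D - 1) (by omega) (by omega)
  have e1 : (i + D - 1 - (i + a) + 1).toNat = (i + D - 1 - (i + a + 1) + 1).toNat + 1 := by omega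
  have hcard : Nat.card (I P t (i + a) (i + D - 1)) =
      p * Nat.card (I P t (i + a + 1) (i + D - 1)) := by
    rw [hc1, hc2, e1, pow_succ]; ring
  have hne : I P t (i + a + 1) (i + D - 1) ≠
      I P t (i + a) (i + D - 1) ⊓ Subgroup.centralizer ({z} : Set G) := by
    intro heq
    apply hnot
    rw [heq]
    exact ⟨hc, hcz⟩
  have hCA := eq_top_of_index (p := p) hBC inf_le_left hcard hne
  have hUa : U P t (i + a) ≤ Subgroup.centralizer ({z} : Set G) := by
    have h1 : U P t (i + a) ≤ I P t (i + a) (i + D - 1) := I_mono le_rfl (by omega)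
    rw [← hCA] at h1
    exact h1.trans inf_le_right
  apply hnc (i + a)
  -- the root group at `i + a + D` is generated by `z`
  have hzp : U P t (i + a + D) ≤ Subgroup.centralizer ((U P t (i + a)) : Set G) := by
    have h2 : Subgroup.zpowers z = U P t (i + a + D) := by
      refine eq_top_of_index (p := p) (A := ⊥) bot_le ?_ ?_ ?_
      · exact (Subgroup.zpowers_le).2 hz
      · rw [hS.card_U _ ht]; simp
      · intro h3
        have : z ∈ (⊥ : Subgroup G) := by rw [h3]; exact Subgroup.mem_zpowers z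
        exact hz1 ((Subgroup.mem_bot).1 this)
    rw [← h2, Subgroup.zpowers_le]
    rw [Subgroup.mem_centralizer_iff]
    intro a' ha'
    have h4 := hUa ha'
    rw [Subgroup.mem_centralizer_singleton_iff] at h4
    exact h4
  intro a' ha' b' hb'
  have h5 := hzp hb'
  rw [Subgroup.mem_centralizer_iff] at h5
  exact h5 a' ha'

theorem Sys.climbN (hS : Sys P g p t) {D : ℤ} (hD1 : 1 ≤ D) (hDt : D ≤ t - 1)
    (hH : ∀ x y : ℤ, x - y < D → y - x < D → Cm P t x y)
    (hnc : ∀ i : ℤ, ¬ Cm P t i (i + D)) {i : ℤ} {x y : G}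
    (hx : x ∈ U P t i) (hy : y ∈ U P t (i + D)) (m : ℕ) (hm : 1 + (m : ℤ) + D ≤ t) :
    ⁅x, y⁆ ∈ I P t (i + 1 + m) (i + D - 1) := by
  induction m with
  | zero =>
    have := hS.comm_mem (i := i) (j := i + D) (by omega) (by omega) hx hy
    simpa using this
  | succ m ih =>
    push_cast at hm ⊢
    have h1 := ih (by omega)
    have h2 := hS.climb hD1 hDt hH hnc hx hy (a := 1 + m) (by omega) (by omega)
      (by
        have e : i + (1 + (m : ℤ)) = i + 1 + m := by ring
        rw [e]; exact h1)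
    have e : i + (1 + (m : ℤ)) + 1 = i + 1 + (m + 1) := by ring
    rw [e] at h2
    exact h2

/-- reversal -/
def mirror (P : ℤ → Subgroup G) : ℤ → Subgroup G := fun k => P (-k)

theorem R_mirror (P : ℤ → Subgroup G) (l r : ℤ) : R (mirror P) l r = R P (-r) (-l) := by
  ext x
  rw [mem_R, mem_R]
  constructor
  · intro h k h1 h2
    have := h (-k) (by omega) (by omega)
    simpa [mirror] using this
  · intro h k h1 h2
    exact h (-k) (by omega) (by omega)

theorem Sys.mirror (hS : Sys P g p t) : Sys (mirror P) g⁻¹ p t where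
  shift := by
    intro k x hx
    have h1 : x ∈ P (-k - 1 + 1) := by
      have e : -k - 1 + 1 = -k := by ring
      rw [e]; exact hx
    have h2 := hS.shift' (-k - 1) x h1
    have e : -(k + 1) = -k - 1 := by ring
    show _ ∈ P (-(k + 1))
    rw [e, inv_inv]
    exact h2
  shift' := by
    intro k x hx
    have h2 := hS.shift (-(k + 1)) x hx
    have e : -(k + 1) + 1 = -k := by ring
    rw [e] at h2
    rw [inv_inv]
    exact h2
  pg := fun k => hS.pg (-k)
  card := by
    intro l k hk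
    rw [R_mirror]
    have h1 := hS.card (-(l + k)) k hk
    have e : -(l + k) + (k : ℤ) = -l := by ring
    rw [e] at h1
    exact h1

theorem I_mirror (P : ℤ → Subgroup G) (t : ℕ) (i j : ℤ) :
    I (mirror P) t i j = I P t (-j - t + 1) (-i - t + 1) := by
  unfold I
  rw [R_mirror]
  congr 1 <;> ring

theorem U_mirror (P : ℤ → Subgroup G) (t : ℕ) (x : ℤ) :
    U (mirror P) t x = U P t (-x - t + 1) := I_mirror P t x x

theorem Cm_mirror (P : ℤ → Subgroup G) (t : ℕ) (x y : ℤ) :
    Cm (mirror P) t x y ↔ Cm P t (-x - t + 1) (-y - t + 1) := by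
  unfold Cm
  rw [U_mirror, U_mirror]

/-- the key inequality -/
theorem Sys.key (hS : Sys P g p t) {D : ℤ} (hD1 : 1 ≤ D) (hDt : D ≤ t - 1)
    (hH : ∀ x y : ℤ, x - y < D → y - x < D → Cm P t x y)
    (hnc : ∀ i : ℤ, ¬ Cm P t i (i + D)) : 2 * (t : ℤ) ≤ 3 * D := by
  by_contra hcon
  push Not at hcon
  have h0 := hnc 0
  unfold Cm at h0
  push Not at h0
  obtain ⟨x, hx, y, hy, hxy⟩ := h0
  rw [zero_add] at hy
  have hx0 : x ∈ U P t (0 : ℤ) := hx
  have hne : ⁅x, y⁆ ≠ 1 := by
    intro h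
    exact hxy ((commutatorElement_eq_one_iff_mul_comm).1 h)
  obtain ⟨m, hm⟩ : ∃ m : ℕ, (m : ℤ) = t - D - 1 := ⟨(t - D - 1).toNat, by omega⟩
  have h1 := hS.climbN hD1 hDt hH hnc (i := 0) hx0 (by simpa using hy) m (by omega)
  -- the mirrored system
  have hSm := hS.mirror
  have hHm : ∀ x y : ℤ, x - y < D → y - x < D → Cm (Cfsg.Agent.S4359.mirror P) t x y := by
    intro a b h2 h3
    rw [Cm_mirror]
    exact hH _ _ (by omega) (by omega)
  have hncm : ∀ i : ℤ, ¬ Cm (Cfsg.Agent.S4359.mirror P) t i (i + D) := by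
    intro i h2
    rw [Cm_mirror] at h2
    apply hnc (-i - D - t + 1)
    have e : -i - D - t + 1 + D = -i - t + 1 := by ring
    rw [e]
    have e2 : -(i + D) - (t : ℤ) + 1 = -i - D - t + 1 := by ring
    rw [e2] at h2
    exact h2.symm
  have hy' : y ∈ U (Cfsg.Agent.S4359.mirror P) t (-D - t + 1) := by
    rw [U_mirror]
    have e : -(-D - (t : ℤ) + 1) - t + 1 = D := by ring
    rw [e]; exact hy
  have hx' : x ∈ U (Cfsg.Agent.S4359.mirror P) t (-D - t + 1 + D) := by
    rw [U_mirror]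
    have e : -(-D - (t : ℤ) + 1 + D) - t + 1 = 0 := by ring
    rw [e]; exact hx0
  have h2 := hSm.climbN hD1 hDt hHm hncm (i := -D - t + 1) hy' hx' m (by omega)
  rw [I_mirror] at h2
  have h3 : ⁅x, y⁆ ∈ I P t 1 (2 * D - t) := by
    rw [← commutatorElement_inv]
    refine inv_mem (I_mono (t := t) (P := P) ?_ ?_ h2) <;> omega
  have h4 : ⁅x, y⁆ ∈ I P t (t - D) (D - 1) := by
    refine I_mono (t := t) (P := P) ?_ ?_ h1 <;> omega
  have h5 : ⁅x, y⁆ ∈ I P t 1 (t - D - 1) := I_mono le_rfl (by omega) h3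
  have h6 : ⁅x, y⁆ ∈ I P t (t - D) (t - D - 1) := by
    refine mem_I_of h5 h4 ?_
    intro k h7 h8
    by_cases h9 : k ≤ 1 + t - 1
    · left; exact ⟨by omega, h9⟩
    · right; exact ⟨by omega, by omega⟩
  rw [hS.I_bot, Subgroup.mem_bot] at h6
  exact hne h6

/-- central contradiction -/
theorem Sys.center_element (hS : Sys P g p t) {D : ℤ} (hD1 : 1 ≤ D) (hDt : D ≤ t)
    (hH : ∀ x y : ℤ, x - y < D → y - x < D → Cm P t x y) (n : ℕ)
    (hn : (t : ℤ) + n + 1 ≤ 2 * D) :
    ∃ z ∈ P 0, z ≠ 1 ∧ ∀ i : ℕ, i ≤ n → P i ≤ Subgroup.centralizer ({z} : Set G) := by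
  have ht : 1 ≤ t := by omega
  obtain ⟨z, hz, hz1⟩ := hS.exists_ne_one (D - t) ht
  refine ⟨z, ?_, hz1, ?_⟩
  · have h := hz
    unfold U at h
    rw [mem_I] at h
    exact h 0 (by omega) (by omega)
  · intro i hi
    have hP : P i ≤ I P t (i - t + 1) i := by
      intro a ha
      rw [mem_I]
      intro k h1 h2
      have : k = i := by omega
      rw [this]; exact ha
    refine hP.trans ?_
    refine hS.gen (by omega) (by omega) ?_
    intro x h1 h2 a ha
    rw [Subgroup.mem_centralizer_singleton_iff]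
    exact hH x (D - t) (by omega) (by omega) a ha z hz

end Basics

section Chain

variable {G : Type*} [Group G] [Finite G]
variable {P : ℤ → Subgroup G} {g : G} {p t : ℕ} [hp : Fact p.Prime]

theorem mem_R_shift (hsh : ∀ k x, x ∈ P k → g⁻¹ * x * g ∈ P (k + 1))
    {a b : ℤ} {x : G} (hx : x ∈ R P a b) : g⁻¹ * x * g ∈ R P (a + 1) (b + 1) := by
  rw [mem_R] at hx ⊢
  intro k h1 h2
  have := hsh (k - 1) x (hx (k - 1) (by omega) (by omega))
  have e : k - 1 + 1 = k := by ring
  rwa [e] at this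

theorem mem_R_shift' (hsh : ∀ k x, x ∈ P (k + 1) → g * x * g⁻¹ ∈ P k)
    {a b : ℤ} {x : G} (hx : x ∈ R P (a + 1) (b + 1)) : g * x * g⁻¹ ∈ R P a b := by
  rw [mem_R] at hx ⊢
  intro k h1 h2
  exact hsh k x (hx (k + 1) (by omega) (by omega))

/-- translates stay equal -/
theorem const_of (T : ℤ → Subgroup G) (memT : ∀ s y, y ∈ T (s + 1) ↔ g * y * g⁻¹ ∈ T s)
    (h : T 0 = T 1) : ∀ s, T s = T 0 := by
  have up : ∀ a b, T a = T b → T (a + 1) = T (b + 1) := by
    intro a b hab
    ext y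
    rw [memT, memT, hab]
  have down : ∀ a b, T (a + 1) = T (b + 1) → T a = T b := by
    intro a b hab
    ext y
    have e : ∀ s, y ∈ T s ↔ g⁻¹ * y * g ∈ T (s + 1) := by
      intro s
      rw [memT]
      have e2 : g * (g⁻¹ * y * g) * g⁻¹ = y := by group
      rw [e2]
    rw [e a, e b, hab]
  have h1 : ∀ s, T s = T (s + 1) := by
    intro s
    induction s using Int.induction_on with
    | zero => simpa using h
    | succ i ih => exact up _ _ ih
    | pred i ih =>
      apply down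
      have e : -(i : ℤ) - 1 + 1 = -i := by ring
      rw [e]
      exact ih
  intro s
  induction s using Int.induction_on with
  | zero => rfl
  | succ i ih => exact (h1 i).symm.trans ih
  | pred i ih =>
    refine (h1 _).trans ?_
    have e : -(i : ℤ) - 1 + 1 = -i := by ring
    rw [e]
    exact ih

theorem R_eq_of_const (hsh : ∀ k x, x ∈ P k → g⁻¹ * x * g ∈ P (k + 1))
    (hsh' : ∀ k x, x ∈ P (k + 1) → g * x * g⁻¹ ∈ P k) {l : ℤ} {m : ℕ}
    (h : R P l (l + m) = R P (l + 1) (l + 1 + m)) (j : ℤ) : R P j (j + m) = R P l (l + m) := by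
  have h1 := const_of (g := g) (fun s => R P (l + s) (l + s + m)) ?_ ?_ (j - l)
  · simp only [add_zero] at h1
    have e : l + (j - l) = j := by ring
    rw [e] at h1
    exact h1
  · intro s y
    show y ∈ R P (l + (s + 1)) (l + (s + 1) + m) ↔ g * y * g⁻¹ ∈ R P (l + s) (l + s + m)
    have e1 : l + (s + 1) = l + s + 1 := by ring
    have e2 : l + s + 1 + (m : ℤ) = l + s + m + 1 := by ring
    rw [e1, e2]
    constructor
    · intro hy
      exact mem_R_shift' hsh' hy
    · intro hy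
      have h2 := mem_R_shift hsh hy
      have e3 : g⁻¹ * (g * y * g⁻¹) * g = y := by group
      rwa [e3] at h2
  · simp only [add_zero]
    have e : l + 1 = l + (1 : ℤ) := rfl
    exact h

theorem nrm_chain (pg : ∀ k, IsPGroup p (P k)) {A : Subgroup G} {m₀ : ℕ}
    (hlev : ∀ m : ℕ, m ≤ m₀ → ∀ j : ℤ, Nat.card (R P j (j + m)) = p ^ (t - m)) (hm₀ : m₀ ≤ t)
    (hA : ∀ j : ℤ, R P j (j + m₀) = A) :
    ∀ (d m : ℕ), m + d = m₀ → ∀ j : ℤ, R P j (j + m) ≤ Subgroup.normalizer (A : Set G) := by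
  intro d
  induction d using Nat.strong_induction_on with
  | _ d ih =>
    intro m hm j
    rcases d with _ | _ | d
    · have : m = m₀ := by omega
      rw [this, hA]
      exact Subgroup.le_normalizer
    · have hm1 : m₀ = m + 1 := by omega
      have hle : A ≤ R P j (j + m) := by
        rw [← hA j]
        exact mem_R_le_aux hm1
      have hEp : IsPGroup p (R P j (j + m)) := by
        refine (pg j).to_le ?_
        intro a ha
        rw [mem_R] at ha
        exact ha j le_rfl (by omega)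
      have hc1 := hlev m (by omega) j
      have hc2 := hlev m₀ le_rfl j
      rw [hA] at hc2
      have hc : Nat.card (R P j (j + m)) = p * Nat.card A := by
        rw [hc1, hc2, hm1]
        have : t - m = (t - (m + 1)) + 1 := by omega
        rw [this, pow_succ]; ring
      intro e he
      exact nrm_of_conj (fun a ha => conj_mem_of_index hle hEp hc he ha)
    · have e1 := ih (d + 1) (by omega) (m + 1) (by omega) j
      have e2 := ih (d + 1) (by omega) (m + 1) (by omega) (j - 1)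
      have hA1E : R P j (j + ((m + 1 : ℕ) : ℤ)) ≤ R P j (j + m) := by
        intro a ha
        rw [mem_R] at ha ⊢
        intro k h1 h2
        exact ha k h1 (by push_cast; omega)
      have hA2E : R P (j - 1) (j - 1 + ((m + 1 : ℕ) : ℤ)) ≤ R P j (j + m) := by
        intro a ha
        rw [mem_R] at ha ⊢
        intro k h1 h2
        exact ha k (by omega) (by push_cast; omega)
      have hc1 := hlev m (by omega) j
      have hc2 := hlev (m + 1) (by omega) j
      have hc3 := hlev (m + 1) (by omega) (j - 1)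
      have hc4 := hlev (m + 2) (by omega) (j - 1)
      have hcE : Nat.card (R P j (j + m)) = p * Nat.card (R P j (j + ((m + 1 : ℕ) : ℤ))) := by
        rw [hc1, hc2]
        have : t - m = (t - (m + 1)) + 1 := by omega
        rw [this, pow_succ]; ring
      have hne : R P j (j + ((m + 1 : ℕ) : ℤ)) ≠
          R P j (j + ((m + 1 : ℕ) : ℤ)) ⊔ R P (j - 1) (j - 1 + ((m + 1 : ℕ) : ℤ)) := by
        intro heq
        have h21 : R P (j - 1) (j - 1 + ((m + 1 : ℕ) : ℤ)) ≤ R P j (j + ((m + 1 : ℕ) : ℤ)) := by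
          rw [heq]; exact le_sup_right
        have h22 : R P (j - 1) (j - 1 + ((m + 1 : ℕ) : ℤ)) ≤ R P (j - 1) (j - 1 + ((m + 2 : ℕ) : ℤ)) := by
          intro a ha
          have ha0 := ha
          rw [mem_R] at ha ⊢
          intro k h1 h2
          by_cases h3 : k ≤ j - 1 + ((m + 1 : ℕ) : ℤ)
          · exact ha k h1 h3
          · have := h21 ha0
            rw [mem_R] at this
            exact this k (by omega) (by push_cast at h2 h3 ⊢; omega)
        have h23 := Subgroup.card_le_of_le h22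
        rw [hc3, hc4] at h23
        have h24 : p ^ (t - (m + 2)) < p ^ (t - (m + 1)) :=
          Nat.pow_lt_pow_right hp.out.one_lt (by omega)
        omega
      have h3 := eq_top_of_index (p := p) le_sup_left (sup_le hA1E hA2E) hcE hne
      rw [← h3]
      exact sup_le e1 e2

theorem chain_card (hsh : ∀ k x, x ∈ P k → g⁻¹ * x * g ∈ P (k + 1))
    (hsh' : ∀ k x, x ∈ P (k + 1) → g * x * g⁻¹ ∈ P k) (pg : ∀ k, IsPGroup p (P k))
    (hc : ∀ k, Nat.card (P k) = p ^ t)
    (hidx : ∀ k, Nat.card (P k) = p * Nat.card ↥(P k ⊓ P (k + 1)))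
    (h1 : ∀ A : Subgroup G, A ≤ P 0 → P 0 ≤ Subgroup.normalizer (A : Set G) →
      (∀ x ∈ A, g⁻¹ * x * g ∈ A) → A = ⊥) :
    ∀ k : ℕ, k ≤ t → ∀ l : ℤ, Nat.card (R P l (l + k)) = p ^ (t - k) := by
  intro k
  induction k using Nat.strong_induction_on with
  | _ k ih =>
    intro hk l
    rcases k with _ | _ | k
    · have : R P l (l + ((0 : ℕ) : ℤ)) = P l := by
        ext x
        rw [mem_R]
        constructor
        · intro h
          exact h l le_rfl (by simp)
        · intro h m h1 h2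
          have : m = l := by push_cast at h2; omega
          rw [this]; exact h
      rw [this, hc]
      simp
    · have : R P l (l + ((0 + 1 : ℕ) : ℤ)) = P l ⊓ P (l + 1) := by
        ext x
        rw [mem_R, Subgroup.mem_inf]
        constructor
        · intro h
          exact ⟨h l le_rfl (by push_cast; omega), h (l + 1) (by omega) (by push_cast; omega)⟩
        · rintro ⟨h1, h2⟩ m h3 h4
          push_cast at h4
          by_cases h5 : m = l
          · rw [h5]; exact h1
          · have : m = l + 1 := by omega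
            rw [this]; exact h2
      rw [this]
      have h2 := hidx l
      rw [hc] at h2
      have ht : t = (t - (0 + 1)) + 1 := by omega
      rw [ht, pow_succ, mul_comm] at h2
      have hp0 : 0 < p := hp.out.pos
      exact (Nat.eq_of_mul_eq_mul_left hp0 h2).symm
    · have hA := ih (k + 1) (by omega) (by omega) l
      have hB := ih (k + 1) (by omega) (by omega) (l + 1)
      have hE := ih k (by omega) (by omega) (l + 1)
      have hAE : R P l (l + ((k + 1 : ℕ) : ℤ)) ≤ R P (l + 1) (l + 1 + k) := by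
        intro a ha
        rw [mem_R] at ha ⊢
        intro m h3 h4
        exact ha m (by omega) (by push_cast; omega)
      have hBE : R P (l + 1) (l + 1 + ((k + 1 : ℕ) : ℤ)) ≤ R P (l + 1) (l + 1 + k) := by
        intro a ha
        rw [mem_R] at ha ⊢
        intro m h3 h4
        exact ha m h3 (by push_cast; omega)
      have hsplit : R P l (l + ((k + 1 + 1 : ℕ) : ℤ)) =
          R P (l + 1) (l + 1 + ((k + 1 : ℕ) : ℤ)) ⊓ R P l (l + ((k + 1 : ℕ) : ℤ)) := by
        ext x
        rw [Subgroup.mem_inf, mem_R, mem_R, mem_R]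
        constructor
        · intro h
          exact ⟨fun m h3 h4 => h m (by omega) (by push_cast at h4 ⊢; omega),
            fun m h3 h4 => h m h3 (by push_cast at h4 ⊢; omega)⟩
        · rintro ⟨h5, h6⟩ m h3 h4
          by_cases h7 : m ≤ l + ((k + 1 : ℕ) : ℤ)
          · exact h6 m h3 h7
          · exact h5 m (by omega) (by push_cast at h4 h7 ⊢; omega)
      by_cases hAB : R P l (l + ((k + 1 : ℕ) : ℤ)) = R P (l + 1) (l + 1 + ((k + 1 : ℕ) : ℤ))
      · exfalso
        have hconst := R_eq_of_const hsh hsh' hAB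
        have hlev : ∀ m : ℕ, m ≤ k + 1 → ∀ j : ℤ, Nat.card (R P j (j + m)) = p ^ (t - m) :=
          fun m hm j => ih m (by omega) (by omega) j
        have hnr := nrm_chain (t := t) pg hlev (by omega) hconst (k + 1) 0 (by omega) 0
        have hP0 : P 0 ≤ R P 0 (0 + ((0 : ℕ) : ℤ)) := by
          intro a ha
          rw [mem_R]
          intro m h3 h4
          have : m = 0 := by push_cast at h4; omega
          rw [this]; exact ha
        have hAP : R P l (l + ((k + 1 : ℕ) : ℤ)) ≤ P 0 := by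
          rw [← hconst 0]
          intro a ha
          rw [mem_R] at ha
          exact ha 0 le_rfl (by push_cast; omega)
        have hbot := h1 (R P l (l + ((k + 1 : ℕ) : ℤ))) hAP (hP0.trans hnr) (by
          intro x hx
          have h2 := mem_R_shift hsh hx
          have e : l + ((k + 1 : ℕ) : ℤ) + 1 = l + 1 + ((k + 1 : ℕ) : ℤ) := by ring
          rw [e, ← hAB] at h2
          exact h2)
        rw [hbot] at hA
        simp only [Subgroup.card_bot] at hA
        have h3 : 1 < p ^ (t - (k + 1)) := Nat.one_lt_pow (by omega) hp.out.one_lt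
        omega
      · rw [hsplit]
        have h2 := card_inf_mul_relIndex (R P (l + 1) (l + 1 + ((k + 1 : ℕ) : ℤ)))
          (R P l (l + ((k + 1 : ℕ) : ℤ)))
        have h3 := card_inf_mul_relIndex (R P (l + 1) (l + 1 + ((k + 1 : ℕ) : ℤ)))
          (R P (l + 1) (l + 1 + (k : ℤ)))
        rw [inf_eq_left.2 hBE, hB, hE] at h3
        have hpow : p ^ (t - k) = p ^ (t - (k + 1)) * p := by
          rw [← pow_succ]; congr 1; omega
        rw [hpow] at h3
        have hidxE : (R P (l + 1) (l + 1 + ((k + 1 : ℕ) : ℤ))).relIndex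
            (R P (l + 1) (l + 1 + (k : ℤ))) = p :=
          Nat.eq_of_mul_eq_mul_left (pow_pos hp.out.pos _) h3
        have hle : (R P (l + 1) (l + 1 + ((k + 1 : ℕ) : ℤ))).relIndex
            (R P l (l + ((k + 1 : ℕ) : ℤ))) ≤ p := by
          rw [← hidxE]
          exact Subgroup.relIndex_le_of_le_right hAE (by rw [hidxE]; exact hp.out.ne_zero)
        rw [hA] at h2
        obtain ⟨e, he, hidxe⟩ := (Nat.dvd_prime_pow hp.out).1 (Dvd.intro_left _ h2)
        have hne1 : e ≠ 0 := by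
          intro h0
          rw [h0, pow_zero] at hidxe
          rw [hidxe, mul_one] at h2
          apply hAB
          have h4 : R P (l + 1) (l + 1 + ((k + 1 : ℕ) : ℤ)) ⊓ R P l (l + ((k + 1 : ℕ) : ℤ)) =
              R P l (l + ((k + 1 : ℕ) : ℤ)) := by
            apply Subgroup.eq_of_le_of_card_ge inf_le_right
            rw [hA, h2]
          have h5 : R P l (l + ((k + 1 : ℕ) : ℤ)) ≤ R P (l + 1) (l + 1 + ((k + 1 : ℕ) : ℤ)) :=
            inf_eq_right.1 h4
          apply Subgroup.eq_of_le_of_card_ge h5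
          rw [hA, hB]
        have he1 : e = 1 := by
          by_contra hne
          have h4 : p ^ 2 ≤ p ^ e := Nat.pow_le_pow_right hp.out.pos (by omega)
          rw [hidxe] at hle
          have h5 : p ^ 2 ≤ p := h4.trans hle
          have h6 := hp.out.one_lt
          nlinarith
        rw [he1, pow_one] at hidxe
        rw [hidxe] at h2
        have hpow2 : p ^ (t - (k + 1)) = p ^ (t - (k + 1 + 1)) * p := by
          rw [← pow_succ]; congr 1; omega
        rw [hpow2] at h2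
        exact Nat.eq_of_mul_eq_mul_right hp.out.pos h2

end Chain

/-- `P` is a `p`-group -/
theorem pgroup_of {G : Type*} [Group G] [Finite G] (P : Subgroup G) (g : G) (p : ℕ)
    [hp : Fact p.Prime]
    (hN : ((P ⊓ MulAut.conj g⁻¹ • P).subgroupOf (MulAut.conj g⁻¹ • P)).Normal)
    (hidx : (P ⊓ MulAut.conj g⁻¹ • P).relIndex (MulAut.conj g⁻¹ • P) = p)
    (h1 : ∀ Q : Subgroup G, Q ≤ P → (Q.subgroupOf P).Normal → MulAut.conj g • Q = Q → Q = ⊥) :
    IsPGroup p P := by
  have hP1 : ∀ x, x ∈ MulAut.conj g⁻¹ • P ↔ g * x * g⁻¹ ∈ P := by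
    intro x
    rw [Subgroup.mem_pointwise_smul_iff_inv_smul_mem]
    simp [MulAut.smul_def, MulAut.conj_apply]
  have key : ∀ x, x ∈ MulAut.conj g⁻¹ • P → Nat.Coprime (orderOf x) p → x ∈ P := by
    intro x hx hco
    have h2 := Subgroup.pow_index_mem ((P ⊓ MulAut.conj g⁻¹ • P).subgroupOf (MulAut.conj g⁻¹ • P))
      (⟨x, hx⟩ : ↥(MulAut.conj g⁻¹ • P))
    have hi : ((P ⊓ MulAut.conj g⁻¹ • P).subgroupOf (MulAut.conj g⁻¹ • P)).index = p := hidx
    rw [hi, Subgroup.mem_subgroupOf] at h2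
    have h3 : x ^ p ∈ P := (Subgroup.mem_inf.1 h2).1
    by_cases ho : orderOf x = 1
    · rw [orderOf_eq_one_iff] at ho
      rw [ho]; exact one_mem _
    · have hpos : 0 < orderOf x := orderOf_pos x
      obtain ⟨m, hm⟩ := Nat.exists_mul_mod_eq_one_of_coprime hco.symm (by omega)
      have h4 : x = (x ^ p) ^ m := by
        rw [← pow_mul, ← pow_mod_orderOf x (p * m), hm.2, pow_one]
      rw [h4]
      exact pow_mem h3 m
  have hord : ∀ k x : G, orderOf (k * x * k⁻¹) = orderOf x := by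
    intro k x
    have := (MulAut.conj k).orderOf_eq x
    simpa [MulAut.conj_apply] using this
  obtain ⟨Q, hQdef⟩ : ∃ Q, Q = Subgroup.closure {x | x ∈ P ∧ Nat.Coprime (orderOf x) p} := ⟨_, rfl⟩
  have hQP : Q ≤ P := by
    rw [hQdef, Subgroup.closure_le]
    intro x hx
    exact hx.1
  have hQn : ∀ h k, h ∈ Q → k ∈ P → k * h * k⁻¹ ∈ Q := by
    intro h k hh hk
    rw [hQdef] at hh ⊢
    induction hh using Subgroup.closure_induction with
    | mem x hx =>
      exact Subgroup.subset_closure ⟨mul_mem (mul_mem hk hx.1) (inv_mem hk), by rw [hord]; exact hx.2⟩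
    | one => simp
    | mul a b _ _ ha hb =>
      have : k * (a * b) * k⁻¹ = (k * a * k⁻¹) * (k * b * k⁻¹) := by group
      rw [this]; exact mul_mem ha hb
    | inv a _ ha =>
      have : k * a⁻¹ * k⁻¹ = (k * a * k⁻¹)⁻¹ := by group
      rw [this]; exact inv_mem ha
  have hQg : ∀ x ∈ Q, g⁻¹ * x * (g⁻¹)⁻¹ ∈ Q := by
    intro h hh
    rw [hQdef] at hh ⊢
    induction hh using Subgroup.closure_induction with
    | mem x hx =>
      refine Subgroup.subset_closure ⟨key _ ?_ ?_, by rw [hord]; exact hx.2⟩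
      · rw [hP1]
        have : g * (g⁻¹ * x * (g⁻¹)⁻¹) * g⁻¹ = x := by group
        rw [this]; exact hx.1
      · rw [hord]; exact hx.2
    | one => simp
    | mul a b _ _ ha hb =>
      have : g⁻¹ * (a * b) * (g⁻¹)⁻¹ = (g⁻¹ * a * (g⁻¹)⁻¹) * (g⁻¹ * b * (g⁻¹)⁻¹) := by group
      rw [this]; exact mul_mem ha hb
    | inv a _ ha =>
      have : g⁻¹ * a⁻¹ * (g⁻¹)⁻¹ = (g⁻¹ * a * (g⁻¹)⁻¹)⁻¹ := by group
      rw [this]; exact inv_mem ha
  have hnrm := nrm_of_conj hQg
  have hinv : MulAut.conj g • Q = Q := by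
    ext x
    rw [Subgroup.mem_pointwise_smul_iff_inv_smul_mem]
    have h2 := (Subgroup.mem_normalizer_iff.1 hnrm) x
    have h3 : (MulAut.conj g)⁻¹ • x = g⁻¹ * x * (g⁻¹)⁻¹ := by
      simp [MulAut.smul_def, MulAut.conj_apply]
    rw [h3]
    exact h2.symm
  have hbot := h1 Q hQP ((Subgroup.normal_subgroupOf_iff hQP).2 (fun h k hh hk => hQn h k hh hk)) hinv
  intro x
  obtain ⟨a, m, hm, hord2⟩ := Nat.exists_eq_pow_mul_and_not_dvd (orderOf_pos (x : G)).ne' p
    hp.out.ne_one
  refine ⟨a, ?_⟩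
  have hy : (x : G) ^ (p ^ a) ∈ Q := by
    rw [hQdef]
    refine Subgroup.subset_closure ⟨pow_mem x.2 _, ?_⟩
    rw [orderOf_pow_of_dvd (pow_ne_zero _ hp.out.ne_zero) ⟨m, hord2⟩, hord2,
      Nat.mul_div_cancel_left _ (pow_pos hp.out.pos _)]
    exact ((Nat.Prime.coprime_iff_not_dvd hp.out).2 hm).symm
  rw [hbot, Subgroup.mem_bot] at hy
  exact Subtype.ext (by simpa using hy)

section Final

variable {G : Type*} [Group G] [Finite G]
variable {P : ℤ → Subgroup G} {g : G} {p t : ℕ} [hp : Fact p.Prime]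

theorem Sys.cm_self (hS : Sys P g p t) (ht : 1 ≤ t) (x : ℤ) : Cm P t x x := by
  intro a ha b hb
  by_cases ha1 : a = 1
  · rw [ha1, one_mul, mul_one]
  have h2 : Subgroup.zpowers a = U P t x := by
    refine eq_top_of_index (p := p) (A := ⊥) bot_le ((Subgroup.zpowers_le).2 ha) ?_ ?_
    · rw [hS.card_U _ ht]; simp
    · intro h3
      have : a ∈ (⊥ : Subgroup G) := by rw [h3]; exact Subgroup.mem_zpowers a
      exact ha1 ((Subgroup.mem_bot).1 this)
  rw [← h2] at hb
  obtain ⟨k, rfl⟩ := Subgroup.mem_zpowers_iff.1 hb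
  exact ((Commute.refl a).zpow_right k).eq

theorem Sys.cm_shift1 (hS : Sys P g p t) {x y : ℤ} :
    Cm P t x y ↔ Cm P t (x + 1) (y + 1) := by
  have hm1 : ∀ (u : ℤ) (a : G), a ∈ U P t u → g⁻¹ * a * g ∈ U P t (u + 1) := by
    intro u a ha
    unfold U I at ha ⊢
    have := mem_R_shift hS.shift ha
    rwa [show u + t - 1 + 1 = u + 1 + t - 1 by ring] at this
  have hm2 : ∀ (u : ℤ) (a : G), a ∈ U P t (u + 1) → g * a * g⁻¹ ∈ U P t u := by
    intro u a ha
    unfold U I at ha ⊢
    rw [show u + 1 + t - 1 = u + t - 1 + 1 by ring] at ha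
    exact mem_R_shift' hS.shift' ha
  constructor
  · intro h a ha b hb
    have h2 := h _ (hm2 _ _ ha) _ (hm2 _ _ hb)
    have h3 : g * (a * b) * g⁻¹ = g * (b * a) * g⁻¹ := by
      calc g * (a * b) * g⁻¹ = (g * a * g⁻¹) * (g * b * g⁻¹) := by group
        _ = (g * b * g⁻¹) * (g * a * g⁻¹) := h2
        _ = g * (b * a) * g⁻¹ := by group
    simpa using h3
  · intro h a ha b hb
    have h2 := h _ (hm1 _ _ ha) _ (hm1 _ _ hb)
    have h3 : g⁻¹ * (a * b) * g = g⁻¹ * (b * a) * g := by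
      calc g⁻¹ * (a * b) * g = (g⁻¹ * a * g) * (g⁻¹ * b * g) := by group
        _ = (g⁻¹ * b * g) * (g⁻¹ * a * g) := h2
        _ = g⁻¹ * (b * a) * g := by group
    simpa using h3

theorem Sys.cm_shift (hS : Sys P g p t) (s : ℤ) : ∀ {x y : ℤ},
    Cm P t x y → Cm P t (x + s) (y + s) := by
  induction s using Int.induction_on with
  | zero => intro x y h; simpa using h
  | succ i ih =>
    intro x y h
    have := hS.cm_shift1.1 (ih h)
    rwa [show x + (i : ℤ) + 1 = x + (i + 1) by ring, show y + (i : ℤ) + 1 = y + (i + 1) by ring] at this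
  | pred i ih =>
    intro x y h
    have h1 := ih h
    have e1 : x + -(i : ℤ) = x + (-(i : ℤ) - 1) + 1 := by ring
    have e2 : y + -(i : ℤ) = y + (-(i : ℤ) - 1) + 1 := by ring
    rw [e1, e2] at h1
    exact hS.cm_shift1.2 h1

theorem Sys.exists_D (hS : Sys P g p t) (ht : 1 ≤ t) : ∃ D : ℤ, 1 ≤ D ∧ D ≤ t ∧
    (∀ x y : ℤ, x - y < D → y - x < D → Cm P t x y) ∧ (D = t ∨ ∀ i : ℤ, ¬ Cm P t i (i + D)) := by
  have main : ∀ (e d : ℕ), d + e = t → 1 ≤ d →
      (∀ x y : ℤ, x - y < d → y - x < d → Cm P t x y) →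
      ∃ D : ℤ, 1 ≤ D ∧ D ≤ t ∧
      (∀ x y : ℤ, x - y < D → y - x < D → Cm P t x y) ∧
        (D = t ∨ ∀ i : ℤ, ¬ Cm P t i (i + D)) := by
    intro e
    induction e with
    | zero =>
      intro d hd h1 hH
      exact ⟨d, by omega, by omega, hH, Or.inl (by omega)⟩
    | succ e ih =>
      intro d hd h1 hH
      by_cases hnext : ∀ x y : ℤ, x - y < ((d + 1 : ℕ) : ℤ) → y - x < ((d + 1 : ℕ) : ℤ) → Cm P t x y
      · exact ih (d + 1) (by omega) (by omega) hnext
      · push Not at hnext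
        obtain ⟨x, y, h2, h3, h4⟩ := hnext
        refine ⟨d, by omega, by omega, hH, Or.inr ?_⟩
        intro i hi
        apply h4
        by_cases h5 : x - y = d
        · have h6 := hS.cm_shift (y - i) hi
          have e1 : i + (y - i) = y := by ring
          have e2 : i + (d : ℤ) + (y - i) = x := by omega
          rw [e1, e2] at h6
          exact h6.symm
        · have h5' : y - x = d := by
            by_contra h7
            exact h4 (hH x y (by omega) (by omega))
          have h6 := hS.cm_shift (x - i) hi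
          have e1 : i + (x - i) = x := by ring
          have e2 : i + (d : ℤ) + (x - i) = y := by omega
          rw [e1, e2] at h6
          exact h6
  refine main (t - 1) 1 (by omega) le_rfl ?_
  intro x y h1 h2
  have : y = x := by push_cast at h1 h2; omega
  rw [this]
  exact hS.cm_self ht x

end Final

theorem result {G : Type*} [Group G] [Finite G]
    (P : Subgroup G) (g : G) (p : ℕ) (hp : p.Prime)
    (hN : ((P ⊓ MulAut.conj g⁻¹ • P).subgroupOf (MulAut.conj g⁻¹ • P)).Normal)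
    (hidx : (P ⊓ MulAut.conj g⁻¹ • P).relIndex (MulAut.conj g⁻¹ • P) = p)
    (n : ℕ) (hn : 1 ≤ n) (K : Subgroup G) (hK : K = ⨆ i ∈ Finset.range (n + 1), MulAut.conj (g ^ i)⁻¹ • P)
    (h1 : ∀ Q : Subgroup G, Q ≤ P → (Q.subgroupOf P).Normal → MulAut.conj g • Q = Q → Q = ⊥)
    (h2 : P ⊓ (Subgroup.center K).map K.subtype = ⊥) :
    ∃ t : ℕ, Nat.card P = p ^ t ∧ 1 ≤ t ∧ t ≤ 3 * n ∧ t ≠ 3 * n - 1 := by
  haveI : Fact p.Prime := ⟨hp⟩
  have hpg := pgroup_of P g p hN hidx h1
  obtain ⟨t, ht⟩ := IsPGroup.iff_card.1 hpg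
  obtain ⟨Pz, hPz⟩ : ∃ Pz : ℤ → Subgroup G, ∀ k, Pz k = MulAut.conj (g ^ k)⁻¹ • P := ⟨_, fun _ => rfl⟩
  have memP : ∀ k x, x ∈ Pz k ↔ g ^ k * x * (g ^ k)⁻¹ ∈ P := by
    intro k x
    rw [hPz, Subgroup.mem_pointwise_smul_iff_inv_smul_mem]
    have e : (MulAut.conj (g ^ k)⁻¹)⁻¹ = MulAut.conj (g ^ k) := by rw [← map_inv, inv_inv]
    rw [e, MulAut.smul_def, MulAut.conj_apply]
  have hP0 : Pz 0 = P := by
    ext x
    rw [memP]
    simp
  have hP1 : MulAut.conj g⁻¹ • P = Pz 1 := by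
    rw [hPz]
    simp
  have cardsm : ∀ (A : Subgroup G) (h : G), Nat.card ↥(MulAut.conj h • A) = Nat.card A := by
    intro A h
    exact Subgroup.card_map_of_injective (MulAut.conj h).injective
  have cardP : ∀ k, Nat.card (Pz k) = p ^ t := by
    intro k
    rw [hPz, cardsm, ht]
  have hsh : ∀ k x, x ∈ Pz k → g⁻¹ * x * g ∈ Pz (k + 1) := by
    intro k x hx
    rw [memP] at hx ⊢
    have e : g ^ (k + 1) * (g⁻¹ * x * g) * (g ^ (k + 1))⁻¹ = g ^ k * x * (g ^ k)⁻¹ := by
      rw [zpow_add_one]; group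
    rwa [e]
  have hsh' : ∀ k x, x ∈ Pz (k + 1) → g * x * g⁻¹ ∈ Pz k := by
    intro k x hx
    rw [memP] at hx ⊢
    have e : g ^ k * (g * x * g⁻¹) * (g ^ k)⁻¹ = g ^ (k + 1) * x * (g ^ (k + 1))⁻¹ := by
      rw [zpow_add_one]; group
    rwa [e]
  have hpgz : ∀ k, IsPGroup p (Pz k) := fun k => IsPGroup.of_card (cardP k)
  have h10 : Nat.card (Pz 1) = p * Nat.card ↥(Pz 0 ⊓ Pz 1) := by
    have h3 := card_inf_mul_relIndex (P ⊓ MulAut.conj g⁻¹ • P) (MulAut.conj g⁻¹ • P)
    rw [inf_eq_left.2 (inf_le_right : P ⊓ MulAut.conj g⁻¹ • P ≤ _), hidx, hP1, ← hP0] at h3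
    rw [← h3]; ring
  have hidx' : ∀ k, Nat.card (Pz k) = p * Nat.card ↥(Pz k ⊓ Pz (k + 1)) := by
    intro k
    have e : Pz k ⊓ Pz (k + 1) = MulAut.conj (g ^ k)⁻¹ • (Pz 0 ⊓ Pz 1) := by
      ext x
      rw [Subgroup.mem_inf, Subgroup.mem_pointwise_smul_iff_inv_smul_mem, Subgroup.mem_inf, memP, memP,
        memP, memP]
      have e1 : (MulAut.conj (g ^ k)⁻¹)⁻¹ • x = g ^ k * x * (g ^ k)⁻¹ := by
        have e : (MulAut.conj (g ^ k)⁻¹)⁻¹ = MulAut.conj (g ^ k) := by rw [← map_inv, inv_inv]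
        rw [e, MulAut.smul_def, MulAut.conj_apply]
      rw [e1]
      have e2 : g ^ (k + 1) * x * (g ^ (k + 1))⁻¹ =
          g ^ (1 : ℤ) * (g ^ k * x * (g ^ k)⁻¹) * (g ^ (1 : ℤ))⁻¹ := by
        rw [zpow_add_one]
        simp only [zpow_one]
        have : g ^ k * g = g * g ^ k := (Commute.refl g).zpow_left k
        rw [this]; group
      rw [e2]
      simp
    rw [e, cardsm, cardP, ← cardP 1, h10]
  have h1' : ∀ A : Subgroup G, A ≤ Pz 0 → Pz 0 ≤ Subgroup.normalizer (A : Set G) →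
      (∀ x ∈ A, g⁻¹ * x * g ∈ A) → A = ⊥ := by
    intro A hA hnorm hinv
    rw [hP0] at hA hnorm
    refine h1 A hA ?_ ?_
    · refine (Subgroup.normal_subgroupOf_iff hA).2 ?_
      intro h k hh hk
      exact (Subgroup.mem_normalizer_iff.1 (hnorm hk) h).1 hh
    · have hg := nrm_of_conj (k := g⁻¹) (B := A) (fun a ha => by
        have := hinv a ha
        simpa using this)
      ext x
      rw [Subgroup.mem_pointwise_smul_iff_inv_smul_mem]
      have h3 : (MulAut.conj g)⁻¹ • x = g⁻¹ * x * (g⁻¹)⁻¹ := by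
        simp [MulAut.smul_def, MulAut.conj_apply]
      rw [h3]
      exact ((Subgroup.mem_normalizer_iff.1 hg) x).symm
  have hcard := chain_card hsh hsh' hpgz cardP hidx' h1'
  have hS : Sys Pz g p t := ⟨hsh, hsh', hpgz, fun l k hk => hcard k hk l⟩
  have ht1 : 1 ≤ t := by
    by_contra h0
    have h00 : t = 0 := by omega
    rw [h00, pow_zero] at ht
    have hbot : P = ⊥ := Subgroup.eq_bot_of_card_eq _ ht
    rw [hbot] at hidx
    have : (⊥ ⊓ MulAut.conj g⁻¹ • (⊥ : Subgroup G)).relIndex (MulAut.conj g⁻¹ • (⊥ : Subgroup G)) = 1 := by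
      simp
    rw [this] at hidx
    exact hp.one_lt.ne hidx
  refine ⟨t, ht, ht1, ?_⟩
  have hnoc : ∀ D : ℤ, 1 ≤ D → D ≤ t → (∀ x y : ℤ, x - y < D → y - x < D → Cm Pz t x y) →
      ¬ ((t : ℤ) + n + 1 ≤ 2 * D) := by
    intro D hD1 hDt hH hcon
    obtain ⟨z, hz, hz1, hzc⟩ := hS.center_element hD1 hDt hH n hcon
    rw [hP0] at hz
    have hKc : K ≤ Subgroup.centralizer ({z} : Set G) := by
      rw [hK]
      refine iSup₂_le ?_
      intro i hi
      have h3 := hzc i (by have := Finset.mem_range.1 hi; omega)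
      rw [hPz] at h3
      simpa using h3
    have hzK : z ∈ K := by
      rw [hK]
      refine (le_iSup₂_of_le 0 (by simp) ?_ : P ≤ _) hz
      simp
    apply hz1
    have h3 : z ∈ P ⊓ (Subgroup.center K).map K.subtype := by
      refine ⟨hz, ⟨⟨z, hzK⟩, ?_, rfl⟩⟩
      rw [SetLike.mem_coe, Subgroup.mem_center_iff]
      intro k
      have h4 := hKc k.2
      rw [Subgroup.mem_centralizer_singleton_iff] at h4
      exact Subtype.ext h4
    rw [h2, Subgroup.mem_bot] at h3
    exact h3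
  obtain ⟨D, hD1, hDt, hH, hcase⟩ := hS.exists_D ht1
  have hno := hnoc D hD1 hDt hH
  rcases hcase with h0 | hnc
  · subst h0
    constructor <;> omega
  · by_cases h0 : D = t
    · subst h0
      constructor <;> omega
    · have hkey := hS.key hD1 (by omega) hH hnc
      constructor <;> omega

end Cfsg.Agent.S4359
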