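import Cfsg.Statements.S0738
-- import your own Cfsg.Agent.* helpers here

set_option autoImplicit false
open Cfsg

namespace Cfsg.Agent.S0738

open MulAction


/-- Let a finite Zassenhaus group of degree `n + 1` have two-point stabilisers of order `d` with `2d ≥ n - 1`. Then a normal subgroup of a point stabiliser acting regularly on the remaining points is elementary abelian, and the degree is a prime power plus one. -/
theorem result {G Ω : Type*} [Group G] [Finite G] [MulAction G Ω] [Fintype Ω] (hZ : Cfsg.IsZassenhausGroup G Ω) {a b : Ω} (hab : a ≠ b) (hd : Fintype.card Ω - 2 ≤ 2 * Nat.card ↥(MulAction.stabilizer G a ⊓ MulAction.stabilizer G b)) (F : Subgroup G) (hFle : F ≤ MulAction.stabilizer G a) (hFn : (F.subgroupOf (MulAction.stabilizer G a)).Normal) (hreg : ∀ y z : Ω, y ≠ a → z ≠ a → ∃! u : F, (u : G) • y = z) : IsMulCommutative F ∧ ∃ p f : ℕ, p.Prime ∧ (∀ u ∈ F, u ^ p = 1) ∧ Fintype.card Ω = p ^ f + 1 := by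
  classical
haveI := Fintype.ofFinite G
have hthree := hZ.2.2.1
set D := MulAction.stabilizer G a ⊓ MulAction.stabilizer G b with hD
haveI : Fintype D := Fintype.ofFinite D
haveI : Fintype F := Fintype.ofFinite F
have hconj : ∀ δ ∈ MulAction.stabilizer G a, ∀ u ∈ F, δ * u * δ⁻¹ ∈ F := by
  intro δ hδ u hu
  have h1 := hFn.conj_mem ⟨u, hFle hu⟩ (by rw [Subgroup.mem_subgroupOf]; exact hu) ⟨δ, hδ⟩
  rw [Subgroup.mem_subgroupOf] at h1
  exact h1
let c : D → F → F := fun δ u => ⟨(δ : G) * u * (δ : G)⁻¹, hconj δ δ.2.1 u u.2⟩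
have hcv : ∀ (δ : D) (u : F), ((c δ u : F) : G) = (δ : G) * u * (δ : G)⁻¹ := fun _ _ => rfl
have hcone : ∀ (δ : D), c δ 1 = 1 := by
  intro δ
  apply Subtype.ext
  simp [hcv]
have hcne : ∀ (δ : D) (u : F), u ≠ 1 → c δ u ≠ 1 := by
  intro δ u hu h
  apply hu
  have h1 : (δ : G) * u * (δ : G)⁻¹ = 1 := congrArg Subtype.val h
  have h2 : (u : G) = 1 := by
    have h3 : (u : G) = (δ : G)⁻¹ * ((δ : G) * u * (δ : G)⁻¹) * δ := by group
    rw [h3, h1]
    group
  exact Subtype.ext h2
have hcmul : ∀ (δ : D) (u v : F), c δ (u * v) = c δ u * c δ v := by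
  intro δ u v
  apply Subtype.ext
  simp only [hcv, Subgroup.coe_mul]
  group
have hcpow : ∀ (δ : D) (u : F) (k : ℕ), c δ (u ^ k) = c δ u ^ k := by
  intro δ u k
  induction k with
  | zero => rw [pow_zero, pow_zero, hcone]
  | succ k ih => rw [pow_succ, pow_succ, hcmul, ih]
have hord : ∀ (δ : D) (u : F), orderOf (c δ u) = orderOf u := by
  intro δ u
  have hinj : Function.Injective (MulAut.conj (δ : G)).toMonoidHom := (MulAut.conj (δ : G)).injective
  have h1 : orderOf ((c δ u : F) : G) = orderOf (u : G) := by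
    rw [hcv]
    exact orderOf_injective (MulAut.conj (δ : G)).toMonoidHom hinj _
  rw [Subgroup.orderOf_coe, Subgroup.orderOf_coe] at h1
  exact h1
-- the points
have hpt : ∀ u : F, (u : G) • b ≠ a := by
  intro u h
  have h1 : (u : G) • a = a := hFle u.2
  apply hab
  have h2 : (u : G) • b = (u : G) • a := by rw [h, h1]
  exact (smul_left_cancel _ h2).symm
have hfixb : ∀ u : F, (u : G) • b = b → u = 1 := by
  intro u hu
  obtain ⟨w, -, hw⟩ := hreg b b hab.symm hab.symm
  have h1 := hw u hu
  have h2 := hw 1 (by simp)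
  exact h1.trans h2.symm
have horb : ∀ u : F, u ≠ 1 → Function.Injective (fun δ : D => c δ u) := by
  intro u hu δ δ' h
  have h1 : (δ : G) * u * (δ : G)⁻¹ = (δ' : G) * u * (δ' : G)⁻¹ := congrArg Subtype.val h
  let g : G := (δ' : G)⁻¹ * δ
  have hg : g * u = u * g := by
    simp only [g]
    calc (δ' : G)⁻¹ * δ * u = (δ' : G)⁻¹ * ((δ : G) * u * (δ : G)⁻¹) * δ := by group
      _ = (δ' : G)⁻¹ * ((δ' : G) * u * (δ' : G)⁻¹) * δ := by rw [h1]
      _ = u * ((δ' : G)⁻¹ * δ) := by group
  have hga : g • a = a := by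
    simp only [g, mul_smul]
    have h2 : (δ : G) • a = a := δ.2.1
    have h3 : (δ' : G) • a = a := δ'.2.1
    rw [h2, inv_smul_eq_iff, h3]
  have hgb : g • b = b := by
    simp only [g, mul_smul]
    have h2 : (δ : G) • b = b := δ.2.2
    have h3 : (δ' : G) • b = b := δ'.2.2
    rw [h2, inv_smul_eq_iff, h3]
  have hgc : g • ((u : G) • b) = (u : G) • b := by
    rw [← mul_smul, hg, mul_smul, hgb]
  have hg1 := hthree g a b ((u : G) • b) hab (fun h => hu (hfixb u h.symm)) (fun h => hpt u h.symm) hga hgb hgc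
  apply Subtype.ext
  have h3 : (δ' : G)⁻¹ * δ = 1 := hg1
  exact (inv_mul_eq_one.1 h3).symm
-- counting
let n := Nat.card F
have hn : Fintype.card Ω = n + 1 := by
  let f : F → {y : Ω // y ≠ a} := fun u => ⟨(u : G) • b, hpt u⟩
  have hf : Function.Bijective f := by
    constructor
    · intro u v h
      have h1 : (u : G) • b = (v : G) • b := congrArg Subtype.val h
      obtain ⟨w, -, hw⟩ := hreg b ((v : G) • b) hab.symm (hpt v)
      exact (hw u h1).trans (hw v rfl).symm
    · rintro ⟨z, hz⟩
      obtain ⟨w, hw, -⟩ := hreg b z hab.symm hz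
      exact ⟨w, Subtype.ext hw⟩
  have h1 : Nat.card F = Fintype.card {y : Ω // y ≠ a} := by
    rw [← Nat.card_eq_fintype_card]
    exact Nat.card_congr (Equiv.ofBijective f hf)
  have h2 : Fintype.card {y : Ω // y ≠ a} = Fintype.card Ω - 1 := Set.card_ne_eq a
  have h3 : 0 < Fintype.card Ω := Fintype.card_pos_iff.2 ⟨a⟩
  change Fintype.card Ω = Nat.card F + 1
  omega
have hdpos : 0 < Nat.card D := Nat.card_pos
set d := Nat.card D with hddef
have hn2 : n - 1 ≤ 2 * d := by
  have : Fintype.card Ω - 2 = n - 1 := by omega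
  omega
have hnpos : 0 < n := Nat.card_pos
-- invariant subsets
have hbig : ∀ S : Finset F, (∀ δ : D, ∀ u ∈ S, c δ u ∈ S) → ∀ u ∈ S, u ≠ 1 → d ≤ S.card := by
  intro S hS u hu hu1
  rw [hddef, Nat.card_eq_fintype_card, ← Finset.card_univ]
  exact Finset.card_le_card_of_injOn (fun δ : D => c δ u) (fun δ _ => hS δ u hu) (horb u hu1).injOn
have hFcard : (Finset.univ : Finset F).card = n := by
  rw [Finset.card_univ, ← Nat.card_eq_fintype_card]
-- invariant subgroups
have hsub : ∀ H : Subgroup F, (∀ δ : D, ∀ u ∈ H, c δ u ∈ H) → H = ⊥ ∨ H = ⊤ := by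
  intro H hH
  by_contra hcon
  push Not at hcon
  obtain ⟨h1, h2⟩ := hcon
  obtain ⟨x, hx, hx1⟩ := (H.bot_or_exists_ne_one).resolve_left h1
  obtain ⟨y, hy⟩ : ∃ y : F, y ∉ H := by
    by_contra hcon
    push Not at hcon
    exact h2 (eq_top_iff.2 fun z _ => hcon z)
  have hy1 : y ≠ 1 := by
    rintro rfl
    exact hy H.one_mem
  let S₁ : Finset F := Finset.univ.filter (fun u => u ∈ H ∧ u ≠ 1)
  let S₂ : Finset F := Finset.univ.filter (fun u => u ∉ H)
  have hS₁ : d ≤ S₁.card := by
    apply hbig S₁ _ x (by simp [S₁, hx, hx1]) hx1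
    intro δ u hu
    simp only [S₁, Finset.mem_filter, Finset.mem_univ, true_and] at hu ⊢
    exact ⟨hH δ u hu.1, hcne δ u hu.2⟩
  have hS₂ : d ≤ S₂.card := by
    apply hbig S₂ _ y (by simp [S₂, hy]) hy1
    intro δ u hu
    simp only [S₂, Finset.mem_filter, Finset.mem_univ, true_and] at hu ⊢
    intro hc
    apply hu
    have h3 := hH δ⁻¹ _ hc
    have h4 : c δ⁻¹ (c δ u) = u := by
      apply Subtype.ext
      simp only [hcv, Subgroup.coe_inv, InvMemClass.coe_inv]
      group
    rwa [h4] at h3
  have hcards : S₁.card + 1 = Nat.card H := by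
    rw [Nat.card_eq_fintype_card, Fintype.card_subtype]
    have : Finset.univ.filter (fun u => u ∈ H) = insert 1 S₁ := by
      ext u
      simp only [S₁, Finset.mem_filter, Finset.mem_univ, true_and, Finset.mem_insert]
      constructor
      · intro h
        by_cases h1' : u = 1
        · left; exact h1'
        · right; exact ⟨h, h1'⟩
      · rintro (rfl | h)
        · exact H.one_mem
        · exact h.1
    rw [this, Finset.card_insert_of_notMem (by simp [S₁])]
  have hcards2 : S₁.card + 1 + S₂.card = n := by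
    have h3 : (Finset.univ.filter (fun u => u ∈ H)).card + (Finset.univ.filter (fun u => u ∉ H)).card = (Finset.univ : Finset F).card :=
      Finset.card_filter_add_card_filter_not _
    rw [hFcard] at h3
    have h4 : (Finset.univ.filter (fun u => u ∈ H)).card = S₁.card + 1 := by
      rw [hcards, Nat.card_eq_fintype_card, Fintype.card_subtype]
    rw [h4] at h3
    exact h3
  have hdvd : Nat.card H ∣ n := Subgroup.card_subgroup_dvd_card H
  rw [← hcards] at hdvd
  have e1 : S₁.card = d := by omega
  have e2 : n = 2 * d + 1 := by omega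
  rw [e1, e2] at hdvd
  have h5 : d + 1 ∣ 1 := by
    have h6 : d + 1 ∣ 2 * (d + 1) := Dvd.intro_left 2 rfl
    have h7 := (Nat.dvd_sub h6 hdvd)
    have h8 : 2 * (d + 1) - (2 * d + 1) = 1 := by omega
    rwa [h8] at h7
  have h6 := Nat.le_of_dvd one_pos h5
  omega
-- the p-group case
have hpcase : ∀ p : ℕ, p.Prime → IsPGroup p F → IsMulCommutative F ∧ ∃ p f : ℕ, p.Prime ∧ (∀ u ∈ F, u ^ p = 1) ∧ Fintype.card Ω = p ^ f + 1 := by
  intro p hp hF
  haveI : Fact p.Prime := ⟨hp⟩
  obtain ⟨f, hf⟩ := IsPGroup.iff_card.1 hF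
  have hcomm : ∀ x y : F, x * y = y * x := by
    rcases Nat.eq_zero_or_pos f with h0 | hfpos
    · intro x y
      have h1 : Subsingleton F := by
        rw [h0, pow_zero] at hf
        exact (Nat.card_eq_one_iff_unique.1 hf).1
      exact Subsingleton.elim _ _
    · haveI : Nontrivial F := by
        apply Finite.one_lt_card_iff_nontrivial.1
        rw [hf]
        exact Nat.one_lt_pow hfpos.ne' hp.one_lt
      have hcen : Nontrivial (Subgroup.center F) := hF.center_nontrivial
      rcases hsub (Subgroup.center F) (by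
        intro δ u hu
        rw [Subgroup.mem_center_iff] at hu ⊢
        intro z
        have h1 : c δ (c δ⁻¹ z) = z := by
          apply Subtype.ext
          simp only [hcv, Subgroup.coe_inv, InvMemClass.coe_inv]
          group
        rw [← h1, ← hcmul, ← hcmul, hu]) with h | h
      · exfalso
        rw [h] at hcen
        obtain ⟨⟨u, hu⟩, ⟨v, hv⟩, huv⟩ := hcen
        rw [Subgroup.mem_bot] at hu hv
        apply huv
        exact Subtype.ext (hu.trans hv.symm)
      · intro x y
        have : x ∈ Subgroup.center F := by rw [h]; trivial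
        exact (Subgroup.mem_center_iff.1 this y).symm
  have hexp : ∀ u : F, u ^ p = 1 := by
    rcases Nat.eq_zero_or_pos f with h0 | hfpos
    · intro u
      have h1 : Subsingleton F := by
        rw [h0, pow_zero] at hf
        exact (Nat.card_eq_one_iff_unique.1 hf).1
      exact Subsingleton.elim _ _
    · let Ω₁ : Subgroup F :=
        { carrier := {u | u ^ p = 1}
          mul_mem' := by
            intro x y hx hy
            have hx' : x ^ p = 1 := hx
            have hy' : y ^ p = 1 := hy
            change (x * y) ^ p = 1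
            rw [(show Commute x y from hcomm x y).mul_pow, hx', hy', one_mul]
          one_mem' := one_pow p
          inv_mem' := by
            intro x hx
            have hx' : x ^ p = 1 := hx
            change x⁻¹ ^ p = 1
            rw [inv_pow, hx', inv_one] }
      rcases hsub Ω₁ (by
        intro δ u hu
        have hu' : u ^ p = 1 := hu
        change (c δ u) ^ p = 1
        rw [← hcpow, hu', hcone]) with h | h
      · exfalso
        have hdvd : p ∣ Nat.card F := by
          rw [hf]
          exact dvd_pow_self p hfpos.ne'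
        obtain ⟨x, hx⟩ := exists_prime_orderOf_dvd_card' p hdvd
        have h1 : x ∈ Ω₁ := by
          change x ^ p = 1
          rw [← hx]
          exact pow_orderOf_eq_one x
        rw [h, Subgroup.mem_bot] at h1
        rw [h1, orderOf_one] at hx
        exact hp.one_lt.ne hx
      · intro u
        have : u ∈ Ω₁ := by rw [h]; trivial
        exact this
  refine ⟨⟨⟨?_⟩⟩, p, f, hp, ?_, ?_⟩
  · intro x y
    exact hcomm x y
  · intro u hu
    have := hexp ⟨u, hu⟩
    exact congrArg Subtype.val this
  · rw [hn]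
    change Nat.card F + 1 = _
    rw [hf]
-- is `F` a `p`-group?
by_cases hprime : ∃ p : ℕ, p.Prime ∧ IsPGroup p F
· obtain ⟨p, hp, hF⟩ := hprime
  exact hpcase p hp hF
· exfalso
  push Not at hprime
  have hn1 : n ≠ 1 := by
    intro h1
    haveI : Fact (Nat.Prime 2) := ⟨Nat.prime_two⟩
    apply hprime 2 Nat.prime_two
    apply IsPGroup.of_card (n := 0)
    rw [pow_zero]
    exact h1
  obtain ⟨p, hp, hpn⟩ := Nat.exists_prime_and_dvd hn1
  obtain ⟨q, hq, hqn, hqp⟩ : ∃ q : ℕ, q.Prime ∧ q ∣ n ∧ q ≠ p := by
    by_contra hcon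
    push Not at hcon
    have h1 := Nat.eq_prime_pow_of_unique_prime_dvd hnpos.ne' (fun {d} hd hdn => hcon d hd hdn)
    apply hprime p hp
    haveI : Fact p.Prime := ⟨hp⟩
    exact IsPGroup.of_card h1
  haveI : Fact p.Prime := ⟨hp⟩
  haveI : Fact q.Prime := ⟨hq⟩
  obtain ⟨x, hx⟩ := exists_prime_orderOf_dvd_card' p hpn
  obtain ⟨y, hy⟩ := exists_prime_orderOf_dvd_card' q hqn
  have hx1 : x ≠ 1 := by
    rintro rfl
    rw [orderOf_one] at hx
    exact hp.one_lt.ne hx
  have hy1 : y ≠ 1 := by
    rintro rfl
    rw [orderOf_one] at hy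
    exact hq.one_lt.ne hy
  have hne1 : ∀ u : F, orderOf u = p → u ≠ 1 := by
    rintro u hu rfl
    rw [orderOf_one] at hu
    exact hp.one_lt.ne hu
  have hne2 : ∀ u : F, orderOf u = q → u ≠ 1 := by
    rintro u hu rfl
    rw [orderOf_one] at hu
    exact hq.one_lt.ne hu
  let S : ℕ → Finset F := fun m => Finset.univ.filter (fun u => orderOf u = m)
  have hSinv : ∀ m, ∀ δ : D, ∀ u ∈ S m, c δ u ∈ S m := by
    intro m δ u hu
    simp only [S, Finset.mem_filter, Finset.mem_univ, true_and] at hu ⊢
    rw [hord, hu]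
  have hS1 : d ≤ (S p).card := hbig _ (hSinv p) x (by simp [S, hx]) hx1
  have hS2 : d ≤ (S q).card := hbig _ (hSinv q) y (by simp [S, hy]) hy1
  have hdisj : ∀ a b : ℕ, a ≠ b → Disjoint (S a) (S b) := by
    intro a b hab'
    rw [Finset.disjoint_left]
    intro u hu hu'
    simp only [S, Finset.mem_filter, Finset.mem_univ, true_and] at hu hu'
    exact hab' (hu.symm.trans hu')
  have h1S : (1 : F) ∉ S p ∪ S q := by
    simp only [S, Finset.mem_union, Finset.mem_filter, Finset.mem_univ, true_and, orderOf_one, not_or]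
    exact ⟨hp.one_lt.ne, hq.one_lt.ne⟩
  have htwo : ((S p ∪ S q).card) = (S p).card + (S q).card := Finset.card_union_of_disjoint (hdisj p q (Ne.symm hqp))
  have hall : ∀ z : F, z ≠ 1 → orderOf z = p ∨ orderOf z = q := by
    intro z hz
    by_contra hcon
    push Not at hcon
    have hS3 : d ≤ (S (orderOf z)).card := hbig _ (hSinv _) z (by simp [S]) hz
    have hd3 : Disjoint (S p ∪ S q) (S (orderOf z)) := by
      rw [Finset.disjoint_union_left]
      exact ⟨hdisj _ _ (Ne.symm hcon.1), hdisj _ _ (Ne.symm hcon.2)⟩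
    have h3 : ((S p ∪ S q) ∪ S (orderOf z)).card = (S p).card + (S q).card + (S (orderOf z)).card := by
      rw [Finset.card_union_of_disjoint hd3, htwo]
    have h4 : (1 : F) ∉ (S p ∪ S q) ∪ S (orderOf z) := by
      rw [Finset.mem_union, not_or]
      refine ⟨h1S, ?_⟩
      simp only [S, Finset.mem_filter, Finset.mem_univ, true_and, orderOf_one]
      intro h5
      exact hz (orderOf_eq_one_iff.1 h5.symm)
    have h5 : (insert (1 : F) ((S p ∪ S q) ∪ S (orderOf z))).card ≤ n := by
      rw [← hFcard]
      exact Finset.card_le_card (Finset.subset_univ _)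
    rw [Finset.card_insert_of_notMem h4, h3] at h5
    omega
  have hcount : (S p).card + (S q).card + 1 = n := by
    have h5 : insert (1 : F) (S p ∪ S q) = Finset.univ := by
      ext z
      simp only [Finset.mem_insert, Finset.mem_univ, iff_true, S, Finset.mem_union, Finset.mem_filter, true_and]
      by_cases hz : z = 1
      · left; exact hz
      · right; exact hall z hz
    rw [← hFcard, ← h5, Finset.card_insert_of_notMem h1S, htwo]
  have hcS : (S p).card = d := by omega
  have hn3 : n = 2 * d + 1 := by omega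
  -- the conjugation action of `y` on the elements of order `p`
  have hnocomm : ∀ u : F, orderOf u = p → y * u * y⁻¹ ≠ u := by
    intro u hu h
    have h1 : Commute y u := by
      have : y * u = u * y := by
        calc y * u = (y * u * y⁻¹) * y := by group
          _ = u * y := by rw [h]
      exact this
    have h2 : orderOf (y * u) = q * p := by
      rw [h1.orderOf_mul_eq_mul_orderOf_of_coprime (by rw [hy, hu]; exact (Nat.coprime_primes hq hp).2 hqp), hy, hu]
    have h3 : y * u ≠ 1 := by
      intro h0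
      rw [h0, orderOf_one] at h2
      have := Nat.eq_one_of_mul_eq_one_left h2.symm
      exact hp.one_lt.ne this.symm
    rcases hall _ h3 with h4 | h4
    · rw [h4] at h2
      have : q = 1 := by
        have h5 : 1 * p = q * p := by omega
        exact (Nat.eq_of_mul_eq_mul_right hp.pos h5).symm
      exact hq.one_lt.ne this.symm
    · rw [h4] at h2
      have : p = 1 := by
        have h5 : q * 1 = q * p := by omega
        exact (Nat.eq_of_mul_eq_mul_left hq.pos h5).symm
      exact hp.one_lt.ne this.symm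
  have hconj_ord : ∀ (g u : F), orderOf (g * u * g⁻¹) = orderOf u := by
    intro g u
    exact orderOf_injective (MulAut.conj g).toMonoidHom (MulAut.conj g).injective u
  let Q : Subgroup F := Subgroup.zpowers y
  letI iA : MulAction Q {u : F // orderOf u = p} :=
    { smul := fun g u => ⟨(g : F) * u * (g : F)⁻¹, by rw [hconj_ord]; exact u.2⟩
      one_smul := by
        intro u
        apply Subtype.ext
        change ((1 : Q) : F) * (u : F) * ((1 : Q) : F)⁻¹ = u
        simp
      mul_smul := by
        intro g h u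
        apply Subtype.ext
        change ((g * h : Q) : F) * (u : F) * ((g * h : Q) : F)⁻¹ = (g : F) * ((h : F) * u * (h : F)⁻¹) * (g : F)⁻¹
        simp only [Subgroup.coe_mul]
        group }
  have hQp : IsPGroup q Q := by
    apply IsPGroup.of_card (n := 1)
    rw [pow_one, Nat.card_zpowers, hy]
  have hmod := hQp.card_modEq_card_fixedPoints {u : F // orderOf u = p}
  have hfp : Nat.card (MulAction.fixedPoints Q {u : F // orderOf u = p}) = 0 := by
    rw [Nat.card_eq_zero]
    left
    constructor
    rintro ⟨⟨u, hu⟩, hfix⟩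
    have h1 := hfix ⟨y, Subgroup.mem_zpowers y⟩
    have h2 : y * u * y⁻¹ = u := congrArg Subtype.val h1
    exact hnocomm u hu h2
  rw [hfp] at hmod
  have hdvdS : q ∣ Nat.card {u : F // orderOf u = p} := (Nat.modEq_zero_iff_dvd).1 hmod
  have hcardS : Nat.card {u : F // orderOf u = p} = (S p).card := by
    rw [Nat.card_eq_fintype_card, Fintype.card_subtype]
  rw [hcardS, hcS] at hdvdS
  rw [hn3] at hqn
  have h9 : q ∣ 1 := by
    have h10 : q ∣ 2 * d := Dvd.dvd.mul_left hdvdS 2
    exact (Nat.dvd_add_right h10).1 hqn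
  exact hq.one_lt.ne (Nat.dvd_one.1 h9).symm

end Cfsg.Agent.S0738
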