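import Cfsg.Statements.S0741
-- import your own Cfsg.Agent.* helpers here

set_option autoImplicit false
open Cfsg

namespace Cfsg.Agent.S0741

open MulAction


/-- If the two-point stabilisers of a finite Zassenhaus group of degree `n + 1` have even order `d`, then `2d ≥ n - 1`. -/
theorem result {G Ω : Type*} [Group G] [Finite G] [MulAction G Ω] [Fintype Ω] (hZ : Cfsg.IsZassenhausGroup G Ω) {a b : Ω} (hab : a ≠ b) (heven : Even (Nat.card ↥(MulAction.stabilizer G a ⊓ MulAction.stabilizer G b))) : Fintype.card Ω - 2 ≤ 2 * Nat.card ↥(MulAction.stabilizer G a ⊓ MulAction.stabilizer G b) := by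
  classical
haveI := Fintype.ofFinite G
have h2t := hZ.2.1
rw [MulAction.is_two_pretransitive_iff] at h2t
have hthree := hZ.2.2.1
set D := MulAction.stabilizer G a ⊓ MulAction.stabilizer G b with hD
have hdpos : 0 < Nat.card D := Nat.card_pos
have h2d : 2 ∣ Nat.card D := heven.two_dvd
haveI hp2 : Fact (Nat.Prime 2) := ⟨Nat.prime_two⟩
obtain ⟨t, ht⟩ := exists_prime_orderOf_dvd_card' 2 h2d
set τ : G := (t : G) with hτ
have hτ2 : τ * τ = 1 := by
  have h1 : t ^ 2 = 1 := by rw [← ht]; exact pow_orderOf_eq_one t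
  have h2 := congrArg (fun x : D => (x : G)) h1
  simpa [pow_two] using h2
have hτ1 : τ ≠ 1 := by
  intro h
  have h1 : t = 1 := Subtype.ext h
  rw [h1, orderOf_one] at ht
  omega
have hτa : τ • a = a := t.2.1
have hτb : τ • b = b := t.2.2
have hfix : ∀ x : Ω, τ • x = x → x = a ∨ x = b := by
  intro x hx
  by_contra hcon
  push Not at hcon
  exact hτ1 (hthree τ a b x hab (Ne.symm hcon.2) (Ne.symm hcon.1) hτa hτb hx)
let Dd : Finset G := Finset.univ.filter (fun g => g • a = a ∧ g • b = b)
have hDd : Dd.card = Nat.card D := by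
  rw [Nat.card_eq_fintype_card, Fintype.card_subtype]
  congr 1
  ext g
  simp [Dd, hD, Subgroup.mem_inf, MulAction.mem_stabilizer_iff]
let Sw : Finset G := Finset.univ.filter (fun g => g • a = b ∧ g • b = a)
have hSw : Sw.card ≤ Dd.card := by
  obtain ⟨s₀, hs1, hs2⟩ := h2t hab (Ne.symm hab)
  apply Finset.card_le_card_of_injOn (fun s => s₀⁻¹ * s)
  · intro s hs
    simp only [Sw, Finset.coe_filter, Finset.mem_univ, true_and, Set.mem_setOf_eq] at hs
    simp only [Dd, Finset.coe_filter, Finset.mem_univ, true_and, Set.mem_setOf_eq]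
    constructor
    · rw [mul_smul, hs.1, ← hs1, inv_smul_smul]
    · rw [mul_smul, hs.2, ← hs2, inv_smul_smul]
  · intro x _ y _ h
    exact mul_left_cancel h
let Ct : Finset G := Finset.univ.filter (fun g => g * τ = τ * g)
have hCt : Ct.card ≤ 2 * Dd.card := by
  have hsub : Ct ⊆ Dd ∪ Sw := by
    intro g hg
    simp only [Ct, Finset.mem_filter, Finset.mem_univ, true_and] at hg
    have h1 : ∀ x : Ω, τ • x = x → τ • (g • x) = g • x := by
      intro x hx
      rw [← mul_smul, ← hg, mul_smul, hx]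
    have hne : g • a ≠ g • b := fun h => hab (smul_left_cancel g h)
    simp only [Finset.mem_union, Dd, Sw, Finset.mem_filter, Finset.mem_univ, true_and]
    rcases hfix _ (h1 a hτa) with h2 | h2 <;> rcases hfix _ (h1 b hτb) with h3 | h3
    · exact absurd (h2.trans h3.symm) hne
    · left; exact ⟨h2, h3⟩
    · right; exact ⟨h2, h3⟩
    · exact absurd (h2.trans h3.symm) hne
  calc Ct.card ≤ (Dd ∪ Sw).card := Finset.card_le_card hsub
    _ ≤ Dd.card + Sw.card := Finset.card_union_le _ _
    _ ≤ 2 * Dd.card := by omega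
let A : Finset G := Finset.univ.filter (fun h => h • a ≠ a ∧ h • a ≠ b ∧ h • b = τ • (h • a))
let X : Finset Ω := (Finset.univ : Finset Ω) \ {a, b}
have hX : Fintype.card Ω - 2 ≤ X.card := by
  have h1 := Finset.le_card_sdiff ({a, b} : Finset Ω) (Finset.univ : Finset Ω)
  rw [Finset.card_univ, Finset.card_pair hab] at h1
  exact h1
have hAge : X.card * Dd.card ≤ A.card := by
  have hmaps : ∀ h ∈ A, h • a ∈ X := by
    intro h hh
    simp only [A, Finset.mem_filter, Finset.mem_univ, true_and] at hh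
    simp [X, hh.1, hh.2.1]
  rw [Finset.card_eq_sum_card_fiberwise hmaps, ← smul_eq_mul]
  apply Finset.card_nsmul_le_sum
  intro x hx
  simp only [X, Finset.mem_sdiff, Finset.mem_univ, true_and, Finset.mem_insert, Finset.mem_singleton, not_or] at hx
  have htx : x ≠ τ • x := by
    intro h
    rcases hfix x h.symm with h1 | h1
    · exact hx.1 h1
    · exact hx.2 h1
  obtain ⟨g, hg1, hg2⟩ := h2t hab htx
  apply Finset.card_le_card_of_injOn (fun δ => g * δ)
  · intro δ hδ
    simp only [Dd, Finset.coe_filter, Finset.mem_univ, true_and, Set.mem_setOf_eq] at hδ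
    simp only [A, Finset.coe_filter, Finset.mem_filter, Finset.mem_univ, true_and, Set.mem_setOf_eq]
    rw [mul_smul, mul_smul, hδ.1, hδ.2, hg1, hg2]
    exact ⟨⟨hx.1, hx.2, rfl⟩, rfl⟩
  · intro x _ y _ h
    exact mul_left_cancel h
have hAle : A.card ≤ Ct.card * (A.image (fun h => h⁻¹ * τ * h)).card := by
  apply Finset.card_le_mul_card_image
  intro j hj
  obtain ⟨h₀, hh₀, rfl⟩ := Finset.mem_image.1 hj
  apply Finset.card_le_card_of_injOn (fun h => h * h₀⁻¹)
  · intro h hh
    simp only [Finset.coe_filter, Set.mem_setOf_eq] at hh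
    simp only [Ct, Finset.coe_filter, Finset.mem_univ, true_and, Set.mem_setOf_eq]
    have h1 := hh.2
    have h2 : h * (h⁻¹ * τ * h) * h⁻¹ = h * (h₀⁻¹ * τ * h₀) * h⁻¹ := by rw [h1]
    have h3 : τ = h * (h₀⁻¹ * τ * h₀) * h⁻¹ := by
      rw [← h2]
      group
    calc h * h₀⁻¹ * τ = (h * (h₀⁻¹ * τ * h₀) * h⁻¹) * (h * h₀⁻¹) := by group
      _ = τ * (h * h₀⁻¹) := by rw [← h3]
  · intro x _ y _ h
    exact mul_right_cancel h
have himg : (A.image (fun h => h⁻¹ * τ * h)).card ≤ Sw.card := by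
  apply Finset.card_le_card
  intro j hj
  obtain ⟨h, hh, rfl⟩ := Finset.mem_image.1 hj
  simp only [A, Finset.mem_filter, Finset.mem_univ, true_and] at hh
  simp only [Sw, Finset.mem_filter, Finset.mem_univ, true_and]
  constructor
  · rw [mul_smul, mul_smul, ← hh.2.2, inv_smul_smul]
  · rw [mul_smul, mul_smul, hh.2.2, ← mul_smul τ τ, hτ2, one_smul, inv_smul_smul]
have hfinal : (Fintype.card Ω - 2) * Dd.card ≤ (2 * Dd.card) * Dd.card := by
  calc (Fintype.card Ω - 2) * Dd.card ≤ X.card * Dd.card := Nat.mul_le_mul_right _ hX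
    _ ≤ A.card := hAge
    _ ≤ Ct.card * (A.image (fun h => h⁻¹ * τ * h)).card := hAle
    _ ≤ (2 * Dd.card) * Dd.card := Nat.mul_le_mul hCt (himg.trans hSw)
rw [← hDd]
exact Nat.le_of_mul_le_mul_right hfinal (by rw [hDd]; exact hdpos)

end Cfsg.Agent.S0741
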