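import Mathlib
import Cfsg.Statements.S0495
import Cfsg.Agent.Lib.H17.Mob6

set_option autoImplicit false
set_option maxRecDepth 100000
set_option linter.style.haveILetI false
open Cfsg

namespace Cfsg.Agent.S0495

open Cfsg.Agent.H17.Mob

def L7 : List (Bool × ℕ) := [(true, 0), (true, 0), (true, 1), (false, 0), (true, 2), (false, 2), (false, 1)]
def R7 : List ℕ := [1, 2, 4]
def C7 : List ℕ := [1, 4]
theorem log7 : logB 7 2 3 L7 = true := by decide +kernel
theorem chk7 : chkB 7 3 C7 R7 L7 = true := by decide +kernel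
theorem roots7 : ∀ l : ZMod 7, l ^ 3 = 1 → l.val ∈ R7 := by decide +kernel
theorem cases7 : ∀ l : ZMod 7, l ^ 3 = 1 → l = 1 ∨ l = 2 ∨ l = 4 := by decide +kernel
theorem g07 : ((2 : ℕ) : ZMod 7) ≠ 0 := by decide +kernel
theorem g0m7 : ((2 : ℕ) : ZMod 7) ^ 3 = 1 := by decide +kernel
theorem n07 : ((3 : ℕ) : ZMod 7) ≠ 0 := by decide +kernel
theorem two7 : ((2 : ℕ) : ZMod 7) = 2 := by decide +kernel
theorem two_ne : (2 : ZMod 7) ≠ 1 := by decide +kernel
theorem two_pow : (2 : ZMod 7) ^ 3 = 1 := by decide +kernel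
theorem fix2 : ∀ s : ZMod 7, 2 * s = s → s = 0 := by decide +kernel
theorem fix4 : ∀ s : ZMod 7, 2 * (2 * s) = s → s = 0 := by decide +kernel
theorem eight : ∀ s : ZMod 7, 2 * (2 * (2 * s)) = s := by decide +kernel
theorem four_eq : ∀ s : ZMod 7, 4 * s = 2 * (2 * s) := by decide +kernel

open OnePoint

section Burnside

variable {X : Type*} [Group X] [Finite X] [IsSimpleGroup X]

lemma no_central (M : X) (hM : orderOf M = 3) (hcard : Nat.card X = 168) (hM2 : ∀ g : X,
    g ∈ Subgroup.normalizer (Subgroup.zpowers M : Set X) → g * M = M * g) : False := by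
  haveI : Fact (Nat.Prime 3) := ⟨by norm_num⟩
  have hf : (Nat.card X).factorization 3 = 1 := by
    rw [hcard]
    have e : (168 : ℕ) = 3 * 56 := by norm_num
    rw [e, Nat.factorization_mul (by norm_num) (by norm_num), Nat.Prime.factorization (by norm_num)]
    simp [Nat.factorization_eq_zero_of_not_dvd (show ¬ 3 ∣ 56 by norm_num)]
  let P : Sylow 3 X := Sylow.ofCard (Subgroup.zpowers M) (by rw [Nat.card_zpowers, hM, hf, pow_one])
  have hPe : (P : Subgroup X) = Subgroup.zpowers M := rfl
  have hN : Subgroup.normalizer (P : Set X) ≤ Subgroup.centralizer (P : Set X) := by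
    intro g hg
    rw [Subgroup.mem_centralizer_iff]
    intro y hy
    have hy' : y ∈ Subgroup.zpowers M := hy
    obtain ⟨k, rfl⟩ := Subgroup.mem_zpowers_iff.mp hy'
    have hcomm : Commute g M := hM2 g hg
    exact (hcomm.zpow_right k).symm.eq
  have hC := MonoidHom.ker_transferSylow_isComplement' P hN
  have hcardK := hC.card_mul
  have hPc : Nat.card (P : Subgroup X) = 3 := by
    rw [hPe, Nat.card_zpowers, hM]
  rw [hPc, hcard] at hcardK
  rcases (MonoidHom.normal_ker (MonoidHom.transferSylow P hN)).eq_bot_or_eq_top with h | h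
  · rw [h] at hcardK
    simp at hcardK
  · rw [h] at hcardK
    simp only [Subgroup.card_top, hcard] at hcardK
    omega

instance fact7 : Fact (Nat.Prime 7) := ⟨by norm_num⟩

theorem not_two (hcard : Nat.card X = 168) (ρ : X →* Equiv.Perm (OnePoint (ZMod 7))) (hA : AffAct 3 ρ)
    (hρ : Function.Injective ρ) (μ : X) (ι : ZMod 7 → ZMod 7) (D : SwapData ρ μ ι)
    (hE : ∀ x : ZMod 7, x ≠ 0 → ι (2 * x) = 2 * ι x) : False := by
  obtain ⟨M, hM0, hM⟩ := hA.scal 2 two_pow
  have hcomm : M * μ = μ * M := by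
    apply hρ
    refine Equiv.ext fun x => ?_
    simp only [map_mul, Equiv.Perm.mul_apply]
    induction x using OnePoint.rec with
    | infty => rw [hM0, D.inf, hM, mul_zero]
    | coe s =>
      by_cases hs : s = 0
      · subst hs
        rw [D.zero, hM0, hM, mul_zero, D.zero]
      · have h2 : (2 : ZMod 7) ≠ 0 := by decide +kernel
        rw [D.act s hs, hM, hM, D.act _ (mul_ne_zero h2 hs), hE s hs]
  have hM3 : M ^ 3 = 1 := by
    apply hρ
    refine Equiv.ext fun x => ?_
    rw [map_one, pow_succ, pow_two]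
    simp only [map_mul, Equiv.Perm.mul_apply, Equiv.Perm.one_apply]
    induction x using OnePoint.rec with
    | infty => rw [hM0, hM0, hM0]
    | coe s => rw [hM, hM, hM, eight]
  have hM1 : M ≠ 1 := by
    rintro rfl
    have h := hM (1 : ZMod 7)
    rw [map_one, Equiv.Perm.one_apply] at h
    have h3 := OnePoint.coe_injective h
    revert h3
    decide +kernel
  haveI : Fact (Nat.Prime 3) := ⟨by norm_num⟩
  have ho : orderOf M = 3 := orderOf_eq_prime hM3 hM1
  -- powers of `M`
  have hMsq : ∀ x : OnePoint (ZMod 7), ρ M x = x → x = ∞ ∨ x = ((0 : ZMod 7) : OnePoint (ZMod 7)) := by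
    intro x hx
    induction x using OnePoint.rec with
    | infty => exact Or.inl rfl
    | coe s =>
      right
      rw [hM] at hx
      rw [fix2 s (OnePoint.coe_injective hx)]
  have hMsq2 : ∀ x : OnePoint (ZMod 7), ρ (M ^ 2) x = x → x = ∞ ∨ x = ((0 : ZMod 7) : OnePoint (ZMod 7)) := by
    intro x hx
    induction x using OnePoint.rec with
    | infty => exact Or.inl rfl
    | coe s =>
      right
      rw [pow_two, map_mul, Equiv.Perm.mul_apply, hM, hM] at hx
      rw [fix4 s (OnePoint.coe_injective hx)]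
  -- the stabilizer of both points
  have hstab : ∀ g : X, ρ g ∞ = ∞ → ρ g ((0 : ZMod 7) : OnePoint (ZMod 7)) = ((0 : ZMod 7) : OnePoint (ZMod 7)) →
      g * M = M * g := by
    intro g h1 h2
    obtain ⟨l, b, hl0, hlm, hl⟩ := hA.aff g h1
    have hb : b = 0 := by
      have h3 := hl 0
      rw [h2, mul_zero, zero_add] at h3
      exact (OnePoint.coe_injective h3).symm
    subst hb
    apply hρ
    refine Equiv.ext fun x => ?_
    simp only [map_mul, Equiv.Perm.mul_apply]
    induction x using OnePoint.rec with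
    | infty => rw [hM0, h1, hM0]
    | coe s =>
      rw [hM, hl, hl, hM, add_zero, add_zero]
      congr 1
      ring
  refine no_central M ho hcard (fun g hg => ?_)
  -- the conjugate of `M`
  have hmem : g * M * g⁻¹ ∈ Subgroup.zpowers M :=
    (Subgroup.mem_normalizer_iff.mp hg M).mp (Subgroup.mem_zpowers M)
  have hne : g * M * g⁻¹ ≠ 1 := by
    intro h
    apply hM1
    have : g * M = g := by
      have h2 : g * M * g⁻¹ * g = 1 * g := by rw [h]
      simpa using h2
    simpa using this
  have hcases : g * M * g⁻¹ = M ∨ g * M * g⁻¹ = M ^ 2 := by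
    have h1 := mem_powers_iff_mem_zpowers.mpr hmem
    obtain ⟨k, hk⟩ := Submonoid.mem_powers_iff _ _ |>.mp h1
    have h2 : M ^ (k % 3) = g * M * g⁻¹ := by
      rw [← hk]
      have h3 := pow_mod_orderOf M k
      rwa [ho] at h3
    have h4 : k % 3 < 3 := Nat.mod_lt _ (by norm_num)
    interval_cases h5 : k % 3
    · exact absurd (by rw [← h2, pow_zero]) hne
    · left
      rw [← h2, pow_one]
    · right
      rw [← h2]
  -- the fixed points are permuted
  have hfix : ∀ x : OnePoint (ZMod 7), ρ M x = x → ρ g x = ∞ ∨ ρ g x = ((0 : ZMod 7) : OnePoint (ZMod 7)) := by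
    intro x hx
    have e : ρ (g * M * g⁻¹) (ρ g x) = ρ g x := by
      simp only [map_mul, map_inv, Equiv.Perm.mul_apply]
      rw [show (ρ g)⁻¹ ((ρ g) x) = x from Equiv.Perm.inv_eq_iff_eq.mpr rfl, hx]
    rcases hcases with h | h
    · rw [h] at e
      exact hMsq _ e
    · rw [h] at e
      exact hMsq2 _ e
  have h00 : ρ M ((0 : ZMod 7) : OnePoint (ZMod 7)) = ((0 : ZMod 7) : OnePoint (ZMod 7)) := by
    rw [hM, mul_zero]
  rcases hfix ∞ hM0 with h1 | h1
  · rcases hfix _ h00 with h2 | h2
    · exfalso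
      have := (ρ g).injective (h2.trans h1.symm)
      exact OnePoint.coe_ne_infty _ this
    · exact hstab g h1 h2
  · rcases hfix _ h00 with h2 | h2
    · -- `g` swaps
      have hμ : μ⁻¹ * g * M = M * (μ⁻¹ * g) := by
        apply hstab
        · rw [map_mul, Equiv.Perm.mul_apply, h1, D.inv_zero]
        · rw [map_mul, Equiv.Perm.mul_apply, h2, D.inv_inf]
      have hc2 : μ⁻¹ * M = M * μ⁻¹ := by
        have h5 : μ⁻¹ * (M * μ) * μ⁻¹ = μ⁻¹ * (μ * M) * μ⁻¹ := by rw [hcomm]
        simpa [mul_assoc] using h5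
      calc g * M = μ * (μ⁻¹ * g * M) := by group
        _ = μ * (M * (μ⁻¹ * g)) := by rw [hμ]
        _ = (μ * M) * (μ⁻¹ * g) := by group
        _ = (M * μ) * (μ⁻¹ * g) := by rw [hcomm]
        _ = M * g := by group
    · exfalso
      have := (ρ g).injective (h2.trans h1.symm)
      exact OnePoint.coe_ne_infty _ this

end Burnside

theorem result {G : Type*} [Group G] [Finite G] [IsSimpleGroup G]
    (h : Nat.card G = 168) {F : Type*} [Field F] [Fintype F] (hF : Fintype.card F = 7) :
    Nonempty (G ≃* Matrix.ProjectiveSpecialLinearGroup (Fin 2) F) := by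
  have hq : Nat.card G = 7 * 24 := by omega
  obtain ⟨h1, h2, h3⟩ := sylow_number (p := 7) (X := G) 24 (by norm_num) hq (by norm_num)
  have hn : Nat.card (Sylow 7 G) = 8 := by
    have hle := Nat.le_of_dvd (by norm_num) h1
    generalize Nat.card (Sylow 7 G) = k at *
    interval_cases k <;> omega
  refine psl_simple_recog hF (by norm_num) 3 (by norm_num) (by norm_num) (by omega) (by rw [h]; norm_num) (by norm_num) (by rw [hn]) 2 3 C7 R7 L7 log7 (by decide +kernel) chk7 g07 g0m7 n07 roots7 ?_
  intro ρ hA hρ μ ι D c hc hc0 hcE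
  rcases cases7 c hc with rfl | rfl | rfl
  · decide +kernel
  · exfalso
    refine not_two h ρ hA hρ μ ι D (fun x hx => ?_)
    have := hcE x hx
    rwa [two7] at this
  · decide +kernel

end Cfsg.Agent.S0495
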