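import Cfsg.Statements.S3911
import Mathlib
import Cfsg.Agent.Lib.H18.AbConj2

set_option autoImplicit false
open Cfsg

namespace Cfsg.Agent.S3911

/-- Let G be a finite group in which any two abelian subgroups of the same order are conjugate. If M is a normal subgroup of G of odd order, then any two abelian subgroups of G/M of the same order are conjugate in G/M. -/
theorem result {G : Type*} [Group G] [Finite G] (hB : ∀ A B : Subgroup G, IsMulCommutative ↥A → IsMulCommutative ↥B → Nat.card ↥A = Nat.card ↥B → ∃ g : G, B = A.map (MulAut.conj g).toMonoidHom) (M : Subgroup G) [M.Normal] (hM : Odd (Nat.card ↥M)) :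
    ∀ A B : Subgroup (G ⧸ M), IsMulCommutative ↥A → IsMulCommutative ↥B → Nat.card ↥A = Nat.card ↥B →
      ∃ g : G ⧸ M, B = A.map (MulAut.conj g).toMonoidHom := by
  classical
have hH : H18.HProp G := hB
have hS := Cfsg.Agent.S3908.result hB
have hodd : ∀ (p : ℕ) [Fact p.Prime], p ∣ Nat.card M → p ≠ 2 := by
  intro p _ hd h2
  subst h2
  exact (Nat.not_even_iff_odd.2 hM) (even_iff_two_dvd.2 hd)
have hsyl : ∀ (p : ℕ) [Fact p.Prime], p ∣ Nat.card M → ∀ P : Sylow p G, IsCyclic (P : Subgroup G) ∨ (P : Subgroup G) ≤ M := by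
  intro p _ hpM P
  rcases hS.2 p (hodd p hpM) P with h | h
  · exact Or.inl h
  · exact Or.inr (H18.le_of_exp hH M p hpM _ h)
refine H18.quot_hProp hH M ?_ ?_
· intro p hp u hu huM k hk
  haveI : Fact p.Prime := ⟨hp⟩
  rcases k with _ | k
  · simp
  have hpM : p ∣ Nat.card M := (dvd_pow_self p (Nat.succ_ne_zero k)).trans hk
  exact H18.liftCond_prime M p (hsyl p hpM) u hu huM _ hk
· intro B hB'
  exact H18.abPart_cyclic_of M B hB' (fun p _ hpM T _ hT =>
    H18.sylow_image_cyclic M p (hsyl p hpM) T hT)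

end Cfsg.Agent.S3911
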