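import Cfsg.Statements.S0867
import Cfsg.Agent.Lib.H04.Cliff.Det

set_option autoImplicit false
open Cfsg

namespace Cfsg.Agent.S0867

open Cfsg Cfsg.Agent.H21 Cfsg.Agent.H04.Cliff Module
open scoped ComplexConjugate

set_option linter.style.haveILetI false
set_option linter.unusedVariables false
set_option linter.unusedSectionVars false
set_option linter.unusedSimpArgs false


/-- Let N be a normal subgroup of the finite group G and ϑ an irreducible character of N of degree d, invariant under conjugation by G, such that the index of N is coprime to the product of d and the determinantal order of ϑ. Then there is an irreducible character χ of G restricting to ϑ whose determinantal order equals that of ϑ, and χ is the only irreducible character of G restricting to ϑ whose determinantal order is coprime to the index of N. -/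
theorem result {G : Type*} [Group G] [Finite G] (N : Subgroup G) [hN : N.Normal] (ϑ : N → ℂ) (hϑ : Cfsg.IsIrrCharacter N ϑ) (hinv : ∀ (g : G) (n : N), ϑ ⟨g * n * g⁻¹, hN.conj_mem (n : G) n.2 g⟩ = ϑ n) (d : ℕ) (hd : ϑ 1 = d) (hcop : Nat.Coprime N.index (Cfsg.detOrder ϑ * d)) : ∃ χ : G → ℂ, (Cfsg.IsIrrCharacter G χ ∧ (∀ n : N, χ n = ϑ n) ∧ Cfsg.detOrder χ = Cfsg.detOrder ϑ) ∧ ∀ χ' : G → ℂ, Cfsg.IsIrrCharacter G χ' → (∀ n : N, χ' n = ϑ n) → Nat.Coprime N.index (Cfsg.detOrder χ') → χ' = χ := by
  obtain ⟨m, ρ, hρ, rfl⟩ := hϑ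
  have hinv' := inv_of_char rfl hinv
  have hfin := finrank_of_degree ρ hd
  have hord := detOrder_rep ρ
  have hcop1 : Nat.Coprime N.index (orderOf (detU ρ)) := by
    rw [← hord]
    exact Nat.Coprime.coprime_dvd_right (dvd_mul_right _ _) hcop
  have hcop2 : Nat.Coprime N.index (finrank ℂ (Fin m → ℂ)) := by
    rw [hfin]
    exact Nat.Coprime.coprime_dvd_right (dvd_mul_left _ _) hcop
  obtain ⟨μ, hμ, hμo, hμu⟩ := canon_ext N (detU ρ) (det_conj_inv hρ hinv') hcop1
  have hμ' : ∀ n : N, (μ n : ℂ) = LinearMap.det (ρ n) := fun n => by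
    rw [hμ n]; rfl
  obtain ⟨τ, -, hτ⟩ := extends_of_det hρ hinv' μ hμ' hcop2
  obtain ⟨τ', hτ', hdet, huniq⟩ := det_ext_unique hρ τ hτ hcop2 μ hμ'
  obtain ⟨h1, h2⟩ := char_of_ext hρ hτ'
  have hdetU : detU τ' = μ := by
    refine MonoidHom.ext fun g => ?_
    apply Units.ext
    rw [coe_detU, hdet g]
  refine ⟨τ'.character, ⟨h1, h2, ?_⟩, ?_⟩
  · rw [hord, detOrder_rep τ', hdetU, hμo]
  · intro χ' hχ' hχ'n hχ'c
    obtain ⟨τ'', rfl, hτ''⟩ := exists_rep_on_W ρ N.subtype (isCharacter_of_irr hχ') hχ'n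
    rw [detOrder_rep τ''] at hχ'c
    have h3 : detU τ'' = μ := hμu _ (fun n => by
      apply Units.ext
      rw [coe_detU]
      show LinearMap.det (τ'' (N.subtype n)) = _
      rw [hτ'']
      rfl) hχ'c
    have := huniq τ'' hτ'' (fun g => by
      rw [← h3, coe_detU])
    rw [this]

end Cfsg.Agent.S0867
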