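import Mathlib
import Cfsg.Statements.S2618
import Cfsg.Agent.Lib.H11.QF2

set_option autoImplicit false
open Cfsg

namespace Cfsg.Agent.S2618

open Cfsg.Agent.H11 Module QuadraticMap

theorem result {F V : Type*} [Field F] [Finite F] [AddCommGroup V] [Module F V] [FiniteDimensional F V] {m : ℕ} (hV : Module.finrank F V = 2 * m + 1) (Q : QuadraticForm F V) (hQ : (QuadraticMap.polarBilin Q).Nondegenerate) : ∃ b : Module.Basis (Unit ⊕ (Fin m ⊕ Fin m)) F V, Q (b (Sum.inl ())) ≠ 0 ∧ (∀ i, QuadraticMap.polar ⇑Q (b (Sum.inl ())) (b (Sum.inr (Sum.inl i))) = 0 ∧ QuadraticMap.polar ⇑Q (b (Sum.inl ())) (b (Sum.inr (Sum.inr i))) = 0) ∧ (∀ i, Q (b (Sum.inr (Sum.inl i))) = 0 ∧ Q (b (Sum.inr (Sum.inr i))) = 0) ∧ (∀ i j, QuadraticMap.polar ⇑Q (b (Sum.inr (Sum.inl i))) (b (Sum.inr (Sum.inr j))) = if i = j then 1 else 0) ∧ (∀ i j, QuadraticMap.polar ⇑Q (b (Sum.inr (Sum.inl i))) (b (Sum.inr (Sum.inl j))) = 0 ∧ QuadraticMap.polar ⇑Q (b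 (Sum.inr (Sum.inr i))) (b (Sum.inr (Sum.inr j))) = 0) := by
  classical
  obtain ⟨k, e, f, W, h1, h2, h3, h4, h5, h6, h7⟩ := qf_decomp _ V Q hV hQ
  have hW2 := finrank_aniso_le_two Q W h5
  have hW : finrank F W = 1 := by omega
  obtain rfl : k = m := by omega
  -- a generator of W
  obtain ⟨x, hx0⟩ : ∃ x : W, x ≠ 0 := by
    have : Nontrivial W := Module.nontrivial_of_finrank_pos (R := F) (by omega)
    exact exists_ne 0
  have hx0' : (x : V) ≠ 0 := fun h => hx0 (Subtype.ext h)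
  have hQx : Q x ≠ 0 := fun h => hx0' (h5 x x.2 h)
  have hz : LinearIndependent F (fun _ : Unit => (x : V)) := LinearIndependent.of_subsingleton () hx0'
  have hLI := linearIndependent_hyp Q h2 h3 (z := fun _ : Unit => (x : V)) (fun i _ => h4 i x x.2) hz
  have hLI' := hLI.comp (Equiv.sumComm _ _) (Equiv.injective _)
  have hne : Nonempty (Unit ⊕ (Fin k ⊕ Fin k)) := ⟨Sum.inl ()⟩
  let b := basisOfLinearIndependentOfCardEqFinrank hLI' (by
    simp only [Fintype.card_sum, Fintype.card_fin, Fintype.card_unit, hV]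
    omega)
  have hb1 : b (Sum.inl ()) = x := by simp [b]
  have hb2 : ∀ i, b (Sum.inr (Sum.inl i)) = e i := fun i => by simp [b]
  have hb3 : ∀ i, b (Sum.inr (Sum.inr i)) = f i := fun i => by simp [b]
  refine ⟨b, ?_, ?_, ?_, ?_, ?_⟩
  · rwa [hb1]
  · intro i
    rw [hb1, hb2, hb3, polar_comm, polar_comm Q _ (f i)]
    exact h4 i x x.2
  · intro i
    rw [hb2, hb3]
    exact h1 i
  · intro i j
    rw [hb2, hb3]
    exact h2 i j
  · intro i j
    rw [hb2, hb2, hb3, hb3]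
    exact h3 i j

end Cfsg.Agent.S2618
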