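import Mathlib
import Cfsg.Agent.Lib.H13.Q8Act2
import Cfsg.Agent.Lib.H13.FrobFusion
import Cfsg.Statements.S0106
-- import your own Cfsg.Agent.* helpers here

set_option autoImplicit false
open Cfsg

namespace Cfsg.Agent.S0106

open Cfsg.Agent.H13 Subgroup

section aux

variable {G : Type*} [Group G] [Finite G]

theorem comm_of_sq_comm {y c : G} (hodd : Odd (orderOf y)) (h : (y * y) * c = c * (y * y)) :
    y * c = c * y := by
  obtain ⟨l, hl⟩ := hodd
  have hy : y = (y * y) ^ (l + 1) := by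
    rw [← sq, ← pow_mul]
    have : 2 * (l + 1) = orderOf y + 1 := by omega
    rw [this, pow_succ, pow_orderOf_eq_one, one_mul]
  have hc : Commute (y * y) c := h
  have := (hc.pow_left (l + 1))
  rw [← hy] at this
  exact this

theorem rel_cases' {c y : G} (hodd : Odd (orderOf y)) (hc4 : c ^ 4 = 1)
    (hS : ¬ (y * c = c * y)) (hjj : (y * c * y⁻¹) * (y * c * y⁻¹) = c * c)
    (i : Fin 4) (b : Fin 2) (h : y * (y * c * y⁻¹) * y⁻¹ = c ^ i.val * (y * c * y⁻¹) ^ b.val) :
    y * (y * c * y⁻¹) * y⁻¹ = c * (y * c * y⁻¹) ∨ y * (y * c * y⁻¹) * y⁻¹ = c⁻¹ * (y * c * y⁻¹) := by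
  set j := y * c * y⁻¹ with hj
  have hc3 : c ^ 3 = c⁻¹ := (eq_inv_of_mul_eq_one_left (by rw [← pow_succ]; exact hc4))
  have hj4 : j ^ 4 = 1 := by
    rw [hj, conj_pow, hc4]; group
  have hcommj : ¬ (y * j = j * y) := by
    intro h1
    apply hS
    have h0 : j * y = y * c := by rw [hj]; group
    have h3 : j = c := mul_left_cancel (a := y) (h1.trans h0)
    rw [← h0, h3]
  have hodd2 : Odd (orderOf (y * y)) := by
    rw [← sq]
    exact hodd.of_dvd_nat (orderOf_pow_dvd _)
  have hbz : ∀ i' : ℕ, y * j * y⁻¹ ≠ c ^ i' := by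
    intro i' h1
    have h2 : (y * y) * c * (y * y)⁻¹ ∈ zpowers c := by
      have h3 : (y * y) * c * (y * y)⁻¹ = y * j * y⁻¹ := by
        rw [hj]; group
      rw [h3, h1]
      exact (zpowers c).pow_mem (mem_zpowers c) _
    have h4 := odd_comm_of_conj_mem_zpowers (h := y * y) (w := c) (e := 2)
      hodd2 (by simpa using hc4) h2
    exact hS (comm_of_sq_comm hodd h4)
  fin_cases i <;> fin_cases b
  · exact absurd h (hbz 0 |> fun h' h'' => h' (by simpa using h''))
  · exfalso
    apply hcommj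
    have h1 : y * j * y⁻¹ = j := by simpa using h
    calc y * j = y * j * y⁻¹ * y := by group
      _ = j * y := by rw [h1]
  · exact absurd h (hbz 1 |> fun h' h'' => h' (by simpa using h''))
  · left; simpa using h
  · exact absurd h (hbz 2 |> fun h' h'' => h' (by simpa using h''))
  · exfalso
    apply hcommj
    have h1 : y * j * y⁻¹ = j⁻¹ := by
      have h2 : y * j * y⁻¹ = c ^ 2 * j := by simpa using h
      rw [h2, sq, ← hjj]
      have h3 : j * j * j * j = 1 := by
        rw [← hj4]; simp only [pow_succ, pow_zero, one_mul]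
      exact eq_inv_of_mul_eq_one_left h3
    apply odd_comm_of_conj_mem_zpowers hodd (e := 2) (by simpa using hj4)
    rw [h1]
    exact (zpowers j).inv_mem (mem_zpowers j)
  · exact absurd h (hbz 3 |> fun h' h'' => h' (by simpa using h''))
  · right
    rw [← hc3]
    simpa using h

/-- The section. -/
theorem section_of_rel {i j h : G} (hodd : Odd (orderOf h)) (hi4 : i ^ 4 = 1) (hi2 : i ^ 2 ≠ 1)
    (hj2 : j * j = i * i) (hji : j * i * j⁻¹ = i⁻¹)
    (hhi : h * i * h⁻¹ = j) (hhj : h * j * h⁻¹ = i * j) :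
    ∃ (H K : Subgroup G) (hK : (K.subgroupOf H).Normal),
      Nonempty ((H ⧸ K.subgroupOf H) ≃* Matrix.SpecialLinearGroup (Fin 2) (ZMod 3)) := by
  classical
  -- `h³` centralizes `i, j`
  have hh3i : h ^ 3 * i = i * h ^ 3 := by
    have h1 : h ^ 3 * i * (h ^ 3)⁻¹ = h * (h * (h * i * h⁻¹) * h⁻¹) * h⁻¹ := by
      simp only [pow_succ, pow_zero, one_mul]; group
    have h2 : h * (i * j) * h⁻¹ = (h * i * h⁻¹) * (h * j * h⁻¹) := by group
    have h3 : j * (i * j) = i := by
      have : j * (i * j) = (j * i * j⁻¹) * (j * j) := by group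
      rw [this, hji, hj2]; group
    rw [hhi, hhj, h2, hhi, hhj, h3] at h1
    calc h ^ 3 * i = (h ^ 3 * i * (h ^ 3)⁻¹) * h ^ 3 := by group
      _ = i * h ^ 3 := by rw [h1]
  have hh3j : h ^ 3 * j = j * h ^ 3 := by
    have : h ^ 3 * j = h * (h ^ 3 * i) * h⁻¹ := by
      rw [← hhi]; simp only [pow_succ, pow_zero, one_mul]; group
    rw [this, hh3i, ← hhi]; simp only [pow_succ, pow_zero, one_mul]; group
  set H := closure ({i, j, h} : Set G) with hH
  set K := zpowers (h ^ 3) with hK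
  have hiH : i ∈ H := subset_closure (by simp)
  have hjH : j ∈ H := subset_closure (by simp)
  have hhH : h ∈ H := subset_closure (by simp)
  have hKH : K ≤ H := by
    rw [hK, zpowers_le]; exact H.pow_mem hhH _
  have hHC : H ≤ centralizer (K : Set G) := by
    rw [hH, closure_le]
    have hgen : ∀ u : G, u * h ^ 3 = h ^ 3 * u → u ∈ centralizer (K : Set G) := by
      intro u hu
      refine mem_centralizer_iff.2 ?_
      intro x hx
      obtain ⟨n, rfl⟩ := mem_zpowers_iff.1 hx
      exact ((Commute.zpow_left (show Commute (h ^ 3) u from hu.symm) n)).eq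
    rintro u (rfl | rfl | rfl)
    · exact hgen _ hh3i.symm
    · exact hgen _ hh3j.symm
    · exact hgen _ (by rw [← pow_succ, ← pow_succ'])
  haveI hKn : (K.subgroupOf H).Normal := by
    constructor
    intro k hk g
    rw [mem_subgroupOf] at hk ⊢
    have h1 := mem_centralizer_iff.1 (hHC g.2) _ hk
    have h2 : (g : G) * k * (g : G)⁻¹ = k := by
      rw [← h1]; group
    simpa [h2] using hk
  refine ⟨H, K, hKn, ?_⟩
  let π : H →* H ⧸ K.subgroupOf H := QuotientGroup.mk' _
  let î := π ⟨i, hiH⟩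
  let ĵ := π ⟨j, hjH⟩
  let ŷ := π ⟨h, hhH⟩
  have hπi : ∀ x : H, π x = 1 ↔ (x : G) ∈ K := by
    intro x
    rw [show π x = (x : H ⧸ K.subgroupOf H) from rfl, QuotientGroup.eq_one_iff, mem_subgroupOf]
  have r1 : î ^ 4 = 1 := by
    rw [← map_pow, (hπi _)]
    simp [hi4, K.one_mem]
  have r2 : ĵ * ĵ = î * î := by
    rw [← map_mul, ← map_mul]
    congr 1
    exact Subtype.ext hj2
  have r3 : ĵ * î * ĵ⁻¹ = î⁻¹ := by
    rw [← map_inv, ← map_mul, ← map_mul, ← map_inv]
    congr 1
    exact Subtype.ext hji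
  have r4 : ŷ ^ 3 = 1 := by
    rw [← map_pow, (hπi _)]
    exact mem_zpowers _
  have r5 : ŷ * î * ŷ⁻¹ = ĵ := by
    rw [← map_inv, ← map_mul, ← map_mul]
    congr 1
    exact Subtype.ext hhi
  have r6 : ŷ * ĵ * ŷ⁻¹ = î * ĵ := by
    rw [← map_inv, ← map_mul, ← map_mul, ← map_mul]
    congr 1
    exact Subtype.ext hhj
  have htop : closure ({î, ĵ, ŷ} : Set (H ⧸ K.subgroupOf H)) = ⊤ := by
    rw [eq_top_iff]
    intro x _
    have hgen : ∀ (g : G) (hg : g ∈ H), π ⟨g, hg⟩ ∈ Subgroup.closure ({î, ĵ, ŷ} : Set (H ⧸ K.subgroupOf H)) := by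
      intro g hg
      induction hg using closure_induction with
      | mem x hx =>
        rcases hx with rfl | rfl | rfl
        · exact subset_closure (by simp [î])
        · exact subset_closure (by simp [ĵ])
        · exact subset_closure (by simp [ŷ])
      | one => exact (Subgroup.closure _).one_mem
      | mul a b ha hb iha ihb =>
        have : π ⟨a * b, H.mul_mem ha hb⟩ = π ⟨a, ha⟩ * π ⟨b, hb⟩ := by
          rw [← map_mul]; rfl
        rw [this]
        exact (Subgroup.closure _).mul_mem iha ihb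
      | inv a ha iha =>
        have : π ⟨a⁻¹, H.inv_mem ha⟩ = (π ⟨a, ha⟩)⁻¹ := by
          rw [← map_inv]; rfl
        rw [this]
        exact (Subgroup.closure _).inv_mem iha
    induction x using QuotientGroup.induction_on with
    | H z => exact hgen z z.2
  have hcard : Nat.card (closure ({î, ĵ, ŷ} : Set (H ⧸ K.subgroupOf H))) = 24 := by
    have hle := card_closure_three_le r1 r2 r3 r4 r5 r6
    rw [htop, Subgroup.card_top] at hle ⊢
    have hne : j ≠ i := by
      intro hji'
      rw [hji'] at hji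
      apply hi2
      have : i = i⁻¹ := by simpa using hji
      rw [sq]
      nth_rewrite 1 [this]
      group
    have hordi : orderOf i = 4 :=
      orderOf_eq_prime_pow (p := 2) (n := 1) (by simpa using hi2) (by simpa using hi4)
    have h3 : 3 ∣ Nat.card (H ⧸ K.subgroupOf H) := by
      haveI : Fact (Nat.Prime 3) := ⟨Nat.prime_three⟩
      have hy1 : ŷ ≠ 1 := by
        intro h1
        have h2 := (hπi _).1 h1
        obtain ⟨n, hn⟩ := mem_zpowers_iff.1 h2
        have h3 : h * i = i * h := by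
          have h4 : Commute (h ^ 3) i := hh3i
          have h5 := (h4.zpow_left n)
          rw [hn] at h5
          exact h5
        apply hne
        rw [← hhi, h3]
        group
      have h2 : orderOf ŷ = 3 := orderOf_eq_prime r4 hy1
      rw [← h2]
      exact orderOf_dvd_natCard _
    have h8 : 8 ∣ Nat.card (H ⧸ K.subgroupOf H) := by
      set W := closure ({i, j} : Set G) with hW
      have hWle : Nat.card W ≤ 8 := card_closure_two_le hi4 hj2 hji
      have hiW : i ∈ W := subset_closure (by simp)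
      have hjW : j ∈ W := subset_closure (by simp)
      have hzW : zpowers i ≤ W := by rw [zpowers_le]; exact hiW
      have h4W : 4 ∣ Nat.card W := by
        have := Subgroup.card_dvd_of_le hzW
        rwa [Nat.card_zpowers, hordi] at this
      have hW8 : Nat.card W = 8 := by
        obtain ⟨q, hq⟩ := h4W
        have hq2 : q ≤ 2 := by omega
        have hq0 : 1 ≤ q := by
          have : 0 < Nat.card W := Nat.card_pos
          omega
        interval_cases q
        · exfalso
          have h1 : zpowers i = W := Subgroup.eq_of_le_of_card_ge hzW (by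
            rw [Nat.card_zpowers, hordi, hq])
          have h2 : j ∈ zpowers i := by rw [h1]; exact hjW
          obtain ⟨n, rfl⟩ := mem_zpowers_iff.1 h2
          have h3 : i ^ n * i * (i ^ n)⁻¹ = i := by
            have : i ^ n * i = i * i ^ n := ((Commute.refl i).zpow_left n).eq
            rw [this]; group
          rw [h3] at hji
          have : i = i⁻¹ := hji
          apply hi2
          rw [sq]
          nth_rewrite 1 [this]
          group
        · rw [hq]
      have hWH : W ≤ H := by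
        rw [hW, closure_le]
        rintro u (rfl | rfl)
        · exact hiH
        · exact hjH
      have h8H : 8 ∣ Nat.card H := by
        rw [← hW8]; exact Subgroup.card_dvd_of_le hWH
      have hL := Subgroup.card_eq_card_quotient_mul_card_subgroup (K.subgroupOf H)
      rw [hL] at h8H
      have hKc : Nat.card (K.subgroupOf H) = Nat.card K :=
        Nat.card_congr (Subgroup.subgroupOfEquivOfLe hKH).toEquiv
      rw [hKc] at h8H
      have hKodd : Odd (Nat.card K) := by
        rw [hK, Nat.card_zpowers]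
        exact hodd.of_dvd_nat (orderOf_pow_dvd _)
      have hco : Nat.Coprime 8 (Nat.card K) := by
        have : (8 : ℕ) = 2 ^ 3 := by norm_num
        rw [this]
        exact Nat.Coprime.pow_left 3 (Nat.coprime_two_left.mpr hKodd)
      exact hco.dvd_of_dvd_mul_right h8H
    have h1 : 8 * 3 ∣ Nat.card (H ⧸ K.subgroupOf H) :=
      Nat.Coprime.mul_dvd_of_dvd_of_dvd (by norm_num) h8 h3
    have h2 : 0 < Nat.card (H ⧸ K.subgroupOf H) := Nat.card_pos
    have h4 := Nat.le_of_dvd h2 h1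
    omega
  obtain ⟨e⟩ := closure_mulEquiv_slThree r1 r2 r3 r4 r5 r6 hcard
  rw [htop] at e
  exact ⟨Subgroup.topEquiv.symm.trans e⟩

end aux


section quat

open QuaternionGroup

theorem natCast_ne_zero_quat (N : ℕ) (hN : 0 < N) : ((N : ℕ) : ZMod (2 * N)) ≠ 0 := by
  intro h
  rw [ZMod.natCast_eq_zero_iff] at h
  have := Nat.le_of_dvd hN h
  omega

theorem natCast_add_self_quat (N : ℕ) : ((N : ℕ) : ZMod (2 * N)) + ((N : ℕ) : ZMod (2 * N)) = 0 := by
  rw [← Nat.cast_add, ← two_mul, ZMod.natCast_self]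

theorem quat_invol_unique (N : ℕ) (hN : 0 < N) (u : QuaternionGroup N) (hu : u ^ 2 = 1) (hne : u ≠ 1) :
    u = a ((N : ℕ) : ZMod (2 * N)) := by
  haveI : NeZero (2 * N) := ⟨by omega⟩
  cases u with
  | a i =>
    rw [sq, a_mul_a, one_def] at hu
    have hi : i + i = 0 := a.inj hu
    have hv : (2 * N) ∣ 2 * i.val := by
      have : ((2 * i.val : ℕ) : ZMod (2 * N)) = 0 := by
        push_cast
        rw [ZMod.natCast_zmod_val]
        exact (two_mul i).trans hi
      exact (ZMod.natCast_eq_zero_iff _ _).mp this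
    rw [Nat.mul_dvd_mul_iff_left (by norm_num)] at hv
    have hlt : i.val < 2 * N := ZMod.val_lt i
    have hne0 : i.val ≠ 0 := by
      intro h
      apply hne
      rw [(ZMod.val_eq_zero i).mp h, a_zero]
    obtain ⟨c, hc⟩ := hv
    have hc1 : c = 1 := by
      rcases c with _ | _ | c
      · simp at hc; exact absurd ((ZMod.val_eq_zero i).mp (by simpa using hc)) (by
          intro h; apply hne; rw [h, a_zero])
      · rfl
      · exfalso
        rw [hc] at hlt
        nlinarith
    have hval : i.val = N := by rw [hc, hc1, mul_one]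
    have : i = ((N : ℕ) : ZMod (2 * N)) := by
      calc i = ((i.val : ℕ) : ZMod (2 * N)) := (ZMod.natCast_zmod_val i).symm
        _ = _ := by rw [hval]
    rw [this]
  | xa i =>
    rw [xa_sq, one_def] at hu
    exact absurd (a.inj hu) (natCast_ne_zero_quat N hN)

theorem twoMaxCyc_quat (k : ℕ) (hk : 1 ≤ k) :
    TwoMaxCyc (⊤ : Subgroup (QuaternionGroup (2 ^ k))) (a 1) := by
  haveI : NeZero (2 * 2 ^ k) := ⟨by positivity⟩
  have hmem : ∀ i : ZMod (2 * 2 ^ k), a i ∈ zpowers (a (1 : ZMod (2 * 2 ^ k))) := by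
    intro i
    refine mem_zpowers_iff.2 ⟨(i.val : ℤ), ?_⟩
    rw [zpow_natCast, a_one_pow]
    simp
  have hnot : ∀ t : QuaternionGroup (2 ^ k), t ∉ zpowers (a (1 : ZMod (2 * 2 ^ k))) → ∃ i, t = xa i := by
    intro t ht
    cases t with
    | a i => exact absurd (hmem i) ht
    | xa i => exact ⟨i, rfl⟩
  have hrm : ∀ c : QuaternionGroup (2 ^ k), c ∈ zpowers (a (1 : ZMod (2 * 2 ^ k))) → ∃ i, c = a i := by
    intro c hc
    obtain ⟨m, rfl⟩ := mem_powers_iff_mem_zpowers.2 hc
    exact ⟨_, a_one_pow m⟩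
  refine ⟨?_, ?_, ?_, ?_, ?_⟩
  · refine ⟨k + 1, ?_⟩
    have : 2 ^ (k + 1) = 2 * 2 ^ k := pow_succ' 2 k
    rw [this]
    exact a_one_pow_n
  · intro t _ ht
    obtain ⟨i, rfl⟩ := hnot t ht
    exact xa_pow_four i
  · intro t _ ht c hc _
    obtain ⟨i, rfl⟩ := hnot t ht
    obtain ⟨m, rfl⟩ := hrm c hc
    have h1 : (xa i : QuaternionGroup (2 ^ k))⁻¹ = xa (((2 ^ k : ℕ) : ZMod (2 * 2 ^ k)) + i) := rfl
    have h2 : (a m : QuaternionGroup (2 ^ k))⁻¹ = a (-m) := rfl
    rw [h1, h2, xa_mul_a, xa_mul_xa]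
    congr 1
    have hNN := natCast_add_self_quat (2 ^ k)
    linear_combination hNN
  · intro t _ ht t' _ ht'
    obtain ⟨i, rfl⟩ := hnot t ht
    obtain ⟨j, rfl⟩ := hnot t' ht'
    have h1 : (xa i : QuaternionGroup (2 ^ k))⁻¹ = xa (((2 ^ k : ℕ) : ZMod (2 * 2 ^ k)) + i) := rfl
    have : (xa i)⁻¹ * xa j = a (j - i) := by
      rw [h1, xa_mul_xa]
      congr 1
      ring
    rw [this]
    exact hmem _
  · obtain ⟨l, rfl⟩ : ∃ l, k = l + 1 := ⟨k - 1, by omega⟩
    have hcc : ((2 ^ l : ℕ) : ZMod (2 * 2 ^ (l + 1))) + ((2 ^ l : ℕ) : ZMod (2 * 2 ^ (l + 1)))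
        = ((2 ^ (l + 1) : ℕ) : ZMod (2 * 2 ^ (l + 1))) := by
      have : 2 ^ l + 2 ^ l = 2 ^ (l + 1) := by ring
      rw [← Nat.cast_add, this]
    refine ⟨a ((2 ^ l : ℕ) : ZMod (2 * 2 ^ (l + 1))), hmem _, ?_, ?_⟩
    · rw [sq, a_mul_a, one_def]
      intro h
      have h1 := a.inj h
      rw [hcc] at h1
      exact natCast_ne_zero_quat (2 ^ (l + 1)) (by positivity) h1
    · calc (a ((2 ^ l : ℕ) : ZMod (2 * 2 ^ (l + 1))) : QuaternionGroup (2 ^ (l + 1))) ^ 4
          = (a ((2 ^ l : ℕ) : ZMod (2 * 2 ^ (l + 1))) * a ((2 ^ l : ℕ) : ZMod (2 * 2 ^ (l + 1)))) *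
            (a ((2 ^ l : ℕ) : ZMod (2 * 2 ^ (l + 1))) * a ((2 ^ l : ℕ) : ZMod (2 * 2 ^ (l + 1)))) := by
            simp only [pow_succ, pow_zero, one_mul, mul_assoc]
        _ = 1 := by
            rw [a_mul_a, a_mul_a, hcc, natCast_add_self_quat, a_zero]

end quat

/-- A finite group with generalized quaternion Sylow 2-subgroups either has a normal 2-complement or has a section isomorphic to SL(2,3). -/
theorem result {G : Type*} [Group G] [Finite G] (T : Sylow 2 G) (n : ℕ) (hn : 1 ≤ n) (hT : Nonempty ((T : Subgroup G) ≃* QuaternionGroup (2 ^ n))) : Cfsg.HasNormalPComplement 2 G ∨ ∃ (H K : Subgroup G) (hK : (K.subgroupOf H).Normal), Nonempty ((H ⧸ K.subgroupOf H) ≃* Matrix.SpecialLinearGroup (Fin 2) (ZMod 3)) := by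

  classical
  by_cases hF : FrobCond 2 G
  · left; exact hasNormalPComplement_of_frobCond hF
  right
  obtain ⟨e⟩ := hT
  haveI : Fact (Nat.Prime 2) := ⟨Nat.prime_two⟩
  simp only [FrobCond] at hF
  push Not at hF
  obtain ⟨Q, hQ, h, hhN, hco, hhC⟩ := hF
  obtain ⟨R, hR⟩ := hQ.exists_le_sylow
  let e' : (R : Subgroup G) ≃* QuaternionGroup (2 ^ n) := (Sylow.equiv R T).trans e
  have hM : TwoMaxCyc (R : Subgroup G) ((e'.symm (QuaternionGroup.a 1) : (R : Subgroup G)) : G) :=
    (TwoMaxCyc.of_mulEquiv e' (twoMaxCyc_quat n hn)).of_subgroup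
  have hodd : Odd (orderOf h) := Nat.Coprime.odd_of_right hco
  have hN : ∀ f ∈ Q, h * f * h⁻¹ ∈ Q := fun f hf => (mem_normalizer_iff.1 hhN f).1 hf
  have hnc : ∃ f ∈ Q, h * f ≠ f * h := by
    by_contra hcon
    push Not at hcon
    exact hhC (mem_centralizer_iff.2 fun f hf => (hcon f hf).symm)
  let zR : (R : Subgroup G) := e'.symm (QuaternionGroup.a ((2 ^ n : ℕ) : ZMod (2 * 2 ^ n)))
  let z : G := zR
  have hzpow : z ∈ zpowers ((e'.symm (QuaternionGroup.a 1) : (R : Subgroup G)) : G) := by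
    refine mem_zpowers_iff.2 ⟨((2 ^ n : ℕ) : ℤ), ?_⟩
    rw [zpow_natCast]
    show _ = ((e'.symm (QuaternionGroup.a ((2 ^ n : ℕ) : ZMod (2 * 2 ^ n))) : (R : Subgroup G)) : G)
    rw [← QuaternionGroup.a_one_pow, map_pow, Subgroup.coe_pow]
  have hz1 : z ≠ 1 := by
    intro h1
    have h2 : zR = 1 := Subtype.ext h1
    have h3 : QuaternionGroup.a ((2 ^ n : ℕ) : ZMod (2 * 2 ^ n)) = (1 : QuaternionGroup (2 ^ n)) :=
      (MulEquiv.map_eq_one_iff e'.symm).mp h2
    rw [QuaternionGroup.one_def] at h3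
    exact natCast_ne_zero_quat (2 ^ n) (by positivity) (QuaternionGroup.a.inj h3)
  have hz2 : z ^ 2 = 1 := by
    have h2 : zR ^ 2 = 1 := by
      show (e'.symm _) ^ 2 = 1
      rw [← map_pow, sq, QuaternionGroup.a_mul_a, natCast_add_self_quat, QuaternionGroup.a_zero, map_one]
    exact congrArg Subtype.val h2
  have huniq : ∀ u ∈ (R : Subgroup G), u ^ 2 = 1 → u ≠ 1 → u = z := by
    intro u hu hu2 hu1
    have h1 : e' ⟨u, hu⟩ = QuaternionGroup.a ((2 ^ n : ℕ) : ZMod (2 * 2 ^ n)) := by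
      apply quat_invol_unique (2 ^ n) (by positivity)
      · rw [← map_pow]
        have : (⟨u, hu⟩ : (R : Subgroup G)) ^ 2 = 1 := Subtype.ext hu2
        rw [this, map_one]
      · intro h2
        have := (MulEquiv.map_eq_one_iff e').mp h2
        exact hu1 (congrArg Subtype.val this)
    have h2 : (⟨u, hu⟩ : (R : Subgroup G)) = zR := by
      rw [MulEquiv.eq_symm_apply]
      exact h1
    exact congrArg Subtype.val h2
  have hzQ : z ∈ Q := by
    obtain ⟨f, hf, hfne⟩ := hnc
    have hf1 : f ≠ 1 := by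
      rintro rfl
      simp at hfne
    haveI : Nontrivial Q := ⟨⟨⟨f, hf⟩, 1, fun h1 => hf1 (congrArg Subtype.val h1)⟩⟩
    obtain ⟨m, hm, hcard⟩ := hQ.nontrivial_iff_card.mp inferInstance
    have h2 : 2 ∣ Nat.card Q := by
      rw [hcard]
      exact dvd_pow_self 2 (by omega)
    obtain ⟨w, hw⟩ := exists_prime_orderOf_dvd_card' (G := Q) 2 h2
    have hw2 : (w : G) ^ 2 = 1 := by
      have := pow_orderOf_eq_one w
      rw [hw] at this
      exact congrArg Subtype.val this
    have hw1 : (w : G) ≠ 1 := by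
      intro h1
      have : w = 1 := Subtype.ext h1
      rw [this, orderOf_one] at hw
      omega
    have := huniq w (hR w.2) hw2 hw1
    rw [← this]
    exact w.2
  have hhz : h * z * h⁻¹ = z := by
    apply huniq _ (hR (hN z hzQ))
    · rw [conj_pow]
      rw [hz2]; group
    · intro h1
      apply hz1
      have : z = h⁻¹ * (h * z * h⁻¹) * h := by group
      rw [this, h1]; group
  obtain ⟨c, hcF, htA, hcA, hc4, hc2, htt, htc, hNF, hS⟩ := q8_of_noncentral hM hR hodd hN hnc
    (zpowers z) (by rw [zpowers_le]; exact hzQ) (by rw [zpowers_le]; exact hzpow)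
    (by rw [Ne, zpowers_eq_bot]; exact hz1) (by
      intro w hw
      obtain ⟨m, rfl⟩ := mem_zpowers_iff.1 hw
      rw [← conj_zpow, hhz]
      exact zpow_mem (mem_zpowers z) m)
  have hjF : h * c * h⁻¹ ∈ Q := hN c hcF
  have hkF : h * (h * c * h⁻¹) * h⁻¹ ∈ Q := hN _ hjF
  obtain ⟨i, b, hib⟩ := hNF _ hkF
  have hcases := rel_cases' hodd hc4 hS htt i b hib
  set j := h * c * h⁻¹ with hj
  have hjcomm : j⁻¹ * c = c⁻¹ * j⁻¹ := by
    have h1 : j * c⁻¹ * j⁻¹ = c := by
      have : j * c⁻¹ * j⁻¹ = (j * c * j⁻¹)⁻¹ := by group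
      rw [this, htc, inv_inv]
    calc j⁻¹ * c = j⁻¹ * (j * c⁻¹ * j⁻¹) := by rw [h1]
      _ = c⁻¹ * j⁻¹ := by group
  rcases hcases with h1 | h1
  · exact section_of_rel hodd hc4 hc2 htt htc rfl h1
  · refine section_of_rel (i := c⁻¹) (j := j⁻¹) hodd (by rw [inv_pow, hc4, inv_one])
      (by rw [inv_pow]; simpa using hc2) ?_ ?_ ?_ ?_
    · have : j⁻¹ * j⁻¹ = (j * j)⁻¹ := by group
      rw [this, htt]; group
    · have : j⁻¹ * c⁻¹ * j⁻¹⁻¹ = (j⁻¹ * c * j)⁻¹ := by group
      rw [this, hjcomm]; group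
    · have : h * c⁻¹ * h⁻¹ = (h * c * h⁻¹)⁻¹ := by group
      rw [this]
    · have : h * j⁻¹ * h⁻¹ = (h * j * h⁻¹)⁻¹ := by group
      rw [this, h1, mul_inv_rev, inv_inv, hjcomm]


end Cfsg.Agent.S0106
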