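import Mathlib
import Cfsg.Agent.Lib.H01.ZeNormal
import Cfsg.Agent.Lib.H14.QdStable
import Cfsg.Agent.Lib.H14.QdSL2
import Cfsg.Agent.Lib.H26.QuadSL2
import Cfsg.Agent.Lib.H24.FusInv
import Cfsg.Agent.Lib.H24.QdLocal1
import Cfsg.Agent.Lib.H08.HallHigman
import Cfsg.Agent.Lib.H06.PSolvable
import Cfsg.Agent.Lib.H13.SL23Rec
import Cfsg.Statements.S0109
-- import your own Cfsg.Agent.* helpers here

set_option autoImplicit false
open Cfsg

namespace Cfsg.Agent.S0109

open Cfsg.Agent.H14 Cfsg.Agent.H14.ZJFam Cfsg.Agent.H01.ZE Matrix MatrixGroups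

section
variable {G : Type*} [Group G] [Finite G]

set_option maxRecDepth 100000 in
lemma sl3_forms : ∀ a : Fin 4, ∀ b : Fin 2,
    (Cfsg.Agent.H13.slI ^ a.val * Cfsg.Agent.H13.slJ ^ b.val) ^ 4 = 1 := by decide +kernel

set_option maxRecDepth 100000 in
lemma sl3_noncomm : Cfsg.Agent.H13.slI * Cfsg.Agent.H13.slJ ≠ Cfsg.Agent.H13.slJ * Cfsg.Agent.H13.slI := by
  decide +kernel

theorem sl3_sylow_not_comm (S : Sylow 2 Cfsg.Agent.H13.SLThree)
    (hS : ∀ a ∈ (S : Subgroup Cfsg.Agent.H13.SLThree), ∀ b ∈ (S : Subgroup Cfsg.Agent.H13.SLThree), a * b = b * a) : False := by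
  classical
  haveI : Fact (Nat.Prime 2) := ⟨Nat.prime_two⟩
  set Q := Subgroup.closure ({Cfsg.Agent.H13.slI, Cfsg.Agent.H13.slJ} : Set Cfsg.Agent.H13.SLThree) with hQ
  have hQp : IsPGroup 2 Q := by
    rintro ⟨w, hw⟩
    obtain ⟨a, b, rfl⟩ := Cfsg.Agent.H13.nf_closure_two Cfsg.Agent.H13.slI_four Cfsg.Agent.H13.slJ_sq Cfsg.Agent.H13.slJ_conj w hw
    refine ⟨2, Subtype.ext ?_⟩
    exact sl3_forms a b
  obtain ⟨R, hR⟩ := hQp.exists_le_sylow
  have hcomm : ∀ a ∈ (R : Subgroup Cfsg.Agent.H13.SLThree), ∀ b ∈ (R : Subgroup Cfsg.Agent.H13.SLThree), a * b = b * a := by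
    intro a ha b hb
    let e := Sylow.equiv R S
    have h1 := hS _ (e ⟨a, ha⟩).2 _ (e ⟨b, hb⟩).2
    have h2 : e ⟨a, ha⟩ * e ⟨b, hb⟩ = e ⟨b, hb⟩ * e ⟨a, ha⟩ := Subtype.ext h1
    rw [← map_mul, ← map_mul] at h2
    have h3 := e.injective h2
    exact congrArg Subtype.val h3
  exact sl3_noncomm (hcomm _ (hR (Subgroup.subset_closure (by simp))) _ (hR (Subgroup.subset_closure (by simp))))

theorem not_involves_qd {p : ℕ} [Fact p.Prime] (hp : p ≠ 2) (hs : Group.IsSolvable G)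
    (h3 : p = 3 → ∀ T : Sylow 2 G, IsMulCommutative T) :
    ¬ Involves ↥(Cfsg.qdOver (ZMod p)) G := by
  classical
  intro h
  obtain ⟨P, -, -, hP⟩ := involves_sl2_of_involves_qd (F := ZMod p) (p := p) h
  have h2 : Involves (SL(2, ZMod p)) G := H09.Involves.trans' hP (H09.involves_subgroup _)
  obtain ⟨K, θ, hθ⟩ := H09.exists_of_involves h2
  by_cases hp3 : p = 3
  · subst hp3
    haveI : Fact (Nat.Prime 2) := ⟨Nat.prime_two⟩
    have h3' := h3 rfl
    obtain ⟨S⟩ : Nonempty (Sylow 2 (SL(2, ZMod 3))) := inferInstance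
    obtain ⟨TK, hTK⟩ := Sylow.mapSurjective_surjective hθ 2 S
    obtain ⟨T, hT⟩ := (TK.isPGroup'.map K.subtype).exists_le_sylow
    have hTc := h3' T
    apply sl3_sylow_not_comm S
    intro a ha b hb
    have hS : (S : Subgroup (SL(2, ZMod 3))) = (TK : Subgroup K).map θ := by
      rw [← hTK]; rfl
    rw [hS] at ha hb
    obtain ⟨a', ha', rfl⟩ := ha
    obtain ⟨b', hb', rfl⟩ := hb
    have h1 : (a' : G) ∈ (T : Subgroup G) := hT ⟨a', ha', rfl⟩
    have h2 : (b' : G) ∈ (T : Subgroup G) := hT ⟨b', hb', rfl⟩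
    have h4 : (⟨a', h1⟩ : (T : Subgroup G)) * ⟨b', h2⟩ = ⟨b', h2⟩ * ⟨a', h1⟩ :=
      hTc.is_comm.comm _ _
    have h6 : (a' : G) * b' = b' * a' := congrArg Subtype.val h4
    have h5 : a' * b' = b' * a' := Subtype.ext h6
    rw [← map_mul, ← map_mul, h5]
  · haveI := hs
    haveI : Group.IsSolvable (SL(2, ZMod p)) := solvable_of_surjective hθ
    exact Cfsg.Agent.H26.QuadSL.not_isPSolvable_SL2 hp hp3 (Cfsg.Agent.H06.isPSolvable_of_isSolvable p _)

end

/-- The Thompson factorization Theorem for solvable groups states that, with p odd (and abelian Sylow 2-subgroups when p = 3) and no nontrivial normal subgroup of order prime to p, every element of G is a product of an element normalizing J(P) and an element centralizing the elements of order dividing p in the centre of P. -/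
theorem result {G : Type*} [Group G] [Finite G] {p : ℕ} [Fact p.Prime] (hp : p ≠ 2) (hs : Group.IsSolvable G) (h3 : p = 3 → ∀ T : Sylow 2 G, IsMulCommutative T) (hF : ∀ N : Subgroup G, N.Normal → Nat.Coprime (Nat.card N) p → N = ⊥) (P : Sylow p G) (g : G) : ∃ a ∈ Subgroup.normalizer (Cfsg.thompsonSubgroupOf p (P : Subgroup G) : Set G), ∃ c ∈ Subgroup.centralizer {x : G | x ∈ (P : Subgroup G) ∧ (∀ y ∈ (P : Subgroup G), x * y = y * x) ∧ x ^ p = 1}, g = a * c := by

  classical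
  haveI := hs
  have hfree := not_involves_qd hp hs h3
  have hst : Cfsg.IsNormalizerPStable p G := stable_of_not_involves hp hfree
  have hO : Cfsg.pPrimeCore p G = ⊥ := by
    unfold Cfsg.pPrimeCore
    exact sSup_eq_bot.2 (fun N hN => hF N hN.1 hN.2)
  have hc : Subgroup.centralizer (Cfsg.pCore p G : Set G) ≤ Cfsg.pCore p G :=
    Cfsg.Agent.H08.hall_higman (Cfsg.Agent.H06.isPSolvable_of_isSolvable p G) hO
  have hD : Cfsg.IsStronglyClosed (P : Subgroup G) (P : Subgroup G) := ⟨le_rfl, fun _ _ _ h => h⟩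
  have hZn : (ze p (P : Subgroup G)).Normal := ze_normal hp P hD hst hc
  set Z := ze p (P : Subgroup G) with hZ
  set C := Subgroup.centralizer (Z : Set G) with hC
  haveI hCn : C.Normal := by
    constructor
    intro n hn u
    refine Subgroup.mem_centralizer_iff.mpr ?_
    intro z hz
    have hz' : u⁻¹ * z * u ∈ Z := by
      have := hZn.conj_mem z hz u⁻¹
      simpa using this
    have h1 := Subgroup.mem_centralizer_iff.mp hn _ hz'
    calc z * (u * n * u⁻¹) = u * ((u⁻¹ * z * u) * n) * u⁻¹ := by group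
      _ = u * (n * (u⁻¹ * z * u)) * u⁻¹ := by rw [h1]
      _ = _ := by group
  set J := (elFam G p).jj (P : Subgroup G) with hJ
  have hJP : J ≤ (P : Subgroup G) := jj_le _
  have hJC : J ≤ C := by
    intro j hj
    refine Subgroup.mem_centralizer_iff.mpr ?_
    intro z hz
    have := Subgroup.mem_centralizer_iff.mp hz.2 j hj
    exact this.symm
  obtain ⟨R, hR⟩ := Cfsg.Agent.H24.exists_sylow_inf_normal P C
  set P₀ := (R : Subgroup C).map C.subtype with hP₀
  have hP₀eq : P₀ = (P : Subgroup G) ⊓ C := by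
    rw [hP₀, hR]
    exact Subgroup.subgroupOf_map_subtype _ _
  have hJP₀ : J ≤ P₀ := by
    rw [hP₀eq]
    exact le_inf hJP hJC
  have hP₀P : P₀ ≤ (P : Subgroup G) := by
    rw [hP₀eq]
    exact inf_le_left
  have hmx : (elFam G p).mx P₀ = (elFam G p).mx (P : Subgroup G) := by
    obtain ⟨A₀, hA₀⟩ := (elFam G p).exists_mx (P : Subgroup G)
    have hto : ∀ A ∈ (elFam G p).mx (P : Subgroup G), A ∈ (elFam G p).mx P₀ := fun A hA =>
      ⟨(le_jj hA).trans hJP₀, hA.2.1, fun B hB hFB => hA.2.2 B (hB.trans hP₀P) hFB⟩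
    ext A
    constructor
    · intro hA
      refine ⟨hA.1.trans hP₀P, hA.2.1, fun B hB hFB => ?_⟩
      exact (hA₀.2.2 B hB hFB).trans (hA.2.2 A₀ (hto A₀ hA₀).1 hA₀.2.1)
    · exact hto A
  have hjj : (elFam G p).jj P₀ = J := by
    rw [hJ]
    unfold ZJFam.jj
    rw [hmx]
  obtain ⟨n, hn, c, hcC, hg⟩ := Cfsg.Agent.H24.exists_normalizer_mul_of_sylow C R g
  refine ⟨n, ?_, c, ?_, hg⟩
  · rw [thompsonSubgroupOf_eq_jj, ← hJ, ← hjj]
    rw [Subgroup.mem_normalizer_iff]
    intro x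
    constructor
    · exact fun hx => jj_conj hn hx
    · intro hx
      have := jj_conj (Subgroup.inv_mem _ hn) hx
      simpa [mul_assoc] using this
  · refine Subgroup.mem_centralizer_iff.mpr ?_
    rintro x ⟨hxP, hxc, hxp⟩
    have hxZ : x ∈ Z := by
      obtain ⟨A, hA⟩ := (elFam G p).exists_mx (P : Subgroup G)
      have hxA : x ∈ A := mem_of_comm hA hxP hxp (fun a ha => (hxc a (hA.1 ha)).symm)
      refine ⟨le_jj hA hxA, Subgroup.mem_centralizer_iff.mpr ?_⟩
      intro j hj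
      exact (hxc j (hJP hj)).symm
    exact Subgroup.mem_centralizer_iff.mp hcC x hxZ


end Cfsg.Agent.S0109
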