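import Cfsg.Statements.S4574
import Cfsg.Agent.Lib.H21.GaloisProd

set_option autoImplicit false
open Cfsg

namespace Cfsg.Agent.S4574

open scoped ComplexConjugate in
theorem sum_ge_card_of_prod_ge_one {ι : Type*} (s : Finset ι) (z : ι → ℝ) (hz : ∀ i ∈ s, 0 < z i)
    (hp : 1 ≤ ∏ i ∈ s, z i) : (s.card : ℝ) ≤ ∑ i ∈ s, z i := by
  have h1 : ∑ i ∈ s, Real.log (z i) ≤ ∑ i ∈ s, (z i - 1) :=
    Finset.sum_le_sum fun i hi => Real.log_le_sub_one_of_pos (hz i hi)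
  have h2 : Real.log (∏ i ∈ s, z i) = ∑ i ∈ s, Real.log (z i) :=
    Real.log_prod (fun i hi => (hz i hi).ne')
  have h3 : 0 ≤ Real.log (∏ i ∈ s, z i) := Real.log_nonneg hp
  rw [Finset.sum_sub_distrib] at h1
  simp only [Finset.sum_const, nsmul_eq_mul, mul_one] at h1
  linarith

/-- Let χ be an irreducible character of the finite group G, of degree d, and let Z(χ) be the set of elements g with |χ g| = d (the centre of χ). Then χ vanishes on at least (d ^ 2 - 1) · |Z(χ)| elements of G, with equality when every value |χ g| is 0, 1 or d. -/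
theorem result {G : Type*} [Group G] [Fintype G] [DecidableEq G] (χ : G → ℂ) (hχ : Cfsg.IsIrrCharacter G χ) : (Cfsg.charDegree χ ^ 2 - 1) * (Finset.univ.filter (fun g : G => ‖χ g‖ = (Cfsg.charDegree χ : ℝ))).card ≤ (Finset.univ.filter (fun g : G => χ g = 0)).card ∧ ((∀ g : G, ‖χ g‖ = 0 ∨ ‖χ g‖ = 1 ∨ ‖χ g‖ = (Cfsg.charDegree χ : ℝ)) → (Cfsg.charDegree χ ^ 2 - 1) * (Finset.univ.filter (fun g : G => ‖χ g‖ = (Cfsg.charDegree χ : ℝ))).card = (Finset.univ.filter (fun g : G => χ g = 0)).card) := by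
  classical
  have hχc : IsCharacter G χ := H21.isCharacter_of_irr hχ
  set d := Cfsg.charDegree χ with hd
  have hdpos : 0 < d := H21.irr_charDegree_pos hχ
  set N := Nat.card G with hN
  have hNpos : 0 < N := Nat.card_pos
  let k : (ZMod N)ˣ → ℕ := fun u => (u : ZMod N).val
  have hinv : ∀ (u : (ZMod N)ˣ) (g : G), (g ^ k u) ^ k u⁻¹ = g := by
    intro u g
    haveI : NeZero N := ⟨hNpos.ne'⟩
    have h1 : ((k u * k u⁻¹ : ℕ) : ZMod N) = ((1 : ℕ) : ZMod N) := by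
      simp only [k, Nat.cast_mul, ZMod.natCast_val, ZMod.cast_id', id, Nat.cast_one]
      simp
    rw [ZMod.natCast_eq_natCast_iff] at h1
    rw [← pow_mul]
    have := (pow_eq_pow_iff_modEq (x := g) (n := k u * k u⁻¹) (m := 1)).2
      (h1.of_dvd (orderOf_dvd_natCard g))
    rwa [pow_one] at this
  have hZ : ∀ (g : G) (m : ℕ), ‖χ g‖ = (d : ℝ) → ‖χ (g ^ m)‖ = (d : ℝ) := by
    obtain ⟨n, ρ, _, rfl⟩ := hχ
    have hdn : d = n := by
      obtain ⟨n', h1, h2⟩ := H21.isCharacter_one_eq hχc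
      rw [hd, h2]
      have h3 : ρ.character 1 = (n : ℂ) := by simp [Representation.char_one]
      rw [h3] at h1
      exact_mod_cast h1.symm
    have hfin : Module.finrank ℂ (Fin n → ℂ) = d := by simp [hdn]
    intro g m hg
    have h1 := (H21.norm_character_eq_finrank_iff ρ g).1 (by rw [hfin]; exact hg)
    obtain ⟨c, hc⟩ := h1
    have h2 : ∃ c' : ℂ, ρ (g ^ m) = c' • (1 : Module.End ℂ (Fin n → ℂ)) := by
      refine ⟨c ^ m, ?_⟩
      rw [map_pow, hc, smul_pow, one_pow]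
    have h3 := (H21.norm_character_eq_finrank_iff ρ (g ^ m)).2 h2
    rw [hfin] at h3
    exact h3
  let A : Finset G := Finset.univ.filter (fun g => χ g ≠ 0 ∧ ‖χ g‖ ≠ (d : ℝ))
  have hA : ∀ (u : (ZMod N)ˣ) (g : G), g ∈ A → g ^ k u ∈ A := by
    intro u g hg
    simp only [A, Finset.mem_filter, Finset.mem_univ, true_and] at hg ⊢
    refine ⟨(H21.character_galois hχc g hg.1).1 u, fun h => hg.2 ?_⟩
    have := hZ _ (k u⁻¹) h
    rwa [hinv] at this
  have hsum : ∀ u : (ZMod N)ˣ, ∑ g ∈ A, ‖χ (g ^ k u)‖ ^ 2 = ∑ g ∈ A, ‖χ g‖ ^ 2 := by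
    intro u
    refine Finset.sum_nbij' (fun g => g ^ k u) (fun g => g ^ k u⁻¹) (hA u) (hA u⁻¹) ?_ ?_ ?_
    · intro g _; exact hinv u g
    · intro g _
      have := hinv u⁻¹ g
      rwa [inv_inv] at this
    · intro g _; rfl
  have hgal : ∀ g ∈ A, ((Fintype.card (ZMod N)ˣ : ℕ) : ℝ) ≤ ∑ u : (ZMod N)ˣ, ‖χ (g ^ k u)‖ ^ 2 := by
    intro g hg
    simp only [A, Finset.mem_filter, Finset.mem_univ, true_and] at hg
    obtain ⟨h1, h2⟩ := H21.character_galois hχc g hg.1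
    have h3 := sum_ge_card_of_prod_ge_one (Finset.univ : Finset (ZMod N)ˣ)
      (fun u => ‖χ (g ^ k u)‖ ^ 2) (fun u _ => by
        have := norm_pos_iff.2 (h1 u)
        positivity) (by
        rw [Finset.prod_pow, ← norm_prod]
        exact one_le_pow₀ h2)
    simpa using h3
  have hcardU : (0 : ℝ) < ((Fintype.card (ZMod N)ˣ : ℕ) : ℝ) := by
    exact_mod_cast Fintype.card_pos
  have hAle : (A.card : ℝ) ≤ ∑ g ∈ A, ‖χ g‖ ^ 2 := by
    have h1 : ((Fintype.card (ZMod N)ˣ : ℕ) : ℝ) * A.card ≤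
        ((Fintype.card (ZMod N)ˣ : ℕ) : ℝ) * ∑ g ∈ A, ‖χ g‖ ^ 2 := by
      calc ((Fintype.card (ZMod N)ˣ : ℕ) : ℝ) * A.card
          = ∑ _g ∈ A, ((Fintype.card (ZMod N)ˣ : ℕ) : ℝ) := by simp [mul_comm]
        _ ≤ ∑ g ∈ A, ∑ u : (ZMod N)ˣ, ‖χ (g ^ k u)‖ ^ 2 := Finset.sum_le_sum hgal
        _ = ∑ u : (ZMod N)ˣ, ∑ g ∈ A, ‖χ (g ^ k u)‖ ^ 2 := Finset.sum_comm
        _ = ∑ _u : (ZMod N)ˣ, ∑ g ∈ A, ‖χ g‖ ^ 2 := Finset.sum_congr rfl fun u _ => hsum u
        _ = _ := by simp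
    exact le_of_mul_le_mul_left h1 hcardU
  -- partition
  set Z := Finset.univ.filter (fun g : G => ‖χ g‖ = (d : ℝ)) with hZdef
  set W := Finset.univ.filter (fun g : G => χ g = 0) with hWdef
  have hdR : (0 : ℝ) < d := by exact_mod_cast hdpos
  have hcount : (Nat.card G : ℝ) = Z.card + W.card + A.card := by
    have h1 : ∀ g : G, (1 : ℝ) = (if ‖χ g‖ = (d : ℝ) then 1 else 0) + (if χ g = 0 then 1 else 0)
        + (if (χ g ≠ 0 ∧ ‖χ g‖ ≠ (d : ℝ)) then 1 else 0) := by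
      intro g
      by_cases h0 : χ g = 0
      · have : ‖χ g‖ ≠ (d : ℝ) := by rw [h0, norm_zero]; exact hdR.ne
        simp [h0, this]
        intro h; exact absurd h hdR.ne
      · by_cases h2 : ‖χ g‖ = (d : ℝ) <;> simp [h0, h2]
    have h2 : (Nat.card G : ℝ) = ∑ g : G, (1 : ℝ) := by simp
    rw [h2, Finset.sum_congr rfl fun g _ => h1 g, Finset.sum_add_distrib, Finset.sum_add_distrib]
    simp only [Finset.sum_boole, Z, W, A]
  have hsq : (Nat.card G : ℝ) = (d : ℝ) ^ 2 * Z.card + ∑ g ∈ A, ‖χ g‖ ^ 2 := by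
    have h1 : Cfsg.classInner χ χ = 1 := by
      have := H21.classInner_irr (⟨χ, hχ⟩ : IrrCharacter G) ⟨χ, hχ⟩
      simpa using this
    rw [Cfsg.classInner] at h1
    have hne : (Nat.card G : ℂ) ≠ 0 := by exact_mod_cast hNpos.ne'
    have h2 : ∑ g : G, χ g * (starRingEnd ℂ) (χ g) = (Nat.card G : ℂ) := by
      field_simp at h1
      exact h1
    have h3 : ∑ g : G, ‖χ g‖ ^ 2 = (Nat.card G : ℝ) := by
      have h4 : ((∑ g : G, ‖χ g‖ ^ 2 : ℝ) : ℂ) = (Nat.card G : ℂ) := by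
        rw [← h2]
        push_cast
        refine Finset.sum_congr rfl fun g _ => ?_
        rw [Complex.mul_conj']
      exact_mod_cast h4
    rw [← h3]
    have h5 : ∀ g : G, ‖χ g‖ ^ 2 = (if ‖χ g‖ = (d : ℝ) then (d : ℝ) ^ 2 else 0)
        + (if (χ g ≠ 0 ∧ ‖χ g‖ ≠ (d : ℝ)) then ‖χ g‖ ^ 2 else 0) := by
      intro g
      by_cases h0 : χ g = 0
      · have : ‖χ g‖ ≠ (d : ℝ) := by rw [h0, norm_zero]; exact hdR.ne
        simp [h0]
        intro h; exact absurd h hdR.ne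
      · by_cases h2 : ‖χ g‖ = (d : ℝ) <;> simp [h0, h2]
    rw [Finset.sum_congr rfl fun g _ => h5 g, Finset.sum_add_distrib]
    congr 1
    · rw [Finset.sum_ite, Finset.sum_const_zero, add_zero, Finset.sum_const, nsmul_eq_mul, mul_comm]
    · rw [Finset.sum_ite, Finset.sum_const_zero, add_zero]
  have hd1 : 1 ≤ d ^ 2 := Nat.one_le_pow _ _ hdpos
  have hcast : (((d ^ 2 - 1 : ℕ) * Z.card : ℕ) : ℝ) = ((d : ℝ) ^ 2 - 1) * Z.card := by
    rw [Nat.cast_mul, Nat.cast_sub hd1]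
    push_cast
    rfl
  constructor
  · have : (((d ^ 2 - 1 : ℕ) * Z.card : ℕ) : ℝ) ≤ (W.card : ℝ) := by
      rw [hcast]
      nlinarith
    exact_mod_cast this
  · intro hall
    have hA1 : ∑ g ∈ A, ‖χ g‖ ^ 2 = (A.card : ℝ) := by
      have : ∀ g ∈ A, ‖χ g‖ ^ 2 = (1 : ℝ) := by
        intro g hg
        simp only [A, Finset.mem_filter, Finset.mem_univ, true_and] at hg
        rcases hall g with h | h | h
        · exact absurd (norm_eq_zero.1 h) hg.1
        · rw [h]; simp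
        · exact absurd h hg.2
      rw [Finset.sum_congr rfl this]
      simp
    have : (((d ^ 2 - 1 : ℕ) * Z.card : ℕ) : ℝ) = (W.card : ℝ) := by
      rw [hcast]
      nlinarith
    exact_mod_cast this

end Cfsg.Agent.S4574
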