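import Mathlib
import Cfsg.Agent.Lib.H01.CharA
import Cfsg.Agent.S4574
import Cfsg.Statements.S0191
-- import your own Cfsg.Agent.* helpers here

set_option autoImplicit false
open Cfsg

namespace Cfsg.Agent.S0191


/-- An irreducible complex representation of a finite group of degree greater than 1 has a character that vanishes somewhere. -/
theorem result {G : Type*} [Group G] [Finite G] {V : Type*} [AddCommGroup V] [Module ℂ V] [FiniteDimensional ℂ V] (ρ : Representation ℂ G V) [ρ.IsIrreducible] (hdeg : 1 < Module.finrank ℂ V) : ∃ g : G, ρ.character g = 0 := by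
  classical
  haveI := Fintype.ofFinite G
  have hirr := Cfsg.Agent.H21.isIrrCharacter_of_rep ρ (inferInstance)
  have hχ := Cfsg.Agent.H21.isCharacter_of_irr hirr
  have hdegX : Cfsg.charDegree ρ.character = Module.finrank ℂ V := by
    have h1 := Cfsg.Agent.H21.one_eq_charDegree hχ
    rw [Representation.char_one] at h1
    exact_mod_cast h1.symm
  have h := (Cfsg.Agent.S4574.result ρ.character hirr).1
  rw [hdegX] at h
  by_contra hcon
  push Not at hcon
  have h0 : (Finset.univ.filter (fun g : G => ρ.character g = 0)).card = 0 := by
    rw [Finset.card_eq_zero, Finset.filter_eq_empty_iff]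
    intro g _
    exact hcon g
  rw [h0, Nat.le_zero, mul_eq_zero] at h
  rcases h with h | h
  · have : 1 < Module.finrank ℂ V ^ 2 := by nlinarith
    omega
  · rw [Finset.card_eq_zero, Finset.filter_eq_empty_iff] at h
    apply h (Finset.mem_univ (1 : G))
    rw [Representation.char_one]
    simp


end Cfsg.Agent.S0191
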