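import Cfsg.Statements.S0436
import Mathlib

set_option autoImplicit false
open Cfsg

namespace Cfsg.Agent.S0436

/-- For distinct commuting members a, b of a set of 3-transpositions E, a member e of E centralises the product a * b if and only if it centralises both a and b. -/
theorem result {G : Type*} [Group G] {E : Set G} (hE : Cfsg.IsThreeTranspositionSet E) {a b e : G} (ha : a ∈ E) (hb : b ∈ E) (he : e ∈ E) (hab : a ≠ b) (hcomm : Commute a b) : Commute e (a * b) ↔ (Commute e a ∧ Commute e b) := by
  have inv2 : ∀ d ∈ E, d * d = 1 := fun d hd => by
    have := pow_orderOf_eq_one d
    rw [hE.1 d hd, pow_two] at this; exact this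
  have haa := inv2 a ha
  have hbb := inv2 b hb
  have hee := inv2 e he
  constructor
  · intro h
    -- commuting with a iff commuting with b
    have h1 : Commute e a → Commute e b := fun h' => by
      have : b = a⁻¹ * (a * b) := by group
      rw [this]
      exact (h'.inv_right).mul_right h
    have h2 : Commute e b → Commute e a := fun h' => by
      have : a = (a * b) * b⁻¹ := by group
      rw [this]
      exact h.mul_right h'.inv_right
    by_cases hea : Commute e a
    · exact ⟨hea, h1 hea⟩
    · exfalso
      have heb : ¬ Commute e b := fun h' => hea (h2 h')
      -- from the three-transposition property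
      have h3 : ∀ x ∈ E, ¬ Commute e x → e * x * e = x * e * x := by
        intro x hx hnc
        have hxx := inv2 x hx
        rcases hE.2 e he x hx with h4 | h4
        · exfalso
          apply hnc
          rw [pow_two] at h4
          have : e * x = (e * x)⁻¹ := eq_inv_of_mul_eq_one_left h4
          rw [mul_inv_rev, inv_eq_of_mul_eq_one_left hxx, inv_eq_of_mul_eq_one_left hee] at this
          exact this
        · have h5 : (e * x) * (e * x) * (e * x) = 1 := by
            rw [pow_three] at h4; rw [mul_assoc, h4]
          have h6 : e * x * e * (x * e * x)⁻¹ = 1 := by
            rw [mul_inv_rev, mul_inv_rev, inv_eq_of_mul_eq_one_left hxx, inv_eq_of_mul_eq_one_left hee]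
            calc e * x * e * (x * (e * x)) = (e * x) * (e * x) * (e * x) := by group
              _ = 1 := h5
          exact eq_of_mul_inv_eq_one h6
      have h4 := h3 a ha hea
      have h5 := h3 b hb heb
      -- e (ab) e = ab
      have h6 : e * (a * b) * e = a * b := by
        calc e * (a * b) * e = (e * (a * b)) * e := rfl
          _ = ((a * b) * e) * e := by rw [h.eq]
          _ = (a * b) * (e * e) := by group
          _ = a * b := by rw [hee, mul_one]
      have h7 : e * (a * b) * e = (e * a * e) * (e * b * e) := by
        calc e * (a * b) * e = e * a * 1 * b * e := by group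
          _ = e * a * (e * e) * b * e := by rw [hee]
          _ = _ := by group
      rw [h7, h4, h5] at h6
      -- a e a b e b = a b → a b = e e = 1
      have h8 : e * a * b * e * b = b := by
        have : a * (e * a * b * e * b) = a * b := by
          rw [← h6]; group
        exact mul_left_cancel this
      have h9 : e * a * b * e = 1 := by
        have : e * a * b * e * b * b⁻¹ = b * b⁻¹ := by rw [h8]
        simpa using this
      have h10 : a * b = 1 := by
        have : e * (e * a * b * e) * e = e * 1 * e := by rw [h9]
        have h11 : e * (e * a * b * e) * e = (e * e) * (a * b) * (e * e) := by group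
        rw [h11, hee] at this
        simpa [hee] using this
      apply hab
      have : a = b⁻¹ := eq_inv_of_mul_eq_one_left h10
      rw [this, inv_eq_of_mul_eq_one_left hbb]
  · rintro ⟨h1, h2⟩
    exact h1.mul_right h2

end Cfsg.Agent.S0436
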