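import Cfsg.Statements.S0437
import Cfsg.Agent.S0436
import Mathlib

set_option autoImplicit false
open Cfsg

namespace Cfsg.Agent.S0437

private lemma braid_of {G : Type*} [Group G] {E : Set G} (hE : Cfsg.IsThreeTranspositionSet E)
    {e x : G} (he : e ∈ E) (hx : x ∈ E) (hee : e * e = 1) (hxx : x * x = 1) (hnc : ¬ Commute e x) :
    e * x * e = x * e * x := by
  have hei : e⁻¹ = e := inv_eq_of_mul_eq_one_left hee
  have hxi : x⁻¹ = x := inv_eq_of_mul_eq_one_left hxx
  rcases hE.2 e he x hx with h4 | h4
  · exfalso
    apply hnc
    rw [pow_two] at h4
    have : e * x = (e * x)⁻¹ := eq_inv_of_mul_eq_one_left h4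
    rw [mul_inv_rev, hxi, hei] at this
    exact this
  · rw [pow_three] at h4
    have h6 : e * x * e * (x * e * x)⁻¹ = 1 := by
      rw [mul_inv_rev, mul_inv_rev, hxi, hei]
      calc e * x * e * (x * (e * x)) = (e * x) * ((e * x) * (e * x)) := by group
        _ = 1 := h4
    exact eq_of_mul_inv_eq_one h6

/-- words: in the quotient of the Weyl group of type A3, the element e a b has order dividing 4 -/
private lemma g4 {G : Type*} [Group G] {a b e : G} (haa : a * a = 1) (hbb : b * b = 1)
    (hee : e * e = 1) (hab : a * b = b * a) (h1 : e * a * e = a * e * a) (h2 : e * b * e = b * e * b) :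
    (e * a * b) * (e * a * b) * (e * a * b) * (e * a * b) = 1 := by
  have hg2 : (e * a * b) * (e * a * b) = a * e * a * b * e * a := by
    calc (e * a * b) * (e * a * b) = e * a * (b * e * (a * b)) := by group
      _ = e * a * (b * e * (b * a)) := by rw [hab]
      _ = e * a * ((b * e * b) * a) := by group
      _ = e * a * ((e * b * e) * a) := by rw [h2]
      _ = (e * a * e) * b * e * a := by group
      _ = (a * e * a) * b * e * a := by rw [h1]
      _ = _ := by group
  calc (e * a * b) * (e * a * b) * (e * a * b) * (e * a * b)
      = ((e * a * b) * (e * a * b)) * ((e * a * b) * (e * a * b)) := by group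
    _ = (a * e * a * b * e * a) * (a * e * a * b * e * a) := by rw [hg2]
    _ = a * e * a * b * e * (a * a) * e * a * b * e * a := by group
    _ = a * e * a * b * (e * e) * a * b * e * a := by rw [haa]; group
    _ = a * e * a * (b * a) * b * e * a := by rw [hee]; group
    _ = a * e * a * (a * b) * b * e * a := by rw [hab]
    _ = a * e * (a * a) * (b * b) * e * a := by group
    _ = a * (e * e) * a := by rw [haa, hbb]; group
    _ = a * a := by rw [hee]; group
    _ = 1 := haa

/-- For three distinct, pairwise commuting members a, b, c of a set of 3-transpositions E, a member e of E centralises a * b * c if and only if it centralises each of a, b and c. -/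
theorem result {G : Type*} [Group G] {E : Set G} (hE : Cfsg.IsThreeTranspositionSet E) {a b c e : G} (ha : a ∈ E) (hb : b ∈ E) (hc : c ∈ E) (he : e ∈ E) (hab : a ≠ b) (hac : a ≠ c) (hbc : b ≠ c) (h₁ : Commute a b) (h₂ : Commute a c) (h₃ : Commute b c) : Commute e (a * b * c) ↔ (Commute e a ∧ Commute e b ∧ Commute e c) := by
  have inv2 : ∀ d ∈ E, d * d = 1 := fun d hd => by
    have := pow_orderOf_eq_one d
    rw [hE.1 d hd, pow_two] at this; exact this
  have haa := inv2 a ha
  have hbb := inv2 b hb
  have hcc := inv2 c hc
  have hee := inv2 e he
  have S36 := @Cfsg.Agent.S0436.result G _ E hE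
  constructor
  · intro h
    -- case e commutes with a
    have caseA : Commute e a → (Commute e a ∧ Commute e b ∧ Commute e c) := by
      intro hea
      have h4 : Commute e (b * c) := by
        have : b * c = a⁻¹ * (a * b * c) := by group
        rw [this]
        exact hea.inv_right.mul_right h
      obtain ⟨h5, h6⟩ := (S36 hb hc he hbc h₃).mp h4
      exact ⟨hea, h5, h6⟩
    by_cases hea : Commute e a
    · exact caseA hea
    by_cases heb : Commute e b
    · have h4 : Commute e (a * c) := by
        have : a * c = b⁻¹ * (a * b * c) := by
          have h' : a * b * c = b * a * c := by rw [h₁.eq]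
          rw [h']; group
        rw [this]
        exact heb.inv_right.mul_right h
      exact absurd ((S36 ha hc he hac h₂).mp h4).1 hea
    by_cases hec : Commute e c
    · have h4 : Commute e (a * b) := by
        have : a * b = (a * b * c) * c⁻¹ := by group
        rw [this]
        exact h.mul_right hec.inv_right
      exact absurd ((S36 ha hb he hab h₁).mp h4).1 hea
    exfalso
    have b1 := braid_of hE he ha hee haa hea
    have b2 := braid_of hE he hb hee hbb heb
    have b3 := braid_of hE he hc hee hcc hec
    have hg := g4 haa hbb hee h₁.eq b1 b2
    set g := e * a * b with hgdef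
    set w := a * b * c with hw
    have hwg : Commute w g := by
      -- w commutes with e, a, b
      have hwa : Commute w a := by
        rw [hw]
        exact ((h₁.symm.mul_left (Commute.refl a)).symm.symm).mul_left h₂.symm |>.symm.symm |> fun _ => by
          exact ((Commute.refl a).mul_right h₁).mul_right h₂ |>.symm
      have hwb : Commute w b := by
        rw [hw]
        exact (h₁.mul_left (Commute.refl b)).mul_left h₃.symm
      rw [hgdef]
      exact (h.symm.mul_right hwa).mul_right hwb
    have hec2 : e * c = g * w := by
      have hcw : c = b⁻¹ * a⁻¹ * w := by rw [hw]; group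
      have hai : a⁻¹ = a := inv_eq_of_mul_eq_one_left haa
      have hbi : b⁻¹ = b := inv_eq_of_mul_eq_one_left hbb
      rw [hbi, hai, ← h₁.eq] at hcw
      calc e * c = e * (a * b * w) := by rw [← hcw]
        _ = g * w := by rw [hgdef]; group
    have hww : w * w = 1 := by
      calc w * w = (a * a) * (b * b) * (c * c) := by
            rw [hw]
            have : a * b * c * (a * b * c) = a * (b * c) * a * (b * c) := by group
            rw [this]
            have h7 : (b * c) * a = a * (b * c) := ((h₁.symm.mul_left h₂.symm)).eq
            have : a * (b * c) * a * (b * c) = a * ((b * c) * a) * (b * c) := by group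
            rw [this, h7]
            have h8 : c * b = b * c := h₃.symm.eq
            calc a * (a * (b * c)) * (b * c) = a * a * b * (c * b) * c := by group
              _ = a * a * b * (b * c) * c := by rw [h8]
              _ = _ := by group
        _ = 1 := by rw [haa, hbb, hcc]; group
    have hcube : (g * w) * (g * w) * (g * w) = 1 := by
      have h5 : e * c * (e * c) * (e * c) = 1 := by
        have h6 := hE.2 e he c hc
        rcases h6 with h7 | h7
        · exfalso
          apply hec
          rw [pow_two] at h7
          have : e * c = (e * c)⁻¹ := eq_inv_of_mul_eq_one_left h7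
          rw [mul_inv_rev, inv_eq_of_mul_eq_one_left hcc, inv_eq_of_mul_eq_one_left hee] at this
          exact this
        · rw [pow_three] at h7; rw [mul_assoc]; exact h7
      rw [← hec2]; exact h5
    have hgw : g * g * g * w = 1 := by
      have h5 : (g * w) * (g * w) * (g * w) = g * g * g * (w * w) * w := by
        have e1 : w * g = g * w := hwg.eq
        calc (g * w) * (g * w) * (g * w) = g * (w * g) * w * (g * w) := by group
          _ = g * (g * w) * w * (g * w) := by rw [e1]
          _ = g * g * (w * w) * g * w := by group
          _ = g * g * 1 * g * w := by rw [hww]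
          _ = g * g * g * (w * w) * w := by rw [hww]; group
      rw [h5, hww] at hcube
      simpa using hcube
    have hgw2 : w = g := by
      have h5 : g * (g * g * g * w) = g := by rw [hgw, mul_one]
      have h6 : g * (g * g * g * w) = (g * g * g * g) * w := by group
      rw [h6, hg, one_mul] at h5
      exact h5
    -- conclude c = e
    have h9 : c * (a * b) = e * (a * b) := by
      have h10 : a * b * c = c * (a * b) := ((h₂.mul_left h₃)).eq
      rw [← h10]
      calc a * b * c = w := rfl
        _ = g := hgw2
        _ = e * (a * b) := by rw [hgdef]; group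
    have h11 : c = e := mul_right_cancel h9
    exact hec (by rw [h11])
  · rintro ⟨h1, h2, h3⟩
    exact (h1.mul_right h2).mul_right h3

end Cfsg.Agent.S0437
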