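import Cfsg.Statements.S0438
import Mathlib

set_option autoImplicit false
open Cfsg

namespace Cfsg.Agent.S0438

/-- Let E be a set of 3-transpositions closed under conjugation, and x an involutory automorphism of the group mapping E to itself. If some a in E fails to commute with its image x a, then x fixes an element of E. -/
theorem result {G : Type*} [Group G] {E : Set G} (hE : Cfsg.IsThreeTranspositionSet E) (hconj : ∀ g : G, ∀ d ∈ E, g * d * g⁻¹ ∈ E) (x : G ≃* G) (hx : ∀ g : G, x (x g) = g) (hxE : ∀ d ∈ E, x d ∈ E) {a : G} (ha : a ∈ E) (h : ¬ Commute a (x a)) : ∃ d ∈ E, x d = d := by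
  have inv2 : ∀ d ∈ E, d * d = 1 := fun d hd => by
    have := pow_orderOf_eq_one d
    rw [hE.1 d hd, pow_two] at this; exact this
  have hb := hxE a ha
  set b := x a with hbdef
  have haa := inv2 a ha
  have hbb := inv2 b hb
  have hai : a⁻¹ = a := inv_eq_of_mul_eq_one_left haa
  have hbi : b⁻¹ = b := inv_eq_of_mul_eq_one_left hbb
  have h3 : a * b * a = b * a * b := by
    rcases hE.2 a ha b hb with h4 | h4
    · exfalso
      apply h
      rw [pow_two] at h4
      have : a * b = (a * b)⁻¹ := eq_inv_of_mul_eq_one_left h4
      rw [mul_inv_rev, hbi, hai] at this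
      exact this
    · rw [pow_three] at h4
      have h6 : a * b * a * (b * a * b)⁻¹ = 1 := by
        rw [mul_inv_rev, mul_inv_rev, hbi, hai]
        calc a * b * a * (b * (a * b)) = (a * b) * ((a * b) * (a * b)) := by group
          _ = 1 := h4
      exact eq_of_mul_inv_eq_one h6
  refine ⟨a * b * a, ?_, ?_⟩
  · have := hconj a b hb
    rwa [hai] at this
  · rw [map_mul, map_mul]
    have hxb : x b = a := hx a
    rw [hxb, ← hbdef]
    exact h3.symm

end Cfsg.Agent.S0438
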