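import Cfsg.Statements.S0445
-- import your own Cfsg.Agent.* helpers here

set_option autoImplicit false
open Cfsg

namespace Cfsg.Agent.S0445

open Matrix

abbrev Mt5 := Matrix (Fin 5) (Fin 5) (ZMod 2)

theorem det5 (M : Mt5) (h0 : ∀ i, i ≠ 0 → M i 0 = 0) (h1 : ∀ j, j ≠ 1 → M 1 j = 0) :
    M.det = M 0 0 * M 1 1 * (M.submatrix (fun i : Fin 3 => i.succ.succ) (fun j : Fin 3 => j.succ.succ)).det := by
  rw [Matrix.det_succ_column_zero, Fin.sum_univ_succ]
  have e1 : ∑ i : Fin 4, (-1 : ZMod 2) ^ (i.succ : ℕ) * M i.succ 0 * (M.submatrix (Fin.succAbove i.succ) Fin.succ).det = 0 := by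
    apply Finset.sum_eq_zero
    intro i _
    rw [h0 _ (Fin.succ_ne_zero i), mul_zero, zero_mul]
  rw [e1, add_zero, Fin.succAbove_zero]
  have e2 : (M.submatrix Fin.succ Fin.succ : Matrix (Fin 4) (Fin 4) (ZMod 2)).det = M 1 1 * (M.submatrix (fun i : Fin 3 => i.succ.succ) (fun j : Fin 3 => j.succ.succ)).det := by
    rw [Matrix.det_succ_row_zero, Fin.sum_univ_succ]
    have e3 : ∑ j : Fin 3, (-1 : ZMod 2) ^ (j.succ : ℕ) * (M.submatrix Fin.succ Fin.succ) 0 j.succ * ((M.submatrix Fin.succ Fin.succ).submatrix Fin.succ (Fin.succAbove j.succ)).det = 0 := by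
      apply Finset.sum_eq_zero
      intro j _
      have : (M.submatrix Fin.succ Fin.succ) 0 j.succ = M 1 j.succ.succ := rfl
      rw [this, h1 _ (by intro h; exact absurd (Fin.succ_injective _ h) (Fin.succ_ne_zero j)), mul_zero, zero_mul]
    rw [e3, add_zero, Fin.succAbove_zero]
    simp only [Fin.val_zero, pow_zero, one_mul]
    rfl
  rw [e2]
  simp only [Fin.val_zero, pow_zero, one_mul, mul_assoc]


/-- In the special linear group of dimension 5 over the field with two elements, the centraliser of a transvection has order 21504 = 2 ^ 7 · 168 (it is an extension of an extraspecial group of order 2 ^ 7 by the simple group of order 168). -/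
theorem result (s : Matrix.SpecialLinearGroup (Fin 5) (ZMod 2)) (hs : (s : Matrix (Fin 5) (Fin 5) (ZMod 2)) = Matrix.transvection 0 1 1) : Nat.card (Subgroup.centralizer ({s} : Set (Matrix.SpecialLinearGroup (Fin 5) (ZMod 2)))) = 21504 := by
  classical
have hF : ∀ c : ZMod 2, c = 0 ∨ c = 1 := by decide
let C := Subgroup.centralizer ({s} : Set (Matrix.SpecialLinearGroup (Fin 5) (ZMod 2)))
have hmem : ∀ g : Matrix.SpecialLinearGroup (Fin 5) (ZMod 2), g ∈ C ↔
    (∀ i, i ≠ 0 → (g : Mt5) i 0 = 0) ∧ (∀ j, j ≠ 1 → (g : Mt5) 1 j = 0) ∧ (g : Mt5) 0 0 = (g : Mt5) 1 1 := by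
  intro g
  rw [Subgroup.mem_centralizer_singleton_iff]
  have e : g * s = s * g ↔ (g : Mt5) * Matrix.transvection 0 1 1 = Matrix.transvection 0 1 1 * (g : Mt5) := by
    rw [← hs]
    constructor
    · intro h
      exact congrArg (fun x : Matrix.SpecialLinearGroup (Fin 5) (ZMod 2) => (x : Mt5)) h
    · intro h
      exact Subtype.ext h
  rw [e]
  have ent : ∀ (i j : Fin 5), ((g : Mt5) * Matrix.transvection 0 1 1 : Mt5) i j = (g : Mt5) i j + (if j = 1 then (g : Mt5) i 0 else 0) := by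
    intro i j
    simp only [Matrix.transvection, Matrix.mul_add, Matrix.mul_one, Matrix.add_apply, Matrix.mul_single_apply_same]
    simp [Matrix.mul_apply, Matrix.single_apply, Finset.sum_ite_eq']
    by_cases hj : j = 1
    · subst hj
      simp
    · have hj' : ¬ (1 : Fin 5) = j := fun h => hj h.symm
      simp [hj, hj']
  have ent2 : ∀ (i j : Fin 5), (Matrix.transvection 0 1 1 * (g : Mt5) : Mt5) i j = (g : Mt5) i j + (if i = 0 then (g : Mt5) 1 j else 0) := by
    intro i j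
    simp only [Matrix.transvection, Matrix.add_mul, Matrix.one_mul, Matrix.add_apply]
    simp [Matrix.mul_apply, Matrix.single_apply, Finset.sum_ite_eq']
    by_cases hi : i = 0
    · subst hi
      simp
    · have hi' : ¬ (0 : Fin 5) = i := fun h => hi h.symm
      simp [hi, hi']
  constructor
  · intro h
    have h1 : ∀ i j, (if j = 1 then (g : Mt5) i 0 else 0) = (if i = 0 then (g : Mt5) 1 j else 0) := by
      intro i j
      have := congrFun (congrFun h i) j
      rw [ent, ent2] at this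
      exact add_left_cancel this
    refine ⟨?_, ?_, ?_⟩
    · intro i hi
      have := h1 i 1
      simpa [hi] using this
    · intro j hj
      have := h1 0 j
      simpa [hj] using (this.symm)
    · have := h1 0 1
      simpa using this
  · rintro ⟨h0, h1, h2⟩
    apply Matrix.ext
    intro i j
    rw [ent, ent2]
    congr 1
    by_cases hj : j = 1
    · by_cases hi : i = 0
      · subst hj; subst hi
        simp [h2]
      · subst hj
        simp [hi, h0 i hi]
    · by_cases hi : i = 0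
      · subst hi
        simp [hj, h1 j hj]
      · simp [hj, hi]
have hdet : ∀ g : Matrix.SpecialLinearGroup (Fin 5) (ZMod 2), g ∈ C →
    (g : Mt5) 0 0 = 1 ∧ (g : Mt5) 1 1 = 1 ∧ ((g : Mt5).submatrix (fun i : Fin 3 => i.succ.succ) (fun j : Fin 3 => j.succ.succ)).det = 1 := by
  intro g hg
  obtain ⟨h0, h1, h2⟩ := (hmem g).1 hg
  have h3 := det5 (g : Mt5) h0 h1
  rw [g.2] at h3
  have hc : ∀ a b c : ZMod 2, 1 = a * b * c → a = 1 ∧ b = 1 ∧ c = 1 := by decide
  exact hc _ _ _ h3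
let D := (ZMod 2 × (Fin 3 → ZMod 2) × (Fin 3 → ZMod 2)) × Matrix.SpecialLinearGroup (Fin 3) (ZMod 2)
let Θ : C → D := fun g =>
  (((g.1 : Mt5) 0 1, fun i => (g.1 : Mt5) 0 i.succ.succ, fun i => (g.1 : Mt5) i.succ.succ 1),
    ⟨(g.1 : Mt5).submatrix (fun i : Fin 3 => i.succ.succ) (fun j : Fin 3 => j.succ.succ), (hdet g.1 g.2).2.2⟩)
have hcases : ∀ i : Fin 5, i = 0 ∨ i = 1 ∨ ∃ k : Fin 3, i = k.succ.succ := by decide
have hinj : Function.Injective Θ := by
  intro a b hab
  obtain ⟨ha0, ha1, ha2⟩ := (hmem a.1).1 a.2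
  obtain ⟨hb0, hb1, hb2⟩ := (hmem b.1).1 b.2
  obtain ⟨ha3, ha4, -⟩ := hdet a.1 a.2
  obtain ⟨hb3, hb4, -⟩ := hdet b.1 b.2
  have e1 : (a.1 : Mt5) 0 1 = (b.1 : Mt5) 0 1 := congrArg (fun x : D => x.1.1) hab
  have e2 : ∀ i : Fin 3, (a.1 : Mt5) 0 i.succ.succ = (b.1 : Mt5) 0 i.succ.succ := congrFun (congrArg (fun x : D => x.1.2.1) hab)
  have e3 : ∀ i : Fin 3, (a.1 : Mt5) i.succ.succ 1 = (b.1 : Mt5) i.succ.succ 1 := congrFun (congrArg (fun x : D => x.1.2.2) hab)
  have e4 : ∀ i j : Fin 3, (a.1 : Mt5) i.succ.succ j.succ.succ = (b.1 : Mt5) i.succ.succ j.succ.succ := by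
    intro i j
    exact congrFun (congrFun (congrArg (fun x : D => (x.2 : Matrix (Fin 3) (Fin 3) (ZMod 2))) hab) i) j
  apply Subtype.ext
  apply Subtype.ext
  apply Matrix.ext
  intro i j
  rcases hcases j with rfl | rfl | ⟨l, rfl⟩
  · by_cases hi : i = 0
    · subst hi
      rw [ha3, hb3]
    · rw [ha0 i hi, hb0 i hi]
  · rcases hcases i with rfl | rfl | ⟨k, rfl⟩
    · exact e1
    · rw [ha4, hb4]
    · exact e3 k
  · rcases hcases i with rfl | rfl | ⟨k, rfl⟩
    · exact e2 l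
    · have hne : (l.succ.succ : Fin 5) ≠ 1 := by
        intro h
        exact absurd (Fin.succ_injective _ h) (Fin.succ_ne_zero l)
      rw [ha1 _ hne, hb1 _ hne]
    · exact e4 k l
have hsurj : Function.Surjective Θ := by
  rintro ⟨⟨p, u, v⟩, A⟩
  let M : Mt5 := !![1, p, u 0, u 1, u 2; 0, 1, 0, 0, 0; 0, v 0, (A : Matrix (Fin 3) (Fin 3) (ZMod 2)) 0 0, (A : Matrix (Fin 3) (Fin 3) (ZMod 2)) 0 1, (A : Matrix (Fin 3) (Fin 3) (ZMod 2)) 0 2;
    0, v 1, (A : Matrix (Fin 3) (Fin 3) (ZMod 2)) 1 0, (A : Matrix (Fin 3) (Fin 3) (ZMod 2)) 1 1, (A : Matrix (Fin 3) (Fin 3) (ZMod 2)) 1 2;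
    0, v 2, (A : Matrix (Fin 3) (Fin 3) (ZMod 2)) 2 0, (A : Matrix (Fin 3) (Fin 3) (ZMod 2)) 2 1, (A : Matrix (Fin 3) (Fin 3) (ZMod 2)) 2 2]
  have hM0 : ∀ i, i ≠ 0 → M i 0 = 0 := by
    intro i hi
    fin_cases i <;> first | rfl | exact absurd rfl hi
  have hM1 : ∀ j, j ≠ 1 → M 1 j = 0 := by
    intro j hj
    fin_cases j <;> first | rfl | exact absurd rfl hj
  have hMA : M.submatrix (fun i : Fin 3 => i.succ.succ) (fun j : Fin 3 => j.succ.succ) = (A : Matrix (Fin 3) (Fin 3) (ZMod 2)) := by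
    apply Matrix.ext
    intro i j
    fin_cases i <;> fin_cases j <;> rfl
  have hMdet : M.det = 1 := by
    rw [det5 M hM0 hM1, hMA, A.2]
    have e1 : M 0 0 = 1 := rfl
    have e2 : M 1 1 = 1 := rfl
    rw [e1, e2]
    norm_num
  let g : Matrix.SpecialLinearGroup (Fin 5) (ZMod 2) := ⟨M, hMdet⟩
  have hg : g ∈ C := (hmem g).2 ⟨hM0, hM1, rfl⟩
  refine ⟨⟨g, hg⟩, ?_⟩
  refine Prod.ext (Prod.ext rfl (Prod.ext ?_ ?_)) (Subtype.ext hMA)
  · funext i
    fin_cases i <;> rfl
  · funext i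
    fin_cases i <;> rfl
have hcard : Nat.card C = Nat.card D := Nat.card_eq_of_bijective Θ ⟨hinj, hsurj⟩
have hSL : Nat.card (Matrix.SpecialLinearGroup (Fin 3) (ZMod 2)) = 168 := by
  rw [Nat.card_eq_fintype_card]
  decide +kernel
change Nat.card C = 21504
rw [hcard]
simp only [D, Nat.card_prod, hSL]
simp

end Cfsg.Agent.S0445
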