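import Cfsg.Statements.S0472
import Mathlib
import Cfsg.Agent.Lib.H07.CD.Fi23Cl
import Cfsg.Agent.Lib.H07.TT3U
import Cfsg.Agent.S1688
import Cfsg.Agent.S1696
import Cfsg.Agent.S1697

set_option autoImplicit false
open Cfsg

namespace Cfsg.Agent.S0472

/-- The Fischer group of order 4089470473293004800 exists as a 3-transposition group: a simple group of that order generated by a conjugacy class of 31671 3-transpositions, the centraliser of each being a non-split double cover of a simple group of order 64561751654400. -/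
theorem result : ∃ (G : Type) (_ : Group G) (_ : Finite G), Cfsg.IsFi23 G ∧ ∃ D : Set G, Cfsg.IsThreeTranspositionClass D ∧ Nat.card D = 31671 ∧ ∀ d ∈ D, ∃ (K : Type) (_ : Group K), Cfsg.IsFi22 K ∧ Cfsg.IsNonsplitDoubleCover (Subgroup.centralizer ({d} : Set G)) K := by
  refine ⟨Cfsg.Spor.Fi23, inferInstance, Cfsg.Agent.H07.CD.Fi23Final.hub.1, Cfsg.Agent.S1697.result,
    conjugatesOf Cfsg.Agent.H07.CD.Fi23Cl.zz, Cfsg.Agent.H07.CD.Fi23Cl.main.2.2, Cfsg.Agent.H07.CD.Fi23Cl.main.2.1, ?_⟩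
  intro d hd
  have : Finite Cfsg.Agent.H07.CD.Fi23Cl.GG := Cfsg.Agent.H07.CD.Fi23Final.hub.1
  exact ⟨Cfsg.Spor.Fi22, inferInstance, Cfsg.Agent.S1696.result, Cfsg.Agent.H07.TT3.nonsplit_on_class Cfsg.Agent.H07.CD.Fi23Cl.zz Cfsg.Agent.H07.CD.Fi23Cl.HH
    Cfsg.Agent.H07.CD.Fi23Cl.main.1 Cfsg.Agent.S1688.result d hd⟩

end Cfsg.Agent.S0472
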