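import Mathlib
import Cfsg.Statements.S0625
import Cfsg.Agent.Lib.H26.ActionStable
import Cfsg.Agent.Lib.H03.PSolv

set_option autoImplicit false
open Cfsg

namespace Cfsg.Agent.S0625

/-- A p-separable group with p at least 5 is p-stable in the action sense. -/
theorem result {G : Type*} [Group G] [Finite G] {p : ℕ} [Fact p.Prime] (hp : 5 ≤ p) (hsep : Cfsg.IsPSolvable p G) : Cfsg.IsActionPStable p G := by
  have hp2 : p ≠ 2 := by omega
  have hp3 : p ≠ 3 := by omega
  refine Cfsg.Agent.H26.isActionPStable_of_not_involves hp2 ?_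
  intro hi
  obtain ⟨K, θ, hθ⟩ := Cfsg.Agent.H09.exists_of_involves hi
  exact Cfsg.Agent.H26.QuadSL.not_isPSolvable_SL2 hp2 hp3
    (Cfsg.Agent.H03.isPSolvable_of_surjective hθ (Cfsg.Agent.H26.QuadSL.isPSolvable_subgroup hsep K))

end Cfsg.Agent.S0625
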