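import Cfsg.Statements.S0627
import Cfsg.Agent.Lib.H26.WClosure
import Cfsg.Agent.S0624
import Cfsg.Agent.S0625
import Cfsg.Agent.Lib.H03.PConstr
import Cfsg.Agent.Lib.H08.PCoreL
import Mathlib

set_option autoImplicit false
set_option linter.style.haveILetI false
set_option linter.unusedVariables false
open Cfsg

namespace Cfsg.Agent.S0627

open Cfsg.Agent.H26.WC

/-- In a p-separable group with p at least 5, the normalizer of W(S) supplements the largest normal subgroup of order prime to p. -/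
theorem result {G : Type*} [Group G] [Finite G] {p : ℕ} [Fact p.Prime] (hp : 5 ≤ p) (hsep : Cfsg.IsPSolvable p G) (S : Sylow p G) : Cfsg.pPrimeCore p G ⊔ Subgroup.normalizer (((Cfsg.stableNormalClosure p ↥(S : Subgroup G)).map (S : Subgroup G).subtype) : Set G) = ⊤ := by
  classical
  have hKc : (Nat.card (pPrimeCore p G)).Coprime p := Cfsg.Agent.H06.coprime_card_pPrimeCore p
  have hKn : (pPrimeCore p G).Normal := Cfsg.Agent.H03.pPrimeCore_normal'
  set K := pPrimeCore p G with hK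
  haveI := hKn
  let π := QuotientGroup.mk' K
  have hπs : Function.Surjective π := QuotientGroup.mk'_surjective K
  have hπ1 : ∀ x : G, π x = 1 ↔ x ∈ K := fun x => QuotientGroup.eq_one_iff x
  have hH : IsPSolvable p (G ⧸ K) := Cfsg.Agent.H03.isPSolvable_of_surjective hπs hsep
  have hO : pPrimeCore p (G ⧸ K) = ⊥ := Cfsg.Agent.H08.pPrimeCore_quotient_eq_bot p
  have hc := Cfsg.Agent.H03.centralizer_pCore_le_of_isPSolvable hH hO
  have hst := Cfsg.Agent.S0625.result hp hH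
  let Sb : Sylow p (G ⧸ K) := S.mapSurjective hπs
  have hSb : (Sb : Subgroup (G ⧸ K)) = (S : Subgroup G).map π := Sylow.coe_mapSurjective hπs S
  have hnorm := Cfsg.Agent.S0624.result hst hc Sb
  have hinj : ∀ x ∈ (S : Subgroup G), π x = 1 → x = 1 := by
    intro x hx h
    obtain ⟨k, hk⟩ := S.isPGroup' ⟨x, hx⟩
    exact Cfsg.Agent.H14.eq_one_of_mem_coprime ((hπ1 x).mp h) hKc (congrArg Subtype.val hk)
  have hmap : (wW p (S : Subgroup G)).map π = wW p (Sb : Subgroup (G ⧸ K)) := by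
    rw [hSb]
    exact wW_map π _ hinj
  have hWn : (wW p (Sb : Subgroup (G ⧸ K))).Normal := hnorm
  change K ⊔ Subgroup.normalizer (wW p (S : Subgroup G) : Set G) = ⊤
  set W := wW p (S : Subgroup G) with hW
  have hWp : IsPGroup p W := S.isPGroup'.to_le (wW_le _)
  rw [eq_top_iff]
  intro g _
  have hle : W.map (MulAut.conj g).toMonoidHom ≤ W ⊔ K := by
    rintro _ ⟨w, hw, rfl⟩
    have h1 : π (g * w * g⁻¹) ∈ W.map π := by
      rw [hmap]
      have h0 : π w ∈ wW p (Sb : Subgroup (G ⧸ K)) := by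
        rw [← hmap]
        exact ⟨w, hw, rfl⟩
      have := hWn.conj_mem _ h0 (π g)
      simpa using this
    obtain ⟨w', hw', e⟩ := h1
    have h2 : w'⁻¹ * (g * w * g⁻¹) ∈ K := by
      rw [← hπ1, map_mul, map_inv, e, inv_mul_cancel]
    have e2 : g * w * g⁻¹ = w' * (w'⁻¹ * (g * w * g⁻¹)) := by group
    change g * w * g⁻¹ ∈ W ⊔ K
    rw [e2]
    exact Subgroup.mul_mem _ (Subgroup.mem_sup_left hw') (Subgroup.mem_sup_right h2)
  obtain ⟨ℓ, hℓ, hle2⟩ := Cfsg.Agent.H14.exists_conj_of_le_sup hWp hKn hKc (hWp.map _) hle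
  have hmem : ℓ * g ∈ Subgroup.normalizer (W : Set G) := by
    apply Cfsg.Agent.H13.mem_normalizer_of_map_conj_le
    rintro _ ⟨w, hw, rfl⟩
    have h3 : ℓ * (g * w * g⁻¹) * ℓ⁻¹ ∈ W := hle2 ⟨g * w * g⁻¹, ⟨w, hw, rfl⟩, rfl⟩
    have e3 : (ℓ * g) * w * (ℓ * g)⁻¹ = ℓ * (g * w * g⁻¹) * ℓ⁻¹ := by group
    change (ℓ * g) * w * (ℓ * g)⁻¹ ∈ W
    rw [e3]
    exact h3
  have e : g = ℓ⁻¹ * (ℓ * g) := by group
  rw [e]
  exact Subgroup.mul_mem _ (Subgroup.mem_sup_left (K.inv_mem hℓ)) (Subgroup.mem_sup_right hmem)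

end Cfsg.Agent.S0627
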