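import Cfsg.Statements.S0633
import Cfsg.Agent.Lib.H26.HBMain
import Mathlib

set_option autoImplicit false
set_option linter.style.haveILetI false
set_option linter.unusedVariables false

open Cfsg

namespace Cfsg.Agent.S0633

open Module TensorProduct

/-- Theorem B of Hall and Higman on the minimal polynomial of a p-element of order p^n in a p-solvable linear group on a nonzero vector space in characteristic p with no nontrivial normal p-subgroup: its degree is p^n, except when some p^n₀ - 1 (n₀ ≤ n) is a power of a prime q for which the Sylow q-subgroups are non-abelian, in which case the degree is at least p^(n-n₀)(p^n₀ - 1). -/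
theorem result {F : Type*} [Field F] {p : ℕ} [Fact p.Prime] [CharP F p] {V : Type*} [AddCommGroup V] [Module F V] [FiniteDimensional F V] [Nontrivial V] (H : Subgroup (V ≃ₗ[F] V)) [Finite H] (hsol : Cfsg.IsPSolvable p H) (hOp : Cfsg.pCore p H = ⊥) (x : V ≃ₗ[F] V) (hx : x ∈ H) (n : ℕ) (hn : orderOf x = p ^ n) (r : ℕ) (hr : minpoly F (x : Module.End F V) = (Polynomial.X - 1) ^ r) : r = p ^ n ∨ ∃ n₀ q m : ℕ, 1 ≤ n₀ ∧ n₀ ≤ n ∧ q.Prime ∧ 1 ≤ m ∧ p ^ n₀ - 1 = q ^ m ∧ (∀ Q : Sylow q H, ¬ IsMulCommutative Q) ∧ p ^ (n - n₀) * (p ^ n₀ - 1) ≤ r := by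
  classical
  have hpp : p.Prime := Fact.out
  set T : End F V := (x : End F V) with hT
  have hTpow : ∀ j : ℕ, T ^ j = ((x ^ j : V ≃ₗ[F] V) : End F V) := by
    intro j
    exact (map_pow (LinearEquiv.automorphismGroup.toLinearMapMonoidHom (R := F) (M := V)) x j).symm
  have hTsub : ∀ j : ℕ, (Polynomial.aeval T) ((Polynomial.X - 1 : Polynomial F) ^ j) = (T - 1) ^ j := by
    intro j
    simp
  have hTr : (T - 1) ^ r = 0 := by
    rw [← hTsub, ← hr]
    exact minpoly.aeval F T
  have hXne : (Polynomial.X - 1 : Polynomial F) ≠ 0 := by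
    simpa using Polynomial.X_sub_C_ne_zero (1 : F)
  have hXnu : ¬ IsUnit (Polynomial.X - 1 : Polynomial F) := by
    simpa using Polynomial.not_isUnit_X_sub_C (1 : F)
  have hxpn : x ^ p ^ n = 1 := by rw [← hn]; exact pow_orderOf_eq_one x
  have hTpn : T ^ p ^ n = 1 := by
    rw [hTpow, hxpn]
    rfl
  have hTle : r ≤ p ^ n := by
    have h1 : (T - 1) ^ p ^ n = 0 := by
      rw [Cfsg.Agent.H26.HBLin.End_sub_pow (K := F) (p := p), hTpn, sub_self]
    have h2 : minpoly F T ∣ (Polynomial.X - 1 : Polynomial F) ^ p ^ n :=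
      minpoly.dvd F T (by rw [hTsub, h1])
    rw [hr] at h2
    exact (pow_dvd_pow_iff hXne hXnu).mp h2
  have hnz : ∀ j, (T - 1) ^ j ≠ 0 → j < r := by
    intro j hj
    by_contra hcon
    exact hj (pow_eq_zero_of_le (not_lt.mp hcon) hTr)
  rcases n with _ | m
  · left
    rw [pow_zero] at hTpn hTle ⊢
    have h1 : r ≠ 0 := by
      rintro rfl
      rw [pow_zero] at hTr
      exact one_ne_zero hTr
    omega
  -- the extension of scalars
  let K := AlgebraicClosure F
  haveI : CharP K p := charP_of_injective_algebraMap (algebraMap F K).injective p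
  let ρF : H →* End F V := (LinearEquiv.automorphismGroup.toLinearMapMonoidHom (R := F) (M := V)).comp H.subtype
  have hρF : Function.Injective ρF := by
    intro a b hab
    apply Subtype.ext
    apply LinearEquiv.toLinearMap_injective
    exact hab
  let bc : End F V →* End K (K ⊗[F] V) := (Module.End.baseChangeHom F K V : End F V →ₐ[F] End K (K ⊗[F] V)).toMonoidHom
  have hbc : Function.Injective bc := LinearMap.baseChangeHom_injective F V K
  let ρK : H →* End K (K ⊗[F] V) := bc.comp ρF
  have hρK : Function.Injective ρK := hbc.comp hρF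
  let x' : H := ⟨x, hx⟩
  have hx'1 : x' ^ p ^ (m + 1) = 1 := by
    apply Subtype.ext
    exact hxpn
  have hx'2 : x' ^ p ^ m ≠ 1 := by
    intro h
    have h1 : x ^ p ^ m = 1 := congrArg Subtype.val h
    have h2 := orderOf_dvd_of_pow_eq_one h1
    rw [hn] at h2
    have h3 := Nat.le_of_dvd (pow_pos hpp.pos m) h2
    have h4 : p ^ m < p ^ (m + 1) := Nat.pow_lt_pow_right hpp.one_lt (by omega)
    omega
  have hρx : ρF x' = T := rfl
  have hbcsub : ∀ j : ℕ, (ρK x' - 1) ^ j = bc ((T - 1) ^ j) := by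
    intro j
    have : ρK x' - 1 = bc (T - 1) := by
      change bc T - 1 = (Module.End.baseChangeHom F K V) (T - 1)
      rw [map_sub, map_one]
      rfl
    rw [this, map_pow]
  have hdesc : ∀ j : ℕ, (ρK x' - 1) ^ j ≠ 0 → j < r := by
    intro j hj
    apply hnz
    intro h0
    apply hj
    rw [hbcsub, h0]
    exact map_zero (Module.End.baseChangeHom F K V)
  have hmain := Cfsg.Agent.H26.HBMain.thmB_K (K := K) (V := K ⊗[F] V) ρK hρK hsol hOp x' m hx'1 hx'2
  have hpos : ∀ j, 0 < p ^ j := fun j => pow_pos hpp.pos j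
  rcases hmain with h1 | ⟨n₀, q, e, h1, h2, hq, he, heq, ⟨R, hRq, hRnc⟩, h3⟩
  · left
    have := hdesc _ h1
    have := hpos (m + 1)
    omega
  · right
    refine ⟨n₀, q, e, h1, h2, hq, he, heq, ?_, ?_⟩
    · intro Q hQ
      haveI : Fact q.Prime := ⟨hq⟩
      obtain ⟨P, hP⟩ := hRq.exists_le_sylow
      apply hRnc
      intro a ha b hb
      let φ := Sylow.equiv P Q
      have hc := hQ.is_comm.comm (φ ⟨a, hP ha⟩) (φ ⟨b, hP hb⟩)
      rw [← map_mul, ← map_mul] at hc
      have := φ.injective hc
      exact congrArg Subtype.val this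
    · have := hdesc _ h3
      omega

end Cfsg.Agent.S0633
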