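import Mathlib
import Cfsg.Statements.S0657
import Cfsg.Agent.Lib.H26.ActionStable

set_option autoImplicit false
open Cfsg

namespace Cfsg.Agent.S0657

/-- For odd p, a group that fails to be p-stable modulo its largest normal subgroup of order prime to p, and whose upper p-series does not stop there, has a section isomorphic to SL(2, p). -/
theorem result {G : Type*} [Group G] [Finite G] {p : ℕ} [Fact p.Prime] (hp : p ≠ 2) (hO : Cfsg.pPrimeCore p G < Cfsg.pPrimePCore p G) (hns : ¬ Cfsg.IsPStable p (G ⧸ Cfsg.pPrimeCore p G)) : ∃ (K L : Subgroup G) (hL : (L.subgroupOf K).Normal), K ≤ ⊤ ∧ Nonempty ((K ⧸ L.subgroupOf K) ≃* Matrix.SpecialLinearGroup (Fin 2) (ZMod p)) := by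
  by_contra hcon
  have hfree : ¬ Cfsg.Involves (Matrix.SpecialLinearGroup (Fin 2) (ZMod p)) G := by
    rintro ⟨K, R, hR, he⟩
    exact hcon ⟨K, R, hR, le_top, he⟩
  apply hns
  have hodd : Odd p := (Fact.out : p.Prime).odd_of_ne_two hp
  have hne : Cfsg.pCore p (G ⧸ Cfsg.pPrimeCore p G) ≠ ⊥ := by
    intro h
    have h1 : Cfsg.pPrimePCore p G = Cfsg.pPrimeCore p G := by
      unfold Cfsg.pPrimePCore
      rw [h]
      ext x
      rw [Subgroup.mem_comap, Subgroup.mem_bot]
      exact QuotientGroup.eq_one_iff x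
    exact hO.ne h1.symm
  exact Cfsg.Agent.H26.isPStable_of_nstable hodd hne
    (Cfsg.Agent.H14.stable_of_not_involves hp (Cfsg.Agent.H26.not_involves_qd_of_sl2
      (Cfsg.Agent.H26.not_involves_of_quotient _ hfree)))

end Cfsg.Agent.S0657
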