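import Mathlib
import Cfsg.Statements.S0658
import Cfsg.Agent.Lib.H26.PStableQuot

set_option autoImplicit false
set_option linter.style.haveILetI false
set_option linter.unusedVariables false
open Cfsg

namespace Cfsg.Agent.S0658

open Cfsg.Agent.H13 Cfsg.Agent.H14 Cfsg.Agent.H26 ZJFam

open scoped commutatorElement

variable {G : Type*} [Group G] [Finite G] {p : ℕ} [Fact p.Prime]

/-- An element acting quadratically on a `p`-group acts with `p`-power order. -/
lemma pow_centralizes_of_quad {R : Subgroup G} (hR : IsPGroup p R) {g : G}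
    (hg : g ∈ Subgroup.normalizer (R : Set G))
    (hq : ⁅⁅R, Subgroup.zpowers g⁆, Subgroup.zpowers g⁆ = ⊥) :
    ∃ e : ℕ, g ^ p ^ e ∈ Subgroup.centralizer (R : Set G) := by
  obtain ⟨e, he⟩ := IsPGroup.iff_card.mp hR
  refine ⟨e, ?_⟩
  rw [Subgroup.mem_centralizer_iff]
  intro r hr
  set c := g * r * g⁻¹ * r⁻¹ with hc
  have hcR : c ∈ R := by
    rw [hc]
    exact R.mul_mem ((Subgroup.mem_normalizer_iff.mp hg r).mp hr) (R.inv_mem hr)
  have hcomm : g * c = c * g := by
    have h2 : ⁅r, g⁆ ∈ ⁅R, Subgroup.zpowers g⁆ :=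
      Subgroup.commutator_mem_commutator hr (Subgroup.mem_zpowers g)
    have h3 : ⁅⁅r, g⁆, g⁆ ∈ ⁅⁅R, Subgroup.zpowers g⁆, Subgroup.zpowers g⁆ :=
      Subgroup.commutator_mem_commutator h2 (Subgroup.mem_zpowers g)
    rw [hq, Subgroup.mem_bot, commutatorElement_eq_one_iff_mul_comm] at h3
    have e2 : c = ⁅r, g⁆⁻¹ := by
      rw [hc, commutatorElement_def]; group
    rw [e2]
    have h4 : Commute ⁅r, g⁆ g := h3
    exact (h4.inv_left).symm.eq
  have hstep : ∀ j : ℕ, g ^ j * r * (g ^ j)⁻¹ = c ^ j * r := by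
    intro j
    induction j with
    | zero => simp
    | succ j ih =>
      have hcomm' : Commute g (c ^ j) := (show Commute g c from hcomm).pow_right j
      have e1 : g * r * g⁻¹ = c * r := by rw [hc]; group
      calc g ^ (j + 1) * r * (g ^ (j + 1))⁻¹ = g * (g ^ j * r * (g ^ j)⁻¹) * g⁻¹ := by
            rw [pow_succ']
            group
        _ = g * (c ^ j * r) * g⁻¹ := by rw [ih]
        _ = (g * c ^ j) * r * g⁻¹ := by simp only [mul_assoc]
        _ = (c ^ j * g) * r * g⁻¹ := by rw [hcomm'.eq]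
        _ = c ^ j * (g * r * g⁻¹) := by simp only [mul_assoc]
        _ = c ^ j * (c * r) := by rw [e1]
        _ = c ^ (j + 1) * r := (by rw [pow_succ]; exact (mul_assoc _ _ _).symm)
  have hc1 : c ^ p ^ e = 1 := by
    have := pow_card_eq_one' (G := R) (x := ⟨c, hcR⟩)
    rw [he] at this
    exact congrArg Subtype.val this
  have h1 := hstep (p ^ e)
  rw [hc1, one_mul] at h1
  calc r * g ^ p ^ e = (g ^ p ^ e * r * (g ^ p ^ e)⁻¹) * g ^ p ^ e := by rw [h1]
    _ = g ^ p ^ e * r := by group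

/-- The Prelude's `p`-stability on all `p`-locals gives `p`-stability in the normalizer form. -/
theorem normalizerStable_of_local
    (hloc : ∀ R : Subgroup G, IsPGroup p R → R ≠ ⊥ →
      pPrimeCore p ↥(Subgroup.normalizer (R : Set G)) = ⊥ ∧
        Cfsg.IsPStable p ↥(Subgroup.normalizer (R : Set G))) :
    Cfsg.IsNormalizerPStable p G := by
  classical
  intro R hR g hg hq
  by_cases hRbot : R = ⊥
  · subst hRbot
    have h1 : (QuotientGroup.mk (s := (Subgroup.centralizer ((⊥ : Subgroup G) : Set G)).subgroupOf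
        (Subgroup.normalizer ((⊥ : Subgroup G) : Set G)))
          (⟨g, hg⟩ : ↥(Subgroup.normalizer ((⊥ : Subgroup G) : Set G)))) = 1 := by
      rw [QuotientGroup.eq_one_iff, Subgroup.mem_subgroupOf, Subgroup.mem_centralizer_iff]
      intro h hh
      rw [show h = 1 from Subgroup.mem_bot.mp hh]
      simp
    rw [h1]
    exact Subgroup.one_mem _
  obtain ⟨h0, hs⟩ := hloc R hR hRbot
  set N := Subgroup.normalizer (R : Set G) with hN
  set C := Subgroup.centralizer (R : Set G) with hC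
  have hCN : C ≤ N := Subgroup.centralizer_le_normalizer _
  have hCn : (C.subgroupOf N).Normal := by
    refine ⟨fun c hc n => ?_⟩
    rw [Subgroup.mem_subgroupOf] at hc ⊢
    rw [hC, Subgroup.mem_centralizer_iff] at hc ⊢
    intro r hr
    have hr' : (n : G)⁻¹ * r * n ∈ R := by
      have h1 := (Subgroup.mem_normalizer_iff.mp (Subgroup.inv_mem _ n.2) r).mp hr
      simpa using h1
    have h1 := hc _ hr'
    have e : ((n * c * n⁻¹ : N) : G) = n * c * (n : G)⁻¹ := rfl
    rw [e]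
    calc r * (n * c * (n : G)⁻¹) = n * (((n : G)⁻¹ * r * n) * c) * (n : G)⁻¹ := by group
      _ = n * (c * ((n : G)⁻¹ * r * n)) * (n : G)⁻¹ := by rw [h1]
      _ = _ := by group
  let π := QuotientGroup.mk' (C.subgroupOf N)
  have hπ1 : ∀ x : N, π x = 1 ↔ (x : G) ∈ C := fun x => by
    rw [show π x = (x : N ⧸ C.subgroupOf N) from rfl, QuotientGroup.eq_one_iff, Subgroup.mem_subgroupOf]
  -- the action of `g` has `p`-power order
  obtain ⟨e, he⟩ := pow_centralizes_of_quad hR hg hq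
  have hp1 : IsPGroup p (Subgroup.zpowers (π ⟨g, hg⟩)) := by
    have h1 : (π ⟨g, hg⟩) ^ p ^ e = 1 := by
      rw [← map_pow, hπ1]
      exact he
    rintro ⟨x, ⟨z, rfl⟩⟩
    refine ⟨e, Subtype.ext ?_⟩
    change (π ⟨g, hg⟩ ^ z) ^ p ^ e = 1
    rw [← zpow_natCast, zpow_comm, zpow_natCast, h1, one_zpow]
  obtain ⟨g₁, hg₁z, hg₁p, hg₁π⟩ := exists_ppart_lift π ⟨g, hg⟩ hp1
  -- the subgroup of `N` attached to `R`
  set R₀ : Subgroup N := R.subgroupOf N with hR₀
  have hR₀n : R₀.Normal := by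
    refine ⟨fun r hr n => ?_⟩
    rw [hR₀, Subgroup.mem_subgroupOf] at hr ⊢
    exact (Subgroup.mem_normalizer_iff.mp n.2 _).mp hr
  have hR₀p : IsPGroup p R₀ := hR.comap_subtype
  have hR₀M : R₀ ≤ pPrimePCore p N := by
    intro r hr
    change QuotientGroup.mk' (pPrimeCore p N) r ∈ Cfsg.pCore p (N ⧸ pPrimeCore p N)
    apply Cfsg.Agent.H01.le_pCore (hR₀n.map _ (QuotientGroup.mk'_surjective _)) (hR₀p.map _)
    exact ⟨r, hr, rfl⟩
  have hR₀L : (pPrimeCore p N ⊔ R₀).Normal := by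
    rw [h0, bot_sup_eq]
    exact hR₀n
  obtain ⟨T, hTN, hTinv, hCT, hTpow, hTq⟩ := stable_data_of_IsPStable hs hR₀p hR₀M hR₀L
  have hNtop : Subgroup.normalizer (R₀ : Set N) = ⊤ := Subgroup.normalizer_eq_top_iff.mpr hR₀n
  have hg₁N : g₁ ∈ Subgroup.normalizer (R₀ : Set N) := by
    rw [hNtop]
    trivial
  have hmapR₀ : R₀.map N.subtype = R := by
    rw [hR₀, Subgroup.subgroupOf_map_subtype]
    exact inf_eq_left.mpr Subgroup.le_normalizer
  have hq₁ : ⁅⁅R₀, Subgroup.zpowers g₁⁆, Subgroup.zpowers g₁⁆ = ⊥ := by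
    have hle : Subgroup.zpowers g₁ ≤ Subgroup.zpowers (⟨g, hg⟩ : N) := Subgroup.zpowers_le.mpr hg₁z
    rw [eq_bot_iff]
    refine (Subgroup.commutator_mono (Subgroup.commutator_mono le_rfl hle) hle).trans ?_
    apply (Subgroup.map_le_map_iff_of_injective N.subtype_injective).mp
    rw [Subgroup.map_commutator, Subgroup.map_commutator, MonoidHom.map_zpowers, hmapR₀]
    change ⁅⁅R, Subgroup.zpowers g⁆, Subgroup.zpowers g⁆ ≤ _
    rw [hq]
    exact bot_le
  have hg₁T : g₁ ∈ T := hTq g₁ hg₁N hg₁p hq₁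
  -- the image of `T` is a normal `p`-subgroup
  have hCcomp : ∀ x : N, x ∈ Subgroup.centralizer (R₀ : Set N) ↔ (x : G) ∈ C := by
    intro x
    rw [Subgroup.mem_centralizer_iff, hC, Subgroup.mem_centralizer_iff]
    constructor
    · intro h r hr
      have hrN : r ∈ N := Subgroup.le_normalizer hr
      have h1 := h ⟨r, hrN⟩ (Subgroup.mem_subgroupOf.mpr hr)
      exact congrArg Subtype.val h1
    · intro h r hr
      apply Subtype.ext
      exact h r (Subgroup.mem_subgroupOf.mp hr)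
  have hTmn : (T.map π).Normal := by
    refine ⟨fun x hx y => ?_⟩
    obtain ⟨t, ht, rfl⟩ := hx
    obtain ⟨n, rfl⟩ := QuotientGroup.mk'_surjective _ y
    refine ⟨n * t * n⁻¹, hTinv n (by rw [hNtop]; trivial) t ht, ?_⟩
    simp only [map_mul, map_inv]
    rfl
  have hTmp : IsPGroup p (T.map π) := by
    rintro ⟨x, t, ht, rfl⟩
    obtain ⟨k, hk⟩ := hTpow t ht
    refine ⟨k, Subtype.ext ?_⟩
    change π t ^ p ^ k = 1
    rw [← map_pow, hπ1]
    exact (hCcomp _).mp hk
  have hfin := Cfsg.Agent.H01.le_pCore hTmn hTmp (show π g₁ ∈ T.map π from ⟨g₁, hg₁T, rfl⟩)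
  rw [hg₁π] at hfin
  exact hfin

/-- The normalizer of a conjugate. -/
lemma normalizer_le_of_conj {Z W W' : Subgroup G} {x y : G}
    (hx : x ∈ Subgroup.normalizer (Z : Set G))
    (hxy : ∀ r ∈ W, y * r * y⁻¹ = x * r * x⁻¹) (hW' : W' = W.map (MulAut.conj y).toMonoidHom)
    (h : Subgroup.normalizer (W' : Set G) ≤ Subgroup.normalizer (Z : Set G)) :
    Subgroup.normalizer (W : Set G) ≤ Subgroup.normalizer (Z : Set G) := by
  intro n hn
  have hW'' : W' = W.map (MulAut.conj x).toMonoidHom := by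
    rw [hW']
    ext v
    constructor
    · rintro ⟨r, hr, rfl⟩
      exact ⟨r, hr, hxy r hr |>.symm⟩
    · rintro ⟨r, hr, rfl⟩
      exact ⟨r, hr, hxy r hr⟩
  have h1 : x * n * x⁻¹ ∈ Subgroup.normalizer (W' : Set G) := by
    rw [hW'', normalizer_conj]
    exact ⟨n, hn, rfl⟩
  have h2 := h h1
  have h3 := Subgroup.mul_mem _ (Subgroup.mul_mem _ (Subgroup.inv_mem _ hx) h2) hx
  have e : x⁻¹ * (x * n * x⁻¹) * x = n := by group
  rwa [e] at h3

/-- In a group of characteristic p type all of whose p-locals are p-stable (p odd), the normalizer of Z(J(P)) contains the normalizer of every nontrivial subgroup of the Sylow p-subgroup P. -/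
theorem result {G : Type*} [Group G] [Finite G] {p : ℕ} [Fact p.Prime] (hp : p ≠ 2) (hloc : ∀ Q : Subgroup G, IsPGroup p Q → Q ≠ ⊥ → Cfsg.pPrimeCore p ↥(Subgroup.normalizer (Q : Set G)) = ⊥ ∧ Cfsg.IsPConstrained p ↥(Subgroup.normalizer (Q : Set G)) ∧ Cfsg.IsPStable p ↥(Subgroup.normalizer (Q : Set G))) (P : Sylow p G) (Q : Subgroup G) (hQP : Q ≤ (P : Subgroup G)) (hQ1 : Q ≠ ⊥) : Subgroup.normalizer (Q : Set G) ≤ Subgroup.normalizer (Cfsg.centerThompsonAOf ((P : Subgroup G)) : Set G) := by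
  classical
  have hst : Cfsg.IsNormalizerPStable p G :=
    normalizerStable_of_local fun R hR hne => ⟨(hloc R hR hne).1, (hloc R hR hne).2.2⟩
  have hD : Cfsg.IsStronglyClosed (P : Subgroup G) (P : Subgroup G) := ⟨le_refl _, fun _ _ _ h => h⟩
  have hc : ∀ U : Subgroup G, U ≤ (P : Subgroup G) → U ≠ ⊥ → IsPConstrained p ↥(NN U) :=
    fun U hU hne => (hloc U (P.isPGroup'.to_le hU) hne).2.1
  have hPne : (P : Subgroup G) ≠ ⊥ := by
    intro h
    apply hQ1
    rw [eq_bot_iff, ← h]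
    exact hQP
  rw [centerThompsonAOf_eq_zz0]
  set Z := (elFam G 0).zz (P : Subgroup G) with hZ
  have hctrl : ∀ B : Subgroup G, B ≤ (P : Subgroup G) → Ctrl P (NN Z) B := fun B hB =>
    ctrl_all hp (Or.inl rfl) P hD hPne hst hc (Nat.card (P : Subgroup G)) B hB (by omega)
  -- transfer along conjugation into `P`
  have htrans : ∀ W : Subgroup G, W ≤ (P : Subgroup G) → ∀ y : G,
      W.map (MulAut.conj y).toMonoidHom ≤ (P : Subgroup G) →
      NN (W.map (MulAut.conj y).toMonoidHom) ≤ NN Z → NN W ≤ NN Z := by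
    intro W hW y hyW h
    obtain ⟨x, hx, hxe⟩ := hctrl W hW y (fun r hr => hyW ⟨r, hr, rfl⟩)
    exact normalizer_le_of_conj hx hxe rfl h
  -- the tame case
  have hstep : ∀ V : Subgroup G, V ≠ ⊥ → V ≤ (P : Subgroup G) →
      ¬ p ∣ ((P : Subgroup G) ⊓ NN V).relIndex (NN V) →
      (∀ V' : Subgroup G, V' ≠ ⊥ → V' ≤ (P : Subgroup G) →
        ¬ p ∣ ((P : Subgroup G) ⊓ NN V').relIndex (NN V') →
        Nat.card ((P : Subgroup G) ⊓ NN V : Subgroup G) <
          Nat.card ((P : Subgroup G) ⊓ NN V' : Subgroup G) → NN V' ≤ NN Z) →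
      NN V ≤ NN Z := by
    intro V hVne hVP hVt hIH
    set H := NN V with hH
    set S := (P : Subgroup G) ⊓ H with hS
    have hSP : S ≤ (P : Subgroup G) := inf_le_left
    have hSH : S ≤ H := inf_le_right
    have hSp : IsPGroup p S := P.isPGroup'.to_le hSP
    have hVS : V ≤ S := le_inf hVP Subgroup.le_normalizer
    have hSne : S ≠ ⊥ := by
      intro h
      apply hVne
      rw [eq_bot_iff, ← h]
      exact hVS
    have hpg : IsPGroup p (S.subgroupOf H) := hSp.comap_subtype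
    let S' : Sylow p H := hpg.toSylow hVt
    obtain ⟨h0, hcH, hsH⟩ := hloc V (P.isPGroup'.to_le hVP) hVne
    have hnormal := zz_sup_core_normal hp 0 S' hsH hcH
    rw [h0, sup_bot_eq] at hnormal
    have hmapS : (S' : Subgroup H).map H.subtype = S := by
      change (S.subgroupOf H).map H.subtype = S
      rw [Subgroup.subgroupOf_map_subtype]
      exact inf_eq_left.mpr hSH
    set W₁ := (elFam G 0).zz S with hW₁
    have hz : W₁ = ((elFam H 0).zz (S' : Subgroup H)).map H.subtype := by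
      rw [hW₁, ← hmapS]
      exact zz_map 0 H.subtype (S' : Subgroup H) (fun x _ hx => Subtype.ext hx)
    have hVW : H ≤ NN W₁ := by
      intro h hh
      apply mem_normalizer_of_map_conj_le
      rintro _ ⟨w, hw, rfl⟩
      rw [hz] at hw ⊢
      obtain ⟨w₀, hw₀, rfl⟩ := hw
      exact ⟨⟨h, hh⟩ * w₀ * ⟨h, hh⟩⁻¹, hnormal.conj_mem _ hw₀ _, rfl⟩
    by_cases hSeq : S = (P : Subgroup G)
    · have : W₁ = Z := by rw [hW₁, hSeq]
      rw [← this]
      exact hVW
    have hW₁ne : W₁ ≠ ⊥ := zz_ne_bot 0 (Or.inl rfl) hSp hSne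
    have hW₁S : W₁ ≤ S := (zz_le_jj _).trans (jj_le _)
    have hW₁p : IsPGroup p W₁ := hSp.to_le hW₁S
    obtain ⟨y, h1, h2⟩ := exists_tame P hW₁p
    set W' := W₁.map (MulAut.conj y).toMonoidHom with hW'
    have hW'ne : W' ≠ ⊥ := by
      intro h
      exact hW₁ne ((Subgroup.map_eq_bot_iff_of_injective W₁ (MulAut.conj y).injective).mp h)
    let R : Subgroup G := (P : Subgroup G) ⊓ NN S
    have hRp : IsPGroup p R := P.isPGroup'.to_le inf_le_left
    obtain ⟨u, huP, huS, huN⟩ := Cfsg.Agent.H14.exists_mem_normalizer_of_pgroup P.isPGroup' hSP hSeq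
    have hSR : S < R := by
      refine lt_of_le_of_ne (le_inf hSP Subgroup.le_normalizer) ?_
      intro h
      apply huS
      rw [h]
      exact ⟨huP, huN⟩
    have hRW : R ≤ NN W₁ := fun v hv => zz_normalizer_ge 0 S hv.2
    have hN' : NN W' = (NN W₁).map (MulAut.conj y).toMonoidHom := normalizer_conj W₁ y
    have hR'le : R.map (MulAut.conj y).toMonoidHom ≤ NN W' := by
      rw [hN']
      exact Subgroup.map_mono hRW
    have hcardR : Nat.card R ≤ Nat.card ((P : Subgroup G) ⊓ NN W' : Subgroup G) := by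
      have h3 := card_le_of_relIndex (inf_le_right : (P : Subgroup G) ⊓ NN W' ≤ NN W') h2
        (hRp.map (MulAut.conj y).toMonoidHom) hR'le
      have h4 : Nat.card (R.map (MulAut.conj y).toMonoidHom) = Nat.card R :=
        (Nat.card_congr ((MulAut.conj y).subgroupMap R).toEquiv).symm
      rwa [h4] at h3
    have hcardS : Nat.card S < Nat.card R := card_lt_of_lt hSR
    have hres := hIH W' hW'ne h1 h2 (by omega)
    exact hVW.trans (htrans W₁ (hW₁S.trans hSP) y h1 hres)
  have htame : ∀ k : ℕ, ∀ V : Subgroup G, V ≠ ⊥ → V ≤ (P : Subgroup G) →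
      ¬ p ∣ ((P : Subgroup G) ⊓ NN V).relIndex (NN V) →
      Nat.card (P : Subgroup G) ≤ Nat.card ((P : Subgroup G) ⊓ NN V : Subgroup G) + k →
      NN V ≤ NN Z := by
    intro k
    induction k with
    | zero =>
      intro V hV1 hV2 hV3 hV4
      refine hstep V hV1 hV2 hV3 fun V' _ _ _ hlt => ?_
      have := Subgroup.card_le_of_le (inf_le_left : (P : Subgroup G) ⊓ NN V' ≤ (P : Subgroup G))
      omega
    | succ k ih =>
      intro V hV1 hV2 hV3 hV4
      refine hstep V hV1 hV2 hV3 fun V' h1 h2 h3 hlt => ih V' h1 h2 h3 (by omega)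
  obtain ⟨y, h1, h2⟩ := exists_tame P (P.isPGroup'.to_le hQP)
  have hne : Q.map (MulAut.conj y).toMonoidHom ≠ ⊥ := by
    intro h
    exact hQ1 ((Subgroup.map_eq_bot_iff_of_injective Q (MulAut.conj y).injective).mp h)
  exact htrans Q hQP y h1 (htame (Nat.card (P : Subgroup G)) _ hne h1 h2 (by omega))

end Cfsg.Agent.S0658
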