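import Cfsg.Statements.S0666
import Cfsg.Agent.Lib.H26.FrobAct
import Mathlib

set_option autoImplicit false
set_option linter.style.haveILetI false
set_option linter.unusedVariables false

open Cfsg

namespace Cfsg.Agent.S0666

/-- A Frobenius group acting on a nontrivial abelian group of order prime to that of its kernel, with the kernel acting without nontrivial fixed points, has a complement with a nontrivial fixed point. -/
theorem result {G : Type*} [Group G] [Finite G] (V F : Subgroup G) (hVab : IsMulCommutative V) (hV1 : V ≠ ⊥) (hFV : F ≤ Subgroup.normalizer (V : Set G)) (H : Subgroup ↥F) (hH : Cfsg.IsFrobeniusComplement H) (hcop : (Nat.card V).Coprime (Nat.card (Cfsg.frobeniusKernel H))) (hCK : V ⊓ Subgroup.centralizer (Subtype.val '' Cfsg.frobeniusKernel H : Set G) = ⊥) : V ⊓ Subgroup.centralizer ((H.map F.subtype : Subgroup G) : Set G) ≠ ⊥ := by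
  classical
  intro hfix
  obtain ⟨N, hN, hNn, hc, hnil, hfrob⟩ := Cfsg.Agent.H26.FrobAct.frob_data H hH
  have hcomm : ∀ a b : V, a * b = b * a := fun a b => hVab.is_comm.comm a b
  letI : CommGroup V := { (inferInstance : Group V) with mul_comm := hcomm }
  let ρ : F →* MulAut V := (Subgroup.normalizerMonoidHom V).comp (Subgroup.inclusion hFV)
  have hρ : ∀ (a : F) (x : V), ((ρ a x : V) : G) = (a : G) * x * (a : G)⁻¹ := fun a x => rfl
  letI : Fintype N := Fintype.ofFinite N
  letI : Fintype H := Fintype.ofFinite H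
  have hcard : Nat.card (Cfsg.frobeniusKernel H) = Nat.card N := by
    rw [← hN]
    rfl
  rw [hcard] at hcop
  have hfixN : ∀ x ∈ (⊤ : Subgroup V), (∀ z ∈ N, ρ z x = x) → x = 1 := by
    intro x _ hx
    have h1 : (x : G) ∈ V ⊓ Subgroup.centralizer (Subtype.val '' Cfsg.frobeniusKernel H : Set G) := by
      refine Subgroup.mem_inf.mpr ⟨x.2, ?_⟩
      rw [Subgroup.mem_centralizer_iff]
      rintro _ ⟨z, hz, rfl⟩
      rw [← hN] at hz
      have h2 := congrArg Subtype.val (hx z hz)
      rw [hρ] at h2
      have h3 : (z : G) * x = x * z := by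
        rw [← mul_inv_eq_iff_eq_mul]
        exact h2
      exact h3
    rw [hCK] at h1
    exact Subtype.ext (Subgroup.mem_bot.mp h1)
  have hfixH : ∀ c : V, (∀ r ∈ H, ρ r c = c) → c = 1 := by
    intro c hc'
    have h1 : (c : G) ∈ V ⊓ Subgroup.centralizer ((H.map F.subtype : Subgroup G) : Set G) := by
      refine Subgroup.mem_inf.mpr ⟨c.2, ?_⟩
      rw [Subgroup.mem_centralizer_iff]
      rintro _ ⟨r, hr, rfl⟩
      have h2 := congrArg Subtype.val (hc' r hr)
      rw [hρ] at h2
      have h3 : (r : G) * c = c * r := by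
        rw [← mul_inv_eq_iff_eq_mul]
        exact h2
      exact h3
    rw [hfix] at h1
    exact Subtype.ext (Subgroup.mem_bot.mp h1)
  have hNne : ∀ x : V, x = 1 := by
    intro x
    by_contra hx
    obtain ⟨c, -, hcR, hc1⟩ := Cfsg.Agent.H26.FrobAct.exists_fix_ne_one ρ N H
      (fun r hr z hz => hNn.conj_mem z hz r) hfrob ⊤ (fun _ _ _ _ => trivial) (fun _ _ _ _ => trivial)
      hfixN hcop.symm (Subgroup.mem_top x) hx
    exact hc1 (hfixH c hcR)
  apply hV1
  rw [eq_bot_iff]
  intro x hx
  have := hNne ⟨x, hx⟩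
  exact Subgroup.mem_bot.mpr (congrArg Subtype.val this)

end Cfsg.Agent.S0666
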