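import Cfsg.Statements.S0749
import Mathlib
import Cfsg.Agent.Lib.H03.WittSkel

set_option autoImplicit false
open Cfsg

namespace Cfsg.Agent.S0749

open Module Cfsg.Agent.H03

section
variable {F V : Type*} [Field F] [AddCommGroup V] [Module F V] [FiniteDimensional F V]

lemma B4 (B : LinearMap.BilinForm F V) (z w d e : V) (s t s' t' : F) :
    B (z + s • d + t • e) (w + s' • d + t' • e) = B z w + s' * B z d + t' * B z e + s * B d w + t * B e w
      + s * s' * B d d + s * t' * B d e + t * s' * B e d + t * t' * B e e := by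
  simp only [map_add, map_smul, LinearMap.add_apply, LinearMap.smul_apply, smul_eq_mul]
  ring

lemma mk_iso {B : LinearMap.BilinForm F V} (hB : B.Nondegenerate) (L : V →ₗ[F] V) (hL : ∀ u v, B (L u) (L v) = B u v) :
    ∃ g : V ≃ₗ[F] V, ∀ v, g v = L v := by
  have hinj : Function.Injective L := by
    rw [injective_iff_map_eq_zero]
    intro v hv
    apply hB.1
    intro w
    rw [← hL, hv]
    simp
  exact ⟨LinearEquiv.ofInjectiveEndo L hinj, fun v => rfl⟩

lemma exists_e {B : LinearMap.BilinForm F V} (hB : B.Nondegenerate) (S : Submodule F V) {x : V} (hx : x ∉ S) :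
    ∃ e : V, (∀ s ∈ S, B e s = 0) ∧ B e x = 1 := by
  obtain ⟨l, hl, hlx⟩ := exists_sep S hx
  refine ⟨(LinearMap.BilinForm.toDual B hB).symm l, ?_, ?_⟩
  · intro s hs
    rw [LinearMap.BilinForm.apply_toDual_symm_apply, hl s hs]
  · rw [LinearMap.BilinForm.apply_toDual_symm_apply, hlx]

theorem alt_step {B : LinearMap.BilinForm F V} (hB : B.Nondegenerate) (hA : B.IsAlt) (X₀ : Submodule F V) {x y : V}
    (hx : x ∉ X₀) (hy : y ∉ X₀) (hp : ∀ u ∈ X₀, B y u = B x u) :
    ∃ g : V ≃ₗ[F] V, (∀ u v, B (g u) (g v) = B u v) ∧ (∀ u ∈ X₀, g u = u) ∧ g x = y := by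
  classical
  have hself : ∀ z, B z z = 0 := fun z => hA z
  have hsk : ∀ a b, B b a = - B a b := by
    intro a b
    have := hself (a + b)
    simp only [map_add, LinearMap.add_apply, hself, zero_add, add_zero] at this
    linear_combination this
  set d := y - x with hd
  have hyd : y = x + d := by rw [hd]; abel
  have hdu : ∀ u ∈ X₀, B d u = 0 := by
    intro u hu
    rw [hd, map_sub, LinearMap.sub_apply, hp u hu, sub_self]
  have hud : ∀ u ∈ X₀, B u d = 0 := by
    intro u hu
    rw [hsk d u, hdu u hu, neg_zero]
  by_cases hd0 : d = 0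
  · refine ⟨LinearEquiv.refl F V, fun _ _ => rfl, fun _ _ => rfl, ?_⟩
    rw [hyd, hd0, add_zero]
    rfl
  by_cases ha : B x d = 0
  · by_cases hxS : x ∈ X₀ ⊔ Submodule.span F {d}
    · -- scaling
      obtain ⟨u₀, hu₀, p, hp', hxe⟩ := Submodule.mem_sup.mp hxS
      obtain ⟨c, rfl⟩ := Submodule.mem_span_singleton.mp hp'
      have hc : c ≠ 0 := by
        rintro rfl
        apply hx
        rw [← hxe]
        simpa using hu₀
      have hdX : d ∉ X₀ := by
        intro h
        apply hx
        rw [← hxe]
        exact X₀.add_mem hu₀ (X₀.smul_mem _ h)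
      obtain ⟨e₀, he₀, he₀d⟩ := exists_e hB X₀ hdX
      set e := -e₀ with he
      have hde : B d e = 1 := by
        rw [he, map_neg, hsk e₀ d, he₀d, neg_neg]
      have hed : B e d = -1 := by
        rw [hsk d e, hde]
      have heu : ∀ u ∈ X₀, B u e = 0 := by
        intro u hu
        rw [he, map_neg, hsk e₀ u, he₀ u hu]
        simp
      set a : F := 1 + c⁻¹ with haa
      have ha0 : a ≠ 0 := by
        intro h
        apply hy
        have hc1 : c = -1 := by
          have : c * a = 0 := by rw [h, mul_zero]
          rw [haa, mul_add, mul_one, mul_inv_cancel₀ hc] at this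
          linear_combination this
        rw [hyd, ← hxe, hc1]
        simpa using hu₀
      let L : V →ₗ[F] V := LinearMap.id + ((a - 1) • B.flip e).smulRight d + ((-(a⁻¹ - 1)) • B.flip d).smulRight e
      have hLa : ∀ z, L z = z + ((a - 1) * B z e) • d + ((-(a⁻¹ - 1)) * B z d) • e := fun z => rfl
      have hLB : ∀ u v, B (L u) (L v) = B u v := by
        intro z w
        rw [hLa, hLa, B4, hself d, hself e, hde, hed, hsk w d, hsk w e]
        have : a⁻¹ * a = 1 := inv_mul_cancel₀ ha0
        linear_combination (B z d * B w e - B w d * B z e) * this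
      obtain ⟨g, hg⟩ := mk_iso hB L hLB
      refine ⟨g, fun u v => by rw [hg, hg, hLB], ?_, ?_⟩
      · intro u hu
        rw [hg, hLa, heu u hu, hud u hu]
        simp
      · have hdfix : L d = a • d := by
          rw [hLa, hde, hself d]
          simp only [mul_one, mul_zero, zero_smul, add_zero]
          rw [sub_smul, one_smul]
          abel
        have hufix : L u₀ = u₀ := by
          rw [hLa, heu u₀ hu₀, hud u₀ hu₀]
          simp
        rw [hg, ← hxe, map_add, map_smul, hufix, hdfix, smul_smul, hyd, ← hxe]
        have : c * a = c + 1 := by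
          rw [haa, mul_add, mul_one, mul_inv_cancel₀ hc]
        rw [this, add_smul, one_smul, add_assoc]
    · -- Eichler
      obtain ⟨e₀, he₀, hex₀⟩ := exists_e hB _ hxS
      set e := -e₀ with he
      have hed0 : B e₀ d = 0 := he₀ d (Submodule.mem_sup_right (Submodule.mem_span_singleton_self d))
      have hed : B e d = 0 := by
        rw [he, map_neg, LinearMap.neg_apply, hed0, neg_zero]
      have hde : B d e = 0 := by
        rw [hsk e d, hed, neg_zero]
      have heu : ∀ u ∈ X₀, B u e = 0 := by
        intro u hu
        rw [he, map_neg, hsk e₀ u, he₀ u (Submodule.mem_sup_left hu)]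
        simp
      have hxe : B x e = 1 := by
        rw [he, map_neg, hsk e₀ x, hex₀, neg_neg]
      let L : V →ₗ[F] V := LinearMap.id + (B.flip e).smulRight d + (B.flip d).smulRight e
      have hLa : ∀ z, L z = z + (B z e) • d + (B z d) • e := fun z => rfl
      have hLB : ∀ u v, B (L u) (L v) = B u v := by
        intro z w
        rw [hLa, hLa, B4, hself d, hself e, hde, hed, hsk w d, hsk w e]
        ring
      obtain ⟨g, hg⟩ := mk_iso hB L hLB
      refine ⟨g, fun u v => by rw [hg, hg, hLB], ?_, ?_⟩
      · intro u hu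
        rw [hg, hLa, heu u hu, hud u hu]
        simp
      · rw [hg, hLa, hxe, ha, hyd]
        simp
  · -- transvection
    let L : V →ₗ[F] V := LinearMap.id + ((B x d)⁻¹ • B.flip d).smulRight d
    have hLa : ∀ z, L z = z + ((B x d)⁻¹ * B z d) • d + (0 : F) • d := by
      intro z
      simp only [zero_smul, add_zero]
      rfl
    have hLB : ∀ u v, B (L u) (L v) = B u v := by
      intro z w
      rw [hLa, hLa, B4, hself d, hsk w d]
      ring
    obtain ⟨g, hg⟩ := mk_iso hB L hLB
    refine ⟨g, fun u v => by rw [hg, hg, hLB], ?_, ?_⟩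
    · intro u hu
      rw [hg, hLa, hud u hu]
      simp
    · rw [hg, hLa, hyd, inv_mul_cancel₀ ha]
      simp

end


/-- Witt's Lemma for alternating forms. If B is a non-degenerate alternating bilinear form on a finite-dimensional vector space V (over any field) and φ is a linear equivalence between subspaces X and Y of V preserving B, then φ extends to a B-preserving linear automorphism of V. -/
theorem result {F V : Type*} [Field F] [AddCommGroup V] [Module F V] [FiniteDimensional F V] (B : LinearMap.BilinForm F V) (hB : B.Nondegenerate) (hA : B.IsAlt) (X Y : Submodule F V) (φ : X ≃ₗ[F] Y) (hφ : ∀ x x' : X, B (φ x : V) (φ x' : V) = B (x : V) (x' : V)) : ∃ g : V ≃ₗ[F] V, (∀ u v : V, B (g u) (g v) = B u v) ∧ ∀ x : X, g (x : V) = (φ x : V) := by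
  classical
  let I : Subgroup (V ≃ₗ[F] V) :=
    { carrier := {g | ∀ u v, B (g u) (g v) = B u v}
      mul_mem' := by
        intro a b ha hb u v
        change B (a (b u)) (a (b v)) = B u v
        rw [ha, hb]
      one_mem' := fun u v => rfl
      inv_mem' := by
        intro a ha u v
        have := ha (a⁻¹ u) (a⁻¹ v)
        rw [← this]
        have e : ∀ w, a (a⁻¹ w) = w := fun w => by
          change a (a.symm w) = w
          simp
        rw [e, e] }
  let Compat : ∀ X : Submodule F V, (X →ₗ[F] V) → Prop := fun X f => ∀ x x' : X, B (f x) (f x') = B x x'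
  have key := witt_skeleton I Compat
    (by
      intro X X₀ h f hf x x'
      exact hf _ _)
    (by
      intro X f g hg hf x x'
      rw [LinearMap.comp_apply, LinearMap.comp_apply]
      change B (g (f x)) (g (f x')) = B x x'
      rw [hg, hf])
    (by
      intro X X₀ h x f hx hinj hf hfix
      have hy : f x ∉ X₀ := by
        intro hy
        have h1 := hfix ⟨f x, hy⟩
        have h2 := hinj h1
        apply hx
        rw [← h2]
        exact hy
      obtain ⟨g, hg1, hg2, hg3⟩ := alt_step hB hA X₀ hx hy (by
        intro u huX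
        have h1 := hf x (Submodule.inclusion h ⟨u, huX⟩)
        rw [hfix ⟨u, huX⟩] at h1
        exact h1)
      exact ⟨g, hg1, hg2, hg3⟩)
    _ X rfl (Y.subtype.comp φ.toLinearMap) (Y.injective_subtype.comp φ.injective) (fun x x' => hφ x x')
  obtain ⟨g, hg, he⟩ := key
  exact ⟨g, hg, he⟩

end Cfsg.Agent.S0749
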