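import Cfsg.Statements.S0799
import Cfsg.Agent.Lib.H09.Dick7

set_option autoImplicit false
open Cfsg

namespace Cfsg.Agent.S0799

open Cfsg.Agent.H09.Dick Cfsg.Agent.H27.DC Cfsg.Agent.H11.SL2X
open Cfsg.Agent.H27.ZA (Om)

set_option linter.style.haveILetI false in
set_option linter.unusedVariables false in
theorem fix_to_normalizer {F K : Type*} [Field F] [Fintype F] [Field K] [Fintype K] {ι : F →+* K} (p : ℕ) [Fact p.Prime] [CharP F p]
    [CharP K p] (hK : ∀ t : F, ∃ l : K, l * l - ι t * l + 1 = 0) {H : Subgroup (PS2 F)} {x : XX K}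
    (hO : Om (⊥ : Subgroup (H.map (ψ ι))) (Yb (H.map (ψ ι))) x) (hall : ∀ h ∈ H, actP (ψ ι h) x = x) :
    ∃ P : Sylow p (PS2 F), H ≤ Subgroup.normalizer ((P : Subgroup (PS2 F)) : Set (PS2 F)) := by
  obtain ⟨δ, hδ, hne⟩ := hO
  obtain ⟨δ, s₀, hs₀, rfl⟩ := δ
  have hp := pow_of_Yb p hδ
  have hp' : s₀ ^ p = 1 := by
    apply ψ_inj ι
    rw [map_pow, map_one]
    exact congrArg Subtype.val hp
  have hne' : s₀ ≠ 1 := by
    rintro rfl
    apply hne
    rw [Subgroup.mem_bot]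
    apply Subtype.ext
    exact map_one _
  exact case_i p hK hne' hp' (hall _ hs₀) hall

/-- Dickson's classification of the subgroups of PSL_2(q), q a power of the prime p, d = gcd(2, q − 1): every subgroup H is (a) cyclic or dihedral with k dividing (q+1)/d or (q−1)/d (cyclic of order k, or dihedral of order 2k), (b) isomorphic to a subgroup of the normaliser of a Sylow p-subgroup, (c) isomorphic to A_4, S_4 or A_5, or (d) isomorphic to PSL_2(K) or PGL_2(K) for a finite field K with |K|^m = q. -/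
theorem result {F : Type*} [Field F] [Fintype F] {q : ℕ} (hF : Fintype.card F = q) (p : ℕ) [Fact p.Prime] [CharP F p] (H : Subgroup (Matrix.ProjectiveSpecialLinearGroup (Fin 2) F)) : (∃ k : ℕ, (k ∣ (q + 1) / Nat.gcd 2 (q - 1) ∨ k ∣ (q - 1) / Nat.gcd 2 (q - 1)) ∧ ((IsCyclic H ∧ Nat.card H = k) ∨ Nonempty (H ≃* DihedralGroup k))) ∨ (∃ (P : Sylow p (Matrix.ProjectiveSpecialLinearGroup (Fin 2) F)) (K : Subgroup (Matrix.ProjectiveSpecialLinearGroup (Fin 2) F)), K ≤ Subgroup.normalizer ((P : Subgroup (Matrix.ProjectiveSpecialLinearGroup (Fin 2) F)) : Set (Matrix.ProjectiveSpecialLinearGroup (Fin 2) F)) ∧ Nonempty (H ≃* K)) ∨ Nonempty (H ≃* alternatingGroup (Fin 4)) ∨ Nonempty (H ≃* Equiv.Perm (Fin 4)) ∨ Nonempty (H ≃* alternatingGroup (Fin 5)) ∨ (∃ (K : Type) (_ : Field K) (_ : Fintype K) (m : ℕ), Fintype.card K ^ m = q ∧ (Nonempty (H ≃* Matrix.ProjectiveSpecialLinearGroup (Fin 2) K) ∨ Nonempty (H ≃* Matrix.ProjGenLinGroup (Fin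 2) K))) := by
  obtain ⟨K, _, _, _, hK⟩ := exists_ext (F := F)
  have hp' : CharP K p := charP_of_injective_ringHom (algebraMap F K).injective p
  obtain ⟨ι, hι⟩ : ∃ ι : F →+* K, ι = algebraMap F K := ⟨_, rfl⟩
  rw [← hι] at hK
  have hS := HS_map hK H
  let e : H ≃* H.map (ψ ι) := H.equivMapOfInjective _ (ψ_inj ι)
  have hb : ∀ x : XX K, Om (⊥ : Subgroup (H.map (ψ ι))) (Yb (H.map (ψ ι))) x → (∀ h ∈ H, actP (ψ ι h) x = x) →
      ∃ (P : Sylow p (Matrix.ProjectiveSpecialLinearGroup (Fin 2) F)) (K : Subgroup (Matrix.ProjectiveSpecialLinearGroup (Fin 2) F)), K ≤ Subgroup.normalizer ((P : Subgroup (Matrix.ProjectiveSpecialLinearGroup (Fin 2) F)) : Set (Matrix.ProjectiveSpecialLinearGroup (Fin 2) F)) ∧ Nonempty (H ≃* K) := by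
    intro x hO hall
    obtain ⟨P, hP⟩ := fix_to_normalizer p hK hO hall
    exact ⟨P, H, hP, ⟨MulEquiv.refl _⟩⟩
  rcases klein_K p hS with ⟨x, hO, hx⟩ | ⟨hc, hq⟩ | ⟨C, hC, hq, h2, ⟨d⟩⟩ | h | h | h | ⟨x, hO, h4⟩
  · right
    left
    exact hb x hO (fun h hh => hx ⟨ψ ι h, h, hh, rfl⟩)
  · left
    haveI : IsCyclic H := isCyclic_of_surjective e.symm.toMonoidHom e.symm.surjective
    refine ⟨Nat.card H, ?_, Or.inl ⟨inferInstance, rfl⟩⟩
    refine cyc_dvd hF p H.subtype H.subtype_injective ?_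
    intro s hs
    have h1 : e s ^ p = 1 := by rw [← map_pow, hs, map_one]
    have h3 := hq _ h1
    exact e.injective (h3.trans (map_one e).symm)
  · left
    haveI := hC
    refine ⟨Nat.card C, ?_, Or.inr ⟨e.trans d⟩⟩
    refine cyc_dvd hF p (H.subtype.comp (e.symm.toMonoidHom.comp C.subtype)) ?_ ?_
    · exact H.subtype_injective.comp (e.symm.injective.comp C.subtype_injective)
    · rintro ⟨s, hsC⟩ hs
      have h1 : s ^ p = 1 := congrArg Subtype.val hs
      exact Subtype.ext (hq s hsC h1)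
  · obtain ⟨d⟩ := h
    exact Or.inr (Or.inr (Or.inl ⟨e.trans d⟩))
  · obtain ⟨d⟩ := h
    exact Or.inr (Or.inr (Or.inr (Or.inl ⟨e.trans d⟩)))
  · obtain ⟨d⟩ := h
    exact Or.inr (Or.inr (Or.inr (Or.inr (Or.inl ⟨e.trans d⟩))))
  · by_cases hall : ∀ h ∈ H, actP (ψ ι h) x = x
    · right
      left
      exact hb x hO hall
    · push Not at hall
      obtain ⟨K', i1, i2, m, hm, hres⟩ := big_case p hK hO h4 hall
      exact Or.inr (Or.inr (Or.inr (Or.inr (Or.inr ⟨K', i1, i2, m, by rw [hm, hF], hres⟩))))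

end Cfsg.Agent.S0799
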