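import Cfsg.Statements.S0853
import Cfsg.Agent.Lib.H04.TIF2

set_option autoImplicit false
open Cfsg

namespace Cfsg.Agent.S0853

open Cfsg Cfsg.Agent.H21 Cfsg.Agent.H04.TIF

set_option linter.style.haveILetI false
set_option linter.unusedVariables false
set_option linter.unusedSectionVars false
set_option linter.unusedSimpArgs false


/-- Let K be a subgroup of the finite group G that meets each conjugate by an element outside its normalizer N trivially, is properly contained in N, and contains the centralizer of each of its non-identity elements (a T.I. subgroup with Frobenius normalizer). Let S be the set of irreducible characters of N taking at some element of K a value different from their degree, suppose S has at least two members, and let star be a linear isometry on the integer span of S into the generalized characters of G that agrees with induction on the members vanishing at the identity (so S is coherent, with star as the extending isometry). Then there is a single integer m such that star χ k - χ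 k = m * χ 1 / e for every χ in S and every non-identity element k of K, where e is the index of K in N. -/
theorem result {G : Type*} [Group G] [Fintype G] (K : Subgroup G) (hTI : ∀ g : G, g ∉ Subgroup.normalizer (K : Set G) → ∀ k ∈ K, g * k * g⁻¹ ∈ K → k = 1) (hlt : K < Subgroup.normalizer (K : Set G)) (hC : ∀ k ∈ K, k ≠ 1 → Subgroup.centralizer ({k} : Set G) ≤ K) [Fintype ↥(Subgroup.normalizer (K : Set G))] (S : Set (↥(Subgroup.normalizer (K : Set G)) → ℂ)) (hS : S = {χ : ↥(Subgroup.normalizer (K : Set G)) → ℂ | Cfsg.IsIrrCharacter ↥(Subgroup.normalizer (K : Set G)) χ ∧ ∃ k : ↥(Subgroup.normalizer (K : Set G)), (k : G) ∈ K ∧ χ k ≠ χ 1}) (htwo : ∃ χ ∈ S, ∃ ξ ∈ S, χ ≠ ξ) (star : (↥(Subgroup.normalizer (K : Set G)) → ℂ) → (G → ℂ)) (hstar : Cfsg.IsLinearIsometryOn (Cfsg.zspan S) star) (hext : ∀ α ∈ Cfsg.zspanOn S ({1}ᶜ : Set ↥(Subgroup.normalizer (K : Set G))), star α = Cfsg.indFun (Subgroup.normalizer (K : Set G)) α) : ∃ m : ℤ, ∀ χ ∈ S, ∀ k : ↥(Subgroup.normalizer (K : Set G)), (k : G) ∈ K → k ≠ 1 → star χ k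 - χ k = (m : ℂ) * χ 1 / ((K.subgroupOf (Subgroup.normalizer (K : Set G))).index : ℂ) := by
  classical
  haveI : Fintype (IrrCharacter ↥(Subgroup.normalizer (K : Set G))) := Fintype.ofFinite _
  set K' := K.subgroupOf (Subgroup.normalizer (K : Set G)) with hK'
  have hf := hfrobK K hC
  have hmem := mem_S_iff K S hS
  -- elements of `S` as irreducible characters
  have hSirr : ∀ χ ∈ S, Cfsg.IsIrrCharacter _ χ := by
    intro χ hχ
    rw [hS] at hχ
    exact hχ.1
  obtain ⟨χ₀, hχ₀, _⟩ := htwo
  -- a non-identity element of `K`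
  obtain ⟨k₀, hk₀K, hk₀1⟩ : ∃ k₀ : ↥(Subgroup.normalizer (K : Set G)), (k₀ : G) ∈ K ∧ k₀ ≠ 1 := by
    rw [hS] at hχ₀
    obtain ⟨_, k, hk, hne⟩ := hχ₀
    exact ⟨k, hk, fun h => hne (by rw [h])⟩
  -- the defect is constant and integral
  have hconst : ∀ φ ∈ SF K', ∃ n : ℤ, ∀ k ∈ K', k ≠ 1 → star (φ : _ → ℂ) (k : G) - (φ : _ → ℂ) k = n := by
    intro φ hφ
    have hφS := (hmem φ).mpr hφ
    have hgen := hstar.2.2.2 _ (H06.mem_zspan hφS)
    have hcl : IsClassFunction G (star (φ : _ → ℂ)) := H06.gen_isClass hgen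
    set f : ↥(Subgroup.normalizer (K : Set G)) → ℂ := fun x => star (φ : _ → ℂ) (x : G) - (φ : _ → ℂ) x with hfdef
    apply const_on_K K' hf f
    · intro g h
      simp only [hfdef]
      rw [isCharacter_conj (isCharacter_of_irr φ.2)]
      have := hcl (g : G) (h : G)
      simp only [Subgroup.coe_mul, InvMemClass.coe_inv]
      rw [this]
    · intro ψ
      apply H06.gen_inner_int
      · exact H06.gen_sub (gen_restrict _ hgen) (H06.gen_of_char (isCharacter_of_irr φ.2))
      · exact H06.gen_of_char (isCharacter_of_irr ψ.2)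
    · intro φ₁ h₁ φ₂ h₂
      apply prop_of_ortho K hC f
      · intro ψ
        apply H06.gen_inner_int
        · exact H06.gen_sub (gen_restrict _ hgen) (H06.gen_of_char (isCharacter_of_irr φ.2))
        · exact H06.gen_of_char (isCharacter_of_irr ψ.2)
      · have h3 := inner_beta K hC S hS star hstar hext _ hcl h₁ h₂
        have h4 := hstar.2.2.1 _ (beta_mem K hC S hS h₁ h₂).1 _ (H06.mem_zspan hφS)
        rw [h4] at h3
        have h5 : f = (fun x : ↥(Subgroup.normalizer (K : Set G)) => star (φ : _ → ℂ) (x : G)) - (φ : _ → ℂ) := rfl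
        rw [h5, H06.classInner_sub_right', ← h3, sub_self]
  choose! n hn using hconst
  obtain ⟨m, hm⟩ := exists_int_multiple K' hf n (by
    intro φ₁ h₁ φ₂ h₂
    have h3 := star_sub_value K hTI hC S hS star hstar hext h₁ h₂ k₀ hk₀K hk₀1
    have hk₀' : k₀ ∈ K' := Subgroup.mem_subgroupOf.mpr hk₀K
    rw [hn φ₁ h₁ k₀ hk₀' hk₀1, hn φ₂ h₂ k₀ hk₀' hk₀1] at h3
    exact_mod_cast h3)
  refine ⟨m, ?_⟩
  intro χ hχ k hk hk1
  set φ : IrrCharacter ↥(Subgroup.normalizer (K : Set G)) := ⟨χ, hSirr χ hχ⟩ with hφ
  have hφS : φ ∈ SF K' := (hmem φ).mp hχ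
  have h1 := hn φ hφS k (Subgroup.mem_subgroupOf.mpr hk) hk1
  have h2 : χ 1 = (K'.index : ℂ) * dd K' φ := by
    have := one_eq_charDegree (isCharacter_of_irr φ.2)
    rw [deg_eq K' hf hφS] at this
    push_cast at this
    exact this
  have hidx : (K'.index : ℂ) ≠ 0 := Nat.cast_ne_zero.mpr (index_pos K').ne'
  show star χ k - χ k = _
  have h3 : star χ k - χ k = (n φ : ℂ) := h1
  rw [h3, hm φ hφS, h2]
  push_cast
  field_simp

end Cfsg.Agent.S0853
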