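import Cfsg.Statements.S0852
import Cfsg.Agent.Lib.H04.TIF2
import Cfsg.Agent.S0853

set_option autoImplicit false
open Cfsg

namespace Cfsg.Agent.S0852

open Cfsg Cfsg.Agent.H21 Cfsg.Agent.H04.TIF

set_option linter.style.haveILetI false
set_option linter.unusedVariables false
set_option linter.unusedSectionVars false
set_option linter.unusedSimpArgs false


/-- Let K be a subgroup of the finite group G that meets each conjugate by an element outside its normalizer N trivially, is properly contained in N, and contains the centralizer of each of its non-identity elements (a T.I. subgroup with Frobenius normalizer). Let S be the set of irreducible characters of N taking at some element of K a value different from their degree, suppose S has at least two members, and let star be a linear isometry on the integer span of S into the generalized characters of G that agrees with induction on the members vanishing at the identity (so S is coherent, with star as the extending isometry). Then an irreducible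 character ψ of G is of the form star χ or -star χ for some χ in S if and only if ψ is not constant on the non-identity elements of K. -/
theorem result {G : Type*} [Group G] [Fintype G] (K : Subgroup G) (hTI : ∀ g : G, g ∉ Subgroup.normalizer (K : Set G) → ∀ k ∈ K, g * k * g⁻¹ ∈ K → k = 1) (hlt : K < Subgroup.normalizer (K : Set G)) (hC : ∀ k ∈ K, k ≠ 1 → Subgroup.centralizer ({k} : Set G) ≤ K) [Fintype ↥(Subgroup.normalizer (K : Set G))] (S : Set (↥(Subgroup.normalizer (K : Set G)) → ℂ)) (hS : S = {χ : ↥(Subgroup.normalizer (K : Set G)) → ℂ | Cfsg.IsIrrCharacter ↥(Subgroup.normalizer (K : Set G)) χ ∧ ∃ k : ↥(Subgroup.normalizer (K : Set G)), (k : G) ∈ K ∧ χ k ≠ χ 1}) (htwo : ∃ χ ∈ S, ∃ ξ ∈ S, χ ≠ ξ) (star : (↥(Subgroup.normalizer (K : Set G)) → ℂ) → (G → ℂ)) (hstar : Cfsg.IsLinearIsometryOn (Cfsg.zspan S) star) (hext : ∀ α ∈ Cfsg.zspanOn S ({1}ᶜ : Set ↥(Subgroup.normalizer (K : Set G))), star α = Cfsg.indFun (Subgroup.normalizer (K : Set G)) α) (ψ : G → ℂ) (hψ : Cfsg.IsIrrCharacter G ψ) : (∃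 χ ∈ S, ψ = star χ ∨ ψ = -star χ) ↔ ∃ a ∈ K, ∃ b ∈ K, a ≠ 1 ∧ b ≠ 1 ∧ ψ a ≠ ψ b := by
  classical
  haveI : Fintype (IrrCharacter ↥(Subgroup.normalizer (K : Set G))) := Fintype.ofFinite _
  haveI : Fintype (IrrCharacter G) := Fintype.ofFinite _
  set K' := K.subgroupOf (Subgroup.normalizer (K : Set G)) with hK'
  have hf := hfrobK K hC
  have hmem := mem_S_iff K S hS
  have hSirr : ∀ χ ∈ S, Cfsg.IsIrrCharacter _ χ := by
    intro χ hχ
    rw [hS] at hχ
    exact hχ.1
  have hclψ : IsClassFunction G ψ := isClassFunction_of_isCharacter (isCharacter_of_irr hψ)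
  have hKN : K ≤ Subgroup.normalizer (K : Set G) := Subgroup.le_normalizer
  -- the constancy criterion for restrictions
  have hcrit : ∀ φ : G → ℂ, IsGeneralizedCharacter G φ → ∀ g : ↥(Subgroup.normalizer (K : Set G)) → ℂ,
      (∀ ξ : IrrCharacter ↥(Subgroup.normalizer (K : Set G)), ∃ n : ℤ, classInner g (ξ : _ → ℂ) = n) →
      (g = fun x : ↥(Subgroup.normalizer (K : Set G)) => φ x) →
      (∀ φ₁ ∈ SF K', ∀ φ₂ ∈ SF K', classInner (star (beta K φ₁ φ₂)) φ = 0) →
      ∃ n : ℤ, ∀ k ∈ K', k ≠ 1 → g k = n := by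
    intro φ hφ g hint hg hort
    have hclφ : IsClassFunction G φ := H06.gen_isClass hφ
    apply const_on_K K' hf g
    · rw [hg]
      intro x y
      have := hclφ (x : G) (y : G)
      simp only [Subgroup.coe_mul, InvMemClass.coe_inv]
      rw [this]
    · exact hint
    · intro φ₁ h₁ φ₂ h₂
      apply prop_of_ortho K hC g hint
      have h3 := inner_beta K hC S hS star hstar hext φ hclφ h₁ h₂
      rw [hort φ₁ h₁ φ₂ h₂] at h3
      rw [hg]
      exact h3.symm
  constructor
  · rintro ⟨χ, hχ, hψχ⟩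
    by_contra hcon
    push Not at hcon
    obtain ⟨χ₁, hχ₁, χ₂, hχ₂, hne12⟩ := htwo
    -- `star χ` is constant on `K \ {1}`
    set φ : IrrCharacter ↥(Subgroup.normalizer (K : Set G)) := ⟨χ, hSirr χ hχ⟩ with hφ
    have hφS : φ ∈ SF K' := (hmem φ).mp hχ
    obtain ⟨ξ, hξS, hξne⟩ : ∃ ξ : IrrCharacter ↥(Subgroup.normalizer (K : Set G)), ξ ∈ SF K' ∧ φ ≠ ξ := by
      by_cases h : χ = χ₁
      · refine ⟨⟨χ₂, hSirr χ₂ hχ₂⟩, (hmem _).mp hχ₂, ?_⟩
        intro h2
        apply hne12
        rw [← h]
        exact congrArg Subtype.val h2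
      · refine ⟨⟨χ₁, hSirr χ₁ hχ₁⟩, (hmem _).mp hχ₁, ?_⟩
        intro h2
        exact h (congrArg Subtype.val h2)
    -- a non-identity element of `K`
    obtain ⟨k₀, hk₀K, hk₀1⟩ : ∃ k₀ : ↥(Subgroup.normalizer (K : Set G)), k₀ ∈ K' ∧ k₀ ≠ 1 := by
      obtain ⟨k, hk, hne⟩ := (mem_SF K').mp hφS
      exact ⟨k, hk, fun h => hne (by rw [h])⟩
    have hstarconst : ∀ k ∈ K', k ≠ 1 → star χ (k : G) = star χ (k₀ : G) := by
      intro k hk hk1
      have h1 := hcon (k : G) (Subgroup.mem_subgroupOf.mp hk) (k₀ : G) (Subgroup.mem_subgroupOf.mp hk₀K)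
        (fun h => hk1 (Subtype.ext h)) (fun h => hk₀1 (Subtype.ext h))
      rcases hψχ with h | h
      · rw [h] at h1; exact h1
      · rw [h] at h1
        simpa using h1
    -- the defect of `χ`
    obtain ⟨m, hm⟩ := Cfsg.Agent.S0853.result K hTI hlt hC S hS ⟨χ₁, hχ₁, χ₂, hχ₂, hne12⟩ star hstar hext
    apply not_const K' hf hφS hξS hξne (star χ (k₀ : G) - (m : ℂ) * χ 1 / (K'.index : ℂ))
    intro k hk hk1
    have h1 := hm χ hχ k (Subgroup.mem_subgroupOf.mp hk) hk1
    have h2 := hstarconst k hk hk1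
    rw [h2] at h1
    show χ k = _
    linear_combination -h1
  · intro ⟨a, haK, b, hbK, ha1, hb1, hab⟩
    by_contra hcon
    push Not at hcon
    have hsigned : ∀ φ ∈ SF K', classInner (star (φ : _ → ℂ)) ψ = 0 := by
      intro φ hφ
      by_contra hne
      have hφS := (hmem φ).mpr hφ
      have hs : H06.SignedIrr (star (φ : _ → ℂ)) :=
        H06.iso_signedIrr hstar (H06.mem_zspan hφS) (H06.classInner_irr_self φ.2)
      obtain ⟨e, he, hψe, _⟩ := H06.SignedIrr.inner_cases hs (Or.inl hψ) hne
      rcases he with rfl | rfl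
      · exact (hcon _ hφS).1 (by simpa using hψe)
      · exact (hcon _ hφS).2 (by
          rw [hψe]
          funext x
          simp)
    have hgen : IsGeneralizedCharacter G ψ := H06.gen_of_char (isCharacter_of_irr hψ)
    obtain ⟨n, hn⟩ := hcrit ψ hgen _ (by
      intro ξ
      apply H06.gen_inner_int (gen_restrict _ hgen) (H06.gen_of_char (isCharacter_of_irr ξ.2))) rfl (by
      intro φ₁ h₁ φ₂ h₂
      rw [star_beta K hC S hS star hstar h₁ h₂, classInner_add_left, H06.classInner_zsmul_left,
        H06.classInner_zsmul_left, hsigned φ₁ h₁, hsigned φ₂ h₂]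
      simp)
    have h1 := hn ⟨a, hKN haK⟩ (Subgroup.mem_subgroupOf.mpr haK) (fun h => ha1 (congrArg Subtype.val h))
    have h2 := hn ⟨b, hKN hbK⟩ (Subgroup.mem_subgroupOf.mpr hbK) (fun h => hb1 (congrArg Subtype.val h))
    exact hab (h1.trans h2.symm)

end Cfsg.Agent.S0852
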