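import Mathlib
import Cfsg.Statements.S0982
import Cfsg.Agent.Lib.H17.Mob6

set_option autoImplicit false
set_option maxRecDepth 100000
set_option linter.style.haveILetI false
open Cfsg

namespace Cfsg.Agent.S0982

open Cfsg.Agent.H17.Mob

def L23 : List (Bool × ℕ) := [(true, 0), (true, 0), (true, 1), (true, 8), (true, 2), (false, 0), (true, 9), (false, 9), (true, 3), (true, 5), (false, 1), (false, 4), (true, 10), (true, 7), (false, 10), (false, 8), (true, 4), (false, 3), (true, 6), (false, 7), (false, 2), (false, 6), (false, 5)]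
def R23 : List ℕ := [1, 2, 3, 4, 6, 8, 9, 12, 13, 16, 18]
theorem log23 : logB 23 2 5 L23 = true := by decide +kernel
theorem chk23 : chkB 23 11 R23 R23 L23 = true := by decide +kernel
theorem roots23 : ∀ l : ZMod 23, l ^ 11 = 1 → l.val ∈ R23 := by decide +kernel

theorem g023 : ((2 : ℕ) : ZMod 23) ≠ 0 := by decide +kernel
theorem g0m23 : ((2 : ℕ) : ZMod 23) ^ 11 = 1 := by decide +kernel
theorem n023 : ((5 : ℕ) : ZMod 23) ≠ 0 := by decide +kernel

theorem main23 {G : Type*} [Group G] [Finite G] [IsSimpleGroup G] (h : Nat.card G = 6072) {F : Type*} [Field F] [Fintype F] (hF : Fintype.card F = 23) : Nonempty (G ≃* Matrix.ProjectiveSpecialLinearGroup (Fin 2) F) := by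
  haveI : Fact (Nat.Prime 23) := ⟨by norm_num⟩
  have hq : Nat.card G = 23 * 264 := by omega
  obtain ⟨h1, h2, h3⟩ := sylow_number (p := 23) (X := G) 264 (by norm_num) hq (by norm_num)
  have hn : Nat.card (Sylow 23 G) = 24 := by
    have hle := Nat.le_of_dvd (by norm_num) h1
    generalize Nat.card (Sylow 23 G) = k at *
    interval_cases k <;> omega
  refine psl_simple_recog hF (by norm_num) 11 (by norm_num) (by norm_num) (by omega) (by rw [h]; norm_num) (by norm_num) (by rw [hn]) 2 5 R23 R23 L23 log23 (by decide +kernel) chk23 g023 g0m23 n023 roots23 (fun _ _ _ _ _ _ c hc _ _ => roots23 c hc)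

theorem result {G : Type*} [Group G] [Finite G] [IsSimpleGroup G] (h : Nat.card G = 6072) {F : Type*} [Field F] [Fintype F] (hF : Fintype.card F = 23) : Nonempty (G ≃* Matrix.ProjectiveSpecialLinearGroup (Fin 2) F) :=
  main23 h hF

end Cfsg.Agent.S0982
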