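import Mathlib
import Cfsg.Statements.S1021
import Cfsg.Agent.Lib.H17.Mob6

set_option autoImplicit false
set_option maxRecDepth 100000
set_option linter.style.haveILetI false
open Cfsg

namespace Cfsg.Agent.S1021

open Cfsg.Agent.H17.Mob

def L19 : List (Bool × ℕ) := [(true, 0), (true, 0), (false, 0), (false, 6), (true, 1), (true, 8), (true, 7), (true, 3), (false, 1), (true, 4), (false, 8), (true, 6), (false, 7), (false, 2), (false, 3), (false, 5), (true, 2), (true, 5), (false, 4)]
def R19 : List ℕ := [1, 4, 5, 6, 7, 9, 11, 16, 17]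
theorem log19 : logB 19 4 2 L19 = true := by decide +kernel
theorem chk19 : chkB 19 9 R19 R19 L19 = true := by decide +kernel
theorem roots19 : ∀ l : ZMod 19, l ^ 9 = 1 → l.val ∈ R19 := by decide +kernel

theorem g019 : ((4 : ℕ) : ZMod 19) ≠ 0 := by decide +kernel
theorem g0m19 : ((4 : ℕ) : ZMod 19) ^ 9 = 1 := by decide +kernel
theorem n019 : ((2 : ℕ) : ZMod 19) ≠ 0 := by decide +kernel

theorem main19 {G : Type*} [Group G] [Finite G] [IsSimpleGroup G] (h : Nat.card G = 3420) {F : Type*} [Field F] [Fintype F] (hF : Fintype.card F = 19) : Nonempty (G ≃* Matrix.ProjectiveSpecialLinearGroup (Fin 2) F) := by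
  haveI : Fact (Nat.Prime 19) := ⟨by norm_num⟩
  have hq : Nat.card G = 19 * 180 := by omega
  obtain ⟨h1, h2, h3⟩ := sylow_number (p := 19) (X := G) 180 (by norm_num) hq (by norm_num)
  have hn : Nat.card (Sylow 19 G) = 20 := by
    have hle := Nat.le_of_dvd (by norm_num) h1
    generalize Nat.card (Sylow 19 G) = k at *
    interval_cases k <;> omega
  refine psl_simple_recog hF (by norm_num) 9 (by norm_num) (by norm_num) (by omega) (by rw [h]; norm_num) (by norm_num) (by rw [hn]) 4 2 R19 R19 L19 log19 (by decide +kernel) chk19 g019 g0m19 n019 roots19 (fun _ _ _ _ _ _ c hc _ _ => roots19 c hc)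

theorem result {G : Type*} [Group G] [Finite G] [IsSimpleGroup G] (h : Nat.card G = 3420) {F : Type*} [Field F] [Fintype F] (hF : Fintype.card F = 19) : Nonempty (G ≃* Matrix.ProjectiveSpecialLinearGroup (Fin 2) F) :=
  main19 h hF

end Cfsg.Agent.S1021
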