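import Cfsg.Statements.S1129
import Cfsg.Agent.Lib.H26.FPF
import Cfsg.Agent.S1122
import Cfsg.Agent.Lib.H05.RankOne3
-- import your own Cfsg.Agent.* helpers here

set_option autoImplicit false
open Cfsg

namespace Cfsg.Agent.S1129

/-- In the rank-one set-up (`G` finite and doubly transitive on `Ω`, `t` an involution moving `a`, `Q` normal in `G_a` with `G_a = Q D`, `Q ⊓ D = 1` for the two-point stabiliser `D = G_a ⊓ G_{t • a}`, `|Q|` even, `|D|` odd), with the action faithful and `G` containing two distinct commuting involutions: `Q` is nilpotent. -/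
theorem result {G Ω : Type*} [Group G] [Finite G] [MulAction G Ω] [FaithfulSMul G Ω] {a : Ω} {t : G} {Q : Subgroup G}
    (hS : Cfsg.IsRankOneSetup G Ω a t Q)
    (h2 : ∃ x y : G, x ≠ 1 ∧ y ≠ 1 ∧ x ≠ y ∧ x * x = 1 ∧ y * y = 1 ∧ x * y = y * x) :
    Group.IsNilpotent Q := by
  classical
  open Cfsg.Agent.H05 in
  have hF := R1.oneFix hS
  obtain ⟨x, y, hx1, hy1, hxy, hxx, hyy, hcomm⟩ := h2
  obtain ⟨p, hp, -⟩ := hF x hxx hx1
  have hyp : y • p = p := hF.comm_fix hxx hx1 hp hcomm.symm
  have htr : MulAction.IsPretransitive G Ω := MulAction.isPretransitive_of_is_two_pretransitive (h2 := hS.two_transitive)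
  obtain ⟨g, hg⟩ := MulAction.exists_smul_eq G p a
  have hI1 : g * x * g⁻¹ ∈ Cfsg.involutionsIn (MulAction.stabilizer G a : Set G) := by
    refine ⟨?_, ?_, ?_⟩
    · rw [SetLike.mem_coe, MulAction.mem_stabilizer_iff, ← hg]; simp [mul_smul, hp]
    · intro h; apply hx1; simpa [mul_assoc] using congrArg (fun w => g⁻¹ * w * g) h
    · calc g * x * g⁻¹ * (g * x * g⁻¹) = g * (x * x) * g⁻¹ := by group
        _ = 1 := by rw [hxx]; group
  have hI2 : g * y * g⁻¹ ∈ Cfsg.involutionsIn (MulAction.stabilizer G a : Set G) := by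
    refine ⟨?_, ?_, ?_⟩
    · rw [SetLike.mem_coe, MulAction.mem_stabilizer_iff, ← hg]; simp [mul_smul, hyp]
    · intro h; apply hy1; simpa [mul_assoc] using congrArg (fun w => g⁻¹ * w * g) h
    · calc g * y * g⁻¹ * (g * y * g⁻¹) = g * (y * y) * g⁻¹ := by group
        _ = 1 := by rw [hyy]; group
  have hne : g * x * g⁻¹ ≠ g * y * g⁻¹ := by
    intro h; apply hxy; simpa [mul_assoc] using congrArg (fun w => g⁻¹ * w * g) h
  have hcard := (Cfsg.Agent.S1122.result hS).1
  have hII : 1 < Nat.card (Cfsg.involutionsIn (MulAction.stabilizer G a : Set G)) := by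
    have : Nontrivial (Cfsg.involutionsIn (MulAction.stabilizer G a : Set G)) :=
      ⟨⟨⟨_, hI1⟩, ⟨_, hI2⟩, fun h => hne (congrArg Subtype.val h)⟩⟩
    exact Finite.one_lt_card
  rw [← hcard] at hII
  have hnt : Nontrivial (Cfsg.invertedBy (MulAction.stabilizer G a ⊓ MulAction.stabilizer G (t • a)) t) :=
    (Finite.one_lt_card_iff_nontrivial).mp hII
  obtain ⟨⟨k, hk⟩, hk1⟩ := exists_ne (⟨1, by
    refine ⟨one_mem _, by simp⟩⟩ : Cfsg.invertedBy (MulAction.stabilizer G a ⊓ MulAction.stabilizer G (t • a)) t)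
  have hk1' : k ≠ 1 := fun h => hk1 (Subtype.ext h)
  -- a power of prime order
  have hord : orderOf k ≠ 1 := by
    intro h; exact hk1' (orderOf_eq_one_iff.mp h)
  obtain ⟨r, hr, hrd⟩ := Nat.exists_prime_and_dvd hord
  have hpos : 0 < orderOf k := orderOf_pos k
  set k' := k ^ (orderOf k / r) with hk'
  have hk'o : orderOf k' = r := by
    rw [hk', orderOf_pow_orderOf_div hpos.ne' hrd]
  have hk'1 : k' ≠ 1 := by
    intro h
    rw [h, orderOf_one] at hk'o
    exact hr.one_lt.ne hk'o
  have hk'K := Cfsg.Agent.H05.mem_invertedBy_pow hk (orderOf k / r)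
  have hfix := Cfsg.Agent.H05.R1.fpf_K hS hk'K hk'1
  have hk'a : k' ∈ MulAction.stabilizer G a := (Subgroup.mem_inf.mp hk'K.1).1
  let f : Q →* Q :=
    { toFun := fun u => ⟨k' * u * k'⁻¹, hS.conj_mem k' hk'a u u.2⟩
      map_one' := by apply Subtype.ext; simp
      map_mul' := by
        intro u v
        apply Subtype.ext
        simp only [Subgroup.coe_mul]
        group }
  have hfp : MonoidHom.FixedPointFree f := by
    intro u hu
    have h1 : k' * u * k'⁻¹ = u := congrArg Subtype.val hu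
    have h2 : (u : G) ∈ Q ⊓ Subgroup.centralizer {k'} := by
      refine Subgroup.mem_inf.mpr ⟨u.2, ?_⟩
      rw [Subgroup.mem_centralizer_singleton_iff]
      calc (u : G) * k' = k' * u * k'⁻¹ * k' := by rw [h1]
        _ = k' * u := by group
    rw [hfix] at h2
    exact Subtype.ext h2
  have hit0 : ∀ n : ℕ, ∀ u : Q, ((f^[n] u : Q) : G) = k' ^ n * u * (k' ^ n)⁻¹ := by
    intro n
    induction n with
    | zero => intro u; simp
    | succ n ih =>
      intro u
      rw [Function.iterate_succ_apply', ]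
      change k' * ((f^[n] u : Q) : G) * k'⁻¹ = _
      rw [ih, pow_succ']
      group
  have hit : f^[r] = id := by
    funext u
    apply Subtype.ext
    rw [hit0, ← hk'o, pow_orderOf_eq_one]
    simp
  exact Cfsg.Agent.H26.FPF.nilpotent_of_fpf hr _ Q f rfl hfp hit


end Cfsg.Agent.S1129
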