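import Cfsg.Statements.S1312
import Cfsg.Agent.Lib.H08.Bender2
-- import your own Cfsg.Agent.* helpers here

set_option autoImplicit false
open Cfsg

namespace Cfsg.Agent.S1312


open Cfsg Cfsg.Agent.H05 Cfsg.Agent.H08.Bender Subgroup in
theorem aux_comp_le {G : Type*} [Group G] [Finite G] {M N : Subgroup G}
    (h1 : SS M ≤ N) (h2 : SS N ≤ M) (K : Subgroup M) (hK : IsComponent K) : K.map M.subtype ≤ EE N := by
  set K' := K.map M.subtype with hK'
  have hK'M : K' ≤ M := map_le' K
  have hEM : K' ≤ EE M := map_mono (comp_le_layer hK)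
  have hK'N : K' ≤ N := hEM.trans ((EE_le_SS M).trans h1)
  have hsn : (K'.subgroupOf M).IsSubnormal := by
    have : K'.subgroupOf M = K := by
      rw [hK']
      ext x
      simp [mem_subgroupOf]
    rw [this]; exact hK.1
  have hq : IsQuasisimple K' := qs_map_subtype hK.2
  have hYn : N ≤ normalizer ((SS N : Subgroup G) : Set G) := by
    haveI := Cfsg.Agent.H07.generalizedFitting_normal N
    exact norm_map _
  set Y' := SS N with hY'
  set X := K' ⊔ Y' with hX
  have hXM : X ≤ M := sup_le hK'M h2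
  have hK'X : K' ≤ X := le_sup_left
  have hY'X : Y' ≤ X := le_sup_right
  have hsnX : (K'.subgroupOf X).IsSubnormal := sn_restrict hXM hsn
  have hYnX : (Y'.subgroupOf X).Normal := by
    rw [normal_subgroupOf_iff_le_normalizer hY'X]
    exact sup_le (hK'N.trans hYn) le_normalizer
  have hYsn : (Y'.subgroupOf X).IsSubnormal := hYnX.isSubnormal
  have hqX : IsQuasisimple (K'.subgroupOf X) := qs_subgroupOf hK'X hq
  have hle : K' ≤ Y' := by
    rcases comp_le_or_comm hsnX hqX hYsn with h | h
    · intro x hx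
      have := h (show (⟨x, hK'X hx⟩ : X) ∈ K'.subgroupOf X by simpa [mem_subgroupOf] using hx)
      simpa [mem_subgroupOf] using this
    · intro x hx
      have hc : ∀ y ∈ Y', x * y = y * x := by
        intro y hy
        have := comm_bot_iff.mp h (⟨x, hK'X hx⟩ : X) (by simpa [mem_subgroupOf] using hx) (⟨y, hY'X hy⟩ : X)
          (by simpa [mem_subgroupOf] using hy)
        exact congrArg Subtype.val this
      have hxN : x ∈ N := hK'N hx
      have h3 : (⟨x, hxN⟩ : N) ∈ generalizedFittingSubgroup N := by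
        apply centralizer_fstar_le
        rw [mem_centralizer_iff]
        intro y hy
        apply Subtype.ext
        exact (hc (y : G) (Subgroup.mem_map_of_mem _ hy)).symm
      exact ⟨⟨x, hxN⟩, h3, rfl⟩
  have hsnY : (K'.subgroupOf Y').IsSubnormal := sn_restrict h2 hsn
  have hYN : Y' ≤ N := map_le' _
  have hYNsn : (Y'.subgroupOf N).IsSubnormal := by
    have : Y'.subgroupOf N = generalizedFittingSubgroup N := by
      rw [hY']
      ext x
      simp [mem_subgroupOf]
    rw [this]
    haveI := Cfsg.Agent.H07.generalizedFitting_normal N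
    exact Subgroup.Normal.isSubnormal inferInstance
  have hsnN : (K'.subgroupOf N).IsSubnormal := sn_extend hle hYN hsnY hYNsn
  have hcomp : IsComponent (K'.subgroupOf N) := ⟨hsnN, qs_subgroupOf hK'N hq⟩
  have h5 := comp_le_layer hcomp
  intro x hx
  exact ⟨⟨x, hK'N hx⟩, h5 (by simpa [mem_subgroupOf] using hx), rfl⟩


/-- Let G be a non-abelian finite simple group and M ≠ N maximal subgroups of G with F*(M) ≤ N and F*(N) ≤ M. Then there is a prime p such that F*(M) and F*(N) are both p-groups. -/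
theorem result {G : Type*} [Group G] [Finite G] [IsSimpleGroup G] (hna : ¬ IsMulCommutative G) (M N : Subgroup G) (hM : IsCoatom M) (hN : IsCoatom N) (hMN : M ≠ N) (h1 : (Cfsg.generalizedFittingSubgroup ↥M).map M.subtype ≤ N) (h2 : (Cfsg.generalizedFittingSubgroup ↥N).map N.subtype ≤ M) : ∃ p : ℕ, p.Prime ∧ IsPGroup p ↥(Cfsg.generalizedFittingSubgroup ↥M) ∧ IsPGroup p ↥(Cfsg.generalizedFittingSubgroup ↥N) := by
  have hEE : Cfsg.Agent.H08.Bender.EE M = Cfsg.Agent.H08.Bender.EE N := by
    apply le_antisymm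
    · rw [Cfsg.Agent.H08.Bender.EE, Subgroup.map_le_iff_le_comap]
      refine sSup_le fun L hL => ?_
      rw [← Subgroup.map_le_iff_le_comap]
      exact aux_comp_le h1 h2 L hL
    · rw [Cfsg.Agent.H08.Bender.EE, Subgroup.map_le_iff_le_comap]
      refine sSup_le fun L hL => ?_
      rw [← Subgroup.map_le_iff_le_comap]
      exact aux_comp_le h2 h1 L hL
  have hbE : Cfsg.Agent.H08.Bender.EE M = ⊥ := by
    by_contra hb
    have hb' : Cfsg.Agent.H08.Bender.EE N ≠ ⊥ := hEE ▸ hb
    have hn1 : M ≤ Subgroup.normalizer ((Cfsg.Agent.H08.Bender.EE M : Subgroup G) : Set G) := by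
      haveI := Cfsg.Agent.H05.layer_normal (G := M)
      exact Cfsg.Agent.H08.Bender.norm_map _
    have hn2 : N ≤ Subgroup.normalizer ((Cfsg.Agent.H08.Bender.EE N : Subgroup G) : Set G) := by
      haveI := Cfsg.Agent.H05.layer_normal (G := N)
      exact Cfsg.Agent.H08.Bender.norm_map _
    have h4 := Cfsg.Agent.H08.Bender.normalizer_eq hM hb (Cfsg.Agent.H08.Bender.EE_le M) hn1
    have h5 := Cfsg.Agent.H08.Bender.normalizer_eq hN hb' (Cfsg.Agent.H08.Bender.EE_le N) hn2
    apply hMN
    rw [← h4, ← h5, hEE]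
  have hne : ∀ L : Subgroup G, IsCoatom L → L ≠ ⊥ := by
    intro L hL hL0
    apply hna
    obtain ⟨x, hx⟩ := exists_ne (1 : G)
    have hz : Subgroup.zpowers x = ⊤ := by
      have h1 : Subgroup.zpowers x ≠ ⊥ := by
        simpa using hx
      by_contra h2
      have h3 : (⊥ : Subgroup G) < Subgroup.zpowers x := bot_lt_iff_ne_bot.mpr h1
      have := hL.2 (Subgroup.zpowers x) (hL0 ▸ h3)
      exact h2 this
    refine ⟨⟨fun a b => ?_⟩⟩
    obtain ⟨n, hn⟩ := Subgroup.mem_zpowers_iff.mp (hz ▸ Subgroup.mem_top (a : G))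
    obtain ⟨m, hm⟩ := Subgroup.mem_zpowers_iff.mp (hz ▸ Subgroup.mem_top (b : G))
    rw [← hn, ← hm, ← zpow_add, ← zpow_add, add_comm]
  have hlead : ∀ L L' : Subgroup G, IsCoatom L → Cfsg.Agent.H08.Bender.EE L = ⊥ →
      Cfsg.Agent.H08.Bender.SS L ≤ L' → Cfsg.leadsTo L L' := by
    intro L L' hL hE hS
    refine ⟨Cfsg.Agent.H08.Bender.FF L, ?_, le_rfl, inf_le_left.trans hS⟩
    intro hF
    have hFb : Cfsg.fittingSubgroup L = ⊥ :=
      (Subgroup.map_eq_bot_iff_of_injective _ (Subgroup.subtype_injective _)).1 hF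
    have hEb : Cfsg.layer L = ⊥ :=
      (Subgroup.map_eq_bot_iff_of_injective _ (Subgroup.subtype_injective _)).1 hE
    have hG : Cfsg.generalizedFittingSubgroup L = ⊥ := by
      show Cfsg.layer L ⊔ Cfsg.fittingSubgroup L = ⊥
      rw [hFb, hEb, sup_bot_eq]
    have hc := Cfsg.Agent.H05.centralizer_fstar_le (G := L)
    rw [hG] at hc
    apply hne L hL
    rw [eq_bot_iff]
    intro x hx
    have : (⟨x, hx⟩ : L) ∈ (⊥ : Subgroup L) := hc (by
      rw [Subgroup.mem_centralizer_iff]
      intro y hy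
      have : y = 1 := by simpa using hy
      simp [this])
    simpa using this
  have hbF : Cfsg.Agent.H08.Bender.EE N = ⊥ := hEE ▸ hbE
  obtain h | ⟨q, hq, h1', h2'⟩ := Cfsg.Agent.H08.Bender.bender_main hM hN (hlead M N hM hbE h1) (hlead N M hN hbF h2)
  · exact absurd h hMN
  · exact ⟨q, hq, h1', h2'⟩


end Cfsg.Agent.S1312
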