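import Cfsg.Statements.S1338
import Mathlib
import Cfsg.Agent.Lib.H18.NormE4

set_option autoImplicit false
open Cfsg

namespace Cfsg.Agent.S1338


set_option linter.unusedSectionVars false
set_option linter.style.haveILetI false

universe u

theorem card_le_ker_mul_map {A : Type u} [Group A] [Finite A] (f : A →* A) (S : Subgroup A) :
    Nat.card S ≤ Nat.card f.ker * Nat.card (S.map f) := by
  let g : S →* A := f.comp S.subtype
  have h1 := Subgroup.card_mul_index g.ker
  rw [Subgroup.index_ker] at h1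
  have hr : g.range = S.map f := by
    ext x
    constructor
    · rintro ⟨y, rfl⟩
      exact ⟨y.1, y.2, rfl⟩
    · rintro ⟨y, hy, rfl⟩
      exact ⟨⟨y, hy⟩, rfl⟩
  rw [← h1, hr]
  apply Nat.mul_le_mul_right
  have hmem : ∀ x : g.ker, ((x.1 : S) : A) ∈ f.ker := by
    intro x
    have : g x.1 = 1 := x.2
    exact this
  exact Nat.card_le_card_of_injective (fun x : g.ker => (⟨((x.1 : S) : A), hmem x⟩ : f.ker)) (by
    intro a b h
    apply Subtype.ext
    apply Subtype.ext
    exact congrArg (fun z : f.ker => (z : A)) h)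

theorem card_le_ker_cube {A : Type u} [Group A] [Finite A] (f : A →* A)
    (hf : ∀ x, f (f (f x)) = 1) : Nat.card A ≤ Nat.card f.ker ^ 3 := by
  have h1 := card_le_ker_mul_map f ⊤
  have h2 := card_le_ker_mul_map f ((⊤ : Subgroup A).map f)
  have h3 := card_le_ker_mul_map f (((⊤ : Subgroup A).map f).map f)
  have h4 : (((⊤ : Subgroup A).map f).map f).map f = ⊥ := by
    rw [eq_bot_iff]
    rintro _ ⟨_, ⟨_, ⟨x, -, rfl⟩, rfl⟩, rfl⟩
    exact hf x
  rw [h4, Subgroup.card_bot, mul_one] at h3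
  rw [Subgroup.card_top] at h1
  calc Nat.card A ≤ Nat.card f.ker * Nat.card ((⊤ : Subgroup A).map f) := h1
    _ ≤ Nat.card f.ker * (Nat.card f.ker * Nat.card (((⊤ : Subgroup A).map f).map f)) :=
        Nat.mul_le_mul_left _ h2
    _ ≤ Nat.card f.ker * (Nat.card f.ker * Nat.card f.ker) :=
        Nat.mul_le_mul_left _ (Nat.mul_le_mul_left _ h3)
    _ = Nat.card f.ker ^ 3 := by ring

theorem add_identity {A : Type u} [AddCommGroup A] (v t s : A) :
    v + -t + -(t + -s) + -(t + -s + -(s + -v)) = v + -v + -(3 • t) + 3 • s := by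
  abel

theorem comm_identity {A : Type u} [CommGroup A] (v t s : A) :
    v * t⁻¹ * (t * s⁻¹)⁻¹ * (t * s⁻¹ * (s * v⁻¹)⁻¹)⁻¹ = v * v⁻¹ * (t ^ 3)⁻¹ * s ^ 3 :=
  add_identity (Additive.ofMul v) (Additive.ofMul t) (Additive.ofMul s)

/-- The commutator map on an abelian normal subgroup. -/
theorem exists_big_fixed {P : Type u} [Group P] [Finite P] (hP : IsPGroup 3 P) (W : Subgroup P)
    (hWn : W.Normal) (hWc : ∀ a ∈ W, ∀ b ∈ W, a * b = b * a) (hWe : ∀ a ∈ W, a ^ 3 = 1)
    (hW : Nat.card W = 3 ^ 4) (a : P) (ha : a ^ 3 = 1) :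
    ∃ Y : Subgroup P, Y ≤ W ∧ (∀ y ∈ Y, a * y = y * a) ∧ 9 ≤ Nat.card Y ∧
      (∀ y ∈ W, a * y = y * a → y ∈ Y) := by
  classical
  haveI := hWn
  let conjW : W →* W := (MulAut.conjNormal a).toMonoidHom
  have hconj : ∀ v : W, (conjW v : P) = a * v * a⁻¹ := by
    intro v
    simp [conjW, MulAut.conjNormal_apply]
  have hcomm : ∀ x y : W, x * y = y * x := fun x y => Subtype.ext (hWc x x.2 y y.2)
  let f : W →* W := MonoidHom.mk' (fun v => conjW v * v⁻¹) (by
    intro x y
    rw [map_mul]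
    have hxy : (x * y)⁻¹ = x⁻¹ * y⁻¹ := by
      rw [mul_inv_rev, hcomm]
    rw [hxy]
    calc conjW x * conjW y * (x⁻¹ * y⁻¹)
        = conjW x * (conjW y * x⁻¹) * y⁻¹ := by group
      _ = conjW x * (x⁻¹ * conjW y) * y⁻¹ := by rw [hcomm (conjW y) x⁻¹]
      _ = conjW x * x⁻¹ * (conjW y * y⁻¹) := by group)
  have hfdef : ∀ v, f v = conjW v * v⁻¹ := fun v => rfl
  have h3 : ∀ v : W, conjW (conjW (conjW v)) = v := by
    intro v
    apply Subtype.ext
    rw [hconj, hconj, hconj]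
    have : a * (a * (a * (v : P) * a⁻¹) * a⁻¹) * a⁻¹ = a ^ 3 * v * (a ^ 3)⁻¹ := by
      simp only [pow_succ, pow_zero, one_mul]; group
    rw [this, ha]; simp
  have hv3 : ∀ v : W, v ^ 3 = 1 := fun v => Subtype.ext (by simpa using hWe v v.2)
  have hfff : ∀ v, f (f (f v)) = 1 := by
    intro v
    set s := conjW v with hs
    set t := conjW s with ht
    have htt : conjW t = v := h3 v
    have h1 : f v = s * v⁻¹ := hfdef v
    have h2 : f (f v) = t * s⁻¹ * (s * v⁻¹)⁻¹ := by
      rw [h1, hfdef, map_mul, map_inv, ← ht]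
    have h33 : f (f (f v)) = (conjW t * (conjW s)⁻¹ * (conjW s * (conjW v)⁻¹)⁻¹) * (t * s⁻¹ * (s * v⁻¹)⁻¹)⁻¹ := by
      rw [h2, hfdef]
      simp only [map_mul, map_inv]
    rw [h33, htt, ← ht, ← hs]
    -- in the abelian group
    have hcg : ∀ x y : W, Commute x y := fun x y => hcomm x y
    let CW : CommGroup W := { (inferInstance : Group W) with mul_comm := hcomm }
    have ht3 := hv3 t
    have hs3 := hv3 s
    have hvv3 := hv3 v
    have key : v * t⁻¹ * (t * s⁻¹)⁻¹ * (t * s⁻¹ * (s * v⁻¹)⁻¹)⁻¹ = v * v⁻¹ * (t ^ 3)⁻¹ * s ^ 3 :=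
      @comm_identity W CW v t s
    rw [key, ht3, hs3]
    group
  have hcard := card_le_ker_cube f hfff
  have hkerP : IsPGroup 3 f.ker := IsPGroup.to_subgroup (hP.to_subgroup W) f.ker
  obtain ⟨m, hm⟩ := IsPGroup.iff_card.mp hkerP
  let Y : Subgroup P := f.ker.map W.subtype
  have hYc : Nat.card Y = Nat.card f.ker := Subgroup.card_map_of_injective W.subtype_injective
  refine ⟨Y, ?_, ?_, ?_, ?_⟩
  · rintro _ ⟨y, -, rfl⟩
    exact y.2
  · rintro _ ⟨y, hy, rfl⟩
    have h1 : f y = 1 := hy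
    have h2 : conjW y = y := by
      rw [hfdef] at h1
      exact mul_inv_eq_one.mp h1
    have h4 := congrArg Subtype.val h2
    rw [hconj] at h4
    have h5 : a * (y : P) = y * a := mul_inv_eq_iff_eq_mul.mp h4
    exact h5
  · rw [hYc, hm]
    have : 2 ≤ m := by
      by_contra hlt
      have hm1 : m ≤ 1 := by omega
      have h5 : 3 ^ m ≤ 3 ^ 1 := Nat.pow_le_pow_right (by norm_num) hm1
      rw [hW, hm] at hcard
      have h6 : (3 ^ m) ^ 3 ≤ 3 ^ 3 := Nat.pow_le_pow_left h5 3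
      norm_num at h6 hcard
      omega
    calc 9 = 3 ^ 2 := by norm_num
      _ ≤ 3 ^ m := Nat.pow_le_pow_right (by norm_num) this
  · intro y hy hay
    refine ⟨⟨y, hy⟩, ?_, rfl⟩
    show f ⟨y, hy⟩ = 1
    rw [hfdef]
    apply mul_inv_eq_one.mpr
    apply Subtype.ext
    rw [hconj]
    show a * y * a⁻¹ = y
    rw [hay]; group


/-- A finite 3-group of 3-rank at least 4 is 2-connected for the prime 3: its commuting graph on elementary abelian subgroups of order ≥ 9 is connected. -/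
theorem result {P : Type*} [Group P] [Finite P] (hP : IsPGroup 3 P) (hrk : ¬ Cfsg.PRankLE 3 3 P) : Cfsg.IsKConnected 3 2 P := by
  classical
have hp3 : Fact (Nat.Prime 3) := ⟨Nat.prime_three⟩
unfold Cfsg.PRankLE at hrk
push Not at hrk
obtain ⟨A, hAc, hAe, hA⟩ := hrk
have hAp : IsPGroup 3 A := hP.to_subgroup A
obtain ⟨n, hn⟩ := IsPGroup.iff_card.mp hAp
have hn4 : 4 ≤ n := by
  by_contra hlt
  have h1 : n ≤ 3 := by omega
  have h2 : 3 ^ n ≤ 3 ^ 3 := Nat.pow_le_pow_right (by norm_num) h1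
  omega
obtain ⟨K, hK⟩ := Sylow.exists_subgroup_card_pow_prime 3 (n := 4) (G := A) (by rw [hn]; exact pow_dvd_pow 3 hn4)
have hAcf := Cfsg.Agent.H01.forall_of_isMulCommutative hAc
let E0 : Subgroup P := K.map A.subtype
have hE0le : E0 ≤ A := by
  rintro _ ⟨x, -, rfl⟩
  exact x.2
have hE0c : Nat.card E0 = 3 ^ 4 := by
  rw [Subgroup.card_map_of_injective A.subtype_injective, hK]
obtain ⟨W, hWn, hWc, hWe, hWcard⟩ := Cfsg.Agent.H18.exists_normal_elementary_p4 (by norm_num) hP E0
  (fun a ha b hb => hAcf a (hE0le ha) b (hE0le hb)) (fun a ha => hAe a (hE0le ha)) hE0c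
have hWne : W ≠ ⊥ := by
  rintro rfl
  rw [Subgroup.card_bot] at hWcard
  norm_num at hWcard
obtain ⟨z, hzW, hz1, hzc⟩ := Cfsg.Agent.H01.exists_central_mem_normal hP hWn hWne
have hz3 : z ^ 3 = 1 := hWe z hzW
-- the relation
set R : Subgroup P → Subgroup P → Prop := fun A B => Cfsg.IsElementaryAbelian 3 A ∧ 3 ^ 2 ≤ Nat.card ↥A ∧
    Cfsg.IsElementaryAbelian 3 B ∧ 3 ^ 2 ≤ Nat.card ↥B ∧ ∀ a ∈ A, ∀ b ∈ B, a * b = b * a with hR
have hsym : ∀ A B, R A B → R B A := by
  rintro A B ⟨h1, h2, h3, h4, h5⟩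
  exact ⟨h3, h4, h1, h2, fun b hb a ha => (h5 a ha b hb).symm⟩
have hsymm : ∀ X Y, Relation.ReflTransGen R X Y → Relation.ReflTransGen R Y X := by
  intro X Y h
  induction h with
  | refl => exact .refl
  | tail _ hbc ih => exact (Relation.ReflTransGen.single (hsym _ _ hbc)).trans ih
have hW9 : 3 ^ 2 ≤ Nat.card W := by rw [hWcard]; norm_num
have hWea : Cfsg.IsElementaryAbelian 3 W := ⟨Cfsg.Agent.H01.isMulCommutative_of_forall hWc, hWe⟩
have key : ∀ X : Subgroup P, Cfsg.IsElementaryAbelian 3 X → 3 ^ 2 ≤ Nat.card X → Relation.ReflTransGen R X W := by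
  intro X hXea hX9
  have hXc := Cfsg.Agent.H01.forall_of_isMulCommutative hXea.1
  have hXe := hXea.2
  have hzord : orderOf z = 3 := orderOf_eq_prime hz3 hz1
  have hzcard : Nat.card (Subgroup.zpowers z) = 3 := by rw [Nat.card_zpowers, hzord]
  obtain ⟨a, haX, haz⟩ : ∃ a ∈ X, a ∉ Subgroup.zpowers z := by
    by_contra hcon
    push Not at hcon
    have : Nat.card X ≤ Nat.card (Subgroup.zpowers z) := Subgroup.card_le_of_le (fun x hx => hcon x hx)
    rw [hzcard] at this
    norm_num at hX9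
    omega
  have ha3 : a ^ 3 = 1 := hXe a haX
  have hazc : a * z = z * a := (hzc a)
  -- `B = ⟨a, z⟩`
  let B : Subgroup P := Subgroup.closure {a, z}
  have hcb : ∀ x, x * a = a * x → x * z = z * x → ∀ b ∈ B, x * b = b * x := by
    intro x h1 h2 b hb
    have hle : B ≤ Subgroup.centralizer {x} := by
      rw [Subgroup.closure_le]
      rintro t (rfl | rfl)
      · exact Subgroup.mem_centralizer_singleton_iff.mpr h1.symm
      · exact Subgroup.mem_centralizer_singleton_iff.mpr h2.symm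
    have := Subgroup.mem_centralizer_singleton_iff.mp (hle hb)
    exact this.symm
  have haB : a ∈ B := Subgroup.subset_closure (by simp)
  have hzB : z ∈ B := Subgroup.subset_closure (by simp)
  have hBc : ∀ x ∈ B, ∀ y ∈ B, x * y = y * x := by
    intro x hx y hy
    have h1 : x * a = a * x := (hcb a rfl hazc x hx).symm
    have h2 : x * z = z * x := (hcb z hazc.symm rfl x hx).symm
    exact hcb x h1 h2 y hy
  have hBe : ∀ x ∈ B, x ^ 3 = 1 := by
    intro x hx
    induction hx using Subgroup.closure_induction with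
    | mem t ht =>
      rcases ht with rfl | rfl
      · exact ha3
      · exact hz3
    | one => simp
    | mul x y hx hy h1 h2 =>
      have hc : Commute x y := hBc x hx y hy
      rw [hc.mul_pow, h1, h2, one_mul]
    | inv x hx h1 =>
      rw [inv_pow, h1, inv_one]
  have hB9 : 3 ^ 2 ≤ Nat.card B := by
    have hBp : IsPGroup 3 B := hP.to_subgroup B
    obtain ⟨m, hm⟩ := IsPGroup.iff_card.mp hBp
    rw [hm]
    apply Nat.pow_le_pow_right (by norm_num)
    by_contra hlt
    have hm1 : m ≤ 1 := by omega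
    have hle : Subgroup.zpowers z ≤ B := by
      rw [Subgroup.zpowers_le]; exact hzB
    have heq : Subgroup.zpowers z = B := Subgroup.eq_of_le_of_card_ge hle (by
      rw [hzcard, hm]
      calc 3 ^ m ≤ 3 ^ 1 := Nat.pow_le_pow_right (by norm_num) hm1
        _ = 3 := by norm_num)
    exact haz (heq ▸ haB)
  have hBea : Cfsg.IsElementaryAbelian 3 B := ⟨Cfsg.Agent.H01.isMulCommutative_of_forall hBc, hBe⟩
  obtain ⟨Y, hYW, hYa, hY9, hYmem⟩ := exists_big_fixed hP W hWn hWc hWe hWcard a ha3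
  have hYea : Cfsg.IsElementaryAbelian 3 Y := ⟨Cfsg.Agent.H01.isMulCommutative_of_forall
    (fun x hx y hy => hWc x (hYW hx) y (hYW hy)), fun x hx => hWe x (hYW hx)⟩
  have hXB : R X B := by
    refine ⟨hXea, hX9, hBea, hB9, ?_⟩
    intro x hx b hb
    exact hcb x (hXc x hx a haX) (hzc x) b hb
  have hBY : R B Y := by
    refine ⟨hBea, hB9, hYea, by norm_num; exact hY9, ?_⟩
    intro b hb y hy
    exact (hcb y (hYa y hy).symm (hzc y) b hb).symm
  have hYW' : R Y W := by
    refine ⟨hYea, by norm_num; exact hY9, hWea, hW9, ?_⟩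
    intro x hx y hy
    exact hWc x (hYW hx) y hy
  exact (Relation.ReflTransGen.single hXB).trans ((Relation.ReflTransGen.single hBY).trans (Relation.ReflTransGen.single hYW'))
intro E E' hE hE9 hE' hE'9
exact (key E hE hE9).trans (hsymm _ _ (key E' hE' hE'9))

end Cfsg.Agent.S1338
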