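import Cfsg.Statements.S1349
import Cfsg.Agent.Lib.H06.ThDih2
import Cfsg.Agent.S0206

set_option autoImplicit false
open Cfsg

namespace Cfsg.Agent.S1349

open Cfsg.Agent.H06.ThDih

/-- Let G be finite, L ≤ G solvable of odd order, and A an elementary abelian 2-subgroup of order 2^d (d ≥ 1) normalizing L with C_A(L) = 1. Then there are subgroups A_1, …, A_d of A of order 2 generating A and subgroups L_1, …, L_d of L such that each A_i ⊔ L_i is dihedral of order 2 n_i with n_i odd and at least 3, and A_i ⊔ L_i commutes elementwise with A_j ⊔ L_j for i ≠ j. -/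
theorem result {G : Type*} [Group G] [Finite G] (L A : Subgroup G) (hLs : Group.IsSolvable ↥L) (hLodd : Odd (Nat.card ↥L)) (hA : Cfsg.IsElementaryAbelian 2 A) (d : ℕ) (hd : 1 ≤ d) (hAd : Nat.card ↥A = 2 ^ d) (hAL : A ≤ Subgroup.normalizer (L : Set G)) (hfaith : A ⊓ Subgroup.centralizer (L : Set G) = ⊥) : ∃ (Ai : Fin d → Subgroup G) (Li : Fin d → Subgroup G) (n : Fin d → ℕ), (∀ i, Ai i ≤ A ∧ Nat.card ↥(Ai i) = 2 ∧ Li i ≤ L ∧ Odd (n i) ∧ 3 ≤ n i ∧ Nonempty (↥(Ai i ⊔ Li i) ≃* DihedralGroup (n i))) ∧ (⨆ i, Ai i) = A ∧ ∀ i j, i ≠ j → ∀ x ∈ Ai i ⊔ Li i, ∀ y ∈ Ai j ⊔ Li j, x * y = y * x := by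
  classical
  have hA2 : ∀ a ∈ A, a * a = 1 := fun a ha => by
    have := hA.2 a ha
    rwa [pow_two] at this
  have hAcomm : ∀ a ∈ A, ∀ b ∈ A, a * b = b * a := fun a ha b hb => comm_of_exp_two hA2 ha hb
  have hodd : ∀ x ∈ L, Odd (orderOf x) := fun x hx =>
    Odd.of_dvd_nat hLodd (Subgroup.orderOf_dvd_natCard L hx)
  have hLA : ∀ a ∈ A, ∀ x ∈ L, a * x * a⁻¹ ∈ L := fun a ha x hx =>
    (Subgroup.mem_normalizer_iff.mp (hAL ha) x).mp hx
  have hfaith' : ∀ a ∈ A, (∀ x ∈ L, a * x * a⁻¹ = x) → a = 1 := by
    intro a ha h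
    have h1 : a ∈ A ⊓ Subgroup.centralizer (L : Set G) := by
      refine Subgroup.mem_inf.mpr ⟨ha, ?_⟩
      rw [Subgroup.mem_centralizer_iff]
      intro x hx
      have := h x hx
      rw [mul_inv_eq_iff_eq_mul] at this
      exact this.symm
    rw [hfaith, Subgroup.mem_bot] at h1
    exact h1
  obtain ⟨X, hX1, hX2, hX3⟩ := exists_commuting_weights hA2 _ L rfl hLs hodd hLA hfaith'
  -- a minimal faithful subset
  let 𝒴 : Set (Finset G) := {Y | Y ⊆ X ∧ ∀ a ∈ A, (∀ x ∈ Y, a * x * a⁻¹ = x) → a = 1}
  obtain ⟨Y, ⟨hYX, hYf⟩, hYmin⟩ := WellFounded.has_min (measure (Finset.card (α := G))).wf 𝒴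
    ⟨X, Finset.Subset.refl _, hX3⟩
  have hYw : ∀ x ∈ Y, ∀ a ∈ A, a * x * a⁻¹ = x ∨ a * x * a⁻¹ = x⁻¹ := fun x hx => (hX1 x (hYX hx)).2
  have hYL : ∀ x ∈ Y, x ∈ L := fun x hx => (hX1 x (hYX hx)).1
  have hdual : ∀ x : {x // x ∈ Y}, ∃ a ∈ A, a * (x : G) * a⁻¹ = (x : G)⁻¹ ∧ (x : G) ≠ 1 ∧
      ∀ y ∈ Y, y ≠ x → a * y * a⁻¹ = y := by
    rintro ⟨x, hx⟩
    have h1 : Y.erase x ∉ 𝒴 := fun h => hYmin _ h (Finset.card_erase_lt_of_mem hx)
    have h2 : ¬ ∀ a ∈ A, (∀ y ∈ Y.erase x, a * y * a⁻¹ = y) → a = 1 := fun h =>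
      h1 ⟨(Finset.erase_subset _ _).trans hYX, h⟩
    push Not at h2
    obtain ⟨a, ha, h3, ha1⟩ := h2
    have h4 : a * x * a⁻¹ ≠ x := by
      intro h5
      apply ha1
      apply hYf a ha
      intro y hy
      by_cases hyx : y = x
      · rw [hyx, h5]
      · exact h3 y (Finset.mem_erase.mpr ⟨hyx, hy⟩)
    have h6 := (hYw x hx a ha).resolve_left h4
    refine ⟨a, ha, h6, ?_, fun y hy hyx => h3 y (Finset.mem_erase.mpr ⟨hyx, hy⟩)⟩
    rintro rfl
    apply h4
    group
  choose a ha1 ha2 ha3 ha4 using hdual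
  let W : Subgroup G := ⨆ y : {x // x ∈ Y}, Subgroup.zpowers (a y)
  -- realizing sign patterns
  have hreal : ∀ s : Finset G, s ⊆ Y → ∃ b ∈ A, b ∈ W ∧ ∀ x ∈ Y,
      (x ∈ s → b * x * b⁻¹ = x⁻¹) ∧ (x ∉ s → b * x * b⁻¹ = x) := by
    intro s
    induction s using Finset.induction_on with
    | empty =>
      intro _
      refine ⟨1, A.one_mem, W.one_mem, fun x _ => ⟨fun h => absurd h (Finset.notMem_empty x), fun _ => by group⟩⟩
    | insert y s hys ih =>
      intro hs
      have hyY : y ∈ Y := hs (Finset.mem_insert_self y s)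
      obtain ⟨b, hbA, hbW, hb⟩ := ih ((Finset.subset_insert y s).trans hs)
      let y' : {x // x ∈ Y} := ⟨y, hyY⟩
      refine ⟨b * a y', A.mul_mem hbA (ha1 y'), W.mul_mem hbW
        (Subgroup.mem_iSup_of_mem y' (Subgroup.mem_zpowers _)), ?_⟩
      intro x hx
      have e : (b * a y') * x * (b * a y')⁻¹ = b * (a y' * x * (a y')⁻¹) * b⁻¹ := by group
      constructor
      · intro hxs
        rw [e]
        rcases Finset.mem_insert.mp hxs with rfl | hxs
        · have h1 := ha2 y'
          have h2 : a y' * x * (a y')⁻¹ = x⁻¹ := h1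
          rw [h2]
          have h3 := (hb x hx).2 hys
          calc b * x⁻¹ * b⁻¹ = (b * x * b⁻¹)⁻¹ := by group
            _ = x⁻¹ := by rw [h3]
        · have hne : x ≠ y := fun h => hys (h ▸ hxs)
          rw [ha4 y' x hx hne]
          exact (hb x hx).1 hxs
      · intro hxs
        rw [e]
        have hne : x ≠ y := fun h => hxs (h ▸ Finset.mem_insert_self y s)
        rw [ha4 y' x hx hne]
        exact (hb x hx).2 fun h => hxs (Finset.mem_insert_of_mem h)
  -- elements of `A` are determined by their sign pattern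
  have hdet : ∀ b ∈ A, ∀ c ∈ A, (∀ x ∈ Y, b * x * b⁻¹ = x⁻¹ ↔ c * x * c⁻¹ = x⁻¹) → b = c := by
    intro b hb c hc h
    have h1 : b * c = 1 := by
      apply hYf _ (A.mul_mem hb hc)
      intro x hx
      have e : (b * c) * x * (b * c)⁻¹ = b * (c * x * c⁻¹) * b⁻¹ := by group
      rw [e]
      rcases hYw x hx c hc with h2 | h2
      · rw [h2]
        rcases hYw x hx b hb with h3 | h3
        · exact h3
        · have := (h x hx).mp h3
          rw [h2] at this
          rw [h3]
          exact this.symm
      · rw [h2]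
        have h3 := (h x hx).mpr h2
        calc b * x⁻¹ * b⁻¹ = (b * x * b⁻¹)⁻¹ := by group
          _ = x := by rw [h3, inv_inv]
    have h2 : c⁻¹ = c := inv_eq_of_mul_eq_one_left (hA2 c hc)
    rw [eq_inv_of_mul_eq_one_left h1, h2]
  -- counting
  have hcard : Y.card = d := by
    have h1 : Nat.card A = Y.powerset.card := by
      let F : A → {s // s ∈ Y.powerset} := fun b =>
        ⟨Y.filter fun x => (b : G) * x * (b : G)⁻¹ = x⁻¹, Finset.mem_powerset.mpr (Finset.filter_subset _ _)⟩
      have hF : Function.Bijective F := by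
        constructor
        · intro b c h
          apply Subtype.ext
          apply hdet _ b.2 _ c.2
          intro x hx
          have h2 := congrArg Subtype.val h
          have h3 := Finset.ext_iff.mp h2 x
          simp only [F, Finset.mem_filter, hx, true_and] at h3
          exact h3
        · rintro ⟨s, hs⟩
          obtain ⟨b, hbA, -, hb⟩ := hreal s (Finset.mem_powerset.mp hs)
          refine ⟨⟨b, hbA⟩, Subtype.ext ?_⟩
          ext x
          simp only [F, Finset.mem_filter]
          constructor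
          · rintro ⟨hx, h2⟩
            by_contra hxs
            have h3 := (hb x hx).2 hxs
            have h4 : x = x⁻¹ := h3.symm.trans h2
            have h5 : x * x = 1 := by
              nth_rewrite 1 [h4]
              group
            exact ha3 ⟨x, hx⟩ (eq_one_of_mul_self (hodd x (hYL x hx)) h5)
          · intro hxs
            have hx := Finset.mem_powerset.mp hs hxs
            exact ⟨hx, (hb x hx).1 hxs⟩
      rw [Nat.card_congr (Equiv.ofBijective F hF), Nat.card_eq_fintype_card, Fintype.card_coe]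
    rw [hAd, Finset.card_powerset] at h1
    exact (Nat.pow_right_injective (le_refl 2) h1).symm
  -- indexing
  let e : {x // x ∈ Y} ≃ Fin d := Finset.equivFinOfCardEq hcard
  let x : Fin d → {x // x ∈ Y} := e.symm
  have hxinj : ∀ i j, i ≠ j → (x i : G) ≠ x j := by
    intro i j hij h
    exact hij (e.symm.injective (Subtype.ext h))
  have haodd : ∀ i, (x i : G) * (x i : G) ≠ 1 := fun i h =>
    ha3 (x i) (eq_one_of_mul_self (hodd _ (hYL _ (x i).2)) h)
  have hane : ∀ i, a (x i) ≠ 1 := by
    intro i h
    have h2 := ha2 (x i)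
    rw [h] at h2
    apply haodd i
    have h3 : ((x i : G)) = (x i : G)⁻¹ := by
      rw [← h2]; group
    nth_rewrite 1 [h3]
    group
  refine ⟨fun i => Subgroup.zpowers (a (x i)), fun i => Subgroup.zpowers (x i : G),
    fun i => orderOf (x i : G), ?_, ?_, ?_⟩
  · intro i
    refine ⟨Subgroup.zpowers_le.mpr (ha1 _), ?_, Subgroup.zpowers_le.mpr (hYL _ (x i).2),
      hodd _ (hYL _ (x i).2), ?_, ?_⟩
    · rw [Nat.card_zpowers]
      refine orderOf_eq_prime ?_ (hane i)
      rw [pow_two]
      exact hA2 _ (ha1 _)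
    · obtain ⟨k, hk⟩ := hodd _ (hYL _ (x i).2)
      have h1 : orderOf (x i : G) ≠ 1 := by
        rw [Ne, orderOf_eq_one_iff]
        exact ha3 _
      show 3 ≤ orderOf (x i : G)
      omega
    · -- the dihedral group
      set u := a (x i) with hu
      set t := (x i : G) with ht
      have huu : u * u = 1 := hA2 _ (ha1 _)
      have huinv : u⁻¹ = u := inv_eq_of_mul_eq_one_left huu
      have hut : u * t * u⁻¹ = t⁻¹ := ha2 (x i)
      have h1 : orderOf u = 2 := orderOf_eq_prime (by rw [pow_two]; exact huu) (hane i)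
      have h2 : (u * t) * (u * t) = 1 := by
        have : (u * t) * (u * t) = (u * t * u⁻¹) * t := by rw [huinv]; group
        rw [this, hut]
        group
      have h3 : u * t ≠ 1 := by
        intro h
        have h4 : t = u⁻¹ := by
          have := eq_inv_of_mul_eq_one_right h
          exact this
        rw [huinv] at h4
        apply haodd i
        show t * t = 1
        rw [h4, huu]
      have h4 : orderOf (u * t) = 2 := orderOf_eq_prime (by rw [pow_two]; exact h2) h3
      have h5 : u ≠ u * t := by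
        intro h
        apply ha3 (x i)
        have : u * t = u * 1 := by rw [mul_one]; exact h.symm
        exact mul_left_cancel this
      obtain ⟨E⟩ := Cfsg.Agent.S0206.result u (u * t) h1 h4 h5
      have h6 : u * (u * t) = t := by rw [← mul_assoc, huu, one_mul]
      rw [h6] at E
      have h7 : Subgroup.zpowers u ⊔ Subgroup.zpowers t = Subgroup.closure ({u, u * t} : Set G) := by
        apply le_antisymm
        · refine sup_le (Subgroup.zpowers_le.mpr (Subgroup.subset_closure (by simp))) ?_
          rw [Subgroup.zpowers_le]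
          have h8 : u * (u * t) ∈ Subgroup.closure ({u, u * t} : Set G) :=
            Subgroup.mul_mem _ (Subgroup.subset_closure (by simp)) (Subgroup.subset_closure (by simp))
          rwa [h6] at h8
        · rw [Subgroup.closure_le]
          rintro z (rfl | rfl)
          · exact Subgroup.mem_sup_left (Subgroup.mem_zpowers _)
          · exact Subgroup.mul_mem _ (Subgroup.mem_sup_left (Subgroup.mem_zpowers _))
              (Subgroup.mem_sup_right (Subgroup.mem_zpowers _))
      exact ⟨(MulEquiv.subgroupCongr h7).trans E⟩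
  · apply le_antisymm
    · exact iSup_le fun i => Subgroup.zpowers_le.mpr (ha1 _)
    · intro b hb
      let s : Finset G := Y.filter fun x => b * x * b⁻¹ = x⁻¹
      obtain ⟨c, hcA, hcW, hc⟩ := hreal s (Finset.filter_subset _ _)
      have hbc : b = c := by
        apply hdet b hb c hcA
        intro z hz
        constructor
        · intro h
          exact (hc z hz).1 (Finset.mem_filter.mpr ⟨hz, h⟩)
        · intro h
          by_contra hne
          have h2 : z ∉ s := fun h3 => hne (Finset.mem_filter.mp h3).2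
          have h3 := (hc z hz).2 h2
          have h4 : z = z⁻¹ := h3.symm.trans h
          apply ha3 ⟨z, hz⟩
          apply eq_one_of_mul_self (hodd z (hYL z hz))
          nth_rewrite 1 [h4]
          group
      rw [hbc]
      have hW : W ≤ ⨆ i, Subgroup.zpowers (a (x i)) := by
        apply iSup_le
        intro y
        have h1 : a y = a (x (e y)) := by
          simp [x]
        rw [h1]
        exact le_iSup (fun i => Subgroup.zpowers (a (x i))) (e y)
      exact hW hcW
  · intro i j hij p hp q hq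
    have hne := hxinj i j hij
    -- the four commutation relations
    have c1 : a (x i) * a (x j) = a (x j) * a (x i) := hAcomm _ (ha1 _) _ (ha1 _)
    have c2 : a (x i) * (x j : G) = (x j : G) * a (x i) := by
      have := ha4 (x i) (x j) (x j).2 (hxinj j i hij.symm)
      rwa [mul_inv_eq_iff_eq_mul] at this
    have c3 : (x i : G) * a (x j) = a (x j) * (x i : G) := by
      have := ha4 (x j) (x i) (x i).2 hne
      rw [mul_inv_eq_iff_eq_mul] at this
      exact this.symm
    have c4 : (x i : G) * (x j : G) = (x j : G) * (x i : G) :=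
      hX2 _ (hYX (x i).2) _ (hYX (x j).2)
    have hle : Subgroup.zpowers (a (x i)) ⊔ Subgroup.zpowers (x i : G) ≤
        Subgroup.centralizer ((Subgroup.zpowers (a (x j)) ⊔ Subgroup.zpowers (x j : G) : Subgroup G) : Set G) := by
      have h1 : ∀ u : G, u * a (x j) = a (x j) * u → u * (x j : G) = (x j : G) * u →
          u ∈ Subgroup.centralizer ((Subgroup.zpowers (a (x j)) ⊔ Subgroup.zpowers (x j : G) : Subgroup G) : Set G) := by
        intro u hu1 hu2
        rw [Subgroup.mem_centralizer_iff]
        intro v hv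
        have h2 : Subgroup.zpowers (a (x j)) ⊔ Subgroup.zpowers (x j : G) ≤
            Subgroup.centralizer ({u} : Set G) := by
          refine sup_le (Subgroup.zpowers_le.mpr ?_) (Subgroup.zpowers_le.mpr ?_)
          · rw [Subgroup.mem_centralizer_singleton_iff]; exact hu1.symm
          · rw [Subgroup.mem_centralizer_singleton_iff]; exact hu2.symm
        have h3 := Subgroup.mem_centralizer_singleton_iff.mp (h2 hv)
        exact h3
      refine sup_le (Subgroup.zpowers_le.mpr (h1 _ c1 c2)) (Subgroup.zpowers_le.mpr (h1 _ c3 c4))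
    have := Subgroup.mem_centralizer_iff.mp (hle hp) q hq
    exact this.symm

end Cfsg.Agent.S1349
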