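import Cfsg.Statements.S1458
import Cfsg.Agent.Lib.H01.ZeNormal
import Cfsg.Agent.Lib.H26.ActionStable
import Cfsg.Agent.Lib.H03.PConstr
import Cfsg.Agent.Lib.H08.PCoreL
import Cfsg.Agent.Lib.H06.PSolvable
import Mathlib

set_option autoImplicit false
set_option linter.style.haveILetI false
set_option linter.unusedVariables false
open Cfsg

namespace Cfsg.Agent.S1458

open Cfsg.Agent.H14 Cfsg.Agent.H01.ZE Matrix MatrixGroups

lemma not_involves_sl2 {H : Type*} [Group H] [Finite H] {p : ℕ} [Fact p.Prime]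
    (hodd : Odd (Nat.card H)) (hp2 : p ≠ 2) : ¬ Involves (SL(2, ZMod p)) H := by
  classical
  intro hi
  obtain ⟨K, θ, hθ⟩ := Cfsg.Agent.H09.exists_of_involves hi
  have hfin : Finite (SL(2, ZMod p)) := Finite.of_surjective θ hθ
  let n₁ : SL(2, ZMod p) := ⟨!![-1, 0; 0, -1], by simp [Matrix.det_fin_two]⟩
  have hn₁ : n₁ ^ 2 = 1 := by
    rw [pow_two]
    apply Subtype.ext
    change (!![-1, 0; 0, -1] : Matrix (Fin 2) (Fin 2) (ZMod p)) * !![-1, 0; 0, -1] = 1
    ext i j
    fin_cases i <;> fin_cases j <;> simp [Matrix.mul_apply, Fin.sum_univ_two]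
  have hn₂ : n₁ ≠ 1 := by
    intro h
    have h1 := congrArg (fun M : SL(2, ZMod p) => (M : Matrix (Fin 2) (Fin 2) (ZMod p)) 0 0) h
    simp only [n₁] at h1
    have h2 : (-1 : ZMod p) = 1 := by simpa using h1
    have h3 : (2 : ZMod p) = 0 := by
      have : (1 : ZMod p) + 1 = 0 := by
        nth_rewrite 1 [← h2]
        ring
      rw [← this]
      norm_num
    have h4 : ((2 : ℕ) : ZMod p) = 0 := by exact_mod_cast h3
    rw [ZMod.natCast_eq_zero_iff] at h4
    exact hp2 ((Nat.prime_dvd_prime_iff_eq (Fact.out) Nat.prime_two).mp h4)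
  have h2 : orderOf n₁ = 2 := orderOf_eq_prime hn₁ hn₂
  have h3 : (2 : ℕ) ∣ Nat.card (SL(2, ZMod p)) := (dvd_of_eq h2.symm).trans (orderOf_dvd_natCard n₁)
  have h4 : Nat.card (SL(2, ZMod p)) ∣ Nat.card K := by
    have h5 : (θ.ker).index = Nat.card (SL(2, ZMod p)) := by
      rw [Subgroup.index_ker, MonoidHom.range_eq_top.mpr hθ, Subgroup.card_top]
    rw [← h5]
    exact Subgroup.index_dvd_card _
  have h6 : (2 : ℕ) ∣ Nat.card H := (h3.trans h4).trans (Subgroup.card_subgroup_dvd_card K)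
  rcases hodd with ⟨m, hm⟩
  omega

/-- Let G be a solvable group of odd order, p a prime and S a Sylow p-subgroup of G. Then the subgroup generated by the centre of the Thompson subgroup of S and O_{p'}(G) is normal in G. -/
theorem result {G : Type*} [Group G] [Finite G] [Group.IsSolvable G] (hodd : Odd (Nat.card G)) (p : ℕ) [Fact p.Prime] (S : Sylow p G) :
    (Cfsg.centerThompsonOf p (S : Subgroup G) ⊔ Cfsg.pPrimeCore p G).Normal := by
  classical
  by_cases hp2 : p = 2
  · subst hp2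
    have hK : pPrimeCore 2 G = ⊤ := by
      apply top_le_iff.mp
      apply le_sSup
      refine ⟨inferInstance, ?_⟩
      rw [Subgroup.card_top]
      exact (Nat.coprime_two_right).mpr hodd
    rw [hK, sup_top_eq]
    infer_instance
  have hKc : (Nat.card (pPrimeCore p G)).Coprime p := Cfsg.Agent.H06.coprime_card_pPrimeCore p
  have hKn : (pPrimeCore p G).Normal := Cfsg.Agent.H03.pPrimeCore_normal'
  set K := pPrimeCore p G with hK
  haveI := hKn
  let π := QuotientGroup.mk' K
  have hπs : Function.Surjective π := QuotientGroup.mk'_surjective K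
  have hπ1 : ∀ x : G, π x = 1 ↔ x ∈ K := fun x => QuotientGroup.eq_one_iff x
  have hH : IsPSolvable p (G ⧸ K) := Cfsg.Agent.H06.isPSolvable_of_isSolvable p _
  have hO : pPrimeCore p (G ⧸ K) = ⊥ := Cfsg.Agent.H08.pPrimeCore_quotient_eq_bot p
  have hc := Cfsg.Agent.H03.centralizer_pCore_le_of_isPSolvable hH hO
  have hoddb : Odd (Nat.card (G ⧸ K)) := by
    have h1 : Nat.card (G ⧸ K) ∣ Nat.card G := Subgroup.card_quotient_dvd_card K
    exact Odd.of_dvd_nat hodd h1
  have hst : IsNormalizerPStable p (G ⧸ K) :=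
    stable_of_not_involves hp2 (Cfsg.Agent.H26.not_involves_qd_of_sl2 (not_involves_sl2 hoddb hp2))
  let Sb : Sylow p (G ⧸ K) := S.mapSurjective hπs
  have hSb : (Sb : Subgroup (G ⧸ K)) = (S : Subgroup G).map π := Sylow.coe_mapSurjective hπs S
  have hnorm := ze_normal hp2 Sb (D := (Sb : Subgroup (G ⧸ K))) ⟨le_rfl, fun _ _ _ h => h⟩ hst hc
  have hinj : ∀ x ∈ (S : Subgroup G), π x = 1 → x = 1 := by
    intro x hx h
    obtain ⟨k, hk⟩ := S.isPGroup' ⟨x, hx⟩
    exact eq_one_of_mem_coprime ((hπ1 x).mp h) hKc (congrArg Subtype.val hk)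
  rw [hSb, ze_map p π _ hinj] at hnorm
  rw [centerThompsonOf_eq_ze]
  have hker : π.ker = K := QuotientGroup.ker_mk' K
  have e : ze p (S : Subgroup G) ⊔ K = ((ze p (S : Subgroup G)).map π).comap π := by
    rw [Subgroup.comap_map_eq, hker]
  rw [e]
  exact hnorm.comap π

end Cfsg.Agent.S1458
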