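import Cfsg.Statements.S1398
import Cfsg.Agent.S1393
import Cfsg.Agent.S1395
import Cfsg.Agent.S1396
import Cfsg.Agent.S1450
import Cfsg.Agent.S1452
import Cfsg.Agent.S1457
import Cfsg.Agent.S1458
import Cfsg.Agent.Lib.H01.OmegaApps
import Cfsg.Agent.Lib.H13.CommNil
import Cfsg.Agent.Lib.H14.ZJMap
import Cfsg.Agent.Lib.H18.Syl
import Cfsg.Agent.Lib.H26.BGStab
import Mathlib

set_option autoImplicit false
set_option linter.style.haveILetI false
set_option linter.unusedVariables false
set_option linter.unusedSectionVars false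
set_option linter.unusedSimpArgs false
open Cfsg
open scoped commutatorElement

namespace Cfsg.Agent.S1398

open Cfsg.Agent.S1392 Cfsg.Agent.S1395 Cfsg.Agent.H26.BG

section abstractK

variable {K : Type*} [Group K] [Finite K] {p : ℕ} [Fact p.Prime]

theorem le_core_of_sylow [Group.IsSolvable K] (S : Sylow p K) (L : Subgroup K)
    (hL : (Nat.card L).Coprime p) (hS : (S : Subgroup K) ≤ Subgroup.normalizer (L : Set K)) :
    L ≤ pPrimeCore p K := by
  classical
  haveI hOn : (pPrimeCore p K).Normal := H03.pPrimeCore_normal'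
  let π := QuotientGroup.mk' (pPrimeCore p K)
  have hπs : Function.Surjective π := QuotientGroup.mk'_surjective _
  haveI hRn : (pCore p (K ⧸ pPrimeCore p K)).Normal := H01.pCore_normal p
  have hRp : IsPGroup p (pCore p (K ⧸ pPrimeCore p K)) := H01.pCore_isPGroup p
  have hRS : pCore p (K ⧸ pPrimeCore p K) ≤ (S : Subgroup K).map π :=
    hRp.le_sylow_of_normal (S.mapSurjective hπs)
  have hLc : (Nat.card (L.map π)).Coprime p :=
    Nat.Coprime.coprime_dvd_left (Subgroup.card_map_dvd _ _) hL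
  have hcent : Subgroup.centralizer (pCore p (K ⧸ pPrimeCore p K) : Set (K ⧸ pPrimeCore p K))
      ≤ pCore p (K ⧸ pPrimeCore p K) :=
    H03.centralizer_pCore_le_of_isPSolvable (H06.isPSolvable_of_isSolvable p _)
      (H08.pPrimeCore_quotient_eq_bot p)
  intro x hx
  have hxL : π x ∈ L.map π := ⟨x, hx, rfl⟩
  have hxC : π x ∈ Subgroup.centralizer (pCore p (K ⧸ pPrimeCore p K) : Set (K ⧸ pPrimeCore p K)) := by
    rw [Subgroup.mem_centralizer_iff]
    intro r hr
    obtain ⟨s, hs, hsr⟩ := hRS hr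
    have h1 : π s ∈ Subgroup.normalizer ((L.map π : Subgroup _) : Set (K ⧸ pPrimeCore p K)) :=
      Subgroup.le_normalizer_map π ⟨s, hS hs, rfl⟩
    rw [← hsr] at hr ⊢
    have h2 : ⁅π x, π s⁆ ∈ L.map π := comm_mem_of_norm hxL h1
    have h3 : ⁅π x, π s⁆ ∈ pCore p (K ⧸ pPrimeCore p K) :=
      comm_mem_of_norm' hr (by rw [Subgroup.normalizer_eq_top_iff.mpr hRn]; trivial)
    have h4 := eq_one_of_mem_both hRp hLc h2 h3
    exact (commutatorElement_eq_one_iff_mul_comm.mp h4).symm
  have h5 := eq_one_of_mem_both hRp hLc hxL (hcent hxC)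
  exact (QuotientGroup.eq_one_iff x).mp h5

theorem pow_core_frattini (S : Sylow p K) :
    Subgroup.normalizer (((S : Subgroup K) ⊓ pPrimePCore p K : Subgroup K) : Set K) ⊔ pPrimeCore p K = ⊤ := by
  classical
  haveI hOn : (pPrimeCore p K).Normal := H03.pPrimeCore_normal'
  let π := QuotientGroup.mk' (pPrimeCore p K)
  have hπs : Function.Surjective π := QuotientGroup.mk'_surjective _
  haveI hRn : (pCore p (K ⧸ pPrimeCore p K)).Normal := H01.pCore_normal p
  have hRp : IsPGroup p (pCore p (K ⧸ pPrimeCore p K)) := H01.pCore_isPGroup p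
  have hRS : pCore p (K ⧸ pPrimeCore p K) ≤ (S : Subgroup K).map π :=
    hRp.le_sylow_of_normal (S.mapSurjective hπs)
  haveI hLn : (pPrimePCore p K).Normal := hRn.comap π
  have h1 := H18.frattini_inf S (pPrimePCore p K)
  have hO : pPrimeCore p K ≤ pPrimePCore p K := by
    intro o ho
    have : π o = 1 := (QuotientGroup.eq_one_iff o).mpr ho
    show o ∈ (pCore p (K ⧸ pPrimeCore p K)).comap π
    rw [Subgroup.mem_comap, this]
    exact Subgroup.one_mem _
  apply top_le_iff.mp
  rw [← h1]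
  apply sup_le le_sup_left
  intro l hl
  obtain ⟨s, hs, hsl⟩ := hRS hl
  have h2 : s⁻¹ * l ∈ pPrimeCore p K := by
    apply (QuotientGroup.eq_one_iff _).mp
    have : π (s⁻¹ * l) = 1 := by
      rw [map_mul, map_inv, hsl, inv_mul_cancel]
    exact this
  have h3 : s ∈ pPrimePCore p K := by
    have e : s = l * (s⁻¹ * l)⁻¹ := by group
    rw [e]
    exact Subgroup.mul_mem _ hl (Subgroup.inv_mem _ (hO h2))
  have e : l = s * (s⁻¹ * l) := by group
  rw [e]
  exact Subgroup.mul_mem _
    (Subgroup.mem_sup_left (Subgroup.le_normalizer (⟨hs, h3⟩ : s ∈ (S : Subgroup K) ⊓ pPrimePCore p K)))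
    (Subgroup.mem_sup_right h2)

theorem ctz_frattini [Group.IsSolvable K] (hodd : Odd (Nat.card K)) (S : Sylow p K) :
    Subgroup.normalizer (centerThompsonOf p (S : Subgroup K) : Set K) ⊔ pPrimeCore p K = ⊤ := by
  classical
  haveI hOn : (pPrimeCore p K).Normal := H03.pPrimeCore_normal'
  haveI hTn := Cfsg.Agent.S1458.result hodd p S
  have h1 := H18.frattini_inf S (centerThompsonOf p (S : Subgroup K) ⊔ pPrimeCore p K)
  have hCS : centerThompsonOf p (S : Subgroup K) ≤ (S : Subgroup K) := by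
    unfold centerThompsonOf
    rw [H14.thompsonSubgroupOf_eq_jj]
    exact inf_le_left.trans (H14.ZJFam.jj_le _)
  have hOc := H06.coprime_card_pPrimeCore (G := K) p
  have h2 : (S : Subgroup K) ⊓ (centerThompsonOf p (S : Subgroup K) ⊔ pPrimeCore p K) =
      centerThompsonOf p (S : Subgroup K) := by
    apply le_antisymm
    · rintro s ⟨hs, hsT⟩
      obtain ⟨c, hc, o, ho, rfl⟩ := Subgroup.mem_sup_of_normal_right.mp hsT
      have ho' : o ∈ (S : Subgroup K) := by
        have e : o = c⁻¹ * (c * o) := by group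
        rw [e]
        exact Subgroup.mul_mem _ (Subgroup.inv_mem _ (hCS hc)) hs
      have ho1 : o = 1 := eq_one_of_mem_both S.isPGroup' hOc ho ho'
      rw [ho1, mul_one]
      exact hc
    · exact le_inf hCS le_sup_left
  rw [h2] at h1
  apply top_le_iff.mp
  rw [← h1]
  exact sup_le le_sup_left (sup_le (le_sup_of_le_left Subgroup.le_normalizer) le_sup_right)

/-- A `p`-rank bound passes along injective homomorphisms. -/
theorem prank_of_inj {X Y : Type*} [Group X] [Group Y] {k : ℕ} (f : X →* Y)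
    (hf : Function.Injective f) (h : PRankLE p k Y) : PRankLE p k X := by
  intro A hA hAe
  have e : Nat.card (A.map f) = Nat.card A := Subgroup.card_map_of_injective hf
  rw [← e]
  apply h
  · refine ⟨⟨fun x y => ?_⟩⟩
    obtain ⟨x, x', hx', rfl⟩ := x
    obtain ⟨y, y', hy', rfl⟩ := y
    apply Subtype.ext
    have := congrArg Subtype.val (hA.is_comm.comm (⟨x', hx'⟩ : A) ⟨y', hy'⟩)
    simp only [Subgroup.coe_mul] at this ⊢
    change f x' * f y' = f y' * f x'
    rw [← map_mul, ← map_mul, this]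
  · rintro _ ⟨a, ha, rfl⟩
    rw [← map_pow, hAe a ha, map_one]

theorem prank_of_sylow {k : ℕ} (S : Sylow p K) (h : PRankLE p k (S : Subgroup K)) : PRankLE p k K := by
  classical
  intro E hE hEe
  have hEp : IsPGroup p E := by
    intro x
    exact ⟨1, by rw [pow_one]; exact Subtype.ext (hEe x.1 x.2)⟩
  obtain ⟨S', hS'⟩ := hEp.exists_le_sylow
  obtain ⟨g, hg⟩ := MulAction.exists_smul_eq K S' S
  let E₁ : Subgroup K := E.map (MulAut.conj g).toMonoidHom
  have hE₁ : E₁ ≤ (S : Subgroup K) := by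
    rw [← hg, Sylow.coe_subgroup_smul]
    rintro _ ⟨x, hx, rfl⟩
    exact ⟨x, hS' hx, rfl⟩
  have hcard : Nat.card E₁ = Nat.card E :=
    Subgroup.card_map_of_injective (MulAut.conj g).injective
  have hcard2 : Nat.card (E₁.subgroupOf (S : Subgroup K)) = Nat.card E₁ :=
    Nat.card_congr (Subgroup.subgroupOfEquivOfLe hE₁).toEquiv
  rw [← hcard, ← hcard2]
  apply h
  · refine ⟨⟨fun x y => ?_⟩⟩
    obtain ⟨x, hx⟩ := x
    obtain ⟨y, hy⟩ := y
    apply Subtype.ext
    apply Subtype.ext
    obtain ⟨x', hx', ex⟩ := Subgroup.mem_subgroupOf.mp hx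
    obtain ⟨y', hy', ey⟩ := Subgroup.mem_subgroupOf.mp hy
    have := congrArg Subtype.val (hE.is_comm.comm (⟨x', hx'⟩ : E) ⟨y', hy'⟩)
    simp only [Subgroup.coe_mul] at this ⊢
    rw [← ex, ← ey, ← map_mul, ← map_mul, this]
  · rintro ⟨a, ha⟩ haE
    obtain ⟨x', hx', ex⟩ := Subgroup.mem_subgroupOf.mp haE
    apply Subtype.ext
    simp only [Subgroup.coe_pow]
    change a ^ p = 1
    have ex' : (MulAut.conj g).toMonoidHom x' = a := ex
    rw [← ex', ← map_pow, hEe x' hx', map_one]

/-- A Sylow subgroup inside the `p'p`-core when the index is prime to `p`. -/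
theorem sylow_le_of_index (S : Sylow p K) {L : Subgroup K} [L.Normal] (h : L.index.Coprime p) :
    (S : Subgroup K) ≤ L := by
  intro s hs
  obtain ⟨n, hn⟩ := S.isPGroup' ⟨s, hs⟩
  have hn' : s ^ p ^ n = 1 := congrArg Subtype.val hn
  have h1 : (QuotientGroup.mk s : K ⧸ L) ^ p ^ n = 1 := by
    rw [← QuotientGroup.mk_pow, hn']
    rfl
  have h2 : (QuotientGroup.mk s : K ⧸ L) ^ L.index = 1 := by
    have : Nat.card (K ⧸ L) = L.index := rfl
    rw [← this]
    exact pow_card_eq_one'
  have h3 := eq_one_of_pow_coprime h2 h1 (Nat.Coprime.pow_right n h)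
  exact (QuotientGroup.eq_one_iff s).mp h3

end abstractK

variable {G : Type*} [Group G] [Finite G]

/-- `O_{p'}(K)` viewed in `G`. -/
def cor (p : ℕ) (K : Subgroup G) : Subgroup G := (pPrimeCore p ↥K).map K.subtype

theorem cor_le (p : ℕ) (K : Subgroup G) : cor p K ≤ K := by
  rintro _ ⟨x, -, rfl⟩
  exact x.2

theorem cor_coprime (p : ℕ) [Fact p.Prime] (K : Subgroup G) : (Nat.card (cor p K)).Coprime p := by
  have e : Nat.card (cor p K) = Nat.card (pPrimeCore p ↥K) :=
    Subgroup.card_map_of_injective K.subtype_injective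
  rw [e]
  exact H06.coprime_card_pPrimeCore p

theorem le_norm_cor (p : ℕ) [Fact p.Prime] (K : Subgroup G) : K ≤ Subgroup.normalizer (cor p K : Set G) := by
  intro g hg
  haveI hOn : (pPrimeCore p ↥K).Normal := H03.pPrimeCore_normal'
  have h1 : (⟨g, hg⟩ : K) ∈ Subgroup.normalizer ((pPrimeCore p ↥K : Subgroup K) : Set K) := by
    rw [Subgroup.normalizer_eq_top_iff.mpr hOn]; trivial
  exact Subgroup.le_normalizer_map K.subtype ⟨_, h1, rfl⟩

theorem le_cor {p : ℕ} [Fact p.Prime] {K : Subgroup G} [Group.IsSolvable K] (S : Sylow p K)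
    {Y : Subgroup G} (hYK : Y ≤ K) (hYc : (Nat.card Y).Coprime p)
    (hn : (S : Subgroup K).map K.subtype ≤ Subgroup.normalizer (Y : Set G)) : Y ≤ cor p K := by
  have h1 : Nat.card (Y.subgroupOf K) = Nat.card Y :=
    Nat.card_congr (Subgroup.subgroupOfEquivOfLe hYK).toEquiv
  have h2 := le_core_of_sylow S (Y.subgroupOf K) (by rwa [h1]) (by
    intro s hs
    rw [Subgroup.mem_normalizer_iff]
    intro z
    have := Subgroup.mem_normalizer_iff.mp (hn ⟨s, hs, rfl⟩) z
    simp only [Subgroup.mem_subgroupOf, Subgroup.coe_mul, InvMemClass.coe_inv]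
    exact this)
  intro y hy
  exact ⟨⟨y, hYK hy⟩, h2 (Subgroup.mem_subgroupOf.mpr hy), rfl⟩

theorem norm_le_norm {p : ℕ} {R X : Subgroup G} (hXc : (Nat.card X).Coprime p)
    (hRX : R ≤ Subgroup.normalizer (X : Set G))
    (hst : ∀ Y : Subgroup G, (Nat.card Y).Coprime p → R ≤ Subgroup.normalizer (Y : Set G) → Y ≤ X) :
    Subgroup.normalizer (R : Set G) ≤ Subgroup.normalizer (X : Set G) := by
  intro g hg
  have hcard : Nat.card (X.map (MulAut.conj g).toMonoidHom) = Nat.card X :=
    Subgroup.card_map_of_injective (MulAut.conj g).injective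
  have h1 : R ≤ Subgroup.normalizer ((X.map (MulAut.conj g).toMonoidHom : Subgroup G) : Set G) := by
    intro r hr
    have hr' : g⁻¹ * r * g ∈ R := by
      have := (Subgroup.mem_normalizer_iff.mp (Subgroup.inv_mem _ hg) r).mp hr
      simpa using this
    have hr2 := hRX hr'
    rw [Subgroup.mem_normalizer_iff] at hr2 ⊢
    intro z
    rw [Subgroup.mem_map_equiv, Subgroup.mem_map_equiv]
    simp only [MulAut.conj_symm_apply]
    have := hr2 (g⁻¹ * z * g)
    have e : g⁻¹ * (r * z * r⁻¹) * g = g⁻¹ * r * g * (g⁻¹ * z * g) * (g⁻¹ * r * g)⁻¹ := by group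
    rw [e]
    exact this
  have h2 := hst _ (by rwa [hcard]) h1
  have h3 : X.map (MulAut.conj g).toMonoidHom = X :=
    Subgroup.eq_of_le_of_card_ge h2 (by rw [hcard])
  exact mem_normalizer_of_map_conj h3

theorem eq_of_norm (hG : IsMinSimpleOddOrder G) {M X : Subgroup G} (hM : IsCoatom M) (hX1 : X ≠ ⊥)
    (hXM : X ≤ M) (hMX : M ≤ Subgroup.normalizer (X : Set G)) :
    Subgroup.normalizer (X : Set G) = M := by
  have hX2 : X ≠ ⊤ := fun h => hM.1 (top_le_iff.mp (h ▸ hXM))
  exact (hM.le_iff.mp hMX).resolve_left (normalizer_ne_top hG hX1 hX2)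

theorem le_of_sup_eq_top {K M : Subgroup G} (N O : Subgroup K) (h : N ⊔ O = ⊤)
    (hN : N.map K.subtype ≤ M) (hO : O.map K.subtype ≤ M) : K ≤ M := by
  intro x hx
  have h1 : (⟨x, hx⟩ : K) ∈ N ⊔ O := by rw [h]; trivial
  have h2 : x ∈ (N ⊔ O).map K.subtype := ⟨_, h1, rfl⟩
  rw [Subgroup.map_sup] at h2
  exact (sup_le hN hO) h2

section ZJ

variable {p : ℕ} [Fact p.Prime]

open H14 H14.ZJFam

theorem ctz_eq (T : Subgroup G) :
    centerThompsonOf p T = (elFam G p).jj T ⊓ Subgroup.centralizer ((elFam G p).jj T : Set G) := by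
  unfold centerThompsonOf
  rw [thompsonSubgroupOf_eq_jj]

theorem ctz_map (K : Subgroup G) (D : Subgroup K) :
    (centerThompsonOf p D).map K.subtype = centerThompsonOf p (D.map K.subtype) := by
  rw [ctz_eq, ctz_eq, jj_map p K.subtype D (fun x _ h => by simpa using h)]
  ext x
  constructor
  · rintro ⟨y, ⟨hy1, hy2⟩, rfl⟩
    refine ⟨⟨y, hy1, rfl⟩, ?_⟩
    apply Subgroup.mem_centralizer_iff.mpr
    rintro _ ⟨j, hj, rfl⟩
    have := (Subgroup.mem_centralizer_iff.mp hy2) j hj
    exact congrArg Subtype.val this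
  · rintro ⟨⟨y, hy1, rfl⟩, hy2⟩
    refine ⟨y, ⟨hy1, ?_⟩, rfl⟩
    apply Subgroup.mem_centralizer_iff.mpr
    intro j hj
    have := (Subgroup.mem_centralizer_iff.mp hy2) (K.subtype j) ⟨j, hj, rfl⟩
    exact Subtype.ext this

theorem ctz_le (T : Subgroup G) : centerThompsonOf p T ≤ T := by
  rw [ctz_eq]
  exact inf_le_left.trans (jj_le T)

theorem ctz_ne_bot {T : Subgroup G} (hT : IsPGroup p T) (h1 : T ≠ ⊥) : centerThompsonOf p T ≠ ⊥ := by
  have h2 := zz_ne_bot (G := G) p (Or.inr rfl) hT h1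
  intro h3
  apply h2
  rw [eq_bot_iff, ← h3, ctz_eq]
  intro z hz
  exact ⟨hz.1, hz.2.1⟩

theorem ctz_norm {T : Subgroup G} {g : G} (hg : g ∈ Subgroup.normalizer (T : Set G)) :
    g ∈ Subgroup.normalizer (centerThompsonOf p T : Set G) := by
  have key : ∀ g ∈ Subgroup.normalizer (T : Set G), ∀ z ∈ centerThompsonOf p T,
      g * z * g⁻¹ ∈ centerThompsonOf p T := by
    intro g hg z hz
    rw [ctz_eq] at hz ⊢
    refine ⟨jj_conj hg hz.1, ?_⟩
    apply Subgroup.mem_centralizer_iff.mpr
    intro j hj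
    have hj' : g⁻¹ * j * g ∈ (elFam G p).jj T := by
      have := jj_conj (Subgroup.inv_mem _ hg) hj
      simpa using this
    have h1 := (Subgroup.mem_centralizer_iff.mp hz.2) _ hj'
    calc j * (g * z * g⁻¹) = g * ((g⁻¹ * j * g) * z) * g⁻¹ := by group
      _ = g * (z * (g⁻¹ * j * g)) * g⁻¹ := by rw [h1]
      _ = _ := by group
  rw [Subgroup.mem_normalizer_iff]
  intro z
  refine ⟨key g hg z, fun h => ?_⟩
  have := key g⁻¹ (Subgroup.inv_mem _ hg) _ h
  simpa [mul_assoc] using this

end ZJ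

/-- Fact 2 for `O_{p'}(M) = 1`. -/
theorem zj_norm_eq (hG : IsMinSimpleOddOrder G) {p : ℕ} [Fact p.Prime] {M : Subgroup G} (hM : IsCoatom M)
    [Group.IsSolvable M] (S : Sylow p M) (hX : cor p M = ⊥)
    (hS1 : (S : Subgroup M).map M.subtype ≠ ⊥) :
    Subgroup.normalizer (centerThompsonOf p ((S : Subgroup M).map M.subtype) : Set G) = M := by
  have hodd : Odd (Nat.card M) := Odd.of_dvd_nat hG.1 (Subgroup.card_subgroup_dvd_card M)
  have hO : pPrimeCore p M = ⊥ := (Subgroup.map_eq_bot_iff_of_injective _ M.subtype_injective).mp hX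
  have hn := Cfsg.Agent.S1458.result hodd p S
  rw [hO, sup_bot_eq] at hn
  have hPp : IsPGroup p ((S : Subgroup M).map M.subtype) := S.isPGroup'.map _
  apply eq_of_norm hG hM (ctz_ne_bot hPp hS1)
  · apply (ctz_le _).trans
    rintro _ ⟨x, -, rfl⟩
    exact x.2
  · rw [← ctz_map]
    intro g hg
    have h1 : (⟨g, hg⟩ : M) ∈ Subgroup.normalizer ((centerThompsonOf p (S : Subgroup M) : Subgroup M) : Set M) := by
      rw [Subgroup.normalizer_eq_top_iff.mpr hn]; trivial
    exact Subgroup.le_normalizer_map M.subtype ⟨_, h1, rfl⟩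

/-- Normalizers of Sylow subgroups of `M`. -/
theorem fact2 (hG : IsMinSimpleOddOrder G) {p : ℕ} [Fact p.Prime] {M : Subgroup G} (hM : IsCoatom M)
    [Group.IsSolvable M] (S : Sylow p M) (hS1 : (S : Subgroup M).map M.subtype ≠ ⊥)
    (hst : ∀ Y : Subgroup G, (Nat.card Y).Coprime p →
      (S : Subgroup M).map M.subtype ≤ Subgroup.normalizer (Y : Set G) → Y ≤ M) :
    Subgroup.normalizer (((S : Subgroup M).map M.subtype : Subgroup G) : Set G) ≤ M := by
  have hSM : (S : Subgroup M).map M.subtype ≤ M := by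
    rintro _ ⟨x, -, rfl⟩
    exact x.2
  by_cases hX : cor p M = ⊥
  · have h1 := zj_norm_eq hG hM S hX hS1
    exact (fun g hg => ctz_norm hg : _ ≤ _).trans h1.le
  · have h1 := eq_of_norm hG hM hX (cor_le p M) (le_norm_cor p M)
    refine le_trans ?_ h1.le
    apply norm_le_norm (cor_coprime p M) (hSM.trans (le_norm_cor p M))
    intro Y hYc hYn
    exact le_cor S (hst Y hYc hYn) hYc hYn

/-- All `A`-invariant `p'`-subgroups lie in `X`. -/
theorem st_of_scn (hG : IsMinSimpleOddOrder G) {p : ℕ} [Fact p.Prime] {P X A : Subgroup G}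
    (T : Sylow p G) (hT : (T : Subgroup G) = P) (hscn : IsSCN P A) (hAr : ¬ PRankLE p 2 A)
    (hAab : IsMulCommutative A)
    (hst : ∀ Y : Subgroup G, (Nat.card Y).Coprime p → P ≤ Subgroup.normalizer (Y : Set G) → Y ≤ X) :
    ∀ Y : Subgroup G, (Nat.card Y).Coprime p → A ≤ Subgroup.normalizer (Y : Set G) → Y ≤ X := by
  classical
  have hpp : p.Prime := Fact.out
  obtain ⟨hAP, hPN, hself⟩ := hscn
  have hPp : IsPGroup p P := by rw [← hT]; exact T.isPGroup'
  have hAp : IsPGroup p A := hPp.to_le hAP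
  have hA1 : A ≠ ⊥ := by
    rintro rfl
    apply hAr
    intro E _ hE
    have : Nat.card E ≤ 1 := by
      have : Subsingleton (⊥ : Subgroup G) := by infer_instance
      rw [Nat.card_of_subsingleton (1 : E)]
    exact this.trans (Nat.one_le_pow _ _ hpp.pos)
  have hpA : p ∣ Nat.card A := by
    obtain ⟨n, hn⟩ := IsPGroup.iff_card.mp hAp
    rcases n with _ | n
    · exfalso
      apply hA1
      apply Subgroup.eq_bot_of_card_eq
      simpa using hn
    · rw [hn]; exact dvd_pow_self _ (by omega)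
  have hpG : p ∣ Nat.card G := hpA.trans (Subgroup.card_subgroup_dvd_card A)
  have hr1 : ¬ PRankLE p 1 A := fun h => hAr (fun E h1 h2 =>
    (h E h1 h2).trans (Nat.pow_le_pow_right hpp.pos (by omega)))
  have hTH : TransitivityHypothesis A := Cfsg.Agent.S1396.result hG p hpG A hAp hAab
    (Or.inr ⟨T, by rw [hT]; exact ⟨hAP, hPN, hself⟩, hr1⟩)
  have hZ : ¬ RankLE 2 ↥(A ⊓ Subgroup.centralizer (A : Set G)) := by
    have e : A ⊓ Subgroup.centralizer (A : Set G) = A := by
      apply inf_eq_left.mpr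
      intro a ha
      rw [Subgroup.mem_centralizer_iff]
      intro b hb
      exact congrArg Subtype.val (hAab.is_comm.comm (⟨b, hb⟩ : A) ⟨a, ha⟩)
    rw [e]
    exact fun h => hAr (h p hpp)
  set K := piCoreOf (primesNotDvd (Nat.card A)) (Subgroup.centralizer (A : Set G)) with hK
  have hKc : (Nat.card K).Coprime p :=
    Cfsg.Agent.S1396.primes_to_coprime hpA (piCoreOf_pi _ _)
  have hPK : P ≤ Subgroup.normalizer (K : Set G) := fun r hr => norm_core _ (norm_centralizer (hPN hr))
  have hKX : K ≤ X := hst K hKc hPK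
  have hKA : K ≤ Subgroup.normalizer (A : Set G) :=
    (piCoreOf_le _ _).trans (Subgroup.centralizer_le_normalizer _)
  have hqX : ∀ q : ℕ, q.Prime → q ≠ p → ∀ Y₀ : Subgroup G, IsPGroup q Y₀ →
      A ≤ Subgroup.normalizer (Y₀ : Set G) → Y₀ ≤ X := by
    intro q hq hqp Y₀ hY₀ hY₀n
    haveI : Fact q.Prime := ⟨hq⟩
    have hqA : ¬ q ∣ Nat.card A := by
      intro h
      obtain ⟨n, hn⟩ := IsPGroup.iff_card.mp hAp
      rw [hn] at h
      exact hqp ((Nat.prime_dvd_prime_iff_eq hq hpp).mp (hq.dvd_of_dvd_pow h))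
    have htr := Cfsg.Agent.S1393.result hG A hTH hZ q hq hqA
    obtain ⟨Q, hQ, hY₀Q⟩ := exists_max_ge (inv_of_p hq hY₀ hY₀n)
    have hcop : (Nat.card P).Coprime (Nat.card K) := by
      obtain ⟨n, hn⟩ := IsPGroup.iff_card.mp hPp
      rw [hn]
      exact Nat.Coprime.pow_left n hKc.symm
    haveI : Group.IsNilpotent P := hPp.isNilpotent
    obtain ⟨Q₀, hQ₀, hQ₀n⟩ := exists_fixed_family hPK hcop (Or.inl inferInstance)
      (maxInvSubgroups ⊤ A {q})
      (fun g hg Q' hQ' => conj_max_norm hQ' ((sup_le hKA hPN) hg)) htr ⟨Q, hQ⟩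
    have hQ₀p : IsPGroup q Q₀ := qset_isP hq hQ₀.1.2.1
    have hQ₀c : (Nat.card Q₀).Coprime p := by
      obtain ⟨n, hn⟩ := IsPGroup.iff_card.mp hQ₀p
      rw [hn]
      exact Nat.Coprime.pow_left n ((Nat.coprime_primes hq hpp).mpr hqp)
    have hQ₀X := hst Q₀ hQ₀c hQ₀n
    obtain ⟨k, hk, rfl⟩ := htr Q₀ hQ₀ Q hQ
    refine hY₀Q.trans ?_
    rintro _ ⟨x, hx, rfl⟩
    change k * x * k⁻¹ ∈ X
    have hk' := hKX hk
    exact X.mul_mem (X.mul_mem hk' (hQ₀X hx)) (X.inv_mem hk')
  intro Y hYc hYn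
  by_contra hne
  have hD : (X.subgroupOf Y).index ≠ 1 := by
    intro h
    apply hne
    intro y hy
    have : (⟨y, hy⟩ : Y) ∈ X.subgroupOf Y := by
      rw [Subgroup.index_eq_one.mp h]; trivial
    exact Subgroup.mem_subgroupOf.mp this
  obtain ⟨q, hq, hqd⟩ := Nat.exists_prime_and_dvd hD
  haveI : Fact q.Prime := ⟨hq⟩
  have hqY : q ∣ Nat.card Y := hqd.trans (Subgroup.index_dvd_card _)
  have hqp : q ≠ p := by
    rintro rfl
    exact (Nat.Prime.coprime_iff_not_dvd hq).mp hYc.symm hqY
  have hYp : (Nat.card A).Coprime (Nat.card Y) := by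
    obtain ⟨n, hn⟩ := IsPGroup.iff_card.mp hAp
    rw [hn]
    exact Nat.Coprime.pow_left n hYc.symm
  haveI : Group.IsNilpotent A := hAp.isNilpotent
  obtain ⟨Q, hQ⟩ := Cfsg.Agent.H01.exists_invariant_sylow hYn hYp (Or.inl inferInstance) q
  have hQX : (Q : Subgroup Y).map Y.subtype ≤ X :=
    hqX q hq hqp _ (Q.isPGroup'.map _) hQ
  have hQD : (Q : Subgroup Y) ≤ X.subgroupOf Y := by
    intro y hy
    rw [Subgroup.mem_subgroupOf]
    exact hQX ⟨y, hy, rfl⟩
  exact Q.not_dvd_index (hqd.trans (Subgroup.index_dvd_of_le hQD))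

theorem sylow_of_norm_le {p : ℕ} [Fact p.Prime] {M : Subgroup G} (SM : Sylow p M)
    (hNP : Subgroup.normalizer (((SM : Subgroup M).map M.subtype : Subgroup G) : Set G) ≤ M) :
    ∃ T : Sylow p G, (T : Subgroup G) = (SM : Subgroup M).map M.subtype := by
  set P : Subgroup G := (SM : Subgroup M).map M.subtype with hPdef
  have hPp : IsPGroup p P := SM.isPGroup'.map _
  obtain ⟨T, hT⟩ := hPp.exists_le_sylow
  refine ⟨T, le_antisymm ?_ hT⟩
  by_contra hne
  have h1 := norm_grow T.isPGroup' hT hne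
  obtain ⟨x, hx, hxP⟩ := SetLike.exists_of_lt h1
  have h2 : (T : Subgroup G) ⊓ Subgroup.normalizer (P : Set G) ≤ M := inf_le_right.trans hNP
  have h3 : IsPGroup p (((T : Subgroup G) ⊓ Subgroup.normalizer (P : Set G)).subgroupOf M) :=
    (T.isPGroup'.to_le inf_le_left).comap_of_injective M.subtype M.subtype_injective
  have h4 : (SM : Subgroup M) ≤ ((T : Subgroup G) ⊓ Subgroup.normalizer (P : Set G)).subgroupOf M := by
    intro y hy
    rw [Subgroup.mem_subgroupOf]
    exact h1.le ⟨y, hy, rfl⟩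
  have h5 := SM.is_maximal' h3 h4
  apply hxP
  have h6 : (⟨x, h2 hx⟩ : M) ∈ (SM : Subgroup M) := by
    rw [← h5, Subgroup.mem_subgroupOf]
    exact hx
  exact ⟨_, h6, rfl⟩

/-- The heart: `H ≤ M` when a Sylow subgroup of `M` is a Sylow subgroup of `H`. -/
theorem main_of_sylow (hG : IsMinSimpleOddOrder G) {p : ℕ} [Fact p.Prime] (hp2 : p ≠ 2) {M H B : Subgroup G}
    (hM : IsCoatom M) (hH : IsCoatom H) [Group.IsSolvable M] [Group.IsSolvable H]
    (SM : Sylow p M) (SH : Sylow p H)
    (hT : (SM : Subgroup M).map M.subtype = (SH : Subgroup H).map H.subtype)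
    (hBP : B ≤ (SM : Subgroup M).map M.subtype) (hnc : ¬ IsCyclic B)
    (hii : ∀ Y : Subgroup G, (Nat.card Y).Coprime p → B ≤ Subgroup.normalizer (Y : Set G) → Y ≤ M)
    (hNP : Subgroup.normalizer (((SM : Subgroup M).map M.subtype : Subgroup G) : Set G) ≤ M) :
    H ≤ M := by
  classical
  have hpp : p.Prime := Fact.out
  obtain ⟨T₀, hT₀⟩ := sylow_of_norm_le SM hNP
  set P : Subgroup G := (SM : Subgroup M).map M.subtype with hPdef
  have hPp : IsPGroup p P := SM.isPGroup'.map _
  have hPM : P ≤ M := by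
    rintro _ ⟨x, -, rfl⟩
    exact x.2
  have hPH : P ≤ H := by
    rw [hT]
    rintro _ ⟨x, -, rfl⟩
    exact x.2
  have hP1 : P ≠ ⊥ := by
    intro h
    apply hnc
    have hB : B = ⊥ := by
      rw [eq_bot_iff, ← h]
      exact hBP
    rw [hB]
    infer_instance
  have hst : ∀ Y : Subgroup G, (Nat.card Y).Coprime p → P ≤ Subgroup.normalizer (Y : Set G) → Y ≤ cor p M :=
    fun Y hYc hYn => le_cor SM (hii Y hYc (hBP.trans hYn)) hYc hYn
  have hOH : cor p H ≤ cor p M := hst _ (cor_coprime p H) (hPH.trans (le_norm_cor p H))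
  have hoddH : Odd (Nat.card H) := Odd.of_dvd_nat hG.1 (Subgroup.card_subgroup_dvd_card H)
  have hOHm : (pPrimeCore p H).map H.subtype ≤ M := hOH.trans (cor_le p M)
  by_cases hX : cor p M = ⊥
  · have h1 := zj_norm_eq hG hM SM hX hP1
    refine le_of_sup_eq_top _ _ (ctz_frattini hoddH SH) ?_ hOHm
    refine (Subgroup.le_normalizer_map H.subtype).trans ?_
    rw [ctz_map, ← hT]
    exact h1.le
  · have h1 := eq_of_norm hG hM hX (cor_le p M) (le_norm_cor p M)
    have hPX : P ≤ Subgroup.normalizer (cor p M : Set G) := hPM.trans (le_norm_cor p M)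
    -- the group `R`
    set L := pPrimePCore p H with hL
    haveI hLn : L.Normal := by
      haveI hOn : (pPrimeCore p H).Normal := H03.pPrimeCore_normal'
      haveI hRn : (pCore p (H ⧸ pPrimeCore p H)).Normal := H01.pCore_normal p
      exact hRn.comap (QuotientGroup.mk' (pPrimeCore p H))
    set R : Subgroup G := (((SH : Subgroup H) ⊓ L : Subgroup H)).map H.subtype with hR
    have hRP : R ≤ P := by
      rw [hT]
      exact Subgroup.map_mono inf_le_left
    have hstR : ∀ Y : Subgroup G, (Nat.card Y).Coprime p → R ≤ Subgroup.normalizer (Y : Set G) →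
        Y ≤ cor p M := by
      by_cases hr : PRankLE p 2 P
      · -- rank two: `R = P`
        have hpH : p ∣ Nat.card H := by
          obtain ⟨x, hx⟩ := (Subgroup.ne_bot_iff_exists_ne_one.mp hP1)
          have hn : 1 < Nat.card P := by
            haveI : Nontrivial P := ⟨⟨x, 1, hx⟩⟩
            exact Finite.one_lt_card
          obtain ⟨n, hn'⟩ := IsPGroup.iff_card.mp hPp
          have hn0 : n ≠ 0 := by
            rintro rfl
            rw [pow_zero] at hn'
            omega
          have h2 : p ∣ Nat.card P := by rw [hn']; exact dvd_pow_self _ hn0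
          have h3 : Nat.card P = Nat.card ((SH : Subgroup H).map H.subtype) := by rw [← hT]
          have h4 : Nat.card ((SH : Subgroup H).map H.subtype) = Nat.card (SH : Subgroup H) :=
            Subgroup.card_map_of_injective H.subtype_injective
          rw [h3, h4] at h2
          exact h2.trans (Subgroup.card_subgroup_dvd_card _)
        have hrH : PRankLE p 2 H := by
          apply prank_of_sylow SH
          rw [hT] at hr
          exact prank_of_inj ((SH : Subgroup H).equivMapOfInjective H.subtype H.subtype_injective).toMonoidHom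
            (MulEquiv.injective _) hr
        have h450 := Cfsg.Agent.S1450.result hoddH p hpH hrH
        have hSL : (SH : Subgroup H) ≤ L := sylow_le_of_index SH h450.2.2.2.2.2
        have hRe : R = P := by
          rw [hR, inf_eq_left.mpr hSL, ← hT]
        rw [hRe]
        exact hst
      · -- rank at least three: the transitivity theorem
        have hncP : ¬ IsCyclic P := by
          intro hc
          exact hnc (isCyclic_of_injective (Subgroup.inclusion hBP) (Subgroup.inclusion_injective hBP))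
        obtain ⟨E, hEn, hEe, hE2⟩ := Cfsg.Agent.H01.exists_normal_elementary_sq hPp hp2 hncP
        obtain ⟨A₀, hEA₀, hA₀n, hA₀c, hA₀r⟩ := Cfsg.Agent.S1452.result p hp2 hPp hr E hEe hE2
        set A : Subgroup G := A₀.map P.subtype with hA
        have hAP : A ≤ P := by
          rintro _ ⟨x, -, rfl⟩
          exact x.2
        have hA₀comm : ∀ a ∈ A₀, ∀ b ∈ A₀, a * b = b * a := by
          intro a ha b hb
          have : b ∈ Subgroup.centralizer (A₀ : Set P) := by rw [hA₀c]; exact hb
          exact Subgroup.mem_centralizer_iff.mp this a ha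
        have hAcomm : ∀ a ∈ A, ∀ b ∈ A, a * b = b * a := by
          rintro _ ⟨a, ha, rfl⟩ _ ⟨b, hb, rfl⟩
          exact congrArg Subtype.val (hA₀comm a ha b hb)
        have hAab : IsMulCommutative A :=
          ⟨⟨fun x y => Subtype.ext (hAcomm x.1 x.2 y.1 y.2)⟩⟩
        have hPN : P ≤ Subgroup.normalizer (A : Set G) := by
          intro r hr
          have h2 : (⟨r, hr⟩ : P) ∈ Subgroup.normalizer ((A₀ : Subgroup P) : Set P) := by
            rw [Subgroup.normalizer_eq_top_iff.mpr hA₀n]; trivial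
          exact Subgroup.le_normalizer_map P.subtype ⟨_, h2, rfl⟩
        have hscn : IsSCN P A := by
          refine ⟨hAP, hPN, ?_⟩
          apply le_antisymm
          · rintro x ⟨hxP, hxC⟩
            have h2 : (⟨x, hxP⟩ : P) ∈ Subgroup.centralizer (A₀ : Set P) := by
              apply Subgroup.mem_centralizer_iff.mpr
              intro a ha
              apply Subtype.ext
              exact (Subgroup.mem_centralizer_iff.mp hxC) a.1 ⟨a, ha, rfl⟩
            rw [hA₀c] at h2
            exact ⟨_, h2, rfl⟩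
          · intro x hx
            refine ⟨hAP hx, Subgroup.mem_centralizer_iff.mpr fun a ha => hAcomm a ha x hx⟩
        have hAr : ¬ PRankLE p 2 A := fun h => hA₀r
          (prank_of_inj (A₀.equivMapOfInjective P.subtype P.subtype_injective).toMonoidHom
            (MulEquiv.injective _) h)
        have hstA := st_of_scn hG T₀ hT₀ hscn hAr hAab hst
        have hAH : A ≤ H := hAP.trans hPH
        have h457 : A.subgroupOf H ≤ pPrimePCore p H := by
          apply Cfsg.Agent.S1457.result hoddH p SH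
          · intro x hx
            have h3 := hAP (Subgroup.mem_subgroupOf.mp hx)
            rw [hT] at h3
            obtain ⟨y, hy, e⟩ := h3
            have : y = x := Subtype.ext e
            rwa [← this]
          · exact ⟨⟨fun x y => Subtype.ext (Subtype.ext (hAcomm _ (Subgroup.mem_subgroupOf.mp x.2) _
              (Subgroup.mem_subgroupOf.mp y.2)))⟩⟩
          · intro s hs
            have h3 : (s : G) ∈ P := by
              rw [hT]; exact ⟨s, hs, rfl⟩
            have h4 := hPN h3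
            rw [Subgroup.mem_normalizer_iff]
            intro z
            have := Subgroup.mem_normalizer_iff.mp h4 z
            simp only [Subgroup.mem_subgroupOf, Subgroup.coe_mul, InvMemClass.coe_inv]
            exact this
        have hAR : A ≤ R := by
          intro x hx
          have h3 := hAP hx
          rw [hT] at h3
          obtain ⟨y, hy, e⟩ := h3
          have hxH : y = ⟨x, hAH hx⟩ := Subtype.ext e
          refine ⟨y, ⟨hy, ?_⟩, e⟩
          rw [hxH]
          exact h457 (Subgroup.mem_subgroupOf.mpr hx)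
        intro Y hYc hYn
        exact hstA Y hYc (hAR.trans hYn)
    refine le_of_sup_eq_top _ _ (pow_core_frattini SH) ?_ hOHm
    refine (Subgroup.le_normalizer_map H.subtype).trans ?_
    refine le_trans ?_ h1.le
    exact norm_le_norm (cor_coprime p M) (hRP.trans hPX) hstR

/-- Let G be a minimal simple group of odd order, M a maximal subgroup, p a prime, and B a noncyclic elementary abelian p-subgroup of M. If C_G(b) ≤ M for every non-identity b ∈ B, or if every subgroup of G of order coprime to p normalized by B is contained in M, then M is the only maximal subgroup of G containing B. -/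
theorem result {G : Type*} [Group G] [Finite G] (hG : Cfsg.IsMinSimpleOddOrder G)
    (M : Subgroup G) (hM : IsCoatom M) (p : ℕ) [Fact p.Prime] (B : Subgroup G) (hBM : B ≤ M)
    (hBe : Cfsg.IsElementaryAbelian p B) (hBnc : ¬ IsCyclic B)
    (h : (∀ b ∈ B, b ≠ 1 → Subgroup.centralizer ({b} : Set G) ≤ M) ∨
      ∀ Y ∈ Cfsg.invSubgroups ⊤ B (Cfsg.primesNotDvd p), Y ≤ M) :
    Cfsg.InUniqueMaximal B := by
  classical
  have hpp : p.Prime := Fact.out
  have hBp : IsPGroup p B := fun x => ⟨1, by rw [pow_one]; exact Subtype.ext (hBe.2 x.1 x.2)⟩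
  have hB1 : B ≠ ⊥ := by
    rintro rfl
    apply hBnc
    infer_instance
  have hpB : p ∣ Nat.card B := by
    obtain ⟨n, hn⟩ := IsPGroup.iff_card.mp hBp
    rcases n with _ | n
    · exfalso
      apply hB1
      apply Subgroup.eq_bot_of_card_eq
      simpa using hn
    · rw [hn]; exact dvd_pow_self _ (by omega)
  have hpG : p ∣ Nat.card G := hpB.trans (Subgroup.card_subgroup_dvd_card B)
  have hp2 : p ≠ 2 := by
    rintro rfl
    exact (Nat.not_even_iff_odd.mpr hG.1) (even_iff_two_dvd.mpr hpG)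
  have hii : ∀ Y : Subgroup G, (Nat.card Y).Coprime p → B ≤ Subgroup.normalizer (Y : Set G) → Y ≤ M := by
    intro Y hYc hYn
    rcases h with hi | hi
    · obtain ⟨a, ha, b, hb, hab, hap, hbp, hline⟩ := H13.exists_independent hBe hBnc
      have h1 := H13.fixGen_eq (p := p) hYc hab hap hbp (hYn ha) (hYn hb)
      rw [← h1]
      refine iSup_le fun x => ?_
      exact inf_le_right.trans (hi _ (hline x.1 x.2).1 (hline x.1 x.2).2)
    · apply hi
      refine ⟨le_top, ?_, hYn⟩
      intro q hq hqd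
      refine ⟨hq, fun hqp => ?_⟩
      have e : q = p := (Nat.prime_dvd_prime_iff_eq hq hpp).mp hqp
      rw [e] at hqd
      exact (Nat.Prime.coprime_iff_not_dvd hpp).mp hYc.symm hqd
  refine ⟨M, ⟨hM, hBM⟩, ?_⟩
  rintro H₀ ⟨hH₀, hBH₀⟩
  by_contra hne
  have hsolv : ∀ K : Subgroup G, K ≠ ⊤ → Group.IsSolvable K := hG.2.2.2
  -- the family
  let 𝓕 : Set (Subgroup G) := {T | IsPGroup p T ∧ B ≤ T ∧ T ≤ M ∧ ∃ H, IsCoatom H ∧ H ≠ M ∧ T ≤ H}
  have hB𝓕 : B ∈ 𝓕 := ⟨hBp, le_refl _, hBM, H₀, hH₀, hne, hBH₀⟩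
  obtain ⟨T, hBT, hTmax⟩ := (Set.toFinite 𝓕).exists_le_maximal hB𝓕
  obtain ⟨hTp, -, hTM, H, hH, hHM, hTH⟩ := hTmax.1
  have hT1 : T ≠ ⊥ := by
    intro h
    apply hB1
    rw [eq_bot_iff, ← h]
    exact hBT
  have hT2 : T ≠ ⊤ := fun h => hM.1 (top_le_iff.mp (h ▸ hTM))
  haveI hMs : Group.IsSolvable M := hsolv M hM.1
  haveI hHs : Group.IsSolvable H := hsolv H hH.1
  -- Sylow subgroups
  have hexS : ∀ K : Subgroup G, T ≤ K → ∃ S : Sylow p K, T ≤ (S : Subgroup K).map K.subtype := by
    intro K hTK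
    have h1 : IsPGroup p (T.subgroupOf K) := hTp.comap_of_injective K.subtype K.subtype_injective
    obtain ⟨S, hS⟩ := h1.exists_le_sylow
    refine ⟨S, fun x hx => ?_⟩
    exact ⟨⟨x, hTK hx⟩, hS (Subgroup.mem_subgroupOf.mpr hx), rfl⟩
  obtain ⟨SM, hSM⟩ := hexS M hTM
  obtain ⟨SH, hSH⟩ := hexS H hTH
  have hsmle : ∀ {K : Subgroup G} (S : Sylow p K), (S : Subgroup K).map K.subtype ≤ K := by
    rintro K S _ ⟨x, -, rfl⟩
    exact x.2
  -- a larger member of the family is impossible
  have hgrow : ∀ H' : Subgroup G, IsCoatom H' → H' ≠ M → ∀ U : Subgroup G, IsPGroup p U → T ≤ U → U ≤ M → U ≤ H' →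
      U ≤ T := by
    intro H' h1 h2 U h3 h4 h5 h6
    exact hTmax.2 ⟨h3, hBT.trans h4, h5, H', h1, h2, h6⟩ h4
  -- Fact 2 for `SM`
  have hNP : Subgroup.normalizer (((SM : Subgroup M).map M.subtype : Subgroup G) : Set G) ≤ M := by
    refine fact2 hG hM SM ?_ (fun Y hYc hYn => hii Y hYc ((hBT.trans hSM).trans hYn))
    intro h
    apply hT1
    rw [eq_bot_iff, ← h]
    exact hSM
  have hNTne : Subgroup.normalizer (T : Set G) ≠ ⊤ := normalizer_ne_top hG hT1 hT2
  -- `N(T) ≤ M`
  have hNT : Subgroup.normalizer (T : Set G) ≤ M := by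
    by_cases he : (SM : Subgroup M).map M.subtype ≤ T
    · have e := le_antisymm he hSM
      rw [← e]
      exact hNP
    · by_contra hcon
      obtain h1 | ⟨H₃, hH₃, hle⟩ := eq_top_or_exists_le_coatom (Subgroup.normalizer (T : Set G))
      · exact hNTne h1
      have hne₃ : H₃ ≠ M := fun h => hcon (h ▸ hle)
      have h2 := norm_grow (SM.isPGroup'.map M.subtype) hSM he
      have h3 := hgrow H₃ hH₃ hne₃ _ ((SM.isPGroup'.map M.subtype).to_le inf_le_left) h2.le
        (inf_le_left.trans (hsmle SM)) (inf_le_right.trans hle)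
      exact absurd h3 (not_le_of_gt h2)
  -- `T` is a Sylow subgroup of `H`
  have hTSH : (SH : Subgroup H).map H.subtype ≤ T := by
    by_contra he
    have h2 := norm_grow (SH.isPGroup'.map H.subtype) hSH he
    have h3 := hgrow H hH hHM _ ((SH.isPGroup'.map H.subtype).to_le inf_le_left) h2.le
      (inf_le_right.trans hNT) (inf_le_left.trans (hsmle SH))
    exact absurd h3 (not_le_of_gt h2)
  have hSHe : (SH : Subgroup H).map H.subtype = T := le_antisymm hTSH hSH
  have hoddH : Odd (Nat.card H) := Odd.of_dvd_nat hG.1 (Subgroup.card_subgroup_dvd_card H)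
  -- `T` is a Sylow subgroup of `M`
  have hTSM : (SM : Subgroup M).map M.subtype ≤ T := by
    by_contra he
    have h2 := norm_grow (SM.isPGroup'.map M.subtype) hSM he
    have hC1 : centerThompsonOf p T ≠ ⊥ := ctz_ne_bot hTp hT1
    have hC2 : centerThompsonOf p T ≠ ⊤ := by
      intro h
      apply hT2
      rw [← top_le_iff, ← h]
      exact ctz_le T
    obtain h1 | ⟨H₄, hH₄, hle⟩ := eq_top_or_exists_le_coatom (Subgroup.normalizer (centerThompsonOf p T : Set G))
    · exact normalizer_ne_top hG hC1 hC2 h1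
    have hTN : (SM : Subgroup M).map M.subtype ⊓ Subgroup.normalizer (T : Set G) ≤ H₄ :=
      inf_le_right.trans (le_trans (fun g hg => ctz_norm (p := p) hg) hle)
    by_cases he₄ : H₄ = M
    · apply hHM
      apply hH.le_iff.mp ?_ |>.resolve_left hM.1 |>.symm
      refine le_of_sup_eq_top _ _ (ctz_frattini hoddH SH) ?_ ?_
      · refine (Subgroup.le_normalizer_map H.subtype).trans ?_
        rw [ctz_map, hSHe, ← he₄]
        exact hle
      · exact hii _ (cor_coprime p H) ((hBT.trans hTH).trans (le_norm_cor p H))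
    · have h3 := hgrow H₄ hH₄ he₄ _ ((SM.isPGroup'.map M.subtype).to_le inf_le_left) h2.le
        (inf_le_left.trans (hsmle SM)) hTN
      exact absurd h3 (not_le_of_gt h2)
  have hSMe : (SM : Subgroup M).map M.subtype = T := le_antisymm hTSM hSM
  apply hHM
  have hfin := main_of_sylow hG hp2 hM hH SM SH (hSMe.trans hSHe.symm) (hBT.trans hSM) hBnc hii hNP
  exact hH.le_iff.mp hfin |>.resolve_left hM.1 |>.symm

end Cfsg.Agent.S1398
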