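import Cfsg.Statements.S1399
import Cfsg.Agent.S1398
import Mathlib

set_option autoImplicit false
set_option linter.style.haveILetI false
set_option linter.unusedVariables false
set_option linter.unusedSectionVars false
set_option linter.unusedSimpArgs false
open Cfsg
open scoped commutatorElement

namespace Cfsg.Agent.S1399

variable {G : Type*} [Group G] [Finite G]

theorem exists_elem {K : Subgroup G} (hKr : ¬ RankLE 1 K) :
    ∃ p : ℕ, p.Prime ∧ ∃ B : Subgroup G, B ≤ K ∧ IsElementaryAbelian p B ∧ p < Nat.card B := by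
  unfold RankLE PRankLE at hKr
  push Not at hKr
  obtain ⟨p, hp, E, hc, he, hlt⟩ := hKr
  refine ⟨p, hp, E.map K.subtype, ?_, ⟨?_, ?_⟩, ?_⟩
  · rintro _ ⟨x, -, rfl⟩
    exact x.2
  · refine ⟨⟨fun x y => ?_⟩⟩
    obtain ⟨x, x', hx', hxe⟩ := x
    obtain ⟨y, y', hy', hye⟩ := y
    apply Subtype.ext
    simp only [Subgroup.coe_mul]
    rw [← hxe, ← hye]
    have := congrArg Subtype.val (hc.is_comm.comm (⟨x', hx'⟩ : E) ⟨y', hy'⟩)
    simpa using congrArg Subtype.val this
  · rintro _ ⟨x, hx, rfl⟩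
    have := he x hx
    simpa using congrArg Subtype.val this
  · have : Nat.card (E.map K.subtype) = Nat.card E :=
      Subgroup.card_map_of_injective (Subgroup.subtype_injective _)
    rw [this]
    simpa using hlt

theorem not_cyclic_of_card {p : ℕ} (hpp : p.Prime) {B : Subgroup G} (hB : IsElementaryAbelian p B) (h : p < Nat.card B) :
    ¬ IsCyclic B := by
  intro hc
  obtain ⟨g, hg⟩ := hc.exists_generator
  have h1 : orderOf g = Nat.card B := orderOf_eq_card_of_forall_mem_zpowers hg
  have h2 : g ^ p = 1 := Subtype.ext (hB.2 g.1 g.2)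
  have h3 := orderOf_le_of_pow_eq_one hpp.pos h2
  omega

/-- A subgroup in a unique maximal subgroup is nontrivial in a noncyclic simple group. -/
theorem ne_bot_of_unique (hG : IsMinSimpleOddOrder G) {L : Subgroup G} (hL : InUniqueMaximal L) : L ≠ ⊥ := by
  classical
  rintro rfl
  obtain ⟨M, ⟨hM, -⟩, huniq⟩ := hL
  have hne : M ≠ ⊤ := hM.1
  obtain ⟨g, hg⟩ : ∃ g : G, g ∉ M := by
    by_contra h
    push Not at h
    exact hne (eq_top_iff.mpr fun x _ => h x)
  have htop : Subgroup.zpowers g = ⊤ := by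
    obtain h | ⟨H, hH, hle⟩ := eq_top_or_exists_le_coatom (Subgroup.zpowers g)
    · exact h
    · exfalso
      have e := huniq H ⟨hH, bot_le⟩
      rw [e] at hle
      exact hg (hle (Subgroup.mem_zpowers g))
  apply hG.2.2.1
  refine ⟨⟨fun x y => ?_⟩⟩
  have hx : x ∈ Subgroup.zpowers g := by rw [htop]; trivial
  have hy : y ∈ Subgroup.zpowers g := by rw [htop]; trivial
  obtain ⟨i, rfl⟩ := hx
  obtain ⟨j, rfl⟩ := hy
  exact (Commute.refl g).zpow_zpow i j

theorem top_not_unique (hG : IsMinSimpleOddOrder G) : ¬ InUniqueMaximal (⊤ : Subgroup G) := by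
  rintro ⟨M, ⟨hM, h⟩, -⟩
  exact hM.1 (top_le_iff.mp h)

/-- Let G be a minimal simple group of odd order, L a subgroup contained in exactly one maximal subgroup of G, and K a subgroup of C_G(L) having, for some prime p, an elementary abelian subgroup of order p ^ 2. Then K is contained in exactly one maximal subgroup of G. -/
theorem result {G : Type*} [Group G] [Finite G] (hG : Cfsg.IsMinSimpleOddOrder G)
    (L K : Subgroup G) (hL : Cfsg.InUniqueMaximal L) (hK : K ≤ Subgroup.centralizer (L : Set G)) (hKr : ¬ Cfsg.RankLE 1 K) :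
    Cfsg.InUniqueMaximal K := by
  classical
  obtain ⟨p, hp, B, hBK, hBe, hBc⟩ := exists_elem hKr
  haveI : Fact p.Prime := ⟨hp⟩
  have hL1 := ne_bot_of_unique hG hL
  obtain ⟨M, ⟨hM, hLM⟩, huniq⟩ := hL
  have hBnc := not_cyclic_of_card hp hBe hBc
  have hcent : ∀ b ∈ B, b ≠ 1 → Subgroup.centralizer ({b} : Set G) ≤ M := by
    intro b hb hb1
    obtain h | ⟨H, hH, hle⟩ := eq_top_or_exists_le_coatom (Subgroup.centralizer ({b} : Set G))
    · exact absurd h (Cfsg.Agent.S1393.centralizer_ne_top hG hb1)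
    · have hLH : L ≤ H := by
        refine le_trans ?_ hle
        intro l hl
        rw [Subgroup.mem_centralizer_singleton_iff]
        exact ((Subgroup.mem_centralizer_iff.mp (hK (hBK hb))) l hl)
      rw [← huniq H ⟨hH, hLH⟩]
      exact hle
  have hB1 : B ≠ ⊥ := by
    rintro rfl
    exact hBnc inferInstance
  obtain ⟨b₀, hb₀, hb₀1⟩ := (Subgroup.bot_or_exists_ne_one B).resolve_left hB1
  have hBM : B ≤ M := by
    refine le_trans ?_ (hcent b₀ hb₀ hb₀1)
    intro x hx
    rw [Subgroup.mem_centralizer_singleton_iff]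
    exact congrArg Subtype.val (hBe.1.is_comm.comm (⟨x, hx⟩ : B) ⟨b₀, hb₀⟩)
  obtain ⟨M', ⟨hM', hBM'⟩, huniq'⟩ := Cfsg.Agent.S1398.result hG M hM p B hBM hBe hBnc (Or.inl hcent)
  have hKne : K ≠ ⊤ := by
    rintro rfl
    apply hL1
    have hLz : L ≤ Subgroup.center G := by
      intro l hl
      rw [Subgroup.mem_center_iff]
      intro g
      exact ((Subgroup.mem_centralizer_iff.mp (hK (Subgroup.mem_top g))) l hl).symm
    haveI := hG.2.1
    rcases IsSimpleGroup.eq_bot_or_eq_top_of_normal (Subgroup.center G) inferInstance with h1 | h1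
    · rw [h1] at hLz
      exact le_bot_iff.mp hLz
    · exfalso
      apply hG.2.2.1
      refine ⟨⟨fun x y => ?_⟩⟩
      have : x ∈ Subgroup.center G := by rw [h1]; trivial
      exact ((Subgroup.mem_center_iff.mp this) y).symm
  obtain h | ⟨H, hH, hle⟩ := eq_top_or_exists_le_coatom K
  · exact absurd h hKne
  · refine ⟨H, ⟨hH, hle⟩, fun H' hH' => ?_⟩
    rw [huniq' H' ⟨hH'.1, hBK.trans hH'.2⟩, huniq' H ⟨hH, hBK.trans hle⟩]

end Cfsg.Agent.S1399
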