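import Cfsg.Statements.S1400
import Cfsg.Agent.S1399
import Cfsg.Agent.Lib.H01.OmegaApps
import Cfsg.Agent.Lib.H13.YMin
import Mathlib

set_option autoImplicit false
set_option linter.style.haveILetI false
set_option linter.unusedVariables false
set_option linter.unusedSectionVars false
set_option linter.unusedSimpArgs false
open Cfsg
open scoped commutatorElement

namespace Cfsg.Agent.S1400

open Cfsg.Agent.S1399 Cfsg.Agent.S1392

variable {G : Type*} [Group G] [Finite G]

/-- A rank bound from a large subgroup: if `E` is elementary abelian of order `> p ^ k` in `K`, then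
`K` does not have rank at most `k`. -/
theorem not_rank_of_elem {p k : ℕ} (hp : p.Prime) {K E : Subgroup G} (hEK : E ≤ K) (hE : IsElementaryAbelian p E)
    (h : p ^ k < Nat.card E) : ¬ RankLE k K := by
  intro hr
  have h1 := hr p hp (E.subgroupOf K) ?_ ?_
  · have h2 : Nat.card (E.subgroupOf K) = Nat.card E :=
      Nat.card_congr (Subgroup.subgroupOfEquivOfLe hEK).toEquiv
    omega
  · refine ⟨⟨fun x y => ?_⟩⟩
    apply Subtype.ext
    apply Subtype.ext
    have := congrArg Subtype.val (hE.1.is_comm.comm (⟨x.1.1, Subgroup.mem_subgroupOf.mp x.2⟩ : E) ⟨y.1.1, Subgroup.mem_subgroupOf.mp y.2⟩)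
    exact this
  · intro a ha
    apply Subtype.ext
    exact hE.2 a.1 (Subgroup.mem_subgroupOf.mp ha)

theorem E_of_not_rank {p k : ℕ} {K : Subgroup G} (h : ¬ PRankLE p k K) :
    ∃ E : Subgroup G, E ≤ K ∧ IsElementaryAbelian p E ∧ p ^ k < Nat.card E := by
  unfold PRankLE at h
  push Not at h
  obtain ⟨E, hc, he, hlt⟩ := h
  refine ⟨E.map K.subtype, ?_, ⟨?_, ?_⟩, ?_⟩
  · rintro _ ⟨x, -, rfl⟩
    exact x.2
  · refine ⟨⟨fun x y => ?_⟩⟩
    obtain ⟨x, x', hx', hxe⟩ := x
    obtain ⟨y, y', hy', hye⟩ := y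
    apply Subtype.ext
    simp only [Subgroup.coe_mul]
    rw [← hxe, ← hye]
    have := congrArg Subtype.val (hc.is_comm.comm (⟨x', hx'⟩ : E) ⟨y', hy'⟩)
    simpa using congrArg Subtype.val this
  · rintro _ ⟨x, hx, rfl⟩
    have := he x hx
    simpa using congrArg Subtype.val this
  · have : Nat.card (E.map K.subtype) = Nat.card E :=
      Subgroup.card_map_of_injective (Subgroup.subtype_injective _)
    rw [this]
    simpa using hlt

theorem isP_of_elem {p : ℕ} [Fact p.Prime] {E : Subgroup G} (hE : IsElementaryAbelian p E) : IsPGroup p E :=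
  fun x => ⟨1, by rw [pow_one]; exact Subtype.ext (hE.2 x.1 x.2)⟩

theorem elem_of_le {p : ℕ} {E F : Subgroup G} (hE : IsElementaryAbelian p E) (h : F ≤ E) :
    IsElementaryAbelian p F :=
  ⟨⟨⟨fun x y => by
    have := congrArg Subtype.val (hE.1.is_comm.comm (⟨x.1, h x.2⟩ : E) ⟨y.1, h y.2⟩)
    exact Subtype.ext this⟩⟩, fun a ha => hE.2 a (h ha)⟩

theorem card_map_conj (E : Subgroup G) (g : G) :
    Nat.card (E.map (MulAut.conj g).toMonoidHom) = Nat.card E :=
  Subgroup.card_map_of_injective (MulAut.conj g).injective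

theorem elem_map_conj {p : ℕ} {E : Subgroup G} (hE : IsElementaryAbelian p E) (g : G) :
    IsElementaryAbelian p (E.map (MulAut.conj g).toMonoidHom) := by
  refine ⟨⟨⟨fun x y => ?_⟩⟩, ?_⟩
  · obtain ⟨x, x', hx', rfl⟩ := x
    obtain ⟨y, y', hy', rfl⟩ := y
    apply Subtype.ext
    simp only [Subgroup.coe_mul]
    rw [← map_mul, ← map_mul]
    have := congrArg Subtype.val (hE.1.is_comm.comm (⟨x', hx'⟩ : E) ⟨y', hy'⟩)
    simp only [Subgroup.coe_mul] at this
    rw [this]
  · rintro _ ⟨a, ha, rfl⟩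
    rw [← map_pow, hE.2 a ha, map_one]

/-- Uniqueness is invariant under conjugation. -/
theorem unique_conj {K : Subgroup G} (hK : InUniqueMaximal K) (g : G) :
    InUniqueMaximal (K.map (MulAut.conj g).toMonoidHom) := by
  obtain ⟨M, ⟨hM, hKM⟩, huniq⟩ := hK
  refine ⟨M.map (MulAut.conj g).toMonoidHom, ⟨H13.isCoatom_map_conj' hM g, Subgroup.map_mono hKM⟩, ?_⟩
  rintro H ⟨hH, hKH⟩
  have h1 : H.map (MulAut.conj g⁻¹).toMonoidHom = M := by
    apply huniq
    refine ⟨H13.isCoatom_map_conj' hH g⁻¹, ?_⟩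
    intro x hx
    refine ⟨g * x * g⁻¹, hKH ⟨x, hx, rfl⟩, ?_⟩
    simp [MulAut.conj_apply]
    group
  rw [← h1, map_conj_map, mul_inv_cancel, map_conj_one]

theorem chain_in_sylow (hG : IsMinSimpleOddOrder G) (p : ℕ) [Fact p.Prime] (hp2 : p ≠ 2) (P : Sylow p G)
    {A F : Subgroup G} (hAP : A ≤ (P : Subgroup G)) (hAc : IsMulCommutative A) (hA3 : ¬ PRankLE p 2 A)
    (hAU : InUniqueMaximal A) (hFP : F ≤ (P : Subgroup G)) (hFe : IsElementaryAbelian p F)
    (hF3 : p ^ 2 < Nat.card F) : InUniqueMaximal F := by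
  classical
  have hpp : p.Prime := Fact.out
  obtain ⟨EA, hEAA, hEAe, hEA3⟩ := E_of_not_rank hA3
  have hnc : ¬ IsCyclic (P : Subgroup G) := by
    intro hc
    have hle : EA ≤ (P : Subgroup G) := hEAA.trans hAP
    have h1 : IsCyclic EA := isCyclic_of_injective (Subgroup.inclusion hle) (Subgroup.inclusion_injective hle)
    refine not_cyclic_of_card hpp hEAe ?_ h1
    have : p ≤ p ^ 2 := Nat.le_self_pow (by norm_num) p
    omega
  obtain ⟨E', hE'n, hE'e, hE'c⟩ := Cfsg.Agent.H01.exists_normal_elementary_sq P.isPGroup' hp2 hnc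
  set W₂ : Subgroup G := E'.map (P : Subgroup G).subtype with hW₂
  have hW₂P : W₂ ≤ (P : Subgroup G) := by
    rintro _ ⟨x, -, rfl⟩
    exact x.2
  have hW₂n : (P : Subgroup G) ≤ Subgroup.normalizer (W₂ : Set G) := by
    intro r hr
    have h2 : (⟨r, hr⟩ : (P : Subgroup G)) ∈ Subgroup.normalizer ((E' : Subgroup _) : Set (P : Subgroup G)) := by
      rw [Subgroup.normalizer_eq_top_iff.mpr hE'n]; trivial
    exact Subgroup.le_normalizer_map (P : Subgroup G).subtype ⟨_, h2, rfl⟩
  have hW₂comm : ∀ a ∈ W₂, ∀ b ∈ W₂, a * b = b * a := by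
    rintro _ ⟨a, ha, rfl⟩ _ ⟨b, hb, rfl⟩
    exact congrArg Subtype.val (congrArg Subtype.val (hE'e.1.is_comm.comm (⟨a, ha⟩ : E') ⟨b, hb⟩))
  have hW₂exp : ∀ a ∈ W₂, a ^ p = 1 := by
    rintro _ ⟨a, ha, rfl⟩
    exact congrArg Subtype.val (hE'e.2 a ha)
  have hW₂card : Nat.card W₂ = p ^ 2 := by
    have : Nat.card W₂ = Nat.card E' := Subgroup.card_map_of_injective (Subgroup.subtype_injective _)
    rw [this, hE'c]
  have hW₂ab : IsMulCommutative W₂ := ⟨⟨fun x y => Subtype.ext (hW₂comm x.1 x.2 y.1 y.2)⟩⟩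
  have hW₂r : ¬ PRankLE p 1 W₂ := by
    intro h
    have h1 := h ⊤ ⟨⟨fun x y => Subtype.ext (Subtype.ext (hW₂comm _ x.1.2 _ y.1.2))⟩⟩
      (fun a _ => Subtype.ext (hW₂exp a.1 a.2))
    rw [Subgroup.card_top, hW₂card, pow_one] at h1
    have : p < p ^ 2 := by
      have := hpp.one_lt
      nlinarith
    omega
  obtain ⟨z, e, hzW, heW, hzp, hep, hz1, he, hzZ, heP⟩ := Cfsg.Agent.S1396.exists_z_e p P hW₂P hW₂n hW₂ab hW₂r
  set W : Subgroup G := Subgroup.zpowers z ⊔ Subgroup.zpowers e with hW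
  have hWW₂ : W ≤ W₂ := sup_le (Subgroup.zpowers_le.mpr hzW) (Subgroup.zpowers_le.mpr heW)
  have hWe : IsElementaryAbelian p W :=
    ⟨⟨⟨fun x y => Subtype.ext (hW₂comm _ (hWW₂ x.2) _ (hWW₂ y.2))⟩⟩, fun a ha => hW₂exp a (hWW₂ ha)⟩
  have hWc : p < Nat.card W := by
    have h1 : Subgroup.zpowers z < W := by
      apply lt_of_le_of_ne le_sup_left
      intro h
      apply he
      rw [h]
      exact Subgroup.mem_sup_right (Subgroup.mem_zpowers e)
    have h2 : Nat.card (Subgroup.zpowers z) < Nat.card W :=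
      lt_of_le_of_ne (Nat.le_of_dvd Nat.card_pos (Subgroup.card_dvd_of_le h1.le))
        (fun e => h1.ne (Subgroup.eq_of_le_of_card_ge h1.le e.ge))
    rwa [Nat.card_zpowers, orderOf_eq_prime hzp hz1] at h2
  have hWr : ¬ RankLE 1 W := not_rank_of_elem hpp le_rfl hWe (by simpa using hWc)
  -- centralizer of `W`
  have hcW : ∀ x ∈ (P : Subgroup G), x ∈ Subgroup.centralizer ({e} : Set G) → ∀ w ∈ W, w * x = x * w := by
    intro x hxP hxe w hw
    have h1 : W ≤ Subgroup.centralizer ({x} : Set G) := by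
      apply sup_le
      · rw [Subgroup.zpowers_le, Subgroup.mem_centralizer_singleton_iff]
        exact (Subgroup.mem_centralizer_singleton_iff.mp (hzZ hxP)).symm
      · rw [Subgroup.zpowers_le, Subgroup.mem_centralizer_singleton_iff]
        exact (Subgroup.mem_centralizer_singleton_iff.mp hxe).symm
    exact Subgroup.mem_centralizer_singleton_iff.mp (h1 hw)
  -- the reduced groups
  have hred : ∀ E : Subgroup G, E ≤ (P : Subgroup G) → IsElementaryAbelian p E → p ^ 2 < Nat.card E →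
      ¬ RankLE 1 ↥(E ⊓ Subgroup.centralizer ({e} : Set G)) := by
    intro E hEP hEe hE3
    have h1 := Cfsg.Agent.S1396.card_le_of_comm_mem (P := E) hzp hz1 (hEP.trans hzZ) (fun g hg => heP g (hEP hg))
    have h2 : p < Nat.card ↥(E ⊓ Subgroup.centralizer ({e} : Set G)) := by
      have h3 : p * p < Nat.card ↥(E ⊓ Subgroup.centralizer ({e} : Set G)) * p := by
        calc p * p = p ^ 2 := by ring
          _ < Nat.card E := hE3
          _ ≤ _ := h1
      exact Nat.lt_of_mul_lt_mul_right h3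
    exact not_rank_of_elem hpp le_rfl (elem_of_le hEe inf_le_left) (by simpa using h2)
  -- the chain
  have hEA₂ : InUniqueMaximal (EA ⊓ Subgroup.centralizer ({e} : Set G)) := by
    refine Cfsg.Agent.S1399.result hG A _ hAU ?_ (hred EA (hEAA.trans hAP) hEAe hEA3)
    intro x hx
    apply Subgroup.mem_centralizer_iff.mpr
    intro a ha
    exact congrArg Subtype.val (hAc.is_comm.comm (⟨a, ha⟩ : A) ⟨x, hEAA hx.1⟩)
  have hWU : InUniqueMaximal W := by
    refine Cfsg.Agent.S1399.result hG _ W hEA₂ ?_ hWr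
    intro w hw
    apply Subgroup.mem_centralizer_iff.mpr
    intro x hx
    exact (hcW x (hEAA.trans hAP hx.1) hx.2 w hw).symm
  have hF₂ : InUniqueMaximal (F ⊓ Subgroup.centralizer ({e} : Set G)) := by
    refine Cfsg.Agent.S1399.result hG W _ hWU ?_ (hred F hFP hFe hF3)
    intro x hx
    apply Subgroup.mem_centralizer_iff.mpr
    intro w hw
    exact hcW x (hFP hx.1) hx.2 w hw
  refine Cfsg.Agent.S1399.result hG _ F hF₂ ?_ (not_rank_of_elem hpp le_rfl hFe ?_)
  · intro x hx
    apply Subgroup.mem_centralizer_iff.mpr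
    intro y hy
    exact congrArg Subtype.val (hFe.1.is_comm.comm (⟨y, hy.1⟩ : F) ⟨x, hx⟩)
  · have : p ≤ p ^ 2 := Nat.le_self_pow (by norm_num) p
    simp only [pow_one]
    omega

/-- Every elementary abelian `p`-subgroup of order at least `p ^ 3` is in a unique maximal subgroup
as soon as one abelian `p`-subgroup of rank at least three is. -/
theorem all_E3 (hG : IsMinSimpleOddOrder G) (p : ℕ) [Fact p.Prime] {A F : Subgroup G} (hAp : IsPGroup p A)
    (hAc : IsMulCommutative A) (hA3 : ¬ PRankLE p 2 A) (hAU : InUniqueMaximal A)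
    (hFe : IsElementaryAbelian p F) (hF3 : p ^ 2 < Nat.card F) : InUniqueMaximal F := by
  classical
  have hpp : p.Prime := Fact.out
  have hFp : IsPGroup p F := isP_of_elem hFe
  have hp2 : p ≠ 2 := by
    rintro rfl
    have h1 : 2 ∣ Nat.card F := by
      obtain ⟨n, hn⟩ := IsPGroup.iff_card.mp hFp
      rcases n with _ | n
      · rw [hn] at hF3
        simp at hF3
      · rw [hn]; exact dvd_pow_self _ (by omega)
    exact (Nat.not_even_iff_odd.mpr hG.1) (even_iff_two_dvd.mpr (h1.trans (Subgroup.card_subgroup_dvd_card F)))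
  obtain ⟨P₁, hP₁⟩ := hFp.exists_le_sylow
  obtain ⟨S, hS⟩ := hAp.exists_le_sylow
  obtain ⟨g, hg⟩ := MulAction.exists_smul_eq G S P₁
  have hAg : A.map (MulAut.conj g).toMonoidHom ≤ (P₁ : Subgroup G) := by
    rw [← hg, Sylow.coe_subgroup_smul]
    rintro _ ⟨x, hx, rfl⟩
    exact ⟨x, hS hx, rfl⟩
  have hAgc : IsMulCommutative (A.map (MulAut.conj g).toMonoidHom) := by
    refine ⟨⟨fun x y => ?_⟩⟩
    obtain ⟨x, x', hx', rfl⟩ := x
    obtain ⟨y, y', hy', rfl⟩ := y
    apply Subtype.ext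
    simp only [Subgroup.coe_mul]
    rw [← map_mul, ← map_mul]
    have := congrArg Subtype.val (hAc.is_comm.comm (⟨x', hx'⟩ : A) ⟨y', hy'⟩)
    simp only [Subgroup.coe_mul] at this
    rw [this]
  have hAg3 : ¬ PRankLE p 2 (A.map (MulAut.conj g).toMonoidHom) := fun h => hA3
    (Cfsg.Agent.S1398.prank_of_inj (A.equivMapOfInjective _ (MulAut.conj g).injective).toMonoidHom
      (MulEquiv.injective _) h)
  exact chain_in_sylow hG p hp2 P₁ hAg hAgc hAg3 (unique_conj hAU g) hP₁ hFe hF3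

/-- Let G be a minimal simple group of odd order, p a prime, A an abelian p-subgroup containing an elementary abelian subgroup of order p ^ 3 and lying in exactly one maximal subgroup, and B a noncyclic p-subgroup whose centralizer contains an elementary abelian subgroup of order p ^ 3. Then B lies in exactly one maximal subgroup of G. -/
theorem result {G : Type*} [Group G] [Finite G] (hG : Cfsg.IsMinSimpleOddOrder G)
    (p : ℕ) [Fact p.Prime] (A B : Subgroup G) (hAp : IsPGroup p A) (hAc : IsMulCommutative A) (hA3 : ¬ Cfsg.PRankLE p 2 ↥A)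
    (hAU : Cfsg.InUniqueMaximal A) (hBp : IsPGroup p B) (hBnc : ¬ IsCyclic B) (hB3 : ¬ Cfsg.PRankLE p 2 ↥(Subgroup.centralizer (B : Set G))) :
    Cfsg.InUniqueMaximal B := by
  classical
  have hpp : p.Prime := Fact.out
  obtain ⟨F, hFC, hFe, hF3⟩ := E_of_not_rank hB3
  have hFU := all_E3 hG p hAp hAc hA3 hAU hFe hF3
  have hp2 : p ≠ 2 := by
    rintro rfl
    have h1 : 2 ∣ Nat.card F := by
      obtain ⟨n, hn⟩ := IsPGroup.iff_card.mp (isP_of_elem hFe)
      rcases n with _ | n
      · rw [hn] at hF3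
        simp at hF3
      · rw [hn]; exact dvd_pow_self _ (by omega)
    exact (Nat.not_even_iff_odd.mpr hG.1) (even_iff_two_dvd.mpr (h1.trans (Subgroup.card_subgroup_dvd_card F)))
  obtain ⟨E', hE'n, hE'e, hE'c⟩ := Cfsg.Agent.H01.exists_normal_elementary_sq hBp hp2 hBnc
  refine Cfsg.Agent.S1399.result hG F B hFU ?_ ?_
  · intro x hx
    apply Subgroup.mem_centralizer_iff.mpr
    intro y hy
    exact ((Subgroup.mem_centralizer_iff.mp (hFC hy)) x hx).symm
  · intro hr
    have h1 := hr p hpp E' hE'e.1 hE'e.2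
    rw [hE'c] at h1
    have : p < p ^ 2 := by
      have := hpp.one_lt
      nlinarith
    simp only [pow_one] at h1
    omega

end Cfsg.Agent.S1400
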