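import Cfsg.Statements.S1445
import Mathlib
import Cfsg.Agent.Lib.H26.CoprimeZ
import Cfsg.Agent.Lib.H26.HHBridge
import Cfsg.Agent.Lib.H01.Solv2
import Cfsg.Agent.Lib.H01.Fitting
import Cfsg.Agent.Lib.H01.Coprime
import Cfsg.Agent.Lib.H01.Coprime3
import Cfsg.Agent.Lib.H01.Coprime4

set_option autoImplicit false
set_option linter.style.haveILetI false
set_option linter.unusedVariables false
set_option linter.unusedSectionVars false
set_option linter.unusedSimpArgs false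
open Cfsg

namespace Cfsg.Agent.S1445

open Cfsg.Agent.H26.HHBridge
open scoped commutatorElement

theorem isPGroup_map {G H : Type*} [Group G] [Group H] {q : ℕ} (Y : Subgroup G) (hY : IsPGroup q Y)
    (φ : G →* H) : IsPGroup q (Y.map φ) := by
  rintro ⟨g, y, hy, he⟩
  obtain ⟨k, hk⟩ := hY ⟨y, hy⟩
  refine ⟨k, Subtype.ext ?_⟩
  have h1 : y ^ q ^ k = 1 := congrArg Subtype.val hk
  change g ^ q ^ k = 1
  rw [← he, ← map_pow, h1, map_one]

theorem mem_normalizer_of_conj {G : Type*} [Group G] [Finite G] {S : Subgroup G} {x : G}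
    (h : ∀ s ∈ S, x * s * x⁻¹ ∈ S) : x ∈ Subgroup.normalizer (S : Set G) := by
  have hle : S.map (MulAut.conj x).toMonoidHom ≤ S := by
    rintro _ ⟨s, hs, rfl⟩
    exact h s hs
  have hcard : Nat.card S ≤ Nat.card ↥(S.map (MulAut.conj x).toMonoidHom) := by
    rw [Subgroup.card_map_of_injective (MulAut.conj x).injective]
  have heq := Subgroup.eq_of_le_of_card_ge hle hcard
  rw [Subgroup.mem_normalizer_iff]
  intro g
  refine ⟨h g, fun hg => ?_⟩
  rw [← heq] at hg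
  obtain ⟨s, hs, hse⟩ := hg
  have : s = g := by
    have h2 : x * s * x⁻¹ = x * g * x⁻¹ := hse
    have h3 : x * s = x * g := mul_right_cancel h2
    exact mul_left_cancel h3
  rwa [← this]

section aut

variable {B : Type*} [Group B] [Finite B]

theorem pcore_aut (q : ℕ) [Fact q.Prime] (f : MulAut B) {u : B} (hu : u ∈ Cfsg.pCore q B) :
    f u ∈ Cfsg.pCore q B := by
  have hle : (Cfsg.pCore q B).map f.toMonoidHom ≤ Cfsg.pCore q B := by
    apply Cfsg.Agent.H01.le_pCore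
    · haveI := Cfsg.Agent.H01.pCore_normal (G := B) q
      exact Subgroup.Normal.map inferInstance _ f.surjective
    · exact isPGroup_map _ (Cfsg.Agent.H01.pCore_isPGroup q) _
  exact hle ⟨u, hu, rfl⟩

theorem fit_aut (f : MulAut B) {u : B} (hu : u ∈ Cfsg.fittingSubgroup B) :
    f u ∈ Cfsg.fittingSubgroup B := by
  have hle : (Cfsg.fittingSubgroup B).map f.toMonoidHom ≤ Cfsg.fittingSubgroup B := by
    apply Cfsg.Agent.H01.le_fitting
    · haveI := Cfsg.Agent.H01.fitting_normal (G := B)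
      exact Subgroup.Normal.map inferInstance _ f.surjective
    · haveI := Cfsg.Agent.H01.fitting_nilpotent (G := B)
      exact Group.nilpotent_of_surjective
        ((Cfsg.fittingSubgroup B).equivMapOfInjective f.toMonoidHom f.injective).toMonoidHom
        (MulEquiv.surjective _)
  exact hle ⟨u, hu, rfl⟩

/-- An automorphism of coprime order fixing the Fitting subgroup pointwise is trivial. -/
theorem fix_all [Group.IsSolvable B] (β : MulAut B) {r : ℕ} (hr : r.Coprime (Nat.card B))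
    (hβ : β ^ r = 1) (hF : ∀ u ∈ Cfsg.fittingSubgroup B, β u = u) (b : B) : β b = b := by
  set d := b⁻¹ * β b with hd
  haveI := Cfsg.Agent.H01.fitting_normal (G := B)
  have hdC : d ∈ Subgroup.centralizer (Cfsg.fittingSubgroup B : Set B) := by
    rw [Subgroup.mem_centralizer_iff]
    intro u hu
    have h1 : b * u * b⁻¹ ∈ Cfsg.fittingSubgroup B :=
      Subgroup.Normal.conj_mem inferInstance u hu b
    have h2 := hF _ h1
    have h3 := hF u hu
    simp only [map_mul, map_inv] at h2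
    rw [h3] at h2
    have h4 : β b * u = b * u * b⁻¹ * β b := by
      rw [← h2]; group
    rw [hd]
    calc u * (b⁻¹ * β b) = b⁻¹ * (b * u * b⁻¹ * β b) := by group
      _ = b⁻¹ * (β b * u) := by rw [h4]
      _ = b⁻¹ * β b * u := by group
  have hdF : d ∈ Cfsg.fittingSubgroup B := Cfsg.Agent.H01.centralizer_fitting_le hdC
  have hβd : β d = d := hF d hdF
  have hpow : ∀ j : ℕ, (β ^ j) b = b * d ^ j := by
    intro j
    induction j with
    | zero => simp
    | succ j ih =>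
      rw [pow_succ', MulAut.mul_apply, ih, map_mul, map_pow, hβd]
      have : β b = b * d := by rw [hd]; group
      rw [this, pow_succ']
      group
  have h1 := hpow r
  rw [hβ] at h1
  have h2 : d ^ r = 1 := by
    have : b * d ^ r = b * 1 := by rw [← h1, mul_one]; rfl
    exact mul_left_cancel this
  have h3 : d = 1 := by
    have h4 : orderOf d ∣ r := orderOf_dvd_of_pow_eq_one h2
    have h5 : orderOf d ∣ Nat.card B := orderOf_dvd_natCard d
    exact orderOf_eq_one_iff.mp (Nat.eq_one_of_dvd_coprimes hr h4 h5)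
  have h4 : b⁻¹ * β b = 1 := by rw [← hd, h3]
  exact (inv_mul_eq_one.mp h4).symm

end aut

section core

variable {G : Type*} [Group G] [Finite G] [Group.IsSolvable G]

theorem comm_centralizes (x : G) {r : ℕ} (hr : r.Prime) (hr2 : r ≠ 2) (hxr : x ^ r = 1) {ℓ q : ℕ}
    [hℓ : Fact ℓ.Prime] [hq : Fact q.Prime] (hq2 : q ≠ 2) (hrq : r ≠ q) (hrℓ : r ≠ ℓ) (hqℓ : q ≠ ℓ)
    (hfixS : Cfsg.pCore ℓ G ⊓ Subgroup.centralizer ({x} : Set G) = ⊥)
    (Y : Subgroup G) (hYq : IsPGroup q Y) (hxY : x ∈ Subgroup.normalizer (Y : Set G)) :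
    ⁅Y, Subgroup.zpowers x⁆ ≤ Subgroup.centralizer (Cfsg.pCore ℓ G : Set G) := by
  classical
  haveI hrf : Fact r.Prime := ⟨hr⟩
  haveI hSn := Cfsg.Agent.H01.pCore_normal (G := G) ℓ
  let iC : CommGroup (Vf ℓ G) := { (inferInstance : Group (Vf ℓ G)) with mul_comm := Vf_comm }
  let φ₀ : G →* MulAut (Vf ℓ G) := phi0 ℓ G
  let a : MulAut (Vf ℓ G) := φ₀ x
  have har : a ^ r = 1 := by
    change (φ₀ x) ^ r = 1
    rw [← map_pow, hxr, map_one]
  let mk : G →* G ⧸ Kf ℓ G := QuotientGroup.mk' (Kf ℓ G)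
  have hSp := Cfsg.Agent.H01.pCore_isPGroup (G := G) ℓ
  obtain ⟨m, hm⟩ := IsPGroup.iff_card.mp hSp
  have hKfle : Kf ℓ G ≤ Cfsg.pCore ℓ G := by
    rintro _ ⟨u, -, rfl⟩
    exact u.2
  -- no fixed points
  have hfix : ∀ v, a v = v → v = 1 := by
    rintro ⟨_, ⟨s, hs, rfl⟩⟩ hv
    let S₁ : Subgroup G := Cfsg.pCore ℓ G ⊓
      (Subgroup.centralizer ({mk x} : Set (G ⧸ Kf ℓ G))).comap mk
    have mem_S₁ : ∀ u, u ∈ S₁ ↔ u ∈ Cfsg.pCore ℓ G ∧ mk x * mk u = mk u * mk x := by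
      intro u
      constructor
      · intro h
        refine ⟨(Subgroup.mem_inf.mp h).1, ?_⟩
        have h2 := (Subgroup.mem_inf.mp h).2
        rw [Subgroup.mem_comap, Subgroup.mem_centralizer_iff] at h2
        exact h2 _ (Set.mem_singleton _)
      · rintro ⟨h1, h2⟩
        refine Subgroup.mem_inf.mpr ⟨h1, ?_⟩
        rw [Subgroup.mem_comap, Subgroup.mem_centralizer_iff]
        intro z hz
        rw [Set.mem_singleton_iff.mp hz]
        exact h2
    have hsS₁ : s ∈ S₁ := by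
      rw [mem_S₁]
      refine ⟨hs, ?_⟩
      have h1 := congrArg Subtype.val hv
      have h2 : mk x * mk s * (mk x)⁻¹ = mk s := h1
      rw [mul_inv_eq_iff_eq_mul] at h2
      exact h2
    have hxS₁ : x ∈ Subgroup.normalizer (S₁ : Set G) := by
      apply mem_normalizer_of_conj
      intro u hu
      rw [mem_S₁] at hu ⊢
      refine ⟨hSn.conj_mem u hu.1 x, ?_⟩
      have h2 : mk (x * u * x⁻¹) = mk u := by
        rw [map_mul, map_mul, map_inv, hu.2]
        group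
      rw [h2]
      exact hu.2
    have hAS : Subgroup.zpowers x ≤ Subgroup.normalizer (S₁ : Set G) := by
      rw [Subgroup.zpowers_le]; exact hxS₁
    have hS₁p : IsPGroup ℓ S₁ := hSp.to_le inf_le_left
    obtain ⟨m₁, hm₁⟩ := IsPGroup.iff_card.mp hS₁p
    have hcop : (Nat.card (Subgroup.zpowers x)).Coprime (Nat.card S₁) := by
      rw [Nat.card_zpowers, hm₁]
      exact Nat.Coprime.coprime_dvd_left (orderOf_dvd_of_pow_eq_one hxr)
        (Nat.Coprime.pow_right _ ((Nat.coprime_primes hr hℓ.out).mpr hrℓ))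
    have hsup := Cfsg.Agent.H01.commutator_sup_centralizer hAS hcop (Or.inr inferInstance)
    have hcentre : S₁ ⊓ Subgroup.centralizer ((Subgroup.zpowers x : Subgroup G) : Set G) = ⊥ := by
      rw [eq_bot_iff, ← hfixS]
      intro u hu
      refine Subgroup.mem_inf.mpr ⟨(Subgroup.mem_inf.mp (Subgroup.mem_inf.mp hu).1).1, ?_⟩
      rw [Subgroup.mem_centralizer_iff]
      intro z hz
      rw [Set.mem_singleton_iff.mp hz]
      exact Subgroup.mem_centralizer_iff.mp (Subgroup.mem_inf.mp hu).2 x (Subgroup.mem_zpowers x)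
    rw [hcentre, sup_bot_eq] at hsup
    have hcomm : ⁅S₁, Subgroup.zpowers x⁆ ≤ Kf ℓ G := by
      rw [Subgroup.commutator_le]
      intro u hu c hc
      obtain ⟨j, rfl⟩ := Subgroup.mem_zpowers_iff.mp hc
      have h1 := ((mem_S₁ u).mp hu).2
      have h2 : Commute (mk x) (mk u) := h1
      have h3 : mk ⁅u, x ^ j⁆ = 1 := by
        rw [commutatorElement_def]
        simp only [map_mul, map_inv, map_zpow]
        have h4 : Commute (mk u) ((mk x) ^ j) := (h2.zpow_left j).symm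
        rw [h4.eq]
        group
      exact (QuotientGroup.eq_one_iff _).mp h3
    have h5 : s ∈ Kf ℓ G := hcomm (by rw [hsup]; exact hsS₁)
    apply Subtype.ext
    exact (QuotientGroup.eq_one_iff _).mpr h5
  have hxnorm : a ∈ Subgroup.normalizer ((Y.map φ₀ : Subgroup (MulAut (Vf ℓ G))) : Set (MulAut (Vf ℓ G))) :=
    Subgroup.le_normalizer_map φ₀ ⟨x, hxY, rfl⟩
  have hZ := Cfsg.Agent.H26.CoprimeZ.lemmaZ (A := Vf ℓ G) (ℓ := ℓ) (q := q) (r := r) Vf_pow hq2 hr2 hqℓ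
    hrℓ hrq a har hfix _ (Y.map φ₀) rfl (isPGroup_map _ hYq _) hxnorm
  have hDker : ⁅Y, Subgroup.zpowers x⁆ ≤ φ₀.ker := by
    rw [Subgroup.commutator_le]
    intro y hy c hc
    obtain ⟨j, rfl⟩ := Subgroup.mem_zpowers_iff.mp hc
    rw [MonoidHom.mem_ker]
    have h1 := hZ (φ₀ y) ⟨y, hy, rfl⟩
    have h2 : Commute a (φ₀ y) := by
      rw [mul_inv_eq_iff_eq_mul] at h1
      exact h1
    have h3 : φ₀ (x ^ j) = a ^ j := by rw [map_zpow]
    rw [commutatorElement_def]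
    simp only [map_mul, map_inv]
    rw [h3]
    have h4 : Commute (φ₀ y) (a ^ j) := (h2.zpow_left j).symm
    rw [h4.eq]
    group
  obtain ⟨k, hk⟩ := IsPGroup.iff_card.mp hYq
  have hDle : ⁅Y, Subgroup.zpowers x⁆ ≤ Y := by
    rw [Subgroup.commutator_le]
    intro u hu c hc
    have h1 : u * c * u⁻¹ * c⁻¹ = u * (c * u⁻¹ * c⁻¹) := by group
    show u * c * u⁻¹ * c⁻¹ ∈ Y
    rw [h1]
    have hcN : c ∈ Subgroup.normalizer (Y : Set G) :=
      (Subgroup.zpowers_le.mpr hxY) hc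
    exact Y.mul_mem hu ((Subgroup.mem_normalizer_iff.mp hcN _).mp (Y.inv_mem hu))
  have hDp : IsPGroup q ↥(⁅Y, Subgroup.zpowers x⁆ : Subgroup G) := hYq.to_le hDle
  obtain ⟨k₁, hk₁⟩ := IsPGroup.iff_card.mp hDp
  apply Cfsg.Agent.H01.centralizes_of_trivial_on_frattini_quotient
  · exact fun d _ => mem_normalizer_of_conj (fun s hs => hSn.conj_mem s hs d)
  · have hFp : IsPGroup ℓ (frattini ↥(Cfsg.pCore ℓ G)) := hSp.to_subgroup _
    obtain ⟨k₂, hk₂⟩ := IsPGroup.iff_card.mp hFp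
    rw [hk₁, hk₂]
    exact Nat.Coprime.pow _ _ ((Nat.coprime_primes hq.out hℓ.out).mpr hqℓ)
  · intro d hd s hs
    have h1 : φ₀ d = 1 := hDker hd
    have h2 := congrArg (fun f : MulAut (Vf ℓ G) => ((f ⟨mk s, ⟨s, hs, rfl⟩⟩ : Vf ℓ G) : G ⧸ Kf ℓ G)) h1
    have h3 : mk d * mk s * (mk d)⁻¹ = mk s := h2
    have h4 : mk (d * s * d⁻¹ * s⁻¹) = 1 := by
      simp only [map_mul, map_inv]
      rw [h3]
      group
    exact (QuotientGroup.eq_one_iff _).mp h4


theorem pcore_of_normal_le (K : Subgroup G) [hK : K.Normal] (ℓ : ℕ) [Fact ℓ.Prime] :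
    (Cfsg.pCore ℓ ↥K).map K.subtype ≤ Cfsg.pCore ℓ G := by
  apply Cfsg.Agent.H01.le_pCore
  · refine ⟨?_⟩
    rintro _ ⟨u, hu, rfl⟩ g
    have h1 := pcore_aut ℓ (MulAut.conjNormal g) hu
    exact ⟨_, h1, by simp [MulAut.conjNormal_apply]⟩
  · exact isPGroup_map _ (Cfsg.Agent.H01.pCore_isPGroup ℓ) _

theorem pCore_le_fittingOf (K : Subgroup G) [hK : K.Normal] (ℓ : ℕ) [Fact ℓ.Prime]
    (hle : Cfsg.pCore ℓ G ≤ K) : Cfsg.pCore ℓ G ≤ Cfsg.fittingOf K := by
  haveI hSn := Cfsg.Agent.H01.pCore_normal (G := G) ℓ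
  have h1 : (Cfsg.pCore ℓ G).subgroupOf K ≤ Cfsg.fittingSubgroup ↥K := by
    apply Cfsg.Agent.H01.le_fitting
    · exact Subgroup.Normal.subgroupOf inferInstance K
    · have hp : IsPGroup ℓ ↥((Cfsg.pCore ℓ G).subgroupOf K) :=
        (Cfsg.Agent.H01.pCore_isPGroup (G := G) ℓ).of_injective
          ((Subgroup.subgroupOfEquivOfLe hle).toMonoidHom) (MulEquiv.injective _)
      exact hp.isNilpotent
  intro u hu
  exact ⟨⟨u, hle hu⟩, h1 (by simpa [Subgroup.mem_subgroupOf] using hu), rfl⟩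

theorem comm_le_fitting (K : Subgroup G) [hK : K.Normal] (q : ℕ) [hq : Fact q.Prime]
    (L D : Subgroup G) (hLK : L ≤ K) (hLn : ∀ k ∈ K, ∀ l ∈ L, k * l * k⁻¹ ∈ L)
    (hLq : ∀ c ∈ L, ∃ m : ℕ, c ^ q ^ m ∈ Cfsg.fittingOf K) (hDL : D ≤ L)
    (hDC : ∀ ℓ : ℕ, ℓ.Prime → ℓ ≠ q → ℓ ∣ Nat.card K →
      D ≤ Subgroup.centralizer (Cfsg.pCore ℓ G : Set G)) :
    D ≤ Cfsg.fittingOf K := by
  classical
  let ι := {ℓ : ℕ // ℓ.Prime ∧ ℓ ≠ q ∧ ℓ ∣ Nat.card K}
  let W : Subgroup G := ⨆ ℓ : ι, Cfsg.pCore ℓ.1 G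
  haveI hWn : W.Normal := by
    haveI : ∀ ℓ : ι, (Cfsg.pCore ℓ.1 G).Normal := fun ℓ => Cfsg.Agent.H01.pCore_normal _
    exact Subgroup.iSup_normal _
  have hWC : ∀ d ∈ D, ∀ w ∈ W, w * d = d * w := by
    intro d hd w hw
    have h1 : W ≤ Subgroup.centralizer ({d} : Set G) := by
      apply iSup_le
      intro ℓ u hu
      rw [Subgroup.mem_centralizer_iff]
      intro z hz
      rw [Set.mem_singleton_iff.mp hz]
      exact (Subgroup.mem_centralizer_iff.mp (hDC ℓ.1 ℓ.2.1 ℓ.2.2.1 ℓ.2.2.2 hd) u hu).symm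
    have h2 := Subgroup.mem_centralizer_iff.mp (h1 hw) d (Set.mem_singleton _)
    exact h2.symm
  let C₁ : Subgroup G := L ⊓ Subgroup.centralizer (W : Set G)
  have hC₁K : C₁ ≤ K := inf_le_left.trans hLK
  have hDC₁ : D ≤ C₁ := by
    intro d hd
    refine Subgroup.mem_inf.mpr ⟨hDL hd, Subgroup.mem_centralizer_iff.mpr ?_⟩
    intro w hw
    exact hWC d hd w hw
  -- the Fitting subgroup lies in `O_q ⊔ W`
  have hFle : Cfsg.fittingOf K ≤ Cfsg.pCore q G ⊔ W := by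
    unfold Cfsg.fittingOf
    rw [Cfsg.Agent.H01.fitting_eq_iSup_pCore, Subgroup.map_iSup]
    apply iSup_le
    rintro ⟨ℓ, hℓ⟩
    haveI : Fact ℓ.Prime := ⟨hℓ⟩
    by_cases hd : ℓ ∣ Nat.card K
    · by_cases he : ℓ = q
      · subst he
        exact (pcore_of_normal_le K ℓ).trans le_sup_left
      · refine (pcore_of_normal_le K ℓ).trans (le_trans ?_ le_sup_right)
        exact le_iSup (fun ℓ : ι => Cfsg.pCore ℓ.1 G) ⟨ℓ, hℓ, he, hd⟩
    · have h0 : Cfsg.pCore ℓ ↥K = ⊥ := Cfsg.Agent.H01.pCore_eq_bot_of_not_dvd ℓ hd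
      change (Cfsg.pCore ℓ ↥K).map K.subtype ≤ _
      rw [h0, Subgroup.map_bot]
      exact bot_le
  have hWcommq : ∀ p ∈ Cfsg.pCore q G, ∀ w ∈ W, Commute p w := by
    intro p hp w hw
    have h1 : W ≤ Subgroup.centralizer ({p} : Set G) := by
      apply iSup_le
      intro ℓ u hu
      haveI : Fact ℓ.1.Prime := ⟨ℓ.2.1⟩
      rw [Subgroup.mem_centralizer_iff]
      intro z hz
      rw [Set.mem_singleton_iff.mp hz]
      exact Cfsg.Agent.H01.pCore_commute (Ne.symm ℓ.2.2.1) p u hp hu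
    have h2 := Subgroup.mem_centralizer_iff.mp (h1 hw) p (Set.mem_singleton _)
    exact h2
  have hFW : ∀ f ∈ Cfsg.fittingOf K, ∃ t : ℕ, f ^ q ^ t ∈ W := by
    intro f hf
    obtain ⟨p, hp, w, hw, rfl⟩ := Cfsg.Agent.H01.exists_mul_of_mem_sup
      (fun w _ => mem_normalizer_of_conj (fun s hs =>
        (Cfsg.Agent.H01.pCore_normal (G := G) q).conj_mem s hs w)) (hFle hf)
    obtain ⟨t, ht⟩ := Cfsg.Agent.H01.pCore_isPGroup (G := G) q ⟨p, hp⟩
    have ht' : p ^ q ^ t = 1 := congrArg Subtype.val ht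
    refine ⟨t, ?_⟩
    rw [(hWcommq p hp w hw).mul_pow, ht', one_mul]
    exact W.pow_mem hw _
  -- nilpotency of `C₁`
  have hC₁nil : Group.IsNilpotent C₁ := by
    apply Group.of_quotient_center_nilpotent
    have hp : IsPGroup q (C₁ ⧸ Subgroup.center C₁) := by
      intro g
      obtain ⟨c, rfl⟩ := QuotientGroup.mk_surjective g
      obtain ⟨m, hm⟩ := hLq c.1 (Subgroup.mem_inf.mp c.2).1
      obtain ⟨t, ht⟩ := hFW _ hm
      refine ⟨m + t, ?_⟩
      rw [← QuotientGroup.mk_pow, QuotientGroup.eq_one_iff, Subgroup.mem_center_iff]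
      intro e
      apply Subtype.ext
      have h1 : (c.1 ^ q ^ m) ^ q ^ t = c.1 ^ q ^ (m + t) := by
        rw [← pow_mul, pow_add]
      rw [h1] at ht
      have h2 := Subgroup.mem_centralizer_iff.mp (Subgroup.mem_inf.mp e.2).2 _ ht
      simpa using h2.symm
    exact hp.isNilpotent
  have hfinal : C₁.subgroupOf K ≤ Cfsg.fittingSubgroup ↥K := by
    apply Cfsg.Agent.H01.le_fitting
    · refine ⟨?_⟩
      intro n hn g
      rw [Subgroup.mem_subgroupOf] at hn ⊢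
      refine Subgroup.mem_inf.mpr ⟨hLn g.1 g.2 n.1 (Subgroup.mem_inf.mp hn).1, ?_⟩
      rw [Subgroup.mem_centralizer_iff]
      intro w hw
      have h1 : g.1⁻¹ * w * g.1 ∈ W := by
        have := hWn.conj_mem w hw g.1⁻¹
        simpa using this
      have h2 := Subgroup.mem_centralizer_iff.mp (Subgroup.mem_inf.mp hn).2 _ h1
      simp only [Subgroup.coe_mul, InvMemClass.coe_inv]
      calc w * (g.1 * n.1 * g.1⁻¹) = g.1 * ((g.1⁻¹ * w * g.1) * n.1) * g.1⁻¹ := by group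
        _ = g.1 * (n.1 * (g.1⁻¹ * w * g.1)) * g.1⁻¹ := by rw [h2]
        _ = g.1 * n.1 * g.1⁻¹ * w := by group
    · exact Group.nilpotent_of_surjective
        (Subgroup.subgroupOfEquivOfLe hC₁K).symm.toMonoidHom (MulEquiv.surjective _)
  intro d hd
  exact ⟨⟨d, hC₁K (hDC₁ hd)⟩, hfinal (by simpa [Subgroup.mem_subgroupOf] using hDC₁ hd), rfl⟩


theorem core (K : Subgroup G) [hK : K.Normal] (x : G) {r : ℕ} (hr : r.Prime) (hr2 : r ≠ 2)
    (hxr : x ^ r = 1) (hrK : r.Coprime (Nat.card K)) (hKodd : Odd (Nat.card K))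
    (hπ : ∀ ℓ : ℕ, ℓ.Prime → ℓ ∣ Nat.card K → Cfsg.pCore ℓ G ≤ K)
    (hF : Cfsg.fittingOf K ⊓ Subgroup.centralizer ({x} : Set G) = ⊥) :
    ∀ k ∈ K, x * k * x⁻¹ * k⁻¹ ∈ Cfsg.fittingOf K := by
  classical
  let F₀ : Subgroup ↥K := Cfsg.fittingSubgroup ↥K
  haveI hF₀n : F₀.Normal := Cfsg.Agent.H01.fitting_normal
  let α : MulAut ↥K := MulAut.conjNormal x
  have hαv : ∀ k : ↥K, ((α k : ↥K) : G) = x * k * x⁻¹ := fun k => MulAut.conjNormal_apply x k
  have hαF : F₀.map α.toMonoidHom = F₀ := by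
    apply le_antisymm
    · rintro _ ⟨u, hu, rfl⟩
      exact fit_aut α hu
    · intro u hu
      exact ⟨α⁻¹ u, fit_aut α⁻¹ hu, by simp⟩
  let β : MulAut (↥K ⧸ F₀) := QuotientGroup.congr F₀ F₀ α hαF
  let π : ↥K →* ↥K ⧸ F₀ := QuotientGroup.mk' F₀
  have hβπ : ∀ k, β (π k) = π (α k) := fun k => rfl
  have hsurj : Function.Surjective π := QuotientGroup.mk'_surjective F₀
  have hβpow : ∀ (j : ℕ) (k : ↥K), (β ^ j) (π k) = π ((α ^ j) k) := by
    intro j
    induction j with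
    | zero => intro k; rfl
    | succ j ih =>
      intro k
      rw [pow_succ', pow_succ', MulAut.mul_apply, MulAut.mul_apply, ih, hβπ]
  have hαr : α ^ r = 1 := by
    change (MulAut.conjNormal x) ^ r = 1
    rw [← map_pow, hxr, map_one]
  have hβr : β ^ r = 1 := by
    apply MulEquiv.ext
    intro u
    obtain ⟨k, rfl⟩ := hsurj u
    rw [hβpow, hαr]
    rfl
  have hcardQ : Nat.card (↥K ⧸ F₀) ∣ Nat.card K := Subgroup.card_quotient_dvd_card F₀
  have hrQ : r.Coprime (Nat.card (↥K ⧸ F₀)) := Nat.Coprime.coprime_dvd_right hcardQ hrK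
  have hstepC : ∀ (q : ℕ) [Fact q.Prime], ∀ u ∈ Cfsg.pCore q (↥K ⧸ F₀), β u = u := by
    intro q _ u hu
    by_cases hqK : q ∣ Nat.card K
    swap
    · have h0 : Cfsg.pCore q (↥K ⧸ F₀) = ⊥ :=
        Cfsg.Agent.H01.pCore_eq_bot_of_not_dvd q (fun h => hqK (h.trans hcardQ))
      rw [h0, Subgroup.mem_bot] at hu
      rw [hu, map_one]
    have hqp : q.Prime := Fact.out
    have hq2 : q ≠ 2 := by
      rintro rfl
      obtain ⟨m, hm⟩ := hqK
      rw [hm] at hKodd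
      exact (Nat.not_even_iff_odd.mpr hKodd) (even_two_mul m)
    have hrq : r ≠ q := by
      rintro rfl
      have h1 := Nat.eq_one_of_dvd_coprimes hrK (dvd_refl r) hqK
      exact hr.one_lt.ne' h1
    let U : Subgroup (↥K ⧸ F₀) := Cfsg.pCore q (↥K ⧸ F₀)
    haveI hUn : U.Normal := Cfsg.Agent.H01.pCore_normal q
    have hUp : IsPGroup q U := Cfsg.Agent.H01.pCore_isPGroup q
    let L₀ : Subgroup ↥K := U.comap π
    let L : Subgroup G := L₀.map K.subtype
    have hLK : L ≤ K := by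
      rintro _ ⟨u, -, rfl⟩
      exact u.2
    have memL : ∀ (k : ↥K), (k : G) ∈ L ↔ π k ∈ U := by
      intro k
      constructor
      · rintro ⟨k', hk', he⟩
        have : k' = k := Subtype.ext he
        rwa [← this]
      · intro h
        exact ⟨k, h, rfl⟩
    have hLn : ∀ k ∈ K, ∀ l ∈ L, k * l * k⁻¹ ∈ L := by
      rintro k hk _ ⟨l, hl, rfl⟩
      have h1 : (((⟨k, hk⟩ : ↥K) * l * (⟨k, hk⟩ : ↥K)⁻¹ : ↥K) : G) = k * l * k⁻¹ := rfl
      change k * (l : G) * k⁻¹ ∈ L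
      rw [← h1, memL]
      rw [map_mul, map_mul, map_inv]
      exact hUn.conj_mem _ hl _
    have hxL : ∀ l ∈ L, x * l * x⁻¹ ∈ L := by
      rintro _ ⟨l, hl, rfl⟩
      change x * (l : G) * x⁻¹ ∈ L
      rw [← hαv, memL, ← hβπ]
      exact pcore_aut q β hl
    have hxLN : x ∈ Subgroup.normalizer (L : Set G) := mem_normalizer_of_conj hxL
    have hAL : Subgroup.zpowers x ≤ Subgroup.normalizer (L : Set G) := by
      rw [Subgroup.zpowers_le]; exact hxLN
    have hcopAL : (Nat.card (Subgroup.zpowers x)).Coprime (Nat.card L) := by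
      rw [Nat.card_zpowers]
      exact Nat.Coprime.coprime_dvd_left (orderOf_dvd_of_pow_eq_one hxr)
        (Nat.Coprime.coprime_dvd_right (Subgroup.card_dvd_of_le hLK) hrK)
    obtain ⟨P, hP⟩ := Cfsg.Agent.H01.exists_invariant_sylow hAL hcopAL (Or.inr inferInstance) q
    let Y : Subgroup G := (P : Subgroup L).map L.subtype
    have hYq : IsPGroup q Y := isPGroup_map _ P.isPGroup' _
    have hxY : x ∈ Subgroup.normalizer (Y : Set G) := hP (Subgroup.mem_zpowers x)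
    have hYL : Y ≤ L := by
      rintro _ ⟨u, -, rfl⟩
      exact u.2
    have hDY : ⁅Y, Subgroup.zpowers x⁆ ≤ Y := by
      rw [Subgroup.commutator_le]
      intro u hu c hc
      have h1 : u * c * u⁻¹ * c⁻¹ = u * (c * u⁻¹ * c⁻¹) := by group
      show u * c * u⁻¹ * c⁻¹ ∈ Y
      rw [h1]
      have hcN : c ∈ Subgroup.normalizer (Y : Set G) := (Subgroup.zpowers_le.mpr hxY) hc
      exact Y.mul_mem hu ((Subgroup.mem_normalizer_iff.mp hcN _).mp (Y.inv_mem hu))
    have hDC : ∀ ℓ : ℕ, ℓ.Prime → ℓ ≠ q → ℓ ∣ Nat.card K →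
        ⁅Y, Subgroup.zpowers x⁆ ≤ Subgroup.centralizer (Cfsg.pCore ℓ G : Set G) := by
      intro ℓ hℓ hne hd
      haveI : Fact ℓ.Prime := ⟨hℓ⟩
      have hrℓ : r ≠ ℓ := by
        rintro rfl
        have h1 := Nat.eq_one_of_dvd_coprimes hrK (dvd_refl r) hd
        exact hr.one_lt.ne' h1
      refine comm_centralizes x hr hr2 hxr hq2 hrq hrℓ hne.symm ?_ Y hYq hxY
      rw [eq_bot_iff, ← hF]
      exact inf_le_inf_right _ (pCore_le_fittingOf K ℓ (hπ ℓ hℓ hd))
    have hLq : ∀ c ∈ L, ∃ m : ℕ, c ^ q ^ m ∈ Cfsg.fittingOf K := by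
      rintro _ ⟨l, hl, rfl⟩
      obtain ⟨m, hm⟩ := hUp ⟨π l, hl⟩
      refine ⟨m, ?_⟩
      have h1 : π (l ^ q ^ m) = 1 := by
        rw [map_pow]
        exact congrArg Subtype.val hm
      have h2 : l ^ q ^ m ∈ F₀ := (QuotientGroup.eq_one_iff _).mp h1
      exact ⟨_, h2, by simp⟩
    have hDF : ⁅Y, Subgroup.zpowers x⁆ ≤ Cfsg.fittingOf K :=
      comm_le_fitting K q L _ hLK hLn hLq (hDY.trans hYL) hDC
    -- the image of `P` is the whole of `U`
    let τ : ↥L →* ↥U := (π.comp (Subgroup.inclusion hLK)).codRestrict U (by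
      intro l
      exact (memL _).mp l.2)
    have hτv : ∀ l : ↥L, ((τ l : ↥U) : ↥K ⧸ F₀) = π (Subgroup.inclusion hLK l) := fun l => rfl
    have hτs : Function.Surjective τ := by
      rintro ⟨v, hv⟩
      obtain ⟨k, rfl⟩ := hsurj v
      refine ⟨⟨k, (memL k).mpr hv⟩, Subtype.ext ?_⟩
      rfl
    have hmap : (P : Subgroup L).map τ = ⊤ := by
      have h1 := (P : Subgroup L).index_map_dvd hτs
      obtain ⟨n, hn⟩ := IsPGroup.iff_card.mp hUp
      have h2 : ((P : Subgroup L).map τ).index ∣ q ^ n := by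
        rw [← hn]
        exact Subgroup.index_dvd_card _
      obtain ⟨m, -, hm⟩ := (Nat.dvd_prime_pow hqp).mp h2
      cases m with
      | zero =>
        rw [pow_zero] at hm
        exact Subgroup.index_eq_one.mp hm
      | succ m =>
        exfalso
        apply P.not_dvd_index
        refine dvd_trans ?_ h1
        rw [hm]
        exact dvd_pow_self q (Nat.succ_ne_zero m)
    have hum : (⟨u, hu⟩ : ↥U) ∈ (P : Subgroup L).map τ := by
      rw [hmap]; exact Subgroup.mem_top _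
    obtain ⟨p, hp, hpe⟩ := hum
    have huval : u = π (Subgroup.inclusion hLK p) := (congrArg Subtype.val hpe).symm
    set k₀ : ↥K := Subgroup.inclusion hLK p with hk₀
    have hk₀Y : (k₀ : G) ∈ Y := ⟨p, hp, rfl⟩
    rw [huval, hβπ]
    -- `x` acts trivially modulo the Fitting subgroup on `Y`
    have hcm : ((k₀⁻¹ * α k₀ : ↥K) : G) = ⁅(k₀⁻¹ : ↥K).1, x⁆ := by
      rw [commutatorElement_def]
      simp only [Subgroup.coe_mul, InvMemClass.coe_inv, hαv, inv_inv]
      group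
    have hcD : ((k₀⁻¹ * α k₀ : ↥K) : G) ∈ Cfsg.fittingOf K := by
      rw [hcm]
      apply hDF
      apply Subgroup.commutator_mem_commutator
      · exact Y.inv_mem hk₀Y
      · exact Subgroup.mem_zpowers x
    obtain ⟨w, hw, hwe⟩ := hcD
    have hw' : w = k₀⁻¹ * α k₀ := Subtype.ext hwe
    rw [hw'] at hw
    symm
    exact QuotientGroup.eq.mpr hw
  have hfitQ : ∀ u ∈ Cfsg.fittingSubgroup (↥K ⧸ F₀), β u = u := by
    intro u hu
    rw [Cfsg.Agent.H01.fitting_eq_iSup_pCore] at hu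
    have hle : (⨆ p : Nat.Primes, Cfsg.pCore (p : ℕ) (↥K ⧸ F₀)) ≤
        MonoidHom.eqLocus β.toMonoidHom (MonoidHom.id _) := by
      apply iSup_le
      rintro ⟨p, hp⟩
      haveI : Fact p.Prime := ⟨hp⟩
      intro v hv
      exact hstepC p v hv
    exact hle hu
  have hall := fix_all β hrQ hβr hfitQ
  intro k hk
  have h1 := hall (π ⟨k, hk⟩)
  rw [hβπ] at h1
  have h2 : π (α ⟨k, hk⟩ * (⟨k, hk⟩ : ↥K)⁻¹) = 1 := by
    rw [map_mul, map_inv, h1, mul_inv_cancel]
  have h3 : α ⟨k, hk⟩ * (⟨k, hk⟩ : ↥K)⁻¹ ∈ F₀ := (QuotientGroup.eq_one_iff _).mp h2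
  refine ⟨_, h3, ?_⟩
  simp only [Subgroup.subtype_apply, Subgroup.coe_mul, InvMemClass.coe_inv, hαv]

end core

theorem fit_normal {G : Type*} [Group G] [Finite G] (K : Subgroup G) [K.Normal] : (Cfsg.fittingOf K).Normal := by
  refine ⟨?_⟩
  rintro _ ⟨u, hu, rfl⟩ g
  have h1 := fit_aut (MulAut.conjNormal (H := K) g) hu
  exact ⟨_, h1, by simp [MulAut.conjNormal_apply]⟩

theorem pcore_le_K {G : Type*} [Group G] [Finite G] (K R : Subgroup G) [K.Normal] (hKR : K ⊔ R = ⊤)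
    (hcop : (Nat.card K).Coprime (Nat.card R)) (ℓ : ℕ) (hℓ : ℓ.Prime) (hd : ℓ ∣ Nat.card K) :
    Cfsg.pCore ℓ G ≤ K := by
  intro s hs
  haveI : Fact ℓ.Prime := ⟨hℓ⟩
  obtain ⟨m, hm⟩ := Cfsg.Agent.H01.pCore_isPGroup (G := G) ℓ ⟨s, hs⟩
  have hm' : s ^ ℓ ^ m = 1 := congrArg Subtype.val hm
  have hidx : K.index ∣ Nat.card R := by
    have h1 : K.relIndex (K ⊔ R) = K.relIndex R := Subgroup.relIndex_sup_left R K
    rw [hKR, Subgroup.relIndex_top_right] at h1
    rw [h1]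
    exact Subgroup.relIndex_dvd_card K R
  have h1 : ((s : G) : G ⧸ K) ^ K.index = 1 := by
    have := pow_card_eq_one' (x := ((s : G) : G ⧸ K))
    rwa [← Subgroup.index_eq_card] at this
  have h2 : ((s : G) : G ⧸ K) ^ ℓ ^ m = 1 := by
    rw [← QuotientGroup.mk_pow, hm']
    rfl
  have hcop2 : Nat.Coprime K.index (ℓ ^ m) := by
    apply Nat.Coprime.pow_right
    exact (Nat.Coprime.coprime_dvd_left hidx (Nat.Coprime.coprime_dvd_left hd hcop).symm)
  have h3 : ((s : G) : G ⧸ K) = 1 := by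
    have h4 := orderOf_dvd_of_pow_eq_one h1
    have h5 := orderOf_dvd_of_pow_eq_one h2
    exact orderOf_eq_one_iff.mp (Nat.eq_one_of_dvd_coprimes hcop2 h4 h5)
  exact (QuotientGroup.eq_one_iff _).mp h3

theorem comm_zpowers {G : Type*} [Group G] (K F : Subgroup G) (hKn : K.Normal) (hFn : F.Normal) (x : G)
    (h : ∀ k ∈ K, x * k * x⁻¹ * k⁻¹ ∈ F) : ⁅K, Subgroup.zpowers x⁆ ≤ F := by
  let T : Subgroup G :=
    { carrier := {s | ∀ k ∈ K, s * k * s⁻¹ * k⁻¹ ∈ F}
      one_mem' := by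
        intro k hk
        have : (1 : G) * k * 1⁻¹ * k⁻¹ = 1 := by group
        rw [this]
        exact F.one_mem
      mul_mem' := by
        intro s t hs ht k hk
        have e : (s * t) * k * (s * t)⁻¹ * k⁻¹ =
            (s * (t * k * t⁻¹ * k⁻¹) * s⁻¹) * (s * k * s⁻¹ * k⁻¹) := by group
        rw [e]
        exact F.mul_mem (hFn.conj_mem _ (ht k hk) s) (hs k hk)
      inv_mem' := by
        intro s hs k hk
        have hk' : s⁻¹ * k * s ∈ K := by
          have := hKn.conj_mem k hk s⁻¹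
          simpa using this
        have h1 := hs _ hk'
        have e : s⁻¹ * k * s⁻¹⁻¹ * k⁻¹ = (s * (s⁻¹ * k * s) * s⁻¹ * (s⁻¹ * k * s)⁻¹)⁻¹ := by group
        rw [e]
        exact F.inv_mem h1 }
  have hxT : Subgroup.zpowers x ≤ T := by
    rw [Subgroup.zpowers_le]
    exact h
  rw [Subgroup.commutator_le]
  intro k hk c hc
  have h1 := hxT hc k⁻¹ (K.inv_mem hk)
  have e : k * c * k⁻¹ * c⁻¹ = k * (c * k⁻¹ * c⁻¹ * k⁻¹⁻¹) * k⁻¹ := by group
  show k * c * k⁻¹ * c⁻¹ ∈ F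
  rw [e]
  exact hFn.conj_mem _ h1 k

theorem final_step {G : Type*} [Group G] [Finite G] (K F C : Subgroup G) (R : Set G) (hFn : F.Normal)
    (hdec : ∀ k ∈ K, ∃ f ∈ F, ∃ c ∈ C, k = f * c) (hC : ∀ c ∈ C, ∀ s ∈ R, s * c = c * s)
    (s : G) (hs : s ∈ R) (k : G) (hk : k ∈ K) : k * s * k⁻¹ * s⁻¹ ∈ F := by
  obtain ⟨f, hf, c, hc, rfl⟩ := hdec k hk
  have hcs : s * c = c * s := hC c hc s hs
  have e : (f * c) * s * (f * c)⁻¹ * s⁻¹ = f * (s * f⁻¹ * s⁻¹) := by
    calc (f * c) * s * (f * c)⁻¹ * s⁻¹ = f * (c * s) * c⁻¹ * f⁻¹ * s⁻¹ := by group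
      _ = f * (s * c) * c⁻¹ * f⁻¹ * s⁻¹ := by rw [hcs]
      _ = f * (s * f⁻¹ * s⁻¹) := by group
  rw [e]
  exact F.mul_mem hf (hFn.conj_mem _ (F.inv_mem hf) s)

theorem dec_step {G : Type*} [Group G] [Finite G] (K F C : Subgroup G) [hKn : K.Normal] (hFn : F.Normal)
    (x : G) (hxo : (orderOf x).Coprime (Nat.card K))
    (hKA : ⁅K, Subgroup.zpowers x⁆ ≤ F) (hCx : K ⊓ Subgroup.centralizer ({x} : Set G) = C)
    (hsol : Group.IsSolvable K) :
    ∀ k ∈ K, ∃ f ∈ F, ∃ c ∈ C, k = f * c := by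
  have hAK : Subgroup.zpowers x ≤ Subgroup.normalizer (K : Set G) := by
    rw [Subgroup.zpowers_le]
    exact mem_normalizer_of_conj (fun s hs => hKn.conj_mem s hs x)
  have hcopA : (Nat.card (Subgroup.zpowers x)).Coprime (Nat.card K) := by
    rw [Nat.card_zpowers]
    exact hxo
  have hsup := Cfsg.Agent.H01.commutator_sup_centralizer hAK hcopA (Or.inr hsol)
  intro k hk
  have h1 : k ∈ F ⊔ C := by
    have h2 : K ≤ F ⊔ C := by
      rw [← hsup]
      apply sup_le_sup hKA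
      rw [← hCx]
      intro u hu
      refine Subgroup.mem_inf.mpr ⟨(Subgroup.mem_inf.mp hu).1, ?_⟩
      rw [Subgroup.mem_centralizer_iff]
      intro z hz
      rw [Set.mem_singleton_iff.mp hz]
      exact Subgroup.mem_centralizer_iff.mp (Subgroup.mem_inf.mp hu).2 x (Subgroup.mem_zpowers x)
    exact h2 hk
  exact Cfsg.Agent.H01.exists_mul_of_mem_sup
    (fun w _ => mem_normalizer_of_conj (fun s hs => hFn.conj_mem s hs w)) h1

theorem fx_step {G : Type*} [Group G] (K F C D : Subgroup G) (x : G) (hFK : F ≤ K)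
    (hF : F ⊓ C = ⊥) (hp : K ⊓ D = K ⊓ C) : F ⊓ D = ⊥ := by
  rw [eq_bot_iff, ← hF]
  intro u hu
  have hu1 := Subgroup.mem_inf.mp hu
  have h2 : u ∈ K ⊓ D := Subgroup.mem_inf.mpr ⟨hFK hu1.1, hu1.2⟩
  rw [hp] at h2
  exact Subgroup.mem_inf.mpr ⟨hu1.1, (Subgroup.mem_inf.mp h2).2⟩

theorem fit_le {G : Type*} [Group G] (K : Subgroup G) : Cfsg.fittingOf K ≤ K := by
  rintro _ ⟨u, -, rfl⟩
  exact u.2

/-- Let G be a solvable group of odd order, K a normal subgroup and R a subgroup with G = KR and the orders of K and R coprime. Suppose K ∩ C_G(x) = K ∩ C_G(R) for every non-identity x ∈ R, and F(K) ∩ C_G(R) = 1. Then [K, R] is contained in the Fitting subgroup of K. -/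
theorem result {G : Type*} [Group G] [Finite G] [Group.IsSolvable G] (hodd : Odd (Nat.card G)) (K R : Subgroup G) [K.Normal] (hKR : K ⊔ R = ⊤) (hcop : (Nat.card K).Coprime (Nat.card R))
    (hprime : ∀ x ∈ R, x ≠ 1 → K ⊓ Subgroup.centralizer ({x} : Set G) = (K ⊓ Subgroup.centralizer (R : Set G)))
    (hF : Cfsg.fittingOf K ⊓ Subgroup.centralizer (R : Set G) = ⊥) :
    ⁅K, R⁆ ≤ Cfsg.fittingOf K := by
  classical
  by_cases hRbot : R = ⊥
  · rw [hRbot, Subgroup.commutator_bot_right]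
    exact bot_le
  have hRne : Nontrivial R := (Subgroup.nontrivial_iff_ne_bot R).mpr hRbot
  have hRcard : 1 < Nat.card R := Finite.one_lt_card
  obtain ⟨r, hr, hrd⟩ := Nat.exists_prime_and_dvd (Nat.ne_of_gt hRcard)
  haveI : Fact r.Prime := ⟨hr⟩
  obtain ⟨xR, hxR⟩ := exists_prime_orderOf_dvd_card' r hrd
  obtain ⟨x, hxRm, hxo⟩ : ∃ x : G, x ∈ R ∧ orderOf x = r :=
    ⟨xR, xR.2, by rw [← hxR]; exact Subgroup.orderOf_coe xR⟩
  have hxr : x ^ r = 1 := by rw [← hxo]; exact pow_orderOf_eq_one x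
  have hx1 : x ≠ 1 := by
    intro h
    rw [h, orderOf_one] at hxo
    exact hr.one_lt.ne hxo
  have hFK : Cfsg.fittingOf K ≤ K := fit_le K
  have hcarddvd : Nat.card R ∣ Nat.card G := Subgroup.card_subgroup_dvd_card R
  have hr2 : r ≠ 2 := by
    rintro rfl
    exact (Nat.not_even_iff_odd.mpr hodd) (even_iff_two_dvd.mpr (hrd.trans hcarddvd))
  have hrK : r.Coprime (Nat.card K) :=
    (Nat.Coprime.coprime_dvd_right hrd hcop).symm
  have hKodd : Odd (Nat.card K) := Odd.of_dvd_nat hodd (Subgroup.card_subgroup_dvd_card K)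
  have hπ : ∀ ℓ : ℕ, ℓ.Prime → ℓ ∣ Nat.card K → Cfsg.pCore ℓ G ≤ K := pcore_le_K K R hKR hcop
  have hFx : Cfsg.fittingOf K ⊓ Subgroup.centralizer ({x} : Set G) = ⊥ :=
    fx_step K _ _ _ x hFK hF (hprime x hxRm hx1)
  have hcore := core K x hr hr2 hxr hrK hKodd hπ hFx
  have hFn : (Cfsg.fittingOf K).Normal := fit_normal K
  have hKA : ⁅K, Subgroup.zpowers x⁆ ≤ Cfsg.fittingOf K := comm_zpowers K _ inferInstance hFn x hcore
  have hsolK : Group.IsSolvable K := inferInstance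
  have hdec := dec_step K (Cfsg.fittingOf K) (K ⊓ Subgroup.centralizer (R : Set G)) hFn x (by rw [hxo]; exact hrK) hKA
    (hprime x hxRm hx1) hsolK
  rw [Subgroup.commutator_le]
  intro k hk s hs
  exact final_step K _ (K ⊓ Subgroup.centralizer (R : Set G)) (R : Set G) hFn hdec
    (fun c hc s hs => Subgroup.mem_centralizer_iff.mp (Subgroup.mem_inf.mp hc).2 s hs) s hs k hk

end Cfsg.Agent.S1445
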