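import Cfsg.Statements.S1463
import Cfsg.Agent.Lib.H06.GL2c

set_option autoImplicit false

open Cfsg
open scoped MatrixGroups Pointwise

namespace Cfsg.Agent.S1463

open Cfsg.Agent.H06 Matrix

universe u

section Aux

variable {F : Type u} [Field F]

local notation "M₂" => Matrix (Fin 2) (Fin 2) F

/-- Nilpotent `2 × 2`-matrices have square zero. -/
theorem sq_zero_of_pow {n : M₂} {k : ℕ} (h : n ^ k = 0) (hne : n ≠ 0) : n * n = 0 := by
  have hdet : n.det = 0 := by
    have h1 := congrArg Matrix.det h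
    rw [Matrix.det_pow] at h1
    have hk : k ≠ 0 := by
      rintro rfl
      rw [pow_zero] at h
      exact one_ne_zero h
    rw [Matrix.det_zero] at h1
    exact pow_eq_zero_iff hk |>.mp h1
  have hCH : n * n = Matrix.trace n • n := by
    apply mat_ext
    · rw [mul00]
      rw [Matrix.det_fin_two] at hdet
      simp [Matrix.trace_fin_two]
      linear_combination -hdet
    · rw [mul01]
      simp [Matrix.trace_fin_two]
      ring
    · rw [mul10]
      simp [Matrix.trace_fin_two]
      ring
    · rw [mul11]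
      rw [Matrix.det_fin_two] at hdet
      simp [Matrix.trace_fin_two]
      linear_combination -hdet
  have hpow : ∀ j : ℕ, n ^ (j + 1) = Matrix.trace n ^ j • n := by
    intro j
    induction j with
    | zero => simp
    | succ j ih =>
      rw [pow_succ, ih, Matrix.smul_mul, hCH, smul_smul, pow_succ]
  have hk : k ≠ 0 := by
    rintro rfl
    rw [pow_zero] at h
    exact one_ne_zero h
  obtain ⟨j, rfl⟩ := Nat.exists_eq_succ_of_ne_zero hk
  have h2 := hpow j
  rw [Nat.succ_eq_add_one, h] at *
  have h3 : Matrix.trace n ^ j = 0 := by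
    by_contra h4
    have h5 : n = (Matrix.trace n ^ j)⁻¹ • (Matrix.trace n ^ j • n) := by
      rw [smul_smul, inv_mul_cancel₀ h4, one_smul]
    rw [← h2, smul_zero] at h5
    exact hne h5
  have h4 : Matrix.trace n = 0 := by
    by_contra h0
    exact pow_ne_zero j h0 h3
  rw [hCH, h4, zero_smul]

/-- Square-zero nonzero matrices are conjugate to `E₁₂`. -/
theorem exists_basis_of_sq_zero {n : M₂} (hn : n * n = 0) (hne : n ≠ 0) :
    ∃ w : M₂, w.det ≠ 0 ∧ n * w = w * !![0, 1; 0, 0] := by
  have e00 := congrFun (congrFun hn 0) 0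
  have e01 := congrFun (congrFun hn 0) 1
  have e10 := congrFun (congrFun hn 1) 0
  have e11 := congrFun (congrFun hn 1) 1
  rw [mul00] at e00
  rw [mul01] at e01
  rw [mul10] at e10
  rw [mul11] at e11
  simp only [Matrix.zero_apply] at e00 e01 e10 e11
  by_cases h01 : n 0 1 = 0
  · rw [h01] at e00 e11
    have h00 : n 0 0 = 0 := by
      have : n 0 0 ^ 2 = 0 := by linear_combination e00
      exact pow_eq_zero_iff (two_ne_zero) |>.mp this
    have h11 : n 1 1 = 0 := by
      have : n 1 1 ^ 2 = 0 := by linear_combination e11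
      exact pow_eq_zero_iff (two_ne_zero) |>.mp this
    have h10 : n 1 0 ≠ 0 := by
      intro h10
      apply hne
      apply mat_ext <;> simp [h00, h01, h10, h11]
    refine ⟨!![0, 1; n 1 0, 0], ?_, ?_⟩
    · rw [Matrix.det_fin_two]
      simp [h10]
    · apply mat_ext <;> simp [mul00, mul01, mul10, mul11, h00, h01, h11]
  · refine ⟨!![n 0 1, 0; n 1 1, 1], ?_, ?_⟩
    · rw [Matrix.det_fin_two]
      simp [h01]
    · have hh : n 0 0 = - n 1 1 := by
        apply mul_left_cancel₀ h01
        linear_combination e01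
      have h10 : n 1 0 * n 0 1 = - (n 1 1 * n 1 1) := by linear_combination e11
      apply mat_ext <;> simp [mul00, mul01, mul10, mul11]
      · rw [hh]
        ring
      · rw [mul_comm]
        linear_combination h10

theorem exists_basis_of_transvection (p : ℕ) [Fact p.Prime] [CharP F p] {U : M₂} (hU : U ^ p = 1) (hne : U ≠ 1) :
    ∃ w : M₂, w.det ≠ 0 ∧ U * w = w * transv := by
  have hn : (U - 1) ^ p = 0 := by
    rw [sub_pow_char_of_commute p (Commute.one_right U), hU, one_pow, sub_self]
  have hne' : U - 1 ≠ 0 := sub_ne_zero.mpr hne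
  obtain ⟨w, hw, hw2⟩ := exists_basis_of_sq_zero (sq_zero_of_pow hn hne') hne'
  refine ⟨w, hw, ?_⟩
  have h1 : transv = (1 : M₂) + !![0, 1; 0, 0] := by
    apply mat_ext <;> simp [transv]
  rw [h1, mul_add, mul_one, ← hw2]
  rw [sub_mul, one_mul]
  abel

end Aux

/-- Let F be a field of odd characteristic p and H a finite subgroup of odd order of GL(2, F) that leaves no 1-dimensional subspace of F² invariant. Then p does not divide the order of H. -/
theorem result {F : Type*} [Field F] (p : ℕ) [Fact p.Prime] [CharP F p] (hp : p ≠ 2)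
    (H : Subgroup (GL (Fin 2) F)) [Finite H] (hodd : Odd (Nat.card H))
    (hirr : ∀ v : Fin 2 → F, v ≠ 0 → ∃ g ∈ H, (g : Matrix (Fin 2) (Fin 2) F).mulVec v ∉ Submodule.span F {v}) :
    ¬ p ∣ Nat.card H := by
  classical
  intro hdvd
  have hpp : p.Prime := Fact.out
  have h2 : (2 : F) ≠ 0 := by
    intro h
    have h3 : ((2 : ℕ) : F) = 0 := by
      push_cast
      exact h
    have h4 := (CharP.cast_eq_zero_iff F p 2).mp h3
    exact hp ((Nat.prime_dvd_prime_iff_eq hpp Nat.prime_two).mp h4)
  -- a central element of order p of a nontrivial Sylow subgroup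
  obtain ⟨t, ht⟩ := exists_prime_orderOf_dvd_card' (G := H) p hdvd
  have hT : IsPGroup p (Subgroup.zpowers t) := by
    rintro ⟨g, i, rfl⟩
    refine ⟨1, ?_⟩
    apply Subtype.ext
    simp only [Subgroup.coe_pow, pow_one, Subgroup.coe_one]
    show (t ^ i) ^ p = 1
    rw [← zpow_natCast, ← _root_.zpow_mul, mul_comm, _root_.zpow_mul, zpow_natCast, ← ht, pow_orderOf_eq_one, _root_.one_zpow]
  obtain ⟨P₀, hP₀⟩ := hT.exists_le_sylow
  have htP : t ∈ P₀ := hP₀ (Subgroup.mem_zpowers t)
  have hne1 : t ≠ 1 := by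
    rintro rfl
    rw [orderOf_one] at ht
    exact hpp.one_lt.ne ht
  haveI : Nontrivial (P₀ : Subgroup H) := by
    refine ⟨⟨⟨t, htP⟩, 1, ?_⟩⟩
    intro h
    exact hne1 (congrArg Subtype.val h)
  have hPP : IsPGroup p (P₀ : Subgroup H) := P₀.isPGroup'
  haveI := hPP.center_nontrivial
  have hcp : IsPGroup p (Subgroup.center (P₀ : Subgroup H)) := hPP.to_subgroup _
  have hcd : p ∣ Nat.card (Subgroup.center (P₀ : Subgroup H)) := by
    rcases hcp.card_eq_or_dvd with h | h
    · exact absurd h Finite.one_lt_card.ne'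
    · exact h
  obtain ⟨z, hz⟩ := exists_prime_orderOf_dvd_card' p hcd
  set u : H := ((z : (P₀ : Subgroup H)) : H) with hu_def
  have hup : u ^ p = 1 := by
    have h1 : z ^ p = 1 := orderOf_dvd_iff_pow_eq_one.mp (dvd_of_eq hz)
    have h3 := congrArg (fun a : Subgroup.center (P₀ : Subgroup H) => ((a : (P₀ : Subgroup H)) : H)) h1
    simpa using h3
  have hune : u ≠ 1 := by
    intro h0
    have : z = 1 := by
      apply Subtype.ext
      apply Subtype.ext
      exact h0
    rw [this, orderOf_one] at hz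
    exact hpp.one_lt.ne hz
  have hucent : ∀ y ∈ (P₀ : Subgroup H), y * u = u * y := by
    intro y hy
    have h1 := Subgroup.mem_center_iff.mp z.2 ⟨y, hy⟩
    exact congrArg Subtype.val h1
  -- basis change
  have hU1 : ((u : GL (Fin 2) F) : Matrix (Fin 2) (Fin 2) F) ^ p = 1 := by
    have h1 : ((u : GL (Fin 2) F)) ^ p = 1 := by
      have := congrArg Subtype.val hup
      simpa using this
    have := congrArg Units.val h1
    simpa using this
  have hU2 : ((u : GL (Fin 2) F) : Matrix (Fin 2) (Fin 2) F) ≠ 1 := by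
    intro h0
    apply hune
    apply Subtype.ext
    apply Units.ext
    exact h0
  obtain ⟨w, hw, hwT⟩ := exists_basis_of_transvection p hU1 hU2
  set W : GL (Fin 2) F := Matrix.GeneralLinearGroup.mkOfDetNeZero w hw with hW
  have hWw : (W : Matrix (Fin 2) (Fin 2) F) = w := rfl
  let m : H →* Matrix (Fin 2) (Fin 2) F :=
    { toFun := fun g => ((W⁻¹ * (g : GL (Fin 2) F) * W : GL (Fin 2) F) : Matrix (Fin 2) (Fin 2) F)
      map_one' := by simp
      map_mul' := by
        intro a b
        rw [← Units.val_mul]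
        congr 1
        simp only [Subgroup.coe_mul]
        group }
  have hmdef : ∀ g : H, W * (((W⁻¹ * (g : GL (Fin 2) F) * W : GL (Fin 2) F))) = (g : GL (Fin 2) F) * W := by
    intro g
    group
  have hm : Function.Injective m := by
    intro a b hab
    have h1 : (W⁻¹ * (a : GL (Fin 2) F) * W : GL (Fin 2) F) = (W⁻¹ * (b : GL (Fin 2) F) * W : GL (Fin 2) F) :=
      Units.ext hab
    apply Subtype.ext
    simpa using h1
  have hmw : ∀ g : H, w * m g = ((g : GL (Fin 2) F) : Matrix (Fin 2) (Fin 2) F) * w := by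
    intro g
    have := congrArg Units.val (hmdef g)
    exact this
  have hwinj : ∀ {a b : Matrix (Fin 2) (Fin 2) F}, w * a = w * b → a = b := by
    intro a b hab
    have hu : IsUnit w := (Matrix.isUnit_iff_isUnit_det _).mpr (isUnit_iff_ne_zero.mpr hw)
    exact hu.mul_left_cancel hab
  have hmu : m u = transv := by
    apply hwinj
    rw [hmw, hwT]
  -- the non-triangular element
  have hg₀ : ∃ g₀ : H, m g₀ 1 0 ≠ 0 := by
    let v₁ : Fin 2 → F := fun i => w i 0
    have hv₁ : v₁ ≠ 0 := by
      intro h0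
      apply hw
      have h3 : w 0 0 = 0 := congrFun h0 0
      have h4 : w 1 0 = 0 := congrFun h0 1
      rw [Matrix.det_fin_two, h3, h4]
      ring
    obtain ⟨g, hgH, hg⟩ := hirr v₁ hv₁
    refine ⟨⟨g, hgH⟩, ?_⟩
    intro h0
    apply hg
    have h3 : (g : Matrix (Fin 2) (Fin 2) F).mulVec v₁ = (m ⟨g, hgH⟩ 0 0) • v₁ := by
      funext i
      have h4 := congrFun (congrFun (hmw ⟨g, hgH⟩) i) 0
      simp only [Matrix.mul_apply, Fin.sum_univ_two] at h4
      rw [h0] at h4
      simp only [Matrix.mulVec, dotProduct, Fin.sum_univ_two, Pi.smul_apply, smul_eq_mul, v₁]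
      linear_combination -h4
    rw [h3]
    exact Submodule.smul_mem _ _ (Submodule.mem_span_singleton_self v₁)
  obtain ⟨g₀, hg₀⟩ := hg₀
  refine no_transvection_core hm hodd h2 p hg₀ hmu ?_
  -- Sylow conjugacy
  rintro v ⟨e, he⟩
  have hv : IsPGroup p (Subgroup.zpowers v) := by
    rintro ⟨g, i, rfl⟩
    refine ⟨e, ?_⟩
    apply Subtype.ext
    simp only [Subgroup.coe_pow, Subgroup.coe_one]
    show (v ^ i) ^ (p ^ e) = 1
    rw [← zpow_natCast, ← _root_.zpow_mul, mul_comm, _root_.zpow_mul, zpow_natCast, he, _root_.one_zpow]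
  obtain ⟨Q, hQ⟩ := hv.exists_le_sylow
  have hvQ : v ∈ Q := hQ (Subgroup.mem_zpowers v)
  obtain ⟨x, hx⟩ := MulAction.exists_smul_eq H Q P₀
  refine ⟨x, ?_⟩
  apply hucent
  have h1 : ((P₀ : Subgroup H)) = MulAut.conj x • (Q : Subgroup H) := by
    rw [← hx]
    rfl
  rw [h1]
  have := Subgroup.smul_mem_pointwise_smul v (MulAut.conj x) (Q : Subgroup H) hvQ
  simpa using this

end Cfsg.Agent.S1463
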