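import Cfsg.Statements.S1477
import Cfsg.Agent.Lib.H06.CN

set_option autoImplicit false
open Cfsg

namespace Cfsg.Agent.S1477

variable {G : Type*} [Group G] [Finite G]

theorem centralizer_eq (hCN : IsCNGroup G) {H : Subgroup G}
    (hmax : ∀ L : Subgroup G, Group.IsNilpotent L → H ≤ L → L = H) {z : G} (hz1 : z ≠ 1)
    (hz : ∀ h ∈ H, z * h = h * z) : Subgroup.centralizer ({z} : Set G) = H := by
  apply hmax _ (hCN z hz1)
  intro h hh
  rw [Subgroup.mem_centralizer_iff]
  intro w hw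
  rw [Set.mem_singleton_iff.mp hw]
  exact hz h hh

theorem mem_centralizer_singleton {z x : G} (h : z * x = x * z) :
    x ∈ Subgroup.centralizer ({z} : Set G) := by
  rw [Subgroup.mem_centralizer_iff]
  intro w hw
  rw [Set.mem_singleton_iff.mp hw]
  exact h

theorem exists_center_ne_one {P : Subgroup G} {p : ℕ} [Fact p.Prime] (hP : IsPGroup p P)
    (hne : P ≠ ⊥) : ∃ y ∈ P, y ≠ 1 ∧ ∀ a ∈ P, y * a = a * y := by
  haveI : Nontrivial P := (Subgroup.nontrivial_iff_ne_bot P).mpr hne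
  haveI : Nontrivial (Subgroup.center P) := hP.center_nontrivial
  obtain ⟨c, hc⟩ := exists_ne (1 : Subgroup.center P)
  refine ⟨((c : P) : G), (c : P).2, ?_, ?_⟩
  · intro h
    apply hc
    apply Subtype.ext
    apply Subtype.ext
    exact h
  · intro a ha
    have h1 := (Subgroup.mem_center_iff.mp c.2) ⟨a, ha⟩
    exact (congrArg Subtype.val h1).symm

theorem part_a (hCN : IsCNGroup G) {H : Subgroup G} (hH : Group.IsNilpotent H)
    (hmax : ∀ L : Subgroup G, Group.IsNilpotent L → H ≤ L → L = H) :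
    (Nat.card H).Coprime H.index := by
  apply Nat.coprime_of_dvd
  intro p hp hpH hpi
  haveI := Fact.mk hp
  obtain ⟨P₀⟩ : Nonempty (Sylow p ↥H) := inferInstance
  have hP₀n : (P₀ : Subgroup ↥H).Normal :=
    (Group.isNilpotent_of_finite_tfae (G := ↥H)).out 0 3 rfl rfl |>.mp hH p inferInstance P₀
  set P : Subgroup G := (P₀ : Subgroup ↥H).map H.subtype with hPdef
  have hPp : IsPGroup p P := P₀.isPGroup'.map _
  have hPH : P ≤ H := by
    rintro _ ⟨x, _, rfl⟩
    exact x.2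
  have hPne : P ≠ ⊥ := by
    intro hb
    have h1 : (P₀ : Subgroup ↥H) = ⊥ := by
      rw [eq_bot_iff]
      intro x hx
      have h2 : (x : G) ∈ P := ⟨x, hx, rfl⟩
      rw [hb, Subgroup.mem_bot] at h2
      exact Subtype.ext h2
    exact P₀.ne_bot_of_dvd_card hpH h1
  obtain ⟨T, hPT⟩ := hPp.exists_le_sylow
  have hne : P ≠ (T : Subgroup G) := by
    intro h
    apply T.not_dvd_index
    rw [← h]
    exact hpi.trans (Subgroup.index_dvd_of_le hPH)
  haveI hnil : Group.IsNilpotent ↥(T : Subgroup G) := T.isPGroup'.isNilpotent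
  have hlt : P.subgroupOf (T : Subgroup G) < ⊤ := by
    apply lt_top_iff_ne_top.mpr
    intro h
    rw [Subgroup.subgroupOf_eq_top] at h
    exact hne (le_antisymm hPT h)
  have hlt2 := Group.normalizerCondition_of_isNilpotent _ hlt
  obtain ⟨t, htN, htP⟩ := SetLike.exists_of_lt hlt2
  have htP' : (t : G) ∉ P := fun h => htP (by rw [Subgroup.mem_subgroupOf]; exact h)
  have htN' : (t : G) ∈ Subgroup.normalizer (P : Set G) := by
    rw [Subgroup.mem_normalizer_iff]
    intro y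
    by_cases hy : y ∈ (T : Subgroup G)
    · have h1 := Subgroup.mem_normalizer_iff.mp htN ⟨y, hy⟩
      simpa [Subgroup.mem_subgroupOf] using h1
    · have h2 : y ∉ P := fun h => hy (hPT h)
      have h3 : (t : G) * y * (t : G)⁻¹ ∉ (T : Subgroup G) := by
        intro h
        apply hy
        have h4 : y = (t : G)⁻¹ * ((t : G) * y * (t : G)⁻¹) * (t : G) := by group
        rw [h4]
        exact Subgroup.mul_mem _ (Subgroup.mul_mem _ (Subgroup.inv_mem _ t.2) h) t.2
      constructor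
      · intro h; exact absurd h h2
      · intro h; exact absurd (hPT h) h3
  set T₁ : Subgroup G := (T : Subgroup G) ⊓ Subgroup.normalizer (P : Set G) with hT₁
  have hT₁p : IsPGroup p T₁ := T.isPGroup'.to_le inf_le_left
  haveI hnilT₁ : Group.IsNilpotent ↥T₁ := hT₁p.isNilpotent
  set W : Subgroup G := P ⊓ Subgroup.centralizer (P : Set G) with hW
  have hWT₁ : W ≤ T₁ := fun x hx =>
    Subgroup.mem_inf.mpr ⟨hPT (Subgroup.mem_inf.mp hx).1, Subgroup.le_normalizer (Subgroup.mem_inf.mp hx).1⟩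
  have hNn : (W.subgroupOf T₁).Normal := by
    constructor
    rintro w hw ⟨τ, hτ⟩
    rw [Subgroup.mem_subgroupOf] at hw ⊢
    obtain ⟨hw1, hw2⟩ := Subgroup.mem_inf.mp hw
    have hτN := (Subgroup.mem_inf.mp hτ).2
    have h1 : τ * (w : G) * τ⁻¹ ∈ P := (Subgroup.mem_normalizer_iff.mp hτN _).mp hw1
    refine Subgroup.mem_inf.mpr ⟨h1, ?_⟩
    rw [Subgroup.mem_centralizer_iff]
    intro a ha
    have h2 : τ⁻¹ * a * τ⁻¹⁻¹ ∈ P := (Subgroup.mem_normalizer_iff.mp (Subgroup.inv_mem _ hτN) _).mp ha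
    have h3 := Subgroup.mem_centralizer_iff.mp hw2 _ h2
    calc a * (τ * (w : G) * τ⁻¹) = τ * ((τ⁻¹ * a * τ⁻¹⁻¹) * (w : G)) * τ⁻¹ := by group
      _ = τ * ((w : G) * (τ⁻¹ * a * τ⁻¹⁻¹)) * τ⁻¹ := by rw [h3]
      _ = τ * (w : G) * τ⁻¹ * a := by group
  have hNne : W.subgroupOf T₁ ≠ ⊥ := by
    obtain ⟨c, hcP, hc1, hcc⟩ := exists_center_ne_one hPp hPne
    intro hb
    have h1 : (⟨c, hWT₁ (Subgroup.mem_inf.mpr ⟨hcP, by
        rw [Subgroup.mem_centralizer_iff]
        intro a ha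
        exact (hcc a ha).symm⟩)⟩ : ↥T₁) ∈ W.subgroupOf T₁ := by
      rw [Subgroup.mem_subgroupOf]
      exact Subgroup.mem_inf.mpr ⟨hcP, by
        rw [Subgroup.mem_centralizer_iff]
        intro a ha
        exact (hcc a ha).symm⟩
    rw [hb, Subgroup.mem_bot] at h1
    exact hc1 (congrArg Subtype.val h1)
  obtain ⟨y, hyN, hy1, hyc⟩ := H06.exists_central_of_normal hNn hNne
  rw [Subgroup.mem_subgroupOf] at hyN
  obtain ⟨hyP, hyC⟩ := Subgroup.mem_inf.mp hyN
  have hy1' : (y : G) ≠ 1 := fun h => hy1 (Subtype.ext h)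
  have hcomm : ∀ h ∈ H, (y : G) * h = h * (y : G) := by
    intro h hh
    exact H06.commute_of_center_sylow hH P₀ hyP
      (fun a ha => (Subgroup.mem_centralizer_iff.mp hyC a ha).symm) hh
  have hC := centralizer_eq hCN hmax hy1' hcomm
  have htT₁ : (t : G) ∈ T₁ := Subgroup.mem_inf.mpr ⟨t.2, htN'⟩
  have h1 := (Subgroup.mem_center_iff.mp hyc) ⟨t, htT₁⟩
  have h2 : (y : G) * (t : G) = (t : G) * y := (congrArg Subtype.val h1).symm
  have htH : (t : G) ∈ H := hC ▸ mem_centralizer_singleton h2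
  obtain ⟨k, hk⟩ := H19.orderOf_of_mem_isPGroup T.isPGroup' t.2
  have h3 : (⟨t, htH⟩ : ↥H) ∈ (P₀ : Subgroup ↥H) := by
    apply H19.mem_sylow_of_normal (k := k) _ P₀ hP₀n
    simpa using hk
  exact htP' ⟨_, h3, rfl⟩

theorem part_c (hCN : IsCNGroup G) {H : Subgroup G} (hH : Group.IsNilpotent H)
    (hmax : ∀ L : Subgroup G, Group.IsNilpotent L → H ≤ L → L = H)
    (hTI : ∀ g : G, H.map (MulAut.conj g).toMonoidHom ≠ H → H ⊓ H.map (MulAut.conj g).toMonoidHom = ⊥)
    {x : G} (hx : x ∈ H) (hx1 : x ≠ 1) : Subgroup.centralizer ({x} : Set G) ≤ H := by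
  have hcop := part_a hCN hH hmax
  set K := Subgroup.centralizer ({x} : Set G) with hK
  haveI hKn : Group.IsNilpotent K := hCN x hx1
  have hxK : x ∈ K := mem_centralizer_singleton rfl
  -- a nontrivial central element of `H`
  have hHne : H ≠ ⊥ := fun hb => hx1 (by simpa [hb] using hx)
  obtain ⟨z, hzH, hz1, hzc⟩ := H06.exists_central_of_normal (Q := ↥H) (N := ⊤) Subgroup.normal_top (by
    intro hb
    haveI : Nontrivial H := (Subgroup.nontrivial_iff_ne_bot H).mpr hHne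
    exact top_ne_bot hb)
  have hz1' : (z : G) ≠ 1 := fun h => hz1 (Subtype.ext h)
  have hzcomm : ∀ h ∈ H, (z : G) * h = h * (z : G) := fun h hh =>
    (congrArg Subtype.val ((Subgroup.mem_center_iff.mp hzc) ⟨h, hh⟩)).symm
  have hCz := centralizer_eq hCN hmax hz1' hzcomm
  -- key: elements of `C(x)` normalizing `H` lie in `H`.
  have hnorm : ∀ g ∈ K, H.map (MulAut.conj g).toMonoidHom = H → g ∈ H := by
    intro g hgK hgN
    have hgN' : g ∈ Subgroup.normalizer (H : Set G) := H13.mem_normalizer_of_map_conj_eq hgN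
    -- `g ^ index ∈ H`
    have hle : H ≤ Subgroup.normalizer (H : Set G) := Subgroup.le_normalizer
    haveI hn : (H.subgroupOf (Subgroup.normalizer (H : Set G))).Normal :=
      Subgroup.normal_in_normalizer
    have h1 := Subgroup.pow_index_mem (H.subgroupOf (Subgroup.normalizer (H : Set G))) ⟨g, hgN'⟩
    rw [Subgroup.mem_subgroupOf] at h1
    have h2 : (H.subgroupOf (Subgroup.normalizer (H : Set G))).index ∣ H.index := by
      have := Subgroup.relIndex_mul_index hle
      exact ⟨_, this.symm⟩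
    obtain ⟨e, he⟩ := h2
    have hgk : g ^ H.index ∈ H := by
      rw [he, pow_mul]
      apply Subgroup.pow_mem
      simpa using h1
    set m := Nat.card H with hm
    set k := H.index with hk
    have hbez := Nat.gcd_eq_gcd_ab m k
    rw [hcop.gcd_eq_one] at hbez
    set a := Nat.gcdA m k
    set b := Nat.gcdB m k
    have hsum : (1 : ℤ) = k * b + m * a := by
      rw [add_comm]; exact_mod_cast hbez
    have hsplit : g = (g ^ k) ^ b * (g ^ m) ^ a := by
      calc g = g ^ (1 : ℤ) := (zpow_one g).symm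
        _ = g ^ ((k : ℤ) * b + m * a) := by rw [hsum]
        _ = _ := by rw [zpow_add, zpow_mul, zpow_mul, zpow_natCast, zpow_natCast]
    have hg1 : (g ^ k) ^ b ∈ H := Subgroup.zpow_mem _ hgk b
    set g₂ := (g ^ m) ^ a with hg₂
    have hg₂K : g₂ ∈ K := Subgroup.zpow_mem _ (Subgroup.pow_mem _ hgK m) a
    have hgkm : (g ^ k) ^ m = 1 := by
      have := H06.pow_card_of_mem hgk
      exact this
    have hg₂k : g₂ ^ k = 1 := by
      rw [hg₂, ← zpow_natCast, ← zpow_mul, mul_comm, zpow_mul, zpow_natCast, ← pow_mul, mul_comm m k,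
        pow_mul, hgkm, one_zpow]
    -- `g₂` commutes with `z`, thus lies in `H`
    have hzm : (z : G) ^ m = 1 := H06.pow_card_of_mem (H := H) z.2
    have hcop2 : (orderOf (z : G)).Coprime (orderOf g₂) :=
      Nat.Coprime.coprime_dvd_left (orderOf_dvd_of_pow_eq_one hzm)
        (Nat.Coprime.coprime_dvd_right (orderOf_dvd_of_pow_eq_one hg₂k) hcop)
    have hzK : (z : G) ∈ K := mem_centralizer_singleton (hzcomm x hx).symm
    have h3 := H06.commute_of_coprime_order_sub hKn hzK hg₂K hcop2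
    have hg₂H : g₂ ∈ H := hCz ▸ mem_centralizer_singleton h3
    rw [hsplit]
    exact H.mul_mem hg1 hg₂H
  by_contra hnot
  have hL : (H.subgroupOf K) < ⊤ := by
    apply lt_top_iff_ne_top.mpr
    intro h
    rw [Subgroup.subgroupOf_eq_top] at h
    exact hnot h
  have hlt2 := Group.normalizerCondition_of_isNilpotent _ hL
  obtain ⟨g, hgN, hgL⟩ := SetLike.exists_of_lt hlt2
  have hgH : (g : G) ∉ H := fun h => hgL (by rw [Subgroup.mem_subgroupOf]; exact h)
  apply hgH
  apply hnorm _ g.2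
  by_contra hne
  have h1 := hTI g hne
  have h2 : (x : G) ∈ H ⊓ H.map (MulAut.conj (g : G)).toMonoidHom := by
    refine Subgroup.mem_inf.mpr ⟨hx, ?_⟩
    rw [H13.mem_map_conj]
    have h3 : (⟨x, hxK⟩ : ↥K) ∈ H.subgroupOf K := by
      rw [Subgroup.mem_subgroupOf]; exact hx
    have h4 := (Subgroup.mem_normalizer_iff.mp (inv_mem hgN) ⟨x, hxK⟩).mp h3
    have h5 : (g : G)⁻¹ * x * (g : G)⁻¹⁻¹ ∈ H := h4
    simpa using h5
  rw [h1, Subgroup.mem_bot] at h2
  exact hx1 h2

theorem part_b (hCN : IsCNGroup G) {H : Subgroup G} (hH : Group.IsNilpotent H)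
    (hmax : ∀ L : Subgroup G, Group.IsNilpotent L → H ≤ L → L = H)
    (hnp : ¬ IsPrimePow (Nat.card H)) (hH1 : Nat.card H ≠ 1) (g : G)
    (hg : H.map (MulAut.conj g).toMonoidHom ≠ H) : H ⊓ H.map (MulAut.conj g).toMonoidHom = ⊥ := by
  have hcop := part_a hCN hH hmax
  by_contra hne
  obtain ⟨⟨x₀, hx₀⟩, hx₀1⟩ := (Subgroup.ne_bot_iff_exists_ne_one.mp hne)
  have hx₀1' : x₀ ≠ 1 := fun h => hx₀1 (Subtype.ext h)
  obtain ⟨hx₀H, hx₀g⟩ := Subgroup.mem_inf.mp hx₀
  -- element of prime order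
  have hord : orderOf x₀ ≠ 1 := fun h => hx₀1' (orderOf_eq_one_iff.mp h)
  obtain ⟨r, hr, hrd⟩ := Nat.exists_prime_and_dvd hord
  have hpos : orderOf x₀ ≠ 0 := (orderOf_pos x₀).ne'
  set x := x₀ ^ (orderOf x₀ / r) with hx
  have hxo : orderOf x = r := orderOf_pow_orderOf_div hpos hrd
  have hxH : x ∈ H := Subgroup.pow_mem _ hx₀H _
  have hxg : x ∈ H.map (MulAut.conj g).toMonoidHom := Subgroup.pow_mem _ hx₀g _
  have hx1 : x ≠ 1 := by
    intro h
    rw [h, orderOf_one] at hxo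
    exact hr.one_lt.ne hxo
  -- another prime
  have hcardpos : Nat.card H ≠ 0 := Nat.card_pos.ne'
  obtain ⟨s, hs, hsd, hsr⟩ : ∃ s : ℕ, s.Prime ∧ s ∣ Nat.card H ∧ s ≠ r := by
    by_contra hcon
    push Not at hcon
    have h1 := Nat.eq_prime_pow_of_unique_prime_dvd hcardpos (p := r)
      (fun {d} hd hdd => hcon d hd hdd)
    apply hnp
    rw [h1]
    refine hr.isPrimePow.pow ?_
    intro h0
    rw [h0, pow_zero] at h1
    exact hH1 h1
  haveI := Fact.mk hs
  obtain ⟨P₀⟩ : Nonempty (Sylow s ↥H) := inferInstance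
  set T : Subgroup G := (P₀ : Subgroup ↥H).map H.subtype with hTdef
  have hTp : IsPGroup s T := P₀.isPGroup'.map _
  have hTH : T ≤ H := by
    rintro _ ⟨y, _, rfl⟩
    exact y.2
  have hTne : T ≠ ⊥ := by
    intro hb
    have h1 : (P₀ : Subgroup ↥H) = ⊥ := by
      rw [eq_bot_iff]
      intro y hy
      have h2 : (y : G) ∈ T := ⟨y, hy, rfl⟩
      rw [hb, Subgroup.mem_bot] at h2
      exact Subtype.ext h2
    exact P₀.ne_bot_of_dvd_card hsd h1
  -- index of `T`
  have hsi : ¬ s ∣ T.index := by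
    have h1 : T.index = (P₀ : Subgroup ↥H).index * H.index := by
      have h2 := Subgroup.relIndex_mul_index hTH
      rw [← h2]
      congr 1
      rw [hTdef, Subgroup.relIndex]
      congr 1
      ext y
      simp [Subgroup.mem_subgroupOf]
    rw [h1, Nat.Prime.dvd_mul hs]
    rintro (h | h)
    · exact P₀.not_dvd_index h
    · exact (Nat.Prime.coprime_iff_not_dvd hs).mp
        (Nat.Coprime.coprime_dvd_left hsd hcop) h
  set K := Subgroup.centralizer ({x} : Set G) with hK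
  haveI hKn : Group.IsNilpotent K := hCN x hx1
  -- `T` and its conjugate centralize `x`
  have hTK : T ≤ K := by
    intro t ht
    obtain ⟨k, hk⟩ := H19.orderOf_of_mem_isPGroup hTp ht
    have h1 : (orderOf x).Coprime (orderOf t) := by
      rw [hxo, hk]
      exact Nat.Coprime.pow_right _ ((Nat.coprime_primes hr hs).mpr hsr.symm)
    exact mem_centralizer_singleton (H06.commute_of_coprime_order_sub hH hxH (hTH ht) h1)
  have hTgK : T.map (MulAut.conj g).toMonoidHom ≤ K := by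
    rintro _ ⟨t, ht, rfl⟩
    obtain ⟨k, hk⟩ := H19.orderOf_of_mem_isPGroup hTp ht
    have hy : g⁻¹ * x * g ∈ H := H13.mem_map_conj.mp hxg
    have hoy : orderOf (g⁻¹ * x * g) = r := by
      rw [← hxo]
      have : g⁻¹ * x * g = (MulAut.conj g⁻¹) x := by simp [MulAut.conj_apply]
      rw [this]
      exact MulEquiv.orderOf_eq _ x
    have h1 : (orderOf (g⁻¹ * x * g)).Coprime (orderOf t) := by
      rw [hoy, hk]
      exact Nat.Coprime.pow_right _ ((Nat.coprime_primes hr hs).mpr hsr.symm)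
    have h2 := H06.commute_of_coprime_order_sub hH hy (hTH ht) h1
    apply mem_centralizer_singleton
    show x * (g * t * g⁻¹) = g * t * g⁻¹ * x
    calc x * (g * t * g⁻¹) = g * ((g⁻¹ * x * g) * t) * g⁻¹ := by group
      _ = g * (t * (g⁻¹ * x * g)) * g⁻¹ := by rw [h2]
      _ = g * t * g⁻¹ * x := by group
  -- the Sylow subgroup of `K`
  obtain ⟨S₁, hS₁⟩ := (hTp.comap_of_injective K.subtype K.subtype_injective).exists_le_sylow
  have hS₁n : (S₁ : Subgroup ↥K).Normal :=
    (Group.isNilpotent_of_finite_tfae (G := ↥K)).out 0 3 rfl rfl |>.mp hKn s inferInstance S₁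
  set W : Subgroup G := (S₁ : Subgroup ↥K).map K.subtype with hW
  have hWp : IsPGroup s W := S₁.isPGroup'.map _
  have hTW : T ≤ W := fun t ht => ⟨⟨t, hTK ht⟩, hS₁ ht, rfl⟩
  have hTeq : T = W := H06.eq_of_le_of_isPGroup_of_not_dvd_index hTW hWp hsi
  have hTgW : T.map (MulAut.conj g).toMonoidHom ≤ W := by
    intro t ht
    have hmem := hTgK ht
    obtain ⟨k, hk⟩ := H19.orderOf_of_mem_isPGroup (H13.isPGroup_map_conj (g := g) hTp) ht
    refine ⟨⟨t, hmem⟩, ?_, rfl⟩
    apply H19.mem_sylow_of_normal (k := k) _ S₁ hS₁n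
    simpa using hk
  have hgN : g ∈ Subgroup.normalizer (T : Set G) := by
    apply H13.mem_normalizer_of_map_conj_le
    exact le_of_le_of_eq hTgW hTeq.symm
  -- central element
  obtain ⟨y, hyT, hy1, hyc⟩ := exists_center_ne_one hTp hTne
  have hycomm : ∀ h ∈ H, y * h = h * y := fun h hh =>
    H06.commute_of_center_sylow hH P₀ hyT hyc hh
  have hCy := centralizer_eq hCN hmax hy1 hycomm
  -- its conjugate
  have hy₂T : g * y * g⁻¹ ∈ T := (Subgroup.mem_normalizer_iff.mp hgN _).mp hyT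
  have hy₂c : ∀ a ∈ T, (g * y * g⁻¹) * a = a * (g * y * g⁻¹) := by
    intro a ha
    have h1 : g⁻¹ * a * g⁻¹⁻¹ ∈ T := (Subgroup.mem_normalizer_iff.mp (inv_mem hgN) _).mp ha
    have h2 := hyc _ h1
    calc (g * y * g⁻¹) * a = g * (y * (g⁻¹ * a * g⁻¹⁻¹)) * g⁻¹ := by group
      _ = g * ((g⁻¹ * a * g⁻¹⁻¹) * y) * g⁻¹ := by rw [h2]
      _ = a * (g * y * g⁻¹) := by group
  have hy₂1 : g * y * g⁻¹ ≠ 1 := by
    intro h
    apply hy1
    have : y = g⁻¹ * (g * y * g⁻¹) * g := by group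
    rw [this, h]
    group
  have hCy₂ := centralizer_eq hCN hmax hy₂1
    (fun h hh => H06.commute_of_center_sylow hH P₀ hy₂T hy₂c hh)
  -- conclusion
  apply hg
  ext w
  rw [H13.mem_map_conj]
  constructor
  · intro hw
    rw [← hCy] at hw
    rw [← hCy₂]
    apply mem_centralizer_singleton
    have h1 : y * (g⁻¹ * w * g) = (g⁻¹ * w * g) * y := by
      exact Subgroup.mem_centralizer_iff.mp hw y rfl
    calc g * y * g⁻¹ * w = g * (y * (g⁻¹ * w * g)) * g⁻¹ := by group
      _ = g * ((g⁻¹ * w * g) * y) * g⁻¹ := by rw [h1]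
      _ = w * (g * y * g⁻¹) := by group
  · intro hw
    rw [← hCy₂] at hw
    rw [← hCy]
    apply mem_centralizer_singleton
    have h1 : (g * y * g⁻¹) * w = w * (g * y * g⁻¹) := by
      exact Subgroup.mem_centralizer_iff.mp hw (g * y * g⁻¹) rfl
    calc y * (g⁻¹ * w * g) = g⁻¹ * ((g * y * g⁻¹) * w) * g := by group
      _ = g⁻¹ * (w * (g * y * g⁻¹)) * g := by rw [h1]
      _ = (g⁻¹ * w * g) * y := by group

theorem result {G : Type*} [Group G] [Finite G] (hCN : Cfsg.IsCNGroup G) (H : Subgroup G) (hH : Group.IsNilpotent H)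
    (hmax : ∀ L : Subgroup G, Group.IsNilpotent L → H ≤ L → L = H) :
    (Nat.card H).Coprime H.index ∧
      (¬ IsPrimePow (Nat.card H) → Nat.card H ≠ 1 → ∀ g : G, H.map (MulAut.conj g).toMonoidHom ≠ H → H ⊓ H.map (MulAut.conj g).toMonoidHom = ⊥) ∧
      ((∀ g : G, H.map (MulAut.conj g).toMonoidHom ≠ H → H ⊓ H.map (MulAut.conj g).toMonoidHom = ⊥) → ∀ x ∈ H, x ≠ 1 → Subgroup.centralizer ({x} : Set G) ≤ H) :=
  ⟨part_a hCN hH hmax, part_b hCN hH hmax, fun hTI _ hx hx1 => part_c hCN hH hmax hTI hx hx1⟩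

end Cfsg.Agent.S1477
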