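import Cfsg.Statements.S1480
import Cfsg.Agent.S1395
import Cfsg.Agent.S1400
import Cfsg.Agent.S1482
import Cfsg.Agent.Lib.H01.Coprime
import Cfsg.Agent.Lib.H03.PConstr
import Cfsg.Agent.Lib.H06.FittingHall
import Cfsg.Agent.Lib.H01.Coprime3
import Cfsg.Agent.Lib.H01.Coprime4
import Cfsg.Agent.Lib.H01.ZeNormal
import Cfsg.Agent.Lib.H09.KFinal
import Cfsg.Agent.Lib.H14.Class2
import Cfsg.Agent.Lib.H05.Sig
import Cfsg.Agent.Lib.H15.PConstr
import Mathlib

set_option autoImplicit false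
set_option linter.style.haveILetI false
set_option linter.unusedVariables false
set_option linter.unusedSectionVars false
set_option linter.unusedSimpArgs false
open Cfsg
open scoped commutatorElement

namespace Cfsg.Agent.S1480

open Cfsg.Agent.H14

section avg

variable {V : Type*} [CommGroup V] [Finite V] {K : Type*} [Group K] [Finite K] {p : ℕ}
  [hp : Fact p.Prime]

theorem avg (hV : IsPGroup p V) (ρ : K →* MulAut V) (Y B : Subgroup K)
    (hY : (Nat.card Y).Coprime p) (hB : IsPGroup p B)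
    (hBY : B ≤ Subgroup.normalizer (Y : Set K))
    (hfix : ∀ x : V, (∀ b ∈ B, ρ b x = x) → ∀ h ∈ Y, ρ h x = x) :
    ∀ h ∈ Y, ∀ x : V, ρ h x = x := by
  classical
  haveI := Fintype.ofFinite Y
  let Sg : V →* V :=
    { toFun := fun x => ∏ h : Y, ρ (h : K) x
      map_one' := by simp
      map_mul' := fun x y => by simp [Finset.prod_mul_distrib] }
  have hSg : ∀ x, Sg x = ∏ h : Y, ρ (h : K) x := fun _ => rfl
  have hBS : ∀ b ∈ B, ∀ x, Sg (ρ b x) = ρ b (Sg x) := by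
    intro b hb x
    rw [hSg, hSg, map_prod]
    have hmem : ∀ h ∈ Y, b⁻¹ * h * b ∈ Y := by
      intro h hh
      have h1 := (Subgroup.mem_normalizer_iff.mp (hBY (B.inv_mem hb)) h).mp hh
      simpa using h1
    have hmem' : ∀ h ∈ Y, b * h * b⁻¹ ∈ Y := fun h hh =>
      (Subgroup.mem_normalizer_iff.mp (hBY hb) h).mp hh
    let e : Y ≃ Y :=
      { toFun := fun h => ⟨b⁻¹ * h * b, hmem h h.2⟩
        invFun := fun h => ⟨b * h * b⁻¹, hmem' h h.2⟩
        left_inv := fun h => by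
          apply Subtype.ext
          show b * (b⁻¹ * (h : K) * b) * b⁻¹ = h
          group
        right_inv := fun h => by
          apply Subtype.ext
          show b⁻¹ * (b * (h : K) * b⁻¹) * b = h
          group }
    refine Fintype.prod_equiv e _ _ ?_
    intro h
    show ρ (h : K) (ρ b x) = ρ b (ρ (b⁻¹ * (h : K) * b) x)
    rw [← MulAut.mul_apply, ← MulAut.mul_apply, ← map_mul, ← map_mul]
    congr 2
    group
  have hS : Sg.ker = ⊥ := by
    by_contra hne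
    have hinv : ∀ b ∈ B, ∀ x ∈ Sg.ker, ρ b x ∈ Sg.ker := by
      intro b hb x hx
      rw [MonoidHom.mem_ker] at hx ⊢
      rw [hBS b hb, hx, map_one]
    letI act : MulAction B Sg.ker :=
      { smul := fun b x => ⟨ρ (b : K) x, hinv b b.2 x x.2⟩
        one_smul := fun x => by
          apply Subtype.ext
          show ρ ((1 : B) : K) (x : V) = x
          simp
        mul_smul := fun a b x => by
          apply Subtype.ext
          show ρ ((a * b : B) : K) (x : V) = ρ (a : K) (ρ (b : K) (x : V))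
          simp }
    have hact : ∀ (b : B) (x : Sg.ker), ((b • x : Sg.ker) : V) = ρ (b : K) x := fun _ _ => rfl
    have hSp : IsPGroup p Sg.ker := hV.to_subgroup _
    have hcard : p ∣ Nat.card Sg.ker := by
      obtain ⟨n, hn⟩ := IsPGroup.iff_card.mp hSp
      have h1 : Nat.card Sg.ker ≠ 1 := fun h1 => hne (Subgroup.eq_bot_of_card_eq _ h1)
      have hn0 : n ≠ 0 := by
        rintro rfl
        exact h1 (by simpa using hn)
      rw [hn]
      exact dvd_pow_self p hn0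
    have h1fix : (1 : Sg.ker) ∈ MulAction.fixedPoints B Sg.ker := by
      intro b
      apply Subtype.ext
      rw [hact]
      simp
    obtain ⟨⟨x, hx⟩, hxfix, hxne⟩ :=
      hB.exists_fixed_point_of_prime_dvd_card_of_fixed_point Sg.ker hcard h1fix
    have hfb : ∀ b ∈ B, ρ b x = x := by
      intro b hb
      have h2 := hxfix ⟨b, hb⟩
      exact congrArg Subtype.val h2
    have hfy := hfix x hfb
    have h3 : x ^ (Nat.card Y) = 1 := by
      have h4 : Sg x = 1 := hx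
      rw [hSg] at h4
      have h5 : ∏ h : Y, ρ (h : K) x = ∏ _h : Y, x :=
        Finset.prod_congr rfl (fun h _ => hfy h h.2)
      rw [h5, Finset.prod_const, Finset.card_univ, ← Nat.card_eq_fintype_card] at h4
      exact h4
    obtain ⟨k, hk⟩ := hV x
    have h6 : x = 1 := (pow_eq_one_iff_of_coprime (Nat.Coprime.pow_right k hY)).mp ⟨h3, hk⟩
    apply hxne
    apply Subtype.ext
    exact h6.symm
  intro h₀ hh₀ x
  have hinj : Function.Injective Sg := (MonoidHom.ker_eq_bot_iff Sg).mp hS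
  apply hinj
  rw [hSg, hSg]
  refine Fintype.prod_equiv (Equiv.mulRight (⟨h₀, hh₀⟩ : Y)) _ _ ?_
  intro h
  show ρ (h : K) (ρ h₀ x) = ρ ((h : K) * h₀) x
  rw [map_mul, MulAut.mul_apply]

end avg

section baer

variable {Γ : Type*} [Group Γ]

/-- A copy of `W` carrying the symmetrized product. -/
@[ext] structure BW (W : Subgroup Γ) where
  v : ↥W

instance (W : Subgroup Γ) [Finite Γ] : Finite (BW W) :=
  Finite.of_injective (fun x : BW W => x.v) (fun _ _ h => BW.ext h)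

/-- The symmetrized product on a group of class two. -/
@[reducible] def bwGroup {W C : Subgroup Γ} (hc : C2 W C) {s : ℕ}
    (hs : ∀ x ∈ W, ∀ y ∈ W, ⁅x, y⁆ ^ (2 * s) = ⁅x, y⁆) : CommGroup (BW W) where
  mul x y := ⟨⟨(x.v : Γ) * y.v * ⁅(y.v : Γ), (x.v : Γ)⁆ ^ s,
    W.mul_mem (W.mul_mem x.v.2 y.v.2) (W.pow_mem (comm_mem_H y.v.2 x.v.2) s)⟩⟩
  mul_assoc x y z := by
    apply BW.ext
    apply Subtype.ext
    show ((x.v : Γ) * y.v * ⁅(y.v : Γ), (x.v : Γ)⁆ ^ s) * z.v *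
        ⁅(z.v : Γ), ((x.v : Γ) * y.v * ⁅(y.v : Γ), (x.v : Γ)⁆ ^ s)⁆ ^ s =
      (x.v : Γ) * ((y.v : Γ) * z.v * ⁅(z.v : Γ), (y.v : Γ)⁆ ^ s) *
        ⁅((y.v : Γ) * z.v * ⁅(z.v : Γ), (y.v : Γ)⁆ ^ s), (x.v : Γ)⁆ ^ s
    obtain ⟨⟨a, ha⟩⟩ := x
    obtain ⟨⟨b, hb⟩⟩ := y
    obtain ⟨⟨d, hd⟩⟩ := z
    show (a * b * ⁅b, a⁆ ^ s) * d * ⁅d, (a * b * ⁅b, a⁆ ^ s)⁆ ^ s =
      a * (b * d * ⁅d, b⁆ ^ s) * ⁅(b * d * ⁅d, b⁆ ^ s), a⁆ ^ s
    have h1m : ⁅b, a⁆ ∈ W := comm_mem_H hb ha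
    have h2m : ⁅d, a⁆ ∈ W := comm_mem_H hd ha
    have h3m : ⁅d, b⁆ ∈ W := comm_mem_H hd hb
    have cen : ∀ {u v w : Γ}, u ∈ W → v ∈ W → w ∈ W → Commute (⁅u, v⁆ ^ s) w :=
      fun hu hv hw => (hc.central hu hv hw).pow_left s
    have e1 : ⁅d, (a * b * ⁅b, a⁆ ^ s)⁆ = ⁅d, a⁆ * ⁅d, b⁆ := by
      rw [hc.mul_right hd (W.mul_mem ha hb) (W.pow_mem h1m s), hc.mul_right hd ha hb,
        hc.pow_right hd h1m, commutatorElement_eq_one_iff_mul_comm.mpr
          (hc.central hb ha hd).symm.eq, one_pow, mul_one]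
    have e2 : ⁅(b * d * ⁅d, b⁆ ^ s), a⁆ = ⁅b, a⁆ * ⁅d, a⁆ := by
      rw [hc.mul_left (W.mul_mem hb hd) (W.pow_mem h3m s) ha, hc.mul_left hb hd ha,
        hc.pow_left h3m ha, commutatorElement_eq_one_iff_mul_comm.mpr
          (hc.central hd hb ha).eq, one_pow, mul_one]
    have c12 : Commute ⁅d, a⁆ ⁅d, b⁆ := hc.central hd ha h3m
    have c21 : Commute ⁅b, a⁆ ⁅d, a⁆ := hc.central hb ha h2m
    rw [e1, e2, c12.mul_pow, c21.mul_pow]
    have k1 : ⁅b, a⁆ ^ s * d = d * ⁅b, a⁆ ^ s := (cen hb ha hd).eq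
    have k2 : Commute (⁅d, b⁆ ^ s) (⁅b, a⁆ ^ s * ⁅d, a⁆ ^ s) :=
      ((cen hd hb h1m).pow_right s).mul_right ((cen hd hb h2m).pow_right s)
    calc a * b * ⁅b, a⁆ ^ s * d * (⁅d, a⁆ ^ s * ⁅d, b⁆ ^ s)
        = a * b * (⁅b, a⁆ ^ s * d) * (⁅d, a⁆ ^ s * ⁅d, b⁆ ^ s) := by simp only [mul_assoc]
      _ = a * b * (d * ⁅b, a⁆ ^ s) * (⁅d, a⁆ ^ s * ⁅d, b⁆ ^ s) := by rw [k1]
      _ = a * (b * d) * ((⁅b, a⁆ ^ s * ⁅d, a⁆ ^ s) * ⁅d, b⁆ ^ s) := by simp only [mul_assoc]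
      _ = a * (b * d) * (⁅d, b⁆ ^ s * (⁅b, a⁆ ^ s * ⁅d, a⁆ ^ s)) := by rw [k2.eq]
      _ = a * (b * d * ⁅d, b⁆ ^ s) * (⁅b, a⁆ ^ s * ⁅d, a⁆ ^ s) := by simp only [mul_assoc]
  one := ⟨1⟩
  one_mul x := by
    apply BW.ext
    apply Subtype.ext
    show (1 : Γ) * x.v * ⁅(x.v : Γ), (1 : Γ)⁆ ^ s = x.v
    simp [commutatorElement_one_right]
  mul_one x := by
    apply BW.ext
    apply Subtype.ext
    show (x.v : Γ) * 1 * ⁅(1 : Γ), (x.v : Γ)⁆ ^ s = x.v
    simp [commutatorElement_one_left]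
  inv x := ⟨x.v⁻¹⟩
  inv_mul_cancel x := by
    apply BW.ext
    apply Subtype.ext
    show ((x.v : Γ))⁻¹ * x.v * ⁅(x.v : Γ), ((x.v : Γ))⁻¹⁆ ^ s = 1
    have h1 : ⁅(x.v : Γ), ((x.v : Γ))⁻¹⁆ = 1 :=
      commutatorElement_eq_one_iff_mul_comm.mpr (Commute.refl _).inv_right.eq
    rw [h1]
    simp
  mul_comm x y := by
    apply BW.ext
    apply Subtype.ext
    obtain ⟨⟨a, ha⟩⟩ := x
    obtain ⟨⟨b, hb⟩⟩ := y
    show a * b * ⁅b, a⁆ ^ s = b * a * ⁅a, b⁆ ^ s
    have h1 : ⁅a, b⁆ = ⁅b, a⁆⁻¹ := (commutatorElement_inv b a).symm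
    have h2 : b * a = a * b * ⁅b, a⁆ := by
      have h3 := (hc.central hb ha (W.mul_mem ha hb)).eq
      rw [← h3, commutatorElement_def]
      group
    have h4 := hs b hb a ha
    have h5 : ⁅b, a⁆ ^ s * ⁅b, a⁆ ^ s = ⁅b, a⁆ := by
      rw [← pow_add, ← two_mul]
      exact h4
    have h6 : ⁅b, a⁆ * (⁅b, a⁆ ^ s)⁻¹ = ⁅b, a⁆ ^ s := by
      nth_rewrite 1 [← h5]
      simp
    rw [h2, h1, inv_pow, mul_assoc (a * b), h6]

theorem bw_pow {W C : Subgroup Γ} (hc : C2 W C) {s : ℕ}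
    (hs : ∀ x ∈ W, ∀ y ∈ W, ⁅x, y⁆ ^ (2 * s) = ⁅x, y⁆) (x : BW W) (n : ℕ) :
    letI cg : CommGroup (BW W) := bwGroup hc hs
    ((x ^ n : BW W).v : Γ) = (x.v : Γ) ^ n := by
  letI cg : CommGroup (BW W) := bwGroup hc hs
  induction n with
  | zero => simp only [pow_zero]; rfl
  | succ n ih =>
    have h1 : x ^ (n + 1) = x ^ n * x := pow_succ x n
    have h2 : ((x ^ n * x : BW W).v : Γ) =
        ((x ^ n : BW W).v : Γ) * x.v * ⁅(x.v : Γ), ((x ^ n : BW W).v : Γ)⁆ ^ s := rfl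
    have h3 : ((x ^ n : BW W).v : Γ) = (x.v : Γ) ^ n := ih
    have h4 : ⁅(x.v : Γ), (x.v : Γ) ^ n⁆ = 1 :=
      commutatorElement_eq_one_iff_mul_comm.mpr ((Commute.refl _).pow_right n).eq
    show ((x ^ (n + 1) : BW W).v : Γ) = _
    rw [h1, h2, h3, h4, one_pow, mul_one, pow_succ]

theorem baer_avg [Finite Γ] {p : ℕ} [Fact p.Prime] {W C : Subgroup Γ} (hc : C2 W C) {s : ℕ}
    (hs : ∀ x ∈ W, ∀ y ∈ W, ⁅x, y⁆ ^ (2 * s) = ⁅x, y⁆) (hWp : IsPGroup p W) {Y B : Subgroup Γ}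
    (hYN : Y ≤ Subgroup.normalizer (W : Set Γ)) (hBN : B ≤ Subgroup.normalizer (W : Set Γ))
    (hY : (Nat.card Y).Coprime p) (hB : IsPGroup p B)
    (hBY : B ≤ Subgroup.normalizer (Y : Set Γ))
    (hfix : ∀ x ∈ W, (∀ b ∈ B, b * x * b⁻¹ = x) → ∀ h ∈ Y, h * x * h⁻¹ = x) :
    ∀ h ∈ Y, ∀ x ∈ W, h * x * h⁻¹ = x := by
  letI cg : CommGroup (BW W) := bwGroup hc hs
  have hV : IsPGroup p (BW W) := by
    intro x
    obtain ⟨k, hk⟩ := hWp x.v
    refine ⟨k, ?_⟩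
    apply BW.ext
    apply Subtype.ext
    have h1 : ((x ^ (p ^ k) : BW W).v : Γ) = (x.v : Γ) ^ (p ^ k) := bw_pow hc hs x (p ^ k)
    have h2 : ((x.v : Γ)) ^ (p ^ k) = 1 := by simpa using congrArg Subtype.val hk
    rw [h1, h2]
    rfl
  have hconj : ∀ (g : Γ), g ∈ Subgroup.normalizer (W : Set Γ) → ∀ x ∈ W, g * x * g⁻¹ ∈ W :=
    fun g hg x hx => (Subgroup.mem_normalizer_iff.mp hg x).mp hx
  have hform : ∀ g a b : Γ, g * (a * b * ⁅b, a⁆ ^ s) * g⁻¹ =
      (g * a * g⁻¹) * (g * b * g⁻¹) * ⁅g * b * g⁻¹, g * a * g⁻¹⁆ ^ s := by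
    intro g a b
    let φ := MulAut.conj g
    show φ (a * b * ⁅b, a⁆ ^ s) = φ a * φ b * ⁅φ b, φ a⁆ ^ s
    simp only [map_mul, map_pow, map_commutatorElement]
  let N := Subgroup.normalizer (W : Set Γ)
  let ρ : ↥N →* MulAut (BW W) :=
    { toFun := fun g =>
        { toFun := fun x => ⟨⟨(g : Γ) * x.v * (g : Γ)⁻¹, hconj g g.2 x.v x.v.2⟩⟩
          invFun := fun x => ⟨⟨(g : Γ)⁻¹ * x.v * (g : Γ), by
            have h1 := hconj (g : Γ)⁻¹ (N.inv_mem g.2) x.v x.v.2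
            simpa using h1⟩⟩
          left_inv := fun x => by
            apply BW.ext
            apply Subtype.ext
            show (g : Γ)⁻¹ * ((g : Γ) * x.v * (g : Γ)⁻¹) * (g : Γ) = x.v
            group
          right_inv := fun x => by
            apply BW.ext
            apply Subtype.ext
            show (g : Γ) * ((g : Γ)⁻¹ * x.v * (g : Γ)) * (g : Γ)⁻¹ = x.v
            group
          map_mul' := fun x y => by
            apply BW.ext
            apply Subtype.ext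
            exact hform g x.v y.v }
      map_one' := by
        ext x
        show (((1 : N) : Γ) * x.v * ((1 : N) : Γ)⁻¹) = x.v
        simp
      map_mul' := fun g g' => by
        ext x
        show (((g * g' : N) : Γ) * x.v * ((g * g' : N) : Γ)⁻¹) =
          (g : Γ) * ((g' : Γ) * x.v * (g' : Γ)⁻¹) * (g : Γ)⁻¹
        simp only [Subgroup.coe_mul]
        group }
  have hρ : ∀ (g : N) (x : BW W), (((ρ g x).v : W) : Γ) = (g : Γ) * x.v * (g : Γ)⁻¹ :=
    fun _ _ => rfl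
  have hcard : Nat.card (Y.subgroupOf N) = Nat.card Y :=
    Nat.card_congr (Subgroup.subgroupOfEquivOfLe hYN).toEquiv
  have key := avg hV ρ (Y.subgroupOf N) (B.subgroupOf N) (by rw [hcard]; exact hY)
    (hB.comap_of_injective N.subtype N.subtype_injective) (by
      intro b hb
      rw [Subgroup.mem_normalizer_iff]
      intro y
      exact Subgroup.mem_normalizer_iff.mp (hBY hb) (y : Γ)) (by
      intro x hx h hh
      have h1 : ∀ b ∈ B, b * (x.v : Γ) * b⁻¹ = x.v := by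
        intro b hb
        have h2 := hx ⟨b, hBN hb⟩ hb
        have h3 := congrArg (fun z : BW W => ((z.v : W) : Γ)) h2
        exact h3
      have h4 := hfix x.v x.v.2 h1 (h : Γ) hh
      apply BW.ext
      apply Subtype.ext
      exact h4)
  intro h hh x hx
  have h5 := key ⟨h, hYN hh⟩ hh ⟨⟨x, hx⟩⟩
  exact congrArg (fun z : BW W => ((z.v : W) : Γ)) h5

end baer

section Q

variable {Γ : Type*} [Group Γ] [Finite Γ] {p : ℕ} [hp : Fact p.Prime]

theorem norm_of_char {R A₀ : Subgroup Γ} (hA₀R : A₀ ≤ R) (hchar : (A₀.subgroupOf R).Characteristic)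
    {g : Γ} (hg : g ∈ Subgroup.normalizer (R : Set Γ)) :
    g ∈ Subgroup.normalizer (A₀ : Set Γ) := by
  apply H05.normalizer_of_conj
  intro x hx
  let ψ : R ≃* R := R.normalizerMonoidHom ⟨g, hg⟩
  have h1 := (Subgroup.characteristic_iff_le_comap.mp hchar ψ)
    (show (⟨x, hA₀R hx⟩ : R) ∈ A₀.subgroupOf R from hx)
  exact h1

theorem Q_odd (hp2 : p ≠ 2) {R Y B : Subgroup Γ} (hR : IsPGroup p R) (hY : (Nat.card Y).Coprime p)
    (hB : IsPGroup p B) (hYR : Y ≤ Subgroup.normalizer (R : Set Γ))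
    (hBR : B ≤ Subgroup.normalizer (R : Set Γ)) (hBY : B ≤ Subgroup.normalizer (Y : Set Γ))
    (hC : R ⊓ Subgroup.centralizer (B : Set Γ) ≤ Subgroup.centralizer (Y : Set Γ)) :
    Y ≤ Subgroup.centralizer (R : Set Γ) := by
  have hpr : p.Prime := Fact.out
  obtain ⟨A₀, hA₀R, hchar, hpow, hcomm, -, -, hfaith⟩ := H09.exists_critical_in R hR
  let C₀ : Subgroup Γ := A₀ ⊓ Subgroup.centralizer (A₀ : Set Γ)
  have hC2 : C2 A₀ C₀ := by
    refine ⟨?_, ?_⟩
    · intro c hc g hg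
      exact (Subgroup.mem_centralizer_iff.mp hc.2 g hg).symm
    · intro g hg h hh
      refine Subgroup.mem_inf.mpr ⟨comm_mem_H hg hh, ?_⟩
      exact hcomm (Subgroup.commutator_mem_commutator hg hh)
  have hdvd : p ∣ p.choose 2 := hpr.dvd_choose_self (by norm_num) (lt_of_le_of_ne hpr.two_le (Ne.symm hp2))
  let W : Subgroup Γ :=
    { carrier := {x | x ∈ A₀ ∧ x ^ p = 1}
      mul_mem' := by
        rintro a b ⟨ha, ha'⟩ ⟨hb, hb'⟩
        refine ⟨A₀.mul_mem ha hb, ?_⟩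
        rw [hC2.mul_pow' ha hb p, ha', hb', one_mul, one_mul]
        obtain ⟨q, hq⟩ := hdvd
        rw [hq, pow_mul, ← hC2.pow_left hb ha p, hb', commutatorElement_one_left, one_pow]
      one_mem' := ⟨A₀.one_mem, one_pow _⟩
      inv_mem' := by
        rintro a ⟨ha, ha'⟩
        exact ⟨A₀.inv_mem ha, by rw [inv_pow, ha', inv_one]⟩ }
  have hWA : W ≤ A₀ := fun x hx => hx.1
  have hC2W : C2 W C₀ := ⟨fun c hc g hg => hC2.hz c hc g (hWA hg),
    fun g hg h hh => hC2.hcc g (hWA hg) h (hWA hh)⟩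
  have hA₀p : IsPGroup p A₀ := hR.to_le hA₀R
  have hWp : IsPGroup p W := hA₀p.to_le hWA
  have hodd : Even (p + 1) := (hpr.odd_of_ne_two hp2).add_one
  have h2s : 2 * ((p + 1) / 2) = p + 1 := Nat.two_mul_div_two_of_even hodd
  have hs : ∀ x ∈ W, ∀ y ∈ W, ⁅x, y⁆ ^ (2 * ((p + 1) / 2)) = ⁅x, y⁆ := by
    intro x hx y hy
    have h1 : ⁅x, y⁆ ∈ W := comm_mem_H hx hy
    rw [h2s, pow_succ, h1.2, one_mul]
  have hnA : ∀ g ∈ Subgroup.normalizer (R : Set Γ), g ∈ Subgroup.normalizer (A₀ : Set Γ) :=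
    fun g hg => norm_of_char hA₀R hchar hg
  have hnW : ∀ g ∈ Subgroup.normalizer (R : Set Γ), g ∈ Subgroup.normalizer (W : Set Γ) := by
    intro g hg
    apply H05.normalizer_of_conj
    rintro x ⟨hx, hx'⟩
    refine ⟨(Subgroup.mem_normalizer_iff.mp (hnA g hg) x).mp hx, ?_⟩
    rw [conj_pow, hx']
    group
  have hav := baer_avg hC2W hs hWp (fun y hy => hnW y (hYR hy)) (fun b hb => hnW b (hBR hb)) hY hB hBY (by
    intro x hx hfx h hh
    have h1 : x ∈ R ⊓ Subgroup.centralizer (B : Set Γ) := by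
      refine Subgroup.mem_inf.mpr ⟨hA₀R hx.1, ?_⟩
      rw [Subgroup.mem_centralizer_iff]
      intro b hb
      exact mul_inv_eq_iff_eq_mul.mp (hfx b hb)
    have h2 := Subgroup.mem_centralizer_iff.mp (hC h1) h hh
    rw [h2]
    group)
  intro h hh
  have hord : (orderOf h).Coprime p :=
    Nat.Coprime.coprime_dvd_left (Subgroup.orderOf_dvd_natCard Y hh) hY
  have hA : ∀ x ∈ A₀, h * x * h⁻¹ = x := by
    intro x hx
    exact H01.ZE.centralizes_of_omega hp2 hC2 hA₀p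
      (fun x hx => (Subgroup.mem_normalizer_iff.mp (hnA h (hYR hh)) x).mp hx) hord
      (fun x hx hxp => hav h hh x ⟨hx, hxp⟩) x hx
  let φ : MulAut R := R.normalizerMonoidHom ⟨h, hYR hh⟩
  have hφ : ∀ z : R, ((φ z : R) : Γ) = h * z * h⁻¹ := fun z => rfl
  have hφc : (orderOf φ).Coprime p := by
    have h1 : orderOf φ ∣ orderOf (⟨h, hYR hh⟩ : ↥(Subgroup.normalizer (R : Set Γ))) :=
      orderOf_map_dvd _ _
    rw [Subgroup.orderOf_mk] at h1
    exact Nat.Coprime.coprime_dvd_left h1 hord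
  have hφ1 := hfaith φ hφc (by
    intro a ha
    apply Subtype.ext
    rw [hφ]
    exact hA a ha)
  rw [Subgroup.mem_centralizer_iff]
  intro r hr
  have h3 : ((φ ⟨r, hr⟩ : R) : Γ) = r := by rw [hφ1]; rfl
  rw [hφ] at h3
  have h4 : h * r = r * h := mul_inv_eq_iff_eq_mul.mp h3
  exact h4.symm

theorem Q_two {R Y B : Subgroup Γ} (hR : IsPGroup p R) (hY : (Nat.card Y).Coprime p)
    (hB : IsPGroup p B) (hYR : Y ≤ Subgroup.normalizer (R : Set Γ))
    (hBR : B ≤ Subgroup.normalizer (R : Set Γ)) (hBY : B ≤ Subgroup.normalizer (Y : Set Γ))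
    (hC : R ⊓ Subgroup.centralizer (B : Set Γ) ≤ Subgroup.centralizer (Y : Set Γ))
    (hq : ∀ r ∈ R, ∀ b ∈ B, ∀ r' ∈ R, ⁅⁅r, b⁆, r'⁆ = 1) :
    Y ≤ Subgroup.centralizer (R : Set Γ) := by
  have hpr : p.Prime := Fact.out
  let Z : Subgroup Γ := R ⊓ Subgroup.centralizer (R : Set Γ)
  have hZR : Z ≤ R := inf_le_left
  have hZp : IsPGroup p Z := hR.to_le hZR
  have hC2 : C2 Z (⊥ : Subgroup Γ) := by
    refine ⟨?_, ?_⟩
    · intro c hc g hg
      rw [Subgroup.mem_bot] at hc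
      simp [hc]
    · intro g hg h hh
      rw [Subgroup.mem_bot, commutatorElement_eq_one_iff_mul_comm]
      exact Subgroup.mem_centralizer_iff.mp hh.2 g hg.1
  have hnZ : ∀ g ∈ Subgroup.normalizer (R : Set Γ), g ∈ Subgroup.normalizer (Z : Set Γ) :=
    fun g hg => S1482.inf_norm (A := Subgroup.normalizer (R : Set Γ)) le_rfl
      (H01.normalizer_le_normalizer_centralizer R) hg
  have hav := baer_avg hC2 (s := 0) (by
      intro x hx y hy
      have h1 : ⁅x, y⁆ = 1 := by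
        rw [commutatorElement_eq_one_iff_mul_comm]
        exact Subgroup.mem_centralizer_iff.mp hy.2 x hx.1
      rw [h1]
      simp) hZp (fun y hy => hnZ y (hYR hy)) (fun b hb => hnZ b (hBR hb)) hY hB hBY (by
    intro x hx hfx h hh
    have h1 : x ∈ R ⊓ Subgroup.centralizer (B : Set Γ) := by
      refine Subgroup.mem_inf.mpr ⟨hx.1, ?_⟩
      rw [Subgroup.mem_centralizer_iff]
      intro b hb
      exact mul_inv_eq_iff_eq_mul.mp (hfx b hb)
    have h2 := Subgroup.mem_centralizer_iff.mp (hC h1) h hh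
    rw [h2]
    group)
  -- elements acting trivially modulo Z
  have hbmod : ∀ b ∈ B, ∀ r ∈ R, b * r * b⁻¹ * r⁻¹ ∈ Z := by
    intro b hb r hr
    have hbr : b * r * b⁻¹ ∈ R := (Subgroup.mem_normalizer_iff.mp (hBR hb) r).mp hr
    have h0 : r * b * r⁻¹ * b⁻¹ ∈ R := by
      have h1 : r * b * r⁻¹ * b⁻¹ = r * (b * r⁻¹ * b⁻¹) := by group
      rw [h1]
      exact R.mul_mem hr ((Subgroup.mem_normalizer_iff.mp (hBR hb) r⁻¹).mp (R.inv_mem hr))
    have h1 : r * b * r⁻¹ * b⁻¹ ∈ Z := by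
      refine Subgroup.mem_inf.mpr ⟨h0, ?_⟩
      rw [Subgroup.mem_centralizer_iff]
      intro r' hr'
      have h2 := hq r hr b hb r' hr'
      rw [commutatorElement_eq_one_iff_mul_comm] at h2
      exact h2.symm
    have h3 : b * r * b⁻¹ * r⁻¹ = (r * b * r⁻¹ * b⁻¹)⁻¹ := by group
    rw [h3]
    exact Z.inv_mem h1
  have hstep2 : ∀ h ∈ Y, ∀ b ∈ B, h * b * h⁻¹ * b⁻¹ ∈ Y ⊓ Subgroup.centralizer (R : Set Γ) := by
    intro h hh b hb
    have huY : h * b * h⁻¹ * b⁻¹ ∈ Y := by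
      have h1 : h * b * h⁻¹ * b⁻¹ = h * (b * h⁻¹ * b⁻¹) := by group
      rw [h1]
      exact Y.mul_mem hh ((Subgroup.mem_normalizer_iff.mp (hBY hb) h⁻¹).mp (Y.inv_mem hh))
    refine Subgroup.mem_inf.mpr ⟨huY, ?_⟩
    set u := h * b * h⁻¹ * b⁻¹ with hu
    have hord : (orderOf u).Coprime p :=
      Nat.Coprime.coprime_dvd_left (Subgroup.orderOf_dvd_natCard Y huY) hY
    have hmod : ∀ r ∈ R, u * r * u⁻¹ * r⁻¹ ∈ Z := by
      intro r hr
      -- r₁ = b⁻¹ r b, z₁ = r₁ r⁻¹ ∈ Z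
      have hb' : b⁻¹ ∈ B := B.inv_mem hb
      have hr₁ : b⁻¹ * r * b ∈ R := by
        have h1 := (Subgroup.mem_normalizer_iff.mp (hBR hb') r).mp hr
        simpa using h1
      have hz₁ : (b⁻¹ * r * b) * r⁻¹ ∈ Z := by
        have h1 := hbmod b⁻¹ hb' r hr
        simpa using h1
      set r₁ := b⁻¹ * r * b with hr₁d
      have hh' : h⁻¹ ∈ Y := Y.inv_mem hh
      have hr₂ : h⁻¹ * r₁ * h ∈ R := by
        have h1 := (Subgroup.mem_normalizer_iff.mp (hYR hh') r₁).mp hr₁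
        simpa using h1
      set r₂ := h⁻¹ * r₁ * h with hr₂d
      have hz₂ : b * r₂ * b⁻¹ * r₂⁻¹ ∈ Z := hbmod b hb r₂ hr₂
      have hz₃ : h * (b * r₂ * b⁻¹ * r₂⁻¹) * h⁻¹ ∈ Z :=
        (Subgroup.mem_normalizer_iff.mp (hnZ h (hYR hh)) _).mp hz₂
      have e : u * r * u⁻¹ * r⁻¹ =
          (h * (b * r₂ * b⁻¹ * r₂⁻¹) * h⁻¹) * ((b⁻¹ * r * b) * r⁻¹) := by
        rw [hu, hr₂d, hr₁d]
        group
      rw [e]
      exact Z.mul_mem hz₃ hz₁
    rw [Subgroup.mem_centralizer_iff]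
    intro r hr
    have hzm := hmod r hr
    set z := u * r * u⁻¹ * r⁻¹ with hz
    have hfixz : u * z * u⁻¹ = z := hav u huY z hzm
    have hcz : u * r * u⁻¹ = z * r := by rw [hz]; group
    have hit : ∀ n : ℕ, u ^ n * r * (u ^ n)⁻¹ = z ^ n * r := by
      intro n
      induction n with
      | zero => simp
      | succ n ih =>
        have h1 : u * z ^ n * u⁻¹ = z ^ n := by rw [← conj_pow, hfixz]
        calc u ^ (n + 1) * r * (u ^ (n + 1))⁻¹
            = u * (u ^ n * r * (u ^ n)⁻¹) * u⁻¹ := by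
              rw [pow_succ' u n]
              group
          _ = u * (z ^ n * r) * u⁻¹ := by rw [ih]
          _ = (u * z ^ n * u⁻¹) * (u * r * u⁻¹) := by group
          _ = z ^ n * (z * r) := by rw [h1, hcz]
          _ = z ^ (n + 1) * r := by
              rw [pow_succ]
              exact (mul_assoc _ _ _).symm
    have h1 := hit (orderOf u)
    rw [pow_orderOf_eq_one, one_mul, inv_one, mul_one] at h1
    have h2 : z ^ orderOf u = 1 := by
      have h3 : z ^ orderOf u * r = 1 * r := by rw [one_mul]; exact h1.symm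
      exact mul_right_cancel h3
    obtain ⟨k, hk⟩ := S1482.pow_of_mem hZp hzm
    have hz1 : z = 1 :=
      (pow_eq_one_iff_of_coprime (Nat.Coprime.pow_right k hord)).mp ⟨h2, hk⟩
    have h4 : u * r * u⁻¹ = r := by rw [hcz, hz1, one_mul]
    exact (mul_inv_eq_iff_eq_mul.mp h4).symm
  intro h hh
  have hcop : (Nat.card B).Coprime (Nat.card Y) := by
    obtain ⟨n, hn⟩ := IsPGroup.iff_card.mp hB
    rw [hn]
    exact Nat.Coprime.pow_left n hY.symm
  have hBsol : Group.IsSolvable B := by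
    haveI := hB.isNilpotent
    infer_instance
  have hAN : B ≤ Subgroup.normalizer ((Y ⊓ Subgroup.centralizer (R : Set Γ) : Subgroup Γ) : Set Γ) :=
    S1482.inf_norm hBY (hBR.trans (H01.normalizer_le_normalizer_centralizer R))
  obtain ⟨n, hn, hnh⟩ := H01.key_lemma (A := B) (K := Y)
    (N := Y ⊓ Subgroup.centralizer (R : Set Γ)) (k := h) inf_le_left hAN hBY hcop (Or.inl hBsol) hh
    (fun b hb => hstep2 h hh b hb)
  have hcopY : (Nat.card ↥(Y ⊓ Subgroup.centralizer (B : Set Γ))).Coprime p :=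
    Nat.Coprime.coprime_dvd_left (Subgroup.card_dvd_of_le inf_le_left) hY
  have hP := H01.thompson_PxQ p B (Y ⊓ Subgroup.centralizer (B : Set Γ)) R hB hcopY hR
    (by
      intro b hb
      rw [Subgroup.mem_centralizer_iff]
      intro y hy
      exact (Subgroup.mem_centralizer_iff.mp hy.2 b hb).symm)
    hBR (inf_le_left.trans hYR)
    (by
      intro x hx
      rw [Subgroup.mem_centralizer_iff]
      intro y hy
      exact Subgroup.mem_centralizer_iff.mp (hC hx) y hy.1)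
  have h1 : n * h ∈ Subgroup.centralizer (R : Set Γ) := hP hnh
  have h2 : h = n⁻¹ * (n * h) := by group
  rw [h2]
  exact Subgroup.mul_mem _ (Subgroup.inv_mem _ hn.2) h1

/-- The coprime action lemma. -/
theorem Q_all {R Y B : Subgroup Γ} (hR : IsPGroup p R) (hY : (Nat.card Y).Coprime p)
    (hB : IsPGroup p B) (hYR : Y ≤ Subgroup.normalizer (R : Set Γ))
    (hBR : B ≤ Subgroup.normalizer (R : Set Γ)) (hBY : B ≤ Subgroup.normalizer (Y : Set Γ))
    (hC : R ⊓ Subgroup.centralizer (B : Set Γ) ≤ Subgroup.centralizer (Y : Set Γ))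
    (hq : p = 2 → ∀ r ∈ R, ∀ b ∈ B, ∀ r' ∈ R, ⁅⁅r, b⁆, r'⁆ = 1) :
    Y ≤ Subgroup.centralizer (R : Set Γ) := by
  by_cases h2 : p = 2
  · exact Q_two hR hY hB hYR hBR hBY hC (hq h2)
  · exact Q_odd h2 hR hY hB hYR hBR hBY hC

end Q

section lift

variable {X : Type*} [Group X] [Finite X] {p : ℕ} [hp : Fact p.Prime]

theorem lift_pgroup (O : Subgroup X) [O.Normal] {Zb : Subgroup (X ⧸ O)} (hZ : IsPGroup p Zb) :
    ∃ S : Subgroup X, IsPGroup p S ∧ ∀ z ∈ Zb, ∃ a ∈ S, QuotientGroup.mk' O a = z := by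
  let U : Subgroup X := Zb.comap (QuotientGroup.mk' O)
  obtain ⟨P⟩ : Nonempty (Sylow p U) := inferInstance
  let f : U →* Zb := ((QuotientGroup.mk' O).comp U.subtype).codRestrict Zb (fun u => u.2)
  have hf : Function.Surjective f := by
    rintro ⟨z, hz⟩
    obtain ⟨x, rfl⟩ := QuotientGroup.mk'_surjective O z
    exact ⟨⟨x, hz⟩, rfl⟩
  have h1 : ((P : Subgroup U).map f).index ∣ (P : Subgroup U).index :=
    Subgroup.index_map_dvd _ hf
  obtain ⟨k, hk⟩ := hZ.index ((P : Subgroup U).map f)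
  have hnd : ¬ p ∣ (P : Subgroup U).index := P.not_dvd_index
  have hk0 : k = 0 := by
    by_contra hne
    apply hnd
    refine dvd_trans ?_ h1
    rw [hk]
    exact dvd_pow_self p hne
  have htop : (P : Subgroup U).map f = ⊤ := by
    rw [hk0, pow_zero] at hk
    exact Subgroup.index_eq_one.mp hk
  refine ⟨(P : Subgroup U).map U.subtype, P.isPGroup'.map _, ?_⟩
  intro z hz
  have h2 : (⟨z, hz⟩ : Zb) ∈ (P : Subgroup U).map f := htop ▸ trivial
  obtain ⟨a, ha, hfa⟩ := h2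
  exact ⟨a, ⟨a, ha, rfl⟩, congrArg Subtype.val hfa⟩

theorem class2_comm {P : Type*} [Group P] [Group.IsNilpotent P] (h : Group.nilpotencyClass P ≤ 2)
    (a b c : P) : ⁅⁅a, b⁆, c⁆ = 1 := by
  have h00 : a ∈ (⊤ : Subgroup P).lowerCentralSeries 0 := Subgroup.mem_top a
  have h0 : ⁅⁅a, b⁆, c⁆ ∈ (⊤ : Subgroup P).lowerCentralSeries 2 :=
    Subgroup.commutator_mem_commutator
      (Subgroup.commutator_mem_commutator h00 (Subgroup.mem_top b))
      (Subgroup.mem_top c)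
  have h1 : (⊤ : Subgroup P).lowerCentralSeries 2 ≤
      (⊤ : Subgroup P).lowerCentralSeries (Group.nilpotencyClass P) :=
    Subgroup.lowerCentralSeries_antitone _ h
  rw [Subgroup.lowerCentralSeries_nilpotencyClass] at h1
  exact Subgroup.mem_bot.mp (h1 h0)

end lift

section G

variable {G : Type*} [Group G] [Finite G] {p : ℕ} [hp : Fact p.Prime]

/-- `O_{p'}(X)` as a subgroup of `G`. -/
def OO (p : ℕ) (X : Subgroup G) : Subgroup G := (Cfsg.pPrimeCore p X).map X.subtype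

theorem OO_coprime (X : Subgroup G) : (Nat.card (OO p X)).Coprime p := by
  unfold OO
  rw [Subgroup.card_map_of_injective X.subtype_injective]
  exact H06.coprime_card_pPrimeCore p

theorem OO_le (X : Subgroup G) : OO p X ≤ X := by
  rintro _ ⟨x, -, rfl⟩
  exact x.2

theorem OO_norm (X : Subgroup G) : X ≤ Subgroup.normalizer (OO p X : Set G) :=
  S1482.map_norm _ H03.pPrimeCore_normal'

/-- The key lemma: invariant `p'`-subgroups of a `p`-constrained overgroup lie in its `p'`-core. -/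
theorem claim (X : Subgroup G) (hcon : Cfsg.IsPConstrained p ↥X)
    (hq2 : p = 2 → ∀ S : Subgroup G, IsPGroup p S → ∀ a ∈ S, ∀ b ∈ S, ∀ c ∈ S, ⁅⁅a, b⁆, c⁆ = 1)
    (E : Subgroup G) (hEp : IsPGroup p E) (hEX : E ≤ X)
    (hEfull : ∀ x ∈ Subgroup.centralizer (E : Set G), IsPGroup p (Subgroup.zpowers x) → x ∈ E)
    {Y : Subgroup G} (hYX : Y ≤ X) (hYc : (Nat.card Y).Coprime p)
    (hEY : E ≤ Subgroup.normalizer (Y : Set G)) : Y ≤ OO p X := by
  haveI hOn : (Cfsg.pPrimeCore p ↥X).Normal := H03.pPrimeCore_normal'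
  let π : ↥X →* (↥X ⧸ Cfsg.pPrimeCore p ↥X) := QuotientGroup.mk' _
  have hπs : Function.Surjective π := QuotientGroup.mk'_surjective _
  have hker : ∀ g : ↥X, π g = 1 ↔ (g : G) ∈ OO p X := by
    intro g
    rw [show π g = 1 ↔ g ∈ Cfsg.pPrimeCore p ↥X from QuotientGroup.eq_one_iff g]
    constructor
    · intro h
      exact ⟨g, h, rfl⟩
    · rintro ⟨g', hg', he⟩
      have h1 : g' = g := Subtype.ext he
      exact h1 ▸ hg'
  let Rb : Subgroup (↥X ⧸ Cfsg.pPrimeCore p ↥X) := Cfsg.pCore p _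
  haveI hRn : Rb.Normal := H01.pCore_normal p
  have hRp : IsPGroup p Rb := H01.pCore_isPGroup p
  have hRc := H15.centralizer_pCore_le_of_constrained hcon
  have hRtop : Subgroup.normalizer (Rb : Set (↥X ⧸ Cfsg.pPrimeCore p ↥X)) = ⊤ :=
    Subgroup.normalizer_eq_top_iff.mpr hRn
  let Yb := (Y.subgroupOf X).map π
  let Eb := (E.subgroupOf X).map π
  have hYbc : (Nat.card Yb).Coprime p := by
    have h1 : Nat.card Yb ∣ Nat.card (Y.subgroupOf X) := Subgroup.card_map_dvd _ _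
    have h2 : Nat.card (Y.subgroupOf X) = Nat.card Y :=
      Nat.card_congr (Subgroup.subgroupOfEquivOfLe hYX).toEquiv
    rw [h2] at h1
    exact Nat.Coprime.coprime_dvd_left h1 hYc
  have hEbp : IsPGroup p Eb := (hEp.comap_of_injective X.subtype X.subtype_injective).map π
  have hEbY : Eb ≤ Subgroup.normalizer (Yb : Set (↥X ⧸ Cfsg.pPrimeCore p ↥X)) := by
    rintro _ ⟨a, ha, rfl⟩
    apply Subgroup.le_normalizer_map π
    refine ⟨a, Subgroup.mem_normalizer_iff.mpr ?_, rfl⟩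
    intro y
    exact Subgroup.mem_normalizer_iff.mp (hEY ha) (y : G)
  have hdisj : Disjoint Yb Rb := by
    obtain ⟨n, hn⟩ := IsPGroup.iff_card.mp hRp
    apply Subgroup.disjoint_of_coprime_natCard
    rw [hn]
    exact Nat.Coprime.pow_right n hYbc
  have hE₀sol : Group.IsSolvable E := by
    haveI := hEp.isNilpotent
    infer_instance
  have hcopEO : (Nat.card E).Coprime (Nat.card (OO p X)) := by
    obtain ⟨n, hn⟩ := IsPGroup.iff_card.mp hEp
    rw [hn]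
    exact Nat.Coprime.pow_left n (OO_coprime X).symm
  have hC : Rb ⊓ Subgroup.centralizer (Eb : Set (↥X ⧸ Cfsg.pPrimeCore p ↥X)) ≤
      Subgroup.centralizer (Yb : Set (↥X ⧸ Cfsg.pPrimeCore p ↥X)) := by
    rintro u ⟨huR, huC⟩
    obtain ⟨x, rfl⟩ := hπs u
    have hcomm : ∀ a ∈ E, (x : G) * a * (x : G)⁻¹ * a⁻¹ ∈ OO p X := by
      intro a ha
      have h1 : π ⟨a, hEX ha⟩ * π x = π x * π ⟨a, hEX ha⟩ :=
        Subgroup.mem_centralizer_iff.mp huC _ ⟨⟨a, hEX ha⟩, ha, rfl⟩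
      have h2 : π (x * ⟨a, hEX ha⟩ * x⁻¹ * (⟨a, hEX ha⟩ : ↥X)⁻¹) = 1 := by
        simp only [map_mul, map_inv, ← h1]
        group
      exact (hker _).mp h2
    obtain ⟨n, hnO, hnx⟩ := H01.key_lemma' (A := E) (N := OO p X)
      (hEX.trans (OO_norm X)) hcopEO (Or.inl hE₀sol) hcomm
    have hnX : n ∈ X := OO_le X hnO
    have hfn : π ⟨n, hnX⟩ = 1 := (hker _).mpr hnO
    set x' : ↥X := ⟨n, hnX⟩ * x with hx'
    have hfx' : π x' = π x := by rw [hx', map_mul, hfn, one_mul]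
    have hx'G : (x' : G) = n * x := rfl
    have hx'C : (x' : G) ∈ Subgroup.centralizer (E : Set G) := by
      rw [Subgroup.mem_centralizer_iff]
      intro a ha
      have h1 : (x' : G) * a * (x' : G)⁻¹ ∈ E := by
        rw [hx'G]
        exact (Subgroup.mem_normalizer_iff.mp hnx a).mp ha
      have h2 : π ⟨a, hEX ha⟩ * π x = π x * π ⟨a, hEX ha⟩ :=
        Subgroup.mem_centralizer_iff.mp huC _ ⟨⟨a, hEX ha⟩, ha, rfl⟩
      have h3 : π (x' * ⟨a, hEX ha⟩ * x'⁻¹ * (⟨a, hEX ha⟩ : ↥X)⁻¹) = 1 := by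
        simp only [map_mul, map_inv, hfx', ← h2]
        group
      have h4 : (x' : G) * a * (x' : G)⁻¹ * a⁻¹ ∈ OO p X := (hker _).mp h3
      have h5 : (x' : G) * a * (x' : G)⁻¹ * a⁻¹ ∈ E := E.mul_mem h1 (E.inv_mem ha)
      have h6 : Disjoint E (OO p X) := Subgroup.disjoint_of_coprime_natCard hcopEO
      have h7 := Subgroup.disjoint_def.mp h6 h5 h4
      have h8 : (x' : G) * a * (x' : G)⁻¹ = a := mul_inv_eq_one.mp h7
      exact (mul_inv_eq_iff_eq_mul.mp h8).symm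
    -- the `p`-part
    have huRp : ∃ e, (π x) ^ (p ^ e) = 1 := by
      obtain ⟨e, he⟩ := hRp ⟨π x, huR⟩
      exact ⟨e, by simpa using congrArg Subtype.val he⟩
    obtain ⟨e, he⟩ := huRp
    have hn0 : orderOf x' ≠ 0 := (orderOf_pos x').ne'
    obtain ⟨α, m, hm, hαm⟩ := Nat.exists_eq_pow_mul_and_not_dvd hn0 p (Fact.out : p.Prime).ne_one
    have hcm : (p ^ α).Coprime m :=
      Nat.Coprime.pow_left α ((Nat.Prime.coprime_iff_not_dvd (Fact.out : p.Prime)).mpr hm)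
    obtain ⟨k, hk1, hk2⟩ := Nat.chineseRemainder hcm 1 0
    have hoπ : orderOf (π x) ∣ p ^ α := by
      have h1 : orderOf (π x) ∣ orderOf x' := by
        rw [← hfx']
        exact orderOf_map_dvd π x'
      rw [hαm] at h1
      obtain ⟨l, -, hl⟩ := (Nat.dvd_prime_pow (Fact.out : p.Prime)).mp (orderOf_dvd_of_pow_eq_one he)
      have h2 : orderOf (π x) ∣ p ^ α * m := h1
      rw [hl] at h2 ⊢
      exact (Nat.Coprime.dvd_mul_right (Nat.Coprime.pow_left l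
        ((Nat.Prime.coprime_iff_not_dvd (Fact.out : p.Prime)).mpr hm))).mp h2
    have hπk : (π x) ^ k = π x := by
      have h1 : (π x) ^ k = (π x) ^ 1 :=
        pow_eq_pow_iff_modEq.mpr (Nat.ModEq.of_dvd hoπ hk1)
      rw [h1, pow_one]
    have hpart : ((x' : G) ^ k) ∈ E := by
      apply hEfull
      · exact Subgroup.pow_mem _ hx'C k
      · rw [IsPGroup.iff_card, Nat.card_zpowers]
        have hz : ((x' : G) ^ k) ^ (p ^ α) = 1 := by
          have h1 : m ∣ k := (Nat.modEq_zero_iff_dvd.mp hk2)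
          obtain ⟨t, ht⟩ := h1
          rw [← pow_mul, ht]
          have h2 : m * t * p ^ α = (p ^ α * m) * t := by ring
          rw [h2, ← hαm, pow_mul]
          have h3 : (x' : G) ^ orderOf x' = 1 := by
            have h5 : ((x' ^ orderOf x' : ↥X) : G) = ((1 : ↥X) : G) :=
              congrArg Subtype.val (pow_orderOf_eq_one x')
            simpa only [Subgroup.coe_pow, Subgroup.coe_one] using h5
          rw [h3, one_pow]
        obtain ⟨l, -, hl⟩ := (Nat.dvd_prime_pow (Fact.out : p.Prime)).mp (orderOf_dvd_of_pow_eq_one hz)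
        exact ⟨l, hl⟩
    have hxE : π x = π (x' ^ k) := by
      rw [map_pow, hfx', hπk]
    have hmemE : π x ∈ Eb := by
      rw [hxE]
      exact ⟨x' ^ k, hpart, rfl⟩
    rw [Subgroup.mem_centralizer_iff]
    intro y hy
    have hyR : y ∈ Subgroup.normalizer (Rb : Set (↥X ⧸ Cfsg.pPrimeCore p ↥X)) := by
      rw [hRtop]
      trivial
    exact S1482.comm_elem hy huR hyR (hEbY hmemE) hdisj
  have hq : p = 2 → ∀ r ∈ Rb, ∀ b ∈ Eb, ∀ r' ∈ Rb, ⁅⁅r, b⁆, r'⁆ = 1 := by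
    intro h2 r hr b hb r' hr'
    have hsup : IsPGroup p (Rb ⊔ Eb : Subgroup (↥X ⧸ Cfsg.pPrimeCore p ↥X)) :=
      hRp.to_sup_of_normal_left' hEbp (by rw [hRtop]; exact le_top)
    obtain ⟨S, hSp, hS⟩ := lift_pgroup (Cfsg.pPrimeCore p ↥X) hsup
    obtain ⟨a, ha, rfl⟩ := hS r (Subgroup.mem_sup_left hr)
    obtain ⟨b', hb', rfl⟩ := hS b (Subgroup.mem_sup_right hb)
    obtain ⟨c, hc, rfl⟩ := hS r' (Subgroup.mem_sup_left hr')
    have hS' : IsPGroup p (S.map X.subtype) := hSp.map _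
    have h3 := hq2 h2 _ hS' (a : G) ⟨a, ha, rfl⟩ (b' : G) ⟨b', hb', rfl⟩ (c : G) ⟨c, hc, rfl⟩
    have h4 : ⁅⁅a, b'⁆, c⁆ = 1 := Subtype.ext h3
    have h5 := congrArg π h4
    simpa only [map_commutatorElement, map_one] using h5
  have hmain := Q_all hRp hYbc hEbp (by rw [hRtop]; exact le_top) (by rw [hRtop]; exact le_top)
    hEbY hC hq
  intro y hy
  have h1 : π ⟨y, hYX hy⟩ ∈ Yb := ⟨⟨y, hYX hy⟩, hy, rfl⟩
  have h2 : π ⟨y, hYX hy⟩ ∈ Rb := hRc (hmain h1)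
  have h3 := Subgroup.disjoint_def.mp hdisj h1 h2
  exact (hker _).mp h3


theorem mem_D (E : Subgroup G) (hEp : IsPGroup p E) (hEc : IsMulCommutative E)
    (hEfull : ∀ x ∈ Subgroup.centralizer (E : Set G), IsPGroup p (Subgroup.zpowers x) → x ∈ E)
    {x : G} (hx : x ∈ Subgroup.centralizer (E : Set G)) (hxc : (orderOf x).Coprime p) :
    x ∈ piCoreOf (primesNotDvd p) (Subgroup.centralizer (E : Set G)) := by
  have hpr : p.Prime := Fact.out
  set C := Subgroup.centralizer (E : Set G) with hC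
  let E' : Subgroup C := E.subgroupOf C
  have hcen : ∀ (g : C), ∀ e ∈ E, e * (g : G) = (g : G) * e := fun g e he =>
    Subgroup.mem_centralizer_iff.mp g.2 e he
  haveI hE'n : E'.Normal := ⟨fun n hn g => by
    show (g : G) * n * (g : G)⁻¹ ∈ E
    have hn' : (n : G) ∈ E := hn
    have h1 := hcen g n hn'
    rw [← h1]
    simpa using hn'⟩
  have hE'p : IsPGroup p E' := hEp.comap_of_injective C.subtype C.subtype_injective
  obtain ⟨P, hP⟩ := hE'p.exists_le_sylow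
  have hPE : (P : Subgroup C) ≤ E' := by
    intro y hy
    apply hEfull (y : G) y.2
    obtain ⟨k, hk⟩ := P.isPGroup' ⟨y, hy⟩
    have hk' : (y : G) ^ (p ^ k) = 1 := by
      have h1 := congrArg Subtype.val (congrArg Subtype.val hk)
      simpa using h1
    rw [IsPGroup.iff_card, Nat.card_zpowers]
    obtain ⟨l, -, hl⟩ := (Nat.dvd_prime_pow hpr).mp (orderOf_dvd_of_pow_eq_one hk')
    exact ⟨l, hl⟩
  have hEP : E' = P := le_antisymm hP hPE
  have hidx : (Nat.card E').Coprime E'.index := by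
    obtain ⟨n, hn⟩ := IsPGroup.iff_card.mp hE'p
    rw [hn]
    refine Nat.Coprime.pow_left n ((Nat.Prime.coprime_iff_not_dvd hpr).mpr ?_)
    rw [hEP]
    exact P.not_dvd_index
  obtain ⟨H, hH⟩ := Subgroup.exists_right_complement'_of_coprime hidx
  have hHcard : (Nat.card H).Coprime p := by
    have h1 : E'.index = Nat.card H := hH.symm.index_eq_card
    rw [← h1]
    refine ((Nat.Prime.coprime_iff_not_dvd hpr).mpr ?_).symm
    rw [hEP]
    exact P.not_dvd_index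
  have hsplit : ∀ g : C, ∃ e ∈ E', ∃ h ∈ H, g = e * h := by
    intro g
    obtain ⟨⟨e, h⟩, he⟩ := hH.2 g
    exact ⟨e, e.2, h, h.2, he.symm⟩
  have hcomm : ∀ e ∈ E', ∀ g : C, e * g = g * e := fun e he g =>
    Subtype.ext (hcen g e he)
  haveI hHn : H.Normal := ⟨fun n hn g => by
    obtain ⟨e, he, h, hh, rfl⟩ := hsplit g
    have h1 : e * h * n * (e * h)⁻¹ = e * (h * n * h⁻¹) * e⁻¹ := by group
    rw [h1, hcomm e he, mul_inv_cancel_right]
    exact H.mul_mem (H.mul_mem hh hn) (H.inv_mem hh)⟩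
  have hHle : H ≤ piCore (primesNotDvd p) C := by
    refine le_sSup ⟨hHn, ?_⟩
    intro l hl hld
    refine ⟨hl, ?_⟩
    intro hlp
    have hlp' : l = p := (Nat.prime_dvd_prime_iff_eq hl hpr).mp hlp
    rw [hlp'] at hld
    exact (Nat.Prime.coprime_iff_not_dvd hpr).mp hHcard.symm hld
  obtain ⟨e, he, h, hh, hxe⟩ := hsplit ⟨x, hx⟩
  obtain ⟨k, hk⟩ := hE'p ⟨e, he⟩
  have hek : e ^ (p ^ k) = 1 := by simpa using congrArg Subtype.val hk
  have hcm : Commute e h := hcomm e he h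
  have hhm : h ^ Nat.card H = 1 := by
    have h5 : ((((⟨h, hh⟩ : H) ^ Nat.card H : H) : C) : G) = (((1 : H) : C) : G) :=
      congrArg (fun z : H => ((z : C) : G)) pow_card_eq_one'
    have h6 : (h : G) ^ Nat.card H = 1 := by
      simpa only [Subgroup.coe_pow, Subgroup.coe_one] using h5
    exact Subtype.ext (by simpa only [Subgroup.coe_pow, Subgroup.coe_one] using h6)
  have hxm : (⟨x, hx⟩ : C) ^ Nat.card H = e ^ Nat.card H := by
    rw [hxe, hcm.mul_pow, hhm, mul_one]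
  have hxm' : x ^ (Nat.card H * p ^ k) = 1 := by
    have h1 : ((⟨x, hx⟩ : C) ^ Nat.card H) ^ (p ^ k) = 1 := by
      rw [hxm, ← pow_mul, mul_comm, pow_mul, hek, one_pow]
    rw [← pow_mul] at h1
    have h2 := congrArg Subtype.val h1
    simpa using h2
  have hxm2 : x ^ Nat.card H = 1 := by
    have h1 : orderOf x ∣ Nat.card H * p ^ k := orderOf_dvd_of_pow_eq_one hxm'
    have h2 : orderOf x ∣ Nat.card H := (Nat.Coprime.pow_right k hxc).dvd_of_dvd_mul_right h1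
    exact orderOf_dvd_iff_pow_eq_one.mp h2
  have hem : e ^ Nat.card H = 1 := by
    rw [← hxm]
    apply Subtype.ext
    simpa using hxm2
  have he1 : e = 1 :=
    (pow_eq_one_iff_of_coprime (Nat.Coprime.pow_right k hHcard)).mp ⟨hem, hek⟩
  rw [he1, one_mul] at hxe
  have hmem : (⟨x, hx⟩ : C) ∈ H := hxe ▸ hh
  exact ⟨⟨x, hx⟩, hHle hmem, rfl⟩

variable {q : ℕ}

theorem inv_isP {E Y : Subgroup G} (hq : q.Prime) (hY : Y ∈ Cfsg.invSubgroups ⊤ E {q}) :
    IsPGroup q Y := by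
  haveI := Fact.mk hq
  refine IsPGroup.iff_card.mpr ⟨_, Nat.eq_prime_pow_of_unique_prime_dvd Nat.card_pos.ne' ?_⟩
  intro d hd hdd
  exact hY.2.1 d hd hdd

theorem isinv {E Z : Subgroup G} (hq : q.Prime) (hZ : IsPGroup q Z)
    (hEZ : E ≤ Subgroup.normalizer (Z : Set G)) : Z ∈ Cfsg.invSubgroups ⊤ E {q} := by
  haveI := Fact.mk hq
  refine ⟨le_top, ?_, hEZ⟩
  intro l hl hd
  obtain ⟨n, hn⟩ := IsPGroup.iff_card.mp hZ
  rw [hn] at hd
  exact (Nat.prime_dvd_prime_iff_eq hl hq).mp (hl.dvd_of_dvd_pow hd)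

theorem exists_max' {E Z : Subgroup G} (hZ : Z ∈ Cfsg.invSubgroups ⊤ E {q}) :
    ∃ Q ∈ Cfsg.maxInvSubgroups ⊤ E {q}, Z ≤ Q := by
  obtain ⟨m, hZm, hm⟩ := (Set.toFinite (Cfsg.invSubgroups ⊤ E {q})).exists_le_maximal hZ
  exact ⟨m, ⟨hm.prop, fun R hR hle => le_antisymm (hm.2 hR hle) hle⟩, hZm⟩

theorem inv_conj {E Z : Subgroup G} (hq : q.Prime) (hZ : Z ∈ Cfsg.invSubgroups ⊤ E {q}) {c : G}
    (hc : c ∈ Subgroup.centralizer (E : Set G)) :
    Z.map (MulAut.conj c).toMonoidHom ∈ Cfsg.invSubgroups ⊤ E {q} := by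
  refine isinv hq ((inv_isP hq hZ).map _) ?_
  intro e he
  apply S1395.mem_normalizer_of_map_conj
  rw [S1392.map_conj_map]
  have h1 : e * c = c * e := (Subgroup.mem_centralizer_iff.mp hc e he)
  rw [h1, ← S1392.map_conj_map, S1395.map_conj_of_mem_normalizer (hZ.2.2 he)]

theorem conj_max {E Q : Subgroup G} (hq : q.Prime) (hQ : Q ∈ Cfsg.maxInvSubgroups ⊤ E {q}) {c : G}
    (hc : c ∈ Subgroup.centralizer (E : Set G)) :
    Q.map (MulAut.conj c).toMonoidHom ∈ Cfsg.maxInvSubgroups ⊤ E {q} := by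
  refine ⟨inv_conj hq hQ.1 hc, ?_⟩
  intro Y hY hle
  have hY' := inv_conj hq hY (Subgroup.inv_mem _ hc)
  have h1 : Q ≤ Y.map (MulAut.conj c⁻¹).toMonoidHom := by
    have h2 := Subgroup.map_mono (f := (MulAut.conj c⁻¹).toMonoidHom) hle
    rwa [S1392.map_conj_map, inv_mul_cancel, S1392.map_conj_one] at h2
  have h3 := hQ.2 _ hY' h1
  rw [← h3, S1392.map_conj_map, mul_inv_cancel, S1392.map_conj_one]

theorem grow {Q W : Subgroup G} (hq : q.Prime) (hQp : IsPGroup q Q) (hWQ : W ≤ Q) (hne : ¬ Q ≤ W) :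
    ¬ (Q ⊓ Subgroup.normalizer (W : Set G) ≤ W) := by
  haveI := Fact.mk hq
  have hlt : W.subgroupOf Q < ⊤ := by
    rw [lt_top_iff_ne_top]
    intro h
    apply hne
    intro x hx
    have h1 : (⟨x, hx⟩ : Q) ∈ W.subgroupOf Q := h ▸ trivial
    exact h1
  haveI hnil : Group.IsNilpotent Q := hQp.isNilpotent
  obtain ⟨x, hx1, hx2⟩ := SetLike.exists_of_lt (normalizerCondition_of_isNilpotent _ hlt)
  have hxN : (x : G) ∈ Subgroup.normalizer (W : Set G) := by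
    rw [← Subgroup.subgroupOf_normalizer_eq hWQ] at hx1
    exact hx1
  intro hle
  exact hx2 (hle (Subgroup.mem_inf.mpr ⟨x.2, hxN⟩))

theorem card_lt_of {W A : Subgroup G} (h : W ≤ A) {x : G} (hxA : x ∈ A) (hxW : x ∉ W) :
    Nat.card W < Nat.card A := by
  refine lt_of_le_of_ne (Subgroup.card_le_of_le h) (fun e => hxW ?_)
  rw [Subgroup.eq_of_le_of_card_ge h e.ge]
  exact hxA

theorem main_ind
    (hloc : ∀ T : Subgroup G, IsPGroup p T → T ≠ ⊥ → Cfsg.IsPConstrained p ↥(Subgroup.normalizer (T : Set G)))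
    (hq2 : p = 2 → ∀ S : Subgroup G, IsPGroup p S → ∀ a ∈ S, ∀ b ∈ S, ∀ c ∈ S, ⁅⁅a, b⁆, c⁆ = 1)
    (E : Subgroup G) (hEp : IsPGroup p E) (hEc : IsMulCommutative E) (hE3 : ¬ Cfsg.PRankLE p 2 E)
    (hEfull : ∀ x ∈ Subgroup.centralizer (E : Set G), IsPGroup p (Subgroup.zpowers x) → x ∈ E)
    (hq : q.Prime) (hqp : q ≠ p) (m : ℕ) :
    ∀ Q₁ ∈ Cfsg.maxInvSubgroups ⊤ E {q}, ∀ Q₂ ∈ Cfsg.maxInvSubgroups ⊤ E {q},
      Nat.card G - Nat.card ↥(Q₁ ⊓ Q₂) = m →
      ∃ k ∈ Cfsg.piCoreOf (Cfsg.primesNotDvd p) (Subgroup.centralizer (E : Set G)),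
        Q₂ = Q₁.map (MulAut.conj k).toMonoidHom := by
  have hpr : p.Prime := Fact.out
  haveI hqF := Fact.mk hq
  induction m using Nat.strong_induction_on with
  | _ m IH =>
  intro Q₁ h₁ Q₂ h₂ hm
  by_cases h12 : Q₁ ≤ Q₂
  · have h3 : Q₂ = Q₁ := h₁.2 Q₂ h₂.1 h12
    exact ⟨1, Subgroup.one_mem _, by rw [h3, S1392.map_conj_one]⟩
  by_cases h21 : Q₂ ≤ Q₁
  · have h3 : Q₁ = Q₂ := h₂.2 Q₁ h₁.1 h21
    exact ⟨1, Subgroup.one_mem _, by rw [h3, S1392.map_conj_one]⟩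
  set W := Q₁ ⊓ Q₂ with hW
  have hQ₁p := inv_isP hq h₁.1
  have hQ₂p := inv_isP hq h₂.1
  have hWp : IsPGroup q W := hQ₁p.to_le inf_le_left
  have hEW : E ≤ Subgroup.normalizer (W : Set G) := S1482.inf_norm h₁.1.2.2 h₂.1.2.2
  have hV₁ := grow hq hQ₁p inf_le_left (fun h => h12 (h.trans inf_le_right))
  have hV₂ := grow hq hQ₂p inf_le_right (fun h => h21 (h.trans inf_le_left))
  set V₁ := Q₁ ⊓ Subgroup.normalizer (W : Set G) with hV₁d
  set V₂ := Q₂ ⊓ Subgroup.normalizer (W : Set G) with hV₂d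
  have hEV₁ : E ≤ Subgroup.normalizer (V₁ : Set G) :=
    S1482.inf_norm h₁.1.2.2 (hEW.trans Subgroup.le_normalizer)
  have hEV₂ : E ≤ Subgroup.normalizer (V₂ : Set G) :=
    S1482.inf_norm h₂.1.2.2 (hEW.trans Subgroup.le_normalizer)
  have hqpc : Nat.Coprime q p := (Nat.coprime_primes hq hpr).mpr hqp
  have hcq : ∀ Z : Subgroup G, IsPGroup q Z → (Nat.card Z).Coprime p := by
    intro Z hZ
    obtain ⟨n, hn⟩ := IsPGroup.iff_card.mp hZ
    rw [hn]
    exact Nat.Coprime.pow_left n hqpc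
  obtain ⟨U, hUE, hU, hU2⟩ := S1400.E_of_not_rank hE3
  have hU3 : p ^ 3 ≤ Nat.card U := by
    have hUp : IsPGroup p U := hEp.to_le hUE
    obtain ⟨n, hn⟩ := IsPGroup.iff_card.mp hUp
    rw [hn] at hU2 ⊢
    have h2 : 2 < n := (Nat.pow_lt_pow_iff_right hpr.one_lt).mp hU2
    exact Nat.pow_le_pow_right hpr.pos h2
  obtain ⟨B₁, hB₁, hB₁n⟩ := H05.exists_hyp_not_le hU (hcq V₁ (hQ₁p.to_le inf_le_left))
    (hUE.trans hEV₁) hV₁
  obtain ⟨B₂, hB₂, hB₂n⟩ := H05.exists_hyp_not_le hU (hcq V₂ (hQ₂p.to_le inf_le_left))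
    (hUE.trans hEV₂) hV₂
  obtain ⟨d, hd, hd1⟩ := H05.exists_mem_inf_hyp hU hU3 hB₁ hB₂
  have hdE : d ∈ E := hUE (hB₁.1 hd.1)
  let T : Subgroup G := Subgroup.zpowers d
  have hTE : T ≤ E := Subgroup.zpowers_le.mpr hdE
  have hTp : IsPGroup p T := hEp.to_le hTE
  have hTne : T ≠ ⊥ := Subgroup.zpowers_ne_bot.mpr hd1
  have hcon := hloc T hTp hTne
  have hEC : E ≤ Subgroup.centralizer (T : Set G) := by
    intro e he
    rw [Subgroup.mem_centralizer_iff]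
    intro t ht
    exact congrArg Subtype.val (hEc.is_comm.comm ⟨t, hTE ht⟩ ⟨e, he⟩)
  have hEX : E ≤ Subgroup.normalizer (T : Set G) :=
    hEC.trans (Subgroup.centralizer_le_normalizer _)
  set X := Subgroup.normalizer (T : Set G) with hX
  have hCX : Subgroup.centralizer (T : Set G) ≤ X := Subgroup.centralizer_le_normalizer _
  let Y₁ := V₁ ⊓ Subgroup.centralizer (T : Set G)
  let Y₂ := V₂ ⊓ Subgroup.centralizer (T : Set G)
  have hEC' : E ≤ Subgroup.normalizer ((Subgroup.centralizer (T : Set G) : Subgroup G) : Set G) :=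
    hEC.trans Subgroup.le_normalizer
  have hEY₁ : E ≤ Subgroup.normalizer (Y₁ : Set G) := S1482.inf_norm hEV₁ hEC'
  have hEY₂ : E ≤ Subgroup.normalizer (Y₂ : Set G) := S1482.inf_norm hEV₂ hEC'
  have hY₁p : IsPGroup q Y₁ := hQ₁p.to_le (inf_le_left.trans inf_le_left)
  have hY₂p : IsPGroup q Y₂ := hQ₂p.to_le (inf_le_left.trans inf_le_left)
  have hY₁n : ¬ Y₁ ≤ W := fun h => hB₁n (le_trans (inf_le_inf_left _
    (Subgroup.centralizer_le (Subgroup.zpowers_le.mpr hd.1))) h)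
  have hY₂n : ¬ Y₂ ≤ W := fun h => hB₂n (le_trans (inf_le_inf_left _
    (Subgroup.centralizer_le (Subgroup.zpowers_le.mpr hd.2))) h)
  have hY₁O : Y₁ ≤ OO p X := claim X hcon hq2 E hEp hEX hEfull (inf_le_right.trans hCX)
    (hcq Y₁ hY₁p) hEY₁
  have hY₂O : Y₂ ≤ OO p X := claim X hcon hq2 E hEp hEX hEfull (inf_le_right.trans hCX)
    (hcq Y₂ hY₂p) hEY₂
  let Θ : Subgroup G := OO p X ⊓ Subgroup.normalizer (W : Set G)
  have hEΘ : E ≤ Subgroup.normalizer (Θ : Set G) :=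
    S1482.inf_norm (hEX.trans (OO_norm X)) (hEW.trans Subgroup.le_normalizer)
  have hY₁Θ : Y₁ ≤ Θ := le_inf hY₁O (inf_le_left.trans inf_le_right)
  have hY₂Θ : Y₂ ≤ Θ := le_inf hY₂O (inf_le_left.trans inf_le_right)
  have hΘc : (Nat.card Θ).Coprime p :=
    Nat.Coprime.coprime_dvd_left (Subgroup.card_dvd_of_le inf_le_left) (OO_coprime X)
  have hcopEΘ : (Nat.card E).Coprime (Nat.card Θ) := by
    obtain ⟨n, hn⟩ := IsPGroup.iff_card.mp hEp
    rw [hn]
    exact Nat.Coprime.pow_left n hΘc.symm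
  have hEsol : Group.IsSolvable E := by
    haveI := hEp.isNilpotent
    infer_instance
  obtain ⟨P₁, hP₁Y, hP₁N⟩ := H01.invariant_subgroup_le_invariant_sylow hEΘ hcopEΘ (Or.inl hEsol) q
    Y₁ hY₁Θ hY₁p hEY₁
  obtain ⟨P₂, hP₂Y, hP₂N⟩ := H01.invariant_subgroup_le_invariant_sylow hEΘ hcopEΘ (Or.inl hEsol) q
    Y₂ hY₂Θ hY₂p hEY₂
  obtain ⟨c, hcC, hcP⟩ := H01.conj_invariant_sylow hEΘ hcopEΘ (Or.inl hEsol) q P₁ P₂ hP₁N hP₂N
  have hcW : (c : G) ∈ Subgroup.normalizer (W : Set G) := c.2.2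
  have hcord : (orderOf (c : G)).Coprime p :=
    Nat.Coprime.coprime_dvd_left (Subgroup.orderOf_dvd_natCard Θ c.2) hΘc
  have hcD := mem_D E hEp hEc hEfull hcC hcord
  set P₁m : Subgroup G := (P₁ : Subgroup Θ).map Θ.subtype with hP₁m
  set P₂m : Subgroup G := (P₂ : Subgroup Θ).map Θ.subtype with hP₂m
  have hP₁p : IsPGroup q P₁m := P₁.isPGroup'.map _
  have hPP : P₂m = P₁m.map (MulAut.conj (c : G)).toMonoidHom := by
    have h0 : (P₂ : Subgroup Θ) = (P₁ : Subgroup Θ).map (MulAut.conj c).toMonoidHom := by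
      rw [← hcP]
      rfl
    rw [hP₂m, hP₁m, h0, Subgroup.map_map, Subgroup.map_map]
    congr 1
  have hP₁W : P₁m ≤ Subgroup.normalizer (W : Set G) := by
    rintro _ ⟨y, -, rfl⟩
    exact y.2.2
  have hZ₁p : IsPGroup q (W ⊔ P₁m : Subgroup G) := hWp.to_sup_of_normal_left' hP₁p hP₁W
  have hEZ₁ : E ≤ Subgroup.normalizer ((W ⊔ P₁m : Subgroup G) : Set G) := by
    intro e he
    apply S1395.mem_normalizer_of_map_conj
    rw [Subgroup.map_sup, S1395.map_conj_of_mem_normalizer (hEW he),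
      S1395.map_conj_of_mem_normalizer (hP₁N he)]
  obtain ⟨Q₃, h₃, hZ₃⟩ := exists_max' (isinv hq hZ₁p hEZ₁)
  have hQ₄ := conj_max hq h₃ hcC
  set Q₄ := Q₃.map (MulAut.conj (c : G)).toMonoidHom with hQ₄d
  have hWQ₃ : W ≤ Q₃ := le_sup_left.trans hZ₃
  have hY₁Q₃ : Y₁ ≤ Q₃ := hP₁Y.trans (le_sup_right.trans hZ₃)
  have hWQ₄ : W ≤ Q₄ := by
    have h1 := Subgroup.map_mono (f := (MulAut.conj (c : G)).toMonoidHom) hWQ₃
    rwa [S1395.map_conj_of_mem_normalizer hcW] at h1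
  have hY₂Q₄ : Y₂ ≤ Q₄ := by
    refine hP₂Y.trans ?_
    rw [hPP]
    exact Subgroup.map_mono (le_sup_right.trans hZ₃)
  obtain ⟨x₁, hx₁, hx₁W⟩ := SetLike.not_le_iff_exists.mp hY₁n
  obtain ⟨x₂, hx₂, hx₂W⟩ := SetLike.not_le_iff_exists.mp hY₂n
  have hcardle : ∀ A : Subgroup G, Nat.card A ≤ Nat.card G := fun A => Subgroup.card_le_card_group A
  have hlt₁ : Nat.card W < Nat.card ↥(Q₁ ⊓ Q₃) :=
    card_lt_of (le_inf inf_le_left hWQ₃)
      (Subgroup.mem_inf.mpr ⟨hx₁.1.1, hY₁Q₃ hx₁⟩) hx₁W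
  have hlt₂ : Nat.card W < Nat.card ↥(Q₄ ⊓ Q₂) :=
    card_lt_of (le_inf hWQ₄ inf_le_right)
      (Subgroup.mem_inf.mpr ⟨hY₂Q₄ hx₂, hx₂.1.1⟩) hx₂W
  have hm1 : Nat.card G - Nat.card ↥(Q₁ ⊓ Q₃) < m := by
    have := hcardle (Q₁ ⊓ Q₃)
    omega
  have hm2 : Nat.card G - Nat.card ↥(Q₄ ⊓ Q₂) < m := by
    have := hcardle (Q₄ ⊓ Q₂)
    omega
  obtain ⟨k₁, hk₁, hk₁e⟩ := IH _ hm1 Q₁ h₁ Q₃ h₃ rfl
  obtain ⟨k₂, hk₂, hk₂e⟩ := IH _ hm2 Q₄ hQ₄ Q₂ h₂ rfl
  refine ⟨k₂ * ((c : G) * k₁), Subgroup.mul_mem _ hk₂ (Subgroup.mul_mem _ hcD hk₁), ?_⟩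
  rw [hk₂e, hQ₄d, hk₁e, S1392.map_conj_map, S1392.map_conj_map, mul_assoc]

end G

/-- Let G be a finite group and p a prime such that the normalizer of every nontrivial p-subgroup of G is p-constrained; if p = 2 assume also that the Sylow 2-subgroups of G have nilpotency class at most 2. Let E be an abelian p-subgroup containing an elementary abelian subgroup of order p ^ 3 and containing every element of p-power order of C_G(E). Then for every prime q ≠ p, any two maximal E-invariant q-subgroups of G are conjugate by an element of O_{p'}(C_G(E)). -/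
theorem result {G : Type*} [Group G] [Finite G] (p : ℕ) [Fact p.Prime]
    (hloc : ∀ T : Subgroup G, IsPGroup p T → T ≠ ⊥ → Cfsg.IsPConstrained p ↥(Subgroup.normalizer (T : Set G)))
    (h2 : p = 2 → ∀ S : Sylow p G, Group.IsNilpotent (S : Subgroup G) ∧ Group.nilpotencyClass (S : Subgroup G) ≤ 2)
    (E : Subgroup G) (hEp : IsPGroup p E) (hEc : IsMulCommutative E) (hE3 : ¬ Cfsg.PRankLE p 2 E)
    (hEfull : ∀ x ∈ Subgroup.centralizer (E : Set G), IsPGroup p (Subgroup.zpowers x) → x ∈ E)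
    (q : ℕ) [Fact q.Prime] (hqp : q ≠ p) :
    ∀ Q₁ ∈ Cfsg.maxInvSubgroups ⊤ E {q}, ∀ Q₂ ∈ Cfsg.maxInvSubgroups ⊤ E {q},
        ∃ k ∈ Cfsg.piCoreOf (Cfsg.primesNotDvd p) (Subgroup.centralizer (E : Set G)), Q₂ = Q₁.map (MulAut.conj k).toMonoidHom := by
  have hq2 : p = 2 → ∀ S : Subgroup G, IsPGroup p S → ∀ a ∈ S, ∀ b ∈ S, ∀ c ∈ S, ⁅⁅a, b⁆, c⁆ = 1 := by
    intro hp2 S hS a ha b hb c hc
    obtain ⟨P, hP⟩ := hS.exists_le_sylow
    obtain ⟨hn, hcl⟩ := h2 hp2 P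
    haveI := hn
    have h1 := class2_comm hcl (⟨a, hP ha⟩ : (P : Subgroup G)) ⟨b, hP hb⟩ ⟨c, hP hc⟩
    exact congrArg Subtype.val h1
  intro Q₁ h₁ Q₂ h₂
  exact main_ind hloc hq2 E hEp hEc hE3 hEfull Fact.out hqp _ Q₁ h₁ Q₂ h₂ rfl

end Cfsg.Agent.S1480
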