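import Cfsg.Statements.S1528
import Cfsg.Agent.Lib.H06.CharClifford

set_option autoImplicit false

open Cfsg

namespace Cfsg.Agent.S1528

open Cfsg.Agent.H06 Cfsg.Agent.H21

theorem result {G : Type*} [Group G] [Fintype G] (N : Subgroup G) [N.Normal] (hC : ∀ n ∈ N, n ≠ 1 → Subgroup.centralizer ({n} : Set G) ≤ N) (χ : G → ℂ) (hχ : Cfsg.IsIrrCharacter G χ) (hker : ∃ n ∈ N, χ n ≠ χ 1) : ∃ φ : N → ℂ, Cfsg.IsIrrCharacter N φ ∧ χ = Cfsg.indFun N φ := by
  classical
  haveI : Fintype N := Fintype.ofFinite _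
  haveI : Fintype (IrrCharacter G) := Fintype.ofFinite _
  obtain ⟨φ, hφ, hφ1, hne⟩ := exists_nonprincipal_constituent N (isCharacter_of_irr hχ) hker
  refine ⟨φ, hφ, ?_⟩
  have hst : ∀ x : G, twist N φ x = φ → x ∈ N := by
    intro x hx
    obtain ⟨k, hk, hconj⟩ := (exists_fixed_irr_iff_exists_fixed_class N x).mp ⟨φ, hφ, hφ1, hx⟩
    obtain ⟨u, hu⟩ := isConj_iff.mp hconj.symm
    have hu' : (u : G) * k * (u : G)⁻¹ = x * k * x⁻¹ := by
      have := congrArg Subtype.val hu
      simpa [MulAut.conjNormal_apply] using this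
    have hk1 : (k : G) ≠ 1 := fun h => hk (Subtype.ext h)
    have hcomm : (u : G)⁻¹ * x ∈ Subgroup.centralizer ({(k : G)} : Set G) := by
      rw [Subgroup.mem_centralizer_iff]
      rintro _ rfl
      have h2 : x * (k : G) = (u : G) * k * (u : G)⁻¹ * x := by rw [hu']; group
      calc (k : G) * ((u : G)⁻¹ * x) = (u : G)⁻¹ * ((u : G) * k * (u : G)⁻¹ * x) := by group
        _ = (u : G)⁻¹ * (x * (k : G)) := by rw [h2]
        _ = (u : G)⁻¹ * x * k := by group
    have h3 := hC k k.2 hk1 hcomm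
    have h4 := N.mul_mem u.2 h3
    simpa using h4
  have hirr := isIrr_indFun_of_stabilizer_le N hφ hst
  -- the inner product is nonzero
  have h1 : classInner (Cfsg.indFun N φ) χ ≠ 0 := by
    rw [frobenius_reciprocity N _ _ (isClassFunction_of_isCharacter (isCharacter_of_irr hχ))]
    intro h
    apply hne
    rw [← classInner_comm_conj, h, map_zero]
  by_contra hcon
  apply h1
  exact classInner_irr_ne hirr hχ (fun h => hcon h.symm)

end Cfsg.Agent.S1528
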