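import Cfsg.Statements.S1529
import Cfsg.Agent.Lib.H06.CharVirtual

set_option autoImplicit false

open Cfsg

namespace Cfsg.Agent.S1529

open Cfsg.Agent.H06 Cfsg.Agent.H21

theorem result {G : Type*} [Group G] [Fintype G] (N : Subgroup G) [Fintype N] (S : Set (N → ℂ)) (hirr : ∀ χ ∈ S, Cfsg.IsIrrCharacter N χ) (htwo : ∃ χ ∈ S, ∃ ψ ∈ S, χ ≠ ψ) (τ₁ : (N → ℂ) → (G → ℂ)) (hτ₁ : Cfsg.IsLinearIsometryOn (Cfsg.zspan S) τ₁) (h0 : ∀ α ∈ Cfsg.zspan S, α 1 = 0 → τ₁ α 1 = 0) : ∃ ε : ℂ, (ε = 1 ∨ ε = -1) ∧ (∀ χ ∈ S, Cfsg.IsIrrCharacter G (ε • τ₁ χ)) ∧ (∀ χ ∈ S, ∀ ψ ∈ S, τ₁ χ = τ₁ ψ → χ = ψ) := by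
  classical
  obtain ⟨iso_add, iso_z, iso_in, iso_gen⟩ := hτ₁
  have hmem : ∀ χ ∈ S, χ ∈ zspan S := fun χ hχ => Submodule.subset_span hχ
  have hsg : ∀ χ ∈ S, SignedIrr (τ₁ χ) := fun χ hχ =>
    signedIrr_of_norm_one (iso_gen χ (hmem χ hχ)) (by
      rw [iso_in χ (hmem χ hχ) χ (hmem χ hχ)]
      exact classInner_irr_self (hirr χ hχ))
  have hex : ∀ χ : N → ℂ, χ ∈ S → ∃ (e : ℂ) (f : G → ℂ), (e = 1 ∨ e = -1) ∧
      IsIrrCharacter G f ∧ τ₁ χ = e • f := fun χ hχ => (hsg χ hχ).exists_sign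
  -- comparison of signs
  have hcmp : ∀ χ ∈ S, ∀ ψ ∈ S, χ ≠ ψ → ∀ (e₁ e₂ : ℂ) (f₁ f₂ : G → ℂ), (e₁ = 1 ∨ e₁ = -1) →
      (e₂ = 1 ∨ e₂ = -1) → IsIrrCharacter G f₁ → IsIrrCharacter G f₂ → τ₁ χ = e₁ • f₁ →
      τ₁ ψ = e₂ • f₂ → e₁ = e₂ := by
    intro χ hχ ψ hψ _ e₁ e₂ f₁ f₂ he₁ he₂ hf₁ hf₂ h₁ h₂
    have hdχ := one_eq_charDegree (isCharacter_of_irr (hirr χ hχ))
    have hdψ := one_eq_charDegree (isCharacter_of_irr (hirr ψ hψ))
    have hd₁ := one_eq_charDegree (isCharacter_of_irr hf₁)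
    have hd₂ := one_eq_charDegree (isCharacter_of_irr hf₂)
    set a : ℤ := (charDegree ψ : ℤ) with ha
    set b : ℤ := -(charDegree χ : ℤ) with hb
    have hz1 : a • χ ∈ zspan S := Submodule.smul_mem _ a (hmem χ hχ)
    have hz2 : b • ψ ∈ zspan S := Submodule.smul_mem _ b (hmem ψ hψ)
    have hz : a • χ + b • ψ ∈ zspan S := Submodule.add_mem _ hz1 hz2
    have hzero : (a • χ + b • ψ) 1 = 0 := by
      show a • χ 1 + b • ψ 1 = 0
      rw [zsmul_eq_mul, zsmul_eq_mul, hdχ, hdψ, ha, hb]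
      push_cast
      ring
    have h3 := h0 _ hz hzero
    rw [iso_add _ hz1 _ hz2, iso_z _ (hmem χ hχ), iso_z _ (hmem ψ hψ), h₁, h₂] at h3
    have h3' : a • (e₁ * f₁ 1) + b • (e₂ * f₂ 1) = 0 := h3
    rw [zsmul_eq_mul, zsmul_eq_mul, hd₁, hd₂, ha, hb] at h3'
    push_cast at h3'
    by_contra hne
    have he : e₂ = -e₁ := by
      rcases he₁ with rfl | rfl <;> rcases he₂ with rfl | rfl <;> first | rfl | exact absurd rfl hne | simp
    rw [he] at h3'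
    have h4 : e₁ * ((charDegree ψ : ℂ) * charDegree f₁ + (charDegree χ : ℂ) * charDegree f₂) = 0 := by
      linear_combination h3'
    have h5 := (mul_eq_zero.mp h4).resolve_left (sign_ne_zero he₁)
    have h6 : (charDegree ψ) * charDegree f₁ + (charDegree χ) * charDegree f₂ = 0 := by
      exact_mod_cast h5
    have h7 := irr_charDegree_pos hf₁
    have h8 := irr_charDegree_pos (hirr ψ hψ)
    have h9 : 0 < (charDegree ψ) * charDegree f₁ := Nat.mul_pos h8 h7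
    omega
  obtain ⟨χ₀, hχ₀, -⟩ := htwo
  obtain ⟨ε, f₀, hε, hf₀, hτ₀⟩ := hex χ₀ hχ₀
  refine ⟨ε, hε, ?_, ?_⟩
  · intro χ hχ
    obtain ⟨e, f, he, hf, hτ⟩ := hex χ hχ
    have heq : e = ε := by
      by_cases hc : χ = χ₀
      · subst hc
        by_contra hne
        have hne' : e = -ε := by
          rcases he with rfl | rfl <;> rcases hε with rfl | rfl <;>
            first | rfl | exact absurd rfl hne | simp
        -- values at one
        have h1 := congrFun hτ 1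
        rw [hτ₀] at h1
        simp only [Pi.smul_apply, smul_eq_mul] at h1
        rw [one_eq_charDegree (isCharacter_of_irr hf₀), one_eq_charDegree (isCharacter_of_irr hf),
          hne'] at h1
        have h2 : ε * ((charDegree f₀ : ℂ) + charDegree f) = 0 := by linear_combination h1
        have h3 := (mul_eq_zero.mp h2).resolve_left (sign_ne_zero hε)
        have h4 : charDegree f₀ + charDegree f = 0 := by exact_mod_cast h3
        have h5 := irr_charDegree_pos hf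
        omega
      · exact hcmp χ hχ χ₀ hχ₀ hc e ε f f₀ he hε hf hf₀ hτ hτ₀
    rw [hτ, heq, smul_smul, sign_mul_self hε, one_smul]
    exact hf
  · intro χ hχ ψ hψ h
    by_contra hne
    have h1 := iso_in χ (hmem χ hχ) ψ (hmem ψ hψ)
    rw [← h, iso_in χ (hmem χ hχ) χ (hmem χ hχ), classInner_irr_self (hirr χ hχ),
      classInner_irr_ne (hirr χ hχ) (hirr ψ hψ) hne] at h1
    exact one_ne_zero h1

end Cfsg.Agent.S1529
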