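import Cfsg.Statements.S1545
import Cfsg.Agent.Lib.H26.FrobFree7
import Cfsg.Agent.Lib.H26.FPF
import Cfsg.Agent.Lib.H17.PrimeGraph
import Cfsg.Agent.Lib.H01.Coprime
import Mathlib
set_option autoImplicit false
set_option linter.style.haveILetI false
set_option linter.unusedVariables false
set_option linter.unusedSimpArgs false
open Cfsg

namespace Cfsg.Agent.S1545

theorem section_step {X : Type*} [Group X] [Finite X] (U E T N : Subgroup X) (p : ℕ) [Fact p.Prime]
    (hNT : N ≤ T) (hTK : ∀ x ∈ U ⊔ E, ∀ t ∈ T, x * t * x⁻¹ ∈ T)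
    (hNK : ∀ x ∈ U ⊔ E, ∀ n ∈ N, x * n * x⁻¹ ∈ N)
    (hNn : ∀ t ∈ T, ∀ n ∈ N, t * n * t⁻¹ ∈ N)
    (hcomm : ∀ a ∈ T, ∀ b ∈ T, a * b * a⁻¹ * b⁻¹ ∈ N) (hpow : ∀ a ∈ T, a ^ p ∈ N)
    (hUn : ∀ e ∈ E, ∀ u ∈ U, e * u * e⁻¹ ∈ U)
    (hfpf : ∀ e ∈ E, e ≠ 1 → ∀ u ∈ U, e * u = u * e → u = 1) (hnilU : Group.IsNilpotent U)
    (hsolv : Group.IsSolvable T) (hcop : (Nat.card T).Coprime (Nat.card ↥(U ⊔ E)))
    (hpT : p ∣ Nat.card T) :
    ∃ a b c d : ℕ, Nat.card T = Nat.card N * d ∧
      Nat.card ↥(T ⊓ Subgroup.centralizer ((U ⊔ E : Subgroup X) : Set X)) =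
        Nat.card ↥(N ⊓ Subgroup.centralizer ((U ⊔ E : Subgroup X) : Set X)) * a ∧
      Nat.card ↥(T ⊓ Subgroup.centralizer (E : Set X)) =
        Nat.card ↥(N ⊓ Subgroup.centralizer (E : Set X)) * b ∧
      Nat.card ↥(T ⊓ Subgroup.centralizer (U : Set X)) =
        Nat.card ↥(N ⊓ Subgroup.centralizer (U : Set X)) * c ∧
      a ^ Nat.card E * d = b ^ Nat.card E * c := by
  classical
  have hp : p.Prime := Fact.out
  let K : Subgroup X := U ⊔ E
  let N' : Subgroup T := N.subgroupOf T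
  haveI hN'n : N'.Normal := ⟨fun n hn g => by
    show (g : X) * n * (g : X)⁻¹ ∈ N
    exact hNn g g.2 n hn⟩
  have hKT : K ≤ Subgroup.normalizer (T : Set X) := by
    intro x hx
    rw [Subgroup.mem_normalizer_iff]
    intro t
    refine ⟨hTK x hx t, fun h => ?_⟩
    have := hTK x⁻¹ (K.inv_mem hx) _ h
    simpa [mul_assoc] using this
  let cT : K →* MulAut T := T.normalizerMonoidHom.comp (Subgroup.inclusion hKT)
  have hcT : ∀ (x : K) (t : T), ((cT x t : T) : X) = x * t * (x : X)⁻¹ := fun _ _ => rfl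
  have hmapN : ∀ x : K, N'.map (cT x : T →* T) = N' := by
    intro x
    ext t
    constructor
    · rintro ⟨s, hs, rfl⟩
      exact hNK x x.2 s hs
    · intro ht
      refine ⟨cT x⁻¹ t, hNK _ (x⁻¹).2 t ht, ?_⟩
      show cT x (cT x⁻¹ t) = t
      rw [← MulAut.mul_apply, ← map_mul]
      simp
  let Q := T ⧸ N'
  let cQ : K →* MulAut Q := MonoidHom.mk'
    (fun x => QuotientGroup.congr N' N' (cT x) (hmapN x))
    (by
      intro a b
      ext q
      obtain ⟨t, rfl⟩ := QuotientGroup.mk_surjective q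
      simp only [MulAut.mul_apply, QuotientGroup.congr_mk, map_mul])
  have hcQ : ∀ (x : K) (t : T), cQ x (t : Q) = ((cT x t : T) : Q) := fun _ _ => rfl
  letI : CommGroup Q := { (inferInstance : Group Q) with
    mul_comm := by
      intro a b
      obtain ⟨s, rfl⟩ := QuotientGroup.mk_surjective a
      obtain ⟨t, rfl⟩ := QuotientGroup.mk_surjective b
      rw [← QuotientGroup.mk_mul, ← QuotientGroup.mk_mul, QuotientGroup.eq]
      show ((s * t)⁻¹ * (t * s) : X) ∈ N
      have h1 := hcomm _ (T.inv_mem t.2) _ (T.inv_mem s.2)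
      have h2 : ((s * t)⁻¹ * (t * s) : T).1 = (t : X)⁻¹ * (s : X)⁻¹ * (t : X)⁻¹⁻¹ * (s : X)⁻¹⁻¹ := by
        simp only [Subgroup.coe_mul, Subgroup.coe_inv]
        group
      rw [Subgroup.coe_mul] at *
      exact h2 ▸ h1 }
  have hQp : ∀ q : Q, q ^ p = 1 := by
    intro q
    obtain ⟨t, rfl⟩ := QuotientGroup.mk_surjective q
    rw [← QuotientGroup.mk_pow, QuotientGroup.eq_one_iff]
    show ((t ^ p : T) : X) ∈ N
    rw [Subgroup.coe_pow]
    exact hpow t t.2
  let τ : U →* MulAut Q := cQ.comp (Subgroup.inclusion (le_sup_left : U ≤ K))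
  let σ : E →* MulAut Q := cQ.comp (Subgroup.inclusion (le_sup_right : E ≤ K))
  have hEU : E ≤ Subgroup.normalizer (U : Set X) := by
    intro x hx
    rw [Subgroup.mem_normalizer_iff]
    intro t
    refine ⟨hUn x hx t, fun h => ?_⟩
    have := hUn x⁻¹ (E.inv_mem hx) _ h
    simpa [mul_assoc] using this
  let α : E →* MulAut U := U.normalizerMonoidHom.comp (Subgroup.inclusion hEU)
  have hα : ∀ (e : E) (u : U), ((α e u : U) : X) = e * u * (e : X)⁻¹ := fun _ _ => rfl
  have hfpf' : ∀ h, h ≠ 1 → ∀ f, α h f = f → f = 1 := by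
    intro e he u hu
    have h1 : ((e : X) * u * (e : X)⁻¹) = u := by
      rw [← hα, hu]
    have h2 : (e : X) ≠ 1 := fun h => he (Subtype.ext h)
    apply Subtype.ext
    apply hfpf e e.2 h2 u u.2
    rw [mul_inv_eq_iff_eq_mul] at h1
    exact h1
  have hcopU : ¬ p ∣ Nat.card U := fun h => by
    have h1 : p ∣ Nat.card ↥(U ⊔ E) := h.trans (Subgroup.card_dvd_of_le le_sup_left)
    exact hp.one_lt.ne' (Nat.eq_one_of_dvd_coprimes hcop hpT h1)
  have hcopE : ¬ p ∣ Nat.card E := fun h => by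
    have h1 : p ∣ Nat.card ↥(U ⊔ E) := h.trans (Subgroup.card_dvd_of_le le_sup_right)
    exact hp.one_lt.ne' (Nat.eq_one_of_dvd_coprimes hcop hpT h1)
  have hcQm : ∀ (e : E) (u : U) (q : Q), σ e (τ u q) = τ (α e u) (σ e q) := by
    intro e u q
    obtain ⟨t, rfl⟩ := QuotientGroup.mk_surjective q
    show ((cT _ (cT _ t) : T) : Q) = ((cT _ (cT _ t) : T) : Q)
    congr 1
    apply Subtype.ext
    simp only [hcT]
    show (e : X) * ((u : X) * t * (u : X)⁻¹) * (e : X)⁻¹ =
      ((e : X) * u * (e : X)⁻¹) * ((e : X) * t * (e : X)⁻¹) * ((e : X) * u * (e : X)⁻¹)⁻¹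
    group
  have hform := H26.FrobFree.card_formula_elem p hQp hcopU hcopE α hfpf' hnilU σ τ hcQm
  have key : ∀ (A : Subgroup X) (hA : A ≤ K),
      Nat.card ↥(T ⊓ Subgroup.centralizer (A : Set X)) =
        Nat.card ↥(N ⊓ Subgroup.centralizer (A : Set X)) *
          Nat.card {q : Q // ∀ x : A, cQ (Subgroup.inclusion hA x) q = q} := by
    intro A hA
    let φ : ↥(T ⊓ Subgroup.centralizer (A : Set X)) →* Q :=
      (QuotientGroup.mk' N').comp (Subgroup.inclusion inf_le_left)
    have h1 : Nat.card ↥(T ⊓ Subgroup.centralizer (A : Set X)) =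
        Nat.card φ.ker * Nat.card φ.range := by
      rw [← Subgroup.index_ker, Subgroup.card_mul_index]
    have h2 : Nat.card φ.ker = Nat.card ↥(N ⊓ Subgroup.centralizer (A : Set X)) := by
      refine Nat.card_congr ⟨fun x => ⟨x.1.1, ?_, x.1.2.2⟩, fun y =>
        ⟨⟨y.1, hNT y.2.1, y.2.2⟩, ?_⟩, fun _ => rfl, fun _ => rfl⟩
      · have hx : φ x.1 = 1 := x.2
        exact (QuotientGroup.eq_one_iff (N := N') (⟨x.1.1, x.1.2.1⟩ : T)).mp hx
      · show φ _ = 1
        exact (QuotientGroup.eq_one_iff (N := N') (⟨y.1, hNT y.2.1⟩ : T)).mpr y.2.1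
    have h3 : Nat.card φ.range =
        Nat.card {q : Q // ∀ x : A, cQ (Subgroup.inclusion hA x) q = q} := by
      refine Nat.card_congr (Equiv.subtypeEquivRight ?_)
      intro q
      constructor
      · rintro ⟨t, rfl⟩ x
        show ((cT _ ⟨t.1, t.2.1⟩ : T) : Q) = _
        congr 1
        apply Subtype.ext
        rw [hcT]
        have h4 : (x : X) * t.1 = t.1 * x :=
          (Subgroup.mem_centralizer_iff.mp t.2.2) x x.2
        show (x : X) * t.1 * (x : X)⁻¹ = t.1
        rw [h4]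
        group
      · intro hq
        obtain ⟨⟨t, ht⟩, rfl⟩ := QuotientGroup.mk_surjective q
        have hAN : A ≤ Subgroup.normalizer (N : Set X) := by
          intro x hx
          rw [Subgroup.mem_normalizer_iff]
          intro n
          refine ⟨hNK x (hA hx) n, fun h => ?_⟩
          have := hNK x⁻¹ (K.inv_mem (hA hx)) _ h
          simpa [mul_assoc] using this
        have hcopAT : (Nat.card A).Coprime (Nat.card T) :=
          (Nat.Coprime.coprime_dvd_right (Subgroup.card_dvd_of_le hA) hcop).symm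
        obtain ⟨n, hn, hnt⟩ := H01.key_lemma hNT hAN (hA.trans hKT) hcopAT (Or.inr hsolv) ht (by
          intro a ha
          have h5 := hq ⟨a, ha⟩
          rw [hcQ, QuotientGroup.eq] at h5
          have h6 : (a * t * a⁻¹)⁻¹ * t ∈ N := h5
          have h7 := hNn t ht _ h6
          have h8 : t * ((a * t * a⁻¹)⁻¹ * t) * t⁻¹ = t * a * t⁻¹ * a⁻¹ := by group
          rwa [h8] at h7)
        refine ⟨⟨n * t, hnt⟩, ?_⟩
        show ((⟨n * t, hnt.1⟩ : T) : Q) = _
        rw [QuotientGroup.eq]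
        show (n * t)⁻¹ * t ∈ N
        have h9 := hNn t⁻¹ (T.inv_mem ht) n⁻¹ (N.inv_mem hn)
        have h10 : t⁻¹ * n⁻¹ * t⁻¹⁻¹ = (n * t)⁻¹ * t := by group
        rwa [h10] at h9
    rw [h1, h2, h3]
  refine ⟨_, _, _, Nat.card Q, ?_, ?_, key E le_sup_right, key U le_sup_left, hform⟩
  · have h1 := Subgroup.card_eq_card_quotient_mul_card_subgroup N'
    have h2 : Nat.card N' = Nat.card N :=
      Nat.card_congr (Subgroup.subgroupOfEquivOfLe hNT).toEquiv
    rw [h1, h2, mul_comm]
  · rw [key K le_rfl]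
    congr 1
    refine Nat.card_congr (Equiv.subtypeEquivRight ?_)
    intro q
    constructor
    · intro h
      exact ⟨fun u => h ⟨u, le_sup_left (a := U) u.2⟩, fun e => h ⟨e, le_sup_right (b := E) e.2⟩⟩
    · rintro ⟨h1, h2⟩ x
      let St₀ : Subgroup K :=
        { carrier := {x | cQ x q = q}
          mul_mem' := by
            intro a b ha hb
            show cQ (a * b) q = q
            rw [map_mul, MulAut.mul_apply, show cQ b q = q from hb, show cQ a q = q from ha]
          one_mem' := by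
            show cQ 1 q = q
            simp
          inv_mem' := by
            intro a ha
            show cQ a⁻¹ q = q
            have h3 : cQ a q = q := ha
            conv_lhs => rw [← h3]
            rw [← MulAut.mul_apply, ← map_mul]
            simp }
      have hle : U ⊔ E ≤ St₀.map K.subtype := by
        refine sup_le ?_ ?_
        · intro u hu
          exact ⟨⟨u, le_sup_left (a := U) hu⟩, h1 ⟨u, hu⟩, rfl⟩
        · intro e he
          exact ⟨⟨e, le_sup_right (b := E) he⟩, h2 ⟨e, he⟩, rfl⟩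
      obtain ⟨y, hy, hyx⟩ := hle x.2
      have hyx' : y = x := Subtype.ext hyx
      rw [← hyx'] at *
      exact hy

/-- Let X be a finite group with subgroups U, E and H such that U and E generate a subgroup UE = U ⊔ E normalising H, with U normal in UE, U ⊓ E = ⊥, U ≠ ⊥, E ≠ ⊥, every non-identity element of E commuting with no non-identity element of U (UE is a Frobenius group with kernel U acting on H by conjugation), H solvable, H ⊓ (U ⊔ E) = ⊥ and the orders of H and U ⊔ E coprime. Then Nat.card (H ⊓ C(U ⊔ E)) ^ Nat.card E * Nat.card H = Nat.card (H ⊓ C(E)) ^ Nat.card E * Nat.card (H ⊓ C(U)), where C(·) denotes the centraliser. -/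
theorem result {X : Type*} [Group X] [Finite X] (U E H : Subgroup X) (hU1 : U ≠ ⊥) (hE1 : E ≠ ⊥) (hUE : U ⊓ E = ⊥) (hUn : ∀ e ∈ E, ∀ u ∈ U, e * u * e⁻¹ ∈ U) (hfpf : ∀ e ∈ E, e ≠ 1 → ∀ u ∈ U, e * u = u * e → u = 1) (hHn : ∀ x ∈ U ⊔ E, ∀ h ∈ H, x * h * x⁻¹ ∈ H) (hdisj : H ⊓ (U ⊔ E) = ⊥) (hsolv : Group.IsSolvable H) (hcop : Nat.Coprime (Nat.card H) (Nat.card ↥(U ⊔ E))) : Nat.card ↥(H ⊓ Subgroup.centralizer ((U ⊔ E : Subgroup X) : Set X)) ^ Nat.card E * Nat.card H = Nat.card ↥(H ⊓ Subgroup.centralizer (E : Set X)) ^ Nat.card E * Nat.card ↥(H ⊓ Subgroup.centralizer (U : Set X)) := by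
    classical
  -- nilpotency of `U`
  have hnilU : Group.IsNilpotent U := by
    have hE' : Nat.card E ≠ 1 := by
      intro h
      apply hE1
      exact Subgroup.eq_bot_of_card_eq E h
    let r := (Nat.card E).minFac
    have hr : r.Prime := Nat.minFac_prime hE'
    haveI : Fact r.Prime := ⟨hr⟩
    obtain ⟨e, he⟩ := exists_prime_orderOf_dvd_card' (G := E) r (Nat.minFac_dvd _)
    have he1 : (e : X) ≠ 1 := by
      intro h
      have : e = 1 := Subtype.ext h
      rw [this, orderOf_one] at he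
      exact hr.one_lt.ne he
    have hEU : E ≤ Subgroup.normalizer (U : Set X) := by
      intro x hx
      rw [Subgroup.mem_normalizer_iff]
      intro t
      refine ⟨hUn x hx t, fun h => ?_⟩
      have := hUn x⁻¹ (E.inv_mem hx) _ h
      simpa [mul_assoc] using this
    let α : E →* MulAut U := U.normalizerMonoidHom.comp (Subgroup.inclusion hEU)
    let f : U →* U := (α e).toMonoidHom
    have hf : MonoidHom.FixedPointFree f := by
      intro u hu
      have h1 : ((e : X) * u * (e : X)⁻¹) = u := congrArg Subtype.val hu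
      apply Subtype.ext
      apply hfpf e e.2 he1 u u.2
      rw [mul_inv_eq_iff_eq_mul] at h1
      exact h1
    have hit : f^[r] = id := by
      have hn : ∀ (n : ℕ) (x : U), f^[n] x = (α (e ^ n)) x := by
        intro n
        induction n with
        | zero => intro x; simp
        | succ n ih =>
          intro x
          rw [Function.iterate_succ_apply', ih, pow_succ', map_mul, MulAut.mul_apply]
          rfl
      funext x
      rw [hn]
      have : e ^ r = 1 := by rw [← he]; exact pow_orderOf_eq_one e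
      rw [this]
      simp
    exact H26.FPF.nilpotent_of_fpf hr (Nat.card U) U f rfl hf hit
  -- induction on subgroups
  have main : ∀ (n : ℕ) (T : Subgroup X), Nat.card T = n →
      (∀ x ∈ U ⊔ E, ∀ t ∈ T, x * t * x⁻¹ ∈ T) → Group.IsSolvable T →
      (Nat.card T).Coprime (Nat.card ↥(U ⊔ E)) →
      Nat.card ↥(T ⊓ Subgroup.centralizer ((U ⊔ E : Subgroup X) : Set X)) ^ Nat.card E * Nat.card T =
        Nat.card ↥(T ⊓ Subgroup.centralizer (E : Set X)) ^ Nat.card E *
          Nat.card ↥(T ⊓ Subgroup.centralizer (U : Set X)) := by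
    intro n
    induction n using Nat.strong_induction_on with
    | _ n ih =>
    intro T hn hTK hsolvT hcopT
    by_cases hT1 : T = ⊥
    · subst hT1
      simp
    haveI : Nontrivial T := (Subgroup.nontrivial_iff_ne_bot T).mpr hT1
    haveI := hsolvT
    obtain ⟨M, hMn, hMp⟩ := H17.exists_normal_prime_index T
    haveI := hMn
    let p := M.index
    haveI : Fact p.Prime := ⟨hMp⟩
    let gens : Set X := {x | (∃ a ∈ T, ∃ b ∈ T, x = a * b * a⁻¹ * b⁻¹) ∨ ∃ a ∈ T, x = a ^ p}
    let N : Subgroup X := Subgroup.closure gens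
    have hNT : N ≤ T := by
      rw [Subgroup.closure_le]
      rintro x (⟨a, ha, b, hb, rfl⟩ | ⟨a, ha, rfl⟩)
      · exact T.mul_mem (T.mul_mem (T.mul_mem ha hb) (T.inv_mem ha)) (T.inv_mem hb)
      · exact T.pow_mem ha p
    have hconj : ∀ y : X, (∀ t ∈ T, y * t * y⁻¹ ∈ T) → ∀ n ∈ N, y * n * y⁻¹ ∈ N := by
      intro y hy n hn
      have hle : N ≤ N.comap (MulAut.conj y).toMonoidHom := by
        rw [Subgroup.closure_le]
        rintro x (⟨a, ha, b, hb, rfl⟩ | ⟨a, ha, rfl⟩)
        · refine Subgroup.subset_closure (Or.inl ⟨_, hy a ha, _, hy b hb, ?_⟩)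
          simp only [MulEquiv.coe_toMonoidHom, MulAut.conj_apply]
          group
        · refine Subgroup.subset_closure (Or.inr ⟨_, hy a ha, ?_⟩)
          simp only [MulEquiv.coe_toMonoidHom, MulAut.conj_apply]
          rw [conj_pow]
      exact hle hn
    have hNn : ∀ t ∈ T, ∀ n ∈ N, t * n * t⁻¹ ∈ N := fun t ht =>
      hconj t fun s hs => T.mul_mem (T.mul_mem ht hs) (T.inv_mem ht)
    have hNK : ∀ x ∈ U ⊔ E, ∀ n ∈ N, x * n * x⁻¹ ∈ N := fun x hx => hconj x (hTK x hx)
    have hcomm : ∀ a ∈ T, ∀ b ∈ T, a * b * a⁻¹ * b⁻¹ ∈ N := fun a ha b hb =>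
      Subgroup.subset_closure (Or.inl ⟨a, ha, b, hb, rfl⟩)
    have hpow : ∀ a ∈ T, a ^ p ∈ N := fun a ha =>
      Subgroup.subset_closure (Or.inr ⟨a, ha, rfl⟩)
    have hNM : N ≤ M.map T.subtype := by
      rw [Subgroup.closure_le]
      rintro x (⟨a, ha, b, hb, rfl⟩ | ⟨a, ha, rfl⟩)
      · refine ⟨⟨a, ha⟩ * ⟨b, hb⟩ * ⟨a, ha⟩⁻¹ * ⟨b, hb⟩⁻¹, ?_, rfl⟩
        haveI : Fact (Nat.card (T ⧸ M)).Prime := by
          rw [← Subgroup.index_eq_card]
          exact ⟨hMp⟩
        haveI : IsCyclic (T ⧸ M) := isCyclic_of_prime_card rfl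
        letI : CommGroup (T ⧸ M) := IsCyclic.commGroup
        show (_ : T) ∈ M
        rw [← QuotientGroup.eq_one_iff]
        simp only [QuotientGroup.mk_mul, QuotientGroup.mk_inv]
        have := mul_comm ((⟨a, ha⟩ : T) : T ⧸ M) ((⟨b, hb⟩ : T) : T ⧸ M)
        rw [this]
        group
      · refine ⟨⟨a, ha⟩ ^ p, Subgroup.pow_index_mem M _, rfl⟩
    have hNlt : N < T := by
      refine lt_of_le_of_ne hNT ?_
      intro h
      apply hMp.one_lt.ne'
      rw [Subgroup.index_eq_one, eq_top_iff]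
      intro t _
      have h1 : (t : X) ∈ M.map T.subtype := hNM (by rw [h]; exact t.2)
      obtain ⟨s, hs, hst⟩ := h1
      have : s = t := Subtype.ext hst
      rw [← this]
      exact hs
    have hcard : Nat.card N < Nat.card T :=
      Nat.lt_of_le_of_ne (Nat.le_of_dvd Nat.card_pos (Subgroup.card_dvd_of_le hNT))
        (fun h => hNlt.ne (Subgroup.eq_of_le_of_card_ge hNT h.ge))
    have hsolvN : Group.IsSolvable N := H01.isSolvable_of_le hNT hsolvT
    have hcopN : (Nat.card N).Coprime (Nat.card ↥(U ⊔ E)) :=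
      Nat.Coprime.coprime_dvd_left (Subgroup.card_dvd_of_le hNT) hcopT
    have hIH := ih (Nat.card N) (hn ▸ hcard) N rfl hNK hsolvN hcopN
    have hpT : p ∣ Nat.card T := M.index_dvd_card
    obtain ⟨a, b, c, d, h1, h2, h3, h4, h5⟩ := section_step U E T N p hNT hTK hNK hNn hcomm hpow
      hUn hfpf hnilU hsolvT hcopT hpT
    rw [h1, h2, h3, h4, mul_pow, mul_pow]
    calc _ = (Nat.card ↥(N ⊓ Subgroup.centralizer ((U ⊔ E : Subgroup X) : Set X)) ^ Nat.card E *
            Nat.card N) * (a ^ Nat.card E * d) := by ring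
      _ = _ := by rw [hIH, h5]; ring
  exact main _ H rfl hHn hsolv hcop

end Cfsg.Agent.S1545
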