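import Cfsg.Statements.S1689
import Cfsg.Agent.Lib.H16.CE.S1689.C0
import Cfsg.Agent.Lib.H16.CE.S1689.R1
import Cfsg.Agent.Lib.H16.CE.S1689.R2
import Cfsg.Agent.Lib.H16.CE.S1689.R3
import Cfsg.Agent.Lib.H16.CE.S1689.R4
import Cfsg.Agent.Lib.H16.CE.S1689.R5
import Cfsg.Agent.Lib.H16.CE.S1689.O6

set_option autoImplicit false
open Cfsg

namespace Cfsg.Agent.S1689

open Cfsg.Agent.H16.CosetEnum Cfsg.Agent.H16.CE.S1689

def code (x : Cfsg.Spor.Fi23.Gen × Bool) : ℕ :=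
  match x.1 with
  | .a => 0
  | .b => 1
  | .c => 2
  | .d => 3
  | .e => 4
  | .f => 5
  | .g => 6
  | .j => 7
  | .h => 8
  | .i => 9


def gs (a : ℕ) : Cfsg.Spor.Fi23.Gen × Bool :=
  match a with
  | 0 => (.a, true)
  | 1 => (.b, true)
  | 2 => (.c, true)
  | 3 => (.d, true)
  | 4 => (.e, true)
  | 5 => (.f, true)
  | 6 => (.g, true)
  | 7 => (.j, true)
  | 8 => (.h, true)
  | 9 => (.i, true)
  | _ => (.a, true)

abbrev R : Set (FreeGroup Cfsg.Spor.Fi23.Gen) := Cfsg.Spor.coxRelators Cfsg.Spor.Fi23.edges ∪ {r | r ∈ Cfsg.Spor.Fi23.extra}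
abbrev S : Set (FreeGroup Cfsg.Spor.Fi23.Gen) := {Cfsg.Spor.Fi23.a, Cfsg.Spor.Fi23.b, Cfsg.Spor.Fi23.c, Cfsg.Spor.Fi23.d, Cfsg.Spor.Fi23.e, Cfsg.Spor.Fi23.f, Cfsg.Spor.Fi23.g, Cfsg.Spor.Fi23.h, Cfsg.Spor.Fi23.i}
def SL : List (FreeGroup Cfsg.Spor.Fi23.Gen) := [Cfsg.Spor.Fi23.a, Cfsg.Spor.Fi23.b, Cfsg.Spor.Fi23.c, Cfsg.Spor.Fi23.d, Cfsg.Spor.Fi23.e, Cfsg.Spor.Fi23.f, Cfsg.Spor.Fi23.g, Cfsg.Spor.Fi23.h, Cfsg.Spor.Fi23.i]
noncomputable def dd : D := ⟨F, PL, iv, 10, rlT, hwT⟩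

theorem hW1 : ((coxList Cfsg.Spor.Fi23.edges Cfsg.Spor.Fi23.extra).map (letters code)).all (fun w => decide (w ∈ WL0)) = true := by decide +kernel
theorem hW2 : WL0.all (fun w => decide (w ∈ (coxList Cfsg.Spor.Fi23.edges Cfsg.Spor.Fi23.extra).map (letters code))) = true := by decide +kernel
theorem hder : ∀ W ∈ rlT.words, derivedOK iv WL0 W = true := by decide +kernel
theorem hhw : hwL = SL.map (letters code) := by decide +kernel
theorem hsub : ∀ W ∈ WL0, W ∈ WLc := by decide +kernel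
theorem hivw : ∀ a < 10, [a, iv a] ∈ WLc := by decide +kernel

theorem base : Base R S gs code 10 dd SL WL0 :=
  base_of (by rintro ⟨g, b⟩; cases g <;> cases b <;> decide) (by decide) rfl
    (by rintro ⟨g, b⟩; cases g <;> cases b <;> rfl) (fun _ h => h)
    (by intro s; simp [S, SL]) hW1 hW2 hder (hwT_words.trans hhw)

theorem facts : ∀ m < 250631, FactTrue (subH R S) (lt R gs 10) dd m := by
  have h0 := (fact_start (R := R) (S := S) (gs := gs) (k := 10) (d := dd))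
  have h1 : ∀ m < 42432, FactTrue (subH R S) (lt R gs 10) dd m := base.extend h0 hc0 ht0
  have h2 : ∀ m < 89248, FactTrue (subH R S) (lt R gs 10) dd m := base.extend h1 hc1 ht1
  have h3 : ∀ m < 136832, FactTrue (subH R S) (lt R gs 10) dd m := base.extend h2 hc2 ht2
  have h4 : ∀ m < 177664, FactTrue (subH R S) (lt R gs 10) dd m := base.extend h3 hc3 ht3
  have h5 : ∀ m < 211616, FactTrue (subH R S) (lt R gs 10) dd m := base.extend h4 hc4 ht4
  have h6 : ∀ m < 242944, FactTrue (subH R S) (lt R gs 10) dd m := base.extend h5 hc5 ht5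
  have h7 : ∀ m < 250631, FactTrue (subH R S) (lt R gs 10) dd m := base.extend h6 hc6 ht6
  exact h7
theorem cosets : ∀ i < 31671, allAt LL i = true := by
  have h0 := range_start (P := allAt LL)
  have h1 : ∀ i < 802, allAt LL i = true := range_step h0 hr0 rfl
  have h2 : ∀ i < 1604, allAt LL i = true := range_step h1 hr1 rfl
  have h3 : ∀ i < 2406, allAt LL i = true := range_step h2 hr2 rfl
  have h4 : ∀ i < 3208, allAt LL i = true := range_step h3 hr3 rfl
  have h5 : ∀ i < 4010, allAt LL i = true := range_step h4 hr4 rfl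
  have h6 : ∀ i < 4812, allAt LL i = true := range_step h5 hr5 rfl
  have h7 : ∀ i < 5614, allAt LL i = true := range_step h6 hr6 rfl
  have h8 : ∀ i < 6416, allAt LL i = true := range_step h7 hr7 rfl
  have h9 : ∀ i < 7218, allAt LL i = true := range_step h8 hr8 rfl
  have h10 : ∀ i < 8020, allAt LL i = true := range_step h9 hr9 rfl
  have h11 : ∀ i < 8822, allAt LL i = true := range_step h10 hr10 rfl
  have h12 : ∀ i < 9624, allAt LL i = true := range_step h11 hr11 rfl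
  have h13 : ∀ i < 10426, allAt LL i = true := range_step h12 hr12 rfl
  have h14 : ∀ i < 11228, allAt LL i = true := range_step h13 hr13 rfl
  have h15 : ∀ i < 12030, allAt LL i = true := range_step h14 hr14 rfl
  have h16 : ∀ i < 12832, allAt LL i = true := range_step h15 hr15 rfl
  have h17 : ∀ i < 13634, allAt LL i = true := range_step h16 hr16 rfl
  have h18 : ∀ i < 14436, allAt LL i = true := range_step h17 hr17 rfl
  have h19 : ∀ i < 15238, allAt LL i = true := range_step h18 hr18 rfl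
  have h20 : ∀ i < 16040, allAt LL i = true := range_step h19 hr19 rfl
  have h21 : ∀ i < 16842, allAt LL i = true := range_step h20 hr20 rfl
  have h22 : ∀ i < 17644, allAt LL i = true := range_step h21 hr21 rfl
  have h23 : ∀ i < 18446, allAt LL i = true := range_step h22 hr22 rfl
  have h24 : ∀ i < 19248, allAt LL i = true := range_step h23 hr23 rfl
  have h25 : ∀ i < 20050, allAt LL i = true := range_step h24 hr24 rfl
  have h26 : ∀ i < 20852, allAt LL i = true := range_step h25 hr25 rfl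
  have h27 : ∀ i < 21654, allAt LL i = true := range_step h26 hr26 rfl
  have h28 : ∀ i < 22456, allAt LL i = true := range_step h27 hr27 rfl
  have h29 : ∀ i < 23258, allAt LL i = true := range_step h28 hr28 rfl
  have h30 : ∀ i < 24060, allAt LL i = true := range_step h29 hr29 rfl
  have h31 : ∀ i < 24862, allAt LL i = true := range_step h30 hr30 rfl
  have h32 : ∀ i < 25664, allAt LL i = true := range_step h31 hr31 rfl
  have h33 : ∀ i < 26466, allAt LL i = true := range_step h32 hr32 rfl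
  have h34 : ∀ i < 27268, allAt LL i = true := range_step h33 hr33 rfl
  have h35 : ∀ i < 28070, allAt LL i = true := range_step h34 hr34 rfl
  have h36 : ∀ i < 28872, allAt LL i = true := range_step h35 hr35 rfl
  have h37 : ∀ i < 29674, allAt LL i = true := range_step h36 hr36 rfl
  have h38 : ∀ i < 30476, allAt LL i = true := range_step h37 hr37 rfl
  have h39 : ∀ i < 31278, allAt LL i = true := range_step h38 hr38 rfl
  have h40 : ∀ i < 31671, allAt LL i = true := range_step h39 hr39 rfl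
  exact h40

instance instNZ : NeZero 31671 := ⟨by norm_num⟩

theorem hfix' : ∀ W ∈ dd.hw.words, Cfsg.Agent.H16.Enum.walk tt 0 W = 0 := by
  intro W hW
  have e : dd.hw.words = hwL := hwT_words
  rw [e] at hW
  exact hfix W hW

theorem main : ∃ act : PresentedGroup R →* (Equiv.Perm (Fin 31671))ᵐᵒᵖ,
      TableOK (subH R S) (lt R gs 10) tt 10 31671 (fun i => rep (lt R gs 10) dd (AA i)) act tp ta ∧
      ∀ (r : FreeGroup Cfsg.Spor.Fi23.Gen) (i : Fin 31671), (ract act (PresentedGroup.mk R r) i : ℕ) = Cfsg.Agent.H16.Enum.walk tt i (letters code r) :=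
  base.tableOK (M := 250631) facts (EF := EF) (A := AA) (L := LL) (WLc := WLc) hL cosets hsub hivw hA0 hfix'


/-- In the presented Fischer group Fi₂₃, let H be the subgroup generated by the images of a, …, i. Then H has index 31671, H has orbits of sizes 3510 and 28160 on the cosets of H other than H itself. -/
theorem result : (((Subgroup.closure ({Cfsg.Spor.Fi23.a, Cfsg.Spor.Fi23.b, Cfsg.Spor.Fi23.c, Cfsg.Spor.Fi23.d, Cfsg.Spor.Fi23.e, Cfsg.Spor.Fi23.f, Cfsg.Spor.Fi23.g, Cfsg.Spor.Fi23.h, Cfsg.Spor.Fi23.i} : Set (FreeGroup Cfsg.Spor.Fi23.Gen))).map (PresentedGroup.mk (Cfsg.Spor.coxRelators Cfsg.Spor.Fi23.edges ∪ {r | r ∈ Cfsg.Spor.Fi23.extra})))).index = 31671 ∧ ∃ q₁ q₂ : Cfsg.Spor.Fi23 ⧸ (((Subgroup.closure ({Cfsg.Spor.Fi23.a, Cfsg.Spor.Fi23.b, Cfsg.Spor.Fi23.c, Cfsg.Spor.Fi23.d, Cfsg.Spor.Fi23.e, Cfsg.Spor.Fi23.f, Cfsg.Spor.Fi23.g, Cfsg.Spor.Fi23.h, Cfsg.Spor.Fi23.i} : Set (FreeGroup Cfsg.Spor.Fi23.Gen))).map (PresentedGroup.mk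 (Cfsg.Spor.coxRelators Cfsg.Spor.Fi23.edges ∪ {r | r ∈ Cfsg.Spor.Fi23.extra})))), (MulAction.orbit (((Subgroup.closure ({Cfsg.Spor.Fi23.a, Cfsg.Spor.Fi23.b, Cfsg.Spor.Fi23.c, Cfsg.Spor.Fi23.d, Cfsg.Spor.Fi23.e, Cfsg.Spor.Fi23.f, Cfsg.Spor.Fi23.g, Cfsg.Spor.Fi23.h, Cfsg.Spor.Fi23.i} : Set (FreeGroup Cfsg.Spor.Fi23.Gen))).map (PresentedGroup.mk (Cfsg.Spor.coxRelators Cfsg.Spor.Fi23.edges ∪ {r | r ∈ Cfsg.Spor.Fi23.extra})))) q₁).ncard = 3510 ∧ (MulAction.orbit (((Subgroup.closure ({Cfsg.Spor.Fi23.a, Cfsg.Spor.Fi23.b, Cfsg.Spor.Fi23.c, Cfsg.Spor.Fi23.d, Cfsg.Spor.Fi23.e, Cfsg.Spor.Fi23.f, Cfsg.Spor.Fi23.g, Cfsg.Spor.Fi23.h, Cfsg.Spor.Fi23.i} : Set (FreeGroup Cfsg.Spor.Fi23.Gen))).map (PresentedGroup.mk (Cfsg.Spor.coxRelators Cfsg.Spor.Fi23.edges ∪ {r | r ∈ Cfsg.Spor.Fi23.extra})))) q₂).ncard = 28160 := by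
  obtain ⟨act, T, hact⟩ := main
  refine ⟨T.index, ?_⟩
  have hS : ∀ s, s ∈ S ↔ s ∈ SL := by intro s; simp [S, SL]
  have o1 := T.orbit_card hact hS hhw (j := 52) (by norm_num) hb0 hc0' hm0
  have o2 := T.orbit_card hact hS hhw (j := 1) (by norm_num) hb1 hc1' hm1
  exact ⟨lc _ _ 52, lc _ _ 1, o1.2, o2.2⟩

end Cfsg.Agent.S1689
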