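import Cfsg.Statements.S1892
import Mathlib
import Cfsg.Agent.Lib.H08.HallHigman
import Cfsg.Agent.Lib.H05.Comp6
import Cfsg.Agent.Lib.H06.Stable
-- import your own Cfsg.Agent.* helpers here

set_option autoImplicit false
open Cfsg

namespace Cfsg.Agent.S1892

set_option linter.style.haveILetI false

open Cfsg Cfsg.Agent.H05 Subgroup


/-- Let S be a finite p-solvable group with no nontrivial normal subgroup of order prime to p, A a p-subgroup of S, and Q a nontrivial A-invariant subgroup of order prime to p with [A, Q] = Q. Then the commutator [O_p(S), A, Q] is nontrivial. -/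
theorem result {S : Type*} [Group S] [Finite S] {p : ℕ} [Fact p.Prime]
    (hS : Cfsg.IsPSolvable p S) (hred : Cfsg.pPrimeCore p S = ⊥)
    (A Q : Subgroup S) (hA : IsPGroup p A) (hQ : ¬ p ∣ Nat.card Q) (hQ1 : Q ≠ ⊥)
    (hinv : ∀ a ∈ A, ∀ x ∈ Q, a * x * a⁻¹ ∈ Q) (hAQ : ⁅A, Q⁆ = Q) :
    ⁅⁅Cfsg.pCore p S, A⁆, Q⁆ ≠ ⊥ := by
  classical
  intro hbot
  have hp : p.Prime := Fact.out
  have hCP := Cfsg.Agent.H08.hall_higman hS hred
  haveI hPn : (pCore p S).Normal := Cfsg.Agent.H01.pCore_normal p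
  have hPp : IsPGroup p (pCore p S) := Cfsg.Agent.H01.pCore_isPGroup p
  set P := pCore p S with hPdef
  set R := ⁅P, A⁆ with hR
  have hRP : R ≤ P := Subgroup.commutator_le_left _ _
  have hRp : IsPGroup p R := hPp.to_le hRP
  have hPR : P ≤ normalizer (R : Set S) := comm_le_normalizer_left P A
  have hAR : A ≤ normalizer (R : Set S) := by
    have := comm_le_normalizer_left A P
    rwa [Subgroup.commutator_comm] at this
  have hQcomm : ∀ r ∈ R, ∀ x ∈ Q, r * x = x * r := comm_bot_iff.1 hbot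
  have hQR : Q ≤ normalizer (R : Set S) := fun x hx =>
    mem_normalizer_of_comm fun b hb => (hQcomm b hb x hx).symm
  -- the kernel of the action on `P/R`
  let W : Subgroup S :=
    { carrier := {x | x ∈ normalizer (R : Set S) ∧ ∀ u ∈ P, x * u * x⁻¹ * u⁻¹ ∈ R}
      one_mem' := ⟨one_mem _, fun u _ => by simp⟩
      mul_mem' := by
        rintro x y ⟨hx, hxu⟩ ⟨hy, hyu⟩
        refine ⟨mul_mem hx hy, fun u hu => ?_⟩
        have h1 := hyu u hu
        have h2 := (mem_normalizer_iff.1 hx _).1 h1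
        have h3 := hxu u hu
        have e : x * y * u * (x * y)⁻¹ * u⁻¹ =
            (x * (y * u * y⁻¹ * u⁻¹) * x⁻¹) * (x * u * x⁻¹ * u⁻¹) := by group
        rw [e]
        exact mul_mem h2 h3
      inv_mem' := by
        rintro x ⟨hx, hxu⟩
        refine ⟨inv_mem hx, fun u hu => ?_⟩
        have h1 := hxu u hu
        have h2 := (mem_normalizer_iff.1 (inv_mem hx) _).1 (inv_mem h1)
        have e : x⁻¹ * u * x⁻¹⁻¹ * u⁻¹ = x⁻¹ * (x * u * x⁻¹ * u⁻¹)⁻¹ * x⁻¹⁻¹ := by group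
        rw [e]
        exact h2 }
  have hAW : A ≤ W := by
    intro a ha
    refine ⟨hAR ha, fun u hu => ?_⟩
    have h1 : u * a * u⁻¹ * a⁻¹ ∈ R := Subgroup.commutator_mem_commutator hu ha
    have e : a * u * a⁻¹ * u⁻¹ = (u * a * u⁻¹ * a⁻¹)⁻¹ := by group
    rw [e]
    exact inv_mem h1
  have hWnorm : ∀ x ∈ Q, ∀ w ∈ W, x * w * x⁻¹ ∈ W := by
    rintro x hx w ⟨hw, hwu⟩
    refine ⟨mul_mem (mul_mem (hQR hx) hw) (inv_mem (hQR hx)), fun u hu => ?_⟩
    have hu' : x⁻¹ * u * x ∈ P := by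
      simpa using hPn.conj_mem u hu x⁻¹
    have h1 := hwu _ hu'
    have h2 := (mem_normalizer_iff.1 (hQR hx) _).1 h1
    have e : x * w * x⁻¹ * u * (x * w * x⁻¹)⁻¹ * u⁻¹ =
        x * (w * (x⁻¹ * u * x) * w⁻¹ * (x⁻¹ * u * x)⁻¹) * x⁻¹ := by group
    rw [e]
    exact h2
  have hQW : Q ≤ W := by
    rw [← hAQ, Subgroup.commutator_le]
    intro a ha x hx
    have e : a * x * a⁻¹ * x⁻¹ = a * (x * a⁻¹ * x⁻¹) := by group
    show a * x * a⁻¹ * x⁻¹ ∈ W
    rw [e]
    exact W.mul_mem (hAW ha) (hWnorm x hx _ (W.inv_mem (hAW ha)))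
  -- each element of `Q` centralizes `P`
  have hQP : ∀ x ∈ Q, ∀ u ∈ P, x * u = u * x := by
    intro x hx u hu
    have h1 := (hQW hx).2 u hu
    have h2 : u⁻¹ * (x * u * x⁻¹) ∈ R := by
      have e : u⁻¹ * (x * u * x⁻¹) = u⁻¹ * (x * u * x⁻¹ * u⁻¹) * u⁻¹⁻¹ := by group
      rw [e]
      exact (mem_normalizer_iff.1 (inv_mem (hPR hu)) _).1 h1
    refine Cfsg.Agent.H06.conj_eq_of_stable h2 ?_ (hQcomm _ h2 x hx).symm
    obtain ⟨j, hj⟩ := IsPGroup.iff_card.1 hRp
    rw [hj]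
    apply Nat.Coprime.pow_right
    have h3 : orderOf x ∣ Nat.card Q := by
      have := orderOf_dvd_natCard (⟨x, hx⟩ : Q)
      rwa [Subgroup.orderOf_mk] at this
    exact Nat.Coprime.coprime_dvd_left h3 ((Nat.Prime.coprime_iff_not_dvd hp).2 hQ).symm
  apply hQ1
  rw [eq_bot_iff]
  intro x hx
  rw [mem_bot]
  have hxC : x ∈ centralizer (P : Set S) := by
    rw [mem_centralizer_iff]
    intro u hu
    exact (hQP x hx u hu).symm
  apply eq_one_of_coprime_of_pGroup hPp (hCP hxC)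
  have h3 : orderOf x ∣ Nat.card Q := by
    have := orderOf_dvd_natCard (⟨x, hx⟩ : Q)
    rwa [Subgroup.orderOf_mk] at this
  exact Nat.Coprime.coprime_dvd_left h3 ((Nat.Prime.coprime_iff_not_dvd hp).2 hQ).symm

end Cfsg.Agent.S1892
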