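import Cfsg.Statements.S1894
import Mathlib
import Cfsg.Agent.Lib.H06.Nilp
-- import your own Cfsg.Agent.* helpers here

set_option autoImplicit false
open Cfsg

namespace Cfsg.Agent.S1894



/-- Let P be a finite p-group, A a normal subgroup of P and B an abelian subgroup of A that is normal in P. Then some subgroup C of A containing B is normal in P and is self-centralizing and normal in A (C ∈ SCN(A)). -/
theorem result {P : Type*} [Group P] [Finite P] {p : ℕ} [Fact p.Prime] (hP : IsPGroup p P)
    (A : Subgroup P) [A.Normal] (B : Subgroup P) [B.Normal] (hBA : B ≤ A) (hB : IsMulCommutative B) :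
    ∃ C : Subgroup P, C.Normal ∧ B ≤ C ∧ Cfsg.IsSCN A C := by
  classical
  let S : Set (Subgroup P) := {C | C.Normal ∧ B ≤ C ∧ C ≤ A ∧ IsMulCommutative C}
  have hne : S.Nonempty := ⟨B, inferInstance, le_rfl, hBA, hB⟩
  obtain ⟨C, hC⟩ := (Set.toFinite S).exists_maximal hne
  obtain ⟨⟨hCn, hBC, hCA, hCc⟩, hCmax⟩ := hC
  have hCcomm : ∀ x ∈ C, ∀ y ∈ C, x * y = y * x := fun x hx y hy =>
    congrArg Subtype.val (hCc.is_comm.comm ⟨x, hx⟩ ⟨y, hy⟩)
  refine ⟨C, hCn, hBC, hCA, ?_, ?_⟩
  · intro x _
    rw [Subgroup.mem_normalizer_iff]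
    intro y
    constructor
    · intro hy; exact hCn.conj_mem y hy x
    · intro hy
      have := hCn.conj_mem _ hy x⁻¹
      simpa [mul_assoc] using this
  · apply le_antisymm
    · by_contra hD
      obtain ⟨D, hDdef⟩ : ∃ D, D = A ⊓ Subgroup.centralizer (C : Set P) := ⟨_, rfl⟩
      rw [← hDdef] at hD
      haveI hCcen : (Subgroup.centralizer (C : Set P)).Normal := Subgroup.normal_centralizer
      have hDn : D.Normal := by rw [hDdef]; infer_instance
      haveI := hCn
      haveI : Group.IsNilpotent (P ⧸ C) := (hP.to_quotient C).isNilpotent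
      have hmapn : (D.map (QuotientGroup.mk' C)).Normal :=
        hDn.map _ (QuotientGroup.mk'_surjective C)
      have hmapne : D.map (QuotientGroup.mk' C) ≠ ⊥ := by
        intro hbot
        apply hD
        intro x hx
        have : QuotientGroup.mk' C x ∈ D.map (QuotientGroup.mk' C) := ⟨x, hx, rfl⟩
        rw [hbot, Subgroup.mem_bot] at this
        simpa using this
      obtain ⟨y, hyD, hy1, hyZ⟩ := Cfsg.Agent.H06.exists_central_of_normal hmapn hmapne
      obtain ⟨x, hxD, rfl⟩ := hyD
      have hxA : x ∈ A := by rw [hDdef] at hxD; exact hxD.1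
      have hxC : ∀ c ∈ C, x * c = c * x := fun c hc => by
        rw [hDdef] at hxD
        have := (Subgroup.mem_centralizer_iff.1 hxD.2) c hc
        exact this.symm
      let E : Subgroup P := (Subgroup.zpowers (QuotientGroup.mk' C x)).comap (QuotientGroup.mk' C)
      have hEmem : ∀ e ∈ E, ∃ k : ℤ, ∃ c ∈ C, e = x ^ k * c := by
        intro e he
        obtain ⟨k, hk⟩ := Subgroup.mem_zpowers_iff.1 he
        refine ⟨k, (x ^ k)⁻¹ * e, ?_, by group⟩
        rw [← QuotientGroup.eq]
        simpa using hk
      have hEnormal : E.Normal := by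
        apply Subgroup.Normal.comap
        refine ⟨fun n hn g => ?_⟩
        have hn' : n ∈ Subgroup.center (P ⧸ C) := (Subgroup.zpowers_le.2 hyZ) hn
        have e : g * n * g⁻¹ = n := by
          rw [Subgroup.mem_center_iff.1 hn' g]; group
        rw [e]; exact hn
      have hCE : C ≤ E := by
        intro c hc
        have : QuotientGroup.mk' C c = 1 := by simpa using hc
        rw [Subgroup.mem_comap, this]; exact one_mem _
      have hxzc : ∀ k : ℤ, ∀ c ∈ C, x ^ k * c = c * x ^ k := by
        intro k c hc
        have : Commute x c := hxC c hc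
        exact (this.zpow_left k)
      have hEmemA : E ≤ A := by
        intro e he
        obtain ⟨k, c, hc, rfl⟩ := hEmem e he
        exact A.mul_mem (A.zpow_mem hxA k) (hCA hc)
      have hEcomm : IsMulCommutative E := by
        refine ⟨⟨fun a b => ?_⟩⟩
        obtain ⟨k, c, hc, ha⟩ := hEmem a a.2
        obtain ⟨l, d, hd, hb⟩ := hEmem b b.2
        apply Subtype.ext
        show (a : P) * b = b * a
        rw [ha, hb]
        calc x ^ k * c * (x ^ l * d) = x ^ k * (c * x ^ l) * d := by group
          _ = x ^ k * (x ^ l * c) * d := by rw [hxzc l c hc]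
          _ = x ^ (k + l) * (c * d) := by group
          _ = x ^ (l + k) * (d * c) := by rw [add_comm, hCcomm c hc d hd]
          _ = x ^ l * (d * x ^ k) * c := by rw [← hxzc k d hd]; group
          _ = x ^ l * d * (x ^ k * c) := by group
      have hEmax := hCmax (y := E) ⟨hEnormal, hBC.trans hCE, hEmemA, hEcomm⟩ hCE
      have hxE : x ∈ E := by
        rw [Subgroup.mem_comap]
        exact Subgroup.mem_zpowers _
      have hxinC : x ∈ C := hEmax hxE
      apply hy1
      simpa using hxinC
    · intro c hc
      refine ⟨hCA hc, ?_⟩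
      show c ∈ Subgroup.centralizer (C : Set P)
      rw [Subgroup.mem_centralizer_iff]
      intro d hd
      exact hCcomm d hd c hc

end Cfsg.Agent.S1894
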