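import Cfsg.Statements.S1895
import Cfsg.Agent.Lib.H08.ChiefRank
import Cfsg.Agent.Lib.H13.Basic
-- import your own Cfsg.Agent.* helpers here

set_option autoImplicit false
open Cfsg

namespace Cfsg.Agent.S1895



/-- Let p be an odd prime and G a finite p-solvable group with no elementary abelian subgroup of order p³. Then every chief factor H/K of G (H, K normal in G with no normal subgroup of G strictly between them) whose order is a power of p has order p or p². -/
theorem result {G : Type*} [Group G] [Finite G] {p : ℕ} [Fact p.Prime] (hp : p ≠ 2)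
    (hG : Cfsg.IsPSolvable p G) (hr : Cfsg.PRankLE p 2 G)
    (H K : Subgroup G) [H.Normal] [K.Normal] (hKH : K < H) (hpow : ∃ n : ℕ, K.relIndex H = p ^ n)
    (hchief : ∀ L : Subgroup G, L.Normal → K ≤ L → L ≤ H → L = K ∨ L = H) :
    K.relIndex H = p ∨ K.relIndex H = p ^ 2 := by
  classical
  have hpp : p.Prime := Fact.out
  obtain ⟨n, hn⟩ := hpow
  let S : Sylow p H := Classical.arbitrary _
  set P : Subgroup G := (S : Subgroup H).map H.subtype with hPdef
  have hPH : P ≤ H := by
    rintro _ ⟨x, _, rfl⟩
    exact x.2
  have hFr : Subgroup.normalizer (P : Set G) ⊔ H = ⊤ := Sylow.normalizer_sup_eq_top S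
  have hPK : P ⊔ K = H := by
    have hK' : (S : Subgroup H) ⊔ K.subgroupOf H = ⊤ := by
      have h1 : ((S : Subgroup H) ⊔ K.subgroupOf H).index ∣ (K.subgroupOf H).index :=
        Subgroup.index_dvd_of_le le_sup_right
      have h2 : ((S : Subgroup H) ⊔ K.subgroupOf H).index ∣ (S : Subgroup H).index :=
        Subgroup.index_dvd_of_le le_sup_left
      have h3 : (K.subgroupOf H).index = p ^ n := hn
      rw [h3] at h1
      obtain ⟨m, hm, hm2⟩ := (Nat.dvd_prime_pow hpp).mp h1
      have hm0 : m = 0 := by
        by_contra h0
        apply S.not_dvd_index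
        rw [hm2] at h2
        exact (dvd_pow_self p h0).trans h2
      rw [hm0, pow_zero, Subgroup.index_eq_one] at hm2
      exact hm2
    apply le_antisymm (sup_le hPH hKH.le)
    have h1 := congrArg (Subgroup.map H.subtype) hK'
    rw [Subgroup.map_sup, Subgroup.subgroupOf_map_subtype, inf_eq_left.mpr hKH.le] at h1
    intro x hx
    have h2 : x ∈ (⊤ : Subgroup H).map H.subtype := ⟨⟨x, hx⟩, trivial, rfl⟩
    rw [← h1] at h2
    exact h2
  have hGNK : Subgroup.normalizer (P : Set G) ⊔ K = ⊤ := by
    apply top_le_iff.mp
    rw [← hFr]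
    apply sup_le le_sup_left
    rw [← hPK]
    exact sup_le ((Subgroup.le_normalizer).trans le_sup_left) le_sup_right
  have hPp : IsPGroup p P := IsPGroup.map S.isPGroup' H.subtype
  have hcore : (K.subgroupOf P).index ≤ p ^ 2 := by
    refine H08.CR.chief_rank hp _ P rfl hPp (H13.PRankLE.subgroup hr P)
      (Set.range (Subgroup.normalizerMonoidHom P)) (K.subgroupOf P) ?_ ?_ ?_
    · intro h
      have h1 : P ≤ K := by
        intro x hx
        have : (⟨x, hx⟩ : P) ∈ K.subgroupOf P := by rw [h]; trivial
        exact this
      apply hKH.ne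
      rw [← hPK]
      exact (sup_eq_right.mpr h1).symm
    · rintro _ ⟨g, rfl⟩ x hx
      show (g : G) * (x : G) * (g : G)⁻¹ ∈ K
      exact ‹K.Normal›.conj_mem _ hx _
    · intro L hL hLinv
      set M : Subgroup G := L.map P.subtype ⊔ K with hM
      have hMN : M.Normal := by
        have h1 : Subgroup.normalizer (M : Set G) = ⊤ := by
          apply top_le_iff.mp
          rw [← hGNK]
          apply sup_le
          · intro g hg
            apply H13.mem_normalizer_of_map_conj_le
            rw [hM, Subgroup.map_sup]
            apply sup_le_sup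
            · rintro _ ⟨_, ⟨l, hl, rfl⟩, rfl⟩
              have := hLinv _ ⟨⟨g, hg⟩, rfl⟩ l hl
              exact ⟨_, this, rfl⟩
            · rintro _ ⟨k, hk, rfl⟩
              exact ‹K.Normal›.conj_mem _ hk _
          · exact (le_sup_right (a := L.map P.subtype)).trans Subgroup.le_normalizer
        exact Subgroup.normalizer_eq_top_iff.mp h1
      have hKM : K ≤ M := le_sup_right
      have hMH : M ≤ H := by
        apply sup_le _ hKH.le
        rintro _ ⟨l, _, rfl⟩
        exact hPH l.2
      rcases hchief M hMN hKM hMH with h | h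
      · left
        apply le_antisymm _ hL
        intro l hl
        show (l : G) ∈ K
        rw [← h]
        exact le_sup_left (a := L.map P.subtype) ⟨l, hl, rfl⟩
      · right
        apply top_le_iff.mp
        intro y _
        have h1 : (y : G) ∈ ((L.map P.subtype ⊔ K : Subgroup G) : Set G) := by
          rw [← hM, h]
          exact hPH y.2
        rw [Subgroup.mul_normal] at h1
        obtain ⟨_, ⟨l, hl, rfl⟩, k, hk, hlk⟩ := Set.mem_mul.mp h1
        have hk2 : l⁻¹ * y ∈ K.subgroupOf P := by
          show ((l⁻¹ * y : P) : G) ∈ K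
          have : ((l⁻¹ * y : P) : G) = k := by
            have h2 : (y : G) = (l : G) * k := hlk.symm
            simp [h2]
          rw [this]
          exact hk
        have h3 := L.mul_mem hl (hL hk2)
        simpa using h3
  have hfinal : K.relIndex H = (K.subgroupOf P).index := by
    rw [← hPK]
    exact Subgroup.relIndex_sup_right _ _
  rw [hfinal] at hn ⊢
  rw [hn] at hcore ⊢
  have hn2 : n ≤ 2 := (Nat.pow_le_pow_iff_right hpp.one_lt).mp hcore
  have hn0 : n ≠ 0 := by
    rintro rfl
    rw [pow_zero, ← Subgroup.relIndex] at hn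
    rw [Subgroup.relIndex_eq_one] at hn
    apply hKH.ne
    rw [← hPK]
    exact (sup_eq_right.mpr hn).symm
  interval_cases n
  · exact absurd rfl hn0
  · left
    exact pow_one p
  · right
    rfl

end Cfsg.Agent.S1895
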