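import Cfsg.Statements.S1898
-- import your own Cfsg.Agent.* helpers here

set_option autoImplicit false
open Cfsg

namespace Cfsg.Agent.S1898

/-- Let X be a finite 2-group whose derived subgroup is elementary abelian and central. Then the subgroup generated by the elements of order dividing 4 has exponent dividing 4, and every automorphism of X fixing each element of order dividing 4 has 2-power order. -/
theorem result {X : Type*} [Group X] [Finite X] (hX : IsPGroup 2 X)
    (hel : Cfsg.IsElementaryAbelian 2 (commutator X)) (hcen : commutator X ≤ Subgroup.center X) :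
    (∀ x ∈ Subgroup.closure {g : X | g ^ 4 = 1}, x ^ 4 = 1) ∧
      ∀ φ : MulAut X, (∀ g : X, g ^ 4 = 1 → φ g = g) → ∃ k : ℕ, φ ^ (2 ^ k) = 1 := by
  classical
  obtain ⟨_, h2⟩ := hel
  have hc : ∀ x y : X, x * y * x⁻¹ * y⁻¹ ∈ commutator X := fun x y => by
    rw [commutator_def]
    exact Subgroup.commutator_mem_commutator (Subgroup.mem_top x) (Subgroup.mem_top y)
  have hcz : ∀ x y w : X, w * (x * y * x⁻¹ * y⁻¹) = (x * y * x⁻¹ * y⁻¹) * w := fun x y w =>
    (Subgroup.mem_center_iff.1 (hcen (hc x y))) w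
  have hcs : ∀ x y : X, (x * y * x⁻¹ * y⁻¹) ^ 2 = 1 := fun x y => h2 _ (hc x y)
  have hsqcen : ∀ y : X, y ^ 2 ∈ Subgroup.center X := by
    intro y
    rw [Subgroup.mem_center_iff]
    intro x
    have h1 : x * y ^ 2 * x⁻¹ * (y ^ 2)⁻¹ = (x * y * x⁻¹ * y⁻¹) ^ 2 := by
      rw [sq, sq]
      calc x * (y * y) * x⁻¹ * (y * y)⁻¹
          = (x * y * x⁻¹ * y⁻¹) * (y * (x * y * x⁻¹ * y⁻¹) * y⁻¹) := by group
        _ = (x * y * x⁻¹ * y⁻¹) * (x * y * x⁻¹ * y⁻¹) := by
            rw [hcz x y y]; group
    rw [hcs] at h1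
    have h3 : x * y ^ 2 * x⁻¹ = y ^ 2 := mul_inv_eq_one.1 h1
    exact mul_inv_eq_iff_eq_mul.1 h3
  have hpow4 : ∀ x y : X, (x * y) ^ 4 = x ^ 4 * y ^ 4 := by
    intro x y
    obtain ⟨c, hcdef⟩ : ∃ c, c = (x * y * x⁻¹ * y⁻¹)⁻¹ := ⟨_, rfl⟩
    have hcC : c ∈ Subgroup.center X := by
      rw [hcdef]; exact Subgroup.inv_mem _ (hcen (hc x y))
    have hcsq : c ^ 2 = 1 := by
      rw [hcdef, inv_pow, hcs, inv_one]
    have h1 : y * x = c * (x * y) := by rw [hcdef]; group
    have h3 : (x * y) ^ 2 = c * x ^ 2 * y ^ 2 := by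
      rw [sq, sq, sq]
      calc x * y * (x * y) = x * (y * x) * y := by group
        _ = x * (c * (x * y)) * y := by rw [h1]
        _ = (x * c) * x * y * y := by group
        _ = (c * x) * x * y * y := by rw [(Subgroup.mem_center_iff.1 hcC) x]
        _ = c * (x * x) * (y * y) := by group
    have e4 : (x * y) ^ 4 = ((x * y) ^ 2) ^ 2 := by rw [← pow_mul]
    rw [e4, h3]
    have hA : Commute (c * x ^ 2) (y ^ 2) := (Subgroup.mem_center_iff.1 (hsqcen y) _)
    have hB : Commute c (x ^ 2) := (Subgroup.mem_center_iff.1 (hsqcen x) _)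
    rw [hA.mul_pow, hB.mul_pow, hcsq, one_mul, ← pow_mul, ← pow_mul]
  refine ⟨?_, ?_⟩
  · intro x hx
    induction hx using Subgroup.closure_induction with
    | mem x hx => exact hx
    | one => simp
    | mul a b _ _ iha ihb => rw [hpow4, iha, ihb, one_mul]
    | inv a _ iha => rw [inv_pow, iha, inv_one]
  · intro φ hφ
    -- decompose the order of φ
    have hφfin : 0 < orderOf φ := orderOf_pos φ
    obtain ⟨a, m, hm, hN⟩ := Nat.exists_eq_two_pow_mul_odd hφfin.ne'
    refine ⟨a, ?_⟩
    obtain ⟨ψ, hψ⟩ : ∃ ψ, ψ = φ ^ (2 ^ a) := ⟨_, rfl⟩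
    rw [← hψ]
    have hψm : ψ ^ m = 1 := by
      rw [hψ, ← pow_mul, ← hN]; exact pow_orderOf_eq_one φ
    have hψΩ : ∀ g : X, g ^ 4 = 1 → ψ g = g := by
      intro g hg
      rw [hψ]
      generalize (2 ^ a) = N
      induction N with
      | zero => simp
      | succ N ih => rw [pow_succ, MulAut.mul_apply, hφ g hg, ih]
    -- main: ψ fixes everything, by induction on 2-power order
    have key : ∀ n : ℕ, ∀ x : X, x ^ (2 ^ n) = 1 → ψ x = x := by
      intro n
      induction n with
      | zero =>
        intro x hx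
        simp at hx
        simp [hx]
      | succ n ih =>
        intro x hx
        have h1 : (x ^ 2) ^ (2 ^ n) = 1 := by rw [← pow_mul, ← pow_succ', hx]
        have h3 := ih _ h1
        rw [map_pow] at h3
        obtain ⟨c, hcdef⟩ : ∃ c, c = x⁻¹ * ψ x := ⟨_, rfl⟩
        have hψx : ψ x = x * c := by rw [hcdef]; group
        have h4 : (x * c) ^ 2 = x ^ 2 := by rw [← hψx]; exact h3
        -- c ^ 2 is a commutator
        have h5 : c ^ 2 ∈ commutator X := by
          have e1 : x * c * (x * c) = x * x := by rw [← sq, h4, sq]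
          have e2 : c * (x * c) = x := by
            apply mul_left_cancel (a := x)
            rw [← e1]; group
          have e3 : c * (x * c * x⁻¹) = 1 := by
            calc c * (x * c * x⁻¹) = (c * (x * c)) * x⁻¹ := by group
              _ = 1 := by rw [e2]; group
          have e4 : x * c * x⁻¹ = c⁻¹ := eq_inv_of_mul_eq_one_right e3
          have e5 : x * c * x⁻¹ * c⁻¹ = (c ^ 2)⁻¹ := by rw [e4, sq]; group
          have h9 := hc x c
          rw [e5] at h9
          simpa using (commutator X).inv_mem h9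
        have hc4 : c ^ 4 = 1 := by
          have := h2 _ h5
          rw [← pow_mul] at this
          exact this
        have hψc := hψΩ c hc4
        have hiter : ∀ k : ℕ, (ψ ^ k) x = x * c ^ k := by
          intro k
          induction k with
          | zero => simp
          | succ k ihk =>
            rw [pow_succ', MulAut.mul_apply, ihk, map_mul, map_pow, hψc, hψx, pow_succ', mul_assoc]
        have h6 := hiter m
        rw [hψm] at h6
        have h7 : c ^ m = 1 := by
          have : x = x * c ^ m := h6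
          exact (mul_eq_left.1 this.symm)
        obtain ⟨j, hj⟩ := hX c
        have hcop : Nat.Coprime m (2 ^ j) := Nat.Coprime.pow_right _ (Nat.coprime_two_right.2 hm)
        have h8 : orderOf c = 1 :=
          Nat.Coprime.eq_one_of_dvd (Nat.Coprime.coprime_dvd_left (orderOf_dvd_of_pow_eq_one h7) hcop)
            (orderOf_dvd_of_pow_eq_one hj)
        rw [hψx, orderOf_eq_one_iff.1 h8, mul_one]
    ext x
    obtain ⟨n, hn⟩ := hX x
    exact key n x hn

end Cfsg.Agent.S1898
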