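import Cfsg.Statements.S1899
-- import your own Cfsg.Agent.* helpers here

set_option autoImplicit false
open Cfsg

namespace Cfsg.Agent.S1899

/-- Let a dihedral group of order 2n, n odd and n > 1, act on a finite abelian 2-group A through automorphisms d and t with d^n = 1, t² = 1 and t d t⁻¹ = d⁻¹, and suppose that d fixes only the identity. Then A is the internal direct product of C_A(t) and its image under d. -/
theorem result {A : Type*} [CommGroup A] [Finite A] (hA : IsPGroup 2 A)
    {n : ℕ} (hn : Odd n) (hn1 : 1 < n) (d t : MulAut A) (hd : d ^ n = 1) (ht : t ^ 2 = 1) (hdt : t * d * t⁻¹ = d⁻¹)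
    (hfix : ∀ a : A, d a = a → a = 1) :
    (MulEquiv.toMonoidHom t).eqLocus (MonoidHom.id A) ⊓ ((MulEquiv.toMonoidHom t).eqLocus (MonoidHom.id A)).map d.toMonoidHom = ⊥ ∧
      (MulEquiv.toMonoidHom t).eqLocus (MonoidHom.id A) ⊔ ((MulEquiv.toMonoidHom t).eqLocus (MonoidHom.id A)).map d.toMonoidHom = ⊤ := by
  classical
  have htt : ∀ a, t (t a) = a := fun a => by
    have : (t ^ 2) a = a := by rw [ht]; rfl
    rwa [sq, MulAut.mul_apply] at this
  have htinv : t⁻¹ = t := by
    have : t * t = 1 := by rw [← sq, ht]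
    exact inv_eq_of_mul_eq_one_left this
  have hkey : d * t * d⁻¹ * t = d * d := by
    have h1 : t * d⁻¹ * t = d := by
      have h2 : (t * d * t⁻¹)⁻¹ = (d⁻¹)⁻¹ := by rw [hdt]
      simp only [mul_inv_rev, inv_inv] at h2
      rw [htinv] at h2
      rw [← mul_assoc] at h2
      exact h2
    calc d * t * d⁻¹ * t = d * (t * d⁻¹ * t) := by group
      _ = d * d := by rw [h1]
  have hkey' : ∀ a, d (t (d⁻¹ (t a))) = d (d a) := fun a => by
    have := congrArg (fun f : MulAut A => f a) hkey
    simpa [MulAut.mul_apply] using this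
  have hsq : ∀ a, d (d a) = a → a = 1 := by
    intro a ha
    apply hfix
    obtain ⟨m, hm⟩ := hn
    have h1 : ∀ k : ℕ, (d ^ (2 * k)) a = a := by
      intro k
      induction k with
      | zero => simp
      | succ k ih =>
        have : 2 * (k + 1) = 2 * k + 2 := by ring
        rw [this, pow_add, MulAut.mul_apply, sq, MulAut.mul_apply, ha, ih]
    have h2 := h1 (m + 1)
    have h3 : 2 * (m + 1) = n + 1 := by omega
    rw [h3, pow_succ, hd, one_mul] at h2
    exact h2
  refine ⟨?_, ?_⟩
  · rw [eq_bot_iff]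
    rintro a ⟨ha1, e, he, rfl⟩
    have he' : t e = e := he
    have ha1' : t (d e) = d e := ha1
    apply hsq
    have := hkey' (d e)
    have h3 : d⁻¹ (d e) = e := by simp
    rw [ha1', h3, he'] at this
    exact this.symm
  · rw [eq_top_iff]
    intro a _
    -- surjectivity of x ↦ x * (d (d x))⁻¹
    let φ : A → A := fun x => x * (d (d x))⁻¹
    have hinj : Function.Injective φ := by
      intro x y h
      have h1 : x * y⁻¹ = d (d (x * y⁻¹)) := by
        simp only [φ] at h
        simp only [map_mul, map_inv]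
        have e1 : x * y⁻¹ * (d (d x) * (d (d y))⁻¹)⁻¹ = (x * (d (d x))⁻¹) * (y * (d (d y))⁻¹)⁻¹ := by
          simp only [mul_inv_rev, inv_inv]
          simp only [mul_assoc, mul_comm, mul_left_comm]
        rw [h] at e1
        rw [mul_inv_cancel] at e1
        exact mul_inv_eq_one.1 e1
      have := hsq _ h1.symm
      exact mul_inv_eq_one.1 this
    obtain ⟨x, rfl⟩ := (Finite.surjective_of_injective hinj) a
    obtain ⟨w, hw⟩ : ∃ w, w = d⁻¹ (t x) := ⟨_, rfl⟩
    have hdw : d w = t x := by rw [hw]; simp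
    have hdtw : d (t w) = d (d x) := by rw [hw]; exact hkey' x
    have hb : x * t x ∈ (MulEquiv.toMonoidHom t).eqLocus (MonoidHom.id A) := by
      show t (x * t x) = x * t x
      rw [map_mul, htt, mul_comm]
    have he : (w * t w)⁻¹ ∈ (MulEquiv.toMonoidHom t).eqLocus (MonoidHom.id A) := by
      show t ((w * t w)⁻¹) = (w * t w)⁻¹
      rw [map_inv, map_mul, htt, mul_comm]
    have hde : d ((w * t w)⁻¹) ∈ ((MulEquiv.toMonoidHom t).eqLocus (MonoidHom.id A)).map d.toMonoidHom :=
      ⟨_, he, rfl⟩
    have hfin : φ x = (x * t x) * d ((w * t w)⁻¹) := by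
      simp only [φ, map_inv, map_mul, hdw, hdtw, mul_inv_rev]
      rw [mul_assoc, mul_left_comm (t x), mul_inv_cancel, mul_one]
    rw [hfin]
    exact Subgroup.mul_mem_sup hb hde

end Cfsg.Agent.S1899
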