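import Cfsg.Statements.S1900
import Mathlib
-- import your own Cfsg.Agent.* helpers here

set_option autoImplicit false
open Cfsg

namespace Cfsg.Agent.S1900

set_option linter.style.haveILetI false

open Subgroup

universe u

section abel
variable {T : Type*} [CommGroup T]

theorem norm_fixed (h : Monoid.End T) {q : ℕ} (hq : h ^ q = 1) (z : T) :
    h (∏ i ∈ Finset.range q, (h ^ i) z) = ∏ i ∈ Finset.range q, (h ^ i) z := by
  rw [map_prod]
  have e1 : ∀ i, h ((h ^ i) z) = (h ^ (i + 1)) z := by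
    intro i
    rw [pow_succ']
    rfl
  simp only [e1]
  have h2 := Finset.prod_range_succ (fun i => (h ^ i) z) q
  have h3 := Finset.prod_range_succ' (fun i => (h ^ i) z) q
  rw [h2] at h3
  have h4 : (h ^ q) z = (h ^ 0) z := by
    rw [hq, pow_zero]
  rw [h4] at h3
  exact (mul_right_cancel h3).symm

theorem fix_pow (h : Monoid.End T) {w : T} (hw : h w = w) (k : ℕ) : (h ^ k) w = w := by
  induction k with
  | zero => rw [pow_zero]; rfl
  | succ k ih =>
    rw [pow_succ]
    show (h ^ k) (h w) = w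
    rw [hw, ih]

theorem abel_exponent {q : ℕ} (hq : q.Prime) (F G : Monoid.End T) (hc : Commute F G) (hF : F ^ q = 1)
    (hG : G ^ q = 1) (hfix : ∀ c ∈ Finset.range q, ∀ x, (F * G ^ c) x = x → x = 1)
    (hfixG : ∀ x, G x = x → x = 1) (z : T) : z ^ q = 1 := by
  have hpowh : ∀ c, (F * G ^ c) ^ q = 1 := by
    intro c
    rw [(hc.pow_right c).mul_pow, hF, one_mul, ← pow_mul, mul_comm, pow_mul, hG, one_pow]
  have step1 : ∀ c ∈ Finset.range q, ∏ i ∈ Finset.range q, ((F * G ^ c) ^ i) z = 1 := by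
    intro c hc'
    exact hfix c hc' _ (norm_fixed _ (hpowh c) z)
  have step2 : ∏ c ∈ Finset.range q, ∏ i ∈ Finset.range q, ((F * G ^ c) ^ i) z = 1 :=
    Finset.prod_eq_one step1
  have step3 : ∀ c i : ℕ, ((F * G ^ c) ^ i) z = (F ^ i) (((G ^ i) ^ c) z) := by
    intro c i
    rw [(hc.pow_right c).mul_pow]
    show (F ^ i) (((G ^ c) ^ i) z) = _
    rw [← pow_mul, ← pow_mul, mul_comm]
  simp only [step3] at step2
  rw [Finset.prod_comm] at step2
  simp only [← map_prod] at step2
  have hq0 : 0 ∈ Finset.range q := Finset.mem_range.2 hq.pos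
  rw [Finset.prod_eq_single_of_mem 0 hq0] at step2
  · simpa using step2
  · intro i hi hi0
    have hi' := Finset.mem_range.1 hi
    set w := ∏ c ∈ Finset.range q, ((G ^ i) ^ c) z with hw
    have hGi : (G ^ i) ^ q = 1 := by
      rw [← pow_mul, mul_comm, pow_mul, hG, one_pow]
    have h1 : (G ^ i) w = w := norm_fixed _ hGi z
    have hcop : Nat.Coprime i q := (Nat.coprime_of_lt_prime hi0 hi' hq).symm
    obtain ⟨m, -, hm⟩ := Nat.exists_mul_mod_eq_one_of_coprime hcop hq.one_lt
    have hGeq : G = (G ^ i) ^ m := by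
      rw [← pow_mul, pow_eq_pow_mod (i * m) hG, hm, pow_one]
    have h2 : G w = w := by
      conv_lhs => rw [hGeq]
      exact fix_pow _ h1 m
    rw [hfixG w h2, map_one]
end abel

section main
variable {P : Type*} [Group P]

theorem lift_fixed [Finite P] {p q : ℕ} [hp' : Fact p.Prime] [hq' : Fact q.Prime] (hpq : p ≠ q) (h : MulAut P) (hq : h ^ q = 1)
    (N : Subgroup P) [N.Normal] (hN : ∀ n ∈ N, h n ∈ N) (hNp : IsPGroup p N) (x : P)
    (hx : x⁻¹ * h x ∈ N) : ∃ n ∈ N, h (x * n) = x * n := by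
  classical
  let C := {y : P // x⁻¹ * y ∈ N}
  letI : Fintype C := Fintype.ofFinite _
  let σ : Function.End C := fun y => ⟨h y.1, by
    have h1 : x⁻¹ * h y.1 = (x⁻¹ * h x) * h (x⁻¹ * y.1) := by
      rw [map_mul, map_inv]; group
    rw [h1]
    exact N.mul_mem hx (hN _ y.2)⟩
  have hσ : σ ^ q ^ 1 = 1 := by
    have key : ∀ k : ℕ, ∀ y : C, ((σ ^ k) y).1 = (h ^ k) y.1 := by
      intro k
      induction k with
      | zero => intro y; rfl
      | succ k ih =>
        intro y
        rw [pow_succ']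
        show h ((σ ^ k) y).1 = _
        rw [ih, pow_succ']
        rfl
    funext y
    apply Subtype.ext
    rw [pow_one, key, hq]
    rfl
  have h1 := Equiv.Perm.card_fixedPoints_modEq hσ
  have hcard : Fintype.card C = Nat.card N := by
    rw [← Nat.card_eq_fintype_card]
    apply Nat.card_congr
    exact (Equiv.ofBijective (fun n : N => (⟨x * n.1, by simp⟩ : C)) ⟨fun a b hab => by
      have : x * a.1 = x * b.1 := congrArg (fun z : C => z.1) hab
      exact Subtype.ext (mul_left_cancel this), fun y => ⟨⟨_, y.2⟩, Subtype.ext (by simp)⟩⟩).symm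
  obtain ⟨k, hk⟩ := IsPGroup.iff_card.1 hNp
  have hne : Nonempty (Function.fixedPoints σ) := by
    by_contra hemp
    rw [not_nonempty_iff] at hemp
    have hz : Fintype.card (Function.fixedPoints σ) = 0 := Fintype.card_eq_zero
    rw [hz, hcard, hk] at h1
    have h2 : q ∣ p ^ k := (Nat.modEq_zero_iff_dvd).1 h1
    have h3 := (Nat.prime_dvd_prime_iff_eq hq'.out hp'.out).1 (hq'.out.dvd_of_dvd_pow h2)
    exact hpq h3.symm
  obtain ⟨⟨y, hy⟩⟩ := hne
  refine ⟨x⁻¹ * y.1, y.2, ?_⟩
  have h4 : h y.1 = y.1 := congrArg (fun z : C => z.1) hy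
  rw [mul_inv_cancel_left, h4]

/-- central and fixed by `h`. -/
def zh (h : MulAut P) : Subgroup P where
  carrier := {z | z ∈ center P ∧ h z = z}
  mul_mem' := by
    rintro a b ⟨ha, ha'⟩ ⟨hb, hb'⟩
    exact ⟨Subgroup.mul_mem _ ha hb, by rw [map_mul, ha', hb']⟩
  one_mem' := ⟨Subgroup.one_mem _, map_one _⟩
  inv_mem' := by
    rintro a ⟨ha, ha'⟩
    exact ⟨Subgroup.inv_mem _ ha, by rw [map_inv, ha']⟩

theorem zh_normal (h : MulAut P) : (zh h).Normal := by
  constructor
  intro n hn g
  have h1 : g * n * g⁻¹ = n := by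
    have := (Subgroup.mem_center_iff.1 hn.1) g
    rw [this]
    group
  rw [h1]
  exact hn

theorem center_of_aut (φ : MulAut P) {z : P} (hz : z ∈ center P) : φ z ∈ center P := by
  rw [Subgroup.mem_center_iff]
  intro w
  have h1 := (Subgroup.mem_center_iff.1 hz) (φ⁻¹ w)
  have h2 := congrArg φ h1
  rw [map_mul, map_mul] at h2
  have h3 : φ (φ⁻¹ w) = w := by
    show (φ * φ⁻¹) w = w
    rw [mul_inv_cancel]; rfl
  rwa [h3] at h2

theorem zh_inv (h φ : MulAut P) (hc : Commute φ h) : ∀ n ∈ zh h, φ n ∈ zh h := by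
  rintro n ⟨h1, h2⟩
  refine ⟨center_of_aut φ h1, ?_⟩
  have := congrArg (fun ψ : MulAut P => ψ n) hc.eq
  show h (φ n) = φ n
  have e : h (φ n) = φ (h n) := this.symm
  rw [e, h2]

theorem zh_map (h φ : MulAut P) (hc : Commute φ h) : (zh h).map φ.toMonoidHom = zh h := by
  apply le_antisymm
  · rintro _ ⟨n, hn, rfl⟩
    exact zh_inv h φ hc n hn
  · intro n hn
    refine ⟨φ⁻¹ n, zh_inv h φ⁻¹ hc.inv_left n hn, ?_⟩
    show (φ * φ⁻¹) n = n
    rw [mul_inv_cancel]; rfl

/-- commutators with the fixed part die. -/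
theorem comm_step [Finite P] (h : MulAut P) (A B : Subgroup P) (hA : ∀ a ∈ A, h a = a) (hB : ∀ b ∈ B, h b ∈ B)
    (hfree : ∀ b ∈ B, h b = b → b = 1) (hcomm : ∀ a ∈ A, ∀ b ∈ B, a * b * a⁻¹ * b⁻¹ ∈ zh h) :
    ∀ a ∈ A, ∀ b ∈ B, a * b = b * a := by
  intro a ha
  let φ : P → P := fun b => a * b * a⁻¹ * b⁻¹
  have hcent : ∀ b ∈ B, φ b ∈ center P := fun b hb => (hcomm a ha b hb).1
  have hmul : ∀ b ∈ B, ∀ b' ∈ B, φ (b * b') = φ b * φ b' := by
    intro b hb b' hb'
    have hc := (Subgroup.mem_center_iff.1 (hcent b' hb')) b⁻¹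
    calc φ (b * b') = a * b * a⁻¹ * (φ b' * b⁻¹) := by
          simp only [φ]; group
      _ = a * b * a⁻¹ * (b⁻¹ * φ b') := by rw [hc]
      _ = _ := by
          simp only [φ]; group
  have hfixφ : ∀ b ∈ B, φ (h b) = φ b := by
    intro b hb
    have h1 : h (φ b) = φ b := (hcomm a ha b hb).2
    have h2 : h (φ b) = a * h b * a⁻¹ * (h b)⁻¹ := by
      simp only [φ, map_mul, map_inv, hA a ha]
    rw [← h1, h2]
  let ψ : B → B := fun b => ⟨h b.1 * b.1⁻¹, B.mul_mem (hB _ b.2) (B.inv_mem b.2)⟩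
  have hψ : Function.Injective ψ := by
    intro x y hxy
    have h1 : h x.1 * x.1⁻¹ = h y.1 * y.1⁻¹ := congrArg Subtype.val hxy
    have h2 : h (y.1⁻¹ * x.1) = y.1⁻¹ * x.1 := by
      rw [map_mul, map_inv]
      have : (h y.1)⁻¹ * h x.1 = y.1⁻¹ * x.1 := by
        calc (h y.1)⁻¹ * h x.1 = (h y.1)⁻¹ * (h x.1 * x.1⁻¹) * x.1 := by group
          _ = (h y.1)⁻¹ * (h y.1 * y.1⁻¹) * x.1 := by rw [h1]
          _ = _ := by group
      exact this
    have h3 := hfree _ (B.mul_mem (B.inv_mem y.2) x.2) h2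
    apply Subtype.ext
    have := inv_mul_eq_one.1 h3
    exact this.symm
  intro b hb
  obtain ⟨⟨b₁, hb₁⟩, hb₂⟩ := (Finite.injective_iff_surjective.1 hψ) ⟨b, hb⟩
  have hb₃ : h b₁ * b₁⁻¹ = b := congrArg Subtype.val hb₂
  have h4 : φ b = 1 := by
    rw [← hb₃, hmul _ (hB _ hb₁) _ (B.inv_mem hb₁), hfixφ _ hb₁]
    have h5 := hmul _ hb₁ _ (B.inv_mem hb₁)
    rw [mul_inv_cancel] at h5
    have h6 : φ 1 = 1 := by simp [φ]
    rw [h6] at h5
    exact h5.symm
  have h5 : a * b * a⁻¹ = b := by
    have : a * b * a⁻¹ * b⁻¹ = 1 := h4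
    rwa [mul_inv_eq_one] at this
  calc a * b = (a * b * a⁻¹) * a := by group
    _ = b * a := by rw [h5]

/-- fixed points -/
def fixS (h : MulAut P) : Subgroup P where
  carrier := {x | h x = x}
  mul_mem' := by
    intro a b ha hb
    show h (a * b) = a * b
    rw [map_mul, show h a = a from ha, show h b = b from hb]
  one_mem' := map_one _
  inv_mem' := by
    intro a ha
    show h a⁻¹ = a⁻¹
    rw [map_inv, show h a = a from ha]

/-- the induced automorphism of a quotient -/
noncomputable def bar (N : Subgroup P) [N.Normal] (f : MulAut P) (hf : N.map f.toMonoidHom = N) : MulAut (P ⧸ N) :=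
  QuotientGroup.congr N N f hf

theorem bar_mk (N : Subgroup P) [N.Normal] (f : MulAut P) (hf : N.map f.toMonoidHom = N) (x : P) :
    bar N f hf (x : P ⧸ N) = ((f x : P) : P ⧸ N) := rfl

theorem bar_pow (N : Subgroup P) [N.Normal] (f : MulAut P) (hf : N.map f.toMonoidHom = N) (k : ℕ) (x : P) :
    ((bar N f hf) ^ k) (x : P ⧸ N) = (((f ^ k) x : P) : P ⧸ N) := by
  induction k with
  | zero => rfl
  | succ k ih =>
    rw [pow_succ', pow_succ']
    show bar N f hf (((bar N f hf) ^ k) (x : P ⧸ N)) = _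
    rw [ih]
    rfl

/-- the center, with its commutative group structure. -/
def CT (P : Type*) [Group P] : Type _ := ↥(center P)

instance : CommGroup (CT P) :=
  { (center P).toGroup with
    mul_comm := fun a b => Subtype.ext ((Subgroup.mem_center_iff.1 b.2) (a.1 : P)) }

/-- restriction to the center -/
def resT (φ : MulAut P) : Monoid.End (CT P) where
  toFun z := ⟨φ z.1, center_of_aut φ z.2⟩
  map_one' := Subtype.ext (map_one φ)
  map_mul' a b := Subtype.ext (map_mul φ _ _)

theorem resT_pow (φ : MulAut P) (k : ℕ) (z : CT P) : (((resT φ) ^ k) z).1 = (φ ^ k) z.1 := by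
  induction k generalizing z with
  | zero => rfl
  | succ k ih =>
    rw [pow_succ', pow_succ']
    show φ (((resT φ ^ k) z).1) = φ ((φ ^ k) z.1)
    rw [ih]

end main

theorem main_abs {p q : ℕ} [hp' : Fact p.Prime] [hq' : Fact q.Prime] (hpq : p ≠ q) :
    ∀ (n : ℕ) (P : Type u) [Group P] [Finite P], Nat.card P = n → IsPGroup p P →
    ∀ f g : MulAut P, Commute f g → f ^ q = 1 → g ^ q = 1 →
    (∀ c : ℕ, 0 < c → c < q → ∀ x, (f * g ^ c) x = x → x = 1) →
    (∀ a b, f a = a → g b = b → a * b = b * a) ∧ (∀ x, ∃ a b, f a = a ∧ g b = b ∧ x = a * b) := by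
  intro n
  induction n using Nat.strong_induction_on with
  | _ n ih =>
    intro P _ _ hn hp f g hfg hfq hgq hfree
    by_cases hP : Subsingleton P
    · exact ⟨fun a b _ _ => Subsingleton.elim _ _, fun x => ⟨1, 1, map_one _, map_one _, Subsingleton.elim _ _⟩⟩
    rw [not_subsingleton_iff_nontrivial] at hP
    have hinter : ∀ x, f x = x → g x = x → x = 1 := by
      intro x h1 h2
      apply hfree 1 one_pos hq'.out.one_lt
      show f ((g ^ 1) x) = x
      rw [pow_one, h2, h1]
    -- abelian step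
    have hZ : (zh f ≠ ⊥) ∨ (zh g ≠ ⊥) := by
      by_contra hno
      push Not at hno
      obtain ⟨hno1, hno2⟩ := hno
      haveI hcn : Nontrivial (center P) := hp.center_nontrivial
      obtain ⟨z, hz⟩ := exists_ne (1 : center P)
      have hexp : ∀ z : CT P, z ^ q = 1 := by
        refine abel_exponent hq'.out (resT f) (resT g) ?_ ?_ ?_ ?_ ?_
        · apply MonoidHom.ext
          intro y
          apply Subtype.ext
          have := congrArg (fun ψ : MulAut P => ψ y.1) hfg.eq
          exact this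
        · apply MonoidHom.ext
          intro y
          apply Subtype.ext
          exact (resT_pow f q y).trans (by rw [hfq]; rfl)
        · apply MonoidHom.ext
          intro y
          apply Subtype.ext
          exact (resT_pow g q y).trans (by rw [hgq]; rfl)
        · intro c hc x hx
          have hc' := Finset.mem_range.1 hc
          have hx' : (f * g ^ c) x.1 = x.1 := by
            have := congrArg Subtype.val hx
            show f ((g ^ c) x.1) = x.1
            rw [← resT_pow]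
            exact this
          rcases Nat.eq_zero_or_pos c with rfl | hcp
          · have h1 : x.1 ∈ zh f := ⟨x.2, by simpa using hx'⟩
            rw [hno1] at h1
            exact Subtype.ext (Subgroup.mem_bot.1 h1)
          · exact Subtype.ext (hfree c hcp hc' _ hx')
        · intro x hx
          have h1 : x.1 ∈ zh g := ⟨x.2, congrArg Subtype.val hx⟩
          rw [hno2] at h1
          exact Subtype.ext (Subgroup.mem_bot.1 h1)
      have hq1 : (z : P) ^ q = 1 := by
        have := hexp z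
        exact congrArg Subtype.val this
      obtain ⟨k, hk⟩ := hp (z : P)
      have hcop : Nat.Coprime (p ^ k) q :=
        Nat.Coprime.pow_left k ((Nat.coprime_primes hp'.out hq'.out).2 hpq)
      have h1 : orderOf (z : P) = 1 :=
        Nat.Coprime.eq_one_of_dvd (Nat.Coprime.coprime_dvd_left (orderOf_dvd_of_pow_eq_one hk) hcop)
          (orderOf_dvd_of_pow_eq_one hq1)
      exact hz (Subtype.ext (orderOf_eq_one_iff.1 h1))
    -- descent
    have key : ∀ h : MulAut P, Commute f h → Commute g h → zh h ≠ ⊥ →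
        (∀ a b, f a = a → g b = b → a * b * a⁻¹ * b⁻¹ ∈ zh h) ∧
          (∀ x, ∃ a b, f a = a ∧ g b = b ∧ (a * b)⁻¹ * x ∈ zh h) := by
      intro h hfh hgh hN
      haveI hnorm : (zh h).Normal := zh_normal h
      have hNp : IsPGroup p (zh h) := hp.to_subgroup _
      have hlt : Nat.card (P ⧸ zh h) < n := by
        rw [← hn, Subgroup.card_eq_card_quotient_mul_card_subgroup (zh h)]
        have h1 : 1 < Nat.card (zh h) := by
          have h2 : 1 ≠ Nat.card (zh h) := by
            intro e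
            exact hN ((Subgroup.eq_bot_iff_card _).2 e.symm)
          have h3 : 0 < Nat.card (zh h) := Nat.card_pos
          omega
        have h4 : 0 < Nat.card (P ⧸ zh h) := Nat.card_pos
        nlinarith
      let F := bar (zh h) f (zh_map h f hfh)
      let G := bar (zh h) g (zh_map h g hgh)
      have hFG : Commute F G := by
        apply MulEquiv.ext
        intro x
        induction x using QuotientGroup.induction_on with
        | H x =>
          show ((f (g x) : P) : P ⧸ zh h) = ((g (f x) : P) : P ⧸ zh h)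
          have := congrArg (fun ψ : MulAut P => ψ x) hfg.eq
          have e : f (g x) = g (f x) := this
          rw [e]
      have hFq : F ^ q = 1 := by
        apply MulEquiv.ext
        intro x
        induction x using QuotientGroup.induction_on with
        | H x =>
          rw [bar_pow, hfq]
          rfl
      have hGq : G ^ q = 1 := by
        apply MulEquiv.ext
        intro x
        induction x using QuotientGroup.induction_on with
        | H x =>
          rw [bar_pow, hgq]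
          rfl
      have hfreebar : ∀ c : ℕ, 0 < c → c < q → ∀ x, (F * G ^ c) x = x → x = 1 := by
        intro c hc hcq x hx
        induction x using QuotientGroup.induction_on with
        | H x =>
          have e1 : (F * G ^ c) (x : P ⧸ zh h) = (((f * g ^ c) x : P) : P ⧸ zh h) := by
            show F ((G ^ c) (x : P ⧸ zh h)) = _
            rw [bar_pow]
            rfl
          rw [e1] at hx
          rw [QuotientGroup.eq] at hx
          have hφq : (f * g ^ c) ^ q = 1 := by
            rw [(hfg.pow_right c).mul_pow, hfq, one_mul, ← pow_mul, mul_comm, pow_mul, hgq, one_pow]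
          have hφc : Commute (f * g ^ c) h := hfh.mul_left (hgh.pow_left c)
          have h1 : x⁻¹ * (f * g ^ c) x ∈ zh h := by
            have := (zh h).inv_mem hx
            rwa [mul_inv_rev, inv_inv] at this
          obtain ⟨m, hm, hfx⟩ := lift_fixed hpq (f * g ^ c) hφq (zh h) (zh_inv h _ hφc) hNp x h1
          have h2 := hfree c hc hcq _ hfx
          have h3 : x = m⁻¹ := eq_inv_of_mul_eq_one_left h2
          rw [QuotientGroup.eq_one_iff, h3]
          exact (zh h).inv_mem hm
      obtain ⟨hb, hc⟩ := ih _ hlt (P ⧸ zh h) rfl (hp.to_quotient _) F G hFG hFq hGq hfreebar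
      constructor
      · intro a b ha hb'
        have h1 := hb (a : P ⧸ zh h) (b : P ⧸ zh h)
          (by rw [show F (a : P ⧸ zh h) = ((f a : P) : P ⧸ zh h) from rfl, ha])
          (by rw [show G (b : P ⧸ zh h) = ((g b : P) : P ⧸ zh h) from rfl, hb'])
        rw [← QuotientGroup.eq_one_iff]
        have h2 : ((a * b * a⁻¹ * b⁻¹ : P) : P ⧸ zh h) =
            ((a : P ⧸ zh h) * (b : P ⧸ zh h)) * (a : P ⧸ zh h)⁻¹ * (b : P ⧸ zh h)⁻¹ := rfl
        rw [h2, h1]
        group
      · intro x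
        obtain ⟨a', b', ha', hb', hx⟩ := hc (x : P ⧸ zh h)
        induction a' using QuotientGroup.induction_on with
        | H a₀ =>
        induction b' using QuotientGroup.induction_on with
        | H b₀ =>
        have h1 : a₀⁻¹ * f a₀ ∈ zh h := by
          have e : ((f a₀ : P) : P ⧸ zh h) = (a₀ : P ⧸ zh h) := ha'
          rw [QuotientGroup.eq] at e
          have := (zh h).inv_mem e
          rwa [mul_inv_rev, inv_inv] at this
        have h2 : b₀⁻¹ * g b₀ ∈ zh h := by
          have e : ((g b₀ : P) : P ⧸ zh h) = (b₀ : P ⧸ zh h) := hb'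
          rw [QuotientGroup.eq] at e
          have := (zh h).inv_mem e
          rwa [mul_inv_rev, inv_inv] at this
        obtain ⟨m₁, hm₁, hfa⟩ := lift_fixed hpq f hfq (zh h) (zh_inv h _ hfh) hNp a₀ h1
        obtain ⟨m₂, hm₂, hgb⟩ := lift_fixed hpq g hgq (zh h) (zh_inv h _ hgh) hNp b₀ h2
        refine ⟨a₀ * m₁, b₀ * m₂, hfa, hgb, ?_⟩
        rw [← QuotientGroup.eq]
        have e1 : ((a₀ * m₁ : P) : P ⧸ zh h) = (a₀ : P ⧸ zh h) := by
          rw [QuotientGroup.eq]; simpa using hm₁
        have e2 : ((b₀ * m₂ : P) : P ⧸ zh h) = (b₀ : P ⧸ zh h) := by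
          rw [QuotientGroup.eq]; simpa using hm₂
        show ((a₀ * m₁ : P) : P ⧸ zh h) * ((b₀ * m₂ : P) : P ⧸ zh h) = (x : P ⧸ zh h)
        rw [e1, e2, hx]
    have hA : ∀ φ ψ : MulAut P, Commute φ ψ → ∀ b ∈ fixS ψ, φ b ∈ fixS ψ := by
      intro φ ψ hc b hb
      show ψ (φ b) = φ b
      have := congrArg (fun χ : MulAut P => χ b) hc.eq
      have e : φ (ψ b) = ψ (φ b) := this
      rw [← e, show ψ b = b from hb]
    rcases hZ with hZ | hZ
    · obtain ⟨h1, h2⟩ := key f (Commute.refl f) hfg.symm hZ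
      constructor
      · intro a b ha hb
        exact comm_step f (fixS f) (fixS g) (fun a ha => ha) (hA f g hfg)
          (fun b hb hb' => hinter b hb' hb) (fun a ha b hb => h1 a b ha hb) a ha b hb
      · intro x
        obtain ⟨a, b, ha, hb, hn'⟩ := h2 x
        set m := (a * b)⁻¹ * x with hm
        have hmc := Subgroup.mem_center_iff.1 hn'.1
        refine ⟨a * m, b, by rw [map_mul, ha, show f m = m from hn'.2], hb, ?_⟩
        have : x = a * b * m := by rw [hm]; group
        rw [this, mul_assoc, mul_assoc, ← hmc b]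
    · obtain ⟨h1, h2⟩ := key g hfg (Commute.refl g) hZ
      constructor
      · intro a b ha hb
        have h3 : ∀ b ∈ fixS g, ∀ a ∈ fixS f, b * a = a * b := by
          apply comm_step g (fixS g) (fixS f) (fun a ha => ha) (hA g f hfg.symm)
            (fun b hb hb' => hinter b hb hb')
          intro b hb a ha
          have := (zh g).inv_mem (h1 a b ha hb)
          convert this using 1
          group
        exact (h3 b hb a ha).symm
      · intro x
        obtain ⟨a, b, ha, hb, hn'⟩ := h2 x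
        set m := (a * b)⁻¹ * x with hm
        refine ⟨a, b * m, ha, by rw [map_mul, hb, show g m = m from hn'.2], ?_⟩
        rw [hm]
        group


/-- Let S = PQ be a finite group with P a normal Sylow p-subgroup and Q elementary abelian of order q², q a prime different from p. If exactly two subgroups X₁, X₂ of order q in Q have a nontrivial centralizer in P, then P is the internal direct product of C_P(X₁) and C_P(X₂): they commute elementwise, meet trivially and generate P. -/
theorem result {S : Type*} [Group S] [Finite S] {p q : ℕ} [Fact p.Prime] [Fact q.Prime] (hpq : p ≠ q)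
    (P : Sylow p S) [(P : Subgroup S).Normal] (Q : Subgroup S) (hQ : Cfsg.IsElementaryAbelian q Q) (hQc : Nat.card Q = q ^ 2)
    (hS : (P : Subgroup S) ⊔ Q = ⊤)
    (X₁ X₂ : Subgroup S) (h₁ : X₁ ≤ Q) (h₂ : X₂ ≤ Q) (h₁₂ : X₁ ≠ X₂) (hc₁ : Nat.card X₁ = q) (hc₂ : Nat.card X₂ = q)
    (hf₁ : (P : Subgroup S) ⊓ Subgroup.centralizer (X₁ : Set S) ≠ ⊥)
    (hf₂ : (P : Subgroup S) ⊓ Subgroup.centralizer (X₂ : Set S) ≠ ⊥)
    (honly : ∀ X : Subgroup S, X ≤ Q → Nat.card X = q →
      (P : Subgroup S) ⊓ Subgroup.centralizer (X : Set S) ≠ ⊥ → X = X₁ ∨ X = X₂) :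
    ⁅(P : Subgroup S) ⊓ Subgroup.centralizer (X₁ : Set S), (P : Subgroup S) ⊓ Subgroup.centralizer (X₂ : Set S)⁆ = ⊥ ∧
      ((P : Subgroup S) ⊓ Subgroup.centralizer (X₁ : Set S)) ⊓ ((P : Subgroup S) ⊓ Subgroup.centralizer (X₂ : Set S)) = ⊥ ∧
      ((P : Subgroup S) ⊓ Subgroup.centralizer (X₁ : Set S)) ⊔ ((P : Subgroup S) ⊓ Subgroup.centralizer (X₂ : Set S)) = P := by
  classical
  have hq : q.Prime := Fact.out
  have eqz : ∀ (A : Subgroup S) (v : S), Nat.card A = q → v ∈ A → v ≠ 1 → A = zpowers v := by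
    intro A v hA hv hv1
    symm
    apply Subgroup.eq_of_le_of_card_ge ((zpowers_le).2 hv)
    rw [hA, Nat.card_zpowers]
    have h1 : orderOf (⟨v, hv⟩ : A) ∣ Nat.card A := orderOf_dvd_natCard _
    rw [Subgroup.orderOf_mk, hA] at h1
    rcases (Nat.dvd_prime hq).1 h1 with h2 | h2
    · exact absurd (orderOf_eq_one_iff.1 h2) hv1
    · exact h2.ge
  have exq : ∀ A : Subgroup S, Nat.card A = q → ∃ y ∈ A, y ≠ 1 := by
    intro A hA
    refine (Subgroup.bot_or_exists_ne_one A).resolve_left ?_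
    rintro rfl
    rw [Subgroup.card_bot] at hA
    exact hq.one_lt.ne hA
  obtain ⟨y₁, hy₁, hy₁1⟩ := exq X₁ hc₁
  obtain ⟨y₂, hy₂, hy₂1⟩ := exq X₂ hc₂
  have hX₁ := eqz X₁ y₁ hc₁ hy₁ hy₁1
  have hX₂ := eqz X₂ y₂ hc₂ hy₂ hy₂1
  have hXX : ∀ v ∈ X₁, v ∈ X₂ → v = 1 := by
    intro v h1 h2
    by_contra hv
    exact h₁₂ ((eqz X₁ v hc₁ h1 hv).trans (eqz X₂ v hc₂ h2 hv).symm)
  have hQpow : ∀ a ∈ Q, a ^ q = 1 := hQ.2
  have hQcomm : ∀ a ∈ Q, ∀ b ∈ Q, a * b = b * a := by
    intro a ha b hb
    have := hQ.1.is_comm.comm ⟨a, ha⟩ ⟨b, hb⟩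
    exact congrArg Subtype.val this
  have hy₁Q := h₁ hy₁
  have hy₂Q := h₂ hy₂
  have hy₁₂ : Commute y₁ y₂ := hQcomm _ hy₁Q _ hy₂Q
  have hordy₂ : orderOf y₂ = q := orderOf_eq_prime (hQpow _ hy₂Q) hy₂1
  let f : MulAut (P : Subgroup S) := MulAut.conjNormal y₁
  let g : MulAut (P : Subgroup S) := MulAut.conjNormal y₂
  have hfg : Commute f g := hy₁₂.map MulAut.conjNormal
  have hfq : f ^ q = 1 := by
    show (MulAut.conjNormal y₁) ^ q = 1
    rw [← map_pow, hQpow _ hy₁Q, map_one]
  have hgq : g ^ q = 1 := by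
    show (MulAut.conjNormal y₂) ^ q = 1
    rw [← map_pow, hQpow _ hy₂Q, map_one]
  have hcentr : ∀ (A : Subgroup S) (v : S), A = zpowers v → ∀ x : S, v * x * v⁻¹ = x → x ∈ centralizer (A : Set S) := by
    intro A v hA x hx
    rw [Subgroup.mem_centralizer_iff]
    intro u hu
    have hu' : u ∈ zpowers v := hA ▸ hu
    obtain ⟨k, rfl⟩ := hu'
    have hc : Commute v x := by
      show v * x = x * v
      calc v * x = (v * x * v⁻¹) * v := by group
        _ = x * v := by rw [hx]
    exact (hc.zpow_left k)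
  have hfree : ∀ c : ℕ, 0 < c → c < q → ∀ x, (f * g ^ c) x = x → x = 1 := by
    intro c hc hcq x hx
    set w := y₁ * y₂ ^ c with hw
    have hfw : f * g ^ c = MulAut.conjNormal w := by
      rw [hw, map_mul, map_pow]
    rw [hfw] at hx
    have hx' : w * (x : S) * w⁻¹ = x := congrArg Subtype.val hx
    have hwQ : w ∈ Q := Q.mul_mem hy₁Q (Q.pow_mem hy₂Q c)
    have hy2c : y₂ ^ c ≠ 1 := pow_ne_one_of_lt_orderOf hc.ne' (by rw [hordy₂]; exact hcq)
    have hy2cX : y₂ ^ c ∈ X₂ := X₂.pow_mem hy₂ c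
    have hw1 : w ≠ 1 := by
      intro e
      apply hy₁1
      apply hXX _ hy₁
      have : y₁ = (y₂ ^ c)⁻¹ := eq_inv_of_mul_eq_one_left e
      rw [this]
      exact X₂.inv_mem hy2cX
    have hword : orderOf w = q := orderOf_eq_prime (hQpow _ hwQ) hw1
    have hXQ : zpowers w ≤ Q := (zpowers_le).2 hwQ
    have hXc : Nat.card (zpowers w) = q := by rw [Nat.card_zpowers, hword]
    have hne1 : zpowers w ≠ X₁ := by
      intro e
      have h1 : w ∈ X₁ := e ▸ Subgroup.mem_zpowers w
      apply hy2c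
      apply hXX _ _ hy2cX
      have : y₂ ^ c = y₁⁻¹ * w := by rw [hw]; group
      rw [this]
      exact X₁.mul_mem (X₁.inv_mem hy₁) h1
    have hne2 : zpowers w ≠ X₂ := by
      intro e
      have h1 : w ∈ X₂ := e ▸ Subgroup.mem_zpowers w
      apply hy₁1
      apply hXX _ hy₁
      have : y₁ = w * (y₂ ^ c)⁻¹ := by rw [hw]; group
      rw [this]
      exact X₂.mul_mem h1 (X₂.inv_mem hy2cX)
    by_contra hx1
    have hne : (P : Subgroup S) ⊓ centralizer ((zpowers w : Subgroup S) : Set S) ≠ ⊥ := by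
      intro e
      have h1 : (x : S) ∈ (P : Subgroup S) ⊓ centralizer ((zpowers w : Subgroup S) : Set S) :=
        ⟨x.2, hcentr _ w rfl _ hx'⟩
      rw [e] at h1
      exact hx1 (Subtype.ext (Subgroup.mem_bot.1 h1))
    rcases honly _ hXQ hXc hne with h | h
    · exact hne1 h
    · exact hne2 h
  obtain ⟨hb, hc⟩ := main_abs hpq _ (P : Subgroup S) rfl P.isPGroup' f g hfg hfq hgq hfree
  have hmem₁ : ∀ x (hx : x ∈ (P : Subgroup S)), x ∈ centralizer (X₁ : Set S) → f ⟨x, hx⟩ = ⟨x, hx⟩ := by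
    intro x hx h
    apply Subtype.ext
    show y₁ * x * y₁⁻¹ = x
    rw [Subgroup.mem_centralizer_iff] at h
    rw [h y₁ hy₁]
    group
  have hmem₂ : ∀ x (hx : x ∈ (P : Subgroup S)), x ∈ centralizer (X₂ : Set S) → g ⟨x, hx⟩ = ⟨x, hx⟩ := by
    intro x hx h
    apply Subtype.ext
    show y₂ * x * y₂⁻¹ = x
    rw [Subgroup.mem_centralizer_iff] at h
    rw [h y₂ hy₂]
    group
  refine ⟨?_, ?_, ?_⟩
  · rw [eq_bot_iff, Subgroup.commutator_le]
    intro a ha b hb'
    rw [Subgroup.mem_bot, commutatorElement_eq_one_iff_mul_comm]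
    exact congrArg Subtype.val (hb ⟨a, ha.1⟩ ⟨b, hb'.1⟩ (hmem₁ a ha.1 ha.2) (hmem₂ b hb'.1 hb'.2))
  · rw [eq_bot_iff]
    rintro x ⟨hx₁, hx₂⟩
    have h1 := hfree 1 one_pos hq.one_lt ⟨x, hx₁.1⟩ (by
      rw [pow_one]
      show f (g ⟨x, hx₁.1⟩) = ⟨x, hx₁.1⟩
      rw [hmem₂ x hx₁.1 hx₂.2, hmem₁ x hx₁.1 hx₁.2])
    exact Subgroup.mem_bot.2 (congrArg Subtype.val h1)
  · apply le_antisymm
    · exact sup_le inf_le_left inf_le_left
    · intro x hx
      obtain ⟨a, b, ha, hb', e⟩ := hc ⟨x, hx⟩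
      have e' : x = (a : S) * b := congrArg Subtype.val e
      rw [e']
      refine Subgroup.mul_mem_sup ⟨a.2, hcentr _ y₁ hX₁ _ ?_⟩ ⟨b.2, hcentr _ y₂ hX₂ _ ?_⟩
      · exact congrArg Subtype.val ha
      · exact congrArg Subtype.val hb'

end Cfsg.Agent.S1900
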