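import Cfsg.Statements.S1901
import Mathlib
import Cfsg.Agent.Lib.H06.Stable
import Cfsg.Agent.Lib.H15.Sylow2
-- import your own Cfsg.Agent.* helpers here

set_option autoImplicit false
open Cfsg

namespace Cfsg.Agent.S1901

set_option linter.style.haveILetI false

theorem pow_relIndex_mem {G : Type*} [Group G] [Finite G] (M N : Subgroup G) [M.Normal] {z : G} (hz : z ∈ N) :
    z ^ (M.relIndex N) ∈ M := by
  have h := Subgroup.pow_index_mem (M.subgroupOf N) (⟨z, hz⟩ : N)
  rw [Subgroup.mem_subgroupOf] at h
  simpa [Subgroup.relIndex] using h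


/-- Let G be a finite p-solvable group and Q a subgroup of order prime to p such that p divides the index of C_G(Q) in N_G(Q). Then Q normalizes no Sylow p-subgroup of G. -/
theorem result {G : Type*} [Group G] [Finite G] {p : ℕ} [Fact p.Prime]
    (hG : Cfsg.IsPSolvable p G) (Q : Subgroup G) (hQ : ¬ p ∣ Nat.card Q)
    (hA : p ∣ (Subgroup.centralizer (Q : Set G)).relIndex (Subgroup.normalizer (Q : Set G)))
    (P : Sylow p G) : ¬ Q ≤ Subgroup.normalizer ((P : Subgroup G) : Set G) := by
  classical
  intro hQP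
  obtain ⟨n, H, hH0, hHn, hmono, hnorm, hfac⟩ := hG
  have hp : p.Prime := Fact.out
  have hQcop : Nat.Coprime (Nat.card Q) p := ((Nat.Prime.coprime_iff_not_dvd hp).2 hQ).symm
  have hQpow : ∀ q ∈ Q, q ^ Nat.card Q = 1 := fun q hq => by
    have h : orderOf (⟨q, hq⟩ : Q) ∣ Nat.card Q := orderOf_dvd_natCard _
    rw [Subgroup.orderOf_mk] at h
    exact orderOf_dvd_iff_pow_eq_one.1 h
  -- main claim
  have key : ∀ x ∈ Subgroup.normalizer (Q : Set G), ∀ e : ℕ, x ^ (p ^ e) = 1 →
      x ∈ Subgroup.centralizer (Q : Set G) := by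
    intro x hxN e hxe
    have chain : ∀ i : Fin (n + 1), ∀ q ∈ Q, q * x * q⁻¹ * x⁻¹ ∈ H i := by
      intro i
      induction i using Fin.reverseInduction with
      | last => intro q _; rw [hHn]; trivial
      | cast i ih =>
        intro q hq
        have hyN := ih q hq
        have hyQ : q * x * q⁻¹ * x⁻¹ ∈ Q := by
          have e1 : q * x * q⁻¹ * x⁻¹ = q * (x * q⁻¹ * x⁻¹) := by group
          rw [e1]
          exact Q.mul_mem hq ((Subgroup.mem_normalizer_iff.1 hxN _).1 (Q.inv_mem hq))
        haveI hMn := hnorm i.castSucc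
        haveI hNn := hnorm i.succ
        rcases hfac i with ⟨m, hm⟩ | hcop
        · have h1 := pow_relIndex_mem (H i.castSucc) (H i.succ) hyN
          rw [hm] at h1
          exact Cfsg.Agent.H15.mem_of_pow_mem_of_coprime h1 (hQpow _ hyQ)
            ((Nat.Coprime.pow_left m hQcop.symm))
        · -- the p'-factor case
          let f := QuotientGroup.mk' (H i.castSucc)
          have hf : Function.Surjective f := QuotientGroup.mk'_surjective _
          let D : Subgroup (G ⧸ H i.castSucc) := (Q ⊓ H i.succ).map f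
          have hU : ((P.mapSurjective hf : Sylow p _) : Subgroup _) ≤ Subgroup.centralizer (D : Set (G ⧸ H i.castSucc)) := by
            rw [Sylow.coe_mapSurjective]
            rintro _ ⟨s, hs, rfl⟩
            rw [Subgroup.mem_centralizer_iff]
            rintro _ ⟨a, ⟨haQ, haN⟩, rfl⟩
            have hw1 : a * s * a⁻¹ * s⁻¹ ∈ (P : Subgroup G) := by
              exact Subgroup.mul_mem _ ((Subgroup.mem_normalizer_iff.1 (hQP haQ) s).1 hs) (Subgroup.inv_mem _ hs)
            have hw2 : a * s * a⁻¹ * s⁻¹ ∈ H i.succ := by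
              have e1 : a * s * a⁻¹ * s⁻¹ = a * (s * a⁻¹ * s⁻¹) := by group
              rw [e1]
              exact Subgroup.mul_mem _ haN (hNn.conj_mem _ (Subgroup.inv_mem _ haN) s)
            have hw3 := pow_relIndex_mem (H i.castSucc) (H i.succ) hw2
            obtain ⟨j, hj⟩ := P.isPGroup' ⟨_, hw1⟩
            have hw4 : (a * s * a⁻¹ * s⁻¹) ^ (p ^ j) = 1 := by
              simpa using congrArg Subtype.val hj
            have hw5 : a * s * a⁻¹ * s⁻¹ ∈ H i.castSucc :=
              Cfsg.Agent.H15.mem_of_pow_mem_of_coprime hw3 hw4 (Nat.Coprime.pow_right j hcop)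
            have hw6 : f (a * s * a⁻¹ * s⁻¹) = 1 := (QuotientGroup.eq_one_iff _).2 hw5
            simp only [map_mul, map_inv] at hw6
            have hw7 := mul_inv_eq_one.1 hw6
            exact (mul_inv_eq_iff_eq_mul.1 hw7)
          have hxD : f x ∈ Subgroup.normalizer (D : Set (G ⧸ H i.castSucc)) := by
            rw [Subgroup.mem_normalizer_iff]
            intro h
            obtain ⟨h', rfl⟩ := hf h
            constructor
            · rintro ⟨a, ⟨haQ, haN⟩, hae⟩
              refine ⟨x * a * x⁻¹, ⟨(Subgroup.mem_normalizer_iff.1 hxN a).1 haQ,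
                hNn.conj_mem a haN x⟩, ?_⟩
              rw [map_mul, map_mul, map_inv, hae]
            · rintro ⟨a, ⟨haQ, haN⟩, hae⟩
              refine ⟨x⁻¹ * a * x, ⟨?_, ?_⟩, ?_⟩
              · have := (Subgroup.mem_normalizer_iff.1 hxN (x⁻¹ * a * x)).2
                apply this
                have e2 : x * (x⁻¹ * a * x) * x⁻¹ = a := by group
                rw [e2]; exact haQ
              · have := hNn.conj_mem a haN x⁻¹
                simpa using this
              · rw [map_mul, map_mul, map_inv, hae]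
                group
          have hxpow : (f x) ^ (p ^ e) = 1 := by rw [← map_pow, hxe, map_one]
          have hxC := Cfsg.Agent.H15.mem_centralizer_of_normalizer_of_sylow D (P.mapSurjective hf) hU hxD e hxpow
          have hcD : f (q * x * q⁻¹ * x⁻¹) ∈ D := ⟨_, ⟨hyQ, hyN⟩, rfl⟩
          have hcomm := Subgroup.mem_centralizer_iff.1 hxC _ hcD
          have hc1 : f (q * x * q⁻¹ * x⁻¹) = 1 := by
            refine Cfsg.Agent.H06.eq_one_of_conj_eq_mul (a := f x) (x := f q⁻¹) (n := p ^ e) hxpow ?_ ?_ hcomm.symm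
            · have h3 : (f (q * x * q⁻¹ * x⁻¹)) ^ Nat.card Q = 1 := by
                rw [← map_pow, hQpow _ hyQ, map_one]
              have h4 := orderOf_dvd_of_pow_eq_one h3
              exact Nat.Coprime.coprime_dvd_left h4 (Nat.Coprime.pow_right e hQcop)
            · simp only [map_mul, map_inv]
              group
          exact (QuotientGroup.eq_one_iff _).1 hc1
    have h0 := chain 0
    rw [hH0] at h0
    rw [Subgroup.mem_centralizer_iff]
    intro q hq
    have h1 : q * x * q⁻¹ * x⁻¹ = 1 := h0 q hq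
    have h2 := mul_inv_eq_one.1 h1
    exact (mul_inv_eq_iff_eq_mul.1 h2)
  obtain ⟨T⟩ : Nonempty (Sylow p (Subgroup.normalizer (Q : Set G))) := inferInstance
  have hTle : (T : Subgroup (Subgroup.normalizer (Q : Set G))).map (Subgroup.normalizer (Q : Set G)).subtype
      ≤ Subgroup.centralizer (Q : Set G) := by
    rintro _ ⟨t, ht, rfl⟩
    obtain ⟨j, hj⟩ := T.isPGroup' ⟨t, ht⟩
    refine key _ t.2 j ?_
    have h2 : t ^ p ^ j = 1 := congrArg Subtype.val hj
    have h3 : ((t : G)) ^ p ^ j = 1 := congrArg Subtype.val h2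
    exact h3
  have h1 := Subgroup.relIndex_dvd_of_le_left (Subgroup.normalizer (Q : Set G)) hTle
  have h2 : ((T : Subgroup (Subgroup.normalizer (Q : Set G))).map (Subgroup.normalizer (Q : Set G)).subtype).relIndex
      (Subgroup.normalizer (Q : Set G)) = (T : Subgroup (Subgroup.normalizer (Q : Set G))).index := by
    rw [Subgroup.relIndex]
    congr 1
    exact Subgroup.comap_map_eq_self_of_injective (Subgroup.subtype_injective _) _
  rw [h2] at h1
  exact T.not_dvd_index (hA.trans h1)

end Cfsg.Agent.S1901
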