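import Cfsg.Statements.S1907
import Mathlib
import Cfsg.Agent.Lib.H06.CoprimeCoset
import Cfsg.Agent.Lib.H06.FittingHall
import Cfsg.Agent.Lib.H18.Syl
import Cfsg.Agent.Lib.H01.Fitting
-- import your own Cfsg.Agent.* helpers here

set_option autoImplicit false
open Cfsg

namespace Cfsg.Agent.S1907

set_option linter.style.haveILetI false


/-- Let P be a Sylow p-subgroup of a finite group G, H = P ∩ O_{p',p}(G), N = N_G(H) and D = O_{p'}(G). (a) If y is an element of p-power order of N and d ∈ D with d⁻¹ y d ∈ N, then d = d₁ d₂ with d₁ ∈ C_D(y) and d₂ ∈ C_D(H). (b) Two elements of P that are conjugate in G are conjugate in N. -/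
theorem result {G : Type*} [Group G] [Finite G] {p : ℕ} [Fact p.Prime] (P : Sylow p G) :
    (∀ y ∈ Subgroup.normalizer (((P : Subgroup G) ⊓ Cfsg.pPrimePCore p G : Subgroup G) : Set G), (∃ k : ℕ, orderOf y = p ^ k) →
      ∀ d ∈ Cfsg.pPrimeCore p G, d⁻¹ * y * d ∈ Subgroup.normalizer (((P : Subgroup G) ⊓ Cfsg.pPrimePCore p G : Subgroup G) : Set G) →
        ∃ d₁ ∈ Cfsg.pPrimeCore p G ⊓ Subgroup.centralizer ({y} : Set G),
          ∃ d₂ ∈ Cfsg.pPrimeCore p G ⊓ Subgroup.centralizer (((P : Subgroup G) ⊓ Cfsg.pPrimePCore p G : Subgroup G) : Set G), d = d₁ * d₂) ∧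
    ∀ x y : G, x ∈ (P : Subgroup G) → y ∈ (P : Subgroup G) → IsConj x y →
      ∃ n ∈ Subgroup.normalizer (((P : Subgroup G) ⊓ Cfsg.pPrimePCore p G : Subgroup G) : Set G), n * x * n⁻¹ = y := by
  classical
  haveI hKn : (Cfsg.pPrimeCore p G).Normal := inferInstance
  haveI hUn : (Cfsg.pPrimePCore p G).Normal := (Cfsg.Agent.H01.pCore_normal p).comap _
  have hKcop := Cfsg.Agent.H06.coprime_card_pPrimeCore (G := G) p
  have hp : p.Prime := Fact.out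
  have hFr := Cfsg.Agent.H18.frattini_inf P (Cfsg.pPrimePCore p G)
  let f := QuotientGroup.mk' (Cfsg.pPrimeCore p G)
  have hf : Function.Surjective f := QuotientGroup.mk'_surjective _
  have hKU : Cfsg.pPrimeCore p G ≤ Cfsg.pPrimePCore p G := by
    intro x hx
    have h1 : f x = 1 := (QuotientGroup.eq_one_iff _).2 hx
    show f x ∈ Cfsg.pCore p (G ⧸ Cfsg.pPrimeCore p G)
    rw [h1]; exact one_mem _
  have hU : ∀ u ∈ Cfsg.pPrimePCore p G, ∃ s ∈ (P : Subgroup G) ⊓ Cfsg.pPrimePCore p G,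
      ∃ k ∈ Cfsg.pPrimeCore p G, u = s * k := by
    intro u hu
    have h1 : f u ∈ ((P.mapSurjective hf : Sylow p _) : Subgroup _) :=
      Cfsg.Agent.H01.pCore_le_sylow p _ hu
    rw [Sylow.coe_mapSurjective] at h1
    obtain ⟨s, hs, hsu⟩ := h1
    have hk : s⁻¹ * u ∈ Cfsg.pPrimeCore p G := QuotientGroup.eq.1 hsu
    have hsU : s ∈ Cfsg.pPrimePCore p G := by
      have : s = u * (s⁻¹ * u)⁻¹ := by group
      rw [this]
      exact Subgroup.mul_mem _ hu (Subgroup.inv_mem _ (hKU hk))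
    exact ⟨s, ⟨hs, hsU⟩, _, hk, by group⟩
  obtain ⟨H, hH⟩ : ∃ H, H = (P : Subgroup G) ⊓ Cfsg.pPrimePCore p G := ⟨_, rfl⟩
  obtain ⟨K, hK⟩ : ∃ K, K = Cfsg.pPrimeCore p G := ⟨_, rfl⟩
  rw [← hH] at hFr hU ⊢
  rw [← hK] at hU ⊢
  rw [← hK] at hKn hKcop
  have hHP : H ≤ (P : Subgroup G) := by rw [hH]; exact inf_le_left
  have hHp : IsPGroup p H := P.isPGroup'.to_le hHP
  have hHK : ∀ x, x ∈ H → x ∈ K → x = 1 := by
    intro x hx hx'
    obtain ⟨k, hk⟩ := hHp.exists_card_eq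
    have hdis : Disjoint H K := by
      apply Subgroup.disjoint_of_coprime_natCard
      rw [hk]
      exact (Nat.Coprime.pow_right k hKcop).symm
    exact Subgroup.disjoint_def.1 hdis hx hx'
  have hCN : ∀ c ∈ K, c ∈ Subgroup.normalizer (H : Set G) → c ∈ Subgroup.centralizer (H : Set G) := by
    intro c hc hcN
    rw [Subgroup.mem_centralizer_iff]
    intro h hh
    have h1 : c * h * c⁻¹ * h⁻¹ = 1 := by
      apply hHK
      · exact H.mul_mem ((Subgroup.mem_normalizer_iff.1 hcN h).1 hh) (H.inv_mem hh)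
      · have e : c * h * c⁻¹ * h⁻¹ = c * (h * c⁻¹ * h⁻¹) := by group
        rw [e]
        exact K.mul_mem hc (hKn.conj_mem _ (K.inv_mem hc) h)
    have h2 := mul_inv_eq_one.1 h1
    exact (mul_inv_eq_iff_eq_mul.1 h2).symm
  have hPN : (P : Subgroup G) ≤ Subgroup.normalizer (H : Set G) := by
    intro s hs
    rw [Subgroup.mem_normalizer_iff]
    intro h
    rw [hH]
    constructor
    · rintro ⟨h1, h2⟩
      exact ⟨Subgroup.mul_mem _ (Subgroup.mul_mem _ hs h1) (Subgroup.inv_mem _ hs), hUn.conj_mem h h2 s⟩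
    · rintro ⟨h1, h2⟩
      refine ⟨?_, ?_⟩
      · have := Subgroup.mul_mem _ (Subgroup.mul_mem _ (Subgroup.inv_mem _ hs) h1) hs
        have e : s⁻¹ * (s * h * s⁻¹) * s = h := by group
        rw [e] at this
        exact this
      · have := hUn.conj_mem _ h2 s⁻¹
        have e : s⁻¹ * (s * h * s⁻¹) * s⁻¹⁻¹ = h := by group
        rw [e] at this
        exact this
  have part1 : ∀ y ∈ Subgroup.normalizer (H : Set G), (∃ k : ℕ, orderOf y = p ^ k) →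
      ∀ d ∈ K, d⁻¹ * y * d ∈ Subgroup.normalizer (H : Set G) →
        ∃ d₁ ∈ K ⊓ Subgroup.centralizer ({y} : Set G),
          ∃ d₂ ∈ K ⊓ Subgroup.centralizer (H : Set G), d = d₁ * d₂ := by
    intro y hy ⟨k, hk⟩ d hd hdy
    have hg : ∀ x ∈ K ⊓ Subgroup.normalizer (H : Set G), y * x * y⁻¹ ∈ K ⊓ Subgroup.normalizer (H : Set G) := by
      rintro x ⟨h1, h2⟩
      exact ⟨hKn.conj_mem x h1 y, Subgroup.mul_mem _ (Subgroup.mul_mem _ hy h2) (Subgroup.inv_mem _ hy)⟩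
    have hcop : (orderOf y).Coprime (Nat.card (K ⊓ Subgroup.normalizer (H : Set G) : Subgroup G)) := by
      rw [hk]
      apply Nat.Coprime.pow_left
      have h1 : Nat.card (K ⊓ Subgroup.normalizer (H : Set G) : Subgroup G) ∣ Nat.card K :=
        Subgroup.card_dvd_of_le inf_le_left
      exact (Nat.Coprime.coprime_dvd_left h1 hKcop).symm
    have hhmem : (d⁻¹ * y * d) * y⁻¹ ∈ K ⊓ Subgroup.normalizer (H : Set G) := by
      refine ⟨?_, Subgroup.mul_mem _ hdy (Subgroup.inv_mem _ hy)⟩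
      have e : (d⁻¹ * y * d) * y⁻¹ = d⁻¹ * (y * d * y⁻¹) := by group
      rw [e]
      exact K.mul_mem (K.inv_mem hd) (hKn.conj_mem d hd y)
    have hpow : (((d⁻¹ * y * d) * y⁻¹) * y) ^ orderOf y = 1 := by
      have e : ((d⁻¹ * y * d) * y⁻¹) * y = d⁻¹ * y * d⁻¹⁻¹ := by group
      rw [e, conj_pow, pow_orderOf_eq_one]; group
    obtain ⟨e, ⟨he1, he2⟩, hee⟩ := Cfsg.Agent.H06.exists_conj_eq_of_pow_eq_one hg hcop hhmem hpow
    have hee' : e * (d⁻¹ * y * d) * e⁻¹ = y := by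
      have e1 : (d⁻¹ * y * d) * y⁻¹ * y = d⁻¹ * y * d := by group
      rwa [e1] at hee
    refine ⟨d * e⁻¹, ⟨K.mul_mem hd (K.inv_mem he1), ?_⟩, e, ⟨he1, hCN e he1 he2⟩, by group⟩
    show d * e⁻¹ ∈ Subgroup.centralizer ({y} : Set G)
    rw [Subgroup.mem_centralizer_singleton_iff]
    have h3 : y * (d * e⁻¹) = d * e⁻¹ * (e * (d⁻¹ * y * d) * e⁻¹) := by group
    rw [h3, hee']
  refine ⟨part1, ?_⟩
  intro x y hx hy hconj
  obtain ⟨c, hc⟩ := isConj_iff.1 hconj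
  have hcs : c ∈ Subgroup.normalizer (H : Set G) ⊔ Cfsg.pPrimePCore p G := by rw [hFr]; trivial
  obtain ⟨m, hm, u, hu, rfl⟩ := Subgroup.mem_sup_of_normal_right.1 hcs
  obtain ⟨s, hs, k, hk, rfl⟩ := hU u hu
  have hn : m * s ∈ Subgroup.normalizer (H : Set G) := Subgroup.mul_mem _ hm (Subgroup.le_normalizer hs)
  have hxp : ∃ j : ℕ, orderOf x = p ^ j := by
    obtain ⟨j, hj⟩ := P.isPGroup' ⟨x, hx⟩
    have h1 : x ^ p ^ j = 1 := congrArg Subtype.val hj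
    obtain ⟨i, _, hi⟩ := (Nat.dvd_prime_pow hp).1 (orderOf_dvd_of_pow_eq_one h1)
    exact ⟨i, hi⟩
  have hx' : k⁻¹⁻¹ * x * k⁻¹ ∈ Subgroup.normalizer (H : Set G) := by
    have e : k⁻¹⁻¹ * x * k⁻¹ = (m * s)⁻¹ * y * (m * s) := by
      rw [← hc]; group
    rw [e]
    exact Subgroup.mul_mem _ (Subgroup.mul_mem _ (Subgroup.inv_mem _ hn) (hPN hy)) hn
  obtain ⟨d₁, ⟨_, hd₁⟩, d₂, ⟨_, hd₂⟩, hd⟩ := part1 x (hPN hx) hxp k⁻¹ (K.inv_mem hk) hx'
  have hd₂N : d₂ ∈ Subgroup.normalizer (H : Set G) :=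
    Subgroup.centralizer_le_normalizer _ hd₂
  refine ⟨m * s * d₂⁻¹, Subgroup.mul_mem _ hn (Subgroup.inv_mem _ hd₂N), ?_⟩
  have hkk : k = d₂⁻¹ * d₁⁻¹ := by
    have : k⁻¹ = d₁ * d₂ := hd
    have h2 : k = (d₁ * d₂)⁻¹ := by rw [← this, inv_inv]
    rw [h2]; group
  have hd₁x : d₁⁻¹ * x * d₁ = x := by
    have h5 : d₁ * x = x * d₁ := Subgroup.mem_centralizer_singleton_iff.1 hd₁
    calc d₁⁻¹ * x * d₁ = d₁⁻¹ * (x * d₁) := by group
      _ = d₁⁻¹ * (d₁ * x) := by rw [h5]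
      _ = x := by group
  rw [← hc, hkk]
  calc m * s * d₂⁻¹ * x * (m * s * d₂⁻¹)⁻¹ = m * s * d₂⁻¹ * x * d₂ * s⁻¹ * m⁻¹ := by group
    _ = m * s * d₂⁻¹ * (d₁⁻¹ * x * d₁) * d₂ * s⁻¹ * m⁻¹ := by rw [hd₁x]
    _ = _ := by group

end Cfsg.Agent.S1907
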