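import Cfsg.Statements.S1939
import Cfsg.Agent.Lib.H08.Basic
-- import your own Cfsg.Agent.* helpers here

set_option autoImplicit false
open Cfsg

namespace Cfsg.Agent.S1939

open Cfsg.Agent.H08


/-- Let S be a Sylow p-subgroup of the finite group G and a an element of S that is the only G-conjugate of a lying in S. Then every power of a has the same property: for every n, the only G-conjugate of a^n lying in S is a^n. -/
theorem result {G : Type*} [Group G] [Finite G] {p : ℕ} [Fact p.Prime] (S : Sylow p G) (a : G)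
    (haS : a ∈ (S : Subgroup G)) (hwc : ∀ g : G, g * a * g⁻¹ ∈ (S : Subgroup G) → g * a * g⁻¹ = a) (n : ℕ) :
    ∀ g : G, g * a ^ n * g⁻¹ ∈ (S : Subgroup G) → g * a ^ n * g⁻¹ = a ^ n := by
  classical
  intro g hg
  have hcentral : ∀ s ∈ (S : Subgroup G), s * a * s⁻¹ = a := fun s hs =>
    hwc s ((S : Subgroup G).mul_mem ((S : Subgroup G).mul_mem hs haS) ((S : Subgroup G).inv_mem hs))
  obtain ⟨z, hz⟩ : ∃ z, z = g * a ^ n * g⁻¹ := ⟨_, rfl⟩
  obtain ⟨b, hb⟩ : ∃ b, b = g * a * g⁻¹ := ⟨_, rfl⟩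
  rw [← hz] at hg ⊢
  have hzb : z = b ^ n := by rw [hz, hb, conj_pow]
  let C := Subgroup.centralizer ({z} : Set G)
  have hmemC : ∀ x, x * z = z * x → x ∈ C := fun x hx => by
    rw [Subgroup.mem_centralizer_singleton_iff]; exact hx
  have hS' : ((g • S : Sylow p G) : Subgroup G) ≤ C := by
    intro x hx
    have hx' := (mem_sylow_smul_iff S g x).1 hx
    have hxb : x * b * x⁻¹ = b := by
      have := hcentral _ hx'
      rw [hb]
      calc x * (g * a * g⁻¹) * x⁻¹ = g * ((g⁻¹ * x * g) * a * (g⁻¹ * x * g)⁻¹) * g⁻¹ := by group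
        _ = g * a * g⁻¹ := by rw [this]
    apply hmemC
    have hxz : x * z * x⁻¹ = z := by rw [hzb, ← conj_pow, hxb]
    calc x * z = x * z * x⁻¹ * x := by group
      _ = z * x := by rw [hxz]
  have haC : Subgroup.zpowers a ≤ C := by
    rw [Subgroup.zpowers_le]
    apply hmemC
    have := hcentral z hg
    calc a * z = (z * a * z⁻¹) * z := by rw [this]
      _ = z * a := by group
  have hap : IsPGroup p (Subgroup.zpowers a) :=
    S.isPGroup'.to_le ((Subgroup.zpowers_le).2 haS)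
  obtain ⟨c, hcC, hc⟩ := exists_conj_into_sylow_of_le C (g • S) hS' (Subgroup.zpowers a) hap haC
  have h1 := hc a (Subgroup.mem_zpowers a)
  have h2 := (mem_sylow_smul_iff S g _).1 h1
  have h2' : (g⁻¹ * c) * a * (g⁻¹ * c)⁻¹ ∈ S := by
    have e : (g⁻¹ * c) * a * (g⁻¹ * c)⁻¹ = g⁻¹ * (c * a * c⁻¹) * g := by group
    rw [e]; exact h2
  have h3 := hwc (g⁻¹ * c) h2'
  have h4 : c * a * c⁻¹ = b := by
    rw [hb]
    calc c * a * c⁻¹ = g * ((g⁻¹ * c) * a * (g⁻¹ * c)⁻¹) * g⁻¹ := by group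
      _ = g * a * g⁻¹ := by rw [h3]
  have h5 : c * a ^ n * c⁻¹ = z := by rw [hzb, ← h4, conj_pow]
  have hcz : c * z = z * c := (Subgroup.mem_centralizer_singleton_iff).1 hcC
  have h6 : c * z * c⁻¹ = z := by rw [hcz]; group
  have h7 : c * a ^ n * c⁻¹ = c * z * c⁻¹ := by rw [h5, h6]
  exact (mul_left_cancel (mul_right_cancel h7)).symm

end Cfsg.Agent.S1939
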