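import Cfsg.Statements.S1940
-- import your own Cfsg.Agent.* helpers here

set_option autoImplicit false
open Cfsg

namespace Cfsg.Agent.S1940

/-- Let the finite group L act by automorphisms on the finite abelian group M, and let N be an L-invariant subgroup of M such that M/N is a p-group on which L acts trivially (every l • m lies in the coset mN). If every element of M is a product of an element of N and an element fixed by a Sylow p-subgroup T of L, then every element of M is a product of an element of N and an element fixed by all of L. -/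
theorem result {L : Type*} [Group L] [Finite L] {M : Type*} [CommGroup M] [Finite M] [MulDistribMulAction L M]
    {p : ℕ} [Fact p.Prime] (N : Subgroup M) (hN : ∀ (l : L) (m : M), m ∈ N → l • m ∈ N)
    (hquot : IsPGroup p (M ⧸ N)) (htriv : ∀ (l : L) (m : M), (l • m) * m⁻¹ ∈ N) (T : Sylow p L)
    (hT : ∀ m : M, ∃ n ∈ N, ∃ c : M, (∀ t ∈ (T : Subgroup L), t • c = c) ∧ m = n * c) :
    ∀ m : M, ∃ n ∈ N, ∃ c : M, (∀ l : L, l • c = c) ∧ m = n * c := by
  classical
  haveI : Fintype L := Fintype.ofFinite L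
  haveI : Fintype (L ⧸ (T : Subgroup L)) := Fintype.ofFinite _
  let Tr : M → M := fun c => ∏ q : L ⧸ (T : Subgroup L), (q.out : L) • c
  have hrep : ∀ c : M, (∀ t ∈ (T : Subgroup L), t • c = c) → ∀ g g' : L,
      (QuotientGroup.mk g : L ⧸ (T : Subgroup L)) = QuotientGroup.mk g' → g • c = g' • c := by
    intro c hc g g' h
    have h1 : g⁻¹ * g' ∈ (T : Subgroup L) := QuotientGroup.eq.1 h
    calc g • c = g • ((g⁻¹ * g') • c) := by rw [hc _ h1]
      _ = g' • c := by rw [smul_smul]; simp
  have hTrfix : ∀ c : M, (∀ t ∈ (T : Subgroup L), t • c = c) → ∀ l : L, l • Tr c = Tr c := by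
    intro c hc l
    have h1 : l • Tr c = ∏ q : L ⧸ (T : Subgroup L), (l * (q.out : L)) • c := by
      show (MulDistribMulAction.toMonoidHom M l) (∏ q : L ⧸ (T : Subgroup L), (q.out : L) • c) = _
      rw [map_prod]
      refine Finset.prod_congr rfl fun q _ => ?_
      rw [MulDistribMulAction.toMonoidHom_apply, smul_smul]
    have h2 : ∀ q : L ⧸ (T : Subgroup L),
        (l * (q.out : L)) • c = ((MulAction.toPerm l q).out : L) • c := by
      intro q
      apply hrep c hc
      show (QuotientGroup.mk (l * q.out) : L ⧸ (T : Subgroup L)) = QuotientGroup.mk (l • q).out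
      rw [QuotientGroup.out_eq']
      have h7 : (QuotientGroup.mk (l * q.out) : L ⧸ (T : Subgroup L)) = l • (QuotientGroup.mk q.out) := rfl
      rw [h7, QuotientGroup.out_eq']
    rw [h1]
    simp_rw [h2]
    exact Equiv.prod_comp (MulAction.toPerm l) (fun q : L ⧸ (T : Subgroup L) => (q.out : L) • c)
  have hNsmul : ∀ (l : L) (c : M), (QuotientGroup.mk (l • c) : M ⧸ N) = QuotientGroup.mk c := by
    intro l c
    rw [eq_comm, QuotientGroup.eq]
    have := htriv l c
    rwa [mul_comm] at this
  have hTrmod : ∀ c : M, (QuotientGroup.mk (Tr c) : M ⧸ N) = (QuotientGroup.mk c) ^ (T : Subgroup L).index := by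
    intro c
    have h1 : (QuotientGroup.mk (Tr c) : M ⧸ N) = QuotientGroup.mk' N (Tr c) := rfl
    rw [h1, map_prod]
    have h2 : ∀ q : L ⧸ (T : Subgroup L), QuotientGroup.mk' N ((q.out : L) • c) = (QuotientGroup.mk c : M ⧸ N) :=
      fun q => hNsmul _ c
    simp_rw [h2]
    rw [Finset.prod_const, Finset.card_univ, Subgroup.index, Nat.card_eq_fintype_card]
  have hcop : (Nat.card (M ⧸ N)).Coprime (T : Subgroup L).index := by
    obtain ⟨e, he⟩ := hquot.exists_card_eq
    rw [he]
    exact Nat.Coprime.pow_left _ ((Nat.Prime.coprime_iff_not_dvd Fact.out).2 T.not_dvd_index)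
  intro m
  let x : M ⧸ N := (powCoprime hcop).symm (QuotientGroup.mk m)
  have hx : x ^ (T : Subgroup L).index = QuotientGroup.mk m := (powCoprime hcop).apply_symm_apply _
  obtain ⟨m', hm'⟩ := QuotientGroup.mk_surjective x
  obtain ⟨n', hn', c, hc, hm'c⟩ := hT m'
  have h3 : (QuotientGroup.mk m' : M ⧸ N) = QuotientGroup.mk c := by
    rw [QuotientGroup.eq, hm'c]
    have : (n' * c)⁻¹ * c = n'⁻¹ := by
      rw [mul_inv_rev]; simp [mul_comm]
    rw [this]; exact N.inv_mem hn'
  refine ⟨m * (Tr c)⁻¹, ?_, Tr c, hTrfix c hc, by simp⟩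
  have h4 : (QuotientGroup.mk (Tr c) : M ⧸ N) = QuotientGroup.mk m := by
    rw [hTrmod, ← h3, hm', hx]
  have h5 := QuotientGroup.eq.1 h4
  have h6 : (Tr c)⁻¹ * m = m * (Tr c)⁻¹ := mul_comm _ _
  rwa [h6] at h5

end Cfsg.Agent.S1940
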