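import Cfsg.Statements.S1941
import Mathlib
import Cfsg.Agent.Lib.H08.FStarQuot
-- import your own Cfsg.Agent.* helpers here

set_option autoImplicit false
open Cfsg

namespace Cfsg.Agent.S1941

set_option linter.style.haveILetI false

open Cfsg Cfsg.Agent.H05 Cfsg.Agent.H08.Bender Subgroup

theorem cocycle_trivial {G : Type*} [Group G] [Finite G] (T Z : Subgroup G) [hZn : Z.Normal]
    (hZc : ∀ a ∈ Z, ∀ b ∈ Z, a * b = b * a) (hcop : (Nat.card Z).Coprime T.index)
    (c : G → G) (hcZ : ∀ x, c x ∈ Z) (hc : ∀ x y, c (x * y) = y⁻¹ * c x * y * c y)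
    (hT : ∀ t ∈ T, c t = 1) :
    ∃ z ∈ Z, ∀ y, c y = z * (y⁻¹ * z⁻¹ * y) := by
  classical
  letI : CommGroup Z := { (inferInstance : Group Z) with
    mul_comm := fun a b => Subtype.ext (hZc a a.2 b b.2) }
  letI : Fintype (G ⧸ T) := Fintype.ofFinite _
  -- `c` is constant on the relevant cosets
  have hconst : ∀ x t, t ∈ T → c (t * x) = c x := by
    intro x t ht
    rw [hc, hT t ht]
    group
  have hf : ∀ a b : G, a⁻¹ * b ∈ T → (⟨c a⁻¹, hcZ _⟩ : Z) = ⟨c b⁻¹, hcZ _⟩ := by
    intro a b hab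
    apply Subtype.ext
    have h1 : b⁻¹ = (a⁻¹ * b)⁻¹ * a⁻¹ := by group
    show c a⁻¹ = c b⁻¹
    rw [h1, hconst _ _ (T.inv_mem hab)]
  let f : G ⧸ T → Z := Quotient.lift (fun a => (⟨c a⁻¹, hcZ _⟩ : Z)) (by
    intro a b hab
    exact hf a b (QuotientGroup.leftRel_apply.1 hab))
  have hfmk : ∀ a : G, f (QuotientGroup.mk a) = ⟨c a⁻¹, hcZ _⟩ := fun a => rfl
  set D : Z := ∏ q : G ⧸ T, f q with hD
  have hidx : Fintype.card (G ⧸ T) = T.index := by
    rw [Subgroup.index, Nat.card_eq_fintype_card]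
  -- the averaging identity
  have hav : ∀ y : G, (MulAut.conjNormal y⁻¹ D : Z) * (⟨c y, hcZ y⟩ : Z) ^ T.index = D := by
    intro y
    have h1 : ∏ q : G ⧸ T, f (y⁻¹ • q) = D := by
      rw [hD]
      exact Equiv.prod_comp (MulAction.toPerm (y⁻¹ : G)) f
    have h2 : ∀ q : G ⧸ T, f (y⁻¹ • q) = MulAut.conjNormal y⁻¹ (f q) * (⟨c y, hcZ y⟩ : Z) := by
      intro q
      obtain ⟨a, rfl⟩ := QuotientGroup.mk_surjective q
      have e1 : (y⁻¹ • (QuotientGroup.mk a : G ⧸ T)) = QuotientGroup.mk (y⁻¹ * a) := rfl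
      rw [e1, hfmk, hfmk]
      apply Subtype.ext
      simp only [Subgroup.coe_mul, MulAut.conjNormal_apply]
      have e2 : (y⁻¹ * a)⁻¹ = a⁻¹ * y := by group
      rw [e2, hc]
      group
    have h3 : ∏ q : G ⧸ T, f (y⁻¹ • q) = MulAut.conjNormal y⁻¹ D * (⟨c y, hcZ y⟩ : Z) ^ T.index := by
      simp_rw [h2]
      rw [Finset.prod_mul_distrib, ← map_prod, Finset.prod_const, Finset.card_univ, hidx]
    exact h3.symm.trans h1
  -- extract the `n`-th root
  let ρ := powCoprime (G := Z) hcop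
  obtain ⟨z, hz⟩ : ∃ z : Z, z ^ T.index = D := ⟨ρ.symm D, ρ.apply_symm_apply D⟩
  refine ⟨z, z.2, fun y => ?_⟩
  have hinj : Function.Injective (fun w : Z => w ^ T.index) := ρ.injective
  let w : Z := z * (MulAut.conjNormal y⁻¹ z)⁻¹
  have hw : (⟨c y, hcZ y⟩ : Z) = w := by
    apply hinj
    show (⟨c y, hcZ y⟩ : Z) ^ T.index = w ^ T.index
    have h3 := hav y
    have h4 : (w : Z) ^ T.index = D * (MulAut.conjNormal y⁻¹ D)⁻¹ := by
      show (z * (MulAut.conjNormal y⁻¹ z)⁻¹) ^ T.index = _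
      rw [mul_pow, inv_pow, ← map_pow, hz]
    rw [h4, eq_mul_inv_iff_mul_eq, mul_comm]
    exact h3
  have h5 := congrArg Subtype.val hw
  simp only [w, Subgroup.coe_mul, Subgroup.coe_inv, MulAut.conjNormal_apply] at h5
  rw [h5]
  group


/-- Let G be a finite group with no nontrivial normal subgroup of order prime to p, T a Sylow p-subgroup of G and E(G) the layer of G (the subgroup generated by its components). An automorphism of G of p-power order that fixes T and E(G) elementwise is inner. -/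
theorem result {G : Type*} [Group G] [Finite G] {p : ℕ} [Fact p.Prime] (hcore : Cfsg.pPrimeCore p G = ⊥)
    (T : Sylow p G) (α : MulAut G) (hα : ∃ j : ℕ, orderOf α = p ^ j) (hfixT : ∀ x ∈ (T : Subgroup G), α x = x)
    (hfixE : ∀ x ∈ Cfsg.layer G, α x = x) : ∃ g : G, ∀ x : G, α x = g * x * g⁻¹ := by
  classical
  haveI hFn : (fittingSubgroup G).Normal := Cfsg.Agent.H01.fitting_normal
  haveI hSn := Cfsg.Agent.H07.generalizedFitting_normal G
  have hp : p.Prime := Fact.out
  -- `F(G)` is a `p`-group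
  have hFp : IsPGroup p (fittingSubgroup G) := by
    intro y
    obtain ⟨u, v, hu, hv, hy, ⟨k, hk⟩, hc⟩ := exists_pow_decomp (y : G) hp
    have hvF : v ∈ fittingSubgroup G := by
      have : Subgroup.zpowers (y : G) ≤ fittingSubgroup G := (Subgroup.zpowers_le).2 y.2
      exact this hv
    have h1 : ((Subgroup.zpowers v).subgroupOf (fittingSubgroup G)).IsSubnormal :=
      nil_subnormal Cfsg.Agent.H01.fitting_nilpotent _
    have h2 : (Subgroup.zpowers v).IsSubnormal :=
      sn_of_subgroupOf ((Subgroup.zpowers_le).2 hvF) h1 hFn.isSubnormal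
    have h3 := sn_coprime_le_pp h2 (p := p) (by rwa [Nat.card_zpowers])
    rw [hcore] at h3
    have hv1 : v = 1 := Subgroup.mem_bot.1 (h3 (Subgroup.mem_zpowers v))
    rw [hv1, mul_one] at hy
    refine ⟨k, Subtype.ext ?_⟩
    rw [Subgroup.coe_pow, hy, hk]
    rfl
  have hFT : fittingSubgroup G ≤ (T : Subgroup G) :=
    (Cfsg.Agent.H01.le_pCore hFn hFp).trans (Cfsg.Agent.H01.pCore_le_sylow p T)
  -- `α` fixes `F*(G)`
  have hfixS : ∀ s ∈ generalizedFittingSubgroup G, α s = s := by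
    have : generalizedFittingSubgroup G ≤ (α.toMonoidHom).eqLocus (MonoidHom.id G) := by
      apply sup_le
      · intro x hx
        exact hfixE x hx
      · intro x hx
        exact hfixT x (hFT hx)
    exact fun s hs => this hs
  -- the cocycle
  set Z : Subgroup G := fittingSubgroup G ⊓ centralizer (generalizedFittingSubgroup G : Set G) with hZ
  haveI hZn : Z.Normal := inferInstance
  have hZc : ∀ a ∈ Z, ∀ b ∈ Z, a * b = b * a := by
    intro a ha b hb
    exact mem_centralizer_iff.1 hb.2 a (Cfsg.Agent.H07.fitting_le_generalized G ha.1)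
  let c : G → G := fun x => x⁻¹ * α x
  have hcZ : ∀ x, c x ∈ Z := by
    intro x
    have hcomm : ∀ s ∈ generalizedFittingSubgroup G, c x * s = s * c x := by
      intro s hs
      have h1 : x * s * x⁻¹ ∈ generalizedFittingSubgroup G := hSn.conj_mem s hs x
      have h2 := hfixS _ h1
      simp only [map_mul, map_inv, hfixS s hs] at h2
      show x⁻¹ * α x * s = s * (x⁻¹ * α x)
      calc x⁻¹ * α x * s = x⁻¹ * (α x * s * (α x)⁻¹) * α x := by group
        _ = x⁻¹ * (x * s * x⁻¹) * α x := by rw [h2]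
        _ = s * (x⁻¹ * α x) := by group
    refine ⟨mem_fitting_of_comm hcomm, ?_⟩
    show c x ∈ centralizer (generalizedFittingSubgroup G : Set G)
    rw [mem_centralizer_iff]
    exact fun s hs => (hcomm s hs).symm
  have hc : ∀ x y, c (x * y) = y⁻¹ * c x * y * c y := by
    intro x y
    show (x * y)⁻¹ * α (x * y) = y⁻¹ * (x⁻¹ * α x) * y * (y⁻¹ * α y)
    rw [map_mul]
    group
  have hT : ∀ t ∈ (T : Subgroup G), c t = 1 := by
    intro t ht
    show t⁻¹ * α t = 1
    rw [hfixT t ht]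
    group
  have hZp : IsPGroup p Z := hFp.to_le inf_le_left
  have hcop : (Nat.card Z).Coprime (T : Subgroup G).index := by
    obtain ⟨j, hj⟩ := IsPGroup.iff_card.1 hZp
    rw [hj]
    exact Nat.Coprime.pow_left j ((Nat.Prime.coprime_iff_not_dvd hp).2 T.not_dvd_index)
  obtain ⟨z, hzZ, hz⟩ := cocycle_trivial (T : Subgroup G) Z hZc hcop c hcZ hc hT
  refine ⟨z⁻¹, fun x => ?_⟩
  have h1 : x⁻¹ * α x = z * (x⁻¹ * z⁻¹ * x) := hz x
  have h2 : x⁻¹ * z⁻¹ * x ∈ Z := by
    have := hZn.conj_mem z⁻¹ (inv_mem hzZ) x⁻¹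
    simpa using this
  rw [hZc z hzZ _ h2] at h1
  have h3 : α x = x * (x⁻¹ * α x) := by group
  rw [h3, h1]
  group

end Cfsg.Agent.S1941
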