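import Cfsg.Statements.S1944
import Mathlib
import Cfsg.Agent.Lib.H08.Basic
import Cfsg.Agent.Lib.H05.Comp6
-- import your own Cfsg.Agent.* helpers here

set_option autoImplicit false
open Cfsg

namespace Cfsg.Agent.S1944

set_option linter.style.haveILetI false

open Cfsg Cfsg.Agent.H05 Subgroup

/-- The trace (transfer) decomposition of `C_A(S)`. -/
theorem trace_decomp {X : Type*} [Group X] [Finite X] {p : ℕ} [hp : Fact p.Prime] (S A : Subgroup X) [hAn : A.Normal]
    (hAc : ∀ a ∈ A, ∀ b ∈ A, a * b = b * a) (hAp : IsPGroup p A) (hidx : ¬ p ∣ S.index) :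
    ∃ K : Subgroup X, K ≤ A ⊓ centralizer (S : Set X) ∧
      (A ⊓ centralizer (⊤ : Set X) : Subgroup X) ⊓ K = ⊥ ∧
      ∀ b ∈ A ⊓ centralizer (S : Set X), ∃ c ∈ (A ⊓ centralizer (⊤ : Set X) : Subgroup X), ∃ k ∈ K, b = c * k := by
  classical
  letI : CommGroup A := { (inferInstance : Group A) with
    mul_comm := fun a b => Subtype.ext (hAc a a.2 b b.2) }
  letI : Fintype (X ⧸ S) := Fintype.ofFinite _
  set B : Subgroup X := A ⊓ centralizer (S : Set X) with hB
  have hBmem : ∀ b : B, ∀ s ∈ S, s * (b : X) = b * s := fun b s hs =>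
    mem_centralizer_iff.1 b.2.2 s hs
  have hwell : ∀ (b : B) (g g' : X), g⁻¹ * g' ∈ S →
      (⟨g * b * g⁻¹, hAn.conj_mem _ b.2.1 g⟩ : A) = ⟨g' * b * g'⁻¹, hAn.conj_mem _ b.2.1 g'⟩ := by
    intro b g g' hgg
    apply Subtype.ext
    show g * b * g⁻¹ = g' * b * g'⁻¹
    have e : g' = g * (g⁻¹ * g') := by group
    have h1 := hBmem b _ hgg
    rw [e]
    calc g * b * g⁻¹ = g * (b * (g⁻¹ * g')) * (g⁻¹ * g')⁻¹ * g⁻¹ := by group
      _ = g * ((g⁻¹ * g') * b) * (g⁻¹ * g')⁻¹ * g⁻¹ := by rw [h1]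
      _ = _ := by group
  let f : B → X ⧸ S → A := fun b => Quotient.lift (fun g => (⟨g * b * g⁻¹, hAn.conj_mem _ b.2.1 g⟩ : A)) (by
    intro g g' h
    exact hwell b g g' (QuotientGroup.leftRel_apply.1 h))
  have hf : ∀ (b : B) (g : X), f b (QuotientGroup.mk g) = ⟨g * b * g⁻¹, hAn.conj_mem _ b.2.1 g⟩ := fun _ _ => rfl
  have hfmul : ∀ (a b : B) (q : X ⧸ S), f (a * b) q = f a q * f b q := by
    intro a b q
    obtain ⟨g, rfl⟩ := QuotientGroup.mk_surjective q
    rw [hf, hf, hf]
    apply Subtype.ext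
    simp only [Subgroup.coe_mul]
    group
  let τ : B →* A :=
    { toFun := fun b => ∏ q, f b q
      map_one' := by
        apply Finset.prod_eq_one
        intro q _
        obtain ⟨g, rfl⟩ := QuotientGroup.mk_surjective q
        rw [hf]
        apply Subtype.ext
        simp
      map_mul' := by
        intro a b
        simp only [hfmul]
        exact Finset.prod_mul_distrib }
  have hτ : ∀ b : B, τ b = ∏ q, f b q := fun _ => rfl
  -- the image of the trace is fixed
  have hτfix : ∀ (b : B) (y : X), y * (τ b : X) * y⁻¹ = τ b := by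
    intro b y
    have h1 : MulAut.conjNormal y (τ b) = τ b := by
      rw [hτ, map_prod]
      have h2 : ∀ q, MulAut.conjNormal y (f b q) = f b (y • q) := by
        intro q
        obtain ⟨g, rfl⟩ := QuotientGroup.mk_surjective q
        have e1 : (y • (QuotientGroup.mk g : X ⧸ S)) = QuotientGroup.mk (y * g) := rfl
        rw [e1, hf, hf]
        apply Subtype.ext
        simp only [MulAut.conjNormal_apply]
        group
      simp_rw [h2]
      exact Equiv.prod_comp (MulAction.toPerm y) (f b)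
    have h3 := congrArg Subtype.val h1
    simpa [MulAut.conjNormal_apply] using h3
  have hidxcard : Fintype.card (X ⧸ S) = S.index := by
    rw [Subgroup.index, Nat.card_eq_fintype_card]
  have hWB : (A ⊓ centralizer (⊤ : Set X) : Subgroup X) ≤ B := by
    rintro x ⟨hxA, hxc⟩
    refine ⟨hxA, ?_⟩
    show x ∈ centralizer (S : Set X)
    rw [mem_centralizer_iff]
    intro s _
    exact mem_centralizer_iff.1 hxc s trivial
  have hτW : ∀ b : B, (b : X) ∈ (A ⊓ centralizer (⊤ : Set X) : Subgroup X) → τ b = (⟨b, b.2.1⟩ : A) ^ S.index := by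
    intro b hb
    rw [hτ]
    have h1 : ∀ q, f b q = ⟨b, b.2.1⟩ := by
      intro q
      obtain ⟨g, rfl⟩ := QuotientGroup.mk_surjective q
      rw [hf]
      apply Subtype.ext
      have : g * (b : X) = b * g := mem_centralizer_iff.1 hb.2 g trivial
      show g * b * g⁻¹ = b
      rw [this]
      group
    simp_rw [h1]
    rw [Finset.prod_const, Finset.card_univ, hidxcard]
  have hcop : (Nat.card A).Coprime S.index := by
    obtain ⟨j, hj⟩ := IsPGroup.iff_card.1 hAp
    rw [hj]
    exact Nat.Coprime.pow_left j ((Nat.Prime.coprime_iff_not_dvd hp.out).2 hidx)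
  let ρ := powCoprime (G := A) hcop
  have hρinj : ∀ a c : A, a ^ S.index = c ^ S.index → a = c := fun a c h => ρ.injective h
  refine ⟨(τ.ker).map B.subtype, ?_, ?_, ?_⟩
  · rintro _ ⟨k, -, rfl⟩
    exact k.2
  · rw [eq_bot_iff]
    rintro x ⟨hxW, k, hk, rfl⟩
    rw [mem_bot]
    have h1 := hτW k hxW
    rw [MonoidHom.mem_ker.1 hk] at h1
    have h2 : (⟨k, k.2.1⟩ : A) = 1 := hρinj _ _ (by rw [← h1, one_pow])
    exact congrArg Subtype.val h2
  · intro b hb
    let b' : B := ⟨b, hb⟩
    -- root of the trace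
    obtain ⟨c, hc⟩ : ∃ c : A, c ^ S.index = τ b' := ⟨ρ.symm (τ b'), ρ.apply_symm_apply _⟩
    have hcW : (c : X) ∈ (A ⊓ centralizer (⊤ : Set X) : Subgroup X) := by
      refine ⟨c.2, ?_⟩
      show (c : X) ∈ centralizer (⊤ : Set X)
      rw [mem_centralizer_iff]
      intro y _
      have h1 : MulAut.conjNormal y c = c := by
        apply hρinj
        rw [← map_pow, hc]
        apply Subtype.ext
        simpa [MulAut.conjNormal_apply] using hτfix b' y
      have h2 := congrArg Subtype.val h1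
      simp only [MulAut.conjNormal_apply] at h2
      exact (mul_inv_eq_iff_eq_mul.1 h2)
    refine ⟨c, hcW, (c : X)⁻¹ * b, ?_, by group⟩
    have hcB : (c : X) ∈ B := hWB hcW
    let c' : B := ⟨c, hcB⟩
    have h3 : τ c' = c ^ S.index := hτW c' hcW
    refine ⟨c'⁻¹ * b', ?_, rfl⟩
    show c'⁻¹ * b' ∈ τ.ker
    rw [MonoidHom.mem_ker, map_mul, map_inv, h3, hc, inv_mul_cancel]


/-- Let S be a Sylow p-subgroup of the finite group G and suppose that the centre Z(S) lies in O_{p',p}(G). The elements of S each of which is its only G-conjugate in S form a subgroup W of Z(S); W is then a direct factor of Z(S): there is a subgroup K of Z(S) with W ∩ K = 1 and WK = Z(S). -/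
theorem result {G : Type*} [Group G] [Finite G] {p : ℕ} [Fact p.Prime] (S : Sylow p G)
    (hZ : ((S : Subgroup G) ⊓ Subgroup.centralizer ((S : Subgroup G) : Set G)) ≤ Cfsg.pPrimePCore p G) :
    ∃ W K : Subgroup G, (∀ x : G, x ∈ W ↔ (x ∈ (S : Subgroup G) ∧ ∀ g : G, g * x * g⁻¹ ∈ (S : Subgroup G) → g * x * g⁻¹ = x)) ∧
      K ≤ ((S : Subgroup G) ⊓ Subgroup.centralizer ((S : Subgroup G) : Set G)) ∧ W ⊓ K = ⊥ ∧ W ⊔ K = ((S : Subgroup G) ⊓ Subgroup.centralizer ((S : Subgroup G) : Set G)) := by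
  classical
  haveI hOn : (pPrimeCore p G).Normal := pp_normal p
  set O := pPrimeCore p G with hO
  set π := QuotientGroup.mk' O with hπdef
  have hπs : Function.Surjective π := QuotientGroup.mk'_surjective O
  have hπker : ∀ x, π x = 1 ↔ x ∈ O := fun x => by
    rw [hπdef, QuotientGroup.mk'_apply, QuotientGroup.eq_one_iff]
  have hSp : IsPGroup p (S : Subgroup G) := S.isPGroup'
  have hOS : ∀ x ∈ (S : Subgroup G), π x = 1 → x = 1 := by
    intro x hx h1
    exact eq_one_of_coprime_of_pGroup hSp hx (pp_order_coprime p ((hπker x).1 h1))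
  haveI hHn : (pCore p (G ⧸ O)).Normal := Cfsg.Agent.H01.pCore_normal p
  set H := pCore p (G ⧸ O) with hH
  have hHp : IsPGroup p H := Cfsg.Agent.H01.pCore_isPGroup p
  let Sb : Sylow p (G ⧸ O) := S.mapSurjective hπs
  have hSb : (Sb : Subgroup (G ⧸ O)) = (S : Subgroup G).map π := rfl
  have hHS : H ≤ (Sb : Subgroup (G ⧸ O)) := Cfsg.Agent.H01.pCore_le_sylow p Sb
  set A : Subgroup (G ⧸ O) := H ⊓ centralizer (H : Set (G ⧸ O)) with hA
  haveI hAn : A.Normal := inferInstance
  have hAH : A ≤ H := inf_le_left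
  have hAc : ∀ a ∈ A, ∀ b ∈ A, a * b = b * a := fun a ha b hb =>
    (mem_centralizer_iff.1 hb.2 a ha.1)
  have hAp : IsPGroup p A := hHp.to_le hAH
  obtain ⟨Kb, hKb, hWK, hdec⟩ := trace_decomp (Sb : Subgroup (G ⧸ O)) A hAc hAp Sb.not_dvd_index
  set Wb : Subgroup (G ⧸ O) := A ⊓ centralizer (⊤ : Set (G ⧸ O)) with hWb
  -- preimages of `C(S̄)`
  have hcentS : ∀ x ∈ (S : Subgroup G), π x ∈ centralizer ((Sb : Subgroup (G ⧸ O)) : Set (G ⧸ O)) →
      x ∈ (S : Subgroup G) ⊓ centralizer ((S : Subgroup G) : Set G) := by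
    intro x hx hc
    refine ⟨hx, ?_⟩
    show x ∈ centralizer ((S : Subgroup G) : Set G)
    rw [mem_centralizer_iff]
    intro s hs
    have h1 := mem_centralizer_iff.1 hc (π s) ⟨s, hs, rfl⟩
    have h2 : π (s * x * s⁻¹ * x⁻¹) = 1 := by
      simp only [map_mul, map_inv]
      rw [h1]; group
    have h3 := hOS _ (mul_mem (mul_mem (mul_mem hs hx) (inv_mem hs)) (inv_mem hx)) h2
    rw [mul_inv_eq_one, mul_inv_eq_iff_eq_mul] at h3
    exact h3
  have hZB : ∀ z ∈ (S : Subgroup G) ⊓ centralizer ((S : Subgroup G) : Set G), π z ∈ A ⊓ centralizer ((Sb : Subgroup (G ⧸ O)) : Set (G ⧸ O)) := by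
    intro z hz
    have hzc : π z ∈ centralizer ((Sb : Subgroup (G ⧸ O)) : Set (G ⧸ O)) := by
      rw [mem_centralizer_iff]
      rintro _ ⟨s, hs, rfl⟩
      have := mem_centralizer_iff.1 hz.2 s hs
      show π s * π z = π z * π s
      rw [← map_mul, ← map_mul, this]
    have hzH : π z ∈ H := hZ hz
    refine ⟨⟨hzH, ?_⟩, hzc⟩
    show π z ∈ centralizer (H : Set (G ⧸ O))
    rw [mem_centralizer_iff]
    intro h hh
    exact mem_centralizer_iff.1 hzc h (hHS hh)
  refine ⟨(S : Subgroup G) ⊓ Wb.comap π, (S : Subgroup G) ⊓ Kb.comap π, ?_, ?_, ?_, ?_⟩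
  · intro x
    constructor
    · rintro ⟨hxS, hxW⟩
      refine ⟨hxS, fun g hg => ?_⟩
      have h1 : π g * π x = π x * π g := mem_centralizer_iff.1 hxW.2 (π g) trivial
      have h2 : π (g * x * g⁻¹ * x⁻¹) = 1 := by
        simp only [map_mul, map_inv]
        rw [h1]; group
      have h3 := hOS _ (mul_mem hg (inv_mem hxS)) h2
      rwa [mul_inv_eq_one] at h3
    · rintro ⟨hxS, hx⟩
      refine ⟨hxS, ?_⟩
      have hxZ : x ∈ (S : Subgroup G) ⊓ centralizer ((S : Subgroup G) : Set G) := by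
        refine ⟨hxS, ?_⟩
        show x ∈ centralizer ((S : Subgroup G) : Set G)
        rw [mem_centralizer_iff]
        intro s hs
        have h1 := hx s (mul_mem (mul_mem hs hxS) (inv_mem hs))
        rw [mul_inv_eq_iff_eq_mul] at h1
        exact h1
      have hxB := hZB x hxZ
      refine ⟨hxB.1, ?_⟩
      show π x ∈ centralizer (⊤ : Set (G ⧸ O))
      rw [mem_centralizer_iff]
      intro gb _
      obtain ⟨g, rfl⟩ := hπs gb
      set y := g * x * g⁻¹ with hy
      have hyA : π y ∈ A := by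
        have : π y = π g * π x * (π g)⁻¹ := by simp [hy]
        rw [this]
        exact hAn.conj_mem _ hxB.1 _
      have hT : ∀ t, π t ∈ (Sb : Subgroup (G ⧸ O)) → t ∈ (S : Subgroup G) ⊔ O := by
        intro t ht
        obtain ⟨s, hs, hst⟩ := ht
        have h1 : s⁻¹ * t ∈ O := by
          rw [← hπker]
          simp only [map_mul, map_inv]
          rw [← hst]; group
        have e : t = s * (s⁻¹ * t) := by group
        rw [e]
        exact mul_mem (mem_sup_left hs) (mem_sup_right h1)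
      have hyT : y ∈ (S : Subgroup G) ⊔ O := hT y (hHS (hAH hyA))
      have hyp : IsPGroup p (zpowers y) := by
        obtain ⟨k, hk⟩ := hSp ⟨x, hxS⟩
        have hk' : x ^ p ^ k = 1 := by simpa using congrArg Subtype.val hk
        have hyk : y ^ p ^ k = 1 := by
          rw [hy, conj_pow, hk']; group
        rw [IsPGroup.iff_card, Nat.card_zpowers]
        obtain ⟨j, -, hj⟩ := (Nat.dvd_prime_pow (Fact.out : p.Prime)).1 (orderOf_dvd_of_pow_eq_one hyk)
        exact ⟨j, hj⟩
      obtain ⟨u, huT, hu⟩ := Cfsg.Agent.H08.exists_conj_into_sylow_of_le ((S : Subgroup G) ⊔ O) S le_sup_left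
        (zpowers y) hyp ((zpowers_le).2 hyT)
      have h1 := hu y (mem_zpowers y)
      have h2 : (u * g) * x * (u * g)⁻¹ = u * y * u⁻¹ := by rw [hy]; group
      have h3 := hx (u * g) (by rw [h2]; exact h1)
      have huS : π u ∈ (Sb : Subgroup (G ⧸ O)) := by
        obtain ⟨s, hs, o, ho, rfl⟩ := mem_sup_of_normal_right.1 huT
        rw [map_mul, (hπker o).2 ho, mul_one]
        exact ⟨s, hs, rfl⟩
      have h4 : π u * π x = π x * π u := mem_centralizer_iff.1 hxB.2 _ huS
      have h5 : π u * π g * π x * (π g)⁻¹ * (π u)⁻¹ = π x := by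
        have := congrArg π h3
        simpa [mul_assoc] using this
      have h6 : π g * π x * (π g)⁻¹ = π x := by
        have e : π g * π x * (π g)⁻¹ = (π u)⁻¹ * (π u * π g * π x * (π g)⁻¹ * (π u)⁻¹) * π u := by group
        rw [e, h5]
        calc (π u)⁻¹ * π x * π u = (π u)⁻¹ * (π x * π u) := by group
          _ = (π u)⁻¹ * (π u * π x) := by rw [h4]
          _ = π x := by group
      rw [mul_inv_eq_iff_eq_mul] at h6
      exact h6
  · rintro x ⟨hxS, hxK⟩
    exact hcentS x hxS (hKb hxK).2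
  · rw [eq_bot_iff]
    rintro x ⟨⟨hxS, hxW⟩, ⟨_, hxK⟩⟩
    have h1 : π x ∈ Wb ⊓ Kb := ⟨hxW, hxK⟩
    rw [hWK, mem_bot] at h1
    exact hOS x hxS h1
  · apply le_antisymm
    · apply sup_le
      · rintro x ⟨hxS, hxW⟩
        refine hcentS x hxS ?_
        show π x ∈ centralizer ((Sb : Subgroup (G ⧸ O)) : Set (G ⧸ O))
        rw [mem_centralizer_iff]
        intro s _
        exact mem_centralizer_iff.1 hxW.2 s trivial
      · rintro x ⟨hxS, hxK⟩
        exact hcentS x hxS (hKb hxK).2
    · intro z hz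
      obtain ⟨c, hc, k, hk, he⟩ := hdec (π z) (hZB z hz)
      obtain ⟨s, hs, hsc⟩ := hHS (hAH hc.1)
      obtain ⟨t, ht, htk⟩ := hHS (hAH (hKb hk).1)
      have h1 : z = s * t := by
        have h2 := hOS (z⁻¹ * (s * t)) (mul_mem (inv_mem hz.1) (mul_mem hs ht)) (by
          simp only [map_mul, map_inv]
          rw [he]
          have e1 : π s = c := hsc
          have e2 : π t = k := htk
          rw [e1, e2]
          group)
        have := inv_mul_eq_one.1 h2
        exact this
      rw [h1]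
      refine mul_mem (mem_sup_left ⟨hs, ?_⟩) (mem_sup_right ⟨ht, ?_⟩)
      · show π s ∈ Wb
        have e1 : π s = c := hsc
        rwa [e1]
      · show π t ∈ Kb
        have e2 : π t = k := htk
        rwa [e2]

end Cfsg.Agent.S1944
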