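import Cfsg.Statements.S1946
import Cfsg.Agent.Lib.H08.Basic
import Cfsg.Agent.Lib.H19.OmegaFusion
-- import your own Cfsg.Agent.* helpers here

set_option autoImplicit false
open Cfsg

namespace Cfsg.Agent.S1946


open Cfsg.Agent.H19 Cfsg.Agent.H13
open scoped commutatorElement

variable {G : Type*} [Group G] {p : ℕ}

/-- **Main lemma.**  Let `T` be a `p`-subgroup containing `Q`, and `g` a `p'`-element normalizing
`Q`.  If elements of `Q` of exponent `p` (or `4` when `p = 2`) are not fused outside `T` then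
`g` centralizes `Q`. -/
theorem centralizes_of_fusion' [Finite G] [Fact p.Prime] {T Q : Subgroup G} (hT : IsPGroup p T)
    (hQT : Q ≤ T) {g : G}
    (hgN : g ∈ Subgroup.normalizer (Q : Set G)) (hgc : (orderOf g).Coprime p)
    (hfus : ∀ x ∈ Q, (x ^ p = 1 ∨ (p = 2 ∧ x ^ 4 = 1)) → ∀ h : G, h * x * h⁻¹ ∈ T → ∃ u ∈ T, h * x * h⁻¹ = u * x * u⁻¹) :
    g ∈ Subgroup.centralizer (Q : Set G) := by
  have hpp : p.Prime := Fact.out
  have hQ : IsPGroup p Q := hT.to_le hQT
  induction h : Nat.card Q using Nat.strong_induction_on generalizing Q with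
  | _ n ih =>
  subst h
  have IH : ∀ R : Subgroup G, R < Q → g ∈ Subgroup.normalizer (R : Set G) → ∀ x ∈ R, g * x = x * g := by
    intro R hRQ hRN
    have h1 := ih (Nat.card R) (card_lt_of_lt hRQ) (Q := R) (hRQ.le.trans hQT) hRN
      (fun x hx => hfus x (hRQ.le hx)) (hQ.to_le hRQ.le) rfl
    intro x hx
    exact (Subgroup.mem_centralizer_iff.mp h1 x hx).symm
  -- it suffices to show `[g, x] = 1` for all `x`
  have hfin : (∀ x ∈ Q, g * (g * x * g⁻¹ * x⁻¹) = (g * x * g⁻¹ * x⁻¹) * g) → g ∈ Subgroup.centralizer (Q : Set G) := by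
    intro hh
    rw [Subgroup.mem_centralizer_iff]
    intro x hx
    have h1 : g * x * g⁻¹ * x⁻¹ ∈ Q := Q.mul_mem ((Subgroup.mem_normalizer_iff.mp hgN x).mp hx) (Q.inv_mem hx)
    have h2 := eq_one_of_fixed_comm hQ hgc h1 (hh x hx)
    have h3 : g * x * g⁻¹ = x := by simpa using congrArg (· * x) h2
    have h4 : g * x = x * g := by simpa using congrArg (· * g) h3
    exact h4.symm
  apply hfin
  set Zg : Subgroup G := Subgroup.zpowers g with hZg
  have hgZ : g ∈ Zg := Subgroup.mem_zpowers g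
  have hZN : Zg ≤ Subgroup.normalizer (Q : Set G) := by
    rw [hZg, Subgroup.zpowers_le]
    exact hgN
  set R : Subgroup G := ⁅Q, Zg⁆ with hR
  have hRQ : R ≤ Q := commutator_le_left_of_le_normalizer hZN
  have hmemR : ∀ x ∈ Q, g * x * g⁻¹ * x⁻¹ ∈ R := by
    intro x hx
    rw [hR, Subgroup.commutator_comm]
    exact Subgroup.commutator_mem_commutator hgZ hx
  have hRgN : g ∈ Subgroup.normalizer (R : Set G) := by
    have h1 : Zg ≤ Subgroup.normalizer (R : Set G) := by
      rw [hR, Subgroup.commutator_comm]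
      exact H05.comm_le_normalizer_left Zg Q
    exact h1 hgZ
  by_cases hRlt : R = Q
  swap
  · have hlt : R < Q := lt_of_le_of_ne hRQ hRlt
    intro x hx
    exact IH R hlt hRgN _ (hmemR x hx)
  -- now `Q = [Q, g]`
  by_cases hQ1 : Q = ⊥
  · intro x hx
    rw [hQ1, Subgroup.mem_bot] at hx
    subst hx
    simp
  exfalso
  set D : Subgroup G := (frattini Q).map Q.subtype with hD
  have hDQ : D ≤ Q := Subgroup.map_subtype_le _
  have hDN : g ∈ Subgroup.normalizer (D : Set G) := normalizer_le_normalizer_map_of_characteristic Q (frattini Q) hgN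
  have hDlt : D < Q := by
    refine lt_of_le_of_ne hDQ ?_
    intro hDeq
    haveI : Nontrivial Q := (Subgroup.nontrivial_iff_ne_bot _).mpr hQ1
    obtain ⟨M, hM⟩ : ∃ M : Subgroup Q, IsCoatom M := by
      rcases eq_top_or_exists_le_coatom (⊥ : Subgroup Q) with h0 | ⟨M, hM, -⟩
      · exact absurd h0 bot_ne_top
      · exact ⟨M, hM⟩
    apply hM.1
    rw [eq_top_iff]
    intro x _
    have h1 : (x : G) ∈ D := by rw [hDeq]; exact x.2
    obtain ⟨y, hy, hyx⟩ := h1
    have h2 : y = x := Subtype.ext hyx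
    rw [← h2]
    exact H01.mem_frattini_iff.mp hy M hM
  have hgD := IH D hDlt hDN
  have hpowD : ∀ x ∈ Q, x ^ p ∈ D := by
    intro x hx
    exact ⟨⟨x, hx⟩ ^ p, H01.pow_mem_frattini_of_isPGroup hQ _, by simp⟩
  have hcommD : ∀ x ∈ Q, ∀ y ∈ Q, y * x * y⁻¹ * x⁻¹ ∈ D := by
    intro x hx y hy
    refine ⟨⁅(⟨y, hy⟩ : Q), (⟨x, hx⟩ : Q)⁆, ?_, by simp [commutatorElement_def]⟩
    apply H01.commutator_le_frattini_of_isPGroup hQ
    exact Subgroup.commutator_mem_commutator trivial trivial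
  -- `D` is central in `Q`
  have hDcentral : ∀ x ∈ Q, ∀ y ∈ D, x * y = y * x := by
    have h1 : ⁅⁅Zg, D⁆, Q⁆ = ⊥ := by
      have : ⁅Zg, D⁆ = ⊥ := by
        rw [eq_bot_iff, Subgroup.commutator_le]
        intro z hz y hy
        obtain ⟨k, rfl⟩ := Subgroup.mem_zpowers_iff.mp hz
        have h2 : Commute g y := hgD y hy
        rw [Subgroup.mem_bot, commutatorElement_eq_one_iff_commute]
        exact h2.zpow_left k
      rw [this, Subgroup.commutator_bot_left]
    have h2 : ⁅⁅D, Q⁆, Zg⁆ = ⊥ := by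
      have hDQn : Q ≤ Subgroup.normalizer (D : Set G) := by
        intro x hx
        exact normalizer_le_normalizer_map_of_characteristic Q (frattini Q) (Subgroup.le_normalizer hx)
      have h3 : ⁅D, Q⁆ ≤ D := commutator_le_left_of_le_normalizer hDQn
      rw [eq_bot_iff, Subgroup.commutator_le]
      intro y hy z hz
      obtain ⟨k, rfl⟩ := Subgroup.mem_zpowers_iff.mp hz
      have h4 : Commute g y := hgD y (h3 hy)
      rw [Subgroup.mem_bot, commutatorElement_eq_one_iff_commute]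
      exact (h4.zpow_left k).symm
    have h3 : ⁅⁅Q, Zg⁆, D⁆ = ⊥ := Subgroup.commutator_commutator_eq_bot_of_rotate h1 h2
    rw [← hR, hRlt] at h3
    intro x hx y hy
    exact H05.comm_bot_iff.mp h3 x hx y hy
  -- the exponent
  have hmulpow : ∀ x ∈ Q, ∀ y ∈ Q, (x * y) ^ p = x ^ p * y ^ p * (y * x * y⁻¹ * x⁻¹) ^ p.choose 2 ∧
      (y * x * y⁻¹ * x⁻¹) ^ p = 1 := by
    intro x hx y hy
    set c := y * x * y⁻¹ * x⁻¹ with hc
    have hcD := hcommD x hx y hy
    have h1 : y * x = c * x * y := by rw [hc]; group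
    have hcx : Commute c x := (hDcentral x hx c hcD).symm
    have hcy : Commute c y := (hDcentral y hy c hcD).symm
    have h2 := mul_pow_of_central h1 hcx hcy p
    refine ⟨h2.2, ?_⟩
    have h4 := h2.1
    have h5 : y ^ p * x = x * y ^ p := (hDcentral x hx _ (hpowD y hy)).symm
    rw [h5] at h4
    have h6 : x * y ^ p = c ^ p * (x * y ^ p) := by rw [← mul_assoc]; exact h4
    exact (mul_eq_right.mp h6.symm)
  -- a power map which is a homomorphism on `Q`
  obtain ⟨m, hm1, hm2, hm3⟩ : ∃ m : ℕ, (∀ x ∈ Q, x ^ m ∈ D) ∧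
      (∀ x ∈ Q, ∀ y ∈ Q, (x * y) ^ m = x ^ m * y ^ m) ∧ (∀ x : G, x ^ m = 1 → (x ^ p = 1 ∨ (p = 2 ∧ x ^ 4 = 1))) := by
    by_cases hp2 : p = 2
    · subst hp2
      refine ⟨4, ?_, ?_, fun x hx => Or.inr ⟨rfl, hx⟩⟩
      · intro x hx
        have : x ^ 4 = (x ^ 2) ^ 2 := by rw [← pow_mul]
        rw [this]
        exact D.pow_mem (hpowD x hx) 2
      · intro x hx y hy
        set c := y * x * y⁻¹ * x⁻¹ with hc
        have hcD := hcommD x hx y hy
        have h1 : y * x = c * x * y := by rw [hc]; group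
        have hcx : Commute c x := (hDcentral x hx c hcD).symm
        have hcy : Commute c y := (hDcentral y hy c hcD).symm
        have h2 := (mul_pow_of_central h1 hcx hcy 4).2
        have h3 := (hmulpow x hx y hy).2
        have h4 : (4 : ℕ).choose 2 = 2 * 3 := by decide
        rw [h2, h4, pow_mul, h3, one_pow, mul_one]
    · refine ⟨p, hpowD, ?_, fun x hx => Or.inl hx⟩
      intro x hx y hy
      obtain ⟨h2, h3⟩ := hmulpow x hx y hy
      have hdvd : p ∣ p.choose 2 := hpp.dvd_choose_self (by norm_num) (lt_of_le_of_ne hpp.two_le (Ne.symm hp2))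
      obtain ⟨k, hk⟩ := hdvd
      rw [h2, hk, pow_mul, h3, one_pow, mul_one]
  -- all elements of `Q` have exponent `m`
  have hpowinv : ∀ x ∈ Q, (x⁻¹) ^ m = (x ^ m)⁻¹ := fun x _ => inv_pow x m
  let K : Subgroup G :=
    { carrier := {x | x ∈ Q ∧ x ^ m = 1}
      mul_mem' := by
        rintro a b ⟨ha, ha1⟩ ⟨hb, hb1⟩
        refine ⟨Q.mul_mem ha hb, ?_⟩
        rw [hm2 a ha b hb, ha1, hb1, one_mul]
      one_mem' := ⟨Q.one_mem, one_pow m⟩
      inv_mem' := by
        rintro a ⟨ha, ha1⟩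
        refine ⟨Q.inv_mem ha, ?_⟩
        rw [inv_pow, ha1, inv_one] }
  have hRK : R ≤ K := by
    rw [hR, Subgroup.commutator_le]
    intro x hx z hz
    obtain ⟨k, rfl⟩ := Subgroup.mem_zpowers_iff.mp hz
    have hgk : g ^ k ∈ Subgroup.normalizer (Q : Set G) := Subgroup.zpow_mem _ hgN k
    have hconj : g ^ k * x⁻¹ * (g ^ k)⁻¹ ∈ Q := (Subgroup.mem_normalizer_iff.mp hgk _).mp (Q.inv_mem hx)
    refine ⟨?_, ?_⟩
    · rw [commutatorElement_def]
      have e : x * g ^ k * x⁻¹ * (g ^ k)⁻¹ = x * (g ^ k * x⁻¹ * (g ^ k)⁻¹) := by group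
      rw [e]
      exact Q.mul_mem hx hconj
    · rw [commutatorElement_def]
      have e : x * g ^ k * x⁻¹ * (g ^ k)⁻¹ = x * (g ^ k * x⁻¹ * (g ^ k)⁻¹) := by group
      rw [e, hm2 x hx _ hconj, conj_pow, inv_pow]
      have hc : Commute (g ^ k) (x ^ m)⁻¹ := by
        have : Commute g (x ^ m)⁻¹ := (show Commute g (x ^ m) from hgD _ (hm1 x hx)).inv_right
        exact this.zpow_left k
      rw [hc.eq, mul_inv_cancel_right, mul_inv_cancel]
  have hexp : ∀ x ∈ Q, x ^ m = 1 := fun x hx => (hRK (by rw [hRlt]; exact hx)).2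
  -- now use the fusion hypothesis
  have hQ' : Q.subgroupOf T ≠ ⊥ := by
    intro hbot
    apply hQ1
    rw [eq_bot_iff]
    intro x hx
    have : (⟨x, hQT hx⟩ : T) ∈ Q.subgroupOf T := hx
    rw [hbot, Subgroup.mem_bot] at this
    have := congrArg Subtype.val this
    simpa using this
  haveI : Group.IsNilpotent T := hT.isNilpotent
  obtain ⟨N, hNn, hNQ, hNc⟩ := exists_normal_central_image (Q.subgroupOf T) hQ'
  let M : Subgroup G := N.map T.subtype
  have hRM : R ≤ M := by
    rw [hR, Subgroup.commutator_le]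
    intro x hx z hz
    obtain ⟨k, rfl⟩ := Subgroup.mem_zpowers_iff.mp hz
    have hgkN : g ^ k ∈ Subgroup.normalizer (Q : Set G) := Subgroup.zpow_mem _ hgN k
    obtain ⟨u, hu, hu2⟩ := hfus x⁻¹ (Q.inv_mem hx) (hm3 _ (hexp _ (Q.inv_mem hx))) (g ^ k)
      (hQT ((Subgroup.mem_normalizer_iff.mp hgkN _).mp (Q.inv_mem hx)))
    rw [commutatorElement_def]
    have e : x * g ^ k * x⁻¹ * (g ^ k)⁻¹ = x * u * x⁻¹ * u⁻¹ := by
      have : x * g ^ k * x⁻¹ * (g ^ k)⁻¹ = x * (g ^ k * x⁻¹ * (g ^ k)⁻¹) := by group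
      rw [this, hu2]; group
    rw [e]
    have h1 := hNc (⟨x, hQT hx⟩ : T) hx ⟨u, hu⟩
    exact ⟨_, h1, rfl⟩
  apply hNQ
  intro x hx
  have h2 : (x : G) ∈ M := hRM (by rw [hRlt]; exact hx)
  obtain ⟨y, hy, hyx⟩ := h2
  have : y = x := Subtype.ext hyx
  rw [← this]; exact hy




/-- Let P be a Sylow p-subgroup of the finite group G. Then G has a normal p-complement if and only if P controls the fusion of its elements of order dividing p (dividing 4 when p = 2): whenever such an element a of P has a G-conjugate g a g⁻¹ in P, that conjugate is already x a x⁻¹ for some x in P. -/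
theorem result {G : Type*} [Group G] [Finite G] {p : ℕ} [Fact p.Prime] (P : Sylow p G) :
    Cfsg.HasNormalPComplement p G ↔
      ∀ a ∈ (P : Subgroup G), (a ^ p = 1 ∨ (p = 2 ∧ a ^ 4 = 1)) → ∀ g : G, g * a * g⁻¹ ∈ (P : Subgroup G) →
        ∃ x ∈ (P : Subgroup G), g * a * g⁻¹ = x * a * x⁻¹ := by
  have hpp : p.Prime := Fact.out
  constructor
  · intro h
    obtain ⟨P₀, N, hN, hc⟩ := h
    have hcard : Nat.card N * Nat.card (P₀ : Subgroup G) = Nat.card G := hc.card_mul
    have hNc : (Nat.card N).Coprime p := by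
      rw [Nat.coprime_comm, Nat.Prime.coprime_iff_not_dvd hpp]
      intro hd
      have hSyl := P₀.not_dvd_index
      have h1 : (P₀ : Subgroup G).index = Nat.card N := hc.index_eq_card
      exact hSyl (h1 ▸ hd)
    obtain ⟨j, hj⟩ := IsPGroup.iff_card.mp P₀.2
    have hidx : N.index = p ^ j := by
      rw [← hj]
      exact hc.symm.index_eq_card
    have hNP : ∀ x ∈ N, x ∈ (P : Subgroup G) → x = 1 := by
      intro x hx hx2
      obtain ⟨k, hk⟩ := IsPGroup.iff_card.mp P.2
      have h1 : orderOf x ∣ Nat.card N := by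
        have := orderOf_dvd_natCard (⟨x, hx⟩ : N)
        simpa [Subgroup.orderOf_mk] using this
      have h2 : orderOf x ∣ p ^ k := by
        have := orderOf_dvd_natCard (⟨x, hx2⟩ : (P : Subgroup G))
        rw [hk] at this
        simpa [Subgroup.orderOf_mk] using this
      exact orderOf_eq_one_iff.mp (Nat.Coprime.eq_one_of_dvd (Nat.Coprime.coprime_dvd_left h1 (Nat.Coprime.pow_right k hNc)) h2)
    intro a ha _ g hg
    obtain ⟨t, ht, c, hcN, rfl⟩ := exists_sylow_mul_of_index_pow P N hidx g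
    refine ⟨t, ht, ?_⟩
    have h1 : c * a * c⁻¹ ∈ (P : Subgroup G) := by
      have : c * a * c⁻¹ = t⁻¹ * (t * c * a * (t * c)⁻¹) * t := by group
      rw [this]
      exact (P : Subgroup G).mul_mem ((P : Subgroup G).mul_mem ((P : Subgroup G).inv_mem ht) hg) ht
    have h2 : c * a * c⁻¹ * a⁻¹ ∈ N := by
      have : c * a * c⁻¹ * a⁻¹ = c * (a * c⁻¹ * a⁻¹) := by group
      rw [this]
      exact N.mul_mem hcN (hN.conj_mem _ (N.inv_mem hcN) a)
    have h3 : c * a * c⁻¹ * a⁻¹ ∈ (P : Subgroup G) := (P : Subgroup G).mul_mem h1 ((P : Subgroup G).inv_mem ha)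
    have h4 := hNP _ h2 h3
    have h5 : c * a * c⁻¹ = a := by simpa using congrArg (· * a) h4
    have : t * c * a * (t * c)⁻¹ = t * (c * a * c⁻¹) * t⁻¹ := by group
    rw [this, h5]
  · intro hf
    apply hasNormalPComplement_of_frobCond
    intro Q hQ g hgN hgc
    obtain ⟨T, hQT⟩ := hQ.exists_le_sylow
    obtain ⟨t, ht⟩ := MulAction.exists_smul_eq G T P
    set Q' : Subgroup G := Q.map (MulAut.conj t).toMonoidHom with hQ'
    have hmem : ∀ x, x ∈ Q' ↔ t⁻¹ * x * t ∈ Q := by
      intro x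
      constructor
      · rintro ⟨y, hy, rfl⟩
        have : t⁻¹ * ((MulAut.conj t).toMonoidHom y) * t = y := by
          simp [MulAut.conj_apply, mul_assoc]
        rw [this]; exact hy
      · intro h
        refine ⟨_, h, ?_⟩
        simp [MulAut.conj_apply, mul_assoc]
    have hQ'P : Q' ≤ (P : Subgroup G) := by
      intro x hx
      rw [← ht]
      show x ∈ (t • T : Sylow p G)
      rw [H08.mem_sylow_smul_iff]
      exact hQT ((hmem x).mp hx)
    have hg' : t * g * t⁻¹ ∈ Subgroup.normalizer (Q' : Set G) := by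
      rw [Subgroup.mem_normalizer_iff]
      intro x
      rw [hmem, hmem]
      have e : t⁻¹ * (t * g * t⁻¹ * x * (t * g * t⁻¹)⁻¹) * t = g * (t⁻¹ * x * t) * g⁻¹ := by group
      rw [e]
      exact Subgroup.mem_normalizer_iff.mp hgN _
    have hcop : (orderOf (t * g * t⁻¹)).Coprime p := by
      have : orderOf (t * g * t⁻¹) = orderOf g := by
        have := orderOf_injective (MulAut.conj t).toMonoidHom (MulAut.conj t).injective g
        simpa [MulAut.conj_apply] using this
      rw [this]; exact hgc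
    have hfin := centralizes_of_fusion' (T := (P : Subgroup G)) P.2 hQ'P hg' hcop
      (fun x hx hs h hh => hf x (hQ'P hx) hs h hh)
    rw [Subgroup.mem_centralizer_iff] at hfin ⊢
    intro x hx
    have h1 : t * x * t⁻¹ ∈ Q' := (hmem _).mpr (by simpa [mul_assoc] using hx)
    have h2 := hfin _ h1
    have h3 : t * (x * g) * t⁻¹ = t * (g * x) * t⁻¹ := by
      calc t * (x * g) * t⁻¹ = t * x * t⁻¹ * (t * g * t⁻¹) := by group
        _ = t * g * t⁻¹ * (t * x * t⁻¹) := h2
        _ = t * (g * x) * t⁻¹ := by group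
    simpa using h3

end Cfsg.Agent.S1946
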