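import Cfsg.Statements.S1947
import Cfsg.Agent.Lib.H13.FrobTwo

set_option autoImplicit false
open Cfsg

namespace Cfsg.Agent.S1947

open Cfsg.Agent.H13

theorem result {G : Type*} [Group G] [Finite G] {p : ℕ} [Fact p.Prime] (n : ℕ)
    (h : ∀ a : G, (a ^ p = 1 ∨ (p = 2 ∧ a ^ 4 = 1)) → a ∈ Subgroup.upperCentralSeries G n) : Cfsg.HasNormalPComplement p G := by
  apply hasNormalPComplement_of_frobCond
  intro Q hQ g hg hgc
  by_cases hp2 : p = 2
  · subst hp2
    apply centralizes_of_centralizes_omega_two hQ hg hgc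
    intro x hx hx4
    exact commute_of_mem_upperCentralSeries (p := 2) n (h x (Or.inr ⟨rfl, hx4⟩)) ⟨2, by simpa using hx4⟩ hgc
  · apply centralizes_of_centralizes_omega hp2 hQ hg hgc
    intro x hx hxp
    exact commute_of_mem_upperCentralSeries n (h x (Or.inl hxp)) ⟨1, by simpa using hxp⟩ hgc

end Cfsg.Agent.S1947
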