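import Cfsg.Statements.S1948
import Mathlib
import Cfsg.Agent.Lib.H08.PCoreL
import Cfsg.Agent.Lib.H08.Sylow2
import Cfsg.Agent.Lib.H18.Syl
import Cfsg.Agent.Lib.H01.Fitting
-- import your own Cfsg.Agent.* helpers here

set_option autoImplicit false
open Cfsg

namespace Cfsg.Agent.S1948

open Cfsg.Agent.H08
set_option linter.style.haveILetI false


/-- Let S be a Sylow p-subgroup of the finite group G. Then G = N_G(S)·O_{p'}(G) if and only if G is p-constrained and N_G(S) controls fusion in S, in the sense that whenever a subgroup Q of S has a conjugate g Q g⁻¹ inside S, the element g is a product n c with n normalizing S and c centralizing Q. -/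
theorem result {G : Type*} [Group G] [Finite G] {p : ℕ} [Fact p.Prime] (S : Sylow p G) :
    Subgroup.normalizer ((S : Subgroup G) : Set G) ⊔ Cfsg.pPrimeCore p G = ⊤ ↔
      (Cfsg.IsPConstrained p G ∧
        ∀ Q : Subgroup G, Q ≤ (S : Subgroup G) → ∀ g : G, Q.map (MulAut.conj g).toMonoidHom ≤ (S : Subgroup G) →
          ∃ n ∈ Subgroup.normalizer ((S : Subgroup G) : Set G), ∃ c ∈ Subgroup.centralizer (Q : Set G), g = n * c) := by
  classical
  haveI hKn : (Cfsg.pPrimeCore p G).Normal := inferInstance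
  have hKcop := Cfsg.Agent.H06.coprime_card_pPrimeCore (G := G) p
  -- S ⊓ K = ⊥
  have hSK : ∀ x, x ∈ (S : Subgroup G) → x ∈ Cfsg.pPrimeCore p G → x = 1 := by
    intro x hx hx'
    obtain ⟨k, hk⟩ := S.isPGroup'.exists_card_eq
    have hdis : Disjoint (S : Subgroup G) (Cfsg.pPrimeCore p G) := by
      apply Subgroup.disjoint_of_coprime_natCard
      rw [hk]
      exact (Nat.Coprime.pow_right k hKcop).symm
    exact Subgroup.disjoint_def.1 hdis hx hx'
  constructor
  · intro h
    have hmemsup : ∀ g : G, ∃ n ∈ Subgroup.normalizer ((S : Subgroup G) : Set G),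
        ∃ k ∈ Cfsg.pPrimeCore p G, g = n * k := fun g => by
      have : g ∈ Subgroup.normalizer ((S : Subgroup G) : Set G) ⊔ Cfsg.pPrimeCore p G := by
        rw [h]; trivial
      obtain ⟨n, hn, k, hk, rfl⟩ := Subgroup.mem_sup_of_normal_right.1 this
      exact ⟨n, hn, k, hk, rfl⟩
    refine ⟨?_, ?_⟩
    · -- constrained
      let f := QuotientGroup.mk' (Cfsg.pPrimeCore p G)
      have hf : Function.Surjective f := QuotientGroup.mk'_surjective _
      let Sb : Subgroup (G ⧸ Cfsg.pPrimeCore p G) := (S : Subgroup G).map f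
      have hSbn : Sb.Normal := by
        refine ⟨?_⟩
        rintro _ ⟨s, hs, rfl⟩ gb
        obtain ⟨g, rfl⟩ := hf gb
        obtain ⟨n, hn, k, hk, rfl⟩ := hmemsup g
        have hk1 : f k = 1 := by simpa [f] using hk
        refine ⟨n * s * n⁻¹, (Subgroup.mem_normalizer_iff.1 hn s).1 hs, ?_⟩
        simp [hk1]
      have hSbp : IsPGroup p Sb := S.isPGroup'.map f
      have hSb_le : Sb ≤ Cfsg.pCore p (G ⧸ Cfsg.pPrimeCore p G) := Cfsg.Agent.H01.le_pCore hSbn hSbp
      have hSU : (S : Subgroup G) ≤ Cfsg.pPrimePCore p G := by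
        intro s hs
        exact hSb_le ⟨s, hs, rfl⟩
      -- C(S) ≤ U
      have hCS : Subgroup.centralizer ((S : Subgroup G) : Set G) ≤ Cfsg.pPrimePCore p G := by
        intro x hx
        -- centralizer of Sb
        haveI : Sb.Normal := hSbn
        let Cb : Subgroup (G ⧸ Cfsg.pPrimeCore p G) := Subgroup.centralizer (Sb : Set _)
        have hCbn : Cb.Normal := Subgroup.normal_centralizer
        have hSbSyl : ¬ p ∣ Sb.index := (S.mapSurjective hf).not_dvd_index
        have hidx : ((Cb ⊓ Sb).relIndex Cb).Coprime p := by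
          rw [Subgroup.inf_relIndex_left]
          apply Nat.Coprime.symm
          rw [Nat.Prime.coprime_iff_not_dvd Fact.out]
          intro hd
          exact hSbSyl (hd.trans (Subgroup.relIndex_dvd_index_of_normal Sb Cb))
        have heq := eq_of_central_sylow (pPrimeCore_quotient_eq_bot p) Cb (Cb ⊓ Sb) hCbn inf_le_left
          (hSbp.to_le inf_le_right) (fun z hz c hc => by
            exact ((Subgroup.mem_centralizer_iff.1 hc) z hz.2)) hidx
        have hfx : f x ∈ Cb := by
          rw [Subgroup.mem_centralizer_iff]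
          rintro _ ⟨s, hs, rfl⟩
          have := Subgroup.mem_centralizer_iff.1 hx s hs
          rw [← map_mul, ← map_mul, this]
        rw [heq] at hfx
        exact hSb_le hfx.2
      intro P
      obtain ⟨u, hu⟩ := MulAction.exists_smul_eq (Cfsg.pPrimePCore p G) (S.subtype hSU) P
      intro y hy
      have hUn : (Cfsg.pPrimePCore p G).Normal := by
        exact (Cfsg.Agent.H01.pCore_normal p).comap _
      have h1 : (u : G)⁻¹ * y * u ∈ Subgroup.centralizer ((S : Subgroup G) : Set G) := by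
        rw [Subgroup.mem_centralizer_iff]
        intro s hs
        have hsU : (⟨s, hSU hs⟩ : Cfsg.pPrimePCore p G) ∈ ((S.subtype hSU : Sylow p _) : Subgroup _) := by
          rw [Sylow.coe_subtype, Subgroup.mem_subgroupOf]; exact hs
        have h2 : (u * ⟨s, hSU hs⟩ * u⁻¹ : Cfsg.pPrimePCore p G) ∈ (P : Subgroup _) := by
          rw [← hu]
          exact conj_mem_sylow_smul _ _ _ hsU
        have h3 := Subgroup.mem_centralizer_iff.1 hy _ ⟨_, h2, rfl⟩
        simp only [Subgroup.subtype_apply, Subgroup.coe_mul, Subgroup.coe_inv] at h3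
        calc s * ((u : G)⁻¹ * y * u) = (u : G)⁻¹ * ((u : G) * s * (u : G)⁻¹ * y) * u := by group
          _ = (u : G)⁻¹ * (y * ((u : G) * s * (u : G)⁻¹)) * u := by rw [h3]
          _ = (u : G)⁻¹ * y * u * s := by group
      have h4 := hCS h1
      have e : y = u * ((u : G)⁻¹ * y * u) * (u : G)⁻¹ := by group
      rw [e]
      exact Subgroup.mul_mem _ (Subgroup.mul_mem _ u.2 h4) (Subgroup.inv_mem _ u.2)
    · -- fusion
      intro Q hQ g hg
      obtain ⟨n, hn, k, hk, rfl⟩ := hmemsup g
      refine ⟨n, hn, k, ?_, rfl⟩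
      rw [Subgroup.mem_centralizer_iff]
      intro x hx
      have h1 : n * k * x * (n * k)⁻¹ ∈ (S : Subgroup G) := hg ⟨x, hx, rfl⟩
      have h2 : k * x * k⁻¹ ∈ (S : Subgroup G) := by
        have h3 := (Subgroup.mem_normalizer_iff.1 hn (k * x * k⁻¹)).2
        apply h3
        have e : n * (k * x * k⁻¹) * n⁻¹ = n * k * x * (n * k)⁻¹ := by group
        rw [e]; exact h1
      have h3 : k * x * k⁻¹ * x⁻¹ = 1 := by
        apply hSK
        · exact Subgroup.mul_mem _ h2 (Subgroup.inv_mem _ (hQ hx))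
        · have e : k * x * k⁻¹ * x⁻¹ = k * (x * k⁻¹ * x⁻¹) := by group
          rw [e]
          exact Subgroup.mul_mem _ hk (hKn.conj_mem _ (Subgroup.inv_mem _ hk) x)
      have h4 : k * x * k⁻¹ = x := mul_inv_eq_one.1 h3
      have h5 : k * x = x * k := mul_inv_eq_iff_eq_mul.1 h4
      exact h5.symm
  · rintro ⟨hcons, hfus⟩
    haveI hUn : (Cfsg.pPrimePCore p G).Normal := (Cfsg.Agent.H01.pCore_normal p).comap _
    have hFr := Cfsg.Agent.H18.frattini_inf S (Cfsg.pPrimePCore p G)
    let f := QuotientGroup.mk' (Cfsg.pPrimeCore p G)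
    have hf : Function.Surjective f := QuotientGroup.mk'_surjective _
    have hKU : Cfsg.pPrimeCore p G ≤ Cfsg.pPrimePCore p G := by
      intro x hx
      have h1 : f x = 1 := by simpa [f] using hx
      show f x ∈ Cfsg.pCore p (G ⧸ Cfsg.pPrimeCore p G)
      rw [h1]; exact one_mem _
    have hU : ∀ u ∈ Cfsg.pPrimePCore p G, ∃ s ∈ (S : Subgroup G) ⊓ Cfsg.pPrimePCore p G,
        ∃ k ∈ Cfsg.pPrimeCore p G, u = s * k := by
      intro u hu
      have h1 : f u ∈ ((S.mapSurjective hf : Sylow p _) : Subgroup _) :=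
        Cfsg.Agent.H01.pCore_le_sylow p _ hu
      rw [Sylow.coe_mapSurjective] at h1
      obtain ⟨s, hs, hsu⟩ := h1
      have hk : s⁻¹ * u ∈ Cfsg.pPrimeCore p G := QuotientGroup.eq.1 hsu
      have hsU : s ∈ Cfsg.pPrimePCore p G := by
        have : s = u * (s⁻¹ * u)⁻¹ := by group
        rw [this]
        exact Subgroup.mul_mem _ hu (Subgroup.inv_mem _ (hKU hk))
      exact ⟨s, ⟨hs, hsU⟩, _, hk, by group⟩
    have hCH : Subgroup.centralizer (((S : Subgroup G) ⊓ Cfsg.pPrimePCore p G : Subgroup G) : Set G)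
        ≤ Cfsg.pPrimePCore p G := by
      have := hcons (Cfsg.Agent.H18.sylowOfNormal S (Cfsg.pPrimePCore p G))
      rwa [Cfsg.Agent.H18.map_sylowOfNormal] at this
    rw [eq_top_iff]
    intro g _
    have hg : g ∈ Subgroup.normalizer (((S : Subgroup G) ⊓ Cfsg.pPrimePCore p G : Subgroup G) : Set G)
        ⊔ Cfsg.pPrimePCore p G := by
      rw [hFr]; trivial
    obtain ⟨m, hm, u, hu, rfl⟩ := Subgroup.mem_sup_of_normal_right.1 hg
    obtain ⟨s, hs, k, hk, rfl⟩ := hU u hu
    obtain ⟨n, hn, c, hc, rfl⟩ := hfus ((S : Subgroup G) ⊓ Cfsg.pPrimePCore p G) inf_le_left m (by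
      rintro _ ⟨x, hx, rfl⟩
      exact ((Subgroup.mem_normalizer_iff.1 hm x).1 hx).1)
    obtain ⟨s', hs', k', hk', rfl⟩ := hU c (hCH hc)
    have hSN : ∀ x ∈ (S : Subgroup G), x ∈ Subgroup.normalizer ((S : Subgroup G) : Set G) ⊔ Cfsg.pPrimeCore p G :=
      fun x hx => Subgroup.mem_sup_left (Subgroup.le_normalizer hx)
    have hKN : ∀ x ∈ Cfsg.pPrimeCore p G, x ∈ Subgroup.normalizer ((S : Subgroup G) : Set G) ⊔ Cfsg.pPrimeCore p G :=
      fun x hx => Subgroup.mem_sup_right hx
    exact Subgroup.mul_mem _ (Subgroup.mul_mem _ (Subgroup.mem_sup_left hn)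
      (Subgroup.mul_mem _ (hSN _ hs'.1) (hKN _ hk')))
      (Subgroup.mul_mem _ (hSN _ hs.1) (hKN _ hk))

end Cfsg.Agent.S1948
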