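import Cfsg.Statements.S1949
import Cfsg.Agent.Lib.H25.CritAut
-- import your own Cfsg.Agent.* helpers here

set_option autoImplicit false
open Cfsg

namespace Cfsg.Agent.S1949



/-- Let P be a finite p-group and G a group of automorphisms of P containing the inner automorphisms. Then there is a G-invariant subgroup D of P, contained in the subgroup generated by the elements x⁻¹α(x) with x in P and α in O^p(G), of exponent dividing p when p is odd and dividing 4 when p = 2, with [D, P] ≤ Z(D), such that every automorphism in G of order prime to p that fixes D elementwise is the identity; moreover every maximal abelian subgroup A of D is normal in P and every automorphism in G fixing A elementwise has p-power order. -/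
theorem result {P : Type*} [Group P] [Finite P] {p : ℕ} [Fact p.Prime] (hP : IsPGroup p P)
    (G : Subgroup (MulAut P)) (hG : Cfsg.Inn P ≤ G) :
    ∃ D : Subgroup P,
      (∀ α ∈ G, D.map α.toMonoidHom = D) ∧
      D ≤ Subgroup.closure {y : P | ∃ α ∈ Cfsg.pResidual p ↥G, ∃ x : P, y = x⁻¹ * (α : MulAut P) x} ∧
      (∀ d ∈ D, d ^ p = 1 ∨ (p = 2 ∧ d ^ 4 = 1)) ∧
      ⁅D, (⊤ : Subgroup P)⁆ ≤ D ⊓ Subgroup.centralizer (D : Set P) ∧
      (∀ α ∈ G, (orderOf α).Coprime p → (∀ d ∈ D, α d = d) → α = 1) ∧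
      ∀ A : Subgroup P, A ≤ D → IsMulCommutative ↥A →
        (∀ B : Subgroup P, A ≤ B → B ≤ D → IsMulCommutative ↥B → B = A) →
        A.Normal ∧ ∀ α ∈ G, (∀ a ∈ A, α a = a) → ∃ k : ℕ, orderOf α = p ^ k := by
  classical
  have hp := (Fact.out : p.Prime)
  obtain ⟨C, hC, hmax⟩ := H25.exists_crit_maximal p P
  have hcent := H25.centralizer_le_of_maximal hP hC hmax
  haveI := hC.char
  have hCn : C.Normal := inferInstance
  set R : Subgroup P := H25.hypOf p G with hR
  have hRinv : ∀ α ∈ G, ∀ x ∈ R, α x ∈ R := fun α hα x hx => H25.hypOf_invariant G hα hx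
  have hconj : ∀ g : P, MulAut.conj g ∈ G := fun g => hG ⟨g, rfl⟩
  have hRn : ∀ g : P, ∀ x ∈ R, g * x * g⁻¹ ∈ R := by
    intro g x hx
    exact hRinv _ (hconj g) x hx
  have hCinv : ∀ (α : MulAut P), ∀ x ∈ C, α x ∈ C := fun α x hx => H25.char_apply_mem hC.char α hx
  let D : Subgroup P :=
    { carrier := {x | x ∈ C ∧ x ∈ R ∧ x ^ H25.critExp p = 1}
      one_mem' := ⟨C.one_mem, R.one_mem, one_pow _⟩
      mul_mem' := by
        rintro x y ⟨hx, hxR, hx1⟩ ⟨hy, hyR, hy1⟩
        refine ⟨C.mul_mem hx hy, R.mul_mem hxR hyR, ?_⟩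
        rw [H25.critExp_mul_pow hp hC hx hy, hx1, hy1, one_mul]
      inv_mem' := by
        rintro x ⟨hx, hxR, hx1⟩
        exact ⟨C.inv_mem hx, R.inv_mem hxR, by rw [inv_pow, hx1, inv_one]⟩ }
  have hDmem : ∀ x, x ∈ D ↔ x ∈ C ∧ x ∈ R ∧ x ^ H25.critExp p = 1 := fun x => Iff.rfl
  have hDinv : ∀ α ∈ G, ∀ x ∈ D, α x ∈ D := by
    rintro α hα x ⟨hx, hxR, hx1⟩
    refine ⟨hCinv α x hx, hRinv α hα x hxR, ?_⟩
    rw [← map_pow, hx1, map_one]
  have hDn : ∀ g : P, ∀ x ∈ D, g * x * g⁻¹ ∈ D := fun g x hx => hDinv _ (hconj g) x hx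
  -- the commutator property
  have hcommD : ∀ g : P, ∀ d ∈ D, d * g * d⁻¹ * g⁻¹ ∈ D ∧ d * g * d⁻¹ * g⁻¹ ∈ H25.zc C := by
    intro g d hd
    have h1 : d * g * d⁻¹ * g⁻¹ = d * (g * d⁻¹ * g⁻¹) := by group
    refine ⟨?_, ?_⟩
    · rw [h1]
      exact D.mul_mem hd (hDn g _ (D.inv_mem hd))
    · have h2 := H25.mem_zc.mp (hC.comm g d⁻¹ (C.inv_mem hd.1))
      have h3 : d * g * d⁻¹ * g⁻¹ = d * (g * d⁻¹ * g⁻¹ * d⁻¹⁻¹) * d⁻¹ := by group
      rw [h3]
      have h4 := h2.2 d hd.1
      rw [h4]
      have h5 : g * d⁻¹ * g⁻¹ * d⁻¹⁻¹ * d * d⁻¹ = g * d⁻¹ * g⁻¹ * d⁻¹⁻¹ := by group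
      rw [h5]
      exact H25.mem_zc.mpr h2
  -- faithfulness
  have hfaith : ∀ α ∈ G, (orderOf α).Coprime p → (∀ d ∈ D, α d = d) → α = 1 := by
    intro a haG hn ha
    have hresid : (⟨a, haG⟩ : G) ∈ pResidual p G := by
      apply Subgroup.subset_closure
      show Nat.Coprime (orderOf (⟨a, haG⟩ : G)) p
      rw [Subgroup.orderOf_mk]
      exact hn
    have hmove : ∀ x : P, x⁻¹ * a x ∈ R := fun x => Subgroup.subset_closure ⟨⟨a, haG⟩, x, hresid, rfl⟩
    have key : ∀ k : ℕ, ∀ x ∈ C, x ∈ R → x ^ (H25.critExp p) ^ k = 1 → a x = x := by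
      intro k
      induction k with
      | zero =>
        intro x _ _ hx
        rw [pow_zero, pow_one] at hx
        rw [hx, map_one]
      | succ k ih =>
        intro x hx hxR hxk
        have h1 : (x ^ H25.critExp p) ^ (H25.critExp p) ^ k = 1 := by
          rw [← pow_mul, ← pow_succ']
          exact hxk
        have h2 := ih _ (C.pow_mem hx _) (R.pow_mem hxR _) h1
        rw [map_pow] at h2
        have haxC : a x ∈ C := hCinv a x hx
        have h3 : x⁻¹ * a x ∈ D := by
          refine ⟨C.mul_mem (C.inv_mem hx) haxC, hmove x, ?_⟩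
          rw [H25.critExp_mul_pow hp hC (C.inv_mem hx) haxC, h2, inv_pow, inv_mul_cancel]
        have h4 := H25.aut_fix_of_stable hP a hn (ha _ h3) (mul_inv_cancel_left x (a x)).symm
        have h5 := mul_eq_one_iff_eq_inv.mp h4
        exact (inv_injective h5).symm
    have hCR : ∀ x ∈ C, x ∈ R → a x = x := by
      intro x hx hxR
      obtain ⟨k, hk⟩ := hP x
      apply key k x hx hxR
      obtain ⟨c, hc⟩ := H25.critExp_pos (p := p) hp
      rw [hc, mul_pow, pow_mul, hk, one_pow]
    apply H25.aut_trivial_of_critical hP hC hcent a hn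
    intro x hx
    have h1 : x⁻¹ * a x ∈ C := C.mul_mem (C.inv_mem hx) (hCinv a x hx)
    have h2 := H25.aut_fix_of_stable hP a hn (hCR _ h1 (hmove x)) (mul_inv_cancel_left x (a x)).symm
    have h3 := mul_eq_one_iff_eq_inv.mp h2
    exact (inv_injective h3).symm
  refine ⟨D, ?_, ?_, ?_, ?_, hfaith, ?_⟩
  · intro α hα
    apply le_antisymm
    · rintro _ ⟨x, hx, rfl⟩
      exact hDinv α hα x hx
    · intro x hx
      refine ⟨α⁻¹ x, hDinv _ (G.inv_mem hα) x hx, ?_⟩
      show α (α⁻¹ x) = x
      simp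
  · intro x hx
    have h1 : x ∈ R := hx.2.1
    have hle : R ≤ Subgroup.closure {y : P | ∃ α ∈ Cfsg.pResidual p ↥G, ∃ x : P, y = x⁻¹ * (α : MulAut P) x} := by
      refine (Subgroup.closure_le _).mpr ?_
      rintro y ⟨α, z, hα, rfl⟩
      exact Subgroup.subset_closure ⟨α, hα, z, rfl⟩
    exact hle h1
  · intro d hd
    have h1 := hd.2.2
    unfold H25.critExp at h1
    split_ifs at h1 with h2
    · right
      exact ⟨h2, h1⟩
    · left
      exact h1
  · rw [Subgroup.commutator_le]
    intro d hd g _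
    have h1 := hcommD g d hd
    refine ⟨h1.1, ?_⟩
    refine Subgroup.mem_centralizer_iff.mpr ?_
    intro y hy
    exact (H25.mem_zc.mp h1.2).2 y (hy : y ∈ D).1
  · intro A hAD hAc hAmax
    -- self-centralizing in `D`
    have hself : ∀ x ∈ D, (∀ a ∈ A, a * x = x * a) → x ∈ A := by
      intro x hx hxA
      let B : Subgroup P := Subgroup.closure ((A : Set P) ∪ {x})
      have hBc : IsMulCommutative B := by
        apply Subgroup.isMulCommutative_closure
        rintro u (hu | hu) v (hv | hv)
        · have := hAc.is_comm.comm ⟨u, hu⟩ ⟨v, hv⟩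
          exact congrArg Subtype.val this
        · rw [Set.mem_singleton_iff] at hv
          rw [hv]
          exact hxA u hu
        · rw [Set.mem_singleton_iff] at hu
          rw [hu]
          exact (hxA v hv).symm
        · rw [Set.mem_singleton_iff] at hu hv
          rw [hu, hv]
      have hAB : A ≤ B := fun v hv => Subgroup.subset_closure (Or.inl hv)
      have hBD : B ≤ D := by
        refine (Subgroup.closure_le _).mpr ?_
        rintro v (hv | hv)
        · exact hAD hv
        · rw [Set.mem_singleton_iff] at hv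
          rw [hv]
          exact hx
      have := hAmax B hAB hBD hBc
      rw [← this]
      exact Subgroup.subset_closure (Or.inr rfl)
    -- commutators lie in `A`
    have hcA : ∀ g : P, ∀ a ∈ A, a * g * a⁻¹ * g⁻¹ ∈ A := by
      intro g a ha
      have h1 := hcommD g a (hAD ha)
      refine hself _ h1.1 fun b hb => ?_
      exact (H25.mem_zc.mp h1.2).2 b (hAD hb).1
    refine ⟨⟨fun a ha g => ?_⟩, ?_⟩
    · have h1 := hcA g a ha
      have h5 : g * a⁻¹ * g⁻¹ ∈ A := by
        have : g * a⁻¹ * g⁻¹ = a⁻¹ * (a * g * a⁻¹ * g⁻¹) := by group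
        rw [this]
        exact A.mul_mem (A.inv_mem ha) h1
      have : g * a * g⁻¹ = (g * a⁻¹ * g⁻¹)⁻¹ := by group
      rw [this]
      exact A.inv_mem h5
    · intro α hα hfix
      obtain ⟨k, m, hm, hkm⟩ := Nat.exists_eq_pow_mul_and_not_dvd (n := orderOf α) (orderOf_pos α).ne' p hp.ne_one
      set β := α ^ p ^ k with hβ
      have hβG : β ∈ G := G.pow_mem hα _
      have hβm : β ^ m = 1 := by
        rw [hβ, ← pow_mul, ← hkm, pow_orderOf_eq_one]
      have hβfix : ∀ a ∈ A, β a = a := by
        intro a ha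
        have : ∀ j : ℕ, (α ^ j) a = a := by
          intro j
          induction j with
          | zero => simp
          | succ j ih =>
            rw [pow_succ', MulAut.mul_apply, ih, hfix a ha]
        exact this _
      have hcop : Nat.Coprime (orderOf β) p := by
        have h1 : orderOf β ∣ m := orderOf_dvd_of_pow_eq_one hβm
        have h2 : Nat.Coprime m p := ((Nat.Prime.coprime_iff_not_dvd hp).mpr hm).symm
        exact Nat.Coprime.coprime_dvd_left h1 h2
      have hβ1 : β = 1 := by
        apply hfaith β hβG hcop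
        intro d hd
        have hw : d⁻¹ * β d ∈ D := D.mul_mem (D.inv_mem hd) (hDinv β hβG d hd)
        have hwA : d⁻¹ * β d ∈ A := by
          refine hself _ hw fun a ha => ?_
          have h1 : a * d * a⁻¹ * d⁻¹ ∈ A := hcA d a ha
          have h2 := hβfix _ h1
          rw [map_mul, map_mul, map_mul, map_inv, map_inv, hβfix a ha] at h2
          have h3 : a * β d * a⁻¹ = a * d * a⁻¹ * d⁻¹ * β d := by
            have := h2
            calc a * β d * a⁻¹ = a * β d * a⁻¹ * (β d)⁻¹ * β d := by group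
              _ = _ := by rw [this]
          have h4 : a * (d⁻¹ * β d) = (d⁻¹ * β d) * a := by
            have h5 : β d * a⁻¹ = d * a⁻¹ * d⁻¹ * β d := by
              have h6 : a * (β d * a⁻¹) = a * (d * a⁻¹ * d⁻¹ * β d) := by
                calc a * (β d * a⁻¹) = a * β d * a⁻¹ := by group
                  _ = a * d * a⁻¹ * d⁻¹ * β d := h3
                  _ = _ := by group
              exact mul_left_cancel h6
            calc a * (d⁻¹ * β d) = a * (d⁻¹ * (β d * a⁻¹)) * a := by group
              _ = a * (d⁻¹ * (d * a⁻¹ * d⁻¹ * β d)) * a := by rw [h5]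
              _ = (d⁻¹ * β d) * a := by group
          exact h4
        have h4 := H25.aut_fix_of_stable hP β hcop (hβfix _ hwA) (mul_inv_cancel_left d (β d)).symm
        have h5 := mul_eq_one_iff_eq_inv.mp h4
        exact (inv_injective h5).symm
      refine ⟨k, ?_⟩
      have hm1 : m = 1 := by
        have h1 : orderOf α = p ^ k * m := hkm
        have h2 : orderOf (α ^ p ^ k) = orderOf α / Nat.gcd (orderOf α) (p ^ k) := orderOf_pow α
        rw [← hβ, hβ1, orderOf_one] at h2
        have h3 : Nat.gcd (orderOf α) (p ^ k) = p ^ k := by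
          rw [h1]
          exact Nat.gcd_eq_right (dvd_mul_right _ _)
        rw [h3, h1, Nat.mul_div_cancel_left _ (pow_pos hp.pos k)] at h2
        exact h2.symm
      rw [hkm, hm1, mul_one]

end Cfsg.Agent.S1949
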