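import Cfsg.Statements.S1952
import Mathlib
-- import your own Cfsg.Agent.* helpers here

set_option autoImplicit false
open Cfsg

namespace Cfsg.Agent.S1952


open Polynomial in
lemma poly_geom (p : ℕ) [Fact p.Prime] :
    ((X : (ZMod p)[X]) - 1) ^ (p - 1) = ∑ i ∈ Finset.range p, X ^ i := by
  have hp := (Fact.out : p.Prime)
  have hne : (X - 1 : (ZMod p)[X]) ≠ 0 := X_sub_C_ne_zero (1 : ZMod p) |> fun h => by simpa using h
  apply mul_left_cancel₀ hne
  rw [← pow_succ', Nat.sub_add_cancel hp.one_le, sub_pow_char, one_pow, mul_geom_sum]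

open Polynomial in
/-- The nilpotency bound. -/
lemma finrank_ge_of_norm {p : ℕ} [Fact p.Prime] {U : Type*} [AddCommGroup U] [Module (ZMod p) U]
    [Module.Finite (ZMod p) U] (σ : Module.End (ZMod p) U) (hσ : σ ^ p = 1) (v : U)
    (hv : (∑ i ∈ Finset.range p, σ ^ i) v ≠ 0) : p ≤ Module.finrank (ZMod p) U := by
  have hp := (Fact.out : p.Prime)
  haveI : CharP (Module.End (ZMod p) U) p := by
    by_cases hU : Subsingleton U
    · exfalso
      exact hv (Subsingleton.elim _ _)
    rw [not_subsingleton_iff_nontrivial] at hU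
    exact charP_of_injective_algebraMap (algebraMap (ZMod p) (Module.End (ZMod p) U)).injective p
  set T : Module.End (ZMod p) U := σ - 1 with hT
  have hTp : T ^ p = 0 := by
    rw [hT, sub_pow_char_of_commute p (Commute.one_right σ), hσ, one_pow, sub_self]
  have hnil : IsNilpotent T := ⟨p, hTp⟩
  have hT1 : T ^ (p - 1) = ∑ i ∈ Finset.range p, σ ^ i := by
    have h := congrArg (aeval σ) (poly_geom p)
    simpa [hT] using h
  by_contra hlt
  push Not at hlt
  have hcp := IsNilpotent.charpoly_eq_X_pow_finrank hnil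
  have h0 := LinearMap.aeval_self_charpoly T
  rw [hcp] at h0
  simp only [map_pow, aeval_X] at h0
  have h1 : T ^ (p - 1) = 0 := by
    have : p - 1 = Module.finrank (ZMod p) U + (p - 1 - Module.finrank (ZMod p) U) := by omega
    rw [this, pow_add, h0, zero_mul]
  rw [hT1] at h1
  apply hv
  rw [h1]
  rfl

/-- The image of the `p` translates of a functional has rank at least `p`. -/
lemma finrank_range_ge {p : ℕ} [Fact p.Prime] {B : Type*} [AddCommGroup B] [Module (ZMod p) B]
    [Finite B] (τ : Module.End (ZMod p) B) (hτ : τ ^ p = 1) (x : B) (φ : Module.Dual (ZMod p) B)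
    (hφ : φ ((∑ i ∈ Finset.range p, τ ^ i) x) ≠ 0) :
    p ≤ Module.finrank (ZMod p) (LinearMap.range
      (LinearMap.pi (fun i : ℕ => φ ∘ₗ (τ ^ i)) : B →ₗ[ZMod p] (ℕ → ZMod p))) := by
  set Ψ : B →ₗ[ZMod p] (ℕ → ZMod p) := LinearMap.pi (fun i : ℕ => φ ∘ₗ (τ ^ i)) with hΨ
  set U := LinearMap.range Ψ with hU
  haveI : Finite U := by
    have : Function.Surjective (Ψ.rangeRestrict) := LinearMap.surjective_rangeRestrict Ψ
    exact Finite.of_surjective _ this
  haveI : Module.Finite (ZMod p) U := Module.Finite.of_finite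
  let s : (ℕ → ZMod p) →ₗ[ZMod p] (ℕ → ZMod p) := LinearMap.funLeft (ZMod p) (ZMod p) (· + 1)
  have hs : ∀ b : B, s (Ψ b) = Ψ (τ b) := by
    intro b
    ext i
    change φ ((τ ^ (i + 1)) b) = φ ((τ ^ i) (τ b))
    rw [pow_succ]
    rfl
  have hsU : ∀ u ∈ U, s u ∈ U := by
    rintro _ ⟨b, rfl⟩
    exact ⟨τ b, (hs b).symm⟩
  let σ : Module.End (ZMod p) U := s.restrict hsU
  have hσ1 : ∀ (k : ℕ) (b : B), (((σ ^ k) (Ψ.rangeRestrict b) : U) : ℕ → ZMod p) = Ψ ((τ ^ k) b) := by
    intro k
    induction k with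
    | zero => intro b; simp
    | succ k ih =>
      intro b
      rw [pow_succ', Module.End.mul_apply]
      change s (((σ ^ k) (Ψ.rangeRestrict b) : U) : ℕ → ZMod p) = _
      rw [ih, hs, pow_succ', Module.End.mul_apply]
  have hσp : σ ^ p = 1 := by
    apply LinearMap.ext
    rintro ⟨_, b, rfl⟩
    apply Subtype.ext
    have := hσ1 p b
    rw [hτ] at this
    exact this
  refine finrank_ge_of_norm (p := p) σ hσp (Ψ.rangeRestrict x) ?_
  intro h0
  have h1 : ((((∑ i ∈ Finset.range p, σ ^ i) (Ψ.rangeRestrict x)) : U) : ℕ → ZMod p) 0 = 0 := by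
    rw [h0]
    rfl
  apply hφ
  rw [← h1]
  rw [LinearMap.sum_apply, LinearMap.sum_apply, map_sum]
  simp only [Submodule.coe_sum, Finset.sum_apply, hσ1]
  apply Finset.sum_congr rfl
  intro i _
  rfl

/-- Counting form, for an elementary abelian group with an automorphism. -/
lemma key_count {p : ℕ} [Fact p.Prime] {B : Type*} [AddCommGroup B] [Finite B]
    (hexp : ∀ b : B, p • b = 0) (τ : B →+ B) (hτ : ∀ b, τ^[p] b = b) (x : B)
    (hn : ∑ i ∈ Finset.range p, τ^[i] x ≠ 0) :
    ∃ φ : B →+ ZMod p, Function.Surjective φ ∧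
      p ^ p * Nat.card {b : B // ∀ i : ℕ, φ (τ^[i] b) = 0} ≤ Nat.card B := by
  classical
  letI instM : Module (ZMod p) B := AddCommGroup.zmodModule (n := p) hexp
  let τ' : Module.End (ZMod p) B := AddMonoidHom.toZModLinearMap p τ
  have hτ'i : ∀ (i : ℕ) (b : B), (τ' ^ i) b = τ^[i] b := by
    intro i b
    rw [Module.End.pow_apply]
    rfl
  have hτp : τ' ^ p = 1 := by
    apply LinearMap.ext
    intro b
    rw [hτ'i, hτ]
    rfl
  have hn' : (∑ i ∈ Finset.range p, τ' ^ i) x ≠ 0 := by
    rw [LinearMap.sum_apply]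
    simp only [hτ'i]
    exact hn
  obtain ⟨φ, hφ⟩ : ∃ φ : Module.Dual (ZMod p) B, φ ((∑ i ∈ Finset.range p, τ' ^ i) x) ≠ 0 := by
    by_contra hcon
    push Not at hcon
    exact hn' ((Module.forall_dual_apply_eq_zero_iff (ZMod p) _).mp hcon)
  refine ⟨φ.toAddMonoidHom, ?_, ?_⟩
  · intro c
    refine ⟨(c / φ ((∑ i ∈ Finset.range p, τ' ^ i) x)) • ((∑ i ∈ Finset.range p, τ' ^ i) x), ?_⟩
    change φ _ = c
    rw [map_smul, smul_eq_mul, div_mul_cancel₀ _ hφ]
  have h1 := finrank_range_ge τ' hτp x φ hφ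
  set Ψ : B →ₗ[ZMod p] (ℕ → ZMod p) := LinearMap.pi (fun i : ℕ => φ ∘ₗ (τ' ^ i)) with hΨ
  haveI : Finite (LinearMap.range Ψ) := by
    have : Function.Surjective (Ψ.rangeRestrict) := LinearMap.surjective_rangeRestrict Ψ
    exact Finite.of_surjective _ this
  haveI : Module.Finite (ZMod p) (LinearMap.range Ψ) := Module.Finite.of_finite
  have h2 : Nat.card (LinearMap.range Ψ) = p ^ Module.finrank (ZMod p) (LinearMap.range Ψ) := by
    rw [Module.natCard_eq_pow_finrank (K := ZMod p), Nat.card_zmod]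
  have h3 : p ^ p ≤ Nat.card (LinearMap.range Ψ) := by
    rw [h2]
    exact Nat.pow_le_pow_right (Fact.out : p.Prime).pos h1
  have h4 := AddSubgroup.card_mul_index (Ψ.toAddMonoidHom.ker)
  rw [AddSubgroup.index_ker] at h4
  have h5 : Nat.card (Ψ.toAddMonoidHom.range) = Nat.card (LinearMap.range Ψ) := by
    apply Nat.card_congr
    exact Equiv.subtypeEquivRight (fun u => Iff.rfl)
  have h6 : Nat.card {b : B // ∀ i : ℕ, φ.toAddMonoidHom (τ^[i] b) = 0} =
      Nat.card (Ψ.toAddMonoidHom.ker) := by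
    apply Nat.card_congr
    apply Equiv.subtypeEquivRight
    intro b
    rw [AddMonoidHom.mem_ker]
    constructor
    · intro h
      ext i
      have : φ ((τ' ^ i) b) = 0 := by
        rw [hτ'i]
        exact h i
      exact this
    · intro h i
      have h7 := congrFun h i
      have h8 : φ ((τ' ^ i) b) = 0 := h7
      rw [hτ'i] at h8
      exact h8
  rw [h6, ← h4, h5, mul_comm (p ^ p)]
  exact Nat.mul_le_mul_left _ h3


/-- Let P be a finite p-group with a normal elementary abelian subgroup A of index p, and let x ∈ A and y ∈ P with y outside A. If the product of the p conjugates y^(-i) x y^i (i = 0, …, p−1) is not the identity, then the wreath product Z_p ≀ Z_p, realised as a Sylow p-subgroup of the symmetric group of degree p², is a homomorphic image of P. -/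
theorem result {P : Type*} [Group P] [Finite P] {p : ℕ} [Fact p.Prime] (hP : IsPGroup p P) (A : Subgroup P) [A.Normal]
    (hA : Cfsg.IsElementaryAbelian p A) (hidx : A.index = p) (x y : P) (hx : x ∈ A) (hy : y ∉ A)
    (hprod : ((List.range p).map (fun i => (y ^ i)⁻¹ * x * y ^ i)).prod ≠ 1) :
    ∃ (Q : Sylow p (Equiv.Perm (Fin (p ^ 2)))) (f : P →* ↥(Q : Subgroup (Equiv.Perm (Fin (p ^ 2))))), Function.Surjective f := by
  classical
  have hpp := (Fact.out : p.Prime)
  obtain ⟨hAc, hAe⟩ := hA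
  letI instA : CommGroup ↥A := { (inferInstance : Group ↥A) with mul_comm := hAc.is_comm.comm }
  let κ : ↥A →* ↥A := (MulAut.conjNormal y⁻¹ : MulAut ↥A).toMonoidHom
  let τ : Additive ↥A →+ Additive ↥A := MonoidHom.toAdditive κ
  have hκ : ∀ a : ↥A, ((κ a : ↥A) : P) = y⁻¹ * a * y := by
    intro a
    change ((MulAut.conjNormal y⁻¹ a : ↥A) : P) = _
    rw [MulAut.conjNormal_apply, inv_inv]
  have hτi : ∀ (i : ℕ) (a : ↥A), ((Additive.toMul (τ^[i] (Additive.ofMul a)) : ↥A) : P) =
      (y ^ i)⁻¹ * a * y ^ i := by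
    intro i
    induction i with
    | zero => intro a; simp
    | succ i ih =>
      intro a
      rw [Function.iterate_succ_apply]
      have h1 : τ (Additive.ofMul a) = Additive.ofMul (κ a) := rfl
      rw [h1, ih, hκ, pow_succ']
      group
  have hexp : ∀ b : Additive ↥A, p • b = 0 := by
    intro a
    have h1 : p • a = Additive.ofMul (Additive.toMul a ^ p) := rfl
    rw [h1]
    have h2 : Additive.toMul a ^ p = 1 := Subtype.ext (hAe _ (Additive.toMul a).2)
    rw [h2]
    rfl
  have hτp : ∀ b, τ^[p] b = b := by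
    intro b
    apply Additive.toMul.injective
    apply Subtype.ext
    have h1 := hτi p (Additive.toMul b)
    have h2 : y ^ p ∈ A := by
      have := Subgroup.pow_index_mem A y
      rwa [hidx] at this
    have h3 : (y ^ p) * ((Additive.toMul b : ↥A) : P) = (Additive.toMul b : ↥A) * y ^ p := by
      have := hAc.is_comm.comm (⟨y ^ p, h2⟩ : ↥A) (Additive.toMul b)
      exact congrArg Subtype.val this
    have h4 : (y ^ p)⁻¹ * ((Additive.toMul b : ↥A) : P) * y ^ p = (Additive.toMul b : ↥A) := by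
      calc (y ^ p)⁻¹ * ((Additive.toMul b : ↥A) : P) * y ^ p
          = (y ^ p)⁻¹ * (((Additive.toMul b : ↥A) : P) * y ^ p) := by group
        _ = (y ^ p)⁻¹ * ((y ^ p) * ((Additive.toMul b : ↥A) : P)) := by rw [h3]
        _ = _ := by group
    rw [h4] at h1
    exact h1
  -- the norm of `x`
  set x₀ : ↥A := ⟨x, hx⟩ with hx₀
  have hsum : ∀ k : ℕ, ((Additive.toMul (∑ i ∈ Finset.range k, τ^[i] (Additive.ofMul x₀)) : ↥A) : P) =
      ((List.range k).map (fun i => (y ^ i)⁻¹ * x * y ^ i)).prod := by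
    intro k
    induction k with
    | zero => simp
    | succ k ih =>
      rw [Finset.sum_range_succ, List.range_succ, List.map_append, List.prod_append, ← ih]
      simp only [List.map_cons, List.map_nil, List.prod_cons, List.prod_nil, mul_one]
      rw [← hτi k x₀]
      rfl
  have hn : ∑ i ∈ Finset.range p, τ^[i] (Additive.ofMul x₀) ≠ 0 := by
    intro h0
    apply hprod
    rw [← hsum p, h0]
    rfl
  obtain ⟨φ, hφs, hφc⟩ := key_count hexp τ hτp _ hn
  let χ : ↥A →* Multiplicative (ZMod p) :=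
    { toFun := fun a => Multiplicative.ofAdd (φ (Additive.ofMul a))
      map_one' := by
        have : φ (Additive.ofMul (1 : ↥A)) = 0 := map_zero φ
        rw [this]
        rfl
      map_mul' := fun a b => by
        have : φ (Additive.ofMul (a * b)) = φ (Additive.ofMul a) + φ (Additive.ofMul b) :=
          map_add φ _ _
        rw [this]
        rfl }
  have hχ1 : ∀ a : ↥A, χ a = 1 ↔ φ (Additive.ofMul a) = 0 := fun a => Iff.rfl
  have hχs : Function.Surjective χ := by
    intro c
    obtain ⟨b, hb⟩ := hφs (Multiplicative.toAdd c)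
    exact ⟨Additive.toMul b, hb⟩
  have hH₀ : (χ.ker).index = p := by
    rw [Subgroup.index_ker, MonoidHom.range_eq_top.mpr hχs, Subgroup.card_top]
    exact Nat.card_zmod p
  set H : Subgroup P := (χ.ker).map A.subtype with hH
  have hHidx : H.index = p ^ 2 := by
    rw [hH, Subgroup.index_map_subtype, hH₀, hidx, pow_two]
  have hHA : H ≤ A := Subgroup.map_subtype_le _
  have hcard : Nat.card (P ⧸ H) = p ^ 2 := hHidx
  let e := Finite.equivFinOfCardEq hcard
  let f : P →* Equiv.Perm (P ⧸ H) := MulAction.toPermHom P (P ⧸ H)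
  let f' : P →* Equiv.Perm (Fin (p ^ 2)) := (Equiv.permCongrHom e).toMonoidHom.comp f
  have hker : ∀ g, f' g = 1 → g ∈ H.normalCore := by
    intro g hg
    rw [Subgroup.normalCore_eq_ker, MonoidHom.mem_ker]
    apply (Equiv.permCongrHom e).injective
    rw [map_one]
    exact hg
  -- counting
  have hle : Nat.card f'.ker ≤ Nat.card {b : Additive ↥A // ∀ i : ℕ, φ (τ^[i] b) = 0} := by
    have hgA : ∀ g : f'.ker, (g : P) ∈ A := fun g => hHA (H.normalCore_le (hker _ g.2))
    refine Nat.card_le_card_of_injective (fun g => ⟨Additive.ofMul ⟨g, hgA g⟩, ?_⟩) ?_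
    · intro i
      have h1 := hτi i ⟨g, hgA g⟩
      have h2 : (y ^ i)⁻¹ * (g : P) * y ^ i ∈ H := by
        have := (Subgroup.normalCore_normal H).conj_mem _ (hker _ g.2) (y ^ i)⁻¹
        rw [inv_inv] at this
        exact H.normalCore_le this
      rw [← h1] at h2
      obtain ⟨a, ha, hae⟩ := h2
      have h3 : a = Additive.toMul (τ^[i] (Additive.ofMul (⟨g, hgA g⟩ : ↥A))) := Subtype.ext hae
      rw [h3] at ha
      exact (hχ1 _).mp ha
    · intro g₁ g₂ h
      have h1 := congrArg Subtype.val h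
      have h2 : (⟨g₁, hgA g₁⟩ : ↥A) = ⟨g₂, hgA g₂⟩ := Additive.ofMul.injective h1
      have h3 : (g₁ : P) = g₂ := congrArg (fun z : ↥A => (z : P)) h2
      exact Subtype.ext h3
  have hPcard : Nat.card A * p = Nat.card P := by
    have := Subgroup.card_mul_index A
    rwa [hidx] at this
  have hAcard : Nat.card (Additive ↥A) = Nat.card A := rfl
  have hrange := Subgroup.card_mul_index f'.ker
  rw [Subgroup.index_ker] at hrange
  have hpos : 0 < Nat.card f'.ker := Nat.card_pos
  have hr : p ^ (p + 1) ≤ Nat.card f'.range := by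
    have h1 : Nat.card f'.ker * p ^ (p + 1) ≤ Nat.card f'.ker * Nat.card f'.range := by
      have e : p ^ (p + 1) = p ^ p * p := pow_succ p p
      rw [hrange, ← hPcard, e, ← mul_assoc]
      apply Nat.mul_le_mul_right
      calc Nat.card f'.ker * p ^ p ≤ Nat.card {b : Additive ↥A // ∀ i : ℕ, φ (τ^[i] b) = 0} * p ^ p :=
            Nat.mul_le_mul_right _ hle
        _ = p ^ p * Nat.card {b : Additive ↥A // ∀ i : ℕ, φ (τ^[i] b) = 0} := mul_comm _ _
        _ ≤ Nat.card (Additive ↥A) := hφc
        _ = _ := hAcard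
    exact Nat.le_of_mul_le_mul_left h1 hpos
  have hrp : IsPGroup p f'.range := hP.of_surjective f'.rangeRestrict f'.rangeRestrict_surjective
  obtain ⟨m, hm⟩ := IsPGroup.iff_card.mp hrp
  have hval : (Nat.card (Equiv.Perm (Fin (p ^ 2)))).factorization p = p + 1 := by
    rw [Nat.card_perm, Nat.card_fin, Nat.factorization_def _ hpp, pow_two, padicValNat_factorial_mul]
    have h1 : padicValNat p (Nat.factorial (p * 1)) = padicValNat p (Nat.factorial 1) + 1 :=
      padicValNat_factorial_mul 1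
    rw [mul_one] at h1
    rw [h1, Nat.factorial_one, padicValNat.one]
    omega
  have hdvd : p ^ m ∣ Nat.card (Equiv.Perm (Fin (p ^ 2))) := by
    rw [← hm]
    exact Subgroup.card_subgroup_dvd_card _
  have hm1 : m ≤ p + 1 := by
    rw [← hval]
    exact (hpp.pow_dvd_iff_le_factorization Nat.card_pos.ne').mp hdvd
  have hm2 : p + 1 ≤ m := by
    rw [hm] at hr
    exact (Nat.pow_le_pow_iff_right hpp.one_lt).mp hr
  have hcardQ : Nat.card f'.range = p ^ (Nat.card (Equiv.Perm (Fin (p ^ 2)))).factorization p := by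
    rw [hval, hm]
    congr 1
    omega
  refine ⟨Sylow.ofCard f'.range hcardQ, f'.codRestrict _ (fun z => ?_), ?_⟩
  · rw [Sylow.coe_ofCard]
    exact ⟨z, rfl⟩
  · rintro ⟨z, hz⟩
    rw [Sylow.coe_ofCard] at hz
    obtain ⟨w, rfl⟩ := hz
    exact ⟨w, rfl⟩

end Cfsg.Agent.S1952
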