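import Cfsg.Statements.S1953
import Cfsg.Agent.Lib.H08.CR.Main
-- import your own Cfsg.Agent.* helpers here

set_option autoImplicit false
open Cfsg

namespace Cfsg.Agent.S1953



/-- Let p be an odd prime and P a Sylow p-subgroup of the finite group G, and suppose that for no p-subgroup Q of G does N_G(Q)/C_G(Q) have a section isomorphic to SL₂(p). Call a subgroup Q of P centric-radical when Z(Q) is a Sylow p-subgroup of C_G(Q) and the only normal subgroup X of N_G(Q) containing Q·C_G(Q) such that the index of Q·C_G(Q) in X is a power of p is Q·C_G(Q) itself (that is, N_G(Q)/Q·C_G(Q) has no nontrivial normal p-subgroup). Then there is a centric-radical subgroup Q of P contained in every centric-radical subgroup of P; it is normal in P, and N_G(Q) controls strong fusion in P: whenever a subgroup A of P has g A g⁻¹ ≤ P, the element g is a product h c with h in N_G(Q) and c centralizing A. -/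
theorem result {G : Type*} [Group G] [Finite G] {p : ℕ} [Fact p.Prime] (hp : p ≠ 2) (P : Sylow p G)
    (hfree : ∀ Q : Subgroup G, IsPGroup p ↥Q → ¬ ∃ (H K : Subgroup G) (_ : (K.subgroupOf H).Normal),
      Subgroup.centralizer (Q : Set G) ≤ K ∧ K ≤ H ∧ H ≤ Subgroup.normalizer (Q : Set G) ∧
      Nonempty ((↥H ⧸ K.subgroupOf H) ≃* Matrix.SpecialLinearGroup (Fin 2) (ZMod p)))
    (cr : Subgroup G → Prop)
    (hcr : ∀ Q : Subgroup G, cr Q ↔ (Q ≤ (P : Subgroup G) ∧
      (∃ R : Sylow p ↥(Subgroup.centralizer (Q : Set G)),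
        (R : Subgroup ↥(Subgroup.centralizer (Q : Set G))).map (Subgroup.centralizer (Q : Set G)).subtype = Q ⊓ Subgroup.centralizer (Q : Set G)) ∧
      ∀ X : Subgroup G, X ≤ Subgroup.normalizer (Q : Set G) →
        (∀ n ∈ Subgroup.normalizer (Q : Set G), X.map (MulAut.conj n).toMonoidHom = X) →
        Q ⊔ Subgroup.centralizer (Q : Set G) ≤ X → (∃ k : ℕ, (Q ⊔ Subgroup.centralizer (Q : Set G)).relIndex X = p ^ k) →
        X = Q ⊔ Subgroup.centralizer (Q : Set G))) :
    ∃ Q : Subgroup G, cr Q ∧ (∀ R : Subgroup G, cr R → Q ≤ R) ∧ (∀ x ∈ (P : Subgroup G), Q.map (MulAut.conj x).toMonoidHom = Q) ∧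
      ∀ A : Subgroup G, A ≤ (P : Subgroup G) → ∀ g : G, A.map (MulAut.conj g).toMonoidHom ≤ (P : Subgroup G) →
        ∃ h ∈ Subgroup.normalizer (Q : Set G), ∃ c ∈ Subgroup.centralizer (A : Set G), g = h * c := by
  classical
  have hqd : ¬ Involves ↥(Cfsg.qdOver (ZMod p)) G := by
    intro h
    obtain ⟨Q, hQ, H, K, hn, h1, h2, h3, h4⟩ := H08.CR.exists_local_section h
    exact hfree Q hQ ⟨H, K, hn, h1, h2, h3, h4⟩
  have hcons := H08.CR.constrained_of_qdFree hp P hqd
  have hn : (groupFusionSystem (P : Subgroup G)).IsNormal (groupFusionSystem (P : Subgroup G)).core :=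
    H24.isNormal_core
  have hc := H24.core_isCentric hcons
  have hr := H24.core_isRadical P.isPGroup' hcons.1 hc
  set Q₀ := (groupFusionSystem (P : Subgroup G)).core with hQ₀
  have hQ₀P : Q₀ ≤ (P : Subgroup G) := hn.1
  have hPN : (P : Subgroup G) ≤ Subgroup.normalizer (Q₀ : Set G) := H24.normalizer_of_isNormal hn
  have hQ₀p : IsPGroup p Q₀ := P.isPGroup'.to_le hQ₀P
  have hcent : (P : Subgroup G) ⊓ Subgroup.centralizer (Q₀ : Set G) ≤ Q₀ :=
    hc.2 Q₀ (H24.isConj_refl hQ₀P)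
  have hcr₀ : cr Q₀ := by
    refine (hcr Q₀).mpr ⟨hQ₀P, H08.CR.exists_sylow_cent P rfl hPN hQ₀p hcent, ?_⟩
    intro X hXN hXn hQX hk
    exact H08.CR.radical_of_fusion hQ₀P hQ₀p hr X hXN hXn hQX hk
  refine ⟨Q₀, hcr₀, ?_, ?_, ?_⟩
  · intro R hR
    obtain ⟨hRP, hsyl, hrad⟩ := (hcr R).mp hR
    exact H08.CR.le_of_centric_radical P.isPGroup' hQ₀P hPN hRP
      (fun g hg => H08.CR.split_of_isNormal hn hRP g hg) hsyl hrad
  · intro x hx
    have hxN := hPN hx
    refine le_antisymm ?_ ?_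
    · rintro _ ⟨y, hy, rfl⟩
      exact (Subgroup.mem_normalizer_iff.mp hxN y).mp hy
    · intro y hy
      refine ⟨x⁻¹ * y * x⁻¹⁻¹, (Subgroup.mem_normalizer_iff.mp (Subgroup.inv_mem _ hxN) y).mp hy, ?_⟩
      change x * (x⁻¹ * y * x⁻¹⁻¹) * x⁻¹ = y
      group
  · intro A hA g hg
    exact H08.CR.split_of_isNormal hn hA g hg

end Cfsg.Agent.S1953
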