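import Cfsg.Statements.S1954
import Cfsg.Agent.Lib.H09.WellPlaced
import Cfsg.Agent.Lib.H13.Frob3
import Cfsg.Agent.Lib.H16.Orb
import Cfsg.Agent.Lib.H01.Coprime
-- import your own Cfsg.Agent.* helpers here

set_option autoImplicit false
open Cfsg

namespace Cfsg.Agent.S1954


open Cfsg.Agent.H09

variable {G : Type*} [Group G] {p : ℕ}

set_option quotPrecheck false in
local notation:max "𝐍" T:max => Subgroup.normalizer ((T : Subgroup G) : Set G)
set_option quotPrecheck false in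
local notation:65 T:66 " ⋆ " g:66 => Subgroup.map (MulAut.conj g).toMonoidHom T

theorem not_dvd_inf_normal [Finite G] [Fact p.Prime] {A B Y : Subgroup G} (hAB : A ≤ B)
    (hN : B ≤ 𝐍 A) (hYB : Y ≤ B) (hYp : IsPGroup p Y) (hY : ¬ p ∣ Y.relIndex B) :
    ¬ p ∣ (Y ⊓ A).relIndex A := by
  obtain ⟨X⟩ : Nonempty (Sylow p A) := inferInstance
  set Xh := (X : Subgroup A).map A.subtype with hXh
  have hXp : IsPGroup p Xh := X.isPGroup'.map _
  have hXA : Xh ≤ A := by rintro _ ⟨x, -, rfl⟩; exact x.2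
  obtain ⟨x, hx, hle⟩ := exists_conj_le_of_not_dvd_relIndex hYB hYp hY (hXA.trans hAB) hXp
  have hxA : A.map (MulAut.conj x).toMonoidHom = A := map_conj_eq_of_mem_normalizer (hN hx)
  have h1 : Xh.map (MulAut.conj x).toMonoidHom ≤ Y ⊓ A :=
    le_inf hle (by
      have := Subgroup.map_mono (f := (MulAut.conj x).toMonoidHom) hXA
      rwa [hxA] at this)
  have h2 : ¬ p ∣ Xh.relIndex A := by
    have : Xh.relIndex A = (X : Subgroup A).index := by
      rw [Subgroup.relIndex, hXh]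
      congr 1
      exact Subgroup.comap_map_eq_self_of_injective (Subgroup.subtype_injective A) _
    rw [this]
    exact X.not_dvd_index
  have h3 : ¬ p ∣ (Xh.map (MulAut.conj x).toMonoidHom).relIndex A := by
    have h4 := relIndex_map_conj Xh A x
    rw [hxA] at h4
    rw [h4]
    exact h2
  exact not_dvd_relIndex_of_le h1 h3

/-- Frattini inside a subgroup `X`. -/
theorem frattini_in [Finite G] [Fact p.Prime] {X Y D : Subgroup G} (hYX : Y ≤ X) (hn : X ≤ 𝐍 Y)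
    (hDY : D ≤ Y) (hDp : IsPGroup p D) (hD : ¬ p ∣ D.relIndex Y) {x : G} (hx : x ∈ X) :
    ∃ y ∈ Y, ∃ z ∈ X ⊓ 𝐍 D, x = y * z := by
  have h1 : (D ⋆ x) ≤ Y := by
    have := map_conj_mono hDY x
    rwa [map_conj_eq_of_mem_normalizer (hn hx)] at this
  obtain ⟨u, hu, hle⟩ := exists_conj_le_of_not_dvd_relIndex hDY hDp hD h1 (isPGroup_map_conj hDp x)
  refine ⟨u⁻¹, Y.inv_mem hu, u * x, Subgroup.mem_inf.2 ⟨X.mul_mem (hYX hu) hx, ?_⟩, by group⟩
  apply mem_normalizer_of_map_conj_eq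
  rw [map_conj_mul]
  apply Subgroup.eq_of_le_of_card_ge hle
  rw [card_map_conj, card_map_conj]

theorem map_conj_congr {A : Subgroup G} {g h : G} (H : ∀ a ∈ A, g * a * g⁻¹ = h * a * h⁻¹) :
    (A ⋆ g) = (A ⋆ h) := by
  ext x
  constructor
  · rintro ⟨a, ha, rfl⟩
    exact ⟨a, ha, by simpa [MulAut.conj_apply] using (H a ha).symm⟩
  · rintro ⟨a, ha, rfl⟩
    exact ⟨a, ha, by simpa [MulAut.conj_apply] using H a ha⟩

theorem conj_eq_of_mem_centralizer {A : Subgroup G} {c a : G} (hc : c ∈ Subgroup.centralizer (A : Set G))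
    (ha : a ∈ A) : c * a * c⁻¹ = a := by
  have := Subgroup.mem_centralizer_iff.1 hc a ha
  rw [← this]; group

theorem conj_mem_of_normalizer {A : Subgroup G} {g a : G} (hg : g ∈ 𝐍 A) (ha : a ∈ A) :
    g * a * g⁻¹ ∈ A := (Subgroup.mem_normalizer_iff.1 hg a).1 ha

theorem mem_normalizer_of_map_le [Finite G] {A : Subgroup G} {g : G} (h : (A ⋆ g) ≤ A) : g ∈ 𝐍 A := by
  apply mem_normalizer_of_map_conj_eq
  apply Subgroup.eq_of_le_of_card_ge h
  rw [card_map_conj]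

/-- `E` normalized by `A`, `A ⊔ E` a `p`-group and `E ⊓ N(A) ≤ A`: then `E ≤ A`. -/
theorem le_of_inf_normalizer_le [Finite G] [Fact p.Prime] {A E : Subgroup G}
    (hAE : A ≤ 𝐍 E) (hp : IsPGroup p (E ⊔ A : Subgroup G)) (h : E ⊓ 𝐍 A ≤ A) : E ≤ A := by
  by_contra hcon
  have hlt : A < E ⊔ A := lt_of_le_of_ne le_sup_right (fun heq => hcon (by
    rw [heq]; exact le_sup_left))
  have h2 := lt_inf_normalizer hp hlt
  obtain ⟨v, hv, hvA⟩ := SetLike.exists_of_lt h2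
  obtain ⟨hv1, hv2⟩ := Subgroup.mem_inf.1 hv
  obtain ⟨e, he, a, ha, rfl⟩ := Cfsg.Agent.H01.exists_mul_of_mem_sup hAE hv1
  have he2 : e ∈ 𝐍 A := by
    have := (𝐍 A).mul_mem hv2 ((𝐍 A).inv_mem (Subgroup.le_normalizer ha))
    simpa using this
  have he3 : e ∈ A := h (Subgroup.mem_inf.2 ⟨he, he2⟩)
  exact hvA (A.mul_mem he3 ha)

theorem mem_normalizer_sup {A B : Subgroup G} {g : G} (hA : g ∈ 𝐍 A) (hB : g ∈ 𝐍 B) : g ∈ 𝐍 (A ⊔ B) := by
  apply mem_normalizer_of_map_conj_eq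
  rw [Subgroup.map_sup, map_conj_eq_of_mem_normalizer hA, map_conj_eq_of_mem_normalizer hB]

/-- The action of a stabilizer on `A`. -/
theorem stability_lemma [Finite G] [Fact p.Prime] {A A₂ K D₂ : Subgroup G}
    (hA₂ : IsPGroup p A₂)
    (hK1 : ∀ k ∈ K, k ∈ 𝐍 A) (hK2 : ∀ k ∈ K, k ∈ Subgroup.centralizer (A₂ : Set G))
    (hK3 : ∀ k ∈ K, ∀ a ∈ A, k * a * k⁻¹ * a⁻¹ ∈ A₂)
    (hD₂K : D₂ ≤ K) (hD₂p : IsPGroup p D₂) (hD₂ : ¬ p ∣ D₂.relIndex K) :
    ∀ k ∈ K, ∃ d ∈ D₂, ∀ a ∈ A, k * a * k⁻¹ = d * a * d⁻¹ := by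
  classical
  let Cₖ : Subgroup K := (Subgroup.centralizer (A : Set G)).subgroupOf K
  haveI hCₖ : Cₖ.Normal := by
    constructor
    intro c hc k
    rw [Subgroup.mem_subgroupOf, Subgroup.mem_centralizer_iff] at hc ⊢
    intro a ha
    have h1 := hc _ (conj_mem_of_normalizer ((𝐍 A).inv_mem (hK1 k k.2)) ha)
    have h2 : (k : G)⁻¹ * a * ((k : G)⁻¹)⁻¹ * (c : G) = (c : G) * ((k : G)⁻¹ * a * ((k : G)⁻¹)⁻¹) := h1
    simp only [inv_inv] at h2
    simp only [Subgroup.coe_mul, InvMemClass.coe_inv]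
    calc a * ((k : G) * c * (k : G)⁻¹) = (k : G) * ((k : G)⁻¹ * a * k * c) * (k : G)⁻¹ := by group
      _ = (k : G) * (c * ((k : G)⁻¹ * a * k)) * (k : G)⁻¹ := by rw [h2]
      _ = _ := by group
  have hpow : ∀ k ∈ K, k ^ Nat.card A₂ ∈ Subgroup.centralizer (A : Set G) := by
    intro k hk
    rw [Subgroup.mem_centralizer_iff]
    intro a ha
    set z := k * a * k⁻¹ * a⁻¹ with hz
    have hzA : z ∈ A₂ := hK3 k hk a ha
    have hkz : k * z * k⁻¹ = z := conj_eq_of_mem_centralizer (hK2 k hk) hzA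
    have hn : ∀ n : ℕ, k ^ n * a * (k ^ n)⁻¹ = z ^ n * a := by
      intro n
      induction n with
      | zero => simp
      | succ n ih =>
        have e1 : k ^ (n + 1) * a * (k ^ (n + 1))⁻¹ = k * (k ^ n * a * (k ^ n)⁻¹) * k⁻¹ := by
          rw [pow_succ']; group
        have e2 : k * z ^ n * k⁻¹ = z ^ n := by
          rw [← conj_pow, hkz]
        have e3 : k * a * k⁻¹ = z * a := by rw [hz]; group
        rw [e1, ih]
        calc k * (z ^ n * a) * k⁻¹ = (k * z ^ n * k⁻¹) * (k * a * k⁻¹) := by group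
          _ = z ^ n * (z * a) := by rw [e2, e3]
          _ = z ^ (n + 1) * a := by rw [pow_succ]; group
    have h1 : z ^ Nat.card A₂ = 1 := by
      have h := pow_card_eq_one' (G := A₂) (x := ⟨z, hzA⟩)
      exact congrArg Subtype.val h
    have h2 := hn (Nat.card A₂)
    rw [h1, one_mul] at h2
    have h3 : k ^ Nat.card A₂ * a = a * k ^ Nat.card A₂ := by
      calc k ^ Nat.card A₂ * a = (k ^ Nat.card A₂ * a * (k ^ Nat.card A₂)⁻¹) * k ^ Nat.card A₂ := by group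
        _ = a * k ^ Nat.card A₂ := by rw [h2]
    exact h3.symm
  obtain ⟨m, hm⟩ := IsPGroup.iff_card.mp hA₂
  have hQ : IsPGroup p (K ⧸ Cₖ) := by
    intro g
    obtain ⟨k, rfl⟩ := QuotientGroup.mk_surjective g
    refine ⟨m, ?_⟩
    rw [← QuotientGroup.mk_pow, QuotientGroup.eq_one_iff, ← hm]
    rw [Subgroup.mem_subgroupOf]
    simpa using hpow k k.2
  obtain ⟨a₀, ha₀⟩ := IsPGroup.iff_card.mp hQ
  have hidx : Cₖ.index = p ^ a₀ := by rw [Subgroup.index_eq_card]; exact ha₀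
  have hT' : IsPGroup p (D₂.subgroupOf K) :=
    IsPGroup.comap_of_injective hD₂p _ (Subgroup.subtype_injective K)
  let T : Sylow p K := hT'.toSylow hD₂
  intro k hk
  obtain ⟨t, ht, c, hc, hy⟩ := Cfsg.Agent.H13.exists_sylow_mul_of_index_pow T Cₖ hidx ⟨k, hk⟩
  have ht2 : (t : G) ∈ D₂ := ht
  refine ⟨t, ht2, ?_⟩
  intro a ha
  have hc2 : (c : G) ∈ Subgroup.centralizer (A : Set G) := hc
  have hk2 : k = (t : G) * c := by simpa using congrArg Subtype.val hy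
  rw [hk2]
  have h1 := conj_eq_of_mem_centralizer hc2 ha
  calc (t : G) * c * a * ((t : G) * c)⁻¹ = (t : G) * ((c : G) * a * (c : G)⁻¹) * (t : G)⁻¹ := by group
    _ = _ := by rw [h1]


theorem local_step [Finite G] [Fact p.Prime] (N : Subgroup G) [N.Normal] (P : Sylow p G) (W : Subgroup G)
    (hPW : (P : Subgroup G) ≤ 𝐍 W)
    (hMW : 𝐍 ((P : Subgroup G) ⊓ N) ≤ 𝐍 W)
    (hF3 : ∀ A : Subgroup G, A ≤ (P : Subgroup G) ⊓ N → ∀ n ∈ N, (A ⋆ n) ≤ (P : Subgroup G) ⊓ N →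
      ∃ h ∈ N ⊓ 𝐍 W, ∃ c ∈ N ⊓ Subgroup.centralizer (A : Set G), n = h * c)
    (A : Subgroup G) (hA : A ≤ (P : Subgroup G))
    (hfn : ¬ p ∣ ((P : Subgroup G) ⊓ 𝐍 A).relIndex (𝐍 A))
    (hfn2 : ¬ p ∣ ((P : Subgroup G) ⊓ 𝐍 (A ⊓ N)).relIndex (𝐍 (A ⊓ N)))
    (hbig : ∀ Q' : Subgroup G, Q' ≤ (P : Subgroup G) → Nat.card A < Nat.card Q' →
      ∀ g' : G, (Q' ⋆ g') ≤ (P : Subgroup G) → ∃ h ∈ 𝐍 W, ∀ a ∈ Q', g' * a * g'⁻¹ = h * a * h⁻¹)
    (w : G) (hw : w ∈ 𝐍 A) : ∃ h ∈ 𝐍 W, ∀ a ∈ A, w * a * w⁻¹ = h * a * h⁻¹ := by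
  have hPp : IsPGroup p (P : Subgroup G) := P.isPGroup'
  have hNn : ∀ x : G, x ∈ 𝐍 N := fun x => by
    rw [Subgroup.normalizer_eq_top]; trivial
  set D : Subgroup G := (P : Subgroup G) ⊓ N with hD
  have hDP : D ≤ (P : Subgroup G) := inf_le_left
  have hDN : D ≤ N := inf_le_right
  have hDp : IsPGroup p D := hPp.to_le hDP
  have hinf_norm : ∀ {X Y : Subgroup G} {x : G}, x ∈ 𝐍 X → x ∈ 𝐍 Y → x ∈ 𝐍 (X ⊓ Y) := by
    intro X Y x hX hY
    rw [Subgroup.mem_normalizer_iff]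
    intro t
    rw [Subgroup.mem_inf, Subgroup.mem_inf, ← Subgroup.mem_normalizer_iff.1 hX t,
      ← Subgroup.mem_normalizer_iff.1 hY t]
  have hPD : (P : Subgroup G) ≤ 𝐍 D := fun x hx =>
    hinf_norm (Subgroup.le_normalizer hx) (hNn x)
  have hDW : D ≤ 𝐍 W := hDP.trans hPW
  have hAD : A ≤ 𝐍 D := hA.trans hPD
  -- Y, D₁
  set Y : Subgroup G := 𝐍 A ⊓ N with hY
  set D₁ : Subgroup G := D ⊓ 𝐍 A with hD₁
  have hYA : Y ≤ 𝐍 A := inf_le_left
  have hAnY : 𝐍 A ≤ 𝐍 Y := fun x hx => hinf_norm (by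
      -- x normalizes its own normalizer
      rw [Subgroup.mem_normalizer_iff]
      intro t
      constructor
      · intro ht
        exact (𝐍 A).mul_mem ((𝐍 A).mul_mem hx ht) ((𝐍 A).inv_mem hx)
      · intro ht
        have := (𝐍 A).mul_mem ((𝐍 A).mul_mem ((𝐍 A).inv_mem hx) ht) hx
        simpa [mul_assoc] using this) (hNn x)
  have hD₁eq : ((P : Subgroup G) ⊓ 𝐍 A) ⊓ Y = D₁ := by
    ext x
    simp only [hD₁, hD, hY, Subgroup.mem_inf]
    tauto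
  have hD₁s : ¬ p ∣ D₁.relIndex Y := by
    have := not_dvd_inf_normal (p := p) hYA hAnY (inf_le_right : (P : Subgroup G) ⊓ 𝐍 A ≤ 𝐍 A)
      (hPp.to_le inf_le_left) hfn
    rwa [hD₁eq] at this
  have hD₁Y : D₁ ≤ Y := fun x hx => Subgroup.mem_inf.2 ⟨(Subgroup.mem_inf.1 hx).2,
    hDN (Subgroup.mem_inf.1 hx).1⟩
  have hD₁p : IsPGroup p D₁ := hDp.to_le inf_le_left
  have hD₁P : D₁ ≤ (P : Subgroup G) := inf_le_left.trans hDP
  obtain ⟨y, hy, x, hx, rfl⟩ := frattini_in hYA hAnY hD₁Y hD₁p hD₁s hw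
  obtain ⟨hxA, hxD₁⟩ := Subgroup.mem_inf.1 hx
  -- a helper: an element normalizing `A` and a subgroup `E` of `P` not in `A`
  have hnorm_big : ∀ E : Subgroup G, E ≤ (P : Subgroup G) → ¬ E ≤ A → ∀ u ∈ 𝐍 A, u ∈ 𝐍 E →
      ∃ h ∈ 𝐍 W, ∀ a ∈ A, u * a * u⁻¹ = h * a * h⁻¹ := by
    intro E hE hEA u hu1 hu2
    have hle : A ⊔ E ≤ (P : Subgroup G) := sup_le hA hE
    have hlt : A < A ⊔ E := lt_of_le_of_ne le_sup_left (fun heq => hEA (by
      rw [heq]; exact le_sup_right))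
    have hcard : Nat.card A < Nat.card (A ⊔ E : Subgroup G) := card_lt_of_lt' hlt
    have hmap : ((A ⊔ E) ⋆ u) ≤ (P : Subgroup G) := by
      rw [map_conj_eq_of_mem_normalizer (mem_normalizer_sup hu1 hu2)]
      exact hle
    obtain ⟨h, hh, hh2⟩ := hbig _ hle hcard u hmap
    exact ⟨h, hh, fun a ha => hh2 a (Subgroup.mem_sup_left ha)⟩
  -- the part `x`
  have hxctl : ∃ h ∈ 𝐍 W, ∀ a ∈ A, x * a * x⁻¹ = h * a * h⁻¹ := by
    by_cases hc : D₁ ≤ A
    · have hDA : D ≤ A := le_of_inf_normalizer_le (p := p) hAD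
        (hPp.to_le (sup_le hDP hA)) hc
      have hD₁D : D₁ = D := by
        apply le_antisymm inf_le_left
        exact le_inf le_rfl (hDA.trans Subgroup.le_normalizer)
      rw [hD₁D] at hxD₁
      exact ⟨x, hMW hxD₁, fun _ _ => rfl⟩
    · exact hnorm_big D₁ hD₁P hc x hxA hxD₁
  -- the part `y`
  have hyctl : ∃ h ∈ 𝐍 W, ∀ a ∈ A, y * a * y⁻¹ = h * a * h⁻¹ := by
    obtain ⟨hyA, hyN⟩ := Subgroup.mem_inf.1 hy
    set A₂ : Subgroup G := A ⊓ N with hA₂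
    have hA₂A : A₂ ≤ A := inf_le_left
    have hA₂N : A₂ ≤ N := inf_le_right
    have hA₂D : A₂ ≤ D := le_inf (hA₂A.trans hA) hA₂N
    have hA₂p : IsPGroup p A₂ := hDp.to_le hA₂D
    have hnA₂ : ∀ u ∈ 𝐍 A, u ∈ 𝐍 A₂ := fun u hu => hinf_norm hu (hNn u)
    set CC : Subgroup G := N ⊓ Subgroup.centralizer (A₂ : Set G) with hCC
    have hcenN : ∀ u ∈ 𝐍 A₂, u ∈ 𝐍 (Subgroup.centralizer (A₂ : Set G)) := by
      intro u hu
      rw [Subgroup.mem_normalizer_iff]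
      intro t
      have key : ∀ v ∈ 𝐍 A₂, ∀ t ∈ Subgroup.centralizer (A₂ : Set G),
          v * t * v⁻¹ ∈ Subgroup.centralizer (A₂ : Set G) := by
        intro v hv t ht
        rw [Subgroup.mem_centralizer_iff] at ht ⊢
        intro a ha
        have h1 := ht _ (conj_mem_of_normalizer ((𝐍 A₂).inv_mem hv) ha)
        simp only [inv_inv] at h1
        calc a * (v * t * v⁻¹) = v * (v⁻¹ * a * v * t) * v⁻¹ := by group
          _ = v * (t * (v⁻¹ * a * v)) * v⁻¹ := by rw [h1]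
          _ = _ := by group
      constructor
      · exact key u hu t
      · intro h
        have := key _ ((𝐍 A₂).inv_mem hu) _ h
        simpa [mul_assoc] using this
    have hCCn : ∀ u ∈ 𝐍 A₂, u ∈ 𝐍 CC := fun u hu => hinf_norm (hNn u) (hcenN u hu)
    have hCCA₂ : CC ≤ 𝐍 A₂ := fun u hu => by
      rw [Subgroup.mem_normalizer_iff]
      intro t
      have hu2 := (Subgroup.mem_inf.1 hu).2
      constructor
      · intro ht
        rwa [conj_eq_of_mem_centralizer hu2 ht]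
      · intro ht
        have := (𝐍 A₂)
        have h1 : u⁻¹ * (u * t * u⁻¹) * u = t := by group
        rw [← h1]
        have hu3 := (Subgroup.centralizer (A₂ : Set G)).inv_mem hu2
        have := conj_eq_of_mem_centralizer hu3 ht
        simp only [inv_inv] at this
        rw [this]
        exact ht
    set D₃ : Subgroup G := D ⊓ Subgroup.centralizer (A₂ : Set G) with hD₃
    have hD₃eq : ((P : Subgroup G) ⊓ 𝐍 A₂) ⊓ CC = D₃ := by
      ext t
      simp only [hD₃, hD, hCC, Subgroup.mem_inf]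
      constructor
      · rintro ⟨⟨h1, -⟩, h3, h4⟩
        exact ⟨⟨h1, h3⟩, h4⟩
      · rintro ⟨⟨h1, h2⟩, h3⟩
        exact ⟨⟨h1, hCCA₂ (Subgroup.mem_inf.2 ⟨h2, h3⟩)⟩, h2, h3⟩
    have hD₃s : ¬ p ∣ D₃.relIndex CC := by
      have := not_dvd_inf_normal (p := p) hCCA₂ hCCn
        (inf_le_right : (P : Subgroup G) ⊓ 𝐍 A₂ ≤ 𝐍 A₂) (hPp.to_le inf_le_left) hfn2
      rwa [hD₃eq] at this
    have hD₃C : D₃ ≤ CC := fun t ht => Subgroup.mem_inf.2 ⟨hDN (Subgroup.mem_inf.1 ht).1, (Subgroup.mem_inf.1 ht).2⟩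
    have hD₃p : IsPGroup p D₃ := hDp.to_le inf_le_left
    set K : Subgroup G := CC ⊓ 𝐍 A with hK
    set D₂ : Subgroup G := D₃ ⊓ 𝐍 A with hD₂
    have hKY : K ≤ Y := fun t ht => Subgroup.mem_inf.2 ⟨(Subgroup.mem_inf.1 ht).2,
      (Subgroup.mem_inf.1 (Subgroup.mem_inf.1 ht).1).1⟩
    have hYnK : Y ≤ 𝐍 K := fun t ht => hinf_norm (hCCn t (hnA₂ t (Subgroup.mem_inf.1 ht).1))
      (hAnY (Subgroup.mem_inf.1 ht).1 |> fun _ => by
        rw [Subgroup.mem_normalizer_iff]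
        intro s
        have ht1 := (Subgroup.mem_inf.1 ht).1
        constructor
        · intro hs
          exact (𝐍 A).mul_mem ((𝐍 A).mul_mem ht1 hs) ((𝐍 A).inv_mem ht1)
        · intro hs
          have := (𝐍 A).mul_mem ((𝐍 A).mul_mem ((𝐍 A).inv_mem ht1) hs) ht1
          simpa [mul_assoc] using this)
    have hD₂eq : D₁ ⊓ K = D₂ := by
      ext t
      simp only [hD₁, hD₂, hD₃, hK, hCC, Subgroup.mem_inf]
      constructor
      · rintro ⟨⟨h1, h2⟩, ⟨h3, h4⟩, -⟩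
        exact ⟨⟨h1, h4⟩, h2⟩
      · rintro ⟨⟨h1, h2⟩, h3⟩
        exact ⟨⟨h1, h3⟩, ⟨hDN h1, h2⟩, h3⟩
    have hD₂s : ¬ p ∣ D₂.relIndex K := by
      have := not_dvd_inf_normal (p := p) hKY hYnK hD₁Y hD₁p hD₁s
      rwa [hD₂eq] at this
    have hD₂K : D₂ ≤ K := fun t ht => Subgroup.mem_inf.2 ⟨hD₃C (Subgroup.mem_inf.1 ht).1, (Subgroup.mem_inf.1 ht).2⟩
    have hD₂p : IsPGroup p D₂ := hD₃p.to_le inf_le_left
    have hD₂D : D₂ ≤ D := inf_le_left.trans inf_le_left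
    have hstab := stability_lemma (A := A) (A₂ := A₂) (K := K) (D₂ := D₂) hA₂p
      (fun k hk => (Subgroup.mem_inf.1 hk).2)
      (fun k hk => (Subgroup.mem_inf.1 (Subgroup.mem_inf.1 hk).1).2)
      (fun k hk a ha => by
        have hkA := (Subgroup.mem_inf.1 hk).2
        have hkN := (Subgroup.mem_inf.1 (Subgroup.mem_inf.1 hk).1).1
        refine Subgroup.mem_inf.2 ⟨A.mul_mem (conj_mem_of_normalizer hkA ha) (A.inv_mem ha), ?_⟩
        have e : k * a * k⁻¹ * a⁻¹ = k * (a * k⁻¹ * a⁻¹) := by group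
        rw [e]
        exact N.mul_mem hkN (‹N.Normal›.conj_mem _ (N.inv_mem hkN) a))
      hD₂K hD₂p hD₂s
    by_cases hcase : D₂ ≤ A
    · -- case (i)
      have hAnC : A ≤ 𝐍 CC := fun a ha => hCCn a (hnA₂ a (Subgroup.le_normalizer ha))
      have hAnD₃ : A ≤ 𝐍 D₃ := fun a ha => hinf_norm (hAD ha) (hcenN a (hnA₂ a (Subgroup.le_normalizer ha)))
      have hD₃A : D₃ ≤ A := le_of_inf_normalizer_le (p := p) hAnD₃
        (hPp.to_le (sup_le (inf_le_left.trans hDP) hA)) hcase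
      -- control on `A₂`
      have hA₂y : (A₂ ⋆ y) ≤ D := by
        rw [map_conj_eq_of_mem_normalizer (hnA₂ y hyA)]
        exact hA₂D
      obtain ⟨h, hh, c, hc, hyhc⟩ := hF3 A₂ hA₂D y hyN hA₂y
      obtain ⟨hhN, hhW⟩ := Subgroup.mem_inf.1 hh
      have hcC : c ∈ CC := hc
      set C₁ : Subgroup G := CC ⊓ 𝐍 W with hC₁
      have hAW : A ≤ 𝐍 W := hA.trans hPW
      have hAnC₁ : A ≤ 𝐍 C₁ := fun a ha => hinf_norm (hAnC ha) (by
        rw [Subgroup.mem_normalizer_iff]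
        intro s
        have ha1 := hAW ha
        constructor
        · intro hs
          exact (𝐍 W).mul_mem ((𝐍 W).mul_mem ha1 hs) ((𝐍 W).inv_mem ha1)
        · intro hs
          have := (𝐍 W).mul_mem ((𝐍 W).mul_mem ((𝐍 W).inv_mem ha1) hs) ha1
          simpa [mul_assoc] using this)
      have hD₃C₁ : D₃ ≤ C₁ := le_inf hD₃C (inf_le_left.trans hDW)
      have hC₁C : C₁ ≤ CC := inf_le_left
      have hD₃C₁s : ¬ p ∣ D₃.relIndex C₁ := by
        intro hd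
        apply hD₃s
        rw [← Subgroup.relIndex_mul_relIndex D₃ C₁ CC hD₃C₁ hC₁C]
        exact Dvd.dvd.mul_right hd _
      have hAC₁s : ¬ p ∣ A.relIndex C₁ := not_dvd_relIndex_of_le hD₃A hD₃C₁s
      have hALs : ¬ p ∣ A.relIndex (C₁ ⊔ A) := by
        rw [Cfsg.Agent.H16.relIndex_sup_of_le_normalizer' C₁ A hAnC₁]
        exact hAC₁s
      have hAL : A ≤ C₁ ⊔ A := le_sup_right
      have hAp : IsPGroup p A := hPp.to_le hA
      -- `A ⋆ h` lies in `L`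
      have hAhL : (A ⋆ h) ≤ C₁ ⊔ A := by
        rw [map_conj_le_iff]
        intro a ha
        have hyA' : y * a * y⁻¹ ∈ A := conj_mem_of_normalizer hyA ha
        set a' := y * a * y⁻¹ with ha'
        have hu : h * a * h⁻¹ * a'⁻¹ ∈ C₁ := by
          refine Subgroup.mem_inf.2 ⟨?_, ?_⟩
          · have e : h * a * h⁻¹ * a'⁻¹ = y * (c⁻¹ * (a * c * a⁻¹)) * y⁻¹ := by
              rw [ha', hyhc]; group
            rw [e]
            apply conj_mem_of_normalizer (hCCn y (hnA₂ y hyA))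
            exact CC.mul_mem (CC.inv_mem hcC) (conj_mem_of_normalizer (hAnC ha) hcC)
          · exact (𝐍 W).mul_mem ((𝐍 W).mul_mem ((𝐍 W).mul_mem hhW (hAW ha)) ((𝐍 W).inv_mem hhW))
              ((𝐍 W).inv_mem (hAW hyA'))
        have e : h * a * h⁻¹ = (h * a * h⁻¹ * a'⁻¹) * a' := by group
        rw [e]
        exact Subgroup.mul_mem_sup hu hyA'
      obtain ⟨l, hl, hle⟩ := exists_conj_le_of_not_dvd_relIndex hAL hAp hALs hAhL (isPGroup_map_conj hAp h)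
      obtain ⟨c₂, hc₂, a₂, ha₂, hl2⟩ := Cfsg.Agent.H01.exists_mul_of_mem_sup hAnC₁ ((C₁ ⊔ A).inv_mem hl)
      have hl3 : l = a₂⁻¹ * c₂⁻¹ := by
        have : l = (l⁻¹)⁻¹ := by group
        rw [this, hl2]; group
      have heqA : ((A ⋆ h) ⋆ l) = A := by
        apply Subgroup.eq_of_le_of_card_ge hle
        rw [card_map_conj, card_map_conj]
      set c₁ : G := c₂⁻¹ with hc₁
      have hc₁C : c₁ ∈ C₁ := C₁.inv_mem hc₂
      set h₃ : G := c₁ * h with hh₃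
      have hh₃A : h₃ ∈ 𝐍 A := by
        apply mem_normalizer_of_map_conj_eq
        have h1 : (((A ⋆ h) ⋆ c₁) ⋆ a₂⁻¹) = A := by
          rw [← map_conj_mul, ← hl3]
          exact heqA
        have h2 : ((A ⋆ h) ⋆ c₁) = (A ⋆ a₂) := by
          rw [← map_conj_cancel_inv ((A ⋆ h) ⋆ c₁) a₂, h1]
        rw [hh₃, map_conj_mul, h2]
        exact map_conj_eq_of_mem_normalizer (Subgroup.le_normalizer ha₂)
      have hh₃W : h₃ ∈ 𝐍 W := (𝐍 W).mul_mem (Subgroup.mem_inf.1 hc₁C).2 hhW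
      have hc₁cen : c₁ ∈ Subgroup.centralizer (A₂ : Set G) := (Subgroup.mem_inf.1 (Subgroup.mem_inf.1 hc₁C).1).2
      have hc₁N : c₁ ∈ N := (Subgroup.mem_inf.1 (Subgroup.mem_inf.1 hc₁C).1).1
      have hh₃N : h₃ ∈ N := N.mul_mem hc₁N hhN
      set w' : G := h₃⁻¹ * y with hw'
      have hw'A : w' ∈ 𝐍 A := (𝐍 A).mul_mem ((𝐍 A).inv_mem hh₃A) hyA
      have hw'N : w' ∈ N := N.mul_mem (N.inv_mem hh₃N) hyN
      have hccen : c ∈ Subgroup.centralizer (A₂ : Set G) := (Subgroup.mem_inf.1 hcC).2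
      have hw'cen : w' ∈ Subgroup.centralizer (A₂ : Set G) := by
        rw [Subgroup.mem_centralizer_iff]
        intro s hs
        have h1 : y * s * y⁻¹ = h * s * h⁻¹ := by
          rw [hyhc]
          calc h * c * s * (h * c)⁻¹ = h * (c * s * c⁻¹) * h⁻¹ := by group
            _ = _ := by rw [conj_eq_of_mem_centralizer hccen hs]
        have h2 : h * s * h⁻¹ ∈ A₂ := by
          rw [← h1]
          exact conj_mem_of_normalizer (hnA₂ y hyA) hs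
        have h3 : h₃ * s * h₃⁻¹ = h * s * h⁻¹ := by
          rw [hh₃]
          calc c₁ * h * s * (c₁ * h)⁻¹ = c₁ * (h * s * h⁻¹) * c₁⁻¹ := by group
            _ = _ := by rw [conj_eq_of_mem_centralizer hc₁cen h2]
        have h4 : w' * s * w'⁻¹ = s := by
          rw [hw']
          calc h₃⁻¹ * y * s * (h₃⁻¹ * y)⁻¹ = h₃⁻¹ * (y * s * y⁻¹) * h₃ := by group
            _ = h₃⁻¹ * (h₃ * s * h₃⁻¹) * h₃ := by rw [h1, h3]
            _ = s := by group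
        calc s * w' = (w' * s * w'⁻¹) * w' := by rw [h4]
          _ = w' * s := by group
      have hw'K : w' ∈ K := Subgroup.mem_inf.2 ⟨Subgroup.mem_inf.2 ⟨hw'N, hw'cen⟩, hw'A⟩
      obtain ⟨d, hd, hd2⟩ := hstab w' hw'K
      refine ⟨h₃ * d, (𝐍 W).mul_mem hh₃W (hDW (hD₂D hd)), ?_⟩
      intro a ha
      have hy2 : y = h₃ * w' := by rw [hw']; group
      rw [hy2]
      calc h₃ * w' * a * (h₃ * w')⁻¹ = h₃ * (w' * a * w'⁻¹) * h₃⁻¹ := by group
        _ = h₃ * (d * a * d⁻¹) * h₃⁻¹ := by rw [hd2 a ha]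
        _ = _ := by group
    · -- case (ii)
      obtain ⟨k, hk, y₁, hy₁, hyk⟩ := frattini_in hKY hYnK hD₂K hD₂p hD₂s hy
      obtain ⟨hy₁Y, hy₁D⟩ := Subgroup.mem_inf.1 hy₁
      obtain ⟨h₁, hh₁, hh₁2⟩ := hnorm_big D₂ ((hD₂D.trans hDP)) hcase y₁ (Subgroup.mem_inf.1 hy₁Y).1 hy₁D
      obtain ⟨d, hd, hd2⟩ := hstab k hk
      refine ⟨d * h₁, (𝐍 W).mul_mem (hDW (hD₂D hd)) hh₁, ?_⟩
      intro a ha
      rw [hyk]
      have h1 : y₁ * a * y₁⁻¹ ∈ A := conj_mem_of_normalizer (Subgroup.mem_inf.1 hy₁Y).1 ha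
      calc k * y₁ * a * (k * y₁)⁻¹ = k * (y₁ * a * y₁⁻¹) * k⁻¹ := by group
        _ = d * (y₁ * a * y₁⁻¹) * d⁻¹ := hd2 _ h1
        _ = d * (h₁ * a * h₁⁻¹) * d⁻¹ := by rw [hh₁2 a ha]
        _ = _ := by group
  obtain ⟨h₁, hh₁, hh₁2⟩ := hxctl
  obtain ⟨h₂, hh₂, hh₂2⟩ := hyctl
  refine ⟨h₂ * h₁, (𝐍 W).mul_mem hh₂ hh₁, ?_⟩
  intro a ha
  have h1 : x * a * x⁻¹ ∈ A := conj_mem_of_normalizer hxA ha
  calc y * x * a * (y * x)⁻¹ = y * (x * a * x⁻¹) * y⁻¹ := by group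
    _ = h₂ * (x * a * x⁻¹) * h₂⁻¹ := hh₂2 _ h1
    _ = h₂ * (h₁ * a * h₁⁻¹) * h₂⁻¹ := by rw [hh₁2 a ha]
    _ = _ := by group


theorem ctrl_finite [Finite G] (N D : Subgroup G) (𝒮 : Set (Subgroup G)) (h𝒮f : 𝒮.Finite)
    (hX : ∀ X ∈ 𝒮, X ≤ D)
    (hc : ∀ X ∈ 𝒮, ∀ A : Subgroup G, A ≤ D → ∀ n ∈ N, (A ⋆ n) ≤ D →
      ∃ h ∈ N ⊓ 𝐍 X, ∃ c ∈ N ⊓ Subgroup.centralizer (A : Set G), n = h * c) :
    ∀ A : Subgroup G, A ≤ D → ∀ n ∈ N, (A ⋆ n) ≤ D →
      ∃ h ∈ N, (∀ X ∈ 𝒮, h ∈ 𝐍 X) ∧ ∃ c ∈ N ⊓ Subgroup.centralizer (A : Set G), n = h * c := by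
  revert hX hc
  induction 𝒮, h𝒮f using Set.Finite.induction_on with
  | empty =>
    intro _ _ A _ n hn _
    exact ⟨n, hn, by simp, 1, Subgroup.one_mem _, by simp⟩
  | @insert X₀ 𝒮 _ _ ih =>
    intro hX hc A hA n hn hAn
    have hX₀ : X₀ ≤ D := hX X₀ (Set.mem_insert _ _)
    obtain ⟨h₀, hh₀, c₀, hc₀, e₀⟩ := hc X₀ (Set.mem_insert _ _) A hA n hn hAn
    obtain ⟨hh₀N, hh₀X⟩ := Subgroup.mem_inf.1 hh₀
    obtain ⟨hc₀N, hc₀C⟩ := Subgroup.mem_inf.1 hc₀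
    have hagree : ∀ a ∈ A, h₀ * a * h₀⁻¹ = n * a * n⁻¹ := by
      intro a ha
      rw [e₀]
      calc h₀ * a * h₀⁻¹ = h₀ * (c₀ * a * c₀⁻¹) * h₀⁻¹ := by
            rw [conj_eq_of_mem_centralizer hc₀C ha]
        _ = _ := by group
    have hmap₀ : (A ⋆ h₀) = (A ⋆ n) := map_conj_congr hagree
    have hA₁ : A ⊔ X₀ ≤ D := sup_le hA hX₀
    have hA₁h : ((A ⊔ X₀) ⋆ h₀) ≤ D := by
      rw [Subgroup.map_sup, map_conj_eq_of_mem_normalizer hh₀X, hmap₀]
      exact sup_le hAn hX₀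
    obtain ⟨h₁, hh₁, hh₁X, c₁, hc₁, e₁⟩ := ih (fun X h => hX X (Or.inr h)) (fun X h => hc X (Or.inr h))
      (A ⊔ X₀) hA₁ h₀ hh₀N hA₁h
    obtain ⟨hc₁N, hc₁C⟩ := Subgroup.mem_inf.1 hc₁
    refine ⟨h₁, hh₁, ?_, c₁ * c₀, Subgroup.mem_inf.2 ⟨N.mul_mem hc₁N hc₀N, ?_⟩, ?_⟩
    · intro X hXm
      rcases hXm with rfl | hXm
      · apply mem_normalizer_of_map_conj_eq
        have h1 : (X ⋆ h₁) = (X ⋆ h₀) := by
          apply map_conj_congr
          intro v hv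
          rw [e₁]
          have hv2 : v ∈ A ⊔ X := Subgroup.mem_sup_right hv
          calc h₁ * v * h₁⁻¹ = h₁ * (c₁ * v * c₁⁻¹) * h₁⁻¹ := by
                rw [conj_eq_of_mem_centralizer hc₁C hv2]
            _ = _ := by group
        rw [h1]
        exact map_conj_eq_of_mem_normalizer hh₀X
      · exact hh₁X X hXm
    · refine Subgroup.mul_mem _ ?_ hc₀C
      exact Subgroup.centralizer_le (fun a ha => Subgroup.mem_sup_left ha) hc₁C
    · rw [e₀, e₁]; group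

/-- the family of subgroups `U` of `P` with `U` and `U ⊓ N` fully normalized -/
theorem placed_two [Finite G] [Fact p.Prime] (N : Subgroup G) [N.Normal] (P : Sylow p G) :
    PlacedFamily p (P : Subgroup G)
      {U | U ≤ (P : Subgroup G) ∧ ¬ p ∣ ((P : Subgroup G) ⊓ 𝐍 U).relIndex (𝐍 U) ∧
        ¬ p ∣ ((P : Subgroup G) ⊓ 𝐍 (U ⊓ N)).relIndex (𝐍 (U ⊓ N))} where
  le := fun T hT => hT.1
  syl := fun T hT => hT.2.1
  conj := by
    intro T hT
    have hPp : IsPGroup p (P : Subgroup G) := P.isPGroup'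
    have hNn : ∀ x : G, x ∈ 𝐍 N := fun x => by
      rw [Subgroup.normalizer_eq_top]; trivial
    have hinf_norm : ∀ {X Y : Subgroup G} {x : G}, x ∈ 𝐍 X → x ∈ 𝐍 Y → x ∈ 𝐍 (X ⊓ Y) := by
      intro X Y x hX hY
      rw [Subgroup.mem_normalizer_iff]
      intro t
      rw [Subgroup.mem_inf, Subgroup.mem_inf, ← Subgroup.mem_normalizer_iff.1 hX t,
        ← Subgroup.mem_normalizer_iff.1 hY t]
    obtain ⟨g₁, hg₁, hg₁f⟩ := exists_fully_normalized_conj P (hPp.to_le hT)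
    set B : Subgroup G := T ⋆ g₁ with hB
    have hB₂p : IsPGroup p (B ⊓ N : Subgroup G) := hPp.to_le (inf_le_left.trans hg₁)
    obtain ⟨g₂, hg₂, hg₂f⟩ := exists_fully_normalized_conj P hB₂p
    set B₂ : Subgroup G := B ⊓ N with hB₂
    set B₂' : Subgroup G := B₂ ⋆ g₂ with hB₂'
    set R : Subgroup G := (P : Subgroup G) ⊓ 𝐍 B₂ with hR
    have hX : (R ⋆ g₂) ≤ 𝐍 B₂' := by
      rw [hB₂', normalizer_map_conj]
      exact map_conj_mono inf_le_right _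
    obtain ⟨z, hz, hzle⟩ := exists_conj_le_of_not_dvd_relIndex
      (inf_le_right : (P : Subgroup G) ⊓ 𝐍 B₂' ≤ 𝐍 B₂') (hPp.to_le inf_le_left) hg₂f hX
      (isPGroup_map_conj (hPp.to_le inf_le_left) g₂)
    set g₃ : G := z * g₂ with hg₃
    have hRg₃ : (R ⋆ g₃) ≤ (P : Subgroup G) ⊓ 𝐍 B₂' := by
      rw [hg₃, map_conj_mul]; exact hzle
    have hB₂g₃ : (B₂ ⋆ g₃) = B₂' := by
      rw [hg₃, map_conj_mul, map_conj_eq_of_mem_normalizer hz]
    have hBR : B ≤ R := le_inf hg₁ (fun b hb => hinf_norm (Subgroup.le_normalizer hb) (hNn b))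
    refine ⟨g₃ * g₁, ?_⟩
    have hTeq : (T ⋆ (g₃ * g₁)) = (B ⋆ g₃) := by rw [map_conj_mul]
    rw [hTeq]
    have hinfc : (B ⋆ g₃) ⊓ N = B₂' := by
      rw [← hB₂g₃, hB₂, Subgroup.map_inf _ _ _ (MulAut.conj g₃).injective,
        map_conj_eq_of_mem_normalizer (hNn g₃)]
    refine ⟨(map_conj_mono hBR g₃).trans (hRg₃.trans inf_le_left), ?_, ?_⟩
    · have h1 := not_dvd_relIndex_map_conj g₃ hg₁f
      rw [← normalizer_map_conj] at h1
      refine not_dvd_relIndex_of_le ?_ h1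
      refine le_inf ?_ ?_
      · refine le_trans (map_conj_mono ?_ g₃) (hRg₃.trans inf_le_left)
        exact inf_le_inf_left _ (fun x hx => hinf_norm hx (hNn x))
      · rw [normalizer_map_conj B g₃]
        exact map_conj_mono (inf_le_right : (P : Subgroup G) ⊓ 𝐍 B ≤ 𝐍 B) _
    · rw [hinfc]
      exact hg₂f


theorem main_thm [Finite G] [Fact p.Prime] (N : Subgroup G) [N.Normal] (P : Sylow p G) (V : Subgroup G)
    (hV : V ≤ (P : Subgroup G) ⊓ N) 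
    (hctrl : ∀ A : Subgroup G, A ≤ (P : Subgroup G) ⊓ N → ∀ n ∈ N, A.map (MulAut.conj n).toMonoidHom ≤ (P : Subgroup G) ⊓ N →
      ∃ h ∈ N ⊓ Subgroup.normalizer (V : Set G), ∃ c ∈ N ⊓ Subgroup.centralizer (A : Set G), n = h * c)
    (W : Subgroup G) (hW : W = Subgroup.closure (⋃ x ∈ Subgroup.normalizer (((P : Subgroup G) ⊓ N : Subgroup G) : Set G),
      ((V.map (MulAut.conj x).toMonoidHom : Subgroup G) : Set G))) :
    ∀ A : Subgroup G, A ≤ (P : Subgroup G) → ∀ g : G, A.map (MulAut.conj g).toMonoidHom ≤ (P : Subgroup G) →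
        ∃ h ∈ Subgroup.normalizer (W : Set G), ∃ c ∈ Subgroup.centralizer (A : Set G), g = h * c := by
  classical
  have hPp : IsPGroup p (P : Subgroup G) := P.isPGroup'
  have hNn : ∀ x : G, x ∈ 𝐍 N := fun x => by
    rw [Subgroup.normalizer_eq_top]; trivial
  have hinf_norm : ∀ {X Y : Subgroup G} {x : G}, x ∈ 𝐍 X → x ∈ 𝐍 Y → x ∈ 𝐍 (X ⊓ Y) := by
    intro X Y x hX hY
    rw [Subgroup.mem_normalizer_iff]
    intro t
    rw [Subgroup.mem_inf, Subgroup.mem_inf, ← Subgroup.mem_normalizer_iff.1 hX t,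
      ← Subgroup.mem_normalizer_iff.1 hY t]
  set D : Subgroup G := (P : Subgroup G) ⊓ N with hD
  have hPD : (P : Subgroup G) ≤ 𝐍 D := fun x hx =>
    hinf_norm (Subgroup.le_normalizer hx) (hNn x)
  have hgenW : ∀ {x y v : G}, y ∈ 𝐍 D → v ∈ (V ⋆ y) → v ∈ W := by
    intro x y v hy hv
    rw [hW]
    apply Subgroup.subset_closure
    simp only [Set.mem_iUnion]
    exact ⟨y, hy, hv⟩
  have hleW : ∀ g : G, (∀ y ∈ 𝐍 D, ∀ v ∈ (V ⋆ y), g * v * g⁻¹ ∈ W) → g ∈ 𝐍 W := by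
    intro g hg
    apply mem_normalizer_of_map_le
    have : W ≤ Subgroup.comap (MulAut.conj g).toMonoidHom W := by
      conv_lhs => rw [hW]
      rw [Subgroup.closure_le]
      intro v hv
      simp only [Set.mem_iUnion] at hv
      obtain ⟨y, hy, hv⟩ := hv
      exact hg y hy v hv
    exact Subgroup.map_le_iff_le_comap.2 this
  have hMW : 𝐍 D ≤ 𝐍 W := by
    intro x hx
    apply hleW
    intro y hy v hv
    have h1 : x * v * x⁻¹ ∈ ((V ⋆ y) ⋆ x) := conj_mem_map x hv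
    rw [← map_conj_mul] at h1
    exact hgenW (x := 1) ((𝐍 D).mul_mem hx hy) h1
  have hPW : (P : Subgroup G) ≤ 𝐍 W := hPD.trans hMW
  -- conjugates of the control hypothesis
  have hcV : ∀ X ∈ {X : Subgroup G | ∃ x ∈ 𝐍 D, X = (V ⋆ x)}, ∀ A : Subgroup G, A ≤ D → ∀ n ∈ N, (A ⋆ n) ≤ D →
      ∃ h ∈ N ⊓ 𝐍 X, ∃ c ∈ N ⊓ Subgroup.centralizer (A : Set G), n = h * c := by
    rintro X ⟨x, hx, rfl⟩ A hA n hn hAn
    have hxi : x⁻¹ ∈ 𝐍 D := (𝐍 D).inv_mem hx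
    have hA' : (A ⋆ x⁻¹) ≤ D := by
      have := map_conj_mono hA x⁻¹
      rwa [map_conj_eq_of_mem_normalizer hxi] at this
    have hn' : x⁻¹ * n * x ∈ N := by
      have := ‹N.Normal›.conj_mem n hn x⁻¹
      simpa using this
    have hA'n : ((A ⋆ x⁻¹) ⋆ (x⁻¹ * n * x)) ≤ D := by
      rw [← map_conj_mul]
      have e : x⁻¹ * n * x * x⁻¹ = x⁻¹ * n := by group
      rw [e, map_conj_mul]
      have := map_conj_mono hAn x⁻¹
      rwa [map_conj_eq_of_mem_normalizer hxi] at this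
    obtain ⟨h, hh, c, hc, e⟩ := hctrl _ hA' _ hn' hA'n
    obtain ⟨hhN, hhV⟩ := Subgroup.mem_inf.1 hh
    obtain ⟨hcN, hcC⟩ := Subgroup.mem_inf.1 hc
    refine ⟨x * h * x⁻¹, Subgroup.mem_inf.2 ⟨‹N.Normal›.conj_mem h hhN x, ?_⟩,
      x * c * x⁻¹, Subgroup.mem_inf.2 ⟨‹N.Normal›.conj_mem c hcN x, ?_⟩, ?_⟩
    · rw [normalizer_map_conj]
      exact conj_mem_map x hhV
    · rw [Subgroup.mem_centralizer_iff]
      intro a ha
      have h1 : x⁻¹ * a * x ∈ (A ⋆ x⁻¹) := by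
        have := conj_mem_map x⁻¹ (SetLike.mem_coe.1 ha)
        simpa using this
      have h2 := Subgroup.mem_centralizer_iff.1 hcC _ h1
      calc a * (x * c * x⁻¹) = x * ((x⁻¹ * a * x) * c) * x⁻¹ := by group
        _ = x * (c * (x⁻¹ * a * x)) * x⁻¹ := by rw [h2]
        _ = _ := by group
    · have : n = x * (x⁻¹ * n * x) * x⁻¹ := by group
      rw [this, e]; group
  have hF3 : ∀ A : Subgroup G, A ≤ D → ∀ n ∈ N, (A ⋆ n) ≤ D →
      ∃ h ∈ N ⊓ 𝐍 W, ∃ c ∈ N ⊓ Subgroup.centralizer (A : Set G), n = h * c := by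
    intro A hA n hn hAn
    obtain ⟨h, hh, hhX, c, hc, e⟩ := ctrl_finite N D {X : Subgroup G | ∃ x ∈ 𝐍 D, X = (V ⋆ x)}
      (Set.toFinite _) (by
        rintro X ⟨x, hx, rfl⟩
        have := map_conj_mono hV x
        rwa [map_conj_eq_of_mem_normalizer hx] at this) hcV A hA n hn hAn
    refine ⟨h, Subgroup.mem_inf.2 ⟨hh, ?_⟩, c, hc, e⟩
    apply hleW
    intro y hy v hv
    have h1 := hhX _ ⟨y, hy, rfl⟩
    exact hgenW (x := 1) hy (conj_mem_of_normalizer h1 hv)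
  -- the engine
  set Ctl : Set G → G → Prop := fun A g => ∃ h ∈ 𝐍 W, ∀ a ∈ A, g * a * g⁻¹ = h * a * h⁻¹ with hCtl
  have hC : CtlSys Ctl :=
    { triv := by
        intro A g hA
        refine ⟨1, Subgroup.one_mem _, ?_⟩
        intro a ha
        have : a = 1 := hA ha
        subst this
        simp
      res := by
        rintro A B g hBA ⟨h, hh, hh2⟩
        exact ⟨h, hh, fun a ha => hh2 a (hBA ha)⟩
      comp := by
        rintro A g h ⟨h₁, hh₁, hh₁2⟩ ⟨h₂, hh₂, hh₂2⟩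
        refine ⟨h₂ * h₁, (𝐍 W).mul_mem hh₂ hh₁, ?_⟩
        intro a ha
        have h1 := hh₂2 (g * a * g⁻¹) ⟨a, ha, rfl⟩
        calc h * g * a * (h * g)⁻¹ = h * (g * a * g⁻¹) * h⁻¹ := by group
          _ = h₂ * (g * a * g⁻¹) * h₂⁻¹ := h1
          _ = h₂ * (h₁ * a * h₁⁻¹) * h₂⁻¹ := by rw [hh₁2 a ha]
          _ = _ := by group
      inv := by
        rintro A g ⟨h, hh, hh2⟩
        refine ⟨h⁻¹, (𝐍 W).inv_mem hh, ?_⟩
        rintro _ ⟨a, ha, rfl⟩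
        show g⁻¹ * (g * a * g⁻¹) * g⁻¹⁻¹ = h⁻¹ * (g * a * g⁻¹) * h⁻¹⁻¹
        calc g⁻¹ * (g * a * g⁻¹) * g⁻¹⁻¹ = a := by group
          _ = h⁻¹ * (h * a * h⁻¹) * h⁻¹⁻¹ := by group
          _ = _ := by rw [hh2 a ha] }
  have h𝓣 := placed_two N P
  have key : ∀ d n : ℕ, Nat.card (P : Subgroup G) < n + d →
      ∀ Q : Subgroup G, Q ≤ (P : Subgroup G) → Q ≠ ⊥ → n ≤ Nat.card Q →
        ∀ g : G, (Q ⋆ g) ≤ (P : Subgroup G) → Ctl (Q : Set G) g := by
    intro d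
    induction d with
    | zero =>
      intro n hn Q hQ _ hnQ
      simp only [add_zero] at hn
      exact absurd (Subgroup.card_le_of_le hQ) (by omega)
    | succ d ih =>
      intro n hn Q hQ hQne hnQ g hg
      have ih1 := ih (n + 1) (by omega)
      rcases Nat.lt_or_ge n (Nat.card Q) with hlt | hge
      · exact ih1 Q hQ hQne hlt g hg
      have hQn : Nat.card Q = n := le_antisymm hge hnQ
      have hbig : ∀ Q' : Subgroup G, Q' ≤ (P : Subgroup G) → Q' ≠ ⊥ → Nat.card Q < Nat.card Q' →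
          ∀ g' : G, (Q' ⋆ g') ≤ (P : Subgroup G) → Ctl (Q' : Set G) g' := by
        intro Q' hQ' hQ'ne hlt g' hg'
        exact ih1 Q' hQ' hQ'ne (by omega) g' hg'
      refine engine_p1 P h𝓣 hC hQ hQne hg hbig ?_
      intro U hU hUne hUcard w hw
      refine local_step N P W hPW hMW hF3 U hU.1 hU.2.1 hU.2.2 ?_ w hw
      intro Q' hQ' hlt g' hg'
      have hQ'ne : Q' ≠ ⊥ := by
        rintro rfl
        have h1 : Nat.card (⊥ : Subgroup G) = 1 := Subgroup.card_bot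
        have h2 : 0 < Nat.card U := Nat.card_pos
        omega
      exact hbig Q' hQ' hQ'ne (by omega) g' hg'
  intro A hA g hg
  by_cases hAbot : A = ⊥
  · refine ⟨1, Subgroup.one_mem _, g, ?_, by simp⟩
    rw [Subgroup.mem_centralizer_iff]
    intro a ha
    rw [hAbot] at ha
    have : a = 1 := ha
    subst this
    simp
  obtain ⟨h, hh, hh2⟩ := key (Nat.card (P : Subgroup G) + 1) 0 (by omega) A hA hAbot (Nat.zero_le _) g hg
  refine ⟨h, hh, h⁻¹ * g, ?_, by group⟩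
  rw [Subgroup.mem_centralizer_iff]
  intro a ha
  have h1 := hh2 a ha
  have h2 : h⁻¹ * g * a * (h⁻¹ * g)⁻¹ = a := by
    calc h⁻¹ * g * a * (h⁻¹ * g)⁻¹ = h⁻¹ * (g * a * g⁻¹) * h := by group
      _ = h⁻¹ * (h * a * h⁻¹) * h := by rw [h1]
      _ = a := by group
  calc a * (h⁻¹ * g) = (h⁻¹ * g * a * (h⁻¹ * g)⁻¹) * (h⁻¹ * g) := by rw [h2]
    _ = _ := by group



/-- Let N be a normal subgroup of the finite group G, P a Sylow p-subgroup of G, and V a subgroup of P ∩ N normal in P ∩ N such that N_N(V) controls strong fusion in P ∩ N with respect to N (whenever a subgroup A of P ∩ N has n A n⁻¹ ≤ P ∩ N for some n in N, then n = h c with h in N_N(V) and c in C_N(A)). Let W be the subgroup generated by the conjugates of V under N_G(P ∩ N). Then N_G(W) controls strong fusion in P with respect to G. -/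
theorem result {G : Type*} [Group G] [Finite G] {p : ℕ} [Fact p.Prime] (N : Subgroup G) [N.Normal] (P : Sylow p G) (V : Subgroup G)
    (hV : V ≤ (P : Subgroup G) ⊓ N) (hVn : ∀ x ∈ (P : Subgroup G) ⊓ N, V.map (MulAut.conj x).toMonoidHom = V)
    (hctrl : ∀ A : Subgroup G, A ≤ (P : Subgroup G) ⊓ N → ∀ n ∈ N, A.map (MulAut.conj n).toMonoidHom ≤ (P : Subgroup G) ⊓ N →
      ∃ h ∈ N ⊓ Subgroup.normalizer (V : Set G), ∃ c ∈ N ⊓ Subgroup.centralizer (A : Set G), n = h * c)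
    (W : Subgroup G) (hW : W = Subgroup.closure (⋃ x ∈ Subgroup.normalizer (((P : Subgroup G) ⊓ N : Subgroup G) : Set G),
      ((V.map (MulAut.conj x).toMonoidHom : Subgroup G) : Set G))) :
    ∀ A : Subgroup G, A ≤ (P : Subgroup G) → ∀ g : G, A.map (MulAut.conj g).toMonoidHom ≤ (P : Subgroup G) →
        ∃ h ∈ Subgroup.normalizer (W : Set G), ∃ c ∈ Subgroup.centralizer (A : Set G), g = h * c := by
  exact main_thm N P V hV hctrl W hW

end Cfsg.Agent.S1954
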