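import Cfsg.Statements.S1956
import Cfsg.Agent.Lib.H08.Sylow2
-- import your own Cfsg.Agent.* helpers here

set_option autoImplicit false
open Cfsg

namespace Cfsg.Agent.S1956

open Cfsg.Agent.H08


/-- Let P be a Sylow p-subgroup of the finite group G such that every element of P of order dividing p (dividing 4 when p = 2) is central in P. Then the fusion of these elements is controlled by N_G(P): if such an element a of P has g a g⁻¹ in P, then g = n c with n normalizing P and c commuting with a. -/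
theorem result {G : Type*} [Group G] [Finite G] {p : ℕ} [Fact p.Prime] (P : Sylow p G)
    (hcen : ∀ a ∈ (P : Subgroup G), (a ^ p = 1 ∨ (p = 2 ∧ a ^ 4 = 1)) → ∀ y ∈ (P : Subgroup G), a * y = y * a) :
    ∀ a ∈ (P : Subgroup G), (a ^ p = 1 ∨ (p = 2 ∧ a ^ 4 = 1)) → ∀ g : G, g * a * g⁻¹ ∈ (P : Subgroup G) →
      ∃ n ∈ Subgroup.normalizer ((P : Subgroup G) : Set G), ∃ c : G, c * a = a * c ∧ g = n * c := by
  classical
  intro a ha hao g hg
  obtain ⟨b, hb⟩ : ∃ b, b = g * a * g⁻¹ := ⟨_, rfl⟩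
  rw [← hb] at hg
  have hbo : b ^ p = 1 ∨ (p = 2 ∧ b ^ 4 = 1) := by
    rw [hb, conj_pow, conj_pow]
    rcases hao with h | ⟨h1, h2⟩
    · left; simp [h]
    · right; exact ⟨h1, by simp [h2]⟩
  have hbc := hcen b hg hbo
  have hac := hcen a ha hao
  let C := Subgroup.centralizer ({b} : Set G)
  have h1 : (P : Subgroup G) ≤ C := fun y hy =>
    Subgroup.mem_centralizer_singleton_iff.2 (hbc y hy).symm
  have h2 : ((g • P : Sylow p G) : Subgroup G) ≤ C := by
    intro y hy
    have hy' := (mem_sylow_smul_iff P g y).1 hy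
    have := hac _ hy'
    apply Subgroup.mem_centralizer_singleton_iff.2
    rw [hb]
    calc y * (g * a * g⁻¹) = g * ((g⁻¹ * y * g) * a) * g⁻¹ := by group
      _ = g * (a * (g⁻¹ * y * g)) * g⁻¹ := by rw [this]
      _ = g * a * g⁻¹ * y := by group
  obtain ⟨d, hd, hdP⟩ := exists_smul_eq_of_sylow_le C (g • P) P h2 h1
  have hdb : d * b * d⁻¹ = b := by
    have := Subgroup.mem_centralizer_singleton_iff.1 hd
    rw [this]; group
  have hn : d * g ∈ Subgroup.normalizer ((P : Subgroup G) : Set G) := by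
    have h3 : (d * g) • P = P := by rw [mul_smul, hdP]
    exact Sylow.smul_eq_iff_mem_normalizer.1 h3
  refine ⟨d * g, hn, g⁻¹ * d⁻¹ * g, ?_, by group⟩
  have hna : g⁻¹ * d⁻¹ * b * d * g = a := by
    have : d⁻¹ * b * d = b := by
      calc d⁻¹ * b * d = d⁻¹ * (d * b * d⁻¹) * d := by rw [hdb]
        _ = b := by group
    calc g⁻¹ * d⁻¹ * b * d * g = g⁻¹ * (d⁻¹ * b * d) * g := by group
      _ = g⁻¹ * b * g := by rw [this]
      _ = a := by rw [hb]; group
  calc g⁻¹ * d⁻¹ * g * a = (g⁻¹ * d⁻¹ * (g * a * g⁻¹) * d * g) * (g⁻¹ * d⁻¹ * g) := by group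
    _ = a * (g⁻¹ * d⁻¹ * g) := by rw [← hb, hna]

end Cfsg.Agent.S1956
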