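import Cfsg.Statements.S2001
import Cfsg.Agent.Lib.H09.CentralCtl
import Cfsg.Agent.Lib.H01.Coprime


set_option autoImplicit false
open Cfsg

namespace Cfsg.Agent.S2001

/-- Let p be a prime dividing the order of the finite group G, P a Sylow p-subgroup, W a conjugacy functor for p on G with Z(H) ≤ W(H) for every nontrivial p-subgroup H, and V a central functor: a conjugacy functor with V(H) ≤ Z(H), and V(H) ≤ V(K) whenever Z(H) ≤ Z(K), for nontrivial p-subgroups H, K. Say that W with V controls transfer in a subgroup L when some Sylow p-subgroup Q of L satisfies Q ∩ L' = (Q ∩ (N_L(W(Q)))')·(Q ∩ (C_L(V(Q)))') as a product of two subgroups. If W with V controls transfer in N_G(H) for every subgroup H with Z(P) ≤ H ≤ P, then W with V controls transfer in G. -/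
theorem result {G : Type*} [Group G] [Finite G] {p : ℕ} [Fact p.Prime] (hdiv : p ∣ Nat.card G) (P : Sylow p G) (W V : Subgroup G → Subgroup G) (hW : Cfsg.IsConjugacyFunctor p W) (hV : Cfsg.IsConjugacyFunctor p V) (hWZ : ∀ H : Subgroup G, IsPGroup p ↥H → H ⊓ Subgroup.centralizer ((H : Subgroup G) : Set G) ≤ W H) (hVZ : ∀ H : Subgroup G, IsPGroup p ↥H → V H ≤ H ⊓ Subgroup.centralizer ((H : Subgroup G) : Set G)) (hVmono : ∀ H K : Subgroup G, IsPGroup p ↥H → IsPGroup p ↥K → H ≠ ⊥ → K ≠ ⊥ → H ⊓ Subgroup.centralizer ((H : Subgroup G) : Set G) ≤ K ⊓ Subgroup.centralizer ((K : Subgroup G) : Set G) → V H ≤ V K) (hloc : ∀ H : Subgroup G, (P : Subgroup G) ⊓ Subgroup.centralizer (((P : Subgroup G) : Subgroup G) : Set G) ≤ H → H ≤ (P : Subgroup G) → ∃ Q : Subgroup G, Q ≤ Subgroup.normalizer ((H : Subgroup G) : Set G) ∧ IsPGroup p ↥Q ∧ ¬ p ∣ (Q).relIndex (Subgroup.normalizer ((H : Subgroup G) : Set G)) ∧ ∀ x : G, x ∈ Q ⊓ ⁅Subgroup.normalizer ((H : Subgroup G) : Set G),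 Subgroup.normalizer ((H : Subgroup G) : Set G)⁆ ↔ ∃ a ∈ Q ⊓ ⁅Subgroup.normalizer ((H : Subgroup G) : Set G) ⊓ Subgroup.normalizer ((W Q : Subgroup G) : Set G), Subgroup.normalizer ((H : Subgroup G) : Set G) ⊓ Subgroup.normalizer ((W Q : Subgroup G) : Set G)⁆, ∃ b ∈ Q ⊓ ⁅Subgroup.normalizer ((H : Subgroup G) : Set G) ⊓ Subgroup.centralizer ((V Q : Subgroup G) : Set G), Subgroup.normalizer ((H : Subgroup G) : Set G) ⊓ Subgroup.centralizer ((V Q : Subgroup G) : Set G)⁆, x = a * b) : ∃ Q : Subgroup G, IsPGroup p ↥Q ∧ ¬ p ∣ Q.index ∧ ∀ x : G, x ∈ Q ⊓ commutator G ↔ ∃ a ∈ Q ⊓ ⁅Subgroup.normalizer ((W Q : Subgroup G) : Set G), Subgroup.normalizer ((W Q : Subgroup G) : Set G)⁆, ∃ b ∈ Q ⊓ ⁅Subgroup.centralizer ((V Q : Subgroup G) : Set G), Subgroup.centralizer ((V Q : Subgroup G) : Set G)⁆, x = a * b := by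
  classical
  set S : Subgroup G := (P : Subgroup G) with hS
  have hSp : IsPGroup p S := P.isPGroup'
  set N₁ : Subgroup G := Subgroup.normalizer ((W S : Subgroup G) : Set G) with hN₁
  set N₂ : Subgroup G := Subgroup.centralizer ((V S : Subgroup G) : Set G) with hN₂
  set D₁ : Subgroup G := S ⊓ ⁅N₁, N₁⁆ with hD₁
  set D₂ : Subgroup G := S ⊓ ⁅N₂, N₂⁆ with hD₂
  set D : Subgroup G := D₁ ⊔ D₂ with hD
  have hDS : D ≤ S := sup_le inf_le_left inf_le_left
  have hSN₁ : S ≤ N₁ := Subgroup.le_normalizer.trans (H09.inf_normalizer_le_functor hW hSp)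
  have hSN₂ : S ≤ N₂ := by
    intro s hs
    rw [hN₂, Subgroup.mem_centralizer_iff]
    intro v hv
    exact (Subgroup.mem_centralizer_iff.1 (Subgroup.mem_inf.1 (hVZ S hSp hv)).2 s hs).symm
  have hcomm : ∀ {X : Subgroup G} {b z : G}, b ∈ X → z ∈ X → b⁻¹ * (z * b * z⁻¹) ∈ ⁅X, X⁆ := by
    intro X b z hb hz
    have := Subgroup.commutator_mem_commutator (X.inv_mem hb) hz
    rw [commutatorElement_def] at this
    have e : b⁻¹ * z * b⁻¹⁻¹ * z⁻¹ = b⁻¹ * (z * b * z⁻¹) := by group
    rwa [e] at this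
  let Ctl := H09.FocalCtl D
  have hC : H09.CtlSys Ctl := H09.focalCtl_sys D
  have hcent : ∀ (A : Set G) (g : G), (∀ a ∈ A, g * a * g⁻¹ = a) → Ctl A g := by
    intro A g hg a ha
    rw [hg a ha]; simp [D.one_mem]
  have hsingle : ∀ z, (z ∈ N₁ ∨ z ∈ N₂) → ∀ B : Set G, B ⊆ S → H09.cjs z B ⊆ S → Ctl B z := by
    intro z hz B hB hzB a ha
    have ha' : a ∈ S := hB ha
    have hza : z * a * z⁻¹ ∈ S := hzB ⟨a, ha, rfl⟩
    have hmem : a⁻¹ * (z * a * z⁻¹) ∈ S := S.mul_mem (S.inv_mem ha') hza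
    rcases hz with hz | hz
    · exact (le_sup_left : D₁ ≤ D) (Subgroup.mem_inf.2 ⟨hmem, hcomm (hSN₁ ha') hz⟩)
    · exact (le_sup_right : D₂ ≤ D) (Subgroup.mem_inf.2 ⟨hmem, hcomm (hSN₂ ha') hz⟩)
  have hmain := H09.engine_central P hC hcent hW hWZ
    (fun z hz B hB hzB => hsingle z (Or.inl hz) B hB hzB)
    (by
      rintro T ⟨hTF, g₀, hZH, hHS⟩ hTne hh x hx A hA hxA a ha
      set R : Subgroup G := S ⊓ Subgroup.normalizer ((T : Subgroup G) : Set G) with hR
      have hTS : T ≤ S := hTF.1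
      set H : Subgroup G := T.map (MulAut.conj g₀).toMonoidHom with hH
      obtain ⟨Q, hQN, hQp, hQi, hQc⟩ := hloc H hZH hHS
      obtain ⟨u, huQ, huH⟩ := H09.transport_sylow P (T := T) (H := H) (Q := Q) (g₀ := g₀) rfl hTF.2 hQN hQp hQi
      have hRp : IsPGroup p R := hSp.to_le inf_le_left
      have huQ' : (Q.map (MulAut.conj u).toMonoidHom) = R := huQ
      have hWR : W R = (W Q).map (MulAut.conj u).toMonoidHom := by
        rw [← huQ']
        exact (hW Q hQp).2.2 u
      have hVR : V R = (V Q).map (MulAut.conj u).toMonoidHom := by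
        rw [← huQ']
        exact (hV Q hQp).2.2 u
      have hNT : Subgroup.normalizer ((T : Subgroup G) : Set G) =
          (Subgroup.normalizer ((H : Subgroup G) : Set G)).map (MulAut.conj u).toMonoidHom := by
        rw [← huH, H09.normalizer_map_conj]
      have hTR : T ≤ R := H09.le_inf_normalizer hTS
      have hRne : R ≠ ⊥ := fun h => hTne (le_bot_iff.1 (h ▸ hTR))
      have hSne : S ≠ ⊥ := fun h => hTne (le_bot_iff.1 (h ▸ hTS))
      have hZZ : S ⊓ Subgroup.centralizer ((S : Subgroup G) : Set G) ≤ R ⊓ Subgroup.centralizer ((R : Subgroup G) : Set G) := by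
        intro c hc
        have hc1 := (Subgroup.mem_inf.1 hc).1
        have hc2 := (Subgroup.mem_inf.1 hc).2
        have hcR : c ∈ R := by
          refine Subgroup.mem_inf.2 ⟨hc1, ?_⟩
          exact (Subgroup.centralizer_le_normalizer _) (Subgroup.centralizer_le hTS hc2)
        refine Subgroup.mem_inf.2 ⟨hcR, ?_⟩
        exact Subgroup.centralizer_le (inf_le_left : R ≤ _) hc2
      have hVV : V S ≤ V R := hVmono S R hSp hRp hSne hRne hZZ
      have hCC : Subgroup.centralizer ((V R : Subgroup G) : Set G) ≤ N₂ := Subgroup.centralizer_le hVV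
      have hRT : R ≤ Subgroup.normalizer ((T : Subgroup G) : Set G) := inf_le_right
      have hRi : ¬ p ∣ R.relIndex (Subgroup.normalizer ((T : Subgroup G) : Set G)) := hTF.2
      set M₁ : Subgroup G := Subgroup.normalizer ((T : Subgroup G) : Set G) ⊓ Subgroup.normalizer ((W R : Subgroup G) : Set G) with hM₁
      set M₂ : Subgroup G := Subgroup.normalizer ((T : Subgroup G) : Set G) ⊓ Subgroup.centralizer ((V R : Subgroup G) : Set G) with hM₂
      have hRM₁ : R ≤ M₁ := le_inf hRT (Subgroup.le_normalizer.trans (H09.inf_normalizer_le_functor hW hRp))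
      have hRM₂ : R ≤ M₂ := le_inf hRT (fun s hs => Subgroup.mem_centralizer_iff.2 (fun v hv =>
        (Subgroup.mem_centralizer_iff.1 (Subgroup.mem_inf.1 (hVZ R hRp hv)).2 s hs).symm))
      have hF₁ : R ⊓ ⁅M₁, M₁⁆ ≤ D ⊓ R := by
        refine H09.focal_sub hRM₁ hRp (H09.not_dvd_relIndex_of_le_right hRM₁ inf_le_left hRi) inf_le_right ?_
        intro b hb z hz hzb
        refine Subgroup.mem_inf.2 ⟨?_, R.mul_mem (R.inv_mem hb) hzb⟩
        refine hh z hz {b} (Set.singleton_subset_iff.2 hb) ?_ b rfl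
        rintro _ ⟨_, rfl, rfl⟩
        exact hzb
      have hF₂ : R ⊓ ⁅M₂, M₂⁆ ≤ D ⊓ R := by
        refine H09.focal_sub hRM₂ hRp (H09.not_dvd_relIndex_of_le_right hRM₂ inf_le_left hRi) inf_le_right ?_
        intro b hb z hz hzb
        refine Subgroup.mem_inf.2 ⟨?_, R.mul_mem (R.inv_mem hb) hzb⟩
        refine hsingle z (Or.inr (hCC (Subgroup.mem_inf.1 hz).2)) {b}
          (Set.singleton_subset_iff.2 ((inf_le_left : R ≤ S) hb)) ?_ b rfl
        rintro _ ⟨_, rfl, rfl⟩
        exact (inf_le_left : R ≤ S) hzb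
      have haR : a ∈ R := hA ha
      have hxa : x * a * x⁻¹ ∈ R := hxA ⟨a, ha, rfl⟩
      set y : G := a⁻¹ * (x * a * x⁻¹) with hy
      have hyR : y ∈ R := R.mul_mem (R.inv_mem haR) hxa
      have hyC : y ∈ ⁅Subgroup.normalizer ((T : Subgroup G) : Set G), Subgroup.normalizer ((T : Subgroup G) : Set G)⁆ :=
        hcomm (hRT haR) hx
      have hCNT : ⁅Subgroup.normalizer ((T : Subgroup G) : Set G), Subgroup.normalizer ((T : Subgroup G) : Set G)⁆ =
          (⁅Subgroup.normalizer ((H : Subgroup G) : Set G), Subgroup.normalizer ((H : Subgroup G) : Set G)⁆).map (MulAut.conj u).toMonoidHom := by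
        rw [hNT, Subgroup.map_commutator]
      have ht : u⁻¹ * y * u ∈ Q ⊓ ⁅Subgroup.normalizer ((H : Subgroup G) : Set G), Subgroup.normalizer ((H : Subgroup G) : Set G)⁆ := by
        refine Subgroup.mem_inf.2 ⟨?_, ?_⟩
        · rw [← huQ'] at hyR
          simpa using (H09.mem_map_conj).1 hyR
        · rw [hCNT] at hyC
          simpa using (H09.mem_map_conj).1 hyC
      obtain ⟨a', ha', b', hb', hab⟩ := (hQc _).1 ht
      have hCent : ∀ (K : Subgroup G), Subgroup.centralizer ((K.map (MulAut.conj u).toMonoidHom : Subgroup G) : Set G) =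
          (Subgroup.centralizer ((K : Subgroup G) : Set G)).map (MulAut.conj u).toMonoidHom := by
        intro K
        ext c
        rw [H09.mem_map_conj]
        constructor
        · intro hc
          rw [Subgroup.mem_centralizer_iff]
          intro v hv
          have h0 : u * v * u⁻¹ ∈ K.map (MulAut.conj u).toMonoidHom := H09.conj_mem_map u hv
          have h2 := Subgroup.mem_centralizer_iff.1 hc _ h0
          calc v * (u⁻¹ * c * u) = u⁻¹ * ((u * v * u⁻¹) * c) * u := by group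
            _ = u⁻¹ * (c * (u * v * u⁻¹)) * u := by rw [h2]
            _ = (u⁻¹ * c * u) * v := by group
        · intro hc
          rw [Subgroup.mem_centralizer_iff]
          intro v hv
          have hv' : u⁻¹ * v * u ∈ K := (H09.mem_map_conj).1 hv
          have h2 := Subgroup.mem_centralizer_iff.1 hc _ hv'
          calc v * c = u * ((u⁻¹ * v * u) * (u⁻¹ * c * u)) * u⁻¹ := by group
            _ = u * ((u⁻¹ * c * u) * (u⁻¹ * v * u)) * u⁻¹ := by rw [h2]
            _ = c * v := by group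
      have hM₁e : M₁ = (Subgroup.normalizer ((H : Subgroup G) : Set G) ⊓ Subgroup.normalizer ((W Q : Subgroup G) : Set G)).map (MulAut.conj u).toMonoidHom := by
        rw [H09.map_conj_inf', ← hNT, ← H09.normalizer_map_conj, ← hWR]
      have hM₂e : M₂ = (Subgroup.normalizer ((H : Subgroup G) : Set G) ⊓ Subgroup.centralizer ((V Q : Subgroup G) : Set G)).map (MulAut.conj u).toMonoidHom := by
        rw [H09.map_conj_inf', ← hNT, hM₂, hVR, hCent]
      have h1 : u * a' * u⁻¹ ∈ R ⊓ ⁅M₁, M₁⁆ := by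
        refine Subgroup.mem_inf.2 ⟨?_, ?_⟩
        · rw [← huQ']
          exact H09.conj_mem_map u (Subgroup.mem_inf.1 ha').1
        · rw [hM₁e, ← Subgroup.map_commutator]
          exact H09.conj_mem_map u (Subgroup.mem_inf.1 ha').2
      have h2 : u * b' * u⁻¹ ∈ R ⊓ ⁅M₂, M₂⁆ := by
        refine Subgroup.mem_inf.2 ⟨?_, ?_⟩
        · rw [← huQ']
          exact H09.conj_mem_map u (Subgroup.mem_inf.1 hb').1
        · rw [hM₂e, ← Subgroup.map_commutator]
          exact H09.conj_mem_map u (Subgroup.mem_inf.1 hb').2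
      have e : y = (u * a' * u⁻¹) * (u * b' * u⁻¹) := by
        have : y = u * (u⁻¹ * y * u) * u⁻¹ := by group
        rw [this, hab]
        group
      show y ∈ D
      rw [e]
      exact D.mul_mem (Subgroup.mem_inf.1 (hF₁ h1)).1 (Subgroup.mem_inf.1 (hF₂ h2)).1)
  have hfinal : S ⊓ commutator G ≤ D := by
    rw [commutator_def]
    refine H09.focal_sub (H := ⊤) le_top hSp ?_ hDS ?_
    · rw [Subgroup.relIndex_top_right]
      exact P.not_dvd_index
    · intro b hb z _ hzb
      refine hmain {b} z (Set.singleton_subset_iff.2 hb) ?_ b rfl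
      rintro _ ⟨_, rfl, rfl⟩
      exact hzb
  have hN : D₁ ≤ Subgroup.normalizer ((D₂ : Subgroup G) : Set G) := by
    intro s hs
    have hsS : s ∈ S := (inf_le_left : D₁ ≤ S) hs
    refine H09.mem_normalizer_of_map_conj_eq ?_
    rw [hD₂, H09.map_conj_inf', H09.map_conj_self_of_mem hsS, Subgroup.map_commutator, H09.map_conj_self_of_mem (hSN₂ hsS)]
  refine ⟨S, hSp, P.not_dvd_index, fun x => ⟨fun hx => ?_, ?_⟩⟩
  · have h3 := hfinal hx
    rw [hD, sup_comm] at h3
    obtain ⟨a, ha, b, hb, rfl⟩ := H01.exists_mul_of_mem_sup' hN h3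
    exact ⟨a, ha, b, hb, rfl⟩
  · rintro ⟨a, ha, b, hb, rfl⟩
    obtain ⟨ha1, ha2⟩ := Subgroup.mem_inf.1 ha
    obtain ⟨hb1, hb2⟩ := Subgroup.mem_inf.1 hb
    refine Subgroup.mem_inf.2 ⟨S.mul_mem ha1 hb1, ?_⟩
    rw [commutator_def]
    exact Subgroup.mul_mem _ (Subgroup.commutator_mono le_top le_top ha2) (Subgroup.commutator_mono le_top le_top hb2)


end Cfsg.Agent.S2001
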