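import Cfsg.Statements.S2002
import Cfsg.Agent.Lib.H09.CentralCtl


set_option autoImplicit false
open Cfsg

namespace Cfsg.Agent.S2002

/-- Let p be a prime dividing the order of the finite group G, P a Sylow p-subgroup, W a conjugacy functor for p on G with Z(H) ≤ W(H) for every nontrivial p-subgroup H, and V a central functor (a conjugacy functor with V(H) ≤ Z(H), and V(H) ≤ V(K) whenever Z(H) ≤ Z(K)). Say that W with V controls strong fusion in a subgroup L when some Sylow p-subgroup Q of L has the property: whenever X ⊆ Q and a ∈ L with a⁻¹Xa ⊆ Q, then a = c b with c ∈ C_L(X) and b = b₁ ⋯ bₙ a product of elements each in N_L(W(Q)) or in C_L(V(Q)) such that every partial conjugate (b₁ ⋯ bₖ)⁻¹ X (b₁ ⋯ bₖ) lies in Q. If W with V controls strong fusion in N_G(H) for every subgroup H with Z(P) ≤ H ≤ P, then W with V controls strong fusion in G. -/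
theorem result {G : Type*} [Group G] [Finite G] {p : ℕ} [Fact p.Prime] (hdiv : p ∣ Nat.card G) (P : Sylow p G) (W V : Subgroup G → Subgroup G) (hW : Cfsg.IsConjugacyFunctor p W) (hV : Cfsg.IsConjugacyFunctor p V) (hWZ : ∀ H : Subgroup G, IsPGroup p ↥H → H ⊓ Subgroup.centralizer ((H : Subgroup G) : Set G) ≤ W H) (hVZ : ∀ H : Subgroup G, IsPGroup p ↥H → V H ≤ H ⊓ Subgroup.centralizer ((H : Subgroup G) : Set G)) (hVmono : ∀ H K : Subgroup G, IsPGroup p ↥H → IsPGroup p ↥K → H ≠ ⊥ → K ≠ ⊥ → H ⊓ Subgroup.centralizer ((H : Subgroup G) : Set G) ≤ K ⊓ Subgroup.centralizer ((K : Subgroup G) : Set G) → V H ≤ V K) (hloc : ∀ H : Subgroup G, (P : Subgroup G) ⊓ Subgroup.centralizer (((P : Subgroup G) : Subgroup G) : Set G) ≤ H → H ≤ (P : Subgroup G) → ∃ Q : Subgroup G, Q ≤ Subgroup.normalizer ((H : Subgroup G) : Set G) ∧ IsPGroup p ↥Q ∧ ¬ p ∣ (Q).relIndex (Subgroup.normalizer ((H : Subgroup G) : Set G)) ∧ ∀ (X : Set G) (a : G), X ⊆ Q → a ∈ Subgroup.normalizer ((H : Subgroup G)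 : Set G) → (fun x => a⁻¹ * x * a) '' X ⊆ Q → ∃ c ∈ Subgroup.normalizer ((H : Subgroup G) : Set G) ⊓ Subgroup.centralizer X, ∃ (n : ℕ) (b : Fin n → G), (∀ i, b i ∈ Subgroup.normalizer ((H : Subgroup G) : Set G) ⊓ Subgroup.normalizer ((W Q : Subgroup G) : Set G) ∨ b i ∈ Subgroup.normalizer ((H : Subgroup G) : Set G) ⊓ Subgroup.centralizer ((V Q : Subgroup G) : Set G)) ∧ a = c * (List.ofFn b).prod ∧ ∀ k : ℕ, k ≤ n → (fun x => (((List.ofFn b).take k).prod)⁻¹ * x * ((List.ofFn b).take k).prod) '' ((fun x => c⁻¹ * x * c) '' X) ⊆ Q) : ∃ Q : Subgroup G, IsPGroup p ↥Q ∧ ¬ p ∣ Q.index ∧ ∀ (X : Set G) (a : G), X ⊆ Q → (fun x => a⁻¹ * x * a) '' X ⊆ Q → ∃ c ∈ Subgroup.centralizer X, ∃ (n : ℕ) (b : Fin n → G), (∀ i, b i ∈ ⊤ ⊓ Subgroup.normalizer ((W Q : Subgroup G) : Set G) ∨ b i ∈ ⊤ ⊓ Subgroup.centralizer ((V Q : Subgroup G) : Set G)) ∧ a = c * (List.ofFn b).prod ∧ ∀ k : ℕ, k ≤ n → (fun x => (((List.ofFn b).take k).prod)⁻¹ * x * ((List.ofFn b).take k).prod) '' ((fun x => c⁻¹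 * x * c) '' X) ⊆ Q := by
  classical
  set S : Subgroup G := (P : Subgroup G) with hS
  have hSp : IsPGroup p S := P.isPGroup'
  set N₁ : Subgroup G := Subgroup.normalizer ((W S : Subgroup G) : Set G) with hN₁
  set N₂ : Subgroup G := Subgroup.centralizer ((V S : Subgroup G) : Set G) with hN₂
  let Ctl := H09.AgreeCtl (H09.TStep N₁ N₂ S)
  have hC : H09.CtlSys Ctl := H09.agreeCtl_sys (H09.tStep_sys N₁ N₂ S)
  have hone : ∀ B : Set G, Ctl B 1 := fun B => ⟨1, H09.Chain.nil, fun a _ => rfl⟩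
  have hcent : ∀ (A : Set G) (g : G), (∀ a ∈ A, g * a * g⁻¹ = a) → Ctl A g := by
    intro A g hg
    refine ⟨1, H09.Chain.nil, fun a ha => ?_⟩
    rw [hg a ha]
    simp
  have hsingle : ∀ z, (z ∈ N₁ ∨ z ∈ N₂) → ∀ B : Set G, B ⊆ S → H09.cjs z B ⊆ S → Ctl B z := by
    intro z hz B hB hzB
    exact ⟨z, H09.Chain.single ⟨hB, hzB, hz⟩, fun a _ => rfl⟩
  have hmain := H09.engine_central P hC hcent hW hWZ
    (fun z hz B hB hzB => hsingle z (Or.inl hz) B hB hzB)
    (by
      rintro T ⟨hTF, g₀, hZH, hHS⟩ hTne hh x hx A hA hxA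
      set R : Subgroup G := S ⊓ Subgroup.normalizer ((T : Subgroup G) : Set G) with hR
      have hTS : T ≤ S := hTF.1
      set H : Subgroup G := T.map (MulAut.conj g₀).toMonoidHom with hH
      obtain ⟨Q, hQN, hQp, hQi, hQc⟩ := hloc H hZH hHS
      obtain ⟨u, huQ, huH⟩ := H09.transport_sylow P (T := T) (H := H) (Q := Q) (g₀ := g₀) rfl hTF.2 hQN hQp hQi
      have hRp : IsPGroup p R := hSp.to_le inf_le_left
      -- conjugation lemmas
      have huQ' : (Q.map (MulAut.conj u).toMonoidHom) = R := huQ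
      have hWR : W R = (W Q).map (MulAut.conj u).toMonoidHom := by
        rw [← huQ']
        exact (hW Q hQp).2.2 u
      have hVR : V R = (V Q).map (MulAut.conj u).toMonoidHom := by
        rw [← huQ']
        exact (hV Q hQp).2.2 u
      have hNT : Subgroup.normalizer ((T : Subgroup G) : Set G) =
          (Subgroup.normalizer ((H : Subgroup G) : Set G)).map (MulAut.conj u).toMonoidHom := by
        rw [← huH, H09.normalizer_map_conj]
      have hTR : T ≤ R := H09.le_inf_normalizer hTS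
      have hRne : R ≠ ⊥ := fun h => hTne (le_bot_iff.1 (h ▸ hTR))
      have hSne : S ≠ ⊥ := fun h => hTne (le_bot_iff.1 (h ▸ hTS))
      have hZZ : S ⊓ Subgroup.centralizer ((S : Subgroup G) : Set G) ≤ R ⊓ Subgroup.centralizer ((R : Subgroup G) : Set G) := by
        intro c hc
        have hc1 := (Subgroup.mem_inf.1 hc).1
        have hc2 := (Subgroup.mem_inf.1 hc).2
        have hcR : c ∈ R := by
          refine Subgroup.mem_inf.2 ⟨hc1, ?_⟩
          exact (Subgroup.centralizer_le_normalizer _) (Subgroup.centralizer_le hTS hc2)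
        refine Subgroup.mem_inf.2 ⟨hcR, ?_⟩
        exact Subgroup.centralizer_le (inf_le_left : R ≤ _) hc2
      have hVV : V S ≤ V R := hVmono S R hSp hRp hSne hRne hZZ
      have hCC : Subgroup.centralizer ((V R : Subgroup G) : Set G) ≤ N₂ := Subgroup.centralizer_le hVV
      -- apply the local control
      have hsub : ∀ B : Set G, B ⊆ R → H09.cjs u⁻¹ B ⊆ Q := by
        intro B hB
        have := H09.cjs_mono hB u⁻¹
        rw [H09.cjs_coe, ← huQ', H09.map_conj_inv_cancel] at this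
        exact this
      have hQR : ∀ t ∈ Q, u * t * u⁻¹ ∈ R := by
        intro t ht
        rw [← huQ']
        exact H09.conj_mem_map u ht
      set X : Set G := H09.cjs u⁻¹ A with hX
      set a₀ : G := u⁻¹ * x⁻¹ * u with ha₀
      have ha₀N : a₀ ∈ Subgroup.normalizer ((H : Subgroup G) : Set G) := by
        rw [H09.mem_normalizer_iff_map_conj]
        have h1 : x⁻¹ ∈ Subgroup.normalizer ((T : Subgroup G) : Set G) := Subgroup.inv_mem _ hx
        have h2 : u⁻¹ * x⁻¹ * u = u⁻¹ * x⁻¹ * u⁻¹⁻¹ := by group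
        rw [ha₀, h2]
        have h3 := H09.conj_mem_map (T := Subgroup.normalizer ((T : Subgroup G) : Set G)) u⁻¹ h1
        rw [hNT, H09.map_conj_inv_cancel] at h3
        rw [← H09.mem_normalizer_iff_map_conj]
        exact h3
      have hXQ : X ⊆ Q := hsub A hA
      have ha₀X : (fun x => a₀⁻¹ * x * a₀) '' X ⊆ Q := by
        rintro _ ⟨_, ⟨a, ha, rfl⟩, rfl⟩
        have h1 : x * a * x⁻¹ ∈ H09.cjs x A := ⟨a, ha, rfl⟩
        have h2 := hsub _ hxA ⟨_, h1, rfl⟩
        have e : a₀⁻¹ * (u⁻¹ * a * u⁻¹⁻¹) * a₀ = u⁻¹ * (x * a * x⁻¹) * u⁻¹⁻¹ := by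
          rw [ha₀]; group
        show a₀⁻¹ * (u⁻¹ * a * u⁻¹⁻¹) * a₀ ∈ Q
        rw [e]
        exact h2
      obtain ⟨c, hc, n, b, hb, hab, hpart⟩ := hQc X a₀ hXQ ha₀N ha₀X
      have hcC := (Subgroup.mem_inf.1 hc).2
      set L : List G := List.ofFn b with hL
      set f : G → G := fun y => u * y * u⁻¹ with hf
      set L' : List G := L.map f with hL'
      have hprod : ∀ (K : List G), (K.map f).prod = u * K.prod * u⁻¹ := by
        intro K
        induction K with
        | nil => simp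
        | cons y K ih =>
          rw [List.map_cons, List.prod_cons, ih, List.prod_cons]
          simp only [hf]
          group
      have htake : ∀ k, (L'.take k).prod = u * (L.take k).prod * u⁻¹ := by
        intro k
        rw [hL', ← List.map_take, hprod]
      have hP : ∀ y ∈ L', (y ∈ Subgroup.normalizer ((T : Subgroup G) : Set G) ⊓ Subgroup.normalizer ((W R : Subgroup G) : Set G)) ∨
          (y ∈ Subgroup.normalizer ((T : Subgroup G) : Set G) ⊓ Subgroup.centralizer ((V R : Subgroup G) : Set G)) := by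
        intro y hy
        obtain ⟨z, hz, rfl⟩ := List.mem_map.1 hy
        obtain ⟨i, rfl⟩ := (List.mem_ofFn' b z).1 hz
        have hfN : ∀ t ∈ Subgroup.normalizer ((H : Subgroup G) : Set G), f t ∈ Subgroup.normalizer ((T : Subgroup G) : Set G) := by
          intro t ht
          rw [hNT]
          exact H09.conj_mem_map u ht
        rcases hb i with h | h
        · left
          refine Subgroup.mem_inf.2 ⟨hfN _ (Subgroup.mem_inf.1 h).1, ?_⟩
          rw [hWR, H09.normalizer_map_conj]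
          exact H09.conj_mem_map u (Subgroup.mem_inf.1 h).2
        · right
          refine Subgroup.mem_inf.2 ⟨hfN _ (Subgroup.mem_inf.1 h).1, ?_⟩
          rw [Subgroup.mem_centralizer_iff]
          intro v hv
          rw [hVR] at hv
          have hv' : u⁻¹ * v * u ∈ V Q := by
            have := (H09.mem_map_conj).1 hv
            simpa using this
          have h2 := Subgroup.mem_centralizer_iff.1 (Subgroup.mem_inf.1 h).2 _ hv'
          calc v * f (b i) = u * ((u⁻¹ * v * u) * b i) * u⁻¹ := by simp only [hf]; group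
            _ = u * (b i * (u⁻¹ * v * u)) * u⁻¹ := by rw [h2]
            _ = f (b i) * v := by simp only [hf]; group
      have hcomm : ∀ a ∈ A, c⁻¹ * (u⁻¹ * a * u) * c = u⁻¹ * a * u := by
        intro a ha
        have h1 : u⁻¹ * a * u ∈ X := ⟨a, ha, by simp⟩
        have h2 := Subgroup.mem_centralizer_iff.1 hcC _ h1
        rw [mul_assoc, h2]
        group
      have him : ∀ k ≤ L'.length, H09.partialIm L' k A ⊆ R := by
        intro k hk
        rw [hL', List.length_map, hL, List.length_ofFn] at hk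
        rintro _ ⟨a, ha, rfl⟩
        have h1 : u⁻¹ * a * u ∈ X := ⟨a, ha, by simp⟩
        have h2 : c⁻¹ * (u⁻¹ * a * u) * c ∈ (fun x => c⁻¹ * x * c) '' X := ⟨_, h1, rfl⟩
        have h3 := hpart k hk ⟨_, h2, rfl⟩
        have h4 := hQR _ h3
        rw [hcomm a ha] at h4
        simp only [htake]
        have e : (u * (L.take k).prod * u⁻¹)⁻¹ * a * (u * (L.take k).prod * u⁻¹) =
            u * (((L.take k).prod)⁻¹ * (u⁻¹ * a * u) * (L.take k).prod) * u⁻¹ := by group
        rw [e]
        exact h4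
      have hctl : Ctl A (L'.prod)⁻¹ := by
        refine H09.ctl_of_list hC hone (R := R) (P := fun y =>
          (y ∈ Subgroup.normalizer ((T : Subgroup G) : Set G) ⊓ Subgroup.normalizer ((W R : Subgroup G) : Set G)) ∨
          (y ∈ Subgroup.normalizer ((T : Subgroup G) : Set G) ⊓ Subgroup.centralizer ((V R : Subgroup G) : Set G))) ?_ L' A hP him
        intro y hy B hB hyB
        rcases hy with hy | hy
        · exact hh y⁻¹ (Subgroup.inv_mem _ hy) B hB hyB
        · exact hsingle y⁻¹ (Or.inr (hCC (Subgroup.inv_mem _ (Subgroup.mem_inf.1 hy).2))) B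
            (hB.trans inf_le_left) (hyB.trans inf_le_left)
      refine H09.AgreeCtl.congr hctl ?_
      intro a ha
      have hLp : L'.prod = u * L.prod * u⁻¹ := hprod L
      have hxe : x⁻¹ = u * c * u⁻¹ * L'.prod := by
        rw [hLp]
        have : u * a₀ * u⁻¹ = x⁻¹ := by rw [ha₀]; group
        rw [← this, hab]
        group
      have hxe2 : x = (L'.prod)⁻¹ * (u * c * u⁻¹)⁻¹ := by
        have := congrArg (fun t => t⁻¹) hxe
        simpa using this
      have hc' := hcomm a ha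
      rw [hxe2]
      have h5 : (u * c * u⁻¹)⁻¹ * a * (u * c * u⁻¹) = a := by
        have : (u * c * u⁻¹)⁻¹ * a * (u * c * u⁻¹) = u * (c⁻¹ * (u⁻¹ * a * u) * c) * u⁻¹ := by group
        rw [this, hc']
        group
      calc (L'.prod)⁻¹ * a * ((L'.prod)⁻¹)⁻¹
          = (L'.prod)⁻¹ * ((u * c * u⁻¹)⁻¹ * a * (u * c * u⁻¹)) * ((L'.prod)⁻¹)⁻¹ := by rw [h5]
        _ = ((L'.prod)⁻¹ * (u * c * u⁻¹)⁻¹) * a * ((L'.prod)⁻¹ * (u * c * u⁻¹)⁻¹)⁻¹ := by group)
  refine ⟨S, hSp, P.not_dvd_index, ?_⟩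
  intro X a hX haX
  have hinv : H09.cjs a⁻¹ X ⊆ S := by
    rintro _ ⟨t, ht, rfl⟩
    apply haX
    exact ⟨t, ht, by simp⟩
  obtain ⟨e, he, hag⟩ := hmain X a⁻¹ hX hinv
  obtain ⟨L, rfl, hL, him⟩ := H09.list_of_chain hX he
  set c := a * (L.prod)⁻¹ with hc
  have hcC : c ∈ Subgroup.centralizer X := by
    rw [Subgroup.mem_centralizer_iff]
    intro t ht
    have h1 := hag t ht
    have h2 : (L.prod)⁻¹ * t * L.prod = a⁻¹ * t * a := by simpa using h1
    calc t * c = a * (a⁻¹ * t * a) * (L.prod)⁻¹ := by rw [hc]; group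
      _ = a * ((L.prod)⁻¹ * t * L.prod) * (L.prod)⁻¹ := by rw [h2]
      _ = c * t := by rw [hc]; group
  have hcX : (fun x => c⁻¹ * x * c) '' X = X := by
    ext t
    constructor
    · rintro ⟨s, hs, rfl⟩
      have := Subgroup.mem_centralizer_iff.1 hcC s hs
      simp only
      rw [mul_assoc, this]
      simpa using hs
    · intro ht
      refine ⟨t, ht, ?_⟩
      have := Subgroup.mem_centralizer_iff.1 hcC t ht
      simp only
      rw [mul_assoc, this]
      group
  refine ⟨c, hcC, L.length, L.get, ?_, ?_, ?_⟩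
  · intro i
    rcases hL _ (List.get_mem L i) with h | h
    · exact Or.inl (Subgroup.mem_inf.2 ⟨Subgroup.mem_top _, h⟩)
    · exact Or.inr (Subgroup.mem_inf.2 ⟨Subgroup.mem_top _, h⟩)
  · rw [List.ofFn_get, hc]
    group
  · intro k hk
    rw [List.ofFn_get, hcX]
    exact him k hk


end Cfsg.Agent.S2002
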