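import Cfsg.Statements.S2010
import Cfsg.Agent.Lib.H09.ThCore
import Cfsg.Agent.Lib.H08.PCoreL
import Cfsg.Agent.Lib.H06.FittingHall
import Cfsg.Agent.Lib.H03.PConstr
import Cfsg.Agent.Lib.H01.Hall


set_option autoImplicit false
open Cfsg

namespace Cfsg.Agent.S2010

/-- Let G be a finite solvable group with no section isomorphic to the symmetric group of degree 4, whose Sylow 2-subgroup S has nilpotency class at most 2. Then G = N_G(J_e(S)) · O_{2'}(G), where J_e(S) is the subgroup generated by the elementary abelian subgroups of S of largest order. -/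
theorem result {G : Type*} [Group G] [Finite G]
    [Group.IsSolvable G] (hS4 : ¬ Cfsg.Involves (Equiv.Perm (Fin 4)) G) (S : Sylow 2 G)
    (hcl : Subgroup.lowerCentralSeries (S : Subgroup G) 2 = ⊥) :
    Subgroup.normalizer ((Cfsg.thompsonSubgroupOf 2 (S : Subgroup G)) : Set G) ⊔ Cfsg.pPrimeCore 2 G = ⊤ := by
  classical
  haveI : Fact (Nat.Prime 2) := ⟨Nat.prime_two⟩
  rw [Cfsg.Agent.H14.thompsonSubgroupOf_eq_jj]
  set O := pPrimeCore 2 G with hO
  haveI hOn : O.Normal := Cfsg.Agent.H03.pPrimeCore_normal'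
  have hOodd : (Nat.card O).Coprime 2 := Cfsg.Agent.H06.coprime_card_pPrimeCore 2
  let π : G →* G ⧸ O := QuotientGroup.mk' O
  have hπs : Function.Surjective π := QuotientGroup.mk'_surjective O
  have hπker : ∀ g, π g = 1 ↔ g ∈ O := fun g => QuotientGroup.eq_one_iff g
  have hXO : pPrimeCore 2 (G ⧸ O) = ⊥ := Cfsg.Agent.H08.pPrimeCore_quotient_eq_bot 2
  haveI : Group.IsSolvable (G ⧸ O) := inferInstance
  have hXS4 : ¬ Involves (Equiv.Perm (Fin 4)) (G ⧸ O) := fun h =>
    hS4 (Cfsg.Agent.H09.Involves.trans' h (Cfsg.Agent.H09.involves_quotient O))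
  let T : Sylow 2 (G ⧸ O) := S.mapSurjective hπs
  have hT : (T : Subgroup (G ⧸ O)) = (S : Subgroup G).map π := Sylow.coe_mapSurjective hπs S
  have hSO : (S : Subgroup G) ⊓ O = ⊥ := by
    refine eq_bot_iff.2 ?_
    rintro x ⟨hxS, hxO⟩
    rw [Subgroup.mem_bot]
    have h1 : orderOf (⟨x, hxS⟩ : (S : Subgroup G)) ∣ Nat.card (S : Subgroup G) :=
      orderOf_dvd_natCard _
    have h2 : orderOf (⟨x, hxO⟩ : O) ∣ Nat.card O := orderOf_dvd_natCard _
    rw [Subgroup.orderOf_mk] at h1 h2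
    obtain ⟨n, hn⟩ := IsPGroup.iff_card.1 S.isPGroup'
    rw [hn] at h1
    have hcop : (Nat.card O).Coprime (2 ^ n) := Nat.Coprime.pow_right _ hOodd
    have h3 : orderOf x = 1 := Nat.Coprime.eq_one_of_dvd
      (Nat.Coprime.coprime_dvd_left h2 hcop) h1
    exact orderOf_eq_one_iff.1 h3
  have hf : ∀ x ∈ (S : Subgroup G), π x = 1 → x = 1 := by
    intro x hx h
    have : x ∈ (S : Subgroup G) ⊓ O := ⟨hx, (hπker x).1 h⟩
    rwa [hSO, Subgroup.mem_bot] at this
  have hcl' : ∀ x ∈ (S : Subgroup G), ∀ y ∈ (S : Subgroup G), ∀ z ∈ (S : Subgroup G),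
      (x * y * x⁻¹ * y⁻¹) * z = z * (x * y * x⁻¹ * y⁻¹) := by
    intro x hx y hy z hz
    have h1 : x * y * x⁻¹ * y⁻¹ ∈ Subgroup.lowerCentralSeries (S : Subgroup G) 1 :=
      Subgroup.commutator_mem_commutator hx hy
    have h2 : (x * y * x⁻¹ * y⁻¹) * z * (x * y * x⁻¹ * y⁻¹)⁻¹ * z⁻¹ ∈ Subgroup.lowerCentralSeries (S : Subgroup G) 2 :=
      Subgroup.commutator_mem_commutator h1 hz
    rw [hcl, Subgroup.mem_bot] at h2
    have h5 := mul_inv_eq_one.1 h2
    exact mul_inv_eq_iff_eq_mul.1 h5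
  have hclT : ∀ x ∈ (S : Subgroup G).map π, ∀ y ∈ (S : Subgroup G).map π,
      ∀ z ∈ (S : Subgroup G).map π, (x * y * x⁻¹ * y⁻¹) * z = z * (x * y * x⁻¹ * y⁻¹) := by
    rintro _ ⟨x, hx, rfl⟩ _ ⟨y, hy, rfl⟩ _ ⟨z, hz, rfl⟩
    have := congrArg π (hcl' x hx y hy z hz)
    simpa only [map_mul, map_inv] using this
  have hTp : IsPGroup 2 ((S : Subgroup G).map π) := by
    rw [← hT]
    exact T.isPGroup'
  have hQT : pCore 2 (G ⧸ O) ≤ (S : Subgroup G).map π := by
    rw [← hT]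
    exact Cfsg.Agent.H01.pCore_le_sylow 2 T
  have hmx : ∀ A ∈ (Cfsg.Agent.H14.elFam (G ⧸ O) 2).mx ((S : Subgroup G).map π),
      A ≤ pCore 2 (G ⧸ O) := fun A hA =>
    Cfsg.Agent.H09.elem_le_pCore hXS4 hXO hTp hQT hclT hA
  have hJn := Cfsg.Agent.H09.jj_normal_of_le (Cfsg.Agent.H01.pCore_normal 2) hQT hmx
  rw [Cfsg.Agent.H14.jj_map 2 π (S : Subgroup G) hf] at hJn
  set J := (Cfsg.Agent.H14.elFam G 2).jj (S : Subgroup G) with hJ
  have hJS : J ≤ (S : Subgroup G) := sSup_le (fun A hA => hA.1)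
  have hJp : IsPGroup 2 J := S.isPGroup'.to_le hJS
  let H : Subgroup G := (J.map π).comap π
  haveI hHn : H.Normal := hJn.comap π
  have hH : H = J ⊔ O := by
    show (J.map π).comap π = J ⊔ O
    rw [Subgroup.comap_map_eq]
    congr 1
    exact QuotientGroup.ker_mk' O
  have hJH : J ≤ H := by rw [hH]; exact le_sup_left
  have hJO : J ⊓ O = ⊥ := by
    refine eq_bot_iff.2 ?_
    rw [← hSO]
    exact inf_le_inf_right _ hJS
  have hcardH : Nat.card H = Nat.card J * Nat.card O := by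
    have h1 := Cfsg.Agent.H01.card_sup_mul_card_inf J O
    rw [hJO, Subgroup.card_bot, mul_one] at h1
    rw [hH, h1]
  have hidx : ¬ 2 ∣ (J.subgroupOf H).index := by
    have h1 := (J.subgroupOf H).card_mul_index
    have h2 : Nat.card (J.subgroupOf H) = Nat.card J := by
      exact Nat.card_congr (Subgroup.subgroupOfEquivOfLe hJH).toEquiv
    rw [h2, hcardH] at h1
    have hJpos : 0 < Nat.card J := Nat.card_pos
    have h3 : (J.subgroupOf H).index = Nat.card O := Nat.eq_of_mul_eq_mul_left hJpos h1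
    rw [h3]
    exact (Nat.Prime.coprime_iff_not_dvd Nat.prime_two).1 hOodd.symm
  have hJp' : IsPGroup 2 (J.subgroupOf H) :=
    IsPGroup.comap_of_injective hJp _ (Subgroup.subtype_injective H)
  let P : Sylow 2 H := hJp'.toSylow hidx
  have hfrat := Sylow.normalizer_sup_eq_top P
  have hPJ : (P : Subgroup H).map H.subtype = J := by
    show (J.subgroupOf H).map H.subtype = J
    rw [Subgroup.subgroupOf_map_subtype, inf_of_le_left hJH]
  rw [hPJ] at hfrat
  refine top_le_iff.1 ?_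
  rw [← hfrat, hH]
  refine sup_le le_sup_left (sup_le ?_ le_sup_right)
  exact Subgroup.le_normalizer.trans le_sup_left


end Cfsg.Agent.S2010
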