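import Cfsg.Statements.S2015
import Cfsg.Agent.Lib.H09.KTrans

set_option autoImplicit false
universe u
open Cfsg

namespace Cfsg.Agent.S2015

/-- For p ≥ 5, every finite p-group P has a characteristic subgroup K containing Z(P), depending only on P, whose normalizer controls transfer wherever P is a Sylow subgroup: for every finite group G and every embedding ι of P onto a Sylow p-subgroup of G, the intersection of ι(P) with the derived subgroup of G equals its intersection with the derived subgroup of N_G(ι(K)). -/
theorem result (p : ℕ) [Fact p.Prime] (hp : 5 ≤ p) (P : Type u) [Group P] [Finite P] (hP : IsPGroup p P) : ∃ K : Subgroup P, K.Characteristic ∧ Subgroup.center P ≤ K ∧ ∀ (G : Type u) [Group G] [Finite G] (ι : P →* G), Function.Injective ι → (∃ T : Sylow p G, (T : Subgroup G) = ι.range) → ι.range ⊓ commutator G = ι.range ⊓ (commutator ↥(Subgroup.normalizer ((K.map ι : Subgroup G) : Set G))).map (Subgroup.normalizer ((K.map ι : Subgroup G) : Set G)).subtype := by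
  refine ⟨Cfsg.kInfLower P, ?_, Cfsg.Agent.H09.center_le_kInfLower hP, ?_⟩
  · exact Subgroup.characteristic_iff_map_eq.2 (fun φ => Cfsg.Agent.H09.equiv_map_kInfLower φ)
  · intro G _ _ ι hι hT
    obtain ⟨T, hT⟩ := hT
    have h1 := Cfsg.Agent.H09.transfer_any_sylow Cfsg.kInfLower
      (Cfsg.Agent.H09.isCharPFunctor_kInfLower p) (Cfsg.Agent.H09.kinf_transfer_lower hp G) T
    rw [hT] at h1
    have h2 : Cfsg.inducedFunctor (G := G) Cfsg.kInfLower ι.range = (Cfsg.kInfLower P).map ι := by
      show (Cfsg.kInfLower ↥ι.range).map ι.range.subtype = _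
      rw [← Cfsg.Agent.H09.equiv_map_kInfLower (MonoidHom.ofInjective hι), Subgroup.map_map]
      rfl
    rw [h2] at h1
    rw [Subgroup.map_subtype_commutator]
    exact h1

end Cfsg.Agent.S2015
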