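import Cfsg.Statements.S2133
import Cfsg.Agent.S0445
import Cfsg.Agent.Lib.H13.M24Syl

set_option autoImplicit false
set_option maxRecDepth 100000
open Cfsg

namespace Cfsg.Agent.S2133

open Cfsg.Agent.H27.Golay Cfsg.Agent.H13.M24S Equiv
open scoped Pointwise

abbrev Mt5 := Matrix (Fin 5) (Fin 5) (ZMod 2)

def t0 : ℕ := 965128854020860192151391391390468128
def t1 : ℕ := 504248808322406839003815192515913077
def cm : Fin 5 → ℕ := ![8241104, 2141072, 1351424, 4202192, 7409024]
def ap : Fin 5 → ℕ := ![19, 13, 18, 6, 16]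

/-- Indicator function. -/
def ind (w : Finset GolayPt) (p : GolayPt) : ZMod 2 := if p ∈ w then 1 else 0

/-- The coordinate functionals. -/
def lam (i : Fin 5) (f : GolayPt → ZMod 2) : ZMod 2 := f (pt 19) + if i = 0 then 0 else f (pt (ap i))

def xc (i : Fin 5) (w : Finset GolayPt) : ZMod 2 := lam i (ind w)

theorem lam_sum (i : Fin 5) (a : Fin 5 → ZMod 2) (f : Fin 5 → GolayPt → ZMod 2) :
    lam i (fun p => ∑ k, a k * f k p) = ∑ k, a k * lam i (f k) := by
  unfold lam
  by_cases h : i = 0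
  · simp [h]
  · simp only [h, if_false, mul_add, Finset.sum_add_distrib]

/-- Bit values. -/
def bv (m b : ℕ) : ZMod 2 := if m.testBit b = true then 1 else 0

theorem ind_fs (m : ℕ) (p : GolayPt) : ind (fs m) p = bv m (idx p) := by
  unfold ind bv
  simp only [mem_fs]

def xb (i : Fin 5) (m : ℕ) : ZMod 2 := bv m 19 + if i = 0 then 0 else bv m (ap i)

theorem ap_lt (i : Fin 5) : ap i < 24 := by revert i; decide

theorem xc_fs (i : Fin 5) (m : ℕ) : xc i (fs m) = xb i m := by
  unfold xc lam xb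
  have h : ind (fs m) = fun p => bv m (idx p) := funext (ind_fs m)
  rw [h]
  simp only [idx_pt' (show 19 < 24 by norm_num), idx_pt' (ap_lt _)]

/-- A spanning relation. -/
def Sp (w : Finset GolayPt) : Prop := ∀ p, ind w p = ∑ k, xc k w * ind (fs (cm k)) p

def spChk (m : ℕ) : Bool :=
  allBelow (fun b => decide (bv m b = ∑ k, xb k m * bv (cm k) b)) 24

theorem Sp_of_chk {m : ℕ} (h : spChk m = true) : Sp (fs m) := by
  intro p
  have h1 := allBelow_spec h (idx p) (idx_lt p)
  have h2 := of_decide_eq_true h1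
  rw [ind_fs, h2]
  apply Finset.sum_congr rfl
  intro k _
  rw [xc_fs, ind_fs]

def dj (m : ℕ) : Bool := allBelow (fun b => !(m.testBit b && O0.testBit b)) 24

theorem sp_octads : allL (fun m => !dj m || spChk m) octadL = true := by decide +kernel

def cM : ℕ := 8241104

theorem sp_M : spChk cM = true := by decide +kernel

theorem mem_cM (p : GolayPt) : p ∈ fs cM ↔ p ∉ fs O0 := by
  rw [mem_fs, mem_fs]
  have h : ∀ b < 24, (cM.testBit b = true ↔ ¬ O0.testBit b = true) := by decide +kernel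
  exact h _ (idx_lt p)

theorem cm_octad (k : Fin 5) (hk : k ≠ 0) : fs (cm k) ∈ octads := by
  have h : ∀ k : Fin 5, k ≠ 0 → memL (cm k) octadL = true := by decide +kernel
  exact fs_mem_octads ((memL_iff _ _).1 (h k hk))

theorem cm_dj (k : Fin 5) (hk : k ≠ 0) : dj (cm k) = true := by
  revert k; decide +kernel

theorem mem_smul {g : Perm GolayPt} {w : Finset GolayPt} {p : GolayPt} : p ∈ g • w ↔ g⁻¹ p ∈ w := by
  rw [Finset.mem_smul_finset]
  constructor
  · rintro ⟨a, ha, rfl⟩
    simpa using ha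
  · intro h
    exact ⟨g⁻¹ p, h, by simp⟩

theorem ind_smul (g : Perm GolayPt) (w : Finset GolayPt) (p : GolayPt) : ind (g • w) p = ind w (g⁻¹ p) := by
  unfold ind
  simp only [mem_smul]

/-- Stabilising the base octad. -/
structure Stb (g : Perm GolayPt) : Prop where
  mem : g ∈ M24
  stab : g • fs O0 = fs O0

theorem Stb.inv_pt {g : Perm GolayPt} (h : Stb g) (p : GolayPt) : g⁻¹ p ∈ fs O0 ↔ p ∈ fs O0 := by
  rw [← mem_smul, h.stab]

theorem Stb.inv {g : Perm GolayPt} (h : Stb g) : Stb g⁻¹ :=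
  ⟨M24.inv_mem h.mem, inv_smul_eq_iff.mpr h.stab.symm⟩

theorem sp_smul {g : Perm GolayPt} (h : Stb g) (k : Fin 5) : Sp (g • fs (cm k)) := by
  by_cases hk : k = 0
  · subst hk
    have : g • fs (cm 0) = fs cM := by
      ext p
      rw [mem_smul, show cm 0 = cM from rfl, mem_cM, mem_cM, h.inv_pt]
    rw [this]
    exact Sp_of_chk sp_M
  · have h1 := smul_mem_octads h.mem (cm_octad k hk)
    obtain ⟨m, hm, e⟩ := (mem_octads_iff_list _).1 h1
    rw [← e]
    apply Sp_of_chk
    have h2 := allL_spec sp_octads m hm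
    have hdj : dj m = true := by
      apply allBelow_of
      intro b hb
      by_contra hcon0
      have hcon : (m.testBit b && O0.testBit b) = true := by
        cases h : (m.testBit b && O0.testBit b) with
        | true => rfl
        | false => rw [h] at hcon0; simp at hcon0
      rw [Bool.and_eq_true] at hcon
      have h3 : pt b ∈ fs m := by
        rw [mem_fs, idx_pt' hb]
        exact hcon.1
      have h4 : pt b ∈ fs O0 := by
        rw [mem_fs, idx_pt' hb]
        exact hcon.2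
      rw [e, mem_smul] at h3
      have h5 := (h.inv_pt _).2 h4
      have h6 := allBelow_spec (cm_dj k hk) _ (idx_lt (g⁻¹ (pt b)))
      rw [mem_fs] at h3 h5
      rw [h3, h5] at h6
      simp at h6
    rw [hdj] at h2
    simpa using h2

/-- The matrix of a permutation. -/
def MM (g : Perm GolayPt) : Mt5 := Matrix.of fun i j => xc i (g • fs (cm j))

theorem MM_mul {g h : Perm GolayPt} (hg : Stb g) (hh : Stb h) : MM (g * h) = MM g * MM h := by
  ext i j
  rw [Matrix.mul_apply]
  simp only [MM, Matrix.of_apply]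
  rw [mul_smul]
  have hs : Sp (h • fs (cm j)) := sp_smul hh j
  have e : ind (g • (h • fs (cm j))) = fun p => ∑ k, xc k (h • fs (cm j)) * ind (g • fs (cm k)) p := by
    funext p
    rw [ind_smul, hs]
    apply Finset.sum_congr rfl
    intro k _
    rw [ind_smul]
  change lam i (ind (g • (h • fs (cm j)))) = _
  rw [e, lam_sum]
  apply Finset.sum_congr rfl
  intro k _
  exact mul_comm _ _

theorem MM_one : MM 1 = 1 := by
  ext i j
  simp only [MM, Matrix.of_apply, one_smul, xc_fs]
  have key : ∀ i j : Fin 5, xb i (cm j) = if i = j then 1 else 0 := by decide +kernel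
  rw [key i j, Matrix.one_apply]

theorem ok0 : isM24 t0 = true := by decide +kernel
theorem ok1 : isM24 t1 = true := by decide +kernel
theorem pok0 : permOK t0 = true := isM24_permOK ok0
theorem pok1 : permOK t1 = true := isM24_permOK ok1

theorem MM_z : MM (P t0) = Matrix.transvection 0 1 1 := by
  ext i j
  simp only [MM, Matrix.of_apply]
  rw [← fs_am pok0, xc_fs]
  have key : ∀ i j : Fin 5, xb i (am t0 (cm j)) = (if i = j then 1 else 0) + (if i = 0 ∧ j = 1 then 1 else 0) := by
    decide +kernel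
  rw [key i j, Matrix.transvection, Matrix.add_apply, Matrix.one_apply, Matrix.single_apply]
  congr 1
  by_cases h : i = 0 ∧ j = 1
  · rw [if_pos h, if_pos ⟨h.1.symm, h.2.symm⟩]
  · rw [if_neg h, if_neg (fun h' => h ⟨h'.1.symm, h'.2.symm⟩)]

theorem det_MM {g : Perm GolayPt} (h : Stb g) : (MM g).det = 1 := by
  have h1 : MM g * MM g⁻¹ = 1 := by
    rw [← MM_mul h h.inv, mul_inv_cancel, MM_one]
  have h2 := congrArg Matrix.det h1
  rw [Matrix.det_mul, Matrix.det_one] at h2
  have h3 : ∀ a b : ZMod 2, a * b = 1 → a = 1 := by decide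
  exact h3 _ _ h2

theorem eq_one_of_MM {g : Perm GolayPt} (hg : Stb g) (h : MM g = 1) : g = 1 := by
  have h1 : ∀ j p, ind (g • fs (cm j)) p = ind (fs (cm j)) p := by
    intro j p
    rw [sp_smul hg j p]
    have h1 : ∀ k, xc k (g • fs (cm j)) = (1 : Mt5) k j := fun k => congrFun (congrFun h k) j
    simp only [h1, Matrix.one_apply]
    simp
  have h2 : ∀ j p, g⁻¹ p ∈ fs (cm j) ↔ p ∈ fs (cm j) := by
    intro j p
    have h3 := h1 j p
    rw [ind_smul] at h3
    unfold ind at h3
    by_cases h4 : g⁻¹ p ∈ fs (cm j) <;> by_cases h5 : p ∈ fs (cm j)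
    · exact iff_of_true h4 h5
    · rw [if_pos h4, if_neg h5] at h3
      exact absurd h3 (by decide)
    · rw [if_neg h4, if_pos h5] at h3
      exact absurd h3 (by decide)
    · exact iff_of_false h4 h5
  have sep : ∀ a b : Fin 24, cM.testBit a = true → (∀ j, (cm j).testBit a = (cm j).testBit b) → a = b := by
    decide +kernel
  have h3 : ∀ p, p ∉ fs O0 → g⁻¹ p = p := by
    intro p hp
    have h4 := sep ⟨idx p, idx_lt p⟩ ⟨idx (g⁻¹ p), idx_lt _⟩ ((mem_fs).1 ((mem_cM p).2 hp)) (by
      intro j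
      have h5 := h2 j p
      rw [mem_fs, mem_fs] at h5
      change (cm j).testBit (idx p) = (cm j).testBit (idx (g⁻¹ p))
      by_cases h6 : (cm j).testBit (idx p) = true
      · rw [h6, h5.2 h6]
      · rw [Bool.not_eq_true] at h6
        have h7 : (cm j).testBit (idx (g⁻¹ p)) = false := by
          rw [← Bool.not_eq_true]
          intro h8
          have := h5.1 h8
          rw [h6] at this
          exact absurd this (by simp)
        rw [h6, h7])
    exact (idx_injective (congrArg Fin.val h4)).symm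
  have base : ∀ b ∈ baseL, pa t1 b < 24 ∧ O0.testBit (pa t1 b) = false := by decide +kernel
  have hbase : ∀ b ∈ baseL, b < 24 := by decide
  have h4 : (P t1)⁻¹ * g⁻¹ * P t1 ∈ fixG baseL := by
    rw [mem_fixG]
    refine ⟨M24.mul_mem (M24.mul_mem (M24.inv_mem (P_mem_M24 ok1)) (M24.inv_mem hg.mem)) (P_mem_M24 ok1), ?_⟩
    intro b hb
    have h5 : P t1 (pt b) = pt (pa t1 b) := by
      rw [P_apply pok1, idx_pt' (hbase b hb)]
    have h6 : pt (pa t1 b) ∉ fs O0 := by
      rw [mem_fs, idx_pt' (base b hb).1, (base b hb).2]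
      simp
    simp only [Perm.mul_apply]
    rw [h5, h3 _ h6, ← h5]
    simp
  rw [fix_base_trivial, Subgroup.mem_bot] at h4
  have h5 : g⁻¹ = 1 := by
    have h6 : g⁻¹ = P t1 * ((P t1)⁻¹ * g⁻¹ * P t1) * (P t1)⁻¹ := by group
    rw [h6, h4]
    simp
  exact inv_eq_one.mp h5

/-- The representation of the octad stabiliser. -/
def Phi : HO →* Matrix.SpecialLinearGroup (Fin 5) (ZMod 2) where
  toFun g := ⟨MM ((g : ↥M24) : Perm GolayPt), det_MM ⟨g.1.2, smul_OO g⟩⟩
  map_one' := by
    apply Subtype.ext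
    exact MM_one
  map_mul' := by
    intro a b
    apply Subtype.ext
    exact MM_mul ⟨a.1.2, smul_OO a⟩ ⟨b.1.2, smul_OO b⟩

theorem Phi_inj (g : HO) (h : Phi g = 1) : g = 1 := by
  have h1 : MM ((g : ↥M24) : Perm GolayPt) = 1 := congrArg Subtype.val h
  have h2 := eq_one_of_MM ⟨g.1.2, smul_OO g⟩ h1
  apply Subtype.ext
  apply Subtype.ext
  exact h2

noncomputable def z0 : ↥M24 := ⟨P t0, P_mem_M24 ok0⟩

theorem pa0_lt : ∀ b < 24, pa t0 b < 24 := by decide +kernel

theorem fix_z0 (p : GolayPt) : P t0 p = p ↔ p ∈ fs O0 := by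
  have h : ∀ b : Fin 24, (pa t0 b = b ↔ O0.testBit b = true) := by decide +kernel
  rw [mem_fs, ← h ⟨idx p, idx_lt p⟩, P_apply pok0]
  constructor
  · intro h1
    have h2 := congrArg idx h1
    rwa [idx_pt' (pa0_lt _ (idx_lt p))] at h2
  · intro h1
    change pa t0 (idx p) = idx p at h1
    rw [h1, pt_idx]

theorem z0_sq : z0 * z0 = 1 := by
  apply Subtype.ext
  apply Equiv.ext
  intro p
  change P t0 (P t0 p) = p
  have h : ∀ b : Fin 24, pa t0 (pa t0 b) = b := by decide +kernel
  rw [P_apply pok0, P_apply pok0, idx_pt' (pa0_lt _ (idx_lt p)), h ⟨idx p, idx_lt p⟩, pt_idx]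

theorem z0_ne : z0 ≠ 1 := by
  intro h
  have h1 : P t0 (pt 4) = pt 4 := by
    have h2 : P t0 = 1 := congrArg Subtype.val h
    rw [h2]
    rfl
  have h2 := (fix_z0 _).1 h1
  revert h2
  decide +kernel

theorem orderOf_z0 : orderOf z0 = 2 := by
  apply orderOf_eq_prime
  · rw [pow_two, z0_sq]
  · exact z0_ne

theorem z0_mem_E2 : z0 ∈ E2 := by
  rw [mem_E2_iff]
  intro p hp
  exact (fix_z0 p).2 hp

theorem centralizer_le : Subgroup.centralizer ({z0} : Set ↥M24) ≤ HO := by
  intro g hg
  rw [Subgroup.mem_centralizer_singleton_iff] at hg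
  rw [MulAction.mem_stabilizer_iff]
  change (g : Perm GolayPt) • OO = OO
  ext p
  rw [mem_smul]
  have h1 : (g : Perm GolayPt) * P t0 = P t0 * (g : Perm GolayPt) := congrArg Subtype.val hg
  have h2 : (g : Perm GolayPt)⁻¹ * P t0 = P t0 * (g : Perm GolayPt)⁻¹ := by
    rw [inv_mul_eq_iff_eq_mul, ← mul_assoc, h1, mul_assoc, mul_inv_cancel, mul_one]
  rw [← fix_z0, ← fix_z0]
  have h3 : P t0 ((g : Perm GolayPt)⁻¹ p) = (g : Perm GolayPt)⁻¹ (P t0 p) := by
    have := congrArg (fun f : Perm GolayPt => f p) h2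
    exact this.symm
  rw [h3]
  exact (g : Perm GolayPt)⁻¹.injective.eq_iff

theorem card_bound : 21504 ≤ Nat.card (Subgroup.centralizer ({z0} : Set ↥M24)) := by
  classical
  letI : Fintype ↥HO := Fintype.ofFinite _
  letI : Fintype ↥E2 := Fintype.ofFinite _
  let C := Subgroup.centralizer ({z0} : Set ↥M24)
  let f : ↥HO → ↥E2 := fun g => ⟨(g : ↥M24) * z0 * (g : ↥M24)⁻¹, by
    have h1 := HO_le_normalizer_E2 g.2
    exact (Subgroup.mem_normalizer_iff.1 h1 z0).1 z0_mem_E2⟩
  let e1 : ↥E2 := ⟨1, E2.one_mem⟩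
  have hmaps : ∀ a ∈ (Finset.univ : Finset ↥HO), f a ∈ (Finset.univ : Finset ↥E2).erase e1 := by
    intro a _
    rw [Finset.mem_erase]
    refine ⟨?_, Finset.mem_univ _⟩
    intro h
    have h1 : (a : ↥M24) * z0 * (a : ↥M24)⁻¹ = 1 := congrArg Subtype.val h
    apply z0_ne
    have h2 : z0 = (a : ↥M24)⁻¹ * ((a : ↥M24) * z0 * (a : ↥M24)⁻¹) * (a : ↥M24) := by group
    rw [h2, h1]
    group
  have hfib : ∀ b ∈ (Finset.univ : Finset ↥E2).erase e1,
      ((Finset.univ : Finset ↥HO).filter (fun a => f a = b)).card ≤ Nat.card C := by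
    intro b _
    by_cases hne : ((Finset.univ : Finset ↥HO).filter (fun a => f a = b)).Nonempty
    · obtain ⟨a₀, ha₀⟩ := hne
      rw [Finset.mem_filter] at ha₀
      rw [← Nat.card_eq_finsetCard]
      let ψ : {x // x ∈ (Finset.univ : Finset ↥HO).filter (fun a => f a = b)} → C := fun x =>
        ⟨(a₀ : ↥M24)⁻¹ * (x.1 : ↥M24), by
          rw [Subgroup.mem_centralizer_singleton_iff]
          have h1 : f x.1 = f a₀ := (Finset.mem_filter.1 x.2).2.trans ha₀.2.symm
          have h2 : (x.1 : ↥M24) * z0 * (x.1 : ↥M24)⁻¹ = (a₀ : ↥M24) * z0 * (a₀ : ↥M24)⁻¹ :=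
            congrArg Subtype.val h1
          have h3 : (x.1 : ↥M24) * z0 = (a₀ : ↥M24) * z0 * (a₀ : ↥M24)⁻¹ * (x.1 : ↥M24) := by
            rw [← h2]; group
          calc (a₀ : ↥M24)⁻¹ * (x.1 : ↥M24) * z0 = (a₀ : ↥M24)⁻¹ * ((x.1 : ↥M24) * z0) := by group
            _ = (a₀ : ↥M24)⁻¹ * ((a₀ : ↥M24) * z0 * (a₀ : ↥M24)⁻¹ * (x.1 : ↥M24)) := by rw [h3]
            _ = z0 * ((a₀ : ↥M24)⁻¹ * (x.1 : ↥M24)) := by group⟩
      apply Nat.card_le_card_of_injective ψ
      intro x y hxy
      have h1 : (a₀ : ↥M24)⁻¹ * (x.1 : ↥M24) = (a₀ : ↥M24)⁻¹ * (y.1 : ↥M24) := congrArg Subtype.val hxy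
      apply Subtype.ext
      apply Subtype.ext
      exact mul_left_cancel h1
    · rw [Finset.not_nonempty_iff_eq_empty] at hne
      rw [hne]
      simp
  have h1 := Finset.card_le_mul_card_image_of_maps_to hmaps (Nat.card C) hfib
  have h2 : (Finset.univ : Finset ↥HO).card = 322560 := by
    rw [← card_HO, Nat.card_eq_fintype_card, Finset.card_univ]
  have h3 : ((Finset.univ : Finset ↥E2).erase e1).card = 15 := by
    rw [Finset.card_erase_of_mem (Finset.mem_univ _), Finset.card_univ, ← Nat.card_eq_fintype_card, card_E2]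
  rw [h2, h3] at h1
  have h4 : Nat.card C = Nat.card (Subgroup.centralizer ({z0} : Set ↥M24)) := rfl
  omega

/-- The Mathieu group M₂₄ (the automorphism group of the length-24 binary code) has an involution whose centraliser is isomorphic to the centraliser of a transvection in SL(5, 2) (a group of shape 2^{1+6}:GL(3, 2)). -/
theorem result (s : Matrix.SpecialLinearGroup (Fin 5) (ZMod 2)) (hs : (s : Matrix (Fin 5) (Fin 5) (ZMod 2)) = Matrix.transvection 0 1 1) : ∃ z : ↥Cfsg.M24, orderOf z = 2 ∧ Nonempty (↥(Subgroup.centralizer ({z} : Set ↥Cfsg.M24)) ≃* ↥(Subgroup.centralizer ({s} : Set (Matrix.SpecialLinearGroup (Fin 5) (ZMod 2))))) := by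
  classical
  refine ⟨z0, orderOf_z0, ?_⟩
  have hPhi0 : Phi ⟨z0, by
      apply centralizer_le
      rw [Subgroup.mem_centralizer_singleton_iff]⟩ = s := by
    apply Subtype.ext
    rw [hs]
    exact MM_z
  let F : ↥(Subgroup.centralizer ({z0} : Set ↥M24)) →* ↥(Subgroup.centralizer ({s} : Set (Matrix.SpecialLinearGroup (Fin 5) (ZMod 2)))) :=
    { toFun := fun g => ⟨Phi ⟨g.1, centralizer_le g.2⟩, by
        rw [Subgroup.mem_centralizer_singleton_iff]
        rw [← hPhi0, ← map_mul, ← map_mul]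
        congr 1
        apply Subtype.ext
        exact (Subgroup.mem_centralizer_singleton_iff.1 g.2)⟩
      map_one' := by
        apply Subtype.ext
        exact Phi.map_one
      map_mul' := by
        intro a b
        apply Subtype.ext
        exact Phi.map_mul ⟨a.1, centralizer_le a.2⟩ ⟨b.1, centralizer_le b.2⟩ }
  have hinj : Function.Injective F := by
    rw [injective_iff_map_eq_one]
    intro g hg
    have h1 : Phi ⟨g.1, centralizer_le g.2⟩ = 1 := congrArg Subtype.val hg
    have h2 := Phi_inj _ h1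
    apply Subtype.ext
    exact congrArg (fun x : ↥HO => (x : ↥M24)) h2
  have hbij : Function.Bijective F := by
    apply hinj.bijective_of_nat_card_le
    rw [Cfsg.Agent.S0445.result s hs]
    exact card_bound
  exact ⟨MulEquiv.ofBijective F hbij⟩

end Cfsg.Agent.S2133
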