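import Cfsg.Statements.S2162
import Cfsg.Agent.Lib.H09.SqZero


set_option autoImplicit false
open Cfsg

namespace Cfsg.Agent.S2162

/-- Conjugacy of involutions in the special linear group over a finite field of characteristic two, in dimension at least 3: two elements of order 2 of SL_n(F) are conjugate in SL_n(F) exactly when the matrices a − 1 and b − 1 have the same rank (the rank of a − 1 is the dimension of the commutator space [V, a]). -/
theorem result {F : Type*} [Field F] [Fintype F] [CharP F 2] {n : ℕ} (hn : 3 ≤ n) (a b : Matrix.SpecialLinearGroup (Fin n) F) (ha : orderOf a = 2) (hb : orderOf b = 2) :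
    IsConj a b ↔ ((a : Matrix (Fin n) (Fin n) F) - 1).rank = ((b : Matrix (Fin n) (Fin n) F) - 1).rank := by
  classical
  haveI : Fact (Nat.Prime 2) := ⟨Nat.prime_two⟩
  constructor
  · intro h
    obtain ⟨c, hc⟩ := isConj_iff.1 h
    have e : ((b : Matrix (Fin n) (Fin n) F) - 1) =
        (c : Matrix (Fin n) (Fin n) F) * ((a : Matrix (Fin n) (Fin n) F) - 1) *
          ((c⁻¹ : Matrix.SpecialLinearGroup (Fin n) F) : Matrix (Fin n) (Fin n) F) := by
      rw [← hc]
      have h1 : (c : Matrix (Fin n) (Fin n) F) *
          ((c⁻¹ : Matrix.SpecialLinearGroup (Fin n) F) : Matrix (Fin n) (Fin n) F) = 1 := by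
        rw [← Matrix.SpecialLinearGroup.coe_mul]
        simp
      rw [mul_sub, sub_mul, mul_one, h1]
      simp [Matrix.SpecialLinearGroup.coe_mul]
    rw [e]
    have hc1 : IsUnit (c : Matrix (Fin n) (Fin n) F).det := by
      rw [c.2]; exact isUnit_one
    have hc2 : IsUnit ((c⁻¹ : Matrix.SpecialLinearGroup (Fin n) F) :
        Matrix (Fin n) (Fin n) F).det := by
      rw [(c⁻¹ : Matrix.SpecialLinearGroup (Fin n) F).2]; exact isUnit_one
    rw [Matrix.rank_mul_eq_left_of_isUnit_det _ _ hc2,
      Matrix.rank_mul_eq_right_of_isUnit_det _ _ hc1]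
  · intro hr
    have hsq : ∀ d : F, ∃ e : F, e * e = d := by
      intro d
      have hinj : Function.Injective (frobenius F 2) := frobenius_inj F 2
      obtain ⟨e, he⟩ := (Finite.injective_iff_surjective.1 hinj) d
      exact ⟨e, by rw [← he, frobenius_def, pow_two]⟩
    have hsqz : ∀ x : Matrix.SpecialLinearGroup (Fin n) F, orderOf x = 2 →
        ((x : Matrix (Fin n) (Fin n) F) - 1) * ((x : Matrix (Fin n) (Fin n) F) - 1) = 0 := by
      intro x hx
      have h1 : x * x = 1 := by
        rw [← pow_two, ← hx, pow_orderOf_eq_one]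
      have h2 : (x : Matrix (Fin n) (Fin n) F) * (x : Matrix (Fin n) (Fin n) F) = 1 := by
        rw [← Matrix.SpecialLinearGroup.coe_mul, h1]
        simp
      have h3 : ((x : Matrix (Fin n) (Fin n) F) - 1) * ((x : Matrix (Fin n) (Fin n) F) - 1) =
          (2 : F) • (1 - (x : Matrix (Fin n) (Fin n) F)) := by
        rw [mul_sub, sub_mul, sub_mul, h2, two_smul]
        simp only [mul_one, one_mul]
        abel
      rw [h3, CharTwo.two_eq_zero, zero_smul]
    let N : (Fin n → F) →ₗ[F] (Fin n → F) := Matrix.toLin' ((a : Matrix (Fin n) (Fin n) F) - 1)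
    let N' : (Fin n → F) →ₗ[F] (Fin n → F) := Matrix.toLin' ((b : Matrix (Fin n) (Fin n) F) - 1)
    have hN : ∀ v, N (N v) = 0 := by
      intro v
      have := congrArg (fun M => Matrix.toLin' M v) (hsqz a ha)
      simpa [N, Matrix.toLin'_mul] using this
    have hN' : ∀ v, N' (N' v) = 0 := by
      intro v
      have := congrArg (fun M => Matrix.toLin' M v) (hsqz b hb)
      simpa [N', Matrix.toLin'_mul] using this
    have hrank : ∀ M : Matrix (Fin n) (Fin n) F,
        Module.finrank F (LinearMap.range (Matrix.toLin' M)) = M.rank := fun M => by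
      rw [Matrix.toLin'_apply']
      rfl
    have hl : Module.finrank F (LinearMap.range N) = Module.finrank F (LinearMap.range N') := by
      rw [hrank, hrank, hr]
    have hl₀ : 0 < Module.finrank F (LinearMap.range N) := by
      rw [Nat.pos_iff_ne_zero]
      intro h0
      rw [Submodule.finrank_eq_zero, LinearMap.range_eq_bot] at h0
      have h1 : (a : Matrix (Fin n) (Fin n) F) - 1 = 0 := by
        have := congrArg LinearMap.toMatrix' h0
        simpa [N] using this
      have h2 : a = 1 := by
        apply Subtype.ext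
        exact sub_eq_zero.1 h1
      rw [h2, orderOf_one] at ha
      exact absurd ha (by norm_num)
    obtain ⟨T, hTdet, hT⟩ := Cfsg.Agent.H09.exists_conj_of_rank_eq hsq N N' hN hN' hl hl₀
    let g : Matrix (Fin n) (Fin n) F := LinearMap.toMatrix' (T : (Fin n → F) →ₗ[F] (Fin n → F))
    have hgdet : g.det = 1 := by
      rw [LinearMap.det_toMatrix', hTdet]
    let c : Matrix.SpecialLinearGroup (Fin n) F := ⟨g, hgdet⟩
    have hcomm : g * ((a : Matrix (Fin n) (Fin n) F) - 1) = ((b : Matrix (Fin n) (Fin n) F) - 1) * g := by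
      have h3 : (T : (Fin n → F) →ₗ[F] (Fin n → F)) ∘ₗ N = N' ∘ₗ (T : (Fin n → F) →ₗ[F] (Fin n → F)) := by
        ext1
        apply LinearMap.ext
        intro v
        exact hT _
      have h4 := congrArg LinearMap.toMatrix' h3
      rw [LinearMap.toMatrix'_comp, LinearMap.toMatrix'_comp] at h4
      simpa [N, N'] using h4
    have hcomm2 : g * (a : Matrix (Fin n) (Fin n) F) = (b : Matrix (Fin n) (Fin n) F) * g := by
      have h5 := hcomm
      rw [mul_sub, sub_mul, mul_one, one_mul] at h5
      exact sub_left_injective h5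
    refine isConj_iff.2 ⟨c, ?_⟩
    have hcab : c * a = b * c := Subtype.ext hcomm2
    rw [hcab]
    group


end Cfsg.Agent.S2162
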