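import Cfsg.Statements.S2163
import Cfsg.Agent.Lib.H09.RankFactor

set_option autoImplicit false
open Cfsg

namespace Cfsg.Agent.S2163

/-- Over a finite field of characteristic two and for n ≥ 3: for every ℓ with 1 ≤ ℓ and 2ℓ ≤ n, the matrix j_ℓ that is the identity plus the entries 1 in positions (n − ℓ + i, i) for i < ℓ (an identity block of size ℓ in the lower left corner) lies in SL_n(F), has order 2, and j_ℓ − 1 has rank ℓ. Together with the conjugacy criterion by rank, these matrices represent the conjugacy classes of involutions of SL_n(F). -/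
theorem result {F : Type*} [Field F] [Fintype F] [CharP F 2] {n : ℕ} (hn : 3 ≤ n) (ℓ : ℕ) (h1 : 1 ≤ ℓ) (h2 : 2 * ℓ ≤ n) :
    ∃ a : Matrix.SpecialLinearGroup (Fin n) F, (a : Matrix (Fin n) (Fin n) F) = 1 + Matrix.of (fun i j : Fin n => if j.val < ℓ ∧ i.val = j.val + (n - ℓ) then (1 : F) else 0) ∧ orderOf a = 2 ∧ ((a : Matrix (Fin n) (Fin n) F) - 1).rank = ℓ := by
  classical
  set E : Matrix (Fin n) (Fin n) F := Matrix.of (fun i j : Fin n => if j.val < ℓ ∧ i.val = j.val + (n - ℓ) then (1 : F) else 0) with hE
  have hE' : ∀ i j, E i j = if j.val < ℓ ∧ i.val = j.val + (n - ℓ) then (1 : F) else 0 := fun i j => rfl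
  have hlt : ∀ i j : Fin n, j.val < ℓ ∧ i.val = j.val + (n - ℓ) → j.val < i.val := by
    rintro i j ⟨h, h'⟩
    omega
  have hdet : (1 + E).det = 1 := by
    rw [Matrix.det_of_isLowerTriangular]
    · refine Finset.prod_eq_one fun i _ => ?_
      rw [Matrix.add_apply, Matrix.one_apply_eq, hE', if_neg, add_zero]
      rintro ⟨h, h'⟩
      omega
    · intro i j hij
      have hij' : i.val < j.val := hij
      rw [Matrix.add_apply, Matrix.one_apply_ne (ne_of_lt hij'|>.imp (fun h => h) |> fun h => by
        intro e; exact absurd (congrArg Fin.val e) (by omega)), hE', if_neg, add_zero]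
      rintro ⟨h, h'⟩
      omega
  have hEE : E * E = 0 := by
    ext i j
    rw [Matrix.mul_apply, Matrix.zero_apply]
    refine Finset.sum_eq_zero fun k _ => ?_
    rw [hE', hE']
    split_ifs with h1' h2'
    · omega
    · simp
    · simp
    · simp
  let a : Matrix.SpecialLinearGroup (Fin n) F := ⟨1 + E, hdet⟩
  have ha2 : a ^ 2 = 1 := by
    apply Subtype.ext
    show (1 + E) ^ 2 = 1
    have hEadd : E + E = 0 := by
      ext i j
      simp [CharTwo.add_self_eq_zero]
    have : (1 + E) ^ 2 = 1 + (E + E) + E * E := by noncomm_ring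
    rw [this, hEE, hEadd, add_zero, add_zero]
  have hpos : 0 < n - ℓ := by omega
  have hEne : E ≠ 0 := by
    intro h
    have h1' := congrFun (congrFun h ⟨n - ℓ, by omega⟩) ⟨0, by omega⟩
    rw [hE', Matrix.zero_apply, if_pos ⟨by show 0 < ℓ; omega, by simp⟩] at h1'
    exact one_ne_zero h1'
  have hane : a ≠ 1 := by
    intro h
    have h1' : 1 + E = 1 := congrArg Subtype.val h
    exact hEne (by simpa using h1')
  refine ⟨a, rfl, orderOf_eq_prime ha2 hane, ?_⟩
  have hsub : (a : Matrix (Fin n) (Fin n) F) - 1 = E := by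
    show (1 + E) - 1 = E
    simp
  rw [hsub]
  refine Cfsg.Agent.H09.rank_eq_of_factor E
    (Matrix.of fun (i : Fin n) (j : Fin ℓ) => if i.val = j.val + (n - ℓ) then (1 : F) else 0)
    (Matrix.of fun (j : Fin ℓ) (k : Fin n) => if k.val = j.val then (1 : F) else 0)
    (Matrix.of fun (j : Fin ℓ) (k : Fin n) => if k.val = j.val + (n - ℓ) then (1 : F) else 0)
    (Matrix.of fun (k : Fin n) (j : Fin ℓ) => if k.val = j.val then (1 : F) else 0) ?_ ?_
  · ext i j
    rw [hE', Matrix.mul_apply]
    by_cases hj : j.val < ℓ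
    · rw [Finset.sum_eq_single (⟨j.val, hj⟩ : Fin ℓ)]
      · simp only [Matrix.of_apply]
        by_cases hi : i.val = j.val + (n - ℓ)
        · simp [hi, hj]
        · simp [hi]
      · intro b _ hb
        simp only [Matrix.of_apply]
        rw [if_neg (c := j.val = b.val), mul_zero]
        intro e
        exact hb (Fin.ext e.symm)
      · simp
    · rw [if_neg (fun h => hj h.1)]
      symm
      refine Finset.sum_eq_zero fun b _ => ?_
      simp only [Matrix.of_apply]
      rw [if_neg (c := j.val = b.val), mul_zero]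
      intro e
      exact hj (e ▸ b.2)
  · have hsum : ∀ (c : ℕ) (hc : c < n) (f : Fin n → F),
        (∑ k : Fin n, if k.val = c then f k else 0) = f ⟨c, hc⟩ := by
      intro c hc f
      rw [Finset.sum_eq_single (⟨c, hc⟩ : Fin n)]
      · simp
      · intro b _ hb
        rw [if_neg]
        intro e
        exact hb (Fin.ext e)
      · simp
    have hC : (Matrix.of fun (j : Fin ℓ) (k : Fin n) => if k.val = j.val + (n - ℓ) then (1 : F) else 0) * E
        = Matrix.of fun (j : Fin ℓ) (k : Fin n) => if k.val = j.val then (1 : F) else 0 := by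
      ext r k
      rw [Matrix.mul_apply]
      simp only [Matrix.of_apply, ite_mul, one_mul, zero_mul]
      rw [hsum (r.val + (n - ℓ)) (by have := r.2; omega)]
      rw [hE']
      by_cases hk : k.val = r.val
      · rw [if_pos hk, if_pos ⟨by rw [hk]; exact r.2, by simp [hk]⟩]
      · rw [if_neg hk, if_neg]
        rintro ⟨_, h'⟩
        apply hk
        simp only at h'
        omega
    rw [hC]
    ext r s
    rw [Matrix.mul_apply, Matrix.one_apply]
    simp only [Matrix.of_apply, ite_mul, one_mul, zero_mul]
    rw [hsum r.val (by have := r.2; omega)]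
    by_cases hrs : r = s
    · subst hrs
      simp
    · rw [if_neg hrs, if_neg]
      intro e
      exact hrs (Fin.ext e)

end Cfsg.Agent.S2163
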