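import Cfsg.Statements.S2164
import Cfsg.Agent.Lib.H09.SUInv
import Cfsg.Agent.Lib.H12.UTrans


set_option autoImplicit false
open Cfsg
open scoped Matrix

namespace Cfsg.Agent.S2164

/-- the matrix of an element of the special unitary group -/
abbrev T {F : Type*} [Field F] {n q : ℕ} (t : ↥(Cfsg.SU n F q)) : Matrix (Fin n) (Fin n) F :=
  ((t : Matrix.SpecialLinearGroup (Fin n) F) : Matrix (Fin n) (Fin n) F)

/-- Conjugacy of involutions in the special unitary group SU_n(q), q even, n ≥ 3, realised over the field F with q² elements as the matrices of determinant 1 preserving the form Σ u_i v_i^q: for two elements of order 2 of SU_n(q) the following are equivalent — they are conjugate in SU_n(q); they are conjugate in SL_n(F); the matrices a − 1 and b − 1 have the same rank. -/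
theorem result {F : Type*} [Field F] [Fintype F] [CharP F 2] {n q : ℕ} (hF : Fintype.card F = q ^ 2) (hn : 3 ≤ n) (a b : ↥(Cfsg.SU n F q)) (ha : orderOf a = 2) (hb : orderOf b = 2) :
    (IsConj a b ↔ IsConj (a : Matrix.SpecialLinearGroup (Fin n) F) (b : Matrix.SpecialLinearGroup (Fin n) F)) ∧
    (IsConj a b ↔ (((a : Matrix.SpecialLinearGroup (Fin n) F) : Matrix (Fin n) (Fin n) F) - 1).rank = (((b : Matrix.SpecialLinearGroup (Fin n) F) : Matrix (Fin n) (Fin n) F) - 1).rank) := by
  classical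
  -- facts about an involution
  have hNv : ∀ (t : ↥(Cfsg.SU n F q)) v, (T t - 1).mulVecLin v = T t *ᵥ v - v := by
    intro t v
    rw [Matrix.mulVecLin_apply, Matrix.sub_mulVec, Matrix.one_mulVec]
  have hTT : ∀ t : ↥(Cfsg.SU n F q), orderOf t = 2 → T t * T t = 1 := by
    intro t ht
    have h1 : t * t = 1 := by rw [← pow_two, ← ht, pow_orderOf_eq_one]
    have h2 := congrArg (fun x : ↥(Cfsg.SU n F q) => T x) h1
    exact h2
  have hiso : ∀ (t : ↥(Cfsg.SU n F q)) u v, Cfsg.hermForm n F q (T t *ᵥ u) (T t *ᵥ v) = Cfsg.hermForm n F q u v :=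
    fun t u v => t.2 u v
  have hsub_l : ∀ x y z : Fin n → F, Cfsg.hermForm n F q (x - y) z = Cfsg.hermForm n F q x z - Cfsg.hermForm n F q y z := by
    intro x y z
    simp only [Cfsg.hermForm, Pi.sub_apply, sub_mul, Finset.sum_sub_distrib]
  have hsub_r : ∀ x y z : Fin n → F, Cfsg.hermForm n F q x (y - z) = Cfsg.hermForm n F q x y - Cfsg.hermForm n F q x z := by
    intro x y z
    obtain ⟨φ, hφ⟩ := Lead.exists_frob hF
    simp only [Cfsg.hermForm, Pi.sub_apply, ← hφ, map_sub, mul_sub, Finset.sum_sub_distrib]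
  have hadj : ∀ t : ↥(Cfsg.SU n F q), orderOf t = 2 → ∀ u v,
      Cfsg.hermForm n F q ((T t - 1).mulVecLin u) v = Cfsg.hermForm n F q u ((T t - 1).mulVecLin v) := by
    intro t ht u v
    have htt := hTT t ht
    have h1 : Cfsg.hermForm n F q (T t *ᵥ u) v = Cfsg.hermForm n F q u (T t *ᵥ v) := by
      rw [← hiso t u (T t *ᵥ v), Matrix.mulVec_mulVec, htt, Matrix.one_mulVec]
    rw [hNv, hNv, hsub_l, hsub_r, h1]
  have hNN : ∀ t : ↥(Cfsg.SU n F q), orderOf t = 2 → ∀ v,
      (T t - 1).mulVecLin ((T t - 1).mulVecLin v) = 0 := by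
    intro t ht v
    have htt := hTT t ht
    simp only [Matrix.mulVecLin_apply, Matrix.mulVec_mulVec]
    have h1 : (T t - 1) * (T t - 1) = 0 := by
      rw [sub_mul, mul_sub, htt, mul_one, one_mul]
      have h2 : ∀ A : Matrix (Fin n) (Fin n) F, A + A = 0 := by
        intro A
        ext i j
        simp only [Matrix.add_apply, Matrix.zero_apply]
        exact CharTwo.add_self_eq_zero _
      have h3 : (1 - T t - (T t - 1)) = (1 + 1) - (T t + T t) := by
        abel
      rw [h3, h2, h2, sub_zero]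
    rw [h1, Matrix.zero_mulVec]
  have hsl : ∀ {x y : Matrix.SpecialLinearGroup (Fin n) F}, IsConj x y → (x.1 - 1).rank = (y.1 - 1).rank := by
    intro x y h
    obtain ⟨c, hc⟩ := isConj_iff.1 h
    have hcm : c.1 * x.1 * (c⁻¹).1 = y.1 := congrArg Subtype.val hc
    have hcc : c.1 * (c⁻¹).1 = 1 := congrArg Subtype.val (mul_inv_cancel c)
    have hcc' : (c⁻¹).1 * c.1 = 1 := congrArg Subtype.val (inv_mul_cancel c)
    have hbm : y.1 - 1 = c.1 * (x.1 - 1) * (c⁻¹).1 := by
      rw [mul_sub, sub_mul, hcm, mul_one, hcc]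
    have hu1 : IsUnit (c.1).det := (Matrix.isUnit_iff_isUnit_det _).1 (IsUnit.of_mul_eq_one _ hcc)
    have hu2 : IsUnit ((c⁻¹).1).det := (Matrix.isUnit_iff_isUnit_det _).1 (IsUnit.of_mul_eq_one _ hcc')
    rw [hbm, Matrix.rank_mul_eq_left_of_isUnit_det _ _ hu2, Matrix.rank_mul_eq_right_of_isUnit_det _ _ hu1]
  have hTN : ∀ (t : ↥(Cfsg.SU n F q)) w, T t *ᵥ w = w + (T t - 1).mulVecLin w := by
    intro t w
    rw [hNv]
    abel
  have hmain : (T a - 1).rank = (T b - 1).rank → IsConj a b := by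
    intro hrk
    obtain ⟨⟨g, hg, hgN⟩, e, he⟩ := Cfsg.Agent.H09.SUI.exists_herm_isometry hF (hadj a ha) (hadj b hb)
      (hNN a ha) (hNN b hb) (r := (T a - 1).rank) rfl hrk.symm
    have hrpos : 0 < (T a - 1).rank := by
      by_contra hcon
      have h0 : (T a - 1).rank = 0 := by omega
      have h1 : T a - 1 = 0 := by
        have h5 : LinearMap.range (T a - 1).mulVecLin = ⊥ := Submodule.finrank_eq_zero.1 h0
        apply Matrix.ext_of_mulVec_single
        intro i
        have h6 : (T a - 1).mulVecLin (Pi.single i 1) ∈ LinearMap.range (T a - 1).mulVecLin := ⟨_, rfl⟩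
        rw [h5] at h6
        rw [Matrix.zero_mulVec]
        exact h6
      have h2 : a = 1 := Subtype.ext (Subtype.ext (sub_eq_zero.1 h1))
      rw [h2, orderOf_one] at ha
      omega
    let N := (T b - 1).mulVecLin
    let e₀ := e ⟨0, hrpos⟩
    let f := N e₀
    have hfe : Cfsg.hermForm n F q f e₀ = 1 := he _
    have hq2 := Lead.two_le_q hF
    have hef : Cfsg.hermForm n F q e₀ f = 1 := by
      rw [Lead.herm_conj hF f e₀, hfe, one_pow]
    have hNf : N f = 0 := hNN b hb e₀
    have hz : ∀ v, Cfsg.hermForm n F q v 0 = 0 := by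
      intro v
      simp only [Cfsg.hermForm, Pi.zero_apply]
      rw [zero_pow (by omega)]
      simp
    have hff : Cfsg.hermForm n F q f f = 0 := by
      have h1 := hadj b hb e₀ f
      rw [show (T b - 1).mulVecLin f = 0 from hNf, hz] at h1
      exact h1
    obtain ⟨μ, hμ⟩ := Cfsg.Agent.H12.UTrans.exists_trace_eq hF (Cfsg.hermForm n F q e₀ e₀) (Lead.herm_conj hF e₀ e₀).symm
    let x := e₀ + μ • f
    have hNx : N x = f := by
      show N (e₀ + μ • f) = f
      rw [map_add, map_smul, hNf, smul_zero, add_zero]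
    have hxf : Cfsg.hermForm n F q x f = 1 := by
      show Cfsg.hermForm n F q (e₀ + μ • f) f = 1
      rw [Lead.herm_add_left, Lead.herm_smul_left, hff, hef]
      ring
    have hfx : Cfsg.hermForm n F q f x = 1 := by
      rw [Lead.herm_conj hF x f, hxf, one_pow]
    have hxx : Cfsg.hermForm n F q x x = 0 := by
      show Cfsg.hermForm n F q (e₀ + μ • f) (e₀ + μ • f) = 0
      rw [Lead.herm_add_left, Lead.herm_add_right hF, Lead.herm_add_right hF, Lead.herm_smul_left,
        Lead.herm_smul_left, Lead.herm_smul_right hF, Lead.herm_smul_right hF, hff, hef, hfe]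
      have h2 : Cfsg.hermForm n F q e₀ e₀ + Cfsg.hermForm n F q e₀ e₀ = 0 := CharTwo.add_self_eq_zero _
      linear_combination h2 + hμ
    let G : Matrix (Fin n) (Fin n) F := LinearMap.toMatrix' g.toLinearMap
    have hG : ∀ v, G *ᵥ v = g v := fun v => LinearMap.toMatrix'_mulVec g.toLinearMap v
    have hGp : ∀ u v, Cfsg.hermForm n F q (G *ᵥ u) (G *ᵥ v) = Cfsg.hermForm n F q u v := by
      intro u v
      rw [hG, hG]
      exact hg u v
    have hd := Cfsg.Agent.H09.SUI.det_pow_of_preserving hF G hGp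
    have hqev : 2 ∣ q := by
      have h0 : ((q ^ 2 : ℕ) : F) = 0 := by
        rw [← hF]
        exact Nat.cast_card_eq_zero F
      have h1 : (q : F) = 0 := by
        push_cast at h0
        exact (pow_eq_zero_iff (by norm_num)).1 h0
      exact (CharP.cast_eq_zero_iff F 2 q).1 h1
    obtain ⟨r₀, hr₀⟩ := hqev
    let lam := G.det ^ r₀
    have hlam2 : lam ^ 2 * G.det = 1 := by
      show (G.det ^ r₀) ^ 2 * G.det = 1
      rw [← pow_mul, mul_comm r₀ 2, ← hr₀, ← pow_succ, hd]
    have hlamq : lam ^ (q + 1) = 1 := by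
      show (G.det ^ r₀) ^ (q + 1) = 1
      rw [← pow_mul, mul_comm, pow_mul, hd, one_pow]
    let M := Cfsg.Agent.H09.SUI.hypMat q x f (lam - 1)
    have hMd : M.det = lam ^ 2 := by
      rw [Cfsg.Agent.H09.SUI.hypMat_det x f (lam - 1) hxx hff hxf hfx]
      congr 1
      ring
    have hMp := Cfsg.Agent.H09.SUI.hypMat_preserves hF x f lam hlamq hxx hff hxf hfx
    have hMc := Cfsg.Agent.H09.SUI.hypMat_comm hF x f (lam - 1) (hadj b hb) hNx hNf
    have hdet : (M * G).det = 1 := by
      rw [Matrix.det_mul, hMd, hlam2]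
    have hpres : ∀ u v, Cfsg.hermForm n F q ((M * G) *ᵥ u) ((M * G) *ᵥ v) = Cfsg.hermForm n F q u v := by
      intro u v
      rw [← Matrix.mulVec_mulVec, ← Matrix.mulVec_mulVec, hMp, hGp]
    let c : ↥(Cfsg.SU n F q) := ⟨⟨M * G, hdet⟩, hpres⟩
    have hcT : T c = M * G := rfl
    have hgoal : ∀ v, M *ᵥ (G *ᵥ (T a *ᵥ v)) = T b *ᵥ (M *ᵥ (G *ᵥ v)) := by
      intro v
      rw [hTN a, Matrix.mulVec_add, hG, hG, hgN, Matrix.mulVec_add, hMc, hTN b (M *ᵥ g v)]
    have hcomm : T c * T a = T b * T c := by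
      apply Matrix.ext_of_mulVec_single
      intro i
      rw [hcT]
      simp only [← Matrix.mulVec_mulVec]
      exact hgoal _
    refine isConj_iff.2 ⟨c, ?_⟩
    have h3 : c * a = b * c := Subtype.ext (Subtype.ext hcomm)
    rw [h3]
    group
  have h1 : IsConj a b → IsConj (a : Matrix.SpecialLinearGroup (Fin n) F) (b : Matrix.SpecialLinearGroup (Fin n) F) := by
    intro h
    obtain ⟨c, hc⟩ := isConj_iff.1 h
    refine isConj_iff.2 ⟨c, ?_⟩
    have := congrArg Subtype.val hc
    exact this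
  exact ⟨⟨h1, fun h => hmain (hsl h)⟩, ⟨fun h => hsl (h1 h), hmain⟩⟩


end Cfsg.Agent.S2164
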