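import Cfsg.Statements.S2165
import Cfsg.Agent.Lib.H09.RankFactor

set_option autoImplicit false
open Cfsg

namespace Cfsg.Agent.S2165

/-- In SU_n(q), q even, n ≥ 3 (matrices of determinant 1 over the field with q² elements preserving Σ u_i v_i^q): for every ℓ with 1 ≤ ℓ and 2ℓ ≤ n, the permutation matrix of the involution of {0, …, n−1} exchanging i and n − ℓ + i for each i < ℓ lies in SU_n(q), has order 2, and differs from the identity by a matrix of rank ℓ. So every rank between 1 and n/2 occurs for involutions of SU_n(q). -/
theorem result {F : Type*} [Field F] [Fintype F] [CharP F 2] {n q : ℕ} (hF : Fintype.card F = q ^ 2) (hn : 3 ≤ n) (ℓ : ℕ) (h1 : 1 ≤ ℓ) (h2 : 2 * ℓ ≤ n) :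
    ∃ a : ↥(Cfsg.SU n F q), (((a : Matrix.SpecialLinearGroup (Fin n) F) : Matrix (Fin n) (Fin n) F) = Matrix.of (fun i j : Fin n => if (j.val < ℓ ∧ i.val = j.val + (n - ℓ)) ∨ (i.val < ℓ ∧ j.val = i.val + (n - ℓ)) ∨ (i = j ∧ ℓ ≤ i.val ∧ i.val < n - ℓ) then (1 : F) else 0)) ∧ orderOf a = 2 ∧ ((((a : Matrix.SpecialLinearGroup (Fin n) F) : Matrix (Fin n) (Fin n) F)) - 1).rank = ℓ := by
  classical
  have hnℓ : ℓ ≤ n - ℓ := by omega
  have hsum : ∀ (c : ℕ) (hc : c < n) (f : Fin n → F),
      (∑ k : Fin n, if k.val = c then f k else 0) = f ⟨c, hc⟩ := by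
    intro c hc f
    rw [Finset.sum_eq_single (⟨c, hc⟩ : Fin n)]
    · simp
    · intro b _ hb
      rw [if_neg]
      intro e
      exact hb (Fin.ext e)
    · simp
  -- the involution
  let s : ℕ → ℕ := fun i => if i < ℓ then i + (n - ℓ) else if n - ℓ ≤ i then i - (n - ℓ) else i
  have hs : ∀ i, i < n → s i < n := by
    intro i hi
    simp only [s]
    split_ifs <;> omega
  have hss : ∀ i, i < n → s (s i) = i := by
    intro i hi
    simp only [s]
    split_ifs <;> omega
  let σ : Equiv.Perm (Fin n) :=
    { toFun := fun i => ⟨s i.val, hs i.val i.2⟩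
      invFun := fun i => ⟨s i.val, hs i.val i.2⟩
      left_inv := fun i => Fin.ext (hss i.val i.2)
      right_inv := fun i => Fin.ext (hss i.val i.2) }
  have hσ : ∀ i : Fin n, (σ i).val = s i.val := fun i => rfl
  have hσσ : ∀ i : Fin n, σ (σ i) = i := fun i => Fin.ext (hss i.val i.2)
  let P : Matrix (Fin n) (Fin n) F := σ.permMatrix F
  have hPentry : ∀ i j : Fin n, P i j = if j = σ i then (1 : F) else 0 := by
    intro i j
    show (σ.toPEquiv.toMatrix : Matrix (Fin n) (Fin n) F) i j = _
    rw [PEquiv.toMatrix_apply]
    simp [Equiv.toPEquiv_apply, eq_comm]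
  have hPform : P = Matrix.of (fun i j : Fin n => if (j.val < ℓ ∧ i.val = j.val + (n - ℓ)) ∨ (i.val < ℓ ∧ j.val = i.val + (n - ℓ)) ∨ (i = j ∧ ℓ ≤ i.val ∧ i.val < n - ℓ) then (1 : F) else 0) := by
    ext i j
    rw [hPentry, Matrix.of_apply]
    have hij : (i = j) ↔ i.val = j.val := Fin.ext_iff
    have hj : (j = σ i) ↔ j.val = s i.val := Fin.ext_iff
    simp only [hij, hj, s]
    split_ifs <;> first | rfl | omega
  have hdet : P.det = 1 := by
    rw [Matrix.det_permutation]
    rcases Int.units_eq_one_or (Equiv.Perm.sign σ) with h | h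
    · rw [h]; simp
    · rw [h]; simp [CharTwo.neg_eq]
  let a0 : Matrix.SpecialLinearGroup (Fin n) F := ⟨P, hdet⟩
  have hmem : a0 ∈ Cfsg.SU n F q := by
    intro u v
    show Cfsg.hermForm n F q (Matrix.mulVec P u) (Matrix.mulVec P v) = Cfsg.hermForm n F q u v
    have hmv : ∀ w : Fin n → F, Matrix.mulVec P w = w ∘ σ := fun w => PEquiv.toMatrix_toPEquiv_mulVec σ w
    rw [hmv, hmv]
    exact Equiv.sum_comp σ (fun i => u i * (v i) ^ q)
  have hPP : P * P = 1 := by
    ext i j
    rw [Matrix.mul_apply, Matrix.one_apply]
    simp only [hPentry, ite_mul, one_mul, zero_mul]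
    rw [Finset.sum_ite_eq']
    simp only [Finset.mem_univ, if_true]
    by_cases hij : i = j
    · subst hij
      simp [hσσ]
    · rw [if_neg hij, if_neg]
      intro e
      rw [hσσ] at e
      exact hij e.symm
  refine ⟨⟨a0, hmem⟩, hPform, ?_, ?_⟩
  · refine orderOf_eq_prime ?_ ?_
    · apply Subtype.ext
      apply Subtype.ext
      show P ^ 2 = 1
      rw [sq, hPP]
    · intro h
      have h1' : P = 1 := congrArg (fun x : ↥(Cfsg.SU n F q) => ((x : Matrix.SpecialLinearGroup (Fin n) F) : Matrix (Fin n) (Fin n) F)) h
      have h2' := congrFun (congrFun h1' ⟨0, by omega⟩) ⟨n - ℓ, by omega⟩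
      rw [hPentry, Matrix.one_apply_ne (by
        intro e
        have := congrArg Fin.val e
        simp only at this
        omega), if_pos] at h2'
      · exact one_ne_zero h2'
      · apply Fin.ext
        simp [hσ, s]
        omega
  · show (P - 1).rank = ℓ
    have hentry : ∀ i k : Fin n, (P - 1) i k =
        (if k = σ i then (1 : F) else 0) + (if k = i then (1 : F) else 0) := by
      intro i k
      rw [Matrix.sub_apply, hPentry, Matrix.one_apply, CharTwo.sub_eq_add]
      congr 1
      simp [eq_comm]
    refine Cfsg.Agent.H09.rank_eq_of_factor (P - 1)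
      (Matrix.of fun (i : Fin n) (j : Fin ℓ) => if i.val = j.val ∨ i.val = j.val + (n - ℓ) then (1 : F) else 0)
      (Matrix.of fun (j : Fin ℓ) (k : Fin n) => if k.val = j.val ∨ k.val = j.val + (n - ℓ) then (1 : F) else 0)
      (Matrix.of fun (j : Fin ℓ) (k : Fin n) => if k.val = j.val then (1 : F) else 0)
      (Matrix.of fun (k : Fin n) (j : Fin ℓ) => if k.val = j.val + (n - ℓ) then (1 : F) else 0) ?_ ?_
    · ext i k
      rw [hentry, Matrix.mul_apply]
      simp only [Matrix.of_apply]
      by_cases hi : i.val < ℓ
      · rw [Finset.sum_eq_single (⟨i.val, hi⟩ : Fin ℓ)]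
        · have h3 : (σ i).val = i.val + (n - ℓ) := by simp [hσ, s, hi]
          rw [if_pos (Or.inl rfl), one_mul]
          have e1 : (k = σ i) ↔ k.val = i.val + (n - ℓ) := by rw [Fin.ext_iff, h3]
          have e2 : (k = i) ↔ k.val = i.val := Fin.ext_iff
          simp only [e1, e2]
          by_cases h4 : k.val = i.val
          · rw [if_pos h4, if_pos (Or.inl h4), if_neg (by omega), zero_add]
          · rw [if_neg h4, add_zero]
            by_cases h5 : k.val = i.val + (n - ℓ)
            · rw [if_pos h5, if_pos (Or.inr h5)]
            · rw [if_neg h5, if_neg]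
              rintro (h | h) <;> contradiction
        · intro b _ hb
          rw [if_neg, zero_mul]
          rintro (h | h)
          · exact hb (Fin.ext h.symm)
          · omega
        · simp
      · by_cases hi2 : n - ℓ ≤ i.val
        · have hj : i.val - (n - ℓ) < ℓ := by have := i.2; omega
          rw [Finset.sum_eq_single (⟨i.val - (n - ℓ), hj⟩ : Fin ℓ)]
          · have h3 : (σ i).val = i.val - (n - ℓ) := by
              show s i.val = _
              simp only [s]
              rw [if_neg hi, if_pos hi2]
            rw [if_pos (Or.inr (by simp only; omega)), one_mul]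
            have e1 : (k = σ i) ↔ k.val = i.val - (n - ℓ) := by rw [Fin.ext_iff, h3]
            have e2 : (k = i) ↔ k.val = i.val := Fin.ext_iff
            simp only [e1, e2]
            by_cases h4 : k.val = i.val
            · rw [if_pos h4, if_neg (by omega), zero_add, if_pos (Or.inr (by omega))]
            · rw [if_neg h4, add_zero]
              by_cases h5 : k.val = i.val - (n - ℓ)
              · rw [if_pos h5, if_pos (Or.inl h5)]
              · rw [if_neg h5, if_neg]
                rintro (h | h)
                · contradiction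
                · omega
          · intro b _ hb
            rw [if_neg, zero_mul]
            rintro (h | h)
            · omega
            · apply hb
              apply Fin.ext
              simp only
              omega
          · simp
        · have h3 : σ i = i := by
            apply Fin.ext
            show s i.val = _
            simp only [s]
            rw [if_neg hi, if_neg hi2]
          rw [h3, CharTwo.add_self_eq_zero]
          symm
          refine Finset.sum_eq_zero fun b _ => ?_
          rw [if_neg, zero_mul]
          have := b.2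
          rintro (h | h) <;> omega
    · have hC : (Matrix.of fun (j : Fin ℓ) (k : Fin n) => if k.val = j.val then (1 : F) else 0) * (P - 1)
          = Matrix.of fun (j : Fin ℓ) (k : Fin n) => (P - 1) ⟨j.val, by have := j.2; omega⟩ k := by
        ext r k
        rw [Matrix.mul_apply]
        simp only [Matrix.of_apply, ite_mul, one_mul, zero_mul]
        rw [hsum r.val (by have := r.2; omega)]
      rw [hC]
      ext r t
      rw [Matrix.mul_apply, Matrix.one_apply]
      simp only [Matrix.of_apply, mul_ite, mul_one, mul_zero]
      rw [hsum (t.val + (n - ℓ)) (by have := t.2; omega), hentry]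
      have h3 : (σ ⟨r.val, by have := r.2; omega⟩).val = r.val + (n - ℓ) := by
        have := r.2
        simp [hσ, s]
      have e1 : ((⟨t.val + (n - ℓ), by have := t.2; omega⟩ : Fin n) = σ ⟨r.val, by have := r.2; omega⟩) ↔ r = t := by
        rw [Fin.ext_iff, h3]
        simp only
        constructor
        · intro h
          apply Fin.ext
          omega
        · intro h
          rw [h]
      have e2 : ¬ ((⟨t.val + (n - ℓ), by have := t.2; omega⟩ : Fin n) = ⟨r.val, by have := r.2; omega⟩) := by
        intro e
        have := congrArg Fin.val e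
        simp only at this
        have := r.2
        omega
      rw [if_congr e1 rfl rfl, if_neg e2, add_zero]

end Cfsg.Agent.S2165
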