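import Cfsg.Statements.S2166
import Cfsg.Agent.Lib.H09.SpInv
import Cfsg.Agent.Lib.H09.OInv2
import Cfsg.Agent.Lib.H11.Symp2
import Cfsg.Agent.Lib.H11.SpReg
import Cfsg.Agent.S0749


set_option autoImplicit false
open Cfsg
open scoped Matrix

namespace Cfsg.Agent.S2166

/-- Conjugacy of involutions in the symplectic group Sp_{2m}(F), F a finite field of characteristic two, m ≥ 2 (Sp taken as the matrices A with A J Aᵀ = J, acting on column vectors, with the alternating form f(u, v) = u ⬝ (J v)). For an involution t write V(t) for the set of vectors v with f(v, t v) = 0 (a subspace). Two involutions a, b are conjugate in Sp_{2m}(F) exactly when a − 1 and b − 1 have the same rank and, in case that rank is even, V(a) and V(b) have the same number of elements. -/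
theorem result {F : Type*} [Field F] [Fintype F] [CharP F 2] {m : ℕ} (hm : 2 ≤ m) (a b : ↥(Matrix.symplecticGroup (Fin m) F)) (ha : orderOf a = 2) (hb : orderOf b = 2) :
    IsConj a b ↔ ((((a : ↥(Matrix.symplecticGroup (Fin m) F)) : Matrix (Fin m ⊕ Fin m) (Fin m ⊕ Fin m) F) - 1).rank = (((b : ↥(Matrix.symplecticGroup (Fin m) F)) : Matrix (Fin m ⊕ Fin m) (Fin m ⊕ Fin m) F) - 1).rank ∧
      (Even (((a : ↥(Matrix.symplecticGroup (Fin m) F)) : Matrix (Fin m ⊕ Fin m) (Fin m ⊕ Fin m) F) - 1).rank → Nat.card {v : Fin m ⊕ Fin m → F // Cfsg.sympForm m F v (Matrix.mulVec ((a : ↥(Matrix.symplecticGroup (Fin m) F)) : Matrix (Fin m ⊕ Fin m) (Fin m ⊕ Fin m) F) v) = 0} = Nat.card {v : Fin m ⊕ Fin m → F // Cfsg.sympForm m F v (Matrix.mulVec ((b : ↥(Matrix.symplecticGroup (Fin m) F)) : Matrix (Fin m ⊕ Fin m) (Fin m ⊕ Fin m) F) v) = 0})) := by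
  classical
  let B := Cfsg.Agent.H11.sympBilin m F
  have hBa : ∀ u v, B u v = Cfsg.sympForm m F u v := fun _ _ => rfl
  have hAlt : B.IsAlt := fun u => Cfsg.Agent.H11.sympForm_self u
  have hnd : B.Nondegenerate := Cfsg.Agent.H11.sympBilin_nondegenerate
  have hnl : ∀ x, (∀ y, B x y = 0) → x = 0 := fun x hx => Cfsg.Agent.H11.sympForm_left_eq_zero x hx
  have hWitt : ∀ (X Y : Submodule F (Fin m ⊕ Fin m → F)) (φ : X ≃ₗ[F] Y),
      (∀ x x' : X, B (φ x : _) (φ x' : _) = B (x : _) (x' : _)) →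
        ∃ g : (Fin m ⊕ Fin m → F) ≃ₗ[F] (Fin m ⊕ Fin m → F), (∀ u v, B (g u) (g v) = B u v) ∧
          ∀ x : X, g (x : _) = (φ x : _) :=
    fun X Y φ hφ => Cfsg.Agent.S0749.result B hnd hAlt X Y φ hφ
  have hNv : ∀ (t : ↥(Matrix.symplecticGroup (Fin m) F)) v, (t.1 - 1).mulVecLin v = t.1 *ᵥ v - v := by
    intro t v
    rw [Matrix.mulVecLin_apply, Matrix.sub_mulVec, Matrix.one_mulVec]
  -- elementary facts about an involution
  have hinv : ∀ t : ↥(Matrix.symplecticGroup (Fin m) F), orderOf t = 2 →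
      ((t.1 - 1).mulVecLin : _ →ₗ[F] _) = (t.1 - 1).mulVecLin ∧
      t.1 * t.1 = 1 := by
    intro t ht
    refine ⟨rfl, ?_⟩
    have h1 : t * t = 1 := by rw [← pow_two, ← ht, pow_orderOf_eq_one]
    exact congrArg Subtype.val h1
  have hadj : ∀ t : ↥(Matrix.symplecticGroup (Fin m) F), orderOf t = 2 → ∀ u v,
      B ((t.1 - 1).mulVecLin u) v = B u ((t.1 - 1).mulVecLin v) := by
    intro t ht u v
    have htt := (hinv t ht).2
    have hi := Cfsg.Agent.H11.sympForm_mulVec t.2
    have h1 : B (t.1 *ᵥ u) v = B u (t.1 *ᵥ v) := by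
      rw [hBa, hBa, ← hi u (t.1 *ᵥ v), Matrix.mulVec_mulVec, htt, Matrix.one_mulVec]
    rw [hNv, hNv, map_sub, map_sub, LinearMap.sub_apply, h1]
  have hNN : ∀ t : ↥(Matrix.symplecticGroup (Fin m) F), orderOf t = 2 → ∀ v,
      (t.1 - 1).mulVecLin ((t.1 - 1).mulVecLin v) = 0 := by
    intro t ht v
    have htt := (hinv t ht).2
    simp only [Matrix.mulVecLin_apply, Matrix.mulVec_mulVec]
    have h1 : (t.1 - 1) * (t.1 - 1) = 0 := by
      rw [sub_mul, mul_sub, htt, mul_one, one_mul]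
      have h2 : ∀ A : Matrix (Fin m ⊕ Fin m) (Fin m ⊕ Fin m) F, A + A = 0 := by
        intro A
        ext i j
        simp only [Matrix.add_apply, Matrix.zero_apply]
        exact CharTwo.add_self_eq_zero _
      have h3 : (1 - t.1 - (t.1 - 1)) = (1 + 1) - (t.1 + t.1) := by
        abel
      rw [h3, h2, h2, sub_zero]
    rw [h1, Matrix.zero_mulVec]
  have hdiag : ∀ t : ↥(Matrix.symplecticGroup (Fin m) F), ∀ v,
      Cfsg.sympForm m F v (t.1 *ᵥ v) = B v ((t.1 - 1).mulVecLin v) := by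
    intro t v
    rw [hNv, map_sub, hBa, hBa, Cfsg.Agent.H11.sympForm_self, sub_zero]
  constructor
  · -- conjugate implies same invariants
    intro hc
    obtain ⟨c, hc⟩ := isConj_iff.1 hc
    have hcm : c.1 * a.1 * (c⁻¹).1 = b.1 :=
      congrArg Subtype.val hc
    have hcc : c.1 * (c⁻¹).1 = 1 :=
      congrArg Subtype.val (mul_inv_cancel c)
    have hcc' : (c⁻¹).1 * c.1 = 1 :=
      congrArg Subtype.val (inv_mul_cancel c)
    have hbm : b.1 - 1 = c.1 * (a.1 - 1) * (c⁻¹).1 := by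
      rw [mul_sub, sub_mul, hcm, mul_one, hcc]
    have hu1 : IsUnit c.1.det := (Matrix.isUnit_iff_isUnit_det _).1 (IsUnit.of_mul_eq_one _ hcc)
    have hu2 : IsUnit (c⁻¹).1.det :=
      (Matrix.isUnit_iff_isUnit_det _).1 (IsUnit.of_mul_eq_one _ hcc')
    have hrk : (a.1 - 1).rank = (b.1 - 1).rank := by
      rw [hbm, Matrix.rank_mul_eq_left_of_isUnit_det _ _ hu2, Matrix.rank_mul_eq_right_of_isUnit_det _ _ hu1]
    refine ⟨hrk, fun _ => ?_⟩
    refine Nat.card_congr (Equiv.subtypeEquiv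
      ⟨fun v => c.1 *ᵥ v, fun v => (c⁻¹).1 *ᵥ v, ?_, ?_⟩ ?_)
    · intro v
      simp only [Matrix.mulVec_mulVec, hcc', Matrix.one_mulVec]
    · intro v
      simp only [Matrix.mulVec_mulVec, hcc, Matrix.one_mulVec]
    · intro v
      show _ ↔ Cfsg.sympForm m F (c.1 *ᵥ v) (b.1 *ᵥ (c.1 *ᵥ v)) = 0
      have h1 : b.1 *ᵥ (c.1 *ᵥ v) = c.1 *ᵥ (a.1 *ᵥ v) := by
        rw [Matrix.mulVec_mulVec, Matrix.mulVec_mulVec, ← hcm, mul_assoc, hcc', mul_one]
      rw [h1, Cfsg.Agent.H11.sympForm_mulVec c.2]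
  · rintro ⟨hrk, hcard⟩
    have hall : ∀ t : ↥(Matrix.symplecticGroup (Fin m) F),
        (∀ v, B v ((t.1 - 1).mulVecLin v) = 0) ↔
        Nat.card {v : Fin m ⊕ Fin m → F // Cfsg.sympForm m F v (t.1 *ᵥ v) = 0} = Nat.card (Fin m ⊕ Fin m → F) := by
      intro t
      constructor
      · intro h
        refine Nat.card_congr (Equiv.subtypeUnivEquiv (fun v => ?_))
        rw [hdiag]
        exact h v
      · intro h v
        have hinj : Function.Injective (Subtype.val : {v : Fin m ⊕ Fin m → F // Cfsg.sympForm m F v (t.1 *ᵥ v) = 0} → _) :=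
          Subtype.val_injective
        have hbij := Function.Injective.bijective_of_nat_card_le hinj h.ge
        obtain ⟨⟨w, hw⟩, rfl⟩ := hbij.2 v
        show B w _ = 0
        rw [← hdiag]
        exact hw
    have hrkF : Module.finrank F (LinearMap.range (a.1 - 1).mulVecLin) =
        Module.finrank F (LinearMap.range (b.1 - 1).mulVecLin) := hrk
    have htype : (∀ v, B v ((a.1 - 1).mulVecLin v) = 0) ↔
        (∀ v, B v ((b.1 - 1).mulVecLin v) = 0) := by
      by_cases hev : Even (a.1 - 1).rank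
      · rw [hall a, hall b, hcard hev]
      · have hodd : ∀ t : ↥(Matrix.symplecticGroup (Fin m) F), orderOf t = 2 → ¬ Even (t.1 - 1).rank →
            ¬ ∀ v, B v ((t.1 - 1).mulVecLin v) = 0 := by
          intro t ht hne hal
          obtain ⟨k, hk, _⟩ := Cfsg.Agent.H09.SPI.gram_alt hAlt hnl (hadj t ht) (hNN t ht) hal
          apply hne
          refine ⟨k, ?_⟩
          have : (t.1 - 1).rank = Fintype.card (Fin k ⊕ Fin k) := hk
          simp only [Fintype.card_sum, Fintype.card_fin] at this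
          exact this
        constructor
        · intro h
          exact absurd h (hodd a ha hev)
        · intro h
          exact absurd h (hodd b hb (by rwa [← hrk]))
    obtain ⟨g, hg, hgN⟩ := Cfsg.Agent.H09.SPI.exists_isometry Cfsg.Agent.H09.OI.exists_sq_eq hAlt hnl
      (hadj a ha) (hadj b hb) (hNN a ha) (hNN b hb) hrkF htype hWitt
    let M : Matrix (Fin m ⊕ Fin m) (Fin m ⊕ Fin m) F := LinearMap.toMatrix' g.toLinearMap
    have hM : ∀ v, M *ᵥ v = g v := by
      intro v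
      exact LinearMap.toMatrix'_mulVec g.toLinearMap v
    have hMS : M ∈ Matrix.symplecticGroup (Fin m) F := by
      apply Cfsg.Agent.H11.mem_symplectic_of_preserves
      intro x y
      rw [hM, hM]
      exact hg x y
    have hMab : M * a.1 = b.1 * M := by
      apply Matrix.ext_of_mulVec_single
      intro i
      have h1 := hgN (Pi.single i 1)
      rw [hNv, hNv, map_sub, sub_left_inj] at h1
      rw [← Matrix.mulVec_mulVec, ← Matrix.mulVec_mulVec, hM, hM]
      exact h1
    refine isConj_iff.2 ⟨⟨M, hMS⟩, ?_⟩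
    have h3 : (⟨M, hMS⟩ : ↥(Matrix.symplecticGroup (Fin m) F)) * a = b * ⟨M, hMS⟩ := Subtype.ext hMab
    rw [h3]
    group


end Cfsg.Agent.S2166
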