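import Cfsg.Statements.S2167
import Cfsg.Agent.Lib.H09.RankAlt
import Cfsg.Agent.Lib.Lead.SpBasic

set_option autoImplicit false
open Cfsg

namespace Cfsg.Agent.S2167

/-- For an involution t of the symplectic group Sp_{2m}(F), m ≥ 2, F a finite field of characteristic two (matrices A with A J Aᵀ = J acting on column vectors, alternating form f(u, v) = u ⬝ (J v)): the set V(t) of vectors v with f(v, t v) = 0 has either q^{2m} or q^{2m−1} elements, q the order of F (it is a subspace of codimension at most 1), and if it is the whole space then t − 1 has even rank. -/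
theorem result {F : Type*} [Field F] [Fintype F] [CharP F 2] {m : ℕ} (hm : 2 ≤ m) (a : ↥(Matrix.symplecticGroup (Fin m) F)) (ha : orderOf a = 2) :
    (Nat.card {v : Fin m ⊕ Fin m → F // Cfsg.sympForm m F v (Matrix.mulVec ((a : ↥(Matrix.symplecticGroup (Fin m) F)) : Matrix (Fin m ⊕ Fin m) (Fin m ⊕ Fin m) F) v) = 0} = Fintype.card F ^ (2 * m) ∨ Nat.card {v : Fin m ⊕ Fin m → F // Cfsg.sympForm m F v (Matrix.mulVec ((a : ↥(Matrix.symplecticGroup (Fin m) F)) : Matrix (Fin m ⊕ Fin m) (Fin m ⊕ Fin m) F) v) = 0} * Fintype.card F = Fintype.card F ^ (2 * m)) ∧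
    ((∀ v : Fin m ⊕ Fin m → F, Cfsg.sympForm m F v (Matrix.mulVec ((a : ↥(Matrix.symplecticGroup (Fin m) F)) : Matrix (Fin m ⊕ Fin m) (Fin m ⊕ Fin m) F) v) = 0) → Even (((a : ↥(Matrix.symplecticGroup (Fin m) F)) : Matrix (Fin m ⊕ Fin m) (Fin m ⊕ Fin m) F) - 1).rank) := by
  classical
  obtain ⟨A, hAmem⟩ := a
  have ha2 : A * A = 1 := by
    have h1 : (⟨A, hAmem⟩ : ↥(Matrix.symplecticGroup (Fin m) F)) ^ 2 = 1 := by
      rw [← ha]
      exact pow_orderOf_eq_one _
    have h2 := congrArg Subtype.val h1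
    simpa [sq] using h2
  simp only
  have hAtJA : A.transpose * Matrix.J (Fin m) F * A = Matrix.J (Fin m) F := by
    have := SymplecticGroup.mem_iff.1 (SymplecticGroup.transpose_mem hAmem)
    simpa using this
  let f : (Fin m ⊕ Fin m → F) → (Fin m ⊕ Fin m → F) → F := Cfsg.sympForm m F
  have hf : ∀ u v, f u v = Cfsg.Agent.Lead.sympForm u v := fun u v => rfl
  have hpres : ∀ u v, f (Matrix.mulVec A u) (Matrix.mulVec A v) = f u v := by
    intro u v
    show (Matrix.mulVec A u) ⬝ᵥ (Matrix.mulVec (Matrix.J (Fin m) F) (Matrix.mulVec A v)) =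
      u ⬝ᵥ (Matrix.mulVec (Matrix.J (Fin m) F) v)
    calc (Matrix.mulVec A u) ⬝ᵥ (Matrix.mulVec (Matrix.J (Fin m) F) (Matrix.mulVec A v))
        = u ⬝ᵥ (Matrix.mulVec A.transpose (Matrix.mulVec (Matrix.J (Fin m) F) (Matrix.mulVec A v))) := by
          rw [dotProduct_comm, Matrix.dotProduct_mulVec, dotProduct_comm, Matrix.mulVec_transpose]
      _ = u ⬝ᵥ (Matrix.mulVec (A.transpose * Matrix.J (Fin m) F * A) v) := by
          simp only [Matrix.mulVec_mulVec, Matrix.mul_assoc]
      _ = u ⬝ᵥ (Matrix.mulVec (Matrix.J (Fin m) F) v) := by rw [hAtJA]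
  have hff : ∀ v, f v v = 0 := fun v => Cfsg.Agent.Lead.sympForm_self v
  have hskew : ∀ u v, f u v = - f v u := fun u v => Cfsg.Agent.Lead.sympForm_swap u v
  have hAAv : ∀ v, Matrix.mulVec A (Matrix.mulVec A v) = v := by
    intro v
    rw [Matrix.mulVec_mulVec, ha2, Matrix.one_mulVec]
  let g : (Fin m ⊕ Fin m → F) → F := fun v => f v (Matrix.mulVec A v)
  have hcross : ∀ u v, f u (Matrix.mulVec A v) + f v (Matrix.mulVec A u) = 0 := by
    intro u v
    have h1 : f v (Matrix.mulVec A u) = f (Matrix.mulVec A v) u := by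
      have := hpres v (Matrix.mulVec A u)
      rw [hAAv] at this
      exact this.symm
    rw [h1, hskew (Matrix.mulVec A v) u, add_neg_cancel]
  have hgadd : ∀ u v, g (u + v) = g u + g v := by
    intro u v
    show f (u + v) (Matrix.mulVec A (u + v)) = f u (Matrix.mulVec A u) + f v (Matrix.mulVec A v)
    rw [Matrix.mulVec_add]
    have e1 : f (u + v) (Matrix.mulVec A u + Matrix.mulVec A v) =
        f u (Matrix.mulVec A u) + f u (Matrix.mulVec A v) + (f v (Matrix.mulVec A u) + f v (Matrix.mulVec A v)) := by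
      simp only [hf, Cfsg.Agent.Lead.sympForm_add_left, Cfsg.Agent.Lead.sympForm_add_right]
      ring
    rw [e1]
    have := hcross u v
    linear_combination this
  have hgsmul : ∀ (c : F) v, g (c • v) = c ^ 2 * g v := by
    intro c v
    show f (c • v) (Matrix.mulVec A (c • v)) = c ^ 2 * f v (Matrix.mulVec A v)
    rw [Matrix.mulVec_smul]
    simp only [hf, Cfsg.Agent.Lead.sympForm_smul_left, Cfsg.Agent.Lead.sympForm_smul_right]
    ring
  have hsqinj : Function.Injective (fun x : F => x ^ 2) := by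
    intro x y hxy
    have h1 : (x + y) ^ 2 = 0 := by
      rw [CharTwo.add_sq]
      simp only at hxy
      rw [hxy, CharTwo.add_self_eq_zero]
    have h2 := pow_eq_zero_iff (two_ne_zero) |>.1 h1
    exact CharTwo.add_eq_zero.1 h2
  have hsqbij : Function.Bijective (fun x : F => x ^ 2) := Finite.injective_iff_bijective.1 hsqinj
  choose r hr using hsqbij.2
  have hr' : ∀ x, (r x) ^ 2 = x := hr
  have hr0 : ∀ x, r x = 0 ↔ x = 0 := by
    intro x
    constructor
    · intro h
      rw [← hr' x, h]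
      simp
    · intro h
      subst h
      exact (pow_eq_zero_iff two_ne_zero).1 (hr' 0)
  let L : (Fin m ⊕ Fin m → F) →ₗ[F] F :=
    { toFun := fun v => r (g v)
      map_add' := by
        intro u v
        apply hsqinj
        show (r (g (u + v))) ^ 2 = (r (g u) + r (g v)) ^ 2
        rw [CharTwo.add_sq, hr', hr', hr', hgadd]
      map_smul' := by
        intro c v
        apply hsqinj
        show (r (g (c • v))) ^ 2 = (c * r (g v)) ^ 2
        rw [mul_pow, hr', hr', hgsmul] }
  have hL : ∀ v, L v = 0 ↔ g v = 0 := fun v => hr0 (g v)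
  have hcardV : Nat.card (Fin m ⊕ Fin m → F) = Fintype.card F ^ (2 * m) := by
    rw [Nat.card_eq_fintype_card, Fintype.card_fun, Fintype.card_sum, Fintype.card_fin, two_mul]
  refine ⟨?_, ?_⟩
  · by_cases hall : ∀ v, g v = 0
    · left
      rw [← hcardV]
      exact Nat.card_congr (Equiv.subtypeUnivEquiv hall)
    · right
      push Not at hall
      obtain ⟨v₀, hv₀⟩ := hall
      have hLne : L v₀ ≠ 0 := fun h => hv₀ ((hL v₀).1 h)
      have hsurj : Function.Surjective L := by
        intro y
        refine ⟨(y / L v₀) • v₀, ?_⟩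
        rw [map_smul, smul_eq_mul, div_mul_cancel₀ _ hLne]
      have h1 := AddSubgroup.card_mul_index (L.toAddMonoidHom.ker)
      rw [AddSubgroup.index_ker, AddMonoidHom.range_eq_top.2 hsurj] at h1
      have h2 : Nat.card (⊤ : AddSubgroup F) = Fintype.card F := by
        rw [AddSubgroup.card_top, Nat.card_eq_fintype_card]
      rw [h2, hcardV] at h1
      have h3 : Nat.card {v : Fin m ⊕ Fin m → F // f v (Matrix.mulVec A v) = 0} =
          Nat.card (L.toAddMonoidHom.ker) := by
        refine Nat.card_congr (Equiv.subtypeEquivRight fun v => ?_)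
        show f v (Matrix.mulVec A v) = 0 ↔ v ∈ L.toAddMonoidHom.ker
        rw [AddMonoidHom.mem_ker]
        exact (hL v).symm
      show Nat.card {v : Fin m ⊕ Fin m → F // f v (Matrix.mulVec A v) = 0} * Fintype.card F = _
      rw [h3]
      exact h1
  · intro hall
    have hB : ∀ v : Fin m ⊕ Fin m → F,
        v ⬝ᵥ (Matrix.mulVec (Matrix.J (Fin m) F * (A - 1)) v) = 0 := by
      intro v
      rw [← Matrix.mulVec_mulVec, Matrix.sub_mulVec, Matrix.one_mulVec]
      have h1 : v ⬝ᵥ (Matrix.mulVec (Matrix.J (Fin m) F) (Matrix.mulVec A v - v)) =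
          f v (Matrix.mulVec A v - v) := rfl
      rw [h1, hf, Cfsg.Agent.Lead.sympForm_sub_right, ← hf, ← hf, hff, sub_zero]
      exact hall v
    have h1 := Cfsg.Agent.H09.even_rank_of_alternating _ hB
    rwa [Matrix.rank_mul_eq_right_of_isUnit_det _ _ (Matrix.isUnit_det_J (Fin m) F)] at h1

end Cfsg.Agent.S2167
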