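import Cfsg.Statements.S2173
import Cfsg.Agent.Lib.H09.OInv2


set_option autoImplicit false
open Cfsg

namespace Cfsg.Agent.S2173

/-- For the quadratic form Σ x_i y_i + (z₁² + c z₁ z₂ + d z₂²) in dimension 2m with anisotropic binary part over a finite field F of characteristic two, m ≥ 4 (minus type): two involutions of the commutator subgroup Ω that are conjugate in the full isometry group O are conjugate by an element of Ω (no class of involutions of O inside Ω splits). -/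
theorem result {F : Type*} [Field F] [Fintype F] [CharP F 2] {m : ℕ} (hm : 4 ≤ m) (c d : F) (hcd : ∀ z₁ z₂ : F, z₁ ^ 2 + c * z₁ * z₂ + d * z₂ ^ 2 = 0 → z₁ = 0 ∧ z₂ = 0) (t s : ↥(Cfsg.isometryGroup F (Cfsg.quadFormMinus (m - 1) F c d))) (ht : orderOf t = 2) (hs : orderOf s = 2) (htO : t ∈ Cfsg.Omega F (Cfsg.quadFormMinus (m - 1) F c d)) (hsO : s ∈ Cfsg.Omega F (Cfsg.quadFormMinus (m - 1) F c d)) (hconj : IsConj t s) :
    ∃ g ∈ Cfsg.Omega F (Cfsg.quadFormMinus (m - 1) F c d), g * t * g⁻¹ = s := by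
  have hcard : Fintype.card ((Fin (m - 1) ⊕ Fin (m - 1)) ⊕ Fin 2) ≠ 4 := by
    simp [Fintype.card_sum]
    omega
  have hdim : Fintype.card ((Fin (m - 1) ⊕ Fin (m - 1)) ⊕ Fin 2) = 2 * m := by
    simp [Fintype.card_sum]
    omega
  refine Cfsg.Agent.H09.OI.omega_conj_of_no_mts (Q := Cfsg.Agent.H11.minusForm (m - 1) F c d)
    (Cfsg.Agent.H09.OI.minus_nondeg_two (m - 1) c d hcd) (Or.inr hcard) hdim ?_
    (Cfsg.Agent.H11.minusForm_coe (m - 1) c d) t s ht hconj
  intro W hW
  have hm1 : m - 1 + 1 = m := by omega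
  exact Cfsg.Agent.H09.OI.no_mts_minus (m - 1) c d hcd (W := W) (by rw [hm1]; exact hW)


end Cfsg.Agent.S2173
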