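import Cfsg.Statements.S2177
import Cfsg.Agent.Lib.H04.Col.G2

set_option autoImplicit false
open Cfsg

namespace Cfsg.Agent.S2177

open Cfsg Cfsg.Lie Cfsg.Agent.H04.Chev Cfsg.Agent.H04.Col Cfsg.Agent.H04.Col.G2 Cfsg.Agent.H04.Chev.TG2

set_option linter.style.haveILetI false
set_option linter.unusedVariables false
set_option linter.unusedSectionVars false
set_option linter.unusedSimpArgs false


/-- Conjugacy classes of involutions in the Chevalley group of type G₂ over a finite field F of characteristic two with at least four elements (the matrix group generated by the root elements x_r(t)). In this problem's root numbering for type G₂ (the Chevalley data module; p₁ = a short, p₂ = b long; roots indexed by coefficient vectors in increasing order) let 11 be the highest root 3a + 2b (long) and 9 the short root 2a + b; consider x_{3a+2b}(1) and x_{2a+b}(1). Then: each invertible matrix equal to one of these two products lies in the group and has order 2; every element of order 2 of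 the group is conjugate in the group to one of them; and no two of them are conjugate in the group (so, the two matrices being distinct, the group has exactly two conjugacy classes of involutions). -/
theorem result {F : Type*} [Field F] [Fintype F] [CharP F 2] (hF : 4 ≤ Fintype.card F) :
    (∀ y : GL Cfsg.Lie.chevG2.Idx F, ((y : GL Cfsg.Lie.chevG2.Idx F) : Matrix Cfsg.Lie.chevG2.Idx Cfsg.Lie.chevG2.Idx F) ∈ [Cfsg.Lie.chevG2.x F 11 1, Cfsg.Lie.chevG2.x F 9 1] → y ∈ Cfsg.Lie.chevG2.group F ∧ orderOf y = 2) ∧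
    (∀ g ∈ Cfsg.Lie.chevG2.group F, orderOf g = 2 → ∃ y ∈ Cfsg.Lie.chevG2.group F, ((y : GL Cfsg.Lie.chevG2.Idx F) : Matrix Cfsg.Lie.chevG2.Idx Cfsg.Lie.chevG2.Idx F) ∈ [Cfsg.Lie.chevG2.x F 11 1, Cfsg.Lie.chevG2.x F 9 1] ∧ ∃ h ∈ Cfsg.Lie.chevG2.group F, h * g * h⁻¹ = y) ∧
    (∀ y₁ ∈ Cfsg.Lie.chevG2.group F, ∀ y₂ ∈ Cfsg.Lie.chevG2.group F, ((y₁ : GL Cfsg.Lie.chevG2.Idx F) : Matrix Cfsg.Lie.chevG2.Idx Cfsg.Lie.chevG2.Idx F) ∈ [Cfsg.Lie.chevG2.x F 11 1, Cfsg.Lie.chevG2.x F 9 1] → ((y₂ : GL Cfsg.Lie.chevG2.Idx F) : Matrix Cfsg.Lie.chevG2.Idx Cfsg.Lie.chevG2.Idx F) ∈ [Cfsg.Lie.chevG2.x F 11 1, Cfsg.Lie.chevG2.x F 9 1] →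
      (∃ h ∈ Cfsg.Lie.chevG2.group F, h * y₁ * h⁻¹ = y₂) → ((y₁ : GL Cfsg.Lie.chevG2.Idx F) : Matrix Cfsg.Lie.chevG2.Idx Cfsg.Lie.chevG2.Idx F) = ((y₂ : GL Cfsg.Lie.chevG2.Idx F) : Matrix Cfsg.Lie.chevG2.Idx Cfsg.Lie.chevG2.Idx F)) := by
  have eqX : ∀ y : GL chevG2.Idx F, ((y : GL chevG2.Idx F) : Matrix chevG2.Idx chevG2.Idx F) ∈ [chevG2.x F 11 1, chevG2.x F 9 1] → y = xG checks 11 1 ∨ y = xG checks 9 1 := by
    intro y hy
    simp only [List.mem_cons, List.not_mem_nil, or_false] at hy
    rcases hy with h | h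
    · exact Or.inl (Units.ext (by rw [h, xG_val]))
    · exact Or.inr (Units.ext (by rw [h, xG_val]))
  have key : ∀ r, r < chevG2.nroots → xG checks r (1 : F) ∈ chevG2.group F ∧ orderOf (xG checks r (1 : F)) = 2 := by
    intro r hr
    refine ⟨xG_mem_group checks hr _, orderOf_eq_prime (by rw [sq]; exact xG_sq2 checks r 1) ?_⟩
    intro h
    have h2 : xG checks r (1 : F) = xG checks r 0 := by rw [h, xG_zero]
    exact one_ne_zero (Cfsg.Agent.H04.Tf.xG_param_inj checks checks2 hr h2)
  refine ⟨?_, ?_, ?_⟩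
  · intro y hy
    rcases eqX y hy with rfl | rfl
    · exact key 11 (by decide +kernel)
    · exact key 9 (by decide +kernel)
  · intro g hg ho
    obtain ⟨h, hh, hU⟩ := conj_into_U (F := F) (D := chevG2) (by simp) hg ho
    obtain ⟨s, u, v, w, y, z, e⟩ := exists_P hU
    have hg2 : g * g = 1 := by
      rw [← sq, ← ho]
      exact pow_orderOf_eq_one g
    have hI : P s u v w y z * P s u v w y z = 1 := by
      rw [← e]
      have : h * g * h⁻¹ * (h * g * h⁻¹) = h * (g * g) * h⁻¹ := by group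
      rw [this, hg2]
      group
    have hne : P s u v w y z ≠ 1 := by
      rw [← e]
      intro e1
      have e2 : g = 1 := by
        have : g = h⁻¹ * (h * g * h⁻¹) * h := by group
        rw [this, e1]
        group
      rw [e2, orderOf_one] at ho
      omega
    have hgood := main s u v w y z hI hne
    rw [← e] at hgood
    rcases hgood with hc | hc
    · obtain ⟨h', hh', e'⟩ := CJ_of hh hc
      exact ⟨xG checks 11 1, xG_mem_group checks (by decide +kernel) _, by simp, h', hh', e'⟩
    · obtain ⟨h', hh', e'⟩ := CJ_of hh hc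
      exact ⟨xG checks 9 1, xG_mem_group checks (by decide +kernel) _, by simp, h', hh', e'⟩
  · intro y₁ _ y₂ _ h1 h2 hc
    obtain ⟨h, hh, e⟩ := hc
    rcases eqX y₁ h1 with rfl | rfl <;> rcases eqX y₂ h2 with rfl | rfl
    · rfl
    · exact (noconj (inv_mem hh) (by rw [← e]; group)).elim
    · exact (noconj hh e).elim
    · rfl

end Cfsg.Agent.S2177
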