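import Cfsg.Statements.S2178
import Cfsg.Agent.Lib.H04.Long.CentTab

set_option autoImplicit false
open Cfsg

namespace Cfsg.Agent.S2178

open Cfsg Cfsg.Lie Cfsg.Agent.H04.Chev Cfsg.Agent.H04.Long

set_option linter.style.haveILetI false
set_option linter.unusedVariables false
set_option linter.unusedSectionVars false
set_option linter.unusedSimpArgs false


/-- Centralizers of the long and the short root involutions in the Chevalley group G of type F₄ over a finite field F of characteristic two (this problem's root numbering for type F₄, from the Chevalley data module: fundamental roots p₁, p₂ short, p₃, p₄ long, with indices 33, 27, 25, 24, their negatives 14, 20, 22, 23; highest root 47, highest short root 44; U the subgroup generated by the positive root subgroups). For an element t of G with matrix x_47(1): the centralizer of t in G is the subgroup generated by U and the root subgroups X_{−p₁}, X_{−p₂}, X_{−p₃} (the unipotent radical of the maximal parabolic subgroup whose Levi factor has fundamental roots p₁,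 p₂, p₃, together with that Levi factor's root subgroups; the Levi factor is of type C₃). For an element u of G with matrix x_44(1): the centralizer of u in G is generated by U and X_{−p₂}, X_{−p₃}, X_{−p₄} (the same construction for the Levi factor with fundamental roots p₂, p₃, p₄, of type B₃). -/
theorem result {F : Type*} [Field F] [Fintype F] [CharP F 2] (t u : GL Cfsg.Lie.chevF4.Idx F) (ht : (t : Matrix Cfsg.Lie.chevF4.Idx Cfsg.Lie.chevF4.Idx F) = Cfsg.Lie.chevF4.x F 47 1) (hu : (u : Matrix Cfsg.Lie.chevF4.Idx Cfsg.Lie.chevF4.Idx F) = Cfsg.Lie.chevF4.x F 44 1) :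
    Cfsg.Lie.chevF4.group F ⊓ Subgroup.centralizer {t} = Cfsg.Lie.chevF4.posUnipotent F ⊔ Cfsg.Lie.chevF4.rootSubgroup F 14 ⊔ Cfsg.Lie.chevF4.rootSubgroup F 20 ⊔ Cfsg.Lie.chevF4.rootSubgroup F 22 ∧
    Cfsg.Lie.chevF4.group F ⊓ Subgroup.centralizer {u} = Cfsg.Lie.chevF4.posUnipotent F ⊔ Cfsg.Lie.chevF4.rootSubgroup F 20 ⊔ Cfsg.Lie.chevF4.rootSubgroup F 22 ⊔ Cfsg.Lie.chevF4.rootSubgroup F 23 := by
  have C := TF4.checks
  have C2 := TF4.checks2
  have C3 := TF4.checks3
  have ht' : t = xG C 47 (1 : F) := Units.ext (by rw [ht, xG_val])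
  have hu' : u = xG C 44 (1 : F) := Units.ext (by rw [hu, xG_val])
  subst ht' hu'
  have t1 : ∀ s, s < chevF4.nroots → chevF4.nroots / 2 ≤ s → s ≠ 44 → ∀ c ∈ chevF4.commTerms 44 s, c.2.1 % 2 = 0 := by decide +kernel
  have t2 : ∀ s ∈ [14, 20, 22], s < chevF4.nroots ∧ s ≠ 47 ∧ s ≠ negF chevF4 47 ∧ chevF4.commTerms 47 s = [] := by decide +kernel
  have t3 : ∀ s ∈ [20, 22, 23], s < chevF4.nroots ∧ s ≠ 44 ∧ s ≠ negF chevF4 44 ∧ ∀ c ∈ chevF4.commTerms 44 s, c.2.1 % 2 = 0 := by decide +kernel
  have n1 : negF chevF4 0 = 47 ∧ negF chevF4 3 = 44 := by decide +kernel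
  have t4 : negF chevF4 (chevF4.simple 0) = 14 ∧ negF chevF4 (chevF4.simple 1) = 20 ∧ negF chevF4 (chevF4.simple 2) = 22 ∧ negF chevF4 (chevF4.simple 3) = 23 := by decide +kernel
  constructor
  · have hU : ∀ s, chevF4.nroots / 2 ≤ s → s < chevF4.nroots → ∀ t a : F, xG C s t * xG C 47 a = xG C 47 a * xG C s t := by
      intro s h0 h1 t a
      by_cases hsr : s = 47
      · subst hsr
        exact (xG_comm_self C _ _ _).symm
      · have hn : s ≠ negF chevF4 47 := by
          intro e
          have := negF_neg C2 (r := 47) (by decide +kernel) (by decide +kernel)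
          omega
        exact comm_of_terms C (by decide +kernel) h1 hsr hn (topF4 s h1 h0 hsr) a t
    have hc : ∀ s ∈ [14, 20, 22], chevF4.rootSubgroup F s ≤ chevF4.group F ⊓ Subgroup.centralizer {xG C 47 (1 : F)} := by
      intro s hs
      obtain ⟨h1, h2, h3, h4⟩ := t2 s hs
      exact root_le_cent C h1 (fun t => comm_of_terms C (by decide +kernel) h1 h2 h3 h4 1 t)
    refine cent_main C C2 C3 cdF4l hU (le_sup_left.trans (le_sup_left.trans le_sup_left)) ?_ ?_
    · intro i hi e t
      have hi' : i < 4 := hi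
      have : i = 0 ∨ i = 1 ∨ i = 2 := by omega
      rcases this with rfl | rfl | rfl
      · rw [t4.1]
        exact Subgroup.mem_sup_left (Subgroup.mem_sup_left (Subgroup.mem_sup_right ((mem_root C (by decide +kernel)).mpr ⟨t, rfl⟩)))
      · rw [t4.2.1]
        exact Subgroup.mem_sup_left (Subgroup.mem_sup_right ((mem_root C (by decide +kernel)).mpr ⟨t, rfl⟩))
      · rw [t4.2.2.1]
        exact Subgroup.mem_sup_right ((mem_root C (by decide +kernel)).mpr ⟨t, rfl⟩)
    · exact sup_le (sup_le (sup_le (U_le_cent C C2 hU) (hc 14 (by simp))) (hc 20 (by simp))) (hc 22 (by simp))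
  · have hU : ∀ s, chevF4.nroots / 2 ≤ s → s < chevF4.nroots → ∀ t a : F, xG C s t * xG C 44 a = xG C 44 a * xG C s t := by
      intro s h0 h1 t a
      by_cases hsr : s = 44
      · subst hsr
        exact (xG_comm_self C _ _ _).symm
      · have hn : s ≠ negF chevF4 44 := by
          intro e
          have := negF_neg C2 (r := 44) (by decide +kernel) (by decide +kernel)
          omega
        exact Cfsg.Agent.H04.Tf.xG_comm_even C (by decide +kernel) h1 hsr hn (t1 s h1 h0 hsr) a t
    have hc : ∀ s ∈ [20, 22, 23], chevF4.rootSubgroup F s ≤ chevF4.group F ⊓ Subgroup.centralizer {xG C 44 (1 : F)} := by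
      intro s hs
      obtain ⟨h1, h2, h3, h4⟩ := t3 s hs
      exact root_le_cent C h1 (fun t => Cfsg.Agent.H04.Tf.xG_comm_even C (by decide +kernel) h1 h2 h3 h4 1 t)
    refine cent_main C C2 C3 cdF4s hU (le_sup_left.trans (le_sup_left.trans le_sup_left)) ?_ ?_
    · intro i hi e t
      have hi' : i < 4 := hi
      have : i = 1 ∨ i = 2 ∨ i = 3 := by omega
      rcases this with rfl | rfl | rfl
      · rw [t4.2.1]
        exact Subgroup.mem_sup_left (Subgroup.mem_sup_left (Subgroup.mem_sup_right ((mem_root C (by decide +kernel)).mpr ⟨t, rfl⟩)))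
      · rw [t4.2.2.1]
        exact Subgroup.mem_sup_left (Subgroup.mem_sup_right ((mem_root C (by decide +kernel)).mpr ⟨t, rfl⟩))
      · rw [t4.2.2.2]
        exact Subgroup.mem_sup_right ((mem_root C (by decide +kernel)).mpr ⟨t, rfl⟩)
    · exact sup_le (sup_le (sup_le (U_le_cent C C2 hU) (hc 20 (by simp))) (hc 22 (by simp))) (hc 23 (by simp))

end Cfsg.Agent.S2178
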