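import Cfsg.Statements.S2180
import Cfsg.Agent.Lib.H04.Col.G2Cent

set_option autoImplicit false
open Cfsg

namespace Cfsg.Agent.S2180

open Cfsg Cfsg.Lie Cfsg.Agent.H04.Chev Cfsg.Agent.H04.Long Cfsg.Agent.H04.Col Cfsg.Agent.H04.Col.G2 Cfsg.Agent.H04.Chev.TG2

set_option linter.style.haveILetI false
set_option linter.unusedVariables false
set_option linter.unusedSectionVars false
set_option linter.unusedSimpArgs false

/-- Centralizers of involutions in the Chevalley group G of type G₂ over a finite field F of characteristic two with at least four elements (this problem's root numbering for type G₂, from the Chevalley data module: a = p₁ short with index 7, b = p₂ long with index 6, −a = 4, −b = 5, 2a + b = 9, 3a + b = 10, 3a + 2b = 11; U generated by the positive root subgroups). For an element z of G with matrix x_{3a+2b}(1): the centralizer of z in G is generated by U and X_{−a}. For an element t of G with matrix x_{2a+b}(1): the centralizer of t in G is generated by X_{2a+b}, X_{3a+b}, X_{3a+2b},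 X_b and X_{−b}. -/
theorem result {F : Type*} [Field F] [Fintype F] [CharP F 2] (hF : 4 ≤ Fintype.card F) (z t : GL Cfsg.Lie.chevG2.Idx F) (hz : (z : Matrix Cfsg.Lie.chevG2.Idx Cfsg.Lie.chevG2.Idx F) = Cfsg.Lie.chevG2.x F 11 1) (ht : (t : Matrix Cfsg.Lie.chevG2.Idx Cfsg.Lie.chevG2.Idx F) = Cfsg.Lie.chevG2.x F 9 1) :
    Cfsg.Lie.chevG2.group F ⊓ Subgroup.centralizer {z} = Cfsg.Lie.chevG2.posUnipotent F ⊔ Cfsg.Lie.chevG2.rootSubgroup F 4 ∧
    Cfsg.Lie.chevG2.group F ⊓ Subgroup.centralizer {t} = Cfsg.Lie.chevG2.rootSubgroup F 9 ⊔ Cfsg.Lie.chevG2.rootSubgroup F 10 ⊔ Cfsg.Lie.chevG2.rootSubgroup F 11 ⊔ Cfsg.Lie.chevG2.rootSubgroup F 6 ⊔ Cfsg.Lie.chevG2.rootSubgroup F 5 := by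
  have hz' : z = xG checks 11 (1 : F) := Units.ext (by rw [hz, xG_val])
  have ht' : t = xG checks 9 (1 : F) := Units.ext (by rw [ht, xG_val])
  subst hz' ht'
  constructor
  · have t2 : (4 : ℕ) < chevG2.nroots ∧ (4 : ℕ) ≠ 11 ∧ (4 : ℕ) ≠ negF chevG2 11 ∧ chevG2.commTerms 11 4 = [] := by decide +kernel
    have hc : chevG2.rootSubgroup F 4 ≤ chevG2.group F ⊓ Subgroup.centralizer {xG checks 11 (1 : F)} := by
      obtain ⟨h1, h2, h3, h4⟩ := t2
      exact root_le_cent checks h1 (fun t => comm_of_terms checks (by decide +kernel) h1 h2 h3 h4 1 t)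
    refine cent_main checks checks2 checks3 cdG2 hU11 le_sup_left ?_ ?_
    · intro i hi e t
      have hi' : i = 0 := by
        have : i < 2 := hi
        omega
      subst hi'
      have e4 : negF chevG2 (chevG2.simple 0) = 4 := by decide +kernel
      rw [e4]
      exact Subgroup.mem_sup_right ((mem_rootSubgroup checks).mpr ⟨t, rfl⟩)
    · exact sup_le (U_le_cent checks checks2 hU11) hc
  · exact cent9

end Cfsg.Agent.S2180
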