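import Cfsg.Statements.S2186
import Cfsg.Agent.Lib.H04.Long.TopTab

set_option autoImplicit false
open Cfsg

namespace Cfsg.Agent.S2186

open Cfsg Cfsg.Lie Cfsg.Agent.H04.Chev Cfsg.Agent.H04.Long

set_option linter.style.haveILetI false
set_option linter.unusedVariables false
set_option linter.unusedSectionVars false
set_option linter.unusedSimpArgs false


/-- Let G be the Chevalley group of type G₂ (over a field with at least four elements), D₄, E₆, E₇ or E₈ over a finite field F of characteristic two, and let X be the root subgroup of the highest root (the last root index) — a long root subgroup, of order |F|. For every g in G, the subgroup generated by X and its conjugate g X g⁻¹ is either a 2-group or is conjugate by an element of G to the subgroup generated by X and the root subgroup of the lowest root (index 0, the negative of the highest root), which is a copy of SL₂(F). -/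
theorem result {F : Type*} [Field F] [Fintype F] [CharP F 2] (D : Cfsg.Lie.ChevalleyDatum) (hD : D ∈ [Cfsg.Lie.chevG2, Cfsg.Lie.chevD4, Cfsg.Lie.chevE6, Cfsg.Lie.chevE7, Cfsg.Lie.chevE8]) (hF : D = Cfsg.Lie.chevG2 → 4 ≤ Fintype.card F) (g : GL D.Idx F) (hg : g ∈ D.group F) :
    IsPGroup 2 ↥(D.rootSubgroup F (D.nroots - 1) ⊔ (D.rootSubgroup F (D.nroots - 1)).map (MulAut.conj g).toMonoidHom) ∨
    ∃ h ∈ D.group F, (D.rootSubgroup F (D.nroots - 1) ⊔ (D.rootSubgroup F (D.nroots - 1)).map (MulAut.conj g).toMonoidHom).map (MulAut.conj h).toMonoidHom = D.rootSubgroup F (D.nroots - 1) ⊔ D.rootSubgroup F 0 := by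
  have cert : ∀ (U : Tabs3) (D : ChevalleyDatum) (r : ℕ) (hl : D.rank = D.rank), ∀ s, (0 < evC U D.rank (certV U D.rank r s) r ∧ 0 < evC U D.rank (certV U D.rank r s) s) →
      ∃ v : ℕ → ℤ, 0 < ellOf U D v r ∧ 0 < ellOf U D v s := by
    intro U D r _ s h
    rw [evC_eq, evC_eq] at h
    exact ⟨_, h⟩
  simp only [List.mem_cons, List.not_mem_nil, or_false] at hD
  rcases hD with rfl | rfl | rfl | rfl | rfl
  · have := root_sup_conj TG2.checks TG2.checks2 TG2.checks3 (r := 11) (by decide) (by decide) topG2 (fun s h1 h2 => cert _ _ _ rfl s (vG2 s h1 h2)) hg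
    rwa [negG2] at this
  · have := root_sup_conj TD4.checks TD4.checks2 TD4.checks3 (r := 23) (by decide) (by decide) topD4 (fun s h1 h2 => cert _ _ _ rfl s (vD4 s h1 h2)) hg
    rwa [negD4] at this
  · have := root_sup_conj TE6.checks TE6.checks2 TE6.checks3 (r := 71) (by decide) (by decide) topE6 (fun s h1 h2 => cert _ _ _ rfl s (vE6 s h1 h2)) hg
    rwa [negE6] at this
  · have := root_sup_conj TE7.checks TE7.checks2 TE7.checks3 (r := 125) (by decide) (by decide) topE7 (fun s h1 h2 => cert _ _ _ rfl s (vE7 s h1 h2)) hg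
    rwa [negE7] at this
  · have := root_sup_conj TE8.checks TE8.checks2 TE8.checks3 (r := 239) (by decide) (by decide) topE8 (fun s h1 h2 => cert _ _ _ rfl s (vE8 s h1 h2)) hg
    rwa [negE8] at this

end Cfsg.Agent.S2186
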