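import Cfsg.Statements.S2209
import Cfsg.Agent.Lib.H04.Long.CentTab

set_option autoImplicit false
open Cfsg

namespace Cfsg.Agent.S2209

open Cfsg Cfsg.Lie Cfsg.Agent.H04.Chev Cfsg.Agent.H04.Long

set_option linter.style.haveILetI false
set_option linter.unusedVariables false
set_option linter.unusedSectionVars false
set_option linter.unusedSimpArgs false


/-- Centralizer of a long root involution in the Chevalley groups of type E₆, E₇, E₈ over a finite field F of characteristic two. Let G be the group generated by the root elements, U the subgroup generated by the positive root subgroups, r the highest root (the last root index: 71, 125, 239 respectively), and t the element of G with matrix x_r(1). Then the centralizer of t in G is the subgroup generated by U together with the root subgroups X_{−p} for the fundamental roots p orthogonal to r — all fundamental roots except p₂ for E₆, except p₁ for E₇, except p₈ for E₈ (numbering with p₁–p₃–p₄–…–p_l the long chain and p₂ joined to p₄); the indices of these negative fundamental roots are 15, 29, 32, 34, 35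 (E₆), 47, 52, 56, 59, 61, 62 (E₇), 77, 98, 104, 109, 113, 116, 118 (E₈). (This is the unipotent radical of the corresponding maximal parabolic subgroup extended by the root subgroups of its Levi factor, of type A₅, D₆, E₇ respectively.) -/
theorem result {F : Type*} [Field F] [Fintype F] [CharP F 2] (d : Cfsg.Lie.ChevalleyDatum × List ℕ)
    (hd : d ∈ [(Cfsg.Lie.chevE6, [15, 29, 32, 34, 35]), (Cfsg.Lie.chevE7, [47, 52, 56, 59, 61, 62]), (Cfsg.Lie.chevE8, [77, 98, 104, 109, 113, 116, 118])])
    (t : GL d.1.Idx F) (ht : (t : Matrix d.1.Idx d.1.Idx F) = d.1.x F (d.1.nroots - 1) 1) :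
    d.1.group F ⊓ Subgroup.centralizer {t} = d.1.posUnipotent F ⊔ Subgroup.closure {g : GL d.1.Idx F | ∃ s ∈ d.2, ∃ c : F, (g : Matrix d.1.Idx d.1.Idx F) = d.1.x F s c} := by
  have key : ∀ {D : ChevalleyDatum} {T : Tabs} {U : Tabs3} (C : Checks D T) (C2 : Checks2 D T) (C3 : Checks3 D T U)
      {r ist r' : ℕ} {lenc : ℕ → ℕ} (A : CentData D T U r ist r' lenc) (L : List ℕ)
      (htop : ∀ s, s < D.nroots → D.nroots / 2 ≤ s → s ≠ r → D.commTerms r s = [])
      (hL : ∀ s ∈ L, s < D.nroots ∧ s ≠ r ∧ s ≠ negF D r ∧ D.commTerms r s = [])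
      (hJ : ∀ i, i < D.rank → i ≠ ist → negF D (D.simple i) ∈ L) (t : GL D.Idx F) (ht : (t : Matrix D.Idx D.Idx F) = D.x F r 1),
      D.group F ⊓ Subgroup.centralizer {t} = D.posUnipotent F ⊔ Subgroup.closure {g : GL D.Idx F | ∃ s ∈ L, ∃ c : F, (g : Matrix D.Idx D.Idx F) = D.x F s c} := by
    intro D T U C C2 C3 r ist r' lenc A L htop hL hJ t ht
    have ht' : t = xG C r (1 : F) := Units.ext (by rw [ht, xG_val])
    subst ht'
    have hU : ∀ s, D.nroots / 2 ≤ s → s < D.nroots → ∀ t a : F, xG C s t * xG C r a = xG C r a * xG C s t := by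
      intro s h0 h1 t a
      by_cases hsr : s = r
      · subst hsr
        exact (xG_comm_self C _ _ _).symm
      · have hn : s ≠ negF D r := by
          intro e
          have := negF_neg C2 A.hr0 A.hr
          omega
        exact comm_of_terms C A.hr h1 hsr hn (htop s h1 h0 hsr) a t
    refine cent_main C C2 C3 A hU le_sup_left ?_ ?_
    · intro i hi e t
      refine Subgroup.mem_sup_right (Subgroup.subset_closure ⟨_, hJ i hi e, t, rfl⟩)
    · refine sup_le (U_le_cent C C2 hU) ?_
      rw [Subgroup.closure_le]
      rintro g ⟨s, hs, c, hg⟩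
      obtain ⟨h1, h2, h3, h4⟩ := hL s hs
      have hg' : g = xG C s c := Units.ext (by rw [hg, xG_val])
      subst hg'
      exact root_le_cent C h1 (fun t => comm_of_terms C A.hr h1 h2 h3 h4 1 t) (Subgroup.subset_closure ⟨c, rfl⟩)
  simp only [List.mem_cons, List.not_mem_nil, or_false] at hd
  rcases hd with rfl | rfl | rfl
  · exact key TE6.checks TE6.checks2 TE6.checks3 cdE6 _ topE6 (by decide +kernel) (by decide +kernel) t ht
  · exact key TE7.checks TE7.checks2 TE7.checks3 cdE7 _ topE7 (by decide +kernel) (by decide +kernel) t ht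
  · exact key TE8.checks TE8.checks2 TE8.checks3 cdE8 _ topE8 (by decide +kernel) (by decide +kernel) t ht

end Cfsg.Agent.S2209
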