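import Mathlib
import Cfsg.Statements.S2214
import Cfsg.Agent.Lib.H10.SubF1
import Cfsg.Agent.Lib.H04.Chev.Exists

set_option autoImplicit false

open Cfsg

namespace Cfsg.Agent.S2214

theorem result {k : Type*} [Field k] [IsAlgClosed k] (p : ℕ) [Fact p.Prime] [CharP k p] (D : Cfsg.Lie.ChevalleyDatum) (hD : D ∈ [Cfsg.Lie.chevG2, Cfsg.Lie.chevB2, Cfsg.Lie.chevD4, Cfsg.Lie.chevF4, Cfsg.Lie.chevE6, Cfsg.Lie.chevE7, Cfsg.Lie.chevE8]) (a : ℕ) (ha : 1 ≤ a) (K : Subgroup (GL D.Idx k)) (hKG : K ≤ D.group k)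
    (hLK : Subgroup.closure {g : GL D.Idx k | ∃ (s : ℕ) (t : k), t ^ (p ^ a) = t ∧ (g : Matrix D.Idx D.Idx k) = D.x k s t} ≤ K)
    (hKfix : ∀ g ∈ K, ∀ i j : D.Idx, ((g : Matrix D.Idx D.Idx k) i j) ^ (p ^ a) = (g : Matrix D.Idx D.Idx k) i j) :
    D.group k ⊓ Subgroup.centralizer (K : Set (GL D.Idx k)) = ⊥ ∧
    ∀ g : GL D.Idx k, g ∈ D.group k → (g ∈ Subgroup.normalizer (K : Set (GL D.Idx k)) ↔ ∀ i j : D.Idx, ((g : Matrix D.Idx D.Idx k) i j) ^ (p ^ a) = (g : Matrix D.Idx D.Idx k) i j) := by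
  haveI : ExpChar k p := ExpChar.prime (Fact.out)
  haveI : PerfectRing k p := PerfectField.toPerfectRing p
  obtain ⟨T, U, C, C2, C3⟩ := Cfsg.Agent.H04.Chev.exists_tabs hD
  let f : k ≃+* k := iterateFrobeniusEquiv k p a
  have hf : ∀ x : k, f x = x ^ p ^ a := fun x => by
    show iterateFrobeniusEquiv k p a x = x ^ p ^ a
    rw [coe_iterateFrobeniusEquiv, iterateFrobenius_def]
  have hfix : ∀ g : GL D.Idx k, Cfsg.Agent.H04.Chev.glMap D f g = g ↔
      ∀ i j : D.Idx, ((g : Matrix D.Idx D.Idx k) i j) ^ (p ^ a) = (g : Matrix D.Idx D.Idx k) i j := by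
    intro g
    constructor
    · intro h i j
      have h1 := congrFun (congrFun (congrArg (fun g : GL D.Idx k => (g : Matrix D.Idx D.Idx k)) h) i) j
      simp only [Cfsg.Agent.H04.Chev.glMap_val, Matrix.map_apply] at h1
      rw [← hf]
      exact h1
    · intro h
      apply Units.ext
      rw [Cfsg.Agent.H04.Chev.glMap_val]
      ext i j
      rw [Matrix.map_apply, hf]
      exact h i j
  have hL : Cfsg.Agent.H10.subL C f ≤ K := by
    refine le_trans ?_ hLK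
    unfold Cfsg.Agent.H10.subL
    apply Subgroup.closure_mono
    rintro _ ⟨r, t, hr, ht, rfl⟩
    refine ⟨r, t, ?_, rfl⟩
    rw [← hf]
    exact ht
  obtain ⟨h1, h2⟩ := Cfsg.Agent.H10.subfield_main C C2 C3 f K hKG hL (fun g hg => (hfix g).mpr (hKfix g hg))
  refine ⟨h1, fun g hg => ?_⟩
  rw [h2 g hg, hfix]

end Cfsg.Agent.S2214
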