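import Mathlib
import Cfsg.Statements.S2231
import Cfsg.Agent.Lib.H10.TISection
import Cfsg.Agent.Lib.Lead.GL2

set_option autoImplicit false

open Cfsg

namespace Cfsg.Agent.S2231

theorem result {p : ℕ} [Fact p.Prime] (hp : p ≠ 2) {K : Type*} [Field K] [Fintype K] [CharP K p] : ¬ Cfsg.Involves ↥(Cfsg.qd p) (Matrix.ProjectiveSpecialLinearGroup (Fin 2) K) := by
  classical
  exact H10.qd_not_involves_of_TI hp (G := GL (Fin 2) K) (fun S₁ S₂ h =>
    Cfsg.Agent.Lead.sylow_inf_eq_bot p S₁ S₂ h)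
    (Matrix.SpecialLinearGroup.toGL) Matrix.SpecialLinearGroup.toGL_injective
    (Subgroup.center _)

end Cfsg.Agent.S2231
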