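import Mathlib
import Cfsg.Statements.S2232
import Cfsg.Agent.Lib.H10.TISection
import Cfsg.Agent.Lib.H10.SU3TI

set_option autoImplicit false

open Cfsg

namespace Cfsg.Agent.S2232

theorem result {p : ℕ} [Fact p.Prime] (hp : p ≠ 2) {K : Type*} [Field K] [Fintype K] [CharP K p] (n : ℕ) (hn : 1 ≤ n) (hK : Fintype.card K = (p ^ n) ^ 2) : ¬ Cfsg.Involves ↥(Cfsg.qd p) (Cfsg.PSU 3 K (p ^ n)) := by
  classical
  have hF : Fintype.card K = (p ^ n) ^ 2 := hK
  exact H10.qd_not_involves_of_TI hp (G := Cfsg.SU 3 K (p ^ n)) (fun S₁ S₂ h =>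
    H10.su3_sylow_TI hF hp S₁ S₂ h) (MonoidHom.id _) Function.injective_id (Subgroup.center _)

end Cfsg.Agent.S2232
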