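import Mathlib
import Cfsg.Statements.S2240
import Cfsg.Agent.Lib.H10.SzTI

set_option autoImplicit false

open Cfsg

namespace Cfsg.Agent.S2240

theorem result {F : Type*} [Field F] [Fintype F] {m : ℕ} (hm : 1 ≤ m) (hF : Fintype.card F = 2 ^ (2 * m + 1)) (n : ℕ) (hn : 2 ≤ n) :
    (∃ E : Subgroup ↥(Cfsg.Sz F m), Cfsg.IsElementaryAbelian 2 E ∧ Nat.card ↥E = 2 ^ n ∧
      ∀ x : ↥(Cfsg.Sz F m), E ⊓ E.map (MulAut.conj x).toMonoidHom ≠ ⊥ → x ∈ Subgroup.normalizer (E : Set ↥(Cfsg.Sz F m))) ↔ n ∣ 2 * m + 1 := by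
  haveI := H10.sz_charP hF
  exact ⟨H10.dvd_of_exists_TI hm hF n hn, H10.exists_TI_of_dvd hF n hn⟩

end Cfsg.Agent.S2240
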