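import Mathlib
import Cfsg.Statements.S2241
import Cfsg.Agent.Lib.H10.SzGen2

set_option autoImplicit false

open Cfsg

namespace Cfsg.Agent.S2241

theorem result {F : Type*} [Field F] [Fintype F] {m : ℕ} (hm : 1 ≤ m) (hF : Fintype.card F = 2 ^ (2 * m + 1)) (P : Sylow 2 ↥(Cfsg.Sz F m)) (g : ↥(Cfsg.Sz F m)) (hg : g ∈ (P : Subgroup ↥(Cfsg.Sz F m))) (h1 : g ≠ 1) :
    IsConj g g⁻¹ ↔ orderOf g = 2 := by
  haveI := H10.sz_charP hF
  exact H10.real_iff hm hF P g hg h1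

end Cfsg.Agent.S2241
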