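import Cfsg.Statements.S2249
import Cfsg.Agent.Lib.H24.NR2E

set_option autoImplicit false
open Cfsg

namespace Cfsg.Agent.S2249

/-- The normal 2-rank of the general linear group over a finite field of odd order q: for n ≥ 1 and S a Sylow 2-subgroup of GL_n(F), the largest rank of an elementary abelian subgroup of S that is normal in S equals n when q ≡ 1 (mod 4) and ⌊(n + 1)/2⌋ when q ≡ 3 (mod 4). -/
theorem result {F : Type*} [Field F] [Fintype F] {q : ℕ} (hF : Fintype.card F = q) (hodd : Odd q) (n : ℕ) (hn : 1 ≤ n) (S : Sylow 2 (Matrix.GeneralLinearGroup (Fin n) F)) :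
    (q % 4 = 1 → ((∃ E : Subgroup ↥(S : Subgroup (Matrix.GeneralLinearGroup (Fin n) F)), E.Normal ∧ Cfsg.IsElementaryAbelian 2 E ∧ 2 ^ (n) ≤ Nat.card ↥E) ∧
      ∀ E : Subgroup ↥(S : Subgroup (Matrix.GeneralLinearGroup (Fin n) F)), E.Normal → Cfsg.IsElementaryAbelian 2 E → Nat.card ↥E ≤ 2 ^ (n))) ∧
    (q % 4 = 3 → ((∃ E : Subgroup ↥(S : Subgroup (Matrix.GeneralLinearGroup (Fin n) F)), E.Normal ∧ Cfsg.IsElementaryAbelian 2 E ∧ 2 ^ ((n + 1) / 2) ≤ Nat.card ↥E) ∧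
      ∀ E : Subgroup ↥(S : Subgroup (Matrix.GeneralLinearGroup (Fin n) F)), E.Normal → Cfsg.IsElementaryAbelian 2 E → Nat.card ↥E ≤ 2 ^ ((n + 1) / 2))) := by
  constructor
  · intro h1
    have hodd' := hodd
    exact ⟨Cfsg.Agent.H24.NR2.lower_one hF h1 S, fun E _ hE => Cfsg.Agent.H24.NR2.upper_all S E hF hodd hE⟩
  · intro h3
    refine ⟨?_, fun E hN hE => Cfsg.Agent.H24.NR2.upper_three S E hF h3 hN hE⟩
    obtain ⟨m, hm⟩ : ∃ m, n = 2 * m ∨ n = 2 * m + 1 := ⟨n / 2, by omega⟩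
    rcases hm with rfl | rfl
    · have e : (2 * m + 1) / 2 = m := by omega
      rw [e]
      exact Cfsg.Agent.H24.NR2.lower_three_even hF h3 m S
    · have e : (2 * m + 1 + 1) / 2 = m + 1 := by omega
      rw [e]
      exact Cfsg.Agent.H24.NR2.lower_three_odd hF h3 m S

end Cfsg.Agent.S2249
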