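import Mathlib
import Cfsg.Statements.S2253
import Cfsg.Agent.Lib.H10.NilpGrp

set_option autoImplicit false

open Cfsg

namespace Cfsg.Agent.S2253

theorem result  (n : ℕ) (hn : n % 4 ≠ 3)
    (N : Subgroup (Equiv.Perm (Fin n))) (hN : Group.IsNilpotent N)
    (P : Sylow 2 (Equiv.Perm (Fin n))) :
    Nat.card N ≤ Nat.card P := by
  have h1 := H10.nilp_card_le n (Fin n) N N.subtype Subtype.val_injective (by simp)
  rw [H10.BBv_of_not_three hn] at h1
  have h2 := P.card_eq_multiplicity
  rw [Nat.card_perm, Nat.card_fin, Nat.factorization_def _ Nat.prime_two] at h2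
  rw [h2]
  exact h1

end Cfsg.Agent.S2253
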