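import Mathlib
import Cfsg.Statements.S2254
import Cfsg.Agent.Lib.H10.NilpConj

set_option autoImplicit false

open Cfsg

namespace Cfsg.Agent.S2254

theorem result  (n : ℕ) (hn : n % 4 = 3)
    (P : Sylow 2 (Equiv.Perm (Fin (n - 3)))) :
    (∀ N : Subgroup (Equiv.Perm (Fin n)), Group.IsNilpotent N → Nat.card N ≤ 3 * Nat.card P) ∧
    (∃ M : Subgroup (Equiv.Perm (Fin n)), Group.IsNilpotent M ∧ Nat.card M = 3 * Nat.card P ∧
      Nonempty (M ≃* (↥(P : Subgroup (Equiv.Perm (Fin (n - 3)))) × Multiplicative (ZMod 3)))) ∧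
    (∀ N₁ N₂ : Subgroup (Equiv.Perm (Fin n)), Group.IsNilpotent N₁ → Group.IsNilpotent N₂ →
      Nat.card N₁ = 3 * Nat.card P → Nat.card N₂ = 3 * Nat.card P →
      ∃ g : Equiv.Perm (Fin n), N₂ = N₁.map (MulAut.conj g).toMonoidHom) := by
  classical
  have hn3 : 3 ≤ n := by omega
  have hP : Nat.card (P : Subgroup (Equiv.Perm (Fin (n - 3)))) = 2 ^ H10.wv (n - 3) := by
    have h2 := P.card_eq_multiplicity
    rw [Nat.card_perm, Nat.card_fin, Nat.factorization_def _ Nat.prime_two] at h2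
    exact h2
  refine ⟨?_, ?_, ?_⟩
  · intro N hN
    have h1 := H10.nilp_card_le n (Fin n) N N.subtype Subtype.val_injective (by simp)
    rw [H10.BBv_of_three hn] at h1
    rw [hP]
    exact h1
  · let f : ↥(P : Subgroup (Equiv.Perm (Fin (n - 3)))) × Multiplicative (ZMod 3) →* Equiv.Perm (Fin n) :=
      (H10.embThree n hn3).comp (MonoidHom.prodMap (P : Subgroup (Equiv.Perm (Fin (n - 3)))).subtype (MonoidHom.id _))
    have hf : Function.Injective f := by
      apply (H10.embThree_injective n hn3).comp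
      rw [MonoidHom.coe_prodMap]
      exact Function.Injective.prodMap Subtype.val_injective (fun _ _ h => h)
    refine ⟨f.range, ?_, ?_, ⟨(MonoidHom.ofInjective hf).symm⟩⟩
    · haveI : Group.IsNilpotent (P : Subgroup (Equiv.Perm (Fin (n - 3)))) := P.isPGroup'.isNilpotent
      exact nilpotent_of_surjective f.rangeRestrict f.rangeRestrict_surjective
    · rw [← Nat.card_congr (MonoidHom.ofInjective hf).toEquiv, Nat.card_prod]
      have h3 : Nat.card (Multiplicative (ZMod 3)) = 3 := by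
        rw [Nat.card_eq_fintype_card, Fintype.card_multiplicative, ZMod.card]
      rw [h3, mul_comm]
  · intro N₁ N₂ h₁ h₂ c₁ c₂
    rw [hP] at c₁ c₂
    have hX : Fintype.card (Fin n) = n := Fintype.card_fin n
    obtain ⟨a₁, ha₁, T₁, hT₁N, ho₁, hc₁, hcomm₁, hsup₁⟩ := H10.decomp_three N₁ h₁ _ c₁
    obtain ⟨a₂, ha₂, T₂, hT₂N, ho₂, hc₂, hcomm₂, hsup₂⟩ := H10.decomp_three N₂ h₂ _ c₂
    obtain ⟨t₁, fix₁⟩ := H10.three_struct a₁ ho₁ T₁ _ hc₁ hcomm₁ (by rw [hX]; exact hn) (by rw [hX]; omega)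
    obtain ⟨t₂, fix₂⟩ := H10.three_struct a₂ ho₂ T₂ _ hc₂ hcomm₂ (by rw [hX]; exact hn) (by rw [hX]; omega)
    have hconj : IsConj a₁ a₂ := Equiv.Perm.isConj_iff_cycleType_eq.2 (by rw [t₁.cycleType, t₂.cycleType])
    obtain ⟨g₀, hg₀⟩ := isConj_iff.1 hconj
    have hW : (Nat.card ↥((⊤ : Subgroup (Equiv.Perm (Fin n))) ⊓ H10.fixS a₂)).factorization 2 = H10.wv (n - 3) := by
      rw [top_inf_eq, H10.card_fixS a₂ t₂, hX, Nat.factorization_def _ Nat.prime_two]
      rfl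
    obtain ⟨g, -, hg⟩ := H10.conj_of_struct ⊤ g₀ (Subgroup.mem_top _) hg₀ le_top le_top fix₁ fix₂ hc₁ hc₂ hW
    refine ⟨g, ?_⟩
    rw [hsup₁, hsup₂]
    exact hg

end Cfsg.Agent.S2254
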