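import Mathlib
import Cfsg.Statements.S2255
import Cfsg.Agent.Lib.H10.NilpAlt

set_option autoImplicit false

open Cfsg

namespace Cfsg.Agent.S2255

theorem result  (n : ℕ) (hn : n % 4 ≠ 3)
    (h5 : n ≠ 5) (h6 : n ≠ 6) (h9 : n ≠ 9)
    (N : Subgroup (alternatingGroup (Fin n))) (hN : Group.IsNilpotent N)
    (P : Sylow 2 (alternatingGroup (Fin n))) :
    Nat.card N ≤ Nat.card P := by
  have hinj : Function.Injective ((alternatingGroup (Fin n)).subtype.comp N.subtype) :=
    (Subtype.val_injective).comp Subtype.val_injective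
  have h1 := H10.alt_card_le n (Fin n) N ((alternatingGroup (Fin n)).subtype.comp N.subtype) hinj
    (fun h => Equiv.Perm.mem_alternatingGroup.1 h.1.2) (by simp)
  by_cases hn1 : n ≤ 1
  · have h2 : H10.BAv n = 1 := by
      unfold H10.BAv
      simp [hn1]
    rw [h2] at h1
    exact h1.trans Nat.card_pos
  · have hn2 : 2 ≤ n := by omega
    obtain ⟨h3, h4⟩ := H10.card_sylow_alt hn2 P
    rw [h3]
    rw [H10.BAv_of_ne hn2 (by rintro rfl; omega) h5 h6 h9, H10.BBv_of_not_three hn] at h1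
    have h5' : 2 ^ H10.wv n / 2 = 2 ^ (H10.wv n - 1) := by
      obtain ⟨w, hw⟩ : ∃ w, H10.wv n = w + 1 := ⟨H10.wv n - 1, by omega⟩
      rw [hw, pow_succ]
      simp
    rwa [h5'] at h1

end Cfsg.Agent.S2255
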