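import Mathlib
import Cfsg.Statements.S2256
import Cfsg.Agent.Lib.H10.NilpConj

set_option autoImplicit false

open Cfsg

namespace Cfsg.Agent.S2256

theorem result  (n : ℕ) (hn : n % 4 = 3) (h7 : 7 ≤ n)
    (P : Sylow 2 (alternatingGroup (Fin (n - 3)))) :
    (∀ N : Subgroup (alternatingGroup (Fin n)), Group.IsNilpotent N → Nat.card N ≤ 3 * Nat.card P) ∧
    (∃ M : Subgroup (alternatingGroup (Fin n)), Group.IsNilpotent M ∧ Nat.card M = 3 * Nat.card P ∧
      Nonempty (M ≃* (↥(P : Subgroup (alternatingGroup (Fin (n - 3)))) × Multiplicative (ZMod 3)))) ∧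
    (∀ N₁ N₂ : Subgroup (alternatingGroup (Fin n)), Group.IsNilpotent N₁ → Group.IsNilpotent N₂ →
      Nat.card N₁ = 3 * Nat.card P → Nat.card N₂ = 3 * Nat.card P →
      ∃ g : alternatingGroup (Fin n), N₂ = N₁.map (MulAut.conj g).toMonoidHom) := by
  classical
  have hn3 : 3 ≤ n := by omega
  have hn5 : 2 ≤ n - 3 := by omega
  obtain ⟨hP, hw1⟩ := H10.card_sylow_alt hn5 P
  refine ⟨?_, ?_, ?_⟩
  · intro N hN
    have hinj : Function.Injective ((alternatingGroup (Fin n)).subtype.comp N.subtype) :=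
      (Subtype.val_injective).comp Subtype.val_injective
    have h1 := H10.alt_card_le n (Fin n) N ((alternatingGroup (Fin n)).subtype.comp N.subtype) hinj
      (fun h => Equiv.Perm.mem_alternatingGroup.1 h.1.2) (by simp)
    rw [H10.BAv_of_ne (by omega) (by omega) (by omega) (by omega) (by omega), H10.BBv_of_three hn] at h1
    rw [hP]
    obtain ⟨w, hw⟩ : ∃ w, H10.wv (n - 3) = w + 1 := ⟨H10.wv (n - 3) - 1, by omega⟩
    rw [hw] at h1 ⊢
    have e : 3 * 2 ^ (w + 1) / 2 = 3 * 2 ^ w := by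
      rw [pow_succ, ← mul_assoc]
      simp
    rw [e] at h1
    simpa using h1
  · let f : ↥(P : Subgroup (alternatingGroup (Fin (n - 3)))) × Multiplicative (ZMod 3) →* Equiv.Perm (Fin n) :=
      (H10.embThree n hn3).comp (MonoidHom.prodMap
        ((alternatingGroup (Fin (n - 3))).subtype.comp (P : Subgroup (alternatingGroup (Fin (n - 3)))).subtype) (MonoidHom.id _))
    have hf : Function.Injective f := by
      apply (H10.embThree_injective n hn3).comp
      rw [MonoidHom.coe_prodMap]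
      exact Function.Injective.prodMap ((Subtype.val_injective).comp Subtype.val_injective) (fun _ _ h => h)
    have hsign : ∀ u, f u ∈ alternatingGroup (Fin n) := by
      rintro ⟨u, v⟩
      rw [Equiv.Perm.mem_alternatingGroup]
      show Equiv.Perm.sign (H10.embThree n hn3 ((u : alternatingGroup (Fin (n - 3))).1, v)) = 1
      rw [H10.sign_embThree]
      exact Equiv.Perm.mem_alternatingGroup.1 u.1.2
    let f' := f.codRestrict (alternatingGroup (Fin n)) hsign
    have hf' : Function.Injective f' := by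
      intro a b hab
      apply hf
      exact congrArg Subtype.val hab
    refine ⟨f'.range, ?_, ?_, ⟨(MonoidHom.ofInjective hf').symm⟩⟩
    · haveI : Group.IsNilpotent (P : Subgroup (alternatingGroup (Fin (n - 3)))) := P.isPGroup'.isNilpotent
      exact nilpotent_of_surjective f'.rangeRestrict f'.rangeRestrict_surjective
    · rw [← Nat.card_congr (MonoidHom.ofInjective hf').toEquiv, Nat.card_prod]
      have h3 : Nat.card (Multiplicative (ZMod 3)) = 3 := by
        rw [Nat.card_eq_fintype_card, Fintype.card_multiplicative, ZMod.card]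
      rw [h3, mul_comm]
  · intro N₁ N₂ h₁ h₂ c₁ c₂
    rw [hP] at c₁ c₂
    have hX : Fintype.card (Fin n) = n := Fintype.card_fin n
    let G := alternatingGroup (Fin n)
    let M₁ : Subgroup (Equiv.Perm (Fin n)) := N₁.map G.subtype
    let M₂ : Subgroup (Equiv.Perm (Fin n)) := N₂.map G.subtype
    have hm₁ : Group.IsNilpotent M₁ :=
      nilpotent_of_mulEquiv (N₁.equivMapOfInjective G.subtype G.subtype_injective)
    have hm₂ : Group.IsNilpotent M₂ :=
      nilpotent_of_mulEquiv (N₂.equivMapOfInjective G.subtype G.subtype_injective)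
    have c₁' : Nat.card M₁ = 3 * 2 ^ (H10.wv (n - 3) - 1) := by
      rw [Subgroup.card_map_of_injective G.subtype_injective, c₁]
    have c₂' : Nat.card M₂ = 3 * 2 ^ (H10.wv (n - 3) - 1) := by
      rw [Subgroup.card_map_of_injective G.subtype_injective, c₂]
    have hMG₁ : M₁ ≤ G := by
      rintro _ ⟨x, -, rfl⟩
      exact x.2
    have hMG₂ : M₂ ≤ G := by
      rintro _ ⟨x, -, rfl⟩
      exact x.2
    obtain ⟨a₁, ha₁, T₁, hT₁N, ho₁, hc₁, hcomm₁, hsup₁⟩ := H10.decomp_three M₁ hm₁ _ c₁'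
    obtain ⟨a₂, ha₂, T₂, hT₂N, ho₂, hc₂, hcomm₂, hsup₂⟩ := H10.decomp_three M₂ hm₂ _ c₂'
    obtain ⟨t₁, fix₁⟩ := H10.three_struct a₁ ho₁ T₁ _ hc₁ hcomm₁ (by rw [hX]; exact hn) (by rw [hX]; omega)
    obtain ⟨t₂, fix₂⟩ := H10.three_struct a₂ ho₂ T₂ _ hc₂ hcomm₂ (by rw [hX]; exact hn) (by rw [hX]; omega)
    have hconj := alternatingGroup.isThreeCycle_isConj (α := Fin n) (by rw [Nat.card_fin]; omega)
      (σ := ⟨a₁, hMG₁ ha₁⟩) (τ := ⟨a₂, hMG₂ ha₂⟩) t₁ t₂
    obtain ⟨g₀, hg₀⟩ := isConj_iff.1 hconj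
    have hg₀' : (g₀ : Equiv.Perm (Fin n)) * a₁ * (g₀ : Equiv.Perm (Fin n))⁻¹ = a₂ := congrArg Subtype.val hg₀
    have hW : (Nat.card ↥(G ⊓ H10.fixS a₂)).factorization 2 = H10.wv (n - 3) - 1 := by
      have h3 := H10.card_fixS_alt a₂ t₂ (by rw [hX]; omega)
      rw [hX] at h3
      have h0 : Nat.card ↥(G ⊓ H10.fixS a₂) ≠ 0 := Nat.card_pos.ne'
      have h4 : H10.wv (n - 3) = 1 + padicValNat 2 (Nat.card ↥(G ⊓ H10.fixS a₂)) := by
        unfold H10.wv
        rw [← h3, padicValNat.mul (by norm_num) h0, padicValNat.self (by norm_num)]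
      rw [Nat.factorization_def _ Nat.prime_two]
      omega
    obtain ⟨g, hgG, hg⟩ := H10.conj_of_struct G (g₀ : Equiv.Perm (Fin n)) g₀.2 hg₀'
      (hT₁N.trans hMG₁) (hT₂N.trans hMG₂) fix₁ fix₂ hc₁ hc₂ hW
    refine ⟨⟨g, hgG⟩, ?_⟩
    rw [← hsup₁, ← hsup₂] at hg
    apply Subgroup.map_injective G.subtype_injective
    have e : (N₁.map (MulAut.conj (⟨g, hgG⟩ : G)).toMonoidHom).map G.subtype =
        (N₁.map G.subtype).map (MulAut.conj g).toMonoidHom := by
      rw [Subgroup.map_map, Subgroup.map_map]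
      rfl
    rw [e]
    exact hg

end Cfsg.Agent.S2256
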