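import Mathlib
import Cfsg.Statements.S2259
import Cfsg.Agent.Lib.H10.SzSol6

set_option autoImplicit false

open Cfsg

namespace Cfsg.Agent.S2259

theorem result {F : Type*} [Field F] [Fintype F] {m : ℕ} (hm : 1 ≤ m)
    (hp : (2 * m + 1).Prime) (hF : Fintype.card F = 2 ^ (2 * m + 1)) (x : ↥(Cfsg.Lie.Sz F (2 ^ (m + 1)))) :
    (orderOf x = 2 → Nat.card {y : ↥(Cfsg.Lie.Sz F (2 ^ (m + 1))) // Group.IsSolvable ↥(Subgroup.closure ({x, y} : Set (↥(Cfsg.Lie.Sz F (2 ^ (m + 1))))))} = (2 ^ (2 * m + 1)) ^ 2 * (4 * 2 ^ (2 * m + 1) - 3)) ∧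
    (orderOf x = 4 → Nat.card {y : ↥(Cfsg.Lie.Sz F (2 ^ (m + 1))) // Group.IsSolvable ↥(Subgroup.closure ({x, y} : Set (↥(Cfsg.Lie.Sz F (2 ^ (m + 1))))))} = (2 ^ (2 * m + 1)) ^ 2 * (2 ^ (2 * m + 1) + 3)) ∧
    (x ≠ 1 → orderOf x ∣ 2 ^ (2 * m + 1) - 1 →
      Nat.card {y : ↥(Cfsg.Lie.Sz F (2 ^ (m + 1))) // Group.IsSolvable ↥(Subgroup.closure ({x, y} : Set (↥(Cfsg.Lie.Sz F (2 ^ (m + 1))))))} = 2 * (2 ^ (2 * m + 1)) ^ 2 * (2 ^ (2 * m + 1) - 1)) ∧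
    (x ≠ 1 → orderOf x ∣ 2 ^ (2 * m + 1) + 2 ^ (m + 1) + 1 → Nat.card {y : ↥(Cfsg.Lie.Sz F (2 ^ (m + 1))) // Group.IsSolvable ↥(Subgroup.closure ({x, y} : Set (↥(Cfsg.Lie.Sz F (2 ^ (m + 1))))))} = 4 * (2 ^ (2 * m + 1) + 2 ^ (m + 1) + 1)) ∧
    (x ≠ 1 → orderOf x ∣ 2 ^ (2 * m + 1) - 2 ^ (m + 1) + 1 → Nat.card {y : ↥(Cfsg.Lie.Sz F (2 ^ (m + 1))) // Group.IsSolvable ↥(Subgroup.closure ({x, y} : Set (↥(Cfsg.Lie.Sz F (2 ^ (m + 1))))))} = 4 * (2 ^ (2 * m + 1) - 2 ^ (m + 1) + 1)) := by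
  haveI := H10.sz_charP hF
  let e := H10.szEquiv (F := F) hm hF
  obtain ⟨x', rfl⟩ := e.surjective x
  have hord : orderOf (e x') = orderOf x' := e.orderOf_eq x'
  have hne : e x' ≠ 1 → x' ≠ 1 := by
    intro h h1
    apply h
    rw [h1, map_one]
  obtain ⟨hb1, hb2⟩ := H10.sz_q_bounds (m := m) hm
  refine ⟨fun h => ?_, fun h => ?_, fun h1 h2 => ?_, fun h1 h2 => ?_, fun h1 h2 => ?_⟩
  · rw [← H10.card_sol_congr e x']
    rw [hord] at h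
    have h3 : x' * x' = 1 := by
      have := pow_orderOf_eq_one x'
      rwa [h, sq] at this
    have h4 : x' ≠ 1 := by
      rintro rfl
      rw [orderOf_one] at h
      omega
    exact H10.sol_invol hm hF h3 h4
  · rw [← H10.card_sol_congr e x']
    rw [hord] at h
    exact H10.sol_four hm hF h
  · rw [← H10.card_sol_congr e x']
    rw [hord] at h2
    exact H10.sol_T hm hF (hne h1) h2
  · rw [← H10.card_sol_congr e x']
    rw [hord] at h2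
    exact H10.sol_A hm hF (hne h1) (Or.inl rfl) h2
  · rw [← H10.card_sol_congr e x']
    rw [hord] at h2
    exact H10.sol_A hm hF (hne h1) (Or.inr (by omega)) h2

end Cfsg.Agent.S2259
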