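import Mathlib
import Cfsg.Statements.S2268

set_option autoImplicit false
open Cfsg

namespace Cfsg.Agent.S2268

open Sylow Subgroup MulAction in
/-- The Frattini-type step. -/
theorem key {G : Type*} [Group G] [Finite G] {p : ℕ} [Fact p.Prime]
    (P : Sylow p G) (hP : IsMulCommutative (P : Subgroup G)) (Q : Subgroup G)
    (hQ : Q ≤ (P : Subgroup G)) (g : G) (hg : g ∈ Subgroup.normalizer (Q : Set G)) :
    ∃ c ∈ Subgroup.centralizer (Q : Set G), c * g ∈ Subgroup.normalizer ((P : Subgroup G) : Set G) := by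
  classical
  have h1 : (P : Subgroup G) ≤ Subgroup.centralizer (Q : Set G) := by
    intro x hx
    rw [Subgroup.mem_centralizer_iff]
    intro y hy
    have := hP.is_comm.comm ⟨y, hQ hy⟩ ⟨x, hx⟩
    simpa [Subtype.ext_iff] using this
  have h2 : ((g • P : Sylow p G) : Subgroup G) ≤ Subgroup.centralizer (Q : Set G) := by
    rw [Sylow.coe_subgroup_smul, Subgroup.pointwise_smul_def]
    rintro - ⟨y, hy, rfl⟩
    have hy' := h1 hy
    rw [Subgroup.mem_centralizer_iff] at hy' ⊢
    intro q hq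
    have hq' : g⁻¹ * q * g ∈ Q := by
      have := (Subgroup.mem_normalizer_iff'' .. ).1 hg q
      exact this.1 hq
    have h3 := hy' _ hq'
    have h4 : g * (g⁻¹ * q * g * y) * g⁻¹ = g * (y * (g⁻¹ * q * g)) * g⁻¹ := by rw [h3]
    simpa [mul_assoc] using h4
  obtain ⟨h, hh⟩ := exists_smul_eq (Subgroup.centralizer (Q : Set G)) ((g • P).subtype h2) (P.subtype h1)
  simp_rw [smul_subtype, Subgroup.smul_def, smul_smul] at hh
  exact ⟨h, h.2, smul_eq_iff_mem_normalizer.mp (subtype_injective hh)⟩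

theorem result {G : Type*} [Group G] [Finite G] {p : ℕ} [Fact p.Prime]
    (P : Sylow p G) (hP : IsMulCommutative (P : Subgroup G)) (Q : Subgroup G) (hQ : Q ≤ (P : Subgroup G)) :
    Subgroup.normalizer (Q : Set G) =
      (Subgroup.normalizer (Q : Set G) ⊓ Subgroup.normalizer ((P : Subgroup G) : Set G)) ⊔ Subgroup.centralizer (Q : Set G) ∧
    ((Subgroup.centralizer (Q : Set G)).subgroupOf (Subgroup.normalizer (Q : Set G))).index ∣ ((Subgroup.centralizer ((P : Subgroup G) : Set G)).subgroupOf (Subgroup.normalizer ((P : Subgroup G) : Set G))).index := by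
  classical
  set NQ := Subgroup.normalizer (Q : Set G) with hNQ
  set NP := Subgroup.normalizer ((P : Subgroup G) : Set G) with hNP
  set CQ := Subgroup.centralizer (Q : Set G) with hCQ
  set CP := Subgroup.centralizer ((P : Subgroup G) : Set G) with hCP
  have hCQ_NQ : CQ ≤ NQ := Subgroup.centralizer_le_normalizer (s := (Q : Set G))
  have hCP_NP : CP ≤ NP := Subgroup.centralizer_le_normalizer (s := ((P : Subgroup G) : Set G))
  have hCP_CQ : CP ≤ CQ := Subgroup.centralizer_le hQ
  have key' : ∀ g ∈ NQ, ∃ c ∈ CQ, c * g ∈ NQ ⊓ NP := by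
    intro g hg
    obtain ⟨c, hc, hcg⟩ := key P hP Q hQ g hg
    exact ⟨c, hc, NQ.mul_mem (hCQ_NQ hc) hg, hcg⟩
  constructor
  · apply le_antisymm
    · intro g hg
      obtain ⟨c, hc, hcg⟩ := key' g hg
      have : g = c⁻¹ * (c * g) := by group
      rw [this]
      exact Subgroup.mul_mem _ (Subgroup.mem_sup_right (CQ.inv_mem hc)) (Subgroup.mem_sup_left hcg)
    · exact sup_le inf_le_left hCQ_NQ
  · -- index computation
    set A := NQ ⊓ NP with hA
    have hCPA : CP ≤ A := le_inf (hCP_CQ.trans hCQ_NQ) hCP_NP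
    have hAQ : A ≤ NQ := inf_le_left
    have hAP : A ≤ NP := inf_le_right
    -- N_Q / C_Q = A / (A ∩ C_Q)
    have : (CQ.subgroupOf NQ).Normal := by
      rw [Subgroup.normal_subgroupOf_iff hCQ_NQ]
      intro h k hh hk
      rw [Subgroup.mem_centralizer_iff] at hh ⊢
      intro q hq
      have hq' : k⁻¹ * q * k ∈ Q := ((Subgroup.mem_normalizer_iff'' .. ).1 hk q).1 hq
      have h3 := hh _ hq'
      have h4 : k * (k⁻¹ * q * k * h) * k⁻¹ = k * (h * (k⁻¹ * q * k)) * k⁻¹ := by rw [h3]
      simpa [mul_assoc] using h4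
    let f : A →* NQ ⧸ CQ.subgroupOf NQ :=
      (QuotientGroup.mk' (CQ.subgroupOf NQ)).comp (Subgroup.inclusion hAQ)
    have hf : Function.Surjective f := by
      intro y
      obtain ⟨g, rfl⟩ := QuotientGroup.mk'_surjective _ y
      obtain ⟨c, hc, hcg⟩ := key' g g.2
      refine ⟨⟨c * g, hcg⟩, ?_⟩
      simp only [f, MonoidHom.comp_apply]
      have h5 : Subgroup.inclusion hAQ ⟨c * g, hcg⟩ = (⟨c, hCQ_NQ hc⟩ : NQ) * g := rfl
      rw [h5, map_mul]
      have h6 : (QuotientGroup.mk' (CQ.subgroupOf NQ)) (⟨c, hCQ_NQ hc⟩ : NQ) = 1 := by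
        rw [QuotientGroup.mk'_apply, QuotientGroup.eq_one_iff, Subgroup.mem_subgroupOf]
        exact hc
      rw [h6, one_mul]
    have hker : f.ker = CQ.subgroupOf A := by
      ext a
      simp only [f, MonoidHom.mem_ker, MonoidHom.comp_apply, QuotientGroup.mk'_apply,
        QuotientGroup.eq_one_iff, Subgroup.mem_subgroupOf]
      rfl
    have e1 : (CQ.subgroupOf NQ).index = (CQ.subgroupOf A).index := by
      rw [← hker, Subgroup.index_ker, MonoidHom.range_eq_top.2 hf, Subgroup.card_top,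
        Subgroup.index_eq_card]
    rw [e1]
    -- [A : A ∩ C_Q] ∣ [A : C_P] ∣ [N_P : C_P]
    change CQ.relIndex A ∣ CP.relIndex NP
    have s1 : CQ.relIndex A ∣ CP.relIndex A := Subgroup.relIndex_dvd_of_le_left A hCP_CQ
    have s2 : CP.relIndex A ∣ CP.relIndex NP := by
      rw [← Subgroup.relIndex_mul_relIndex CP A NP hCPA hAP]
      exact dvd_mul_right _ _
    exact s1.trans s2

end Cfsg.Agent.S2268
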