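import Mathlib
import Cfsg.Statements.S2269
import Cfsg.Agent.Lib.H10.PermAbelian

set_option autoImplicit false

open Cfsg

namespace Cfsg.Agent.S2269

open Equiv Equiv.Perm

/-! ### Orbits of abelian permutation groups -/

section orbit

variable {X : Type} [Fintype X] [DecidableEq X]

/-- The inverting involution, with the extra information that it preserves orbits. -/
private theorem exists_inverting_involution' (A : Subgroup (Perm X))
    (hA : ∀ a ∈ A, ∀ b ∈ A, a * b = b * a) :
    ∃ t : Perm X, t * t = 1 ∧ (∀ a ∈ A, t * a * t⁻¹ = a⁻¹) ∧ ∀ x, ∃ b ∈ A, t x = b x := by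
  classical
  let s : Setoid X := MulAction.orbitRel A X
  let rep : X → X := fun x => (Quotient.mk s x).out
  have h1 : ∀ x, ∃ a ∈ A, a (rep x) = x := by
    intro x
    have h : s (rep x) x := Quotient.mk_out (s := s) x
    obtain ⟨a, ha⟩ := (MulAction.orbitRel_apply.1 h : rep x ∈ MulAction.orbit A x)
    refine ⟨(a : Perm X)⁻¹, A.inv_mem a.2, ?_⟩
    have ha' : (a : Perm X) x = rep x := ha
    rw [← ha']; simp
  have h2 : ∀ x, ∀ a ∈ A, rep (a x) = rep x := by
    intro x a ha
    have : s (a x) x := by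
      apply MulAction.orbitRel_apply.2
      exact ⟨⟨a, ha⟩, rfl⟩
    have h3 : (Quotient.mk s (a x)) = Quotient.mk s x := Quotient.sound this
    simp only [rep, h3]
  choose g hgA hg using h1
  have key : ∀ (r : X) (a b : Perm X), a ∈ A → b ∈ A → a r = b r → a⁻¹ r = b⁻¹ r := by
    intro r a b ha hb hab
    have h3 : (b⁻¹ * a) r = r := by simp [Perm.mul_apply, hab]
    have h4 : (b⁻¹ * a)⁻¹ r = r := by
      rw [Perm.inv_eq_iff_eq]; exact h3.symm
    have h5 : a⁻¹ = b⁻¹ * (b⁻¹ * a)⁻¹ := by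
      have := hA _ (A.inv_mem ha) _ hb
      rw [mul_inv_rev, inv_inv, this]
      group
    rw [h5, Perm.mul_apply, h4]
  let tf : X → X := fun x => (g x)⁻¹ (rep x)
  have ht : ∀ x, ∀ a ∈ A, a (rep x) = x → tf x = a⁻¹ (rep x) := by
    intro x a ha hax
    exact key (rep x) (g x) a (hgA x) ha ((hg x).trans hax.symm)
  have hinv : Function.Involutive tf := by
    intro x
    have hy : rep (tf x) = rep x := by
      show rep ((g x)⁻¹ (rep x)) = rep x
      have h6 : rep ((g x)⁻¹ (rep x)) = rep (rep x) := h2 _ _ (A.inv_mem (hgA x))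
      have h7 : rep x = rep (rep x) := by
        have := h2 (rep x) (g x) (hgA x)
        rw [hg x] at this
        exact this
      rw [h6, ← h7]
    have h8 := ht (tf x) (g x)⁻¹ (A.inv_mem (hgA x)) (by rw [hy])
    rw [h8, hy, inv_inv, hg x]
  refine ⟨Function.Involutive.toPerm tf hinv, ?_, ?_, ?_⟩
  · ext x
    simp [Perm.mul_apply, Function.Involutive.coe_toPerm, hinv x]
  · intro a ha
    have h3 : ∀ x, tf (a x) = a⁻¹ (tf x) := by
      intro x
      have hrep : rep (a x) = rep x := h2 x a ha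
      have h4 := ht (a x) (a * g x) (A.mul_mem ha (hgA x)) (by
        rw [hrep, Perm.mul_apply, hg x])
      rw [h4, hrep]
      show ((a * g x)⁻¹) (rep x) = a⁻¹ ((g x)⁻¹ (rep x))
      rw [← Perm.mul_apply, mul_inv_rev, hA _ (A.inv_mem (hgA x)) _ (A.inv_mem ha)]
    rw [mul_inv_eq_iff_eq_mul]
    ext x
    simp only [Perm.mul_apply, Function.Involutive.coe_toPerm]
    exact h3 x
  · intro x
    refine ⟨(g x)⁻¹ * (g x)⁻¹, A.mul_mem (A.inv_mem (hgA x)) (A.inv_mem (hgA x)), ?_⟩
    have h5 : (g x)⁻¹ x = rep x := by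
      rw [Perm.inv_eq_iff_eq]
      exact (hg x).symm
    change tf x = _
    rw [Perm.mul_apply, h5]

/-- The orbit of a point as a set. -/
private def orb (A : Subgroup (Perm X)) (x : X) : Set X := {z | ∃ a ∈ A, a x = z}

private lemma orb_self (A : Subgroup (Perm X)) (x : X) : x ∈ orb A x := ⟨1, A.one_mem, rfl⟩

private lemma orb_inv (A : Subgroup (Perm X)) (x : X) {a : Perm X} (ha : a ∈ A) {z : X} :
    a z ∈ orb A x ↔ z ∈ orb A x := by
  constructor
  · rintro ⟨b, hb, hbz⟩
    refine ⟨a⁻¹ * b, A.mul_mem (A.inv_mem ha) hb, ?_⟩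
    rw [Perm.mul_apply, hbz]
    simp
  · rintro ⟨b, hb, rfl⟩
    exact ⟨a * b, A.mul_mem ha hb, rfl⟩

/-- The restriction of a permutation to an orbit, as a homomorphism. -/
private noncomputable def restrHom (A : Subgroup (Perm X)) (x : X) : A →* Perm X where
  toFun a := by
    classical
    exact Perm.ofSubtype ((a : Perm X).subtypePerm (p := fun z => z ∈ orb A x) (fun z => orb_inv A x a.2))
  map_one' := by
    classical
    ext z
    by_cases hz : z ∈ orb A x
    · simp [Perm.ofSubtype_apply_of_mem, hz]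
    · simp [Perm.ofSubtype_apply_of_not_mem, hz]
  map_mul' a b := by
    classical
    ext z
    by_cases hz : z ∈ orb A x
    · have h1 : (b : Perm X) z ∈ orb A x := (orb_inv A x b.2).2 hz
      simp [Perm.ofSubtype_apply_of_mem, hz, h1, Perm.mul_apply]
    · have h1 : (b : Perm X) z ∉ orb A x := fun h => hz ((orb_inv A x b.2).1 h)
      simp [Perm.ofSubtype_apply_of_not_mem, hz, h1, Perm.mul_apply]

private lemma restrHom_mem (A : Subgroup (Perm X)) (x : X) (a : A) {z : X} (hz : z ∈ orb A x) :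
    restrHom A x a z = (a : Perm X) z := by
  classical
  change Perm.ofSubtype _ z = _
  rw [Perm.ofSubtype_apply_of_mem _ hz]
  rfl

private lemma restrHom_not_mem (A : Subgroup (Perm X)) (x : X) (a : A) {z : X} (hz : z ∉ orb A x) :
    restrHom A x a z = z := by
  classical
  change Perm.ofSubtype _ z = _
  rw [Perm.ofSubtype_apply_of_not_mem _ hz]

private lemma restrHom_comm (A : Subgroup (Perm X)) (hA : ∀ a ∈ A, ∀ b ∈ A, a * b = b * a) (x : X) (a b : A) :
    restrHom A x a * (b : Perm X) = (b : Perm X) * restrHom A x a := by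
  ext z
  rw [Perm.mul_apply, Perm.mul_apply]
  by_cases hz : z ∈ orb A x
  · have h1 : (b : Perm X) z ∈ orb A x := (orb_inv A x b.2).2 hz
    rw [restrHom_mem A x a hz, restrHom_mem A x a h1]
    have := congrFun (congrArg DFunLike.coe (hA a a.2 b b.2)) z
    simpa [Perm.mul_apply] using this
  · have h1 : (b : Perm X) z ∉ orb A x := fun h => hz ((orb_inv A x b.2).1 h)
    rw [restrHom_not_mem A x a hz, restrHom_not_mem A x a h1]

/-- The inversion on one orbit. -/
private theorem exists_orbit_inversion (A : Subgroup (Perm X)) (hA : ∀ a ∈ A, ∀ b ∈ A, a * b = b * a) (x : X) :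
    ∃ t : Perm X, t * t = 1 ∧ (∀ z, z ∉ orb A x → t z = z) ∧ (∀ z, z ∈ orb A x → t z ∈ orb A x) ∧
      (∀ a ∈ A, ∀ z ∈ orb A x, t (a (t z)) = a⁻¹ z) := by
  classical
  obtain ⟨t₀, h1, h2, h3⟩ := exists_inverting_involution' A hA
  have hmem : ∀ z ∈ orb A x, t₀ z ∈ orb A x := by
    intro z hz
    obtain ⟨b, hb, hbz⟩ := h3 z
    rw [hbz]
    exact (orb_inv A x hb).2 hz
  have ht₀ : ∀ z, t₀ (t₀ z) = z := fun z => by
    have := congrFun (congrArg DFunLike.coe h1) z
    simpa [Perm.mul_apply] using this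
  let tf : X → X := fun z => if z ∈ orb A x then t₀ z else z
  have hinv : Function.Involutive tf := by
    intro z
    by_cases hz : z ∈ orb A x
    · simp only [tf, hz, if_true, hmem z hz, ht₀]
    · simp only [tf, hz, if_false]
  refine ⟨Function.Involutive.toPerm tf hinv, ?_, ?_, ?_, ?_⟩
  · ext z
    simp [Perm.mul_apply, Function.Involutive.coe_toPerm, hinv z]
  · intro z hz
    simp [tf, Function.Involutive.coe_toPerm, hz]
  · intro z hz
    simp only [Function.Involutive.coe_toPerm, tf, hz, if_true]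
    exact hmem z hz
  · intro a ha z hz
    simp only [Function.Involutive.coe_toPerm, tf, hz, if_true, hmem z hz]
    have h4 : a (t₀ z) ∈ orb A x := (orb_inv A x ha).2 (hmem z hz)
    rw [if_pos h4]
    have h5 := h2 a ha
    have h6 := congrFun (congrArg DFunLike.coe h5) z
    simp only [Perm.mul_apply] at h6
    have h7 : t₀⁻¹ z = t₀ z := by
      rw [Perm.inv_eq_iff_eq]
      exact (ht₀ z).symm
    rwa [h7] at h6

end orbit

/-! ### Low degree -/

private def x₀ : Perm (Fin 6) := swap 0 1 * swap 1 2 * swap 2 3 * swap 4 5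
private def y₀ : Perm (Fin 6) := swap 0 2 * swap 4 5

private lemma sign_x₀ : sign x₀ = 1 := by decide
private lemma sign_y₀ : sign y₀ = 1 := by decide
private lemma x₀_pow : x₀ ^ 4 = 1 := by decide
private lemma y₀_pow : y₀ ^ 2 = 1 := by decide
private lemma y₀_conj : y₀ * x₀ * y₀⁻¹ = x₀⁻¹ := by decide
private lemma xy_ne : x₀ * y₀ ≠ y₀ * x₀ := by decide

/-- Odd order permutations are even. -/
private lemma sign_of_odd_order {X : Type} [Fintype X] [DecidableEq X] {p : ℕ} (hp : p.Prime) (hp2 : p ≠ 2)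
    {u : Perm X} (hu : ∃ k, orderOf u = p ^ k) : sign u = 1 := by
  obtain ⟨k, hk⟩ := hu
  have h1 : (sign u) ^ (p ^ k) = 1 := by
    rw [← map_pow, ← hk, pow_orderOf_eq_one, map_one]
  have hodd : Odd (p ^ k) := (hp.odd_of_ne_two hp2).pow
  rcases Int.units_eq_one_or (sign u) with h | h
  · exact h
  · rw [h, hodd.neg_one_pow] at h1
    exact absurd h1 (by decide)

private lemma mem_normalizer_of_comm {G : Type*} [Group G] {Q : Subgroup G} {r : G} (h : ∀ q ∈ Q, r * q = q * r) :
    r ∈ Subgroup.normalizer (Q : Set G) := by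
  rw [Subgroup.mem_normalizer_iff]
  intro q
  constructor
  · intro hq
    rw [h q hq, mul_inv_cancel_right]
    exact hq
  · intro hq
    have h1 := h _ hq
    have h2 : r * q * r⁻¹ = q := by
      have h3 : r * (r * q * r⁻¹) = (r * q * r⁻¹) * r := h1
      simp only [mul_assoc, inv_mul_cancel, mul_one] at h3
      have h4 := mul_left_cancel h3
      rw [mul_assoc]
      exact h4
    rwa [h2] at hq

/-- The odd case. -/
private theorem odd_case (n : ℕ) (hn : 5 ≤ n) {p : ℕ} [Fact p.Prime] (hp2 : p ≠ 2)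
    (P : Sylow p (alternatingGroup (Fin n))) (hP : IsMulCommutative (P : Subgroup (alternatingGroup (Fin n))))
    (hnc : ¬ IsCyclic (P : Subgroup (alternatingGroup (Fin n)))) :
    2 ∣ ((Subgroup.centralizer ((P : Subgroup (alternatingGroup (Fin n))) : Set (alternatingGroup (Fin n)))).subgroupOf (Subgroup.normalizer ((P : Subgroup (alternatingGroup (Fin n))) : Set (alternatingGroup (Fin n))))).index := by
  classical
  have hpp : p.Prime := Fact.out
  let G := alternatingGroup (Fin n)
  let Q : Subgroup (Perm (Fin n)) := (P : Subgroup G).map G.subtype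
  have hmemQ : ∀ g : G, g ∈ (P : Subgroup G) ↔ (g : Perm (Fin n)) ∈ Q := by
    intro g
    constructor
    · intro h
      exact ⟨g, h, rfl⟩
    · rintro ⟨g', hg', e⟩
      have : g' = g := Subtype.ext e
      rwa [← this]
  have hcomm : ∀ a ∈ Q, ∀ b ∈ Q, a * b = b * a := by
    rintro _ ⟨a, ha, rfl⟩ _ ⟨b, hb, rfl⟩
    have := hP.is_comm.comm ⟨a, ha⟩ ⟨b, hb⟩
    have h2 : a * b = b * a := congrArg Subtype.val this
    exact congrArg Subtype.val h2
  have hpQ : IsPGroup p Q := P.isPGroup'.map G.subtype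
  -- restrictions to orbits lie in `Q`
  have hrestr : ∀ (x : Fin n) (a : Q), restrHom Q x a ∈ Q := by
    intro x a
    let R : Subgroup (Perm (Fin n)) := (restrHom Q x).range
    have hpR : IsPGroup p R := hpQ.of_surjective (restrHom Q x).rangeRestrict (MonoidHom.rangeRestrict_surjective _)
    have hRN : R ≤ Subgroup.normalizer (Q : Set (Perm (Fin n))) := by
      rintro _ ⟨c, rfl⟩
      apply mem_normalizer_of_comm
      intro q hq
      exact restrHom_comm Q hcomm x c ⟨q, hq⟩
    have hsup : IsPGroup p ((Q ⊔ R : Subgroup (Perm (Fin n)))) := hpQ.to_sup_of_normal_left' hpR hRN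
    let T : Subgroup G := (Q ⊔ R).comap G.subtype
    have hT : IsPGroup p T := hsup.comap_of_injective G.subtype G.subtype_injective
    have hPT : (P : Subgroup G) ≤ T := by
      intro g hg
      exact (le_sup_left : Q ≤ Q ⊔ R) ((hmemQ g).1 hg)
    have hTP := P.is_maximal' hT hPT
    have hmemsup : restrHom Q x a ∈ Q ⊔ R := (le_sup_right : R ≤ Q ⊔ R) ⟨a, rfl⟩
    have hord : ∃ k, orderOf (restrHom Q x a) = p ^ k := by
      have := IsPGroup.iff_orderOf.1 hsup ⟨_, hmemsup⟩
      simpa using this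
    have hsign := sign_of_odd_order hpp hp2 hord
    let r' : G := ⟨restrHom Q x a, (Equiv.Perm.mem_alternatingGroup).2 hsign⟩
    have hr' : r' ∈ T := hmemsup
    rw [hTP] at hr'
    exact (hmemQ r').1 hr'
  -- inversions on orbits normalize `Q`
  have hodd : ∀ a ∈ Q, ∀ z, a (a z) = z → a z = z := by
    intro a ha z h
    obtain ⟨k, hk⟩ := IsPGroup.iff_orderOf.1 hpQ ⟨a, ha⟩
    have hk' : orderOf a = p ^ k := by simpa using hk
    have hodd' : Odd (orderOf a) := by
      rw [hk']
      exact (hpp.odd_of_ne_two hp2).pow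
    obtain ⟨m, hm⟩ := hodd'
    have hpow : ∀ j, (a ^ (2 * j)) z = z := by
      intro j
      induction j with
      | zero => simp
      | succ j ih =>
        rw [show 2 * (j + 1) = 2 + 2 * j by ring, pow_add, Perm.mul_apply, ih, sq, Perm.mul_apply, h]
    have h1 : a ^ (2 * m + 1) = 1 := by
      rw [← hm, pow_orderOf_eq_one]
    have h2 : (a ^ (2 * m + 1)) z = z := by rw [h1, Perm.one_apply]
    rw [pow_succ, Perm.mul_apply, ] at h2
    have h3 := hpow m
    -- `a^(2m)` fixes both `z` and `a z`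
    have h4 : (a ^ (2 * m)) (a z) = a ((a ^ (2 * m)) z) := by
      rw [← Perm.mul_apply, ← Perm.mul_apply, ← pow_succ, ← pow_succ']
    rw [h4, h3] at h2
    exact h2
  have hgood : ∀ (t : Perm (Fin n)) (x : Fin n), (t * t = 1) → (∀ z, z ∉ orb Q x → t z = z) →
      (∀ z, z ∈ orb Q x → t z ∈ orb Q x) → (∀ a ∈ Q, ∀ z ∈ orb Q x, t (a (t z)) = a⁻¹ z) →
      ∀ a ∈ Q, t * a * t ∈ Q := by
    intro t x h1 h2 h3 h4 a ha
    have e : t * a * t = a * (restrHom Q x ⟨a, ha⟩)⁻¹ * (restrHom Q x ⟨a, ha⟩)⁻¹ := by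
      ext z
      simp only [Perm.mul_apply]
      by_cases hz : z ∈ orb Q x
      · have hz1 : (a⁻¹ z) ∈ orb Q x := (orb_inv Q x (Q.inv_mem ha)).2 hz
        have e1 : ∀ w ∈ orb Q x, (restrHom Q x ⟨a, ha⟩)⁻¹ w = a⁻¹ w := by
          intro w hw
          rw [Perm.inv_eq_iff_eq, restrHom_mem Q x ⟨a, ha⟩ ((orb_inv Q x (Q.inv_mem ha)).2 hw)]
          simp
        rw [h4 a ha z hz, e1 z hz, e1 _ hz1]
        simp
      · have e1 : (restrHom Q x ⟨a, ha⟩)⁻¹ z = z := by
          rw [Perm.inv_eq_iff_eq, restrHom_not_mem Q x ⟨a, ha⟩ hz]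
        have hz2 : a z ∉ orb Q x := fun h => hz ((orb_inv Q x ha).1 h)
        rw [h2 z hz, h2 _ hz2, e1, e1]
    rw [e]
    exact Q.mul_mem (Q.mul_mem ha (Q.inv_mem (hrestr x ⟨a, ha⟩))) (Q.inv_mem (hrestr x ⟨a, ha⟩))
  have hnoncomm : ∀ (t : Perm (Fin n)) (x : Fin n), (t * t = 1) →
      (∀ a ∈ Q, ∀ z ∈ orb Q x, t (a (t z)) = a⁻¹ z) → ∀ a ∈ Q, a x ≠ x → t * a ≠ a * t := by
    intro t x h1 h4 a ha hax hc
    have h5 := h4 a ha x (orb_self Q x)
    have h6 : t (a (t x)) = a x := by
      have h7 := congrFun (congrArg DFunLike.coe hc) (t x)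
      simp only [Perm.mul_apply] at h7
      rw [h7]
      have h8 := congrFun (congrArg DFunLike.coe h1) x
      simp only [Perm.mul_apply, Perm.one_apply] at h8
      rw [h8]
    rw [h6] at h5
    have h9 : a (a x) = x := by
      rw [h5]
      simp
    exact hax (hodd a ha x h9)
  -- two nontrivial orbits
  have htwo : ∃ x y : Fin n, (∃ a ∈ Q, a x ≠ x) ∧ (∃ b ∈ Q, b y ≠ y) ∧ y ∉ orb Q x := by
    by_contra hcon
    push Not at hcon
    apply hnc
    have hcardP : Nat.card Q = Nat.card (P : Subgroup G) :=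
      Subgroup.card_map_of_injective G.subtype_injective
    obtain ⟨k, hk⟩ := IsPGroup.iff_card.1 P.isPGroup'
    by_cases hQ : ∀ a ∈ Q, a = 1
    · have : Subsingleton (P : Subgroup G) := by
        constructor
        rintro ⟨a, ha⟩ ⟨b, hb⟩
        apply Subtype.ext
        apply Subtype.ext
        rw [hQ _ ((hmemQ a).1 ha), hQ _ ((hmemQ b).1 hb)]
      exact isCyclic_of_subsingleton
    push Not at hQ
    obtain ⟨a, ha, ha1⟩ := hQ
    obtain ⟨x, hx⟩ : ∃ x, a x ≠ x := by
      by_contra h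
      push Not at h
      exact ha1 (Equiv.ext h)
    have hstab : ∀ s ∈ Q, s x = x → s = 1 := by
      intro s hs hsx
      apply Equiv.ext
      intro z
      show s z = z
      by_cases hz : z ∈ orb Q x
      · obtain ⟨c, hc, rfl⟩ := hz
        have h1 := congrFun (congrArg DFunLike.coe (hcomm s hs c hc)) x
        simp only [Perm.mul_apply] at h1
        rw [h1, hsx]
      · by_contra hsz
        exact hz (hcon x z ⟨a, ha, hx⟩ ⟨s, hs, hsz⟩)
    have hinjQ : Function.Injective (fun c : Q => (c : Perm (Fin n)) x) := by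
      intro c d h
      apply Subtype.ext
      have h1 : ((d : Perm (Fin n))⁻¹ * c) x = x := by
        rw [Perm.mul_apply, Perm.inv_eq_iff_eq]
        exact h
      have h2 := hstab _ (Q.mul_mem (Q.inv_mem d.2) c.2) h1
      exact (inv_mul_eq_one.1 h2).symm
    have hle : Nat.card Q ≤ n := by
      have := Nat.card_le_card_of_injective _ hinjQ
      simpa using this
    rw [hcardP, hk] at hle
    by_cases hk2 : 2 ≤ k
    · exfalso
      have h1 : p ^ (k + 1) ∣ (p ^ k).factorial := by
        have hpos : 0 < p ^ k := pow_pos hpp.pos k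
        obtain ⟨j, hj⟩ : ∃ j, p ^ k = j + 1 := ⟨p ^ k - 1, by omega⟩
        have h2 : p ≤ j := by
          have h3 : p * p ≤ p ^ k := by
            rw [← sq]
            exact Nat.pow_le_pow_right hpp.pos hk2
          have h4 := hpp.two_le
          have h5 : 2 * p ≤ p * p := Nat.mul_le_mul_right p h4
          omega
        rw [hj, Nat.factorial_succ, ← hj, pow_succ]
        exact Nat.mul_dvd_mul_left _ (hpp.dvd_factorial.2 h2)
      have h6 : (p ^ k).factorial ∣ n.factorial := Nat.factorial_dvd_factorial hle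
      have h7 : p ^ (k + 1) ∣ n.factorial := h1.trans h6
      haveI : Nontrivial (Fin n) := Fin.nontrivial_iff_two_le.2 (by omega)
      have h8 : 2 * Nat.card G = n.factorial := by
        have := two_mul_card_alternatingGroup (α := Fin n)
        rw [Fintype.card_perm, Fintype.card_fin] at this
        rw [Nat.card_eq_fintype_card]
        exact this
      rw [← h8] at h7
      have hcop : Nat.Coprime (p ^ (k + 1)) 2 := by
        apply Nat.Coprime.pow_left
        exact (Nat.coprime_primes hpp Nat.prime_two).2 hp2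
      have h9 := hcop.dvd_of_dvd_mul_left h7
      have h10 := P.pow_dvd_card_of_pow_dvd_card h9
      rw [hk] at h10
      have := (Nat.pow_dvd_pow_iff_le_right hpp.one_lt).1 h10
      omega
    · have hk3 : k = 0 ∨ k = 1 := by omega
      rcases hk3 with rfl | rfl
      · rw [pow_zero] at hk
        have : Subsingleton (P : Subgroup G) := (Nat.card_eq_one_iff_unique.1 hk).1
        exact isCyclic_of_subsingleton
      · rw [pow_one] at hk
        exact isCyclic_of_prime_card hk
  obtain ⟨x, y, ⟨a, ha, hax⟩, ⟨b, hb, hby⟩, hyx⟩ := htwo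
  obtain ⟨t₁, h1a, h1b, h1c, h1d⟩ := exists_orbit_inversion Q hcomm x
  obtain ⟨t₂, h2a, h2b, h2c, h2d⟩ := exists_orbit_inversion Q hcomm y
  have hdisj : ∀ z, z ∈ orb Q x → z ∉ orb Q y := by
    rintro z ⟨c, hc, rfl⟩ ⟨d, hd, hdz⟩
    apply hyx
    refine ⟨d⁻¹ * c, Q.mul_mem (Q.inv_mem hd) hc, ?_⟩
    rw [Perm.mul_apply, Perm.inv_eq_iff_eq]
    exact hdz.symm
  have h1b' : ∀ z, z ∈ orb Q y → t₁ z = z := fun z hz => h1b z (fun h => hdisj z h hz)
  have h2b' : ∀ z, z ∈ orb Q x → t₂ z = z := fun z hz => h2b z (hdisj z hz)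
  have ht₁₁ : ∀ z, t₁ (t₁ z) = z := fun z => by
    have := congrFun (congrArg DFunLike.coe h1a) z
    simpa [Perm.mul_apply] using this
  have ht₂₂ : ∀ z, t₂ (t₂ z) = z := fun z => by
    have := congrFun (congrArg DFunLike.coe h2a) z
    simpa [Perm.mul_apply] using this
  have hcomm12 : t₁ * t₂ = t₂ * t₁ := by
    apply Equiv.ext
    intro z
    show t₁ (t₂ z) = t₂ (t₁ z)
    by_cases hz : z ∈ orb Q x
    · rw [h2b' z hz, h2b' _ (h1c z hz)]
    · rw [h1b z hz]
      by_cases hz2 : z ∈ orb Q y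
      · rw [h1b' _ (h2c z hz2)]
      · rw [h2b z hz2, h1b z hz]
  have h12sq : (t₁ * t₂) * (t₁ * t₂) = 1 := by
    rw [mul_assoc, ← mul_assoc t₂, ← hcomm12, mul_assoc t₁, h2a, mul_one, h1a]
  have h12d : ∀ a ∈ Q, ∀ z ∈ orb Q x, (t₁ * t₂) (a ((t₁ * t₂) z)) = a⁻¹ z := by
    intro c hc z hz
    simp only [Perm.mul_apply]
    rw [h2b' z hz, h2b' _ ((orb_inv Q x hc).2 (h1c z hz))]
    exact h1d c hc z hz
  have final : ∀ t : Perm (Fin n), t * t = 1 → sign t = 1 → (∀ a ∈ Q, t * a * t ∈ Q) →
      (∃ a ∈ Q, t * a ≠ a * t) →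
      2 ∣ ((Subgroup.centralizer ((P : Subgroup (alternatingGroup (Fin n))) : Set (alternatingGroup (Fin n)))).subgroupOf (Subgroup.normalizer ((P : Subgroup (alternatingGroup (Fin n))) : Set (alternatingGroup (Fin n))))).index := by
    intro t htt hts htQ ⟨c, hc, htc⟩
    let t' : G := ⟨t, (Equiv.Perm.mem_alternatingGroup).2 hts⟩
    have ht'inv : t'⁻¹ = t' := by
      apply Subtype.ext
      show t⁻¹ = t
      exact inv_eq_of_mul_eq_one_left htt
    apply H10.two_dvd_index_of_involution ((P : Subgroup G) : Set G) t'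
    · rw [Subgroup.mem_set_normalizer_iff]
      intro h
      rw [ht'inv]
      constructor
      · intro hh
        have h1 := htQ _ ((hmemQ h).1 hh)
        exact (hmemQ _).2 h1
      · intro hh
        have h1 := htQ _ ((hmemQ (t' * h * t')).1 hh)
        have h2 : t * ((t' * h * t' : G) : Perm (Fin n)) * t = (h : Perm (Fin n)) := by
          show t * (t * h * t) * t = (h : Perm (Fin n))
          calc t * (t * h * t) * t = (t * t) * h * (t * t) := by group
            _ = _ := by rw [htt]; simp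
        rw [h2] at h1
        exact (hmemQ h).2 h1
    · intro hcen
      rw [Subgroup.mem_centralizer_iff] at hcen
      obtain ⟨c', hc', rfl⟩ := hc
      have h1 := hcen c' hc'
      have h2 : (c' : Perm (Fin n)) * t = t * c' := congrArg Subtype.val h1
      exact htc h2.symm
    · have : t' * t' = 1 := Subtype.ext htt
      rw [this]
      exact Subgroup.one_mem _
  by_cases hs1 : sign t₁ = 1
  · exact final t₁ h1a hs1 (hgood t₁ x h1a h1b h1c h1d) ⟨a, ha, hnoncomm t₁ x h1a h1d a ha hax⟩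
  by_cases hs2 : sign t₂ = 1
  · exact final t₂ h2a hs2 (hgood t₂ y h2a h2b h2c h2d) ⟨b, hb, hnoncomm t₂ y h2a h2d b hb hby⟩
  have hs1' : sign t₁ = -1 := (Int.units_eq_one_or _).resolve_left hs1
  have hs2' : sign t₂ = -1 := (Int.units_eq_one_or _).resolve_left hs2
  refine final (t₁ * t₂) h12sq (by rw [map_mul, hs1', hs2']; rfl) ?_ ⟨a, ha, hnoncomm _ x h12sq h12d a ha hax⟩
  intro c hc
  have h1 := hgood t₂ y h2a h2b h2c h2d c hc
  have h2 := hgood t₁ x h1a h1b h1c h1d _ h1
  have e : t₁ * t₂ * c * (t₁ * t₂) = t₁ * (t₂ * c * t₂) * t₁ := by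
    calc t₁ * t₂ * c * (t₁ * t₂) = t₁ * t₂ * c * (t₂ * t₁) := by rw [← hcomm12]
      _ = _ := by group
  rw [e]
  exact h2

private lemma no_comm {G : Type*} [Group G] [Finite G] (P : Sylow 2 G) (hP : IsMulCommutative (P : Subgroup G))
    (x y : G) (hx : x ^ 4 = 1) (hy : y ^ 2 = 1) (hc : y * x * y⁻¹ = x⁻¹) : x * y = y * x := by
  classical
  have hH : IsPGroup 2 (Subgroup.zpowers x) := by
    have h1 : orderOf x ∣ 2 ^ 2 := orderOf_dvd_of_pow_eq_one (by simpa using hx)
    obtain ⟨k, -, hk⟩ := (Nat.dvd_prime_pow Nat.prime_two).1 h1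
    exact IsPGroup.of_card (n := k) (by rw [Nat.card_zpowers, hk])
  have hK : IsPGroup 2 (Subgroup.zpowers y) := by
    have h1 : orderOf y ∣ 2 ^ 1 := orderOf_dvd_of_pow_eq_one (by simpa using hy)
    obtain ⟨k, -, hk⟩ := (Nat.dvd_prime_pow Nat.prime_two).1 h1
    exact IsPGroup.of_card (n := k) (by rw [Nat.card_zpowers, hk])
  have hyy : y * y = 1 := by rw [← sq]; exact hy
  have hyinv : y⁻¹ = y := inv_eq_of_mul_eq_one_left hyy
  have hforward : ∀ h ∈ Subgroup.zpowers x, y * h * y⁻¹ ∈ Subgroup.zpowers x := by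
    rintro _ ⟨k, rfl⟩
    refine ⟨-k, ?_⟩
    show x ^ (-k) = y * x ^ k * y⁻¹
    have : y * x ^ k * y⁻¹ = (y * x * y⁻¹) ^ k := by
      rw [conj_zpow]
    rw [this, hc, inv_zpow, zpow_neg]
  have hKN : Subgroup.zpowers y ≤ Subgroup.normalizer (Subgroup.zpowers x : Set G) := by
    rw [Subgroup.zpowers_le, Subgroup.mem_set_normalizer_iff]
    intro h
    refine ⟨hforward h, fun hh => ?_⟩
    have := hforward _ hh
    have e : y * (y * h * y⁻¹) * y⁻¹ = h := by
      rw [hyinv]
      calc y * (y * h * y) * y = (y * y) * h * (y * y) := by group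
        _ = h := by rw [hyy]; simp
    rwa [e] at this
  obtain ⟨S, hS⟩ := (hH.to_sup_of_normal_left' hK hKN).exists_le_sylow
  have hxS : x ∈ (S : Subgroup G) := hS (Subgroup.mem_sup_left (Subgroup.mem_zpowers x))
  have hyS : y ∈ (S : Subgroup G) := hS (Subgroup.mem_sup_right (Subgroup.mem_zpowers y))
  let e : (S : Subgroup G) ≃* (P : Subgroup G) := Sylow.equiv S P
  have := hP.is_comm.comm (e ⟨x, hxS⟩) (e ⟨y, hyS⟩)
  rw [← map_mul, ← map_mul] at this
  exact congrArg Subtype.val (e.injective this)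

private theorem two_case (n : ℕ) (hn : 6 ≤ n) (P : Sylow 2 (alternatingGroup (Fin n)))
    (hP : IsMulCommutative (P : Subgroup (alternatingGroup (Fin n)))) : False := by
  classical
  let pr : Fin n → Prop := fun i => i.val < 6
  let f : Fin 6 ≃ Subtype pr :=
    { toFun := fun i => ⟨⟨i.val, by omega⟩, i.2⟩
      invFun := fun j => ⟨j.1.val, j.2⟩
      left_inv := fun _ => rfl
      right_inv := fun _ => rfl }
  let ι : Perm (Fin 6) →* Perm (Fin n) := Equiv.Perm.extendDomainHom f
  have hι : Function.Injective ι := Equiv.Perm.extendDomainHom_injective f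
  have hs : ∀ u : Perm (Fin 6), sign u = 1 → sign (ι u) = 1 := fun u hu => by
    show sign (u.extendDomain f) = 1
    rw [sign_extendDomain, hu]
  let x : alternatingGroup (Fin n) := ⟨ι x₀, (mem_alternatingGroup).2 (hs _ sign_x₀)⟩
  let y : alternatingGroup (Fin n) := ⟨ι y₀, (mem_alternatingGroup).2 (hs _ sign_y₀)⟩
  have h := no_comm P hP x y
    (Subtype.ext (by show ι x₀ ^ 4 = 1; rw [← map_pow, x₀_pow, map_one]))
    (Subtype.ext (by show ι y₀ ^ 2 = 1; rw [← map_pow, y₀_pow, map_one]))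
    (Subtype.ext (by
      show ι y₀ * ι x₀ * (ι y₀)⁻¹ = (ι x₀)⁻¹
      rw [← map_inv, ← map_mul, ← map_mul, y₀_conj, map_inv]))
  apply xy_ne
  apply hι
  rw [map_mul, map_mul]
  exact congrArg Subtype.val h

private def v₁ : Perm (Fin 5) := swap 0 1 * swap 2 3
private def v₂ : Perm (Fin 5) := swap 0 2 * swap 1 3
private def v₃ : Perm (Fin 5) := swap 0 3 * swap 1 2
private def S₀ : Finset (Perm (Fin 5)) := {1, v₁, v₂, v₃}

set_option maxRecDepth 100000 in
private lemma S₀_mul : ∀ a ∈ S₀, ∀ b ∈ S₀, a * b ∈ S₀ := by decide +kernel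
set_option maxRecDepth 100000 in
private lemma S₀_inv : ∀ a ∈ S₀, a⁻¹ ∈ S₀ := by decide +kernel
set_option maxRecDepth 100000 in
private lemma S₀_one : (1 : Perm (Fin 5)) ∈ S₀ := by decide +kernel
set_option maxRecDepth 100000 in
private lemma S₀_sign : ∀ a ∈ S₀, sign a = 1 := by decide +kernel
set_option maxRecDepth 100000 in
private lemma S₀_card : (Finset.univ.filter (fun g : Perm (Fin 5) => g ∈ S₀)).card = 4 := by decide +kernel
set_option maxRecDepth 100000 in
private lemma N_inv : ∀ g : Perm (Fin 5), (∀ v ∈ S₀, g * v * g⁻¹ ∈ S₀) → ∀ v ∈ S₀, g⁻¹ * v * g ∈ S₀ := by decide +kernel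
set_option maxRecDepth 100000 in
private lemma N_card : (Finset.univ.filter (fun g : Perm (Fin 5) => sign g = 1 ∧ ∀ v ∈ S₀, g * v * g⁻¹ ∈ S₀)).card = 12 := by decide +kernel
set_option maxRecDepth 100000 in
private lemma C_card : (Finset.univ.filter (fun g : Perm (Fin 5) => sign g = 1 ∧ ∀ v ∈ S₀, v * g = g * v)).card = 4 := by decide +kernel
set_option maxRecDepth 100000 in
private lemma no_four : ∀ g : Perm (Fin 5), sign g = 1 → g ^ 4 = 1 → g ^ 2 = 1 := by decide +kernel

private def V₀ : Subgroup (alternatingGroup (Fin 5)) where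
  carrier := {g | g.1 ∈ S₀}
  mul_mem' := fun ha hb => S₀_mul _ ha _ hb
  one_mem' := S₀_one
  inv_mem' := fun ha => S₀_inv _ ha

private lemma card_of_pred (K : Subgroup (alternatingGroup (Fin 5))) (Q : Perm (Fin 5) → Prop) [DecidablePred Q]
    (h1 : ∀ g, Q g → sign g = 1) (h2 : ∀ g : alternatingGroup (Fin 5), g ∈ K ↔ Q g.1) :
    Nat.card K = (Finset.univ.filter Q).card := by
  rw [← Fintype.card_coe, ← Nat.card_eq_fintype_card]
  apply Nat.card_congr
  exact
    { toFun := fun g => ⟨g.1.1, by simp [(h2 g.1).1 g.2]⟩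
      invFun := fun v => ⟨⟨v.1, mem_alternatingGroup.2 (h1 _ (Finset.mem_filter.1 v.2).2)⟩, (h2 _).2 (Finset.mem_filter.1 v.2).2⟩
      left_inv := fun _ => rfl
      right_inv := fun _ => rfl }

private lemma card_V₀ : Nat.card V₀ = 4 := by
  rw [card_of_pred V₀ (fun g => g ∈ S₀) S₀_sign (fun g => Iff.rfl), S₀_card]

private lemma mem_N (g : alternatingGroup (Fin 5)) :
    g ∈ Subgroup.normalizer (V₀ : Set (alternatingGroup (Fin 5))) ↔ (sign g.1 = 1 ∧ ∀ v ∈ S₀, g.1 * v * g.1⁻¹ ∈ S₀) := by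
  rw [Subgroup.mem_set_normalizer_iff]
  constructor
  · intro h
    refine ⟨mem_alternatingGroup.1 g.2, fun v hv => ?_⟩
    have := (h ⟨v, mem_alternatingGroup.2 (S₀_sign v hv)⟩).1 hv
    exact this
  · rintro ⟨-, h⟩ w
    constructor
    · intro hw
      exact h _ hw
    · intro hw
      have h1 := N_inv _ h _ hw
      have e : g.1⁻¹ * (g * w * g⁻¹ : alternatingGroup (Fin 5)).1 * g.1 = w.1 := by
        show g.1⁻¹ * (g.1 * w.1 * g.1⁻¹) * g.1 = w.1
        group
      rw [e] at h1
      exact h1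

private lemma mem_C (g : alternatingGroup (Fin 5)) :
    g ∈ Subgroup.centralizer (V₀ : Set (alternatingGroup (Fin 5))) ↔ (sign g.1 = 1 ∧ ∀ v ∈ S₀, v * g.1 = g.1 * v) := by
  rw [Subgroup.mem_centralizer_iff]
  constructor
  · intro h
    refine ⟨mem_alternatingGroup.1 g.2, fun v hv => ?_⟩
    have := h ⟨v, mem_alternatingGroup.2 (S₀_sign v hv)⟩ hv
    exact congrArg Subtype.val this
  · rintro ⟨-, h⟩ w hw
    exact Subtype.ext (h _ hw)

private lemma card_N₀ : Nat.card (Subgroup.normalizer (V₀ : Set (alternatingGroup (Fin 5)))) = 12 := by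
  rw [card_of_pred _ (fun g => sign g = 1 ∧ ∀ v ∈ S₀, g * v * g⁻¹ ∈ S₀) (fun g h => h.1) mem_N, N_card]

private lemma card_C₀ : Nat.card (Subgroup.centralizer (V₀ : Set (alternatingGroup (Fin 5)))) = 4 := by
  rw [card_of_pred _ (fun g => sign g = 1 ∧ ∀ v ∈ S₀, v * g = g * v) (fun g h => h.1) mem_C, C_card]

private lemma card_conj {G : Type*} [Group G] (V P : Subgroup G) (g : G) (h : ∀ x, x ∈ P ↔ g⁻¹ * x * g ∈ V) :
    Nat.card (Subgroup.normalizer (P : Set G)) = Nat.card (Subgroup.normalizer (V : Set G)) ∧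
    Nat.card (Subgroup.centralizer (P : Set G)) = Nat.card (Subgroup.centralizer (V : Set G)) := by
  constructor
  · apply Nat.card_congr
    refine
      { toFun := fun x => ⟨g⁻¹ * x.1 * g, ?_⟩
        invFun := fun x => ⟨g * x.1 * g⁻¹, ?_⟩
        left_inv := fun x => by apply Subtype.ext; simp; group
        right_inv := fun x => by apply Subtype.ext; simp; group }
    · rw [Subgroup.mem_set_normalizer_iff]
      intro y
      have h0 := (Subgroup.mem_set_normalizer_iff.1 x.2) (g * y * g⁻¹)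
      have e1 : g⁻¹ * (g * y * g⁻¹) * g = y := by group
      have e2 : g⁻¹ * (x.1 * (g * y * g⁻¹) * x.1⁻¹) * g = g⁻¹ * x.1 * g * y * (g⁻¹ * x.1 * g)⁻¹ := by group
      simp only [SetLike.mem_coe] at h0 ⊢
      rw [h, h, e1, e2] at h0
      exact h0
    · rw [Subgroup.mem_set_normalizer_iff]
      intro y
      have h0 := (Subgroup.mem_set_normalizer_iff.1 x.2) (g⁻¹ * y * g)
      have e2 : g⁻¹ * (g * x.1 * g⁻¹ * y * (g * x.1 * g⁻¹)⁻¹) * g = x.1 * (g⁻¹ * y * g) * x.1⁻¹ := by group
      simp only [SetLike.mem_coe] at h0 ⊢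
      rw [h, h, e2]
      exact h0
  · apply Nat.card_congr
    refine
      { toFun := fun x => ⟨g⁻¹ * x.1 * g, ?_⟩
        invFun := fun x => ⟨g * x.1 * g⁻¹, ?_⟩
        left_inv := fun x => by apply Subtype.ext; simp; group
        right_inv := fun x => by apply Subtype.ext; simp; group }
    · rw [Subgroup.mem_centralizer_iff]
      intro y hy
      have h0 := (Subgroup.mem_centralizer_iff.1 x.2) (g * y * g⁻¹) (by
        show g * y * g⁻¹ ∈ P
        rw [h]
        have e1 : g⁻¹ * (g * y * g⁻¹) * g = y := by group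
        rw [e1]
        exact hy)
      have e1 : y * (g⁻¹ * x.1 * g) = g⁻¹ * (g * y * g⁻¹ * x.1) * g := by group
      have e2 : g⁻¹ * x.1 * g * y = g⁻¹ * (x.1 * (g * y * g⁻¹)) * g := by group
      rw [e1, e2, h0]
    · rw [Subgroup.mem_centralizer_iff]
      intro y hy
      have h0 := (Subgroup.mem_centralizer_iff.1 x.2) (g⁻¹ * y * g) ((h y).1 hy)
      have e1 : y * (g * x.1 * g⁻¹) = g * (g⁻¹ * y * g * x.1) * g⁻¹ := by group
      have e2 : g * x.1 * g⁻¹ * y = g * (x.1 * (g⁻¹ * y * g)) * g⁻¹ := by group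
      rw [e1, e2, h0]

private theorem five_case (P : Sylow 2 (alternatingGroup (Fin 5))) :
    ((Subgroup.centralizer ((P : Subgroup (alternatingGroup (Fin 5))) : Set (alternatingGroup (Fin 5)))).subgroupOf (Subgroup.normalizer ((P : Subgroup (alternatingGroup (Fin 5))) : Set (alternatingGroup (Fin 5))))).index = 3 ∧ IsKleinFour (P : Subgroup (alternatingGroup (Fin 5))) := by
  classical
  let G := alternatingGroup (Fin 5)
  have hG : Nat.card G = 60 := by
    have := two_mul_card_alternatingGroup (α := Fin 5)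
    rw [Fintype.card_perm, Fintype.card_fin] at this
    rw [Nat.card_eq_fintype_card]
    have h5 : 2 * Fintype.card G = 120 := this
    omega
  have hcardP : Nat.card (P : Subgroup G) = 4 := by
    obtain ⟨k, hk⟩ := IsPGroup.iff_card.1 P.isPGroup'
    have h4 : (2 : ℕ) ^ 2 ∣ Nat.card G := by rw [hG]; norm_num
    have h5 := P.pow_dvd_card_of_pow_dvd_card h4
    rw [hk] at h5
    have h6 : 2 ≤ k := (Nat.pow_dvd_pow_iff_le_right (by norm_num)).1 h5
    have h7 : 2 ^ k ∣ 60 := by
      rw [← hk, ← hG]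
      exact Subgroup.card_subgroup_dvd_card _
    have h8 : k < 3 := by
      by_contra hk3
      have h9 : (2 : ℕ) ^ 3 ∣ 2 ^ k := pow_dvd_pow 2 (by omega)
      have := h9.trans h7
      norm_num at this
    have : k = 2 := by omega
    rw [hk, this]
    norm_num
  have hexp : ∀ g : (P : Subgroup G), g ^ 2 = 1 := by
    intro g
    have h1 : g ^ 4 = 1 := by
      rw [← hcardP]
      exact pow_card_eq_one'
    apply Subtype.ext
    apply Subtype.ext
    have h2 : (g.1.1) ^ 4 = 1 := by
      have := congrArg (fun a : (P : Subgroup G) => a.1.1) h1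
      simpa using this
    have := no_four g.1.1 (mem_alternatingGroup.1 g.1.2) h2
    simpa using this
  have hklein : IsKleinFour (P : Subgroup G) := by
    haveI : Nontrivial (P : Subgroup G) := by
      apply Finite.one_lt_card_iff_nontrivial.1
      rw [hcardP]
      norm_num
    refine ⟨hcardP, ?_⟩
    exact (Monoid.exponent_eq_prime_iff Nat.prime_two).2 (fun g hg => orderOf_eq_prime (hexp g) hg)
  refine ⟨?_, hklein⟩
  let V : Sylow 2 G := Sylow.ofCard V₀ (by rw [card_V₀, ← P.card_eq_multiplicity, hcardP])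
  obtain ⟨g, hg⟩ := MulAction.exists_smul_eq G V P
  have hmem : ∀ x : G, x ∈ (P : Subgroup G) ↔ g⁻¹ * x * g ∈ V₀ := by
    intro x
    rw [← hg, Sylow.coe_subgroup_smul, Subgroup.pointwise_smul_def]
    constructor
    · rintro ⟨y, hy, rfl⟩
      have e : g⁻¹ * (g * y * g⁻¹) * g = y := by group
      show g⁻¹ * (g * y * g⁻¹) * g ∈ V₀
      rw [e]
      exact hy
    · intro hx
      refine ⟨g⁻¹ * x * g, hx, ?_⟩
      show g * (g⁻¹ * x * g) * g⁻¹ = x
      group
  obtain ⟨h1, h2⟩ := card_conj V₀ (P : Subgroup G) g hmem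
  rw [card_N₀] at h1
  rw [card_C₀] at h2
  have hle := Subgroup.centralizer_le_normalizer (s := ((P : Subgroup G) : Set G))
  have h3 := Subgroup.index_mul_card ((Subgroup.centralizer ((P : Subgroup G) : Set G)).subgroupOf (Subgroup.normalizer ((P : Subgroup G) : Set G)))
  have h4 : Nat.card ((Subgroup.centralizer ((P : Subgroup G) : Set G)).subgroupOf (Subgroup.normalizer ((P : Subgroup G) : Set G))) = 4 := by
    rw [← h2]
    exact Nat.card_congr (Subgroup.subgroupOfEquivOfLe hle).toEquiv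
  rw [h4, h1] at h3
  change ((Subgroup.centralizer ((P : Subgroup G) : Set G)).subgroupOf (Subgroup.normalizer ((P : Subgroup G) : Set G))).index = 3
  omega

theorem result (n : ℕ) (hn : 5 ≤ n) {p : ℕ} [Fact p.Prime]
    (P : Sylow p (alternatingGroup (Fin n))) (hP : IsMulCommutative (P : Subgroup (alternatingGroup (Fin n)))) :
    (¬ (n = 5 ∧ p = 2) → 2 ∣ ((Subgroup.centralizer ((P : Subgroup (alternatingGroup (Fin n))) : Set (alternatingGroup (Fin n)))).subgroupOf (Subgroup.normalizer ((P : Subgroup (alternatingGroup (Fin n))) : Set (alternatingGroup (Fin n))))).index ∨ IsCyclic (P : Subgroup (alternatingGroup (Fin n)))) ∧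
    ((n = 5 ∧ p = 2) → ((Subgroup.centralizer ((P : Subgroup (alternatingGroup (Fin n))) : Set (alternatingGroup (Fin n)))).subgroupOf (Subgroup.normalizer ((P : Subgroup (alternatingGroup (Fin n))) : Set (alternatingGroup (Fin n))))).index = 3 ∧ IsKleinFour (P : Subgroup (alternatingGroup (Fin n)))) := by
  classical
  have hpp : p.Prime := Fact.out
  by_cases hp : p = 2
  · subst hp
    by_cases h5 : n = 5
    · subst h5
      exact ⟨fun h => absurd ⟨rfl, rfl⟩ h, fun _ => five_case P⟩
    · exact (two_case n (by omega) P hP).elim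
  · refine ⟨fun _ => ?_, fun h => absurd h.2 hp⟩
    by_cases hc : IsCyclic (P : Subgroup (alternatingGroup (Fin n)))
    · exact Or.inr hc
    · exact Or.inl (odd_case n hn hp P hP hc)

end Cfsg.Agent.S2269
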