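import Mathlib
import Cfsg.Statements.S2270
import Cfsg.Agent.Lib.H10.PermAbelian

set_option autoImplicit false
open Cfsg

namespace Cfsg.Agent.S2270

theorem result (n : ℕ) (hn : 3 ≤ n) {p : ℕ} [Fact p.Prime] (hp : p ≠ 2) (hpn : p ≤ n)
    (P : Sylow p (Equiv.Perm (Fin n))) (hP : IsMulCommutative (P : Subgroup (Equiv.Perm (Fin n)))) :
    2 ∣ ((Subgroup.centralizer ((P : Subgroup (Equiv.Perm (Fin n))) : Set (Equiv.Perm (Fin n)))).subgroupOf (Subgroup.normalizer ((P : Subgroup (Equiv.Perm (Fin n))) : Set (Equiv.Perm (Fin n))))).index := by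
  classical
  have hcomm : ∀ a ∈ (P : Subgroup (Equiv.Perm (Fin n))), ∀ b ∈ (P : Subgroup (Equiv.Perm (Fin n))), a * b = b * a := by
    intro a ha b hb
    have := hP.is_comm.comm ⟨a, ha⟩ ⟨b, hb⟩
    simpa [Subtype.ext_iff] using this
  obtain ⟨t, ht2, hinv⟩ := H10.exists_inverting_involution (P : Subgroup (Equiv.Perm (Fin n))) hcomm
  have ht' : t⁻¹ = t := by
    rw [inv_eq_iff_mul_eq_one]; exact ht2
  have htN : t ∈ Subgroup.normalizer ((P : Subgroup (Equiv.Perm (Fin n))) : Set (Equiv.Perm (Fin n))) := by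
    rw [Subgroup.mem_set_normalizer_iff]
    intro h
    simp only [SetLike.mem_coe]
    constructor
    · intro hh
      rw [hinv h hh]; exact Subgroup.inv_mem _ hh
    · intro hh
      have h4 : t * (t * h * t⁻¹) * t⁻¹ = h := by
        rw [ht']
        calc t * (t * h * t) * t = (t * t) * h * (t * t) := by group
          _ = h := by rw [ht2]; simp
      rw [← h4, hinv _ hh]
      exact Subgroup.inv_mem _ hh
  -- nontrivial element of P
  have hpdvd : p ∣ Nat.card (Equiv.Perm (Fin n)) := by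
    rw [Nat.card_perm, Nat.card_eq_fintype_card, Fintype.card_fin]
    exact (Fact.out : p.Prime).dvd_factorial.2 hpn
  have hne : (P : Subgroup (Equiv.Perm (Fin n))) ≠ ⊥ := P.ne_bot_of_dvd_card hpdvd
  obtain ⟨a, ha1⟩ := Subgroup.ne_bot_iff_exists_ne_one.1 hne
  have ha1' : (a : Equiv.Perm (Fin n)) ≠ 1 := by simpa using ha1
  have hord : ∃ k, orderOf a = p ^ k := IsPGroup.iff_orderOf.1 P.isPGroup' a
  have hne' : (a : Equiv.Perm (Fin n))⁻¹ ≠ a := by
    intro h
    have h2 : a ^ 2 = 1 := by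
      apply Subtype.ext
      rw [pow_two, Subgroup.coe_mul, Subgroup.coe_one]
      nth_rewrite 1 [← h]
      simp
    obtain ⟨k, hk⟩ := hord
    have h3 : orderOf a ∣ 2 := orderOf_dvd_of_pow_eq_one h2
    rw [hk] at h3
    have h4 : k = 0 := by
      by_contra hk0
      have h5 : p ∣ p ^ k := dvd_pow_self p hk0
      have h6 : p ∣ 2 := h5.trans h3
      exact hp ((Nat.prime_dvd_prime_iff_eq Fact.out Nat.prime_two).1 h6)
    rw [h4, pow_zero, orderOf_eq_one_iff] at hk
    exact ha1 hk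
  apply H10.two_dvd_index_of_involution _ t htN
  · intro hc
    rw [Subgroup.mem_centralizer_iff] at hc
    have h5 := hc a a.2
    have h6 := hinv a a.2
    apply hne'
    rw [← h6]
    have : t * (a : Equiv.Perm (Fin n)) * t⁻¹ = a * t * t⁻¹ := by rw [← h5]
    rw [this]; simp
  · rw [ht2]; exact Subgroup.one_mem _

end Cfsg.Agent.S2270
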