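import Mathlib
import Cfsg.Statements.S2336
import Cfsg.Agent.Lib.H10.PermVec
import Cfsg.Agent.Lib.H10.PS
import Cfsg.Agent.Lib.H10.CharGen
import Cfsg.Agent.Lib.H21.CharBasis
import Cfsg.Agent.Lib.H21.CharInd

set_option autoImplicit false

open Cfsg

namespace Cfsg.Agent.S2336

open Cfsg.Agent.H10 Cfsg.Agent.H21 Matrix
open scoped ComplexConjugate

variable {F : Type*} [Field F] [Fintype F] [DecidableEq F] {n : ℕ}

local notation "G" => Matrix.SpecialLinearGroup (Fin n) F

/-- The base vector. -/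
def v₀ (hn : 3 ≤ n) : Fin n → F := Pi.single ⟨0, by omega⟩ 1

lemma v₀_ne (hn : 3 ≤ n) : v₀ (F := F) hn ≠ 0 := by
  intro h
  have := congrFun h ⟨0, by omega⟩
  simp [v₀] at this

/-- The stabilizer of the line of `v₀`. -/
def lineH (hn : 3 ≤ n) : Subgroup G where
  carrier := {g | ∃ c : F, g.1 *ᵥ v₀ hn = c • v₀ hn}
  mul_mem' := by
    rintro a b ⟨c, hc⟩ ⟨d, hd⟩
    refine ⟨d * c, ?_⟩
    rw [mulVec_mul, hd, mulVec_smul', hc, smul_smul]
  one_mem' := ⟨1, by simp⟩
  inv_mem' := by
    rintro a ⟨c, hc⟩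
    have hc0 : c ≠ 0 := by
      rintro rfl
      rw [zero_smul] at hc
      exact mulVec_ne_zero a (v₀_ne hn) hc
    refine ⟨c⁻¹, ?_⟩
    have h1 := mulVec_inv_mulVec a (v₀ hn)
    rw [hc, mulVec_smul'] at h1
    calc (a⁻¹).1 *ᵥ v₀ hn = c⁻¹ • (c • (a⁻¹).1 *ᵥ v₀ hn) := by rw [smul_smul, inv_mul_cancel₀ hc0, one_smul]
      _ = c⁻¹ • v₀ hn := by rw [h1]

/-- The eigenvalue on the line. -/
def lineC (hn : 3 ≤ n) (h : lineH (F := F) hn) : F := (h.1.1 *ᵥ v₀ hn) ⟨0, by omega⟩

lemma lineC_spec (hn : 3 ≤ n) (h : lineH (F := F) hn) : h.1.1 *ᵥ v₀ hn = lineC hn h • v₀ hn := by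
  obtain ⟨c, hc⟩ := h.2
  have : lineC hn h = c := by
    unfold lineC
    rw [hc]
    simp [v₀]
  rw [this, hc]

lemma lineC_mul (hn : 3 ≤ n) (a b : lineH (F := F) hn) : lineC hn (a * b) = lineC hn a * lineC hn b := by
  have h1 : (a * b).1.1 *ᵥ v₀ hn = (lineC hn a * lineC hn b) • v₀ hn := by
    change (a.1 * b.1).1 *ᵥ v₀ hn = _
    rw [mulVec_mul, lineC_spec hn b, mulVec_smul', lineC_spec hn a, smul_smul, mul_comm]
  have h2 := (lineC_spec hn (a * b)).symm.trans h1
  have h3 := congrFun h2 ⟨0, by omega⟩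
  simpa [v₀] using h3

lemma lineC_one (hn : 3 ≤ n) : lineC hn (1 : lineH (F := F) hn) = 1 := by
  simp [lineC, v₀]

/-- The character of the line stabilizer. -/
noncomputable def lineθ (hn : 3 ≤ n) (α : MulChar F ℂ) : lineH (F := F) hn → ℂ := fun h => α (lineC hn h)

lemma lineθ_isCharacter (hn : 3 ≤ n) (α : MulChar F ℂ) : IsCharacter (lineH (F := F) hn) (lineθ hn α) :=
  isCharacter_of_mul _ (fun a b => by simp [lineθ, lineC_mul]) (by simp [lineθ, lineC_one])

/-- The induced function. -/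
noncomputable def piL (hn : 3 ≤ n) (α : MulChar F ℂ) : G → ℂ := indFun (lineH hn) (lineθ hn α)

lemma piL_isCharacter (hn : 3 ≤ n) (α : MulChar F ℂ) : IsCharacter G (piL hn α) := by
  classical
  have : Fintype (lineH (F := F) hn) := Fintype.ofFinite _
  exact isCharacter_indFun _ (lineθ_isCharacter hn α)

lemma extend_line (hn : 3 ≤ n) (α : MulChar F ℂ) (g x : G) :
    extendByZero (lineH hn) (lineθ hn α) (x⁻¹ * g * x) =
      ∑ c : Fˣ, if g.1 *ᵥ (x.1 *ᵥ v₀ hn) = (c : F) • (x.1 *ᵥ v₀ hn) then α (c : F) else 0 := by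
  classical
  set y := x⁻¹ * g * x with hy
  have hgx : ∀ w, g.1 *ᵥ (x.1 *ᵥ w) = x.1 *ᵥ (y.1 *ᵥ w) := by
    intro w
    have : g * x = x * y := by
      rw [hy]
      group
    rw [← mulVec_mul, ← mulVec_mul, this]
  by_cases hyH : y ∈ lineH (F := F) hn
  · have h1 := extendByZero_coe (lineH hn) (lineθ hn α) ⟨y, hyH⟩
    rw [show ((⟨y, hyH⟩ : lineH (F := F) hn) : G) = y from rfl] at h1
    rw [h1]
    have hspec := lineC_spec hn ⟨y, hyH⟩
    set c₀ := lineC hn ⟨y, hyH⟩ with hc₀
    have hc0 : c₀ ≠ 0 := by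
      intro h0
      rw [h0, zero_smul] at hspec
      exact mulVec_ne_zero y (v₀_ne hn) hspec
    have hv : x.1 *ᵥ v₀ hn ≠ 0 := mulVec_ne_zero x (v₀_ne hn)
    have hgv : g.1 *ᵥ (x.1 *ᵥ v₀ hn) = c₀ • (x.1 *ᵥ v₀ hn) := by
      rw [hgx, hspec, mulVec_smul']
    rw [Finset.sum_eq_single (Units.mk0 c₀ hc0)]
    · simp [hgv, lineθ, hc₀]
    · intro c _ hc
      rw [if_neg]
      intro h
      rw [hgv] at h
      apply hc
      apply Units.ext
      have h2 : (c₀ - (c : F)) • (x.1 *ᵥ v₀ hn) = 0 := by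
        rw [sub_smul, h, sub_self]
      rcases smul_eq_zero.1 h2 with h3 | h3
      · exact (sub_eq_zero.1 h3).symm
      · exact absurd h3 hv
    · intro h
      exact absurd (Finset.mem_univ _) h
  · rw [extendByZero_of_not_mem _ _ hyH]
    symm
    refine Finset.sum_eq_zero (fun c _ => ?_)
    rw [if_neg]
    intro h
    apply hyH
    refine ⟨c, ?_⟩
    rw [hgx] at h
    have h2 := congrArg (fun z => (x⁻¹).1 *ᵥ z) h
    simpa only [mulVec_inv_mulVec, mulVec_smul'] using h2

lemma card_lineH (hn : 3 ≤ n) : Nat.card (lineH (F := F) hn) =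
    (Fintype.card F - 1) * cntV (v₀ (F := F) hn) (v₀ hn) := by
  classical
  have hv := v₀_ne (F := F) hn
  rw [Nat.card_eq_fintype_card, Fintype.card_subtype]
  rw [Finset.card_eq_sum_card_fiberwise (f := fun g : G => g.1 *ᵥ v₀ hn)
    (t := (Finset.univ : Finset Fˣ).image (fun c : Fˣ => (c : F) • v₀ hn))]
  · rw [Finset.sum_image]
    · have h1 : ∀ c : Fˣ, ((Finset.univ.filter (fun g : G => g ∈ lineH (F := F) hn)).filter
          (fun g : G => g.1 *ᵥ v₀ hn = (c : F) • v₀ hn)).card = cntV (v₀ (F := F) hn) (v₀ hn) := by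
        intro c
        rw [cntV_eq hn hv hv hv (smul_ne_zero c.ne_zero hv)]
        unfold cntV
        congr 1
        ext g
        simp only [Finset.mem_filter, Finset.mem_univ, true_and]
        constructor
        · exact fun h => h.2
        · exact fun h => ⟨⟨c, h⟩, h⟩
      simp only [h1, Finset.sum_const, Finset.card_univ, Fintype.card_units, smul_eq_mul]
    · intro a _ b _ hab
      apply Units.ext
      have h5 : ((a : F) - (b : F)) • v₀ (F := F) hn = 0 := by
        rw [sub_smul]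
        exact sub_eq_zero.2 hab
      rcases smul_eq_zero.1 h5 with h6 | h6
      · exact sub_eq_zero.1 h6
      · exact absurd h6 hv
  · intro g hg
    have hg' : g ∈ lineH (F := F) hn := by simpa using hg
    have hspec := lineC_spec hn ⟨g, hg'⟩
    have hc0 : lineC hn ⟨g, hg'⟩ ≠ 0 := by
      intro h0
      rw [h0, zero_smul] at hspec
      exact mulVec_ne_zero g hv hspec
    simp only [Finset.coe_image, Finset.coe_univ, Set.image_univ, Set.mem_range]
    exact ⟨Units.mk0 _ hc0, hspec.symm⟩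

lemma cnt_pos (hn : 3 ≤ n) : 0 < cntV (v₀ (F := F) hn) (v₀ hn) := by
  unfold cntV
  rw [Finset.card_pos]
  exact ⟨1, by simp⟩

/-- The formula for the induced characters. -/
lemma piL_apply (hn : 3 ≤ n) (α : MulChar F ℂ) (g : G) :
    piL hn α g = ((Fintype.card F - 1 : ℕ) : ℂ)⁻¹ * ∑ c : Fˣ, α (c : F) * (fcV c g : ℂ) := by
  classical
  have hv := v₀_ne (F := F) hn
  unfold piL indFun
  simp only [extend_line]
  rw [Finset.sum_comm]
  have h1 : ∀ c : Fˣ, ∑ x : G, (if g.1 *ᵥ (x.1 *ᵥ v₀ hn) = (c : F) • (x.1 *ᵥ v₀ hn) then α (c : F) else 0) =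
      α (c : F) * ((cntV (v₀ (F := F) hn) (v₀ hn) * fcV c g : ℕ) : ℂ) := by
    intro c
    have h2 : (cntV (v₀ (F := F) hn) (v₀ hn) * fcV c g : ℕ) =
        (Finset.univ.filter (fun x : G => g.1 *ᵥ (x.1 *ᵥ v₀ hn) = (c : F) • (x.1 *ᵥ v₀ hn))).card := by
      rw [Finset.card_eq_sum_card_fiberwise (f := fun x : G => x.1 *ᵥ v₀ hn)
        (t := (nzV F n).filter fun v => g.1 *ᵥ v = (c : F) • v)]
      · have h3 : ∀ v ∈ (nzV F n).filter (fun v => g.1 *ᵥ v = (c : F) • v),
            ((Finset.univ.filter (fun x : G => g.1 *ᵥ (x.1 *ᵥ v₀ hn) = (c : F) • (x.1 *ᵥ v₀ hn))).filter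
              (fun x : G => x.1 *ᵥ v₀ hn = v)).card = cntV (v₀ (F := F) hn) (v₀ hn) := by
          intro v hv'
          have hv'' := Finset.mem_filter.1 hv'
          rw [cntV_eq hn hv hv hv (mem_nzV.1 hv''.1)]
          unfold cntV
          congr 1
          ext x
          simp only [Finset.mem_filter, Finset.mem_univ, true_and]
          constructor
          · exact fun h => h.2
          · intro h
            refine ⟨?_, h⟩
            rw [h]
            exact hv''.2
        rw [Finset.sum_congr rfl h3, Finset.sum_const, smul_eq_mul, mul_comm]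
        rfl
      · intro x hx
        have hx' : g.1 *ᵥ (x.1 *ᵥ v₀ hn) = (c : F) • (x.1 *ᵥ v₀ hn) := by simpa using hx
        simp only [Finset.coe_filter, Set.mem_ofPred_eq]
        exact ⟨mem_nzV.2 (mulVec_ne_zero x hv), hx'⟩
    rw [h2, Finset.card_filter]
    push_cast
    rw [Finset.mul_sum]
    refine Finset.sum_congr rfl (fun x _ => ?_)
    split_ifs <;> simp
  simp only [h1]
  rw [card_lineH hn]
  have hN : ((cntV (v₀ (F := F) hn) (v₀ hn) : ℕ) : ℂ) ≠ 0 := by
    exact_mod_cast (cnt_pos (F := F) hn).ne'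
  have hq1 := q_sub_one_ne_zero (F := F)
  push_cast
  simp only [Finset.mul_sum]
  refine Finset.sum_congr rfl (fun c _ => ?_)
  push_cast at hq1
  field_simp

/-- Inner products of the induced characters. -/
lemma inner_piL (hn : 3 ≤ n) (α β : MulChar F ℂ) :
    classInner (piL hn α : G → ℂ) (piL hn β) =
      (if α = 1 ∧ β = 1 then 1 else 0) + (if α = β then 1 else 0) := by
  classical
  set Q : ℂ := ((Fintype.card F - 1 : ℕ) : ℂ) with hQ
  have hQ0 : Q ≠ 0 := q_sub_one_ne_zero (F := F)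
  have hG : (Nat.card G : ℂ) ≠ 0 := by simp
  have key : ∀ c d : Fˣ, ∑ g : G, (fcV c g : ℂ) * (fcV d g : ℂ) =
      (Nat.card G : ℂ) * (1 + Q * (if c = d then 1 else 0)) := by
    intro c d
    have := sum_fcV_mul (F := F) hn c d
    have h2 : ((∑ g : G, fcV c g * fcV d g : ℕ) : ℂ) =
        ((Nat.card G * (1 + (Fintype.card F - 1) * if c = d then 1 else 0) : ℕ) : ℂ) := congrArg _ this
    push_cast at h2
    rw [h2, hQ]
  have hconj : conj Q = Q := by rw [hQ, Complex.conj_natCast]
  have h1 : ∀ g : G, piL hn α g * conj (piL hn β g) =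
      Q⁻¹ * Q⁻¹ * ∑ c : Fˣ, ∑ d : Fˣ, (α (c : F) * conj (β (d : F))) * ((fcV c g : ℂ) * (fcV d g : ℂ)) := by
    intro g
    rw [piL_apply, piL_apply, map_mul, map_inv₀, hconj, map_sum]
    simp only [map_mul, Complex.conj_natCast]
    rw [mul_mul_mul_comm, Finset.sum_mul_sum]
    congr 1
    refine Finset.sum_congr rfl (fun c _ => Finset.sum_congr rfl (fun d _ => ?_))
    ring
  unfold classInner
  simp only [h1]
  rw [← Finset.mul_sum, Finset.sum_comm]
  have h2 : ∀ c : Fˣ, ∑ g : G, ∑ d : Fˣ, (α (c : F) * conj (β (d : F))) * ((fcV c g : ℂ) * (fcV d g : ℂ)) =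
      (Nat.card G : ℂ) * ∑ d : Fˣ, (α (c : F) * conj (β (d : F))) * (1 + Q * (if c = d then 1 else 0)) := by
    intro c
    rw [Finset.sum_comm, Finset.mul_sum]
    refine Finset.sum_congr rfl (fun d _ => ?_)
    rw [← Finset.mul_sum, key]
    ring
  simp only [h2]
  rw [← Finset.mul_sum]
  have h3 : ∑ c : Fˣ, ∑ d : Fˣ, (α (c : F) * conj (β (d : F))) * (1 + Q * (if c = d then 1 else 0)) =
      (∑ c : Fˣ, α (c : F)) * conj (∑ d : Fˣ, β (d : F)) + Q * ∑ c : Fˣ, α (c : F) * conj (β (c : F)) := by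
    rw [map_sum, Finset.sum_mul_sum, Finset.mul_sum, ← Finset.sum_add_distrib]
    refine Finset.sum_congr rfl (fun c _ => ?_)
    simp only [mul_add, mul_one, Finset.sum_add_distrib]
    congr 1
    rw [Finset.sum_eq_single c]
    · simp
      ring
    · intro d _ hd
      simp [Ne.symm hd]
    · intro h
      exact absurd (Finset.mem_univ _) h
  have hsum : ∀ χ : MulChar F ℂ, ∑ a : Fˣ, χ (a : F) = if χ = 1 then Q else 0 := fun χ => by
    convert mulChar_sum_units χ
  have hortho : ∑ a : Fˣ, α (a : F) * conj (β (a : F)) = if α = β then Q else 0 := by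
    convert mulChar_ortho α β
  rw [h3, hsum, hsum, hortho]
  by_cases ha : α = 1
  · by_cases hb : β = 1
    · subst ha hb
      simp only [if_true, and_self, hconj]
      field_simp
    · subst ha
      have hb' : (1 : MulChar F ℂ) ≠ β := Ne.symm hb
      simp [hb, hb']
  · by_cases hab : α = β
    · subst hab
      simp only [ha, if_false, if_true, false_and, map_zero, zero_mul, zero_add]
      field_simp
    · simp [ha, hab]

lemma inner_piL_one (hn : 3 ≤ n) (α : MulChar F ℂ) :
    classInner (piL hn α : G → ℂ) (fun _ => 1) = if α = 1 then 1 else 0 := by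
  classical
  set Q : ℂ := ((Fintype.card F - 1 : ℕ) : ℂ) with hQ
  have hQ0 : Q ≠ 0 := q_sub_one_ne_zero (F := F)
  have hG : (Nat.card G : ℂ) ≠ 0 := by simp
  have key : ∀ c : Fˣ, ∑ g : G, (fcV c g : ℂ) = (Nat.card G : ℂ) := by
    intro c
    have := sum_fcV (F := F) hn c
    have h2 : ((∑ g : G, fcV c g : ℕ) : ℂ) = ((Nat.card G : ℕ) : ℂ) := congrArg _ this
    push_cast at h2
    exact h2
  unfold classInner
  simp only [piL_apply, map_one, mul_one]
  rw [← Finset.mul_sum, Finset.sum_comm]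
  simp only [← Finset.mul_sum, key]
  have hsum : ∀ χ : MulChar F ℂ, ∑ a : Fˣ, χ (a : F) = if χ = 1 then Q else 0 := fun χ => by
    convert mulChar_sum_units χ
  rw [← Finset.sum_mul, hsum, ← hQ]
  split_ifs
  · field_simp
  · simp

lemma sum_piL (hn : 3 ≤ n) (g : G) : ∑ α : MulChar F ℂ, piL hn α g = (fcV (1 : Fˣ) g : ℂ) := by
  classical
  set Q : ℂ := ((Fintype.card F - 1 : ℕ) : ℂ) with hQ
  have hQ0 : Q ≠ 0 := q_sub_one_ne_zero (F := F)
  simp only [piL_apply]
  rw [← Finset.mul_sum, Finset.sum_comm]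
  have hsum : ∀ a : Fˣ, ∑ χ : MulChar F ℂ, χ (a : F) = if a = 1 then Q else 0 := fun a => by
    convert sum_mulChar_apply a
  simp only [← Finset.sum_mul, hsum]
  rw [Finset.sum_eq_single 1]
  · simp only [if_true, ← hQ]
    field_simp
  · intro c _ hc
    simp [hc]
  · intro h
    exact absurd (Finset.mem_univ _) h

theorem result {F : Type*} [Field F] [Fintype F] [DecidableEq F] (n : ℕ) (hn : 3 ≤ n) :
    ∃ χ : Fin (Fintype.card F - 1) → (Matrix.SpecialLinearGroup (Fin n) F → ℂ),
      (∀ i, Cfsg.IsIrrCharacter (Matrix.SpecialLinearGroup (Fin n) F) (χ i)) ∧ Function.Injective χ ∧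
      ∀ g : Matrix.SpecialLinearGroup (Fin n) F,
        (Nat.card {v : Fin n → F // v ≠ 0 ∧ (g : Matrix (Fin n) (Fin n) F).mulVec v = v} : ℂ) = 1 + ∑ i, χ i g := by
  classical
  have : Fintype (IrrCharacter (Matrix.SpecialLinearGroup (Fin n) F)) := Fintype.ofFinite _
  have hone : IsIrrCharacter (Matrix.SpecialLinearGroup (Fin n) F) (fun _ => (1 : ℂ)) := isIrrCharacter_one
  -- the characters
  let χ' : MulChar F ℂ → (Matrix.SpecialLinearGroup (Fin n) F → ℂ) := fun α =>
    if α = 1 then piL hn 1 - (fun _ => 1) else piL hn α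
  have hin1 : classInner (piL hn 1 : Matrix.SpecialLinearGroup (Fin n) F → ℂ) (fun _ => 1) = 1 := by
    rw [inner_piL_one]; simp
  have hin2 : classInner (fun _ => (1 : ℂ)) (piL hn 1 : Matrix.SpecialLinearGroup (Fin n) F → ℂ) = 1 := by
    rw [← classInner_comm_conj, hin1, map_one]
  have hin3 : classInner (fun _ => (1 : ℂ)) (fun _ => (1 : ℂ) : Matrix.SpecialLinearGroup (Fin n) F → ℂ) = 1 :=
    classInner_self_irr ⟨_, hone⟩
  have hsub : IsCharacter (Matrix.SpecialLinearGroup (Fin n) F) (piL hn 1 - (fun _ => 1)) := by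
    refine sub_irr_isCharacter (piL_isCharacter hn 1) ⟨_, hone⟩ ?_
    change classInner (piL hn 1 : Matrix.SpecialLinearGroup (Fin n) F → ℂ) (fun _ => 1) ≠ 0
    rw [hin1]
    exact one_ne_zero
  have hnorm1 : classInner (piL hn 1 - (fun _ => 1) : Matrix.SpecialLinearGroup (Fin n) F → ℂ)
      (piL hn 1 - (fun _ => 1)) = 1 := by
    rw [classInner_sub_left, classInner_sub_right, classInner_sub_right, inner_piL, hin1, hin2, hin3]
    simp
  have hirr : ∀ α, IsIrrCharacter (Matrix.SpecialLinearGroup (Fin n) F) (χ' α) := by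
    intro α
    by_cases ha : α = 1
    · simp only [χ', ha, if_true]
      exact isIrrCharacter_of_inner_self_eq_one hsub hnorm1
    · simp only [χ', ha, if_false]
      apply isIrrCharacter_of_inner_self_eq_one (piL_isCharacter hn α)
      rw [inner_piL]
      simp [ha]
  have hinj : Function.Injective χ' := by
    intro α β h
    by_contra hab
    have hnot : ∀ {α β : MulChar F ℂ}, α ≠ β → α = 1 → χ' α ≠ χ' β := by
      intro α β hab ha h
      have hb : β ≠ 1 := fun hb => hab (ha.trans hb.symm)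
      simp only [χ', ha, hb, if_true, if_false] at h
      have h1 : classInner (piL hn β : Matrix.SpecialLinearGroup (Fin n) F → ℂ) (piL hn β) = 1 := by
        rw [inner_piL]
        simp [hb]
      have h2 : classInner (piL hn 1 - (fun _ => 1) : Matrix.SpecialLinearGroup (Fin n) F → ℂ) (piL hn β) = 0 := by
        rw [classInner_sub_left, inner_piL, ← classInner_comm_conj (piL hn β), inner_piL_one]
        simp [hb, Ne.symm hb]
      rw [h, h1] at h2
      exact one_ne_zero h2
    by_cases ha : α = 1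
    · exact hnot hab ha h
    by_cases hb : β = 1
    · exact hnot (Ne.symm hab) hb h.symm
    simp only [χ', ha, hb, if_false] at h
    have h1 : classInner (piL hn α : Matrix.SpecialLinearGroup (Fin n) F → ℂ) (piL hn β) = 0 := by
      rw [inner_piL]
      simp [ha, hab]
    rw [← h, inner_piL] at h1
    simp [ha] at h1
  let e : Fin (Fintype.card F - 1) ≃ MulChar F ℂ := (Finite.equivFinOfCardEq card_mulChar).symm
  refine ⟨fun i => χ' (e i), fun i => hirr _, hinj.comp e.injective, fun g => ?_⟩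
  rw [Equiv.sum_comp e (fun α => χ' α g)]
  have h1 : ∑ α, χ' α g = (∑ α, piL hn α g) - 1 := by
    have h2 : ∀ α : MulChar F ℂ, χ' α g = piL hn α g - (if α = 1 then 1 else 0) := by
      intro α
      by_cases ha : α = 1
      · simp [χ', ha]
      · simp [χ', ha]
    simp only [h2, Finset.sum_sub_distrib]
    simp
  rw [h1, sum_piL]
  have h3 : Nat.card {v : Fin n → F // v ≠ 0 ∧ (g : Matrix (Fin n) (Fin n) F).mulVec v = v} = fcV (1 : Fˣ) g := by
    rw [Nat.card_eq_fintype_card, Fintype.card_subtype]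
    unfold fcV
    congr 1
    ext v
    simp [nzV]
  rw [h3]
  ring

end Cfsg.Agent.S2336
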