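import Mathlib
import Cfsg.Statements.S2337
import Cfsg.Agent.Lib.H10.SzRep

set_option autoImplicit false

open Cfsg

namespace Cfsg.Agent.S2337

theorem result {F : Type*} [Field F] [Fintype F] (m : ℕ) (hm : 1 ≤ m) (hF : Fintype.card F = 2 ^ (2 * m + 1)) :
    (∀ (k : ℕ) (ρ : Representation ℂ (Cfsg.Lie.Sz F (2 ^ (m + 1))) (Fin k → ℂ)), ρ.IsIrreducible → 2 ≤ k → 2 ^ m * (2 ^ (2 * m + 1) - 1) ≤ k) := by
  intro k ρ hirr hk
  haveI := H10.sz_charP hF
  let e := H10.szEquiv hm hF
  let ρ' : Representation ℂ ↥(Cfsg.Sz F m) (Fin k → ℂ) := ρ.comp e.toMonoidHom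
  have hnt : ∃ g, ρ' g ≠ 1 := by
    by_contra hcon
    push Not at hcon
    have hall : ∀ g, ρ g = 1 := by
      intro g
      have := hcon (e.symm g)
      simpa [ρ'] using this
    haveI : NeZero k := ⟨by omega⟩
    let v₀ : Fin k → ℂ := Pi.single 0 1
    let W : Subrepresentation ρ := ⟨Submodule.span ℂ {v₀}, by
      intro g v hv
      rw [hall g]
      exact hv⟩
    have hne : v₀ ≠ 0 := by
      intro h
      have := congrFun h 0
      simp [v₀] at this
    rcases hirr.eq_bot_or_eq_top W with h | h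
    · have h1 : W.toSubmodule = ⊥ := by rw [h]; rfl
      have h2 : v₀ ∈ W.toSubmodule := Submodule.mem_span_singleton_self _
      rw [h1, Submodule.mem_bot] at h2
      exact hne h2
    · have h1 : W.toSubmodule = ⊤ := by rw [h]; rfl
      have h2 : Module.finrank ℂ W.toSubmodule = 1 := finrank_span_singleton hne
      rw [h1, finrank_top, Module.finrank_fin_fun] at h2
      omega
  have := H10.degree_bound hm hF ρ' hnt
  rwa [Module.finrank_fin_fun] at this

end Cfsg.Agent.S2337
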