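import Mathlib
import Cfsg.Statements.S2343
import Cfsg.Agent.Lib.H10.ReeRep

set_option autoImplicit false

open Cfsg

namespace Cfsg.Agent.S2343

theorem result {K : Type*} [Field K] [Fintype K] (m : ℕ) (hm : 1 ≤ m) (hK : Fintype.card K = 3 ^ (2 * m + 1)) :
    (∀ (k : ℕ) (ρ : Representation ℂ (Cfsg.Lie.twistedG2 K (3 ^ m)) (Fin k → ℂ)), ρ.IsIrreducible → 2 ≤ k → (3 ^ (2 * m + 1)) ^ 2 - 3 ^ (2 * m + 1) + 1 ≤ k) := by
  intro k ρ hirr hk2
  have := H10.ree_charP hK
  have hnt : ∃ g, ρ g ≠ 1 := by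
    by_contra hcon
    push Not at hcon
    haveI : NeZero k := ⟨by omega⟩
    let v₀ : Fin k → ℂ := Pi.single 0 1
    let W : Subrepresentation ρ := ⟨Submodule.span ℂ {v₀}, by
      intro g v hv
      rw [hcon g]
      exact hv⟩
    have hne : v₀ ≠ 0 := by
      intro h
      have := congrFun h 0
      simp [v₀] at this
    rcases hirr.eq_bot_or_eq_top W with h | h
    · have h1 : W.toSubmodule = ⊥ := by rw [h]; rfl
      have h2 : v₀ ∈ W.toSubmodule := Submodule.mem_span_singleton_self _
      rw [h1, Submodule.mem_bot] at h2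
      exact hne h2
    · have h1 : W.toSubmodule = ⊤ := by rw [h]; rfl
      have h2 : Module.finrank ℂ W.toSubmodule = 1 := finrank_span_singleton hne
      rw [h1, finrank_top, Module.finrank_fin_fun] at h2
      omega
  have := H10.ree_degree_bound hK hm ρ hnt
  rwa [Module.finrank_fin_fun] at this

end Cfsg.Agent.S2343
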