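import Mathlib
import Cfsg.Statements.S2352

set_option autoImplicit false

open Cfsg

namespace Cfsg.Agent.S2352

/-- A partial injection on a finite type extends to an even permutation if two points are free. -/
private lemma exists_even_extension {α D : Type*} [Fintype α] [DecidableEq α] (φ ψ : D → α)
    (hφ : Function.Injective φ) (hψ : Function.Injective ψ)
    (u v : α) (huv : u ≠ v) (hu : ∀ x, φ x ≠ u) (hv : ∀ x, φ x ≠ v) :
    ∃ σ : Equiv.Perm α, σ ∈ alternatingGroup α ∧ ∀ x, σ (φ x) = ψ x := by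
  classical
  let e' : {z // z ∈ Set.range φ} ≃ {z // z ∈ Set.range ψ} :=
    (Equiv.ofInjective φ hφ).symm.trans (Equiv.ofInjective ψ hψ)
  let π : Equiv.Perm α := e'.extendSubtype
  have hπ : ∀ x, π (φ x) = ψ x := by
    intro x
    have h1 : φ x ∈ Set.range φ := ⟨x, rfl⟩
    have h2 := e'.extendSubtype_apply_of_mem (φ x) h1
    rw [show π (φ x) = _ from h2]
    simp only [e', Equiv.trans_apply]
    have h3 : (Equiv.ofInjective φ hφ).symm ⟨φ x, h1⟩ = x :=
      Equiv.ofInjective_symm_apply hφ x
    rw [h3]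
    rfl
  by_cases hsign : Equiv.Perm.sign π = 1
  · exact ⟨π, Equiv.Perm.mem_alternatingGroup.mpr hsign, hπ⟩
  · refine ⟨π * Equiv.swap u v, ?_, ?_⟩
    · rw [Equiv.Perm.mem_alternatingGroup, map_mul, Equiv.Perm.sign_swap huv]
      rcases Int.units_eq_one_or (Equiv.Perm.sign π) with h | h
      · exact absurd h hsign
      · rw [h]
        decide
    · intro x
      rw [Equiv.Perm.mul_apply, Equiv.swap_apply_of_ne_of_ne (hu x) (hv x), hπ]

theorem result (w : FreeGroup ℕ) (hw : w ≠ 1) :
    ∃ N : ℕ, ∀ n : ℕ, N ≤ n → ∃ f : ℕ → alternatingGroup (Fin n), FreeGroup.lift f w ≠ 1 := by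
  classical
  -- the finite set of suffixes
  let L := w.toWord
  have hmk : FreeGroup.mk L = w := FreeGroup.mk_toWord
  let S : Finset (FreeGroup ℕ) := (L.tails.map FreeGroup.mk).toFinset
  have hmem : ∀ l, l <:+ L → FreeGroup.mk l ∈ S := by
    intro l hl
    simp only [S, List.mem_toFinset, List.mem_map]
    exact ⟨l, (List.mem_tails _ _).mpr hl, rfl⟩
  refine ⟨S.card + 2, ?_⟩
  intro n hn
  -- embedding of S in Fin n
  let e₀ : S ≃ Fin S.card := S.equivFin
  let e : S → Fin n := fun x => Fin.castLE (by omega) (e₀ x)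
  have he : Function.Injective e := fun x y h => e₀.injective (Fin.castLE_injective _ h)
  let u : Fin n := ⟨S.card, by omega⟩
  let v : Fin n := ⟨S.card + 1, by omega⟩
  have huv : u ≠ v := by
    intro h
    have := congrArg Fin.val h
    simp [u, v] at this
  have hue : ∀ x, e x ≠ u := by
    intro x h
    have := congrArg Fin.val h
    simp only [e, u, Fin.val_castLE] at this
    exact absurd this (e₀ x).2.ne
  have hve : ∀ x, e x ≠ v := by
    intro x h
    have := congrArg Fin.val h
    simp only [e, v, Fin.val_castLE] at this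
    have h2 := (e₀ x).2
    omega
  -- for each generator a partial injection
  have hgen : ∀ a : ℕ, ∃ σ : Equiv.Perm (Fin n), σ ∈ alternatingGroup (Fin n) ∧
      ∀ (x y : S), FreeGroup.of a * x.1 = y.1 → σ (e x) = e y := by
    intro a
    let D := {x : S // FreeGroup.of a * x.1 ∈ S}
    let g : D → S := fun x => ⟨FreeGroup.of a * x.1.1, x.2⟩
    have hg : Function.Injective g := by
      intro x y h
      have h1 : FreeGroup.of a * x.1.1 = FreeGroup.of a * y.1.1 := congrArg Subtype.val h
      exact Subtype.ext (Subtype.ext (mul_left_cancel h1))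
    obtain ⟨σ, hσ, h⟩ := exists_even_extension (fun x : D => e x.1) (fun x : D => e (g x))
      (fun x y h => Subtype.ext (he h)) (fun x y h => hg (he h)) u v huv (fun x => hue _) (fun x => hve _)
    refine ⟨σ, hσ, ?_⟩
    intro x y hxy
    have h1 : FreeGroup.of a * x.1 ∈ S := by
      rw [hxy]
      exact y.2
    have h2 := h ⟨x, h1⟩
    have h3 : g ⟨x, h1⟩ = y := Subtype.ext hxy
    rw [h3] at h2
    exact h2
  choose σ hσ hσ2 using hgen
  let f : ℕ → alternatingGroup (Fin n) := fun a => ⟨σ a, hσ a⟩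
  have hone : (1 : FreeGroup ℕ) ∈ S := hmem [] (List.nil_suffix)
  have key : ∀ l, ∀ hl : l <:+ L, ((FreeGroup.lift f (FreeGroup.mk l) : alternatingGroup (Fin n)) : Equiv.Perm (Fin n)) (e ⟨1, hone⟩) =
      e ⟨FreeGroup.mk l, hmem l hl⟩ := by
    intro l
    induction l with
    | nil =>
      intro hl
      have h1 : (FreeGroup.mk [] : FreeGroup ℕ) = 1 := rfl
      simp only [h1, map_one]
      rfl
    | cons x l ih =>
      intro hl
      have hl' : l <:+ L := (List.suffix_cons x l).trans hl
      have h1 : (FreeGroup.mk (x :: l) : FreeGroup ℕ) = FreeGroup.mk [x] * FreeGroup.mk l := by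
        rw [FreeGroup.mul_mk]
        rfl
      have h2 := ih hl'
      have e1 : ((FreeGroup.lift f (FreeGroup.mk (x :: l)) : alternatingGroup (Fin n)) : Equiv.Perm (Fin n)) (e ⟨1, hone⟩) =
          ((FreeGroup.lift f (FreeGroup.mk [x]) : alternatingGroup (Fin n)) : Equiv.Perm (Fin n))
            (e ⟨FreeGroup.mk l, hmem l hl'⟩) := by
        rw [h1, map_mul, ← h2]
        rfl
      rw [e1]
      obtain ⟨a, b⟩ := x
      cases b with
      | true =>
        have h3 : (FreeGroup.mk [(a, true)] : FreeGroup ℕ) = FreeGroup.of a := rfl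
        rw [h3, FreeGroup.lift_apply_of]
        apply hσ2 a
        change FreeGroup.of a * FreeGroup.mk l = FreeGroup.mk ((a, true) :: l)
        rw [h1]
        rfl
      | false =>
        have h3 : (FreeGroup.mk [(a, false)] : FreeGroup ℕ) = (FreeGroup.of a)⁻¹ := rfl
        rw [h3, map_inv, FreeGroup.lift_apply_of]
        have h4 := hσ2 a ⟨FreeGroup.mk ((a, false) :: l), hmem _ hl⟩ ⟨FreeGroup.mk l, hmem l hl'⟩ (by
          change FreeGroup.of a * FreeGroup.mk ((a, false) :: l) = FreeGroup.mk l
          rw [h1, h3, mul_inv_cancel_left])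
        change (σ a)⁻¹ _ = _
        rw [← h4]
        simp
  refine ⟨f, ?_⟩
  intro h
  have h1 := key L List.suffix_rfl
  have h3 : FreeGroup.lift f (FreeGroup.mk L) = 1 := by
    rw [hmk]
    exact h
  rw [h3] at h1
  have h2 : (⟨1, hone⟩ : S) = ⟨FreeGroup.mk L, hmem L List.suffix_rfl⟩ := he h1
  apply hw
  rw [← hmk]
  exact (congrArg Subtype.val h2).symm

end Cfsg.Agent.S2352
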