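import Mathlib
import Cfsg.Statements.S2353
import Cfsg.Agent.Lib.H10.LawSL2

set_option autoImplicit false

open Cfsg

namespace Cfsg.Agent.S2353

theorem result (w : FreeGroup ℕ) (hw : w ≠ 1) :
    ∃ N : ℕ, ∀ (F : Type*) [Field F] [Fintype F], N ≤ Fintype.card F →
      ∃ f : ℕ → Matrix.ProjectiveSpecialLinearGroup (Fin 2) F, FreeGroup.lift f w ≠ 1 := by
  refine ⟨Cfsg.Agent.H10.lawBound w, ?_⟩
  intro F _ _ hF
  obtain ⟨f, hf⟩ := Cfsg.Agent.H10.exists_word_noncentral w hw F hF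
  refine ⟨fun n => (QuotientGroup.mk' _) (f n), ?_⟩
  intro h
  rw [← Cfsg.Agent.H10.lift_map] at h
  have h1 : FreeGroup.lift f w ∈ Subgroup.center (Matrix.SpecialLinearGroup (Fin 2) F) := by
    rw [← QuotientGroup.eq_one_iff]
    exact h
  exact hf (Cfsg.Agent.H10.lower_left_of_central _ h1)

end Cfsg.Agent.S2353
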