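import Mathlib
import Cfsg.Statements.S2354
import Cfsg.Agent.Lib.H10.SzLaw

set_option autoImplicit false

open Cfsg

namespace Cfsg.Agent.S2354

theorem result (w : FreeGroup ℕ) (hw : w ≠ 1) :
    ∃ N : ℕ, ∀ (F : Type*) [Field F] [Fintype F] (m : ℕ), 1 ≤ m → N ≤ m →
      Fintype.card F = 2 ^ (2 * m + 1) →
      ∃ f : ℕ → ↥(Cfsg.Lie.Sz F (2 ^ (m + 1))), FreeGroup.lift f w ≠ 1 := by
  obtain ⟨N, hN⟩ := Cfsg.Agent.H10.exists_word_sz w hw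
  exact ⟨N, fun F _ _ m _ hm hF => hN F m hm hF⟩

end Cfsg.Agent.S2354
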