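import Mathlib
import Cfsg.Statements.S2355
import Cfsg.Agent.Lib.H10.LawSU
import Cfsg.Agent.S2352

set_option autoImplicit false

open Cfsg

namespace Cfsg.Agent.S2355

open Cfsg.Agent.H10 in
private lemma omega_case {w : FreeGroup ℕ} (hw : w ≠ 1) {Nalt : ℕ}
    (hNalt : ∀ n, Nalt ≤ n → ∃ f : ℕ → alternatingGroup (Fin n), FreeGroup.lift f w ≠ 1)
    {G : Type*} [Group G] (hlaw : IsLaw w G) {F : Type} [Field F] [Fintype F] {m : ℕ}
    {ι κ : Type} [Fintype ι] [DecidableEq ι] [Fintype κ] [DecidableEq κ]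
    (e : κ ⊕ (Fin m ⊕ Fin m) ≃ ι) (hm : 3 ≤ m) (Q : (ι → F) → F) (S : (κ → F) → F)
    (hQ : ∀ v, Q v = (∑ i, v (e (.inr (.inl i))) * v (e (.inr (.inr i)))) + S (fun k => v (e (.inl k))))
    (eG : G ≃* POmega F Q) (hι : m < Nalt + 4 → Fintype.card ι ≤ 2 * (Nalt + 4) + 2) :
    Nat.card G ≤ (lawBound w ^ 2 + lawBound w + 1) ^ ((2 * (Nalt + 4) + 2) ^ 2) := by
  obtain ⟨Ψ, hΨ⟩ := exists_omega_embed e hm Q S hQ
  have h1 := bounds_of_SL hw Nalt hNalt (by omega) Ψ hΨ (hlaw.equiv eG)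
  refine card_quot_le_of_matrix eG (fun x : Omega F Q => x.1.1.1) ?_ ?_ (hι h1.2) (by omega)
  · intro x y h
    exact Subtype.ext (Subtype.ext (Units.ext h))
  · have := h1.1
    nlinarith [sq_nonneg (lawBound w)]

theorem result (w : FreeGroup ℕ) (hw : w ≠ 1) :
    ∃ N : ℕ, ∀ (G : Type*) [Group G] [Finite G],
      (Cfsg.IsAlternating G ∨ Cfsg.IsPSL G ∨ Cfsg.IsPSp G ∨ Cfsg.IsPSU G ∨ Cfsg.IsPOmegaOdd G ∨
          Cfsg.IsPOmegaPlus G ∨ Cfsg.IsPOmegaMinus G) →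
      (∀ f : ℕ → G, FreeGroup.lift f w = 1) → Nat.card G ≤ N := by
  classical
  obtain ⟨Nalt, hNalt⟩ := Cfsg.Agent.S2352.result w hw
  refine ⟨Nalt.factorial + (Cfsg.Agent.H10.lawBound w ^ 2 + Cfsg.Agent.H10.lawBound w + 1) ^ ((2 * (Nalt + 4) + 2) ^ 2), ?_⟩
  intro G _ _ hG hlaw
  have hlaw' : Cfsg.Agent.H10.IsLaw w G := hlaw
  have hQ1 : 1 ≤ Cfsg.Agent.H10.lawBound w ^ 2 + Cfsg.Agent.H10.lawBound w + 1 := by omega
  suffices h : Nat.card G ≤ Nalt.factorial ∨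
      Nat.card G ≤ (Cfsg.Agent.H10.lawBound w ^ 2 + Cfsg.Agent.H10.lawBound w + 1) ^ ((2 * (Nalt + 4) + 2) ^ 2) by
    rcases h with h | h <;> omega
  rcases hG with ⟨n, hn, ⟨e⟩⟩ | ⟨F, _, _, n, hn, _, ⟨e⟩⟩ | ⟨F, _, _, m, hm, _, ⟨e⟩⟩ |
    ⟨F, _, _, n, q, hq, hn, _, ⟨e⟩⟩ | ⟨F, _, _, m, hm, _, ⟨e⟩⟩ | ⟨F, _, _, m, hm, ⟨e⟩⟩ |
    ⟨F, _, _, m, a, b, hm, _, ⟨e⟩⟩
  · left
    have hn' : n < Nalt := by
      by_contra hcon
      obtain ⟨f, hf⟩ := hNalt n (by omega)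
      exact hf ((hlaw'.equiv e) f)
    rw [Nat.card_congr e.toEquiv]
    calc Nat.card (alternatingGroup (Fin n)) ≤ Nat.card (Equiv.Perm (Fin n)) :=
          Nat.card_le_card_of_injective _ Subtype.val_injective
      _ = n.factorial := by rw [Nat.card_eq_fintype_card, Fintype.card_perm, Fintype.card_fin]
      _ ≤ Nalt.factorial := Nat.factorial_le hn'.le
  · right
    have h1 := Cfsg.Agent.H10.bounds_of_SL hw Nalt hNalt hn (MonoidHom.id _) Function.injective_id (hlaw'.equiv e)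
    refine Cfsg.Agent.H10.card_quot_le_of_matrix e (fun x => x.1) Subtype.val_injective ?_ ?_ hQ1
    · have := h1.1
      nlinarith [sq_nonneg (Cfsg.Agent.H10.lawBound w)]
    · rw [Fintype.card_fin]; omega
  · right
    have h1 := Cfsg.Agent.H10.bounds_of_SL hw Nalt hNalt hm (Cfsg.Agent.H10.spHom m) (Cfsg.Agent.H10.spHom_inj m) (hlaw'.equiv e)
    refine Cfsg.Agent.H10.card_quot_le_of_matrix e (fun x => x.1) Subtype.val_injective ?_ ?_ hQ1
    · have := h1.1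
      nlinarith [sq_nonneg (Cfsg.Agent.H10.lawBound w)]
    · simp only [Fintype.card_sum, Fintype.card_fin]; omega
  · right
    have h1 := Cfsg.Agent.H10.bounds_of_PSU (q := q) (F := F) hw Nalt hNalt hq (by omega) (hlaw'.equiv e)
    refine Cfsg.Agent.H10.card_quot_le_of_matrix e (fun x => x.1.1) ?_ ?_ ?_ hQ1
    · intro x y h
      exact Subtype.ext (Subtype.ext h)
    · rw [hq]
      have := h1.1
      have h2 : q ^ 2 ≤ Cfsg.Agent.H10.lawBound w ^ 2 := Nat.pow_le_pow_left this 2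
      omega
    · rw [Fintype.card_fin]; omega
  · right
    exact omega_case hw hNalt hlaw' (Equiv.refl _) hm (quadFormOdd m F) (fun x => x () ^ 2)
      (fun v => by simp [quadFormOdd, add_comm]) e (by
        simp only [Fintype.card_sum, Fintype.card_fin, Fintype.card_unit]
        omega)
  · right
    exact omega_case hw hNalt hlaw' (Equiv.emptySum PEmpty _) (by omega) (quadFormPlus m F) (fun _ => 0)
      (fun v => by simp [quadFormPlus]) e (by
        simp only [Fintype.card_sum, Fintype.card_fin]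
        omega)
  · right
    have hm3 : 3 ≤ m - 1 := by omega
    exact omega_case hw hNalt hlaw' (Equiv.sumComm (Fin 2) (Fin (m - 1) ⊕ Fin (m - 1))) hm3
      (quadFormMinus (m - 1) F a b) (fun x : Fin 2 → F => x 0 ^ 2 + a * x 0 * x 1 + b * x 1 ^ 2)
      (fun v => by simp [quadFormMinus]) e (by
        simp only [Fintype.card_sum, Fintype.card_fin]
        omega)

end Cfsg.Agent.S2355
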