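import Mathlib
import Cfsg.Statements.S2358
import Cfsg.Agent.Lib.H10.ReeF2

set_option autoImplicit false

open Cfsg

namespace Cfsg.Agent.S2358

theorem result {K : Type*} [Field K] [Fintype K] {m : ℕ} (hm : 1 ≤ m)
    (hK : Fintype.card K = 3 ^ (2 * m + 1)) (d : ℕ)
    (hd : d ∣ (3 ^ (2 * m + 1) - 1) / 2 ∨ d ∣ (3 ^ (2 * m + 1) + 1) / 4 ∨ d ∣ 3 ^ (2 * m + 1) - 3 ^ (m + 1) + 1 ∨ d ∣ 3 ^ (2 * m + 1) + 3 ^ (m + 1) + 1)
    (A B : Subgroup ↥(Cfsg.Lie.twistedG2 K (3 ^ m))) (hA : IsCyclic A) (hB : IsCyclic B)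
    (hAd : Nat.card A = d) (hBd : Nat.card B = d) :
    ∃ g : ↥(Cfsg.Lie.twistedG2 K (3 ^ m)), B = A.map (MulAut.conj g).toMonoidHom := by
  have := H10.ree_charP hK
  haveI := H10.t_finite hK
  have hcard : Nat.card A = Nat.card B := by rw [hAd, hBd]
  by_cases h1 : Nat.card A = 1
  · refine ⟨1, ?_⟩
    have hA0 : A = ⊥ := Subgroup.eq_bot_of_card_eq A h1
    have hB0 : B = ⊥ := Subgroup.eq_bot_of_card_eq B (hcard ▸ h1)
    rw [hA0, hB0]
    simp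
  · rcases hd with h | h | h | h
    · exact H10.conj_cyclic_of_dvd_h hK hA hB hcard (by rw [hAd]; exact h) h1
    · exact H10.conj_cyclic_of_dvd_n hK hA hB hcard (by rw [hAd]; exact h) h1
    · refine H10.conj_cyclic_of_dvd_D hK hA hB hcard ?_ h1
      rw [hAd, H10.reeDD_factor]
      exact Dvd.dvd.mul_right h _
    · refine H10.conj_cyclic_of_dvd_D hK hA hB hcard ?_ h1
      rw [hAd, H10.reeDD_factor]
      exact Dvd.dvd.mul_left h _

end Cfsg.Agent.S2358
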