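import Mathlib
import Cfsg.Statements.S2359
import Cfsg.Agent.Lib.H10.ReeF1

set_option autoImplicit false

open Cfsg

namespace Cfsg.Agent.S2359

theorem result {K : Type*} [Field K] [Fintype K] {m : ℕ} (hm : 1 ≤ m)
    (hK : Fintype.card K = 3 ^ (2 * m + 1)) (H : Subgroup ↥(Cfsg.Lie.twistedG2 K (3 ^ m))) (hH : IsCyclic H) :
    (Nat.card H = (3 ^ (2 * m + 1) - 1) / 2 →
      IsCyclic ↥(Subgroup.centralizer (H : Set ↥(Cfsg.Lie.twistedG2 K (3 ^ m)))) ∧
        Nat.card ↥(Subgroup.centralizer (H : Set ↥(Cfsg.Lie.twistedG2 K (3 ^ m)))) = 3 ^ (2 * m + 1) - 1 ∧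
        ∀ A : Subgroup ↥(Cfsg.Lie.twistedG2 K (3 ^ m)), A ≤ H → A ≠ ⊥ →
          Subgroup.centralizer (A : Set ↥(Cfsg.Lie.twistedG2 K (3 ^ m))) = Subgroup.centralizer (H : Set ↥(Cfsg.Lie.twistedG2 K (3 ^ m)))) ∧
    (Nat.card H = (3 ^ (2 * m + 1) + 1) / 4 →
      IsMulCommutative ↥(Subgroup.centralizer (H : Set ↥(Cfsg.Lie.twistedG2 K (3 ^ m)))) ∧
        Nat.card ↥(Subgroup.centralizer (H : Set ↥(Cfsg.Lie.twistedG2 K (3 ^ m)))) = 3 ^ (2 * m + 1) + 1 ∧
        (∀ x ∈ Subgroup.centralizer (H : Set ↥(Cfsg.Lie.twistedG2 K (3 ^ m))), orderOf x ≠ 4) ∧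
        ∀ A : Subgroup ↥(Cfsg.Lie.twistedG2 K (3 ^ m)), A ≤ H → A ≠ ⊥ →
          Subgroup.centralizer (A : Set ↥(Cfsg.Lie.twistedG2 K (3 ^ m))) = Subgroup.centralizer (H : Set ↥(Cfsg.Lie.twistedG2 K (3 ^ m)))) := by
  have := H10.ree_charP hK
  haveI := H10.t_finite hK
  have hcomm : ∀ a ∈ H, ∀ b ∈ H, a * b = b * a := by
    intro a ha b hb
    letI : CommGroup H := IsCyclic.commGroup
    have h1 := mul_comm (⟨a, ha⟩ : H) ⟨b, hb⟩
    exact congrArg Subtype.val h1
  have hordH : ∀ y ∈ H, orderOf y ∣ Nat.card H := by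
    intro y hy
    rw [← Subgroup.orderOf_mk y hy]
    exact orderOf_dvd_natCard _
  constructor
  · intro hcard
    have hcard' : Nat.card H = H10.reeH m := hcard
    have hh : 7 ≤ H10.reeH m := by
      have h1 := H10.reeH_spec m
      have h2 := H10.ree_q_ge hm
      omega
    have hne : H ≠ ⊥ := by
      rintro rfl
      rw [Subgroup.card_bot] at hcard'
      omega
    have hord : ∀ y ∈ H, orderOf y ∣ H10.reeH m := by
      intro y hy
      rw [← hcard']
      exact hordH y hy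
    obtain ⟨c, hC, -⟩ := H10.centralizer_of_dvd_h hK hord hne hcomm
    have hcardC : Nat.card ↥(Subgroup.centralizer (H : Set ↥(Cfsg.Lie.twistedG2 K (3 ^ m)))) = 3 ^ (2 * m + 1) - 1 := by
      rw [hC, H10.card_map_conj, H10.card_tHH hK, hK]
    refine ⟨?_, hcardC, ?_⟩
    · rw [hC]
      haveI := H10.isCyclic_tHH hK
      exact isCyclic_of_surjective ((H10.tHH K m).equivMapOfInjective (MulAut.conj c⁻¹).toMonoidHom (MulAut.conj c⁻¹).injective : _ ≃* _) (MulEquiv.surjective _)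
    · intro A hA hA0
      obtain ⟨c', hC', -⟩ := H10.centralizer_of_dvd_h hK (fun y hy => hord y (hA hy)) hA0 (fun a ha b hb => hcomm a (hA ha) b (hA hb))
      symm
      apply Subgroup.eq_of_le_of_card_ge
      · exact Subgroup.centralizer_le hA
      · rw [hcardC, hC', H10.card_map_conj, H10.card_tHH hK, hK]
  · intro hcard
    have hcard' : Nat.card H = H10.reeN m := hcard
    have hh := H10.reeN_gt hm
    have hne : H ≠ ⊥ := by
      rintro rfl
      rw [Subgroup.card_bot] at hcard'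
      omega
    have hord : ∀ y ∈ H, orderOf y ∣ H10.reeN m := by
      intro y hy
      rw [← hcard']
      exact hordH y hy
    obtain ⟨c, hC, -⟩ := H10.centralizer_of_dvd_n hK hord hne hcomm
    have hcardC : Nat.card ↥(Subgroup.centralizer (H : Set ↥(Cfsg.Lie.twistedG2 K (3 ^ m)))) = 3 ^ (2 * m + 1) + 1 := by
      rw [hC, H10.card_map_conj, H10.card_tK0 hK]
    refine ⟨?_, hcardC, ?_, ?_⟩
    · refine ⟨⟨fun a b => Subtype.ext ?_⟩⟩
      have ha : a.1 ∈ (H10.tK0 hK).map (MulAut.conj c⁻¹).toMonoidHom := by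
        rw [← hC]
        exact a.2
      have hb : b.1 ∈ (H10.tK0 hK).map (MulAut.conj c⁻¹).toMonoidHom := by
        rw [← hC]
        exact b.2
      rw [H10.mem_map_conj_inv] at ha hb
      exact H10.comm_of_conj (c := c) (H10.tK0_comm hK ha hb)
    · intro x _ hx
      have h1 : x ^ 2 ^ 2 = 1 := by
        have := pow_orderOf_eq_one x
        rwa [hx] at this
      have h2 := H10.sq_of_two_elt hK h1
      have h3 : orderOf x ∣ 2 := orderOf_dvd_of_pow_eq_one (by rw [sq, h2])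
      rw [hx] at h3
      omega
    · intro A hA hA0
      obtain ⟨c', hC', -⟩ := H10.centralizer_of_dvd_n hK (fun y hy => hord y (hA hy)) hA0 (fun a ha b hb => hcomm a (hA ha) b (hA hb))
      symm
      apply Subgroup.eq_of_le_of_card_ge
      · exact Subgroup.centralizer_le hA
      · rw [hcardC, hC', H10.card_map_conj, H10.card_tK0 hK]

end Cfsg.Agent.S2359
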