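import Mathlib
import Cfsg.Statements.S2394
import Cfsg.Agent.Lib.H10.CharBound
import Cfsg.Agent.Lib.H10.CommInv
import Cfsg.Agent.Lib.H10.SLGen
import Cfsg.Agent.Lib.Lead.CardSL

set_option autoImplicit false

open Cfsg

namespace Cfsg.Agent.S2394

open Matrix H10

variable {F : Type*} [Field F]

/-- The product of `n` commuting copies of `SL₂` inside `Sp_{2n}`. -/
def spProd (n : ℕ) : (Fin n → Matrix.SpecialLinearGroup (Fin 2) F) →* Matrix.symplecticGroup (Fin n) F where
  toFun g := ⟨fromBlocks (diagonal fun k => (g k).1 0 0) (diagonal fun k => (g k).1 0 1)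
      (diagonal fun k => (g k).1 1 0) (diagonal fun k => (g k).1 1 1), by
    rw [SymplecticGroup.fromBlocks_mem_iff]
    simp only [diagonal_transpose, diagonal_mul_diagonal]
    refine ⟨?_, ?_, ?_⟩
    · congr 1
      ext k
      ring
    · congr 1
      ext k
      ring
    · ext i j
      by_cases hij : i = j
      · subst hij
        have h := (g i).2
        rw [det_fin_two] at h
        simp only [Matrix.sub_apply, diagonal_apply_eq, one_apply_eq]
        linear_combination h
      · simp [hij]⟩
  map_one' := by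
    apply Subtype.ext
    change fromBlocks _ _ _ _ = (1 : Matrix (Fin n ⊕ Fin n) (Fin n ⊕ Fin n) F)
    rw [← fromBlocks_one]
    congr 1 <;> ext i j <;> by_cases hij : i = j <;> simp [hij]
  map_mul' g h := by
    apply Subtype.ext
    change fromBlocks _ _ _ _ = fromBlocks _ _ _ _ * fromBlocks _ _ _ _
    rw [fromBlocks_multiply]
    simp only [diagonal_mul_diagonal, diagonal_add]
    congr 1 <;> congr 1 <;> ext k <;>
      simp [Matrix.mul_apply, Fin.sum_univ_two]

lemma spProd_inj (n : ℕ) : Function.Injective (spProd (F := F) n) := by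
  intro g h e
  have e1 : (fromBlocks (diagonal fun k => (g k).1 0 0) (diagonal fun k => (g k).1 0 1)
      (diagonal fun k => (g k).1 1 0) (diagonal fun k => (g k).1 1 1) : Matrix (Fin n ⊕ Fin n) (Fin n ⊕ Fin n) F) =
      fromBlocks (diagonal fun k => (h k).1 0 0) (diagonal fun k => (h k).1 0 1)
      (diagonal fun k => (h k).1 1 0) (diagonal fun k => (h k).1 1 1) := congrArg Subtype.val e
  obtain ⟨e00, e01, e10, e11⟩ := Matrix.fromBlocks_inj.1 e1
  funext k
  apply Subtype.ext
  ext i j
  fin_cases i <;> fin_cases j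
  · simpa using congrFun (congrFun e00 k) k
  · simpa using congrFun (congrFun e01 k) k
  · simpa using congrFun (congrFun e10 k) k
  · simpa using congrFun (congrFun e11 k) k

/-- The central involution of `SL₂`. -/
def z₀ (F : Type*) [Field F] : Matrix.SpecialLinearGroup (Fin 2) F :=
  ⟨!![-1, 0; 0, -1], by simp [det_fin_two]⟩

lemma z₀_central (g : Matrix.SpecialLinearGroup (Fin 2) F) : z₀ F * g = g * z₀ F := by
  apply Subtype.ext
  change !![-1, 0; 0, -1] * g.1 = g.1 * !![-1, 0; 0, -1]
  ext i j
  fin_cases i <;> fin_cases j <;> simp [Matrix.mul_apply, Fin.sum_univ_two]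

lemma z₀_sq : z₀ F * z₀ F = 1 := by
  apply Subtype.ext
  change !![-1, 0; 0, -1] * !![-1, 0; 0, -1] = (1 : Matrix (Fin 2) (Fin 2) F)
  ext i j
  fin_cases i <;> fin_cases j <;> simp [Matrix.mul_apply, Fin.sum_univ_two]

/-- The sign map into the centre. -/
def zHom (F : Type*) [Field F] (n : ℕ) : (Fin n → ℤˣ) →* (Fin n → Matrix.SpecialLinearGroup (Fin 2) F) where
  toFun w k := if w k = 1 then 1 else z₀ F
  map_one' := by
    funext k
    simp
  map_mul' w w' := by
    funext k
    rcases Int.units_eq_one_or (w k) with h | h <;> rcases Int.units_eq_one_or (w' k) with h' | h' <;>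
      simp [h, h', z₀_sq]

lemma zHom_inj (h2 : (2 : F) ≠ 0) (n : ℕ) : Function.Injective (zHom F n) := by
  intro w w' e
  funext k
  have e1 := congrFun e k
  have hne : z₀ F ≠ 1 := by
    intro h
    have := congrFun (congrFun (congrArg Subtype.val h) 0) 0
    have h3 : (-1 : F) = 1 := by simpa [z₀] using this
    apply h2
    linear_combination (-1 : F) * h3
  rcases Int.units_eq_one_or (w k) with h | h <;> rcases Int.units_eq_one_or (w' k) with h' | h' <;>
    simp [zHom, h, h'] at e1 ⊢
  · exact hne e1.symm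
  · exact hne e1

/-- The odd characteristic case. -/
theorem main_odd [Fintype F] (h2 : (2 : F) ≠ 0) {n d : ℕ}
    (ρ : (Fin n → Matrix.SpecialLinearGroup (Fin 2) F) →* GL (Fin d) F) (hρ : Function.Injective ρ) :
    2 * n ≤ d := by
  classical
  obtain ⟨x, y, hxy⟩ := exists_sum_two_squares (-1 : F)
  let a : Matrix.SpecialLinearGroup (Fin 2) F := ⟨!![x, y; y, -x], by
    rw [det_fin_two_of]
    linear_combination hxy⟩
  let b : Matrix.SpecialLinearGroup (Fin 2) F := ⟨!![0, 1; -1, 0], by
    rw [det_fin_two_of]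
    ring⟩
  have hab : a * b = z₀ F * (b * a) := by
    apply Subtype.ext
    change !![x, y; y, -x] * !![0, 1; -1, 0] = !![-1, 0; 0, -1] * (!![0, 1; -1, 0] * !![x, y; y, -x])
    ext i j
    fin_cases i <;> fin_cases j <;> simp [Matrix.mul_apply, Fin.sum_univ_two]
  let G := Fin n → Matrix.SpecialLinearGroup (Fin 2) F
  let ρ' : G →* Matrix (Fin d) (Fin d) F := (Units.coeHom _).comp ρ
  have hρ' : Function.Injective ρ' := fun g g' e => hρ (Units.ext e)
  let E : Subgroup G := (zHom F n).range
  have hcentral : ∀ e ∈ E, ∀ g : G, e * g = g * e := by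
    rintro _ ⟨w, rfl⟩ g
    funext k
    change (if w k = 1 then 1 else z₀ F) * g k = g k * (if w k = 1 then 1 else z₀ F)
    split_ifs
    · simp
    · exact z₀_central _
  have hc : IsMulCommutative E := ⟨⟨fun e e' => Subtype.ext (hcentral e e.2 e'.1)⟩⟩
  have hsq : ∀ e ∈ E, e ^ 2 = 1 := by
    rintro _ ⟨w, rfl⟩
    rw [sq, ← map_mul, H10.units_fun_sq, map_one]
  obtain ⟨bs, ε, hε, hsign⟩ := exists_sign_embedding h2 ρ' hρ' E hc hsq
  have hrow : ∀ (g : G) (v : Fin d → F), ρ' g *ᵥ v = 0 → v = 0 := by
    intro g v hv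
    have h1 : ρ' g⁻¹ * ρ' g = 1 := by rw [← map_mul, inv_mul_cancel, map_one]
    have h3 := congrArg (fun u => ρ' g⁻¹ *ᵥ u) hv
    simpa [Matrix.mulVec_mulVec, h1] using h3
  -- scalars on isolated basis vectors
  have hpartner : ∀ i, (∃ e : E, ε e i ≠ 1) → ∃ j, j ≠ i ∧ ∀ e, ε e i = ε e j := by
    intro i hi
    by_contra hcon
    push Not at hcon
    have hscal : ∀ T : G, ∃ c : F, ρ' T *ᵥ bs i = c • bs i := by
      intro T
      set v := ρ' T *ᵥ bs i with hv
      have hev : ∀ e : E, ρ' e *ᵥ v = signF F (ε e i) • v := by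
        intro e
        rw [hv, Matrix.mulVec_mulVec, ← map_mul, hcentral e e.2 T, map_mul, ← Matrix.mulVec_mulVec, hsign,
          Matrix.mulVec_smul]
      have hsum : v = ∑ k, bs.repr v k • bs k := (bs.sum_repr v).symm
      have hcoef : ∀ j, j ≠ i → bs.repr v j = 0 := by
        intro j hj
        obtain ⟨e, he⟩ := hcon j hj
        have h1 := hev e
        have h2' : ρ' e *ᵥ v = ∑ k, (bs.repr v k * signF F (ε e k)) • bs k := by
          conv_lhs => rw [hsum]
          rw [Matrix.mulVec_sum]
          refine Finset.sum_congr rfl (fun k _ => ?_)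
          rw [Matrix.mulVec_smul, hsign, smul_smul]
        have h3 := congrArg (fun u => bs.repr u j) (h2'.symm.trans h1)
        simp only [Module.Basis.repr_sum_self, map_smul, Finsupp.smul_apply, smul_eq_mul] at h3
        have h4 : signF F (ε e j) ≠ signF F (ε e i) := fun h5 => he (signF_inj h2 h5).symm
        have h5 : bs.repr v j * (signF F (ε e j) - signF F (ε e i)) = 0 := by
          linear_combination h3
        exact (mul_eq_zero.1 h5).resolve_right (sub_ne_zero.2 h4)
      refine ⟨bs.repr v i, ?_⟩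
      conv_lhs => rw [hsum]
      rw [Finset.sum_eq_single i]
      · intro k _ hk
        rw [hcoef k hk, zero_smul]
      · simp
    obtain ⟨e, he⟩ := hi
    obtain ⟨w, hw⟩ : ∃ w, zHom F n w = (e : G) := e.2
    have hei : ε e i = -1 := (Int.units_eq_one_or _).resolve_left he
    let aw : G := fun k => if w k = 1 then 1 else a
    let bw : G := fun k => if w k = 1 then 1 else b
    have hawbw : aw * bw = (e : G) * (bw * aw) := by
      rw [← hw]
      funext k
      change (if w k = 1 then 1 else a) * (if w k = 1 then 1 else b) =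
        (if w k = 1 then 1 else z₀ F) * ((if w k = 1 then 1 else b) * (if w k = 1 then 1 else a))
      split_ifs
      · simp
      · exact hab
    obtain ⟨α, hα⟩ := hscal aw
    obtain ⟨β, hβ⟩ := hscal bw
    have hbi := bs.ne_zero i
    have hα0 : α ≠ 0 := by
      rintro rfl
      rw [zero_smul] at hα
      exact hbi (hrow _ _ hα)
    have hβ0 : β ≠ 0 := by
      rintro rfl
      rw [zero_smul] at hβ
      exact hbi (hrow _ _ hβ)
    have h1 : ρ' (aw * bw) *ᵥ bs i = (α * β) • bs i := by
      rw [map_mul, ← Matrix.mulVec_mulVec, hβ, Matrix.mulVec_smul, hα, smul_smul]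
      ring_nf
    have h3 : ρ' ((e : G) * (bw * aw)) *ᵥ bs i = (-(α * β)) • bs i := by
      rw [map_mul, map_mul, ← Matrix.mulVec_mulVec, ← Matrix.mulVec_mulVec, hα, Matrix.mulVec_smul, hβ,
        Matrix.mulVec_smul, Matrix.mulVec_smul, hsign, hei, signF_neg_one, smul_smul, smul_smul]
      congr 1
      ring
    rw [hawbw, h3] at h1
    have h4 : (α * β + α * β) • bs i = 0 := by
      rw [add_smul]
      have : (-(α * β)) • bs i = -((α * β) • bs i) := neg_smul _ _
      rw [this] at h1
      rw [eq_comm, eq_neg_iff_add_eq_zero] at h1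
      exact h1
    have h5 := (smul_eq_zero.1 h4).resolve_right hbi
    have h6 : 2 * (α * β) = 0 := by linear_combination h5
    exact (mul_ne_zero h2 (mul_ne_zero hα0 hβ0)) h6
  -- counting
  let I := {i // ∃ e : E, ε e i ≠ 1}
  let ε' : E → (I → ℤˣ) := fun e i => ε e i.1
  have hinj' : Function.Injective ε' := by
    intro e e' h
    apply hε
    funext i
    by_cases hi : ∃ e : E, ε e i ≠ 1
    · exact congrFun h ⟨i, hi⟩
    · push Not at hi
      rw [hi e, hi e']
  obtain ⟨t, ht, hcard⟩ := card_le_of_pairs ε' hinj' (by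
    rintro ⟨i, hi⟩
    obtain ⟨j, hj, hij⟩ := hpartner i hi
    obtain ⟨e, he⟩ := hi
    refine ⟨⟨j, e, ?_⟩, ?_, fun e' => hij e'⟩
    · rw [← hij e]
      exact he
    · intro h
      exact hj (congrArg Subtype.val h))
  have hcardE : Nat.card E = 2 ^ n := by
    have h1 : Nat.card E = Nat.card (Fin n → ℤˣ) :=
      (Nat.card_congr (MonoidHom.ofInjective (zHom_inj h2 n)).toEquiv).symm
    rw [h1, card_units_fun, Fintype.card_fin]
  rw [hcardE] at hcard
  have hnt : n ≤ t := (Nat.pow_le_pow_iff_right (by norm_num)).1 hcard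
  have hI : Fintype.card I ≤ d := by
    calc Fintype.card I ≤ Fintype.card (Fin (Module.finrank F (Fin d → F))) := Fintype.card_subtype_le _
      _ = d := by simp
  omega

/-- The even characteristic case. -/
theorem main_even [Fintype F] (h2 : ringChar F = 2) {n d : ℕ}
    (ρ : (Fin n → Matrix.SpecialLinearGroup (Fin 2) F) →* GL (Fin d) F) (hρ : Function.Injective ρ) :
    2 * n ≤ d := by
  classical
  have hqeven : Fintype.card F % 2 = 0 := FiniteField.even_card_iff_char_two.1 h2
  have hq2 : 1 < Fintype.card F := Fintype.one_lt_card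
  set q := Fintype.card F with hq
  let r := (q + 1).minFac
  have hr : r.Prime := Nat.minFac_prime (by omega)
  have hrf : Fact r.Prime := ⟨hr⟩
  have hrq : r ∣ q + 1 := Nat.minFac_dvd _
  have hr2 : r ≠ 2 := by
    intro h
    rw [h] at hrq
    omega
  -- an element of order `r`
  have hcard : Nat.card (Matrix.SpecialLinearGroup (Fin 2) F) = (q + 1) * (q ^ 2 - q) := by
    have h := Cfsg.Agent.Lead.card_SL (F := F) 2 (by norm_num)
    rw [Fin.prod_univ_two] at h
    simp only [Fin.val_zero, pow_zero, Fin.val_one, pow_one] at h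
    have h3 : q ^ 2 - 1 = (q - 1) * (q + 1) := by
      have := Nat.sq_sub_sq q 1
      rw [one_pow] at this
      rw [this, mul_comm]
    rw [← hq, h3, mul_assoc] at h
    exact Nat.eq_of_mul_eq_mul_left (by omega) h
  obtain ⟨g, hg⟩ : ∃ g : Matrix.SpecialLinearGroup (Fin 2) F, orderOf g = r := by
    apply exists_prime_orderOf_dvd_card
    rw [← Nat.card_eq_fintype_card, hcard]
    exact Dvd.dvd.mul_right hrq _
  have hK : ringChar F ≠ ringChar (ZMod r) := by
    rw [h2, ZMod.ringChar_zmod_n]
    exact Ne.symm hr2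
  obtain ⟨L, _, _, ψ, hψ⟩ := exists_prim_ext (ZMod r) F hK
  let G := Fin n → Matrix.SpecialLinearGroup (Fin 2) F
  let u : (Fin n → ZMod r) → G := fun x k => g ^ (x k).val
  have hu : ∀ x y, u (x + y) = u x * u y := by
    intro x y
    funext k
    change g ^ ((x + y) k).val = g ^ (x k).val * g ^ (y k).val
    have hmod : ∀ m : ℕ, g ^ (m % r) = g ^ m := fun m => by rw [← pow_mod_orderOf g m, hg]
    rw [Pi.add_apply, ZMod.val_add, ← pow_add, hmod]
  let M : G →* Matrix (Fin d) (Fin d) L := extM ρ
  have hc : ((Fintype.card (Fin n → ZMod r) : ℕ) : L) ≠ 0 := natCast_card_fun_ne (K := F) hK _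
  have hne : ∀ y : Fin n → ZMod r, y ≠ 0 → M (u y) ≠ 1 := by
    intro y hy
    apply extM_ne_one
    intro h
    obtain ⟨k, hk⟩ : ∃ k, y k ≠ 0 := by
      by_contra hcon
      push Not at hcon
      exact hy (funext hcon)
    have h1 : u y = 1 := hρ (h.trans (map_one ρ).symm)
    have h3 : g ^ (y k).val = 1 := congrFun h1 k
    have h4 := pow_ne_one_of_lt_orderOf (x := g) (n := (y k).val) (by
      intro h5
      exact hk ((ZMod.val_eq_zero _).1 h5)) (by rw [hg]; exact ZMod.val_lt _)
    exact h4 h3
  -- the Frobenius symmetry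
  have hsymm : ∀ a : Fin n → ZMod r, dotE ψ M u a ≠ 0 → dotE ψ M u (-a) ≠ 0 := by
    intro a ha
    let φ : L →ₐ[F] L := FiniteField.frobeniusAlgHom F L
    have hφ : ∀ y, φ y = y ^ q := fun y => rfl
    have hqr : ((q : ℕ) : ZMod r) = -1 := by
      have : ((q + 1 : ℕ) : ZMod r) = 0 := (ZMod.natCast_eq_zero_iff _ _).2 hrq
      push_cast at this
      linear_combination this
    have hψq : ∀ t, φ (ψ t) = ψ (-t) := by
      intro t
      rw [hφ, ← AddChar.map_nsmul_eq_pow, nsmul_eq_mul, hqr, neg_one_mul]
    have hMfix : ∀ g' i j, φ (M g' i j) = M g' i j := by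
      intro g' i j
      exact φ.commutes _
    have hentry : ∀ i j, φ (dotE ψ M u a i j) = dotE ψ M u (-a) i j := by
      intro i j
      simp only [dotE, isoE, Matrix.sum_apply, Matrix.smul_apply, smul_eq_mul, map_sum, map_mul, hMfix, hψq]
      refine Finset.sum_congr rfl (fun x _ => ?_)
      congr 2
      rw [neg_dotProduct]
    intro h0
    apply ha
    ext i j
    have := hentry i j
    rw [h0, Matrix.zero_apply] at this
    rw [Matrix.zero_apply]
    exact (map_eq_zero_iff _ φ.toRingHom.injective).1 this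
  let S : Finset (Fin n → ZMod r) := Finset.univ.filter (fun a => dotE ψ M u a ≠ 0)
  have hle : S.card ≤ d := card_dotE_le hψ hc hu
  let T : Set (Fin n → ZMod r) := {a | a ∈ S ∧ a ≠ 0}
  -- spanning
  have hspan : Submodule.span (ZMod r) T = ⊤ := by
    by_contra hW
    obtain ⟨f, hf0, hf⟩ := Submodule.exists_le_ker_of_lt_top _ (lt_top_iff_ne_top.2 hW)
    let y : Fin n → ZMod r := fun k => f (Pi.single k 1)
    have hfa : ∀ a, f a = a ⬝ᵥ y := by
      intro a
      rw [LinearMap.pi_apply_eq_sum_univ f a]
      simp only [dotProduct, smul_eq_mul, y]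
      refine Finset.sum_congr rfl (fun k _ => ?_)
      congr 2
      ext j
      simp [Pi.single_apply, eq_comm]
    have hy : y ≠ 0 := by
      intro h
      apply hf0
      ext a
      simp [hfa, h]
    obtain ⟨a, ha, hay⟩ := exists_dotE_ne hψ hc hu (hne y hy)
    have ha0 : a ≠ 0 := by
      rintro rfl
      apply hay
      simp
    have haT : a ∈ T := ⟨by simp [S, ha], ha0⟩
    have h3 : f a = 0 := hf (Submodule.subset_span haT)
    rw [hfa] at h3
    apply hay
    rw [h3, AddChar.map_zero_eq_one]
  obtain ⟨b, hbT, hbspan, hli⟩ := exists_linearIndependent (ZMod r) T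
  have hfin : Finite b := Subtype.finite
  let _ : Fintype b := Fintype.ofFinite _
  let B : Finset (Fin n → ZMod r) := b.toFinset
  have hnB : n ≤ B.card := by
    have h1 := finrank_span_le_card (R := ZMod r) b
    rw [hbspan, hspan, finrank_top, Module.finrank_fin_fun] at h1
    exact h1
  have hdisj : Disjoint B (B.image (fun a => -a)) := by
    rw [Finset.disjoint_left]
    intro x hx hx'
    obtain ⟨a, ha, hax⟩ := Finset.mem_image.1 hx'
    have hxb : x ∈ b := by simpa [B] using hx
    have hab : a ∈ b := by simpa [B] using ha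
    have hx0 : x ≠ 0 := (hbT hxb).2
    have ha0 : a ≠ 0 := (hbT hab).2
    by_cases hax' : a = x
    · have h4 : (2 : ZMod r) • a = 0 := by
        rw [two_smul]
        nth_rewrite 1 [hax']
        rw [← hax]
        simp
      have h5 : (2 : ZMod r) ≠ 0 := by
        intro h6
        have : ((2 : ℕ) : ZMod r) = 0 := by exact_mod_cast h6
        rw [ZMod.natCast_eq_zero_iff] at this
        exact hr2 ((Nat.prime_dvd_prime_iff_eq hr Nat.prime_two).1 this)
      exact ha0 ((smul_eq_zero.1 h4).resolve_left h5)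
    · rw [linearIndependent_iff'] at hli
      have h4 := hli {⟨a, hab⟩, ⟨x, hxb⟩} (fun _ => 1) (by
        rw [Finset.sum_pair (by
          intro h5
          exact hax' (congrArg Subtype.val h5))]
        simp only [one_smul]
        rw [← hax]
        simp) ⟨a, hab⟩ (by simp)
      exact one_ne_zero h4
  have hsub : B ∪ B.image (fun a => -a) ⊆ S := by
    intro x hx
    rcases Finset.mem_union.1 hx with h | h
    · have hxb : x ∈ b := by simpa [B] using h
      exact (hbT hxb).1
    · obtain ⟨a, ha, rfl⟩ := Finset.mem_image.1 h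
      have hab : a ∈ b := by simpa [B] using ha
      have := (hbT hab).1
      simp only [S, Finset.mem_filter, Finset.mem_univ, true_and] at this ⊢
      exact hsymm a this
  have h1 := Finset.card_le_card hsub
  rw [Finset.card_union_of_disjoint hdisj, Finset.card_image_of_injective _ neg_injective] at h1
  omega

theorem result {F : Type*} [Field F] [Fintype F] (n : ℕ) {d : ℕ}
    (ρ : ↥(Matrix.symplecticGroup (Fin n) F) →* GL (Fin d) F) (hρ : Function.Injective ρ) : 2 * n ≤ d := by
  classical
  have hmain : 2 * n ≤ d := by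
    let ρ' := ρ.comp (spProd (F := F) n)
    have hρ' : Function.Injective ρ' := hρ.comp (spProd_inj n)
    by_cases h2 : ringChar F = 2
    · exact main_even h2 ρ' hρ'
    · exact main_odd (Ring.two_ne_zero h2) ρ' hρ'
  exact hmain

end Cfsg.Agent.S2394
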