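import Cfsg.Statements.S2466
import Cfsg.Agent.Lib.H11.CycT

set_option autoImplicit false
open Cfsg

namespace Cfsg.Agent.S2466

open Equiv Perm Cfsg.Agent.H11

/-- Adjacency of odd primes in the prime graph of the alternating groups: let r ≠ s be odd primes at most n. The alternating group of degree n has an element of order r·s if and only if r + s ≤ n. -/
theorem result (n r s : ℕ) (hr : r.Prime) (hs : s.Prime) (hr2 : r ≠ 2) (hs2 : s ≠ 2) (hrs : r ≠ s) (hrn : r ≤ n) (hsn : s ≤ n) :
    (r * s ∈ Set.range (orderOf : alternatingGroup (Fin n) → ℕ)) ↔ r + s ≤ n := by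
  have hr3 : 3 ≤ r := by have := hr.two_le; omega
  have hs3 : 3 ≤ s := by have := hs.two_le; omega
  have hcop : Nat.Coprime r s := (Nat.coprime_primes hr hs).2 hrs
  have hrO : Odd r := hr.odd_of_ne_two hr2
  have hsO : Odd s := hs.odd_of_ne_two hs2
  constructor
  · rintro ⟨g, hg⟩
    rw [orderOf_alternating] at hg
    have h1 : r ∣ orderOf (g : Perm (Fin n)) := hg ▸ dvd_mul_right r s
    have h2 : s ∣ orderOf (g : Perm (Fin n)) := hg ▸ dvd_mul_left s r
    obtain ⟨a, ha, hra⟩ := exists_mem_cycleType_pp_dvd (k := 1) hr one_ne_zero (g : Perm (Fin n))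
      (by simpa using h1)
    obtain ⟨b, hb, hsb⟩ := exists_mem_cycleType_pp_dvd (k := 1) hs one_ne_zero (g : Perm (Fin n))
      (by simpa using h2)
    rw [pow_one] at hra hsb
    have hle := sum_cycleType_le (g : Perm (Fin n))
    rw [Fintype.card_fin] at hle
    have ha0 : 0 < a := by have := two_le_of_mem_cycleType ha; omega
    have hb0 : 0 < b := by have := two_le_of_mem_cycleType hb; omega
    by_cases hab : a = b
    · subst hab
      have hrs' : r * s ∣ a := hcop.mul_dvd_of_dvd_of_dvd hra hsb
      have h3 := Nat.le_of_dvd ha0 hrs'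
      have h4 := Multiset.le_sum_of_mem ha
      have : r + s ≤ r * s := by nlinarith
      omega
    · have h3 := add_le_sum_of_mem_ne _ ha hb hab
      have h4 := Nat.le_of_dvd ha0 hra
      have h5 := Nat.le_of_dvd hb0 hsb
      omega
  · intro h
    obtain ⟨g, hg⟩ := (exists_with_cycleType_iff (Fin n) (m := {r, s})).2 ⟨by
      simpa using h, by
      intro a ha
      simp only [Multiset.insert_eq_cons, Multiset.mem_cons, Multiset.mem_singleton] at ha
      rcases ha with rfl | rfl <;> omega⟩
    have hsum : g.cycleType.sum + Multiset.card g.cycleType = r + s + 2 := by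
      rw [hg]; simp
    refine ⟨⟨g, mem_alternating_of_cycleType g ?_⟩, ?_⟩
    · rw [hsum]
      exact (hrO.add_odd hsO).add (by decide)
    · rw [orderOf_alternating]
      change orderOf g = r * s
      rw [← lcm_cycleType, hg]
      simp only [Multiset.insert_eq_cons, Multiset.lcm_cons, Multiset.lcm_singleton]
      change Nat.lcm r (normalize s) = r * s
      rw [normalize_eq, hcop.lcm_eq_mul]

end Cfsg.Agent.S2466
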