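import Cfsg.Statements.S2467
import Cfsg.Agent.Lib.H11.CycT

set_option autoImplicit false
open Cfsg

namespace Cfsg.Agent.S2467

open Equiv Perm Cfsg.Agent.H11

/-- number of even members of a multiset is congruent to its sum + card mod 2. -/
lemma even_sum_add_card_iff (m : Multiset ℕ) :
    Even (m.sum + Multiset.card m) ↔ Even (Multiset.card (m.filter Even)) := by
  induction m using Multiset.induction_on with
  | empty => simp
  | cons a s ih =>
    rw [Multiset.sum_cons, Multiset.card_cons]
    by_cases ha : Even a
    · rw [Multiset.filter_cons_of_pos _ ha, Multiset.card_cons]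
      have : a + s.sum + (Multiset.card s + 1) = a + (s.sum + Multiset.card s) + 1 := by ring
      rw [this]
      simp only [Nat.even_add_one, Nat.even_add, ha, ih, true_iff]
    · rw [Multiset.filter_cons_of_neg _ ha]
      have : a + s.sum + (Multiset.card s + 1) = (a + 1) + (s.sum + Multiset.card s) := by ring
      rw [this, Nat.even_add, ih]
      have : Even (a + 1) := by
        rcases Nat.even_or_odd a with h | h
        · exact absurd h ha
        · exact h.add_one
      simp [this]

/-- Adjacency of 2 and an odd prime in the prime graph of the alternating groups: let r be an odd prime at most n, with n ≥ 4. The alternating group of degree n has an element of order 2r if and only if r + 4 ≤ n. -/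
theorem result (n r : ℕ) (hn : 4 ≤ n) (hr : r.Prime) (hr2 : r ≠ 2) (hrn : r ≤ n) :
    (2 * r ∈ Set.range (orderOf : alternatingGroup (Fin n) → ℕ)) ↔ r + 4 ≤ n := by
  have hr3 : 3 ≤ r := by have := hr.two_le; omega
  have hcop : Nat.Coprime 2 r := (Nat.coprime_primes Nat.prime_two hr).2 (Ne.symm hr2)
  have hrO : Odd r := hr.odd_of_ne_two hr2
  constructor
  · rintro ⟨g, hg⟩
    rw [orderOf_alternating] at hg
    obtain ⟨σ, hσ⟩ := g
    change orderOf σ = 2 * r at hg
    have hle := sum_cycleType_le σ
    rw [Fintype.card_fin] at hle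
    have h1 : 2 ∣ orderOf σ := hg ▸ dvd_mul_right 2 r
    have h2 : r ∣ orderOf σ := hg ▸ dvd_mul_left r 2
    have hdvd : ∀ a ∈ σ.cycleType, a ∣ 2 * r := fun a ha => hg ▸ dvd_of_mem_cycleType ha
    obtain ⟨a, ha, hra⟩ := exists_mem_cycleType_pp_dvd (k := 1) hr one_ne_zero σ
      (by simpa using h2)
    obtain ⟨b, hb, htb⟩ := exists_mem_cycleType_pp_dvd (k := 1) Nat.prime_two one_ne_zero σ
      (by simpa using h1)
    rw [pow_one] at hra htb
    have ha2 := two_le_of_mem_cycleType ha
    have hb2 := two_le_of_mem_cycleType hb
    have hsgn : Even (Multiset.card (σ.cycleType.filter Even)) := by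
      rw [← even_sum_add_card_iff]
      have := (Equiv.Perm.mem_alternatingGroup).1 hσ
      rw [sign_of_cycleType] at this
      exact (neg_one_pow_eq_one_iff_even (by decide)).1 this
    -- any even member leaves another even member of size at least two
    have hrest : ∀ c ∈ σ.cycleType, Even c → ∃ d ∈ σ.cycleType, Even d ∧
        c + d ≤ (σ.cycleType.filter Even).sum := by
      intro c hc hce
      have hcE : c ∈ σ.cycleType.filter Even := Multiset.mem_filter.2 ⟨hc, hce⟩
      obtain ⟨t, ht⟩ := Multiset.exists_cons_of_mem hcE
      have hcard : Multiset.card t + 1 = Multiset.card (σ.cycleType.filter Even) := by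
        rw [ht, Multiset.card_cons]
      have hne : Multiset.card t ≠ 0 := by
        intro h0
        rw [h0] at hcard
        rw [← hcard] at hsgn
        exact absurd hsgn (by decide)
      obtain ⟨d, hd⟩ := Multiset.card_pos_iff_exists_mem.1 (Nat.pos_of_ne_zero hne)
      have hdE : d ∈ σ.cycleType.filter Even := by
        rw [ht]; exact Multiset.mem_cons_of_mem hd
      refine ⟨d, (Multiset.mem_filter.1 hdE).1, (Multiset.mem_filter.1 hdE).2, ?_⟩
      rw [ht, Multiset.sum_cons]
      exact Nat.add_le_add_left (Multiset.le_sum_of_mem hd) c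
    have hsplit : (σ.cycleType.filter Even).sum + (σ.cycleType.filter (fun x => ¬ Even x)).sum
        = σ.cycleType.sum := by
      rw [← Multiset.sum_add, Multiset.filter_add_not]
    -- `a` is `r` or `2 r`
    obtain ⟨k, hk⟩ := hra
    have hkdvd : k ∣ 2 := by
      have := hdvd a ha
      rw [hk, mul_comm 2 r] at this
      exact Nat.dvd_of_mul_dvd_mul_left hr.pos this
    have hk12 : k = 1 ∨ k = 2 := (Nat.dvd_prime Nat.prime_two).1 hkdvd
    rcases hk12 with rfl | rfl
    · rw [mul_one] at hk
      subst hk
      obtain ⟨d, hd, hde, hsum⟩ := hrest b hb (even_iff_two_dvd.2 htb)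
      have hd2 := two_le_of_mem_cycleType hd
      have haO : a ∈ σ.cycleType.filter (fun x => ¬ Even x) :=
        Multiset.mem_filter.2 ⟨ha, by simpa using hrO⟩
      have := Multiset.le_sum_of_mem haO
      omega
    · obtain ⟨d, hd, hde, hsum⟩ := hrest a ha (by rw [hk]; exact ⟨r, by ring⟩)
      have hd2 := two_le_of_mem_cycleType hd
      omega
  · intro h
    obtain ⟨g, hg⟩ := (exists_with_cycleType_iff (Fin n) (m := {r, 2, 2})).2 ⟨by
      simp only [Multiset.insert_eq_cons, Multiset.sum_cons, Multiset.sum_singleton, Fintype.card_fin]; omega, by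
      intro a ha
      simp only [Multiset.insert_eq_cons, Multiset.mem_cons, Multiset.mem_singleton] at ha
      rcases ha with rfl | rfl | rfl <;> omega⟩
    have hsum : g.cycleType.sum + Multiset.card g.cycleType = r + 7 := by
      rw [hg]; simp
    refine ⟨⟨g, mem_alternating_of_cycleType g ?_⟩, ?_⟩
    · rw [hsum]
      exact hrO.add_odd (by decide)
    · rw [orderOf_alternating]
      change orderOf g = 2 * r
      rw [← lcm_cycleType, hg]
      simp only [Multiset.insert_eq_cons, Multiset.lcm_cons, Multiset.lcm_singleton]
      change Nat.lcm r (Nat.lcm 2 (normalize 2)) = 2 * r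
      rw [normalize_eq]
      simp only [Nat.lcm_self]
      rw [Nat.lcm_comm, hcop.lcm_eq_mul]

end Cfsg.Agent.S2467
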