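import Cfsg.Statements.S2471
import Mathlib

set_option autoImplicit false
open Cfsg

namespace Cfsg.Agent.S2471

open Matrix

/-- In PSL(2,q) with q odd, the characteristic p is isolated from 2 in the prime graph: for F a finite field of odd characteristic p with at least 5 elements, PSL(2,F) has no element of order 2p. -/
theorem result {F : Type*} [Field F] [Fintype F] (p : ℕ) [Fact p.Prime] [CharP F p] (hp : p ≠ 2) (h5 : 5 ≤ Fintype.card F) (g : Matrix.ProjectiveSpecialLinearGroup (Fin 2) F) :
    orderOf g ≠ 2 * p := by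
  classical
  intro hord
  have hpp : p.Prime := Fact.out
  have hp3 : 3 ≤ p := by have := hpp.two_le; omega
  have hpodd : Odd p := hpp.odd_of_ne_two hp
  obtain ⟨A, rfl⟩ := QuotientGroup.mk_surjective g
  have hmk : ∀ k : ℕ, ((A : SpecialLinearGroup (Fin 2) F) :
      Matrix.ProjectiveSpecialLinearGroup (Fin 2) F) ^ k = 1 ↔
      A ^ k ∈ Subgroup.center (SpecialLinearGroup (Fin 2) F) := by
    intro k
    rw [← QuotientGroup.mk_pow, QuotientGroup.eq_one_iff]
  -- `A^(2p)` is a scalar `c`
  have h2p : A ^ (2 * p) ∈ Subgroup.center (SpecialLinearGroup (Fin 2) F) := by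
    rw [← hmk, ← hord]; exact pow_orderOf_eq_one _
  obtain ⟨c, hc1, hc2⟩ := (Matrix.SpecialLinearGroup.mem_center_iff).1 h2p
  have hcc : c ^ 2 = 1 := by simpa using hc1
  have hcp : c ^ p = c := by
    have hc : c = 1 ∨ c = -1 := sq_eq_one_iff.1 hcc
    rcases hc with rfl | rfl
    · simp
    · exact hpodd.neg_one_pow
  set M : Matrix (Fin 2) (Fin 2) F := (A : Matrix (Fin 2) (Fin 2) F) with hM
  have hdet : M.det = 1 := A.2
  set t : F := M 0 0 + M 1 1 with ht
  have hCH : M ^ 2 = t • M - 1 := by
    rw [Matrix.det_fin_two] at hdet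
    ext i j
    fin_cases i <;> fin_cases j <;>
      simp [pow_two, Matrix.mul_apply, Fin.sum_univ_two, ht] <;> first | ring1 | linear_combination hdet | linear_combination -hdet
  have hMp2 : M ^ (2 * p) = scalar (Fin 2) c := by
    rw [hc2]; simp [hM]
  set N : Matrix (Fin 2) (Fin 2) F := M ^ 2 - scalar (Fin 2) c with hN
  have hNp : N ^ p = 0 := by
    have hcomm : Commute (M ^ 2) (scalar (Fin 2) c) := (Matrix.scalar_commute c (fun r' => Commute.all _ _) _).symm
    rw [hN, sub_pow_char_of_commute p hcomm, ← pow_mul, hMp2, ← map_pow, hcp, sub_self]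
  have hnone : ∀ k : ℕ, k ≠ 0 → ¬ (2 * p ∣ k) → A ^ k ∉ Subgroup.center (SpecialLinearGroup (Fin 2) F) := by
    intro k _ hk hmem
    apply hk
    rw [← hord]
    exact orderOf_dvd_of_pow_eq_one ((hmk k).2 hmem)
  by_cases ht0 : t = 0
  · -- then `A² = -1`
    apply hnone 2 (by norm_num) (fun h => by have := Nat.le_of_dvd (by norm_num) h; omega)
    rw [Matrix.SpecialLinearGroup.mem_center_iff]
    refine ⟨-1, by simp, ?_⟩
    rw [ht0, zero_smul, zero_sub] at hCH
    have : ((A ^ 2 : SpecialLinearGroup (Fin 2) F) : Matrix (Fin 2) (Fin 2) F) = M ^ 2 := by simp [hM]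
    rw [this, hCH]
    ext i j
    fin_cases i <;> fin_cases j <;> simp
  · -- `A` is a polynomial in `N`
    have hMN : M = scalar (Fin 2) (t⁻¹ * (1 + c)) + t⁻¹ • N := by
      have : t • M = N + scalar (Fin 2) (1 + c) := by
        rw [hN, hCH, map_add, map_one]
        abel
      have h2 : M = t⁻¹ • (t • M) := by rw [smul_smul, inv_mul_cancel₀ ht0, one_smul]
      rw [h2, this, smul_add, add_comm]
      congr 1
      ext i j
      simp [Matrix.scalar_apply, Matrix.diagonal_apply]
    have hMpow : M ^ p = scalar (Fin 2) ((t⁻¹ * (1 + c)) ^ p) := by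
      rw [hMN, add_pow_char_of_commute p
        (Matrix.scalar_commute _ (fun r' => Commute.all _ _) _), smul_pow, hNp, smul_zero, add_zero,
        ← map_pow]
    apply hnone p hpp.ne_zero (fun h => by
      have := Nat.le_of_dvd hpp.pos h
      omega)
    rw [Matrix.SpecialLinearGroup.mem_center_iff]
    refine ⟨(t⁻¹ * (1 + c)) ^ p, ?_, ?_⟩
    · -- determinant
      have h3 : (scalar (Fin 2) ((t⁻¹ * (1 + c)) ^ p) : Matrix (Fin 2) (Fin 2) F).det = 1 := by
        rw [← hMpow, Matrix.det_pow, hdet, one_pow]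
      simpa [Matrix.det_fin_two, pow_two, Matrix.scalar_apply] using h3
    · rw [← hMpow]; simp [hM]

end Cfsg.Agent.S2471
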