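import Cfsg.Statements.S2478
import Mathlib

set_option autoImplicit false
open Cfsg

namespace Cfsg.Agent.S2478

open Polynomial

/-- The count of monic polynomials of degree `a` with nonzero constant term. -/
def cntN (q a : ℕ) : ℕ := if a = 0 then 1 else (q - 1) * q ^ (a - 1)

/-- The count of types: tuples `(h_1, ..., h_J)` with `∑ j * deg h_j = n`. -/
def cntC (q : ℕ) : ℕ → ℕ → ℕ
  | 0, n => if n = 0 then 1 else 0
  | J + 1, n => ∑ a ∈ Finset.range (n + 1),
      if (J + 1) * a ≤ n then cntN q a * cntC q J (n - (J + 1) * a) else 0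

lemma cntC_zero (q J : ℕ) : cntC q J 0 = 1 := by
  induction J with
  | zero => simp [cntC]
  | succ J ih => simp [cntC, ih, cntN]

lemma cntW_bd (q J : ℕ) (hq : 1 ≤ q) (hJ : ∀ m, 1 ≤ m → q ^ J * cntC q J m + q ^ m ≤ q ^ (m + J))
    (A : ℕ) : ∀ m, (∑ a ∈ Finset.range A,
      if (J + 1) * a ≤ m then q ^ a * cntC q J (m - (J + 1) * a) else 0) ≤ q ^ m := by
  have hqpos : 0 < q ^ J := pow_pos hq J
  have hcm : ∀ m, cntC q J m ≤ q ^ m := by
    intro m
    rcases Nat.eq_zero_or_pos m with rfl | hm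
    · simp [cntC_zero]
    · have := hJ m hm
      rw [pow_add] at this
      have h2 : q ^ J * cntC q J m ≤ q ^ J * q ^ m := by
        have := mul_comm (q ^ m) (q ^ J); omega
      exact Nat.le_of_mul_le_mul_left h2 hqpos
  induction A with
  | zero => intro m; simp
  | succ A ih =>
    intro m
    rw [Finset.sum_range_succ']
    simp only [mul_zero, Nat.zero_le, if_true, pow_zero, one_mul, Nat.sub_zero]
    by_cases hm : J + 1 ≤ m
    · obtain ⟨k, rfl⟩ : ∃ k, m = k + (J + 1) := ⟨m - (J + 1), by omega⟩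
      have h1 : (∑ a ∈ Finset.range A,
          if (J + 1) * (a + 1) ≤ k + (J + 1) then
            q ^ (a + 1) * cntC q J (k + (J + 1) - (J + 1) * (a + 1)) else 0)
          = q * ∑ a ∈ Finset.range A,
          if (J + 1) * a ≤ k then q ^ a * cntC q J (k - (J + 1) * a) else 0 := by
        rw [Finset.mul_sum]
        refine Finset.sum_congr rfl fun a _ => ?_
        have e1 : (J + 1) * (a + 1) = (J + 1) * a + (J + 1) := by ring
        by_cases h : (J + 1) * a ≤ k
        · rw [if_pos (by omega), if_pos h]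
          have : k + (J + 1) - (J + 1) * (a + 1) = k - (J + 1) * a := by omega
          rw [this]; ring
        · rw [if_neg (by omega), if_neg h]; simp
      rw [h1]
      have h2 := ih k
      have h3 := hJ (k + (J + 1)) (by omega)
      have h4 : q ^ J * (q * ∑ a ∈ Finset.range A,
          if (J + 1) * a ≤ k then q ^ a * cntC q J (k - (J + 1) * a) else 0) ≤ q ^ J * (q * q ^ k) :=
        Nat.mul_le_mul_left _ (Nat.mul_le_mul_left _ h2)
      have e2 : q ^ J * (q * q ^ k) = q ^ (k + (J + 1)) := by ring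
      rw [e2] at h4
      have e3 : q ^ (k + (J + 1) + J) = q ^ J * q ^ (k + (J + 1)) := by ring
      rw [e3] at h3
      refine Nat.le_of_mul_le_mul_left ?_ hqpos
      rw [mul_add]
      omega
    · have h1 : (∑ a ∈ Finset.range A,
          if (J + 1) * (a + 1) ≤ m then
            q ^ (a + 1) * cntC q J (m - (J + 1) * (a + 1)) else 0) = 0 := by
        refine Finset.sum_eq_zero fun a _ => ?_
        rw [if_neg]
        have e1 : (J + 1) * (a + 1) = (J + 1) * a + (J + 1) := by ring
        omega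
      rw [h1, zero_add]
      exact hcm m

lemma cntC_bd (q : ℕ) (hq : 1 ≤ q) : ∀ J n, 1 ≤ n → q ^ J * cntC q J n + q ^ n ≤ q ^ (n + J) := by
  intro J
  induction J with
  | zero =>
    intro n hn
    have : n ≠ 0 := by omega
    simp [cntC, this]
  | succ J ih =>
    intro n hn
    have hW := cntW_bd q J hq ih
    have hstep : cntC q (J + 1) n = cntC q J n + ∑ a ∈ Finset.range n,
        if (J + 1) * (a + 1) ≤ n then
          (q - 1) * q ^ a * cntC q J (n - (J + 1) * (a + 1)) else 0 := by
      simp only [cntC]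
      rw [Finset.sum_range_succ', add_comm]
      simp [cntN]
    rw [hstep]
    have hI := ih n hn
    by_cases hm : J + 1 ≤ n
    · obtain ⟨k, rfl⟩ : ∃ k, n = k + (J + 1) := ⟨n - (J + 1), by omega⟩
      have h1 : (∑ a ∈ Finset.range (k + (J + 1)),
          if (J + 1) * (a + 1) ≤ k + (J + 1) then
            (q - 1) * q ^ a * cntC q J (k + (J + 1) - (J + 1) * (a + 1)) else 0)
          = (q - 1) * ∑ a ∈ Finset.range (k + (J + 1)),
          if (J + 1) * a ≤ k then q ^ a * cntC q J (k - (J + 1) * a) else 0 := by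
        rw [Finset.mul_sum]
        refine Finset.sum_congr rfl fun a _ => ?_
        have e1 : (J + 1) * (a + 1) = (J + 1) * a + (J + 1) := by ring
        by_cases h : (J + 1) * a ≤ k
        · rw [if_pos (by omega), if_pos h]
          have : k + (J + 1) - (J + 1) * (a + 1) = k - (J + 1) * a := by omega
          rw [this]; ring
        · rw [if_neg (by omega), if_neg h]; simp
      rw [h1]
      have h2 := hW (k + (J + 1)) k
      obtain ⟨r, rfl⟩ : ∃ r, q = r + 1 := ⟨q - 1, by omega⟩
      simp only [Nat.add_sub_cancel] at h2 ⊢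
      have h3 : (r + 1) ^ (J + 1) * (r * ∑ a ∈ Finset.range (k + (J + 1)),
          if (J + 1) * a ≤ k then (r + 1) ^ a * cntC (r + 1) J (k - (J + 1) * a) else 0) ≤
          r * (r + 1) ^ (k + (J + 1)) := by
        calc _ = r * ((r + 1) ^ (J + 1) * ∑ a ∈ Finset.range (k + (J + 1)),
          if (J + 1) * a ≤ k then (r + 1) ^ a * cntC (r + 1) J (k - (J + 1) * a) else 0) := by ring
          _ ≤ r * ((r + 1) ^ (J + 1) * (r + 1) ^ k) :=
            Nat.mul_le_mul_left _ (Nat.mul_le_mul_left _ h2)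
          _ = _ := by ring
      have h4 : (r + 1) ^ (J + 1) * cntC (r + 1) J (k + (J + 1)) + (r + 1) * (r + 1) ^ (k + (J + 1))
          ≤ (r + 1) ^ (k + (J + 1) + (J + 1)) := by
        calc _ = (r + 1) * ((r + 1) ^ J * cntC (r + 1) J (k + (J + 1)) + (r + 1) ^ (k + (J + 1))) := by
              ring
          _ ≤ (r + 1) * (r + 1) ^ (k + (J + 1) + J) := Nat.mul_le_mul_left _ hI
          _ = _ := by ring
      rw [mul_add]
      have e : (r + 1) * (r + 1) ^ (k + (J + 1)) =
          r * (r + 1) ^ (k + (J + 1)) + (r + 1) ^ (k + (J + 1)) := by ring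
      omega
    · have h1 : (∑ a ∈ Finset.range n,
          if (J + 1) * (a + 1) ≤ n then
            (q - 1) * q ^ a * cntC q J (n - (J + 1) * (a + 1)) else 0) = 0 := by
        refine Finset.sum_eq_zero fun a _ => ?_
        rw [if_neg]
        have e1 : (J + 1) * (a + 1) = (J + 1) * a + (J + 1) := by ring
        omega
      rw [h1, add_zero]
      calc _ = q * (q ^ J * cntC q J n) + q ^ n := by ring
        _ ≤ q * (q ^ J * cntC q J n) + q * q ^ n :=
          Nat.add_le_add_left (Nat.le_mul_of_pos_left _ hq) _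
        _ = q * (q ^ J * cntC q J n + q ^ n) := by ring
        _ ≤ q * q ^ (n + J) := Nat.mul_le_mul_left _ hI
        _ = _ := by ring

lemma cntC_le (q n : ℕ) (hq : 1 ≤ q) (hn : 1 ≤ n) : cntC q n n ≤ q ^ n := by
  have h := cntC_bd q hq n n hn
  rw [pow_add] at h
  have h2 : q ^ n * cntC q n n ≤ q ^ n * q ^ n := by omega
  exact Nat.le_of_mul_le_mul_left h2 (pow_pos hq n)


section polys

variable {F : Type*} [Field F] [Fintype F]

/-- The monic polynomial of degree `a` with lower coefficients `f`. -/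
noncomputable def mkP (a : ℕ) (f : Fin a → F) : F[X] := X ^ a + ∑ i : Fin a, C (f i) * X ^ (i : ℕ)

lemma mkP_monic (a : ℕ) (f : Fin a → F) : (mkP a f).Monic :=
  monic_X_pow_add (degree_sum_fin_lt f)

lemma mkP_natDegree (a : ℕ) (f : Fin a → F) : (mkP a f).natDegree = a :=
  natDegree_eq_of_degree_eq_some (by
    unfold mkP
    rw [degree_add_eq_left_of_degree_lt (by rw [degree_X_pow]; exact degree_sum_fin_lt f), degree_X_pow])

lemma mkP_coeff (a : ℕ) (f : Fin a → F) (i : Fin a) : (mkP a f).coeff i = f i := by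
  unfold mkP
  rw [coeff_add, coeff_X_pow, if_neg (by have := i.2; omega), zero_add, finsetSum_coeff]
  simp only [coeff_C_mul_X_pow]
  rw [Finset.sum_eq_single i]
  · simp
  · intro j _ hj
    rw [if_neg]
    intro h
    exact hj (Fin.ext h.symm)
  · simp

lemma mkP_inj (a : ℕ) : Function.Injective (mkP (F := F) a) := by
  intro f g h
  funext i
  rw [← mkP_coeff a f i, h, mkP_coeff]

open Classical in
/-- The monic polynomials of degree `a`. -/
noncomputable def monicSet (F : Type*) [Field F] [Fintype F] (a : ℕ) : Finset F[X] :=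
  (Finset.univ : Finset (Fin a → F)).image (mkP a)

lemma mem_monicSet {a : ℕ} {p : F[X]} : p ∈ monicSet F a ↔ p.Monic ∧ p.natDegree = a := by
  classical
  unfold monicSet
  rw [Finset.mem_image]
  constructor
  · rintro ⟨f, _, rfl⟩
    exact ⟨mkP_monic a f, mkP_natDegree a f⟩
  · rintro ⟨hm, rfl⟩
    refine ⟨fun i => p.coeff i, Finset.mem_univ _, ?_⟩
    conv_rhs => rw [hm.as_sum]
    unfold mkP
    congr 1
    exact Fin.sum_univ_eq_sum_range (fun i => C (p.coeff i) * X ^ i) p.natDegree

lemma card_monicSet (a : ℕ) : (monicSet F a).card = Fintype.card F ^ a := by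
  classical
  unfold monicSet
  rw [Finset.card_image_of_injective _ (mkP_inj a)]
  simp

open Classical in
/-- The monic polynomials of degree `a` with nonzero constant term. -/
noncomputable def nzSet (F : Type*) [Field F] [Fintype F] (a : ℕ) : Finset F[X] :=
  (monicSet F a).filter (fun p => p.coeff 0 ≠ 0)

lemma mem_nzSet {a : ℕ} {p : F[X]} :
    p ∈ nzSet F a ↔ p.Monic ∧ p.natDegree = a ∧ p.coeff 0 ≠ 0 := by
  classical
  unfold nzSet
  rw [Finset.mem_filter, mem_monicSet, and_assoc]

lemma card_nzSet (a : ℕ) : (nzSet F a).card = cntN (Fintype.card F) a := by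
  classical
  rcases a with _ | b
  · have : nzSet F 0 = monicSet F 0 := by
      unfold nzSet
      apply Finset.filter_true_of_mem
      intro p hp
      obtain ⟨hm, hd⟩ := mem_monicSet.1 hp
      have : p = 1 := eq_one_of_monic_natDegree_zero hm hd
      simp [this]
    rw [this, card_monicSet]
    simp [cntN]
  · have h1 := Finset.card_filter_add_card_filter_not (s := monicSet F (b + 1))
      (fun p : F[X] => p.coeff 0 ≠ 0)
    have h2 : (monicSet F (b + 1)).filter (fun p : F[X] => ¬ p.coeff 0 ≠ 0) =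
        (monicSet F b).image (fun p => X * p) := by
      ext p
      rw [Finset.mem_filter, mem_monicSet, Finset.mem_image]
      constructor
      · rintro ⟨⟨hm, hd⟩, h0⟩
        push Not at h0
        obtain ⟨r, rfl⟩ := X_dvd_iff.2 h0
        have hr : r.Monic := Polynomial.Monic.of_mul_monic_left monic_X hm
        refine ⟨r, mem_monicSet.2 ⟨hr, ?_⟩, rfl⟩
        rw [natDegree_X_mul hr.ne_zero] at hd
        omega
      · rintro ⟨r, hr, rfl⟩
        obtain ⟨hm, hd⟩ := mem_monicSet.1 hr
        refine ⟨⟨monic_X.mul hm, ?_⟩, ?_⟩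
        · rw [natDegree_X_mul hm.ne_zero, hd]
        · simp
    rw [h2, Finset.card_image_of_injective _ (fun x y h => mul_left_cancel₀ X_ne_zero h),
      card_monicSet, card_monicSet] at h1
    have h3 : (nzSet F (b + 1)).card = ((monicSet F (b + 1)).filter (fun p : F[X] => p.coeff 0 ≠ 0)).card := rfl
    rw [h3]
    simp only [cntN, Nat.add_eq_zero_iff, one_ne_zero, and_false, if_false, Nat.add_sub_cancel]
    have hq : 1 ≤ Fintype.card F := Fintype.card_pos
    rw [Nat.sub_mul, one_mul, ← pow_succ']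
    omega

open Classical in
/-- Tuples `[h_J, ..., h_1]` of monic polynomials with nonzero constant term and
`∑ j * deg h_j = n`. -/
noncomputable def tupL (F : Type*) [Field F] [Fintype F] : ℕ → ℕ → Finset (List F[X])
  | 0, n => if n = 0 then {[]} else ∅
  | J + 1, n => (Finset.range (n + 1)).biUnion fun a =>
      if (J + 1) * a ≤ n then
        ((nzSet F a) ×ˢ tupL F J (n - (J + 1) * a)).image (fun x => x.1 :: x.2) else ∅

lemma card_tupL (J n : ℕ) : (tupL F J n).card ≤ cntC (Fintype.card F) J n := by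
  classical
  induction J generalizing n with
  | zero =>
    by_cases hn : n = 0 <;> simp [tupL, cntC, hn]
  | succ J ih =>
    simp only [tupL, cntC]
    refine Finset.card_biUnion_le.trans (Finset.sum_le_sum fun a _ => ?_)
    by_cases h : (J + 1) * a ≤ n
    · rw [if_pos h, if_pos h]
      refine Finset.card_image_le.trans ?_
      rw [Finset.card_product, card_nzSet]
      exact Nat.mul_le_mul_left _ (ih _)
    · rw [if_neg h, if_neg h]; simp

/-- The list `[h (J), ..., h 1]`. -/
noncomputable def toL (h : ℕ → F[X]) : ℕ → List F[X]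
  | 0 => []
  | J + 1 => h (J + 1) :: toL h J

lemma toL_mem (h : ℕ → F[X]) (hh : ∀ j, (h j).Monic ∧ (h j).coeff 0 ≠ 0) (J : ℕ) :
    toL h J ∈ tupL F J (∑ j ∈ Finset.range J, (j + 1) * (h (j + 1)).natDegree) := by
  classical
  induction J with
  | zero => simp [toL, tupL]
  | succ J ih =>
    simp only [toL, tupL]
    rw [Finset.sum_range_succ]
    set S := ∑ j ∈ Finset.range J, (j + 1) * (h (j + 1)).natDegree
    set a := (h (J + 1)).natDegree with ha
    rw [Finset.mem_biUnion]
    have hle : a ≤ (J + 1) * a := Nat.le_mul_of_pos_left _ (by omega)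
    refine ⟨a, Finset.mem_range.2 (by omega), ?_⟩
    rw [if_pos (by omega), Finset.mem_image]
    refine ⟨(h (J + 1), toL h J), Finset.mem_product.2 ⟨mem_nzSet.2 ⟨(hh _).1, rfl, (hh _).2⟩, ?_⟩, rfl⟩
    have : S + (J + 1) * a - (J + 1) * a = S := by omega
    show toL h J ∈ tupL F J (S + (J + 1) * a - (J + 1) * a)
    rw [this]
    exact ih

lemma toL_inj (h h' : ℕ → F[X]) (J : ℕ) (H : toL h J = toL h' J) :
    ∀ j, 1 ≤ j → j ≤ J → h j = h' j := by
  induction J with
  | zero => intro j h1 h2; omega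
  | succ J ih =>
    simp only [toL, List.cons.injEq] at H
    intro j h1 h2
    rcases Nat.lt_or_ge j (J + 1) with h3 | h3
    · exact ih H.2 j h1 (by omega)
    · have : j = J + 1 := by omega
      rw [this]; exact H.1

end polys


section modules

universe u

variable {F : Type u} [Field F]

/-- The cyclic quotient of the polynomial ring. -/
abbrev Qf (f : F[X]) : Type u := F[X] ⧸ Submodule.span F[X] {f}

/-- The polynomial module of a matrix. -/
abbrev Mm {n : ℕ} (A : Matrix.GeneralLinearGroup (Fin n) F) : Type u :=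
  Module.AEval' (Matrix.toLin' (A : Matrix (Fin n) (Fin n) F))

lemma toLin_inj {n : ℕ} (A : Matrix.GeneralLinearGroup (Fin n) F) (v : Fin n → F)
    (h : Matrix.toLin' (A : Matrix (Fin n) (Fin n) F) v = 0) : v = 0 := by
  rw [Matrix.toLin'_apply] at h
  have h2 : ((A⁻¹ : Matrix.GeneralLinearGroup (Fin n) F) : Matrix (Fin n) (Fin n) F).mulVec
      ((A : Matrix (Fin n) (Fin n) F).mulVec v) = v := by
    rw [Matrix.mulVec_mulVec, ← Units.val_mul, inv_mul_cancel]
    simp
  rw [← h2, h, Matrix.mulVec_zero]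

lemma pi_drop {R : Type*} [Ring R] {ι : Type*} (M : ι → Type*) [∀ i, AddCommGroup (M i)]
    [∀ i, Module R (M i)] (P : ι → Prop) (h : ∀ i, ¬ P i → Subsingleton (M i)) :
    Nonempty ((∀ i, M i) ≃ₗ[R] ∀ i : {i // P i}, M i) := by
  classical
  refine ⟨LinearEquiv.ofBijective (LinearMap.pi fun i => LinearMap.proj i.1) ⟨?_, ?_⟩⟩
  · intro f g hfg
    funext i
    by_cases hi : P i
    · exact congrFun hfg ⟨i, hi⟩
    · haveI := h i hi
      exact Subsingleton.elim _ _
  · intro g
    refine ⟨fun i => if hi : P i then g ⟨i, hi⟩ else 0, ?_⟩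
    funext i
    show (if hi : P i.1 then g ⟨i.1, hi⟩ else 0) = g i
    rw [dif_pos i.2]

lemma exists_dec {n : ℕ} [Fintype F] (A : Matrix.GeneralLinearGroup (Fin n) F) :
    ∃ (ι : Type u) (_ : Fintype ι) (π : ι → F[X]) (e : ι → ℕ),
      (∀ i, Irreducible (π i)) ∧ (∀ i, (π i).Monic) ∧ (∀ i, e i ≠ 0) ∧
      Nonempty (Mm A ≃ₗ[F[X]] ∀ i, Qf (π i ^ e i)) := by
  classical
  have hT : Module.IsTorsion F[X] (Mm A) :=
    Module.AEval.isTorsion_of_finiteDimensional F (Fin n → F)
      (Matrix.toLin' (A : Matrix (Fin n) (Fin n) F) : Module.End F (Fin n → F))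
  obtain ⟨ι, fι, p, hp, e, ⟨φ⟩⟩ := Module.equiv_directSum_of_isTorsion hT
  have hne : ∀ i, p i ≠ 0 := fun i => (hp i).ne_zero
  have hass : ∀ i, Associated (p i) (p i * C (p i).leadingCoeff⁻¹) := fun i =>
    ⟨Units.map (C : F →+* F[X]).toMonoidHom (Units.mk0 _ (inv_ne_zero (leadingCoeff_ne_zero.2 (hne i)))), rfl⟩
  obtain ⟨ψ⟩ := pi_drop (R := F[X]) (fun i => Qf (p i ^ e i)) (fun i => e i ≠ 0) (fun i hi => by
    push Not at hi
    show Subsingleton (F[X] ⧸ Submodule.span F[X] {p i ^ e i})
    rw [hi, pow_zero, Submodule.Quotient.subsingleton_iff]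
    exact Ideal.span_singleton_one)
  refine ⟨{i // e i ≠ 0}, inferInstance, fun i => p i.1 * C (p i.1).leadingCoeff⁻¹, fun i => e i.1,
    fun i => (hass i.1).irreducible (hp i.1), fun i => monic_mul_leadingCoeff_inv (hne i.1),
    fun i => i.2, ⟨?_⟩⟩
  refine φ.trans ((DirectSum.linearEquivFunOnFintype F[X] ι _).trans (ψ.trans
    (LinearEquiv.piCongrRight fun i => Submodule.quotEquivOfEq _ _ ?_)))
  exact Ideal.span_singleton_eq_span_singleton.2 ((hass i.1).pow_pow)

lemma X_smul_inj {n : ℕ} (A : Matrix.GeneralLinearGroup (Fin n) F) (v : Mm A)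
    (h : (X : F[X]) • v = 0) : v = 0 := by
  have h1 := Module.AEval'.of_symm_X_smul (Matrix.toLin' (A : Matrix (Fin n) (Fin n) F)) v
  rw [h, map_zero] at h1
  have h2 := toLin_inj A _ h1.symm
  exact (Module.AEval'.of (Matrix.toLin' (A : Matrix (Fin n) (Fin n) F))).symm.injective
    (by rw [h2, map_zero])

lemma coeff_ne {n : ℕ} [Fintype F] (A : Matrix.GeneralLinearGroup (Fin n) F) {ι : Type u} [Fintype ι]
    (π : ι → F[X]) (e : ι → ℕ) (hi : ∀ i, Irreducible (π i)) (hm : ∀ i, (π i).Monic)
    (he : ∀ i, e i ≠ 0) (φ : Mm A ≃ₗ[F[X]] ∀ i, Qf (π i ^ e i)) (i : ι) : (π i).coeff 0 ≠ 0 := by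
  classical
  intro h0
  have hX : π i = X := by
    have hd : X ∣ π i := X_dvd_iff.2 h0
    exact (eq_of_monic_of_associated monic_X (hm i)
      ((irreducible_X).associated_of_dvd (hi i) hd)).symm
  set y : Qf (π i ^ e i) := Submodule.Quotient.mk (X ^ (e i - 1)) with hy
  have hy0 : y ≠ 0 := by
    intro h
    rw [hy, Submodule.Quotient.mk_eq_zero, Submodule.mem_span_singleton, hX] at h
    obtain ⟨c, hc⟩ := h
    have hd : (X : F[X]) ^ e i ∣ X ^ (e i - 1) := ⟨c, by rw [← hc, smul_eq_mul, mul_comm]⟩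
    have := natDegree_le_of_dvd hd (pow_ne_zero _ X_ne_zero)
    rw [natDegree_X_pow, natDegree_X_pow] at this
    have := he i
    omega
  have hXy : (X : F[X]) • y = 0 := by
    rw [hy, ← Submodule.Quotient.mk_smul, Submodule.Quotient.mk_eq_zero,
      Submodule.mem_span_singleton]
    refine ⟨1, ?_⟩
    rw [hX, smul_eq_mul, one_mul, smul_eq_mul, ← pow_succ']
    congr 1
    have := he i
    omega
  have hv := X_smul_inj A (φ.symm (Pi.single i y)) (by
    rw [← map_smul, ← Pi.single_smul, hXy, Pi.single_zero, map_zero])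
  have : Pi.single i y = (0 : ∀ i, Qf (π i ^ e i)) := by
    apply φ.symm.injective
    rw [hv, map_zero]
  have h3 := congrFun this i
  rw [Pi.single_eq_same] at h3
  exact hy0 h3

lemma finrank_Qf (f : F[X]) : Module.finrank F (Qf f) = f.natDegree :=
  finrank_quotient_span_eq_natDegree

lemma sum_eq {n : ℕ} [Fintype F] (A : Matrix.GeneralLinearGroup (Fin n) F) {ι : Type u} [Fintype ι]
    (π : ι → F[X]) (e : ι → ℕ) (hi : ∀ i, Irreducible (π i)) (hm : ∀ i, (π i).Monic)
    (he : ∀ i, e i ≠ 0) (φ : Mm A ≃ₗ[F[X]] ∀ i, Qf (π i ^ e i)) :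
    ∑ i, e i * (π i).natDegree = n := by
  classical
  have hdeg : ∀ i, (π i ^ e i).natDegree = e i * (π i).natDegree := fun i =>
    (hm i).natDegree_pow _
  have hpos : ∀ i, 0 < Module.finrank F (Qf (π i ^ e i)) := by
    intro i
    rw [finrank_Qf, hdeg]
    exact Nat.mul_pos (Nat.pos_of_ne_zero (he i)) (hi i).natDegree_pos
  haveI : ∀ i, Module.Finite F (Qf (π i ^ e i)) := fun i => Module.finite_of_finrank_pos (hpos i)
  have h1 : Module.finrank F (Mm A) = n := by
    rw [← (Module.AEval'.of (Matrix.toLin' (A : Matrix (Fin n) (Fin n) F))).finrank_eq]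
    simp
  have h2 := (φ.restrictScalars F).finrank_eq
  rw [h1, Module.finrank_pi_fintype] at h2
  rw [h2]
  exact Finset.sum_congr rfl fun i _ => by rw [finrank_Qf, hdeg]

lemma conj_of_iso {n : ℕ} (A B : Matrix.GeneralLinearGroup (Fin n) F)
    (φ : Mm A ≃ₗ[F[X]] Mm B) : IsConj A B := by
  set Ta := Matrix.toLin' (A : Matrix (Fin n) (Fin n) F) with hTa
  set Tb := Matrix.toLin' (B : Matrix (Fin n) (Fin n) F) with hTb
  let g : (Fin n → F) ≃ₗ[F] (Fin n → F) :=
    (Module.AEval'.of (Ta : Module.End F (Fin n → F))).trans ((φ.restrictScalars F).trans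
      (Module.AEval'.of (Tb : Module.End F (Fin n → F))).symm)
  have hg : ∀ v, g (Ta v) = Tb (g v) := by
    intro v
    show (Module.AEval'.of (Tb : Module.End F (Fin n → F))).symm
      (φ (Module.AEval'.of (Ta : Module.End F (Fin n → F)) (Ta v))) = _
    rw [← Module.AEval'.X_smul_of, map_smul, Module.AEval'.of_symm_X_smul]
    rfl
  let P := LinearMap.toMatrix' (g : (Fin n → F) →ₗ[F] (Fin n → F))
  let Q := LinearMap.toMatrix' (g.symm : (Fin n → F) →ₗ[F] (Fin n → F))
  have hPQ : P * Q = 1 := by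
    simp only [P, Q]
    rw [← LinearMap.toMatrix'_comp]
    simp
  have hQP : Q * P = 1 := by
    simp only [P, Q]
    rw [← LinearMap.toMatrix'_comp]
    simp
  have hPA : P * (A : Matrix (Fin n) (Fin n) F) = (B : Matrix (Fin n) (Fin n) F) * P := by
    have e1 : (A : Matrix (Fin n) (Fin n) F) = LinearMap.toMatrix' Ta := by simp [hTa]
    have e2 : (B : Matrix (Fin n) (Fin n) F) = LinearMap.toMatrix' Tb := by simp [hTb]
    rw [e1, e2]
    simp only [P]
    rw [← LinearMap.toMatrix'_comp, ← LinearMap.toMatrix'_comp]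
    have h3 : (g : (Fin n → F) →ₗ[F] (Fin n → F)) ∘ₗ Ta = Tb ∘ₗ (g : (Fin n → F) →ₗ[F] (Fin n → F)) :=
      LinearMap.ext fun v => hg v
    rw [h3]
  rw [isConj_iff]
  refine ⟨⟨P, Q, hPQ, hQP⟩, ?_⟩
  apply Units.ext
  show P * (A : Matrix (Fin n) (Fin n) F) * Q = B
  rw [hPA, mul_assoc, hPQ, mul_one]

/-- The invariants `h` of `A`, relative to a chosen decomposition. -/
def IsTyp {n : ℕ} (A : Matrix.GeneralLinearGroup (Fin n) F) (h : ℕ → F[X]) : Prop :=
  ∃ (ι : Type u) (_ : Fintype ι) (π : ι → F[X]) (e : ι → ℕ),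
    (∀ i, Irreducible (π i)) ∧ (∀ i, (π i).Monic) ∧ (∀ i, e i ≠ 0) ∧ (∀ i, e i ≤ n) ∧
    (∀ j, h j = ∏ i ∈ Finset.univ.filter (fun i => e i = j), π i) ∧
    Nonempty (Mm A ≃ₗ[F[X]] ∀ i, Qf (π i ^ e i))

lemma exists_typ {n : ℕ} [Fintype F] (A : Matrix.GeneralLinearGroup (Fin n) F) :
    ∃ h : ℕ → F[X], IsTyp A h ∧ (∀ j, (h j).Monic ∧ (h j).coeff 0 ≠ 0) ∧
      ∑ j ∈ Finset.range n, (j + 1) * (h (j + 1)).natDegree = n := by
  classical
  obtain ⟨ι, fι, π, e, hi, hm, he, ⟨φ⟩⟩ := exists_dec A
  have hs := sum_eq A π e hi hm he φ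
  have hc := coeff_ne A π e hi hm he φ
  have hle : ∀ i, e i ≤ n := by
    intro i
    rw [← hs]
    calc e i ≤ e i * (π i).natDegree := Nat.le_mul_of_pos_right _ (hi i).natDegree_pos
      _ ≤ _ := Finset.single_le_sum (f := fun i => e i * (π i).natDegree) (fun _ _ => Nat.zero_le _)
        (Finset.mem_univ i)
  refine ⟨fun j => ∏ i ∈ Finset.univ.filter (fun i => e i = j), π i,
    ⟨ι, fι, π, e, hi, hm, he, hle, fun j => rfl, ⟨φ⟩⟩, fun j => ⟨?_, ?_⟩, ?_⟩
  · exact monic_prod_of_monic _ _ fun i _ => hm i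
  · rw [coeff_zero_eq_eval_zero, eval_prod, Finset.prod_ne_zero_iff]
    intro i _
    rw [← coeff_zero_eq_eval_zero]
    exact hc i
  · have h1 : ∀ j, (j + 1) * (∏ i ∈ Finset.univ.filter (fun i => e i = j + 1), π i).natDegree =
        ∑ i ∈ Finset.univ.filter (fun i => e i = j + 1), e i * (π i).natDegree := by
      intro j
      rw [natDegree_prod_of_monic _ _ fun i _ => hm i, Finset.mul_sum]
      refine Finset.sum_congr rfl fun i hi' => ?_
      rw [(Finset.mem_filter.1 hi').2]
    simp only [h1]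
    have h2 := Finset.sum_fiberwise_of_maps_to (s := Finset.univ) (t := Finset.range (n + 1))
      (g := e) (fun i _ => Finset.mem_range.2 (Nat.lt_succ_of_le (hle i)))
      (fun i => e i * (π i).natDegree)
    rw [Finset.sum_range_succ'] at h2
    have h3 : (Finset.univ.filter (fun i => e i = 0)) = ∅ :=
      Finset.filter_false_of_mem fun i _ => he i
    rw [h3, Finset.sum_empty, add_zero] at h2
    rw [h2, hs]

lemma fiber_count {ι : Type*} [Fintype ι] (π : ι → F[X]) (e : ι → ℕ) (π₀ : F[X]) (j₀ : ℕ)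
    [DecidableEq F[X]] [DecidableEq ι] :
    Fintype.card {i // (π i, e i) = (π₀, j₀)} =
      Multiset.count π₀ ((Finset.univ.filter (fun i => e i = j₀)).val.map π) := by
  rw [Fintype.card_subtype, Multiset.count_map, Finset.card_def, ← Finset.filter_val]
  congr 2
  ext i
  simp only [Finset.mem_filter, Finset.mem_univ, true_and, Prod.mk.injEq]
  constructor
  · rintro ⟨h1, h2⟩; exact ⟨h2, h1.symm⟩
  · rintro ⟨h1, h2⟩; exact ⟨h2.symm, h1⟩

lemma conj_of_typ {n : ℕ} (A B : Matrix.GeneralLinearGroup (Fin n) F) (h h' : ℕ → F[X])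
    (hA : IsTyp A h) (hB : IsTyp B h') (hh : ∀ j, 1 ≤ j → j ≤ n → h j = h' j) : IsConj A B := by
  classical
  obtain ⟨ι, fι, π, e, hi, hm, he, hle, hdef, ⟨φ⟩⟩ := hA
  obtain ⟨ι', fι', π', e', hi', hm', he', hle', hdef', ⟨φ'⟩⟩ := hB
  have hcard : ∀ c : F[X] × ℕ, Fintype.card {i // (π i, e i) = c} =
      Fintype.card {i // (π' i, e' i) = c} := by
    rintro ⟨π₀, j₀⟩
    by_cases hj : 1 ≤ j₀ ∧ j₀ ≤ n
    · rw [fiber_count π e π₀ j₀, fiber_count π' e' π₀ j₀]
      congr 1
      have hprod : (((Finset.univ.filter (fun i => e i = j₀)).val.map π).prod) =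
          ((Finset.univ.filter (fun i => e' i = j₀)).val.map π').prod := by
        have h1 := hdef j₀
        have h2 := hdef' j₀
        rw [hh j₀ hj.1 hj.2, h2] at h1
        exact h1.symm
      have hrel := UniqueFactorizationMonoid.factors_unique
        (f := (Finset.univ.filter (fun i => e i = j₀)).val.map π)
        (g := (Finset.univ.filter (fun i => e' i = j₀)).val.map π')
        (by
          intro x hx
          obtain ⟨i, _, rfl⟩ := Multiset.mem_map.1 hx
          exact hi i)
        (by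
          intro x hx
          obtain ⟨i, _, rfl⟩ := Multiset.mem_map.1 hx
          exact hi' i)
        (hprod ▸ Associated.refl _)
      rw [← Multiset.rel_eq]
      refine hrel.mono ?_
      intro a ha b hb hab
      obtain ⟨i, _, rfl⟩ := Multiset.mem_map.1 ha
      obtain ⟨i', _, rfl⟩ := Multiset.mem_map.1 hb
      exact eq_of_monic_of_associated (hm i) (hm' i') hab
    · have h1 : IsEmpty {i // (π i, e i) = (π₀, j₀)} := ⟨fun ⟨i, hi⟩ => by
        have h2 := (Prod.mk.inj hi).2
        exact hj ⟨by have := he i; omega, by have := hle i; omega⟩⟩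
      have h2 : IsEmpty {i // (π' i, e' i) = (π₀, j₀)} := ⟨fun ⟨i, hi⟩ => by
        have h2 := (Prod.mk.inj hi).2
        exact hj ⟨by have := he' i; omega, by have := hle' i; omega⟩⟩
      rw [Fintype.card_of_isEmpty, Fintype.card_of_isEmpty]
  let σ : ι ≃ ι' := Equiv.ofFiberEquiv (f := fun i => (π i, e i)) (g := fun i => (π' i, e' i))
    fun c => Fintype.equivOfCardEq (hcard c)
  have hσ : ∀ i, (π' (σ i), e' (σ i)) = (π i, e i) := fun i =>
    Equiv.ofFiberEquiv_map (f := fun i => (π i, e i)) (g := fun i => (π' i, e' i)) _ i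
  let Φ₁ : (∀ i', Qf (π' i' ^ e' i')) ≃ₗ[F[X]] ∀ i, Qf (π' (σ i) ^ e' (σ i)) :=
    (LinearEquiv.piCongrLeft F[X] (fun i' => Qf (π' i' ^ e' i')) σ).symm
  let Φ₂ : (∀ i, Qf (π' (σ i) ^ e' (σ i))) ≃ₗ[F[X]] ∀ i, Qf (π i ^ e i) :=
    LinearEquiv.piCongrRight fun i => Submodule.quotEquivOfEq _ _ (by
      have := Prod.mk.inj (hσ i)
      rw [this.1, this.2])
  exact conj_of_iso A B (φ.trans ((Φ₁.trans Φ₂).symm.trans φ'.symm))

lemma exists_gl {n : ℕ} (p : F[X]) (hm : p.Monic) (hd : p.natDegree = n) (h0 : p.coeff 0 ≠ 0) :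
    ∃ g : Matrix.GeneralLinearGroup (Fin n) F,
      (g : Matrix (Fin n) (Fin n) F).charpoly = p := by
  classical
  let pb := AdjoinRoot.powerBasis hm.ne_zero
  have hdim : pb.dim = n := by rw [AdjoinRoot.powerBasis_dim hm.ne_zero, hd]
  let M : Matrix (Fin n) (Fin n) F :=
    Matrix.reindex (finCongr hdim) (finCongr hdim) (Algebra.leftMulMatrix pb.basis pb.gen)
  have hchar : M.charpoly = p := by
    simp only [M]
    rw [Matrix.charpoly_reindex, charpoly_leftMulMatrix]
    exact AdjoinRoot.minpoly_powerBasis_gen_of_monic hm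
  have hdet : M.det ≠ 0 := by
    rw [Matrix.det_eq_sign_charpoly_coeff, hchar]
    exact mul_ne_zero (pow_ne_zero _ (neg_ne_zero.2 one_ne_zero)) h0
  exact ⟨Matrix.GeneralLinearGroup.mkOfDetNeZero M hdet, hchar⟩

end modules



/-- The number of conjugacy classes of GL(n,q): for F a finite field with q elements and n ≥ 1, the number k of conjugacy classes of GL(n,F) satisfies q^n − q^(n−1) ≤ k ≤ q^n. -/
theorem result {F : Type*} [Field F] [Fintype F] (n : ℕ) (hn : 1 ≤ n) :
    Fintype.card F ^ n - Fintype.card F ^ (n - 1) ≤ Nat.card (ConjClasses (Matrix.GeneralLinearGroup (Fin n) F)) ∧ Nat.card (ConjClasses (Matrix.GeneralLinearGroup (Fin n) F)) ≤ Fintype.card F ^ n := by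
  classical
  have hq : 1 ≤ Fintype.card F := Fintype.card_pos
  constructor
  · have h1 : (nzSet F n).card = Fintype.card F ^ n - Fintype.card F ^ (n - 1) := by
      rw [card_nzSet]
      unfold cntN
      rw [if_neg (by omega), Nat.sub_mul, one_mul]
      congr 1
      rw [← pow_succ']
      congr 1
      omega
    rw [← h1]
    have hex : ∀ p : nzSet F n, ∃ g : Matrix.GeneralLinearGroup (Fin n) F,
        (g : Matrix (Fin n) (Fin n) F).charpoly = p.1 := fun p => by
      obtain ⟨hm, hd, h0⟩ := mem_nzSet.1 p.2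
      exact exists_gl p.1 hm hd h0
    choose g hg using hex
    have hinj : Function.Injective (fun p : nzSet F n => ConjClasses.mk (g p)) := by
      intro p p' hpp
      have hc := ConjClasses.mk_eq_mk_iff_isConj.1 hpp
      obtain ⟨c, hc⟩ := isConj_iff.1 hc
      apply Subtype.ext
      rw [← hg p, ← hg p', ← hc]
      show _ = (((c : Matrix.GeneralLinearGroup (Fin n) F) : Matrix (Fin n) (Fin n) F) *
        (g p : Matrix (Fin n) (Fin n) F) * ((c⁻¹ : Matrix.GeneralLinearGroup (Fin n) F) :
          Matrix (Fin n) (Fin n) F)).charpoly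
      rw [Matrix.coe_units_inv, Matrix.charpoly_units_conj]
    have h2 := Nat.card_le_card_of_injective _ hinj
    rwa [Nat.card_eq_fintype_card, Fintype.card_coe] at h2
  · choose h hT hmm hsum using fun A : Matrix.GeneralLinearGroup (Fin n) F => exists_typ A
    choose rep hrep using ConjClasses.exists_rep (α := Matrix.GeneralLinearGroup (Fin n) F)
    have hmem : ∀ c, toL (h (rep c)) n ∈ tupL F n n := fun c => by
      have := toL_mem (h (rep c)) (hmm (rep c)) n
      rwa [hsum] at this
    have hinj : Function.Injective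
        (fun c => (⟨toL (h (rep c)) n, hmem c⟩ : tupL F n n)) := by
      intro c c' hcc
      have h1 := toL_inj _ _ n (congrArg Subtype.val hcc)
      have h2 := conj_of_typ _ _ _ _ (hT (rep c)) (hT (rep c')) h1
      rw [← hrep c, ← hrep c']
      exact ConjClasses.mk_eq_mk_iff_isConj.2 h2
    have h2 := Nat.card_le_card_of_injective _ hinj
    rw [Nat.card_eq_fintype_card (α := tupL F n n), Fintype.card_coe] at h2
    exact h2.trans ((card_tupL n n).trans (cntC_le _ n hq hn))

end Cfsg.Agent.S2478
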