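import Cfsg.Statements.S2479
import Mathlib
import Cfsg.Agent.S2478

set_option autoImplicit false
open Cfsg

namespace Cfsg.Agent.S2479

open Polynomial
open Cfsg.Agent.S2478

/-- gcd weight. -/
def gam (q j : ℕ) : ℕ := Nat.gcd (q - 1) j

/-- The weighted count of types. -/
def cntB (q : ℕ) : ℕ → ℕ → ℕ
  | 0, _ => 0
  | J + 1, m => ∑ s ∈ Finset.range (m + 1),
      if (J + 1) * s ≤ m then
        cntN q s * (if m - (J + 1) * s = 0 then (gam q (J + 1)) ^ 2 else cntB q J (m - (J + 1) * s))
      else 0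

/-- Weighted count of partitions into parts in `[2, J + 1]`. -/
def cntV (q : ℕ) : ℕ → ℕ → ℕ
  | 0, m => if m = 0 then 1 else 0
  | J + 1, m => ∑ s ∈ Finset.range (m + 1),
      if (J + 2) * s ≤ m then q ^ s * cntV q J (m - (J + 2) * s) else 0

/-- Weighted count of compositions into parts at least two. -/
def cntF (q : ℕ) : ℕ → ℕ
  | 0 => 1
  | 1 => 0
  | m + 2 => cntF q (m + 1) + q * cntF q m

lemma cntV_zero (q J : ℕ) : cntV q J 0 = 1 := by
  induction J with
  | zero => simp [cntV]
  | succ J ih => simp [cntV, ih]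

lemma cntV_mono (q J m : ℕ) : cntV q J m ≤ cntV q (J + 1) m := by
  simp only [cntV]
  have := Finset.single_le_sum (s := Finset.range (m + 1))
    (f := fun s => if (J + 2) * s ≤ m then q ^ s * cntV q J (m - (J + 2) * s) else 0)
    (fun _ _ => Nat.zero_le _) (Finset.mem_range.2 (Nat.succ_pos m))
  simpa using this

lemma cntV_sub (q J : ℕ) : ∀ m, cntV q J m ≤ (if m = 0 then 1 else 0) +
    q * ∑ i ∈ Finset.range J, if i + 2 ≤ m then cntV q J (m - (i + 2)) else 0 := by
  induction J with
  | zero => intro m; simp [cntV]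
  | succ J ih =>
    intro m
    have h0 : cntV q (J + 1) m = cntV q J m + ∑ s ∈ Finset.range m,
        if (J + 2) * (s + 1) ≤ m then q ^ (s + 1) * cntV q J (m - (J + 2) * (s + 1)) else 0 := by
      simp only [cntV]
      rw [Finset.sum_range_succ', add_comm]
      simp
    have h1 : (∑ s ∈ Finset.range m,
        if (J + 2) * (s + 1) ≤ m then q ^ (s + 1) * cntV q J (m - (J + 2) * (s + 1)) else 0) ≤
        q * (if J + 2 ≤ m then cntV q (J + 1) (m - (J + 2)) else 0) := by
      by_cases hm : J + 2 ≤ m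
      · rw [if_pos hm]
        obtain ⟨k, rfl⟩ : ∃ k, m = k + (J + 2) := ⟨m - (J + 2), by omega⟩
        have e0 : k + (J + 2) - (J + 2) = k := by omega
        rw [e0]
        simp only [cntV]
        rw [Finset.mul_sum]
        have : ∀ s, (if (J + 2) * (s + 1) ≤ k + (J + 2) then
            q ^ (s + 1) * cntV q J (k + (J + 2) - (J + 2) * (s + 1)) else 0) =
            q * (if (J + 2) * s ≤ k then q ^ s * cntV q J (k - (J + 2) * s) else 0) := by
          intro s
          have e1 : (J + 2) * (s + 1) = (J + 2) * s + (J + 2) := by ring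
          by_cases h : (J + 2) * s ≤ k
          · rw [if_pos (by omega), if_pos h]
            have : k + (J + 2) - (J + 2) * (s + 1) = k - (J + 2) * s := by omega
            rw [this]; ring
          · rw [if_neg (by omega), if_neg h]; simp
        simp only [this]
        refine Finset.sum_le_sum_of_ne_zero ?_
        intro s _ hs
        have hs' : (J + 2) * s ≤ k := by
          by_contra hc
          rw [if_neg hc] at hs
          exact hs rfl
        have : s ≤ (J + 2) * s := Nat.le_mul_of_pos_left _ (by omega)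
        exact Finset.mem_range.2 (by omega)
      · rw [if_neg hm]
        simp only [mul_zero, nonpos_iff_eq_zero]
        refine Finset.sum_eq_zero fun s _ => ?_
        rw [if_neg]
        have e1 : (J + 2) * (s + 1) = (J + 2) * s + (J + 2) := by ring
        omega
    have h2 := ih m
    have h3 : (∑ i ∈ Finset.range J, if i + 2 ≤ m then cntV q J (m - (i + 2)) else 0) ≤
        ∑ i ∈ Finset.range J, if i + 2 ≤ m then cntV q (J + 1) (m - (i + 2)) else 0 := by
      refine Finset.sum_le_sum fun i _ => ?_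
      split_ifs
      · exact cntV_mono q J _
      · exact le_rfl
    rw [h0, Finset.sum_range_succ, mul_add]
    have h4 := Nat.mul_le_mul_left q h3
    omega

lemma cntF_sum (q m : ℕ) : q * ∑ k ∈ Finset.range m, cntF q k = cntF q (m + 1) := by
  induction m with
  | zero => simp [cntF]
  | succ m ih =>
    rw [Finset.sum_range_succ, mul_add, ih]
    simp only [cntF]

lemma cntV_le (q J : ℕ) : ∀ m, cntV q J m ≤ cntF q m := by
  intro m
  induction m using Nat.strong_induction_on with
  | _ m ih =>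
    rcases m with _ | m₁
    · rw [cntV_zero]; simp [cntF]
    · refine (cntV_sub q J (m₁ + 1)).trans ?_
      rw [if_neg (by omega), zero_add, ← cntF_sum]
      refine Nat.mul_le_mul_left q ?_
      have h1 : (∑ i ∈ Finset.range J, if i + 2 ≤ m₁ + 1 then cntV q J (m₁ + 1 - (i + 2)) else 0) ≤
          ∑ i ∈ Finset.range J, if i + 2 ≤ m₁ + 1 then cntF q (m₁ - 1 - i) else 0 := by
        refine Finset.sum_le_sum fun i _ => ?_
        split_ifs with h
        · have e : m₁ + 1 - (i + 2) = m₁ - 1 - i := by omega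
          rw [e]
          exact ih _ (by omega)
        · exact le_rfl
      refine h1.trans ?_
      refine (Finset.sum_le_sum_of_ne_zero (t := Finset.range m₁) ?_).trans ?_
      · intro i _ hi
        have : i + 2 ≤ m₁ + 1 := by
          by_contra hc
          rw [if_neg hc] at hi
          exact hi rfl
        exact Finset.mem_range.2 (by omega)
      · rw [← Finset.sum_range_reflect (fun k => cntF q k) m₁]
        refine Finset.sum_le_sum fun i hi => ?_
        have hi' := Finset.mem_range.1 hi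
        rw [if_pos (by omega)]

lemma cntF_bd (r : ℕ) : ∀ n, r * cntF (r + 2) (n + 5) ≤ (r + 2) ^ (n + 2) * (2 * r + 1) ∧
    r * cntF (r + 2) (n + 6) ≤ (r + 2) ^ (n + 3) * (2 * r + 1) := by
  intro n
  induction n with
  | zero =>
    have e5 : cntF (r + 2) (0 + 5) = 2 * (r + 2) ^ 2 + (r + 2) := by
      simp only [cntF]; ring
    have e6 : cntF (r + 2) (0 + 6) = (r + 2) ^ 3 + 3 * (r + 2) ^ 2 + (r + 2) := by
      simp only [cntF]; ring
    constructor
    · rw [e5]
      have : (r + 2) ^ (0 + 2) * (2 * r + 1) = r * (2 * (r + 2) ^ 2 + (r + 2)) + 2 * (r + 2) := by ring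
      omega
    · rw [e6]
      have : (r + 2) ^ (0 + 3) * (2 * r + 1) = r * ((r + 2) ^ 3 + 3 * (r + 2) ^ 2 + (r + 2)) +
          (r + 2) * (r ^ 3 + 2 * r ^ 2 + r + 4) := by ring
      omega
  | succ n ih =>
    refine ⟨ih.2, ?_⟩
    have e : cntF (r + 2) (n + 1 + 6) = cntF (r + 2) (n + 6) + (r + 2) * cntF (r + 2) (n + 5) := by
      simp only [cntF]
    rw [e, mul_add]
    have h1 := ih.1
    have h2 := ih.2
    have h3 : r * ((r + 2) * cntF (r + 2) (n + 5)) ≤ (r + 2) ^ (n + 3) * (2 * r + 1) := by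
      calc _ = (r + 2) * (r * cntF (r + 2) (n + 5)) := by ring
        _ ≤ (r + 2) * ((r + 2) ^ (n + 2) * (2 * r + 1)) := Nat.mul_le_mul_left _ h1
        _ = _ := by ring
    have h4 : (r + 2) ^ (n + 1 + 3) * (2 * r + 1) =
        (r + 2) * ((r + 2) ^ (n + 3) * (2 * r + 1)) := by ring
    rw [h4]
    generalize (r + 2) ^ (n + 3) * (2 * r + 1) = X at h2 h3
    have h5 : 2 * X ≤ (r + 2) * X := Nat.mul_le_mul_right _ (by omega)
    omega

lemma cntB_le (q : ℕ) (hq : 2 ≤ q) (J : ℕ) : ∀ m, 1 ≤ m →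
    cntB q (J + 1) m ≤ cntC q (J + 1) m + q * (q - 2) * cntV q J m := by
  have hgam : ∀ j, j ≠ 0 → (gam q j) ^ 2 ≤ 1 + q * (q - 2) := by
    intro j _
    have h1 : gam q j ≤ q - 1 := Nat.gcd_le_left _ (by omega)
    obtain ⟨r, rfl⟩ : ∃ r, q = r + 2 := ⟨q - 2, by omega⟩
    simp only [Nat.add_sub_cancel] at *
    have h2 : gam (r + 2) j ≤ r + 1 := h1
    nlinarith
  have hN : ∀ s, cntN q s ≤ q ^ s := by
    intro s
    unfold cntN
    split_ifs with h
    · simp [h]
    · obtain ⟨k, rfl⟩ : ∃ k, s = k + 1 := ⟨s - 1, by omega⟩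
      simp only [Nat.add_sub_cancel]
      rw [pow_succ']
      exact Nat.mul_le_mul_right _ (by omega)
  induction J with
  | zero =>
    intro m _
    simp only [cntB, cntC]
    have : ∑ s ∈ Finset.range (m + 1), (if (0 + 1) * s ≤ m then cntN q s *
        (if m - (0 + 1) * s = 0 then gam q (0 + 1) ^ 2 else 0) else 0) ≤
        ∑ s ∈ Finset.range (m + 1), (if (0 + 1) * s ≤ m then cntN q s *
        (if m - (0 + 1) * s = 0 then 1 else 0) else 0) := by
      refine Finset.sum_le_sum fun s _ => ?_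
      have : gam q (0 + 1) = 1 := by simp [gam]
      rw [this]
      simp
    refine this.trans (Nat.le_add_right_of_le le_rfl)
  | succ J ih =>
    intro m hm
    have hexp : cntB q (J + 1 + 1) m = ∑ s ∈ Finset.range (m + 1),
      if (J + 1 + 1) * s ≤ m then
        cntN q s * (if m - (J + 1 + 1) * s = 0 then (gam q (J + 1 + 1)) ^ 2
          else cntB q (J + 1) (m - (J + 1 + 1) * s))
      else 0 := rfl
    have hexp2 : cntC q (J + 1 + 1) m = ∑ s ∈ Finset.range (m + 1),
      if (J + 1 + 1) * s ≤ m then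
        cntN q s * cntC q (J + 1) (m - (J + 1 + 1) * s) else 0 := rfl
    have hexp3 : cntV q (J + 1) m = ∑ s ∈ Finset.range (m + 1),
      if (J + 1 + 1) * s ≤ m then q ^ s * cntV q J (m - (J + 1 + 1) * s) else 0 := rfl
    rw [hexp, hexp2, hexp3, Finset.mul_sum, ← Finset.sum_add_distrib]
    refine Finset.sum_le_sum fun s _ => ?_
    by_cases h : (J + 1 + 1) * s ≤ m
    · rw [if_pos h, if_pos h, if_pos h]
      by_cases h0 : m - (J + 1 + 1) * s = 0
      · rw [if_pos h0, h0, cntC_zero, cntV_zero, mul_one, mul_one]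
        have h1 := hgam (J + 1 + 1) (by omega)
        have h2 := hN s
        calc cntN q s * gam q (J + 1 + 1) ^ 2 ≤ cntN q s * (1 + q * (q - 2)) :=
              Nat.mul_le_mul_left _ h1
          _ = cntN q s + q * (q - 2) * cntN q s := by ring
          _ ≤ _ := Nat.add_le_add_left (Nat.mul_le_mul_left _ h2) _
      · rw [if_neg h0]
        have h1 := ih _ (Nat.pos_of_ne_zero h0)
        have h2 := hN s
        calc cntN q s * cntB q (J + 1) (m - (J + 1 + 1) * s)
            ≤ cntN q s * (cntC q (J + 1) (m - (J + 1 + 1) * s) +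
              q * (q - 2) * cntV q J (m - (J + 1 + 1) * s)) := Nat.mul_le_mul_left _ h1
          _ = cntN q s * cntC q (J + 1) (m - (J + 1 + 1) * s) +
              q * (q - 2) * (cntN q s * cntV q J (m - (J + 1 + 1) * s)) := by ring
          _ ≤ _ := Nat.add_le_add_left (Nat.mul_le_mul_left _ (Nat.mul_le_mul_right _ h2)) _
    · rw [if_neg h, if_neg h, if_neg h]; simp

/-- The numeric heart: for `n ≥ 5`. -/
lemma cntB_large (q : ℕ) (hq : 2 ≤ q) (k : ℕ) :
    cntB q (k + 5) (k + 5) ≤ (q - 1) * (q ^ (k + 4) + 3 * q ^ (k + 3)) := by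
  have h1 := cntB_le q hq (k + 4) (k + 5) (by omega)
  have h2 := cntV_le q (k + 4) (k + 5)
  have h3 := cntC_le q (k + 5) (by omega) (by omega)
  obtain ⟨r, rfl⟩ : ∃ r, q = r + 2 := ⟨q - 2, by omega⟩
  have h4 := (cntF_bd r k).1
  simp only [Nat.add_sub_cancel] at h1 ⊢
  have e : r + 2 - 1 = r + 1 := by omega
  rw [e]
  have h5 : r * cntV (r + 2) (k + 4) (k + 5) ≤ (r + 2) ^ (k + 2) * (2 * r + 1) :=
    (Nat.mul_le_mul_left _ h2).trans h4
  have h6 : (r + 2) * r * cntV (r + 2) (k + 4) (k + 5) ≤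
      (r + 2) * ((r + 2) ^ (k + 2) * (2 * r + 1)) := by
    calc _ = (r + 2) * (r * cntV (r + 2) (k + 4) (k + 5)) := by ring
      _ ≤ _ := Nat.mul_le_mul_left _ h5
  have h7 : (r + 2) ^ (k + 5) + (r + 2) * ((r + 2) ^ (k + 2) * (2 * r + 1)) =
      (r + 1) * ((r + 2) ^ (k + 4) + 3 * (r + 2) ^ (k + 3)) := by ring
  rw [← h7]
  exact h1.trans (Nat.add_le_add h3 h6)

lemma cntB_two (q : ℕ) : cntB q 2 2 = cntN q 2 + cntN q 1 * (gam q 2) ^ 2 := by
  have h0 : cntN q 0 = 1 := by simp [cntN]
  simp [cntB, Finset.sum_range_succ, gam, h0]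

lemma cntB_three (q : ℕ) : cntB q 3 3 = cntN q 3 + cntN q 1 * cntN q 1 + cntN q 1 * (gam q 3) ^ 2 := by
  have h0 : cntN q 0 = 1 := by simp [cntN]
  simp [cntB, Finset.sum_range_succ, gam, h0]

lemma cntB_four (q : ℕ) : cntB q 4 4 = cntN q 4 + cntN q 1 * cntN q 2 + cntN q 2 * (gam q 2) ^ 2 +
    cntN q 1 * cntN q 1 + cntN q 1 * (gam q 4) ^ 2 := by
  have h0 : cntN q 0 = 1 := by simp [cntN]
  simp [cntB, Finset.sum_range_succ, gam, h0]


section lists

variable {F : Type*} [Field F] [Fintype F]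

/-- Sign-adjusted constant term: the determinant of multiplication by `X`. -/
noncomputable def dt (h : F[X]) : F := (-1) ^ h.natDegree * h.coeff 0

/-- The determinant attached to a list of invariants. -/
noncomputable def detL : List F[X] → F
  | [] => 1
  | h :: l => dt h ^ (l.length + 1) * detL l

open Classical in
/-- The smallest exponent occurring in a list of invariants (`0` if there is none). -/
noncomputable def minJ : List F[X] → ℕ
  | [] => 0
  | h :: l => if minJ l ≠ 0 then minJ l else if h ≠ 1 then l.length + 1 else 0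

lemma mem_tupL_succ {J m : ℕ} {t : List F[X]} : t ∈ tupL F (J + 1) m ↔
    ∃ s, (J + 1) * s ≤ m ∧ ∃ h ∈ nzSet F s, ∃ l ∈ tupL F J (m - (J + 1) * s), t = h :: l := by
  classical
  rw [tupL, Finset.mem_biUnion]
  constructor
  · rintro ⟨s, _, hs⟩
    by_cases h : (J + 1) * s ≤ m
    · rw [if_pos h, Finset.mem_image] at hs
      obtain ⟨⟨a, b⟩, hab, rfl⟩ := hs
      obtain ⟨ha, hb⟩ := Finset.mem_product.1 hab
      exact ⟨s, h, a, ha, b, hb, rfl⟩
    · rw [if_neg h] at hs
      simp at hs
  · rintro ⟨s, h, a, ha, b, hb, rfl⟩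
    have hle : s ≤ (J + 1) * s := Nat.le_mul_of_pos_left _ (by omega)
    refine ⟨s, Finset.mem_range.2 (by omega), ?_⟩
    rw [if_pos h, Finset.mem_image]
    exact ⟨(a, b), Finset.mem_product.2 ⟨ha, hb⟩, rfl⟩

lemma length_of_mem {J m : ℕ} {t : List F[X]} (ht : t ∈ tupL F J m) : t.length = J := by
  classical
  induction J generalizing m t with
  | zero =>
    rw [tupL] at ht
    split_ifs at ht
    · rw [Finset.mem_singleton] at ht
      simp [ht]
    · simp at ht
  | succ J ih =>
    obtain ⟨s, _, h, _, l, hl, rfl⟩ := mem_tupL_succ.1 ht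
    simp [ih hl]

lemma sum_tupL_succ (φ : List F[X] → ℕ) (J m : ℕ) :
    ∑ t ∈ tupL F (J + 1) m, φ t = ∑ s ∈ Finset.range (m + 1),
      if (J + 1) * s ≤ m then ∑ h ∈ nzSet F s, ∑ l ∈ tupL F J (m - (J + 1) * s), φ (h :: l)
      else 0 := by
  classical
  rw [tupL, Finset.sum_biUnion]
  · refine Finset.sum_congr rfl fun s _ => ?_
    by_cases h : (J + 1) * s ≤ m
    · rw [if_pos h, if_pos h, Finset.sum_image, Finset.sum_product]
      rintro ⟨a, b⟩ _ ⟨c, d⟩ _ hab
      simp only [List.cons.injEq] at hab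
      rw [hab.1, hab.2]
    · rw [if_neg h, if_neg h]; simp
  · intro s _ s' _ hss
    refine Finset.disjoint_left.2 fun t ht ht' => hss ?_
    by_cases h : (J + 1) * s ≤ m
    · by_cases h' : (J + 1) * s' ≤ m
      · simp only [] at ht ht'
        rw [if_pos h, Finset.mem_image] at ht
        rw [if_pos h', Finset.mem_image] at ht'
        obtain ⟨⟨a, b⟩, hab, rfl⟩ := ht
        obtain ⟨⟨c, d⟩, hcd, hc⟩ := ht'
        simp only [List.cons.injEq] at hc
        have h1 := (mem_nzSet.1 (Finset.mem_product.1 hab).1).2.1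
        have h2 := (mem_nzSet.1 (Finset.mem_product.1 hcd).1).2.1
        simp only at h1 h2
        rw [← h1, ← h2, hc.1]
      · simp only [] at ht'
        rw [if_neg h'] at ht'
        simp at ht'
    · simp only [] at ht
      rw [if_neg h] at ht
      simp at ht

lemma nzSet_zero : nzSet F 0 = {1} := by
  ext p
  rw [mem_nzSet, Finset.mem_singleton]
  constructor
  · rintro ⟨hm, hd, _⟩
    exact eq_one_of_monic_natDegree_zero hm hd
  · rintro rfl
    simp

lemma tupL_zero (J : ℕ) : tupL F J 0 = {List.replicate J 1} := by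
  classical
  induction J with
  | zero => simp [tupL]
  | succ J ih =>
    ext t
    rw [mem_tupL_succ, Finset.mem_singleton]
    constructor
    · rintro ⟨s, hs, h, hh, l, hl, rfl⟩
      have hs0 : s = 0 := by
        have : 0 < J + 1 := by omega
        have h2 : (J + 1) * s = 0 := by omega
        rcases Nat.mul_eq_zero.1 h2 with h3 | h3
        · omega
        · exact h3
      subst hs0
      rw [nzSet_zero, Finset.mem_singleton] at hh
      simp only [mul_zero, Nat.sub_zero] at hl
      rw [ih, Finset.mem_singleton] at hl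
      rw [hh, hl]
      rfl
    · rintro rfl
      refine ⟨0, by simp, 1, by rw [nzSet_zero]; simp, List.replicate J 1, ?_, rfl⟩
      simp [ih]

lemma minJ_replicate (J : ℕ) : minJ (List.replicate J (1 : F[X])) = 0 := by
  induction J with
  | zero => simp [minJ]
  | succ J ih => simp [List.replicate_succ, minJ, ih]

lemma dt_one : dt (1 : F[X]) = 1 := by simp [dt]

lemma detL_replicate (J : ℕ) : detL (List.replicate J (1 : F[X])) = 1 := by
  induction J with
  | zero => simp [detL]
  | succ J ih => simp [List.replicate_succ, detL, ih, dt_one]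

lemma minJ_ne_zero {J m : ℕ} {t : List F[X]} (ht : t ∈ tupL F J m) (hm : 1 ≤ m) : minJ t ≠ 0 := by
  classical
  induction J generalizing m t with
  | zero =>
    rw [tupL, if_neg (by omega)] at ht
    simp at ht
  | succ J ih =>
    obtain ⟨s, hs, h, hh, l, hl, rfl⟩ := mem_tupL_succ.1 ht
    by_cases h0 : m - (J + 1) * s = 0
    · rw [h0, tupL_zero, Finset.mem_singleton] at hl
      subst hl
      have hs0 : s ≠ 0 := by
        rintro rfl
        omega
      have hne : h ≠ 1 := by
        rintro rfl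
        have := (mem_nzSet.1 hh).2.1
        simp at this
        omega
      simp [minJ, minJ_replicate, hne]
    · have := ih hl (Nat.pos_of_ne_zero h0)
      simp [minJ, this]

lemma dt_ne_zero {h : F[X]} (hh : h.coeff 0 ≠ 0) : dt h ≠ 0 := by
  unfold dt
  exact mul_ne_zero (pow_ne_zero _ (neg_ne_zero.2 one_ne_zero)) hh

open Classical in
/-- The number of `h` of degree `s ≥ 1` with given constant term. -/
lemma card_fiber_dt (s : ℕ) (b : F) :
    ((nzSet F (s + 1)).filter (fun h => dt h = b)).card ≤ Fintype.card F ^ s := by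
  classical
  rw [← card_monicSet (F := F) s]
  refine Finset.card_le_card_of_injOn (fun h => divX h) ?_ ?_
  · intro h hh
    have hh' := Finset.mem_filter.1 (Finset.mem_coe.1 hh)
    obtain ⟨hm, hd, _⟩ := mem_nzSet.1 hh'.1
    refine Finset.mem_coe.2 (mem_monicSet.2 ?_)
    have hd2 : (divX h).natDegree = s := by
      rw [natDegree_divX_eq_natDegree_tsub_one, hd]; rfl
    refine ⟨?_, hd2⟩
    show (divX h).leadingCoeff = 1
    rw [leadingCoeff, hd2, coeff_divX, ← hd]
    exact hm
  · intro h hh h' hh' heq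
    have hh1 := Finset.mem_filter.1 (Finset.mem_coe.1 hh)
    have hh2 := Finset.mem_filter.1 (Finset.mem_coe.1 hh')
    obtain ⟨_, hd, _⟩ := mem_nzSet.1 hh1.1
    obtain ⟨_, hd', _⟩ := mem_nzSet.1 hh2.1
    have e1 : dt h = dt h' := by rw [hh1.2, hh2.2]
    unfold dt at e1
    rw [hd, hd'] at e1
    have e2 : h.coeff 0 = h'.coeff 0 :=
      mul_left_cancel₀ (pow_ne_zero _ (neg_ne_zero.2 one_ne_zero)) e1
    rw [← divX_mul_X_add h, ← divX_mul_X_add h']
    simp only [] at heq
    rw [heq, e2]

open Classical in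
/-- Solutions of `b ^ j = a` for `a ≠ 0`. -/
lemma card_roots_le (j : ℕ) (hj : j ≠ 0) (a : F) (ha : a ≠ 0) :
    ((Finset.univ : Finset F).filter (fun b => b ^ j = a)).card ≤
      gam (Fintype.card F) j := by
  classical
  have hg : 0 < gam (Fintype.card F) j := Nat.gcd_pos_of_pos_right _ (Nat.pos_of_ne_zero hj)
  rcases Finset.eq_empty_or_nonempty
    ((Finset.univ : Finset F).filter (fun b => b ^ j = a)) with h | ⟨b₀, hb₀⟩
  · rw [h]; simp
  · have hb₀' := (Finset.mem_filter.1 hb₀).2
    have hb₀0 : b₀ ≠ 0 := by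
      rintro rfl
      rw [zero_pow hj] at hb₀'
      exact ha hb₀'.symm
    refine le_trans (Finset.card_le_card_of_injOn (fun b => if h : b ≠ 0 then Units.mk0 b h * (Units.mk0 b₀ hb₀0)⁻¹ else 1)
      (t := (Finset.univ : Finset Fˣ).filter (fun x => x ^ gam (Fintype.card F) j = 1)) ?_ ?_)
      (IsCyclic.card_pow_eq_one_le hg)
    · intro b hb
      have hb' := (Finset.mem_filter.1 (Finset.mem_coe.1 hb)).2
      have hb0 : b ≠ 0 := by
        rintro rfl
        rw [zero_pow hj] at hb'
        exact ha hb'.symm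
      refine Finset.mem_coe.2 (Finset.mem_filter.2 ⟨Finset.mem_univ _, ?_⟩)
      simp only [hb0, ne_eq, not_false_eq_true, dite_true]
      set x := Units.mk0 b hb0 * (Units.mk0 b₀ hb₀0)⁻¹ with hx
      have h1 : x ^ j = 1 := by
        apply Units.ext
        simp only [hx, mul_pow, inv_pow, Units.val_mul, Units.val_pow_eq_pow_val, Units.val_inv_eq_inv_val,
          Units.val_mk0, Units.val_one]
        rw [hb', hb₀', mul_inv_cancel₀ ha]
      have h2 : x ^ (Fintype.card F - 1) = 1 := by
        have := pow_card_eq_one (x := x)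
        rwa [Fintype.card_units] at this
      show x ^ Nat.gcd (Fintype.card F - 1) j = 1
      exact pow_gcd_eq_one.2 ⟨h2, h1⟩
    · intro b hb b' hb' heq
      have h1 := (Finset.mem_filter.1 (Finset.mem_coe.1 hb)).2
      have h2 := (Finset.mem_filter.1 (Finset.mem_coe.1 hb')).2
      have hb0 : b ≠ 0 := by
        rintro rfl
        rw [zero_pow hj] at h1
        exact ha h1.symm
      have hb0' : b' ≠ 0 := by
        rintro rfl
        rw [zero_pow hj] at h2
        exact ha h2.symm
      simp only [hb0, hb0', ne_eq, not_false_eq_true, dite_true] at heq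
      have := mul_right_cancel heq
      exact congrArg Units.val this

open Classical in
/-- The count of `h` of degree `s ≥ 1` with `dt h ^ j = a`. -/
lemma card_det_le (s j : ℕ) (hj : j ≠ 0) (a : F) (ha : a ≠ 0) :
    ((nzSet F (s + 1)).filter (fun h => dt h ^ j = a)).card ≤
      gam (Fintype.card F) j * Fintype.card F ^ s := by
  classical
  have h1 : (nzSet F (s + 1)).filter (fun h => dt h ^ j = a) ⊆
      ((Finset.univ : Finset F).filter (fun b => b ^ j = a)).biUnion
        (fun b => (nzSet F (s + 1)).filter (fun h => dt h = b)) := by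
    intro h hh
    have hh' := Finset.mem_filter.1 hh
    refine Finset.mem_biUnion.2 ⟨dt h, Finset.mem_filter.2 ⟨Finset.mem_univ _, hh'.2⟩,
      Finset.mem_filter.2 ⟨hh'.1, rfl⟩⟩
  refine (Finset.card_le_card h1).trans (Finset.card_biUnion_le.trans ?_)
  calc _ ≤ ∑ _b ∈ (Finset.univ : Finset F).filter (fun b => b ^ j = a), Fintype.card F ^ s :=
        Finset.sum_le_sum fun b _ => card_fiber_dt s b
    _ = _ := by rw [Finset.sum_const, smul_eq_mul]
    _ ≤ _ := Nat.mul_le_mul_right _ (card_roots_le j hj a ha)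

lemma sum_gam (J : ℕ) : ∀ m, 1 ≤ m → ∑ t ∈ tupL F J m, (gam (Fintype.card F) (minJ t)) ^ 2 =
    cntB (Fintype.card F) J m := by
  classical
  induction J with
  | zero =>
    intro m hm
    rw [tupL, if_neg (by omega)]
    simp [cntB]
  | succ J ih =>
    intro m hm
    rw [sum_tupL_succ]
    show _ = ∑ s ∈ Finset.range (m + 1), if (J + 1) * s ≤ m then
        cntN (Fintype.card F) s * (if m - (J + 1) * s = 0 then (gam (Fintype.card F) (J + 1)) ^ 2
          else cntB (Fintype.card F) J (m - (J + 1) * s)) else 0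
    refine Finset.sum_congr rfl fun s _ => ?_
    by_cases hs : (J + 1) * s ≤ m
    · rw [if_pos hs, if_pos hs]
      by_cases h0 : m - (J + 1) * s = 0
      · rw [if_pos h0, h0, tupL_zero, ← card_nzSet]
        refine Eq.trans ?_ (Finset.sum_const (M := ℕ) _ |>.trans (smul_eq_mul _ _))
        refine Finset.sum_congr rfl fun h hh => ?_
        rw [Finset.sum_singleton]
        have hs0 : s ≠ 0 := by
          rintro rfl
          omega
        have hne : h ≠ 1 := by
          rintro rfl
          have := (mem_nzSet.1 hh).2.1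
          simp at this
          omega
        simp [minJ, minJ_replicate, hne]
      · rw [if_neg h0, ← ih _ (Nat.pos_of_ne_zero h0), ← card_nzSet]
        refine Eq.trans ?_ (Finset.sum_const (M := ℕ) _ |>.trans (smul_eq_mul _ _))
        refine Finset.sum_congr rfl fun h _ => ?_
        refine Finset.sum_congr rfl fun l hl => ?_
        have := minJ_ne_zero hl (Nat.pos_of_ne_zero h0)
        simp [minJ, this]
    · rw [if_neg hs, if_neg hs]

open Classical in
lemma key_det (J : ℕ) : ∀ m, 1 ≤ m → ∀ a : F, a ≠ 0 →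
    (Fintype.card F - 1) * ∑ t ∈ tupL F J m,
      (if detL t = a then gam (Fintype.card F) (minJ t) else 0) ≤
    ∑ t ∈ tupL F J m, (gam (Fintype.card F) (minJ t)) ^ 2 := by
  classical
  induction J with
  | zero =>
    intro m hm a _
    rw [tupL, if_neg (by omega)]
    simp
  | succ J ih =>
    intro m hm a ha
    rw [sum_tupL_succ, sum_tupL_succ, Finset.mul_sum]
    refine Finset.sum_le_sum fun s _ => ?_
    by_cases hs : (J + 1) * s ≤ m
    · rw [if_pos hs, if_pos hs]
      by_cases h0 : m - (J + 1) * s = 0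
      · rw [h0, tupL_zero]
        simp only [Finset.sum_singleton]
        obtain ⟨s', rfl⟩ : ∃ s', s = s' + 1 := by
          refine ⟨s - 1, ?_⟩
          have : s ≠ 0 := by
            rintro rfl
            omega
          omega
        have hm1 : ∀ h ∈ nzSet F (s' + 1), minJ (h :: List.replicate J (1 : F[X])) = J + 1 := by
          intro h hh
          have hne : h ≠ 1 := by
            rintro rfl
            have := (mem_nzSet.1 hh).2.1
            simp at this
          simp [minJ, minJ_replicate, hne]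
        have hd1 : ∀ h : F[X], detL (h :: List.replicate J (1 : F[X])) = dt h ^ (J + 1) := by
          intro h
          simp [detL, detL_replicate]
        have e1 : ∑ h ∈ nzSet F (s' + 1), (if detL (h :: List.replicate J (1 : F[X])) = a then
            gam (Fintype.card F) (minJ (h :: List.replicate J (1 : F[X]))) else 0) =
            ∑ h ∈ nzSet F (s' + 1), (if dt h ^ (J + 1) = a then gam (Fintype.card F) (J + 1) else 0) :=
          Finset.sum_congr rfl (fun h hh => by rw [hm1 h hh, hd1 h])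
        have e2 : ∑ h ∈ nzSet F (s' + 1), (gam (Fintype.card F) (minJ (h :: List.replicate J (1 : F[X])))) ^ 2 =
            ∑ h ∈ nzSet F (s' + 1), (gam (Fintype.card F) (J + 1)) ^ 2 :=
          Finset.sum_congr rfl (fun h hh => by rw [hm1 h hh])
        rw [e1, e2]
        rw [Finset.sum_ite, Finset.sum_const_zero, add_zero, Finset.sum_const, Finset.sum_const,
          smul_eq_mul, smul_eq_mul, card_nzSet]
        have h1 := card_det_le s' (J + 1) (by omega) a ha
        simp only [cntN, Nat.add_eq_zero_iff, one_ne_zero, and_false, if_false, Nat.add_sub_cancel]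
        set c := ((nzSet F (s' + 1)).filter (fun h => dt h ^ (J + 1) = a)).card
        set g := gam (Fintype.card F) (J + 1)
        set q := Fintype.card F
        calc (q - 1) * (c * g) ≤ (q - 1) * ((g * q ^ s') * g) :=
              Nat.mul_le_mul_left _ (Nat.mul_le_mul_right _ h1)
          _ = _ := by ring
      · have hp := Nat.pos_of_ne_zero h0
        rw [Finset.mul_sum]
        refine Finset.sum_le_sum fun h hh => ?_
        have hh0 := (mem_nzSet.1 hh).2.2
        have hdt : dt h ≠ 0 := dt_ne_zero hh0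
        have hd : (dt h ^ (J + 1)) ≠ 0 := pow_ne_zero _ hdt
        have := ih _ hp (a / dt h ^ (J + 1)) (div_ne_zero ha hd)
        have e1 : ∀ l ∈ tupL F J (m - (J + 1) * s),
            (if detL (h :: l) = a then gam (Fintype.card F) (minJ (h :: l)) else 0) =
            (if detL l = a / dt h ^ (J + 1) then gam (Fintype.card F) (minJ l) else 0) := by
          intro l hl
          have hlen := length_of_mem hl
          have hmin := minJ_ne_zero hl hp
          have e2 : minJ (h :: l) = minJ l := by simp [minJ, hmin]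
          have e3 : detL (h :: l) = dt h ^ (J + 1) * detL l := by simp [detL, hlen]
          rw [e2, e3]
          have e4 : (dt h ^ (J + 1) * detL l = a) ↔ (detL l = a / dt h ^ (J + 1)) := by
            rw [eq_div_iff hd, mul_comm]
          simp only [e4]
        have e5 : ∀ l ∈ tupL F J (m - (J + 1) * s),
            (gam (Fintype.card F) (minJ (h :: l))) ^ 2 = (gam (Fintype.card F) (minJ l)) ^ 2 := by
          intro l hl
          have hmin := minJ_ne_zero hl hp
          have e2 : minJ (h :: l) = minJ l := by simp [minJ, hmin]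
          rw [e2]
        rw [Finset.sum_congr rfl e1, Finset.sum_congr rfl e5]
        exact this
    · rw [if_neg hs, if_neg hs]; simp

end lists

section det

universe u

variable {F : Type u} [Field F]

lemma det_bd {ι : Type*} [Fintype ι] [DecidableEq ι] {m : ι → Type*} [∀ i, Fintype (m i)]
    [∀ i, DecidableEq (m i)] (A : ∀ i, Matrix (m i) (m i) F) :
    (Matrix.blockDiagonal' A).det = ∏ i, (A i).det := by
  classical
  letI : LinearOrder ι := LinearOrder.lift' (Fintype.equivFin ι) (Equiv.injective _)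
  have hb : Matrix.BlockTriangular (Matrix.blockDiagonal' A) (Sigma.fst) := by
    intro x y hxy
    rw [Matrix.blockDiagonal'_apply, dif_neg]
    exact fun h => (ne_of_gt hxy) h
  rw [hb.det]
  have hsq : ∀ a, (Matrix.toSquareBlock (Matrix.blockDiagonal' A) Sigma.fst a).det = (A a).det := by
    intro a
    let e : {x : Σ i, m i // x.1 = a} ≃ m a :=
      { toFun := fun x => x.2 ▸ x.1.2
        invFun := fun y => ⟨⟨a, y⟩, rfl⟩
        left_inv := by
          rintro ⟨⟨i, y⟩, rfl⟩
          rfl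
        right_inv := fun y => rfl }
    have : Matrix.toSquareBlock (Matrix.blockDiagonal' A) Sigma.fst a = (A a).submatrix e e := by
      ext x y
      obtain ⟨⟨i, x⟩, hx⟩ := x
      obtain ⟨⟨j, y⟩, hy⟩ := y
      have hi : i = a := hx
      have hj : j = a := hy
      subst hi
      subst hj
      show Matrix.blockDiagonal' A ⟨_, x⟩ ⟨_, y⟩ = A _ x y
      simp [Matrix.blockDiagonal'_apply]
    rw [this, Matrix.det_submatrix_equiv_self]
  simp only [hsq]
  refine Finset.prod_subset (Finset.subset_univ _) ?_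
  intro a _ ha
  have hE : IsEmpty (m a) := ⟨fun y => ha (Finset.mem_image.2 ⟨⟨a, y⟩, Finset.mem_univ _, rfl⟩)⟩
  exact Matrix.det_isEmpty

lemma det_pi_dep {ι : Type*} [Fintype ι] [DecidableEq ι] (M : ι → Type*)
    [∀ i, AddCommGroup (M i)] [∀ i, Module F (M i)] [∀ i, Module.Finite F (M i)]
    (f : ∀ i, M i →ₗ[F] M i) :
    (LinearMap.pi (fun i ↦ (f i).comp (LinearMap.proj i))).det = ∏ i, (f i).det := by
  classical
  let b := fun i => Module.Free.chooseBasis F (M i)
  let B := Pi.basis b
  simp_rw [← LinearMap.det_toMatrix B, ← fun i => LinearMap.det_toMatrix (b i)]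
  have : ((LinearMap.toMatrix B B) (LinearMap.pi fun i ↦ f i ∘ₗ LinearMap.proj i)) =
      Matrix.blockDiagonal' (fun i ↦ LinearMap.toMatrix (b i) (b i) (f i)) := by
    ext ⟨i₁, i₂⟩ ⟨j₁, j₂⟩
    unfold B
    simp_rw [LinearMap.toMatrix_apply', Matrix.blockDiagonal'_apply, Pi.basis_apply,
      Pi.basis_repr, LinearMap.pi_apply, LinearMap.coe_comp, Function.comp_apply,
      LinearMap.toMatrix_apply', LinearMap.coe_proj, Function.eval]
    by_cases h : i₁ = j₁
    · subst h
      simp
    · simp [h, Pi.single_apply, Ne.symm h]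
  rw [this, det_bd]

/-- Multiplication by `v` on the cyclic quotient. -/
noncomputable def mu (f v : F[X]) : Module.End F (Qf f) where
  toFun y := v • y
  map_add' := smul_add v
  map_smul' c y := smul_algebra_smul_comm c v y

lemma mu_apply (f v : F[X]) (y : Qf f) : mu f v y = v • y := rfl

lemma finite_Qf (f : F[X]) (hf : f ≠ 0) : Module.Finite F (Qf f) :=
  (AdjoinRoot.powerBasis hf).finite

/-- The map `[y] ↦ [f y]`. -/
noncomputable def alphaQ (f g : F[X]) : Qf g →ₗ[F[X]] Qf (f * g) :=
  Submodule.mapQ _ _ (LinearMap.mulLeft F[X] f) (by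
    rw [Submodule.span_singleton_le_iff_mem, Submodule.mem_comap]
    exact Submodule.mem_span_singleton_self _)

/-- The map `[y] ↦ [y]`. -/
noncomputable def betaQ (f g : F[X]) : Qf (f * g) →ₗ[F[X]] Qf f :=
  Submodule.mapQ _ _ LinearMap.id (by
    rw [Submodule.span_singleton_le_iff_mem, Submodule.mem_comap]
    exact Submodule.mem_span_singleton.2 ⟨g, by simp [mul_comm]⟩)

lemma alphaQ_mk (f g y : F[X]) : alphaQ f g (Submodule.Quotient.mk y) =
    Submodule.Quotient.mk (f * y) := rfl

lemma betaQ_mk (f g y : F[X]) : betaQ f g (Submodule.Quotient.mk y) =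
    Submodule.Quotient.mk y := rfl

lemma alphaQ_inj (f g : F[X]) (hf : f ≠ 0) : Function.Injective (alphaQ f g) := by
  rw [injective_iff_map_eq_zero]
  intro y
  obtain ⟨y, rfl⟩ := Submodule.Quotient.mk_surjective _ y
  rw [alphaQ_mk, Submodule.Quotient.mk_eq_zero, Submodule.mem_span_singleton,
    Submodule.Quotient.mk_eq_zero, Submodule.mem_span_singleton]
  rintro ⟨c, hc⟩
  refine ⟨c, ?_⟩
  simp only [smul_eq_mul] at hc ⊢
  apply mul_left_cancel₀ hf
  rw [← hc]
  ring

lemma betaQ_surj (f g : F[X]) : Function.Surjective (betaQ f g) := by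
  intro y
  obtain ⟨y, rfl⟩ := Submodule.Quotient.mk_surjective _ y
  exact ⟨Submodule.Quotient.mk y, rfl⟩

lemma ker_betaQ (f g y : F[X]) (h : betaQ f g (Submodule.Quotient.mk y) = 0) :
    ∃ z, alphaQ f g z = Submodule.Quotient.mk y := by
  rw [betaQ_mk, Submodule.Quotient.mk_eq_zero, Submodule.mem_span_singleton] at h
  obtain ⟨c, hc⟩ := h
  refine ⟨Submodule.Quotient.mk c, ?_⟩
  rw [alphaQ_mk, ← hc, smul_eq_mul, mul_comm f c]

lemma beta_alpha (f g : F[X]) (z : Qf g) : betaQ f g (alphaQ f g z) = 0 := by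
  obtain ⟨z, rfl⟩ := Submodule.Quotient.mk_surjective _ z
  rw [alphaQ_mk, betaQ_mk, Submodule.Quotient.mk_eq_zero, Submodule.mem_span_singleton]
  exact ⟨z, by simp [mul_comm]⟩

lemma det_mu_mul (f g v : F[X]) (hf : f ≠ 0) (hg : g ≠ 0) :
    LinearMap.det (mu (f * g) v) = LinearMap.det (mu f v) * LinearMap.det (mu g v) := by
  classical
  haveI := finite_Qf f hf
  haveI := finite_Qf g hg
  haveI := finite_Qf (f * g) (mul_ne_zero hf hg)
  let αF : Qf g →ₗ[F] Qf (f * g) := (alphaQ f g).restrictScalars F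
  let βF : Qf (f * g) →ₗ[F] Qf f := (betaQ f g).restrictScalars F
  let W : Submodule F (Qf (f * g)) := LinearMap.range αF
  have hW : W = LinearMap.ker βF := by
    ext y
    constructor
    · rintro ⟨z, rfl⟩
      exact beta_alpha f g z
    · intro hy
      obtain ⟨y, rfl⟩ := Submodule.Quotient.mk_surjective _ y
      obtain ⟨z, hz⟩ := ker_betaQ f g y hy
      exact ⟨z, hz⟩
  have he : W ≤ W.comap (mu (f * g) v) := by
    rintro y ⟨z, rfl⟩
    refine ⟨v • z, ?_⟩
    show alphaQ f g (v • z) = v • alphaQ f g z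
    rw [map_smul]
  rw [LinearMap.det_eq_det_mul_det W _ he, mul_comm]
  congr 1
  · let κ : (Qf (f * g) ⧸ W) ≃ₗ[F] Qf f :=
      (Submodule.quotEquivOfEq W (LinearMap.ker βF) hW).trans
        (βF.quotKerEquivOfSurjective (betaQ_surj f g))
    have h1 : W.mapQ W (mu (f * g) v) he = (κ.symm : Qf f →ₗ[F] _) ∘ₗ (mu f v) ∘ₗ (κ : _ →ₗ[F] Qf f) := by
      apply LinearMap.ext
      intro y
      obtain ⟨y, rfl⟩ := Submodule.Quotient.mk_surjective _ y
      apply κ.injective
      simp only [LinearMap.comp_apply, LinearEquiv.coe_coe, LinearEquiv.apply_symm_apply]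
      show betaQ f g (v • y) = v • betaQ f g y
      rw [map_smul]
    rw [h1]
    exact LinearMap.det_conj _ κ.symm
  · let ε : Qf g ≃ₗ[F] W := LinearEquiv.ofInjective αF (alphaQ_inj f g hf)
    have h1 : (mu (f * g) v).restrict he = (ε : Qf g →ₗ[F] W) ∘ₗ (mu g v) ∘ₗ (ε.symm : W →ₗ[F] Qf g) := by
      apply LinearMap.ext
      intro y
      obtain ⟨z, rfl⟩ := ε.surjective y
      apply Subtype.ext
      simp only [LinearMap.comp_apply, LinearEquiv.coe_coe, LinearEquiv.symm_apply_apply]
      show v • alphaQ f g z = alphaQ f g (v • z)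
      rw [map_smul]
    rw [h1]
    exact LinearMap.det_conj _ ε

lemma det_mu_pow (π v : F[X]) (hπ : π ≠ 0) (e : ℕ) :
    LinearMap.det (mu (π ^ e) v) = LinearMap.det (mu π v) ^ e := by
  induction e with
  | zero =>
    have : Subsingleton (Qf (π ^ 0)) := by
      show Subsingleton (F[X] ⧸ Submodule.span F[X] {π ^ 0})
      rw [pow_zero, Submodule.Quotient.subsingleton_iff]
      exact Ideal.span_singleton_one
    rw [pow_zero (LinearMap.det (mu π v))]
    exact LinearMap.det_eq_one_of_subsingleton (mu (π ^ 0) v)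
  | succ e ih =>
    rw [pow_succ, det_mu_mul _ _ _ (pow_ne_zero _ hπ) hπ, ih, pow_succ]

lemma det_mu_norm (f v : F[X]) :
    LinearMap.det (mu f v) = Algebra.norm F (AdjoinRoot.mk f v) := by
  rw [Algebra.norm_apply]
  congr 1

lemma exists_mu_det [Fintype F] (π : F[X]) (hπ : Irreducible π) (a : F) :
    ∃ v, LinearMap.det (mu π v) = a := by
  haveI : Fact (Irreducible π) := ⟨hπ⟩
  haveI : Module.Finite F (AdjoinRoot π) := (AdjoinRoot.powerBasis hπ.ne_zero).finite
  haveI : Finite (AdjoinRoot π) := Module.finite_of_finite F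
  obtain ⟨x, hx⟩ := FiniteField.norm_surjective F (AdjoinRoot π) a
  obtain ⟨v, rfl⟩ := AdjoinRoot.mk_surjective x
  exact ⟨v, by rw [det_mu_norm, hx]⟩

lemma det_mu_X (f : F[X]) (hf : f.Monic) : LinearMap.det (mu f X) = dt f := by
  rw [det_mu_norm, AdjoinRoot.mk_X]
  have h := Algebra.PowerBasis.norm_gen_eq_coeff_zero_minpoly (AdjoinRoot.powerBasis hf.ne_zero)
  rw [AdjoinRoot.minpoly_powerBasis_gen_of_monic hf, AdjoinRoot.powerBasis_dim,
    AdjoinRoot.powerBasis_gen] at h
  rw [h, dt]

lemma dt_prod {ι : Type*} (s : Finset ι) (π : ι → F[X]) (hm : ∀ i, (π i).Monic) :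
    dt (∏ i ∈ s, π i) = ∏ i ∈ s, dt (π i) := by
  unfold dt
  rw [natDegree_prod_of_monic _ _ fun i _ => hm i, Finset.prod_mul_distrib,
    Finset.prod_pow_eq_pow_sum, coeff_zero_eq_eval_zero, eval_prod]
  simp only [coeff_zero_eq_eval_zero]

/-- The product endomorphism. -/
noncomputable def Pmu {ι : Type*} (g v : ι → F[X]) :
    Module.End F (∀ i, Qf (g i)) :=
  LinearMap.pi fun i => (mu (g i) (v i)).comp (LinearMap.proj i)

lemma Pmu_apply {ι : Type*} (g v : ι → F[X]) (w : ∀ i, Qf (g i)) (i : ι) :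
    Pmu g v w i = v i • w i := rfl

section conj

variable {n : ℕ} (A : Matrix.GeneralLinearGroup (Fin n) F) {ι : Type u} [Fintype ι]
  (g : ι → F[X]) (φ : Mm A ≃ₗ[F[X]] ∀ i, Qf (g i))

/-- The underlying `F`-linear identification. -/
noncomputable def psiE : (Fin n → F) ≃ₗ[F] ∀ i, Qf (g i) :=
  (Module.AEval'.of (Matrix.toLin' (A : Matrix (Fin n) (Fin n) F) : Module.End F (Fin n → F))).trans
    (φ.restrictScalars F)

lemma psiE_T (w : Fin n → F) :
    psiE A g φ (Matrix.toLin' (A : Matrix (Fin n) (Fin n) F) w) = (X : F[X]) • psiE A g φ w := by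
  show φ (Module.AEval'.of (Matrix.toLin' (A : Matrix (Fin n) (Fin n) F) : Module.End F (Fin n → F))
    (Matrix.toLin' (A : Matrix (Fin n) (Fin n) F) w)) = (X : F[X]) • φ (Module.AEval'.of _ w)
  rw [← Module.AEval'.X_smul_of, map_smul]

/-- The conjugated endomorphism of `F ^ n`. -/
noncomputable def ZZ (v : ι → F[X]) : (Fin n → F) →ₗ[F] (Fin n → F) :=
  ((psiE A g φ).symm : _ →ₗ[F] (Fin n → F)) ∘ₗ Pmu g v ∘ₗ ((psiE A g φ) : _ →ₗ[F] _)

lemma det_ZZ [DecidableEq ι] (hg : ∀ i, g i ≠ 0) (v : ι → F[X]) :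
    LinearMap.det (ZZ A g φ v) = ∏ i, LinearMap.det (mu (g i) (v i)) := by
  haveI : ∀ i, Module.Finite F (Qf (g i)) := fun i => finite_Qf (g i) (hg i)
  have h := LinearMap.det_conj (Pmu g v) (psiE A g φ).symm
  have h2 : LinearMap.det (Pmu g v) = ∏ i, LinearMap.det (mu (g i) (v i)) :=
    det_pi_dep _ _
  rw [← h2, ← h]
  rfl

lemma ZZ_X : ZZ A g φ (fun _ => X) = Matrix.toLin' (A : Matrix (Fin n) (Fin n) F) := by
  apply LinearMap.ext
  intro w
  show (psiE A g φ).symm (Pmu g (fun _ => X) (psiE A g φ w)) = _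
  have : Pmu g (fun _ => X) (psiE A g φ w) = (X : F[X]) • psiE A g φ w := by
    funext i
    rfl
  rw [this, ← psiE_T, LinearEquiv.symm_apply_apply]

lemma ZZ_comm (v : ι → F[X]) :
    ZZ A g φ v ∘ₗ (Matrix.toLin' (A : Matrix (Fin n) (Fin n) F) : (Fin n → F) →ₗ[F] (Fin n → F)) =
    (Matrix.toLin' (A : Matrix (Fin n) (Fin n) F) : (Fin n → F) →ₗ[F] (Fin n → F)) ∘ₗ ZZ A g φ v := by
  apply LinearMap.ext
  intro w
  show (psiE A g φ).symm (Pmu g v (psiE A g φ (Matrix.toLin' (A : Matrix (Fin n) (Fin n) F) w))) =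
    Matrix.toLin' (A : Matrix (Fin n) (Fin n) F) ((psiE A g φ).symm (Pmu g v (psiE A g φ w)))
  apply (psiE A g φ).injective
  rw [psiE_T, LinearEquiv.apply_symm_apply, psiE_T, LinearEquiv.apply_symm_apply]
  funext i
  exact smul_comm (v i) (X : F[X]) _

include φ in
lemma det_of_iso [DecidableEq ι] (hg : ∀ i, g i ≠ 0) :
    (A : Matrix (Fin n) (Fin n) F).det = ∏ i, LinearMap.det (mu (g i) X) := by
  rw [← det_ZZ A g φ hg, ZZ_X, LinearMap.det_toLin']

include φ in
lemma exists_comm [DecidableEq ι] (hg : ∀ i, g i ≠ 0) (i₀ : ι) (v₀ : F[X])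
    (hv : LinearMap.det (mu (g i₀) v₀) ≠ 0) :
    ∃ z : Matrix.GeneralLinearGroup (Fin n) F, z * A = A * z ∧
      (z : Matrix (Fin n) (Fin n) F).det = LinearMap.det (mu (g i₀) v₀) := by
  classical
  let v : ι → F[X] := Function.update (fun _ => 1) i₀ v₀
  have hd : LinearMap.det (ZZ A g φ v) = LinearMap.det (mu (g i₀) v₀) := by
    rw [det_ZZ A g φ hg, Finset.prod_eq_single i₀]
    · simp [v]
    · intro i _ hi
      have hvi : v i = 1 := by simp [v, hi]
      have : mu (g i) (v i) = 1 := by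
        apply LinearMap.ext
        intro y
        show v i • y = y
        rw [hvi, one_smul]
      rw [this, map_one]
    · simp
  let M := LinearMap.toMatrix' (ZZ A g φ v)
  have hM : M.det = LinearMap.det (mu (g i₀) v₀) := by
    simp only [M]
    rw [LinearMap.det_toMatrix', hd]
  refine ⟨Matrix.GeneralLinearGroup.mkOfDetNeZero M (hM ▸ hv), ?_, hM⟩
  apply Units.ext
  show M * (A : Matrix (Fin n) (Fin n) F) = (A : Matrix (Fin n) (Fin n) F) * M
  have e1 : (A : Matrix (Fin n) (Fin n) F) = LinearMap.toMatrix'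
      (Matrix.toLin' (A : Matrix (Fin n) (Fin n) F) : (Fin n → F) →ₗ[F] (Fin n → F)) := by simp
  simp only [M]
  rw [e1, ← LinearMap.toMatrix'_comp, ← LinearMap.toMatrix'_comp, ZZ_comm]

end conj

lemma exists_centr [Fintype F] {n : ℕ} (A : Matrix.GeneralLinearGroup (Fin n) F) (h : ℕ → F[X])
    (hT : IsTyp A h) (j : ℕ) (hj : h j ≠ 1) (a : Fˣ) :
    ∃ z : Matrix.GeneralLinearGroup (Fin n) F, z * A = A * z ∧
      (z : Matrix (Fin n) (Fin n) F).det = (a : F) ^ j := by
  classical
  obtain ⟨ι, fι, π, e, hi, hm, he, hle, hdef, ⟨φ⟩⟩ := hT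
  have hex : ∃ i₀, e i₀ = j := by
    by_contra hc
    push Not at hc
    apply hj
    rw [hdef j, Finset.filter_false_of_mem fun i _ => hc i, Finset.prod_empty]
  obtain ⟨i₀, rfl⟩ := hex
  obtain ⟨v₀, hv₀⟩ := exists_mu_det (π i₀) (hi i₀) (a : F)
  have hne : ∀ i, π i ^ e i ≠ 0 := fun i => pow_ne_zero _ (hi i).ne_zero
  have hd : LinearMap.det (mu (π i₀ ^ e i₀) v₀) = (a : F) ^ e i₀ := by
    rw [det_mu_pow _ _ (hi i₀).ne_zero, hv₀]
  obtain ⟨z, hz, hdz⟩ := exists_comm A (fun i => π i ^ e i) φ hne i₀ v₀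
    (by rw [hd]; exact pow_ne_zero _ a.ne_zero)
  exact ⟨z, hz, hdz.trans hd⟩

lemma det_of_typ [Fintype F] {n : ℕ} (A : Matrix.GeneralLinearGroup (Fin n) F) (h : ℕ → F[X])
    (hT : IsTyp A h) : (A : Matrix (Fin n) (Fin n) F).det =
      ∏ j ∈ Finset.range n, dt (h (j + 1)) ^ (j + 1) := by
  classical
  obtain ⟨ι, fι, π, e, hi, hm, he, hle, hdef, ⟨φ⟩⟩ := hT
  have hne : ∀ i, π i ^ e i ≠ 0 := fun i => pow_ne_zero _ (hi i).ne_zero
  rw [det_of_iso A (fun i => π i ^ e i) φ hne]
  have h1 : ∀ i, LinearMap.det (mu (π i ^ e i) X) = dt (π i) ^ e i := fun i => by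
    rw [det_mu_pow _ _ (hi i).ne_zero, det_mu_X _ (hm i)]
  simp only [h1]
  have h2 : ∀ j, dt (h (j + 1)) ^ (j + 1) =
      ∏ i ∈ Finset.univ.filter (fun i => e i = j + 1), dt (π i) ^ e i := by
    intro j
    rw [hdef, dt_prod _ _ hm, ← Finset.prod_pow]
    refine Finset.prod_congr rfl fun i hi' => ?_
    rw [(Finset.mem_filter.1 hi').2]
  simp only [h2]
  have h3 := Finset.prod_fiberwise_of_maps_to (s := Finset.univ) (t := Finset.range (n + 1))
    (g := e) (fun i _ => Finset.mem_range.2 (Nat.lt_succ_of_le (hle i)))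
    (fun i => dt (π i) ^ e i)
  rw [Finset.prod_range_succ'] at h3
  have h4 : (Finset.univ.filter (fun i => e i = 0)) = ∅ :=
    Finset.filter_false_of_mem fun i _ => he i
  rw [h4, Finset.prod_empty, mul_one] at h3
  exact h3.symm

end det

section toL

variable {F : Type*} [Field F]

lemma toL_length (h : ℕ → F[X]) (J : ℕ) : (toL h J).length = J := by
  induction J with
  | zero => rfl
  | succ J ih => simp [toL, ih]

lemma detL_toL (h : ℕ → F[X]) (J : ℕ) :
    detL (toL h J) = ∏ j ∈ Finset.range J, dt (h (j + 1)) ^ (j + 1) := by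
  induction J with
  | zero => simp [toL, detL]
  | succ J ih =>
    rw [Finset.prod_range_succ, ← ih]
    simp only [toL, detL, toL_length]
    ring

lemma minJ_toL (h : ℕ → F[X]) (J : ℕ) (hm : minJ (toL h J) ≠ 0) : h (minJ (toL h J)) ≠ 1 := by
  classical
  induction J with
  | zero => simp [toL, minJ] at hm
  | succ J ih =>
    simp only [toL, minJ, toL_length] at hm ⊢
    by_cases h1 : minJ (toL h J) ≠ 0
    · simp only [h1, ne_eq, not_false_eq_true, if_true]
      exact ih h1
    · have h2 : minJ (toL h J) = 0 := by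
        by_contra hc
        exact h1 hc
      simp only [h2, ne_eq, not_true_eq_false, if_false] at hm ⊢
      by_cases h3 : h (J + 1) = 1
      · simp [h3] at hm
      · simpa [h3] using h3

end toL

section main

universe u

variable {F : Type u} [Field F] [Fintype F]

lemma charpoly_of_conj {n : ℕ} {a b : Matrix.GeneralLinearGroup (Fin n) F} (h : IsConj a b) :
    (a : Matrix (Fin n) (Fin n) F).charpoly = (b : Matrix (Fin n) (Fin n) F).charpoly := by
  obtain ⟨c, hc⟩ := isConj_iff.1 h
  rw [← hc]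
  show _ = (((c : Matrix.GeneralLinearGroup (Fin n) F) : Matrix (Fin n) (Fin n) F) *
    (a : Matrix (Fin n) (Fin n) F) * ((c⁻¹ : Matrix.GeneralLinearGroup (Fin n) F) :
      Matrix (Fin n) (Fin n) F)).charpoly
  rw [Matrix.coe_units_inv, Matrix.charpoly_units_conj]

lemma fiber_card {n : ℕ} (A₀ : Matrix.GeneralLinearGroup (Fin n) F) (j : ℕ)
    (hz : ∀ a : Fˣ, ∃ z : Matrix.GeneralLinearGroup (Fin n) F, z * A₀ = A₀ * z ∧
      (z : Matrix (Fin n) (Fin n) F).det = (a : F) ^ j)
    (X : Finset (ConjClasses (Matrix.SpecialLinearGroup (Fin n) F)))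
    (rep : ConjClasses (Matrix.SpecialLinearGroup (Fin n) F) → Matrix.SpecialLinearGroup (Fin n) F)
    (hrep : ∀ c, ConjClasses.mk (rep c) = c)
    (hX : ∀ c ∈ X, IsConj A₀ (Matrix.SpecialLinearGroup.toGL (rep c))) :
    X.card ≤ gam (Fintype.card F) j := by
  classical
  have hex : ∀ c : X, ∃ x : Matrix.GeneralLinearGroup (Fin n) F,
      x * A₀ * x⁻¹ = Matrix.SpecialLinearGroup.toGL (rep c.1) :=
    fun c => isConj_iff.1 (hX c.1 c.2)
  choose x hx using hex
  let R : Subgroup Fˣ := (powMonoidHom j : Fˣ →* Fˣ).range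
  let φ : X → Fˣ ⧸ R := fun c => QuotientGroup.mk (Matrix.GeneralLinearGroup.det (x c))
  have hinj : Function.Injective φ := by
    intro c c' hcc
    have hcc' := QuotientGroup.eq.1 hcc
    obtain ⟨a, ha⟩ := hcc'
    obtain ⟨z, hz1, hz2⟩ := hz a
    have hz3 : Matrix.GeneralLinearGroup.det z = a ^ j := by
      apply Units.ext
      rw [Matrix.GeneralLinearGroup.val_det_apply, hz2]
      simp
    let s : Matrix.GeneralLinearGroup (Fin n) F := x c' * (x c * z)⁻¹
    have hs : Matrix.GeneralLinearGroup.det s = 1 := by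
      have ha' : a ^ j = (Matrix.GeneralLinearGroup.det (x c))⁻¹ *
          Matrix.GeneralLinearGroup.det (x c') := ha
      simp only [s]
      rw [map_mul, map_inv, map_mul, hz3, ha']
      group
    have hs' : (s : Matrix (Fin n) (Fin n) F).det = 1 := by
      rw [← Matrix.GeneralLinearGroup.val_det_apply, hs]
      rfl
    let s' : Matrix.SpecialLinearGroup (Fin n) F := ⟨s, hs'⟩
    have hs2 : Matrix.SpecialLinearGroup.toGL s' = s := Units.ext rfl
    have hz4 : z⁻¹ * A₀ * z = A₀ := by
      rw [mul_assoc, ← hz1, ← mul_assoc, inv_mul_cancel, one_mul]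
    have hconj : s' * rep c.1 * s'⁻¹ = rep c'.1 := by
      apply Matrix.SpecialLinearGroup.toGL_injective
      rw [map_mul, map_mul, map_inv, hs2, ← hx c, ← hx c']
      simp only [s]
      calc _ = x c' * (z⁻¹ * A₀ * z) * (x c')⁻¹ := by group
        _ = _ := by rw [hz4]
    have h1 : IsConj (rep c.1) (rep c'.1) := isConj_iff.2 ⟨s', hconj⟩
    have h2 := ConjClasses.mk_eq_mk_iff_isConj.2 h1
    rw [hrep, hrep] at h2
    exact Subtype.ext h2
  have h1 := Nat.card_le_card_of_injective φ hinj
  have h2 : Nat.card (Fˣ ⧸ R) = gam (Fintype.card F) j := by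
    show R.index = _
    simp only [R]
    rw [IsCyclic.index_powMonoidHom_range, Nat.card_eq_fintype_card, Fintype.card_units]
    rfl
  rw [h2, Nat.card_eq_fintype_card, Fintype.card_coe] at h1
  exact h1

lemma upper {n : ℕ} (hn : 1 ≤ n) : (Fintype.card F - 1) *
    Nat.card (ConjClasses (Matrix.SpecialLinearGroup (Fin n) F)) ≤ cntB (Fintype.card F) n n := by
  classical
  haveI : Fintype (ConjClasses (Matrix.SpecialLinearGroup (Fin n) F)) := Fintype.ofFinite _
  choose h hT hmm hsum using fun g : Matrix.SpecialLinearGroup (Fin n) F =>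
    exists_typ (Matrix.SpecialLinearGroup.toGL g)
  choose rep hrep using ConjClasses.exists_rep (α := Matrix.SpecialLinearGroup (Fin n) F)
  let τ : ConjClasses (Matrix.SpecialLinearGroup (Fin n) F) → List F[X] :=
    fun c => toL (h (rep c)) n
  have hτ : ∀ c, τ c ∈ tupL F n n := fun c => by
    have := toL_mem (h (rep c)) (hmm (rep c)) n
    rwa [hsum] at this
  have h1 : (Finset.univ : Finset (ConjClasses (Matrix.SpecialLinearGroup (Fin n) F))).card =
      ∑ t ∈ tupL F n n, (Finset.univ.filter (fun c => τ c = t)).card :=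
    Finset.card_eq_sum_card_fiberwise (fun c _ => hτ c)
  have h2 : ∀ t ∈ tupL F n n, (Finset.univ.filter (fun c => τ c = t)).card ≤
      if detL t = 1 then gam (Fintype.card F) (minJ t) else 0 := by
    intro t ht
    rcases Finset.eq_empty_or_nonempty (Finset.univ.filter (fun c => τ c = t)) with h0 | ⟨c₀, hc₀⟩
    · rw [h0]; simp
    · have hc₀' := (Finset.mem_filter.1 hc₀).2
      have hdet : detL t = 1 := by
        rw [← hc₀']
        show detL (toL (h (rep c₀)) n) = 1
        rw [detL_toL, ← det_of_typ _ _ (hT (rep c₀))]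
        exact (rep c₀).2
      rw [if_pos hdet]
      have hmin : minJ t ≠ 0 := minJ_ne_zero ht hn
      have hj : h (rep c₀) (minJ t) ≠ 1 := by
        rw [← hc₀'] at hmin ⊢
        exact minJ_toL _ _ hmin
      refine fiber_card (Matrix.SpecialLinearGroup.toGL (rep c₀)) (minJ t)
        (fun a => exists_centr _ _ (hT (rep c₀)) _ hj a) _ rep hrep ?_
      intro c hc
      have hc' := (Finset.mem_filter.1 hc).2
      exact conj_of_typ _ _ _ _ (hT (rep c₀)) (hT (rep c))
        (toL_inj _ _ n (hc₀'.trans hc'.symm))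
  have h3 := key_det (F := F) n n hn 1 one_ne_zero
  rw [sum_gam n n hn] at h3
  have h4 : Nat.card (ConjClasses (Matrix.SpecialLinearGroup (Fin n) F)) =
      (Finset.univ : Finset (ConjClasses (Matrix.SpecialLinearGroup (Fin n) F))).card := by
    rw [Nat.card_eq_fintype_card, Finset.card_univ]
  rw [h4, h1]
  refine le_trans (Nat.mul_le_mul_left _ (Finset.sum_le_sum h2)) ?_
  convert h3

lemma charpoly_SL {n : ℕ} {a b : Matrix.SpecialLinearGroup (Fin n) F} (h : IsConj a b) :
    (a : Matrix (Fin n) (Fin n) F).charpoly = (b : Matrix (Fin n) (Fin n) F).charpoly := by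
  have h2 : IsConj (Matrix.SpecialLinearGroup.toGL a) (Matrix.SpecialLinearGroup.toGL b) :=
    MonoidHom.map_isConj _ h
  have h3 := charpoly_of_conj h2
  rwa [Matrix.SpecialLinearGroup.coe_GL_coe_matrix, Matrix.SpecialLinearGroup.coe_GL_coe_matrix] at h3

lemma lower {n : ℕ} (hn : 2 ≤ n) : Fintype.card F ^ (n - 1) <
    Nat.card (ConjClasses (Matrix.SpecialLinearGroup (Fin n) F)) := by
  classical
  haveI : Fintype (ConjClasses (Matrix.SpecialLinearGroup (Fin n) F)) := Fintype.ofFinite _
  obtain ⟨m, rfl⟩ : ∃ m, n = m + 1 := ⟨n - 1, by omega⟩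
  simp only [Nat.add_sub_cancel]
  choose rep hrep using ConjClasses.exists_rep (α := Matrix.SpecialLinearGroup (Fin (m + 1)) F)
  let f : ConjClasses (Matrix.SpecialLinearGroup (Fin (m + 1)) F) → F[X] :=
    fun c => ((rep c : Matrix.SpecialLinearGroup (Fin (m + 1)) F) :
      Matrix (Fin (m + 1)) (Fin (m + 1)) F).charpoly
  have hf : ∀ g : Matrix.SpecialLinearGroup (Fin (m + 1)) F, f (ConjClasses.mk g) =
      (g : Matrix (Fin (m + 1)) (Fin (m + 1)) F).charpoly := by
    intro g
    have h1 : IsConj (rep (ConjClasses.mk g)) g :=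
      ConjClasses.mk_eq_mk_iff_isConj.1 (hrep _)
    exact charpoly_SL h1
  let Pd : Finset F[X] := (monicSet F m).image (fun r => X * r + C ((-1 : F) ^ (m + 1)))
  have hPd : Pd.card = Fintype.card F ^ m := by
    simp only [Pd]
    rw [Finset.card_image_of_injective, card_monicSet]
    intro r r' hr
    exact mul_left_cancel₀ X_ne_zero (add_right_cancel hr)
  have hsub : Pd ⊆ Finset.univ.image f := by
    intro p hp
    obtain ⟨r, hr, rfl⟩ := Finset.mem_image.1 hp
    obtain ⟨hrm, hrd⟩ := mem_monicSet.1 hr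
    have hc : (-1 : F) ^ (m + 1) ≠ 0 := pow_ne_zero _ (neg_ne_zero.2 one_ne_zero)
    have hm : (X * r + C ((-1 : F) ^ (m + 1))).Monic := by
      refine Polynomial.Monic.add_of_left (monic_X.mul hrm) ?_
      rw [degree_eq_natDegree (monic_X.mul hrm).ne_zero, natDegree_X_mul hrm.ne_zero, hrd]
      refine lt_of_le_of_lt degree_C_le ?_
      exact_mod_cast Nat.succ_pos m
    have hd : (X * r + C ((-1 : F) ^ (m + 1))).natDegree = m + 1 := by
      rw [natDegree_add_C, natDegree_X_mul hrm.ne_zero, hrd]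
    have h0 : (X * r + C ((-1 : F) ^ (m + 1))).coeff 0 = (-1 : F) ^ (m + 1) := by
      rw [coeff_add, mul_coeff_zero, coeff_X_zero, zero_mul, zero_add, coeff_C_zero]
    obtain ⟨g, hg⟩ := exists_gl _ hm hd (by rw [h0]; exact hc)
    have hdet : (g : Matrix (Fin (m + 1)) (Fin (m + 1)) F).det = 1 := by
      rw [Matrix.det_eq_sign_charpoly_coeff, hg, h0, Fintype.card_fin, ← mul_pow]
      simp
    let g' : Matrix.SpecialLinearGroup (Fin (m + 1)) F := ⟨g, hdet⟩
    refine Finset.mem_image.2 ⟨ConjClasses.mk g', Finset.mem_univ _, ?_⟩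
    rw [hf]
    exact hg
  have hlt : (Finset.univ.image f).card <
      (Finset.univ : Finset (ConjClasses (Matrix.SpecialLinearGroup (Fin (m + 1)) F))).card := by
    refine lt_of_le_of_ne Finset.card_image_le ?_
    intro hcard
    have hinj := Finset.card_image_iff.1 hcard
    have hm1 : 1 < m + 1 := by omega
    let i : Fin (m + 1) := ⟨0, by omega⟩
    let j : Fin (m + 1) := ⟨1, hm1⟩
    have hij : i ≠ j := by
      intro h
      have := congrArg Fin.val h
      simp [i, j] at this
    let x : Matrix.SpecialLinearGroup (Fin (m + 1)) F :=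
      ⟨Matrix.transvection i j 1, Matrix.det_transvection_of_ne i j hij 1⟩
    have hfx : f (ConjClasses.mk x) = f (ConjClasses.mk 1) := by
      rw [hf, hf]
      show (Matrix.transvection i j (1 : F)).charpoly = ((1 : Matrix (Fin (m + 1)) (Fin (m + 1)) F)).charpoly
      rw [Matrix.charpoly_of_isUpperTriangular, Matrix.charpoly_of_isUpperTriangular]
      · refine Finset.prod_congr rfl fun a _ => ?_
        simp [Matrix.transvection, Matrix.single_apply, hij]
        intro h1 h2
        exact absurd (h1.trans h2.symm) hij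
      · exact Matrix.blockTriangular_one
      · intro a b hab
        simp only [Matrix.transvection, Matrix.add_apply, Matrix.single_apply]
        have hne : a ≠ b := fun h => (ne_of_gt hab) (by rw [h])
        rw [Matrix.one_apply_ne hne, if_neg]
        · simp
        · rintro ⟨rfl, rfl⟩
          have hh : (⟨1, hm1⟩ : Fin (m + 1)) < ⟨0, by omega⟩ := hab
          simp [Fin.lt_def] at hh
    have hinj2 := hinj (Finset.mem_coe.2 (Finset.mem_univ _)) (Finset.mem_coe.2 (Finset.mem_univ _)) hfx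
    have hconj := ConjClasses.mk_eq_mk_iff_isConj.1 hinj2
    have hx1 : x = 1 := isConj_one_right.1 hconj.symm
    have h2 := congrArg (fun y : Matrix.SpecialLinearGroup (Fin (m + 1)) F =>
      (y : Matrix (Fin (m + 1)) (Fin (m + 1)) F) i j) hx1
    simp [x, Matrix.transvection, Matrix.single_apply, hij] at h2
  rw [Nat.card_eq_fintype_card, ← hPd]
  exact lt_of_le_of_lt (Finset.card_le_card hsub)
    (by rwa [Finset.card_univ] at hlt)

lemma gam_le_left (q j : ℕ) (hq : 2 ≤ q) : gam q j ≤ q - 1 := Nat.gcd_le_left _ (by omega)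

lemma gam_le_right (q j : ℕ) (hj : j ≠ 0) : gam q j ≤ j :=
  Nat.gcd_le_right _ (Nat.pos_of_ne_zero hj)

lemma cntN_succ (q a : ℕ) : cntN q (a + 1) = (q - 1) * q ^ a := by
  simp [cntN]

lemma bound_two (q : ℕ) (hq : 2 ≤ q) : cntB q 2 2 = (q - 1) * (q + gam q 2 ^ 2) := by
  rw [cntB_two, cntN_succ, cntN_succ]
  ring

lemma bound_two' (q : ℕ) (hq : 2 ≤ q) : 2 * (q + gam q 2 ^ 2) ≤ 5 * q := by
  have h1 := gam_le_left q 2 hq
  have h2 := gam_le_right q 2 (by norm_num)
  by_cases h3 : 3 ≤ q
  · have : gam q 2 ^ 2 ≤ 2 ^ 2 := Nat.pow_le_pow_left h2 2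
    omega
  · have h4 : gam q 2 ≤ 1 := by omega
    have : gam q 2 ^ 2 ≤ 1 ^ 2 := Nat.pow_le_pow_left h4 2
    omega

lemma bound_three (q : ℕ) (hq : 2 ≤ q) : cntB q 3 3 ≤ (q - 1) * (q ^ 2 + 3 * q ^ 1) := by
  rw [cntB_three, cntN_succ, cntN_succ]
  have h1 := gam_le_left q 3 hq
  have h2 := gam_le_right q 3 (by norm_num)
  have h3 : gam q 3 ^ 2 ≤ 2 * q + 1 := by
    by_cases h4 : 4 ≤ q
    · have : gam q 3 ^ 2 ≤ 3 ^ 2 := Nat.pow_le_pow_left h2 2
      omega
    · have h5 : gam q 3 ≤ 2 := by omega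
      have : gam q 3 ^ 2 ≤ 2 ^ 2 := Nat.pow_le_pow_left h5 2
      omega
  obtain ⟨r, rfl⟩ : ∃ r, q = r + 2 := ⟨q - 2, by omega⟩
  have e : r + 2 - 1 = r + 1 := by omega
  rw [e]
  calc _ = (r + 1) * ((r + 2) ^ 2 + (r + 1) + gam (r + 2) 3 ^ 2) := by ring
    _ ≤ (r + 1) * ((r + 2) ^ 2 + (r + 1) + (2 * (r + 2) + 1)) :=
      Nat.mul_le_mul_left _ (by omega)
    _ = _ := by ring

lemma bound_four (q : ℕ) (hq : 2 ≤ q) : cntB q 4 4 ≤ (q - 1) * (q ^ 3 + 3 * q ^ 2) := by
  rw [cntB_four, cntN_succ, cntN_succ, cntN_succ]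
  have h1 := gam_le_left q 2 hq
  have h2 := gam_le_right q 2 (by norm_num)
  have h3 := gam_le_left q 4 hq
  have h4 := gam_le_right q 4 (by norm_num)
  have h5 : q * gam q 2 ^ 2 + gam q 4 ^ 2 ≤ 2 * q ^ 2 + 1 := by
    by_cases h6 : 5 ≤ q
    · have h7 : gam q 2 ^ 2 ≤ 2 ^ 2 := Nat.pow_le_pow_left h2 2
      have h8 : gam q 4 ^ 2 ≤ 4 ^ 2 := Nat.pow_le_pow_left h4 2
      have h9 : q * gam q 2 ^ 2 ≤ q * 2 ^ 2 := Nat.mul_le_mul_left _ h7
      nlinarith
    · have h7 : q = 2 ∨ q = 3 ∨ q = 4 := by omega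
      generalize gam q 2 = a at *
      generalize gam q 4 = b at *
      rcases h7 with rfl | rfl | rfl
      · have ha : a ≤ 1 := by omega
        have hb : b ≤ 1 := by omega
        interval_cases a <;> interval_cases b <;> norm_num
      · have ha : a ≤ 2 := by omega
        have hb : b ≤ 2 := by omega
        interval_cases a <;> interval_cases b <;> norm_num
      · have ha : a ≤ 2 := by omega
        have hb : b ≤ 3 := by omega
        interval_cases a <;> interval_cases b <;> norm_num
  obtain ⟨r, rfl⟩ : ∃ r, q = r + 2 := ⟨q - 2, by omega⟩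
  have e : r + 2 - 1 = r + 1 := by omega
  rw [e]
  calc _ = (r + 1) * ((r + 2) ^ 3 + (r + 1) * (r + 2) + (r + 1) +
        ((r + 2) * gam (r + 2) 2 ^ 2 + gam (r + 2) 4 ^ 2)) := by ring
    _ ≤ (r + 1) * ((r + 2) ^ 3 + (r + 1) * (r + 2) + (r + 1) + (2 * (r + 2) ^ 2 + 1)) :=
      Nat.mul_le_mul_left _ (by omega)
    _ = _ := by ring

lemma bound_all (q n : ℕ) (hq : 2 ≤ q) (hn : 3 ≤ n) :
    cntB q n n ≤ (q - 1) * (q ^ (n - 1) + 3 * q ^ (n - 2)) := by
  rcases Nat.lt_or_ge n 5 with h | h
  · have : n = 3 ∨ n = 4 := by omega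
    rcases this with rfl | rfl
    · exact bound_three q hq
    · exact bound_four q hq
  · obtain ⟨k, rfl⟩ : ∃ k, n = k + 5 := ⟨n - 5, by omega⟩
    have e1 : k + 5 - 1 = k + 4 := by omega
    have e2 : k + 5 - 2 = k + 3 := by omega
    rw [e1, e2]
    exact cntB_large q hq k

end main



/-- The number of conjugacy classes of SL(n,q): for F a finite field with q elements, the number k of conjugacy classes of SL(n,F) satisfies q^(n−1) < k and k ≤ (5/2)·q^(n−1) for n ≥ 2, and k ≤ q^(n−1) + 3q^(n−2) for n ≥ 3. -/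
theorem result {F : Type*} [Field F] [Fintype F] (n : ℕ) (hn : 2 ≤ n) :
    Fintype.card F ^ (n - 1) < Nat.card (ConjClasses (Matrix.SpecialLinearGroup (Fin n) F)) ∧ 2 * Nat.card (ConjClasses (Matrix.SpecialLinearGroup (Fin n) F)) ≤ 5 * Fintype.card F ^ (n - 1) ∧
      (3 ≤ n → Nat.card (ConjClasses (Matrix.SpecialLinearGroup (Fin n) F)) ≤ Fintype.card F ^ (n - 1) + 3 * Fintype.card F ^ (n - 2)) := by
  have hq : 2 ≤ Fintype.card F := Fintype.one_lt_card
  have hk := upper (F := F) (n := n) (by omega)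
  have hpos : 0 < Fintype.card F - 1 := by omega
  have h3 : 3 ≤ n → Nat.card (ConjClasses (Matrix.SpecialLinearGroup (Fin n) F)) ≤
      Fintype.card F ^ (n - 1) + 3 * Fintype.card F ^ (n - 2) := fun h =>
    Nat.le_of_mul_le_mul_left (hk.trans (bound_all _ n hq h)) hpos
  refine ⟨lower hn, ?_, h3⟩
  by_cases hn2 : n = 2
  · subst hn2
    have h4 := bound_two _ hq
    rw [h4] at hk
    have h5 := Nat.le_of_mul_le_mul_left hk hpos
    have h6 := bound_two' _ hq
    simp only [Nat.add_one_sub_one, Nat.reduceSub, pow_one]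
    omega
  · have h4 := h3 (by omega)
    obtain ⟨m, rfl⟩ : ∃ m, n = m + 3 := ⟨n - 3, by omega⟩
    have e1 : m + 3 - 1 = m + 2 := by omega
    have e2 : m + 3 - 2 = m + 1 := by omega
    rw [e1, e2] at h4
    rw [e1]
    have h5 : 2 * Fintype.card F ^ (m + 1) ≤ Fintype.card F ^ (m + 2) := by
      rw [pow_succ _ (m + 1), mul_comm]
      exact Nat.mul_le_mul_left _ hq
    omega

end Cfsg.Agent.S2479
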