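import Cfsg.Statements.S2480
import Mathlib
import Cfsg.Agent.S2479

set_option autoImplicit false
open Cfsg

namespace Cfsg.Agent.S2480

open Polynomial
open Cfsg.Agent.S2478 Cfsg.Agent.S2479

universe u

section scl

variable {F : Type u} [Field F]

/-- Monic rescaling of a polynomial: `f ↦ ζ ^ (- deg f) f (ζ X)`. -/
noncomputable def scl (ζ : F) (f : F[X]) : F[X] := C (ζ ^ f.natDegree)⁻¹ * f.comp (C ζ * X)

lemma scl_coeff (ζ : F) (f : F[X]) (m : ℕ) :
    (scl ζ f).coeff m = (ζ ^ f.natDegree)⁻¹ * (f.coeff m * ζ ^ m) := by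
  unfold scl
  rw [coeff_C_mul, comp_C_mul_X_coeff]

lemma natDegree_L (ζ : F) (hζ : ζ ≠ 0) : (C ζ * X : F[X]).natDegree = 1 :=
  natDegree_C_mul_X ζ hζ

lemma natDegree_scl (ζ : F) (hζ : ζ ≠ 0) (f : F[X]) : (scl ζ f).natDegree = f.natDegree := by
  unfold scl
  rw [natDegree_C_mul (inv_ne_zero (pow_ne_zero _ hζ)), natDegree_comp, natDegree_L ζ hζ, mul_one]

lemma scl_monic (ζ : F) (hζ : ζ ≠ 0) (f : F[X]) (hf : f.Monic) : (scl ζ f).Monic := by
  show (scl ζ f).leadingCoeff = 1
  rw [leadingCoeff, natDegree_scl ζ hζ, scl_coeff]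
  have : f.coeff f.natDegree = 1 := hf
  rw [this, one_mul, inv_mul_cancel₀ (pow_ne_zero _ hζ)]

lemma comp_eq (ζ : F) (hζ : ζ ≠ 0) (f : F[X]) :
    f.comp (C ζ * X) = C (ζ ^ f.natDegree) * scl ζ f := by
  unfold scl
  rw [← mul_assoc, ← C_mul, mul_inv_cancel₀ (pow_ne_zero _ hζ), C_1, one_mul]

lemma scl_irr (ζ : F) (hζ : ζ ≠ 0) (f : F[X]) (hf : Irreducible f) : Irreducible (scl ζ f) := by
  classical
  haveI : Invertible ζ := invertibleOfNonzero hζ
  let Ψ := algEquivCMulXAddC ζ (0 : F)
  have h1 : Ψ f = f.comp (C ζ * X) := by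
    have h0 : Ψ f = aeval (C ζ * X) f := by simp [Ψ, algEquivCMulXAddC]
    rw [h0, aeval_def]
    rfl
  have h2 : Irreducible (Ψ f) := (MulEquiv.irreducible_iff Ψ.toMulEquiv).2 hf
  rw [h1] at h2
  have hu : IsUnit (C (ζ ^ f.natDegree)⁻¹ : F[X]) :=
    isUnit_C.2 (isUnit_iff_ne_zero.2 (inv_ne_zero (pow_ne_zero _ hζ)))
  unfold scl
  exact (irreducible_isUnit_mul hu).2 h2

lemma scl_mul (ζ : F) (hζ : ζ ≠ 0) (f g : F[X]) (hf : f.Monic) (hg : g.Monic) :
    scl ζ (f * g) = scl ζ f * scl ζ g := by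
  unfold scl
  rw [hf.natDegree_mul hg, mul_comp, pow_add, mul_inv, C_mul]
  ring

lemma scl_prod (ζ : F) (hζ : ζ ≠ 0) {ι : Type*} (s : Finset ι) (π : ι → F[X])
    (hm : ∀ i, (π i).Monic) : scl ζ (∏ i ∈ s, π i) = ∏ i ∈ s, scl ζ (π i) := by
  classical
  induction s using Finset.induction_on with
  | empty =>
    simp [scl]
  | insert a s ha ih =>
    rw [Finset.prod_insert ha, Finset.prod_insert ha, scl_mul ζ hζ _ _ (hm a)
      (monic_prod_of_monic _ _ fun i _ => hm i), ih]

lemma scl_inj (ζ : F) (hζ : ζ ≠ 0) {f g : F[X]} (hf : f.Monic) (hg : g.Monic)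
    (h : scl ζ f = scl ζ g) : f = g := by
  have hd : f.natDegree = g.natDegree := by
    rw [← natDegree_scl ζ hζ f, h, natDegree_scl ζ hζ]
  ext m
  have := congrArg (fun p => p.coeff m) h
  simp only [scl_coeff, hd] at this
  have h2 := mul_left_cancel₀ (inv_ne_zero (pow_ne_zero _ hζ)) this
  exact mul_right_cancel₀ (pow_ne_zero _ hζ) h2

/-- Invariance under scaling: only exponents divisible by `o` occur. -/
lemma dvd_of_scl (ζ : F) (hζ : ζ ≠ 0) (f : F[X]) (hf : scl ζ f = f) (h0 : f.coeff 0 ≠ 0) (m : ℕ)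
    (hm : f.coeff m ≠ 0) : orderOf ζ ∣ m := by
  have h1 := congrArg (fun p => p.coeff 0) hf
  simp only [scl_coeff, pow_zero, mul_one] at h1
  have h2 : (ζ ^ f.natDegree)⁻¹ = 1 := by
    have := mul_right_cancel₀ h0 (by rw [h1, one_mul] : (ζ ^ f.natDegree)⁻¹ * f.coeff 0 = 1 * f.coeff 0)
    exact this
  have h3 := congrArg (fun p => p.coeff m) hf
  simp only [scl_coeff, h2, one_mul] at h3
  have h4 : ζ ^ m = 1 := by
    have := mul_left_cancel₀ hm (by rw [h3, mul_one] : f.coeff m * ζ ^ m = f.coeff m * 1)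
    exact this
  exact orderOf_dvd_of_pow_eq_one h4

end scl

section combin

lemma hU_aux {κ : Type*} (t : Finset κ) (x : κ → ℕ) (k : ℕ) :
    ∑ i ∈ t, min (k + 1) (x i) = ∑ i ∈ t, min k (x i) + (t.filter (fun i => k < x i)).card := by
  classical
  rw [Finset.card_filter, ← Finset.sum_add_distrib]
  refine Finset.sum_congr rfl fun i _ => ?_
  split_ifs with h <;> omega

lemma hV_aux {κ : Type*} (t : Finset κ) (x : κ → ℕ) (k : ℕ) :
    (t.filter (fun i => k < x i)).card = (t.filter (fun i => x i = k + 1)).card +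
      (t.filter (fun i => k + 1 < x i)).card := by
  classical
  rw [← Finset.card_union_of_disjoint]
  · congr 1
    ext i
    simp only [Finset.mem_filter, Finset.mem_union]
    constructor
    · rintro ⟨h1, h2⟩
      by_cases h3 : x i = k + 1
      · exact Or.inl ⟨h1, h3⟩
      · exact Or.inr ⟨h1, by omega⟩
    · rintro (⟨h1, h2⟩ | ⟨h1, h2⟩)
      · exact ⟨h1, by omega⟩
      · exact ⟨h1, by omega⟩
  · refine Finset.disjoint_left.2 fun i hi hi' => ?_
    have h1 := (Finset.mem_filter.1 hi).2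
    have h2 := (Finset.mem_filter.1 hi').2
    omega

lemma count_eq {ι ι' : Type*} (s : Finset ι) (s' : Finset ι') (e : ι → ℕ) (e' : ι' → ℕ)
    (H : ∀ k, ∑ i ∈ s, min k (e i) = ∑ i ∈ s', min k (e' i)) (j : ℕ) (hj : 1 ≤ j) :
    (s.filter (fun i => e i = j)).card = (s'.filter (fun i => e' i = j)).card := by
  classical
  have hU2 : ∀ k, (s.filter (fun i => k < e i)).card = (s'.filter (fun i => k < e' i)).card := by
    intro k
    have h1 := H (k + 1)
    rw [hU_aux s e k, hU_aux s' e' k, H k] at h1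
    omega
  obtain ⟨k, rfl⟩ : ∃ k, j = k + 1 := ⟨j - 1, by omega⟩
  have h1 := hV_aux s e k
  have h2 := hV_aux s' e' k
  have h3 := hU2 k
  have h4 := hU2 (k + 1)
  omega

end combin

section ker

variable {F : Type u} [Field F] [Fintype F]

lemma card_Qf (f : F[X]) (hf : f ≠ 0) :
    Nat.card (Qf f) = Fintype.card F ^ f.natDegree := by
  haveI := finite_Qf f hf
  rw [Module.natCard_eq_pow_finrank (K := F), finrank_Qf, Nat.card_eq_fintype_card]

lemma ker_other (π₀ π' : F[X]) (h0 : Irreducible π₀) (h' : Irreducible π')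
    (hm0 : π₀.Monic) (hm' : π'.Monic) (hne : π' ≠ π₀) (e k : ℕ) :
    Nat.card {y : Qf (π' ^ e) // (π₀ ^ k : F[X]) • y = 0} = 1 := by
  have hcop : IsCoprime π' π₀ := by
    refine (Irreducible.coprime_iff_not_dvd h').2 ?_
    intro hd
    exact hne (eq_of_monic_of_associated hm' hm0 (h'.associated_of_dvd h0 hd))
  have hcop2 : IsCoprime (π' ^ e) (π₀ ^ k) := hcop.pow
  have hu : ∀ y : {y : Qf (π' ^ e) // (π₀ ^ k : F[X]) • y = 0}, y = ⟨0, smul_zero _⟩ := by
    rintro ⟨y, hy⟩
    obtain ⟨y, rfl⟩ := Submodule.Quotient.mk_surjective _ y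
    apply Subtype.ext
    rw [← Submodule.Quotient.mk_smul, Submodule.Quotient.mk_eq_zero,
      Submodule.mem_span_singleton] at hy
    obtain ⟨c, hc⟩ := hy
    show Submodule.Quotient.mk y = 0
    rw [Submodule.Quotient.mk_eq_zero, Submodule.mem_span_singleton]
    have hd : π' ^ e ∣ π₀ ^ k * y := ⟨c, by rw [smul_eq_mul, smul_eq_mul] at hc; rw [← hc, mul_comm]⟩
    obtain ⟨c', hc'⟩ := hcop2.dvd_of_dvd_mul_left hd
    exact ⟨c', by rw [hc', smul_eq_mul, mul_comm]⟩
  haveI : Unique {y : Qf (π' ^ e) // (π₀ ^ k : F[X]) • y = 0} :=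
    ⟨⟨⟨0, smul_zero _⟩⟩, hu⟩
  exact Nat.card_unique

lemma ker_same (π : F[X]) (hπ : Irreducible π) (hm : π.Monic) (e k : ℕ) :
    Nat.card {y : Qf (π ^ e) // (π ^ k : F[X]) • y = 0} =
      Fintype.card F ^ (π.natDegree * min k e) := by
  have hne : π ≠ 0 := hπ.ne_zero
  rcases le_or_gt e k with hk | hk
  · rw [min_eq_right hk]
    have hall : ∀ y : Qf (π ^ e), (π ^ k : F[X]) • y = 0 := by
      intro y
      obtain ⟨y, rfl⟩ := Submodule.Quotient.mk_surjective _ y
      rw [← Submodule.Quotient.mk_smul, Submodule.Quotient.mk_eq_zero,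
        Submodule.mem_span_singleton]
      refine ⟨π ^ (k - e) * y, ?_⟩
      have e1 : π ^ k = π ^ (k - e) * π ^ e := by
        rw [← pow_add]
        congr 1
        omega
      rw [smul_eq_mul, smul_eq_mul, e1]
      ring
    rw [Nat.card_congr (Equiv.subtypeUnivEquiv hall), card_Qf _ (pow_ne_zero _ hne),
      hm.natDegree_pow, mul_comm]
  · rw [min_eq_left hk.le]
    obtain ⟨a, rfl⟩ : ∃ a, e = a + k := ⟨e - k, by omega⟩
    rw [pow_add]
    have hfg : π ^ a ≠ 0 := pow_ne_zero _ hne
    have hg : π ^ k ≠ 0 := pow_ne_zero _ hne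
    have hmem : ∀ z : Qf (π ^ k), (π ^ k : F[X]) • alphaQ (π ^ a) (π ^ k) z = 0 := by
      intro z
      obtain ⟨z, rfl⟩ := Submodule.Quotient.mk_surjective _ z
      rw [alphaQ_mk, ← Submodule.Quotient.mk_smul, Submodule.Quotient.mk_eq_zero,
        Submodule.mem_span_singleton]
      exact ⟨z, by simp only [smul_eq_mul]; ring⟩
    let Φ : Qf (π ^ k) → {y : Qf (π ^ a * π ^ k) // (π ^ k : F[X]) • y = 0} :=
      fun z => ⟨alphaQ _ _ z, hmem z⟩
    have hb : Function.Bijective Φ := by
      constructor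
      · intro z z' hz
        exact alphaQ_inj _ _ hfg (congrArg Subtype.val hz)
      · rintro ⟨y, hy⟩
        obtain ⟨y, rfl⟩ := Submodule.Quotient.mk_surjective _ y
        rw [← Submodule.Quotient.mk_smul, Submodule.Quotient.mk_eq_zero,
          Submodule.mem_span_singleton] at hy
        obtain ⟨c, hc⟩ := hy
        refine ⟨Submodule.Quotient.mk c, Subtype.ext ?_⟩
        show alphaQ _ _ (Submodule.Quotient.mk c) = Submodule.Quotient.mk y
        rw [alphaQ_mk]
        congr 1
        apply mul_left_cancel₀ hg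
        simp only [smul_eq_mul] at hc
        rw [← hc]
        ring
    rw [← Nat.card_congr (Equiv.ofBijective Φ hb), card_Qf _ hg, hm.natDegree_pow, mul_comm]

/-- The number of solutions of `P(A) v = 0`. -/
noncomputable def Kk {n : ℕ} (A : Matrix.GeneralLinearGroup (Fin n) F) (P : F[X]) : ℕ :=
  Nat.card {v : Fin n → F // (aeval (A : Matrix (Fin n) (Fin n) F) P).mulVec v = 0}

open Classical in
lemma Kk_formula {n : ℕ} (A : Matrix.GeneralLinearGroup (Fin n) F) {ι : Type u} [Fintype ι]
    (π : ι → F[X]) (e : ι → ℕ) (hi : ∀ i, Irreducible (π i)) (hm : ∀ i, (π i).Monic)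
    (φ : Mm A ≃ₗ[F[X]] ∀ i, Qf (π i ^ e i)) (π₀ : F[X]) (h0 : Irreducible π₀) (hm0 : π₀.Monic)
    (k : ℕ) : Kk A (π₀ ^ k) = Fintype.card F ^ ∑ i, (if π i = π₀ then
      π₀.natDegree * min k (e i) else 0) := by
  classical
  have hact : ∀ (P : F[X]) (v : Fin n → F),
      P • φ (Module.AEval'.of (Matrix.toLin' (A : Matrix (Fin n) (Fin n) F) :
        Module.End F (Fin n → F)) v) = φ (Module.AEval'.of _
        ((aeval (A : Matrix (Fin n) (Fin n) F) P).mulVec v)) := by
    intro P v
    rw [← map_smul]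
    congr 1
    have h1 : aeval (Matrix.toLin' (A : Matrix (Fin n) (Fin n) F) : Module.End F (Fin n → F)) P =
        Matrix.toLin' (aeval (A : Matrix (Fin n) (Fin n) F) P) := by
      have := aeval_algHom_apply (Matrix.toLinAlgEquiv' (R := F) (n := Fin n)).toAlgHom
        (A : Matrix (Fin n) (Fin n) F) P
      exact this
    have h2 := Module.AEval.of_aeval_smul (Matrix.toLin' (A : Matrix (Fin n) (Fin n) F) :
        Module.End F (Fin n → F)) P v
    rw [← h2, h1]
    rfl
  let E1 : {v : Fin n → F // (aeval (A : Matrix (Fin n) (Fin n) F) (π₀ ^ k)).mulVec v = 0} ≃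
      {x : ∀ i, Qf (π i ^ e i) // (π₀ ^ k : F[X]) • x = 0} :=
    (Module.AEval'.of (Matrix.toLin' (A : Matrix (Fin n) (Fin n) F) :
      Module.End F (Fin n → F))).toEquiv.trans (φ.toEquiv) |>.subtypeEquiv (by
        intro v
        show _ ↔ (π₀ ^ k : F[X]) • φ (Module.AEval'.of _ v) = 0
        rw [hact]
        constructor
        · intro h
          rw [h, map_zero, map_zero]
        · intro h
          have h2 := φ.injective (h.trans (map_zero φ).symm)
          exact (Module.AEval'.of _).injective (h2.trans (map_zero _).symm))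
  let E2 : {x : ∀ i, Qf (π i ^ e i) // (π₀ ^ k : F[X]) • x = 0} ≃
      {x : ∀ i, Qf (π i ^ e i) // ∀ i, (π₀ ^ k : F[X]) • x i = 0} :=
    Equiv.subtypeEquivRight fun x => funext_iff
  let E3 := Equiv.subtypePiEquivPi (p := fun i (y : Qf (π i ^ e i)) => (π₀ ^ k : F[X]) • y = 0)
  unfold Kk
  rw [Nat.card_congr ((E1.trans E2).trans E3), Nat.card_pi, ← Finset.prod_pow_eq_pow_sum]
  refine Finset.prod_congr rfl fun i _ => ?_
  by_cases h : π i = π₀
  · rw [if_pos h]
    rw [h]
    exact ker_same π₀ h0 hm0 (e i) k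
  · rw [if_neg h, pow_zero]
    exact ker_other π₀ (π i) h0 (hi i) hm0 (hm i) h (e i) k

lemma Kk_conj {n : ℕ} {A B : Matrix.GeneralLinearGroup (Fin n) F} (h : IsConj A B) (P : F[X]) :
    Kk A P = Kk B P := by
  obtain ⟨c, rfl⟩ := isConj_iff.1 h
  have hB : aeval (((c * A * c⁻¹ : Matrix.GeneralLinearGroup (Fin n) F)) : Matrix (Fin n) (Fin n) F) P =
      (c : Matrix (Fin n) (Fin n) F) * aeval (A : Matrix (Fin n) (Fin n) F) P *
        ((c⁻¹ : Matrix.GeneralLinearGroup (Fin n) F) : Matrix (Fin n) (Fin n) F) := by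
    rw [aeval_eq_sum_range, aeval_eq_sum_range, Finset.mul_sum, Finset.sum_mul]
    refine Finset.sum_congr rfl fun i _ => ?_
    have := Units.conj_pow c (A : Matrix (Fin n) (Fin n) F) i
    rw [Units.val_mul, Units.val_mul, this, Matrix.mul_smul, Matrix.smul_mul]
  have hcc : ((c⁻¹ : Matrix.GeneralLinearGroup (Fin n) F) : Matrix (Fin n) (Fin n) F) *
      (c : Matrix (Fin n) (Fin n) F) = 1 := by
    rw [← Units.val_mul, inv_mul_cancel]; rfl
  have hcc' : (c : Matrix (Fin n) (Fin n) F) *
      ((c⁻¹ : Matrix.GeneralLinearGroup (Fin n) F) : Matrix (Fin n) (Fin n) F) = 1 := by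
    rw [← Units.val_mul, mul_inv_cancel]; rfl
  unfold Kk
  refine Nat.card_congr ⟨fun v => ⟨(c : Matrix (Fin n) (Fin n) F).mulVec v.1, ?_⟩,
    fun w => ⟨((c⁻¹ : Matrix.GeneralLinearGroup (Fin n) F) : Matrix (Fin n) (Fin n) F).mulVec w.1, ?_⟩,
    ?_, ?_⟩
  · rw [hB, Matrix.mulVec_mulVec, Matrix.mul_assoc, hcc, Matrix.mul_one, ← Matrix.mulVec_mulVec,
      v.2, Matrix.mulVec_zero]
  · have h2 : ((c : Matrix (Fin n) (Fin n) F) * aeval (A : Matrix (Fin n) (Fin n) F) P *
        ((c⁻¹ : Matrix.GeneralLinearGroup (Fin n) F) : Matrix (Fin n) (Fin n) F)).mulVec w.1 = 0 := by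
      rw [← hB]
      exact w.2
    have h3 := congrArg ((c⁻¹ : Matrix.GeneralLinearGroup (Fin n) F) :
      Matrix (Fin n) (Fin n) F).mulVec h2
    rw [Matrix.mulVec_zero, Matrix.mulVec_mulVec, ← Matrix.mul_assoc, ← Matrix.mul_assoc, hcc,
      Matrix.one_mul, ← Matrix.mulVec_mulVec] at h3
    exact h3
  · rintro ⟨v, hv⟩
    apply Subtype.ext
    show ((c⁻¹ : Matrix.GeneralLinearGroup (Fin n) F) : Matrix (Fin n) (Fin n) F).mulVec
      ((c : Matrix (Fin n) (Fin n) F).mulVec v) = v
    rw [Matrix.mulVec_mulVec, hcc, Matrix.one_mulVec]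
  · rintro ⟨v, hv⟩
    apply Subtype.ext
    show (c : Matrix (Fin n) (Fin n) F).mulVec
      (((c⁻¹ : Matrix.GeneralLinearGroup (Fin n) F) : Matrix (Fin n) (Fin n) F).mulVec v) = v
    rw [Matrix.mulVec_mulVec, hcc', Matrix.one_mulVec]

lemma Kk_scale {n : ℕ} {A B : Matrix.GeneralLinearGroup (Fin n) F} (ζ : F) (hζ : ζ ≠ 0)
    (hB : (B : Matrix (Fin n) (Fin n) F) = ζ • (A : Matrix (Fin n) (Fin n) F)) (π₀ : F[X]) (k : ℕ) :
    Kk B (π₀ ^ k) = Kk A (scl ζ π₀ ^ k) := by
  have h1 : aeval (B : Matrix (Fin n) (Fin n) F) (π₀ ^ k) =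
      (ζ ^ π₀.natDegree) ^ k • aeval (A : Matrix (Fin n) (Fin n) F) (scl ζ π₀ ^ k) := by
    have h2 : (B : Matrix (Fin n) (Fin n) F) = aeval (A : Matrix (Fin n) (Fin n) F) (C ζ * X : F[X]) := by
      rw [hB]
      simp [Algebra.smul_def]
    rw [h2, ← aeval_comp, pow_comp, comp_eq ζ hζ, mul_pow, ← C_pow, map_mul, aeval_C,
      Algebra.smul_def]
  unfold Kk
  refine Nat.card_congr (Equiv.subtypeEquivRight fun v => ?_)
  rw [h1, Matrix.smul_mulVec, smul_eq_zero]
  constructor
  · rintro (h | h)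
    · exact absurd h (pow_ne_zero _ (pow_ne_zero _ hζ))
    · exact h
  · exact Or.inr

/-- The key invariance: if `A` is conjugate to `ζ A`, its invariants are scaling-stable. -/
lemma inv_of_conj {n : ℕ} {A B : Matrix.GeneralLinearGroup (Fin n) F} (hAB : IsConj A B) (ζ : F)
    (hζ : ζ ≠ 0) (hB : (B : Matrix (Fin n) (Fin n) F) = ζ • (A : Matrix (Fin n) (Fin n) F))
    (h : ℕ → F[X]) (hT : IsTyp A h) (j : ℕ) : scl ζ (h j) = h j := by
  classical
  obtain ⟨ι, fι, π, e, hi, hm, he, hle, hdef, ⟨φ⟩⟩ := hT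
  have hq : 1 < Fintype.card F := Fintype.one_lt_card
  by_cases hj : 1 ≤ j
  swap
  · have hj0 : j = 0 := by omega
    subst hj0
    rw [hdef 0, Finset.filter_false_of_mem fun i _ => he i, Finset.prod_empty]
    simp [scl]
  -- equality of the invariants
  have hS : ∀ x : F[X], Irreducible x → x.Monic → ∀ k,
      ∑ i ∈ Finset.univ.filter (fun i => π i = x), min k (e i) =
      ∑ i ∈ Finset.univ.filter (fun i => π i = scl ζ x), min k (e i) := by
    intro x hx hxm k
    have h1 := Kk_formula A π e hi hm φ x hx hxm k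
    have h2 := Kk_formula A π e hi hm φ (scl ζ x) (scl_irr ζ hζ x hx) (scl_monic ζ hζ x hxm) k
    have h3 := (Kk_conj hAB (x ^ k)).trans (Kk_scale ζ hζ hB x k)
    rw [h1, h2] at h3
    have h4 := Nat.pow_right_injective hq h3
    rw [natDegree_scl ζ hζ] at h4
    rw [← Finset.sum_filter, ← Finset.sum_filter, ← Finset.mul_sum, ← Finset.mul_sum] at h4
    exact Nat.eq_of_mul_eq_mul_left hx.natDegree_pos (by convert h4 using 2)
  have hc : ∀ x : F[X], Irreducible x → x.Monic →
      ((Finset.univ.filter (fun i => e i = j)).filter (fun i => π i = x)).card =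
      ((Finset.univ.filter (fun i => e i = j)).filter (fun i => π i = scl ζ x)).card := by
    intro x hx hxm
    have := count_eq _ _ e e (hS x hx hxm) j hj
    rw [Finset.filter_comm, this, Finset.filter_comm]
  set I := Finset.univ.filter (fun i => e i = j) with hI
  set V := I.image π with hV
  have hVm : ∀ x ∈ V, Irreducible x ∧ x.Monic := by
    intro x hx
    obtain ⟨i, _, rfl⟩ := Finset.mem_image.1 hx
    exact ⟨hi i, hm i⟩
  have hsub : V.image (scl ζ) ⊆ V := by
    intro y hy
    obtain ⟨x, hx, rfl⟩ := Finset.mem_image.1 hy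
    obtain ⟨i, hiI, rfl⟩ := Finset.mem_image.1 hx
    have h1 := hc (π i) (hi i) (hm i)
    have h2 : 0 < (I.filter (fun i' => π i' = π i)).card :=
      Finset.card_pos.2 ⟨i, Finset.mem_filter.2 ⟨hiI, rfl⟩⟩
    rw [h1] at h2
    obtain ⟨i', hi'⟩ := Finset.card_pos.1 h2
    obtain ⟨h3, h4⟩ := Finset.mem_filter.1 hi'
    exact Finset.mem_image.2 ⟨i', h3, h4⟩
  have hinj : Set.InjOn (scl ζ) (V : Set F[X]) := by
    intro x hx y hy hxy
    exact scl_inj ζ hζ (hVm x hx).2 (hVm y hy).2 hxy
  have himg : V.image (scl ζ) = V :=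
    Finset.eq_of_subset_of_card_le hsub (by rw [Finset.card_image_of_injOn hinj])
  rw [hdef j, scl_prod ζ hζ _ _ hm]
  rw [Finset.prod_comp (fun x => scl ζ x) π, Finset.prod_comp (fun x => x) π]
  have e1 : ∏ a ∈ I.image π, scl ζ a ^ (I.filter (fun i => π i = a)).card =
      ∏ a ∈ V, scl ζ a ^ (I.filter (fun i => π i = scl ζ a)).card :=
    Finset.prod_congr rfl fun a ha => by rw [hc a (hVm a ha).1 (hVm a ha).2]
  rw [e1]
  conv_rhs => rw [← hV, ← himg]
  rw [Finset.prod_image hinj]

end ker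

section contr

variable {F : Type u} [Field F]

/-- All exponents occurring are divisible by `o`. -/
def InvO (o : ℕ) (f : F[X]) : Prop := ∀ m, f.coeff m ≠ 0 → o ∣ m

lemma contract_inj (o : ℕ) (ho : o ≠ 0) {f g : F[X]} (hf : InvO o f) (hg : InvO o g)
    (h : contract o f = contract o g) : f = g := by
  ext m
  by_cases hm : o ∣ m
  · obtain ⟨k, rfl⟩ := hm
    have := congrArg (fun p => p.coeff k) h
    simp only [coeff_contract ho] at this
    rwa [mul_comm o k]
  · have h1 : f.coeff m = 0 := by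
      by_contra hc
      exact hm (hf m hc)
    have h2 : g.coeff m = 0 := by
      by_contra hc
      exact hm (hg m hc)
    rw [h1, h2]

lemma invO_one (o : ℕ) : InvO o (1 : F[X]) := by
  intro m hm
  rw [coeff_one] at hm
  have : m = 0 := by
    by_contra hc
    exact hm (if_neg hc)
  rw [this]
  exact dvd_zero o

lemma contract_one (o : ℕ) (ho : o ≠ 0) : contract o (1 : F[X]) = 1 := by
  ext m
  rw [coeff_contract ho, coeff_one, coeff_one]
  simp [ho]

lemma contract_mem (o : ℕ) (ho : o ≠ 0) [Fintype F] {s : ℕ} {f : F[X]} (hf : f ∈ nzSet F s)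
    (hi : InvO o f) : ∃ s', s = o * s' ∧ contract o f ∈ nzSet F s' := by
  obtain ⟨hm, hd, h0⟩ := mem_nzSet.1 hf
  have hc : f.coeff s = 1 := by rw [← hd]; exact hm
  have hdvd : o ∣ s := hi s (by rw [hc]; exact one_ne_zero)
  obtain ⟨s', rfl⟩ := hdvd
  refine ⟨s', rfl, mem_nzSet.2 ?_⟩
  have h1 : (contract o f).coeff s' = 1 := by
    rw [coeff_contract ho, mul_comm, hc]
  have h2 : (contract o f).natDegree = s' := by
    apply le_antisymm
    · rw [natDegree_le_iff_coeff_eq_zero]
      intro N hN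
      rw [coeff_contract ho]
      apply coeff_eq_zero_of_natDegree_lt
      rw [hd, mul_comm]
      exact Nat.mul_lt_mul_of_pos_right hN (Nat.pos_of_ne_zero ho)
    · exact le_natDegree_of_ne_zero (by rw [h1]; exact one_ne_zero)
  refine ⟨?_, h2, ?_⟩
  · show (contract o f).leadingCoeff = 1
    rw [leadingCoeff, h2, h1]
  · rw [coeff_contract ho, zero_mul]
    exact h0

lemma contr_tupL (o : ℕ) (ho : o ≠ 0) [Fintype F] (J : ℕ) :
    ∀ m (t : List F[X]), t ∈ tupL F J m → (∀ h ∈ t, InvO o h) →
      ∃ m', m = o * m' ∧ t.map (contract o) ∈ tupL F J m' := by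
  classical
  induction J with
  | zero =>
    intro m t ht _
    rw [tupL] at ht
    split_ifs at ht with h0
    · rw [Finset.mem_singleton] at ht
      subst ht
      subst h0
      exact ⟨0, by simp, by simp [tupL]⟩
    · simp at ht
  | succ J ih =>
    intro m t ht hinv
    obtain ⟨s, hs, h, hh, l, hl, rfl⟩ := mem_tupL_succ.1 ht
    obtain ⟨s', rfl, hc⟩ := contract_mem o ho hh (hinv h (by simp))
    obtain ⟨m'', hm'', hl'⟩ := ih _ l hl (fun x hx => hinv x (by simp [hx]))
    refine ⟨(J + 1) * s' + m'', ?_, ?_⟩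
    · have : (J + 1) * (o * s') + o * m'' = o * ((J + 1) * s' + m'') := by ring
      omega
    · rw [List.map_cons]
      refine mem_tupL_succ.2 ⟨s', by omega, _, hc, _, ?_, rfl⟩
      have : (J + 1) * s' + m'' - (J + 1) * s' = m'' := by omega
      rw [this]
      exact hl'

lemma minJ_map (o : ℕ) (ho : o ≠ 0) (t : List F[X]) (hinv : ∀ h ∈ t, InvO o h) :
    minJ (t.map (contract o)) = minJ t := by
  classical
  induction t with
  | nil => rfl
  | cons h l ih =>
    have ih' := ih (fun x hx => hinv x (by simp [hx]))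
    have hh : contract o h = 1 ↔ h = 1 := by
      constructor
      · intro e
        apply contract_inj o ho (hinv h (by simp)) (invO_one o)
        rw [e, contract_one o ho]
      · rintro rfl
        exact contract_one o ho
    simp only [List.map_cons, minJ, ih', List.length_map, ne_eq, hh]

end contr

section sums

variable {F : Type u} [Field F] [Fintype F]

lemma cntB_succ_of_le (q J m : ℕ) (hm : 1 ≤ m) (hJ : m ≤ J) : cntB q (J + 1) m = cntB q J m := by
  show (∑ s ∈ Finset.range (m + 1), if (J + 1) * s ≤ m then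
        cntN q s * (if m - (J + 1) * s = 0 then (gam q (J + 1)) ^ 2 else cntB q J (m - (J + 1) * s))
      else 0) = _
  rw [Finset.sum_range_succ']
  have h0 : ∑ s ∈ Finset.range m, (if (J + 1) * (s + 1) ≤ m then
        cntN q (s + 1) * (if m - (J + 1) * (s + 1) = 0 then (gam q (J + 1)) ^ 2 else
          cntB q J (m - (J + 1) * (s + 1))) else 0) = 0 := by
    refine Finset.sum_eq_zero fun s _ => ?_
    rw [if_neg]
    have e1 : (J + 1) * (s + 1) = (J + 1) * s + (J + 1) := by ring
    omega
  rw [h0, zero_add]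
  have h1 : m ≠ 0 := by omega
  simp [cntN, h1]

lemma cntB_sat (q m : ℕ) (hm : 1 ≤ m) : ∀ J, m ≤ J → cntB q J m = cntB q m m := by
  intro J hJ
  induction J, hJ using Nat.le_induction with
  | base => rfl
  | succ J hJ ih => rw [cntB_succ_of_le q J m hm hJ, ih]

lemma cntB_one (q : ℕ) : cntB q 1 1 = q - 1 := by
  simp [cntB, Finset.sum_range_succ, gam, cntN]

lemma cntB_bd (q m : ℕ) (hq : 2 ≤ q) (hm : 1 ≤ m) (J : ℕ) (hJ : m ≤ J) :
    cntB q J m ≤ 2 * q ^ m := by
  rw [cntB_sat q m hm J hJ]
  rcases Nat.lt_or_ge m 3 with h | h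
  · have : m = 1 ∨ m = 2 := by omega
    rcases this with rfl | rfl
    · rw [cntB_one, pow_one]
      omega
    · rw [bound_two q hq]
      have h1 := gam_le_right q 2 (by norm_num)
      have h2 : gam q 2 ^ 2 ≤ 2 ^ 2 := Nat.pow_le_pow_left h1 2
      have h3 := gam_le_left q 2 hq
      obtain ⟨r, rfl⟩ : ∃ r, q = r + 2 := ⟨q - 2, by omega⟩
      have e : r + 2 - 1 = r + 1 := by omega
      rw [e] at h3 ⊢
      generalize gam (r + 2) 2 = g at *
      by_cases hr : r = 0
      · subst hr
        have : g ≤ 1 := h3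
        have : g ^ 2 ≤ 1 ^ 2 := Nat.pow_le_pow_left this 2
        nlinarith
      · have hr1 : 1 ≤ r := by omega
        have h4 : (r + 1) * (r + 2 + g ^ 2) ≤ (r + 1) * (r + 2 + 4) :=
          Nat.mul_le_mul_left _ (by omega)
        nlinarith
  · refine (bound_all q m hq h).trans ?_
    obtain ⟨k, rfl⟩ : ∃ k, m = k + 2 := ⟨m - 2, by omega⟩
    have e1 : k + 2 - 1 = k + 1 := by omega
    have e2 : k + 2 - 2 = k := by omega
    rw [e1, e2]
    obtain ⟨r, rfl⟩ : ∃ r, q = r + 2 := ⟨q - 2, by omega⟩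
    have e : r + 2 - 1 = r + 1 := by omega
    rw [e]
    have hp : 0 < (r + 2) ^ k := pow_pos (by omega) k
    calc (r + 1) * ((r + 2) ^ (k + 1) + 3 * (r + 2) ^ k)
        = ((r + 1) * (r + 5)) * (r + 2) ^ k := by ring
      _ ≤ (2 * (r + 2) ^ 2) * (r + 2) ^ k := Nat.mul_le_mul_right _ (by nlinarith)
      _ = _ := by ring

lemma map_contract_inj (o : ℕ) (ho : o ≠ 0) (t t' : List F[X]) (ht2 : ∀ h ∈ t, InvO o h)
    (ht2' : ∀ h ∈ t', InvO o h) (he : t.map (contract o) = t'.map (contract o)) : t = t' := by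
  induction t generalizing t' with
  | nil =>
    cases t' with
    | nil => rfl
    | cons a b => simp at he
  | cons a l ih =>
    cases t' with
    | nil => simp at he
    | cons b l' =>
      simp only [List.map_cons, List.cons.injEq] at he
      have h1 := contract_inj o ho (ht2 a (by simp)) (ht2' b (by simp)) he.1
      have h2 := ih l' (fun x hx => ht2 x (List.mem_cons_of_mem _ hx))
        (fun x hx => ht2' x (List.mem_cons_of_mem _ hx)) he.2
      rw [h1, h2]

/-- Sum over scaling-invariant lists. -/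
lemma sum_inv_le (o : ℕ) (ho : o ≠ 0) (n J : ℕ) (hno : n / o ≠ 0) [DecidablePred
    (fun t : List F[X] => ∀ h ∈ t, InvO o h)] :
    ∑ t ∈ (tupL F J n).filter (fun t => ∀ h ∈ t, InvO o h), gam (Fintype.card F) (minJ t) ≤
      cntB (Fintype.card F) J (n / o) := by
  classical
  rw [← sum_gam J (n / o) (Nat.pos_of_ne_zero hno)]
  have hmap : ∀ t ∈ (tupL F J n).filter (fun t => ∀ h ∈ t, InvO o h),
      t.map (contract o) ∈ tupL F J (n / o) := by
    intro t ht
    obtain ⟨ht1, ht2⟩ := Finset.mem_filter.1 ht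
    obtain ⟨m', hm', hm2⟩ := contr_tupL o ho J n t ht1 ht2
    have : n / o = m' := by rw [hm', Nat.mul_div_cancel_left _ (Nat.pos_of_ne_zero ho)]
    rwa [this]
  have hinj : Set.InjOn (fun t : List F[X] => t.map (contract o))
      ((tupL F J n).filter (fun t => ∀ h ∈ t, InvO o h) : Finset (List F[X])) := by
    intro t ht t' ht' he
    exact map_contract_inj o ho t t' (Finset.mem_filter.1 (Finset.mem_coe.1 ht)).2
      (Finset.mem_filter.1 (Finset.mem_coe.1 ht')).2 he
  calc _ = ∑ t ∈ (tupL F J n).filter (fun t => ∀ h ∈ t, InvO o h),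
        gam (Fintype.card F) (minJ (t.map (contract o))) :=
        Finset.sum_congr rfl fun t ht => by
          rw [minJ_map o ho t (Finset.mem_filter.1 ht).2]
    _ = ∑ t' ∈ ((tupL F J n).filter (fun t => ∀ h ∈ t, InvO o h)).image
          (fun t => t.map (contract o)), gam (Fintype.card F) (minJ t') :=
        (Finset.sum_image (f := fun t' => gam (Fintype.card F) (minJ t')) hinj).symm
    _ ≤ ∑ t' ∈ tupL F J (n / o), gam (Fintype.card F) (minJ t') :=
        Finset.sum_le_sum_of_subset (by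
          intro x hx
          obtain ⟨t, ht, rfl⟩ := Finset.mem_image.1 hx
          exact hmap t ht)
    _ ≤ _ := Finset.sum_le_sum fun t _ => Nat.le_self_pow (by norm_num) _

end sums

section act

variable {F : Type u} [Field F] [Fintype F]

variable {n : ℕ}

/-- Multiplication by a central element on conjugacy classes. -/
noncomputable def zAct (z : Subgroup.center (Matrix.SpecialLinearGroup (Fin n) F))
    (c : ConjClasses (Matrix.SpecialLinearGroup (Fin n) F)) :
    ConjClasses (Matrix.SpecialLinearGroup (Fin n) F) :=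
  Quotient.liftOn c (fun g => ConjClasses.mk ((z : Matrix.SpecialLinearGroup (Fin n) F) * g)) (by
    intro a b hab
    obtain ⟨u, hu⟩ := isConj_iff.1 (show IsConj a b from hab)
    apply ConjClasses.mk_eq_mk_iff_isConj.2
    refine isConj_iff.2 ⟨u, ?_⟩
    rw [← hu]
    have hz := (Subgroup.mem_center_iff.1 z.2) u
    calc u * ((z : Matrix.SpecialLinearGroup (Fin n) F) * a) * u⁻¹
        = (u * (z : Matrix.SpecialLinearGroup (Fin n) F)) * a * u⁻¹ := by group
      _ = ((z : Matrix.SpecialLinearGroup (Fin n) F) * u) * a * u⁻¹ := by rw [hz]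
      _ = _ := by group)

lemma zAct_mk (z : Subgroup.center (Matrix.SpecialLinearGroup (Fin n) F))
    (g : Matrix.SpecialLinearGroup (Fin n) F) :
    zAct z (ConjClasses.mk g) = ConjClasses.mk ((z : Matrix.SpecialLinearGroup (Fin n) F) * g) := rfl

/-- The action. -/
noncomputable def zActI : MulAction (Subgroup.center (Matrix.SpecialLinearGroup (Fin n) F))
    (ConjClasses (Matrix.SpecialLinearGroup (Fin n) F)) where
  smul := zAct
  one_smul c := by
    obtain ⟨g, rfl⟩ := ConjClasses.exists_rep c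
    show zAct 1 (ConjClasses.mk g) = _
    rw [zAct_mk]
    simp
  mul_smul z z' c := by
    obtain ⟨g, rfl⟩ := ConjClasses.exists_rep c
    show zAct (z * z') (ConjClasses.mk g) = zAct z (zAct z' (ConjClasses.mk g))
    rw [zAct_mk, zAct_mk, zAct_mk]
    simp [mul_assoc]

lemma card_center (hn : 1 ≤ n) : Nat.card (Subgroup.center (Matrix.SpecialLinearGroup (Fin n) F)) =
    Nat.gcd n (Fintype.card F - 1) := by
  classical
  rw [Nat.card_congr (Matrix.SpecialLinearGroup.center_equiv_rootsOfUnity' (⟨0, hn⟩ : Fin n)).toEquiv]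
  have h1 : (rootsOfUnity (Fintype.card (Fin n)) F) = (powMonoidHom n : Fˣ →* Fˣ).ker := by
    ext x
    simp [mem_rootsOfUnity]
  rw [h1, IsCyclic.card_powMonoidHom_ker, Nat.card_eq_fintype_card, Fintype.card_units, Nat.gcd_comm]

/-- The orbit count is the number of classes of the quotient. -/
lemma orbits_eq : letI := zActI (F := F) (n := n)
    Nat.card (MulAction.orbitRel.Quotient (Subgroup.center (Matrix.SpecialLinearGroup (Fin n) F))
      (ConjClasses (Matrix.SpecialLinearGroup (Fin n) F))) =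
    Nat.card (ConjClasses (Matrix.ProjectiveSpecialLinearGroup (Fin n) F)) := by
  letI := zActI (F := F) (n := n)
  let πZ : Matrix.SpecialLinearGroup (Fin n) F →* Matrix.ProjectiveSpecialLinearGroup (Fin n) F :=
    QuotientGroup.mk' _
  have hf : ∀ (z : Subgroup.center (Matrix.SpecialLinearGroup (Fin n) F)) c,
      ConjClasses.map πZ (z • c) = ConjClasses.map πZ c := by
    intro z c
    obtain ⟨g, rfl⟩ := ConjClasses.exists_rep c
    show ConjClasses.map πZ (zAct z (ConjClasses.mk g)) = _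
    rw [zAct_mk]
    show ConjClasses.mk (πZ _) = ConjClasses.mk (πZ g)
    congr 1
    rw [map_mul]
    have : πZ (z : Matrix.SpecialLinearGroup (Fin n) F) = 1 := by
      exact (QuotientGroup.eq_one_iff _).2 z.2
    rw [this, one_mul]
  let G : MulAction.orbitRel.Quotient (Subgroup.center (Matrix.SpecialLinearGroup (Fin n) F))
      (ConjClasses (Matrix.SpecialLinearGroup (Fin n) F)) →
      ConjClasses (Matrix.ProjectiveSpecialLinearGroup (Fin n) F) :=
    Quotient.lift (ConjClasses.map πZ) (by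
      intro a b hab
      obtain ⟨z, hz⟩ := MulAction.orbitRel_apply.1 hab
      rw [← hz]
      exact hf z b)
  refine Nat.card_congr (Equiv.ofBijective G ⟨?_, ?_⟩)
  · intro x y hxy
    obtain ⟨a, rfl⟩ := Quotient.exists_rep x
    obtain ⟨b, rfl⟩ := Quotient.exists_rep y
    obtain ⟨a, rfl⟩ := ConjClasses.exists_rep a
    obtain ⟨b, rfl⟩ := ConjClasses.exists_rep b
    have h1 : IsConj (πZ a) (πZ b) := ConjClasses.mk_eq_mk_iff_isConj.1 hxy
    obtain ⟨ū, hu⟩ := isConj_iff.1 h1
    obtain ⟨u, rfl⟩ := QuotientGroup.mk'_surjective _ ū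
    have h2 : πZ (u * a * u⁻¹) = πZ b := by
      rw [map_mul, map_mul, map_inv]
      exact hu
    have h3 := QuotientGroup.eq.1 h2
    apply Quotient.sound
    refine MulAction.orbitRel_apply.2 ⟨⟨_, Subgroup.inv_mem _ h3⟩, ?_⟩
    show zAct _ (ConjClasses.mk b) = ConjClasses.mk a
    rw [zAct_mk]
    apply ConjClasses.mk_eq_mk_iff_isConj.2
    refine IsConj.symm (isConj_iff.2 ⟨b⁻¹ * u, ?_⟩)
    show b⁻¹ * u * a * (b⁻¹ * u)⁻¹ = ((u * a * u⁻¹)⁻¹ * b)⁻¹ * b
    group
  · intro x
    obtain ⟨x, rfl⟩ := ConjClasses.exists_rep x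
    obtain ⟨g, rfl⟩ := QuotientGroup.mk'_surjective _ x
    exact ⟨Quotient.mk _ (ConjClasses.mk g), rfl⟩

/-- The data of a type for all elements. -/
lemma exists_typ_all (n : ℕ) : ∃ h : Matrix.SpecialLinearGroup (Fin n) F → ℕ → F[X],
    (∀ g, IsTyp (Matrix.SpecialLinearGroup.toGL g) (h g)) ∧
    (∀ g j, (h g j).Monic ∧ (h g j).coeff 0 ≠ 0) ∧
    (∀ g, ∑ j ∈ Finset.range n, (j + 1) * (h g (j + 1)).natDegree = n) := by
  choose h hT hmm hsum using fun g : Matrix.SpecialLinearGroup (Fin n) F =>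
    exists_typ (Matrix.SpecialLinearGroup.toGL g)
  exact ⟨h, hT, hmm, hsum⟩

open Classical in
/-- The fiber bound, in the form used below. -/
lemma fiber_le (hn : 1 ≤ n) (h : Matrix.SpecialLinearGroup (Fin n) F → ℕ → F[X])
    (hT : ∀ g, IsTyp (Matrix.SpecialLinearGroup.toGL g) (h g))
    (hmm : ∀ g j, (h g j).Monic ∧ (h g j).coeff 0 ≠ 0)
    (hsum : ∀ g, ∑ j ∈ Finset.range n, (j + 1) * (h g (j + 1)).natDegree = n)
    (rep : ConjClasses (Matrix.SpecialLinearGroup (Fin n) F) → Matrix.SpecialLinearGroup (Fin n) F)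
    (hrep : ∀ c, ConjClasses.mk (rep c) = c) (X : Finset (ConjClasses (Matrix.SpecialLinearGroup (Fin n) F)))
    (t : List F[X]) (ht : t ∈ tupL F n n) :
    (X.filter (fun c => toL (h (rep c)) n = t)).card ≤
      if detL t = 1 then gam (Fintype.card F) (minJ t) else 0 := by
  classical
  rcases Finset.eq_empty_or_nonempty (X.filter (fun c => toL (h (rep c)) n = t)) with h0 | ⟨c₀, hc₀⟩
  · rw [h0]; simp
  · have hc₀' := (Finset.mem_filter.1 hc₀).2
    have hdet : detL t = 1 := by
      rw [← hc₀', detL_toL, ← det_of_typ _ _ (hT (rep c₀))]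
      exact (rep c₀).2
    rw [if_pos hdet]
    have hmin : minJ t ≠ 0 := minJ_ne_zero ht hn
    have hj : h (rep c₀) (minJ t) ≠ 1 := by
      rw [← hc₀'] at hmin ⊢
      exact minJ_toL _ _ hmin
    refine fiber_card (Matrix.SpecialLinearGroup.toGL (rep c₀)) (minJ t)
      (fun a => exists_centr _ _ (hT (rep c₀)) _ hj a) _ rep hrep ?_
    intro c hc
    have hc' := (Finset.mem_filter.1 hc).2
    exact conj_of_typ _ _ _ _ (hT (rep c₀)) (hT (rep c))
      (toL_inj _ _ n (hc₀'.trans hc'.symm))

lemma mem_toL (h : ℕ → F[X]) (J : ℕ) (x : F[X]) (hx : x ∈ toL h J) : ∃ j, x = h j := by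
  induction J with
  | zero => simp [toL] at hx
  | succ J ih =>
    simp only [toL, List.mem_cons] at hx
    rcases hx with rfl | hx
    · exact ⟨_, rfl⟩
    · exact ih hx

open Classical in
/-- The bound for the classes fixed by a nontrivial central element. -/
lemma fixed_le (hn : 1 ≤ n) (z : Subgroup.center (Matrix.SpecialLinearGroup (Fin n) F)) (ζ : F)
    (hζ : ζ ≠ 0)
    (hz : ((z : Matrix.SpecialLinearGroup (Fin n) F) : Matrix (Fin n) (Fin n) F) = Matrix.scalar (Fin n) ζ)
    (X : Finset (ConjClasses (Matrix.SpecialLinearGroup (Fin n) F)))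
    (hX : ∀ c ∈ X, zAct z c = c) :
    X.card ≤ ∑ t ∈ (tupL F n n).filter (fun t => ∀ x ∈ t, InvO (orderOf ζ) x),
      if detL t = 1 then gam (Fintype.card F) (minJ t) else 0 := by
  classical
  obtain ⟨h, hT, hmm, hsum⟩ := exists_typ_all (F := F) n
  choose rep hrep using ConjClasses.exists_rep (α := Matrix.SpecialLinearGroup (Fin n) F)
  have hmem : ∀ c ∈ X, toL (h (rep c)) n ∈ (tupL F n n).filter
      (fun t => ∀ x ∈ t, InvO (orderOf ζ) x) := by
    intro c hc
    refine Finset.mem_filter.2 ⟨?_, ?_⟩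
    · have := toL_mem (h (rep c)) (hmm (rep c)) n
      rwa [hsum] at this
    · intro x hx
      obtain ⟨j, rfl⟩ := mem_toL _ _ _ hx
      intro m hm
      refine dvd_of_scl ζ hζ _ ?_ (hmm (rep c) j).2 m hm
      have h1 := hX c hc
      conv at h1 => lhs; rw [← hrep c]
      rw [zAct_mk] at h1
      have h2 : ConjClasses.mk ((z : Matrix.SpecialLinearGroup (Fin n) F) * rep c) =
          ConjClasses.mk (rep c) := h1.trans (hrep c).symm
      have h3 := ConjClasses.mk_eq_mk_iff_isConj.1 h2
      refine inv_of_conj (A := Matrix.SpecialLinearGroup.toGL (rep c))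
        (B := Matrix.SpecialLinearGroup.toGL ((z : Matrix.SpecialLinearGroup (Fin n) F) * rep c))
        (MonoidHom.map_isConj _ h3.symm) ζ hζ ?_ _ (hT (rep c)) j
      rw [Matrix.SpecialLinearGroup.coe_GL_coe_matrix, Matrix.SpecialLinearGroup.coe_GL_coe_matrix,
        Matrix.SpecialLinearGroup.coe_mul, hz]
      ext a b
      simp [Matrix.scalar_apply, Matrix.diagonal_mul, Matrix.smul_apply]
  have h1 := Finset.card_eq_sum_card_fiberwise (f := fun c => toL (h (rep c)) n) (s := X)
    (t := (tupL F n n).filter (fun t => ∀ x ∈ t, InvO (orderOf ζ) x)) hmem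
  rw [h1]
  refine Finset.sum_le_sum fun t ht => ?_
  exact fiber_le hn h hT hmm hsum rep hrep X t (Finset.mem_filter.1 ht).1

lemma nz_bound (hn : 1 ≤ n) (z : Subgroup.center (Matrix.SpecialLinearGroup (Fin n) F)) (ζ : F)
    (hζn : ζ ^ n = 1) (hζ1 : ζ ≠ 1)
    (hz : ((z : Matrix.SpecialLinearGroup (Fin n) F) : Matrix (Fin n) (Fin n) F) = Matrix.scalar (Fin n) ζ)
    (X : Finset (ConjClasses (Matrix.SpecialLinearGroup (Fin n) F)))
    (hX : ∀ c ∈ X, zAct z c = c) :
    orderOf ζ ∣ n ∧ orderOf ζ ≠ 1 ∧ X.card ≤ cntB (Fintype.card F) n (n / orderOf ζ) := by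
  classical
  have hζ : ζ ≠ 0 := by
    rintro rfl
    rw [zero_pow (by omega)] at hζn
    exact zero_ne_one hζn
  have hdvd : orderOf ζ ∣ n := orderOf_dvd_of_pow_eq_one hζn
  have hne1 : orderOf ζ ≠ 1 := fun h => hζ1 (orderOf_eq_one_iff.1 h)
  have ho : orderOf ζ ≠ 0 := by
    intro h
    rw [h, zero_dvd_iff] at hdvd
    omega
  have hdiv : n / orderOf ζ ≠ 0 := by
    intro h
    have := Nat.le_of_dvd (by omega) hdvd
    have h2 := Nat.div_pos this (Nat.pos_of_ne_zero ho)
    omega
  refine ⟨hdvd, hne1, ?_⟩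
  refine (fixed_le hn z ζ hζ hz X hX).trans ?_
  refine le_trans (Finset.sum_le_sum fun t _ => ?_) (sum_inv_le (orderOf ζ) ho n n hdiv)
  split_ifs
  · exact le_rfl
  · exact Nat.zero_le _

lemma center_data (hn : 1 ≤ n) (z : Subgroup.center (Matrix.SpecialLinearGroup (Fin n) F)) :
    ∃ ζ : F, ζ ^ n = 1 ∧ ((z : Matrix.SpecialLinearGroup (Fin n) F) : Matrix (Fin n) (Fin n) F) =
      Matrix.scalar (Fin n) ζ := by
  obtain ⟨r, hr, e⟩ := Matrix.SpecialLinearGroup.mem_center_iff.1 z.2
  refine ⟨r, ?_, e.symm⟩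
  simpa using hr

lemma two_fixed (z : Subgroup.center (Matrix.SpecialLinearGroup (Fin 2) F)) (ζ : F)
    (hζn : ζ ^ 2 = 1) (hζ1 : ζ ≠ 1)
    (hz : ((z : Matrix.SpecialLinearGroup (Fin 2) F) : Matrix (Fin 2) (Fin 2) F) = Matrix.scalar (Fin 2) ζ)
    (Y : Finset (ConjClasses (Matrix.SpecialLinearGroup (Fin 2) F)))
    (hY : ∀ c ∈ Y, zAct z c = c) : Y.card ≤ 1 := by
  classical
  have hζ : ζ ≠ 0 := by
    rintro rfl
    rw [zero_pow (by omega)] at hζn
    exact zero_ne_one hζn
  have ho : orderOf ζ = 2 := orderOf_eq_prime hζn hζ1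
  refine (fixed_le (by omega) z ζ hζ hz Y hY).trans ?_
  rw [ho]
  let t₀ : List F[X] := [1, X ^ 2 + 1]
  have hle : ∀ t ∈ (tupL F 2 2).filter (fun t => ∀ x ∈ t, InvO 2 x),
      (if detL t = 1 then gam (Fintype.card F) (minJ t) else 0) ≤ if t = t₀ then 1 else 0 := by
    intro t ht
    obtain ⟨ht1, ht2⟩ := Finset.mem_filter.1 ht
    by_cases hd : detL t = 1
    · rw [if_pos hd]
      obtain ⟨s, hs, h, hh, l, hl, rfl⟩ := mem_tupL_succ.1 ht1
      obtain ⟨s', hs', h', hh', l', hl', rfl⟩ := mem_tupL_succ.1 hl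
      have hlnil : l' = [] := by
        rw [tupL] at hl'
        split_ifs at hl' with h0
        · exact Finset.mem_singleton.1 hl'
        · simp at hl'
      have hdeg : 2 - (1 + 1) * s - (0 + 1) * s' = 0 := by
        by_contra hc
        rw [tupL, if_neg hc] at hl'
        simp at hl'
      subst hlnil
      obtain ⟨hm, hd1, h0⟩ := mem_nzSet.1 hh
      obtain ⟨hm', hd1', h0'⟩ := mem_nzSet.1 hh'
      have hi1 := ht2 h (by simp)
      have hi2 := ht2 h' (by simp)
      have hc1 : h.coeff s = 1 := by rw [← hd1]; exact hm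
      have hdv : 2 ∣ s := hi1 s (by rw [hc1]; exact one_ne_zero)
      have hs0 : s = 0 := by omega
      subst hs0
      have hs2 : s' = 2 := by omega
      subst hs2
      have hh1 : h = 1 := eq_one_of_monic_natDegree_zero hm hd1
      subst hh1
      have hcoef1 : h'.coeff 1 = 0 := by
        by_contra hc
        have := hi2 1 hc
        omega
      have hcoef0 : h'.coeff 0 = 1 := by
        have hd2 := hd
        simp only [detL, List.length_nil, dt, natDegree_one, pow_zero, coeff_one_zero, mul_one,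
          List.length_cons, zero_add, one_pow, pow_one, hd1'] at hd2
        simpa using hd2
      have hh2 : h' = X ^ 2 + 1 := by
        ext m
        rcases m with _ | _ | _ | m
        · simp [hcoef0]
        · simp [hcoef1, coeff_one, coeff_X_pow]
        · have : h'.coeff 2 = 1 := by rw [← hd1']; exact hm'
          simp [this, coeff_one, coeff_X_pow]
        · rw [coeff_eq_zero_of_natDegree_lt (by omega)]
          simp [coeff_one, coeff_X_pow]
      subst hh2
      have hne : (X ^ 2 + 1 : F[X]) ≠ 1 := by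
        intro he
        have := congrArg (fun p => p.coeff 2) he
        simp [coeff_one, coeff_X_pow] at this
      rw [if_pos rfl]
      have hmin : minJ (1 :: [X ^ 2 + 1] : List F[X]) = 1 := by
        simp [minJ, hne]
      rw [hmin]
      simp [gam]
    · rw [if_neg hd]
      exact Nat.zero_le _
  refine (Finset.sum_le_sum hle).trans ?_
  rw [Finset.sum_ite_eq']
  split_ifs <;> omega

lemma burnside (hn : 1 ≤ n) : ∃ Fz : Subgroup.center (Matrix.SpecialLinearGroup (Fin n) F) →
    Finset (ConjClasses (Matrix.SpecialLinearGroup (Fin n) F)),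
    (∀ z c, c ∈ Fz z ↔ zAct z c = c) ∧
    ∑ z ∈ (Set.univ : Set _).toFinite.toFinset, (Fz z).card =
      Nat.gcd n (Fintype.card F - 1) *
        Nat.card (ConjClasses (Matrix.ProjectiveSpecialLinearGroup (Fin n) F)) := by
  classical
  letI := zActI (F := F) (n := n)
  letI : Fintype (Subgroup.center (Matrix.SpecialLinearGroup (Fin n) F)) := Fintype.ofFinite _
  letI : Fintype (ConjClasses (Matrix.SpecialLinearGroup (Fin n) F)) := Fintype.ofFinite _
  letI : Fintype (MulAction.orbitRel.Quotient (Subgroup.center (Matrix.SpecialLinearGroup (Fin n) F))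
      (ConjClasses (Matrix.SpecialLinearGroup (Fin n) F))) := Fintype.ofFinite _
  letI : ∀ z : Subgroup.center (Matrix.SpecialLinearGroup (Fin n) F),
      Fintype (MulAction.fixedBy (ConjClasses (Matrix.SpecialLinearGroup (Fin n) F)) z) :=
    fun _ => Fintype.ofFinite _
  have hB := MulAction.sum_card_fixedBy_eq_card_orbits_mul_card_group
    (Subgroup.center (Matrix.SpecialLinearGroup (Fin n) F))
    (ConjClasses (Matrix.SpecialLinearGroup (Fin n) F))
  refine ⟨fun z => Finset.univ.filter (fun c => zAct z c = c), fun z c => by simp, ?_⟩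
  have e1 : ∀ z : Subgroup.center (Matrix.SpecialLinearGroup (Fin n) F),
      Fintype.card (MulAction.fixedBy (ConjClasses (Matrix.SpecialLinearGroup (Fin n) F)) z) =
      (Finset.univ.filter (fun c => zAct z c = c)).card := by
    intro z
    refine Fintype.card_of_subtype _ ?_
    intro c
    simp only [Finset.mem_filter, Finset.mem_univ, true_and]
    rfl
  simp only [e1] at hB
  have e2 : (Set.univ : Set (Subgroup.center (Matrix.SpecialLinearGroup (Fin n) F))).toFinite.toFinset =
      Finset.univ := by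
    ext z
    simp
  rw [e2, hB, ← Nat.card_eq_fintype_card, ← Nat.card_eq_fintype_card, card_center hn, orbits_eq,
    mul_comm]

end act



/-- The number of conjugacy classes of PSL(n,q): for F a finite field with q elements, n ≥ 2 and d = gcd(n, q − 1), the number k of conjugacy classes of PSL(n,F) satisfies q^(n−1) ≤ d·k ≤ q^(n−1) + 5q^(n−2). -/
theorem result {F : Type*} [Field F] [Fintype F] (n : ℕ) (hn : 2 ≤ n) :
    Fintype.card F ^ (n - 1) ≤ Nat.gcd n (Fintype.card F - 1) * Nat.card (ConjClasses (Matrix.ProjectiveSpecialLinearGroup (Fin n) F)) ∧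
      Nat.gcd n (Fintype.card F - 1) * Nat.card (ConjClasses (Matrix.ProjectiveSpecialLinearGroup (Fin n) F)) ≤ Fintype.card F ^ (n - 1) + 5 * Fintype.card F ^ (n - 2) := by
  classical
  have hq : 2 ≤ Fintype.card F := Fintype.one_lt_card
  have hn1 : 1 ≤ n := by omega
  obtain ⟨Fz, hFz, hB⟩ := burnside (F := F) (n := n) hn1
  obtain ⟨hl1, hl2, hl3⟩ := Cfsg.Agent.S2479.result (F := F) n hn
  have hdq : Nat.gcd n (Fintype.card F - 1) ≤ Fintype.card F - 1 :=
    Nat.gcd_le_right _ (by omega)
  have hdn : Nat.gcd n (Fintype.card F - 1) ≤ n := Nat.gcd_le_left _ (by omega)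
  rw [← hB]
  letI : Fintype (Subgroup.center (Matrix.SpecialLinearGroup (Fin n) F)) := Fintype.ofFinite _
  have e2 : (Set.univ : Set (Subgroup.center (Matrix.SpecialLinearGroup (Fin n) F))).toFinite.toFinset =
      Finset.univ := by
    ext z
    simp
  have hcardZ : Fintype.card (Subgroup.center (Matrix.SpecialLinearGroup (Fin n) F)) =
      Nat.gcd n (Fintype.card F - 1) := by
    rw [← Nat.card_eq_fintype_card, card_center hn1]
  rw [e2, ← Finset.add_sum_erase Finset.univ _ (Finset.mem_univ (1 : Subgroup.center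
    (Matrix.SpecialLinearGroup (Fin n) F)))]
  have hF1 : (Fz 1).card = Nat.card (ConjClasses (Matrix.SpecialLinearGroup (Fin n) F)) := by
    letI : Fintype (ConjClasses (Matrix.SpecialLinearGroup (Fin n) F)) := Fintype.ofFinite _
    have : Fz 1 = Finset.univ := by
      ext c
      rw [hFz]
      simp only [Finset.mem_univ, iff_true]
      obtain ⟨g, rfl⟩ := ConjClasses.exists_rep c
      rw [zAct_mk]
      simp
    rw [this, Finset.card_univ, Nat.card_eq_fintype_card]
  rw [hF1]
  have hEc : (Finset.univ.erase (1 : Subgroup.center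
      (Matrix.SpecialLinearGroup (Fin n) F))).card = Nat.gcd n (Fintype.card F - 1) - 1 := by
    rw [Finset.card_erase_of_mem (Finset.mem_univ _), Finset.card_univ, hcardZ]
  refine ⟨(hl1.le).trans (Nat.le_add_right _ _), ?_⟩
  have hdata : ∀ z : Subgroup.center (Matrix.SpecialLinearGroup (Fin n) F), z ≠ 1 →
      ∃ ζ : F, ζ ^ n = 1 ∧ ζ ≠ 1 ∧ ((z : Matrix.SpecialLinearGroup (Fin n) F) : Matrix (Fin n) (Fin n) F) =
        Matrix.scalar (Fin n) ζ := by
    intro z hz
    obtain ⟨ζ, h1, h2⟩ := center_data hn1 z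
    refine ⟨ζ, h1, ?_, h2⟩
    rintro rfl
    apply hz
    apply Subtype.ext
    apply Subtype.ext
    rw [h2]
    simp
  rcases Nat.lt_or_ge n 5 with h5 | h5
  · have hcases : n = 2 ∨ n = 3 ∨ n = 4 := by omega
    rcases hcases with rfl | rfl | rfl
    · -- the case `n = 2`
      have hW : ∑ z ∈ Finset.univ.erase (1 : Subgroup.center
          (Matrix.SpecialLinearGroup (Fin 2) F)), (Fz z).card ≤ 1 := by
        have h1 : ∀ z ∈ Finset.univ.erase (1 : Subgroup.center
            (Matrix.SpecialLinearGroup (Fin 2) F)), (Fz z).card ≤ 1 := by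
          intro z hz
          obtain ⟨ζ, h2, h3, h4⟩ := hdata z (Finset.ne_of_mem_erase hz)
          exact two_fixed z ζ h2 h3 h4 (Fz z) fun c hc => (hFz z c).1 hc
        refine (Finset.sum_le_card_nsmul _ _ 1 h1).trans ?_
        rw [hEc, smul_eq_mul, mul_one]
        omega
      have hk := upper (F := F) (n := 2) (by omega)
      rw [bound_two _ hq] at hk
      have h6 := Nat.le_of_mul_le_mul_left hk (by omega)
      have h7 := gam_le_right (Fintype.card F) 2 (by norm_num)
      have h8 : gam (Fintype.card F) 2 ^ 2 ≤ 2 ^ 2 := Nat.pow_le_pow_left h7 2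
      simp only [Nat.add_one_sub_one, Nat.reduceSub, pow_one, pow_zero]
      omega
    · -- the case `n = 3`
      have hW : ∑ z ∈ Finset.univ.erase (1 : Subgroup.center
          (Matrix.SpecialLinearGroup (Fin 3) F)), (Fz z).card ≤ 2 * Fintype.card F := by
        have h1 : ∀ z ∈ Finset.univ.erase (1 : Subgroup.center
            (Matrix.SpecialLinearGroup (Fin 3) F)), (Fz z).card ≤ Fintype.card F - 1 := by
          intro z hz
          obtain ⟨ζ, h2, h3, h4⟩ := hdata z (Finset.ne_of_mem_erase hz)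
          obtain ⟨h5, h6, h7⟩ := nz_bound hn1 z ζ h2 h3 h4 (Fz z) fun c hc => (hFz z c).1 hc
          have h8 : orderOf ζ = 3 := by
            rcases (Nat.dvd_prime Nat.prime_three).1 h5 with h9 | h9
            · exact absurd h9 h6
            · exact h9
          rw [h8] at h7
          refine h7.trans ?_
          rw [show (3 : ℕ) / 3 = 1 from rfl, cntB_sat _ 1 (by norm_num) 3 (by norm_num), cntB_one]
        refine (Finset.sum_le_card_nsmul _ _ _ h1).trans ?_
        rw [hEc, smul_eq_mul]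
        calc _ ≤ 2 * Fintype.card F := by
              apply Nat.mul_le_mul <;> omega
          _ = _ := rfl
      have h3 := hl3 (by norm_num)
      simp only [Nat.add_one_sub_one, Nat.reduceSub] at h3 ⊢
      rw [pow_one] at h3 ⊢
      omega
    · -- the case `n = 4`
      have hW : ∑ z ∈ Finset.univ.erase (1 : Subgroup.center
          (Matrix.SpecialLinearGroup (Fin 4) F)), (Fz z).card ≤ 2 * Fintype.card F ^ 2 := by
        have hgen : ∀ z ∈ Finset.univ.erase (1 : Subgroup.center
            (Matrix.SpecialLinearGroup (Fin 4) F)), (Fz z).card ≤ (Fintype.card F - 1) +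
            if ((z : Matrix.SpecialLinearGroup (Fin 4) F) : Matrix (Fin 4) (Fin 4) F) =
              Matrix.scalar (Fin 4) (-1) then
              (Fintype.card F - 1) * (Fintype.card F + 3) else 0 := by
          intro z hz
          obtain ⟨ζ, h2, h3, h4⟩ := hdata z (Finset.ne_of_mem_erase hz)
          obtain ⟨h5, h6, h7⟩ := nz_bound hn1 z ζ h2 h3 h4 (Fz z) fun c hc => (hFz z c).1 hc
          have h8 : orderOf ζ ≠ 0 := by
            intro h
            rw [h, zero_dvd_iff] at h5
            omega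
          have h9 : orderOf ζ ≤ 4 := Nat.le_of_dvd (by norm_num) h5
          have h10 : orderOf ζ = 2 ∨ orderOf ζ = 4 := by
            interval_cases (orderOf ζ) <;> simp_all
          have hb2 : cntB (Fintype.card F) 4 2 ≤ (Fintype.card F - 1) +
              (Fintype.card F - 1) * (Fintype.card F + 3) := by
            rw [cntB_sat _ 2 (by norm_num) 4 (by norm_num), bound_two _ hq]
            have e : (Fintype.card F - 1) + (Fintype.card F - 1) * (Fintype.card F + 3) =
              (Fintype.card F - 1) * (Fintype.card F + 4) := by ring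
            rw [e]
            refine Nat.mul_le_mul_left _ ?_
            have h11 := gam_le_right (Fintype.card F) 2 (by norm_num)
            have h12 : gam (Fintype.card F) 2 ^ 2 ≤ 2 ^ 2 := Nat.pow_le_pow_left h11 2
            omega
          have hb1 : cntB (Fintype.card F) 4 1 = Fintype.card F - 1 := by
            rw [cntB_sat _ 1 (by norm_num) 4 (by norm_num), cntB_one]
          split_ifs with h11
          · rcases h10 with h12 | h12
            · rw [h12] at h7
              exact h7.trans hb2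
            · rw [h12] at h7
              refine h7.trans ?_
              rw [show (4 : ℕ) / 4 = 1 from rfl, hb1]
              exact Nat.le_add_right _ _
          · rw [add_zero]
            rcases h10 with h12 | h12
            · exfalso
              have h13 : ζ ^ 2 = 1 := by
                rw [← h12]
                exact pow_orderOf_eq_one ζ
              have h14 : ζ = -1 := by
                have h15 : (ζ - 1) * (ζ + 1) = 0 := by linear_combination h13
                rcases mul_eq_zero.1 h15 with h | h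
                · exact absurd (sub_eq_zero.1 h) h3
                · exact eq_neg_of_add_eq_zero_left h
              exact h11 (by rw [h4, h14])
            · rw [h12] at h7
              refine h7.trans ?_
              rw [show (4 : ℕ) / 4 = 1 from rfl, hb1]
        refine (Finset.sum_le_sum hgen).trans ?_
        rw [Finset.sum_add_distrib, Finset.sum_const, smul_eq_mul, Finset.sum_ite,
          Finset.sum_const_zero, add_zero, Finset.sum_const, smul_eq_mul]
        have hA : (((Finset.univ.erase (1 : Subgroup.center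
            (Matrix.SpecialLinearGroup (Fin 4) F))).filter (fun z : Subgroup.center
            (Matrix.SpecialLinearGroup (Fin 4) F) => ((z : Matrix.SpecialLinearGroup (Fin 4) F) :
            Matrix (Fin 4) (Fin 4) F) = Matrix.scalar (Fin 4) (-1))).card) ≤ 1 := by
          refine Finset.card_le_one.2 fun z hz z' hz' => ?_
          have h1 := (Finset.mem_filter.1 hz).2
          have h2 := (Finset.mem_filter.1 hz').2
          exact Subtype.ext (Subtype.val_injective (h1.trans h2.symm))
        have hE3 : (Finset.univ.erase (1 : Subgroup.center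
            (Matrix.SpecialLinearGroup (Fin 4) F))).card ≤ 3 := by
          rw [hEc]
          omega
        refine le_trans (Nat.add_le_add (Nat.mul_le_mul_right _ hE3) (Nat.mul_le_mul_right _ hA)) ?_
        obtain ⟨r, hr⟩ : ∃ r, Fintype.card F = r + 2 := ⟨Fintype.card F - 2, by omega⟩
        rw [hr]
        have e1 : r + 2 - 1 = r + 1 := by omega
        rw [e1]
        have hrr : r ≤ r * r := Nat.le_mul_self r
        nlinarith
      have h3 := hl3 (by norm_num)
      simp only [Nat.add_one_sub_one, Nat.reduceSub] at h3 ⊢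
      omega
  · -- the case `n ≥ 5`
    have h1 : ∀ z ∈ Finset.univ.erase (1 : Subgroup.center
        (Matrix.SpecialLinearGroup (Fin n) F)), (Fz z).card ≤ 2 * Fintype.card F ^ (n / 2) := by
      intro z hz
      obtain ⟨ζ, h2, h3, h4⟩ := hdata z (Finset.ne_of_mem_erase hz)
      obtain ⟨h6, h7, h8⟩ := nz_bound hn1 z ζ h2 h3 h4 (Fz z) fun c hc => (hFz z c).1 hc
      have h9 : orderOf ζ ≠ 0 := by
        intro h
        rw [h, zero_dvd_iff] at h6
        omega
      have h10 : 2 ≤ orderOf ζ := by omega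
      have h11 : n / orderOf ζ ≠ 0 := by
        intro h
        have h12 := Nat.le_of_dvd (by omega) h6
        have h13 := Nat.div_pos h12 (by omega : 0 < orderOf ζ)
        omega
      refine h8.trans ((cntB_bd _ _ hq (Nat.pos_of_ne_zero h11) n (Nat.div_le_self _ _)).trans ?_)
      refine Nat.mul_le_mul_left _ (Nat.pow_le_pow_right (by omega) ?_)
      exact Nat.div_le_div_left h10 (by norm_num)
    have h2 := Finset.sum_le_card_nsmul _ _ _ h1
    rw [hEc, smul_eq_mul] at h2
    have h3 := hl3 (by omega)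
    have h4 : (Nat.gcd n (Fintype.card F - 1) - 1) * (2 * Fintype.card F ^ (n / 2)) ≤
        2 * Fintype.card F ^ (n - 2) := by
      calc _ ≤ Fintype.card F * (2 * Fintype.card F ^ (n / 2)) :=
            Nat.mul_le_mul_right _ (by omega)
        _ = 2 * Fintype.card F ^ (n / 2 + 1) := by ring
        _ ≤ _ := Nat.mul_le_mul_left _ (Nat.pow_le_pow_right (by omega) (by omega))
    omega

end Cfsg.Agent.S2480
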