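import Cfsg.Statements.S2485
import Cfsg.Agent.Lib.H11.Mers

set_option autoImplicit false
open scoped Pointwise
open Cfsg

namespace Cfsg.Agent.S2485

/-- Let q = 2^k − 1 ≥ 7 be a prime and let G = PGL(2,q), the general linear group of degree 2 over the field with q elements modulo its centre. Then any two Sylow 2-subgroups of G have a non-trivial intersection: for a Sylow 2-subgroup H and every x ∈ G, H ∩ H^x ≠ 1. -/
theorem result {q k : ℕ} [Fact q.Prime] (hk : q + 1 = 2 ^ k) (hq : 7 ≤ q)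
    (H : Sylow 2 (GL (Fin 2) (ZMod q) ⧸ Subgroup.center (GL (Fin 2) (ZMod q))))
    (x : GL (Fin 2) (ZMod q) ⧸ Subgroup.center (GL (Fin 2) (ZMod q))) :
    (H : Subgroup (GL (Fin 2) (ZMod q) ⧸ Subgroup.center (GL (Fin 2) (ZMod q)))) ⊓ MulAut.conj x • (H : Subgroup _) ≠ ⊥ := by
  classical
  have hqp : q.Prime := Fact.out
  have hk3 : 3 ≤ k := by
    by_contra h
    have h1 : k ≤ 2 := by omega
    have h2 : 2 ^ k ≤ 2 ^ 2 := Nat.pow_le_pow_right (by norm_num) h1
    omega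
  obtain ⟨r, rfl⟩ : ∃ r, k = r + 3 := ⟨k - 3, by omega⟩
  have hq4 : q % 4 = 3 := by
    have : 2 ^ (r + 3) = 8 * 2 ^ r := by ring
    omega
  have hn : ∀ c : ZMod q, c * c ≠ -1 := by
    intro c hc
    have h1 : IsSquare (-1 : ZMod q) := ⟨c, hc.symm⟩
    exact (ZMod.exists_sq_eq_neg_one_iff.1 h1) hq4
  have h2 : (2 : ZMod q) ≠ 0 := by
    intro h
    have h3 : ((2 : ℕ) : ZMod q) = 0 := by exact_mod_cast h
    rw [ZMod.natCast_eq_zero_iff] at h3
    have := Nat.le_of_dvd (by norm_num) h3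
    omega
  have hcard : Nat.card (ZMod q) = q := Nat.card_zmod q
  refine Cfsg.Agent.H11.Mers.main_thm hn h2 (k := r + 3) (by rw [hcard]; exact hk) ?_ (by rw [hcard]; omega) H x
  rw [hcard]
  have h3 : q = 8 * 2 ^ r - 1 := by
    have : 2 ^ (r + 3) = 8 * 2 ^ r := by ring
    omega
  have h4 : 0 < 2 ^ r := by positivity
  refine ⟨2 * 2 ^ r - 1, ?_⟩
  omega

end Cfsg.Agent.S2485
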