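import Cfsg.Statements.S2490
import Mathlib

set_option autoImplicit false
open Cfsg

namespace Cfsg.Agent.S2490

namespace X
open Subgroup Equiv.Perm

section perm
variable {α : Type*} [Fintype α] [DecidableEq α]

lemma sign_invol (σ : Equiv.Perm α) (h : σ ^ 2 = 1) :
    2 ∣ σ.support.card ∧ Equiv.Perm.sign σ = (-1 : ℤˣ) ^ (σ.support.card / 2) := by
  by_cases h1 : σ = 1
  · subst h1; simp
  have ho : orderOf σ = 2 := orderOf_eq_prime h h1
  obtain ⟨n, hn⟩ := Equiv.Perm.cycleType_prime_order (σ := σ) (by rw [ho]; exact Nat.prime_two)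
  rw [ho] at hn
  have hs : σ.support.card = 2 * (n + 1) := by
    rw [← Equiv.Perm.sum_cycleType, hn]; simp; ring
  refine ⟨⟨_, hs⟩, ?_⟩
  rw [Equiv.Perm.sign_of_cycleType, hn, hs]
  simp only [Multiset.sum_replicate, Multiset.card_replicate, smul_eq_mul]
  have : 2 * (n + 1) / 2 = n + 1 := by omega
  rw [this]
  have e : (n + 1) * 2 + (n + 1) = 2 * (n + 1) + (n + 1) := by ring
  rw [e, pow_add, pow_mul]
  simp

/-- a permutation with `σ⁴ = 1`, `σ²` fixing exactly one point, has all nontrivial cycles of length 4. -/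
lemma sign_four (σ : Equiv.Perm α) (h4 : σ ^ 4 = 1) (a : α) (ha : σ a = a)
    (hfix : ∀ x, (σ ^ 2) x = x → x = a) (hcard : Fintype.card α = 45) :
    Equiv.Perm.sign σ = -1 := by
  have hall : ∀ m ∈ σ.cycleType, m = 4 := by
    intro m hm
    have h2 := Equiv.Perm.two_le_of_mem_cycleType hm
    have hd : m ∣ 4 := (Equiv.Perm.dvd_of_mem_cycleType hm).trans (orderOf_dvd_of_pow_eq_one h4)
    have hle := Nat.le_of_dvd (by norm_num) hd
    interval_cases m
    · -- a 2-cycle
      exfalso
      rw [Equiv.Perm.cycleType_def, Multiset.mem_map] at hm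
      obtain ⟨c, hc, hcs⟩ := hm
      have hc' : c ∈ σ.cycleFactorsFinset := hc
      have hcyc := Equiv.Perm.mem_cycleFactorsFinset_iff.1 hc'
      obtain ⟨x, hx⟩ : c.support.Nonempty := by
        rw [← Finset.card_pos]
        simp only [Function.comp] at hcs
        omega
      have hcc : c x ≠ x := Equiv.Perm.mem_support.1 hx
      have hcx : c x ∈ c.support := Equiv.Perm.apply_mem_support.2 hx
      have hσx : ∀ y ∈ c.support, σ y = c y := fun y hy => (hcyc.2 y hy).symm
      have ho : orderOf c = 2 := by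
        rw [hcyc.1.orderOf]
        simpa [Function.comp] using hcs
      have hc2 : c ^ 2 = 1 := by rw [← ho]; exact pow_orderOf_eq_one c
      have h1 : (σ ^ 2) x = x := by
        have : (c ^ 2) x = x := by rw [hc2]; rfl
        rw [pow_two] at this ⊢
        simp only [Equiv.Perm.mul_apply] at this ⊢
        rw [hσx x hx, hσx _ hcx]; exact this
      have h2' : (σ ^ 2) (c x) = c x := by
        have : (c ^ 2) (c x) = c x := by rw [hc2]; rfl
        rw [pow_two] at this ⊢
        simp only [Equiv.Perm.mul_apply] at this ⊢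
        rw [hσx _ hcx, hσx _ (Equiv.Perm.apply_mem_support.2 hcx)]; exact this
      exact hcc ((hfix _ h2').trans (hfix _ h1).symm)
    · exfalso; omega
    · rfl
  have hrep : σ.cycleType = Multiset.replicate (Multiset.card σ.cycleType) 4 :=
    Multiset.eq_replicate.2 ⟨rfl, hall⟩
  have hsupp : σ.support = Finset.univ.erase a := by
    ext x
    simp only [Equiv.Perm.mem_support, Finset.mem_erase, Finset.mem_univ, and_true]
    constructor
    · intro hx hxa; exact hx (hxa ▸ ha)
    · intro hx hσ
      apply hx; apply hfix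
      rw [pow_two, Equiv.Perm.mul_apply, hσ, hσ]
  have hs : σ.support.card = 44 := by
    rw [hsupp, Finset.card_erase_of_mem (Finset.mem_univ a), Finset.card_univ, hcard]
  have hsum : σ.cycleType.sum = 44 := by rw [Equiv.Perm.sum_cycleType, hs]
  have hcardc : Multiset.card σ.cycleType = 11 := by
    rw [hrep] at hsum
    simp at hsum
    rw [hrep]; simp; omega
  rw [Equiv.Perm.sign_of_cycleType, hsum, hcardc]
  rfl
end perm

section simple
variable {N : Type*} [Group N] [Finite N]

lemma bt [IsSimpleGroup N] (hnc : ∃ a b : N, a * b ≠ b * a) {p : ℕ} [Fact p.Prime] (P : Sylow p N)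
    (hp : p ∣ Nat.card N) (h : Subgroup.normalizer (P : Set N) ≤ Subgroup.centralizer (P : Set N)) :
    False := by
  classical
  have hc := MonoidHom.ker_transferSylow_isComplement' P h
  have hcard := hc.card_mul_card
  have hn : (MonoidHom.transferSylow P h).ker.Normal := inferInstance
  rcases hn.eq_bot_or_eq_top with hb | ht
  · rw [hb] at hcard
    simp only [Subgroup.card_bot, one_mul] at hcard
    have hP : (P : Subgroup N) = ⊤ := Subgroup.eq_top_of_card_eq _ hcard
    have hpg : IsPGroup p N := by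
      have := P.2
      intro g
      obtain ⟨k, hk⟩ := this ⟨g, by rw [hP]; trivial⟩
      exact ⟨k, by simpa [Subtype.ext_iff] using hk⟩
    haveI : Nontrivial N := IsSimpleGroup.toNontrivial
    have hz := hpg.center_nontrivial
    have hcn : (Subgroup.center N).Normal := inferInstance
    rcases hcn.eq_bot_or_eq_top with h0 | h1
    · rw [h0] at hz
      exact (not_nontrivial_iff_subsingleton.2 (inferInstance : Subsingleton (⊥ : Subgroup N))) hz
    · obtain ⟨a, b, hab⟩ := hnc
      have : a ∈ Subgroup.center N := by rw [h1]; trivial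
      exact hab ((Subgroup.mem_center_iff.1 this b).symm)
  · rw [ht] at hcard
    simp only [Subgroup.card_top] at hcard
    have hpos : 0 < Nat.card N := Nat.card_pos
    have h1 : Nat.card (P : Subgroup N) = 1 := by
      have : Nat.card N * Nat.card (P : Subgroup N) = Nat.card N * 1 := by rw [hcard, mul_one]
      exact Nat.eq_of_mul_eq_mul_left hpos this
    exact P.ne_bot_of_dvd_card hp (Subgroup.card_eq_one.1 h1)

lemma sign_triv [IsSimpleGroup N] (hnc : ∃ a b : N, a * b ≠ b * a) (f : N →* ℤˣ) (g : N) : f g = 1 := by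
  have hn : f.ker.Normal := inferInstance
  rcases hn.eq_bot_or_eq_top with hb | ht
  · exfalso
    obtain ⟨a, b, hab⟩ := hnc
    apply hab
    apply (MonoidHom.ker_eq_bot_iff f).1 hb
    rw [map_mul, map_mul, mul_comm]
  · have : g ∈ f.ker := by rw [ht]; trivial
    exact this
end simple
end X


namespace X
open Subgroup Equiv.Perm

local instance f11 : Fact (Nat.Prime 11) := ⟨by norm_num⟩
local instance f5 : Fact (Nat.Prime 5) := ⟨by norm_num⟩

section gen
variable {G : Type*} [Group G] [Finite G]

lemma comm_of_prime (H : Subgroup G) {p : ℕ} (hp : p.Prime) (hc : Nat.card H = p) {x y : G}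
    (hx : x ∈ H) (hy : y ∈ H) : x * y = y * x := by
  haveI : Fact p.Prime := ⟨hp⟩
  haveI := isCyclic_of_prime_card (α := H) hc
  obtain ⟨g, hg⟩ := IsCyclic.exists_generator (α := H)
  obtain ⟨a, ha⟩ := hg ⟨x, hx⟩
  obtain ⟨b, hb⟩ := hg ⟨y, hy⟩
  have hx' : ((g : H) : G) ^ a = x := by simpa using congrArg Subtype.val ha
  have hy' : ((g : H) : G) ^ b = y := by simpa using congrArg Subtype.val hb
  rw [← hx', ← hy']
  exact ((Commute.refl (g : G)).zpow_zpow a b).eq

lemma norm_dvd (H : Subgroup G) {p : ℕ} (hp : p.Prime) (hc : Nat.card H = p) :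
    Nat.card (normalizer (H : Set G)) ∣ (p - 1) * Nat.card (centralizer (H : Set G)) := by
  haveI : Fact p.Prime := ⟨hp⟩
  haveI := isCyclic_of_prime_card (α := H) hc
  have h1 := Subgroup.card_mul_index (H.normalizerMonoidHom).ker
  have h2 := Subgroup.index_ker (H.normalizerMonoidHom)
  have h3 : Nat.card (H.normalizerMonoidHom).range ∣ Nat.card (MulAut H) :=
    Subgroup.card_subgroup_dvd_card _
  have h4 : Nat.card (MulAut H) = Nat.totient (Nat.card H) := IsCyclic.card_mulAut H
  have h5 : Nat.card (H.normalizerMonoidHom).ker = Nat.card (centralizer (H : Set G)) := by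
    rw [Subgroup.normalizerMonoidHom_ker]
    exact Nat.card_congr (Subgroup.subgroupOfEquivOfLe (Subgroup.centralizer_le_normalizer _)).toEquiv
  rw [← h1, h5, h2, mul_comm]
  apply mul_dvd_mul_right
  rw [h4, hc, Nat.totient_prime hp] at h3
  exact h3

/-- an element of the normalizer of a prime-order subgroup whose order is coprime to `p-1`
centralises. -/
lemma comm_of_coprime_aut (H : Subgroup G) {p : ℕ} (hp : p.Prime) (hc : Nat.card H = p) (x : G)
    (hx : x ∈ normalizer (H : Set G)) (hco : Nat.Coprime (orderOf x) (p - 1)) :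
    ∀ q ∈ H, q * x = x * q := by
  haveI : Fact p.Prime := ⟨hp⟩
  haveI := isCyclic_of_prime_card (α := H) hc
  let f := H.normalizerMonoidHom
  have h1 : orderOf (f ⟨x, hx⟩) ∣ Nat.card (MulAut H) := orderOf_dvd_natCard _
  have h4 : Nat.card (MulAut H) = Nat.totient (Nat.card H) := IsCyclic.card_mulAut H
  rw [h4, hc, Nat.totient_prime hp] at h1
  have h2 : orderOf (f ⟨x, hx⟩) ∣ orderOf x := by
    have : orderOf (f ⟨x, hx⟩) ∣ orderOf (⟨x, hx⟩ : normalizer (H : Set G)) := orderOf_map_dvd _ _
    have e : orderOf (⟨x, hx⟩ : normalizer (H : Set G)) = orderOf x := by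
      rw [← Subgroup.orderOf_coe]
    rwa [e] at this
  have h3 : orderOf (f ⟨x, hx⟩) = 1 := Nat.eq_one_of_dvd_coprimes hco h2 h1
  have h5 : (⟨x, hx⟩ : normalizer (H : Set G)) ∈ f.ker := by
    rw [MonoidHom.mem_ker]; exact orderOf_eq_one_iff.1 h3
  have h6 : (⟨x, hx⟩ : normalizer (H : Set G)) ∈ (centralizer (H : Set G)).subgroupOf (normalizer (H : Set G)) := by
    rw [← Subgroup.normalizerMonoidHom_ker]; exact h5
  have h7 : x ∈ centralizer (H : Set G) := h6
  intro q hq
  exact Subgroup.mem_centralizer_iff.1 h7 q hq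
end gen

section T1
variable {N : Type*} [Group N] [Finite N]

lemma fix_eq (Q P : Sylow 11 N) (h : ∀ q ∈ (Q : Subgroup N), q • P = P) : P = Q := by
  have hm : P ∈ MulAction.fixedPoints (Q : Subgroup N) (Sylow 11 N) := fun q => h q q.2
  have hle := (IsPGroup.sylow_mem_fixedPoints_iff Q.2).1 hm
  exact Sylow.ext (Q.3 P.2 hle)

lemma act_comm (Q : Sylow 11 N) (x : N) (hx : ∀ q ∈ (Q : Subgroup N), q * x = x * q) : x • Q = Q := by
  apply Sylow.smul_eq_iff_mem_normalizer.2
  apply Subgroup.centralizer_le_normalizer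
  exact Subgroup.mem_centralizer_iff.2 hx

lemma fix_single [IsSimpleGroup N] (hnc : ∃ a b : N, a * b ≠ b * a) (Q : Sylow 11 N)
    (hn : Nat.card (Sylow 11 N) = 45) (hfaith : ∀ g : N, (∀ P : Sylow 11 N, g • P = P) → g = 1)
    (r : N) (hr1 : r ≠ 1) (hr2 : r ^ 2 = 1) (hrc : ∀ q ∈ (Q : Subgroup N), q * r = r * q) :
    ∀ P : Sylow 11 N, r • P = P → P = Q := by
  classical
  haveI : Fintype (Sylow 11 N) := Fintype.ofFinite _
  let S : SubMulAction (Q : Subgroup N) (Sylow 11 N) :=
    { carrier := {P | r • P = P}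
      smul_mem' := by
        intro q P hP
        show r • (q • P) = q • P
        have : r • (q • P) = q • (r • P) := by
          show r • ((q : N) • P) = (q : N) • (r • P)
          rw [smul_smul, smul_smul, hrc q q.2]
        rw [this, hP] }
  have hmod := IsPGroup.card_modEq_card_fixedPoints Q.2 S
  have hQS : Q ∈ S := act_comm Q r hrc
  have hfp : Nat.card (MulAction.fixedPoints (Q : Subgroup N) S) = 1 := by
    rw [Nat.card_eq_one_iff_unique]
    constructor
    · constructor
      rintro ⟨⟨P, hP⟩, hPf⟩ ⟨⟨P', hP'⟩, hPf'⟩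
      have e1 : P = Q := fix_eq Q P (fun q hq => congrArg Subtype.val (hPf ⟨q, hq⟩))
      have e2 : P' = Q := fix_eq Q P' (fun q hq => congrArg Subtype.val (hPf' ⟨q, hq⟩))
      apply Subtype.ext; apply Subtype.ext; simp [e1, e2]
    · refine ⟨⟨⟨Q, hQS⟩, ?_⟩⟩
      intro q
      apply Subtype.ext
      exact Sylow.smul_eq_iff_mem_normalizer.2 (Subgroup.le_normalizer q.2)
  rw [hfp] at hmod
  let σ : Equiv.Perm (Sylow 11 N) := MulAction.toPermHom N (Sylow 11 N) r
  have hσ2 : σ ^ 2 = 1 := by
    show (MulAction.toPermHom N (Sylow 11 N) r) ^ 2 = 1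
    rw [← map_pow, hr2, map_one]
  obtain ⟨hd, hs⟩ := sign_invol σ hσ2
  have hst : Equiv.Perm.sign σ = 1 :=
    sign_triv hnc ((Equiv.Perm.sign).comp (MulAction.toPermHom N (Sylow 11 N))) r
  rw [hst] at hs
  have hev : Even (σ.support.card / 2) := by
    by_contra hodd
    rw [Nat.not_even_iff_odd] at hodd
    rw [hodd.neg_one_pow] at hs
    exact absurd hs (by decide)
  have hFcard : Nat.card S = (Finset.univ.filter (fun P : Sylow 11 N => r • P = P)).card := by
    rw [Nat.card_eq_fintype_card, ← Fintype.card_subtype]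
    rfl
  have hsupp : σ.support = Finset.univ.filter (fun P : Sylow 11 N => ¬ r • P = P) := by
    ext P
    simp only [Equiv.Perm.mem_support, Finset.mem_filter, Finset.mem_univ, true_and]
    rfl
  have hsum : σ.support.card + Nat.card S = 45 := by
    rw [hFcard, hsupp, add_comm, Finset.card_filter_add_card_filter_not, Finset.card_univ,
      ← Nat.card_eq_fintype_card, hn]
  have hne : Nat.card S ≠ 45 := by
    intro h
    have hs0 : σ.support.card = 0 := by omega
    have : σ = 1 := by
      have := Finset.card_eq_zero.1 hs0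
      exact Equiv.Perm.support_eq_empty_iff.1 this
    apply hr1
    apply hfaith
    intro P
    have := congrArg (fun τ : Equiv.Perm (Sylow 11 N) => τ P) this
    exact this
  have hF1 : Nat.card S = 1 := by
    have hm : Nat.card S % 11 = 1 := hmod
    obtain ⟨k, hk⟩ := hev
    obtain ⟨m, hm'⟩ := hd
    omega
  intro P hP
  have hu : Subsingleton S := (Nat.card_eq_one_iff_unique.1 hF1).1
  have := hu.elim ⟨P, hP⟩ ⟨Q, hQS⟩
  exact congrArg Subtype.val this

end T1
end X


namespace X
open Subgroup Equiv.Perm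
local instance f11' : Fact (Nat.Prime 11) := ⟨by norm_num⟩
section T1b
variable {N : Type*} [Group N] [Finite N]

lemma T1b [IsSimpleGroup N] (hnc : ∃ a b : N, a * b ≠ b * a) (Q : Sylow 11 N)
    (hQ : Nat.card (Q : Subgroup N) = 11)
    (hn : Nat.card (Sylow 11 N) = 45) (hfaith : ∀ g : N, (∀ P : Sylow 11 N, g • P = P) → g = 1)
    {c k : ℕ} (hck : c = 2 ^ k) (hk2 : k = 2 ∨ k = 3)
    (hN0 : Nat.card (normalizer ((Q : Subgroup N) : Set N)) = 11 * c)
    (hcard : Nat.card N = 495 * c) : False := by
  classical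
  haveI : Fintype (Sylow 11 N) := Fintype.ofFinite _
  set N0 := normalizer ((Q : Subgroup N) : Set N) with hN0def
  obtain ⟨S0, hS0⟩ := Sylow.exists_subgroup_card_pow_prime (G := N0) 2 (n := k)
    (by rw [hN0, ← hck]; exact Dvd.intro_left _ rfl)
  let S : Subgroup N := S0.map N0.subtype
  have hScard : Nat.card S = c := by
    rw [hck, ← hS0]
    exact (Nat.card_congr (Subgroup.equivMapOfInjective S0 _ N0.subtype_injective).toEquiv).symm
  have hSN0 : S ≤ N0 := Subgroup.map_subtype_le S0
  have hQcyc : IsCyclic (Q : Subgroup N) := isCyclic_of_prime_card hQ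
  have hAut : Nat.card (MulAut (Q : Subgroup N)) = 10 := by
    rw [IsCyclic.card_mulAut, hQ, Nat.totient_prime (by norm_num)]
  let f := (Q : Subgroup N).normalizerMonoidHom
  have hdvd2 : ∀ d, d ∣ 10 → d ∣ c → d ∣ 2 := by
    intro d h10 hc
    have : d ∣ Nat.gcd 10 c := Nat.dvd_gcd h10 hc
    rcases hk2 with rfl | rfl <;> subst hck <;> simpa using this
  have hkerC : ∀ x (hx : x ∈ N0), f ⟨x, hx⟩ = 1 → ∀ q ∈ (Q : Subgroup N), q * x = x * q := by
    intro x hx h
    have h4 : (⟨x, hx⟩ : N0) ∈ f.ker := h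
    rw [Subgroup.normalizerMonoidHom_ker] at h4
    have h5 : x ∈ centralizer ((Q : Subgroup N) : Set N) := h4
    exact fun q hq => Subgroup.mem_centralizer_iff.1 h5 q hq
  have hordc : ∀ x ∈ S, orderOf x ∣ c := by
    intro x hx
    have := orderOf_dvd_natCard (⟨x, hx⟩ : S)
    rwa [hScard, Subgroup.orderOf_mk] at this
  have hsq : ∀ x ∈ S, ∀ q ∈ (Q : Subgroup N), q * x ^ 2 = x ^ 2 * q := by
    intro x hx q hq
    have hxN := hSN0 hx
    have h1 : orderOf (f ⟨x, hxN⟩) ∣ 10 := hAut ▸ orderOf_dvd_natCard _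
    have h2 : orderOf (f ⟨x, hxN⟩) ∣ c := by
      have a : orderOf (f ⟨x, hxN⟩) ∣ orderOf (⟨x, hxN⟩ : N0) := orderOf_map_dvd _ _
      rw [Subgroup.orderOf_mk] at a
      exact a.trans (hordc x hx)
    have h3 : (f ⟨x, hxN⟩) ^ 2 = 1 := orderOf_dvd_iff_pow_eq_one.1 (hdvd2 _ h1 h2)
    have h4 : f (⟨x, hxN⟩ ^ 2) = 1 := by rw [map_pow]; exact h3
    exact hkerC (x ^ 2) (N0.pow_mem hxN 2) h4 q hq
  obtain ⟨r, hrS, hr1, hrc⟩ : ∃ r ∈ S, r ≠ 1 ∧ ∀ q ∈ (Q : Subgroup N), q * r = r * q := by
    let g : S →* MulAut (Q : Subgroup N) := f.comp (Subgroup.inclusion hSN0)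
    have h1 := Subgroup.card_mul_index g.ker
    have h2 := Subgroup.index_ker g
    have h3 : Nat.card g.range ∣ 10 := hAut ▸ Subgroup.card_subgroup_dvd_card _
    have h4 : Nat.card g.range ∣ c := by
      rw [← hScard, ← h2]; exact Dvd.intro_left _ h1
    have h5 := hdvd2 _ h3 h4
    have h6 : g.ker ≠ ⊥ := by
      intro h
      have h1' : g.ker.index = Nat.card S := by
        have h1'' := h1
        rw [h] at h1'' ⊢
        simpa using h1''
      rw [h2, hScard] at h1'
      rw [h1'] at h5
      rcases hk2 with rfl | rfl <;> subst hck <;> omega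
    obtain ⟨⟨r, hrS⟩, hr, hne⟩ := (Subgroup.bot_or_exists_ne_one g.ker).resolve_left h6
    refine ⟨r, hrS, fun h => hne (Subtype.ext h), ?_⟩
    exact hkerC r (hSN0 hrS) hr
  have hcardΩ : Fintype.card (Sylow 11 N) = 45 := by rw [← Nat.card_eq_fintype_card, hn]
  have hexp : ∀ x ∈ S, x ^ 2 = 1 := by
    intro x hx
    by_contra hx2
    have h8 : x ^ 8 = 1 := by
      apply orderOf_dvd_iff_pow_eq_one.1
      apply (hordc x hx).trans
      rcases hk2 with rfl | rfl <;> subst hck <;> norm_num
    obtain ⟨y, hy, hy2, hy4⟩ : ∃ y ∈ S, y ^ 2 ≠ 1 ∧ y ^ 4 = 1 := by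
      by_cases h4 : x ^ 4 = 1
      · exact ⟨x, hx, hx2, h4⟩
      · exact ⟨x ^ 2, S.pow_mem hx 2, by rwa [← pow_mul], by rw [← pow_mul]; exact h8⟩
    have hu := fix_single hnc Q hn hfaith (y ^ 2) hy2 (by rw [← pow_mul]; exact hy4) (hsq y hy)
    have hsg := sign_four (MulAction.toPermHom N (Sylow 11 N) y)
      (by rw [← map_pow, hy4, map_one]) Q
      (Sylow.smul_eq_iff_mem_normalizer.2 (hSN0 hy))
      (fun P hP => hu P (by
        have : (MulAction.toPermHom N (Sylow 11 N) (y ^ 2)) P = P := by rw [map_pow]; exact hP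
        exact this)) hcardΩ
    have hst := sign_triv hnc ((Equiv.Perm.sign).comp (MulAction.toPermHom N (Sylow 11 N))) y
    have : Equiv.Perm.sign (MulAction.toPermHom N (Sylow 11 N) y) = 1 := hst
    rw [hsg] at this
    exact absurd this (by decide)
  have hcomm : ∀ x ∈ S, ∀ y ∈ S, x * y = y * x := by
    intro x hx y hy
    have h1 := hexp x hx
    have h2 := hexp y hy
    have h3 := hexp (x * y) (S.mul_mem hx hy)
    have hxi : x⁻¹ = x := by rw [inv_eq_iff_mul_eq_one, ← pow_two]; exact h1
    have hyi : y⁻¹ = y := by rw [inv_eq_iff_mul_eq_one, ← pow_two]; exact h2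
    have hxyi : (x * y)⁻¹ = x * y := by rw [inv_eq_iff_mul_eq_one, ← pow_two]; exact h3
    rw [mul_inv_rev, hxi, hyi] at hxyi
    exact hxyi.symm
  have hsingle := fix_single hnc Q hn hfaith r hr1 (hexp r hrS) hrc
  have hSp : IsPGroup 2 S := IsPGroup.of_card (n := k) (hScard.trans hck)
  obtain ⟨P, hSP⟩ := hSp.exists_le_sylow
  have hPS : (P : Subgroup N) = S := by
    symm
    apply Subgroup.eq_of_le_of_card_ge hSP
    obtain ⟨m, hm⟩ := IsPGroup.iff_card.1 P.2
    have h1 : Nat.card (P : Subgroup N) ∣ Nat.card N := Subgroup.card_subgroup_dvd_card _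
    rw [hcard, hm] at h1
    have h2 : (2 ^ m) ∣ c := by
      have hc2 : Nat.Coprime (2 ^ m) 495 := Nat.Coprime.pow_left m (by norm_num)
      exact hc2.dvd_of_dvd_mul_left h1
    rw [hm, hScard]
    exact Nat.le_of_dvd (by rw [hck]; positivity) h2
  have h2dvd : 2 ∣ Nat.card N := by
    rw [hcard]
    apply Dvd.dvd.mul_left
    rcases hk2 with rfl | rfl <;> subst hck <;> norm_num
  apply bt hnc P h2dvd
  intro g hg
  have hgS : g ∈ normalizer ((S : Subgroup N) : Set N) := by
    have : g ∈ normalizer ((P : Subgroup N) : Set N) := hg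
    rwa [hPS] at this
  have hgN0 : g ∈ N0 := by
    have hz : g * r * g⁻¹ ∈ S := (Subgroup.mem_normalizer_iff.1 hgS r).1 hrS
    have hzQ : (g * r * g⁻¹) • Q = Q := Sylow.smul_eq_iff_mem_normalizer.2 (hSN0 hz)
    have h1 : r • (g⁻¹ • Q) = g⁻¹ • Q := by
      rw [smul_smul]
      have : r * g⁻¹ = g⁻¹ * (g * r * g⁻¹) := by group
      rw [this, ← smul_smul, hzQ]
    have h2 := hsingle _ h1
    have h3 : g⁻¹ ∈ N0 := Sylow.smul_eq_iff_mem_normalizer.1 h2
    simpa using N0.inv_mem h3
  have hcp : IsComplement' ((Q : Subgroup N).subgroupOf N0) (S.subgroupOf N0) := by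
    apply Subgroup.isComplement'_of_coprime
    · have e1 : Nat.card ((Q : Subgroup N).subgroupOf N0) = 11 := by
        exact (Nat.card_congr (Subgroup.subgroupOfEquivOfLe (Subgroup.le_normalizer)).toEquiv).trans hQ
      have e2 : Nat.card (S.subgroupOf N0) = c := by
        rw [← hScard]
        exact Nat.card_congr (Subgroup.subgroupOfEquivOfLe hSN0).toEquiv
      rw [e1, e2, hN0]
    · have e1 : Nat.card ((Q : Subgroup N).subgroupOf N0) = 11 := by
        exact (Nat.card_congr (Subgroup.subgroupOfEquivOfLe (Subgroup.le_normalizer)).toEquiv).trans hQ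
      have e2 : Nat.card (S.subgroupOf N0) = c := by
        rw [← hScard]
        exact Nat.card_congr (Subgroup.subgroupOfEquivOfLe hSN0).toEquiv
      rw [e1, e2, hck]
      exact Nat.Coprime.pow_right k (by norm_num)
  obtain ⟨⟨⟨q0, hq0⟩, ⟨s0, hs0⟩⟩, he⟩ := hcp.2 ⟨g, hgN0⟩
  have hq : (q0 : N) ∈ (Q : Subgroup N) := hq0
  have hs : (s0 : N) ∈ S := hs0
  have hgqs : (q0 : N) * (s0 : N) = g := congrArg Subtype.val he
  rw [Subgroup.mem_centralizer_iff]
  intro u hu
  have huS : u ∈ S := by
    have : u ∈ (P : Subgroup N) := hu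
    rwa [hPS] at this
  have h1 : (q0 : N) * u * (q0 : N)⁻¹ = g * u * g⁻¹ := by
    rw [← hgqs]
    have : (s0 : N) * u * (s0 : N)⁻¹ = u := by
      rw [hcomm _ hs u huS]; group
    calc (q0 : N) * u * (q0 : N)⁻¹ = (q0 : N) * ((s0 : N) * u * (s0 : N)⁻¹) * (q0 : N)⁻¹ := by rw [this]
      _ = _ := by group
  have h2 : g * u * g⁻¹ ∈ S := (Subgroup.mem_normalizer_iff.1 hgS u).1 huS
  set v := (q0 : N) * u * (q0 : N)⁻¹ * u⁻¹ with hv
  have hvS : v ∈ S := by
    rw [hv, h1]; exact S.mul_mem h2 (S.inv_mem huS)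
  have hvQ : v ∈ (Q : Subgroup N) := by
    have : u * (q0 : N)⁻¹ * u⁻¹ ∈ (Q : Subgroup N) :=
      (Subgroup.mem_normalizer_iff.1 (hSN0 huS) _).1 ((Q : Subgroup N).inv_mem hq)
    have e : v = (q0 : N) * (u * (q0 : N)⁻¹ * u⁻¹) := by rw [hv]; group
    rw [e]; exact (Q : Subgroup N).mul_mem hq this
  have hv1 : v = 1 := by
    have a : orderOf v ∣ 11 := by
      have := orderOf_dvd_natCard (⟨v, hvQ⟩ : (Q : Subgroup N))
      rwa [hQ, Subgroup.orderOf_mk] at this
    have b : orderOf v ∣ c := hordc v hvS
    have hco : Nat.Coprime 11 c := by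
      rw [hck]; exact Nat.Coprime.pow_right k (by norm_num)
    exact orderOf_eq_one_iff.1 (Nat.eq_one_of_dvd_coprimes hco a b)
  have h3 : (q0 : N) * u * (q0 : N)⁻¹ = u := by
    have : (q0 : N) * u * (q0 : N)⁻¹ * u⁻¹ = 1 := hv1
    exact mul_inv_eq_one.1 this
  have h4 : g * u * g⁻¹ = u := by rw [← h1, h3]
  have h5 : g * u = u * g := mul_inv_eq_iff_eq_mul.1 h4
  exact h5.symm
end T1b
end X


namespace X
open Subgroup Equiv.Perm
local instance f11'' : Fact (Nat.Prime 11) := ⟨by norm_num⟩
section T1c
variable {N : Type*} [Group N] [Finite N]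

lemma le_zpowers_of_prime {G : Type*} [Group G] [Finite G] (H : Subgroup G) {p : ℕ} (hp : p.Prime)
    (hc : Nat.card H = p) {y : G} (hy : y ∈ H) (hy1 : y ≠ 1) : H ≤ Subgroup.zpowers y := by
  have hle : Subgroup.zpowers y ≤ H := Subgroup.zpowers_le.2 hy
  have ho : orderOf y ∣ p := by
    have := orderOf_dvd_natCard (⟨y, hy⟩ : H)
    rwa [hc, Subgroup.orderOf_mk] at this
  have ho' : orderOf y = p :=
    (Nat.dvd_prime hp).1 ho |>.resolve_left (fun h => hy1 (orderOf_eq_one_iff.1 h))
  have := Subgroup.eq_of_le_of_card_ge hle (by rw [hc, Nat.card_zpowers, ho'])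
  rw [this]

lemma T1c [IsSimpleGroup N] (hnc : ∃ a b : N, a * b ≠ b * a) (Q : Sylow 11 N)
    (hQ : Nat.card (Q : Subgroup N) = 11)
    (hn : Nat.card (Sylow 11 N) = 12) (hfaith : ∀ g : N, (∀ P : Sylow 11 N, g • P = P) → g = 1) :
    Nat.card (normalizer ((Q : Subgroup N) : Set N)) = 55 := by
  classical
  haveI : Fintype (Sylow 11 N) := Fintype.ofFinite _
  haveI : Fintype ↥(Q : Subgroup N) := Fintype.ofFinite _
  have hQcomm : ∀ x ∈ (Q : Subgroup N), ∀ y ∈ (Q : Subgroup N), x * y = y * x :=
    fun x hx y hy => comm_of_prime _ (by norm_num) hQ hx hy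
  haveI : Nontrivial (Sylow 11 N) := Finite.one_lt_card_iff_nontrivial.1 (by rw [hn]; norm_num)
  obtain ⟨P', hP'⟩ := exists_ne Q
  have hfree : ∀ q ∈ (Q : Subgroup N), q • P' = P' → q = 1 := by
    intro q hq hqP
    by_contra hq1
    have hle := le_zpowers_of_prime (Q : Subgroup N) (by norm_num) hQ hq hq1
    have hst : Subgroup.zpowers q ≤ MulAction.stabilizer N P' := Subgroup.zpowers_le.2 hqP
    exact hP' (fix_eq Q P' (fun x hx => hst (hle hx)))
  let ι : ↥(Q : Subgroup N) → Sylow 11 N := fun q => (q : N) • P'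
  have hinj : Function.Injective ι := by
    intro a b hab
    have h1 : ((b : N)⁻¹ * (a : N)) • P' = P' := by
      rw [← smul_smul]
      have : (a : N) • P' = (b : N) • P' := hab
      rw [this, smul_smul, inv_mul_cancel, one_smul]
    have h2 := hfree _ ((Q : Subgroup N).mul_mem ((Q : Subgroup N).inv_mem b.2) a.2) h1
    apply Subtype.ext
    have : (a : N) = (b : N) := by
      rw [inv_mul_eq_one] at h2; exact h2.symm
    exact this
  have hne : ∀ q ∈ (Q : Subgroup N), q • P' ≠ Q := by
    intro q hq h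
    apply hP'
    have : q⁻¹ • Q = Q := Sylow.smul_eq_iff_mem_normalizer.2
      (Subgroup.le_normalizer ((Q : Subgroup N).inv_mem hq))
    rw [← this, ← h, smul_smul, inv_mul_cancel, one_smul]
  have himg : Finset.univ.image ι = Finset.univ.erase Q := by
    apply Finset.eq_of_subset_of_card_le
    · intro x hx
      obtain ⟨q, -, rfl⟩ := Finset.mem_image.1 hx
      exact Finset.mem_erase.2 ⟨hne q q.2, Finset.mem_univ _⟩
    · rw [Finset.card_image_of_injective _ hinj, Finset.card_univ, ← Nat.card_eq_fintype_card, hQ,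
        Finset.card_erase_of_mem (Finset.mem_univ Q), Finset.card_univ, ← Nat.card_eq_fintype_card, hn]
  have htrans : ∀ P'' : Sylow 11 N, P'' ≠ Q → ∃ q ∈ (Q : Subgroup N), q • P' = P'' := by
    intro P'' h
    have : P'' ∈ Finset.univ.image ι := by rw [himg]; exact Finset.mem_erase.2 ⟨h, Finset.mem_univ _⟩
    obtain ⟨q, -, hq⟩ := Finset.mem_image.1 this
    exact ⟨q, q.2, hq⟩
  have hC : ∀ x : N, (∀ q ∈ (Q : Subgroup N), q * x = x * q) → x ∈ (Q : Subgroup N) := by
    intro x hx
    have hxQ := act_comm Q x hx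
    have hxP : x • P' ≠ Q := by
      intro h
      apply hP'
      have : x⁻¹ • Q = Q := by
        conv_lhs => rw [← hxQ]
        rw [smul_smul, inv_mul_cancel, one_smul]
      rw [← this, ← h, smul_smul, inv_mul_cancel, one_smul]
    obtain ⟨q, hq, hqP⟩ := htrans _ hxP
    have hy : q⁻¹ * x = 1 := by
      apply hfaith
      intro P
      by_cases hPQ : P = Q
      · subst hPQ
        rw [← smul_smul, hxQ]
        exact Sylow.smul_eq_iff_mem_normalizer.2 (Subgroup.le_normalizer ((P : Subgroup N).inv_mem hq))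
      · obtain ⟨q', hq', rfl⟩ := htrans P hPQ
        rw [smul_smul]
        have : q⁻¹ * x * q' = q' * (q⁻¹ * x) := by
          calc q⁻¹ * x * q' = q⁻¹ * (x * q') := by group
            _ = q⁻¹ * (q' * x) := by rw [hx q' hq']
            _ = (q⁻¹ * q') * x := by group
            _ = (q' * q⁻¹) * x := by rw [hQcomm _ ((Q : Subgroup N).inv_mem hq) _ hq']
            _ = _ := by group
        have h5 : (q⁻¹ * x) • P' = P' := by
          rw [← smul_smul, ← hqP, smul_smul, inv_mul_cancel, one_smul]
        rw [this, mul_smul, h5]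
    rw [inv_mul_eq_one] at hy
    rw [← hy]; exact hq
  have hCQ : Nat.card (centralizer ((Q : Subgroup N) : Set N)) = 11 := by
    have : centralizer ((Q : Subgroup N) : Set N) = (Q : Subgroup N) := by
      apply le_antisymm
      · intro x hx
        exact hC x (fun q hq => Subgroup.mem_centralizer_iff.1 hx q hq)
      · intro x hx
        exact Subgroup.mem_centralizer_iff.2 (fun q hq => hQcomm q hq x hx)
    rw [this, hQ]
  have hnd := norm_dvd (Q : Subgroup N) (by norm_num : Nat.Prime 11) hQ
  rw [hCQ] at hnd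
  have h11 : 11 ∣ Nat.card (normalizer ((Q : Subgroup N) : Set N)) := by
    have := Subgroup.card_dvd_of_le (Subgroup.le_normalizer (H := (Q : Subgroup N)))
    rwa [hQ] at this
  obtain ⟨e, he⟩ := h11
  rw [he] at hnd
  have hed : e ∣ 10 := by
    have : 11 * e ∣ 11 * 10 := by simpa [mul_comm] using hnd
    exact Nat.dvd_of_mul_dvd_mul_left (by norm_num) this
  have hele : e ≤ 10 := Nat.le_of_dvd (by norm_num) hed
  have hcases : e = 1 ∨ e = 2 ∨ e = 5 ∨ e = 10 := by
    interval_cases e <;> omega
  have hsmall : e ≠ 1 := by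
    rintro rfl
    apply bt hnc Q (by
      have := Subgroup.card_subgroup_dvd_card (Q : Subgroup N)
      rwa [hQ] at this)
    have heq : normalizer ((Q : Subgroup N) : Set N) = (Q : Subgroup N) := by
      symm
      apply Subgroup.eq_of_le_of_card_ge Subgroup.le_normalizer
      rw [he, hQ]
    intro g hg
    have hg' : g ∈ (Q : Subgroup N) := by rw [← heq]; exact hg
    exact Subgroup.mem_centralizer_iff.2 (fun q hq => hQcomm q hq g hg')
  have heven : ¬ 2 ∣ e := by
    intro h2
    have h2' : 2 ∣ Nat.card (normalizer ((Q : Subgroup N) : Set N)) := by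
      rw [he]; exact Dvd.dvd.mul_left h2 _
    obtain ⟨x, hx⟩ := exists_prime_orderOf_dvd_card' (G := normalizer ((Q : Subgroup N) : Set N)) 2 h2'
    set t : N := (x : N) with ht
    have htN : t ∈ normalizer ((Q : Subgroup N) : Set N) := x.2
    have hto : orderOf t = 2 := by rw [ht, Subgroup.orderOf_coe]; exact hx
    have ht2 : t ^ 2 = 1 := by rw [← hto]; exact pow_orderOf_eq_one t
    have htinv : t⁻¹ = t := by rw [inv_eq_iff_mul_eq_one, ← pow_two]; exact ht2
    have ht1 : t ≠ 1 := by
      intro h; rw [h, orderOf_one] at hto; omega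
    have htQ : t ∉ (Q : Subgroup N) := by
      intro h
      have := orderOf_dvd_natCard (⟨t, h⟩ : (Q : Subgroup N))
      rw [hQ, Subgroup.orderOf_mk, hto] at this
      omega
    have hnc' : ¬ ∀ q ∈ (Q : Subgroup N), q * t = t * q := fun h => htQ (hC t h)
    have hinv : ∀ x ∈ (Q : Subgroup N), t * x * t⁻¹ = x⁻¹ := by
      intro z hz
      have hzt : t * z * t⁻¹ ∈ (Q : Subgroup N) := (Subgroup.mem_normalizer_iff.1 htN z).1 hz
      set y := z * (t * z * t⁻¹) with hy
      have hyQ : y ∈ (Q : Subgroup N) := (Q : Subgroup N).mul_mem hz hzt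
      have hyt : y * t = t * y := by
        have : t * y * t⁻¹ = y := by
          rw [hy]
          calc t * (z * (t * z * t⁻¹)) * t⁻¹ = (t * z * t⁻¹) * (t * t * z * (t⁻¹ * t⁻¹)) := by group
            _ = (t * z * t⁻¹) * z := by
                have e1 : t * t = 1 := by rw [← pow_two]; exact ht2
                have e2 : t⁻¹ * t⁻¹ = 1 := by rw [htinv]; exact e1
                rw [e1, e2]; simp
            _ = z * (t * z * t⁻¹) := hQcomm _ hzt _ hz
        exact (mul_inv_eq_iff_eq_mul.1 this).symm
      by_cases hy1 : y = 1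
      · rw [hy] at hy1
        exact eq_inv_of_mul_eq_one_right hy1
      · exfalso
        apply hnc'
        have hle := le_zpowers_of_prime (Q : Subgroup N) (by norm_num) hQ hyQ hy1
        have hst : Subgroup.zpowers y ≤ Subgroup.centralizer {t} := by
          rw [Subgroup.zpowers_le]
          exact Subgroup.mem_centralizer_singleton_iff.2 hyt
        intro q hq
        have := hst (hle hq)
        exact Subgroup.mem_centralizer_singleton_iff.1 this
    have htQfix : t • Q = Q := Sylow.smul_eq_iff_mem_normalizer.2 htN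
    have htP : t • P' ≠ Q := by
      intro h
      apply hP'
      have : t • t • P' = t • Q := by rw [h]
      rw [smul_smul, ← pow_two, ht2, one_smul, htQfix] at this
      exact this
    obtain ⟨q0, hq0, hq0P⟩ := htrans _ htP
    have hq011 : q0 ^ 11 = 1 := by
      have := pow_card_eq_one' (x := (⟨q0, hq0⟩ : (Q : Subgroup N)))
      rw [hQ] at this
      simpa [Subtype.ext_iff] using this
    set q1 := q0 ^ 6 with hq1
    have hq1Q : q1 ∈ (Q : Subgroup N) := (Q : Subgroup N).pow_mem hq0 6
    have hq1sq : q1 * q1 = q0 := by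
      rw [hq1, ← pow_add]
      have : q0 ^ (6 + 6) = q0 ^ 11 * q0 := by rw [← pow_succ]
      rw [this, hq011, one_mul]
    have hmove : ∀ q ∈ (Q : Subgroup N), t • (q • P') = (q⁻¹ * q0) • P' := by
      intro q hq
      rw [smul_smul]
      have : t * q = (t * q * t⁻¹) * t := by group
      rw [this, hinv q hq, ← smul_smul, ← smul_smul, ← hq0P, smul_smul]
    have hfix1 : t • (q1 • P') = q1 • P' := by
      rw [hmove q1 hq1Q]
      congr 1
      rw [← hq1sq]; group
    have huniq : ∀ P'' : Sylow 11 N, t • P'' = P'' → P'' = Q ∨ P'' = q1 • P' := by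
      intro P'' hP''
      by_cases hPQ : P'' = Q
      · exact Or.inl hPQ
      · right
        obtain ⟨q, hq, rfl⟩ := htrans P'' hPQ
        rw [hmove q hq] at hP''
        have h1 : (q⁻¹ * (q⁻¹ * q0)) • P' = P' := by
          rw [← smul_smul, hP'', smul_smul, inv_mul_cancel, one_smul]
        have h2 := hfree _ ((Q : Subgroup N).mul_mem ((Q : Subgroup N).inv_mem hq)
          ((Q : Subgroup N).mul_mem ((Q : Subgroup N).inv_mem hq) hq0)) h1
        have h3 : q0 = q * q := by
          have : q⁻¹ * (q⁻¹ * q0) = (q * q)⁻¹ * q0 := by group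
          rw [this, inv_mul_eq_one] at h2
          exact h2.symm
        have hq11 : q ^ 11 = 1 := by
          have := pow_card_eq_one' (x := (⟨q, hq⟩ : (Q : Subgroup N)))
          rw [hQ] at this
          simpa [Subtype.ext_iff] using this
        have h4 : q1 = q := by
          rw [hq1, h3, ← pow_two, ← pow_mul]
          have : q ^ (2 * 6) = q ^ 11 * q := by rw [← pow_succ]
          rw [this, hq11, one_mul]
        rw [h4]
    let σ : Equiv.Perm (Sylow 11 N) := MulAction.toPermHom N (Sylow 11 N) t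
    have hσ2 : σ ^ 2 = 1 := by
      show (MulAction.toPermHom N (Sylow 11 N) t) ^ 2 = 1
      rw [← map_pow, ht2, map_one]
    obtain ⟨hd, hs⟩ := sign_invol σ hσ2
    have hst : Equiv.Perm.sign σ = 1 :=
      sign_triv hnc ((Equiv.Perm.sign).comp (MulAction.toPermHom N (Sylow 11 N))) t
    have hP1 : q1 • P' ≠ Q := hne q1 hq1Q
    have hsupp : σ.support = (Finset.univ.erase Q).erase (q1 • P') := by
      ext P
      simp only [Equiv.Perm.mem_support, Finset.mem_erase, Finset.mem_univ, and_true]
      constructor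
      · intro hP
        constructor
        · intro h; apply hP; rw [h]; exact hfix1
        · intro h; apply hP; rw [h]; exact htQfix
      · rintro ⟨h1, h2⟩ h3
        rcases huniq P h3 with h | h
        · exact h2 h
        · exact h1 h
    have hc : σ.support.card = 10 := by
      rw [hsupp, Finset.card_erase_of_mem (Finset.mem_erase.2 ⟨hP1, Finset.mem_univ _⟩),
        Finset.card_erase_of_mem (Finset.mem_univ Q), Finset.card_univ, ← Nat.card_eq_fintype_card, hn]
    rw [hc, hst] at hs
    exact absurd hs (by decide)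
  rcases hcases with h | h | h | h
  · exact absurd h hsmall
  · exact absurd (by rw [h]) heven
  · rw [he, h]
  · exact absurd (by rw [h]; norm_num) heven
end T1c
end X


namespace X
open Subgroup Equiv.Perm
local instance f11''' : Fact (Nat.Prime 11) := ⟨by norm_num⟩
section T1
variable {N : Type*} [Group N] [Finite N]

lemma card_sylow11 (hd : Nat.card N ∣ 7920) (h11 : 11 ∣ Nat.card N) (Q : Sylow 11 N) :
    Nat.card (Q : Subgroup N) = 11 := by
  obtain ⟨m, hm⟩ := IsPGroup.iff_card.1 Q.2
  have h1 : 11 ^ 1 ∣ Nat.card (Q : Subgroup N) :=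
    Q.pow_dvd_card_of_pow_dvd_card (by simpa using h11)
  have h2 : Nat.card (Q : Subgroup N) ∣ 7920 := (Subgroup.card_subgroup_dvd_card _).trans hd
  rw [hm] at h1 h2 ⊢
  have hm1 : 1 ≤ m := (Nat.pow_dvd_pow_iff_le_right (by norm_num)).1 h1
  have hm2 : m ≤ 1 := by
    by_contra hlt
    have : 11 ^ 2 ∣ 11 ^ m := pow_dvd_pow 11 (by omega)
    have := this.trans h2
    norm_num at this
  have : m = 1 := by omega
  subst this; rfl

theorem T1 [IsSimpleGroup N] (hnc : ∃ a b : N, a * b ≠ b * a) (hd : Nat.card N ∣ 7920)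
    (h11 : 11 ∣ Nat.card N) (hne : Nat.card N ≠ 7920) : Nat.card N = 660 := by
  classical
  obtain ⟨Q⟩ := (inferInstance : Nonempty (Sylow 11 N))
  have hQ := card_sylow11 hd h11 Q
  have hQcomm : ∀ x ∈ (Q : Subgroup N), ∀ y ∈ (Q : Subgroup N), x * y = y * x :=
    fun x hx y hy => comm_of_prime _ (by norm_num) hQ hx hy
  have hmod := card_sylow_modEq_one 11 N
  have hidx := Q.card_eq_index_normalizer
  set n := Nat.card (Sylow 11 N) with hn
  set N0 := normalizer ((Q : Subgroup N) : Set N) with hN0
  have hmul : n * Nat.card N0 = Nat.card N := by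
    rw [hidx]; exact Subgroup.index_mul_card _
  have h11d : 11 ∣ Nat.card N0 := by
    have := Subgroup.card_dvd_of_le (Subgroup.le_normalizer (H := (Q : Subgroup N)))
    rwa [hQ] at this
  obtain ⟨e, he⟩ := h11d
  have hne720 : n * e ∣ 720 := by
    have : 11 * (n * e) ∣ 11 * 720 := by
      have h3 : n * (11 * e) ∣ 7920 := by rw [← he, hmul]; exact hd
      have e1 : n * (11 * e) = 11 * (n * e) := by ring
      rw [← e1]; exact h3
    exact Nat.dvd_of_mul_dvd_mul_left (by norm_num) this
  have hcardN : Nat.card N = n * (11 * e) := by rw [← hmul, he]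
  have hn720 : n ∣ 720 := (Dvd.intro _ rfl).trans hne720
  have hnle : n ≤ 720 := Nat.le_of_dvd (by norm_num) hn720
  have hnc4 : n = 1 ∨ n = 12 ∨ n = 45 ∨ n = 144 := by
    have hm : n % 11 = 1 := hmod
    obtain ⟨k, hk⟩ : ∃ k, n = 11 * k + 1 := ⟨n / 11, by omega⟩
    have hkle : k ≤ 65 := by omega
    rw [hk] at hn720
    clear hne720 hcardN hmul hidx hm hnle
    interval_cases k <;> first | omega | (exfalso; revert hn720; norm_num)
  have hnormal : ∀ (hall : ∀ g : N, g • Q = Q), False := by
    intro hall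
    have htop : N0 = ⊤ := by
      rw [eq_top_iff]
      intro g _
      exact Sylow.smul_eq_iff_mem_normalizer.1 (hall g)
    have hQn : (Q : Subgroup N).Normal := Subgroup.normalizer_eq_top_iff.1 htop
    rcases hQn.eq_bot_or_eq_top with h | h
    · rw [h] at hQ; simp at hQ
    · obtain ⟨a, b, hab⟩ := hnc
      exact hab (hQcomm a (by rw [h]; trivial) b (by rw [h]; trivial))
  have hn1 : n ≠ 1 := by
    intro h1
    have : Subsingleton (Sylow 11 N) := (Nat.card_eq_one_iff_unique.1 h1).1
    exact hnormal (fun g => Subsingleton.elim _ _)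
  have hfaith : ∀ g : N, (∀ P : Sylow 11 N, g • P = P) → g = 1 := by
    intro g hg
    by_contra hg1
    have hK : (MulAction.toPermHom N (Sylow 11 N)).ker.Normal := inferInstance
    rcases hK.eq_bot_or_eq_top with h | h
    · apply hg1
      have : g ∈ (MulAction.toPermHom N (Sylow 11 N)).ker := by
        rw [MonoidHom.mem_ker]
        ext1 P
        exact hg P
      rw [h] at this
      exact this
    · apply hnormal
      intro x
      have : x ∈ (MulAction.toPermHom N (Sylow 11 N)).ker := by rw [h]; trivial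
      rw [MonoidHom.mem_ker] at this
      have := congrArg (fun τ : Equiv.Perm (Sylow 11 N) => τ Q) this
      exact this
  have hsmall : e ≠ 1 := by
    rintro rfl
    apply bt hnc Q (by
      have := Subgroup.card_subgroup_dvd_card (Q : Subgroup N)
      rwa [hQ] at this)
    have heq : N0 = (Q : Subgroup N) := by
      symm
      apply Subgroup.eq_of_le_of_card_ge Subgroup.le_normalizer
      rw [he, hQ]
    intro g hg
    have hg' : g ∈ (Q : Subgroup N) := by rw [← heq]; exact hg
    exact Subgroup.mem_centralizer_iff.2 (fun q hq => hQcomm q hq g hg')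
  rcases hnc4 with h | h | h | h
  · exact absurd h hn1
  · have := T1c hnc Q hQ h hfaith
    rw [← hmul, h, this]
  · -- n = 45
    rw [h] at hne720 hcardN
    have he16 : e ∣ 16 := by
      have : 45 * e ∣ 45 * 16 := by simpa using hne720
      exact Nat.dvd_of_mul_dvd_mul_left (by norm_num) this
    have hele : e ≤ 16 := Nat.le_of_dvd (by norm_num) he16
    have hcases : e = 1 ∨ e = 2 ∨ e = 4 ∨ e = 8 ∨ e = 16 := by
      interval_cases e <;> omega
    rcases hcases with h1 | h1 | h1 | h1 | h1
    · exact absurd h1 hsmall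
    · exfalso
      subst h1
      have hN : Nat.card N = 990 := by rw [hcardN]
      obtain ⟨P⟩ := (inferInstance : Nonempty (Sylow 2 N))
      have hP : Nat.card (P : Subgroup N) = 2 := by
        obtain ⟨m, hm⟩ := IsPGroup.iff_card.1 P.2
        have h1 : 2 ^ 1 ∣ Nat.card (P : Subgroup N) :=
          P.pow_dvd_card_of_pow_dvd_card (by rw [hN]; norm_num)
        have h2 : Nat.card (P : Subgroup N) ∣ 990 := by
          rw [← hN]; exact Subgroup.card_subgroup_dvd_card _
        rw [hm] at h1 h2 ⊢
        have hm1 : 1 ≤ m := (Nat.pow_dvd_pow_iff_le_right (by norm_num)).1 h1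
        have hm2 : m ≤ 1 := by
          by_contra hlt
          have : 2 ^ 2 ∣ 2 ^ m := pow_dvd_pow 2 (by omega)
          have := this.trans h2
          norm_num at this
        have : m = 1 := by omega
        subst this; rfl
      apply bt hnc P (by rw [hN]; norm_num)
      intro g hg
      rw [Subgroup.mem_centralizer_iff]
      intro x hx
      by_cases hx1 : x = 1
      · rw [hx1]; simp
      have hgx : g * x * g⁻¹ ∈ (P : Subgroup N) := (Subgroup.mem_normalizer_iff.1 hg x).1 hx
      have hgx1 : g * x * g⁻¹ ≠ 1 := by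
        intro h
        apply hx1
        have : g * x = g := by rw [mul_inv_eq_one] at h; exact h
        simpa using this
      obtain ⟨y, -, huniq⟩ := (Nat.card_eq_two_iff' (1 : (P : Subgroup N))).1 hP
      have h1' := huniq ⟨x, hx⟩ (fun h => hx1 (congrArg Subtype.val h))
      have h2' := huniq ⟨g * x * g⁻¹, hgx⟩ (fun h => hgx1 (congrArg Subtype.val h))
      have h3 : g * x * g⁻¹ = x := by
        have := h2'.trans h1'.symm
        exact congrArg Subtype.val this
      have h4 : g * x = x * g := mul_inv_eq_iff_eq_mul.1 h3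
      exact h4.symm
    · exfalso
      subst h1
      exact T1b hnc Q hQ (by rw [← hn]; exact h) hfaith (c := 4) (k := 2) (by norm_num) (Or.inl rfl)
        (by rw [← hN0, he]) (by rw [hcardN])
    · exfalso
      subst h1
      exact T1b hnc Q hQ (by rw [← hn]; exact h) hfaith (c := 8) (k := 3) (by norm_num) (Or.inr rfl)
        (by rw [← hN0, he]) (by rw [hcardN])
    · exfalso
      subst h1
      apply hne
      rw [hcardN]
  · -- n = 144
    rw [h] at hne720 hcardN
    have he5 : e ∣ 5 := by
      have : 144 * e ∣ 144 * 5 := by simpa using hne720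
      exact Nat.dvd_of_mul_dvd_mul_left (by norm_num) this
    rcases (Nat.dvd_prime (by norm_num : Nat.Prime 5)).1 he5 with h1 | h1
    · exact absurd h1 hsmall
    · exfalso
      subst h1
      apply hne
      rw [hcardN]
end T1
end X


namespace X
open Subgroup Equiv.Perm
open scoped Pointwise
local instance f11a : Fact (Nat.Prime 11) := ⟨by norm_num⟩
local instance f5a : Fact (Nat.Prime 5) := ⟨by norm_num⟩

lemma free_dvd {P X : Type*} [Group P] [Finite P] [Finite X] [MulAction P X]
    (h : ∀ x : X, ∀ g : P, g • x = x → g = 1) : Nat.card P ∣ Nat.card X := by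
  have hst : ∀ b : X, MulAction.stabilizer P b = ⊥ := by
    intro b
    rw [eq_bot_iff]
    intro g hg
    exact h b g hg
  rw [Nat.card_congr (MulAction.selfEquivOrbitsQuotientProd hst), Nat.card_prod]
  exact Dvd.intro_left _ rfl

lemma conj_free_dvd {G : Type*} [Group G] [Finite G] (P U : Subgroup G)
    (hU : P ≤ normalizer (U : Set G)) (hfree : ∀ x ∈ P, ∀ u ∈ U, x * u = u * x → x = 1 ∨ u = 1) :
    Nat.card P ∣ Nat.card U - 1 := by
  classical
  let X := {u : U // u ≠ 1}
  letI : MulAction P X :=
    { smul := fun x u => ⟨⟨(x : G) * (u.1 : G) * (x : G)⁻¹,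
          (Subgroup.mem_normalizer_iff.1 (hU x.2) _).1 u.1.2⟩, by
            intro h
            apply u.2
            have h' : (x : G) * (u.1 : G) * (x : G)⁻¹ = 1 := congrArg Subtype.val h
            apply Subtype.ext
            have : (x : G) * (u.1 : G) = x := by rwa [mul_inv_eq_one] at h'
            simpa using this⟩
      one_smul := by
        intro u
        apply Subtype.ext; apply Subtype.ext
        show ((1 : P) : G) * (u.1 : G) * ((1 : P) : G)⁻¹ = u.1
        simp
      mul_smul := by
        intro a b u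
        apply Subtype.ext; apply Subtype.ext
        show ((a * b : P) : G) * (u.1 : G) * ((a * b : P) : G)⁻¹ =
          (a : G) * ((b : G) * (u.1 : G) * (b : G)⁻¹) * (a : G)⁻¹
        simp only [Subgroup.coe_mul]
        group }
  have h := free_dvd (P := P) (X := X) (by
    intro u g hg
    have h1 : (g : G) * (u.1 : G) * (g : G)⁻¹ = u.1 :=
      congrArg (fun y : X => (y.1 : G)) hg
    have h2 : (g : G) * (u.1 : G) = (u.1 : G) * g := mul_inv_eq_iff_eq_mul.1 h1
    rcases hfree g g.2 u.1 u.1.2 h2 with h3 | h3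
    · exact Subtype.ext h3
    · exact absurd (Subtype.ext h3) u.2)
  have hc : Nat.card X = Nat.card U - 1 := by
    haveI : Fintype U := Fintype.ofFinite _
    rw [Nat.card_eq_fintype_card, Nat.card_eq_fintype_card]
    exact Set.card_ne_eq (1 : U)
  rwa [hc] at h

lemma prime720 {p : ℕ} (hp : p.Prime) (h : p ∣ 720) : p = 2 ∨ p = 3 ∨ p = 5 := by
  have : 720 = 2 ^ 4 * 3 ^ 2 * 5 := by norm_num
  rw [this] at h
  rcases (Nat.Prime.dvd_mul hp).1 h with h | h
  · rcases (Nat.Prime.dvd_mul hp).1 h with h | h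
    · left; exact (Nat.prime_dvd_prime_iff_eq hp (by norm_num)).1 (hp.dvd_of_dvd_pow h)
    · right; left; exact (Nat.prime_dvd_prime_iff_eq hp (by norm_num)).1 (hp.dvd_of_dvd_pow h)
  · right; right; exact (Nat.prime_dvd_prime_iff_eq hp (by norm_num)).1 h

lemma coprime_fix {Q U : Type*} [Group Q] [Group U] [Finite Q] [Finite U]
    [MulDistribMulAction Q U] (hQ : Nat.card Q = 11) (hU : Nat.card U ∣ 720) :
    ∀ (q : Q) (u : U), q • u = u := by
  classical
  have hQp : IsPGroup 11 Q := IsPGroup.of_card (n := 1) (by simpa using hQ)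
  let F : Subgroup U :=
    { carrier := {u | ∀ q : Q, q • u = u}
      mul_mem' := by
        intro a b ha hb q
        rw [smul_mul', ha q, hb q]
      one_mem' := by
        intro q
        rw [smul_one]
      inv_mem' := by
        intro a ha q
        rw [smul_inv', ha q] }
  have hF : ∀ (p : ℕ), p.Prime → p ∣ Nat.card U → p ^ (Nat.card U).factorization p ∣ Nat.card F := by
    intro p hp hpU
    haveI : Fact p.Prime := ⟨hp⟩
    have hp3 := prime720 hp (hpU.trans hU)
    -- an invariant Sylow
    have hnd : ¬ 11 ∣ Nat.card (Sylow p U) := by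
      intro h
      obtain ⟨P⟩ := (inferInstance : Nonempty (Sylow p U))
      have h1 := P.card_eq_index_normalizer
      have h2 : (normalizer ((P : Subgroup U) : Set U)).index ∣ Nat.card U := Subgroup.index_dvd_card _
      rw [h1] at h
      have := (h.trans h2).trans hU
      norm_num at this
    obtain ⟨P, hP⟩ := hQp.nonempty_fixed_point_of_prime_not_dvd_card (Sylow p U) hnd
    have hP' : ∀ (q : Q), ∀ x ∈ (P : Subgroup U), q • x ∈ (P : Subgroup U) := by
      intro q x hx
      have h1 : q • P = P := hP q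
      have h2 : q • x ∈ q • (P : Subgroup U) := Subgroup.smul_mem_pointwise_smul x q _ hx
      rw [← Sylow.pointwise_smul_def, h1] at h2
      exact h2
    let S : SubMulAction Q U := { carrier := (P : Subgroup U), smul_mem' := fun q x hx => hP' q x hx }
    have hmod := hQp.card_modEq_card_fixedPoints S
    -- fixed points form `F ⊓ P`
    have hfp : Nat.card (MulAction.fixedPoints Q S) = Nat.card (F ⊓ (P : Subgroup U) : Subgroup U) := by
      apply Nat.card_congr
      exact
        { toFun := fun x => ⟨x.1.1, ⟨fun q => congrArg Subtype.val (x.2 q), x.1.2⟩⟩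
          invFun := fun x => ⟨⟨x.1, x.2.2⟩, fun q => Subtype.ext (x.2.1 q)⟩
          left_inv := fun x => rfl
          right_inv := fun x => rfl }
    have hcS : Nat.card S = Nat.card (P : Subgroup U) := rfl
    rw [hfp, hcS] at hmod
    obtain ⟨m, hm⟩ := IsPGroup.iff_card.1 P.2
    have hle : (F ⊓ (P : Subgroup U) : Subgroup U) ≤ (P : Subgroup U) := inf_le_right
    have hdv := Subgroup.card_dvd_of_le hle
    rw [hm] at hdv hmod
    obtain ⟨j, hj, hj2⟩ := (Nat.dvd_prime_pow hp).1 hdv
    rw [hj2] at hmod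
    have hPU : p ^ m ∣ 720 := by
      rw [← hm]; exact (Subgroup.card_subgroup_dvd_card _).trans hU
    have hjm : j = m := by
      have hmod' : p ^ m % 11 = p ^ j % 11 := hmod
      rcases hp3 with rfl | rfl | rfl
      · have hm4 : m ≤ 4 := by
          by_contra hlt
          have : 2 ^ 5 ∣ 2 ^ m := pow_dvd_pow 2 (by omega)
          have := this.trans hPU
          norm_num at this
        interval_cases m <;> interval_cases j <;> first | rfl | (exfalso; revert hmod'; norm_num)
      · have hm2 : m ≤ 2 := by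
          by_contra hlt
          have : 3 ^ 3 ∣ 3 ^ m := pow_dvd_pow 3 (by omega)
          have := this.trans hPU
          norm_num at this
        interval_cases m <;> interval_cases j <;> first | rfl | (exfalso; revert hmod'; norm_num)
      · have hm1 : m ≤ 1 := by
          by_contra hlt
          have : 5 ^ 2 ∣ 5 ^ m := pow_dvd_pow 5 (by omega)
          have := this.trans hPU
          norm_num at this
        interval_cases m <;> interval_cases j <;> first | rfl | (exfalso; revert hmod'; norm_num)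
    have hPF : (P : Subgroup U) ≤ F := by
      have : (F ⊓ (P : Subgroup U) : Subgroup U) = (P : Subgroup U) :=
        Subgroup.eq_of_le_of_card_ge hle (by rw [hm, hj2, hjm])
      rw [← this]; exact inf_le_left
    have h1 := Subgroup.card_dvd_of_le hPF
    have h2 := P.card_eq_multiplicity
    rwa [h2] at h1
  have hdvd : Nat.card U ∣ Nat.card F := by
    apply (Nat.factorization_prime_le_iff_dvd Nat.card_pos.ne' Nat.card_pos.ne').1
    intro p hp
    by_cases hpU : p ∣ Nat.card U
    · exact (hp.pow_dvd_iff_le_factorization Nat.card_pos.ne').1 (hF p hp hpU)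
    · rw [Nat.factorization_eq_zero_of_not_dvd hpU]; exact Nat.zero_le _
  have htop : F = ⊤ := by
    apply Subgroup.eq_top_of_card_eq
    exact Nat.dvd_antisymm (Subgroup.card_subgroup_dvd_card _) hdvd
  intro q u
  have : u ∈ F := by rw [htop]; trivial
  exact this q

lemma Qcentral {G : Type*} [Group G] [Finite G] (Q U : Subgroup G) (hQ : Nat.card Q = 11)
    (hN : Q ≤ normalizer (U : Set G)) (hU : Nat.card U ∣ 720) :
    ∀ q ∈ Q, ∀ u ∈ U, q * u = u * q := by
  letI : MulDistribMulAction Q U :=
    MulDistribMulAction.compHom U (U.normalizerMonoidHom.comp (Subgroup.inclusion hN))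
  intro q hq u hu
  have h := coprime_fix (Q := Q) (U := U) hQ hU ⟨q, hq⟩ ⟨u, hu⟩
  have h' : q * u * q⁻¹ = u := congrArg Subtype.val h
  exact mul_inv_eq_iff_eq_mul.1 h'
end X


namespace X
open Subgroup
local instance f11b : Fact (Nat.Prime 11) := ⟨by norm_num⟩
local instance f5b : Fact (Nat.Prime 5) := ⟨by norm_num⟩

def P4 (x : ℕ) : Prop := x = 2 ∨ x = 3 ∨ x = 5 ∨ x = 11

lemma prime7920 {p : ℕ} (hp : p.Prime) (h : p ∣ 7920) : P4 p := by
  have : 7920 = 2 ^ 4 * 3 ^ 2 * 5 * 11 := by norm_num
  rw [this] at h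
  rcases (Nat.Prime.dvd_mul hp).1 h with h | h
  · rcases (Nat.Prime.dvd_mul hp).1 h with h | h
    · rcases (Nat.Prime.dvd_mul hp).1 h with h | h
      · left; exact (Nat.prime_dvd_prime_iff_eq hp (by norm_num)).1 (hp.dvd_of_dvd_pow h)
      · right; left; exact (Nat.prime_dvd_prime_iff_eq hp (by norm_num)).1 (hp.dvd_of_dvd_pow h)
    · right; right; left; exact (Nat.prime_dvd_prime_iff_eq hp (by norm_num)).1 h
  · right; right; right; exact (Nat.prime_dvd_prime_iff_eq hp (by norm_num)).1 h

lemma P4.prime {x : ℕ} (h : P4 x) : x.Prime := by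
  rcases h with rfl | rfl | rfl | rfl <;> norm_num

section main
variable {G : Type*} [Group G] [Finite G]

lemma edge_of_commute {s r : ℕ} (hs : s.Prime) (hr : r.Prime) (hsr : s ≠ r) {x u : G}
    (hc : x * u = u * x) (hx : x ≠ 1) {k : ℕ} (hxk : x ^ (s ^ k) = 1) (hu : u ≠ 1) (hur : u ^ r = 1) :
    ∃ g : G, orderOf g = s * r := by
  haveI : Fact s.Prime := ⟨hs⟩
  haveI : Fact r.Prime := ⟨hr⟩
  obtain ⟨m, hm, hom⟩ := (Nat.dvd_prime_pow hs).1 (orderOf_dvd_of_pow_eq_one hxk)
  have hm0 : m ≠ 0 := by
    rintro rfl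
    rw [pow_zero] at hom
    exact hx (orderOf_eq_one_iff.1 hom)
  have hdv : s ∣ orderOf x := by rw [hom]; exact dvd_pow_self s hm0
  have hox : orderOf (x ^ (orderOf x / s)) = s :=
    orderOf_pow_orderOf_div (orderOf_pos x).ne' hdv
  have hou : orderOf u = r := orderOf_eq_prime hur hu
  refine ⟨x ^ (orderOf x / s) * u, ?_⟩
  have hcomm : Commute (x ^ (orderOf x / s)) u := (show Commute x u from hc).pow_left _
  rw [hcomm.orderOf_mul_eq_mul_orderOf_of_coprime
    (by rw [hox, hou]; exact (Nat.coprime_primes hs hr).2 hsr), hox, hou]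

lemma card_syl {K : Type*} [Group K] [Finite K] {p B : ℕ} [Fact p.Prime] (hB : ¬ p ^ 2 ∣ B)
    (hd : Nat.card K ∣ B) (hp : p ∣ Nat.card K) (Q : Sylow p K) :
    Nat.card (Q : Subgroup K) = p := by
  have hpp : p.Prime := Fact.out
  obtain ⟨m, hm⟩ := IsPGroup.iff_card.1 Q.2
  have h1 : p ^ 1 ∣ Nat.card (Q : Subgroup K) :=
    Q.pow_dvd_card_of_pow_dvd_card (by simpa using hp)
  have h2 : Nat.card (Q : Subgroup K) ∣ B := (Subgroup.card_subgroup_dvd_card _).trans hd
  rw [hm] at h1 h2 ⊢
  have hm1 : 1 ≤ m := (Nat.pow_dvd_pow_iff_le_right hpp.one_lt).1 h1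
  have hm2 : m ≤ 1 := by
    by_contra hlt
    exact hB ((pow_dvd_pow p (by omega)).trans h2)
  have : m = 1 := by omega
  subst this; simp

theorem no_ab (hord : Nat.card G = 7920) (A : Set ℕ)
    (hedge : ∀ x y, P4 x → P4 y → (∃ g : G, orderOf g = x * y) → (x ∈ A ↔ y ∈ A))
    (hsep : ∃ a, P4 a ∧ a ∈ A) (hsep' : ∃ b, P4 b ∧ b ∉ A)
    (A0 : Subgroup G) [hA0 : A0.Normal] (hab : ∀ x ∈ A0, ∀ y ∈ A0, x * y = y * x) : A0 = ⊥ := by
  classical
  by_contra hne
  obtain ⟨y0, hy0, hy01⟩ := (Subgroup.bot_or_exists_ne_one A0).resolve_left hne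
  obtain ⟨r, hr, y, hyA, hoy⟩ : ∃ r : ℕ, r.Prime ∧ ∃ y ∈ A0, orderOf y = r := by
    have hord1 : orderOf y0 ≠ 1 := fun h => hy01 (orderOf_eq_one_iff.1 h)
    have hmf := Nat.minFac_prime hord1
    haveI : Fact (orderOf y0).minFac.Prime := ⟨hmf⟩
    exact ⟨_, hmf, y0 ^ (orderOf y0 / (orderOf y0).minFac), A0.pow_mem hy0 _,
      orderOf_pow_orderOf_div (orderOf_pos y0).ne' (Nat.minFac_dvd _)⟩
  haveI : Fact r.Prime := ⟨hr⟩
  have hrG : r ∣ 7920 := by
    rw [← hoy, ← hord]; exact orderOf_dvd_natCard y
  have hrP := prime7920 hr hrG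
  let E : Subgroup G :=
    { carrier := {g | g ∈ A0 ∧ g ^ r = 1}
      mul_mem' := by
        rintro a b ⟨ha, ha'⟩ ⟨hb, hb'⟩
        refine ⟨A0.mul_mem ha hb, ?_⟩
        have : Commute a b := hab a ha b hb
        rw [this.mul_pow, ha', hb', one_mul]
      one_mem' := ⟨A0.one_mem, one_pow _⟩
      inv_mem' := by
        rintro a ⟨ha, ha'⟩
        exact ⟨A0.inv_mem ha, by rw [inv_pow, ha', inv_one]⟩ }
  have hEn : E.Normal := by
    constructor
    rintro n ⟨hn, hn'⟩ g
    refine ⟨hA0.conj_mem n hn g, ?_⟩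
    rw [conj_pow, hn']; simp
  have hEp : IsPGroup r E := by
    intro x
    exact ⟨1, by
      apply Subtype.ext
      simpa using x.2.2⟩
  obtain ⟨k, hk⟩ := IsPGroup.iff_card.1 hEp
  have hyE : y ∈ E := ⟨hyA, by rw [← hoy]; exact pow_orderOf_eq_one y⟩
  have hy1 : y ≠ 1 := by
    intro h
    rw [h, orderOf_one] at hoy
    exact hr.one_lt.ne hoy
  have hk0 : k ≠ 0 := by
    rintro rfl
    rw [pow_zero] at hk
    have := Subgroup.card_eq_one.1 hk
    rw [this] at hyE
    exact hy1 hyE
  have hEd : r ^ k ∣ 7920 := by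
    rw [← hk, ← hord]; exact Subgroup.card_subgroup_dvd_card _
  have hopp : ∀ s, P4 s → ¬ (s ∈ A ↔ r ∈ A) → s = 5 ∧ ((r = 2 ∧ r ^ k = 16) ∨ (r = 11 ∧ r ^ k = 11)) := by
    intro s hs hsA
    have hsr : s ≠ r := by
      rintro rfl
      exact hsA Iff.rfl
    have hsp := hs.prime
    haveI : Fact s.Prime := ⟨hsp⟩
    obtain ⟨e, hse, hqe⟩ : ∃ e, s ^ e ∣ 7920 ∧ (s = 2 → e = 4) ∧ (s = 3 → e = 2) ∧ (s = 5 → e = 1) ∧ (s = 11 → e = 1) := by
      rcases hs with rfl | rfl | rfl | rfl
      · exact ⟨4, by norm_num, by simp⟩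
      · exact ⟨2, by norm_num, by simp⟩
      · exact ⟨1, by norm_num, by simp⟩
      · exact ⟨1, by norm_num, by simp⟩
    obtain ⟨Ps, hPs⟩ := Sylow.exists_subgroup_card_pow_prime (G := G) s (n := e) (by rw [hord]; exact hse)
    have hfree : ∀ x ∈ Ps, ∀ u ∈ E, x * u = u * x → x = 1 ∨ u = 1 := by
      intro x hx u hu hc
      by_contra hh
      push Not at hh
      have hxk : x ^ (s ^ e) = 1 := by
        have := pow_card_eq_one' (x := (⟨x, hx⟩ : Ps))
        rw [hPs] at this
        simpa [Subtype.ext_iff] using this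
      obtain ⟨g, hg⟩ := edge_of_commute hsp hr hsr hc hh.1 hxk hh.2 hu.2
      exact hsA (hedge s r hs hrP ⟨g, hg⟩)
    have hdv := conj_free_dvd Ps E (by
      exact le_trans le_top (le_of_eq (Subgroup.normalizer_eq_top_iff.2 hEn).symm)) hfree
    rw [hPs, hk] at hdv
    obtain ⟨h2, h3, h5, h11⟩ := hqe
    have hsubst : (r = 2 ∧ k ≤ 4) ∨ (r = 3 ∧ k ≤ 2) ∨ (r = 5 ∧ k ≤ 1) ∨ (r = 11 ∧ k ≤ 1) := by
      rcases hrP with rfl | rfl | rfl | rfl
      · left; refine ⟨rfl, ?_⟩
        by_contra hlt
        have := (pow_dvd_pow 2 (by omega : 5 ≤ k)).trans hEd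
        norm_num at this
      · right; left; refine ⟨rfl, ?_⟩
        by_contra hlt
        have := (pow_dvd_pow 3 (by omega : 3 ≤ k)).trans hEd
        norm_num at this
      · right; right; left; refine ⟨rfl, ?_⟩
        by_contra hlt
        have := (pow_dvd_pow 5 (by omega : 2 ≤ k)).trans hEd
        norm_num at this
      · right; right; right; refine ⟨rfl, ?_⟩
        by_contra hlt
        have := (pow_dvd_pow 11 (by omega : 2 ≤ k)).trans hEd
        norm_num at this
    rcases hs with rfl | rfl | rfl | rfl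
    · have := h2 rfl; subst this
      exfalso
      rcases hsubst with ⟨rfl, hk4⟩ | ⟨rfl, hk4⟩ | ⟨rfl, hk4⟩ | ⟨rfl, hk4⟩
      · exact hsr rfl
      all_goals interval_cases k <;> first | exact hk0 rfl | (revert hdv; norm_num)
    · have := h3 rfl; subst this
      exfalso
      rcases hsubst with ⟨rfl, hk4⟩ | ⟨rfl, hk4⟩ | ⟨rfl, hk4⟩ | ⟨rfl, hk4⟩
      · interval_cases k <;> first | exact hk0 rfl | (revert hdv; norm_num)
      · exact hsr rfl
      all_goals interval_cases k <;> first | exact hk0 rfl | (revert hdv; norm_num)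
    · have := h5 rfl; subst this
      rcases hsubst with ⟨rfl, hk4⟩ | ⟨rfl, hk4⟩ | ⟨rfl, hk4⟩ | ⟨rfl, hk4⟩
      · interval_cases k <;> first | exact absurd rfl hk0 | (exfalso; revert hdv; norm_num; done) | simp
      · exfalso; interval_cases k <;> first | exact hk0 rfl | (revert hdv; norm_num)
      · exact absurd rfl hsr
      · interval_cases k <;> first | exact absurd rfl hk0 | simp
    · have := h11 rfl; subst this
      exfalso
      rcases hsubst with ⟨rfl, hk4⟩ | ⟨rfl, hk4⟩ | ⟨rfl, hk4⟩ | ⟨rfl, hk4⟩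
      · interval_cases k <;> first | exact hk0 rfl | (revert hdv; norm_num)
      · interval_cases k <;> first | exact hk0 rfl | (revert hdv; norm_num)
      · interval_cases k <;> first | exact hk0 rfl | (revert hdv; norm_num)
      · exact hsr rfl
  obtain ⟨s, hs, hsA⟩ : ∃ s, P4 s ∧ ¬ (s ∈ A ↔ r ∈ A) := by
    obtain ⟨a, ha, haA⟩ := hsep
    obtain ⟨b, hb, hbA⟩ := hsep'
    by_cases hrA : r ∈ A
    · exact ⟨b, hb, fun h => hbA (h.2 hrA)⟩
    · exact ⟨a, ha, fun h => hrA (h.1 haA)⟩
  obtain ⟨rfl, hcase⟩ := hopp s hs hsA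
  have hsame : ∀ x, P4 x → x ≠ 5 → (x ∈ A ↔ r ∈ A) := by
    intro x hx hx5
    by_contra h
    exact hx5 (hopp x hx h).1
  have h5x : ∀ x, P4 x → x ≠ 5 → ¬ ∃ g : G, orderOf g = 5 * x := by
    intro x hx hx5 hg
    have := hedge 5 x hs hx hg
    apply hsA
    rw [this]; exact hsame x hx hx5
  obtain ⟨P⟩ := (inferInstance : Nonempty (Sylow 5 G))
  have hPc : Nat.card (P : Subgroup G) = 5 :=
    card_syl (B := 7920) (by norm_num) (by rw [hord]) (by rw [hord]; norm_num) P
  have hPcomm : ∀ x ∈ (P : Subgroup G), ∀ y ∈ (P : Subgroup G), x * y = y * x :=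
    fun x hx y hy => comm_of_prime _ (by norm_num) hPc hx hy
  obtain ⟨z, hzP, hz1⟩ : ∃ z ∈ (P : Subgroup G), z ≠ 1 := by
    apply (Subgroup.bot_or_exists_ne_one _).resolve_left
    intro h
    rw [h] at hPc
    simp at hPc
  have hz5 : z ^ 5 = 1 := by
    have := pow_card_eq_one' (x := (⟨z, hzP⟩ : (P : Subgroup G)))
    rw [hPc] at this
    simpa [Subtype.ext_iff] using this
  have hCP : centralizer ((P : Subgroup G) : Set G) = (P : Subgroup G) := by
    symm
    apply Subgroup.eq_of_le_of_card_ge
    · intro x hx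
      exact Subgroup.mem_centralizer_iff.2 (fun q hq => hPcomm q hq x hx)
    · have hcop : Nat.Coprime (Nat.card (centralizer ((P : Subgroup G) : Set G))) 1584 := by
        by_contra hnc
        obtain ⟨p, hp, hp1, hp2⟩ := Nat.Prime.not_coprime_iff_dvd.1 hnc
        haveI : Fact p.Prime := ⟨hp⟩
        have hp4 : P4 p := prime7920 hp (hp2.trans (by norm_num))
        have hp5 : p ≠ 5 := by
          rintro rfl
          revert hp2; norm_num
        obtain ⟨c, hc⟩ := exists_prime_orderOf_dvd_card' (G := centralizer ((P : Subgroup G) : Set G)) p hp1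
        have hc1 : (c : G) ^ p = 1 := by
          have := pow_orderOf_eq_one c
          rw [hc] at this
          simpa [Subtype.ext_iff] using this
        have hc2 : (c : G) ≠ 1 := by
          intro h
          have hc' : c = 1 := Subtype.ext h
          rw [hc', orderOf_one] at hc
          exact hp.one_lt.ne hc
        have hzc : z * (c : G) = (c : G) * z := Subgroup.mem_centralizer_iff.1 c.2 z hzP
        obtain ⟨g, hg⟩ := edge_of_commute (k := 1) (s := 5) (by norm_num) hp (Ne.symm hp5) hzc hz1 (by simpa using hz5) hc2 hc1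
        exact h5x p hp4 hp5 ⟨g, hg⟩
      have hd : Nat.card (centralizer ((P : Subgroup G) : Set G)) ∣ 5 * 1584 := by
        have := Subgroup.card_subgroup_dvd_card (centralizer ((P : Subgroup G) : Set G))
        rw [hord] at this
        exact this
      have := hcop.dvd_of_dvd_mul_right hd
      rw [hPc]
      exact Nat.le_of_dvd (by norm_num) this
  have hCP5 : Nat.card (centralizer ((P : Subgroup G) : Set G)) = 5 := by rw [hCP, hPc]
  rcases hcase with ⟨rfl, hE16⟩ | ⟨rfl, hE11⟩
  · -- the Sylow 2-subgroup is normal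
    have hE : Nat.card E = 16 := by rw [hk, hE16]
    have hnd := norm_dvd (P : Subgroup G) (by norm_num : Nat.Prime 5) hPc
    rw [hCP5] at hnd
    have hidx : E.index = 495 := by
      have := Subgroup.index_mul_card E
      rw [hE, hord] at this
      omega
    have hodd : ¬ 2 ∣ Nat.card (normalizer ((P : Subgroup G) : Set G)) := by
      intro h2
      obtain ⟨x, hx⟩ := exists_prime_orderOf_dvd_card' (G := normalizer ((P : Subgroup G) : Set G)) 2 h2
      set t : G := (x : G) with ht
      have htN : t ∈ normalizer ((P : Subgroup G) : Set G) := x.2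
      have hto : orderOf t = 2 := by rw [ht, Subgroup.orderOf_coe]; exact hx
      have ht2 : t ^ 2 = 1 := by rw [← hto]; exact pow_orderOf_eq_one t
      have htE : t ∈ E := by
        by_contra hnotin
        haveI : E.Normal := hEn
        have h1 : ((t : G) : G ⧸ E) ≠ 1 := by
          intro h
          exact hnotin ((QuotientGroup.eq_one_iff t).1 h)
        have h2' : ((t : G) : G ⧸ E) ^ 2 = 1 := by
          rw [← QuotientGroup.mk_pow, ht2]; rfl
        have h3 : orderOf ((t : G) : G ⧸ E) = 2 := orderOf_eq_prime h2' h1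
        have h4 := orderOf_dvd_natCard ((t : G) : G ⧸ E)
        rw [h3, ← Subgroup.index_eq_card, hidx] at h4
        norm_num at h4
      have htC : t ∈ centralizer ((P : Subgroup G) : Set G) := by
        rw [Subgroup.mem_centralizer_iff]
        intro q hq
        set v := t * q * t⁻¹ * q⁻¹ with hv
        have hvP : v ∈ (P : Subgroup G) := (P : Subgroup G).mul_mem
          ((Subgroup.mem_normalizer_iff.1 htN q).1 hq) ((P : Subgroup G).inv_mem hq)
        have hvE : v ∈ E := by
          have e : v = t * (q * t⁻¹ * q⁻¹) := by rw [hv]; group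
          rw [e]
          exact E.mul_mem htE (hEn.conj_mem _ (E.inv_mem htE) q)
        have h5 : v ^ 5 = 1 := by
          have := pow_card_eq_one' (x := (⟨v, hvP⟩ : (P : Subgroup G)))
          rw [hPc] at this
          simpa [Subtype.ext_iff] using this
        have h16 : v ^ 16 = 1 := by
          have := pow_card_eq_one' (x := (⟨v, hvE⟩ : E))
          rw [hE] at this
          simpa [Subtype.ext_iff] using this
        have hv1 : v = 1 := by
          have hd1 := orderOf_dvd_of_pow_eq_one h5
          have hd2 := orderOf_dvd_of_pow_eq_one h16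
          exact orderOf_eq_one_iff.1 (Nat.eq_one_of_dvd_coprimes (by norm_num : Nat.Coprime 5 16) hd1 hd2)
        have : t * q * t⁻¹ = q := mul_inv_eq_one.1 hv1
        exact (mul_inv_eq_iff_eq_mul.1 this).symm
      rw [hCP] at htC
      have h7 := orderOf_dvd_natCard (⟨t, htC⟩ : (P : Subgroup G))
      rw [hPc, Subgroup.orderOf_mk, hto] at h7
      norm_num at h7
    have h5N : Nat.card (normalizer ((P : Subgroup G) : Set G)) = 5 := by
      have h1 : (5 : ℕ) ∣ Nat.card (normalizer ((P : Subgroup G) : Set G)) := by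
        have := Subgroup.card_dvd_of_le (Subgroup.le_normalizer (H := (P : Subgroup G)))
        rwa [hPc] at this
      have h2 : Nat.card (normalizer ((P : Subgroup G) : Set G)) ∣ 20 := by simpa using hnd
      have hle := Nat.le_of_dvd (by norm_num) h2
      generalize Nat.card (normalizer ((P : Subgroup G) : Set G)) = d at *
      interval_cases d <;> omega
    have hmod := card_sylow_modEq_one 5 G
    have hidx5 := P.card_eq_index_normalizer
    have hmul : Nat.card (Sylow 5 G) * Nat.card (normalizer ((P : Subgroup G) : Set G)) = Nat.card G := by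
      rw [hidx5]; exact Subgroup.index_mul_card _
    rw [h5N, hord] at hmul
    have hm : Nat.card (Sylow 5 G) % 5 = 1 := hmod
    omega
  · -- normal subgroup of order 11
    have hE : Nat.card E = 11 := by rw [hk, hE11]
    have hnd := norm_dvd E (by norm_num : Nat.Prime 11) hE
    rw [Subgroup.normalizer_eq_top_iff.2 hEn, Subgroup.card_top, hord] at hnd
    set C11 := centralizer (E : Set G) with hC11
    haveI : E.Normal := hEn
    have hC11n : C11.Normal := inferInstance
    have h5C : ¬ 5 ∣ Nat.card C11 := by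
      intro h5
      obtain ⟨c, hc⟩ := exists_prime_orderOf_dvd_card' (G := C11) 5 h5
      have hc1 : (c : G) ^ 5 = 1 := by
        have := pow_orderOf_eq_one c
        rw [hc] at this
        simpa [Subtype.ext_iff] using this
      have hc2 : (c : G) ≠ 1 := by
        intro h
        have hc' : c = 1 := Subtype.ext h
        rw [hc', orderOf_one] at hc
        omega
      have hzc : y * (c : G) = (c : G) * y := Subgroup.mem_centralizer_iff.1 c.2 y hyE
      obtain ⟨g, hg⟩ := edge_of_commute (k := 1) (s := 5) (r := 11) (by norm_num) (by norm_num) (by norm_num)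
        hzc.symm hc2 (by simpa using hc1) hy1 hyE.2
      exact h5x 11 (by right; right; right; rfl) (by norm_num) ⟨g, hg⟩
    have hdC : Nat.card C11 ∣ 7920 := by
      rw [← hord]; exact Subgroup.card_subgroup_dvd_card _
    have hC : Nat.card C11 = 792 ∨ Nat.card C11 = 1584 := by
      obtain ⟨j, hj⟩ : 792 ∣ Nat.card C11 := by
        have : 10 * 792 ∣ 10 * Nat.card C11 := by simpa using hnd
        exact Nat.dvd_of_mul_dvd_mul_left (by norm_num) this
      rw [hj] at hdC h5C ⊢
      have hj10 : j ∣ 10 := by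
        have : 792 * j ∣ 792 * 10 := by simpa using hdC
        exact Nat.dvd_of_mul_dvd_mul_left (by norm_num) this
      have hle := Nat.le_of_dvd (by norm_num) hj10
      interval_cases j <;> omega
    have hfree : ∀ x ∈ (P : Subgroup G), ∀ u ∈ C11, x * u = u * x → x = 1 ∨ u = 1 := by
      intro x hx u hu hc
      by_cases hx1 : x = 1
      · exact Or.inl hx1
      right
      have hle := le_zpowers_of_prime (P : Subgroup G) (by norm_num) hPc hx hx1
      have huC : u ∈ centralizer ((P : Subgroup G) : Set G) := by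
        rw [Subgroup.mem_centralizer_iff]
        have hst : Subgroup.zpowers x ≤ Subgroup.centralizer {u} := by
          rw [Subgroup.zpowers_le]
          exact Subgroup.mem_centralizer_singleton_iff.2 hc
        intro q hq
        exact Subgroup.mem_centralizer_singleton_iff.1 (hst (hle hq))
      rw [hCP] at huC
      by_contra hu1
      have h1 : u ^ 5 = 1 := by
        have := pow_card_eq_one' (x := (⟨u, huC⟩ : (P : Subgroup G)))
        rw [hPc] at this
        simpa [Subtype.ext_iff] using this
      have h2 : orderOf u = 5 := orderOf_eq_prime h1 hu1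
      apply h5C
      rw [← h2]
      have := orderOf_dvd_natCard (⟨u, hu⟩ : C11)
      rwa [Subgroup.orderOf_mk] at this
    have hdv := conj_free_dvd (P : Subgroup G) C11 (by
      exact le_trans le_top (le_of_eq (Subgroup.normalizer_eq_top_iff.2 hC11n).symm)) hfree
    rw [hPc] at hdv
    rcases hC with h | h <;> rw [h] at hdv <;> omega
end main
end X


namespace X
open Subgroup
local instance f11c : Fact (Nat.Prime 11) := ⟨by norm_num⟩
local instance f5c : Fact (Nat.Prime 5) := ⟨by norm_num⟩
section fin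
variable {G : Type*} [Group G] [Finite G]

/-- If `H ⊔ M = ⊤` with `M` normal then the index of `M` divides the order of `H`. -/
lemma index_dvd_of_sup (H M : Subgroup G) [M.Normal] (h : H ⊔ M = ⊤) : M.index ∣ Nat.card H := by
  let f : H →* G ⧸ M := (QuotientGroup.mk' M).comp H.subtype
  have hf : Function.Surjective f := by
    intro x
    obtain ⟨g, rfl⟩ := QuotientGroup.mk_surjective x
    have hg : g ∈ H ⊔ M := by rw [h]; trivial
    obtain ⟨a, ha, b, hb, hab⟩ := Subgroup.mem_sup_of_normal_right.1 hg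
    refine ⟨⟨a, ha⟩, ?_⟩
    show ((a : G) : G ⧸ M) = (g : G ⧸ M)
    rw [← hab]
    rw [QuotientGroup.eq]
    simpa using hb
  have := Subgroup.card_dvd_of_surjective f hf
  rwa [← Subgroup.index_eq_card] at this

theorem final_660 (hord : Nat.card G = 7920) (A : Set ℕ)
    (hedge : ∀ x y, P4 x → P4 y → (∃ g : G, orderOf g = x * y) → (x ∈ A ↔ y ∈ A))
    (hsep : ∃ a, P4 a ∧ a ∈ A) (hsep' : ∃ b, P4 b ∧ b ∉ A)
    (M : Subgroup G) [hM : M.Normal] (hM660 : Nat.card M = 660) : False := by
  classical
  have hidx : M.index = 12 := by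
    have := Subgroup.index_mul_card M
    rw [hM660, hord] at this
    omega
  -- prime 11
  obtain ⟨P⟩ := (inferInstance : Nonempty (Sylow 11 M))
  have hPc : Nat.card (P : Subgroup M) = 11 :=
    card_syl (B := 660) (by norm_num) (by rw [hM660]) (by rw [hM660]; norm_num) P
  have hsup := Sylow.normalizer_sup_eq_top P
  set L := (P : Subgroup M).map M.subtype with hL
  have hLc : Nat.card L = 11 := by
    rw [← hPc]
    exact (Nat.card_congr (Subgroup.equivMapOfInjective (P : Subgroup M) _ M.subtype_injective).toEquiv).symm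
  have h12 : 12 ∣ Nat.card (normalizer (L : Set G)) := by
    have := index_dvd_of_sup (normalizer (L : Set G)) M hsup
    rwa [hidx] at this
  have hnd := norm_dvd L (by norm_num : Nat.Prime 11) hLc
  have h6 : 6 ∣ Nat.card (centralizer (L : Set G)) := by
    have h1 : 12 ∣ 10 * Nat.card (centralizer (L : Set G)) := h12.trans hnd
    omega
  obtain ⟨z, hzL, hz1⟩ : ∃ z ∈ L, z ≠ 1 := by
    apply (Subgroup.bot_or_exists_ne_one _).resolve_left
    intro h
    rw [h] at hLc
    simp at hLc
  have hz11 : z ^ 11 = 1 := by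
    have := pow_card_eq_one' (x := (⟨z, hzL⟩ : L))
    rw [hLc] at this
    simpa [Subtype.ext_iff] using this
  have hedge11 : ∀ p : ℕ, (hp : p.Prime) → p ∣ 6 → ∃ g : G, orderOf g = p * 11 := by
    intro p hp hp6
    haveI : Fact p.Prime := ⟨hp⟩
    have hpne : p ≠ 11 := by
      rintro rfl
      revert hp6; norm_num
    obtain ⟨c, hc⟩ := exists_prime_orderOf_dvd_card' (G := centralizer (L : Set G)) p (hp6.trans h6)
    have hc1 : (c : G) ^ p = 1 := by
      have := pow_orderOf_eq_one c
      rw [hc] at this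
      simpa [Subtype.ext_iff] using this
    have hc2 : (c : G) ≠ 1 := by
      intro h
      have hc' : c = 1 := Subtype.ext h
      rw [hc', orderOf_one] at hc
      exact hp.one_lt.ne hc
    have hzc : z * (c : G) = (c : G) * z := Subgroup.mem_centralizer_iff.1 c.2 z hzL
    exact edge_of_commute (k := 1) hp (by norm_num) hpne hzc.symm hc2 (by simpa using hc1) hz1 hz11
  have e2 := hedge 2 11 (Or.inl rfl) (by right; right; right; rfl)
    (hedge11 2 (by norm_num) (by norm_num))
  have e3 := hedge 3 11 (by right; left; rfl) (by right; right; right; rfl)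
    (hedge11 3 (by norm_num) (by norm_num))
  -- prime 5
  obtain ⟨P5⟩ := (inferInstance : Nonempty (Sylow 5 M))
  have hP5c : Nat.card (P5 : Subgroup M) = 5 :=
    card_syl (B := 660) (by norm_num) (by rw [hM660]) (by rw [hM660]; norm_num) P5
  have hsup5 := Sylow.normalizer_sup_eq_top P5
  set L5 := (P5 : Subgroup M).map M.subtype with hL5
  have hL5c : Nat.card L5 = 5 := by
    rw [← hP5c]
    exact (Nat.card_congr (Subgroup.equivMapOfInjective (P5 : Subgroup M) _ M.subtype_injective).toEquiv).symm
  have h12' : 12 ∣ Nat.card (normalizer (L5 : Set G)) := by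
    have := index_dvd_of_sup (normalizer (L5 : Set G)) M hsup5
    rwa [hidx] at this
  obtain ⟨x, hx⟩ := exists_prime_orderOf_dvd_card' (G := normalizer (L5 : Set G)) 3
    ((by norm_num : 3 ∣ 12).trans h12')
  have hxc := comm_of_coprime_aut L5 (by norm_num : Nat.Prime 5) hL5c (x : G) x.2
    (by rw [Subgroup.orderOf_coe, hx]; norm_num)
  obtain ⟨w, hwL, hw1⟩ : ∃ z ∈ L5, z ≠ 1 := by
    apply (Subgroup.bot_or_exists_ne_one _).resolve_left
    intro h
    rw [h] at hL5c
    simp at hL5c
  have hw5 : w ^ 5 = 1 := by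
    have := pow_card_eq_one' (x := (⟨w, hwL⟩ : L5))
    rw [hL5c] at this
    simpa [Subtype.ext_iff] using this
  have hx3 : (x : G) ^ 3 = 1 := by
    have := pow_orderOf_eq_one x
    rw [hx] at this
    simpa [Subtype.ext_iff] using this
  have hx1 : (x : G) ≠ 1 := by
    intro h
    have hc' : x = 1 := Subtype.ext h
    rw [hc', orderOf_one] at hx
    omega
  have e5 := hedge 3 5 (by right; left; rfl) (by right; right; left; rfl)
    (edge_of_commute (k := 1) (s := 3) (r := 5) (by norm_num) (by norm_num) (by norm_num)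
      (hxc w hwL).symm hx1 (by simpa using hx3) hw1 hw5)
  have hall : ∀ p, P4 p → (p ∈ A ↔ 11 ∈ A) := by
    intro p hp
    rcases hp with rfl | rfl | rfl | rfl
    · exact e2
    · exact e3
    · exact e5.symm.trans e3
    · exact Iff.rfl
  obtain ⟨a, ha, haA⟩ := hsep
  obtain ⟨b, hb, hbA⟩ := hsep'
  exact hbA ((hall b hb).2 ((hall a ha).1 haA))

theorem main_thm (hord : Nat.card G = 7920) (A : Set ℕ)
    (hedge : ∀ x y, P4 x → P4 y → (∃ g : G, orderOf g = x * y) → (x ∈ A ↔ y ∈ A))
    (hsep : ∃ a, P4 a ∧ a ∈ A) (hsep' : ∃ b, P4 b ∧ b ∉ A) : IsSimpleGroup G := by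
  classical
  have hab := @no_ab G _ _ hord A hedge hsep hsep'
  -- the minimal normal subgroup of order divisible by 11
  let S : Set (Subgroup G) := {M | M.Normal ∧ 11 ∣ Nat.card M}
  have hS : S.Nonempty := ⟨⊤, ⟨inferInstance, by rw [Subgroup.card_top, hord]; norm_num⟩⟩
  obtain ⟨M, ⟨hMn, hM11⟩, hmin⟩ := Set.exists_min_image S (fun M => Nat.card M) (Set.toFinite S) hS
  haveI := hMn
  have hminle : ∀ M' : Subgroup G, M'.Normal → 11 ∣ Nat.card M' → M' ≤ M → M' = M := by
    intro M' h1 h2 h3
    exact Subgroup.eq_of_le_of_card_ge h3 (hmin M' ⟨h1, h2⟩)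
  have hclos : ∀ z ∈ M, orderOf z = 11 → normalClosure ({z} : Set G) = M := by
    intro z hz ho
    apply hminle _ inferInstance
    · rw [← ho]
      have hz' : z ∈ normalClosure ({z} : Set G) := subset_normalClosure (Set.mem_singleton z)
      have := orderOf_dvd_natCard (⟨z, hz'⟩ : normalClosure ({z} : Set G))
      rwa [Subgroup.orderOf_mk] at this
    · exact normalClosure_le_normal (by simpa using hz)
  have hMd : Nat.card M ∣ 7920 := by
    rw [← hord]; exact Subgroup.card_subgroup_dvd_card _
  obtain ⟨z0, hz0⟩ := exists_prime_orderOf_dvd_card' (G := M) 11 hM11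
  have hz0M : (z0 : G) ∈ M := z0.2
  have hz0o : orderOf (z0 : G) = 11 := by rw [Subgroup.orderOf_coe, hz0]
  have hMbot : M ≠ ⊥ := by
    intro h
    obtain ⟨z, hz, ho⟩ : ∃ z : G, z ∈ M ∧ orderOf z = 11 := ⟨_, hz0M, hz0o⟩
    rw [h] at hz
    have : z = 1 := hz
    rw [this, orderOf_one] at ho
    omega
  have hMnc : ∃ a b : M, a * b ≠ b * a := by
    by_contra hcontra
    push Not at hcontra
    apply hMbot
    apply hab M
    intro x hx y hy
    exact congrArg Subtype.val (hcontra ⟨x, hx⟩ ⟨y, hy⟩)
  -- subgroup `Z(M)` is trivial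
  have hZ : (M ⊓ centralizer (M : Set G)) = ⊥ := by
    apply hab
    intro x hx y hy
    exact Subgroup.mem_centralizer_iff.1 hy.2 x hx.1 
  haveI hMs : IsSimpleGroup M := by
    haveI : Nontrivial M := ⟨⟨z0, 1, by
      intro h
      rw [h, orderOf_one] at hz0
      omega⟩⟩
    refine ⟨?_⟩
    intro H hH
    by_cases h11H : 11 ∣ Nat.card H
    · right
      -- every Sylow 11 of `M` lies in `H`
      obtain ⟨w, hw⟩ := exists_prime_orderOf_dvd_card' (G := H) 11 h11H
      have hwo : orderOf ((w : M) : G) = 11 := by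
        rw [Subgroup.orderOf_coe, Subgroup.orderOf_coe, hw]
      have hwp : IsPGroup 11 (Subgroup.zpowers (w : M)) := by
        apply IsPGroup.of_card (n := 1)
        rw [Nat.card_zpowers, pow_one, Subgroup.orderOf_coe, hw]
      obtain ⟨P0, hP0⟩ := hwp.exists_le_sylow
      have hP0c : Nat.card (P0 : Subgroup M) = 11 := card_syl (B := 7920) (by norm_num) hMd hM11 P0
      have hP0eq : (P0 : Subgroup M) = Subgroup.zpowers (w : M) := by
        symm
        apply Subgroup.eq_of_le_of_card_ge hP0
        rw [hP0c, Nat.card_zpowers, Subgroup.orderOf_coe, hw]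
      have hP0H : (P0 : Subgroup M) ≤ H := by
        rw [hP0eq, Subgroup.zpowers_le]
        exact w.2
      have hallS : ∀ y : M, orderOf y = 11 → y ∈ H := by
        intro y hy
        have hyp : IsPGroup 11 (Subgroup.zpowers y) := by
          apply IsPGroup.of_card (n := 1)
          rw [Nat.card_zpowers, pow_one, hy]
        obtain ⟨P1, hP1⟩ := hyp.exists_le_sylow
        obtain ⟨m, hm⟩ := MulAction.exists_smul_eq M P0 P1
        have hy1 : y ∈ (P1 : Subgroup M) := hP1 (Subgroup.mem_zpowers y)
        rw [← hm] at hy1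
        have hy2 : m⁻¹ * y * m ∈ (P0 : Subgroup M) := by
          rw [Sylow.coe_subgroup_smul] at hy1
          obtain ⟨a, ha, rfl⟩ := hy1
          change m⁻¹ * (m * a * m⁻¹) * m ∈ (P0 : Subgroup M)
          have e : m⁻¹ * (m * a * m⁻¹) * m = a := by group
          rw [e]; exact ha
        have hy3 := hH.conj_mem _ (hP0H hy2) m
        have e : m * (m⁻¹ * y * m) * m⁻¹ = y := by group
        rwa [e] at hy3
      rw [eq_top_iff]
      have hclo := hclos _ ((w : M).2) hwo
      rintro x -
      have hxc : (x : G) ∈ normalClosure ({((w : M) : G)} : Set G) := by rw [hclo]; exact x.2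
      let U : Subgroup G := H.map M.subtype
      have hcl : normalClosure ({((w : M) : G)} : Set G) ≤ U := by
        apply Subgroup.closure_le _ |>.2
        intro y hy
        obtain ⟨a, ha, hconj⟩ := Group.mem_conjugatesOfSet_iff.1 hy
        rw [Set.mem_singleton_iff] at ha
        subst ha
        obtain ⟨c, rfl⟩ := isConj_iff.1 hconj
        have hmem : c * ((w : M) : G) * c⁻¹ ∈ M := hMn.conj_mem _ (w : M).2 c
        have ho : orderOf (⟨c * ((w : M) : G) * c⁻¹, hmem⟩ : M) = 11 := by
          rw [Subgroup.orderOf_mk]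
          have := MulEquiv.orderOf_eq (MulAut.conj c) ((w : M) : G)
          rw [← hwo, ← this]
          rfl
        exact ⟨_, hallS _ ho, rfl⟩
      obtain ⟨x', hx', hxx⟩ := hcl hxc
      have : x' = x := Subtype.ext hxx
      rwa [← this]
    · left
      -- `H` has order coprime to 11
      let U : Subgroup G := H.map M.subtype
      have hUc : Nat.card U = Nat.card H :=
        (Nat.card_congr (Subgroup.equivMapOfInjective H _ M.subtype_injective).toEquiv).symm
      have hU720 : Nat.card U ∣ 720 := by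
        have h1 : Nat.card U ∣ 7920 := by
          rw [← hord]; exact Subgroup.card_subgroup_dvd_card _
        have hco : Nat.Coprime (Nat.card U) 11 := by
          apply Nat.Coprime.symm
          apply (Nat.Prime.coprime_iff_not_dvd (by norm_num)).2
          rwa [hUc]
        have h2 : Nat.card U ∣ 720 * 11 := by simpa using h1
        exact hco.dvd_of_dvd_mul_right h2
      have hUnorm : (U.subgroupOf M).Normal := by
        have : U.subgroupOf M = H := Subgroup.comap_map_eq_self_of_injective M.subtype_injective H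
        rw [this]; exact hH
      have hMN : M ≤ normalizer (U : Set G) :=
        Subgroup.le_normalizer_of_normal_subgroupOf (Subgroup.map_subtype_le H)
      have hcen : ∀ y : M, orderOf y = 11 → ∀ u ∈ U, (y : G) * u = u * y := by
        intro y hy u hu
        have hc : Nat.card (Subgroup.zpowers (y : G)) = 11 := by
          rw [Nat.card_zpowers, Subgroup.orderOf_coe, hy]
        have hN : Subgroup.zpowers (y : G) ≤ normalizer (U : Set G) := by
          rw [Subgroup.zpowers_le]
          exact hMN y.2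
        exact Qcentral (Subgroup.zpowers (y : G)) U hc hN hU720 _ (Subgroup.mem_zpowers _) u hu
      have hMC : normalClosure ({(z0 : G)} : Set G) ≤ centralizer (U : Set G) := by
        apply Subgroup.closure_le _ |>.2
        intro y hy
        obtain ⟨a, ha, hconj⟩ := Group.mem_conjugatesOfSet_iff.1 hy
        rw [Set.mem_singleton_iff] at ha
        subst ha
        obtain ⟨c, rfl⟩ := isConj_iff.1 hconj
        have hmem : c * (z0 : G) * c⁻¹ ∈ M := hMn.conj_mem _ z0.2 c
        have ho : orderOf (⟨c * (z0 : G) * c⁻¹, hmem⟩ : M) = 11 := by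
          rw [Subgroup.orderOf_mk]
          have := MulEquiv.orderOf_eq (MulAut.conj c) (z0 : G)
          rw [← hz0o, ← this]
          rfl
        apply Subgroup.mem_centralizer_iff.2
        intro u hu
        exact (hcen _ ho u hu).symm
      rw [hclos _ hz0M hz0o] at hMC
      have hUZ : U ≤ M ⊓ centralizer (M : Set G) := by
        intro u hu
        refine ⟨Subgroup.map_subtype_le H hu, ?_⟩
        apply Subgroup.mem_centralizer_iff.2
        intro m hm
        exact (Subgroup.mem_centralizer_iff.1 (hMC hm) u hu).symm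
      rw [hZ] at hUZ
      rw [eq_bot_iff]
      intro x hx
      have h1 : (x : G) ∈ U := ⟨x, hx, rfl⟩
      have h2 : (x : G) = 1 := hUZ h1
      exact Subtype.ext h2
  by_cases hM7920 : Nat.card M = 7920
  · have htop : M = ⊤ := Subgroup.eq_top_of_card_eq _ (by rw [hM7920, hord])
    haveI : Nontrivial G := by
      apply Finite.one_lt_card_iff_nontrivial.1
      rw [hord]; norm_num
    exact IsSimpleGroup.isSimpleGroup_of_surjective M.subtype (by
      intro g
      exact ⟨⟨g, by rw [htop]; trivial⟩, rfl⟩)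
  · exfalso
    exact final_660 hord A hedge hsep hsep' M (T1 hMnc hMd hM11 hM7920)
end fin
end X



/-- Let G be a finite group of order 7920 = 2⁴·3²·5·11 (the order of the smallest Mathieu group) and suppose its prime graph (vertices the prime divisors of the order, distinct p, q joined when there is an element of order pq) is disconnected: the prime divisors split into two non-empty parts with no element of order pq for p in one part and q in the other. Then G is simple. -/
theorem result {G : Type*} [Group G] [Finite G] (hord : Nat.card G = 7920)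
    (hdisc : (∃ A : Set ℕ, (∃ a ∈ A, a.Prime ∧ a ∣ Nat.card G) ∧ (∃ b ∉ A, b.Prime ∧ b ∣ Nat.card G) ∧
      ∀ a ∈ A, ∀ b ∉ A, a.Prime → b.Prime → a ∣ Nat.card G → b ∣ Nat.card G → ¬ ∃ g : G, orderOf g = a * b)) :
    IsSimpleGroup G := by
  classical
obtain ⟨A, ⟨a, haA, hap, had⟩, ⟨b, hbA, hbp, hbd⟩, hno⟩ := hdisc
refine X.main_thm hord A ?_ ⟨a, X.prime7920 hap (hord ▸ had), haA⟩ ⟨b, X.prime7920 hbp (hord ▸ hbd), hbA⟩
intro x y hx hy hg
have hxp := hx.prime
have hyp := hy.prime
have hxd : x ∣ Nat.card G := by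
  rw [hord]
  rcases hx with rfl | rfl | rfl | rfl <;> norm_num
have hyd : y ∣ Nat.card G := by
  rw [hord]
  rcases hy with rfl | rfl | rfl | rfl <;> norm_num
constructor
· intro hxA
  by_contra hyA
  exact hno x hxA y hyA hxp hyp hxd hyd hg
· intro hyA
  by_contra hxA
  obtain ⟨g, hg⟩ := hg
  exact hno y hyA x hxA hyp hxp hyd hxd ⟨g, by rw [hg, mul_comm]⟩

end Cfsg.Agent.S2490
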