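import Cfsg.Statements.S2504
import Cfsg.Agent.Lib.H11.AbPerm

set_option autoImplicit false
open Cfsg

namespace Cfsg.Agent.S2504

/-- The largest order of an abelian subgroup of the alternating group of degree n is 3^k when n = 3k, 4·3^(k−1) when n = 3k + 1, and 16·3^(k−2) when n = 3k + 2, for every k ≥ 2 (so for all degrees n ≥ 6). -/
theorem result (k : ℕ) (hk : 2 ≤ k) :
    IsGreatest {c : ℕ | ∃ A : Subgroup (alternatingGroup (Fin (3 * k))), IsMulCommutative A ∧ Nat.card A = c} (3 ^ k) ∧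
    IsGreatest {c : ℕ | ∃ A : Subgroup (alternatingGroup (Fin (3 * k + 1))), IsMulCommutative A ∧ Nat.card A = c}
      (4 * 3 ^ (k - 1)) ∧
    IsGreatest {c : ℕ | ∃ A : Subgroup (alternatingGroup (Fin (3 * k + 2))), IsMulCommutative A ∧ Nat.card A = c}
      (16 * 3 ^ (k - 2)) := by
  open Cfsg.Agent.H11.AbPerm in
  obtain ⟨j, rfl⟩ : ∃ j, k = j + 2 := ⟨k - 2, by omega⟩
  refine ⟨⟨ach_true (Ach_threes True _), ?_⟩, ⟨ach_true (Ach_three_one True (j + 1)), ?_⟩, ⟨ach_true (Ach_three_two True j), ?_⟩⟩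
  · rintro c ⟨A, hA, rfl⟩
    refine bound_alt A hA _ ?_ ?_
    · rw [Fintype.card_fin, show 3 * (j + 2) - 2 = 3 * (j + 1) + 1 by omega, f_three_mul_one]
      have : 0 < 3 ^ j := by positivity
      rw [pow_add]
      omega
    · rw [Fintype.card_fin, g_three_mul]
  · rintro c ⟨A, hA, rfl⟩
    refine bound_alt A hA _ ?_ ?_
    · rw [Fintype.card_fin, show 3 * (j + 2) + 1 - 2 = 3 * (j + 1) + 2 by omega, f_three_mul_two]
      simp only [show j + 2 - 1 = j + 1 by omega]
      have : 0 < 3 ^ (j + 1) := by positivity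
      omega
    · rw [Fintype.card_fin]
      simp only [show j + 2 - 1 = j + 1 by omega]
      exact le_of_eq (g_three_mul_one (j + 1))
  · rintro c ⟨A, hA, rfl⟩
    refine bound_alt A hA _ ?_ ?_
    · rw [Fintype.card_fin, show 3 * (j + 2) + 2 - 2 = 3 * (j + 2) by omega, f_three_mul]
      simp only [show j + 2 - 2 = j by omega]
      have : 0 < 3 ^ j := by positivity
      rw [pow_add]
      omega
    · rw [Fintype.card_fin]
      simp only [show j + 2 - 2 = j by omega]
      exact le_of_eq (g_three_mul_two j)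

end Cfsg.Agent.S2504
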