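import Cfsg.Statements.S2507
import Cfsg.Agent.Lib.H11.SL2T3

set_option autoImplicit false
open Cfsg

namespace Cfsg.Agent.S2507

/-- Let F be a finite field with q = 2^f ≥ 4 elements. The conjugacy class sizes of PSL(2,F) are exactly 1, q(q − 1), q² − 1 and q(q + 1). -/
theorem result {F : Type*} [Field F] [Fintype F]
    (h2 : 2 ∣ Fintype.card F) (h4 : 4 ≤ Fintype.card F) :
    Set.range (fun g : (Matrix.ProjectiveSpecialLinearGroup (Fin 2) F) => (Subgroup.centralizer ({g} : Set (Matrix.ProjectiveSpecialLinearGroup (Fin 2) F))).index) =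
      {1, Fintype.card F * (Fintype.card F - 1), Fintype.card F ^ 2 - 1, Fintype.card F * (Fintype.card F + 1)} := by
  have h : (2 : F) = 0 := Cfsg.Agent.H11.SL2T.two_zero_iff.2 (Nat.mod_eq_zero_of_dvd h2)
  exact Cfsg.Agent.H11.SL2T.class_sizes_even h h4

end Cfsg.Agent.S2507
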