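import Cfsg.Statements.S2513
import Cfsg.Agent.Lib.H11.Spec2

set_option autoImplicit false
open Cfsg

namespace Cfsg.Agent.S2513

/-- Let F be the field with two elements, n ≥ 2, L = PSL(n, F) and k₀ = ⌊(n + 3)/2⌋. Then for every k ≥ k₀ the direct product of k copies of L has the same set of element orders as the direct product of k₀ copies of L. -/
theorem result {F : Type*} [Field F] [Fintype F] (hF : Fintype.card F = 2) (n k : ℕ) (hn : 2 ≤ n) (hk : (n + 3) / 2 ≤ k) :
    Set.range (orderOf : (Fin k → Matrix.ProjectiveSpecialLinearGroup (Fin n) F) → ℕ) = Set.range (orderOf : (Fin ((n + 3) / 2) → Matrix.ProjectiveSpecialLinearGroup (Fin n) F) → ℕ) := by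
  apply Set.eq_of_subset_of_subset
  · rintro _ ⟨f, rfl⟩
    obtain ⟨f', hf'⟩ := Cfsg.Agent.H11.Spec.stable_aux hF n k hn f
    exact ⟨f', hf'⟩
  · rintro _ ⟨f, rfl⟩
    obtain ⟨f', hf'⟩ := Cfsg.Agent.H11.Spec.pad_order hk f
    exact ⟨f', hf'⟩

end Cfsg.Agent.S2513
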