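import Mathlib
import Cfsg.Statements.S2514

set_option autoImplicit false
open Cfsg

namespace Cfsg.Agent.S2514

/-- divisor closure -/
lemma exists_orderOf_of_dvd {G : Type*} [Group G] [Finite G] (g : G) (d : ℕ) (hd : d ∣ orderOf g) :
    ∃ x : G, orderOf x = d :=
  ⟨g ^ (orderOf g / d), orderOf_pow_orderOf_div (orderOf_pos g).ne' hd⟩

/-- every order divides a maximal order -/
lemma exists_maximal {G : Type*} [Group G] [Finite G] (g : G) :
    ∃ m ∈ {n : ℕ | n ∈ Set.range (orderOf : G → ℕ) ∧ ∀ m ∈ Set.range (orderOf : G → ℕ), n ∣ m → m = n},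
      orderOf g ∣ m := by
  classical
  have hfin : (Set.range (orderOf : G → ℕ)).Finite := Set.finite_range _
  let S : Set ℕ := {n ∈ Set.range (orderOf : G → ℕ) | orderOf g ∣ n}
  have hS : S.Finite := hfin.subset (fun x hx => hx.1)
  have hne : S.Nonempty := ⟨orderOf g, ⟨g, rfl⟩, dvd_rfl⟩
  obtain ⟨m, hm, hmax⟩ := hS.exists_maximalFor id S hne
  refine ⟨m, ⟨hm.1, ?_⟩, hm.2⟩
  intro m' hm' hd
  obtain ⟨x, rfl⟩ := hm'
  have hmpos : 0 < orderOf x := orderOf_pos x
  have hle : m ≤ orderOf x := Nat.le_of_dvd hmpos hd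
  have hmem : orderOf x ∈ S := ⟨⟨x, rfl⟩, hm.2.trans hd⟩
  have := hmax hmem hle
  exact le_antisymm this hle

lemma orderOf_pi_eq {G : Type*} [Group G] {k : ℕ} (f : Fin k → G) :
    orderOf f = Finset.univ.lcm (fun i => orderOf (f i)) := Pi.orderOf f

lemma lcm_succAbove {k : ℕ} (a : Fin (k + 1) → ℕ) (i : Fin (k + 1)) :
    Finset.univ.lcm a = Nat.lcm (a i) (Finset.univ.lcm (fun l => a (i.succAbove l))) := by
  apply Nat.dvd_antisymm
  · apply Finset.lcm_dvd
    intro j _
    rcases Fin.eq_self_or_eq_succAbove i j with h | ⟨l, h⟩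
    · subst h; exact Nat.dvd_lcm_left _ _
    · subst h
      exact (Finset.dvd_lcm (Finset.mem_univ l) (f := fun l => a (i.succAbove l))).trans (Nat.dvd_lcm_right _ _)
  · apply Nat.lcm_dvd
    · exact Finset.dvd_lcm (Finset.mem_univ i)
    · apply Finset.lcm_dvd
      intro l _
      exact Finset.dvd_lcm (Finset.mem_univ _)

theorem result {G H : Type*} [Group G] [Finite G] [Group H] [Finite H] (k : ℕ) (hk : 1 ≤ k)
    (hsub : {n : ℕ | n ∈ Set.range (orderOf : H → ℕ) ∧ ∀ m ∈ Set.range (orderOf : H → ℕ), n ∣ m → m = n} ⊆ {n : ℕ | n ∈ Set.range (orderOf : G → ℕ) ∧ ∀ m ∈ Set.range (orderOf : G → ℕ), n ∣ m → m = n})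
    (hfew : ({n : ℕ | n ∈ Set.range (orderOf : G → ℕ) ∧ ∀ m ∈ Set.range (orderOf : G → ℕ), n ∣ m → m = n} \ {n : ℕ | n ∈ Set.range (orderOf : H → ℕ) ∧ ∀ m ∈ Set.range (orderOf : H → ℕ), n ∣ m → m = n}).ncard < k) :
    Set.range (orderOf : (Fin k → G) → ℕ) = Set.range (orderOf : (Fin (k - 1) → G) × H → ℕ) := by
  classical
  obtain ⟨k', rfl⟩ : ∃ k', k = k' + 1 := ⟨k - 1, by omega⟩
  rw [show k' + 1 - 1 = k' from rfl]
  set μG := {n : ℕ | n ∈ Set.range (orderOf : G → ℕ) ∧ ∀ m ∈ Set.range (orderOf : G → ℕ), n ∣ m → m = n} with hμG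
  set μH := {n : ℕ | n ∈ Set.range (orderOf : H → ℕ) ∧ ∀ m ∈ Set.range (orderOf : H → ℕ), n ∣ m → m = n} with hμH
  apply Set.Subset.antisymm
  · -- from `G^k` to `G^(k-1) × H`
    rintro n ⟨f, rfl⟩
    choose m hm hdvd using fun i => exists_maximal (f i)
    by_cases hex : ∃ i, m i ∈ μH
    · obtain ⟨i, hi⟩ := hex
      obtain ⟨h, hh⟩ := hi.1
      obtain ⟨h', hh'⟩ : ∃ x : H, orderOf x = orderOf (f i) :=
        exists_orderOf_of_dvd h _ (by rw [hh]; exact hdvd i)
      refine ⟨(fun l => f (i.succAbove l), h'), ?_⟩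
      rw [Prod.orderOf, orderOf_pi_eq f, orderOf_pi_eq, lcm_succAbove _ i]
      simp only [hh']
      rw [Nat.lcm_comm]
    · push Not at hex
      -- pigeonhole
      have hfin : (μG \ μH).Finite :=
        (Set.finite_range (orderOf : G → ℕ)).subset (fun x hx => hx.1.1)
      have hmaps : ∀ i, m i ∈ μG \ μH := fun i => ⟨hm i, hex i⟩
      have hinj : ¬ Function.Injective m := by
        intro hinj
        have h1 : (m '' Set.univ).ncard ≤ (μG \ μH).ncard :=
          Set.ncard_le_ncard (by rintro _ ⟨i, _, rfl⟩; exact hmaps i) hfin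
        rw [Set.ncard_image_of_injective _ hinj, Set.ncard_univ, Nat.card_eq_fintype_card,
          Fintype.card_fin] at h1
        omega
      simp only [Function.Injective, not_forall] at hinj
      obtain ⟨i, j, heq, hne⟩ := hinj
      obtain ⟨j', rfl⟩ : ∃ j', i.succAbove j' = j := by
        rcases Fin.eq_self_or_eq_succAbove i j with h | ⟨l, h⟩
        · exact absurd h.symm hne
        · exact ⟨l, h.symm⟩
      -- the order `lcm (a_i, a_j)` is in `ω(G)`
      obtain ⟨g₀, hg₀⟩ := (hm i).1
      obtain ⟨x, hx⟩ : ∃ x : G, orderOf x = Nat.lcm (orderOf (f i)) (orderOf (f (i.succAbove j'))) :=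
        exists_orderOf_of_dvd g₀ _ (by
          rw [hg₀]
          exact Nat.lcm_dvd (hdvd i) (by rw [heq]; exact hdvd _))
      refine ⟨(Function.update (fun l => f (i.succAbove l)) j' x, 1), ?_⟩
      rw [Prod.orderOf, orderOf_pi_eq f, orderOf_pi_eq, lcm_succAbove _ i]
      simp only [orderOf_one, Nat.lcm_one_right]
      apply Nat.dvd_antisymm
      · apply Finset.lcm_dvd
        intro l _
        by_cases hl : l = j'
        · subst hl
          simp only [Function.update_self, hx]
          exact Nat.lcm_dvd (Nat.dvd_lcm_left _ _)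
            ((Finset.dvd_lcm (Finset.mem_univ l) (f := fun l => orderOf (f (i.succAbove l)))).trans
              (Nat.dvd_lcm_right _ _))
        · simp only [Function.update_of_ne hl]
          exact (Finset.dvd_lcm (Finset.mem_univ l) (f := fun l => orderOf (f (i.succAbove l)))).trans
              (Nat.dvd_lcm_right _ _)
      · apply Nat.lcm_dvd
        · have h1 : orderOf (Function.update (fun l => f (i.succAbove l)) j' x j') ∣
              Finset.univ.lcm (fun l => orderOf (Function.update (fun l => f (i.succAbove l)) j' x l)) :=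
            Finset.dvd_lcm (Finset.mem_univ j') (f := fun l => orderOf (Function.update (fun l => f (i.succAbove l)) j' x l))
          simp only [Function.update_self, hx] at h1
          exact (Nat.dvd_lcm_left _ _).trans h1
        · apply Finset.lcm_dvd
          intro l _
          have h1 : orderOf (Function.update (fun l => f (i.succAbove l)) j' x l) ∣
              Finset.univ.lcm (fun l => orderOf (Function.update (fun l => f (i.succAbove l)) j' x l)) :=
            Finset.dvd_lcm (Finset.mem_univ l) (f := fun l => orderOf (Function.update (fun l => f (i.succAbove l)) j' x l))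
          by_cases hl : l = j'
          · subst hl
            simp only [Function.update_self, hx] at h1
            exact (Nat.dvd_lcm_right _ _).trans h1
          · simpa only [Function.update_of_ne hl] using h1
  · rintro n ⟨⟨f, h⟩, rfl⟩
    obtain ⟨m, hm, hdvd⟩ := exists_maximal h
    obtain ⟨g₀, hg₀⟩ := (hsub hm).1
    obtain ⟨x, hx⟩ : ∃ x : G, orderOf x = orderOf h :=
      exists_orderOf_of_dvd g₀ _ (by rw [hg₀]; exact hdvd)
    refine ⟨Fin.cons x f, ?_⟩
    rw [Prod.orderOf, orderOf_pi_eq, orderOf_pi_eq, lcm_succAbove _ 0]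
    simp only [Fin.cons_zero, Fin.succAbove_zero, Fin.cons_succ, hx]
    rw [Nat.lcm_comm]

end Cfsg.Agent.S2514
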