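import Cfsg.Statements.S2515
import Cfsg.Agent.Lib.H29.WeilB
import Cfsg.Agent.Lib.H11.SL2T2
import Cfsg.Agent.Lib.H10.GL2

set_option autoImplicit false
set_option linter.unusedSectionVars false
set_option linter.unusedVariables false
set_option linter.style.haveILetI false
open Cfsg

namespace Cfsg.Agent.S2515

open Cfsg.Agent.H11.SL2X Cfsg.Agent.H11.SL2T Cfsg.Agent.H29.Weil

variable {F : Type} [Field F] [CharP F 3]

noncomputable section

/-- the twist of a matrix: transpose of the entrywise cube -/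
def tw (G : M2 F) : M2 F := Matrix.transpose ((frobenius F 3).mapMatrix G)

lemma tw_one : tw (1 : M2 F) = 1 := by simp [tw]

lemma tw_mul (G H : M2 F) : tw (G * H) = tw H * tw G := by
  simp [tw, Matrix.transpose_mul]

lemma tw_smul_one (r : F) : tw (r • (1 : M2 F)) = r ^ 3 • 1 := by
  ext i j
  fin_cases i <;> fin_cases j <;> simp [tw, frobenius_def]

lemma trace_tw (G : M2 F) : (tw G).trace = G.trace ^ 3 := by
  have h := map_add (frobenius F 3) (G 0 0) (G 1 1)
  simp only [frobenius_def] at h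
  simp [tw, Matrix.trace_fin_two, frobenius_def, h]

lemma det_tw (G : M2 F) : (tw G).det = G.det ^ 3 := by
  have h := RingHom.map_det (frobenius F 3) G
  simp only [frobenius_def] at h
  rw [tw, Matrix.det_transpose, h]

/-- the action on matrices -/
def act (g : SL2 F) (A : M2 F) : M2 F := g.1 * A * tw g.1

lemma act_one (A : M2 F) : act (1 : SL2 F) A = A := by simp [act, tw_one]

lemma act_mul (g h : SL2 F) (A : M2 F) : act (g * h) A = act g (act h A) := by
  simp only [act, Matrix.SpecialLinearGroup.coe_mul, tw_mul, Matrix.mul_assoc]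

lemma act_add (g : SL2 F) (A B : M2 F) : act g (A + B) = act g A + act g B := by
  simp [act, Matrix.mul_add, Matrix.add_mul]

lemma act_neg (g : SL2 F) (A : M2 F) : act g (-A) = - act g A := by
  simp [act, Matrix.mul_neg, Matrix.neg_mul]

/-- the action as a homomorphism -/
def psi : SL2 F →* MulAut (Multiplicative (M2 F)) where
  toFun g :=
    { toFun := fun A => Multiplicative.ofAdd (act g A.toAdd)
      invFun := fun A => Multiplicative.ofAdd (act g⁻¹ A.toAdd)
      left_inv := fun A => by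
        show Multiplicative.ofAdd (act g⁻¹ (act g A.toAdd)) = A
        rw [← act_mul, inv_mul_cancel, act_one]
        rfl
      right_inv := fun A => by
        show Multiplicative.ofAdd (act g (act g⁻¹ A.toAdd)) = A
        rw [← act_mul, mul_inv_cancel, act_one]
        rfl
      map_mul' := fun A B => by
        show Multiplicative.ofAdd (act g (A.toAdd + B.toAdd)) = _
        rw [act_add]
        rfl }
  map_one' := MulEquiv.ext fun A => by
    show Multiplicative.ofAdd (act 1 A.toAdd) = A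
    rw [act_one]
    rfl
  map_mul' g h := MulEquiv.ext fun A => by
    show Multiplicative.ofAdd (act (g * h) A.toAdd) = Multiplicative.ofAdd (act g (act h A.toAdd))
    rw [act_mul]

lemma psi_center {z : SL2 F} (hz : z ∈ Subgroup.center (SL2 F)) : psi z = 1 := by
  obtain ⟨r, hr, hz'⟩ := mem_center2.mp hz
  apply MulEquiv.ext
  intro A
  show Multiplicative.ofAdd (act z A.toAdd) = A
  have h1 : act z A.toAdd = A.toAdd := by
    have h2 : r * r ^ 3 = 1 := by
      have : r * r ^ 3 = (r ^ 2) ^ 2 := by ring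
      rw [this, hr]
      ring
    simp only [act, hz', tw_smul_one, Matrix.smul_mul, Matrix.mul_smul, Matrix.one_mul,
      Matrix.mul_one, smul_smul]
    rw [mul_comm, h2, one_smul]
  rw [h1]
  rfl

/-- the action of the quotient -/
def psiP : PS2 F →* MulAut (Multiplicative (M2 F)) :=
  QuotientGroup.lift (Subgroup.center (SL2 F)) psi (fun _ hz => psi_center hz)

lemma psiP_pr (g : SL2 F) : psiP (pr g) = psi g := rfl

/-- the sign action -/
def sgn : ℤˣ →* MulAut (Multiplicative (M2 F)) where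
  toFun c :=
    { toFun := fun A => Multiplicative.ofAdd ((c : ℤ) • A.toAdd)
      invFun := fun A => Multiplicative.ofAdd ((c : ℤ) • A.toAdd)
      left_inv := fun A => by
        show Multiplicative.ofAdd ((c : ℤ) • (c : ℤ) • A.toAdd) = A
        rcases Int.units_eq_one_or c with rfl | rfl <;> simp
      right_inv := fun A => by
        show Multiplicative.ofAdd ((c : ℤ) • (c : ℤ) • A.toAdd) = A
        rcases Int.units_eq_one_or c with rfl | rfl <;> simp
      map_mul' := fun A B => by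
        show Multiplicative.ofAdd ((c : ℤ) • (A.toAdd + B.toAdd)) = _
        rw [smul_add]
        rfl }
  map_one' := MulEquiv.ext fun A => by
    show Multiplicative.ofAdd (((1 : ℤˣ) : ℤ) • A.toAdd) = A
    simp
  map_mul' c d := MulEquiv.ext fun A => by
    show Multiplicative.ofAdd (((c * d : ℤˣ) : ℤ) • A.toAdd)
      = Multiplicative.ofAdd ((c : ℤ) • (d : ℤ) • A.toAdd)
    rw [smul_smul, Units.val_mul]

lemma sgn_comm (c : ℤˣ) (x : PS2 F) : Commute (sgn c) (psiP x) := by
  obtain ⟨g, rfl⟩ := pr_surj x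
  apply MulEquiv.ext
  intro A
  show Multiplicative.ofAdd ((c : ℤ) • act g A.toAdd)
    = Multiplicative.ofAdd (act g ((c : ℤ) • A.toAdd))
  rcases Int.units_eq_one_or c with rfl | rfl <;> simp [act_neg]

/-- the full action -/
def phi : ℤˣ × PS2 F →* MulAut (Multiplicative (M2 F)) :=
  MonoidHom.noncommCoprod sgn psiP sgn_comm

lemma phi_apply (c : ℤˣ) (g : SL2 F) (a : Multiplicative (M2 F)) :
    phi (c, pr g) a = Multiplicative.ofAdd ((c : ℤ) • act g a.toAdd) := rfl

lemma trace_rel (g : SL2 F) (ε : F) (hε : ε * ε = 1) (A : M2 F) (hA : A ≠ 0)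
    (h : g.1 * A * tw g.1 = ε • A) : ε * g.1.trace ^ 3 = g.1.trace := by
  set G : M2 F := g.1 with hGdef
  set B : M2 F := tw G with hBdef
  have hdetG : G.det = 1 := g.2
  have hdetB : B.det = 1 := by rw [hBdef, det_tw, hdetG, one_pow]
  have hs : B.trace = G.trace ^ 3 := trace_tw G
  have hG : (G.trace • (1 : M2 F) - G) * G = 1 := by
    rw [Matrix.sub_mul, Matrix.smul_mul, Matrix.one_mul, Cfsg.Agent.H10.cayley_hamilton_two G, hdetG]
    simp
  have hB : B * (B.trace • (1 : M2 F) - B) = 1 := by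
    rw [Matrix.mul_sub, Matrix.mul_smul, Matrix.mul_one, Cfsg.Agent.H10.cayley_hamilton_two B, hdetB]
    simp
  have h1 : A * B = ε • (G.trace • A - G * A) := by
    calc A * B = ((G.trace • (1 : M2 F) - G) * G) * A * B := by rw [hG, Matrix.one_mul]
      _ = (G.trace • (1 : M2 F) - G) * (G * A * B) := by simp only [Matrix.mul_assoc]
      _ = ε • (G.trace • A - G * A) := by
        rw [h, Matrix.mul_smul, Matrix.sub_mul, Matrix.smul_mul, Matrix.one_mul]
  have h2 : G * A = ε • (B.trace • A - A * B) := by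
    calc G * A = G * A * (B * (B.trace • (1 : M2 F) - B)) := by rw [hB, Matrix.mul_one]
      _ = (G * A * B) * (B.trace • (1 : M2 F) - B) := by simp only [Matrix.mul_assoc]
      _ = ε • (B.trace • A - A * B) := by
        rw [h, Matrix.smul_mul, Matrix.mul_sub, Matrix.mul_smul, Matrix.mul_one]
  have h3 : (ε * B.trace - G.trace) • A = 0 := by
    rw [h1] at h2
    simp only [smul_sub, smul_smul, ← mul_assoc, hε, one_mul, one_smul] at h2
    rw [sub_smul]
    calc (ε * B.trace) • A - G.trace • A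
        = ((ε * B.trace) • A - (G.trace • A - G * A)) - G * A := by abel
      _ = G * A - G * A := by rw [← h2]
      _ = 0 := sub_self _
  have h4 : ε * B.trace - G.trace = 0 := (smul_eq_zero.mp h3).resolve_right hA
  rw [← hs]
  exact sub_eq_zero.mp h4

lemma fixed_trace (c : ℤˣ) (g : SL2 F) (a : Multiplicative (M2 F))
    (h : phi (c, pr g) a = a) (ha : a ≠ 1) :
    (((c : ℤ) : F)) * g.1.trace ^ 3 = g.1.trace := by
  have hA : a.toAdd ≠ 0 := fun h0 => ha h0
  have h1 : (c : ℤ) • act g a.toAdd = a.toAdd := congrArg Multiplicative.toAdd h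
  apply trace_rel g ((c : ℤ) : F) ?_ a.toAdd hA
  · show act g a.toAdd = _
    rcases Int.units_eq_one_or c with rfl | rfl
    · simpa using h1
    · have h2 : - act g a.toAdd = a.toAdd := by simpa using h1
      simp only [Units.val_neg, Units.val_one, Int.cast_neg, Int.cast_one, neg_smul, one_smul]
      exact neg_eq_iff_eq_neg.mp h2
  · rcases Int.units_eq_one_or c with rfl | rfl <;> simp

lemma ch (g : SL2 F) : g.1 * g.1 = g.1.trace • g.1 - 1 := by
  have := Cfsg.Agent.H10.cayley_hamilton_two g.1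
  rw [g.2] at this
  simpa using this

lemma pr_sq_of_trace {g : SL2 F} (h : g.1.trace = 0) : pr g ^ 2 = 1 := by
  have h1 : pr g ^ 2 = pr (g * g) := by rw [pow_two]; rfl
  rw [h1, pr_eq_one_iff]
  refine ⟨-1, by ring, ?_⟩
  show g.1 * g.1 = _
  rw [ch, h]
  simp

lemma pr_cube_of_trace {g : SL2 F} (h : g.1.trace ^ 2 = 1) : pr g ^ 3 = 1 := by
  have h1 : pr g ^ 3 = pr (g * g * g) := by rw [pow_succ, pow_two]; rfl
  rw [h1, pr_eq_one_iff]
  refine ⟨-g.1.trace, by rw [neg_sq, h], ?_⟩
  show g.1 * g.1 * g.1 = _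
  rw [ch, Matrix.sub_mul, Matrix.smul_mul, ch, Matrix.one_mul, smul_sub, smul_smul, ← pow_two, h]
  simp only [one_smul, neg_smul]
  abel

variable [Fintype F]

lemma fpf_of (hq : Fintype.card F % 4 = 3) (c : ℤˣ) (g : SL2 F)
    (h2 : pr g ^ 2 ≠ 1) (h3 : pr g ^ 3 ≠ 1 ∨ c = -1) (a : Multiplicative (M2 F))
    (h : phi (c, pr g) a = a) : a = 1 := by
  by_contra ha
  have h1 := fixed_trace c g a h ha
  set t : F := g.1.trace with ht
  rcases Int.units_eq_one_or c with rfl | rfl
  · simp only [Units.val_one, Int.cast_one, one_mul] at h1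
    have h4 : t * (t ^ 2 - 1) = 0 := by linear_combination h1
    rcases mul_eq_zero.mp h4 with h5 | h5
    · exact h2 (pr_sq_of_trace h5)
    · rcases h3 with h3 | h3
      · exact h3 (pr_cube_of_trace (sub_eq_zero.mp h5))
      · exact absurd h3 (by decide)
  · simp only [Units.val_neg, Units.val_one, Int.cast_neg, Int.cast_one, neg_mul, one_mul] at h1
    have h4 : t * (t ^ 2 + 1) = 0 := by linear_combination -h1
    rcases mul_eq_zero.mp h4 with h5 | h5
    · exact h2 (pr_sq_of_trace h5)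
    · have h6 : IsSquare (-1 : F) := ⟨t, by linear_combination -h5⟩
      have h7 := FiniteField.isSquare_neg_one_iff.mp h6
      exact h7 hq

lemma hexp (a : Multiplicative (M2 F)) : a ^ 3 = 1 := by
  have h3 : (3 : F) = 0 := by exact_mod_cast CharP.cast_eq_zero F 3
  have h1 : (3 : ℕ) • a.toAdd = 0 := by
    ext i j
    simp only [Matrix.smul_apply, Matrix.zero_apply, nsmul_eq_mul]
    rw [show ((3 : ℕ) : F) = 3 by norm_num, h3, zero_mul]
  show Multiplicative.ofAdd ((3 : ℕ) • a.toAdd) = 1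
  rw [h1]
  rfl

/-- the group -/
abbrev HH (F : Type) [Field F] [CharP F 3] := Multiplicative (M2 F) ⋊[(phi (F := F))] (ℤˣ × PS2 F)

lemma c_sq (c : ℤˣ) {n : ℕ} (hn : Even n) : c ^ n = 1 := by
  obtain ⟨k, rfl⟩ := hn
  rw [← two_mul, pow_mul, Int.units_sq, one_pow]

lemma up (j : ℕ) (hq : Fintype.card F = 24 * j + 3) (hj : 1 ≤ j) (x : HH F) :
    orderOf x ∣ 6 ∨ orderOf x ∣ 9 ∨ orderOf x ∣ 24 * j + 2 ∨ orderOf x ∣ 12 * j + 2 := by
  have hq4 : Fintype.card F % 4 = 3 := by omega
  obtain ⟨a, c, gb⟩ := x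
  obtain ⟨g, rfl⟩ := pr_surj gb
  by_cases h2 : pr g ^ 2 = 1
  · left
    have hs : ((c, pr g) : ℤˣ × PS2 F) ^ 2 = 1 := by
      apply Prod.ext
      · exact c_sq c (by decide)
      · exact h2
    exact sd_order_dvd phi hexp a _ hs
  by_cases h3 : pr g ^ 3 = 1
  · rcases Int.units_eq_one_or c with rfl | rfl
    · right; left
      have hs : (((1 : ℤˣ), pr g) : ℤˣ × PS2 F) ^ 3 = 1 := by
        apply Prod.ext
        · exact one_pow 3
        · exact h3
      exact sd_order_dvd phi hexp a _ hs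
    · left
      have hs : (((-1 : ℤˣ), pr g) : ℤˣ × PS2 F) ^ 6 = 1 := by
        apply Prod.ext
        · exact c_sq _ (by decide)
        · show pr g ^ 6 = 1
          rw [show (6 : ℕ) = 3 * 2 by norm_num, pow_mul, h3, one_pow]
      apply sd_order_dvd' phi a _ hs
      exact fpf_of hq4 _ g h2 (Or.inr rfl) _ (nrm_fixed phi _ a hs)
  · have h4 : 4 ≤ Fintype.card F := by omega
    have h5 := Cfsg.Agent.H11.SL2T.orders_psl2 (F := F) 3 h4
    have h6 : orderOf (pr g) ∈ Set.range (orderOf : PS2 F → ℕ) := ⟨_, rfl⟩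
    rw [h5] at h6
    have hg : Nat.gcd 2 (Fintype.card F - 1) = 2 := Nat.gcd_eq_left (by omega)
    rw [hg, show (Fintype.card F - 1) / 2 = 12 * j + 1 by omega,
      show (Fintype.card F + 1) / 2 = 12 * j + 2 by omega] at h6
    rcases h6 with h6 | h6 | h6
    · exact absurd (orderOf_dvd_iff_pow_eq_one.mp h6) h3
    · right; right; left
      have hs : ((c, pr g) : ℤˣ × PS2 F) ^ (24 * j + 2) = 1 := by
        apply Prod.ext
        · exact c_sq c ⟨12 * j + 1, by ring⟩
        · show pr g ^ (24 * j + 2) = 1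
          rw [show 24 * j + 2 = (12 * j + 1) * 2 by ring, pow_mul,
            orderOf_dvd_iff_pow_eq_one.mp h6, one_pow]
      apply sd_order_dvd' phi a _ hs
      exact fpf_of hq4 _ g h2 (Or.inl h3) _ (nrm_fixed phi _ a hs)
    · right; right; right
      have hs : ((c, pr g) : ℤˣ × PS2 F) ^ (12 * j + 2) = 1 := by
        apply Prod.ext
        · exact c_sq c ⟨6 * j + 1, by ring⟩
        · exact orderOf_dvd_iff_pow_eq_one.mp h6
      apply sd_order_dvd' phi a _ hs
      exact fpf_of hq4 _ g h2 (Or.inl h3) _ (nrm_fixed phi _ a hs)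

lemma order_inr (s : ℤˣ × PS2 F) :
    orderOf (SemidirectProduct.inr s : HH F) = orderOf s :=
  orderOf_injective SemidirectProduct.inr SemidirectProduct.inr_injective s

lemma order_neg_one : orderOf (-1 : ℤˣ) = 2 :=
  orderOf_eq_prime (by decide) (by decide)

lemma low (j : ℕ) (hq : Fintype.card F = 24 * j + 3) (hj : 1 ≤ j) :
    (6 ∈ Set.range (orderOf : HH F → ℕ)) ∧ (24 * j + 2 ∈ Set.range (orderOf : HH F → ℕ)) ∧
      (12 * j + 2 ∈ Set.range (orderOf : HH F → ℕ)) := by
  have h4 : 4 ≤ Fintype.card F := by omega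
  have h5 := Cfsg.Agent.H11.SL2T.orders_psl2 (F := F) 3 h4
  have hg : Nat.gcd 2 (Fintype.card F - 1) = 2 := Nat.gcd_eq_left (by omega)
  rw [hg, show (Fintype.card F - 1) / 2 = 12 * j + 1 by omega,
    show (Fintype.card F + 1) / 2 = 12 * j + 2 by omega] at h5
  have e3 : 3 ∈ Set.range (orderOf : PS2 F → ℕ) := by rw [h5]; exact Or.inl dvd_rfl
  have e1 : 12 * j + 1 ∈ Set.range (orderOf : PS2 F → ℕ) := by rw [h5]; exact Or.inr (Or.inl dvd_rfl)
  have e2 : 12 * j + 2 ∈ Set.range (orderOf : PS2 F → ℕ) := by rw [h5]; exact Or.inr (Or.inr dvd_rfl)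
  obtain ⟨g3, hg3⟩ := e3
  obtain ⟨g1, hg1⟩ := e1
  obtain ⟨g2, hg2⟩ := e2
  refine ⟨⟨SemidirectProduct.inr ((-1 : ℤˣ), g3), ?_⟩, ⟨SemidirectProduct.inr ((-1 : ℤˣ), g1), ?_⟩,
    ⟨SemidirectProduct.inr ((1 : ℤˣ), g2), ?_⟩⟩
  · rw [order_inr, Prod.orderOf]
    show Nat.lcm (orderOf (-1 : ℤˣ)) (orderOf g3) = 6
    rw [order_neg_one, hg3]
    rfl
  · rw [order_inr, Prod.orderOf]
    show Nat.lcm (orderOf (-1 : ℤˣ)) (orderOf g1) = _
    rw [order_neg_one, hg1]
    have hc : Nat.Coprime 2 (12 * j + 1) := (Nat.Prime.coprime_iff_not_dvd Nat.prime_two).2 (by omega)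
    rw [hc.lcm_eq_mul]
    ring
  · rw [order_inr, Prod.orderOf]
    show Nat.lcm (orderOf (1 : ℤˣ)) (orderOf g2) = _
    rw [orderOf_one, hg2]
    simp

lemma T_apply (A : M2 F) : act (uS 1) A =
    !![A 0 0 + A 0 1 + A 1 0 + A 1 1, A 0 1 + A 1 1; A 1 0 + A 1 1, A 1 1] := by
  ext i j
  fin_cases i <;> fin_cases j <;>
    simp [act, uS, tw, Matrix.mul_apply, Fin.sum_univ_two, frobenius_def, Matrix.vecMul, dotProduct] <;> ring

lemma low9 : 9 ∈ Set.range (orderOf : HH F → ℕ) := by
  set E : M2 F := !![0, 0; 0, 1] with hE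
  set s : ℤˣ × PS2 F := ((1 : ℤˣ), pr (uS 1)) with hs
  have h3 : (3 : F) = 0 := by exact_mod_cast CharP.cast_eq_zero F 3
  have hu3 : pr (uS (1 : F)) ^ 3 = 1 := by
    have h1 : pr (uS (1 : F)) ^ 3 = pr (uS 1 * uS 1 * uS 1) := by rw [pow_succ, pow_two]; rfl
    have h2 : uS (1 : F) * uS 1 * uS 1 = 1 := by
      apply Subtype.ext
      show (!![1, 1; 0, 1] : M2 F) * !![1, 1; 0, 1] * !![1, 1; 0, 1] = 1
      rw [Matrix.mul_fin_two, Matrix.mul_fin_two]
      ext i j
      fin_cases i <;> fin_cases j <;> simp <;> linear_combination h3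
    rw [h1, h2]
    rfl
  have hs3 : s ^ 3 = 1 := by
    apply Prod.ext
    · exact one_pow 3
    · exact hu3
  refine ⟨⟨Multiplicative.ofAdd E, s⟩, ?_⟩
  have h9 := orderOf_eq_prime_pow (p := 3) (n := 1) (x := (⟨Multiplicative.ofAdd E, s⟩ : HH F))
  rw [show (3 : ℕ) ^ (1 + 1) = 9 by norm_num, show (3 : ℕ) ^ 1 = 3 by norm_num] at h9
  apply h9
  · intro h
    rw [sd_pow] at h
    have h1 := congrArg SemidirectProduct.left h
    have h2 : nrm phi s (Multiplicative.ofAdd E) 3 = 1 := h1
    have e1 : phi s (Multiplicative.ofAdd E) = Multiplicative.ofAdd (act (uS 1) E) := by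
      rw [hs, phi_apply]
      simp
    have e2 : phi (s * s) (Multiplicative.ofAdd E)
        = Multiplicative.ofAdd (act (uS 1) (act (uS 1) E)) := by
      rw [map_mul, MulAut.mul_apply, e1, hs, phi_apply]
      simp
    have h4 : E + act (uS 1) E + act (uS 1) (act (uS 1) E) = 0 := by
      have h5 : nrm phi s (Multiplicative.ofAdd E) 3 = Multiplicative.ofAdd E
          * Multiplicative.ofAdd (act (uS 1) E)
          * Multiplicative.ofAdd (act (uS 1) (act (uS 1) E)) := by
        simp only [nrm, Finset.prod_range_succ, Finset.prod_range_zero, one_mul, pow_zero,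
          map_one, MulAut.one_apply, pow_one, e1, pow_two, e2]
      rw [h5] at h2
      exact h2
    have h6 := congrFun (congrFun h4 0) 0
    simp [T_apply, hE] at h6
    have h7 : (1 : F) = 0 := by linear_combination 2 * h3 - h6
    exact one_ne_zero h7
  · have := sd_order_dvd phi hexp (Multiplicative.ofAdd E) s hs3
    exact orderOf_dvd_iff_pow_eq_one.mp this

end

lemma final (S : Set ℕ) (j : ℕ) (hj : 1 ≤ j)
    (h0 : ∀ n ∈ S, n ∣ 6 ∨ n ∣ 9 ∨ n ∣ 24 * j + 2 ∨ n ∣ 12 * j + 2)
    (h6 : 6 ∈ S) (h9 : 9 ∈ S) (ha : 24 * j + 2 ∈ S) (hb : 12 * j + 2 ∈ S) :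
    {n | n ∈ S ∧ ∀ m ∈ S, n ∣ m → m = n} = ({6, 9, 24 * j + 2, 12 * j + 2} : Set ℕ) := by
  have key : ∀ n ∈ ({6, 9, 24 * j + 2, 12 * j + 2} : Set ℕ),
      ∀ d ∈ ({6, 9, 24 * j + 2, 12 * j + 2} : Set ℕ), n ∣ d → n = d := by
    have b1 : ¬ (24 * j + 2 ∣ 12 * j + 2) := fun h => by
      have := Nat.le_of_dvd (by omega) h
      omega
    have b2 : ¬ (12 * j + 2 ∣ 24 * j + 2) := fun h => by
      obtain ⟨c, hc⟩ := h
      rcases c with _ | _ | c
      · omega
      · omega
      · nlinarith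
    have b3 : ¬ (24 * j + 2 ∣ 6) := fun h => by
      have := Nat.le_of_dvd (by omega) h
      omega
    have b4 : ¬ (24 * j + 2 ∣ 9) := fun h => by
      have := Nat.le_of_dvd (by omega) h
      omega
    have b5 : ¬ (12 * j + 2 ∣ 6) := fun h => by
      have := Nat.le_of_dvd (by omega) h
      omega
    have b6 : ¬ (12 * j + 2 ∣ 9) := fun h => by
      have := Nat.le_of_dvd (by omega) h
      omega
    intro n hn d hd hnd
    simp only [Set.mem_insert_iff, Set.mem_singleton_iff] at hn hd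
    rcases hn with rfl | rfl | rfl | rfl <;> rcases hd with rfl | rfl | rfl | rfl <;>
      first
      | rfl
      | omega
      | exact absurd hnd b1
      | exact absurd hnd b2
      | exact absurd hnd b3
      | exact absurd hnd b4
      | exact absurd hnd b5
      | exact absurd hnd b6
  have hS : ∀ d ∈ ({6, 9, 24 * j + 2, 12 * j + 2} : Set ℕ), d ∈ S := by
    intro d hd
    simp only [Set.mem_insert_iff, Set.mem_singleton_iff] at hd
    rcases hd with rfl | rfl | rfl | rfl <;> assumption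
  have hcov : ∀ n ∈ S, ∃ d ∈ ({6, 9, 24 * j + 2, 12 * j + 2} : Set ℕ), n ∣ d := by
    intro n hn
    rcases h0 n hn with h | h | h | h
    · exact ⟨6, by simp, h⟩
    · exact ⟨9, by simp, h⟩
    · exact ⟨24 * j + 2, by simp, h⟩
    · exact ⟨12 * j + 2, by simp, h⟩
  ext n
  constructor
  · rintro ⟨hn, hmax⟩
    obtain ⟨d, hd, hnd⟩ := hcov n hn
    have := hmax d (hS d hd) hnd
    rwa [← this]
  · intro hn
    refine ⟨hS n hn, fun m hm hnm => ?_⟩
    obtain ⟨d, hd, hmd⟩ := hcov m hm
    have h1 := key n hn d hd (hnm.trans hmd)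
    subst h1
    exact Nat.dvd_antisymm hmd hnm

lemma q_form (α : ℕ) (hα : 3 ≤ α) (hodd : Odd α) : ∃ j, 1 ≤ j ∧ 3 ^ α = 24 * j + 3 := by
  obtain ⟨m, rfl⟩ := hodd
  have hm : 1 ≤ m := by omega
  have h1 : ∀ k : ℕ, ∃ i, 9 ^ k = 8 * i + 1 := by
    intro k
    induction k with
    | zero => exact ⟨0, by norm_num⟩
    | succ k ih =>
      obtain ⟨i, hi⟩ := ih
      exact ⟨9 * i + 1, by rw [pow_succ, hi]; ring⟩
  obtain ⟨i, hi⟩ := h1 m
  have h2 : 9 ≤ 9 ^ m := by
    calc 9 = 9 ^ 1 := by norm_num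
      _ ≤ 9 ^ m := Nat.pow_le_pow_right (by norm_num) hm
  refine ⟨i, by omega, ?_⟩
  rw [pow_succ, pow_mul, show (3 : ℕ) ^ 2 = 9 by norm_num, hi]
  ring

/-- Let q = 3^α with α ≥ 3 odd. There is a finite group H having a non-trivial normal 3-subgroup and whose element orders maximal under divisibility are exactly 6, 9, q − 1 and (q + 1)/2. -/
theorem result (α : ℕ) (hα : 3 ≤ α) (hodd : Odd α) :
    ∃ (H : Type) (_ : Group H) (_ : Fintype H), (∃ P : Subgroup H, P.Normal ∧ P ≠ ⊥ ∧ IsPGroup 3 ↥P) ∧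
      {n : ℕ | n ∈ Set.range (orderOf : H → ℕ) ∧ ∀ m ∈ Set.range (orderOf : H → ℕ), n ∣ m → m = n} = ({6, 9, 3 ^ α - 1, (3 ^ α + 1) / 2} : Set ℕ) := by
  obtain ⟨j, hj, hq0⟩ := q_form α hα hodd
  let F := GaloisField 3 α
  haveI : Fact (Nat.Prime 3) := ⟨Nat.prime_three⟩
  haveI : Finite F := inferInstance
  letI : Fintype F := Fintype.ofFinite F
  have hcard : Fintype.card F = 24 * j + 3 := by
    rw [← hq0, ← Nat.card_eq_fintype_card]
    exact GaloisField.card 3 α (by omega)
  haveI : CharP F 3 := inferInstance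
  haveI hfin : Finite (HH F) := Finite.of_equiv _ (SemidirectProduct.equivProd).symm
  refine ⟨HH F, inferInstance, Fintype.ofFinite _, ?_, ?_⟩
  · refine ⟨SemidirectProduct.rightHom.ker, inferInstance, ?_, ?_⟩
    · intro h
      have h1 : (SemidirectProduct.inl (Multiplicative.ofAdd (1 : M2 F)) : HH F)
          ∈ (SemidirectProduct.rightHom : HH F →* _).ker := by
        rw [MonoidHom.mem_ker]
        exact SemidirectProduct.rightHom_inl _
      rw [h, Subgroup.mem_bot] at h1
      have h2 := congrArg SemidirectProduct.left h1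
      have h3 : (1 : M2 F) = 0 := h2
      exact one_ne_zero h3
    · intro x
      refine ⟨1, ?_⟩
      apply Subtype.ext
      obtain ⟨x, hx⟩ := x
      have hx1 : x.right = 1 := hx
      have h1 : orderOf x ∣ 1 * 3 := by
        obtain ⟨a, s⟩ := x
        have hx2 : s = 1 := hx1
        subst hx2
        exact sd_order_dvd phi hexp a 1 (one_pow 1)
      have h2 := orderOf_dvd_iff_pow_eq_one.mp h1
      simpa using h2
  · have h := final (Set.range (orderOf : HH F → ℕ)) j hj
      (by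
        rintro n ⟨x, rfl⟩
        exact up j hcard hj x)
      (low j hcard hj).1 low9 (low j hcard hj).2.1 (low j hcard hj).2.2
    rw [h, hq0, show 24 * j + 3 - 1 = 24 * j + 2 by omega, show (24 * j + 3 + 1) / 2 = 12 * j + 2 by omega]

end Cfsg.Agent.S2515
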