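import Mathlib
import Cfsg.Statements.S2516

set_option autoImplicit false
open Cfsg

namespace Cfsg.Agent.S2516

theorem result {F : Type*} [Field F] (p : ℕ) [Fact p.Prime] [CharP F p] {V : Type*} [AddCommGroup V] [Module F V] [FiniteDimensional F V] [Nontrivial V]
    {G : Type*} [Group G] [Finite G] (ρ : Representation F G V) (g : G) :
    (∃ x : Multiplicative V ⋊[(MulAutMultiplicative V).symm.toMonoidHom.comp
        ((DistribMulAction.toAddAut ((V →ₗ[F] V)ˣ) V).comp ρ.asGroupHom)] G,
        x.right = g ∧ orderOf x = p * orderOf g) ↔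
      ¬ (minpoly F (ρ g) ∣ ∑ i ∈ Finset.range (orderOf g), (Polynomial.X : Polynomial F) ^ i) := by
  classical
  set φ : G →* MulAut (Multiplicative V) := (MulAutMultiplicative V).symm.toMonoidHom.comp
        ((DistribMulAction.toAddAut ((V →ₗ[F] V)ˣ) V).comp ρ.asGroupHom) with hφ
  have hφapp : ∀ (h : G) (v : V), φ h (Multiplicative.ofAdd v) = Multiplicative.ofAdd (ρ h v) := by
    intro h v
    rfl
  set k := orderOf g with hk
  have hkpos : 0 < k := orderOf_pos g
  have hp : p.Prime := Fact.out
  -- powers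
  have hpow : ∀ (v : V) (n : ℕ), ((⟨Multiplicative.ofAdd v, g⟩ : Multiplicative V ⋊[φ] G) ^ n) =
      ⟨Multiplicative.ofAdd (∑ i ∈ Finset.range n, ρ (g ^ i) v), g ^ n⟩ := by
    intro v n
    induction n with
    | zero =>
      simp
    | succ n ih =>
      rw [pow_succ, ih]
      apply SemidirectProduct.ext
      · simp only [SemidirectProduct.mul_left, hφapp, Finset.sum_range_succ]
        rfl
      · show g ^ n * g = g ^ (n + 1)
        rw [pow_succ]
  set N : V →ₗ[F] V := ∑ i ∈ Finset.range k, (ρ g) ^ i with hN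
  have hNapp : ∀ v, (∑ i ∈ Finset.range k, ρ (g ^ i) v) = N v := by
    intro v
    simp [hN, LinearMap.sum_apply, map_pow]
  have hN0 : N = Polynomial.aeval (ρ g) (∑ i ∈ Finset.range k, (Polynomial.X : Polynomial F) ^ i) := by
    simp [hN, map_sum]
  have hiff : (minpoly F (ρ g) ∣ ∑ i ∈ Finset.range k, (Polynomial.X : Polynomial F) ^ i) ↔ N = 0 := by
    rw [hN0]
    constructor
    · intro h
      obtain ⟨c, hc⟩ := h
      rw [hc, map_mul, minpoly.aeval, zero_mul]
    · exact minpoly.dvd F (ρ g)
  rw [hiff]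
  have hxk : ∀ v : V, ((⟨Multiplicative.ofAdd v, g⟩ : Multiplicative V ⋊[φ] G) ^ k) =
      ⟨Multiplicative.ofAdd (N v), 1⟩ := by
    intro v
    rw [hpow, hNapp, hk, pow_orderOf_eq_one]
  have hxkp : ∀ (w : V) (n : ℕ), ((⟨Multiplicative.ofAdd w, (1 : G)⟩ : Multiplicative V ⋊[φ] G) ^ n) =
      ⟨Multiplicative.ofAdd (n • w), 1⟩ := by
    intro w n
    induction n with
    | zero =>
      simp
    | succ n ih =>
      rw [pow_succ, ih]
      apply SemidirectProduct.ext
      · simp only [SemidirectProduct.mul_left, map_one, MulAut.one_apply]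
        rw [succ_nsmul]
        rfl
      · show (1 : G) * 1 = 1
        rw [one_mul]
  have hpw : ∀ w : V, p • w = 0 := by
    intro w
    have : ((p : ℕ) : F) = 0 := CharP.cast_eq_zero F p
    rw [← Nat.cast_smul_eq_nsmul F, this, zero_smul]
  have hright : ∀ x : Multiplicative V ⋊[φ] G, orderOf x.right ∣ orderOf x := by
    intro x
    exact orderOf_map_dvd (SemidirectProduct.rightHom (φ := φ)) x
  constructor
  · rintro ⟨x, hxg, hxo⟩ hN00
    obtain ⟨a, b⟩ := x
    simp only at hxg
    subst hxg
    have hx1 : ((⟨a, b⟩ : Multiplicative V ⋊[φ] G) ^ k) = 1 := by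
      have := hxk (Multiplicative.toAdd a)
      rw [show Multiplicative.ofAdd (Multiplicative.toAdd a) = a from rfl] at this
      rw [this, hN00]
      rfl
    have h1 := orderOf_dvd_of_pow_eq_one hx1
    rw [hxo] at h1
    have h2 : p * k ≤ k := Nat.le_of_dvd hkpos h1
    have h3 := hp.two_le
    nlinarith
  · intro hN00
    obtain ⟨v, hv⟩ : ∃ v, N v ≠ 0 := by
      by_contra hcon
      push Not at hcon
      exact hN00 (LinearMap.ext hcon)
    refine ⟨⟨Multiplicative.ofAdd v, g⟩, rfl, ?_⟩
    set x : Multiplicative V ⋊[φ] G := ⟨Multiplicative.ofAdd v, g⟩ with hx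
    have hone : x ^ (p * k) = 1 := by
      rw [mul_comm, pow_mul, hxk, hxkp, hpw]
      rfl
    have hne : x ^ k ≠ 1 := by
      rw [hxk]
      intro h
      have := congrArg (fun y => y.left) h
      exact hv this
    have hd1 : k ∣ orderOf x := hright x
    have hd2 : orderOf x ∣ p * k := orderOf_dvd_of_pow_eq_one hone
    obtain ⟨t, ht⟩ := hd1
    have htp : t ∣ p := by
      rw [ht, mul_comm k t] at hd2
      exact Nat.dvd_of_mul_dvd_mul_right hkpos hd2
    rcases (Nat.dvd_prime hp).1 htp with h | h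
    · exfalso
      apply hne
      have : orderOf x = k := by rw [ht, h, mul_one]
      rw [← this, pow_orderOf_eq_one]
    · rw [ht, h, mul_comm]

end Cfsg.Agent.S2516
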