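import Cfsg.Statements.S2518
import Cfsg.Agent.Lib.H16.G23.Final

set_option autoImplicit false
open Cfsg

namespace Cfsg.Agent.S2518

/-- Let F₃ be the field with 3 elements and F₁₃ the field with 13 elements. The Chevalley group G₂(F₃) and PSL(2, F₁₃) have the same prime graph: the same prime divisors of their orders, and for distinct primes r, s an element of order rs in one iff in the other. -/
theorem result {F : Type*} [Field F] [Fintype F] (hF : Fintype.card F = 3) {E : Type*} [Field E] [Fintype E] (hE : Fintype.card E = 13) :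
    ((∀ r : ℕ, r.Prime → (r ∣ Nat.card ↥(Cfsg.Lie.chevG2.group F) ↔ r ∣ Nat.card (Matrix.ProjectiveSpecialLinearGroup (Fin 2) E))) ∧
      (∀ r s : ℕ, r.Prime → s.Prime → r ≠ s → ((∃ x : ↥(Cfsg.Lie.chevG2.group F), orderOf x = r * s) ↔ (∃ y : (Matrix.ProjectiveSpecialLinearGroup (Fin 2) E), orderOf y = r * s)))) := by
    classical
    have hp3 : Nat.Prime 3 := by norm_num
    obtain ⟨e⟩ := Cfsg.Agent.H01.ChevT.group_equiv Cfsg.Lie.chevG2 (ZMod.ringEquivOfPrime F hp3 hF).symm
    have hcard : Nat.card ↥(Cfsg.Lie.chevG2.group F) = 4245696 := by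
      rw [Nat.card_congr e.toEquiv]
      exact Cfsg.Agent.H16.G23.card_GG
    have hL := Cfsg.Agent.H16.G23.psl13_card hE
    refine ⟨?_, ?_⟩
    · intro r hr
      rw [hcard, hL]
      constructor
      · intro h
        rcases Cfsg.Agent.H16.G23.prime_cases_G hr h with rfl | rfl | rfl | rfl <;> norm_num
      · intro h
        rcases Cfsg.Agent.H16.G23.prime_cases_L hr h with rfl | rfl | rfl | rfl <;> norm_num
    · intro r s hr hs hrs
      constructor
      · rintro ⟨x, hx⟩
        have h6 := Cfsg.Agent.H16.G23.order_GG_of_primes hr hs hrs (e x) (by rw [MulEquiv.orderOf_eq, hx])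
        rw [h6]
        exact Cfsg.Agent.H16.G23.psl13_exists hE
      · rintro ⟨y, hy⟩
        have h6 := Cfsg.Agent.H16.G23.order_PSL_of_primes hE hr hs hrs y hy
        rw [h6]
        exact ⟨e.symm Cfsg.Agent.H16.G23.x6G, by rw [MulEquiv.orderOf_eq, Cfsg.Agent.H16.G23.order_x6]⟩

end Cfsg.Agent.S2518
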