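import Mathlib
import Cfsg.Statements.S2521

set_option autoImplicit false
open Cfsg

namespace Cfsg.Agent.S2521

/-- Let B be a finite group that is the semidirect product of a nilpotent normal subgroup U by an abelian subgroup T (U ∩ T = 1, UT = B), and let t ∈ T have centralizer exactly T. Then every element of the coset tU is conjugate to t in B: for each u ∈ U there is b ∈ B with b t b⁻¹ = t u. -/
theorem result {B : Type*} [Group B] [Finite B] (U T : Subgroup B) [U.Normal] (hU : Group.IsNilpotent ↥U) (hT : IsMulCommutative ↥T)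
    (hcompl : Subgroup.IsComplement' U T) (t : B) (ht : t ∈ T) (hreg : Subgroup.centralizer ({t} : Set B) = T) (u : B) (hu : u ∈ U) :
    ∃ b : B, b * t * b⁻¹ = t * u := by
  classical
  have hdisj : U ⊓ T = ⊥ := hcompl.disjoint.eq_bot
  -- the map `v ↦ t⁻¹ v t v⁻¹` on `U`
  let φ : U → U := fun v => ⟨t⁻¹ * (v : B) * t * (v : B)⁻¹, by
    have h1 : t⁻¹ * (v : B) * t ∈ U := by
      have := (inferInstance : U.Normal).conj_mem (v : B) v.2 t⁻¹
      simpa [mul_assoc] using this
    exact U.mul_mem h1 (U.inv_mem v.2)⟩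
  have hinj : Function.Injective φ := by
    intro v w h
    have h' : t⁻¹ * (v : B) * t * (v : B)⁻¹ = t⁻¹ * (w : B) * t * (w : B)⁻¹ := congrArg Subtype.val h
    have h2 : (v : B) * t * (v : B)⁻¹ = (w : B) * t * (w : B)⁻¹ := by
      have := congrArg (fun x => t * x) h'
      simpa [mul_assoc] using this
    have h3 : (w : B)⁻¹ * (v : B) ∈ Subgroup.centralizer ({t} : Set B) := by
      rw [Subgroup.mem_centralizer_iff]
      intro x hx
      rw [Set.mem_singleton_iff] at hx
      subst hx
      have : (w : B)⁻¹ * ((v : B) * x * (v : B)⁻¹) * (v : B) = (w : B)⁻¹ * ((w : B) * x * (w : B)⁻¹) * (v : B) := by rw [h2]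
      have e1 : (w : B)⁻¹ * ((v : B) * x * (v : B)⁻¹) * (v : B) = (w : B)⁻¹ * (v : B) * x := by group
      have e2 : (w : B)⁻¹ * ((w : B) * x * (w : B)⁻¹) * (v : B) = x * (w : B)⁻¹ * (v : B) := by group
      rw [e1, e2] at this
      rw [this, mul_assoc]
    rw [hreg] at h3
    have h4 : (w : B)⁻¹ * (v : B) ∈ U := U.mul_mem (U.inv_mem w.2) v.2
    have h5 : (w : B)⁻¹ * (v : B) ∈ U ⊓ T := ⟨h4, h3⟩
    rw [hdisj, Subgroup.mem_bot] at h5
    apply Subtype.ext
    have : (v : B) = w := by
      have := congrArg (fun x => (w : B) * x) h5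
      simpa using this
    exact this
  have hsurj : Function.Surjective φ := Finite.surjective_of_injective hinj
  obtain ⟨v, hv⟩ := hsurj ⟨u, hu⟩
  refine ⟨v, ?_⟩
  have hv' : t⁻¹ * (v : B) * t * (v : B)⁻¹ = u := congrArg Subtype.val hv
  rw [← hv']
  group

end Cfsg.Agent.S2521
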