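import Cfsg.Statements.S2522
import Cfsg.Agent.Lib.H11.Gow5

set_option autoImplicit false
open Cfsg

namespace Cfsg.Agent.S2522

/-- Let K be a field with at least four elements (finite or infinite), n ≥ 3, and J ∈ GL(n, K) the regular unipotent matrix (ones on the diagonal and the superdiagonal, zeros elsewhere). Then every non-scalar g ∈ GL(n, K) with det g = 1 is a product of two GL(n, K)-conjugates of J. -/
theorem result {K : Type*} [Field K] (hK : 4 ≤ Cardinal.mk K) (n : ℕ) (hn : 3 ≤ n) (J g : GL (Fin n) K)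
    (hJ : ∀ i j : Fin n, (J : Matrix (Fin n) (Fin n) K) i j = if i = j then 1 else if j.val = i.val + 1 then 1 else 0)
    (hg : ¬ ∃ c : K, (g : Matrix (Fin n) (Fin n) K) = c • (1 : Matrix (Fin n) (Fin n) K))
    (hdet : (g : Matrix (Fin n) (Fin n) K).det = 1) :
    ∃ x y : GL (Fin n) K, g = (x * J * x⁻¹) * (y * J * y⁻¹) := by
  classical
  obtain ⟨T, hT⟩ := Cardinal.exists_finset_le_card K 4 (by exact_mod_cast hK)
  have hns : ∀ c : K, (Matrix.toLin' (g : Matrix (Fin n) (Fin n) K) : Module.End K (Fin n → K)) ≠ c • 1 := by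
    intro c hc
    apply hg
    refine ⟨c, ?_⟩
    apply Matrix.toLin'.injective
    rw [hc]
    ext1 x
    ext i
    simp [Matrix.toLin'_apply, Matrix.smul_mulVec]
  by_cases hr : 2 ≤ Module.finrank K (LinearMap.range ((Matrix.toLin' (g : Matrix (Fin n) (Fin n) K) : Module.End K (Fin n → K)) - 1))
  · exact Cfsg.Agent.H11.Gow.rf_case T hT hn g J hJ ⟨hns, hr⟩ hdet
  · exact Cfsg.Agent.H11.Gow.tr_case T hT hn g J hJ hns (by omega) hdet

end Cfsg.Agent.S2522
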