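import Cfsg.Statements.S2896
import Cfsg.Agent.Lib.H13.CharP2

set_option autoImplicit false
open Cfsg

namespace Cfsg.Agent.S2896

open Cfsg.Agent.H13

variable {G : Type*} [Group G] [Finite G] {p : ℕ} [Fact p.Prime]

/-- Let p be a prime dividing the order of the finite group G, S a Sylow p-subgroup of G and X a subgroup of S. (i) If some nontrivial element z of the centre of X has F*(C_G(z)) = O_p(C_G(z)), then F*(N_G(X)) = O_p(N_G(X)). (ii) G has parabolic characteristic p if and only if F*(C_G(z)) = O_p(C_G(z)) for every nontrivial z ∈ Ω₁(Z(S)). (iii) If F*(C_G(z)) = O_p(C_G(z)) for every element z of S of order p, then G has local characteristic p. -/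
theorem result {G : Type*} [Group G] [Finite G] {p : ℕ} [Fact p.Prime] (hdiv : p ∣ Nat.card G) (S : Sylow p G) (X : Subgroup G) (hX : X ≤ (S : Subgroup G)) : (∀ z : G, z ≠ 1 → z ∈ X → (∀ x ∈ X, x * z = z * x) → Cfsg.generalizedFittingSubgroup ↥(Subgroup.centralizer ({z} : Set G)) = Cfsg.pCore p ↥(Subgroup.centralizer ({z} : Set G)) → Cfsg.generalizedFittingSubgroup ↥(Subgroup.normalizer (X : Set G)) = Cfsg.pCore p ↥(Subgroup.normalizer (X : Set G))) ∧ (Cfsg.IsOfParabolicCharacteristic p G ↔ ∀ z : G, z ≠ 1 → z ∈ Cfsg.omegaOne p ((S : Subgroup G) ⊓ Subgroup.centralizer ((S : Subgroup G) : Set G)) → Cfsg.generalizedFittingSubgroup ↥(Subgroup.centralizer ({z} : Set G)) = Cfsg.pCore p ↥(Subgroup.centralizer ({z} : Set G))) ∧ ((∀ z : G, z ∈ (S : Subgroup G) → orderOf z = p → Cfsg.generalizedFittingSubgroup ↥(Subgroup.centralizer ({z} : Set G)) = Cfsg.pCore p ↥(Subgroup.centralizer ({z} : Set G))) → Cfsg.IsOfLocalCharacteristic p G) := by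
  have hpp : p.Prime := Fact.out
  refine ⟨?_, ?_, ?_⟩
  · intro z _ hzX hc hF
    exact fstar_eq_pCore_iff.mpr (isCharP_normalizer_of_central (fstar_eq_pCore_iff.mp hF)
      (S.2.to_le hX) hzX hc)
  · constructor
    · intro hG z hz1 hz
      obtain ⟨hzZ, hzp⟩ := mem_omegaOne_of_comm (center_comm _) hz
      have hzo : orderOf z = p := orderOf_eq_prime hzp hz1
      have hzpg : IsPGroup p (Subgroup.zpowers z) := by
        apply IsPGroup.of_card (n := 1)
        rw [Nat.card_zpowers, hzo, pow_one]
      have hz1' : Subgroup.zpowers z ≠ ⊥ := by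
        intro h0
        rw [Subgroup.zpowers_eq_bot] at h0
        exact hz1 h0
      have hpar : IsParabolic p (Subgroup.normalizer ((Subgroup.zpowers z : Subgroup G) : Set G)) := by
        refine ⟨S, fun s hs => ?_⟩
        apply centralizer_le_normalizer_of_le
        rw [Subgroup.mem_centralizer_iff]
        intro w hw
        obtain ⟨k, rfl⟩ := hw
        have hzc : z ∈ Subgroup.centralizer ((S : Subgroup G) : Set G) := hzZ.2
        have h2 : Commute s z := Subgroup.mem_centralizer_iff.mp hzc s hs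
        exact (h2.symm.zpow_left k)
      have h3 := hG _ hzpg hz1' hpar
      exact fstar_eq_pCore_iff.mpr (isCharP_centralizer_of_normalizer h3)
    · intro hz R hRp hR1 ⟨T, hT⟩
      have hRT : R ≤ (T : Subgroup G) := by
        have hsup : IsPGroup p ((T : Subgroup G) ⊔ R : Subgroup G) :=
          IsPGroup.to_sup_of_normal_right' T.2 hRp hT
        exact (T.is_maximal' hsup le_sup_left) ▸ le_sup_right
      have h1 := inf_center_ne_bot_of_pgroup T.2 hRT hR1 hT
      obtain ⟨z', ⟨hz'R, hz'T, hz'C⟩, hz'o⟩ := exists_orderOf_eq_of_pgroup (hRp.to_le inf_le_left) h1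
      replace hz'C : z' ∈ Subgroup.centralizer ((T : Subgroup G) : Set G) := hz'C
      obtain ⟨a, ha⟩ := sylow_conj S T
      -- z = a⁻¹ z' a
      have hzS : a⁻¹ * z' * a ∈ (S : Subgroup G) := by
        have : z' ∈ (S : Subgroup G).map (MulAut.conj a).toMonoidHom := ha ▸ hz'T
        rw [mem_map_conj] at this
        exact this
      have hzC : a⁻¹ * z' * a ∈ Subgroup.centralizer ((S : Subgroup G) : Set G) := by
        rw [Subgroup.mem_centralizer_iff]
        intro s hs
        have h2 : a * s * a⁻¹ ∈ (T : Subgroup G) := by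
          rw [ha]
          exact conj_mem_map_conj hs
        have h3 := Subgroup.mem_centralizer_iff.mp hz'C _ h2
        calc s * (a⁻¹ * z' * a) = a⁻¹ * ((a * s * a⁻¹) * z') * a := by group
          _ = a⁻¹ * (z' * (a * s * a⁻¹)) * a := by rw [h3]
          _ = _ := by group
      have hzo : orderOf (a⁻¹ * z' * a) = p := by
        have := orderOf_conj_eq a⁻¹ z'
        rwa [inv_inv, hz'o] at this
      have hzmem : a⁻¹ * z' * a ∈ omegaOne p ((S : Subgroup G) ⊓ Subgroup.centralizer ((S : Subgroup G) : Set G)) := by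
        apply Subgroup.subset_closure
        refine ⟨⟨hzS, hzC⟩, ?_⟩
        rw [← hzo]
        exact pow_orderOf_eq_one _
      have hz1 : a⁻¹ * z' * a ≠ 1 := by
        intro h0
        rw [h0, orderOf_one] at hzo
        exact hpp.one_lt.ne hzo
      have h4 := fstar_eq_pCore_iff.mp (hz _ hz1 hzmem)
      have h5 := isCharP_centralizer_conj h4 a
      have h6 : a * (a⁻¹ * z' * a) * a⁻¹ = z' := by group
      rw [h6] at h5
      apply isCharP_normalizer_of_central h5 hRp hz'R
      intro x hx
      exact (Subgroup.mem_centralizer_iff.mp hz'C _ (hRT hx))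
  · intro hz
    refine ⟨hdiv, ?_⟩
    intro T hTp hT1
    obtain ⟨h1, h2, h3⟩ := exists_orderOf_eq_of_pgroup (hTp.to_le inf_le_left) (center_ne_bot_of_pgroup hTp hT1)
    obtain ⟨P, hP⟩ := hTp.exists_le_sylow
    obtain ⟨a, ha⟩ := sylow_conj S P
    have hzS : a⁻¹ * h1 * a ∈ (S : Subgroup G) := by
      have : h1 ∈ (S : Subgroup G).map (MulAut.conj a).toMonoidHom := ha ▸ hP h2.1
      rw [mem_map_conj] at this
      exact this
    have hzo : orderOf (a⁻¹ * h1 * a) = p := by
      have := orderOf_conj_eq a⁻¹ h1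
      rwa [inv_inv, h3] at this
    have h4 := fstar_eq_pCore_iff.mp (hz _ hzS hzo)
    have h5 := isCharP_centralizer_conj h4 a
    have h6 : a * (a⁻¹ * h1 * a) * a⁻¹ = h1 := by group
    rw [h6] at h5
    apply isCharP_normalizer_of_central h5 hTp h2.1
    intro x hx
    have h7 : h1 ∈ Subgroup.centralizer ((T : Subgroup G) : Set G) := h2.2
    exact (Subgroup.mem_centralizer_iff.mp h7 _ hx)

end Cfsg.Agent.S2896
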