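import Cfsg.Statements.S2897
import Cfsg.Agent.Lib.H13.ParChar
import Cfsg.Agent.Lib.H13.Residual

set_option autoImplicit false
open Cfsg

namespace Cfsg.Agent.S2897

open Cfsg.Agent.H13

theorem result {G : Type*} [Group G] [Finite G] {p : ℕ} [Fact p.Prime] (hdiv : p ∣ Nat.card G) (hG : Cfsg.IsOfParabolicCharacteristic p G) (S : Sylow p G) (G₁ : Subgroup G) [G₁.Normal] (hne : Cfsg.omegaOne p (((S : Subgroup G) ⊓ G₁) ⊓ Subgroup.centralizer (((S : Subgroup G) ⊓ G₁ : Subgroup G) : Set G)) ≠ ⊥) (hle : Cfsg.omegaOne p (((S : Subgroup G) ⊓ G₁) ⊓ Subgroup.centralizer (((S : Subgroup G) ⊓ G₁ : Subgroup G) : Set G)) ≤ Cfsg.omegaOne p ((S : Subgroup G) ⊓ Subgroup.centralizer ((S : Subgroup G) : Set G))) : Cfsg.IsOfParabolicCharacteristic p ↥G₁ := by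
  have hpp : p.Prime := Fact.out
  intro R hRp hR1 hpar
  obtain ⟨T', z', hRT, hz'R, hz'T, hz'C, hz'o⟩ := exists_central_of_parabolic hRp hR1 hpar
  obtain ⟨P, hP⟩ := exists_sylow_inf_normal S G₁
  obtain ⟨a, ha⟩ := sylow_conj P T'
  have hz1P : a⁻¹ * z' * a ∈ (P : Subgroup ↥G₁) := by
    have : z' ∈ (P : Subgroup ↥G₁).map (MulAut.conj a).toMonoidHom := ha ▸ hz'T
    rw [mem_map_conj] at this
    exact this
  have hz1C : a⁻¹ * z' * a ∈ Subgroup.centralizer ((P : Subgroup ↥G₁) : Set ↥G₁) := by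
    rw [Subgroup.mem_centralizer_iff]
    intro s hs
    have h2 : a * s * a⁻¹ ∈ (T' : Subgroup ↥G₁) := by
      rw [ha]
      exact conj_mem_map_conj hs
    have h3 := Subgroup.mem_centralizer_iff.mp hz'C _ h2
    calc s * (a⁻¹ * z' * a) = a⁻¹ * ((a * s * a⁻¹) * z') * a := by group
      _ = a⁻¹ * (z' * (a * s * a⁻¹)) * a := by rw [h3]
      _ = _ := by group
  have hzo : orderOf (a⁻¹ * z' * a) = p := by
    have := orderOf_conj_eq a⁻¹ z'
    rwa [inv_inv, hz'o] at this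
  set z₁ : ↥G₁ := a⁻¹ * z' * a with hz₁
  have hz₁S : (z₁ : G) ∈ (S : Subgroup G) ⊓ G₁ := by
    rw [← hP]
    exact ⟨z₁, hz1P, rfl⟩
  have hz₁C : (z₁ : G) ∈ Subgroup.centralizer (((S : Subgroup G) ⊓ G₁ : Subgroup G) : Set G) := by
    rw [Subgroup.mem_centralizer_iff]
    intro s hs
    have hs' : s ∈ (P : Subgroup ↥G₁).map G₁.subtype := by
      rw [hP]
      exact hs
    obtain ⟨u, hu, rfl⟩ := hs'
    exact congrArg Subtype.val (Subgroup.mem_centralizer_iff.mp hz1C u hu)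
  have hz₁o : orderOf (z₁ : G) = p := by
    rw [Subgroup.orderOf_coe]
    exact hzo
  have hmem : (z₁ : G) ∈ Cfsg.omegaOne p (((S : Subgroup G) ⊓ G₁) ⊓ Subgroup.centralizer (((S : Subgroup G) ⊓ G₁ : Subgroup G) : Set G)) := by
    apply Subgroup.subset_closure
    refine ⟨⟨hz₁S, hz₁C⟩, ?_⟩
    rw [← hz₁o]
    exact pow_orderOf_eq_one _
  obtain ⟨hzZ, -⟩ := mem_omegaOne_of_comm (center_comm _) (hle hmem)
  have h1 := isCharP_centralizer_of_parabolic hG S hzZ.2 hz₁o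
  have h2 := isCharP_centralizer_subgroupOf G₁ z₁ h1
  have h3 := isCharP_centralizer_conj h2 a
  have h4 : a * z₁ * a⁻¹ = z' := by rw [hz₁]; group
  rw [h4] at h3
  apply isCharP_normalizer_of_central h3 hRp hz'R
  intro x hx
  exact (Subgroup.mem_centralizer_iff.mp hz'C _ (hRT hx))

end Cfsg.Agent.S2897
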