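import Cfsg.Statements.S2898
import Cfsg.Agent.Lib.H13.ParChar
import Cfsg.Agent.Lib.H13.Residual
import Cfsg.Agent.Lib.H13.StrongP
import Cfsg.Agent.Lib.H06.FittingHall
import Cfsg.Agent.Lib.H08.PCoreL

set_option autoImplicit false
open Cfsg

namespace Cfsg.Agent.S2898

open Cfsg.Agent.H13

section
variable {G : Type*} [Group G] [Finite G]

theorem inverts_of_fpf {K : Subgroup G} [hK : K.Normal] {z : G} (hz : z * z = 1)
    (hfix : ∀ k ∈ K, z * k * z⁻¹ = k → k = 1) :
    (∀ k ∈ K, z * k * z⁻¹ = k⁻¹) ∧ (∀ a ∈ K, ∀ b ∈ K, a * b = b * a) := by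
  let φ : K ≃* K := MulAut.conjNormal z
  have hφ : ∀ g : K, ((φ g : K) : G) = z * g * z⁻¹ := fun g => MulAut.conjNormal_apply z g
  have hfpf : MonoidHom.FixedPointFree φ := by
    intro g hg
    apply Subtype.ext
    apply hfix _ g.2
    rw [← hφ, hg]
  have hinv : Function.Involutive φ := by
    intro g
    apply Subtype.ext
    rw [hφ, hφ]
    have hz' : z⁻¹ = z := inv_eq_of_mul_eq_one_left hz
    calc z * (z * g * z⁻¹) * z⁻¹ = (z * z) * g * (z⁻¹ * z⁻¹) := by group
      _ = (g : G) := by rw [hz', hz]; group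
  refine ⟨?_, ?_⟩
  · intro k hk
    have h1 := congrFun (hfpf.coe_eq_inv_of_involutive hinv) ⟨k, hk⟩
    have h2 := hφ ⟨k, hk⟩
    rw [h1] at h2
    exact h2.symm
  · intro a ha b hb
    exact congrArg Subtype.val (hfpf.commute_all_of_involutive hinv ⟨a, ha⟩ ⟨b, hb⟩)

/-- a group of characteristic `p` of order prime to `p` is trivial. -/
theorem subsingleton_of_isCharP_of_coprime {p : ℕ} [Fact p.Prime] {H : Type*} [Group H] [Finite H]
    (hH : IsCharP p H) (hc : (Nat.card H).Coprime p) : Subsingleton H := by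
  have hpp : p.Prime := Fact.out
  have h1 : pCore p H = ⊥ := by
    obtain ⟨n, hn⟩ := IsPGroup.iff_card.mp (isPGroup_pCore (p := p) (G := H))
    have h2 : Nat.card (pCore p H) ∣ Nat.card H := Subgroup.card_subgroup_dvd_card _
    have h3 : (Nat.card (pCore p H)).Coprime p := Nat.Coprime.coprime_dvd_left h2 hc
    rw [hn] at h3
    have h4 : n = 0 := by
      by_contra h0
      have := Nat.Coprime.eq_one_of_dvd h3.symm (dvd_pow_self p h0)
      exact hpp.one_lt.ne' this
    rw [h4, pow_zero] at hn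
    exact Subgroup.card_eq_one.mp hn
  have hH' : Subgroup.centralizer ((pCore p H : Subgroup H) : Set H) ≤ pCore p H := hH
  rw [h1] at hH'
  refine ⟨fun a b => ?_⟩
  have ha : a ∈ (⊥ : Subgroup H) := hH' (by
    rw [Subgroup.mem_centralizer_iff]
    intro u hu
    rw [Subgroup.coe_bot, Set.mem_singleton_iff] at hu
    rw [hu, one_mul, mul_one])
  have hb : b ∈ (⊥ : Subgroup H) := hH' (by
    rw [Subgroup.mem_centralizer_iff]
    intro u hu
    rw [Subgroup.coe_bot, Set.mem_singleton_iff] at hu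
    rw [hu, one_mul, mul_one])
  rw [Subgroup.mem_bot] at ha hb
  rw [ha, hb]

end

theorem result {G : Type*} [Group G] [Finite G] (h2 : 2 ∣ Nat.card G) (hG : Cfsg.IsOfParabolicCharacteristic 2 G) [hN : (Cfsg.oddCore G).Normal] (hZ : Subgroup.center (G ⧸ Cfsg.oddCore G) = ⊥) : Cfsg.oddCore G = ⊥ := by
  haveI : Fact (Nat.Prime 2) := ⟨Nat.prime_two⟩
  by_contra hK1
  set K := Cfsg.oddCore G with hKdef
  have hKc : (Nat.card K).Coprime 2 := H06.coprime_card_pPrimeCore 2
  obtain ⟨S⟩ : Nonempty (Sylow 2 G) := inferInstance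
  -- elements of K of order dividing two are trivial
  have hK2 : ∀ k ∈ K, k * k = 1 → k = 1 := by
    intro k hk hkk
    by_contra hk1
    have ho : orderOf k = 2 := orderOf_eq_prime (by rwa [pow_two]) hk1
    have h3 : orderOf (⟨k, hk⟩ : K) = 2 := by
      rw [← Subgroup.orderOf_coe]; exact ho
    have h4 : 2 ∣ Nat.card K := by
      rw [← h3]; exact orderOf_dvd_natCard _
    have := Nat.Coprime.eq_one_of_dvd hKc.symm h4
    omega
  -- central involutions invert K
  have hinv : ∀ z : G, z ∈ Subgroup.centralizer ((S : Subgroup G) : Set G) → orderOf z = 2 →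
      (∀ k ∈ K, z * k * z⁻¹ = k⁻¹) ∧ (∀ a ∈ K, ∀ b ∈ K, a * b = b * a) := by
    intro z hzC hzo
    have hzz : z * z = 1 := by
      rw [← pow_two, ← hzo]; exact pow_orderOf_eq_one z
    apply inverts_of_fpf hzz
    intro k hk hzk
    have h1 := isCharP_centralizer_of_parabolic hG S hzC hzo
    have h3 : IsCharP 2 (K ⊓ Subgroup.centralizer ({z} : Set G) : Subgroup G) := by
      apply isCharP_of_le_of_normalizer h1 inf_le_right
      intro c hc
      rw [Subgroup.mem_normalizer_iff]
      intro x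
      have hcx : c * x * c⁻¹ ∈ Subgroup.centralizer ({z} : Set G) ↔ x ∈ Subgroup.centralizer ({z} : Set G) := by
        constructor
        · intro h2
          have h3 := Subgroup.mul_mem _ (Subgroup.mul_mem _ (Subgroup.inv_mem _ hc) h2) hc
          have h4 : c⁻¹ * (c * x * c⁻¹) * c = x := by group
          rwa [h4] at h3
        · intro h2
          exact Subgroup.mul_mem _ (Subgroup.mul_mem _ hc h2) (Subgroup.inv_mem _ hc)
      have hcx' : c * x * c⁻¹ ∈ K ↔ x ∈ K := by
        constructor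
        · intro h2
          have h3 := hN.conj_mem _ h2 c⁻¹
          have h4 : c⁻¹ * (c * x * c⁻¹) * c⁻¹⁻¹ = x := by group
          rwa [h4] at h3
        · intro h2
          exact hN.conj_mem _ h2 c
      simp only [Subgroup.mem_inf, hcx, hcx']
    have h4 : (Nat.card (K ⊓ Subgroup.centralizer ({z} : Set G) : Subgroup G)).Coprime 2 := by
      apply Nat.Coprime.coprime_dvd_left _ hKc
      exact Subgroup.card_dvd_of_le inf_le_left
    have h5 := subsingleton_of_isCharP_of_coprime h3 h4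
    have hkm : k ∈ (K ⊓ Subgroup.centralizer ({z} : Set G) : Subgroup G) := by
      refine ⟨hk, ?_⟩
      show k ∈ Subgroup.centralizer ({z} : Set G)
      rw [Subgroup.mem_centralizer_iff]
      intro w hw
      rw [Set.mem_singleton_iff.mp hw]
      rw [mul_inv_eq_iff_eq_mul] at hzk
      exact hzk
    have h6 := h5.elim (⟨k, hkm⟩ : (K ⊓ Subgroup.centralizer ({z} : Set G) : Subgroup G)) 1
    exact congrArg Subtype.val h6
  -- existence of a central involution inside a normal subgroup of even order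
  have hex : ∀ N : Subgroup G, N.Normal → 2 ∣ Nat.card N →
      ∃ z ∈ N, z ∈ Subgroup.centralizer ((S : Subgroup G) : Set G) ∧ orderOf z = 2 := by
    intro N hNn hdvd
    haveI := hNn
    obtain ⟨P, hP⟩ := exists_sylow_inf_normal S N
    have hP1 : (P : Subgroup N) ≠ ⊥ := sylow_ne_bot_of_dvd hdvd P
    have hne : (S : Subgroup G) ⊓ N ≠ ⊥ := by
      rw [← hP]
      intro h0
      apply hP1
      rw [Subgroup.map_eq_bot_iff_of_injective _ N.subtype_injective] at h0
      exact h0
    have hn : (S : Subgroup G) ≤ Subgroup.normalizer (((S : Subgroup G) ⊓ N : Subgroup G) : Set G) := by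
      intro s hs
      rw [Subgroup.mem_normalizer_iff]
      intro x
      have hcx : s * x * s⁻¹ ∈ (S : Subgroup G) ↔ x ∈ (S : Subgroup G) := by
        constructor
        · intro h2
          have h3 := Subgroup.mul_mem _ (Subgroup.mul_mem _ (Subgroup.inv_mem _ hs) h2) hs
          have h4 : s⁻¹ * (s * x * s⁻¹) * s = x := by group
          rwa [h4] at h3
        · intro h2
          exact Subgroup.mul_mem _ (Subgroup.mul_mem _ hs h2) (Subgroup.inv_mem _ hs)
      have hcx' : s * x * s⁻¹ ∈ N ↔ x ∈ N := by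
        constructor
        · intro h2
          have h3 := hNn.conj_mem _ h2 s⁻¹
          have h4 : s⁻¹ * (s * x * s⁻¹) * s⁻¹⁻¹ = x := by group
          rwa [h4] at h3
        · intro h2
          exact hNn.conj_mem _ h2 s
      simp only [Subgroup.mem_inf, hcx, hcx']
    have h1 := inf_center_ne_bot_of_pgroup S.2 inf_le_left hne hn
    obtain ⟨z, ⟨⟨_, hzN⟩, _, hzC⟩, hzo⟩ := exists_orderOf_eq_of_pgroup (S.2.to_le (inf_le_left.trans inf_le_left)) h1
    exact ⟨z, hzN, hzC, hzo⟩
  haveI hCn : (Subgroup.centralizer (K : Set G)).Normal := inferInstance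
  have hCodd : (Nat.card (Subgroup.centralizer (K : Set G))).Coprime 2 := by
    rw [Nat.coprime_two_right]
    by_contra hodd
    rw [Nat.not_odd_iff_even] at hodd
    obtain ⟨z, hzC', hzC, hzo⟩ := hex _ hCn hodd.two_dvd
    apply hK1
    rw [eq_bot_iff]
    intro k hk
    rw [Subgroup.mem_bot]
    apply hK2 k hk
    have h1 := (hinv z hzC hzo).1 k hk
    have h2 : k * z = z * k := Subgroup.mem_centralizer_iff.mp hzC' k hk
    have h3 : z * k * z⁻¹ = k := by rw [← h2]; group
    rw [h3] at h1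
    nth_rw 1 [h1]
    simp
  have hCK : Subgroup.centralizer (K : Set G) ≤ K := H08.le_pPrimeCore hCn hCodd
  have hdvd : 2 ∣ Nat.card (⊤ : Subgroup G) := by
    rwa [Subgroup.card_top]
  obtain ⟨z, -, hzC, hzo⟩ := hex ⊤ inferInstance hdvd
  have hzz : z * z = 1 := by
    rw [← pow_two, ← hzo]; exact pow_orderOf_eq_one z
  have hzi : z⁻¹ = z := inv_eq_of_mul_eq_one_left hzz
  obtain ⟨hz1, hz2⟩ := hinv z hzC hzo
  have hcomm : ∀ g : G, z⁻¹ * (g * z * g⁻¹) ∈ K := by
    intro g
    apply hCK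
    rw [Subgroup.mem_centralizer_iff]
    intro k hk
    have hk' : g⁻¹ * k * g ∈ K := by
      have := hN.conj_mem k hk g⁻¹
      simpa using this
    have h1 := hz1 _ hk'
    have h3 : (g * z * g⁻¹) * k * (g * z * g⁻¹)⁻¹ = k⁻¹ := by
      calc (g * z * g⁻¹) * k * (g * z * g⁻¹)⁻¹ = g * (z * (g⁻¹ * k * g) * z⁻¹) * g⁻¹ := by group
        _ = k⁻¹ := by rw [h1]; group
    have h4 := hz1 _ (K.inv_mem hk)
    have h5 : z⁻¹ * (g * z * g⁻¹) * k * (z⁻¹ * (g * z * g⁻¹))⁻¹ = k := by
      calc z⁻¹ * (g * z * g⁻¹) * k * (z⁻¹ * (g * z * g⁻¹))⁻¹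
          = z⁻¹ * ((g * z * g⁻¹) * k * (g * z * g⁻¹)⁻¹) * z⁻¹⁻¹ := by group
        _ = z⁻¹ * k⁻¹ * z := by rw [h3, inv_inv]
        _ = z * k⁻¹ * z⁻¹ := by rw [hzi]
        _ = k := by rw [h4, inv_inv]
    rw [mul_inv_eq_iff_eq_mul] at h5
    exact h5.symm
  have hcen : (QuotientGroup.mk z : G ⧸ K) ∈ Subgroup.center (G ⧸ K) := by
    rw [Subgroup.mem_center_iff]
    intro g
    obtain ⟨g, rfl⟩ := QuotientGroup.mk_surjective g
    rw [← QuotientGroup.mk_mul, ← QuotientGroup.mk_mul, QuotientGroup.eq]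
    have h1 := hcomm g
    have h2 : (g * z)⁻¹ * (z * g) = g⁻¹ * (z⁻¹ * (g * z * g⁻¹))⁻¹ * g := by group
    rw [h2]
    have := hN.conj_mem _ (K.inv_mem h1) g⁻¹
    simpa using this
  rw [hZ, Subgroup.mem_bot, QuotientGroup.eq_one_iff] at hcen
  have h0 := hK2 z hcen hzz
  rw [h0, orderOf_one] at hzo
  omega

end Cfsg.Agent.S2898
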