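import Cfsg.Statements.S2904
import Cfsg.Agent.Lib.H13.Zsigmondy

set_option autoImplicit false

open Cfsg

namespace Cfsg.Agent.S2904

theorem result (a n : ℕ) (ha : 1 < a) (hn : 1 < n) (h6 : ¬ (a = 2 ∧ n = 6)) (h2 : ¬ (n = 2 ∧ ∃ m : ℕ, a + 1 = 2 ^ m)) : ∃ r : ℕ, r.Prime ∧ r ∣ a ^ n - 1 ∧ ∀ k : ℕ, 0 < k → k < n → ¬ r ∣ a ^ k - 1 :=
  Cfsg.Agent.H13.Zsig.zsigmondy a n ha hn h6 h2

end Cfsg.Agent.S2904
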