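import Cfsg.Statements.S2905
import Cfsg.Agent.Lib.H13.PMin

set_option autoImplicit false

open Cfsg

namespace Cfsg.Agent.S2905

open Cfsg.Agent.H13

theorem result {P : Type*} [Group P] [Finite P] {p : ℕ} [Fact p.Prime] (hP : Cfsg.IsPMinimal p P) (S : Sylow p P) (M : Subgroup P) (hM : IsCoatom M) (hSM : (S : Subgroup P) ≤ M) [hF : M.normalCore.Normal] : (∀ N : Subgroup P, N.IsSubnormal → N ≤ M → N ⊓ (S : Subgroup P) ≤ Cfsg.pCore p P) ∧ ((∀ T : Sylow p ↥(Cfsg.pResidual p P), (T : Subgroup ↥(Cfsg.pResidual p P)).Normal) → (Nat.card P).primeFactors.card ≤ 2) ∧ (∀ N : Subgroup P, N.Normal → Cfsg.pResidual p P ≤ N ∨ N ≤ M.normalCore) ∧ (∀ N : Subgroup P, N.Normal → M.normalCore ≤ N → N ≤ Cfsg.pResidual p P ⊔ M.normalCore → N = M.normalCore ∨ N = Cfsg.pResidual p P ⊔ M.normalCore) ∧ M.normalCore < Cfsg.pResidual p P ⊔ M.normalCore := by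
  refine ⟨fun N hN hNM => pmin_subnormal_inf_le hP hM hSM hN hNM, pmin_primeFactors hP hM hSM,
    fun N hN => pmin_normal_alt hP hM hSM hN, ?_, pmin_core_lt hP hM hSM⟩
  intro N hN hFN hNle
  rcases pmin_normal_alt hP hM hSM hN with h | h
  · right
    exact le_antisymm hNle (sup_le h hFN)
  · left
    exact le_antisymm h hFN

end Cfsg.Agent.S2905
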