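import Cfsg.Statements.S2906
import Cfsg.Agent.Lib.H13.PMin2

set_option autoImplicit false

open Cfsg

namespace Cfsg.Agent.S2906

open Cfsg.Agent.H13

theorem result {P : Type*} [Group P] [Finite P] {p : ℕ} [Fact p.Prime] (hP : Cfsg.IsPMinimal p P) (hOp : Cfsg.pCore p P = ⊥) (S : Sylow p P) (K : Subgroup P) (hK : Cfsg.IsComponent K) : Cfsg.pResidual p P = Cfsg.generalizedFittingSubgroup P ∧ Cfsg.generalizedFittingSubgroup P = Cfsg.layer P ∧ Cfsg.layer P = ⨆ s : ↥(S : Subgroup P), K.map (MulAut.conj (s : P)).toMonoidHom ∧ Cfsg.IsPMinimal p ↥(K ⊔ ((S : Subgroup P) ⊓ Subgroup.normalizer (K : Set P))) := by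
  obtain ⟨h1, h2, h3⟩ := pmin_layer hP hOp S hK
  exact ⟨h1, h2, h3, pmin_component_isPMinimal hP hOp S hK⟩

end Cfsg.Agent.S2906
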