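import Cfsg.Statements.S2907
import Mathlib

set_option autoImplicit false
open Cfsg

namespace Cfsg.Agent.S2907

open scoped commutatorElement

/-- Let X be a finite semi-extraspecial p-group and x an element of X outside the centre. Then the index of C_X(x) in X equals the order of Z(X), and the commutators [x, y], y ∈ X, form exactly the centre Z(X). -/
theorem result {X : Type*} [Group X] [Finite X] {p : ℕ} [Fact p.Prime] (hX : Cfsg.IsSemiExtraspecial p X) (x : X) (hx : x ∉ Subgroup.center X) : (Subgroup.centralizer ({x} : Set X)).index = Nat.card ↥(Subgroup.center X) ∧ {z : X | ∃ y : X, z = x * y * x⁻¹ * y⁻¹} = (Subgroup.center X : Set X) := by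
  classical
  obtain ⟨⟨_, _, hcomm⟩, hY⟩ := hX
  have hc : ∀ a b : X, a * b * a⁻¹ * b⁻¹ ∈ Subgroup.center X := by
    intro a b
    rw [← hcomm]
    exact Subgroup.commutator_mem_commutator (Subgroup.mem_top a) (Subgroup.mem_top b)
  let f : X →* Subgroup.center X :=
    { toFun := fun y => ⟨x * y * x⁻¹ * y⁻¹, hc x y⟩
      map_one' := by
        apply Subtype.ext
        simp
      map_mul' := by
        intro a b
        apply Subtype.ext
        have hb := hc x b
        rw [Subgroup.mem_center_iff] at hb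
        have h1 := hb a⁻¹
        show x * (a * b) * x⁻¹ * (a * b)⁻¹ = (x * a * x⁻¹ * a⁻¹) * (x * b * x⁻¹ * b⁻¹)
        calc x * (a * b) * x⁻¹ * (a * b)⁻¹ = x * a * x⁻¹ * ((x * b * x⁻¹ * b⁻¹) * a⁻¹) := by group
          _ = x * a * x⁻¹ * (a⁻¹ * (x * b * x⁻¹ * b⁻¹)) := by rw [h1]
          _ = _ := by group }
  have hf : ∀ y, ((f y : Subgroup.center X) : X) = x * y * x⁻¹ * y⁻¹ := fun y => rfl
  have hker : f.ker = Subgroup.centralizer ({x} : Set X) := by
    ext y
    rw [MonoidHom.mem_ker, Subgroup.mem_centralizer_iff]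
    constructor
    · intro h1 w hw
      have hwx : w = x := hw
      rw [hwx]
      have h2 : x * y * x⁻¹ * y⁻¹ = 1 := congrArg Subtype.val h1
      have h3 : x * y = y * x := by
        have := mul_inv_eq_one.mp h2
        exact mul_inv_eq_iff_eq_mul.mp this
      exact h3
    · intro h1
      have h2 := h1 x rfl
      apply Subtype.ext
      show x * y * x⁻¹ * y⁻¹ = 1
      rw [h2]
      group
  have hrange : f.range = ⊤ := by
    by_contra hne
    obtain ⟨C, hC, hBC⟩ := (eq_top_or_exists_le_coatom f.range).resolve_left hne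
    let Y : Subgroup X := C.map (Subgroup.center X).subtype
    have hYle : Y ≤ Subgroup.center X := by
      rintro _ ⟨c, -, rfl⟩
      exact c.2
    have hYC : Y.subgroupOf (Subgroup.center X) = C :=
      Subgroup.comap_map_eq_self_of_injective (Subgroup.subtype_injective _) C
    obtain ⟨hYn, hE⟩ := hY Y hYle (by rw [hYC]; exact hC)
    obtain ⟨⟨_, _, hcomm2⟩, _⟩ := hE
    have hxc : (QuotientGroup.mk x : X ⧸ Y) ∈ Subgroup.center (X ⧸ Y) := by
      rw [Subgroup.mem_center_iff]
      intro ybar
      obtain ⟨y, rfl⟩ := QuotientGroup.mk_surjective ybar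
      have h1 : ((f y : Subgroup.center X) : X) ∈ Y := ⟨f y, hBC ⟨y, rfl⟩, rfl⟩
      rw [hf] at h1
      have h2 : ((x * y * x⁻¹ * y⁻¹ : X) : X ⧸ Y) = 1 := (QuotientGroup.eq_one_iff _).mpr h1
      have h3 : (x : X ⧸ Y) * y * (x : X ⧸ Y)⁻¹ * (y : X ⧸ Y)⁻¹ = 1 := by
        simpa using h2
      have h4 : (x : X ⧸ Y) * y = y * x := by
        have := mul_inv_eq_one.mp h3
        exact mul_inv_eq_iff_eq_mul.mp this
      exact h4.symm
    rw [← hcomm2] at hxc
    have hsurj : Function.Surjective (QuotientGroup.mk' Y) := QuotientGroup.mk'_surjective Y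
    have hmap : (commutator X).map (QuotientGroup.mk' Y) = commutator (X ⧸ Y) := by
      rw [commutator_def, Subgroup.map_commutator, Subgroup.map_top_of_surjective _ hsurj]
      rfl
    rw [← hmap] at hxc
    obtain ⟨z, hz, hzx⟩ := hxc
    rw [hcomm] at hz
    have h5 : z⁻¹ * x ∈ Y := by
      have : (z : X ⧸ Y) = x := hzx
      exact QuotientGroup.eq.mp this
    have h6 := hYle h5
    apply hx
    have h7 : x = z * (z⁻¹ * x) := by group
    rw [h7]
    exact Subgroup.mul_mem _ hz h6
  refine ⟨?_, ?_⟩
  · rw [← hker, Subgroup.index_ker, hrange, Subgroup.card_top]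
  · ext z
    constructor
    · rintro ⟨y, rfl⟩
      exact hc x y
    · intro hz
      have : (⟨z, hz⟩ : Subgroup.center X) ∈ f.range := by rw [hrange]; trivial
      obtain ⟨y, hy⟩ := this
      exact ⟨y, (congrArg Subtype.val hy).symm⟩

end Cfsg.Agent.S2907
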