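import Cfsg.Statements.S2909
import Cfsg.Agent.Lib.H13.CommNil

set_option autoImplicit false
open Cfsg

namespace Cfsg.Agent.S2909

open Cfsg.Agent.H13

theorem result {G : Type*} [Group G] [Finite G] {p : ℕ} [Fact p.Prime] (E : Subgroup G) [E.Normal] (hE : IsPGroup p ↥E) (U : Subgroup G) (hU : Cfsg.IsElementaryAbelian p U) (hnc : ¬ IsCyclic ↥U) (hcond : (∀ u ∈ U, u ≠ 1 → E ⊓ Subgroup.centralizer (U : Set G) = E ⊓ Subgroup.centralizer ({u} : Set G)) ∨ (∀ u ∈ U, u ≠ 1 → ⁅E, U⁆ = ⁅E, Subgroup.zpowers u⁆)) (R : Subgroup G) (hR : ¬ p ∣ Nat.card ↥R) (hRU : U ≤ Subgroup.normalizer (R : Set G)) : ⁅R, U⁆ ≤ Subgroup.centralizer (E : Set G) := by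
  have hpp : p.Prime := Fact.out
  obtain ⟨a, ha, b, hb, hab, hap, hbp, hL⟩ := exists_independent hU hnc
  have hN : ∀ g : G, g ∈ Subgroup.normalizer (E : Set G) := by
    intro g
    rw [Subgroup.normalizer_eq_top_iff.mpr inferInstance]
    trivial
  have hRc : (Nat.card R).Coprime p := ((Nat.Prime.coprime_iff_not_dvd hpp).mpr hR).symm
  set S := ⁅R, U⁆ with hS
  have hSR : S ≤ R := commutator_le_left_of_le_normalizer hRU
  have hSc : (Nat.card S).Coprime p := Nat.Coprime.coprime_dvd_left (Subgroup.card_dvd_of_le hSR) hRc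
  have hUS : U ≤ Subgroup.normalizer (S : Set G) := le_normalizer_commutator_right hRU
  have hfS : fixGen p a b S = S := fixGen_eq hSc hab hap hbp (hUS ha) (hUS hb)
  have hfR : fixGen p a b R = R := fixGen_eq hRc hab hap hbp (hRU ha) (hRU hb)
  have hzp : ∀ x ∈ lineElts p a b, IsPGroup p (Subgroup.zpowers x) := by
    intro x hx
    have hxp := lineElts_pow hab hap hbp hx
    rw [IsPGroup.iff_card]
    rcases (Nat.dvd_prime hpp).mp (orderOf_dvd_of_pow_eq_one hxp) with h | h
    · exact ⟨0, by rw [Nat.card_zpowers, h, pow_zero]⟩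
    · exact ⟨1, by rw [Nat.card_zpowers, h, pow_one]⟩
  have hQc : ∀ x : G, (Nat.card (S ⊓ Subgroup.centralizer ({x} : Set G) : Subgroup G)).Coprime p := fun x =>
    Nat.Coprime.coprime_dvd_left (Subgroup.card_dvd_of_le inf_le_left) hSc
  have hzQ : ∀ x : G, Subgroup.zpowers x ≤ Subgroup.centralizer ((S ⊓ Subgroup.centralizer ({x} : Set G) : Subgroup G) : Set G) := by
    intro x
    rw [Subgroup.zpowers_le, Subgroup.mem_centralizer_iff]
    rintro w ⟨_, hw⟩
    exact (Subgroup.mem_centralizer_iff.mp hw x rfl).symm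
  have hrz : ∀ {r x : G}, r ∈ Subgroup.centralizer ({x} : Set G) → r ∈ Subgroup.centralizer ((Subgroup.zpowers x : Subgroup G) : Set G) := by
    intro r x hr
    rw [Subgroup.mem_centralizer_iff]
    rintro _ ⟨k, rfl⟩
    exact (Commute.zpow_left (Subgroup.mem_centralizer_iff.mp hr x rfl) k)
  suffices hk : ∀ x ∈ lineElts p a b, S ⊓ Subgroup.centralizer ({x} : Set G) ≤ Subgroup.centralizer (E : Set G) by
    rw [← hfS]
    exact iSup_le (fun x => hk x x.2)
  rcases hcond with hc | hc
  · set D := E ⊓ Subgroup.centralizer (U : Set G) with hD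
    have hRD : R ≤ Subgroup.normalizer (D : Set G) := by
      rw [← hfR]
      apply iSup_le
      rintro ⟨x, hx⟩ r ⟨_, hrC⟩
      obtain ⟨hxU, hx1⟩ := hL x hx
      show r ∈ Subgroup.normalizer ((D : Subgroup G) : Set G)
      rw [hc x hxU hx1]
      exact mem_normalizer_inf (hN r) (Subgroup.le_normalizer hrC)
    have hSD : S ≤ Subgroup.centralizer (D : Set G) := by
      rw [← Subgroup.commutator_eq_bot_iff_le_centralizer]
      apply Subgroup.commutator_commutator_eq_bot_of_rotate
      · have h1 : ⁅U, D⁆ = ⊥ := by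
          rw [Subgroup.commutator_comm, Subgroup.commutator_eq_bot_iff_le_centralizer]
          exact inf_le_right
        rw [h1, Subgroup.commutator_bot_left]
      · have h1 : ⁅D, R⁆ ≤ D := commutator_le_left_of_le_normalizer hRD
        rw [← le_bot_iff]
        refine (Subgroup.commutator_mono h1 le_rfl).trans ?_
        rw [le_bot_iff, Subgroup.commutator_eq_bot_iff_le_centralizer]
        exact inf_le_right
    intro x hx
    obtain ⟨hxU, hx1⟩ := hL x hx
    apply H01.thompson_PxQ p (Subgroup.zpowers x) (S ⊓ Subgroup.centralizer ({x} : Set G)) E (hzp x hx) (hQc x) hE (hzQ x)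
      (fun g _ => hN g) (fun g _ => hN g)
    have h1 : E ⊓ Subgroup.centralizer ((Subgroup.zpowers x : Subgroup G) : Set G) ≤ D := by
      rw [hc x hxU hx1]
      refine inf_le_inf_left _ (Subgroup.centralizer_le ?_)
      intro w hw
      rw [Set.mem_singleton_iff.mp hw]
      exact Subgroup.mem_zpowers x
    refine h1.trans ((le_centralizer_of_le_centralizer hSD).trans (Subgroup.centralizer_le inf_le_left))
  · set W := ⁅E, U⁆ with hW
    have hRW : R ≤ Subgroup.normalizer (W : Set G) := by
      rw [← hfR]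
      apply iSup_le
      rintro ⟨x, hx⟩ r ⟨_, hrC⟩
      obtain ⟨hxU, hx1⟩ := hL x hx
      show r ∈ Subgroup.normalizer ((W : Subgroup G) : Set G)
      rw [hc x hxU hx1]
      exact mem_normalizer_commutator (hN r) (centralizer_le_normalizer_of_le _ (hrz hrC))
    have hUE : U ≤ Subgroup.normalizer (E : Set G) := fun g _ => hN g
    have hUW : U ≤ Subgroup.normalizer (W : Set G) := le_normalizer_commutator_right hUE
    have hEW : E ≤ Subgroup.normalizer (W : Set G) := H05.comm_le_normalizer_left E U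
    have h3 : ⁅⁅R, U⁆, E⁆ ≤ W := by
      apply three_subgroups_of_normalizer R U E W hRW hUW hEW
      · rw [Subgroup.commutator_comm U E]
        exact commutator_le_left_of_le_normalizer hRW
      · have h1 : ⁅E, R⁆ ≤ E := commutator_le_left_of_le_normalizer (fun g _ => hN g)
        exact Subgroup.commutator_mono h1 le_rfl
    intro x hx
    obtain ⟨hxU, hx1⟩ := hL x hx
    have hQ' : ¬ p ∣ Nat.card (S ⊓ Subgroup.centralizer ({x} : Set G) : Subgroup G) := by
      have := (hQc x).symm
      rwa [Nat.Prime.coprime_iff_not_dvd hpp] at this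
    have h4 : ⁅E, S ⊓ Subgroup.centralizer ({x} : Set G)⁆ ≤ ⁅E, Subgroup.zpowers x⁆ := by
      rw [← hc x hxU hx1, Subgroup.commutator_comm]
      exact (Subgroup.commutator_mono inf_le_left le_rfl).trans h3
    have h5 := commutator_eq_bot_of_le hE (hzp x hx) hQ' (fun g _ => hN g) (fun g _ => hN g)
      (by rw [Subgroup.commutator_eq_bot_iff_le_centralizer]; exact hzQ x) h4
    rwa [Subgroup.commutator_comm, Subgroup.commutator_eq_bot_iff_le_centralizer] at h5

end Cfsg.Agent.S2909
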