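import Cfsg.Statements.S2910
import Cfsg.Agent.Lib.H13.FrobOdd

set_option autoImplicit false
open Cfsg

namespace Cfsg.Agent.S2910

open Cfsg.Agent.H13

theorem result {G : Type*} [Group G] [Finite G] {p : ℕ} [Fact p.Prime] (hp : p ≠ 2) (hdiv : p ∣ Nat.card G) (P : Sylow p G) (hZ : Cfsg.omegaOne p (P : Subgroup G) ≤ Subgroup.center G) : Cfsg.HasNormalPComplement p G ∧ ¬ Cfsg.IsQuasisimple G := by
  have hF : FrobCond p G := by
    intro Q hQ g hg hgc
    apply centralizes_of_centralizes_omega hp hQ hg hgc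
    intro x hx hxp
    obtain ⟨T, hT⟩ := hQ.exists_le_sylow
    obtain ⟨w, hw⟩ := sylow_conj T P
    have h1 : w * x * w⁻¹ ∈ (P : Subgroup G) := by
      rw [hw]
      exact conj_mem_map_conj (hT hx)
    have h2 : (w * x * w⁻¹) ^ p = 1 := by
      rw [conj_pow, hxp]
      group
    have h3 : w * x * w⁻¹ ∈ Cfsg.omegaOne p (P : Subgroup G) := Subgroup.subset_closure ⟨h1, h2⟩
    have h4 := hZ h3
    rw [Subgroup.mem_center_iff] at h4
    have h5 : w * x * w⁻¹ = x := by
      have := h4 w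
      have h6 : w * (w * x * w⁻¹) = w * x := by
        rw [this]
        group
      exact mul_left_cancel h6
    rw [← h5]
    exact h4 g
  refine ⟨hasNormalPComplement_of_frobCond hF, ?_⟩
  intro hq
  obtain ⟨K, hKn, hKt, a, ha⟩ := exists_normal_pquotient hF hdiv
  have hperf := H05.qs_perfect hq
  have hqg : IsPGroup p (G ⧸ K) := IsPGroup.of_card (n := a) ha
  have h1 : commutator (G ⧸ K) = ⊤ := by
    have h2 := Subgroup.map_commutator (⊤ : Subgroup G) ⊤ (QuotientGroup.mk' K)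
    rw [Subgroup.map_top_of_surjective _ (QuotientGroup.mk'_surjective K)] at h2
    rw [commutator, ← h2]
    have h3 : ⁅(⊤ : Subgroup G), ⊤⁆ = ⊤ := hperf
    rw [h3, Subgroup.map_top_of_surjective _ (QuotientGroup.mk'_surjective K)]
  have h4 : (⊤ : Subgroup (G ⧸ K)) = ⊥ := by
    apply eq_bot_of_le_commutator (p := p) (hqg.to_subgroup ⊤) le_rfl
    exact h1.ge
  apply hKt
  rw [eq_top_iff]
  intro x _
  have h5 : (x : G ⧸ K) ∈ (⊤ : Subgroup (G ⧸ K)) := trivial
  rw [h4, Subgroup.mem_bot] at h5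
  exact (QuotientGroup.eq_one_iff x).mp h5

end Cfsg.Agent.S2910
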