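import Cfsg.Statements.S2911
import Cfsg.Agent.Lib.H13.TransferInv

set_option autoImplicit false
open Cfsg

namespace Cfsg.Agent.S2911

open Cfsg.Agent.H13

abbrev T := Multiplicative (ZMod 2) × DihedralGroup 4

def c₀ : T := (Multiplicative.ofAdd 1, 1)
def z₀ : T := (1, DihedralGroup.r 2)

set_option maxRecDepth 100000 in
theorem fa : ∀ a b : T, a * b * a⁻¹ * b⁻¹ = 1 ∨ a * b * a⁻¹ * b⁻¹ = z₀ := by decide

set_option maxRecDepth 100000 in
theorem fb : ∀ x : T, (∀ y : T, x * y = y * x) → x = 1 ∨ x = z₀ ∨ x = c₀ ∨ x = c₀ * z₀ := by decide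

theorem fc : ∃ a b : T, a * b * a⁻¹ * b⁻¹ = z₀ :=
  ⟨((1, DihedralGroup.r 1) : T), ((1, DihedralGroup.sr 0) : T), by decide⟩

theorem fd : z₀ ≠ 1 := by decide
theorem fe : c₀ ≠ 1 := by decide
theorem ff : c₀ ≠ z₀ := by decide
theorem fg : z₀ * z₀ = 1 := by decide
theorem fh : ∀ y : T, c₀ * y = y * c₀ := by decide

theorem aut_sq (θ : T ≃* T) : θ (θ c₀) = c₀ := by
  have hz : θ z₀ = z₀ := by
    obtain ⟨a, b, hab⟩ := fc
    have h1 : θ z₀ = θ a * θ b * (θ a)⁻¹ * (θ b)⁻¹ := by
      rw [← hab]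
      simp only [map_mul, map_inv]
    rcases fa (θ a) (θ b) with h2 | h2
    · exfalso
      rw [h2] at h1
      exact fd (by simpa using h1)
    · rw [h1, h2]
  have hc : θ c₀ = c₀ ∨ θ c₀ = c₀ * z₀ := by
    have h1 : ∀ y : T, θ c₀ * y = y * θ c₀ := by
      intro y
      obtain ⟨y', rfl⟩ := θ.surjective y
      rw [← map_mul, ← map_mul, fh]
    rcases fb _ h1 with h2 | h2 | h2 | h2
    · exfalso
      exact fe (by simpa using h2)
    · exfalso
      rw [← hz] at h2
      exact ff (θ.injective h2)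
    · exact Or.inl h2
    · exact Or.inr h2
  rcases hc with h | h
  · rw [h, h]
  · rw [h, map_mul, h, hz, mul_assoc, fg, mul_one]

theorem result {G : Type*} [Group G] [Finite G] (S : Sylow 2 G) (hS : Nonempty (↥(S : Subgroup G) ≃* Multiplicative (ZMod 2) × DihedralGroup 4)) : ∃ H : Subgroup G, H.index = 2 := by
  obtain ⟨e⟩ := hS
  have hpp : Nat.Prime 2 := Nat.prime_two
  let f : (S : Subgroup G) →* Multiplicative (ZMod 2) := (MonoidHom.fst _ _).comp e.toMonoidHom
  have hfs : Function.Surjective f := by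
    intro y
    refine ⟨e.symm (y, 1), ?_⟩
    show (e (e.symm (y, 1))).1 = y
    simp
  let M : Subgroup (S : Subgroup G) := f.ker
  have hMi : M.index = 2 := by
    show f.ker.index = 2
    rw [Subgroup.index_ker, MonoidHom.range_eq_top.mpr hfs, Subgroup.card_top]
    simp
  let t₀ : (S : Subgroup G) := e.symm c₀
  set t : G := (t₀ : G) with ht
  have htS : t ∈ (S : Subgroup G) := t₀.2
  have htZ : ∀ u ∈ (S : Subgroup G), u * t = t * u := by
    intro u hu
    have h1 : e (⟨u, hu⟩ * t₀) = e (t₀ * ⟨u, hu⟩) := by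
      rw [map_mul, map_mul, show e t₀ = c₀ by simp [t₀], fh]
    have h2 := congrArg Subtype.val (e.injective h1)
    exact h2
  have ht2 : t ^ 2 = 1 := by
    have h1 : t₀ ^ 2 = 1 := by
      apply e.injective
      rw [map_pow, show e t₀ = c₀ by simp [t₀], map_one]
      decide
    simpa using congrArg Subtype.val h1
  have htM : (⟨t, htS⟩ : (S : Subgroup G)) ∉ M := by
    intro h
    have h1 : f t₀ = 1 := h
    have h2 : (e t₀).1 = 1 := h1
    rw [show e t₀ = c₀ by simp [t₀]] at h2
    exact absurd h2 (by decide)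
  -- elements of the normalizer
  have hsq : ∀ g ∈ Subgroup.normalizer ((S : Subgroup G) : Set G), g * (g * t * g⁻¹) * g⁻¹ = t := by
    intro g hg
    let ψ : MulAut (S : Subgroup G) := (S : Subgroup G).normalizerMonoidHom ⟨g, hg⟩
    have hψ : ∀ u : (S : Subgroup G), ((ψ u : (S : Subgroup G)) : G) = g * u * g⁻¹ := fun _ => rfl
    let θ : T ≃* T := e.symm.trans (ψ.trans e)
    have h1 := aut_sq θ
    have h2 : ψ (ψ t₀) = t₀ := by
      apply e.injective
      have h3 : e t₀ = c₀ := by simp [t₀]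
      rw [h3]
      have h4 : θ c₀ = e (ψ t₀) := rfl
      rw [h4] at h1
      have h5 : θ (e (ψ t₀)) = e (ψ (ψ t₀)) := by
        show e (ψ (e.symm (e (ψ t₀)))) = _
        rw [e.symm_apply_apply]
      rw [h5] at h1
      exact h1
    have h3 := congrArg Subtype.val h2
    rw [hψ, hψ] at h3
    exact h3
  have hN : ∀ g ∈ Subgroup.normalizer ((S : Subgroup G) : Set G), g * t * g⁻¹ = t := by
    intro g hg
    obtain ⟨y, w, hy, hw, hdec, ⟨k, hk⟩, hwc⟩ := H05.exists_pow_decomp g hpp
    have hzle : Subgroup.zpowers g ≤ Subgroup.normalizer ((S : Subgroup G) : Set G) := by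
      rw [Subgroup.zpowers_le]
      exact hg
    have hyS : y ∈ (S : Subgroup G) := by
      have h1 : orderOf y ∣ 2 ^ k := orderOf_dvd_of_pow_eq_one hk
      obtain ⟨j, -, hj⟩ := (Nat.dvd_prime_pow hpp).mp h1
      have h2 : IsPGroup 2 (Subgroup.zpowers y) := IsPGroup.of_card (n := j) (by rw [Nat.card_zpowers, hj])
      have h3 : Subgroup.zpowers y ≤ Subgroup.normalizer ((S : Subgroup G) : Set G) := by
        rw [Subgroup.zpowers_le]
        exact hzle hy
      have h4 : IsPGroup 2 ((S : Subgroup G) ⊔ Subgroup.zpowers y : Subgroup G) := by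
        rw [sup_comm]
        exact IsPGroup.to_sup_of_normal_right' h2 S.2 h3
      have h5 := S.3 h4 le_sup_left
      rw [← h5]
      exact (le_sup_right : Subgroup.zpowers y ≤ _) (Subgroup.mem_zpowers y)
    have hy2 : y * t * y⁻¹ = t := by
      rw [htZ y hyS]
      group
    have hwN := hzle hw
    have hw2 : w * (w * t * w⁻¹) * w⁻¹ = t := hsq w hwN
    have hw3 : w * t * w⁻¹ = t := by
      have hodd : ¬ 2 ∣ orderOf w := (Nat.Prime.coprime_iff_not_dvd hpp).mp hwc.symm
      obtain ⟨m, hm⟩ : ∃ m, orderOf w = 2 * m + 1 := by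
        have := Nat.odd_iff.mpr (Nat.mod_two_ne_zero.mp (fun h => hodd (Nat.dvd_of_mod_eq_zero h)))
        exact this
      have h4 : ∀ n : ℕ, w ^ (2 * n) * t * (w ^ (2 * n))⁻¹ = t := by
        intro n
        induction n with
        | zero => simp
        | succ n ih =>
          have h5 : w ^ (2 * (n + 1)) = w ^ (2 * n) * w * w := by
            rw [mul_add, pow_add, mul_one, pow_two]
            group
          rw [h5]
          calc w ^ (2 * n) * w * w * t * (w ^ (2 * n) * w * w)⁻¹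
              = w ^ (2 * n) * (w * (w * t * w⁻¹) * w⁻¹) * (w ^ (2 * n))⁻¹ := by group
            _ = t := by rw [hw2, ih]
      have h6 := h4 (m + 1)
      have h7 : w ^ (2 * (m + 1)) = w := by
        have h8 : 2 * (m + 1) = orderOf w + 1 := by omega
        rw [h8, pow_succ, pow_orderOf_eq_one, one_mul]
      rwa [h7] at h6
    rw [hdec]
    calc y * w * t * (y * w)⁻¹ = y * (w * t * w⁻¹) * y⁻¹ := by group
      _ = t := by rw [hw3, hy2]
  haveI hMn : M.Normal := inferInstance
  obtain ⟨K, -, hKi⟩ := exists_index_two_of_central_involution (S : Subgroup G) S.2 S.not_dvd_index M hMi htS htZ ht2 htM hN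
  exact ⟨K, hKi⟩

end Cfsg.Agent.S2911
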