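import Cfsg.Statements.S2912
import Cfsg.Agent.Lib.H13.ExtraBound2

set_option autoImplicit false

open Cfsg

namespace Cfsg.Agent.S2912

open Cfsg.Agent.H13.ExtraBound

theorem result {G : Type*} [Group G] [Finite G] {p r : ℕ} [Fact p.Prime] [hr : Fact r.Prime] (hpr : p ≠ r) (E A : Subgroup G) (w : ℕ) (hE : Cfsg.IsExtraspecial p ↥E) (hEcard : Nat.card ↥E = p ^ (2 * w + 1)) (hA : Cfsg.IsElementaryAbelian r A) (hnorm : E ≤ Subgroup.normalizer (A : Set G)) (hfaith : E ⊓ Subgroup.centralizer (A : Set G) = ⊥) (n : ℕ) (hn : 1 ≤ n) (hdiv : p ∣ r ^ n - 1) (hmin : ∀ k : ℕ, 1 ≤ k → p ∣ r ^ k - 1 → n ≤ k) : r ^ (n * p ^ w) ≤ Nat.card ↥A := by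
  classical
  have hp : p.Prime := Fact.out
  obtain ⟨⟨hPG, hfr, hcomm⟩, hc⟩ := hE
  haveI : Fintype (Subgroup.center ↥E) := Fintype.ofFinite _
  have hcF : Fintype.card (Subgroup.center ↥E) = p := by rw [← Nat.card_eq_fintype_card]; exact hc
  obtain ⟨z₀, hz₀⟩ : ∃ z₀ : Subgroup.center ↥E, z₀ ≠ 1 := by
    have : Nontrivial (Subgroup.center ↥E) := by
      apply Fintype.one_lt_card_iff_nontrivial.1
      rw [hcF]
      exact hp.one_lt
    exact exists_ne 1
  have hgen : ∀ u : Subgroup.center ↥E, u ∈ Subgroup.zpowers z₀ := fun u =>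
    mem_zpowers_of_prime_card hc hz₀
  have hz : (((z₀ : ↥E) : G)) ≠ 1 := by
    intro h
    exact hz₀ (Subtype.ext (Subtype.ext h))
  obtain ⟨z, hzdef⟩ : ∃ z : G, z = ((z₀ : ↥E) : G) := ⟨_, rfl⟩
  have hzE : z ∈ E := by
    rw [hzdef]
    exact (z₀ : ↥E).2
  have hz1 : z ≠ 1 := by
    rw [hzdef]
    exact hz
  have hzp : z ^ p = 1 := by
    have h1 : z₀ ^ p = 1 := by
      rw [← hcF]
      exact pow_card_eq_one
    have h2 := congrArg (fun u : Subgroup.center ↥E => ((u : ↥E) : G)) h1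
    simpa [hzdef] using h2
  have hmem : ∀ u : ↥E, u ∈ Subgroup.center ↥E → (u : G) ∈ Subgroup.zpowers z := by
    intro u hu
    obtain ⟨i, hi⟩ := Subgroup.mem_zpowers_iff.1 (hgen ⟨u, hu⟩)
    refine Subgroup.mem_zpowers_iff.2 ⟨i, ?_⟩
    have h2 := congrArg (fun u : Subgroup.center ↥E => ((u : ↥E) : G)) hi
    simpa [hzdef] using h2
  have hzc : ∀ x ∈ E, x * z = z * x := by
    intro x hx
    have := (Subgroup.mem_center_iff.1 z₀.2) ⟨x, hx⟩
    have h2 := congrArg Subtype.val this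
    rw [hzdef]
    exact h2
  haveI : Fact p.Prime := ⟨hp⟩
  have hExt : ExtC p E z w :=
    { zE := hzE
      z1 := hz1
      zp := hzp
      zc := hzc
      comm := by
        intro x hx y hy
        apply hmem ⟨x * y * x⁻¹ * y⁻¹, by
          exact E.mul_mem (E.mul_mem (E.mul_mem hx hy) (E.inv_mem hx)) (E.inv_mem hy)⟩
        rw [← hcomm]
        exact Subgroup.commutator_mem_commutator (Subgroup.mem_top (⟨x, hx⟩ : ↥E)) (Subgroup.mem_top (⟨y, hy⟩ : ↥E))
      pow := by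
        intro x hx
        apply hmem ⟨x ^ p, E.pow_mem hx p⟩
        rw [← hfr]
        exact Cfsg.Agent.H01.pow_mem_frattini_of_isPGroup hPG ⟨x, hx⟩
      cen := by
        intro x hx hxc
        apply hmem ⟨x, hx⟩
        rw [Subgroup.mem_center_iff]
        intro g
        apply Subtype.ext
        exact (hxc g g.2).symm
      card := hEcard }
  have hAc : ∀ x ∈ A, ∀ y ∈ A, x * y = y * x := by
    intro x hx y hy
    haveI := hA.1
    have := mul_comm' (⟨x, hx⟩ : A) (⟨y, hy⟩ : A)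
    exact congrArg Subtype.val this
  have hnc : ∃ v ∈ A, z * v * z⁻¹ ≠ v := by
    by_contra hcon
    push Not at hcon
    apply hz1
    have : z ∈ E ⊓ Subgroup.centralizer (A : Set G) := by
      refine Subgroup.mem_inf.2 ⟨hzE, Subgroup.mem_centralizer_iff.2 ?_⟩
      intro v hv
      have h1 := hcon v hv
      rw [mul_inv_eq_iff_eq_mul] at h1
      exact h1.symm
    rw [hfaith] at this
    exact this
  obtain ⟨W, hWA, hW1, hNW, hfpf⟩ := exists_fpf_part hpr E A z hzE hzc hzp hAc hA.2 hnorm hnc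
  have h := main_bound (G := G) (p := p) (r := r) (n := n) hpr hn hmin w E z W hExt hNW
    (fun x hx y hy => hAc x (hWA hx) y (hWA hy)) (fun v hv => hA.2 v (hWA hv)) hW1 hfpf
  exact h.trans (Subgroup.card_le_of_le hWA)

end Cfsg.Agent.S2912
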