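import Cfsg.Statements.S2922
import Cfsg.Agent.Lib.H13.CharP2

set_option autoImplicit false
open Cfsg

namespace Cfsg.Agent.S2922

open Cfsg.Agent.H13

/-- Let p be a prime, X a finite group, B a p-subgroup of X and C a normal subgroup of B. If N_X(C) has characteristic p (its generalized Fitting subgroup is O_p(N_X(C))), then N_X(B) and C_X(B) have characteristic p. -/
theorem result {X : Type*} [Group X] [Finite X] {p : ℕ} [Fact p.Prime] (B C : Subgroup X) (hB : IsPGroup p ↥B) (hCB : C ≤ B) (hCn : (C.subgroupOf B).Normal) (hC : Cfsg.generalizedFittingSubgroup ↥(Subgroup.normalizer (C : Set X)) = Cfsg.pCore p ↥(Subgroup.normalizer (C : Set X))) : Cfsg.generalizedFittingSubgroup ↥(Subgroup.normalizer (B : Set X)) = Cfsg.pCore p ↥(Subgroup.normalizer (B : Set X)) ∧ Cfsg.generalizedFittingSubgroup ↥(Subgroup.centralizer (B : Set X)) = Cfsg.pCore p ↥(Subgroup.centralizer (B : Set X)) := by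
  have hA : IsCharP p (Subgroup.normalizer (C : Set X)) := fstar_eq_pCore_iff.mp hC
  have hBN : B ≤ Subgroup.normalizer (C : Set X) := by
    intro b hb
    rw [Subgroup.mem_normalizer_iff]
    intro c
    constructor
    · intro hc
      have h1 : (⟨c, hCB hc⟩ : B) ∈ C.subgroupOf B := hc
      have h2 := hCn.conj_mem _ h1 ⟨b, hb⟩
      exact h2
    · intro hc
      have hbc : c ∈ B := by
        have h3 := B.mul_mem (B.mul_mem (B.inv_mem hb) (hCB hc)) hb
        simpa [mul_assoc] using h3
      have h1 : (⟨b * c * b⁻¹, hCB hc⟩ : B) ∈ C.subgroupOf B := hc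
      have h2 := hCn.conj_mem _ h1 (⟨b, hb⟩⁻¹)
      have h3 : (⟨b, hb⟩⁻¹ * ⟨b * c * b⁻¹, hCB hc⟩ * (⟨b, hb⟩⁻¹)⁻¹ : B) = ⟨c, hbc⟩ := by
        apply Subtype.ext
        simp [mul_assoc]
      rw [h3] at h2
      exact h2
  have hCC : Subgroup.centralizer (B : Set X) ≤ Subgroup.normalizer (C : Set X) :=
    (Subgroup.centralizer_le hCB).trans (centralizer_le_normalizer_of_le C)
  have h1 : IsCharP p (Subgroup.normalizer (B : Set X)) := isCharP_normalizer hA hBN hB hCC
  have h2 : IsCharP p (Subgroup.centralizer (B : Set X)) :=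
    isCharP_of_le_of_normalizer h1 (centralizer_le_normalizer_of_le B)
      (H01.normalizer_le_normalizer_centralizer B)
  exact ⟨fstar_eq_pCore_iff.mpr h1, fstar_eq_pCore_iff.mpr h2⟩

end Cfsg.Agent.S2922
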