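import Cfsg.Statements.S2925
import Cfsg.Agent.Lib.H13.StrongP2
import Cfsg.Agent.Lib.H07.FStar

set_option autoImplicit false
open Cfsg

namespace Cfsg.Agent.S2925

open Cfsg.Agent.H13

theorem result {X : Type*} [Group X] [Finite X] (K : Subgroup X) (hK : Cfsg.IsComponent K) (T : Sylow 2 X) (Y : Subgroup X) (hYT : Y ≤ (T : Subgroup X)) (hYn : (Y.subgroupOf (T : Subgroup X)).Normal) (hYab : IsMulCommutative ↥Y) (hnot : ¬ Y ≤ Subgroup.normalizer (K : Set X)) (P : Sylow 2 (↥K ⧸ Subgroup.center ↥K)) : IsMulCommutative ↥(P : Subgroup (↥K ⧸ Subgroup.center ↥K)) := by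
  obtain ⟨y, hyY, hyN⟩ := SetLike.not_le_iff_exists.mp hnot
  have hKy : IsComponent (K.map (MulAut.conj y).toMonoidHom) := H07.isComponent_map_equiv (MulAut.conj y) hK
  have hne : K ≠ K.map (MulAut.conj y).toMonoidHom := by
    intro h
    exact hyN (mem_normalizer_of_map_conj_eq h.symm)
  have hcomm := H05.comm_bot_iff.mp ((H05.comp_eq_or_comm hK hKy).resolve_left hne)
  -- the key commutator relation
  have hkey : ∀ a ∈ (T : Subgroup X) ⊓ K, ∀ b ∈ (T : Subgroup X) ⊓ K, b⁻¹ * a⁻¹ * b * a ∈ K ⊓ K.map (MulAut.conj y).toMonoidHom := by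
    intro a ha b hb
    have hmemY : ∀ c ∈ (T : Subgroup X), y * c * y⁻¹ * c⁻¹ ∈ Y := by
      intro c hc
      have h1 : c * y⁻¹ * c⁻¹ ∈ Y := by
        have := hYn.conj_mem ⟨y⁻¹, hYT (Y.inv_mem hyY)⟩ (by rw [Subgroup.mem_subgroupOf]; exact Y.inv_mem hyY) ⟨c, hc⟩
        rw [Subgroup.mem_subgroupOf] at this
        exact this
      have h2 := Y.mul_mem hyY h1
      simpa [mul_assoc] using h2
    have hu := hmemY a ha.1
    have hv := hmemY b hb.1
    have huv : (⟨_, hu⟩ : Y) * ⟨_, hv⟩ = ⟨_, hv⟩ * ⟨_, hu⟩ := hYab.is_comm.comm _ _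
    have huv' := congrArg Subtype.val huv
    simp only [Subgroup.coe_mul] at huv'
    have hAK : y * a * y⁻¹ ∈ K.map (MulAut.conj y).toMonoidHom := conj_mem_map_conj ha.2
    have hBK : y * b * y⁻¹ ∈ K.map (MulAut.conj y).toMonoidHom := conj_mem_map_conj hb.2
    set A := y * a * y⁻¹ with hA
    set B := y * b * y⁻¹ with hB
    have h1 : a⁻¹ * B = B * a⁻¹ := hcomm _ (K.inv_mem ha.2) _ hBK
    have h2 : b⁻¹ * A = A * b⁻¹ := hcomm _ (K.inv_mem hb.2) _ hAK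
    have h3 : A * B * a⁻¹ * b⁻¹ = B * A * b⁻¹ * a⁻¹ := by
      calc A * B * a⁻¹ * b⁻¹ = A * (B * a⁻¹) * b⁻¹ := by group
        _ = A * (a⁻¹ * B) * b⁻¹ := by rw [h1]
        _ = A * a⁻¹ * (B * b⁻¹) := by group
        _ = B * b⁻¹ * (A * a⁻¹) := huv'
        _ = B * (b⁻¹ * A) * a⁻¹ := by group
        _ = B * (A * b⁻¹) * a⁻¹ := by rw [h2]
        _ = B * A * b⁻¹ * a⁻¹ := by group
    have h4 : b⁻¹ * a⁻¹ * b * a = (B * A)⁻¹ * (A * B) := by
      have : (B * A)⁻¹ * (A * B * a⁻¹ * b⁻¹) * (b * a) = (B * A)⁻¹ * (B * A * b⁻¹ * a⁻¹) * (b * a) := by rw [h3]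
      have h5 : (B * A)⁻¹ * (A * B * a⁻¹ * b⁻¹) * (b * a) = (B * A)⁻¹ * (A * B) := by group
      have h6 : (B * A)⁻¹ * (B * A * b⁻¹ * a⁻¹) * (b * a) = b⁻¹ * a⁻¹ * b * a := by group
      rw [h5, h6] at this
      exact this.symm
    refine ⟨?_, ?_⟩
    · exact K.mul_mem (K.mul_mem (K.mul_mem (K.inv_mem hb.2) (K.inv_mem ha.2)) hb.2) ha.2
    · rw [h4]
      exact Subgroup.mul_mem _ (Subgroup.inv_mem _ (Subgroup.mul_mem _ hBK hAK)) (Subgroup.mul_mem _ hAK hBK)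
  have hT₀p : IsPGroup 2 ((T : Subgroup X).subgroupOf K) := H05.isPGroup_subgroupOf' T.2
  have hT₀i := H02.sylow_subgroupOf_index 2 T hK.1
  let T₀ : Sylow 2 K := hT₀p.toSylow hT₀i
  let S := T₀.mapSurjective (QuotientGroup.mk'_surjective (Subgroup.center K))
  obtain ⟨g, hg⟩ := MulAction.exists_smul_eq (↥K ⧸ Subgroup.center ↥K) S P
  have hcentral : ∀ a b : K, a ∈ (T : Subgroup X).subgroupOf K → b ∈ (T : Subgroup X).subgroupOf K →
      (QuotientGroup.mk' (Subgroup.center K) a) * (QuotientGroup.mk' (Subgroup.center K) b) = (QuotientGroup.mk' (Subgroup.center K) b) * (QuotientGroup.mk' (Subgroup.center K) a) := by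
    intro a b ha hb
    rw [Subgroup.mem_subgroupOf] at ha hb
    have h1 := hkey a ⟨ha, a.2⟩ b ⟨hb, b.2⟩
    have h2 : b⁻¹ * a⁻¹ * b * a ∈ Subgroup.center K := by
      rw [Subgroup.mem_center_iff]
      rintro ⟨x, hx⟩
      apply Subtype.ext
      exact hcomm x hx _ h1.2
    have h3 : QuotientGroup.mk' (Subgroup.center K) (b⁻¹ * a⁻¹ * b * a) = 1 :=
      (QuotientGroup.eq_one_iff _).mpr h2
    simp only [map_mul, map_inv] at h3
    generalize QuotientGroup.mk' (Subgroup.center K) a = a' at h3 ⊢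
    generalize QuotientGroup.mk' (Subgroup.center K) b = b' at h3 ⊢
    have h4 : a'⁻¹ * b' * a' = b' := by
      have : b' * (b'⁻¹ * a'⁻¹ * b' * a') = b' * 1 := by rw [h3]
      simpa [mul_assoc] using this
    have h5 : a' * (a'⁻¹ * b' * a') = a' * b' := by rw [h4]
    rw [← h5]
    group
  refine ⟨⟨?_⟩⟩
  rintro ⟨u, hu⟩ ⟨v, hv⟩
  apply Subtype.ext
  rw [← hg] at hu hv
  obtain ⟨u', ⟨a, ha, rfl⟩, rfl⟩ := hu
  obtain ⟨v', ⟨b, hb, rfl⟩, rfl⟩ := hv
  show (MulAut.conj g) _ * (MulAut.conj g) _ = (MulAut.conj g) _ * (MulAut.conj g) _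
  rw [← map_mul (MulAut.conj g), ← map_mul (MulAut.conj g), hcentral a b ha hb]

end Cfsg.Agent.S2925
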