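import Cfsg.Statements.S2929
import Cfsg.Agent.Lib.H13.TriMain

set_option autoImplicit false

open Cfsg

namespace Cfsg.Agent.S2929

open Cfsg.Agent.H13

theorem result (n : ℕ) (hn : 5 ≤ n) (H : Subgroup (Equiv.Perm (Fin n))) (hF : Cfsg.IsQuasisimple ↥(Cfsg.generalizedFittingSubgroup ↥H)) (hS : ∃ P : Sylow 3 (Equiv.Perm (Fin n)), (P : Subgroup (Equiv.Perm (Fin n))) ≤ H) : ∃ m : ℕ, (m = n - 2 ∨ m = n - 1 ∨ m = n) ∧ Nonempty (↥(Cfsg.generalizedFittingSubgroup ↥H) ≃* ↥(alternatingGroup (Fin m))) := by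
  obtain ⟨P, hP⟩ := hS
  obtain ⟨Δ, hΔ, ⟨e⟩⟩ := fstar_alt_of_sylow3 (α := Fin n) (by simpa using hn) H hF P hP
  rw [Fintype.card_fin] at hΔ
  have hle : Δ.card ≤ n := by simpa using Finset.card_le_univ Δ
  refine ⟨Δ.card, by omega, ⟨e.trans (Equiv.altCongrHom (Fintype.equivFinOfCardEq (by simp)))⟩⟩

end Cfsg.Agent.S2929
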