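import Cfsg.Statements.S2939
import Cfsg.Agent.Lib.H13.SylowControl

set_option autoImplicit false
open Cfsg

namespace Cfsg.Agent.S2939

open Cfsg.Agent.H13

variable {G : Type*} [Group G] [Finite G] {p : ℕ} [Fact p.Prime]

theorem forward (𝓕 : Set (Subgroup G)) (h𝓕 : Cfsg.IsNormalSet 𝓕)
    (hc : Cfsg.ControlsSylowIntersections p 𝓕) : Cfsg.FamilyStronglyControlsFusion p 𝓕 := by
  intro S A g hAS hA1 hAg
  obtain ⟨a₀, ha₀, ha₀1⟩ := hA1
  let T : Sylow p G := g • S
  have hT : (T : Subgroup G) = (S : Subgroup G).map (MulAut.conj g).toMonoidHom := rfl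
  have hAT : A ⊆ (T : Subgroup G) := by
    intro a ha
    have h1 : g⁻¹ * a * g ∈ (S : Subgroup G) := hAg ⟨a, ha, rfl⟩
    show a ∈ (T : Subgroup G)
    rw [hT, mem_map_conj]
    exact h1
  by_cases hST : S = T
  · refine ⟨0, Fin.elim0, Fin.elim0, g, ?_, fun i => i.elim0, ?_, fun i => i.elim0⟩
    · apply mem_normalizer_of_map_conj_eq
      rw [← hT, ← hST]
    · simp
  have hbot : (S : Subgroup G) ⊓ (T : Subgroup G) ≠ ⊥ := by
    intro h0
    have : a₀ ∈ (S : Subgroup G) ⊓ (T : Subgroup G) := ⟨hAS ha₀, hAT ha₀⟩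
    rw [h0, Subgroup.mem_bot] at this
    exact ha₀1 this
  obtain ⟨m, c, X, x, hc0, hcl, hall⟩ := hc S T hST hbot
  -- the partial products
  let x' : ℕ → G := fun k => if h : k < m then x ⟨k, h⟩ else 1
  have hx' : ∀ i : Fin m, x' i = x i := by
    intro i
    simp [x', i.2]
  let z : ℕ → G := fun k => Nat.rec 1 (fun k w => x' k * w) k
  have hz0 : z 0 = 1 := rfl
  have hzs : ∀ k, z (k + 1) = x' k * z k := fun k => rfl
  let Y : Fin m → Subgroup G := fun i => (X i).map (MulAut.conj (z i)⁻¹).toMonoidHom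
  let y : Fin m → G := fun i => (z i)⁻¹ * x i * z i
  have hcz : ∀ k (hk : k < m + 1), (c ⟨k, hk⟩ : Subgroup G) = (S : Subgroup G).map (MulAut.conj (z k)).toMonoidHom := by
    intro k
    induction k with
    | zero =>
      intro hk
      have : (⟨0, hk⟩ : Fin (m + 1)) = 0 := rfl
      rw [this, hc0, hz0, map_conj_one]
    | succ k ih =>
      intro hk
      let i : Fin m := ⟨k, Nat.lt_of_succ_lt_succ hk⟩
      have hi := hall i
      have h1 : i.castSucc = (⟨k, Nat.lt_of_succ_lt hk⟩ : Fin (m + 1)) := rfl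
      have h2 : i.succ = (⟨k + 1, hk⟩ : Fin (m + 1)) := rfl
      rw [h1, h2] at hi
      obtain ⟨-, -, -, hi4, -⟩ := hi
      rw [subgroupConjRight_eq, ih (Nat.lt_of_succ_lt hk)] at hi4
      have hxk : x i = x' k := (hx' i).symm
      rw [hzs, ← hxk, ← map_conj_mul, ← hi4, map_conj_map_conj_inv]
  have hprod : ∀ k (hk : k ≤ m), ((List.ofFn y).take k).prod = z k := by
    intro k
    induction k with
    | zero => intro _; simp [hz0]
    | succ k ih =>
      intro hk
      have hk' : k < m := hk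
      have hlen : k < (List.ofFn y).length := by simpa using hk'
      rw [List.prod_take_succ _ _ hlen, ih (le_of_lt hk'), hzs]
      have hget : (List.ofFn y)[k] = y ⟨k, hk'⟩ := by simp
      rw [hget]
      have hxk : x' k = x ⟨k, hk'⟩ := by simp [x', hk']
      simp only [y, hxk]
      group
  have hprodm : (List.ofFn y).prod = z m := by
    have := hprod m le_rfl
    rwa [show (List.ofFn y).take m = List.ofFn y from by
      apply List.take_of_length_le
      simp] at this
  refine ⟨m, Y, y, (z m)⁻¹ * g, ?_, ?_, ?_, ?_⟩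
  · apply mem_normalizer_of_map_conj_eq
    have h1 := hcz m (Nat.lt_succ_self m)
    have h3 : (⟨m, Nat.lt_succ_self m⟩ : Fin (m + 1)) = Fin.last m := rfl
    rw [h3, hcl, hT] at h1
    rw [← map_conj_mul, h1, map_conj_inv_map_conj]
  · intro i
    have hi := hall i
    have h1 : i.castSucc = (⟨i, Nat.lt_succ_of_lt i.2⟩ : Fin (m + 1)) := rfl
    rw [h1] at hi
    obtain ⟨hi1, -, hi3, -, -⟩ := hi
    rw [hcz] at hi1
    refine ⟨?_, ?_⟩
    · have := sylowMembers_map_conj h𝓕 hi1 (z i)⁻¹
      rwa [map_conj_inv_map_conj] at this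
    · have := conj_mem_map_conj (g := (z i)⁻¹) hi3
      simpa [y, Y] using this
  · rw [hprodm]
    group
  · intro i
    rintro _ ⟨a, ha, rfl⟩
    rw [hprod _ (Nat.succ_le_of_lt i.2)]
    have hi := hall i
    have h2 : i.succ = (⟨i + 1, Nat.succ_lt_succ i.2⟩ : Fin (m + 1)) := rfl
    rw [h2] at hi
    obtain ⟨-, -, hi3, -, hi5⟩ := hi
    have h3 : a ∈ (S : Subgroup G) ⊓ (T : Subgroup G) := ⟨hAS ha, hAT ha⟩
    have h4 := hi5 h3
    rw [hcz] at h4
    obtain ⟨h5, h6⟩ := h4
    refine ⟨?_, ?_⟩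
    · replace h5 : a ∈ (S : Subgroup G).map (MulAut.conj (z (i + 1))).toMonoidHom := h5
      rw [mem_map_conj] at h5
      exact h5
    · show _ ∈ (Y i)
      show _ ∈ (X i).map (MulAut.conj (z i)⁻¹).toMonoidHom
      rw [mem_map_conj]
      have h7 : x i ∈ X i := hi3
      have h8 := (X i).mul_mem ((X i).mul_mem ((X i).inv_mem h7) h6) h7
      have hxk : x' i = x i := hx' i
      rw [hzs, hxk]
      have h9 : ((z i)⁻¹)⁻¹ * ((x i * z i)⁻¹ * a * (x i * z i)) * (z i)⁻¹ = (x i)⁻¹ * a * x i := by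
        group
      rw [h9]
      exact h8

theorem backward (𝓕 : Set (Subgroup G)) (h𝓕 : Cfsg.IsNormalSet 𝓕)
    (hs : Cfsg.FamilyStronglyControlsFusion p 𝓕) : Cfsg.ControlsSylowIntersections p 𝓕 := by
  intro S T hST hbot
  obtain ⟨g, hg⟩ := MulAction.exists_smul_eq G S T
  have hT : (T : Subgroup G) = (S : Subgroup G).map (MulAut.conj g).toMonoidHom := by
    rw [← hg]; rfl
  obtain ⟨a₀, ha₀, ha₀1⟩ := (Subgroup.bot_or_exists_ne_one _).resolve_left hbot
  let A : Set G := (((S : Subgroup G) ⊓ (T : Subgroup G) : Subgroup G) : Set G)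
  have hAS : A ⊆ ((S : Subgroup G) : Set G) := fun a ha => ha.1
  have hAg : conjRight g A ⊆ ((S : Subgroup G) : Set G) := by
    rintro _ ⟨a, ha, rfl⟩
    have h1 : a ∈ (T : Subgroup G) := ha.2
    rw [hT, mem_map_conj] at h1
    exact h1
  obtain ⟨n, Y, y, y₀, hy₀, hY, hgf, hlast⟩ := hs S A g hAS ⟨a₀, ha₀, ha₀1⟩ hAg
  let z : ℕ → G := fun k => ((List.ofFn y).take k).prod
  have hz0 : z 0 = 1 := by simp [z]
  have hzn : z n = (List.ofFn y).prod := by
    show ((List.ofFn y).take n).prod = _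
    rw [List.take_of_length_le (by simp)]
  have hzs : ∀ k (hk : k < n), z (k + 1) = z k * y ⟨k, hk⟩ := by
    intro k hk
    have hlen : k < (List.ofFn y).length := by simpa using hk
    show ((List.ofFn y).take (k + 1)).prod = _
    rw [List.prod_take_succ _ _ hlen]
    have hget : (List.ofFn y)[k] = y ⟨k, hk⟩ := by simp
    rw [hget]
  let c : Fin (n + 1) → Sylow p G := fun k => z k • S
  have hc : ∀ k : Fin (n + 1), (c k : Subgroup G) = (S : Subgroup G).map (MulAut.conj (z k)).toMonoidHom :=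
    fun k => rfl
  let X : Fin n → Subgroup G := fun i => (Y i).map (MulAut.conj (z i)).toMonoidHom
  let x : Fin n → G := fun i => z i * y i * (z i)⁻¹
  refine ⟨n, c, X, x, ?_, ?_, ?_⟩
  · apply Sylow.ext
    rw [hc]
    show (S : Subgroup G).map (MulAut.conj (z 0)).toMonoidHom = _
    rw [hz0, map_conj_one]
  · apply Sylow.ext
    rw [hc]
    have h1 : (S : Subgroup G).map (MulAut.conj y₀).toMonoidHom = S := map_conj_eq_of_mem_normalizer hy₀
    rw [hT, hgf, ← map_conj_mul, h1]
    simp only [Fin.val_last]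
    rw [hzn]
  · intro i
    have hsucc : z (i + 1) = z i * y i := hzs i i.2
    have hci : (c i.succ : Subgroup G) = (S : Subgroup G).map (MulAut.conj (z i * y i)).toMonoidHom := by
      rw [hc, ← hsucc]
      rfl
    have hci' : (c i.castSucc : Subgroup G) = (S : Subgroup G).map (MulAut.conj (z i)).toMonoidHom := by
      rw [hc]
      rfl
    obtain ⟨hY1, hY2⟩ := hY i
    have hYn : (Y i).map (MulAut.conj (y i)).toMonoidHom = Y i :=
      map_conj_eq_of_mem_normalizer (Subgroup.le_normalizer hY2)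
    have hXi : X i = (Y i).map (MulAut.conj (z i * y i)).toMonoidHom := by
      show (Y i).map (MulAut.conj (z i)).toMonoidHom = _
      rw [← map_conj_mul, hYn]
    refine ⟨?_, ?_, ?_, ?_, ?_⟩
    · rw [hci']
      exact sylowMembers_map_conj h𝓕 hY1 (z i)
    · rw [hci, hXi]
      exact sylowMembers_map_conj h𝓕 hY1 (z i * y i)
    · exact conj_mem_map_conj hY2
    · rw [subgroupConjRight_eq, hci, hci', map_conj_mul]
      have hinv : (x i)⁻¹ * (z i * y i) = z i := by
        show (z i * y i * (z i)⁻¹)⁻¹ * (z i * y i) = z i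
        group
      rw [hinv]
    · intro a ha
      have h3 : a ∈ A := ha
      have h4 : (z (i + 1))⁻¹ * a * z (i + 1) ∈ ((S : Subgroup G) : Set G) ∩ ((Y i : Subgroup G) : Set G) := by
        have := hlast i
        exact this ⟨a, h3, by rw [show ((List.ofFn y).take (i.val + 1)).prod = z (i + 1) from rfl]⟩
      rw [hsucc] at h4
      refine ⟨?_, ?_⟩
      · show a ∈ (c i.succ : Subgroup G)
        rw [hci, mem_map_conj]
        exact h4.1
      · show a ∈ X i
        rw [hXi, mem_map_conj]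
        exact h4.2

/-- Let p be a prime dividing the order of the finite group G and 𝓕 a family of subgroups of G closed under conjugation, with conjugates taken as X^g = g⁻¹Xg. Then 𝓕 controls Sylow p-intersections in G (any two distinct Sylow p-subgroups S and T with S ∩ T ≠ 1 are joined by a chain S = S₀, S₁, …, Sₙ = T of Sylow p-subgroups where, for each i, some member Xᵢ of 𝓕 meets both S_{i-1} and Sᵢ in Sylow p-subgroups of Xᵢ, satisfies S ∩ T ≤ Sᵢ ∩ Xᵢ, and contains an element xᵢ with Sᵢ^{xᵢ} = S_{i-1}) if and only if 𝓕 strongly controls p-fusion in G (whenever A is a subset of a Sylow p-subgroup S, A contains an element other than 1, and A^g ⊆ S, the element g factorises as g = y₁⋯yₙy with y ∈ N_G(S) and each yᵢ in a member Yᵢ of 𝓕 that meets S in a Sylow p-subgroup of Yᵢ, with A^{y₁⋯yᵢ} ⊆ S ∩ Yᵢ for each i). -/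
theorem result {G : Type*} [Group G] [Finite G] {p : ℕ} [Fact p.Prime] (hdiv : p ∣ Nat.card G) (𝓕 : Set (Subgroup G)) (h𝓕 : Cfsg.IsNormalSet 𝓕) : Cfsg.ControlsSylowIntersections p 𝓕 ↔ Cfsg.FamilyStronglyControlsFusion p 𝓕 :=
  ⟨forward 𝓕 h𝓕, backward 𝓕 h𝓕⟩

end Cfsg.Agent.S2939
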