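import Cfsg.Statements.S2940
import Cfsg.Agent.Lib.H13.Weak

set_option autoImplicit false
open Cfsg

namespace Cfsg.Agent.S2940

open Cfsg.Agent.H13

/-- Let S be a Sylow p-subgroup of the finite group G and G₁, G₂ subgroups containing S with G = G₁G₂. Then for every g ∈ G there is a Sylow p-subgroup U of G with S ∩ S^g ≤ U ≤ G₁ ∩ G₂^g (conjugates taken as X^g = g⁻¹Xg). -/
theorem result {G : Type*} [Group G] [Finite G] {p : ℕ} [Fact p.Prime] (S : Sylow p G) (G₁ G₂ : Subgroup G) (h1 : (S : Subgroup G) ≤ G₁) (h2 : (S : Subgroup G) ≤ G₂) (hfact : ∀ g : G, ∃ g₁ ∈ G₁, ∃ g₂ ∈ G₂, g = g₁ * g₂) (g : G) : ∃ U : Sylow p G, (S : Subgroup G) ⊓ Cfsg.subgroupConjRight g (S : Subgroup G) ≤ (U : Subgroup G) ∧ (U : Subgroup G) ≤ G₁ ⊓ Cfsg.subgroupConjRight g G₂ := by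
  obtain ⟨a, ha, b, hb, hab⟩ := hfact g⁻¹
  -- G₂^g = a G₂ a⁻¹
  have hG₂ : Cfsg.subgroupConjRight g G₂ = G₂.map (MulAut.conj a).toMonoidHom := by
    unfold Cfsg.subgroupConjRight
    rw [hab, ← map_conj_mul, map_conj_eq_of_mem_normalizer (g := b) (Q := G₂) (Subgroup.le_normalizer hb)]
  let W : Subgroup G := G₁ ⊓ Cfsg.subgroupConjRight g G₂
  let U₀ : Sylow p G := a • S
  have hU₀ : (U₀ : Subgroup G) = (S : Subgroup G).map (MulAut.conj a).toMonoidHom := rfl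
  have hU₀W : (U₀ : Subgroup G) ≤ W := by
    refine le_inf ?_ ?_
    · rw [hU₀]
      rintro _ ⟨s, hs, rfl⟩
      exact G₁.mul_mem (G₁.mul_mem ha (h1 hs)) (G₁.inv_mem ha)
    · rw [hU₀, hG₂]
      exact Subgroup.map_mono h2
  have hD : (S : Subgroup G) ⊓ Cfsg.subgroupConjRight g (S : Subgroup G) ≤ W := by
    refine le_inf (inf_le_left.trans h1) (inf_le_right.trans ?_)
    exact Subgroup.map_mono h2
  obtain ⟨T, hT⟩ := exists_sylow_subgroup_le (K := W) hD (S.2.to_le inf_le_left)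
  obtain ⟨w, hw⟩ := MulAction.exists_smul_eq W (U₀.subtype hU₀W) T
  refine ⟨(w : G) • U₀, ?_, ?_⟩
  · refine hT.trans ?_
    rw [← hw, Sylow.smul_subtype]
    rintro _ ⟨t, ht, rfl⟩
    exact ht
  · rintro _ ⟨u, hu, rfl⟩
    exact W.mul_mem (W.mul_mem w.2 (hU₀W hu)) (W.inv_mem w.2)

end Cfsg.Agent.S2940
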