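import Cfsg.Statements.S2955
import Cfsg.Agent.Lib.H13.SylowControl

set_option autoImplicit false
open Cfsg

namespace Cfsg.Agent.S2955

open Cfsg.Agent.H13

/-- Let p be a prime dividing the order of the finite group G and 𝓕 a conjugation-closed family of subgroups that controls Sylow p-intersections in G. Suppose the Sylow p-subgroups of G are chain-connected: any two of them are joined by a chain of Sylow p-subgroups, consecutive ones distinct with nontrivial intersection, all containing the intersection of the two ends (equivalently, the graph on the Sylow p-subgroups whose edges are the distinct pairs meeting nontrivially is connected). Then for every Sylow p-subgroup S, G is generated by N_G(S) together with the members of 𝓕 that meet S in a Sylow p-subgroup of themselves. -/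
theorem result {G : Type*} [Group G] [Finite G] (p : ℕ) [Fact p.Prime] (hdiv : p ∣ Nat.card G)
    (𝓕 : Set (Subgroup G)) (h𝓕 : Cfsg.IsNormalSet 𝓕) (hc : Cfsg.ControlsSylowIntersections p 𝓕)
    (hconn : Cfsg.IsSylowChainConnected p G) (S : Sylow p G) :
    (⨆ X ∈ Cfsg.sylowMembers p 𝓕 (S : Subgroup G), X) ⊔ Subgroup.normalizer ((S : Subgroup G) : Set G) = ⊤ := by
  set H := (⨆ X ∈ Cfsg.sylowMembers p 𝓕 (S : Subgroup G), X) ⊔ Subgroup.normalizer ((S : Subgroup G) : Set G) with hH
  have hXH : ∀ X ∈ Cfsg.sylowMembers p 𝓕 (S : Subgroup G), X ≤ H :=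
    fun X hX => le_sup_of_le_left (le_iSup₂_of_le X hX le_rfl)
  have hNH : Subgroup.normalizer ((S : Subgroup G) : Set G) ≤ H := le_sup_right
  have inner : ∀ h : G, h ∈ H → ∀ X ∈ Cfsg.sylowMembers p 𝓕 ((S : Subgroup G).map (MulAut.conj h).toMonoidHom), X ≤ H := by
    intro h hh X hX
    have h0 := sylowMembers_map_conj h𝓕 hX h⁻¹
    rw [map_conj_inv_map_conj] at h0
    have h1 := hXH _ h0
    intro x hx
    have h2 : h⁻¹ * x * h ∈ H := by
      have := h1 (conj_mem_map_conj hx)
      simpa using this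
    have := H.mul_mem (H.mul_mem hh h2) (H.inv_mem hh)
    simpa [mul_assoc] using this
  have chain_step : ∀ T₁ T₂ : Sylow p G, T₁ ≠ T₂ → (T₁ : Subgroup G) ⊓ (T₂ : Subgroup G) ≠ ⊥ →
      (∃ h ∈ H, (T₁ : Subgroup G) = (S : Subgroup G).map (MulAut.conj h).toMonoidHom) →
      ∃ h ∈ H, (T₂ : Subgroup G) = (S : Subgroup G).map (MulAut.conj h).toMonoidHom := by
    rintro T₁ T₂ hne hbot ⟨h, hh, hT₁⟩
    obtain ⟨m, d, X, x, hd0, hdl, hall⟩ := hc T₁ T₂ hne hbot
    have key : ∀ k (hk : k < m + 1), ∃ h' ∈ H, (d ⟨k, hk⟩ : Subgroup G) = (S : Subgroup G).map (MulAut.conj h').toMonoidHom := by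
      intro k
      induction k with
      | zero =>
        intro hk
        refine ⟨h, hh, ?_⟩
        have : (⟨0, hk⟩ : Fin (m + 1)) = 0 := rfl
        rw [this, hd0, hT₁]
      | succ k ih =>
        intro hk
        obtain ⟨h', hh', hT⟩ := ih (Nat.lt_of_succ_lt hk)
        let i : Fin m := ⟨k, Nat.lt_of_succ_lt_succ hk⟩
        have hi := hall i
        have h1 : i.castSucc = (⟨k, Nat.lt_of_succ_lt hk⟩ : Fin (m + 1)) := rfl
        have h2 : i.succ = (⟨k + 1, hk⟩ : Fin (m + 1)) := rfl
        rw [h1, h2] at hi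
        obtain ⟨hi1, -, hi3, hi4, -⟩ := hi
        rw [hT] at hi1
        have hxH : x i ∈ H := inner h' hh' _ hi1 hi3
        rw [subgroupConjRight_eq, hT] at hi4
        refine ⟨x i * h', H.mul_mem hxH hh', ?_⟩
        rw [← map_conj_mul, ← hi4, map_conj_map_conj_inv]
    have := key m (Nat.lt_succ_self m)
    have h3 : (⟨m, Nat.lt_succ_self m⟩ : Fin (m + 1)) = Fin.last m := rfl
    rw [h3, hdl] at this
    exact this
  have hall : ∀ T : Sylow p G, ∃ h ∈ H, (T : Subgroup G) = (S : Subgroup G).map (MulAut.conj h).toMonoidHom := by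
    intro T
    obtain ⟨n, c, hc0, hcl, -, hstep⟩ := hconn S T
    have key : ∀ k (hk : k < n + 1), ∃ h' ∈ H, (c ⟨k, hk⟩ : Subgroup G) = (S : Subgroup G).map (MulAut.conj h').toMonoidHom := by
      intro k
      induction k with
      | zero =>
        intro hk
        refine ⟨1, H.one_mem, ?_⟩
        have : (⟨0, hk⟩ : Fin (n + 1)) = 0 := rfl
        rw [this, hc0, map_conj_one]
      | succ k ih =>
        intro hk
        let i : Fin n := ⟨k, Nat.lt_of_succ_lt_succ hk⟩
        have h1 : i.castSucc = (⟨k, Nat.lt_of_succ_lt hk⟩ : Fin (n + 1)) := rfl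
        have h2 : i.succ = (⟨k + 1, hk⟩ : Fin (n + 1)) := rfl
        have hi := hstep i
        rw [h1, h2] at hi
        exact chain_step _ _ hi.1 hi.2 (ih (Nat.lt_of_succ_lt hk))
    have := key n (Nat.lt_succ_self n)
    have h3 : (⟨n, Nat.lt_succ_self n⟩ : Fin (n + 1)) = Fin.last n := rfl
    rw [h3, hcl] at this
    exact this
  rw [eq_top_iff]
  intro g _
  obtain ⟨h, hh, hT⟩ := hall (g • S)
  have h1 : h⁻¹ * g ∈ Subgroup.normalizer ((S : Subgroup G) : Set G) := by
    apply mem_normalizer_of_map_conj_eq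
    rw [← map_conj_mul]
    have h2 : ((g • S : Sylow p G) : Subgroup G) = (S : Subgroup G).map (MulAut.conj g).toMonoidHom := rfl
    rw [← h2, hT, map_conj_inv_map_conj]
  have h2 := H.mul_mem hh (hNH h1)
  simpa using h2

end Cfsg.Agent.S2955
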