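import Cfsg.Statements.S2956
import Cfsg.Agent.Lib.H13.FunctorChain2

set_option autoImplicit false

open Cfsg

namespace Cfsg.Agent.S2956

open Cfsg.Agent.H13

theorem result {G : Type*} [Group G] [Finite G] (p : ℕ) [Fact p.Prime] (hdiv : p ∣ Nat.card G)
    (f : Subgroup G → Set (Subgroup G)) (hf : Cfsg.IsNormalizerFunctor p f)
    (hf1 : ∀ P : Subgroup G, IsPGroup p ↥P → P ≠ ⊥ → ∀ F ∈ f P, F ≠ ⊥)
    (𝓕 𝓕' : Set (Subgroup G)) (h𝓕 : 𝓕 = Cfsg.functorFamily p f ⊤)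
    (h𝓕' : 𝓕' = {M | Cfsg.IsMaximalPLocal p M ∧ ¬ Cfsg.IsFunctorRegular p f M}) :
    Cfsg.ControlsSylowIntersections p (𝓕 ∪ 𝓕') := by
  subst h𝓕 h𝓕'
  apply controls_of_linked
  intro S T hne hbot
  exact functor_claim hf hf1 _ _ rfl hbot S T inf_le_left inf_le_right

end Cfsg.Agent.S2956
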