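import Cfsg.Statements.S2957
import Cfsg.Agent.Lib.H13.FunctorChain

set_option autoImplicit false

open Cfsg

namespace Cfsg.Agent.S2957

open Cfsg.Agent.H13

theorem result {G : Type*} [Group G] [Finite G] (p : ℕ) [Fact p.Prime] (hdiv : p ∣ Nat.card G)
    (f : Subgroup G → Set (Subgroup G)) (hf : Cfsg.IsNormalizerFunctor p f) (S : Sylow p G)
    (G₁ G₂ : Subgroup G) (h₁ : (S : Subgroup G) ≤ G₁) (h₂ : (S : Subgroup G) ≤ G₂)
    (hprod : ∀ g : G, ∃ g₁ ∈ G₁, ∃ g₂ ∈ G₂, g = g₁ * g₂)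
    (hr₁ : Cfsg.IsFunctorRegular p f G₁) (hr₂ : Cfsg.IsFunctorRegular p f G₂) :
    Cfsg.IsFunctorRegular p f ⊤ := by
  have hn := isNormalSet_functorFamily (p := p) hf
  apply regular_top_of_linked hf
  intro V V' hne hbot
  obtain ⟨h, hh⟩ := MulAction.exists_smul_eq G S V
  obtain ⟨g, hg⟩ := MulAction.exists_smul_eq G S (h⁻¹ • V')
  set T : Sylow p G := h⁻¹ • V' with hT
  -- reduce to `S`
  set D₀ : Subgroup G := (S : Subgroup G) ⊓ (T : Subgroup G) with hD₀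
  have hDconj : D₀.map (MulAut.conj h).toMonoidHom = (V : Subgroup G) ⊓ (V' : Subgroup G) := by
    rw [hD₀, map_conj_inf, ← coe_smul_sylow, hh, ← coe_smul_sylow, hT, smul_smul]
    simp
  have hD₀bot : D₀ ≠ ⊥ := by
    intro h0
    apply hbot
    rw [← hDconj, h0, Subgroup.map_bot]
  suffices hmain : SLinked p (functorFamily p f ⊤) D₀ S T by
    have := hmain.conj hn h
    rw [hDconj, hh, hT, smul_smul] at this
    simpa using this
  -- decomposition of `g`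
  obtain ⟨a, ha, b, hb, hab⟩ := hprod g⁻¹
  have hga : g = b⁻¹ * a⁻¹ := by
    have : g = (g⁻¹)⁻¹ := by simp
    rw [this, hab]
    group
  set g₁ := a⁻¹ with hg₁
  set g₂ := b⁻¹ with hg₂
  have hg₁G : g₁ ∈ G₁ := G₁.inv_mem ha
  have hg₂G : g₂ ∈ G₂ := G₂.inv_mem hb
  have hD₀S : D₀ ≤ S := inf_le_left
  have hD₀T : D₀ ≤ T := inf_le_right
  set A := D₀.map (MulAut.conj g⁻¹).toMonoidHom with hA
  have hAS : A ≤ S := by
    rw [hA, map_conj_le_iff, inv_inv, ← coe_smul_sylow, hg]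
    exact hD₀T
  have hconj_le : ∀ {K Q : Subgroup G} {x : G}, Q ≤ K → x ∈ K →
      Q.map (MulAut.conj x).toMonoidHom ≤ K := by
    rintro K Q x hQ hx _ ⟨y, hy, rfl⟩
    exact K.mul_mem (K.mul_mem hx (hQ hy)) (K.inv_mem hx)
  set B₀ := A.map (MulAut.conj g₁).toMonoidHom with hB₀
  have hB₀' : B₀ = D₀.map (MulAut.conj g₂⁻¹).toMonoidHom := by
    rw [hB₀, hA, map_conj_mul]
    congr 3
    rw [hga]
    group
  have hB₀G₁ : B₀ ≤ G₁ := hconj_le (hAS.trans h₁) hg₁G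
  have hB₀G₂ : B₀ ≤ G₂ := by
    rw [hB₀']
    exact hconj_le (hD₀S.trans h₂) (G₂.inv_mem hg₂G)
  have hAp : IsPGroup p A := S.2.to_le hAS
  have hB₀p : IsPGroup p B₀ := isPGroup_map_conj hAp
  have hSK : (S : Subgroup G) ≤ G₁ ⊓ G₂ := le_inf h₁ h₂
  obtain ⟨U, hU⟩ := exists_sylow_subgroup_le (K := G₁ ⊓ G₂) (le_inf hB₀G₁ hB₀G₂) hB₀p
  obtain ⟨n, hn'⟩ := sylow_conj U (S.subtype hSK)
  set h₀ : G := (n : G) with hh₀
  have hh₀K : h₀ ∈ G₁ ⊓ G₂ := n.2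
  have hSn : (S : Subgroup G) = ((U : Subgroup ↥(G₁ ⊓ G₂)).map (G₁ ⊓ G₂).subtype).map (MulAut.conj h₀).toMonoidHom := by
    rw [← map_subtype_conj, ← hn', Sylow.coe_subtype, Subgroup.map_subgroupOf_eq_of_le hSK]
  set k₁ := h₀ * g₁ with hk₁
  set k₂ := g₂ * h₀⁻¹ with hk₂
  have hkk : k₂ * k₁ = g := by
    rw [hk₁, hk₂, hga]
    group
  have hk₁G : k₁ ∈ G₁ := G₁.mul_mem (Subgroup.mem_inf.1 hh₀K).1 hg₁G
  have hk₂G : k₂ ∈ G₂ := G₂.mul_mem hg₂G (G₂.inv_mem (Subgroup.mem_inf.1 hh₀K).2)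
  set B := A.map (MulAut.conj k₁).toMonoidHom with hB
  have hB' : B = B₀.map (MulAut.conj h₀).toMonoidHom := by
    rw [hB₀, map_conj_mul]
  have hBS : B ≤ S := by
    rw [hB', hSn]
    exact Subgroup.map_mono hU
  have hBD : B.map (MulAut.conj k₂).toMonoidHom = D₀ := by
    rw [hB, hA, map_conj_mul, map_conj_mul]
    have : k₂ * k₁ * g⁻¹ = 1 := by
      rw [hkk]
      group
    rw [this, map_conj_one]
  have hBbot : B ≠ ⊥ := by
    intro h0
    apply hD₀bot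
    rw [← hBD, h0, Subgroup.map_bot]
  have hL₂ : SLinked p (functorFamily p f ⊤) D₀ S (k₂ • S) := by
    apply sLinked_of_regular hf h₂ hr₂ h₂ _ hD₀bot hD₀S
    · rw [coe_smul_sylow, ← hBD]
      exact Subgroup.map_mono hBS
    · rw [coe_smul_sylow]
      exact hconj_le h₂ hk₂G
  have hL₁ : SLinked p (functorFamily p f ⊤) B S (k₁ • S) := by
    apply sLinked_of_regular hf h₁ hr₁ h₁ _ hBbot hBS
    · rw [coe_smul_sylow, hB]
      exact Subgroup.map_mono hAS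
    · rw [coe_smul_sylow]
      exact hconj_le h₁ hk₁G
  have hL₃ := hL₁.conj hn k₂
  rw [hBD, smul_smul, hkk, hg] at hL₃
  exact Relation.ReflTransGen.trans hL₂ hL₃

end Cfsg.Agent.S2957
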