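import Cfsg.Statements.S2958
import Mathlib

set_option autoImplicit false
open Cfsg

namespace Cfsg.Agent.S2958

/-- Let X, A, B be subgroups of a group G such that G is generated by the conjugates of X and every conjugate of X is contained in A or in B. Then A = G or B = G. -/
theorem result {G : Type*} [Group G] (X A B : Subgroup G) (hgen : (⨆ g : G, X.map (MulAut.conj g).toMonoidHom) = ⊤) (hcover : ∀ g : G, X.map (MulAut.conj g).toMonoidHom ≤ A ∨ X.map (MulAut.conj g).toMonoidHom ≤ B) : A = ⊤ ∨ B = ⊤ := by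
  classical
  by_contra hcon
  push Not at hcon
  obtain ⟨hA, hB⟩ := hcon
  -- conjugates not in A, not in B
  have hex : ∀ C : Subgroup G, C ≠ ⊤ → ∃ g : G, ¬ X.map (MulAut.conj g).toMonoidHom ≤ C := by
    intro C hC
    by_contra h
    push Not at h
    apply hC
    rw [eq_top_iff, ← hgen]
    exact iSup_le h
  obtain ⟨g₀, hg₀⟩ := hex A hA
  obtain ⟨h₀, hh₀⟩ := hex B hB
  set A₀ : Subgroup G := ⨆ g : {g : G // ¬ X.map (MulAut.conj g).toMonoidHom ≤ B},
    X.map (MulAut.conj (g : G)).toMonoidHom with hA₀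
  have hA₀A : A₀ ≤ A := by
    refine iSup_le ?_
    rintro ⟨g, hg⟩
    exact (hcover g).resolve_right hg
  -- Elements of `B` normalize `A₀`.
  have hconj : ∀ b ∈ B, A₀.map (MulAut.conj b).toMonoidHom ≤ A₀ := by
    intro b hb
    rw [hA₀, Subgroup.map_iSup]
    refine iSup_le ?_
    rintro ⟨g, hg⟩
    rw [Subgroup.map_map]
    have hmul : ((MulAut.conj b).toMonoidHom.comp (MulAut.conj g).toMonoidHom)
        = (MulAut.conj (b * g)).toMonoidHom := by
      ext x; simp [MulAut.conj_apply]
    rw [hmul]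
    have hnot : ¬ X.map (MulAut.conj (b * g)).toMonoidHom ≤ B := by
      intro hle
      apply hg
      intro y hy
      obtain ⟨x, hx, rfl⟩ := hy
      have : (MulAut.conj (b * g)).toMonoidHom x ∈ B := hle ⟨x, hx, rfl⟩
      have h2 : b⁻¹ * ((MulAut.conj (b * g)).toMonoidHom x) * b ∈ B :=
        B.mul_mem (B.mul_mem (B.inv_mem hb) this) hb
      simpa [MulAut.conj_apply, mul_assoc] using h2
    exact le_iSup (fun g : {g : G // ¬ X.map (MulAut.conj g).toMonoidHom ≤ B} =>
      X.map (MulAut.conj (g : G)).toMonoidHom) ⟨b * g, hnot⟩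
  -- Every conjugate of `X` normalizes `A₀`; so `A₀` is normal.
  have hle : (⊤ : Subgroup G) ≤ Subgroup.normalizer (A₀ : Set G) := by
    rw [← hgen]
    refine iSup_le fun g => ?_
    by_cases hg : X.map (MulAut.conj g).toMonoidHom ≤ B
    · -- elements of B
      intro x hx
      have hxB := hg hx
      have h1 := hconj x hxB
      have h2 := hconj x⁻¹ (B.inv_mem hxB)
      rw [Subgroup.mem_normalizer_iff]
      intro y
      constructor
      · intro hy
        exact h1 ⟨y, hy, by simp [MulAut.conj_apply]⟩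
      · intro hy
        have := h2 ⟨x * y * x⁻¹, hy, rfl⟩
        simpa [MulAut.conj_apply, mul_assoc] using this
    · have hle : X.map (MulAut.conj g).toMonoidHom ≤ A₀ :=
        le_iSup (fun g : {g : G // ¬ X.map (MulAut.conj g).toMonoidHom ≤ B} =>
          X.map (MulAut.conj (g : G)).toMonoidHom) ⟨g, hg⟩
      exact hle.trans (Subgroup.le_normalizer)
  have hnorm : A₀.Normal := by
    rw [← Subgroup.normalizer_eq_top_iff]
    exact top_le_iff.mp hle
  -- contains X^{h₀}, hence all conjugates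
  have hh : X.map (MulAut.conj h₀).toMonoidHom ≤ A₀ :=
    le_iSup (fun g : {g : G // ¬ X.map (MulAut.conj g).toMonoidHom ≤ B} =>
      X.map (MulAut.conj (g : G)).toMonoidHom) ⟨h₀, hh₀⟩
  apply hg₀
  intro y hy
  obtain ⟨x, hx, rfl⟩ := hy
  apply hA₀A
  have hx0 : (MulAut.conj h₀).toMonoidHom x ∈ A₀ := hh ⟨x, hx, rfl⟩
  have := hnorm.conj_mem _ hx0 (g₀ * h₀⁻¹)
  simpa [MulAut.conj_apply, mul_assoc] using this

end Cfsg.Agent.S2958
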