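import Cfsg.Statements.S2960
import Cfsg.Agent.Lib.H13.Quadratic

set_option autoImplicit false
open Cfsg

namespace Cfsg.Agent.S2960

open Cfsg.Agent.H13
open scoped commutatorElement

/-- Let G be a finite group of characteristic p (C_G(O_p(G)) ≤ O_p(G)), p prime, T a Sylow p-subgroup of G and Q a normal subgroup of T with C_T(Q) ≤ Q. Then C_G(Q) ≤ Q. -/
theorem result {G : Type*} [Group G] [Finite G] {p : ℕ} [Fact p.Prime] (hG : Subgroup.centralizer (Cfsg.pCore p G : Set G) ≤ Cfsg.pCore p G) (T : Sylow p G) (Q : Subgroup G) (hQT : Q ≤ (T : Subgroup G)) (hQn : (T : Subgroup G) ≤ Subgroup.normalizer (Q : Set G)) (hC : (T : Subgroup G) ⊓ Subgroup.centralizer (Q : Set G) ≤ Q) : Subgroup.centralizer (Q : Set G) ≤ Q := by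
  set P := pCore p G with hPdef
  have hPp : IsPGroup p P := isPGroup_pCore
  have hPn : P.Normal := inferInstance
  have hPT : P ≤ T := pCore_le_sylow T
  set D := Subgroup.centralizer (Q : Set G) with hD
  have hDp : IsPGroup p D := by
    apply isPGroup_of_quadratic hPp (fun x _ => by
      rw [Subgroup.mem_normalizer_iff]
      intro u
      exact ⟨fun h => hPn.conj_mem _ h _, fun h => by
        have := hPn.conj_mem _ h x⁻¹
        simpa [mul_assoc] using this⟩) hG
    intro x hx u hu
    have h1 : ⁅u, x⁆ ∈ P := by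
      rw [commutatorElement_def]
      have h0 : u * x * u⁻¹ * x⁻¹ = u * (x * u⁻¹ * x⁻¹) := by group
      rw [h0]
      apply P.mul_mem hu
      exact hPn.conj_mem _ (P.inv_mem hu) _
    have h2 : ⁅u, x⁆ ∈ D := by
      rw [commutatorElement_def]
      refine D.mul_mem ?_ (D.inv_mem hx)
      -- u normalizes D
      have huN := hQn (hPT hu)
      rw [hD, Subgroup.mem_centralizer_iff] at hx ⊢
      intro q hq
      have hq' : u⁻¹ * q * u ∈ Q := by
        have := (Subgroup.mem_normalizer_iff.mp huN (u⁻¹ * q * u)).mpr (by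
          have : u * (u⁻¹ * q * u) * u⁻¹ = q := by group
          rw [this]; exact hq)
        exact this
      have h4 := hx _ hq'
      calc q * (u * x * u⁻¹) = u * ((u⁻¹ * q * u) * x) * u⁻¹ := by group
        _ = u * (x * (u⁻¹ * q * u)) * u⁻¹ := by rw [h4]
        _ = _ := by group
    have h3 : ⁅u, x⁆ ∈ Q := hC ⟨hPT h1, h2⟩
    rw [hD, Subgroup.mem_centralizer_iff] at hx
    exact hx _ h3
  -- T normalizes D, so TD is a p-group, D ≤ T
  have hTN : (T : Subgroup G) ≤ Subgroup.normalizer (D : Set G) := by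
    intro t ht
    have h1 := hQn ht
    have h2 := map_conj_eq_of_mem_normalizer h1
    apply mem_normalizer_of_map_conj_eq
    rw [hD, map_conj_centralizer, h2]
  have hDT : D ≤ T := by
    have hsup : IsPGroup p ((T : Subgroup G) ⊔ D : Subgroup G) :=
      IsPGroup.to_sup_of_normal_right' T.2 hDp hTN
    exact (T.is_maximal' hsup le_sup_left) ▸ le_sup_right
  exact fun x hx => hC ⟨hDT hx, hx⟩

end Cfsg.Agent.S2960
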