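import Cfsg.Statements.S2961
import Cfsg.Agent.Lib.H13.KeyChar2

set_option autoImplicit false
open Cfsg

namespace Cfsg.Agent.S2961

open Cfsg.Agent.H13
open scoped commutatorElement

theorem result {G : Type*} [Group G] [Finite G] {p : ℕ} [Fact p.Prime] (hG : Subgroup.centralizer (Cfsg.pCore p G : Set G) ≤ Cfsg.pCore p G) (T : Sylow p G) (Q : Subgroup G) (hQT : Q ≤ (T : Subgroup G)) (hQn : (T : Subgroup G) ≤ Subgroup.normalizer (Q : Set G)) (hC : (T : Subgroup G) ⊓ Subgroup.centralizer (Q : Set G) ≤ Q) (L : Subgroup G) (hQL : Q ≤ L) : Subgroup.centralizer (Cfsg.pCore p ↥L : Set ↥L) ≤ Cfsg.pCore p ↥L := by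
  set P := pCore p G with hP
  have hPn : P.Normal := pCore_normal p G
  have hPT : P ≤ (T : Subgroup G) := pCore_le_sylow T
  have hPQ : P ≤ Subgroup.normalizer (Q : Set G) := hPT.trans hQn
  have hPp : IsPGroup p P := isPGroup_pCore
  have hN : ∀ g : G, g ∈ Subgroup.normalizer (P : Set G) := by
    intro g
    rw [Subgroup.normalizer_eq_top_iff.mpr hPn]
    trivial
  have hQC : Subgroup.centralizer (Q : Set G) ≤ Q := by
    set W := Subgroup.centralizer (Q : Set G) with hW
    have h1 : ⁅⁅Q, P⁆, W⁆ = ⊥ := by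
      have h2 : ⁅Q, P⁆ ≤ Q := commutator_le_left_of_le_normalizer hPQ
      rw [Subgroup.commutator_comm, Subgroup.commutator_eq_bot_iff_le_centralizer]
      exact Subgroup.centralizer_le h2
    have h2 : ⁅⁅W, Q⁆, P⁆ = ⊥ := by
      have h3 : ⁅W, Q⁆ = ⊥ := by
        rw [Subgroup.commutator_eq_bot_iff_le_centralizer]
      rw [h3, Subgroup.commutator_bot_left]
    have h3 : ⁅⁅P, W⁆, Q⁆ = ⊥ := Subgroup.commutator_commutator_eq_bot_of_rotate h2 h1
    have h4 : ⁅P, W⁆ ≤ P ⊓ Subgroup.centralizer (Q : Set G) := by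
      refine le_inf (commutator_le_left_of_le_normalizer (fun q _ => hN q)) ?_
      rwa [Subgroup.commutator_eq_bot_iff_le_centralizer] at h3
    have h5 : ⁅P, W⁆ ≤ Q := h4.trans ((inf_le_inf_right _ hPT).trans hC)
    have hWp : IsPGroup p W := by
      apply isPGroup_of_quadratic hPp (fun q _ => hN q) hG
      intro x hx u hu
      have h6 : ⁅u, x⁆ ∈ Q := h5 (Subgroup.commutator_mem_commutator hu hx)
      exact Subgroup.mem_centralizer_iff.mp hx _ h6
    have hTW : (T : Subgroup G) ≤ Subgroup.normalizer (W : Set G) :=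
      hQn.trans (H01.normalizer_le_normalizer_centralizer Q)
    have hsup : IsPGroup p ((T : Subgroup G) ⊔ W : Subgroup G) :=
      IsPGroup.to_sup_of_normal_right' T.2 hWp hTW
    have hWT : W ≤ (T : Subgroup G) := (T.is_maximal' hsup le_sup_left) ▸ le_sup_right
    exact (le_inf hWT le_rfl).trans hC
  have h : KeySetting p P Q :=
    { hP := hPp, hPn := hPn, hPC := hG, hQp := T.2.to_le hQT, hQC := hQC, hPQ := hPQ }
  exact h.isCharP_of_le hQL

end Cfsg.Agent.S2961
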