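import Cfsg.Statements.S2963
import Mathlib

set_option autoImplicit false
open Cfsg

namespace Cfsg.Agent.S2963

open scoped Pointwise

theorem exists_fixed_subset {Ω : Type*} [Fintype Ω] [DecidableEq Ω] (S : Subgroup (Equiv.Perm Ω))
    (hS : IsPGroup 2 S) (D : Finset Ω) (hD : ∀ g ∈ S, g • D = D) (k : ℕ)
    (hk : Odd (D.card.choose k)) : ∃ s : Finset Ω, s ⊆ D ∧ s.card = k ∧ ∀ g ∈ S, g • s = s := by
  let A : SubMulAction S (Finset Ω) :=
    { carrier := ↑(Finset.powersetCard k D)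
      smul_mem' := by
        intro g s hs
        rw [Finset.mem_coe, Finset.mem_powersetCard] at hs ⊢
        refine ⟨?_, ?_⟩
        · have h1 : (g : Equiv.Perm Ω) • s ⊆ (g : Equiv.Perm Ω) • D := Finset.smul_finset_subset_smul_finset_iff.mpr hs.1
          rw [hD _ g.2] at h1
          exact h1
        · have : (g • s) = (g : Equiv.Perm Ω) • s := rfl
          rw [this, Finset.card_smul_finset]
          exact hs.2 }
  have hcard : Nat.card A = D.card.choose k := by
    have h1 : Nat.card A = Nat.card (↑(Finset.powersetCard k D) : Set (Finset Ω)) := rfl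
    rw [h1, Nat.card_coe_set_eq, Set.ncard_coe_finset, Finset.card_powersetCard]
  have hmod := hS.card_modEq_card_fixedPoints A
  rw [hcard] at hmod
  have hne : Nonempty (MulAction.fixedPoints S A) := by
    by_contra hcon
    rw [not_nonempty_iff] at hcon
    rw [Nat.card_of_isEmpty] at hmod
    have := Nat.odd_iff.mp hk
    rw [Nat.ModEq] at hmod
    omega
  obtain ⟨⟨⟨s, hs⟩, hfix⟩⟩ := hne
  have hs' : s ∈ Finset.powersetCard k D := hs
  rw [Finset.mem_powersetCard] at hs'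
  refine ⟨s, hs'.1, hs'.2, ?_⟩
  intro g hg
  have := hfix ⟨g, hg⟩
  exact congrArg Subtype.val this

theorem swap_smul_eq {Ω : Type*} [DecidableEq Ω] {a b : Ω} {D : Finset Ω} (h : a ∈ D ↔ b ∈ D) :
    (Equiv.swap a b) • D = D := by
  ext x
  rw [Finset.mem_smul_finset]
  constructor
  · rintro ⟨y, hy, rfl⟩
    show Equiv.swap a b y ∈ D
    by_cases hya : y = a
    · subst hya
      rw [Equiv.swap_apply_left]
      exact h.mp hy
    by_cases hyb : y = b
    · subst hyb
      rw [Equiv.swap_apply_right]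
      exact h.mpr hy
    rwa [Equiv.swap_apply_of_ne_of_ne hya hyb]
  · intro hx
    refine ⟨Equiv.swap a b x, ?_, ?_⟩
    · by_cases hya : x = a
      · subst hya
        rw [Equiv.swap_apply_left]
        exact h.mp hx
      by_cases hyb : x = b
      · subst hyb
        rw [Equiv.swap_apply_right]
        exact h.mpr hx
      rwa [Equiv.swap_apply_of_ne_of_ne hya hyb]
    · show Equiv.swap a b (Equiv.swap a b x) = x
      simp

theorem odd_choose_pow (a : ℕ) : ∀ n : ℕ, Odd (n / 2 ^ a) → Odd (n.choose (2 ^ a)) := by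
  induction a with
  | zero =>
    intro n h
    simpa using h
  | succ a ih =>
    intro n h
    haveI : Fact (Nat.Prime 2) := ⟨Nat.prime_two⟩
    have h1 := Choose.choose_modEq_choose_mod_mul_choose_div_nat (n := n) (k := 2 ^ (a + 1)) (p := 2)
    have h2 : 2 ^ (a + 1) % 2 = 0 := by
      rw [pow_succ]; omega
    have h3 : 2 ^ (a + 1) / 2 = 2 ^ a := by
      rw [pow_succ]; omega
    rw [h2, h3, Nat.choose_zero_right, one_mul] at h1
    have h4 : n / 2 / 2 ^ a = n / 2 ^ (a + 1) := by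
      rw [Nat.div_div_eq_div_mul, pow_succ, mul_comm]
    have h5 := ih (n / 2) (by rw [h4]; exact h)
    rw [Nat.odd_iff] at h5 ⊢
    rw [Nat.ModEq] at h1
    omega

/-- Let n be odd. If the symmetric group of degree n is a minimal parabolic group for the prime 2, that is, a Sylow 2-subgroup is not normal and lies in exactly one maximal subgroup, then n = 2^m + 1 for some natural number m. -/
theorem result (n : ℕ) (hn : Odd n) (h : Cfsg.IsPMinimal 2 (Equiv.Perm (Fin n))) : ∃ m : ℕ, n = 2 ^ m + 1 := by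
  classical
  haveI : Fact (Nat.Prime 2) := ⟨Nat.prime_two⟩
  by_contra hcon
  push Not at hcon
  obtain ⟨S⟩ : Nonempty (Sylow 2 (Equiv.Perm (Fin n))) := inferInstance
  obtain ⟨hSn, M, ⟨hM, hSM⟩, hMu⟩ := h S
  have hn1 : 1 ≤ n := hn.pos
  have hn1' : n ≠ 1 := by
    rintro rfl
    apply hSn
    haveI : Subsingleton (Equiv.Perm (Fin 1)) := inferInstance
    constructor
    intro x hx g
    have : g * x * g⁻¹ = x := Subsingleton.elim _ _
    rwa [this]
  -- arithmetic
  obtain ⟨q, hq⟩ : ∃ q, n = 2 * q + 1 := hn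
  have hq0 : q ≠ 0 := by
    rintro rfl
    omega
  set Q := 2 * q with hQ
  have hQ0 : Q ≠ 0 := by omega
  set a₁ := Nat.log 2 Q with ha₁
  have h1 : 2 ^ a₁ ≤ Q := Nat.pow_log_le_self 2 hQ0
  have h2 : Q < 2 ^ (a₁ + 1) := Nat.lt_pow_succ_log_self (by norm_num) Q
  have ha₁0 : a₁ ≠ 0 := by
    intro h0
    rw [h0] at h2
    omega
  obtain ⟨a₁', ha₁'⟩ := Nat.exists_eq_succ_of_ne_zero ha₁0
  have hev : 2 ^ a₁ = 2 * 2 ^ a₁' := by rw [ha₁', pow_succ]; ring
  have hne : Q ≠ 2 ^ a₁ := by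
    intro h0
    exact hcon a₁ (by omega)
  set r := Q - 2 ^ a₁ with hr
  have hr0 : r ≠ 0 := by omega
  have hrev : r % 2 = 0 := by omega
  have hrlt : r < 2 ^ a₁ := by
    have : 2 ^ (a₁ + 1) = 2 * 2 ^ a₁ := by rw [pow_succ]; ring
    omega
  set a₂ := Nat.log 2 r with ha₂
  have h3 : 2 ^ a₂ ≤ r := Nat.pow_log_le_self 2 hr0
  have h4 : r < 2 ^ (a₂ + 1) := Nat.lt_pow_succ_log_self (by norm_num) r
  have h4' : r + 1 < 2 ^ (a₂ + 1) := by
    have : 2 ^ (a₂ + 1) = 2 * 2 ^ a₂ := by rw [pow_succ]; ring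
    omega
  -- odd binomials
  have hodd1 : Odd (n.choose (2 ^ a₁)) := by
    apply odd_choose_pow
    have : n / 2 ^ a₁ = 1 := by
      apply Nat.div_eq_of_lt_le
      · omega
      · have : 2 ^ (a₁ + 1) = 2 * 2 ^ a₁ := by rw [pow_succ]; ring
        omega
    rw [this]
    exact odd_one
  have hodd2 : Odd ((r + 1).choose (2 ^ a₂)) := by
    apply odd_choose_pow
    have : (r + 1) / 2 ^ a₂ = 1 := by
      apply Nat.div_eq_of_lt_le
      · omega
      · have : 2 ^ (a₂ + 1) = 2 * 2 ^ a₂ := by rw [pow_succ]; ring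
        omega
    rw [this]
    exact odd_one
  have hSp : IsPGroup 2 (S : Subgroup (Equiv.Perm (Fin n))) := S.2
  obtain ⟨D₁, -, hD₁c, hD₁f⟩ := exists_fixed_subset (S : Subgroup (Equiv.Perm (Fin n))) hSp Finset.univ
    (by intro g _; simp) (2 ^ a₁) (by simpa using hodd1)
  have hD₁cc : (D₁ᶜ).card = r + 1 := by
    rw [Finset.card_compl, hD₁c, Fintype.card_fin]
    omega
  have hcf : ∀ g ∈ (S : Subgroup (Equiv.Perm (Fin n))), g • D₁ᶜ = D₁ᶜ := by
    intro g hg
    ext x
    have h0 := hD₁f g hg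
    rw [Finset.mem_smul_finset]
    constructor
    · rintro ⟨y, hy, rfl⟩
      rw [Finset.mem_compl] at hy ⊢
      intro h1
      rw [← h0, Finset.smul_mem_smul_finset_iff] at h1
      exact hy h1
    · intro hx
      refine ⟨g⁻¹ • x, ?_, by simp⟩
      rw [Finset.mem_compl] at hx ⊢
      intro h1
      apply hx
      rw [← h0]
      have := Finset.smul_mem_smul_finset (a := g) h1
      simpa using this
  obtain ⟨D₂, hD₂s, hD₂c, hD₂f⟩ := exists_fixed_subset (S : Subgroup (Equiv.Perm (Fin n))) hSp D₁ᶜ hcf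
    (2 ^ a₂) (by rw [hD₁cc]; exact hodd2)
  -- stabilizers
  let H₁ : Subgroup (Equiv.Perm (Fin n)) := MulAction.stabilizer (Equiv.Perm (Fin n)) D₁
  let H₂ : Subgroup (Equiv.Perm (Fin n)) := MulAction.stabilizer (Equiv.Perm (Fin n)) D₂
  have hSH₁ : (S : Subgroup (Equiv.Perm (Fin n))) ≤ H₁ := fun g hg => hD₁f g hg
  have hSH₂ : (S : Subgroup (Equiv.Perm (Fin n))) ≤ H₂ := fun g hg => hD₂f g hg
  have hdisj : ∀ x, x ∈ D₂ → x ∉ D₁ := by
    intro x hx
    have := hD₂s hx
    simpa using this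
  have hne1 : H₁ ≠ ⊤ := by
    intro htop
    have hc1 : D₁.Nonempty := by
      rw [← Finset.card_pos, hD₁c]; positivity
    have hc2 : (D₁ᶜ).Nonempty := by
      rw [← Finset.card_pos, hD₁cc]; omega
    obtain ⟨a, ha⟩ := hc1
    obtain ⟨b, hb⟩ := hc2
    have hmem : Equiv.swap a b ∈ H₁ := by rw [htop]; trivial
    have h5 : Equiv.swap a b • D₁ = D₁ := hmem
    have h6 : Equiv.swap a b a ∈ Equiv.swap a b • D₁ := Finset.smul_mem_smul_finset ha
    rw [h5, Equiv.swap_apply_left] at h6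
    simp at hb
    exact hb h6
  have hne2 : H₂ ≠ ⊤ := by
    intro htop
    have hc1 : D₂.Nonempty := by
      rw [← Finset.card_pos, hD₂c]; positivity
    have hc2 : (D₂ᶜ).Nonempty := by
      rw [← Finset.card_pos, Finset.card_compl, hD₂c, Fintype.card_fin]
      omega
    obtain ⟨a, ha⟩ := hc1
    obtain ⟨b, hb⟩ := hc2
    have hmem : Equiv.swap a b ∈ H₂ := by rw [htop]; trivial
    have h5 : Equiv.swap a b • D₂ = D₂ := hmem
    have h6 : Equiv.swap a b a ∈ Equiv.swap a b • D₂ := Finset.smul_mem_smul_finset ha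
    rw [h5, Equiv.swap_apply_left] at h6
    simp at hb
    exact hb h6
  obtain ⟨C₁, hC₁, hHC₁⟩ := (eq_top_or_exists_le_coatom H₁).resolve_left hne1
  obtain ⟨C₂, hC₂, hHC₂⟩ := (eq_top_or_exists_le_coatom H₂).resolve_left hne2
  have hC₁M := hMu C₁ ⟨hC₁, hSH₁.trans hHC₁⟩
  have hC₂M := hMu C₂ ⟨hC₂, hSH₂.trans hHC₂⟩
  rw [hC₁M] at hHC₁
  rw [hC₂M] at hHC₂
  -- a point outside both
  obtain ⟨c, hc⟩ : (D₁ ∪ D₂)ᶜ.Nonempty := by
    rw [← Finset.card_pos, Finset.card_compl, Fintype.card_fin]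
    have h7 := Finset.card_union_le D₁ D₂
    rw [hD₁c, hD₂c] at h7
    omega
  have hc1 : c ∉ D₁ := by
    simp at hc
    exact hc.1
  have hc2 : c ∉ D₂ := by
    simp at hc
    exact hc.2
  have hswap : ∀ a b : Fin n, a ∈ D₁ → b ∈ D₂ → Equiv.swap a b ∈ M := by
    intro a b ha hb
    have hac : a ≠ c := fun h0 => hc1 (h0 ▸ ha)
    have hab : a ≠ b := fun h0 => hdisj b hb (h0 ▸ ha)
    have h8 : Equiv.swap c b ∈ M := hHC₁ (swap_smul_eq (by
      simp [hc1, hdisj b hb]))
    have h9 : Equiv.swap a c ∈ M := hHC₂ (swap_smul_eq (by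
      have : a ∉ D₂ := fun h0 => hdisj a h0 ha
      simp [hc2, this]))
    have := Equiv.swap_mul_swap_mul_swap hac hab
    rw [Equiv.swap_comm a b, ← this]
    exact M.mul_mem (M.mul_mem h8 h9) h8
  apply hM.1
  rw [eq_top_iff, ← Equiv.Perm.closure_isSwap, Subgroup.closure_le]
  rintro _ ⟨a, b, hab, rfl⟩
  by_cases h10 : a ∈ D₁ ↔ b ∈ D₁
  · exact hHC₁ (swap_smul_eq h10)
  by_cases h11 : a ∈ D₂ ↔ b ∈ D₂
  · exact hHC₂ (swap_smul_eq h11)
  by_cases ha1 : a ∈ D₁
  · have hb1 : b ∉ D₁ := fun h0 => h10 ⟨fun _ => h0, fun _ => ha1⟩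
    have ha2 : a ∉ D₂ := fun h0 => hdisj a h0 ha1
    have hb2 : b ∈ D₂ := by
      by_contra h0
      exact h11 ⟨fun h => absurd h ha2, fun h => absurd h h0⟩
    exact hswap a b ha1 hb2
  · have hb1 : b ∈ D₁ := by
      by_contra h0
      exact h10 ⟨fun h => absurd h ha1, fun h => absurd h h0⟩
    have hb2 : b ∉ D₂ := fun h0 => hdisj b h0 hb1
    have ha2 : a ∈ D₂ := by
      by_contra h0
      exact h11 ⟨fun h => absurd h h0, fun h => absurd h hb2⟩
    rw [Equiv.swap_comm]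
    exact hswap b a hb1 ha2

end Cfsg.Agent.S2963
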