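import Cfsg.Statements.S2998
import Cfsg.Agent.Lib.H13.Isolated

set_option autoImplicit false
open Cfsg

namespace Cfsg.Agent.S2998

open Cfsg.Agent.H13

variable {G : Type*} [Group G] {p : ℕ}

/-- local centrality for conjugates -/
theorem local_conj (P : Subgroup G) (x : G)
    (hlc : ∀ R : Subgroup G, R ≤ P → R ≠ ⊥ → Subgroup.normalizer (R : Set G) ≤ Subgroup.centralizer ({x} : Set G))
    (a : G) (R : Subgroup G) (hR : R ≤ P.map (MulAut.conj a).toMonoidHom) (hR1 : R ≠ ⊥)
    (h : G) (hh : h ∈ Subgroup.normalizer (R : Set G)) : h * (a * x * a⁻¹) = (a * x * a⁻¹) * h := by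
  have h1 : R.map (MulAut.conj a⁻¹).toMonoidHom ≤ P := by
    rw [map_conj_le_iff, inv_inv]
    exact hR
  have h2 : R.map (MulAut.conj a⁻¹).toMonoidHom ≠ ⊥ := by
    intro h0
    apply hR1
    have := map_conj_map_conj_inv a R
    rw [h0, Subgroup.map_bot] at this
    exact this.symm
  have h3 : a⁻¹ * h * a⁻¹⁻¹ ∈ Subgroup.normalizer ((R.map (MulAut.conj a⁻¹).toMonoidHom : Subgroup G) : Set G) := by
    rw [← map_conj_normalizer]
    exact conj_mem_map_conj hh
  have h4 := hlc _ h1 h2 h3
  rw [Subgroup.mem_centralizer_iff] at h4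
  have h5 := h4 x rfl
  rw [inv_inv] at h5
  calc h * (a * x * a⁻¹) = a * ((a⁻¹ * h * a) * x) * a⁻¹ := by group
    _ = a * (x * (a⁻¹ * h * a)) * a⁻¹ := by rw [← h5]
    _ = _ := by group

theorem exists_mem_normalizer_of_lt [Finite G] [Fact p.Prime] {A D : Subgroup G}
    (hA : IsPGroup p A) (hD : D < A) :
    ∃ u ∈ A, u ∉ D ∧ u ∈ Subgroup.normalizer (D : Set G) := by
  haveI : Group.IsNilpotent A := hA.isNilpotent
  have hlt : D.subgroupOf A < ⊤ := by
    rw [lt_top_iff_ne_top]
    intro htop
    apply hD.not_ge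
    intro x hx
    have : (⟨x, hx⟩ : A) ∈ D.subgroupOf A := by rw [htop]; trivial
    exact this
  have h3 := Group.normalizerCondition_of_isNilpotent _ hlt
  obtain ⟨x, hx1, hx2⟩ := SetLike.exists_of_lt h3
  refine ⟨x, x.2, fun h => hx2 (by rw [Subgroup.mem_subgroupOf]; exact h), ?_⟩
  rw [Subgroup.mem_normalizer_iff]
  intro h
  have h6 := Subgroup.mem_normalizer_iff.mp hx1
  constructor
  · intro hh
    have hhA : h ∈ A := hD.le hh
    have h7 := (h6 ⟨h, hhA⟩).mp (by rw [Subgroup.mem_subgroupOf]; exact hh)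
    rw [Subgroup.mem_subgroupOf] at h7
    exact h7
  · intro hh
    have hhA : h ∈ A := by
      have h8 : (x : G) * h * (x : G)⁻¹ ∈ A := hD.le hh
      have := A.mul_mem (A.mul_mem (A.inv_mem x.2) h8) x.2
      simpa [mul_assoc] using this
    have h7 := (h6 ⟨h, hhA⟩).mpr (by rw [Subgroup.mem_subgroupOf]; exact hh)
    rw [Subgroup.mem_subgroupOf] at h7
    exact h7

/-- The canonical element of a Sylow conjugate is independent of the Sylow subgroup. -/
theorem main_claim [Finite G] [Fact p.Prime] (P : Sylow p G) (x : G)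
    (hlc : ∀ R : Subgroup G, R ≤ (P : Subgroup G) → R ≠ ⊥ → Subgroup.normalizer (R : Set G) ≤ Subgroup.centralizer ({x} : Set G))
    (D : Subgroup G) :
    ∀ a b : G, (P : Subgroup G).map (MulAut.conj a).toMonoidHom ⊓ (P : Subgroup G).map (MulAut.conj b).toMonoidHom = D →
      D ≠ ⊥ → a * x * a⁻¹ = b * x * b⁻¹ := by
  induction D using WellFoundedGT.induction with
  | ind D ih =>
  intro a b hD hD1
  set A := (P : Subgroup G).map (MulAut.conj a).toMonoidHom with hA
  set B := (P : Subgroup G).map (MulAut.conj b).toMonoidHom with hB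
  have hAp : IsPGroup p A := isPGroup_map_conj P.2
  have hBp : IsPGroup p B := isPGroup_map_conj P.2
  have hDA : D ≤ A := hD ▸ inf_le_left
  have hDB : D ≤ B := hD ▸ inf_le_right
  have hAcard : Nat.card A = Nat.card (P : Subgroup G) := card_map_conj _ _
  have hBcard : Nat.card B = Nat.card (P : Subgroup G) := card_map_conj _ _
  by_cases hAB : A = B
  · -- a⁻¹ b normalizes P
    have h1 : a⁻¹ * b ∈ Subgroup.normalizer (((P : Subgroup G)) : Set G) := by
      apply mem_normalizer_of_map_conj_eq
      rw [← map_conj_mul, ← hB, ← hAB, hA, map_conj_inv_map_conj]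
    have hP1 : (P : Subgroup G) ≠ ⊥ := by
      intro h0
      apply hD1
      rw [eq_bot_iff]
      refine hDA.trans ?_
      rw [hA, h0, Subgroup.map_bot]
    have h2 := hlc _ le_rfl hP1 h1
    rw [Subgroup.mem_centralizer_iff] at h2
    have h3 := h2 x rfl
    calc a * x * a⁻¹ = a * (x * (a⁻¹ * b)) * b⁻¹ := by group
      _ = a * ((a⁻¹ * b) * x) * b⁻¹ := by rw [← h3]
      _ = b * x * b⁻¹ := by group
  · have hDltA : D < A := by
      refine lt_of_le_of_ne hDA ?_
      rintro rfl
      apply hAB
      exact Subgroup.eq_of_le_of_card_ge hDB (by rw [hAcard, hBcard])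
    have hDltB : D < B := by
      refine lt_of_le_of_ne hDB ?_
      rintro rfl
      apply hAB
      exact (Subgroup.eq_of_le_of_card_ge hDA (by rw [hAcard, hBcard])).symm
    obtain ⟨u, huA, huD, huN⟩ := exists_mem_normalizer_of_lt hAp hDltA
    obtain ⟨v, hvB, hvD, hvN⟩ := exists_mem_normalizer_of_lt hBp hDltB
    set N := Subgroup.normalizer (D : Set G) with hN
    have hDN : D ≤ N := Subgroup.le_normalizer
    obtain ⟨T, hT⟩ := exists_sylow_subgroup_le (K := N) (A := A ⊓ N) inf_le_right (hAp.to_le inf_le_left)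
    obtain ⟨T', hT'⟩ := exists_sylow_subgroup_le (K := N) (A := B ⊓ N) inf_le_right (hBp.to_le inf_le_left)
    obtain ⟨n, hn⟩ := MulAction.exists_smul_eq N T' T
    obtain ⟨T₀, hT₀⟩ := (isPGroup_map_subtype T).exists_le_sylow
    obtain ⟨t, ht⟩ := sylow_conj P T₀
    -- A side
    have h1 : a * x * a⁻¹ = t * x * t⁻¹ := by
      have hlt : D < A ⊓ (T₀ : Subgroup G) := by
        refine lt_of_le_of_ne (le_inf hDA (?_)) ?_
        · exact (le_inf hDA hDN).trans (hT.trans hT₀)
        · intro heq
          apply huD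
          rw [heq]
          exact ⟨huA, hT₀ (hT ⟨huA, huN⟩)⟩
      apply ih _ hlt a t
      · rw [← ht]
      · exact ne_bot_of_gt hlt
    -- B side
    have hnD : D.map (MulAut.conj (n : G)).toMonoidHom = D := map_conj_eq_of_mem_normalizer n.2
    have h2 : (n : G) * b * x * ((n : G) * b)⁻¹ = t * x * t⁻¹ := by
      have hB' : (P : Subgroup G).map (MulAut.conj ((n : G) * b)).toMonoidHom = B.map (MulAut.conj (n : G)).toMonoidHom := by
        rw [hB, map_conj_mul]
      have hvm : (n : G) * v * (n : G)⁻¹ ∈ (T₀ : Subgroup G) := by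
        apply hT₀
        have h3 : v ∈ (T' : Subgroup N).map N.subtype := hT' ⟨hvB, hvN⟩
        obtain ⟨w, hw, hwv⟩ := h3
        rw [← hn, ← hwv]
        refine ⟨n * w * n⁻¹, ?_, by simp⟩
        rw [Sylow.coe_subgroup_smul]
        exact ⟨_, hw, rfl⟩
      have hlt : D < (P : Subgroup G).map (MulAut.conj ((n : G) * b)).toMonoidHom ⊓ (T₀ : Subgroup G) := by
        refine lt_of_le_of_ne (le_inf ?_ ?_) ?_
        · rw [hB', ← hnD]
          exact Subgroup.map_mono hDB
        · exact (le_inf hDA hDN).trans (hT.trans hT₀)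
        · intro heq
          have hmem : (n : G) * v * (n : G)⁻¹ ∈ D := by
            rw [heq]
            refine ⟨?_, hvm⟩
            rw [hB']
            exact conj_mem_map_conj hvB
          apply hvD
          rw [← hnD] at hmem
          obtain ⟨w, hw, hwv⟩ := hmem
          have : w = v := by
            have h5 : (n : G) * w * (n : G)⁻¹ = (n : G) * v * (n : G)⁻¹ := hwv
            exact mul_left_cancel (mul_right_cancel h5)
          rwa [this] at hw
      apply ih _ hlt ((n : G) * b) t
      · rw [← ht]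
      · exact ne_bot_of_gt hlt
    have h3 := local_conj (P : Subgroup G) x hlc b D hDB hD1 n n.2
    have h4 : (n : G) * b * x * ((n : G) * b)⁻¹ = b * x * b⁻¹ := by
      calc (n : G) * b * x * ((n : G) * b)⁻¹ = ((n : G) * (b * x * b⁻¹)) * (n : G)⁻¹ := by group
        _ = (b * x * b⁻¹) * n * (n : G)⁻¹ := by rw [h3]
        _ = _ := by group
    rw [h1, ← h2, h4]

/-- Let G be a finite group, p a prime, P a Sylow p-subgroup of G and x ∈ P an element such that N_G(R) ≤ C_G(x) for every nontrivial subgroup R of P. Then P ≤ C_G(x); every G-conjugate of x lying in P equals x (so g ∈ C_G(x) whenever g x g⁻¹ ∈ P); and for every normal subgroup N of G, the image of x in G ⧸ N has the same property with respect to the image of P: the normalizer of every nontrivial subgroup of the image of P centralizes the image of x. -/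
theorem result {G : Type*} [Group G] [Finite G] {p : ℕ} [Fact p.Prime] (P : Sylow p G) (x : G) (hxP : x ∈ (P : Subgroup G)) (hlc : ∀ R : Subgroup G, R ≤ (P : Subgroup G) → R ≠ ⊥ → Subgroup.normalizer (R : Set G) ≤ Subgroup.centralizer ({x} : Set G)) : (P : Subgroup G) ≤ Subgroup.centralizer ({x} : Set G) ∧ (∀ g : G, g * x * g⁻¹ ∈ (P : Subgroup G) → g * x * g⁻¹ = x) ∧ ∀ (N : Subgroup G) [N.Normal], ∀ R : Subgroup (G ⧸ N), R ≤ (P : Subgroup G).map (QuotientGroup.mk' N) → R ≠ ⊥ → Subgroup.normalizer (R : Set (G ⧸ N)) ≤ Subgroup.centralizer ({(QuotientGroup.mk x : G ⧸ N)} : Set (G ⧸ N)) := by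
  refine ⟨?_, ?_, ?_⟩
  · by_cases hP1 : (P : Subgroup G) = ⊥
    · rw [hP1]; exact bot_le
    · exact Subgroup.le_normalizer.trans (hlc _ le_rfl hP1)
  · intro g hg
    by_cases hx1 : x = 1
    · simp [hx1]
    have h0 : (P : Subgroup G).map (MulAut.conj (1 : G)).toMonoidHom ⊓ (P : Subgroup G).map (MulAut.conj g).toMonoidHom ≠ ⊥ := by
      intro h0
      have : g * x * g⁻¹ ∈ (P : Subgroup G).map (MulAut.conj (1 : G)).toMonoidHom ⊓ (P : Subgroup G).map (MulAut.conj g).toMonoidHom := by
        refine ⟨?_, conj_mem_map_conj hxP⟩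
        rw [map_conj_one]
        exact hg
      rw [h0, Subgroup.mem_bot] at this
      apply hx1
      have h5 : g⁻¹ * (g * x * g⁻¹) * g = 1 := by rw [this]; group
      simpa [mul_assoc] using h5
    have := main_claim P x hlc _ 1 g rfl h0
    simpa using this.symm
  · intro N _ R hR hR1 gb hgb
    obtain ⟨g, rfl⟩ := QuotientGroup.mk_surjective gb
    set qq : G →* G ⧸ N := QuotientGroup.mk' N with hqq
    let K : Subgroup G := R.comap qq
    have hNK : N ≤ K := by
      intro n hn
      show qq n ∈ R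
      have : qq n = 1 := by
        rw [← MonoidHom.mem_ker, QuotientGroup.ker_mk']
        exact hn
      rw [this]
      exact R.one_mem
    have hKle : K ≤ (P : Subgroup G) ⊔ N := by
      intro k hk
      have h1 : qq k ∈ (P : Subgroup G).map qq := hR hk
      obtain ⟨u, hu, huq⟩ := h1
      have h7 : u⁻¹ * k ∈ N := by
        have : qq (u⁻¹ * k) = 1 := by
          rw [map_mul, map_inv, huq, inv_mul_cancel]
        rwa [← QuotientGroup.ker_mk' N, MonoidHom.mem_ker]
      have h8 : k = u * (u⁻¹ * k) := by group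
      rw [h8]
      exact Subgroup.mul_mem _ (Subgroup.mem_sup_left hu) (Subgroup.mem_sup_right h7)
    let T : Subgroup G := (P : Subgroup G) ⊓ K
    have hT1 : T ≠ ⊥ := by
      obtain ⟨r, hr, hr1⟩ : ∃ r ∈ R, r ≠ 1 := by
        by_contra hcon
        push Not at hcon
        apply hR1
        rw [eq_bot_iff]
        intro r hr
        exact hcon r hr
      obtain ⟨u, hu, huq⟩ := hR hr
      intro h0
      have : u ∈ T := ⟨hu, by show qq u ∈ R; rw [huq]; exact hr⟩
      rw [h0, Subgroup.mem_bot] at this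
      apply hr1
      rw [← huq, this, map_one]
    have hgK : g ∈ Subgroup.normalizer (K : Set G) := by
      rw [Subgroup.mem_normalizer_iff]
      intro k
      have h1 := Subgroup.mem_normalizer_iff.mp hgb (qq k)
      constructor
      · intro hk
        have := h1.mp hk
        show qq (g * k * g⁻¹) ∈ R
        rw [map_mul, map_mul, map_inv]
        exact this
      · intro hk
        have h2 : qq (g * k * g⁻¹) ∈ R := hk
        rw [map_mul, map_mul, map_inv] at h2
        exact h1.mpr h2
    -- g T g⁻¹ is a p-subgroup of K, so is N-conjugate into P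
    have hTp : IsPGroup p T := P.2.to_le inf_le_left
    have hTg : T.map (MulAut.conj g).toMonoidHom ≤ K := by
      have h1 : T ≤ K := inf_le_right
      have h2 : T.map (MulAut.conj g).toMonoidHom ≤ K.map (MulAut.conj g).toMonoidHom := Subgroup.map_mono h1
      rwa [map_conj_eq_of_mem_normalizer hgK] at h2
    obtain ⟨n, hn, hnT⟩ := exists_normal_conj_into_sylow P N (T.map (MulAut.conj g).toMonoidHom)
      (isPGroup_map_conj hTp) (hTg.trans hKle)
    have h3 : T.map (MulAut.conj (n * g)).toMonoidHom ≤ T := by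
      rw [← map_conj_mul]
      refine le_inf hnT ?_
      rintro _ ⟨y, hy, rfl⟩
      exact K.mul_mem (K.mul_mem (hNK hn) (hTg hy)) (K.inv_mem (hNK hn))
    have h4 : n * g ∈ Subgroup.normalizer (T : Set G) := mem_normalizer_of_map_conj_le h3
    have h5 := hlc T inf_le_left hT1 h4
    rw [Subgroup.mem_centralizer_iff] at h5
    have h6 := h5 x rfl
    have hqn : qq n = 1 := by
      rw [← MonoidHom.mem_ker, QuotientGroup.ker_mk']
      exact hn
    rw [Subgroup.mem_centralizer_iff]
    rintro _ rfl
    have h7 := congrArg qq h6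
    simp only [map_mul, hqn, one_mul] at h7
    exact h7

end Cfsg.Agent.S2998
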