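import Cfsg.Statements.S3004
import Cfsg.Agent.Lib.H14.ChermakDelgado

set_option autoImplicit false
open Cfsg

namespace Cfsg.Agent.S3004

open Cfsg.Agent.H14
open scoped Pointwise

theorem result {p : ℕ} [Fact p.Prime] (P : Type*) [Group P] [Finite P] (hP : IsPGroup p P) (Q R : Subgroup P) (hQ : Cfsg.IsCentralizerLarge Q) (hR : Cfsg.IsCentralizerLarge R) : ((Q ⊔ R : Subgroup P) : Set P) = (Q : Set P) * (R : Set P) ∧ Cfsg.IsCentralizerLarge (Q ⊔ R) ∧ Cfsg.IsCentralizerLarge (Q ⊓ R) ∧ Cfsg.IsCentralizerLarge (Subgroup.centralizer (Q : Set P)) ∧ Q = Subgroup.centralizer ((Subgroup.centralizer (Q : Set P) : Subgroup P) : Set P) ∧ ((Subgroup.centralizer (Q : Set P) ⊔ Subgroup.centralizer (R : Set P) : Subgroup P) : Set P) = (Subgroup.centralizer (Q : Set P) : Set P) * (Subgroup.centralizer (R : Set P) : Set P) ∧ Subgroup.centralizer ((Q ⊓ R : Subgroup P) : Set P) = Subgroup.centralizer (Q : Set P) ⊔ Subgroup.centralizer (R : Set P) := by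
  obtain ⟨h1, h2, h3, -, h5⟩ := large_lattice hQ hR
  obtain ⟨-, -, h6, -, -⟩ := large_lattice (large_centralizer hQ) (large_centralizer hR)
  exact ⟨h3, h2, h1, large_centralizer hQ, (large_cc hQ).symm, h6, h5⟩

end Cfsg.Agent.S3004
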