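import Mathlib
import Cfsg.Statements.S3006
import Cfsg.Agent.Lib.H14.CentrallyLarge
-- import your own Cfsg.Agent.* helpers here

set_option autoImplicit false
open scoped Pointwise
open Cfsg

namespace Cfsg.Agent.S3006


/-- Let P be a finite p-group, Q a centrally large subgroup of P (|Q|·|Z(Q)| maximal among subgroups of P) and A an abelian subgroup of P of largest order. Then QA = AQ is a centrally large subgroup of P, C_{QA}(Q ∩ A) = Z(Q)·A, and the subgroup generated by all centrally large subgroups of P contains C_P(Z(J(P))), where J(P) is generated by the abelian subgroups of largest order. -/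
theorem result {p : ℕ} [Fact p.Prime] (P : Type*) [Group P] [Finite P] (hP : IsPGroup p P) (Q A : Subgroup P) (hQ : Cfsg.IsCentrallyLarge Q) (hA : A ∈ Cfsg.maxAbelianSubgroups P) : ((Q ⊔ A : Subgroup P) : Set P) = (Q : Set P) * (A : Set P) ∧ Cfsg.IsCentrallyLarge (Q ⊔ A) ∧ (Q ⊔ A) ⊓ Subgroup.centralizer ((Q ⊓ A : Subgroup P) : Set P) = (Q ⊓ Subgroup.centralizer (Q : Set P)) ⊔ A ∧ (((Q ⊓ Subgroup.centralizer (Q : Set P)) ⊔ A : Subgroup P) : Set P) = ((Q ⊓ Subgroup.centralizer (Q : Set P)) : Set P) * (A : Set P) ∧ Subgroup.centralizer ((Cfsg.thompsonSubgroupA P ⊓ Subgroup.centralizer (Cfsg.thompsonSubgroupA P : Set P) : Subgroup P) : Set P) ≤ Cfsg.centrallyLargeJoin P := by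
  have hCQ : Q ⊓ Subgroup.centralizer (Q : Set P) = Subgroup.centralizer (Q : Set P) :=
    inf_eq_right.mpr (H14.cl_centralizer_le hQ)
  obtain ⟨h1, h2, _, _⟩ := H14.cl_maxAbelian_package hQ hA
  obtain ⟨h3, h4⟩ := H14.cl_maxAbelian_centralizer hQ hA
  have hS : ((Q : Set P) ⊓ ((Subgroup.centralizer (Q : Set P) : Subgroup P) : Set P)) = ((Subgroup.centralizer (Q : Set P) : Subgroup P) : Set P) :=
    inf_eq_right.mpr (H14.cl_centralizer_le hQ)
  rw [hCQ, hS]
  refine ⟨h1, h2, h3, h4, ?_⟩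
  apply H14.centralizer_centerJ_le_of_cl H14.isCentrallyLarge_join
  apply sSup_le
  intro B hB
  have h5 : Cfsg.centrallyLargeJoin P ⊔ B ≤ Cfsg.centrallyLargeJoin P :=
    le_sSup (H14.cl_maxAbelian_package H14.isCentrallyLarge_join hB).2.1
  exact le_sup_right.trans h5

end Cfsg.Agent.S3006
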