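import Mathlib
import Cfsg.Statements.S3008
import Cfsg.Agent.Lib.H14.CLNorm
-- import your own Cfsg.Agent.* helpers here

set_option autoImplicit false
open Cfsg

namespace Cfsg.Agent.S3008


/-- Let P be a finite p-group, with J(P) generated by its abelian subgroups of largest order and J̃(P) = C_P(Z(J(P))); call R ≤ P centrally large if |R|·|Z(R)| is as large as possible, and let P_MCL be generated by the minimal centrally large subgroups. Then: for every centrally large Q, Q·J(P) ⊇ J̃(P); some minimal centrally large subgroup of P is normalized by both J(P) and P_MCL; if P = J(P) and d(P)² = |P|·|Z(P)|, where d(P) is the largest order of an abelian subgroup, then every minimal centrally large subgroup of P is abelian; and if every minimal centrally large subgroup is abelian then J̃(P) = J(P). -/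
theorem result {p : ℕ} [Fact p.Prime] (P : Type*) [Group P] [Finite P] (hP : IsPGroup p P) : (∀ Q : Subgroup P, Cfsg.IsCentrallyLarge Q → Subgroup.centralizer ((Cfsg.thompsonSubgroupA P ⊓ Subgroup.centralizer (Cfsg.thompsonSubgroupA P : Set P) : Subgroup P) : Set P) ≤ Q ⊔ Cfsg.thompsonSubgroupA P) ∧ (∃ Q : Subgroup P, Cfsg.IsMinimalCentrallyLarge Q ∧ Cfsg.thompsonSubgroupA P ≤ Subgroup.normalizer (Q : Set P) ∧ Cfsg.minimalCentrallyLargeJoin P ≤ Subgroup.normalizer (Q : Set P)) ∧ (Cfsg.thompsonSubgroupA P = ⊤ → (∀ A ∈ Cfsg.maxAbelianSubgroups P, Nat.card ↥A ^ 2 = Nat.card P * Nat.card ↥(Subgroup.center P)) → ∀ Q : Subgroup P, Cfsg.IsMinimalCentrallyLarge Q → IsMulCommutative ↥Q) ∧ ((∀ Q : Subgroup P, Cfsg.IsMinimalCentrallyLarge Q → IsMulCommutative ↥Q) → Subgroup.centralizer ((Cfsg.thompsonSubgroupA P ⊓ Subgroup.centralizer (Cfsg.thompsonSubgroupA P : Set P) : Subgroup P) : Set P) = Cfsg.thompsonSubgroupA P) := by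
  have hJA := H14.CLN.exists_normalized (G := P) hP
  refine ⟨?_, ?_, ?_, ?_⟩
  · intro Q hQ
    exact H14.centralizer_centerJ_le_of_cl (H14.cl_sup_thompson hQ) le_sup_right
  · set T : Subgroup P := Cfsg.thompsonSubgroupA P ⊔ Cfsg.minimalCentrallyLargeJoin P with hT
    have hTgen : T = sSup {B | H14.CLN.IsGen B ∧ B ≤ T} := by
      apply le_antisymm
      · apply sup_le
        · apply sSup_le
          intro A hA
          exact le_sSup ⟨Or.inr hA, (le_sSup hA).trans le_sup_left⟩
        · apply sSup_le
          intro A hA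
          exact le_sSup ⟨Or.inl hA, (le_sSup hA).trans le_sup_right⟩
      · exact sSup_le (fun C hC => hC.2)
    obtain ⟨Q, hQ, hQN⟩ := hJA (Nat.card T) T le_rfl hTgen
    exact ⟨Q, hQ, le_sup_left.trans hQN, le_sup_right.trans hQN⟩
  · intro hJ hcard Q hQ
    obtain ⟨A, hA⟩ := H14.exists_maxAbelian (G := P)
    -- `⊤` is centrally large
    obtain ⟨X, hX⟩ := H14.exists_isCentrallyLarge (G := P)
    have htop : Cfsg.IsCentrallyLarge (⊤ : Subgroup P) := by
      have := H14.cl_sup_thompson hX
      rwa [hJ, sup_top_eq] at this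
    have hAL : Cfsg.IsCentralizerLarge A := by
      rw [H14.isCentralizerLarge_iff, ← H14.large_cdm_eq (H14.cl_large htop), H14.cdm_maxAbelian hA]
      have h1 := hcard A hA
      have h2 := H14.central_product_eq_of_centralizer_le (H14.cl_centralizer_le htop)
      have h3 : Nat.card ↥(⊤ : Subgroup P) = Nat.card P := Nat.card_congr Subgroup.topEquiv.toEquiv
      have h4 : Nat.card ↥(Subgroup.center ↥(⊤ : Subgroup P)) = Nat.card ↥(Subgroup.center P) := by
        apply Nat.card_congr
        exact (Subgroup.centerCongr Subgroup.topEquiv).toEquiv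
      rw [← h2, h3, h4, ← h1]
      exact (sq (Nat.card A)).le
    have hAcl : Cfsg.IsCentrallyLarge A := by
      rw [H14.isCentrallyLarge_iff]
      exact ⟨hAL, (H14.maxAbelian_centralizer_eq hA).le⟩
    have hAmin : Cfsg.IsMinimalCentrallyLarge A := by
      refine ⟨hAcl, fun R hR hRc => ?_⟩
      apply le_antisymm hR
      have h1 := H14.cl_centralizer_le hRc
      have h2 : Subgroup.centralizer (A : Set P) ≤ Subgroup.centralizer (R : Set P) :=
        H14.centralizer_anti hR
      rw [H14.maxAbelian_centralizer_eq hA] at h2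
      exact h2.trans h1
    have := (H14.minCL_iff_maxAbelian hAmin hA.1 Q).mp hQ
    exact this.1
  · intro hab
    obtain ⟨X, hX⟩ := H14.exists_isCentrallyLarge (G := P)
    obtain ⟨Q, _, hQ⟩ := H14.exists_minimal_le hX
    have hiff := H14.minCL_iff_maxAbelian hQ (hab Q hQ)
    have hJM : Cfsg.thompsonSubgroupA P = Cfsg.minimalCentrallyLargeJoin P := by
      unfold Cfsg.thompsonSubgroupA Cfsg.minimalCentrallyLargeJoin
      congr 1
      ext Y
      exact (hiff Y).symm
    have hJcl : Cfsg.IsCentrallyLarge (Cfsg.thompsonSubgroupA P) := by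
      rw [hJM]; exact H14.isCentrallyLarge_minJoin
    apply le_antisymm
    · have := H14.centralizer_centerJ_le_of_cl hJcl le_rfl
      exact this
    · apply Subgroup.le_centralizer_iff.mp
      intro x hx
      exact hx.2

end Cfsg.Agent.S3008
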