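import Mathlib
import Cfsg.Statements.S3009
import Cfsg.Agent.Lib.H14.NatRecX
import Cfsg.Agent.Lib.H12.NatMod
-- import your own Cfsg.Agent.* helpers here

set_option autoImplicit false
open Cfsg

namespace Cfsg.Agent.S3009

open Matrix in
lemma uSL_eq {F : Type*} [Field F] (t : F) : Cfsg.Agent.H23.uSL t = Cfsg.Agent.Lead.uSL t := rfl


/-- Let p be a prime and let G and V be subgroups of a finite group with V elementary abelian and normalized by G, and G isomorphic to SL₂(F) for a finite field F with pⁿ elements. Suppose G acts irreducibly and nontrivially on V by conjugation (no G-invariant subgroups of V other than 1 and V, and [V, G] ≠ 1), and let S be a Sylow p-subgroup of G and V₀ = C_V(S). If [V, S, S] = 1 or |V| ≤ |V₀|², then G acts on V as SL₂(F) on its natural two-dimensional module; in particular |V| = |F|². -/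
theorem result {X : Type*} [Group X] [Finite X] {p : ℕ} [Fact p.Prime] (G V : Subgroup X) (hV : Cfsg.IsElementaryAbelian p V) (hGV : G ≤ Subgroup.normalizer (V : Set X)) (F : Type) [Field F] [Fintype F] (n : ℕ) (hF : Fintype.card F = p ^ n) (hG : Nonempty (↥G ≃* Matrix.SpecialLinearGroup (Fin 2) F)) (hirr : ∀ U : Subgroup X, U ≤ V → G ≤ Subgroup.normalizer (U : Set X) → U = ⊥ ∨ U = V) (hnt : ⁅V, G⁆ ≠ ⊥) (S : Sylow p ↥G) (hyp : ⁅⁅V, (S : Subgroup ↥G).map G.subtype⁆, (S : Subgroup ↥G).map G.subtype⁆ = ⊥ ∨ Nat.card ↥V ≤ Nat.card ↥(V ⊓ Subgroup.centralizer (((S : Subgroup ↥G).map G.subtype : Subgroup X) : Set X)) ^ 2) : Cfsg.ActsAsSL2OnSection F ⊤ G V ⊥ := by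
  classical
  haveI hchar := Cfsg.Agent.H12.NatMod.charP_of_card hF
  have hpF : (p : F) = 0 := CharP.cast_eq_zero F p
  obtain ⟨φ⟩ := hG
  let S' : Sylow p (Matrix.SpecialLinearGroup (Fin 2) F) := S.mapSurjective (f := φ.toMonoidHom) φ.surjective
  obtain ⟨A, hA⟩ := Cfsg.Agent.H13.sylow_conj (Cfsg.Agent.Lead.U2Sylow (F := F) p) S'
  have hU : ((Cfsg.Agent.Lead.U2Sylow (F := F) p : Sylow p (Matrix.SpecialLinearGroup (Fin 2) F)) :
      Subgroup (Matrix.SpecialLinearGroup (Fin 2) F)) = Cfsg.Agent.Lead.U2 := rfl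
  rw [hU] at hA
  let R : Matrix.SpecialLinearGroup (Fin 2) F →* X :=
    G.subtype.comp (φ.symm.toMonoidHom.comp (MulAut.conj A).toMonoidHom)
  have hRdef : ∀ B, R B = (φ.symm (A * B * A⁻¹) : X) := fun _ => rfl
  let ρ : ↥G →* Matrix.SpecialLinearGroup (Fin 2) F :=
    (MulAut.conj A⁻¹).toMonoidHom.comp φ.toMonoidHom
  have hρdef : ∀ g, ρ g = A⁻¹ * φ g * A := fun g => by
    change (MulAut.conj A⁻¹) (φ g) = _
    rw [MulAut.conj_apply, inv_inv]
  have hRρ : ∀ g : G, R (ρ g) = g := by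
    intro g
    rw [hRdef, hρdef]
    have : A * (A⁻¹ * φ g * A) * A⁻¹ = φ g := by group
    rw [this, MulEquiv.symm_apply_apply]
  have hRG : ∀ B, R B ∈ G := fun B => by
    rw [hRdef]
    exact Subtype.mem _
  have hρsurj : Function.Surjective ρ := by
    intro B
    refine ⟨φ.symm (A * B * A⁻¹), ?_⟩
    rw [hρdef, MulEquiv.apply_symm_apply]
    group
  -- `T`
  set T : Subgroup X := (S : Subgroup ↥G).map G.subtype with hT
  have hRu : ∀ t : F, R (Cfsg.Agent.H23.uSL t) ∈ T := by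
    intro t
    have h1 : A * Cfsg.Agent.H23.uSL t * A⁻¹ ∈ (S' : Subgroup (Matrix.SpecialLinearGroup (Fin 2) F)) := by
      rw [hA]
      exact ⟨Cfsg.Agent.Lead.uSL t, Cfsg.Agent.Lead.uSL_mem t, rfl⟩
    obtain ⟨s, hs, hs'⟩ := h1
    refine ⟨s, hs, ?_⟩
    rw [hRdef, ← hs']
    change (s : X) = ((φ.symm (φ s) : G) : X)
    rw [MulEquiv.symm_apply_apply]
  have hR : ∀ g, R g ∈ Subgroup.normalizer (V : Set X) := fun g => hGV (hRG g)
  have hirr' : ∀ U : Subgroup X, U ≤ V → (∀ g, R g ∈ Subgroup.normalizer (U : Set X)) → U = ⊥ ∨ U = V := by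
    intro U hU1 hU2
    refine hirr U hU1 (fun g hg => ?_)
    have := hU2 (ρ ⟨g, hg⟩)
    rwa [hRρ] at this
  have hnt' : ∃ g, ∃ v ∈ V, R g * v * (R g)⁻¹ ≠ v := by
    by_contra hcon
    push Not at hcon
    apply hnt
    rw [Subgroup.commutator_eq_bot_iff_le_centralizer]
    intro v hv
    rw [Subgroup.mem_centralizer_iff]
    intro g hg
    have := hcon (ρ ⟨g, hg⟩) v hv
    rw [hRρ] at this
    change g * v * g⁻¹ = v at this
    exact mul_inv_eq_iff_eq_mul.1 this
  have hyp' : (∀ a c : F, ∀ v ∈ V, R (Cfsg.Agent.H23.uSL a) * (R (Cfsg.Agent.H23.uSL c) * v * (R (Cfsg.Agent.H23.uSL c))⁻¹ * v⁻¹) * (R (Cfsg.Agent.H23.uSL a))⁻¹ =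
        R (Cfsg.Agent.H23.uSL c) * v * (R (Cfsg.Agent.H23.uSL c))⁻¹ * v⁻¹) ∨
      ∃ (C : Subgroup X), C ≤ V ∧ (∀ t : F, ∀ x ∈ C, R (Cfsg.Agent.H23.uSL t) * x * (R (Cfsg.Agent.H23.uSL t))⁻¹ = x) ∧
        Nat.card V ≤ Nat.card C ^ 2 := by
    rcases hyp with h | h
    · left
      intro a c v hv
      have h1 := Subgroup.commutator_mem_commutator hv (hRu c)
      have h2 : R (Cfsg.Agent.H23.uSL c) * v * (R (Cfsg.Agent.H23.uSL c))⁻¹ * v⁻¹ ∈ ⁅V, T⁆ := by
        have := Subgroup.inv_mem _ h1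
        rwa [commutatorElement_inv, commutatorElement_def] at this
      have h3 := Subgroup.commutator_mem_commutator h2 (hRu a)
      rw [h, Subgroup.mem_bot, commutatorElement_eq_one_iff_mul_comm] at h3
      rw [← h3]
      group
    · right
      refine ⟨V ⊓ Subgroup.centralizer (T : Set X), inf_le_left, fun t x hx => ?_, h⟩
      have := (Subgroup.mem_centralizer_iff.1 hx.2) _ (hRu t)
      rw [this]
      group
  obtain ⟨ψ, hbij, hadd, heq⟩ := Cfsg.Agent.H14.NatRec.transfer V hV hpF R hR hirr' hnt' hyp'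
  let ψ' : ↥V →* Multiplicative (Fin 2 → F) :=
    { toFun := fun v => Multiplicative.ofAdd (ψ v)
      map_one' := by
        have h := hadd 1 1
        rw [mul_one] at h
        have h0 : ψ 1 = 0 := by simpa using h
        rw [h0]
        rfl
      map_mul' := fun v w => by
        rw [hadd]
        rfl }
  have hψ' : ∀ v, ψ' v = Multiplicative.ofAdd (ψ v) := fun _ => rfl
  have h01 : ψ 1 = 0 := by
    have h := hadd 1 1
    rw [mul_one] at h
    simpa using h
  refine ⟨hGV, bot_le, ρ, ψ', ?_, ?_, ?_, ?_⟩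
  · exact MonoidHom.range_eq_top.2 hρsurj
  · intro y
    obtain ⟨v, hv⟩ := hbij.2 y.toAdd
    refine ⟨v, ?_⟩
    rw [hψ', hv]
    rfl
  · intro u
    rw [hψ', Subgroup.mem_bot]
    constructor
    · intro h
      have h1 : ψ u = 0 := Multiplicative.ofAdd.injective h
      have h2 : u = 1 := hbij.1 (h1.trans h01.symm)
      rw [h2]
      rfl
    · intro h
      have h2 : u = 1 := Subtype.ext h
      rw [h2, h01]
      rfl
  · intro e u
    have hmem : R (ρ e) * u * (R (ρ e))⁻¹ ∈ V := by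
      rw [hRρ]
      exact (Subgroup.mem_normalizer_iff.1 (hGV e.2) u).1 u.2
    refine ⟨⟨_, hmem⟩, ?_, ?_⟩
    · change R (ρ e) * u * (R (ρ e))⁻¹ = _
      rw [hRρ]
    · rw [hψ', hψ']
      exact heq (ρ e) u hmem

end Cfsg.Agent.S3009
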