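import Mathlib
import Cfsg.Statements.S3011
import Cfsg.Agent.Lib.H15.Invol
import Cfsg.Agent.Lib.H01.Fitting
-- import your own Cfsg.Agent.* helpers here

set_option autoImplicit false
open Cfsg

namespace Cfsg.Agent.S3011

section
variable {G : Type*} [Group G]

lemma eq_one_of_comm_inv {h u : G} (hodd : Odd (orderOf h)) (h1 : u * h * u⁻¹ = h⁻¹)
    (h2 : u * h = h * u) : h = 1 := by
  have h3 : u * h * u⁻¹ = h := by rw [h2]; group
  have h4 : h⁻¹ = h := by rw [← h1, h3]
  have h5 : h ^ 2 = 1 := by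
    rw [pow_two]
    nth_rewrite 1 [← h4]
    exact inv_mul_cancel h
  exact Cfsg.Agent.H15.eq_one_of_two_pow_of_odd hodd 1 (by simpa using h5)

lemma key {V : Subgroup G} (hS : Cfsg.IsSidkiPair V) {u w h₁ h₂ : G}
    (hV : ∀ v ∈ V, v = 1 ∨ v = u ∨ v = w ∨ v = u * w) (hu : u ∈ V) (hw : w ∈ V)
    (hu2 : u * u = 1) (hw2 : w * w = 1) (huw : u * w = w * u)
    (o1 : Odd (orderOf h₁)) (o2 : Odd (orderOf h₂)) (n1 : h₁ ≠ 1) (n2 : h₂ ≠ 1)
    (i1 : u * h₁ * u⁻¹ = h₁⁻¹) (c1 : w * h₁ = h₁ * w)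
    (i2 : w * h₂ * w⁻¹ = h₂⁻¹) (c2 : u * h₂ = h₂ * u) : False := by
  obtain ⟨m, hm⟩ := Cfsg.Agent.H15.exists_pow_sq_eq_of_odd o1
  set k := h₁ ^ m with hk
  have hkk : k * k = h₁ := by
    rw [hk, ← pow_add]
    have h0 : h₁ ^ (m + m) = (h₁ ^ 2) ^ m := by
      rw [← pow_mul]
      congr 1
      omega
    rw [h0, hm]
  have hwk : w * k = k * w := by
    have : Commute w h₁ := c1
    exact (this.pow_right m)
  have huinv : u⁻¹ = u := by rw [inv_eq_iff_mul_eq_one]; exact hu2
  have hwinv : w⁻¹ = w := by rw [inv_eq_iff_mul_eq_one]; exact hw2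
  have huk : u * k * u⁻¹ = k⁻¹ := by
    rw [hk, ← conj_pow, i1, inv_pow]
  have hukinv : u * k⁻¹ * u⁻¹ = k := by
    rw [← conj_inv, huk, inv_inv]
  have hkuk : k * u * k⁻¹ = h₁ * u := by
    calc k * u * k⁻¹ = k * (u * k⁻¹ * u⁻¹) * u := by group
      _ = h₁ * u := by rw [hukinv, hkk]
  -- apply the Sidki condition to the conjugate of `h₂`
  have ho : orderOf (k⁻¹ * h₂ * k) = orderOf h₂ := by
    have := orderOf_injective (MulAut.conj k⁻¹).toMonoidHom (MulAut.conj k⁻¹).injective h₂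
    simpa using this
  have hwh : w * (k⁻¹ * h₂ * k) * w⁻¹ = (k⁻¹ * h₂ * k)⁻¹ := by
    have hwk' : w * k⁻¹ = k⁻¹ * w := by
      have : Commute w k := hwk
      exact this.inv_right
    calc w * (k⁻¹ * h₂ * k) * w⁻¹ = (w * k⁻¹) * h₂ * k * w⁻¹ := by group
      _ = k⁻¹ * (w * h₂ * (k * w⁻¹)) := by rw [hwk']; group
      _ = k⁻¹ * (w * h₂ * (w⁻¹ * k)) := by
          have : k * w⁻¹ = w⁻¹ * k := by
            have h : Commute w k := hwk
            exact (h.inv_left).symm
          rw [this]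
      _ = k⁻¹ * (w * h₂ * w⁻¹) * k := by group
      _ = (k⁻¹ * h₂ * k)⁻¹ := by rw [i2]; group
  obtain ⟨w', hw', hw'1, hw'c⟩ := hS _ w hw (by rw [ho]; exact o2) hwh
  have hc : k * w' * k⁻¹ * h₂ = h₂ * (k * w' * k⁻¹) := by
    calc k * w' * k⁻¹ * h₂ = k * (w' * (k⁻¹ * h₂ * k)) * k⁻¹ := by group
      _ = k * ((k⁻¹ * h₂ * k) * w') * k⁻¹ := by rw [hw'c]
      _ = h₂ * (k * w' * k⁻¹) := by group
  rcases hV w' hw' with h0 | h0 | h0 | h0
  · exact hw'1 h0
  · -- `w' = u`
    rw [h0, hkuk] at hc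
    have hcomm : h₁ * h₂ = h₂ * h₁ := by
      have h3 : h₁ * u * h₂ = h₁ * h₂ * u := by rw [mul_assoc, c2, mul_assoc]
      rw [h3] at hc
      have h4 : h₁ * h₂ * u = h₂ * h₁ * u := by rw [hc, mul_assoc]
      exact mul_right_cancel h4
    have hC : Commute h₁ h₂ := hcomm
    have hoH : Odd (orderOf (h₁ * h₂)) := by
      exact (o1.mul o2).of_dvd_nat (hC.orderOf_mul_dvd_mul_orderOf)
    have h2c : u * h₂ * u⁻¹ = h₂ := by rw [c2]; group
    have h1c : w * h₁ * w⁻¹ = h₁ := by rw [c1]; group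
    have hinv : (u * w) * (h₁ * h₂) * (u * w)⁻¹ = (h₁ * h₂)⁻¹ := by
      calc (u * w) * (h₁ * h₂) * (u * w)⁻¹
          = u * ((w * h₁ * w⁻¹) * (w * h₂ * w⁻¹)) * u⁻¹ := by group
        _ = (u * h₁ * u⁻¹) * (u * h₂⁻¹ * u⁻¹) := by rw [h1c, i2]; group
        _ = h₁⁻¹ * (u * h₂ * u⁻¹)⁻¹ := by rw [i1]; group
        _ = h₁⁻¹ * h₂⁻¹ := by rw [h2c]
        _ = (h₂ * h₁)⁻¹ := by group
        _ = (h₁ * h₂)⁻¹ := by rw [hcomm]
    obtain ⟨w'', hw'', hw''1, hw''c⟩ := hS _ (u * w) (V.mul_mem hu hw) hoH hinv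
    rcases hV w'' hw'' with h00 | h00 | h00 | h00
    · exact hw''1 h00
    · -- `w'' = u`
      rw [h00] at hw''c
      apply n1
      apply eq_one_of_comm_inv o1 i1
      have : u * (h₁ * h₂) = (h₁ * h₂) * u := hw''c
      have h5 : u * h₁ * h₂ = h₁ * u * h₂ := by
        calc u * h₁ * h₂ = u * (h₁ * h₂) := by group
          _ = h₁ * h₂ * u := this
          _ = h₁ * (h₂ * u) := by group
          _ = h₁ * (u * h₂) := by rw [c2]
          _ = h₁ * u * h₂ := by group
      exact mul_right_cancel h5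
    · -- `w'' = w`
      rw [h00] at hw''c
      apply n2
      apply eq_one_of_comm_inv o2 i2
      have h5 : h₁ * (w * h₂) = h₁ * (h₂ * w) := by
        calc h₁ * (w * h₂) = (h₁ * w) * h₂ := by group
          _ = w * (h₁ * h₂) := by rw [← c1]; group
          _ = (h₁ * h₂) * w := hw''c
          _ = h₁ * (h₂ * w) := by group
      exact mul_left_cancel h5
    · -- `w'' = u * w`
      rw [h00] at hw''c
      have h6 : h₁ * h₂ = 1 := eq_one_of_comm_inv hoH hinv hw''c
      have h7 : h₂ = h₁⁻¹ := eq_inv_of_mul_eq_one_right h6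
      apply n2
      apply eq_one_of_comm_inv o2 i2
      rw [h7]
      have : Commute w h₁ := c1
      exact this.inv_right
  · -- `w' = w`
    apply n2
    apply eq_one_of_comm_inv o2 i2
    have h3 : k * w * k⁻¹ = w := by rw [← hwk]; group
    rw [h0, h3] at hc
    exact hc
  · -- `w' = u * w`
    have h3 : k * (u * w) * k⁻¹ = h₁ * u * w := by
      calc k * (u * w) * k⁻¹ = k * u * k⁻¹ * (k * w * k⁻¹) := by group
        _ = h₁ * u * w := by
            rw [hkuk]
            have h4 : k * w * k⁻¹ = w := by rw [← hwk]; group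
            rw [h4]
    rw [h0, h3] at hc
    -- `h₁ * w` commutes with `h₂`
    have h8 : Commute (h₁ * w) h₂ := by
      have h9 : h₁ * w = h₁ * u * w * u := by
        calc h₁ * w = h₁ * (w * (u * u)) := by rw [hu2, mul_one]
          _ = h₁ * ((w * u) * u) := by group
          _ = h₁ * ((u * w) * u) := by rw [huw]
          _ = h₁ * u * w * u := by group
      rw [h9]
      have h10 : Commute (h₁ * u * w) h₂ := hc
      have h11 : Commute u h₂ := c2
      exact h10.mul_left h11
    -- `w` is a power of `h₁ * w`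
    obtain ⟨r, hr⟩ := o1
    have h12 : (h₁ * w) ^ (orderOf h₁) = w := by
      have hC : Commute h₁ w := (show Commute w h₁ from c1).symm
      rw [hC.mul_pow, pow_orderOf_eq_one, one_mul, hr, pow_succ, pow_mul, pow_two, hw2, one_pow,
        one_mul]
    have h13 : Commute w h₂ := by
      rw [← h12]
      exact h8.pow_left _
    apply n2
    exact eq_one_of_comm_inv o2 i2 h13

end

/-- Let G be a finite group and V a nontrivial elementary abelian 2-subgroup of G of order at most 4 such that, whenever an element of V inverts an element h of G of odd order, some nontrivial element of V commutes with h. Then V meets O₂(G) nontrivially. (The case of order at most 4 has a short argument from the Baer–Suzuki theorem.) -/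
theorem result {G : Type*} [Group G] [Finite G] (V : Subgroup G) (hV : Cfsg.IsElementaryAbelian 2 V) (hV1 : V ≠ ⊥) (hS : Cfsg.IsSidkiPair V) (h4 : Nat.card V ≤ 4) : V ⊓ Cfsg.pCore 2 G ≠ ⊥ := by
  classical
  by_contra hcon
  have hnot : ∀ u ∈ V, u ≠ 1 → ∀ N : Subgroup G, N.Normal → IsPGroup 2 N → u ∉ N := by
    intro u hu hu1 N hN hp huN
    apply hu1
    have h1 : u ∈ V ⊓ Cfsg.pCore 2 G := ⟨hu, Cfsg.Agent.H01.le_pCore hN hp huN⟩
    rw [hcon] at h1
    simpa using h1
  haveI : Fact (Nat.Prime 2) := ⟨Nat.prime_two⟩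
  have hpart : ∀ u ∈ V, u ≠ 1 → ∃ h : G, Odd (orderOf h) ∧ h ≠ 1 ∧ u * h * u⁻¹ = h⁻¹ ∧
      ∃ w ∈ V, w ≠ 1 ∧ w ≠ u ∧ w * h = h * w := by
    intro u hu hu1
    have u2 : u ^ 2 = 1 := hV.2 u hu
    have ho : orderOf u = 2 := orderOf_eq_prime u2 hu1
    obtain ⟨x, hx, hodd, hne⟩ := Cfsg.Agent.H15.exists_conj_odd_of_not_mem_normal ho (hnot u hu hu1)
    have hx2 : x * x = 1 := by
      obtain ⟨c, hc⟩ := isConj_iff.mp hx
      rw [← hc, ← pow_two, conj_pow, u2]
      group
    have hu3 : u * u = 1 := by rw [← pow_two, u2]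
    have hui : u⁻¹ = u := by rw [inv_eq_iff_mul_eq_one]; exact hu3
    have hxi : x⁻¹ = x := by rw [inv_eq_iff_mul_eq_one]; exact hx2
    have hi : u * (u * x) * u⁻¹ = (u * x)⁻¹ := by
      rw [mul_inv_rev, hxi, hui]
      calc u * (u * x) * u = (u * u) * x * u := by group
        _ = x * u := by rw [hu3, one_mul]
    obtain ⟨w, hw, hw1, hwc⟩ := hS (u * x) u hu hodd hi
    refine ⟨u * x, hodd, hne, hi, w, hw, hw1, ?_, hwc⟩
    rintro rfl
    exact hne (eq_one_of_comm_inv hodd hi hwc)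
  obtain ⟨a, ha, ha1⟩ : ∃ a ∈ V, a ≠ 1 := by
    obtain ⟨v, hv⟩ := Subgroup.ne_bot_iff_exists_ne_one.mp hV1
    exact ⟨v, v.2, by simpa using hv⟩
  obtain ⟨h₁, o1, n1, i1, b, hb, hb1, hba, c1⟩ := hpart a ha ha1
  obtain ⟨h₂, o2, n2, i2, t, ht, ht1, htb, c2⟩ := hpart b hb hb1
  have a2 : a * a = 1 := by rw [← pow_two]; exact hV.2 a ha
  have b2 : b * b = 1 := by rw [← pow_two]; exact hV.2 b hb
  have hcomm : a * b = b * a := by
    have := hV.1.is_comm.comm (⟨a, ha⟩ : V) ⟨b, hb⟩
    exact congrArg Subtype.val this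
  have hlist : ∀ v ∈ V, v = 1 ∨ v = a ∨ v = b ∨ v = a * b := by
    intro v hv
    by_contra hne
    push Not at hne
    obtain ⟨h1, h2, h3, h4⟩ := hne
    let S : Finset G := {1, a, b, a * b, v}
    have hScard : S.card = 5 := by
      have e1 : (1 : G) ≠ a := ha1.symm
      have e2 : (1 : G) ≠ b := hb1.symm
      have e3 : (1 : G) ≠ a * b := by
        intro h
        have : a * a = a * b := by rw [a2, ← h]
        exact hba (mul_left_cancel this).symm
      have e4 : a ≠ b := hba.symm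
      have e5 : a ≠ a * b := by
        intro h
        have : a * 1 = a * b := by rw [mul_one]; exact h
        exact hb1 (mul_left_cancel this).symm
      have e6 : b ≠ a * b := by
        intro h
        have : 1 * b = a * b := by rw [one_mul]; exact h
        exact ha1 (mul_right_cancel this).symm
      simp only [S]
      rw [Finset.card_insert_of_notMem (by simp [e1, e2, e3, h1.symm]),
        Finset.card_insert_of_notMem (by simp [e4, e5, h2.symm]),
        Finset.card_insert_of_notMem (by simp [e6, h3.symm]),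
        Finset.card_insert_of_notMem (by simp [h4.symm]), Finset.card_singleton]
    have hsub : (S : Set G) ⊆ V := by
      intro x hx
      simp only [S, Finset.coe_insert, Finset.coe_singleton, Set.mem_insert_iff,
        Set.mem_singleton_iff] at hx
      rcases hx with rfl | rfl | rfl | rfl | rfl
      · exact V.one_mem
      · exact ha
      · exact hb
      · exact V.mul_mem ha hb
      · exact hv
    have hle : S.card ≤ Nat.card V := by
      have h5 := Set.ncard_le_ncard hsub (Set.toFinite _)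
      rw [Set.ncard_coe_finset] at h5
      have h6 : Nat.card V = (V : Set G).ncard := Nat.card_coe_set_eq _
      rw [h6]
      exact h5
    omega
  rcases hlist t ht with rfl | rfl | rfl | rfl
  · exact ht1 rfl
  · exact key hS hlist ha hb a2 b2 hcomm o1 o2 n1 n2 i1 c1 i2 c2
  · exact htb rfl
  · have hab2 : a * b * (a * b) = 1 := by
      calc a * b * (a * b) = a * (b * a) * b := by group
        _ = a * (a * b) * b := by rw [hcomm]
        _ = (a * a) * (b * b) := by group
        _ = 1 := by rw [a2, b2, one_mul]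
    have hlist' : ∀ v ∈ V, v = 1 ∨ v = a * b ∨ v = b ∨ v = a * b * b := by
      intro v hv
      have h3 : a * b * b = a := by rw [mul_assoc, b2, mul_one]
      rw [h3]
      rcases hlist v hv with h | h | h | h
      · exact Or.inl h
      · exact Or.inr (Or.inr (Or.inr h))
      · exact Or.inr (Or.inr (Or.inl h))
      · exact Or.inr (Or.inl h)
    have i1' : (a * b) * h₁ * (a * b)⁻¹ = h₁⁻¹ := by
      rw [← i1]
      have hb' : b * h₁ * b⁻¹ = h₁ := by rw [c1]; group
      calc (a * b) * h₁ * (a * b)⁻¹ = a * (b * h₁ * b⁻¹) * a⁻¹ := by group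
        _ = a * h₁ * a⁻¹ := by rw [hb']
    have hcomm' : a * b * b = b * (a * b) := by
      calc a * b * b = b * a * b := by rw [hcomm]
        _ = b * (a * b) := by group
    exact key hS hlist' (V.mul_mem ha hb) hb hab2 b2 hcomm' o1 o2 n1 n2 i1' c1 i2 c2

end Cfsg.Agent.S3011
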