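import Mathlib
import Cfsg.Statements.S3012

set_option autoImplicit false
open Cfsg

namespace Cfsg.Agent.S3012

/-- Let G be a finite group, V a nontrivial elementary abelian 2-subgroup of G satisfying the Sidki pair condition (every odd-order element inverted by an element of V commutes with a nontrivial element of V), and K a normal subgroup of G with V ∩ K = 1. Then the image of V in G/K satisfies the Sidki pair condition in G/K. -/
theorem result {G : Type*} [Group G] [Finite G] (V K : Subgroup G) [K.Normal] (hV : Cfsg.IsElementaryAbelian 2 V) (hV1 : V ≠ ⊥) (hS : Cfsg.IsSidkiPair V) (hVK : V ⊓ K = ⊥) : Cfsg.IsSidkiPair (V.map (QuotientGroup.mk' K)) := by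
  intro hb vb hvb hodd hconj
  obtain ⟨v, hv, rfl⟩ := hvb
  have hv2 : v ^ 2 = 1 := hV.2 v hv
  have hvinv : v⁻¹ = v := by
    rw [inv_eq_iff_mul_eq_one, ← sq, hv2]
  set π := QuotientGroup.mk' K with hπ
  obtain ⟨l, hl⟩ := hodd
  -- lift of the square root
  obtain ⟨g, hg⟩ := QuotientGroup.mk'_surjective K (hb ^ (l + 1))
  have hgsq : π g * π g = hb := by
    rw [hg, ← pow_add]
    have : l + 1 + (l + 1) = orderOf hb + 1 := by omega
    rw [this, pow_succ, pow_orderOf_eq_one, one_mul]
  have hginv : π v * π g * (π v)⁻¹ = (π g)⁻¹ := by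
    rw [hg, ← conj_pow, hconj, inv_pow]
  set t := g⁻¹ * v * g with ht
  set h₁ := v * t with hh₁
  have hvim : π v * (π g)⁻¹ * π v = π g := by
    have h0 : (π v)⁻¹ = π v := by rw [← map_inv, hvinv]
    have := congrArg (fun x => x⁻¹) hginv
    simp only [mul_inv_rev, inv_inv, h0] at this
    rw [mul_assoc]; exact this
  have him : π h₁ = hb := by
    rw [hh₁, ht]
    simp only [map_mul, map_inv]
    calc π v * ((π g)⁻¹ * π v * π g) = (π v * (π g)⁻¹ * π v) * π g := by group
      _ = hb := by rw [hvim, hgsq]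
  have ht2 : t⁻¹ = t := by
    rw [ht]
    simp only [mul_inv_rev, inv_inv, hvinv, mul_assoc]
  have hinv1 : v * h₁ * v⁻¹ = h₁⁻¹ := by
    rw [hh₁, mul_inv_rev, ht2, hvinv]
    calc v * (v * t) * v = (v * v) * t * v := by group
      _ = t * v := by rw [← sq, hv2, one_mul]
  -- odd part
  have hN : orderOf h₁ ≠ 0 := (orderOf_pos h₁).ne'
  obtain ⟨a, m, hm, hNe⟩ := Nat.exists_eq_two_pow_mul_odd hN
  have hcop : Nat.Coprime 2 (orderOf hb) := by
    rw [Nat.coprime_two_left]
    exact ⟨l, hl⟩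
  set e := (2 ^ Nat.totient (orderOf hb)) ^ a with he
  have he1 : e ≡ 1 [MOD orderOf hb] := by
    have := (Nat.ModEq.pow_totient hcop).pow a
    simpa [he] using this
  set h₂ := h₁ ^ e with hh₂
  have him2 : π h₂ = hb := by
    rw [hh₂, map_pow, him]
    have := (pow_eq_pow_iff_modEq (x := hb)).2 he1
    simpa using this
  have hodd2 : Odd (orderOf h₂) := by
    have hdvd : orderOf h₂ ∣ m := by
      apply orderOf_dvd_of_pow_eq_one
      rw [hh₂, ← pow_mul]
      apply orderOf_dvd_iff_pow_eq_one.mp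
      rw [hNe]
      have h1 : 2 ^ a ∣ e := by
        rw [he]
        have hpos : 0 < Nat.totient (orderOf hb) := Nat.totient_pos.mpr (orderOf_pos hb)
        have : (2 : ℕ) ∣ 2 ^ Nat.totient (orderOf hb) := dvd_pow_self 2 hpos.ne'
        exact pow_dvd_pow_of_dvd this a
      exact Nat.mul_dvd_mul h1 dvd_rfl
    exact Odd.of_dvd_nat hm hdvd
  have hinv2 : v * h₂ * v⁻¹ = h₂⁻¹ := by
    rw [hh₂, ← conj_pow, hinv1, inv_pow]
  obtain ⟨w, hw, hw1, hwc⟩ := hS h₂ v hv hodd2 hinv2
  refine ⟨π w, ⟨w, hw, rfl⟩, ?_, ?_⟩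
  · intro h1
    have : w ∈ K := by
      have := (QuotientGroup.eq_one_iff w).1 h1
      exact this
    have h2 : w ∈ V ⊓ K := Subgroup.mem_inf.mpr ⟨hw, this⟩
    rw [hVK, Subgroup.mem_bot] at h2
    exact hw1 h2
  · have := congrArg π hwc
    simpa only [map_mul, him2] using this

end Cfsg.Agent.S3012
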