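import Mathlib
import Cfsg.Statements.S3013

set_option autoImplicit false
open Cfsg

namespace Cfsg.Agent.S3013

lemma commute_of_sq {G : Type*} [Group G] {w h : G} (hodd : Odd (orderOf h))
    (hc : Commute w (h ^ 2)) : Commute w h := by
  obtain ⟨k, hk⟩ := hodd
  have h1 : h = (h ^ 2) ^ (k + 1) := by
    rw [← pow_mul]
    have : 2 * (k + 1) = orderOf h + 1 := by omega
    rw [this, pow_succ, pow_orderOf_eq_one, one_mul]
  rw [h1]
  exact hc.pow_right _

/-- Let G be a finite group and V a nontrivial elementary abelian 2-subgroup of G satisfying the Sidki pair condition. Let v ∈ V and let x be an element of odd order inverted by v, and put C = C_G(v) ∩ C_G(x), the centralizer of the dihedral subgroup generated by v and x. Then C ∩ V is nontrivial and satisfies the Sidki pair condition inside C: every odd-order element of C inverted by an element of C ∩ V commutes with a nontrivial element of C ∩ V. -/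
theorem result {G : Type*} [Group G] [Finite G] (V : Subgroup G) (hV : Cfsg.IsElementaryAbelian 2 V) (hV1 : V ≠ ⊥) (hS : Cfsg.IsSidkiPair V) (v x : G) (hv : v ∈ V) (hx : Odd (orderOf x)) (hinv : v * x * v⁻¹ = x⁻¹) (C : Subgroup G) (hC : C = Subgroup.centralizer ({v} : Set G) ⊓ Subgroup.centralizer ({x} : Set G)) : C ⊓ V ≠ ⊥ ∧ Cfsg.IsSidkiPair ((C ⊓ V).subgroupOf C) := by
  have hVcomm : ∀ a ∈ V, ∀ b ∈ V, a * b = b * a := by
    intro a ha b hb
    have := hV.1.is_comm.comm (⟨a, ha⟩ : V) ⟨b, hb⟩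
    exact congrArg Subtype.val this
  have hmemC : ∀ y : G, y ∈ C ↔ Commute y v ∧ Commute y x := by
    intro y
    rw [hC, Subgroup.mem_inf, Subgroup.mem_centralizer_singleton_iff,
      Subgroup.mem_centralizer_singleton_iff]
    rfl
  constructor
  · obtain ⟨w, hw, hw1, hwc⟩ := hS x v hv hx hinv
    intro hbot
    have : w ∈ C ⊓ V := by
      rw [Subgroup.mem_inf]
      exact ⟨(hmemC w).2 ⟨hVcomm w hw v hv, hwc⟩, hw⟩
    rw [hbot, Subgroup.mem_bot] at this
    exact hw1 this
  · intro h u hu hodd hconj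
    have hu' : (u : G) ∈ C ⊓ V := Subgroup.mem_subgroupOf.mp hu
    have huV : (u : G) ∈ V := (Subgroup.mem_inf.mp hu').2
    have huC := (hmemC u).1 u.2
    have hhC := (hmemC h).1 h.2
    have hodd' : Odd (orderOf (h : G)) := by
      rwa [← Subgroup.orderOf_coe] at hodd
    have hconj' : (u : G) * h * (u : G)⁻¹ = (h : G)⁻¹ := by
      have := congrArg (Subtype.val) hconj
      simpa using this
    -- product
    have hcomm : Commute (h : G) x := hhC.2
    have hoddp : Odd (orderOf ((h : G) * x)) := by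
      have h1 : orderOf ((h : G) * x) ∣ orderOf (h : G) * orderOf x :=
        (hcomm.orderOf_mul_dvd_lcm).trans (Nat.lcm_dvd_mul _ _)
      exact Odd.of_dvd_nat (hodd'.mul hx) h1
    have hinvp : ((u : G) * v) * ((h : G) * x) * ((u : G) * v)⁻¹ = ((h : G) * x)⁻¹ := by
      have hvh : v * (h : G) = h * v := (hhC.1).eq.symm
      have hux : (u : G) * x = x * u := huC.2.eq
      have h1 : v * x = x⁻¹ * v := by
        rw [← hinv]; group
      have h2 : (u : G) * h = (h : G)⁻¹ * u := by
        rw [← hconj']; group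
      calc ((u : G) * v) * ((h : G) * x) * ((u : G) * v)⁻¹
          = (u : G) * (v * (h : G)) * x * v⁻¹ * (u : G)⁻¹ := by group
        _ = (u : G) * h * (v * x) * v⁻¹ * (u : G)⁻¹ := by rw [hvh]; group
        _ = (u : G) * h * x⁻¹ * (u : G)⁻¹ := by rw [h1]; group
        _ = ((u : G) * h) * x⁻¹ * (u : G)⁻¹ := by group
        _ = (h : G)⁻¹ * u * x⁻¹ * (u : G)⁻¹ := by rw [h2]
        _ = (h : G)⁻¹ * ((u : G) * x⁻¹ * (u : G)⁻¹) := by group
        _ = (h : G)⁻¹ * x⁻¹ := by
            have : (u : G) * x⁻¹ * (u : G)⁻¹ = x⁻¹ := by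
              have h3 : (u : G) * x⁻¹ = x⁻¹ * u := (huC.2.inv_right).eq
              rw [h3]; group
            rw [this]
        _ = ((h : G) * x)⁻¹ := by rw [hcomm.eq, mul_inv_rev]
    obtain ⟨w, hw, hw1, hwc⟩ := hS ((h : G) * x) ((u : G) * v) (V.mul_mem huV hv) hoddp hinvp
    -- w commutes with h x⁻¹ as well
    have hwv : Commute w v := hVcomm w hw v hv
    have hwc' : Commute w ((h : G) * x) := hwc
    have hconjv : v * ((h : G) * x) * v⁻¹ = (h : G) * x⁻¹ := by
      have hvh : v * (h : G) = h * v := (hhC.1).eq.symm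
      calc v * ((h : G) * x) * v⁻¹ = (v * (h : G)) * x * v⁻¹ := by group
        _ = (h : G) * (v * x * v⁻¹) := by rw [hvh]; group
        _ = (h : G) * x⁻¹ := by rw [hinv]
    have hwc2 : Commute w ((h : G) * x⁻¹) := by
      rw [← hconjv]
      exact (hwv.mul_right hwc').mul_right hwv.inv_right
    have hsqh : (h : G) ^ 2 = ((h : G) * x) * ((h : G) * x⁻¹) := by
      rw [sq]
      calc (h : G) * h = h * (x * x⁻¹) * h := by group
        _ = h * x * (x⁻¹ * h) := by group
        _ = h * x * (h * x⁻¹) := by rw [(hcomm.inv_right).eq.symm]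
    have hsqx : x ^ 2 = ((h : G) * x) * ((h : G) * x⁻¹)⁻¹ := by
      rw [sq, mul_inv_rev, inv_inv]
      have e1 : (h : G) * x = x * h := hcomm.eq
      calc x * x = x * (x * h) * (h : G)⁻¹ := by group
        _ = x * (h * x) * (h : G)⁻¹ := by rw [e1]
        _ = (x * h) * (x * (h : G)⁻¹) := by group
        _ = (h * x) * (x * (h : G)⁻¹) := by rw [e1]
    have hwh : Commute w (h : G) := commute_of_sq hodd' (by rw [hsqh]; exact hwc'.mul_right hwc2)
    have hwx : Commute w x := commute_of_sq hx (by rw [hsqx]; exact hwc'.mul_right hwc2.inv_right)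
    have hwC : w ∈ C := (hmemC w).2 ⟨hwv, hwx⟩
    refine ⟨⟨w, hwC⟩, ?_, ?_, ?_⟩
    · exact Subgroup.mem_subgroupOf.mpr (Subgroup.mem_inf.mpr ⟨hwC, hw⟩)
    · intro h1
      exact hw1 (congrArg Subtype.val h1)
    · exact Subtype.ext hwh

end Cfsg.Agent.S3013
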