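import Mathlib
import Cfsg.Statements.S3014
import Cfsg.Agent.Lib.H14.FWTransfer
import Cfsg.Agent.Lib.H13.Basic
-- import your own Cfsg.Agent.* helpers here

set_option autoImplicit false
open Cfsg

namespace Cfsg.Agent.S3014

theorem mem_normalizer_sup {G : Type*} [Group G] {A B : Subgroup G} {x : G}
    (hA : x ∈ Subgroup.normalizer (A : Set G)) (hB : x ∈ Subgroup.normalizer (B : Set G)) :
    x ∈ Subgroup.normalizer ((A ⊔ B : Subgroup G) : Set G) := by
  rw [H13.mem_normalizer_iff_map_conj, H13.map_conj_sup, H13.map_conj_eq_of_mem_normalizer hA,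
    H13.map_conj_eq_of_mem_normalizer hB]

/-- Let G be a finite group and H ≤ M ≤ G subgroups such that for every g ∈ G the subgroup generated by H and g H g⁻¹ meets M exactly in H. If H is a maximal subgroup of M and M is a maximal subgroup of G, then the normal closure of H in G meets M exactly in H. -/
theorem result {G : Type*} [Group G] [Finite G] (H M : Subgroup G) (hHM : H ≤ M) (hcl : ∀ g : G, (H ⊔ H.map (MulAut.conj g).toMonoidHom) ⊓ M = H) (hmaxH : IsCoatom (H.subgroupOf M)) (hmaxM : IsCoatom M) : Subgroup.normalClosure (H : Set G) ⊓ M = H := by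
  classical
  have hMN : M ≤ Subgroup.normalizer (H : Set G) := by
    intro m hm
    apply H13.mem_normalizer_of_map_conj_le
    have hle : H.map (MulAut.conj m).toMonoidHom ≤ M := by
      rintro _ ⟨x, hx, rfl⟩
      exact M.mul_mem (M.mul_mem hm (hHM hx)) (M.inv_mem hm)
    intro y hy
    have := hcl m
    rw [← this]
    exact ⟨Subgroup.mem_sup_right hy, hle hy⟩
  haveI hn : (H.subgroupOf M).Normal := (Subgroup.normal_subgroupOf_iff_le_normalizer hHM).mpr hMN
  have hcov : ∀ d ∈ M, d ∉ H → M ≤ H ⊔ Subgroup.zpowers d := by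
    intro d hd hdH
    have hlt : H.subgroupOf M < (H ⊔ Subgroup.zpowers d).subgroupOf M := by
      apply lt_of_le_of_ne (fun x hx => Subgroup.mem_subgroupOf.mpr (Subgroup.mem_sup_left (Subgroup.mem_subgroupOf.mp hx)))
      intro heq
      apply hdH
      have h1 : (⟨d, hd⟩ : M) ∈ (H ⊔ Subgroup.zpowers d).subgroupOf M :=
        Subgroup.mem_subgroupOf.mpr (Subgroup.mem_sup_right (Subgroup.mem_zpowers d))
      rw [← heq] at h1
      exact Subgroup.mem_subgroupOf.mp h1
    have := hmaxH.2 _ hlt
    rwa [Subgroup.subgroupOf_eq_top] at this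
  apply le_antisymm _ (le_inf (fun _ h => Subgroup.subset_normalClosure h) hHM)
  by_cases hNtop : Subgroup.normalizer (H : Set G) = ⊤
  · haveI hHn : H.Normal := Subgroup.normalizer_eq_top_iff.mp hNtop
    exact inf_le_left.trans (Subgroup.normalClosure_le_normal (fun _ h => h))
  have hNM : Subgroup.normalizer (H : Set G) = M := by
    by_contra hne
    exact hNtop (hmaxM.2 _ (lt_of_le_of_ne hMN (Ne.symm hne)))
  by_cases hcase : ∃ g, g ∉ M ∧ ∃ d ∈ M, d ∈ M.map (MulAut.conj g).toMonoidHom ∧ d ∉ H
  · obtain ⟨g, hgM, d, hdM, hdg, hdH⟩ := hcase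
    set T := H ⊔ H.map (MulAut.conj g).toMonoidHom with hT
    have hTM : T ⊓ M = H := hcl g
    have hTnot : ¬ T ≤ M := by
      intro hle
      have h1 : T = H := by rw [← hTM]; exact (inf_eq_left.mpr hle).symm
      have h2 : H.map (MulAut.conj g).toMonoidHom ≤ H := le_sup_right.trans_eq h1
      apply hgM
      rw [← hNM]
      exact H13.mem_normalizer_of_map_conj_le h2
    have hdN1 : d ∈ Subgroup.normalizer (H : Set G) := hMN hdM
    have hdN2 : d ∈ Subgroup.normalizer ((H.map (MulAut.conj g).toMonoidHom : Subgroup G) : Set G) := by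
      rw [← H13.map_conj_normalizer]
      exact Subgroup.map_mono hMN hdg
    have hdT : d ∈ Subgroup.normalizer (T : Set G) := mem_normalizer_sup hdN1 hdN2
    have hHT : H ≤ Subgroup.normalizer (T : Set G) := (le_sup_left : H ≤ T).trans Subgroup.le_normalizer
    have hMT : M ≤ Subgroup.normalizer (T : Set G) :=
      (hcov d hdM hdH).trans (sup_le hHT ((Subgroup.zpowers_le).mpr hdT))
    have hNT : Subgroup.normalizer (T : Set G) = ⊤ := by
      apply hmaxM.2
      apply lt_of_le_of_ne hMT
      intro heq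
      apply hTnot
      rw [heq]
      exact Subgroup.le_normalizer
    haveI hTn : T.Normal := Subgroup.normalizer_eq_top_iff.mp hNT
    have hle : Subgroup.normalClosure (H : Set G) ≤ T :=
      Subgroup.normalClosure_le_normal (fun _ h => Subgroup.mem_sup_left h)
    calc Subgroup.normalClosure (H : Set G) ⊓ M ≤ T ⊓ M := inf_le_inf_right _ hle
      _ = H := hTM
  · push Not at hcase
    have hA := H14.quotient_comm_of_cover hHM hcov
    obtain ⟨V, hV⟩ := H14.exists_transfer_ext hA (QuotientGroup.mk' (H.subgroupOf M)) (by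
      intro x hx y hy hz
      have hxinv : x⁻¹ ∉ M := fun h => hx (by simpa using M.inv_mem h)
      have h1 := hcase x⁻¹ hxinv (x⁻¹ * y * x) hz ⟨y, hy, by simp [MulAut.conj_apply]⟩
      exact (QuotientGroup.eq_one_iff _).mpr (Subgroup.mem_subgroupOf.mpr h1))
    have hHK : Subgroup.normalClosure (H : Set G) ≤ V.ker := by
      apply Subgroup.normalClosure_le_normal
      intro h hh
      rw [SetLike.mem_coe, MonoidHom.mem_ker]
      have := hV ⟨h, hHM hh⟩
      simp only at this
      rw [this]
      exact (QuotientGroup.eq_one_iff _).mpr (Subgroup.mem_subgroupOf.mpr hh)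
    rintro z ⟨hz1, hz2⟩
    have h1 := hHK hz1
    rw [MonoidHom.mem_ker] at h1
    have h2 := hV ⟨z, hz2⟩
    simp only at h2
    rw [h1] at h2
    have h3 := (QuotientGroup.eq_one_iff _).mp h2.symm
    exact Subgroup.mem_subgroupOf.mp h3

end Cfsg.Agent.S3014
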