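import Mathlib
import Cfsg.Statements.S3015
import Cfsg.Agent.Lib.H14.FWTransfer
import Cfsg.Agent.Lib.H14.Basic
import Cfsg.Agent.Lib.H13.Basic
-- import your own Cfsg.Agent.* helpers here

set_option autoImplicit false
open Cfsg

namespace Cfsg.Agent.S3015

theorem mem_normalizer_sup {G : Type*} [Group G] {A B : Subgroup G} {x : G}
    (hA : x ∈ Subgroup.normalizer (A : Set G)) (hB : x ∈ Subgroup.normalizer (B : Set G)) :
    x ∈ Subgroup.normalizer ((A ⊔ B : Subgroup G) : Set G) := by
  rw [H13.mem_normalizer_iff_map_conj, H13.map_conj_sup, H13.map_conj_eq_of_mem_normalizer hA,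
    H13.map_conj_eq_of_mem_normalizer hB]

theorem relIndex_mul_card_of_le {G : Type*} [Group G] [Finite G] {K L : Subgroup G} (h : K ≤ L) :
    K.relIndex L * Nat.card K = Nat.card L := by
  have h1 := Subgroup.index_mul_card (K.subgroupOf L)
  rw [Nat.card_congr (Subgroup.subgroupOfEquivOfLe h).toEquiv] at h1
  exact h1


/-- Let G be a finite non-abelian simple group, M a maximal subgroup of G and H a normal subgroup of M of prime index in M. Then G is generated by H together with one of its conjugates. -/
theorem result {G : Type*} [Group G] [Finite G] [IsSimpleGroup G] (hG : ¬ IsMulCommutative G) (M H : Subgroup G) (hmaxM : IsCoatom M) (hHM : H ≤ M) (hHn : (H.subgroupOf M).Normal) (hidx : (H.relIndex M).Prime) : ∃ g : G, H ⊔ H.map (MulAut.conj g).toMonoidHom = ⊤ := by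
  classical
  set q := H.relIndex M with hq
  have hMN : M ≤ Subgroup.normalizer (H : Set G) :=
    (Subgroup.normal_subgroupOf_iff_le_normalizer hHM).mp hHn
  have hcovGen : ∀ {K L : Subgroup G}, K ≤ L → (K.relIndex L).Prime → ∀ d ∈ L, d ∉ K →
      L ≤ K ⊔ Subgroup.zpowers d := by
    intro K L hKL hprime d hd hdK
    have hle : K ⊔ Subgroup.zpowers d ≤ L := sup_le hKL ((Subgroup.zpowers_le).mpr hd)
    have h1 := Subgroup.relIndex_mul_relIndex K (K ⊔ Subgroup.zpowers d) L le_sup_left hle
    rw [← h1] at hprime
    rcases (Nat.prime_mul_iff.mp hprime) with ⟨_, h2⟩ | ⟨_, h2⟩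
    · exact Subgroup.relIndex_eq_one.mp h2
    · exfalso
      have := Subgroup.relIndex_eq_one.mp h2
      exact hdK (this (Subgroup.mem_sup_right (Subgroup.mem_zpowers d)))
  have hcov := @hcovGen H M hHM hidx
  have hq1 : ¬ M ≤ H := by
    intro hle
    have : q = 1 := Subgroup.relIndex_eq_one.mpr hle
    rw [this] at hidx
    exact Nat.not_prime_one hidx
  by_contra hno
  push Not at hno
  have hGn : ∀ K : Subgroup G, K.Normal → K = ⊥ ∨ K = ⊤ := fun K hK => hK.eq_bot_or_eq_top
  by_cases hcase : ∃ g, g ∉ M ∧ ∃ d ∈ M, d ∈ M.map (MulAut.conj g).toMonoidHom ∧ d ∉ H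
  · obtain ⟨g, hgM, d, hdM, hdg, hdH⟩ := hcase
    have hd1 : d ≠ 1 := fun h => hdH (h ▸ H.one_mem)
    have hMbot : M ≠ ⊥ := by
      intro h
      rw [h, Subgroup.mem_bot] at hdM
      exact hd1 hdM
    have hMtop : M ≠ ⊤ := hmaxM.1
    -- normalizer of M
    have hNM : Subgroup.normalizer (M : Set G) = M := by
      by_contra hne
      have h1 := hmaxM.2 _ (lt_of_le_of_ne Subgroup.le_normalizer (Ne.symm hne))
      haveI : M.Normal := Subgroup.normalizer_eq_top_iff.mp h1
      rcases hGn M inferInstance with h | h
      · exact hMbot h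
      · exact hMtop h
    have hconjM : ¬ M.map (MulAut.conj g).toMonoidHom ≤ M := by
      intro hle
      apply hgM
      rw [← hNM]
      exact H13.mem_normalizer_of_map_conj_le hle
    have hsupM : M ⊔ M.map (MulAut.conj g).toMonoidHom = ⊤ := by
      apply hmaxM.2
      apply lt_of_le_of_ne le_sup_left
      intro heq
      apply hconjM
      exact le_sup_right.trans_eq heq.symm
    -- a normalizer containing M and g is everything
    have hNtop : ∀ K : Subgroup G, M ≤ Subgroup.normalizer (K : Set G) →
        g ∈ Subgroup.normalizer (K : Set G) → K.Normal := by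
      intro K h1 h2
      apply Subgroup.normalizer_eq_top_iff.mp
      apply hmaxM.2
      apply lt_of_le_of_ne h1
      intro heq
      rw [← heq] at h2
      exact hgM h2
    set T := H ⊔ H.map (MulAut.conj g).toMonoidHom with hT
    have hdN1 : d ∈ Subgroup.normalizer (H : Set G) := hMN hdM
    have hdN2 : d ∈ Subgroup.normalizer ((H.map (MulAut.conj g).toMonoidHom : Subgroup G) : Set G) := by
      rw [← H13.map_conj_normalizer]
      exact Subgroup.map_mono hMN hdg
    have hdT : d ∈ Subgroup.normalizer (T : Set G) := mem_normalizer_sup hdN1 hdN2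
    have hHT : H ≤ Subgroup.normalizer (T : Set G) := (le_sup_left : H ≤ T).trans Subgroup.le_normalizer
    have hMT : M ≤ Subgroup.normalizer (T : Set G) :=
      (hcov d hdM hdH).trans (sup_le hHT ((Subgroup.zpowers_le).mpr hdT))
    have hTM : T ≤ M := by
      by_contra hTnot
      have hNT : Subgroup.normalizer (T : Set G) = ⊤ := by
        apply hmaxM.2
        apply lt_of_le_of_ne hMT
        intro heq
        apply hTnot
        rw [heq]
        exact Subgroup.le_normalizer
      haveI hTn : T.Normal := Subgroup.normalizer_eq_top_iff.mp hNT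
      rcases hGn T inferInstance with h | h
      · apply hTnot
        rw [h]
        exact bot_le
      · exact hno g h
    have hH'M : H.map (MulAut.conj g).toMonoidHom ≤ M := le_sup_right.trans hTM
    -- elements of M of order prime to q are in H
    haveI hAnormal := hHn
    have hcardA : Nat.card (↥M ⧸ H.subgroupOf M) = q := rfl
    have hcop : ∀ x ∈ M, (orderOf x).Coprime q → x ∈ H := by
      intro x hx hc
      have h1 : (QuotientGroup.mk (⟨x, hx⟩ : M) : ↥M ⧸ H.subgroupOf M) ^ q = 1 := by
        have := pow_card_eq_one' (x := (QuotientGroup.mk (⟨x, hx⟩ : M) : ↥M ⧸ H.subgroupOf M))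
        rwa [hcardA] at this
      have h2 : orderOf (QuotientGroup.mk (⟨x, hx⟩ : M) : ↥M ⧸ H.subgroupOf M) ∣ q := orderOf_dvd_of_pow_eq_one h1
      have h3 : orderOf (QuotientGroup.mk (⟨x, hx⟩ : M) : ↥M ⧸ H.subgroupOf M) ∣ orderOf x := by
        apply orderOf_dvd_of_pow_eq_one
        rw [← QuotientGroup.mk_pow]
        have : (⟨x, hx⟩ : M) ^ orderOf x = 1 := by
          apply Subtype.ext
          simp [pow_orderOf_eq_one]
        rw [this]
        rfl
      have h4 : orderOf (QuotientGroup.mk (⟨x, hx⟩ : M) : ↥M ⧸ H.subgroupOf M) = 1 :=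
        Nat.eq_one_of_dvd_coprimes hc h3 h2
      rw [orderOf_eq_one_iff] at h4
      have h5 := (QuotientGroup.eq_one_iff _).mp h4
      exact Subgroup.mem_subgroupOf.mp h5
    -- the subgroup generated by q'-elements of H
    set X : Set G := {x | x ∈ H ∧ (orderOf x).Coprime q} with hX
    set R := Subgroup.closure X with hR
    have hRH : R ≤ H := (Subgroup.closure_le _).mpr (fun x hx => hx.1)
    have hRconj : ∀ y : G, (∀ x ∈ H, y * x * y⁻¹ ∈ M) → y ∈ Subgroup.normalizer (H : Set G) ∨
        H.map (MulAut.conj y).toMonoidHom ≤ M → y ∈ Subgroup.normalizer (R : Set G) := by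
      intro y hy hy'
      apply H13.mem_normalizer_of_map_conj_le
      rw [hR, MonoidHom.map_closure, Subgroup.closure_le]
      rintro _ ⟨x, ⟨hxH, hxc⟩, rfl⟩
      apply Subgroup.subset_closure
      have hord : orderOf (y * x * y⁻¹) = orderOf x :=
        orderOf_injective (MulAut.conj y).toMonoidHom (MulAut.conj y).injective x
      have hc2 : (orderOf (y * x * y⁻¹)).Coprime q := by rwa [hord]
      exact ⟨hcop _ (hy x hxH) hc2, hc2⟩
    have hMR : M ≤ Subgroup.normalizer (R : Set G) := by
      intro m hm
      apply hRconj m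
      · intro x hx
        exact M.mul_mem (M.mul_mem hm (hHM hx)) (M.inv_mem hm)
      · exact Or.inl (hMN hm)
    have hgR : g ∈ Subgroup.normalizer (R : Set G) := by
      apply hRconj g
      · intro x hx
        exact hH'M ⟨x, hx, rfl⟩
      · exact Or.inr hH'M
    haveI hRn : R.Normal := hNtop R hMR hgR
    have hRbot : R = ⊥ := by
      rcases hGn R inferInstance with h | h
      · exact h
      · exfalso
        apply hMtop
        exact eq_top_iff.mpr (h.symm.le.trans (hRH.trans hHM))
    haveI hqp : Fact q.Prime := ⟨hidx⟩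
    -- H is a q-group
    have hHq : IsPGroup q H := by
      intro x
      have hxord : orderOf (x : G) ≠ 0 := (orderOf_pos _).ne'
      obtain ⟨a, m, hm, hord⟩ := Nat.exists_eq_pow_mul_and_not_dvd hxord q (hidx.ne_one)
      refine ⟨a, ?_⟩
      apply Subtype.ext
      have h1 : (x : G) ^ q ^ a ∈ H := H.pow_mem x.2 _
      have h2 : orderOf ((x : G) ^ q ^ a) = m := by
        rw [orderOf_pow_of_dvd (pow_ne_zero _ hidx.ne_zero) (by rw [hord]; exact dvd_mul_right _ _), hord]
        exact Nat.mul_div_cancel_left _ (pow_pos hidx.pos a)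
      have h3 : (x : G) ^ q ^ a ∈ R := by
        apply Subgroup.subset_closure
        refine ⟨h1, ?_⟩
        rw [h2]
        exact ((Nat.Prime.coprime_iff_not_dvd hidx).mpr hm).symm
      rw [hRbot, Subgroup.mem_bot] at h3
      simpa using h3
    have hMq : IsPGroup q M := by
      intro x
      have h1 : (QuotientGroup.mk x : ↥M ⧸ H.subgroupOf M) ^ q = 1 := by
        have := pow_card_eq_one' (x := (QuotientGroup.mk x : ↥M ⧸ H.subgroupOf M))
        rwa [hcardA] at this
      have h2 : ((x : G) ^ q) ∈ H := by
        rw [← QuotientGroup.mk_pow] at h1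
        have := (QuotientGroup.eq_one_iff _).mp h1
        simpa using Subgroup.mem_subgroupOf.mp this
      obtain ⟨k, hk⟩ := hHq ⟨_, h2⟩
      refine ⟨k + 1, ?_⟩
      apply Subtype.ext
      have h3 := congrArg Subtype.val hk
      simp only [Subgroup.coe_pow, Subgroup.coe_one] at h3 ⊢
      rw [pow_succ', pow_mul]
      exact h3
    -- index of the conjugate
    have hH'card : Nat.card ↥(H.map (MulAut.conj g).toMonoidHom) = Nat.card H := H13.card_map_conj g H
    have hidx' : ((H.map (MulAut.conj g).toMonoidHom).relIndex M).Prime := by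
      have h1 := relIndex_mul_card_of_le hH'M
      have h2 := relIndex_mul_card_of_le hHM
      rw [hH'card, ← h2] at h1
      rw [Nat.eq_of_mul_eq_mul_right Nat.card_pos h1]
      exact hidx
    have hne' : H.map (MulAut.conj g).toMonoidHom ≠ M := by
      intro h
      have h1 : (H.map (MulAut.conj g).toMonoidHom).relIndex M = 1 := by
        rw [h]; exact Subgroup.relIndex_self M
      rw [h1] at hidx'
      exact Nat.not_prime_one hidx'
    obtain ⟨x, hxM, hxH', hxN⟩ := H14.exists_mem_normalizer_of_pgroup hMq hH'M hne'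
    have hM_N' : M ≤ Subgroup.normalizer ((H.map (MulAut.conj g).toMonoidHom : Subgroup G) : Set G) := by
      refine (hcovGen hH'M hidx' x hxM hxH').trans (sup_le Subgroup.le_normalizer ?_)
      exact (Subgroup.zpowers_le).mpr hxN
    have hM'_N' : M.map (MulAut.conj g).toMonoidHom ≤
        Subgroup.normalizer ((H.map (MulAut.conj g).toMonoidHom : Subgroup G) : Set G) := by
      rw [← H13.map_conj_normalizer]
      exact Subgroup.map_mono hMN
    have hH'n : (H.map (MulAut.conj g).toMonoidHom).Normal := by
      apply Subgroup.normalizer_eq_top_iff.mp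
      rw [eq_top_iff, ← hsupM]
      exact sup_le hM_N' hM'_N'
    have hH'bot : H.map (MulAut.conj g).toMonoidHom = ⊥ := by
      rcases hGn _ hH'n with h | h
      · exact h
      · exfalso
        apply hMtop
        exact eq_top_iff.mpr (h.symm.le.trans hH'M)
    have hHbot : H = ⊥ := by
      rw [← Subgroup.card_eq_one, ← hH'card]
      rw [hH'bot]
      simp
    have hMd : M ≤ M.map (MulAut.conj g).toMonoidHom := by
      refine (hcov d hdM hdH).trans (sup_le ?_ ((Subgroup.zpowers_le).mpr hdg))
      rw [hHbot]
      exact bot_le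
    apply hconjM
    have heq : M = M.map (MulAut.conj g).toMonoidHom :=
      Subgroup.eq_of_le_of_card_ge hMd (H13.card_map_conj g M).le
    exact heq.symm.le
  · push Not at hcase
    haveI := hHn
    have hA := H14.quotient_comm_of_cover hHM hcov
    obtain ⟨V, hV⟩ := H14.exists_transfer_ext hA (QuotientGroup.mk' (H.subgroupOf M)) (by
      intro x hx y hy hz
      have hxinv : x⁻¹ ∉ M := fun h => hx (by simpa using M.inv_mem h)
      have h1 := hcase x⁻¹ hxinv (x⁻¹ * y * x) hz ⟨y, hy, by simp⟩
      exact (QuotientGroup.eq_one_iff _).mpr (Subgroup.mem_subgroupOf.mpr h1))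
    rcases hGn V.ker inferInstance with h | h
    · apply hG
      have hinj : Function.Injective V := (MonoidHom.ker_eq_bot_iff V).mp h
      refine ⟨⟨fun a b => hinj ?_⟩⟩
      rw [map_mul, map_mul]
      exact hA _ _
    · apply hq1
      intro x hx
      have h1 : V x = 1 := by
        have : x ∈ V.ker := by rw [h]; trivial
        exact this
      have h2 := hV ⟨x, hx⟩
      simp only at h2
      rw [h1] at h2
      have h3 := (QuotientGroup.eq_one_iff _).mp h2.symm
      exact Subgroup.mem_subgroupOf.mp h3

end Cfsg.Agent.S3015
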