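import Mathlib
import Cfsg.Statements.S3020
import Cfsg.Agent.Lib.H14.Basic

set_option autoImplicit false
open Cfsg

namespace Cfsg.Agent.S3020

/-- Let G be a finite group, p a prime and H an abelian p-subgroup of G that is extremely closed (for every g, the subgroup generated by H and g H g⁻¹ meets N_G(H) exactly in H). Then for every g ∈ G, the subgroup T generated by H and g H g⁻¹ is the product of H with O_{p'}(T), and H meets O_{p'}(T) trivially; that is, O_{p'}(T) is a normal p-complement of H in T. -/
theorem result {G : Type*} [Group G] [Finite G] {p : ℕ} [Fact p.Prime] (H : Subgroup G) (hHp : IsPGroup p H) (hHab : IsMulCommutative H) (hcl : Cfsg.IsExtremelyClosed H) (g : G) (T : Subgroup G) (hT : T = H ⊔ H.map (MulAut.conj g).toMonoidHom) : H ⊔ (Cfsg.pPrimeCore p ↥T).map T.subtype = T ∧ H ⊓ (Cfsg.pPrimeCore p ↥T).map T.subtype = ⊥ := by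
  have hHT : H ≤ T := by rw [hT]; exact le_sup_left
  have hcl' : T ⊓ Subgroup.normalizer (H : Set G) = H := by rw [hT]; exact hcl g
  -- H as a subgroup of T
  set H' : Subgroup ↥T := H.subgroupOf T with hH'
  have hH'p : IsPGroup p H' := by
    have : IsPGroup p ↥(H'.map T.subtype) := by
      rw [hH', Subgroup.subgroupOf_map_subtype, inf_eq_left.mpr hHT]
      exact hHp
    exact this.of_injective ((Subgroup.equivMapOfInjective H' T.subtype T.subtype_injective).toMonoidHom) (Subgroup.equivMapOfInjective H' T.subtype T.subtype_injective).injective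
  obtain ⟨P, hP⟩ := hH'p.exists_le_sylow
  have hmapP : IsPGroup p ↥((P : Subgroup ↥T).map T.subtype) := P.2.map _
  have hHmapP : H ≤ (P : Subgroup ↥T).map T.subtype := by
    intro x hx
    exact ⟨⟨x, hHT hx⟩, hP (Subgroup.mem_subgroupOf.mpr hx), rfl⟩
  have hPH : (P : Subgroup ↥T).map T.subtype = H := by
    apply H14.eq_of_inf_normalizer_eq hmapP hHmapP
    apply le_antisymm
    · exact (inf_le_inf_right _ (Subgroup.map_subtype_le (P : Subgroup ↥T))).trans_eq hcl'
    · exact le_inf hHmapP Subgroup.le_normalizer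
  have hPH' : (P : Subgroup ↥T) = H' := by
    ext x
    rw [hH', Subgroup.mem_subgroupOf, ← hPH]
    simp
  -- self-normalizing
  have hN : Subgroup.normalizer ((P : Subgroup ↥T) : Set ↥T) ≤ Subgroup.centralizer ((P : Subgroup ↥T) : Set ↥T) := by
    intro x hx y hy
    have hxH : (x : G) ∈ H := by
      refine hcl'.le ⟨x.2, ?_⟩
      show (x : G) ∈ Subgroup.normalizer (H : Set G)
      rw [Subgroup.mem_normalizer_iff]
      intro z
      rw [hPH'] at hx
      by_cases hz : z ∈ T
      · have := (Subgroup.mem_normalizer_iff.mp hx) ⟨z, hz⟩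
        simpa [hH', Subgroup.mem_subgroupOf] using this
      · have h1 : z ∉ H := fun h => hz (hHT h)
        have h2 : (x : G) * z * (x : G)⁻¹ ∉ H := by
          intro h
          apply hz
          have h3 := T.mul_mem (T.mul_mem (T.inv_mem x.2) (hHT h)) x.2
          simpa [mul_assoc] using h3
        simp [h1, h2]
    have hyH : (y : G) ∈ H := by
      rw [hPH'] at hy
      exact Subgroup.mem_subgroupOf.mp hy
    have := hHab.is_comm.comm (⟨y, hyH⟩ : H) ⟨x, hxH⟩
    exact Subtype.ext (by simpa using congrArg Subtype.val this)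
  -- the kernel
  set f := MonoidHom.transferSylow (P : Sylow p ↥T) hN with hf
  have hcompl := MonoidHom.ker_transferSylow_isComplement' P hN
  have hcop : ¬ p ∣ Nat.card f.ker := MonoidHom.not_dvd_card_ker_transferSylow P hN
  have hcore : Cfsg.pPrimeCore p ↥T = f.ker := by
    apply le_antisymm
    · apply sSup_le
      rintro N ⟨_, hNc⟩ n hn
      rw [MonoidHom.mem_ker]
      have h1 : orderOf (f n) ∣ orderOf n := orderOf_map_dvd f n
      have h2 : orderOf (n : ↥T) ∣ Nat.card N := by
        have := Subgroup.orderOf_dvd_natCard N hn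
        exact this
      obtain ⟨k, hk⟩ := (IsPGroup.iff_orderOf.mp P.2) (f n)
      have h3 : (orderOf (f n)).Coprime p := Nat.Coprime.coprime_dvd_left (h1.trans h2) hNc
      rw [hk] at h3
      have h4 : k = 0 := by
        by_contra hk0
        have := Nat.Coprime.coprime_dvd_left (dvd_pow_self p hk0) h3
        exact (Fact.out : p.Prime).one_lt.ne' (by simpa using this)
      rw [h4, pow_zero, orderOf_eq_one_iff] at hk
      exact hk
    · apply le_sSup
      refine ⟨inferInstance, ?_⟩
      exact ((Fact.out : p.Prime).coprime_iff_not_dvd.mpr hcop).symm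
  rw [hcore]
  constructor
  · apply le_antisymm
    · exact sup_le hHT (Subgroup.map_subtype_le _)
    · intro x hx
      have htop : f.ker ⊔ (P : Subgroup ↥T) = ⊤ := hcompl.sup_eq_top
      have hxt : (⟨x, hx⟩ : ↥T) ∈ f.ker ⊔ (P : Subgroup ↥T) := by rw [htop]; trivial
      have hmap := Subgroup.mem_map_of_mem T.subtype hxt
      rw [Subgroup.map_sup, hPH] at hmap
      rw [sup_comm]
      exact hmap
  · rw [eq_bot_iff]
    rintro x ⟨hxH, y, hy, rfl⟩
    have hyP : y ∈ (P : Subgroup ↥T) := by
      rw [hPH']
      exact Subgroup.mem_subgroupOf.mpr hxH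
    have h1 : y ∈ f.ker ⊓ (P : Subgroup ↥T) := ⟨hy, hyP⟩
    rw [hcompl.disjoint.eq_bot, Subgroup.mem_bot] at h1
    rw [h1]
    simp

end Cfsg.Agent.S3020
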