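import Mathlib
import Cfsg.Statements.S3021
import Cfsg.Agent.Lib.H14.Basic

set_option autoImplicit false
open Cfsg

namespace Cfsg.Agent.S3021

/-- Let G be a finite group, p a prime and H a p-subgroup of G that is extremely closed (for every g, the subgroup generated by H and g H g⁻¹ meets N_G(H) exactly in H). Then every p-subgroup Q of G containing H has N_G(Q) ≤ N_G(H); in particular every Sylow p-subgroup P of G containing H normalizes H, and H is strongly closed in P with respect to G. -/
theorem result {G : Type*} [Group G] [Finite G] {p : ℕ} [Fact p.Prime] (H : Subgroup G) (hHp : IsPGroup p H) (hcl : Cfsg.IsExtremelyClosed H) : (∀ Q : Subgroup G, IsPGroup p Q → H ≤ Q → Subgroup.normalizer (Q : Set G) ≤ Subgroup.normalizer (H : Set G)) ∧ ∀ P : Sylow p G, H ≤ (P : Subgroup G) → (P : Subgroup G) ≤ Subgroup.normalizer (H : Set G) ∧ Cfsg.IsStronglyClosed H (P : Subgroup G) := by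
  have key : ∀ Q : Subgroup G, IsPGroup p Q → H ≤ Q → Subgroup.normalizer (Q : Set G) ≤ Subgroup.normalizer (H : Set G) := by
    intro Q hQ hHQ g hg
    have hmap : H.map (MulAut.conj g).toMonoidHom ≤ Q := by
      rintro _ ⟨x, hx, rfl⟩
      have := (Subgroup.mem_normalizer_iff.mp hg x).1 (hHQ hx)
      simpa [MulAut.conj_apply] using this
    have hT : IsPGroup p ↥(H ⊔ H.map (MulAut.conj g).toMonoidHom) :=
      hQ.to_le (sup_le hHQ hmap)
    have heq := H14.eq_of_inf_normalizer_eq hT le_sup_left (hcl g)
    have hle : H.map (MulAut.conj g).toMonoidHom ≤ H := le_sup_right.trans_eq heq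
    have hcard : Nat.card (H.map (MulAut.conj g).toMonoidHom) = Nat.card H :=
      (Nat.card_congr (((MulAut.conj g).subgroupMap H).toEquiv)).symm
    have heq2 : H.map (MulAut.conj g).toMonoidHom = H :=
      Subgroup.eq_of_le_of_card_ge hle hcard.ge
    rw [Subgroup.mem_normalizer_iff]
    intro x
    constructor
    · intro hx
      rw [← heq2]
      exact ⟨x, hx, rfl⟩
    · intro hx
      rw [← heq2] at hx
      obtain ⟨y, hy, hxy⟩ := hx
      have : y = x := by
        have h1 : g * y * g⁻¹ = g * x * g⁻¹ := hxy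
        simpa using h1
      rwa [← this]
  refine ⟨key, fun P hHP => ?_⟩
  have hPN : (P : Subgroup G) ≤ Subgroup.normalizer (H : Set G) :=
    Subgroup.le_normalizer.trans (key P P.2 hHP)
  refine ⟨hPN, hHP, ?_⟩
  intro x hx g hy
  have : g * x * g⁻¹ ∈ (H ⊔ H.map (MulAut.conj g).toMonoidHom) ⊓ Subgroup.normalizer (H : Set G) :=
    ⟨Subgroup.mem_sup_right ⟨x, hx, rfl⟩, hPN hy⟩
  rwa [hcl g] at this

end Cfsg.Agent.S3021
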