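import Mathlib
import Cfsg.Statements.S3023
import Cfsg.Agent.Lib.H13.CharP2
import Cfsg.Agent.Lib.H12.SylowJoin
import Cfsg.Agent.Lib.H19.Lifts
-- import your own Cfsg.Agent.* helpers here

set_option autoImplicit false
open Cfsg

namespace Cfsg.Agent.S3023

open scoped Pointwise


/-- Let p be a prime, G a finite group of parabolic characteristic p (every p-local subgroup containing a Sylow p-subgroup of G has characteristic p), S a Sylow p-subgroup of G and G₁ a subnormal subgroup of G. If the centre of S ∩ G₁ is nontrivial and contained in the centre of S, then G₁ has parabolic characteristic p. -/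
theorem result {G : Type*} [Group G] [Finite G] {p : ℕ} [Fact p.Prime] (hG : Cfsg.IsOfParabolicCharacteristic p G) (S : Sylow p G) (G₁ : Subgroup G) (hsn : G₁.IsSubnormal) (hne : ((S : Subgroup G) ⊓ G₁) ⊓ Subgroup.centralizer (((S : Subgroup G) ⊓ G₁ : Subgroup G) : Set G) ≠ ⊥) (hle : ((S : Subgroup G) ⊓ G₁) ⊓ Subgroup.centralizer (((S : Subgroup G) ⊓ G₁ : Subgroup G) : Set G) ≤ (S : Subgroup G) ⊓ Subgroup.centralizer ((S : Subgroup G) : Set G)) : Cfsg.IsOfParabolicCharacteristic p ↥G₁ := by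
  classical
  intro R hRp hR1 hpar
  obtain ⟨T, hT⟩ := hpar
  -- the Sylow subgroup of G₁ coming from S
  have hS₁p : IsPGroup p ((S : Subgroup G).subgroupOf G₁) :=
    S.isPGroup'.comap_of_injective _ Subtype.val_injective
  have hS₁i : ¬ p ∣ ((S : Subgroup G).subgroupOf G₁).index := by
    have := H12.not_dvd_relIndex_subnormal S hsn
    rwa [Subgroup.relIndex, Subgroup.inf_subgroupOf_right] at this
  let S₁ : Sylow p G₁ := hS₁p.toSylow hS₁i
  have hS₁ : ∀ x : G₁, x ∈ S₁ ↔ (x : G) ∈ (S : Subgroup G) := fun x => by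
    rw [hS₁p.mem_toSylow hS₁i, Subgroup.mem_subgroupOf]
  obtain ⟨g, hg⟩ := MulAction.exists_smul_eq G₁ S₁ T
  have hmemT : ∀ y : G₁, y ∈ T ↔ g⁻¹ * y * g ∈ S₁ := by
    intro y
    rw [← hg]
    change y ∈ ((g • S₁ : Sylow p G₁) : Subgroup G₁) ↔ _
    rw [Sylow.coe_subgroup_smul, Subgroup.mem_pointwise_smul_iff_inv_smul_mem]
    simp [MulAut.smul_def]
    rfl
  -- R ≤ T
  have hRT : R ≤ T := by
    have hp : IsPGroup p ((T : Subgroup G₁) ⊔ R : Subgroup G₁) :=
      IsPGroup.to_sup_of_normal_right' T.isPGroup' hRp hT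
    have := T.is_maximal' hp le_sup_left
    rw [← this]
    exact le_sup_right
  have hne2 := H13.inf_center_ne_bot_of_pgroup T.isPGroup' hRT hR1 hT
  obtain ⟨z₁, hz₁, hz₁1⟩ := (Subgroup.bot_or_exists_ne_one _).resolve_left hne2
  obtain ⟨hz₁R, hz₁T, hz₁C⟩ := hz₁
  have hz₁C' : ∀ y ∈ T, y * z₁ = z₁ * y := fun y hy => Subgroup.mem_centralizer_iff.mp hz₁C y hy
  let z₀ : G₁ := g⁻¹ * z₁ * g
  have hz₀S₁ : z₀ ∈ S₁ := (hmemT z₁).mp hz₁T
  have hz₀1 : z₀ ≠ 1 := by
    intro h
    apply hz₁1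
    have : z₁ = g * z₀ * g⁻¹ := by simp only [z₀]; group
    rw [this, h]
    group
  have hz₀S : (z₀ : G) ∈ (S : Subgroup G) := (hS₁ z₀).mp hz₀S₁
  have hz₀C : ∀ s ∈ S₁, s * z₀ = z₀ * s := by
    intro s hs
    have h1 : g * s * g⁻¹ ∈ T := by
      rw [hmemT]
      have : g⁻¹ * (g * s * g⁻¹) * g = s := by group
      rwa [this]
    have h2 := hz₁C' _ h1
    simp only [z₀]
    calc s * (g⁻¹ * z₁ * g) = g⁻¹ * ((g * s * g⁻¹) * z₁) * g := by group
      _ = g⁻¹ * (z₁ * (g * s * g⁻¹)) * g := by rw [h2]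
      _ = g⁻¹ * z₁ * g * s := by group
  have hzZ : (z₀ : G) ∈ ((S : Subgroup G) ⊓ G₁) ⊓ Subgroup.centralizer (((S : Subgroup G) ⊓ G₁ : Subgroup G) : Set G) := by
    refine ⟨⟨hz₀S, z₀.2⟩, Subgroup.mem_centralizer_iff.mpr ?_⟩
    rintro s ⟨hsS, hsG⟩
    have := hz₀C ⟨s, hsG⟩ ((hS₁ _).mpr hsS)
    exact congrArg Subtype.val this
  obtain ⟨-, hzC⟩ := hle hzZ
  have hzC' : ∀ s ∈ (S : Subgroup G), s * (z₀ : G) = z₀ * s := fun s hs =>
    Subgroup.mem_centralizer_iff.mp hzC s hs
  -- the central element of S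
  have hzne : (z₀ : G) ≠ 1 := fun h => hz₀1 (Subtype.ext h)
  have hN : H13.IsCharP p (Subgroup.normalizer ((Subgroup.zpowers (z₀ : G) : Subgroup G) : Set G)) := by
    apply hG
    · exact S.isPGroup'.to_le (by
        rw [Subgroup.zpowers_le]
        exact hz₀S)
    · rw [Ne, Subgroup.zpowers_eq_bot]
      exact hzne
    · refine ⟨S, ?_⟩
      intro s hs
      apply H19.mem_normalizer_of_conj_le
      rintro _ ⟨k, rfl⟩
      have hcomm : Commute s (z₀ : G) := hzC' s hs
      have : s * ((fun x => (z₀ : G) ^ x) k) * s⁻¹ = (fun x => (z₀ : G) ^ x) k := by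
        simp only
        rw [(hcomm.zpow_right k).eq]
        group
      rw [this]
      exact ⟨k, rfl⟩
  have hA : H13.IsCharP p (Subgroup.centralizer ({(z₀ : G)} : Set G)) := H13.isCharP_centralizer_of_normalizer hN
  have hY : H13.IsCharP p (G₁.subgroupOf (Subgroup.centralizer ({(z₀ : G)} : Set G))) :=
    H13.isCharP_of_subnormal hA _ (hsn.comap _)
  have hB : H13.IsCharP p (Subgroup.centralizer ({z₀} : Set G₁)) := by
    let e : (G₁.subgroupOf (Subgroup.centralizer ({(z₀ : G)} : Set G))) ≃* (Subgroup.centralizer ({z₀} : Set G₁)) :=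
      { toFun := fun x => ⟨⟨x.1.1, Subgroup.mem_subgroupOf.mp x.2⟩, by
          rw [Subgroup.mem_centralizer_singleton_iff]
          have := Subgroup.mem_centralizer_singleton_iff.mp x.1.2
          exact Subtype.ext this⟩
        invFun := fun x => ⟨⟨x.1.1, by
            rw [Subgroup.mem_centralizer_singleton_iff]
            have := Subgroup.mem_centralizer_singleton_iff.mp x.2
            exact congrArg Subtype.val this⟩, Subgroup.mem_subgroupOf.mpr x.1.2⟩
        left_inv := fun x => rfl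
        right_inv := fun x => rfl
        map_mul' := fun x y => rfl }
    exact H13.charP_of_mulEquiv e hY
  have hB' : H13.IsCharP p (Subgroup.centralizer ({g * z₀ * g⁻¹} : Set G₁)) := H13.isCharP_centralizer_conj hB g
  have hzz : g * z₀ * g⁻¹ = z₁ := by simp only [z₀]; group
  rw [hzz] at hB'
  exact H13.isCharP_normalizer_of_central hB' hRp hz₁R (fun x hx => hz₁C' x (hRT hx))

end Cfsg.Agent.S3023
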