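import Mathlib
import Cfsg.Statements.S3025
import Cfsg.Agent.Lib.H14.UniqueSub
-- import your own Cfsg.Agent.* helpers here

set_option autoImplicit false
open Cfsg

namespace Cfsg.Agent.S3025


/-- Let F be a finite group and H a nontrivial subgroup of F that is contained in every nontrivial subgroup of F which H normalizes. Then F has a nontrivial normal subgroup N contained in every nontrivial normal subgroup of F (a unique minimal normal subgroup), N is simple, and one of the following holds: C_F(N) = 1; or H = N has prime order p, C_F(N) is cyclic of order a power of p, and F/C_F(N) is cyclic of order dividing p − 1; or H = N has order 2, N is central in F, and F is a generalized quaternion group. -/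
theorem result {F : Type*} [Group F] [Finite F] (H : Subgroup F) (hH : H ≠ ⊥)
    (hmin : ∀ R : Subgroup F, R ≠ ⊥ → H ≤ Subgroup.normalizer (R : Set F) → H ≤ R) :
    ∃ N : Subgroup F, N.Normal ∧ N ≠ ⊥ ∧ (∀ M : Subgroup F, M.Normal → M ≠ ⊥ → N ≤ M) ∧ IsSimpleGroup ↥N ∧
      (Subgroup.centralizer (N : Set F) = ⊥ ∨
       (H = N ∧ (Nat.card N).Prime ∧ IsCyclic ↥(Subgroup.centralizer (N : Set F)) ∧
          (∃ k : ℕ, 1 ≤ k ∧ Nat.card ↥(Subgroup.centralizer (N : Set F)) = Nat.card N ^ k) ∧
          (∃ g : F, Subgroup.centralizer (N : Set F) ⊔ Subgroup.zpowers g = ⊤) ∧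
          (Subgroup.centralizer (N : Set F)).index ∣ Nat.card N - 1) ∨
       (H = N ∧ Nat.card N = 2 ∧ Subgroup.centralizer (N : Set F) = ⊤ ∧
          ∃ k : ℕ, 1 ≤ k ∧ Nonempty (F ≃* QuaternionGroup (2 ^ k)))) := by
  classical
  set N : Subgroup F := sInf {M : Subgroup F | M.Normal ∧ M ≠ ⊥} with hN
  have hNn : N.Normal := ⟨fun x hx g => by
    rw [Subgroup.mem_sInf] at hx ⊢
    intro M hM
    exact hM.1.conj_mem x (hx M hM) g⟩
  have hHM : ∀ M : Subgroup F, M.Normal → M ≠ ⊥ → H ≤ M := fun M hMn hMb => hmin M hMb (by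
    rw [Subgroup.normalizer_eq_top_iff.mpr hMn]
    exact le_top)
  have hHN : H ≤ N := le_sInf fun M hM => hHM M hM.1 hM.2
  have hNbot : N ≠ ⊥ := fun h => hH (le_bot_iff.mp (h ▸ hHN))
  have hNmin : ∀ M : Subgroup F, M.Normal → M ≠ ⊥ → N ≤ M := fun M h1 h2 => sInf_le ⟨h1, h2⟩
  -- `H` normalizes whatever `N` normalizes
  have hnormOf : ∀ T : Subgroup F, (∀ n ∈ N, ∀ y ∈ T, n * y * n⁻¹ ∈ T) → H ≤ Subgroup.normalizer (T : Set F) := by
    intro T hT h hh
    rw [Subgroup.mem_normalizer_iff]
    intro y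
    constructor
    · exact hT h (hHN hh) y
    · intro hy
      have := hT h⁻¹ (N.inv_mem (hHN hh)) _ hy
      simpa [mul_assoc] using this
  -- simplicity
  have hsimple : IsSimpleGroup N := by
    haveI : Nontrivial N := (Subgroup.nontrivial_iff_ne_bot N).mpr hNbot
    refine ⟨fun S hS => ?_⟩
    by_cases hSb : S = ⊥
    · exact Or.inl hSb
    right
    set S' : Subgroup F := S.map N.subtype with hS'
    have hS'N : S' ≤ N := by
      rintro _ ⟨s, -, rfl⟩
      exact s.2
    have hS'b : S' ≠ ⊥ := by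
      intro h
      apply hSb
      rw [eq_bot_iff]
      intro s hs
      have h1 : (s : F) ∈ S' := ⟨s, hs, rfl⟩
      rw [h, Subgroup.mem_bot] at h1
      exact (Subgroup.mem_bot).mpr (Subtype.ext h1)
    have hnorm : ∀ n ∈ N, ∀ s ∈ S', n * s * n⁻¹ ∈ S' := by
      rintro n hn _ ⟨s, hs, rfl⟩
      have := hS.conj_mem s hs ⟨n, hn⟩
      exact ⟨_, this, rfl⟩
    have hconj : ∀ g : F, H ≤ S'.map (MulAut.conj g).toMonoidHom := by
      intro g
      apply hmin
      · intro h
        apply hS'b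
        rw [eq_bot_iff]
        intro s hs
        have h1 : (MulAut.conj g).toMonoidHom s ∈ S'.map (MulAut.conj g).toMonoidHom :=
          Subgroup.mem_map_of_mem _ hs
        rw [h, Subgroup.mem_bot] at h1
        have h2 : (MulAut.conj g) s = 1 := h1
        rw [Subgroup.mem_bot]
        simpa using h2
      · apply hnormOf
        rintro n hn _ ⟨s, hs, rfl⟩
        have h1 : g⁻¹ * n * g ∈ N := by
          have := hNn.conj_mem n hn g⁻¹
          simpa using this
        have h2 := hnorm _ h1 s hs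
        refine ⟨_, h2, ?_⟩
        change g * (g⁻¹ * n * g * s * (g⁻¹ * n * g)⁻¹) * g⁻¹ = n * (g * s * g⁻¹) * n⁻¹
        group
    have hcore : H ≤ S'.normalCore := by
      intro a ha b
      obtain ⟨s, hs, e⟩ := hconj b⁻¹ ha
      have e' : b⁻¹ * s * b⁻¹⁻¹ = a := e
      rw [← e']
      have : b * (b⁻¹ * s * b⁻¹⁻¹) * b⁻¹ = s := by group
      rw [this]
      exact hs
    have hcoreb : S'.normalCore ≠ ⊥ := fun h => hH (le_bot_iff.mp (h ▸ hcore))
    have h1 : N ≤ S'.normalCore := hNmin _ inferInstance hcoreb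
    rw [eq_top_iff]
    intro x _
    have h2 : (x : F) ∈ S' := S'.normalCore_le (h1 x.2)
    obtain ⟨s, hs, e⟩ := h2
    have : s = x := Subtype.ext e
    rwa [← this]
  refine ⟨N, hNn, hNbot, hNmin, hsimple, ?_⟩
  haveI := hNn
  haveI := hsimple
  set C : Subgroup F := Subgroup.centralizer (N : Set F) with hC
  by_cases hCb : C = ⊥
  · exact Or.inl hCb
  right
  have hCn : C.Normal := inferInstance
  have hNC : N ≤ C := hNmin C hCn hCb
  have hab : ∀ a ∈ N, ∀ b ∈ N, a * b = b * a := fun a ha b hb =>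
    (Subgroup.mem_centralizer_iff.mp (hNC hb)) a ha
  have hprime : (Nat.card N).Prime := by
    letI : CommGroup N :=
      { (inferInstance : Group N) with mul_comm := fun a b => Subtype.ext (hab a a.2 b b.2) }
    exact IsSimpleGroup.prime_card (α := N)
  set p := Nat.card N with hp
  haveI hpf : Fact p.Prime := ⟨hprime⟩
  have hHeq : H = N := by
    apply Subgroup.eq_of_le_of_card_ge hHN
    have h1 : Nat.card H ∣ p := Subgroup.card_dvd_of_le hHN
    rcases (Nat.dvd_prime hprime).mp h1 with h2 | h2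
    · exact absurd (Subgroup.eq_bot_of_card_eq H h2) hH
    · exact h2.ge
  obtain ⟨z, hzN, hz1⟩ : ∃ z ∈ N, z ≠ 1 := by
    obtain ⟨v, hv⟩ := Subgroup.ne_bot_iff_exists_ne_one.mp hNbot
    exact ⟨v, v.2, by simpa using hv⟩
  have hzo : orderOf z = p := by
    apply orderOf_eq_prime _ hz1
    have := pow_card_eq_one' (x := (⟨z, hzN⟩ : N))
    exact congrArg Subtype.val this
  have hcommz : ∀ h ∈ N, ∀ x ∈ C, ∀ y ∈ Subgroup.zpowers x, h * y * h⁻¹ = y := by
    intro h hh x hx y hy
    obtain ⟨e, rfl⟩ := Subgroup.mem_zpowers_iff.mp hy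
    have h1 : Commute h x := ((Subgroup.mem_centralizer_iff.mp hx) h hh)
    have h2 : Commute h (x ^ e) := h1.zpow_right e
    rw [h2.eq]
    group
  have hmemx : ∀ x ∈ C, x ≠ 1 → N ≤ Subgroup.zpowers x := by
    intro x hx hx1
    rw [← hHeq]
    apply hmin _ ((Subgroup.zpowers_ne_bot).mpr hx1)
    apply hnormOf
    intro n hn y hy
    rw [hcommz n hn x hx y hy]
    exact hy
  have hCp : IsPGroup p C := by
    rw [IsPGroup.iff_orderOf]
    rintro ⟨x, hx⟩
    have hx0 : orderOf x ≠ 0 := (orderOf_pos x).ne'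
    rw [Subgroup.orderOf_mk]
    refine ⟨_, Nat.eq_prime_pow_of_unique_prime_dvd hx0 ?_⟩
    intro d hd hdvd
    have hy := orderOf_pow_orderOf_div hx0 hdvd
    set y := x ^ (orderOf x / d) with hyd
    have hyC : y ∈ C := C.pow_mem hx _
    have hy1 : y ≠ 1 := by
      intro h
      rw [h, orderOf_one] at hy
      exact hd.one_lt.ne hy
    have h1 : z ∈ Subgroup.zpowers y := hmemx y hyC hy1 hzN
    have h2 : orderOf z ∣ orderOf y := orderOf_dvd_of_mem_zpowers h1
    rw [hzo, hy] at h2
    exact ((Nat.prime_dvd_prime_iff_eq hprime hd).mp h2).symm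
  have hzpeq : ∀ x ∈ C, orderOf x = p → Subgroup.zpowers z = Subgroup.zpowers x := by
    intro x hx hxo
    have hx1 : x ≠ 1 := by
      intro h
      rw [h, orderOf_one] at hxo
      exact hprime.one_lt.ne hxo
    apply Subgroup.eq_of_le_of_card_ge
    · rw [Subgroup.zpowers_le]
      exact hmemx x hx hx1 hzN
    · rw [Nat.card_zpowers, Nat.card_zpowers, hzo, hxo]
  have hCuniq : Cfsg.Agent.H14.UniqueP p C := by
    rintro ⟨x, hx⟩ ⟨y, hy⟩ hxo hyo
    rw [Subgroup.orderOf_mk] at hxo hyo
    have h1 : y ∈ Subgroup.zpowers x := by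
      rw [← hzpeq x hx hxo, hzpeq y hy hyo]
      exact Subgroup.mem_zpowers y
    obtain ⟨e, he⟩ := Subgroup.mem_zpowers_iff.mp h1
    exact Subgroup.mem_zpowers_iff.mpr ⟨e, Subtype.ext (by simpa using he)⟩
  -- the quotient
  haveI hNcyc : IsCyclic N := isCyclic_of_prime_card (α := N) rfl
  let φ : F →* MulAut N := MulAut.conjNormal
  have hker : φ.ker = C := by
    ext g
    rw [MonoidHom.mem_ker, Subgroup.mem_centralizer_iff]
    constructor
    · intro h n hn
      have h1 := congrArg (fun f : MulAut N => ((f ⟨n, hn⟩ : N) : F)) h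
      have h2 : ((MulAut.conjNormal g ⟨n, hn⟩ : N) : F) = g * n * g⁻¹ := MulAut.conjNormal_apply g _
      have h3 : g * n * g⁻¹ = n := h2.symm.trans h1
      exact (mul_inv_eq_iff_eq_mul.mp h3).symm
    · intro h
      apply MulEquiv.ext
      intro n
      apply Subtype.ext
      have h2 : ((MulAut.conjNormal g n : N) : F) = g * n * g⁻¹ := MulAut.conjNormal_apply g _
      change ((MulAut.conjNormal g n : N) : F) = n
      rw [h2, ← h (n : F) n.2]
      group
  have hAutCyc : IsCyclic (MulAut N) :=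
    isCyclic_of_surjective _ (IsCyclic.mulAutMulEquiv N).symm.surjective
  have hrange : IsCyclic φ.range := inferInstance
  have hindex : C.index ∣ p - 1 := by
    rw [← hker, Subgroup.index_ker]
    have h1 : Nat.card φ.range ∣ Nat.card (MulAut N) := Subgroup.card_subgroup_dvd_card _
    rw [IsCyclic.card_mulAut, ← hp, Nat.totient_prime hprime] at h1
    exact h1
  have hgen : ∃ g : F, C ⊔ Subgroup.zpowers g = ⊤ := by
    obtain ⟨⟨_, g, rfl⟩, hgen⟩ := IsCyclic.exists_generator (α := φ.range)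
    refine ⟨g, ?_⟩
    rw [eq_top_iff]
    intro y _
    obtain ⟨e, he⟩ := Subgroup.mem_zpowers_iff.mp (hgen ⟨φ y, y, rfl⟩)
    have h1 : φ g ^ e = φ y := by
      have := congrArg Subtype.val he
      simpa using this
    have h2 : y * (g ^ e)⁻¹ ∈ C := by
      rw [← hker, MonoidHom.mem_ker, map_mul, map_inv, map_zpow, h1, mul_inv_cancel]
    have e2 : y = (y * (g ^ e)⁻¹) * g ^ e := by group
    rw [e2]
    exact Subgroup.mul_mem _ (Subgroup.mem_sup_left h2)
      (Subgroup.mem_sup_right (Subgroup.mem_zpowers_iff.mpr ⟨e, rfl⟩))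
  rcases Cfsg.Agent.H14.isCyclic_or_quaternion hCp hCuniq with hcyc | ⟨hp2, k, hk, ⟨e⟩⟩
  · left
    refine ⟨hHeq, hprime, hcyc, ?_, hgen, hindex⟩
    obtain ⟨k, hk⟩ := IsPGroup.iff_card.mp hCp
    refine ⟨k, ?_, hk⟩
    rcases k with _ | k
    · exfalso
      apply hCb
      apply Subgroup.eq_bot_of_card_eq
      simpa using hk
    · omega
  · right
    have hi1 : C.index = 1 := by
      rw [hp2] at hindex
      simpa using hindex
    have hCtop : C = ⊤ := Subgroup.index_eq_one.mp hi1
    refine ⟨hHeq, hp2, hCtop, k, hk, ⟨?_⟩⟩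
    exact (Subgroup.topEquiv.symm.trans (MulEquiv.subgroupCongr hCtop.symm)).trans e

end Cfsg.Agent.S3025
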