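import Mathlib
import Cfsg.Statements.S3027
import Cfsg.Agent.Lib.H13.Basic
-- import your own Cfsg.Agent.* helpers here

set_option autoImplicit false
open Cfsg

namespace Cfsg.Agent.S3027

open scoped commutatorElement

theorem commutator_le_inf_of_normalizes {G : Type*} [Group G] {A B : Subgroup G}
    (hA : A ≤ Subgroup.normalizer (B : Set G)) (hB : B ≤ Subgroup.normalizer (A : Set G)) :
    ⁅A, B⁆ ≤ A ⊓ B := by
  rw [Subgroup.commutator_le]
  intro a ha b hb
  refine ⟨?_, ?_⟩
  · have h1 : b * a⁻¹ * b⁻¹ ∈ A := (Subgroup.mem_normalizer_iff.mp (hB hb) a⁻¹).1 (A.inv_mem ha)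
    have e : ⁅a, b⁆ = a * (b * a⁻¹ * b⁻¹) := by
      simp only [commutatorElement_def]; group
    rw [e]
    exact A.mul_mem ha h1
  · have h1 : a * b * a⁻¹ ∈ B := (Subgroup.mem_normalizer_iff.mp (hA ha) b).1 hb
    have e : ⁅a, b⁆ = (a * b * a⁻¹) * b⁻¹ := by
      simp only [commutatorElement_def]
    rw [e]
    exact B.mul_mem h1 (B.inv_mem hb)

theorem mem_normalizer_inf {G : Type*} [Group G] {A B : Subgroup G} {x : G}
    (hA : x ∈ Subgroup.normalizer (A : Set G)) (hB : x ∈ Subgroup.normalizer (B : Set G)) :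
    x ∈ Subgroup.normalizer ((A ⊓ B : Subgroup G) : Set G) := by
  rw [H13.mem_normalizer_iff_map_conj, H13.map_conj_inf, H13.map_conj_eq_of_mem_normalizer hA,
    H13.map_conj_eq_of_mem_normalizer hB]

theorem main {G : Type*} [Group G] [Finite G] (D : Subgroup G) [D.Normal]
    (hperf : ⁅(⊤ : Subgroup G), (⊤ : Subgroup G)⁆ ⊔ D = ⊤) :
    ∃ B : Subgroup G, B.Normal ∧ B ⊔ D = ⊤ ∧ ∀ B' : Subgroup G, B'.IsSubnormal → B' ⊔ D = ⊤ → B ≤ B' := by
  classical
  set π := QuotientGroup.mk' D with hπ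
  have hsurj : Function.Surjective π := QuotientGroup.mk'_surjective D
  have hker : π.ker = D := QuotientGroup.ker_mk' D
  have hD : D.map π = ⊥ := by
    rw [Subgroup.map_eq_bot_iff, hker]
  have hsup : ∀ A : Subgroup G, A ⊔ D = ⊤ ↔ A.map π = ⊤ := by
    intro A
    constructor
    · intro h
      have h1 := congrArg (Subgroup.map π) h
      rwa [Subgroup.map_sup, hD, sup_bot_eq, Subgroup.map_top_of_surjective π hsurj] at h1
    · intro h
      have h1 := congrArg (Subgroup.comap π) h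
      rwa [Subgroup.comap_map_eq, hker, Subgroup.comap_top] at h1
  have htop : ⁅(⊤ : Subgroup (G ⧸ D)), (⊤ : Subgroup (G ⧸ D))⁆ = ⊤ := by
    have h1 := (hsup _).mp hperf
    rwa [Subgroup.map_commutator, Subgroup.map_top_of_surjective π hsurj] at h1
  have hP : ∀ A B : Subgroup G, A ≤ Subgroup.normalizer (B : Set G) → B ≤ Subgroup.normalizer (A : Set G) →
      A ⊔ D = ⊤ → B ⊔ D = ⊤ → (A ⊓ B) ⊔ D = ⊤ := by
    intro A B hA hB hAD hBD
    have h1 : ⁅A, B⁆ ⊔ D = ⊤ := by
      rw [hsup, Subgroup.map_commutator, (hsup A).mp hAD, (hsup B).mp hBD, htop]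
    exact top_le_iff.mp (h1.symm.le.trans (sup_le_sup_right (commutator_le_inf_of_normalizes hA hB) _))
  have hnorm : ∀ (K : Subgroup G) [K.Normal] (y : G), y ∈ Subgroup.normalizer (K : Set G) := by
    intro K _ y
    rw [Subgroup.normalizer_eq_top_iff.mpr inferInstance]
    trivial
  -- the least normal supplement
  have hfin : Set.Finite {B : Subgroup G | B.Normal ∧ B ⊔ D = ⊤} := Set.toFinite _
  obtain ⟨L, hL⟩ := hfin.exists_minimal ⟨⊤, inferInstance, top_sup_eq D⟩
  obtain ⟨⟨hLn, hLD⟩, hLmin⟩ := hL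
  haveI := hLn
  have hLleast : ∀ B : Subgroup G, B.Normal → B ⊔ D = ⊤ → L ≤ B := by
    intro B hB hBD
    haveI := hB
    have h1 : (L ⊓ B) ⊔ D = ⊤ := hP L B (fun y _ => hnorm B y) (fun y _ => hnorm L y) hLD hBD
    have h2 := hLmin (y := L ⊓ B) ⟨inferInstance, h1⟩ inf_le_left
    exact h2.trans inf_le_right
  have hX : ∀ X : Subgroup G, X ≤ L → L ≤ Subgroup.normalizer (X : Set G) → X ⊔ D = ⊤ → L ≤ X := by
    intro X hXL hLX hXD
    have hfin2 : Set.Finite {Y : Subgroup G | Y ≤ L ∧ L ≤ Subgroup.normalizer (Y : Set G) ∧ Y ⊔ D = ⊤} :=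
      Set.toFinite _
    obtain ⟨Y, hYX, hY⟩ := hfin2.exists_le_minimal (a := X) ⟨hXL, hLX, hXD⟩
    obtain ⟨⟨hYL, hLY, hYD⟩, hYmin⟩ := hY
    have hconj : ∀ g : G, Y ≤ Y.map (MulAut.conj g).toMonoidHom := by
      intro g
      set Y' := Y.map (MulAut.conj g).toMonoidHom with hY'
      have h1 : Y' ≤ L := by
        rw [hY', ← H13.map_conj_eq_of_normal (g := g) (N := L)]
        exact Subgroup.map_mono hYL
      have h2 : L ≤ Subgroup.normalizer (Y' : Set G) := by
        rw [hY', ← H13.map_conj_normalizer, ← H13.map_conj_eq_of_normal (g := g) (N := L)]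
        exact Subgroup.map_mono hLY
      have h3 : Y' ⊔ D = ⊤ := by
        have := congrArg (Subgroup.map (MulAut.conj g).toMonoidHom) hYD
        rwa [Subgroup.map_sup, H13.map_conj_eq_of_normal (g := g) (N := D), Subgroup.map_top_of_surjective _ (MulAut.conj g).surjective] at this
      have h4 : (Y ⊓ Y') ⊔ D = ⊤ := hP Y Y' (hYL.trans h2) (h1.trans hLY) hYD h3
      have h5 : Y ≤ Y ⊓ Y' := hYmin ⟨inf_le_left.trans hYL,
        fun l hl => mem_normalizer_inf (hLY hl) (h2 hl), h4⟩ inf_le_left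
      exact h5.trans inf_le_right
    have hYn : Y.Normal := by
      constructor
      intro n hn g
      have h1 : Y.map (MulAut.conj g⁻¹).toMonoidHom ≥ Y := hconj g⁻¹
      have h2 := h1 hn
      rw [H13.mem_map_conj] at h2
      simpa using h2
    exact (hLleast Y hYn hYD).trans hYX
  refine ⟨L, hLn, hLD, ?_⟩
  intro B' hB'
  induction hB' with
  | top => exact fun _ => le_top
  | step H K hle hK hN ih =>
    intro hHD
    have hKD : K ⊔ D = ⊤ := top_le_iff.mp (hHD.symm.le.trans (sup_le_sup_right hle _))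
    have hLK := ih hKD
    have hKN : K ≤ Subgroup.normalizer (H : Set G) :=
      (Subgroup.normal_subgroupOf_iff_le_normalizer hle).mp hN
    have h1 : (L ⊓ H) ⊔ D = ⊤ := hP L H (hLK.trans hKN) (fun y _ => hnorm L y) hLD hHD
    have h2 := hX (L ⊓ H) inf_le_left (fun l hl => mem_normalizer_inf (hnorm L l) (hKN (hLK hl))) h1
    exact h2.trans inf_le_right

/-- Let G be a finite group and D a normal subgroup of G such that G/D is perfect (that is, G = G′D). Then among the subnormal subgroups B of G with BD = G there is a least one, and it is normal in G. -/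
theorem result {G : Type*} [Group G] [Finite G] (D : Subgroup G) [D.Normal] (hperf : ⁅(⊤ : Subgroup G), (⊤ : Subgroup G)⁆ ⊔ D = ⊤) :
    ∃ B : Subgroup G, B.Normal ∧ B ⊔ D = ⊤ ∧ ∀ B' : Subgroup G, B'.IsSubnormal → B' ⊔ D = ⊤ → B ≤ B' := by
  exact main D hperf

end Cfsg.Agent.S3027
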