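import Mathlib
import Cfsg.Statements.S3048
import Cfsg.Agent.Lib.H14.Sidki3
import Cfsg.Agent.Lib.H14.NPC
-- import your own Cfsg.Agent.* helpers here

set_option autoImplicit false
universe u
open Cfsg

namespace Cfsg.Agent.S3048

open H14.Sidki in
/-- Case of a nontrivial Fitting subgroup -/
theorem case_fit {G : Type u} [Group G] [Finite G] (V : Subgroup G) (hV : Cfsg.IsElementaryAbelian 2 V)
    (hV1 : V ≠ ⊥) (hS : Cfsg.IsSidkiPair V)
    (hmin : ∀ (H : Type u) [Group H] [Finite H] (W : Subgroup H), Nat.card H < Nat.card G →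
      Cfsg.IsElementaryAbelian 2 W → W ≠ ⊥ → Cfsg.IsSidkiPair W → W ⊓ Cfsg.pCore 2 H ≠ ⊥)
    (hO : Cfsg.pCore 2 G = ⊥) (hVE : V ⊔ Cfsg.generalizedFittingSubgroup G = ⊤)
    (hF1 : Cfsg.fittingSubgroup G ≠ ⊥) : False := by
  classical
  haveI : Fact (Nat.Prime 2) := ⟨Nat.prime_two⟩
  haveI hFn : (Cfsg.fittingSubgroup G).Normal := H01.fitting_normal
  haveI hEn : (Cfsg.generalizedFittingSubgroup G).Normal := H07.generalizedFitting_normal G
  haveI hFnil := H01.fitting_nilpotent (G := G)
  have hfaith := faith_fstar hO V hV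
  have hFE : Cfsg.fittingSubgroup G ≤ Cfsg.generalizedFittingSubgroup G := le_sup_right
  have hFodd : ∀ a ∈ Cfsg.fittingSubgroup G, Odd (orderOf a) := by
    intro a ha
    have hc := H09.fitting_coprime_two hO
    have h1 : a ^ Nat.card (Cfsg.fittingSubgroup G) = 1 := by
      have := pow_card_eq_one' (G := Cfsg.fittingSubgroup G) (x := ⟨a, ha⟩)
      exact congrArg Subtype.val this
    have h2 : (orderOf a).Coprime 2 := Nat.Coprime.coprime_dvd_left (orderOf_dvd_of_pow_eq_one h1) hc
    exact Nat.coprime_two_right.mp h2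
  obtain ⟨A, hA⟩ : ∃ A, A = Cfsg.fittingSubgroup G ⊓ Subgroup.centralizer (Cfsg.fittingSubgroup G : Set G) := ⟨_, rfl⟩
  haveI hAn : A.Normal := by
    rw [hA]
    infer_instance
  have hAF : A ≤ Cfsg.fittingSubgroup G := hA ▸ inf_le_left
  have hAE : A ≤ Cfsg.generalizedFittingSubgroup G := hAF.trans hFE
  have hAodd : ∀ a ∈ A, Odd (orderOf a) := fun a ha => hFodd a (hAF ha)
  have hA1 : A ≠ ⊥ := by
    haveI := (Subgroup.nontrivial_iff_ne_bot _).mpr hF1
    have h1 := Group.IsNilpotent.center_ne_bot (G := Cfsg.fittingSubgroup G)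
    obtain ⟨⟨z, hz⟩, hz1⟩ := Subgroup.ne_bot_iff_exists_ne_one.mp h1
    intro h0
    apply hz1
    apply Subtype.ext
    apply Subtype.ext
    have hzA : (z : G) ∈ A := by
      rw [hA]
      refine ⟨z.2, Subgroup.mem_centralizer_iff.mpr (fun f hf => ?_)⟩
      have := (Subgroup.mem_center_iff.mp hz) ⟨f, hf⟩
      exact congrArg Subtype.val this
    rw [h0] at hzA
    exact hzA
  have hAc : ∀ a ∈ A, ∀ e ∈ Cfsg.generalizedFittingSubgroup G, a * e = e * a := by
    intro a ha e he
    have h1 : Cfsg.generalizedFittingSubgroup G ≤ Subgroup.centralizer ({a} : Set G) := by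
      apply sup_le
      · apply sSup_le
        intro K hK k hk
        rw [Subgroup.mem_centralizer_singleton_iff]
        have h2 := H05.comp_comm_solvable hK (H := Cfsg.fittingSubgroup G) inferInstance
          (by rw [Subgroup.normalizer_eq_top_iff.mpr hFn]; exact le_top)
        exact H05.comm_bot_iff.mp h2 k hk a (hAF ha)
      · intro f hf
        rw [Subgroup.mem_centralizer_singleton_iff]
        rw [hA] at ha
        exact (Subgroup.mem_centralizer_iff.mp ha.2 f hf)
    exact (Subgroup.mem_centralizer_singleton_iff.mp (h1 he)).symm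
  have hVA : V ⊓ A = ⊥ := by
    rw [eq_bot_iff]
    rintro x ⟨hx1, hx2⟩
    exact eq_one_of_sq_odd (hAodd x hx2) (hV.2 x hx1)
  have hq := quot_step hmin V A hV hS hV1 hVA hA1
  obtain ⟨⟨_, ⟨w, hwV, rfl⟩, hwO⟩, hw1⟩ := Subgroup.ne_bot_iff_exists_ne_one.mp hq
  have hw1' : QuotientGroup.mk' A w ≠ 1 := fun h0 => hw1 (Subtype.ext h0)
  have hw2 : w * w = 1 := by
    have := hV.2 w hwV
    rwa [pow_two] at this
  haveI hOn : (Cfsg.pCore 2 (G ⧸ A)).Normal := H01.pCore_normal 2
  have hOp : IsPGroup 2 (Cfsg.pCore 2 (G ⧸ A)) := H01.pCore_isPGroup 2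
  obtain ⟨T, hT⟩ : ∃ T, T = Cfsg.generalizedFittingSubgroup G ⊓ (Cfsg.pCore 2 (G ⧸ A)).comap (QuotientGroup.mk' A) := ⟨_, rfl⟩
  haveI hTn : T.Normal := by
    rw [hT]
    infer_instance
  have hTmem : ∀ t, t ∈ T ↔ t ∈ Cfsg.generalizedFittingSubgroup G ∧ QuotientGroup.mk' A t ∈ Cfsg.pCore 2 (G ⧸ A) := by
    intro t
    rw [hT]
    rfl
  have hT2 : ∀ t ∈ T, ∃ k : ℕ, t ^ 2 ^ k ∈ A := by
    intro t ht
    obtain ⟨k, hk⟩ := hOp ⟨_, ((hTmem t).mp ht).2⟩
    refine ⟨k, ?_⟩
    rw [← QuotientGroup.eq_one_iff]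
    have := congrArg Subtype.val hk
    simpa using this
  have hTnil : Group.IsNilpotent T := by
    apply Group.of_quotient_center_nilpotent
    have hp : IsPGroup 2 (T ⧸ Subgroup.center T) := by
      intro x
      obtain ⟨t, rfl⟩ := QuotientGroup.mk_surjective x
      obtain ⟨k, hk⟩ := hT2 t t.2
      refine ⟨k, ?_⟩
      rw [← QuotientGroup.mk_pow, QuotientGroup.eq_one_iff]
      rw [Subgroup.mem_center_iff]
      intro y
      apply Subtype.ext
      exact (hAc _ hk _ ((hTmem y).mp y.2).1).symm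
    exact hp.isNilpotent
  have hTF := H05.sn_nil_le_fitting hTn.isSubnormal hTnil
  have hTA : ∀ t ∈ T, t ∈ A := by
    intro t ht
    obtain ⟨k, hk⟩ := hT2 t ht
    rw [← QuotientGroup.eq_one_iff] at hk ⊢
    have h1 : (QuotientGroup.mk t : G ⧸ A) ^ 2 ^ k = 1 := by
      rw [← QuotientGroup.mk_pow]
      exact hk
    have h2 : (QuotientGroup.mk t : G ⧸ A) ^ orderOf t = 1 := by
      rw [← QuotientGroup.mk_pow, pow_orderOf_eq_one]
      rfl
    have hco : (orderOf t).Coprime (2 ^ k) := Nat.Coprime.pow_right _ (Nat.coprime_two_right.mpr (hFodd t (hTF ht)))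
    have h3 := Nat.eq_one_of_dvd_coprimes hco (orderOf_dvd_of_pow_eq_one h2) (orderOf_dvd_of_pow_eq_one h1)
    exact orderOf_eq_one_iff.mp h3
  have hα : ∀ e ∈ Cfsg.generalizedFittingSubgroup G, e⁻¹ * (w * e * w⁻¹) ∈ A := by
    intro e he
    apply hTA
    refine (hTmem _).mpr ⟨mul_mem (inv_mem he) (hEn.conj_mem _ he _), ?_⟩
    have h1 : QuotientGroup.mk' A (e⁻¹ * (w * e * w⁻¹)) =
        (QuotientGroup.mk' A e)⁻¹ * QuotientGroup.mk' A w * ((QuotientGroup.mk' A e)⁻¹)⁻¹ * (QuotientGroup.mk' A w)⁻¹ := by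
      simp only [map_mul, map_inv]
      group
    rw [h1]
    exact mul_mem (hOn.conj_mem _ hwO _) (inv_mem hwO)
  have hw1'' : w ≠ 1 := by
    rintro rfl
    exact hw1' (map_one _)
  rcases split_contra hmin hO V hV hS hV1 _ A hVE hAE hAc hAodd w hwV hα hfaith with h | h
  · -- `F*` is abelian and equals `A`
    have hEA : Cfsg.generalizedFittingSubgroup G ≤ A := by
      intro e he
      obtain ⟨k, b, hk, hk2, hb, hb2, rfl⟩ := split _ A w hw2 hAE hAc hAodd hα e he
      have hk1 : k = 1 := by
        have : k ∈ Cfsg.generalizedFittingSubgroup G ⊓ Subgroup.centralizer ({w} : Set G) := by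
          refine ⟨hk, Subgroup.mem_centralizer_singleton_iff.mpr ?_⟩
          calc k * w = (w * k * w⁻¹) * w := by rw [hk2]
            _ = w * k := by group
        rw [h] at this
        exact this
      rw [hk1, one_mul]
      exact hb
    refine ab_case hmin hO V hV hS hV1 (Cfsg.generalizedFittingSubgroup G) hVE ?_ ?_ hfaith ?_
    · intro a ha b hb
      exact hAc a (hEA ha) b hb
    · intro a ha
      exact hAodd a (hEA ha)
    · intro h0
      apply hA1
      rw [eq_bot_iff, ← h0]
      exact hAE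
  · apply hw1''
    apply hfaith w hwV
    intro e he
    have h1 := h _ (hα e he) (alpha_inv hw2 e)
    have h2 : w * e * w⁻¹ = e := by
      calc w * e * w⁻¹ = e * (e⁻¹ * (w * e * w⁻¹)) := by group
        _ = e := by rw [h1, mul_one]
    calc w * e = (w * e * w⁻¹) * w := by group
      _ = e * w := by rw [h2]

theorem map_conj_eq_of_mem_normalizer {G : Type*} [Group G] {H : Subgroup G} {e : G}
    (he : e ∈ Subgroup.normalizer (H : Set G)) : H.map (MulAut.conj e).toMonoidHom = H := by
  ext x
  constructor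
  · rintro ⟨y, hy, rfl⟩
    exact (Subgroup.mem_normalizer_iff.mp he y).mp hy
  · intro hx
    refine ⟨e⁻¹ * x * e, ?_, by simp [MulAut.conj_apply, mul_assoc]⟩
    apply (Subgroup.mem_normalizer_iff.mp he _).mpr
    have : e * (e⁻¹ * x * e) * e⁻¹ = x := by group
    rwa [this]

theorem mem_normalizer_of_map_eq {G : Type*} [Group G] {H : Subgroup G} {e : G}
    (h : H.map (MulAut.conj e).toMonoidHom = H) : e ∈ Subgroup.normalizer (H : Set G) := by
  rw [Subgroup.mem_normalizer_iff]
  intro x
  constructor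
  · intro hx
    rw [← h]
    exact ⟨x, hx, rfl⟩
  · intro hx
    rw [← h] at hx
    obtain ⟨y, hy, hyx⟩ := hx
    have : y = x := by
      have h2 : e * y * e⁻¹ = e * x * e⁻¹ := hyx
      exact mul_left_cancel (mul_right_cancel h2)
    rwa [← this]

open H14.Sidki in
/-- Case of a trivial Fitting subgroup -/
theorem case_comp {G : Type u} [Group G] [Finite G] (V : Subgroup G) (hV : Cfsg.IsElementaryAbelian 2 V)
    (hV1 : V ≠ ⊥) (hS : Cfsg.IsSidkiPair V)
    (hmin : ∀ (H : Type u) [Group H] [Finite H] (W : Subgroup H), Nat.card H < Nat.card G →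
      Cfsg.IsElementaryAbelian 2 W → W ≠ ⊥ → Cfsg.IsSidkiPair W → W ⊓ Cfsg.pCore 2 H ≠ ⊥)
    (hO : Cfsg.pCore 2 G = ⊥) (hVE : V ⊔ Cfsg.generalizedFittingSubgroup G = ⊤)
    (hF : Cfsg.fittingSubgroup G = ⊥) :
    IsSimpleGroup ↥(Cfsg.generalizedFittingSubgroup G) ∧ ¬ IsMulCommutative ↥(Cfsg.generalizedFittingSubgroup G) := by
  classical
  haveI : Fact (Nat.Prime 2) := ⟨Nat.prime_two⟩
  haveI hEn : (Cfsg.generalizedFittingSubgroup G).Normal := H07.generalizedFitting_normal G
  have hfaith := faith_fstar hO V hV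
  have hE : Cfsg.generalizedFittingSubgroup G = Cfsg.layer G := by
    rw [Cfsg.generalizedFittingSubgroup, hF, sup_bot_eq]
  have hVcomm : ∀ a ∈ V, ∀ b ∈ V, a * b = b * a := fun a ha b hb =>
    congrArg Subtype.val (hV.1.is_comm.comm ⟨a, ha⟩ ⟨b, hb⟩)
  have hcenter : ∀ K : Subgroup G, Cfsg.IsComponent K → Subgroup.center K = ⊥ := by
    intro K hK
    have h1 : ((Subgroup.center K).map K.subtype).IsSubnormal := by
      apply Subgroup.IsSubnormal.step _ K _ hK.1
      · show (Subgroup.comap K.subtype (Subgroup.map K.subtype _)).Normal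
        rw [Subgroup.comap_map_eq_self_of_injective K.subtype_injective]
        infer_instance
      · exact Subgroup.map_subtype_le _
    have h2 : Group.IsNilpotent ((Subgroup.center K).map K.subtype) := by
      apply H05.nil_of_comm
      rintro ⟨_, a, ha, rfl⟩ ⟨_, b, hb, rfl⟩
      apply Subtype.ext
      show (a : G) * b = b * a
      have := (Subgroup.mem_center_iff.mp ha b)
      exact (congrArg Subtype.val this).symm
    have h3 := H05.sn_nil_le_fitting h1 h2
    rw [hF, le_bot_iff, Subgroup.map_eq_bot_iff_of_injective _ K.subtype_injective] at h3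
    exact h3
  have hcentral : ∀ K : Subgroup G, Cfsg.IsComponent K → ∀ h ∈ K, (∀ k ∈ K, h * k = k * h) → h = 1 := by
    intro K hK h hh hc
    have h1 : (⟨h, hh⟩ : K) ∈ Subgroup.center K := by
      rw [Subgroup.mem_center_iff]
      intro k
      apply Subtype.ext
      exact (hc k k.2).symm
    rw [hcenter K hK] at h1
    exact congrArg Subtype.val h1
  have hconjcomp : ∀ (K : Subgroup G) (_ : Cfsg.IsComponent K) (g : G),
      Cfsg.IsComponent (K.map (MulAut.conj g).toMonoidHom) := fun K hK g =>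
    ⟨hK.1.map (MulAut.conj g).surjective,
      H07.isQuasisimple_of_mulEquiv (K.equivMapOfInjective _ (MulAut.conj g).injective) hK.2⟩
  have hcompne : ∀ K : Subgroup G, Cfsg.IsComponent K → K ≠ ⊥ := by
    intro K hK h0
    have h2 := hK.2
    rw [h0] at h2
    haveI := H05.qs_nontrivial h2
    exact not_subsingleton (⊥ : Subgroup G) inferInstance
  obtain ⟨K, hK⟩ : ∃ K : Subgroup G, Cfsg.IsComponent K := by
    by_contra hno
    push Not at hno
    have h1 : Cfsg.layer G = ⊥ := by
      rw [eq_bot_iff]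
      apply sSup_le
      intro K hK
      exact absurd hK (hno K)
    apply hV1
    rw [eq_bot_iff]
    intro u hu
    apply hfaith u hu
    intro e he
    rw [hE, h1] at he
    have : e = 1 := he
    rw [this]
    group
  obtain ⟨X₁, hX₁⟩ : ∃ X₁, X₁ = Subgroup.normalClosure (K : Set G) := ⟨_, rfl⟩
  haveI hX₁n : X₁.Normal := by
    rw [hX₁]
    infer_instance
  have hKX₁ : K ≤ X₁ := by
    rw [hX₁]
    exact Subgroup.subset_normalClosure
  obtain ⟨X₂, hX₂⟩ : ∃ X₂, X₂ = Cfsg.layer G ⊓ Subgroup.centralizer (X₁ : Set G) := ⟨_, rfl⟩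
  haveI hLn : (Cfsg.layer G).Normal := H05.layer_normal
  haveI hX₂n : X₂.Normal := by
    rw [hX₂]
    infer_instance
  have hdich : ∀ K' : Subgroup G, Cfsg.IsComponent K' → (∃ g, K' = K.map (MulAut.conj g).toMonoidHom) ∨ K' ≤ X₂ := by
    intro K' hK'
    by_cases h : ∃ g, K' = K.map (MulAut.conj g).toMonoidHom
    · exact Or.inl h
    · right
      push Not at h
      rw [hX₂]
      refine le_inf (H05.comp_le_layer hK') ?_
      intro k hk
      rw [Subgroup.mem_centralizer_iff]
      have h1 : X₁ ≤ Subgroup.centralizer ({k} : Set G) := by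
        rw [hX₁, Subgroup.normalClosure, Subgroup.closure_le]
        intro x hx
        obtain ⟨a, ha, hax⟩ := Group.mem_conjugatesOfSet_iff.mp hx
        obtain ⟨c, rfl⟩ := isConj_iff.mp hax
        have h2 := (H05.comp_eq_or_comm hK' (hconjcomp K hK c)).resolve_left (h c)
        rw [SetLike.mem_coe, Subgroup.mem_centralizer_singleton_iff]
        exact (H05.comm_bot_iff.mp h2 k hk (c * a * c⁻¹) ⟨a, ha, rfl⟩).symm
      intro x hx
      exact Subgroup.mem_centralizer_singleton_iff.mp (h1 hx)
  have hconjX₁ : ∀ g, K.map (MulAut.conj g).toMonoidHom ≤ X₁ := by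
    rintro g _ ⟨k, hk, rfl⟩
    exact hX₁n.conj_mem _ (hKX₁ hk) g
  have hint : X₁ ⊓ X₂ = ⊥ := by
    rw [eq_bot_iff]
    rintro x ⟨hx1, hx2⟩
    rw [hX₂] at hx2
    obtain ⟨Z, hZ⟩ : ∃ Z, Z = X₁ ⊓ Subgroup.centralizer (X₁ : Set G) := ⟨_, rfl⟩
    haveI hZn : Z.Normal := by
      rw [hZ]
      infer_instance
    have hZnil : Group.IsNilpotent Z := by
      apply H05.nil_of_comm
      rintro ⟨a, ha⟩ ⟨b, hb⟩
      apply Subtype.ext
      rw [hZ] at ha hb
      exact Subgroup.mem_centralizer_iff.mp hb.2 a ha.1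
    have hZF := H05.sn_nil_le_fitting hZn.isSubnormal hZnil
    rw [hF] at hZF
    exact hZF (by rw [hZ]; exact ⟨hx1, hx2.2⟩)
  by_cases hX₂1 : X₂ = ⊥
  · -- all components are conjugate
    have hall : ∀ K' : Subgroup G, Cfsg.IsComponent K' → ∃ g, K' = K.map (MulAut.conj g).toMonoidHom := by
      intro K' hK'
      rcases hdich K' hK' with h | h
      · exact h
      · rw [hX₂1, le_bot_iff] at h
        exact absurd h (hcompne K' hK')
    by_cases hnorm : ∀ g, K.map (MulAut.conj g).toMonoidHom = K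
    · have hlayer_eq : Cfsg.layer G = K := by
        apply le_antisymm _ (H05.comp_le_layer hK)
        apply sSup_le
        intro L hL
        obtain ⟨g, rfl⟩ := hall L hL
        rw [hnorm g]
      rw [hE, hlayer_eq]
      refine ⟨?_, ?_⟩
      · have e : K ⧸ Subgroup.center K ≃* K :=
          (QuotientGroup.quotientMulEquivOfEq (hcenter K hK)).trans QuotientGroup.quotientBot
        haveI := hK.2.2
        exact e.symm.isSimpleGroup
      · intro hc
        obtain ⟨a, b, hab⟩ := H05.qs_not_comm hK.2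
        exact hab (hc.is_comm.comm _ _)
    · exfalso
      push Not at hnorm
      obtain ⟨g₀, hg₀⟩ := hnorm
      have hEN : ∀ K' : Subgroup G, Cfsg.IsComponent K' → Cfsg.layer G ≤ Subgroup.normalizer (K' : Set G) := by
        intro K' hK'
        apply sSup_le
        intro L hL
        rcases H05.comp_eq_or_comm hL hK' with h | h
        · rw [h]
          exact Subgroup.le_normalizer
        · intro x hx
          exact H05.mem_normalizer_of_comm (fun b hb => H05.comm_bot_iff.mp h x hx b hb)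
      have htrans : ∀ g, ∃ v ∈ V, K.map (MulAut.conj g).toMonoidHom = K.map (MulAut.conj v).toMonoidHom := by
        intro g
        have hg : g ∈ Cfsg.layer G ⊔ V := by
          rw [← hE, sup_comm, hVE]
          trivial
        obtain ⟨e, he, v, hv, rfl⟩ := mem_sup_decomp (Cfsg.layer G) V
          (by rw [Subgroup.normalizer_eq_top_iff.mpr hLn]; exact le_top) hg
        refine ⟨v, hv, ?_⟩
        have h1 := map_conj_eq_of_mem_normalizer (hEN _ (hconjcomp K hK v) he)
        rw [← h1]
        ext x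
        simp only [Subgroup.mem_map, MulEquiv.coe_toMonoidHom, MulAut.conj_apply, exists_exists_and_eq_and, mul_inv_rev, mul_assoc]
      obtain ⟨V₁, hV₁⟩ : ∃ V₁, V₁ = V ⊓ Subgroup.normalizer (K : Set G) := ⟨_, rfl⟩
      have hV₁V : V₁ ≤ V := hV₁ ▸ inf_le_left
      have hV₁N : V₁ ≤ Subgroup.normalizer (K : Set G) := hV₁ ▸ inf_le_right
      have hsub : IsElementaryAbelian 2 V₁ :=
        ⟨⟨⟨fun a b => Subtype.ext (hVcomm _ (hV₁V a.2) _ (hV₁V b.2))⟩⟩, fun a ha => hV.2 a (hV₁V ha)⟩
      have hfaith₁ : ∀ u ∈ V₁, (∀ x ∈ K, u * x = x * u) → u = 1 := by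
        intro u hu hux
        apply hfaith u (hV₁V hu)
        rw [hE]
        have hle : Cfsg.layer G ≤ Subgroup.centralizer ({u} : Set G) := by
          apply sSup_le
          intro L hL x hx
          rw [Subgroup.mem_centralizer_singleton_iff]
          obtain ⟨g, rfl⟩ := hall L hL
          obtain ⟨v, hv, hvg⟩ := htrans g
          rw [hvg] at hx
          obtain ⟨k, hk, rfl⟩ := hx
          show v * k * v⁻¹ * u = u * (v * k * v⁻¹)
          have huv : u * v = v * u := hVcomm u (hV₁V hu) v hv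
          calc v * k * v⁻¹ * u = v * (k * v⁻¹ * u) := by group
            _ = v * (k * (u * v⁻¹)) := by
                have : v⁻¹ * u = u * v⁻¹ := by
                  calc v⁻¹ * u = v⁻¹ * (u * v) * v⁻¹ := by group
                    _ = v⁻¹ * (v * u) * v⁻¹ := by rw [huv]
                    _ = u * v⁻¹ := by group
                rw [mul_assoc k, this]
            _ = v * ((k * u) * v⁻¹) := by group
            _ = v * ((u * k) * v⁻¹) := by rw [hux k hk]
            _ = (v * u) * k * v⁻¹ := by group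
            _ = (u * v) * k * v⁻¹ := by rw [huv]
            _ = u * (v * k * v⁻¹) := by group
        intro e he
        exact (Subgroup.mem_centralizer_singleton_iff.mp (hle he)).symm
      have hne₀ : K ⊔ V₁ ≠ ⊤ := by
        intro h
        apply hg₀
        apply map_conj_eq_of_mem_normalizer
        have h1 : K ⊔ V₁ ≤ Subgroup.normalizer (K : Set G) := sup_le Subgroup.le_normalizer hV₁N
        rw [h] at h1
        exact h1 trivial
      by_cases hV₁1 : V₁ = ⊥
      · -- `V` acts regularly on the components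
        obtain ⟨v, hv, hvg⟩ := htrans g₀
        rw [hvg] at hg₀
        have hv2 : v * v = 1 := by
          have := hV.2 v hv
          rwa [pow_two] at this
        have hvi : v⁻¹ = v := inv_eq_of_mul_eq_one_left hv2
        obtain ⟨h₀, hh₀, hh₀1, hh₀o⟩ := odd_element hO K hK.1 (hcompne K hK)
        have hc2 := (H05.comp_eq_or_comm (hconjcomp K hK v) hK).resolve_left hg₀
        obtain ⟨k₂, hk₂⟩ : ∃ k₂, k₂ = v * h₀ * v⁻¹ := ⟨_, rfl⟩
        have hk₂mem : k₂ ∈ K.map (MulAut.conj v).toMonoidHom := ⟨h₀, hh₀, hk₂.symm⟩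
        have hk₂c : ∀ k ∈ K, k₂ * k = k * k₂ := fun k hk => H05.comm_bot_iff.mp hc2 k₂ hk₂mem k hk
        obtain ⟨y, hy⟩ : ∃ y, y = h₀ * k₂⁻¹ := ⟨_, rfl⟩
        have hk₂o : Odd (orderOf k₂⁻¹) := by
          rw [orderOf_inv, hk₂, H14.orderOf_conj_eq]
          exact hh₀o
        have hk₂ci : ∀ k ∈ K, k₂⁻¹ * k = k * k₂⁻¹ := fun k hk =>
          (Commute.inv_left (show Commute k₂ k from hk₂c k hk)).eq
        have hyo : Odd (orderOf y) := by
          rw [hy]
          exact odd_mul (hk₂ci h₀ hh₀).symm hh₀o hk₂o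
        have hvk₂ : v * k₂ * v⁻¹ = h₀ := by
          rw [hk₂, hvi]
          calc v * (v * h₀ * v) * v = (v * v) * h₀ * (v * v) := by group
            _ = h₀ := by rw [hv2, one_mul, mul_one]
        have hyi : v * y * v⁻¹ = y⁻¹ := by
          rw [hy]
          calc v * (h₀ * k₂⁻¹) * v⁻¹ = (v * h₀ * v⁻¹) * (v * k₂ * v⁻¹)⁻¹ := by group
            _ = k₂ * h₀⁻¹ := by rw [hvk₂, ← hk₂]
            _ = (h₀ * k₂⁻¹)⁻¹ := by group
        have hcentral₀ : ∀ k ∈ K, y * k = k * y → h₀ * k = k * h₀ := by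
          intro k hk h
          rw [hy] at h
          have h2 : h₀ * k * k₂⁻¹ = k * h₀ * k₂⁻¹ := by
            calc h₀ * k * k₂⁻¹ = h₀ * (k * k₂⁻¹) := by group
              _ = h₀ * (k₂⁻¹ * k) := by rw [hk₂ci k hk]
              _ = (h₀ * k₂⁻¹) * k := by group
              _ = k * (h₀ * k₂⁻¹) := h
              _ = k * h₀ * k₂⁻¹ := by group
          exact mul_right_cancel h2
        obtain ⟨w, hw, hw1, hwc⟩ := hS y v hv hyo hyi
        have hwyw : w * y * w⁻¹ = y := by
          rw [hwc]
          group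
        by_cases hwv : w = v
        · exfalso
          rw [hwv] at hwyw
          rw [hwyw] at hyi
          have hy1 : y = 1 := by
            apply eq_one_of_sq_odd hyo
            rw [pow_two]
            nth_rw 1 [hyi]
            group
          have h3 : h₀ = k₂ := by
            rw [hy] at hy1
            exact mul_inv_eq_one.mp hy1
          apply hh₀1
          apply hcentral K hK h₀ hh₀
          intro k hk
          rw [h3]
          exact hk₂c k hk
        · -- `w` moves everything
          have hK₃ : K.map (MulAut.conj w).toMonoidHom ≠ K := by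
            intro h
            apply hw1
            have : w ∈ V₁ := by
              rw [hV₁]
              exact ⟨hw, mem_normalizer_of_map_eq h⟩
            rw [hV₁1] at this
            exact this
          have hK₄ : K.map (MulAut.conj (w * v)).toMonoidHom ≠ K := by
            intro h
            have h1 : w * v ∈ V₁ := by
              rw [hV₁]
              exact ⟨V.mul_mem hw hv, mem_normalizer_of_map_eq h⟩
            rw [hV₁1] at h1
            have h2 : w * v = 1 := h1
            apply hwv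
            calc w = (w * v) * v⁻¹ := by group
              _ = v := by rw [h2, one_mul, hvi]
          have hc3 := (H05.comp_eq_or_comm (hconjcomp K hK w) hK).resolve_left hK₃
          have hc4 := (H05.comp_eq_or_comm (hconjcomp K hK (w * v)) hK).resolve_left hK₄
          have hycomm : ∀ k ∈ K, y * k = k * y := by
            intro k hk
            have h3 : w * h₀ * w⁻¹ ∈ K.map (MulAut.conj w).toMonoidHom := ⟨h₀, hh₀, rfl⟩
            have h4 : (w * v) * h₀⁻¹ * (w * v)⁻¹ ∈ K.map (MulAut.conj (w * v)).toMonoidHom :=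
              ⟨h₀⁻¹, K.inv_mem hh₀, rfl⟩
            have h5 : y = (w * h₀ * w⁻¹) * ((w * v) * h₀⁻¹ * (w * v)⁻¹) := by
              rw [← hwyw]
              nth_rw 1 [hy]
              rw [hk₂]
              group
            rw [h5]
            have h6 := H05.comm_bot_iff.mp hc3 _ h3 k hk
            have h7 := H05.comm_bot_iff.mp hc4 _ h4 k hk
            calc (w * h₀ * w⁻¹) * ((w * v) * h₀⁻¹ * (w * v)⁻¹) * k
                = (w * h₀ * w⁻¹) * (((w * v) * h₀⁻¹ * (w * v)⁻¹) * k) := by group
              _ = (w * h₀ * w⁻¹) * (k * ((w * v) * h₀⁻¹ * (w * v)⁻¹)) := by rw [h7]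
              _ = ((w * h₀ * w⁻¹) * k) * ((w * v) * h₀⁻¹ * (w * v)⁻¹) := by group
              _ = (k * (w * h₀ * w⁻¹)) * ((w * v) * h₀⁻¹ * (w * v)⁻¹) := by rw [h6]
              _ = k * ((w * h₀ * w⁻¹) * ((w * v) * h₀⁻¹ * (w * v)⁻¹)) := by group
          apply hh₀1
          exact hcentral K hK h₀ hh₀ (fun k hk => hcentral₀ k hk (hycomm k hk))
      · obtain ⟨t, ht, h₀, hh₀, hh₀o, hh₀i, hh₀c⟩ :=
          lemmaN hmin hO K V₁ hK.1 hV₁N hsub hV₁1 hne₀ hfaith₁
        have hh₀1 : h₀ ≠ 1 := by
          rintro rfl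
          obtain ⟨⟨u, hu⟩, hu1⟩ := Subgroup.ne_bot_iff_exists_ne_one.mp hV₁1
          exact hu1 (Subtype.ext (hh₀c u hu (by simp)))
        obtain ⟨w, hw, hw1, hwc⟩ := hS h₀ t (hV₁V ht) hh₀o hh₀i
        rcases H05.comp_eq_or_comm (hconjcomp K hK w) hK with h | h
        · apply hw1
          apply hh₀c w _ hwc
          rw [hV₁]
          exact ⟨hw, mem_normalizer_of_map_eq h⟩
        · apply hh₀1
          apply hcentral K hK h₀ hh₀
          intro k hk
          have h1 : w * h₀ * w⁻¹ = h₀ := by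
            rw [hwc]
            group
          have h2 : w * h₀ * w⁻¹ ∈ K.map (MulAut.conj w).toMonoidHom := ⟨h₀, hh₀, rfl⟩
          have h3 := H05.comm_bot_iff.mp h _ h2 k hk
          rwa [h1] at h3
  · exfalso
    have hX₁1 : X₁ ≠ ⊥ := by
      intro h0
      rw [h0, le_bot_iff] at hKX₁
      exact hcompne K hK hKX₁
    refine lemmaP hmin hO V hV hS hV1 X₁ X₂ ?_ hint ?_ hX₁1 hX₂1
    · intro x hx y hy
      rw [hX₂] at hy
      exact Subgroup.mem_centralizer_iff.mp hy.2 x hx
    · intro u hu h1 h2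
      apply hfaith u hu
      rw [hE]
      have hle : Cfsg.layer G ≤ Subgroup.centralizer ({u} : Set G) := by
        apply sSup_le
        intro L hL x hx
        rw [Subgroup.mem_centralizer_singleton_iff]
        rcases hdich L hL with ⟨g, rfl⟩ | h
        · exact (h1 x (hconjX₁ g hx)).symm
        · exact (h2 x (h hx)).symm
      intro e he
      exact (Subgroup.mem_centralizer_singleton_iff.mp (hle he)).symm


/-- Minimal counterexample reduction for the Sidki pair problem. Let G be a finite group and V a nontrivial elementary abelian 2-subgroup satisfying the Sidki pair condition with V ∩ O₂(G) = 1. Suppose that for every finite group H of smaller order, every nontrivial elementary abelian 2-subgroup W of H satisfying the Sidki pair condition meets O₂(H) nontrivially, and that the same holds in G for every such subgroup W of order smaller than that of V. Then the generalized Fitting subgroup F*(G) is a non-abelian simple group and G = V F*(G). -/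
theorem result {G : Type u} [Group G] [Finite G] (V : Subgroup G) (hV : Cfsg.IsElementaryAbelian 2 V) (hV1 : V ≠ ⊥) (hS : Cfsg.IsSidkiPair V) (hVO : V ⊓ Cfsg.pCore 2 G = ⊥) (hminG : ∀ (H : Type u) [Group H] [Finite H] (W : Subgroup H), Nat.card H < Nat.card G → Cfsg.IsElementaryAbelian 2 W → W ≠ ⊥ → Cfsg.IsSidkiPair W → W ⊓ Cfsg.pCore 2 H ≠ ⊥) (hminV : ∀ W : Subgroup G, Nat.card W < Nat.card V → Cfsg.IsElementaryAbelian 2 W → W ≠ ⊥ → Cfsg.IsSidkiPair W → W ⊓ Cfsg.pCore 2 G ≠ ⊥) : IsSimpleGroup ↥(Cfsg.generalizedFittingSubgroup G) ∧ ¬ IsMulCommutative ↥(Cfsg.generalizedFittingSubgroup G) ∧ V ⊔ Cfsg.generalizedFittingSubgroup G = ⊤ := by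
  classical
  haveI : Fact (Nat.Prime 2) := ⟨Nat.prime_two⟩
  have hO : pCore 2 G = ⊥ := by
    by_contra hne
    haveI hn : (pCore 2 G).Normal := H01.pCore_normal 2
    have h1 := H14.Sidki.quot_step hminG V (pCore 2 G) hV hS hV1 hVO hne
    rw [H15.pCore_two_quotient_eq_bot, inf_bot_eq] at h1
    exact h1 rfl
  haveI hEn : (generalizedFittingSubgroup G).Normal := H07.generalizedFitting_normal G
  have hVE : V ⊔ generalizedFittingSubgroup G = ⊤ := by
    by_contra hne
    obtain ⟨t, ht, h, hh, hho, hhi, hhc⟩ := H14.Sidki.lemmaN hminG hO (generalizedFittingSubgroup G) V hEn.isSubnormal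
      (by rw [Subgroup.normalizer_eq_top_iff.mpr hEn]; exact le_top) hV hV1
      (by rwa [sup_comm]) (H14.Sidki.faith_fstar hO V hV)
    obtain ⟨w, hw, hw1, hwc⟩ := hS h t ht hho hhi
    exact hw1 (hhc w hw hwc)
  by_cases hF : fittingSubgroup G = ⊥
  · obtain ⟨h1, h2⟩ := case_comp V hV hV1 hS hminG hO hVE hF
    exact ⟨h1, h2, hVE⟩
  · exact (case_fit V hV hV1 hS hminG hO hVE hF).elim

end Cfsg.Agent.S3048
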