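import Mathlib
import Cfsg.Statements.S3053
import Cfsg.Agent.Lib.H14.Extra3
import Cfsg.Agent.Lib.H13.Basic
import Cfsg.Agent.Lib.H08.Basic
import Cfsg.Agent.Lib.H01.Frob
import Cfsg.Agent.Lib.H14.SylowGraph
-- import your own Cfsg.Agent.* helpers here

set_option autoImplicit false
open Cfsg

namespace Cfsg.Agent.S3053

/-- The action of `P` by conjugation on the inverting elements is free: `|P|` divides `|C_G(E)|`. -/
theorem card_dvd_centralizer_of_inverting {G : Type*} [Group G] [Finite G] {p : ℕ} [hp : Fact p.Prime]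
    (hp2 : p ≠ 2) (Q E : Subgroup G) (hQp : IsPGroup p Q)
    (hE : ∀ a ∈ Q, a ^ p = 1 → a ∈ E)
    (hEnorm : ∀ a ∈ Q, ∀ e ∈ E, a⁻¹ * e * a ∈ E) {w : G}
    (hw : ∀ e ∈ E, w * e * w⁻¹ = e⁻¹) :
    Nat.card Q ∣ Nat.card (Subgroup.centralizer (E : Set G)) := by
  let Ω := {v : G // ∀ e ∈ E, v * e * v⁻¹ = e⁻¹}
  have hinv : ∀ (a : Q) (v : Ω), ∀ e ∈ E,
      ((a : G) * v.1 * (a : G)⁻¹) * e * ((a : G) * v.1 * (a : G)⁻¹)⁻¹ = e⁻¹ := by
    intro a v e he
    have h1 := v.2 _ (hEnorm a a.2 e he)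
    calc ((a : G) * v.1 * (a : G)⁻¹) * e * ((a : G) * v.1 * (a : G)⁻¹)⁻¹
        = (a : G) * (v.1 * ((a : G)⁻¹ * e * a) * v.1⁻¹) * (a : G)⁻¹ := by group
      _ = (a : G) * ((a : G)⁻¹ * e * a)⁻¹ * (a : G)⁻¹ := by rw [h1]
      _ = e⁻¹ := by group
  letI : MulAction Q Ω :=
    { smul := fun a v => ⟨(a : G) * v.1 * (a : G)⁻¹, hinv a v⟩
      one_smul := fun v => Subtype.ext (by
        change ((1 : Q) : G) * v.1 * ((1 : Q) : G)⁻¹ = v.1
        simp)
      mul_smul := fun a b v => Subtype.ext (by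
        change ((a * b : Q) : G) * v.1 * ((a * b : Q) : G)⁻¹ =
          (a : G) * ((b : G) * v.1 * (b : G)⁻¹) * (a : G)⁻¹
        simp only [Subgroup.coe_mul]
        group) }
  have hfree : ∀ (a : Q) (v : Ω), a • v = v → a = 1 := by
    intro a v h
    by_contra hne
    have h1 : (a : G) * v.1 * (a : G)⁻¹ = v.1 := congrArg Subtype.val h
    have hcom : Commute (a : G) v.1 := by
      show (a : G) * v.1 = v.1 * a
      calc (a : G) * v.1 = (a : G) * v.1 * (a : G)⁻¹ * a := by group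
        _ = v.1 * a := by rw [h1]
    -- an element of order `p`
    obtain ⟨k, hk⟩ := hQp a
    have hane : (a : G) ≠ 1 := fun e => hne (Subtype.ext e)
    have hord : orderOf (a : G) ∣ p ^ k := by
      apply orderOf_dvd_of_pow_eq_one
      have := congrArg Subtype.val hk
      simpa using this
    obtain ⟨m, -, hm⟩ := (Nat.dvd_prime_pow hp.out).mp hord
    have hm0 : m ≠ 0 := by
      rintro rfl
      rw [pow_zero] at hm
      exact hane (orderOf_eq_one_iff.mp hm)
    have hpd : p ∣ orderOf (a : G) := by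
      rw [hm]
      exact dvd_pow_self p hm0
    have hbo := orderOf_pow_orderOf_div (orderOf_pos (a : G)).ne' hpd
    set b := (a : G) ^ (orderOf (a : G) / p) with hb
    have hbp : b ^ p = 1 := by
      rw [← hbo]
      exact pow_orderOf_eq_one b
    have hbQ : b ∈ Q := Q.pow_mem a.2 _
    have hbE : b ∈ E := hE b hbQ hbp
    have hcb : Commute b v.1 := hcom.pow_left _
    have h2 := v.2 b hbE
    rw [hcb.symm.eq] at h2
    have h3 : b = b⁻¹ := by
      rw [← h2]
      group
    have h4 : b ^ 2 = 1 := by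
      rw [pow_two]
      nth_rewrite 1 [h3]
      simp
    have h5 := orderOf_dvd_of_pow_eq_one h4
    rw [hbo] at h5
    exact hp2 ((Nat.prime_dvd_prime_iff_eq hp.out Nat.prime_two).mp h5)
  have h1 := Cfsg.Agent.H01.card_dvd_of_free hfree
  have h2 : Nat.card Ω = Nat.card (Subgroup.centralizer (E : Set G)) := by
    apply Nat.card_congr
    refine ⟨fun v => ⟨w⁻¹ * v.1, ?_⟩, fun d => ⟨w * d.1, ?_⟩, ?_, ?_⟩
    · rw [Subgroup.mem_centralizer_iff]
      intro e he
      have h3 := v.2 e he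
      have h4 := hw e he
      have h5 : w⁻¹ * e⁻¹ * w = e := by
        rw [← h4]
        group
      calc e * (w⁻¹ * v.1) = w⁻¹ * (w * e * w⁻¹) * v.1 := by group
        _ = w⁻¹ * e⁻¹ * v.1 := by rw [h4]
        _ = w⁻¹ * (v.1 * e * v.1⁻¹) * v.1 := by rw [h3]
        _ = w⁻¹ * v.1 * e := by group
    · intro e he
      have h3 : d.1 * e * d.1⁻¹ = e := by
        have := Subgroup.mem_centralizer_iff.mp d.2 e he
        rw [← this]
        group
      calc w * d.1 * e * (w * d.1)⁻¹ = w * (d.1 * e * d.1⁻¹) * w⁻¹ := by group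
        _ = w * e * w⁻¹ := by rw [h3]
        _ = e⁻¹ := hw e he
    · intro v
      apply Subtype.ext
      simp
    · intro d
      apply Subtype.ext
      simp
  rwa [h2] at h1
theorem main_aux {G : Type*} [Group G] [Finite G] {p : ℕ} [Fact p.Prime] (hp : p ≠ 2) (P : Sylow p G)
    (PP : Subgroup G) (hPP : (P : Subgroup G) = PP) (hE : Cfsg.IsExtraspecial p ↥PP)
    (hcard : Nat.card PP = p ^ 3) (hexp : Monoid.exponent ↥PP = p ^ 2) :
    Cfsg.IsStronglyClosed ((Subgroup.center ↥PP).map PP.subtype) PP := by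
  classical
  have hpp : p.Prime := Fact.out
  have hmemP : ∀ v, v ∈ P ↔ v ∈ PP := by
    intro v
    rw [← hPP]
    rfl
  have hPPp : IsPGroup p PP := IsPGroup.of_card hcard
  obtain ⟨E₀, hE₀, hE₀card, hcomm₀, -⟩ := H14.extra3_data hp hE hcard hexp
  set E : Subgroup G := E₀.map PP.subtype with hEdef
  have hEmem : ∀ a, a ∈ E ↔ a ∈ PP ∧ a ^ p = 1 := by
    intro a
    constructor
    · rintro ⟨b, hb, rfl⟩
      refine ⟨b.2, ?_⟩
      have := (hE₀ b).mp hb
      have h2 := congrArg Subtype.val this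
      simpa using h2
    · rintro ⟨h1, h2⟩
      refine ⟨⟨a, h1⟩, (hE₀ _).mpr (Subtype.ext (by simpa using h2)), rfl⟩
  have hEcard : Nat.card E = p ^ 2 := by
    rw [hEdef, Subgroup.card_map_of_injective PP.subtype_injective, hE₀card]
  have hEPP : E ≤ PP := fun a ha => ((hEmem a).mp ha).1
  have hEp : IsPGroup p E := IsPGroup.of_card hEcard
  have hEcomm : ∀ a ∈ E, ∀ b ∈ E, Commute a b := by
    intro a ha b hb
    have hc := IsPGroup.isMulCommutative_of_card_eq_prime_sq hEcard
    have := hc.is_comm.comm ⟨a, ha⟩ ⟨b, hb⟩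
    exact congrArg Subtype.val this
  set Z : Subgroup G := (Subgroup.center ↥PP).map PP.subtype with hZdef
  have hZmem : ∀ z, z ∈ Z ↔ z ∈ PP ∧ ∀ a ∈ PP, a * z = z * a := by
    intro z
    constructor
    · rintro ⟨b, hb, rfl⟩
      refine ⟨b.2, fun a ha => ?_⟩
      have := Subgroup.mem_center_iff.mp hb ⟨a, ha⟩
      exact congrArg Subtype.val this
    · rintro ⟨h1, h2⟩
      refine ⟨⟨z, h1⟩, Subgroup.mem_center_iff.mpr fun a => Subtype.ext (h2 a a.2), rfl⟩
  have hZcard : Nat.card Z = p := by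
    rw [hZdef, Subgroup.card_map_of_injective PP.subtype_injective]
    exact hE.2
  have hZPP : Z ≤ PP := fun z hz => ((hZmem z).mp hz).1
  have hcommG : ∀ a ∈ PP, ∀ b ∈ PP, a * b * a⁻¹ * b⁻¹ ∈ Z := by
    intro a ha b hb
    have := hcomm₀ ⟨a, ha⟩ ⟨b, hb⟩
    exact ⟨_, this, rfl⟩
  have hZpow : ∀ z ∈ Z, z ^ p = 1 := by
    intro z hz
    have := pow_card_eq_one' (G := Z) (x := ⟨z, hz⟩)
    rw [hZcard] at this
    simpa using congrArg Subtype.val this
  have hZE : Z ≤ E := fun z hz => (hEmem z).mpr ⟨hZPP hz, hZpow z hz⟩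
  refine ⟨hZPP, ?_⟩
  intro x hxZ g hgP
  by_contra hyZ
  set y := g * x * g⁻¹ with hy
  have hx1 : x ≠ 1 := by
    rintro rfl
    apply hyZ
    have : y = 1 := by simp [hy]
    rw [this]
    exact Z.one_mem
  have hxp : x ^ p = 1 := hZpow x hxZ
  have hyp : y ^ p = 1 := by rw [hy, conj_pow, hxp]; simp
  have hxE : x ∈ E := hZE hxZ
  have hyE : y ∈ E := (hEmem y).mpr ⟨hgP, hyp⟩
  have hxy : Commute x y := hEcomm x hxE y hyE
  have hxo : orderOf x = p := orderOf_eq_prime hxp hx1
  have hy1 : y ≠ 1 := by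
    intro h
    apply hx1
    have : g * x = g := by
      calc g * x = g * x * g⁻¹ * g := by group
        _ = g := by rw [← hy, h, one_mul]
    exact mul_eq_left.mp this
  have hyo : orderOf y = p := orderOf_eq_prime hyp hy1
  have hZzp : Z = Subgroup.zpowers x := by
    symm
    apply Subgroup.eq_of_le_of_card_ge
    · rw [Subgroup.zpowers_le]
      exact hxZ
    · rw [hZcard, Nat.card_zpowers, hxo]
  -- `E` is generated by `x` and `y`
  have hEgen : E ≤ Subgroup.closure {x, y} := by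
    have hF : Subgroup.closure {x, y} ≤ E := by
      rw [Subgroup.closure_le]
      rintro v (rfl | rfl)
      · exact hxE
      · exact hyE
    have hZF : Z ≤ Subgroup.closure {x, y} := by
      rw [hZzp, Subgroup.zpowers_le]
      exact Subgroup.subset_closure (by simp)
    have hyF : y ∈ Subgroup.closure {x, y} := Subgroup.subset_closure (by simp)
    have h1 : Nat.card (Subgroup.closure {x, y} : Subgroup G) ∣ p ^ 2 := by
      rw [← hEcard]
      exact Subgroup.card_dvd_of_le hF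
    obtain ⟨k, hk, hk'⟩ := (Nat.dvd_prime_pow hpp).mp h1
    have hk2 : k = 2 := by
      by_contra hne
      have hk1 : k ≤ 1 := by omega
      have h3 : Nat.card (Subgroup.closure {x, y} : Subgroup G) ≤ p := by
        rw [hk']
        calc p ^ k ≤ p ^ 1 := Nat.pow_le_pow_right hpp.pos hk1
          _ = p := pow_one p
      have h4 : Z = Subgroup.closure {x, y} :=
        Subgroup.eq_of_le_of_card_ge hZF (by rw [hZcard]; exact h3)
      apply hyZ
      rw [h4]
      exact hyF
    refine (Subgroup.eq_of_le_of_card_ge hF ?_).ge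
    rw [hEcard, hk', hk2]
  -- Step A: adjust `g`
  obtain ⟨h, hhy, hhP⟩ : ∃ h : G, h * x * h⁻¹ = y ∧ ∀ e ∈ E, h⁻¹ * e * h ∈ PP := by
    let C := Subgroup.centralizer ({y} : Set G)
    have hTC : ((g • P : Sylow p G) : Subgroup G) ≤ C := by
      intro v hv
      have hv' : g⁻¹ * v * g ∈ PP := (hmemP _).mp (H14.mem_sylow_smul.mp hv)
      have h1 := ((hZmem x).mp hxZ).2 _ hv'
      refine Subgroup.mem_centralizer_singleton_iff.mpr (Eq.symm ?_)
      calc y * v = g * (x * (g⁻¹ * v * g)) * g⁻¹ := by rw [hy]; group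
        _ = g * ((g⁻¹ * v * g) * x) * g⁻¹ := by rw [h1]
        _ = v * y := by rw [hy]; group
    have hEC : E ≤ C := fun e he => Subgroup.mem_centralizer_singleton_iff.mpr (hEcomm e he y hyE)
    obtain ⟨c, hc, hce⟩ := Cfsg.Agent.H08.exists_conj_into_sylow_of_le C (g • P) hTC E hEp hEC
    refine ⟨c⁻¹ * g, ?_, ?_⟩
    · have hc' : y * c = c * y := (Subgroup.mem_centralizer_singleton_iff.mp hc).symm
      calc c⁻¹ * g * x * (c⁻¹ * g)⁻¹ = c⁻¹ * y * c := by rw [hy]; group
        _ = y := by rw [mul_assoc, hc']; group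
    · intro e he
      have h1 := (hmemP _).mp (H14.mem_sylow_smul.mp (hce e he))
      have h2 : (c⁻¹ * g)⁻¹ * e * (c⁻¹ * g) = g⁻¹ * (c * e * c⁻¹) * g := by group
      rw [h2]
      exact h1
  have hNorm : h⁻¹ ∈ Subgroup.normalizer (E : Set G) := by
    apply H13.mem_normalizer_of_map_conj_le
    rintro _ ⟨e, he, rfl⟩
    have h1 : (MulAut.conj h⁻¹).toMonoidHom e = h⁻¹ * e * h := by simp
    rw [h1]
    refine (hEmem _).mpr ⟨hhP e he, ?_⟩
    have h2 : h⁻¹ * e * h = h⁻¹ * e * h⁻¹⁻¹ := by simp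
    rw [h2, conj_pow, ((hEmem e).mp he).2]
    simp
  have hN1 : ∀ e ∈ E, h * e * h⁻¹ ∈ E := by
    intro e he
    have h1 := Subgroup.inv_mem _ hNorm
    rw [inv_inv] at h1
    exact (Subgroup.mem_normalizer_iff.mp h1 e).mp he
  -- Step B
  obtain ⟨u, hu, huy⟩ : ∃ u ∈ PP, u * y ≠ y * u := by
    by_contra hcon
    push Not at hcon
    exact hyZ ((hZmem y).mpr ⟨hgP, hcon⟩)
  have hux : Commute u x := ((hZmem x).mp hxZ).2 u hu
  set τ := h * u * h⁻¹ with hτ
  have hτy : Commute τ y := by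
    show τ * y = y * τ
    rw [hτ, ← hhy]
    calc h * u * h⁻¹ * (h * x * h⁻¹) = h * (u * x) * h⁻¹ := by group
      _ = h * (x * u) * h⁻¹ := by rw [hux.eq]
      _ = _ := by group
  obtain ⟨a, ha⟩ : ∃ a : ℕ, x ^ a = u * y * u⁻¹ * y⁻¹ := by
    have h1 := hcommG u hu y hgP
    rw [hZzp] at h1
    exact (mem_powers_iff_mem_zpowers).mpr h1
  have huy' : u * y * u⁻¹ = x ^ a * y := by rw [ha]; group
  have hpa : ¬ p ∣ a := by
    intro hd
    apply huy
    have h1 : x ^ a = 1 := by
      rw [← hxo] at hd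
      exact orderOf_dvd_iff_pow_eq_one.mp hd
    rw [h1, one_mul] at huy'
    calc u * y = u * y * u⁻¹ * u := by group
      _ = y * u := by rw [huy']
  have heE : h⁻¹ * x * h ∈ PP := hhP x hxE
  obtain ⟨b, hb⟩ : ∃ b : ℕ, x ^ b = u * (h⁻¹ * x * h) * u⁻¹ * (h⁻¹ * x * h)⁻¹ := by
    have h1 := hcommG u hu _ heE
    rw [hZzp] at h1
    exact (mem_powers_iff_mem_zpowers).mpr h1
  have hτx : τ * x * τ⁻¹ = y ^ b * x := by
    have h1 : u * (h⁻¹ * x * h) * u⁻¹ = x ^ b * (h⁻¹ * x * h) := by rw [hb]; group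
    have h2 : y ^ b = h * x ^ b * h⁻¹ := by rw [← hhy, conj_pow]
    calc τ * x * τ⁻¹ = h * (u * (h⁻¹ * x * h) * u⁻¹) * h⁻¹ := by rw [hτ]; group
      _ = h * (x ^ b * (h⁻¹ * x * h)) * h⁻¹ := by rw [h1]
      _ = y ^ b * x := by rw [h2]; group
  have hpb : ¬ p ∣ b := by
    intro hd
    have h1 : y ^ b = 1 := by
      rw [← hyo] at hd
      exact orderOf_dvd_iff_pow_eq_one.mp hd
    rw [h1, one_mul] at hτx
    have hτx' : Commute τ x := by
      show τ * x = x * τ
      calc τ * x = τ * x * τ⁻¹ * τ := by group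
        _ = x * τ := by rw [hτx]
    -- `τ` centralizes `E`
    have hτE : ∀ e ∈ E, Commute τ e := by
      intro e he
      have : Subgroup.closure {x, y} ≤ Subgroup.centralizer ({τ} : Set G) := by
        rw [Subgroup.closure_le]
        rintro v (rfl | rfl)
        · exact Subgroup.mem_centralizer_singleton_iff.mpr hτx'.symm.eq
        · exact Subgroup.mem_centralizer_singleton_iff.mpr hτy.symm.eq
      exact (Subgroup.mem_centralizer_singleton_iff.mp (this (hEgen he))).symm
    have h2 := hτE _ (hN1 y hyE)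
    apply huy
    have h3 : τ * (h * y * h⁻¹) = (h * y * h⁻¹) * τ := h2
    have h4 : h * (u * y) * h⁻¹ = h * (y * u) * h⁻¹ := by
      calc h * (u * y) * h⁻¹ = τ * (h * y * h⁻¹) := by rw [hτ]; group
        _ = (h * y * h⁻¹) * τ := h3
        _ = h * (y * u) * h⁻¹ := by rw [hτ]; group
    exact mul_left_cancel (mul_right_cancel h4)
  -- Step C
  have hcopa : a.Coprime p := ((Nat.Prime.coprime_iff_not_dvd hpp).mpr hpa).symm
  have hcopb : b.Coprime p := ((Nat.Prime.coprime_iff_not_dvd hpp).mpr hpb).symm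
  obtain ⟨i, -, hi⟩ := Nat.exists_mul_mod_eq_one_of_coprime hcopa hpp.one_lt
  obtain ⟨j₀, -, hj₀⟩ := Nat.exists_mul_mod_eq_one_of_coprime hcopb hpp.one_lt
  have hxai : x ^ (a * i) = x := by
    rw [← pow_mod_orderOf, hxo, hi, pow_one]
  have hybj : y ^ (b * j₀) = y := by
    rw [← pow_mod_orderOf, hyo, hj₀, pow_one]
  have hu₁y : u ^ i * y * (u ^ i)⁻¹ = x * y := by
    rw [H14.conj_pow_comm_step hux huy' i, hxai]
  set j := j₀ * (p - 1) with hj
  have hτ₁x : τ ^ j * x * (τ ^ j)⁻¹ = y⁻¹ * x := by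
    rw [H14.conj_pow_comm_step hτy hτx j]
    congr 1
    rw [hj, ← mul_assoc, pow_mul, hybj]
    have : y ^ (p - 1) * y = 1 := by
      rw [← pow_succ, Nat.sub_add_cancel hpp.one_le, hyp]
    exact eq_inv_of_mul_eq_one_left this
  obtain ⟨hwx, hwy⟩ := H14.inverting_word hxy (hux.pow_left i) (hτy.pow_left j) hu₁y hτ₁x
  set W := u ^ i * τ ^ j * u ^ i
  set w := W * W
  have hw : ∀ e ∈ E, w * e * w⁻¹ = e⁻¹ := by
    intro e he
    have hmemcl := hEgen he
    clear he
    have hsub : Subgroup.closure {x, y} ≤ E := by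
      rw [Subgroup.closure_le]
      rintro v (rfl | rfl)
      · exact hxE
      · exact hyE
    induction hmemcl using Subgroup.closure_induction with
    | mem a ha =>
      rcases ha with rfl | rfl
      · exact hwx
      · exact hwy
    | one => simp
    | mul c d hc hd ihc ihd =>
      have h1 : w * (c * d) * w⁻¹ = (w * c * w⁻¹) * (w * d * w⁻¹) := by group
      rw [h1, ihc, ihd, mul_inv_rev, (hEcomm c (hsub hc) d (hsub hd)).inv_inv.eq]
    | inv c _ ihc =>
      have h1 : w * c⁻¹ * w⁻¹ = (w * c * w⁻¹)⁻¹ := by group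
      rw [h1, ihc]
  -- Step D
  set D := Subgroup.centralizer (E : Set G) with hD
  have hdvd := card_dvd_centralizer_of_inverting hp PP E hPPp
    (fun a ha h1 => (hEmem a).mpr ⟨ha, h1⟩)
    (fun a ha e he => (hEmem _).mpr
      ⟨PP.mul_mem (PP.mul_mem (PP.inv_mem ha) (hEPP he)) ha, by
        have h2 : a⁻¹ * e * a = a⁻¹ * e * a⁻¹⁻¹ := by simp
        rw [h2, conj_pow, ((hEmem e).mp he).2]
        simp⟩) hw
  rw [hcard] at hdvd
  -- Step E
  obtain ⟨K, hK⟩ := Sylow.exists_subgroup_card_pow_prime p hdvd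
  set K' := K.map D.subtype with hK'
  have hK'card : Nat.card K' = p ^ 3 := by
    rw [hK', Subgroup.card_map_of_injective D.subtype_injective, hK]
  have hK'p : IsPGroup p K' := IsPGroup.of_card hK'card
  obtain ⟨T, hT⟩ := hK'p.exists_le_sylow
  have hTcard : Nat.card (T : Subgroup G) = p ^ 3 := by
    rw [Sylow.card_eq_multiplicity, ← Sylow.card_eq_multiplicity P, hPP]
    exact hcard
  have hK'T : K' = (T : Subgroup G) := Subgroup.eq_of_le_of_card_ge hT (by rw [hK'card, hTcard])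
  have hK'D : K' ≤ D := by
    rintro _ ⟨k, -, rfl⟩
    exact k.2
  obtain ⟨t, rfl⟩ := MulAction.exists_smul_eq G P T
  have hEN : E ≤ Subgroup.normalizer (((t • P : Sylow p G) : Subgroup G) : Set G) := by
    intro e he
    rw [Subgroup.mem_normalizer_iff, ← hK'T]
    intro v
    constructor
    · intro hv
      have := Subgroup.mem_centralizer_iff.mp (hK'D hv) e he
      rw [this]
      simpa using hv
    · intro hv
      have h1 : e⁻¹ * (e * v * e⁻¹) * (e⁻¹)⁻¹ ∈ K' := by
        have := Subgroup.mem_centralizer_iff.mp (hK'D hv) e⁻¹ (E.inv_mem he)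
        rw [this]
        simpa using hv
      simpa [mul_assoc] using h1
  have hET : E ≤ ((t • P : Sylow p G) : Subgroup G) := by
    have h1 : E ⊓ Subgroup.normalizer (((t • P : Sylow p G) : Subgroup G) : Set G) =
        E ⊓ ((t • P : Sylow p G) : Subgroup G) := hEp.inf_normalizer_sylow (t • P)
    have h2 : E ⊓ Subgroup.normalizer (((t • P : Sylow p G) : Subgroup G) : Set G) = E :=
      inf_eq_left.mpr hEN
    rw [h2] at h1
    exact inf_eq_left.mp h1.symm
  have hEZ : E.map (MulAut.conj t⁻¹).toMonoidHom ≤ Z := by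
    rintro _ ⟨e, he, rfl⟩
    have h1 : (MulAut.conj t⁻¹).toMonoidHom e = t⁻¹ * e * t := by simp
    rw [h1]
    have h2 : t⁻¹ * e * t ∈ PP := (hmemP _).mp (H14.mem_sylow_smul.mp (hET he))
    refine (hZmem _).mpr ⟨h2, fun s hs => ?_⟩
    have h3 : t * s * t⁻¹ ∈ ((t • P : Sylow p G) : Subgroup G) := by
      apply H14.mem_sylow_smul.mpr
      apply (hmemP _).mpr
      simpa [mul_assoc] using hs
    rw [← hK'T] at h3
    have h4 := Subgroup.mem_centralizer_iff.mp (hK'D h3) e he
    have h5 : t⁻¹ * (e * (t * s * t⁻¹)) * t = t⁻¹ * (t * s * t⁻¹ * e) * t := by rw [h4]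
    calc s * (t⁻¹ * e * t) = t⁻¹ * (t * s * t⁻¹ * e) * t := by group
      _ = t⁻¹ * (e * (t * s * t⁻¹)) * t := h5.symm
      _ = t⁻¹ * e * t * s := by group
  have h1 := Subgroup.card_le_of_le hEZ
  rw [H13.card_map_conj, hEcard, hZcard] at h1
  have h2 := hpp.one_lt
  nlinarith

/-- Let p be an odd prime and G a finite group with a Sylow p-subgroup P that is extraspecial of order p³ and exponent p². Then the centre of P is strongly closed in P with respect to G: a G-conjugate of an element of Z(P) that lies in P already lies in Z(P). In particular a nontrivial central element of P is conjugate in G to no noncentral element of P. -/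
theorem result {G : Type*} [Group G] [Finite G]
    {p : ℕ} [Fact p.Prime] (hp : p ≠ 2) (P : Sylow p G) (hE : Cfsg.IsExtraspecial p ↥P)
    (hcard : Nat.card P = p ^ 3) (hexp : Monoid.exponent ↥P = p ^ 2) :
    Cfsg.IsStronglyClosed ((Subgroup.center ↥P).map (P : Subgroup G).subtype) (P : Subgroup G) := by
  exact main_aux hp P _ rfl hE hcard hexp

end Cfsg.Agent.S3053
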