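import Mathlib
import Cfsg.Statements.S3057
import Cfsg.Agent.Lib.H14.UniqueSub
import Cfsg.Agent.Lib.H14.SylowGraph
import Cfsg.Agent.Lib.H14.CoprimeGen
import Cfsg.Agent.Lib.H01.Fitting
import Cfsg.Agent.Lib.H18.Syl
import Cfsg.Agent.Lib.H13.Isolated
-- import your own Cfsg.Agent.* helpers here

set_option autoImplicit false
open Cfsg

namespace Cfsg.Agent.S3057

open Cfsg.Agent.H14 in
lemma uniqueP_equiv {A B : Type*} [Group A] [Group B] {p : ℕ} (e : A ≃* B) (h : UniqueP p A) :
    UniqueP p B := by
  intro x y hx hy
  have h1 := h (e.symm x) (e.symm y) (by rw [MulEquiv.orderOf_eq]; exact hx)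
    (by rw [MulEquiv.orderOf_eq]; exact hy)
  obtain ⟨k, hk⟩ := Subgroup.mem_zpowers_iff.mp h1
  refine Subgroup.mem_zpowers_iff.mpr ⟨k, ?_⟩
  apply e.symm.injective
  rw [map_zpow, hk]

open Cfsg.Agent.H14 in
lemma uniqueP_cyclic {A : Type*} [Group A] [Finite A] [IsCyclic A] {p : ℕ} : UniqueP p A := by
  intro x y hx hy
  exact Cfsg.Agent.H13.mem_zpowers_of_orderOf_eq (hy.trans hx.symm)

open Cfsg.Agent.H14 in
lemma uniqueP_quat (n : ℕ) : UniqueP 2 (QuaternionGroup (2 ^ n)) := by
  haveI : NeZero (2 ^ n) := ⟨by positivity⟩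
  set m := 2 ^ n with hm
  have hmpos : 0 < m := by positivity
  have key : ∀ y : QuaternionGroup m, orderOf y = 2 → y = QuaternionGroup.a (m : ZMod (2 * m)) := by
    rintro (i | i) hy
    · have h1 : (QuaternionGroup.a i : QuaternionGroup m) ^ 2 = 1 := by
        rw [← hy]
        exact pow_orderOf_eq_one _
      have h2 : i + i = 0 := by
        rw [pow_two, QuaternionGroup.a_mul_a, QuaternionGroup.one_def] at h1
        exact QuaternionGroup.a.inj h1
      have h3 : i ≠ 0 := by
        rintro rfl
        rw [QuaternionGroup.a_zero, orderOf_one] at hy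
        omega
      have h4 := congrArg ZMod.val h2
      rw [ZMod.val_add, ZMod.val_zero] at h4
      obtain ⟨c, hc⟩ := Nat.dvd_of_mod_eq_zero h4
      have h5 : i.val < 2 * m := ZMod.val_lt i
      have hc2 : c < 2 := by
        by_contra hge
        have : 2 ≤ c := by omega
        nlinarith
      interval_cases c
      · have h6 : i.val = 0 := by omega
        exact absurd ((ZMod.val_eq_zero i).mp h6) h3
      · have h6 : i.val = m := by omega
        congr 1
        have h7 : ((i.val : ℕ) : ZMod (2 * m)) = i := ZMod.natCast_zmod_val i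
        rw [h6] at h7
        exact h7.symm
    · rw [QuaternionGroup.orderOf_xa] at hy
      omega
  intro x y hx hy
  rw [key y hy, ← key x hx]
  exact Subgroup.mem_zpowers x

open Cfsg.Agent.H14 in
lemma exists_pair {S : Type*} [Group S] [Finite S] {p : ℕ} [Fact p.Prime] (hS : IsPGroup p S)
    (h : ¬ UniqueP p S) :
    ∃ z w : S, orderOf z = p ∧ orderOf w = p ∧ Commute z w ∧ w ∉ Subgroup.zpowers z := by
  have hp : p.Prime := Fact.out
  unfold UniqueP at h
  push Not at h
  obtain ⟨x, y, hx, hy, hxy⟩ := h
  have hx1 : x ≠ 1 := by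
    rintro rfl
    rw [orderOf_one] at hx
    exact hp.one_lt.ne hx
  haveI : Nontrivial S := ⟨⟨x, 1, hx1⟩⟩
  haveI := hS.center_nontrivial
  obtain ⟨c, hc⟩ := exists_ne (1 : Subgroup.center S)
  have hc1 : (c : S) ≠ 1 := by
    intro h
    exact hc (Subtype.ext h)
  obtain ⟨k, hk⟩ := IsPGroup.iff_orderOf.mp hS (c : S)
  have hdvd : p ∣ orderOf (c : S) := by
    rw [hk]
    rcases k with _ | k
    · exfalso
      apply hc1
      exact orderOf_eq_one_iff.mp (by simpa using hk)
    · exact dvd_pow_self p (by omega)
  have hz := orderOf_pow_orderOf_div (orderOf_pos (c : S)).ne' hdvd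
  set z := (c : S) ^ (orderOf (c : S) / p) with hzdef
  have hzc : z ∈ Subgroup.center S := Subgroup.pow_mem _ c.2 _
  have hzcomm : ∀ w : S, Commute z w := fun w =>
    (Subgroup.mem_center_iff.mp hzc w).symm
  by_cases hxz : x ∈ Subgroup.zpowers z
  · refine ⟨z, y, hz, hy, hzcomm y, ?_⟩
    have heq : Subgroup.zpowers x = Subgroup.zpowers z := by
      apply Subgroup.eq_of_le_of_card_ge
      · rw [Subgroup.zpowers_le]
        exact hxz
      · rw [Nat.card_zpowers, Nat.card_zpowers, hz, hx]
    rw [← heq]
    exact hxy
  · exact ⟨z, x, hz, hx, hzcomm x, hxz⟩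

lemma mem_normalizer_zpowers {G : Type*} [Group G] {v e : G} (h : Commute v e) :
    v ∈ Subgroup.normalizer (Subgroup.zpowers e : Set G) := by
  rw [Subgroup.mem_normalizer_iff]
  have hk : ∀ v : G, Commute v e → ∀ y ∈ Subgroup.zpowers e, v * y * v⁻¹ = y := by
    intro v h y hy
    obtain ⟨k, rfl⟩ := Subgroup.mem_zpowers_iff.mp hy
    rw [(h.zpow_right k).eq]
    group
  intro y
  constructor
  · intro hy
    rw [hk v h y hy]
    exact hy
  · intro hy
    have := hk v⁻¹ h.inv_left _ hy
    have e2 : v⁻¹ * (v * y * v⁻¹) * v⁻¹⁻¹ = y := by group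
    rw [e2] at this
    rw [this]
    exact hy

/-- Let p be a prime and G a finite p-solvable group of order divisible by p, with Sylow p-subgroup P. Then the Sylow p-subgroups of G fail to be chain-connected through nontrivial intersections (equivalently, G has a strongly p-embedded subgroup) if and only if O_p(G) = 1 and P is cyclic or, for p = 2, generalized quaternion. -/
theorem result {G : Type*} [Group G] [Finite G]
    (p : ℕ) [Fact p.Prime] (hdiv : p ∣ Nat.card G) (hsol : Cfsg.IsPSolvable p G) (P : Sylow p G) :
    ¬ Cfsg.IsSylowChainConnected p G ↔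
      Cfsg.pCore p G = ⊥ ∧ (IsCyclic ↥P ∨ (p = 2 ∧ ∃ n : ℕ, Nonempty (↥P ≃* QuaternionGroup (2 ^ n)))) := by
  classical
  have hp : p.Prime := Fact.out
  constructor
  · intro hnc
    obtain ⟨H, hHtop, hpH, hse⟩ := Cfsg.Agent.H14.exists_stronglyEmbedded hnc
    obtain ⟨S, hSH⟩ := Cfsg.Agent.H14.exists_sylow_le_of_stronglyEmbedded hpH hse
    refine ⟨?_, ?_⟩
    · by_contra hne
      have hR : Cfsg.pCore p G ≤ (S : Subgroup G) := Cfsg.Agent.H01.pCore_le_sylow p S
      have hN := Cfsg.Agent.H14.normalizer_le_of_stronglyEmbedded hse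
        (Cfsg.Agent.H01.pCore_isPGroup p) hne (hR.trans hSH)
      rw [Subgroup.normalizer_eq_top_iff.mpr (Cfsg.Agent.H01.pCore_normal p)] at hN
      exact hHtop (eq_top_iff.mpr hN)
    · have hu : Cfsg.Agent.H14.UniqueP p P := by
        apply uniqueP_equiv (S.equiv P)
        by_contra hnu
        obtain ⟨⟨z, hzS⟩, ⟨w, hwS⟩, hzo, hwo, hc, hw⟩ := exists_pair S.isPGroup' hnu
        rw [Subgroup.orderOf_mk] at hzo hwo
        have hzp : z ^ p = 1 := by rw [← hzo]; exact pow_orderOf_eq_one z
        have hwp : w ^ p = 1 := by rw [← hwo]; exact pow_orderOf_eq_one w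
        have hcG : Commute z w := congrArg Subtype.val hc
        have hw' : w ∉ Subgroup.zpowers z := by
          intro h
          apply hw
          obtain ⟨k, hk⟩ := Subgroup.mem_zpowers_iff.mp h
          exact Subgroup.mem_zpowers_iff.mpr ⟨k, Subtype.ext (by simpa using hk)⟩
        obtain ⟨n, Hs, h0, hl, hm, hnormal, hfac⟩ := hsol
        obtain ⟨i, hi1, hi2⟩ : ∃ i : Fin n, ¬ p ∣ Nat.card (Hs i.castSucc) ∧ p ∣ Nat.card (Hs i.succ) := by
          by_contra hno
          push Not at hno
          have hall : ∀ k : Fin (n + 1), ¬ p ∣ Nat.card (Hs k) := by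
            intro k
            induction k using Fin.induction with
            | zero =>
              rw [h0, Subgroup.card_bot]
              exact hp.not_dvd_one
            | succ i ih => exact hno i ih
          apply hall (Fin.last n)
          rw [hl, Subgroup.card_top]
          exact hdiv
        set K := Hs i.castSucc with hK
        set T := Hs i.succ with hT
        have hKT : K ≤ T := hm (Fin.castSucc_lt_succ).le
        haveI hKn : K.Normal := hnormal _
        haveI hTn : T.Normal := hnormal _
        -- the factor is a `p`-group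
        obtain ⟨m, hrel⟩ : ∃ m : ℕ, K.relIndex T = p ^ m := by
          rcases hfac i with h | h
          · exact h
          · exfalso
            have h1 := Cfsg.Agent.H18.card_inf_mul_relIndex K T
            rw [inf_of_le_left hKT] at h1
            rw [← h1] at hi2
            rcases (Nat.Prime.dvd_mul hp).mp hi2 with h2 | h2
            · exact hi1 h2
            · have h3 := Nat.Coprime.coprime_dvd_left h2 h
              have h4 : p = 1 := by simpa using h3
              exact hp.one_lt.ne' h4
        -- `K` lies in `H`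
        have hKH : K ≤ H := by
          have h1 := Cfsg.Agent.H14.le_cgen hcG hzp hwp _ K rfl
            (by rw [Subgroup.normalizer_eq_top_iff.mpr hKn]; trivial)
            (by rw [Subgroup.normalizer_eq_top_iff.mpr hKn]; trivial) hi1
          refine h1.trans ((Subgroup.closure_le _).mpr ?_)
          rintro v ⟨hv, a, b, hab, hvc⟩
          set e := z ^ a * w ^ b with he
          have heS : e ∈ (S : Subgroup G) :=
            Subgroup.mul_mem _ (Subgroup.pow_mem _ hzS a) (Subgroup.pow_mem _ hwS b)
          have he1 : e ≠ 1 := by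
            intro he'
            have h2 : w ^ b ∈ Subgroup.zpowers z := by
              have h3 : w ^ b = (z ^ a)⁻¹ := eq_inv_of_mul_eq_one_right he'
              rw [h3]
              exact Subgroup.inv_mem _ (Subgroup.pow_mem _ (Subgroup.mem_zpowers z) a)
            by_cases hpb : p ∣ b
            · have h3 : w ^ b = 1 := by
                obtain ⟨c, rfl⟩ := hpb
                rw [pow_mul, hwp, one_pow]
              rw [he, h3, mul_one] at he'
              have h4 : p ∣ a := by
                rw [← hzo]
                exact orderOf_dvd_of_pow_eq_one he'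
              exact hab ⟨h4, hpb⟩
            · have hcop : Nat.Coprime b p :=
                ((Nat.Prime.coprime_iff_not_dvd hp).mpr hpb).symm
              obtain ⟨c, hc'⟩ := Nat.exists_mul_mod_eq_one_of_coprime hcop hp.one_lt
              apply hw'
              have h5 : w = (w ^ b) ^ c := by
                rw [← pow_mul, ← pow_mod_orderOf, hwo]
                obtain ⟨-, hc'⟩ := hc'
                rw [hc', pow_one]
              rw [h5]
              exact Subgroup.pow_mem _ h2 c
          have hep : e ^ p = 1 := by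
            have hcm : Commute (z ^ a) (w ^ b) := hcG.pow_pow a b
            rw [he, hcm.mul_pow, ← pow_mul, ← pow_mul, mul_comm a, mul_comm b, pow_mul, pow_mul, hzp,
              hwp, one_pow, one_pow, one_mul]
          have heo : orderOf e = p := orderOf_eq_prime hep he1
          have hpg : IsPGroup p (Subgroup.zpowers e) := by
            apply IsPGroup.of_card (n := 1)
            rw [Nat.card_zpowers, heo, pow_one]
          have hN := Cfsg.Agent.H14.normalizer_le_of_stronglyEmbedded hse hpg
            (Subgroup.zpowers_ne_bot.mpr he1)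
            ((Subgroup.zpowers_le).mpr (hSH heS))
          exact hN (mem_normalizer_zpowers hvc)
        -- hence `T` lies in `H`
        have hTH : T ≤ H := by
          have h1 : H.relIndex T ∣ K.relIndex T := Subgroup.relIndex_dvd_of_le_left T hKH
          have h2 : H.relIndex T ∣ (S : Subgroup G).relIndex T :=
            Subgroup.relIndex_dvd_of_le_left T hSH
          have h3 : ¬ p ∣ (S : Subgroup G).relIndex T := fun h =>
            S.not_dvd_index (h.trans (Cfsg.Agent.H18.relIndex_dvd_index_of_normal_right (S : Subgroup G) T))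
          rw [hrel] at h1
          obtain ⟨j, -, hj⟩ := (Nat.dvd_prime_pow hp).mp h1
          rcases j with _ | j
          · have : H.relIndex T = 1 := by simpa using hj
            exact Subgroup.relIndex_eq_one.mp this
          · exfalso
            apply h3
            refine dvd_trans ?_ h2
            rw [hj]
            exact dvd_pow_self p (by omega)
        have hsup := Cfsg.Agent.H14.sup_normal_eq_top_of_stronglyEmbedded hpH hse T hi2
        rw [sup_of_le_left hTH] at hsup
        exact hHtop hsup
      rcases Cfsg.Agent.H14.isCyclic_or_quaternion (G := (P : Subgroup G)) P.isPGroup' hu with hc | ⟨h2, k, -, hk⟩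
      · exact Or.inl hc
      · exact Or.inr ⟨h2, k, hk⟩
  · rintro ⟨hcore, hP⟩ hconn
    rw [Cfsg.Agent.H14.chainConnected_iff] at hconn
    have huP : Cfsg.Agent.H14.UniqueP p P := by
      rcases hP with h | ⟨h2, n, ⟨e⟩⟩
      · haveI := h
        exact uniqueP_cyclic
      · subst h2
        exact uniqueP_equiv e.symm (uniqueP_quat n)
    have huS : ∀ S : Sylow p G, Cfsg.Agent.H14.UniqueP p S := fun S => uniqueP_equiv (P.equiv S) huP
    have hdP : p ∣ Nat.card P := P.dvd_card_of_dvd_card hdiv
    obtain ⟨⟨z, hzP⟩, hzo⟩ := exists_prime_orderOf_dvd_card' p hdP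
    rw [Subgroup.orderOf_mk] at hzo
    have hstep : ∀ S T : Sylow p G, Cfsg.Agent.H14.sylowAdj p G S T → z ∈ S → z ∈ T := by
      rintro S T ⟨-, hne⟩ hzS
      obtain ⟨c, hc1⟩ := Subgroup.ne_bot_iff_exists_ne_one.mp hne
      obtain ⟨⟨c, hcS, hcT⟩, rfl⟩ : ∃ c' : ((S : Subgroup G) ⊓ (T : Subgroup G) : Subgroup G), c' = c := ⟨c, rfl⟩
      have hc1' : c ≠ 1 := fun h => hc1 (Subtype.ext h)
      obtain ⟨k, hk⟩ := IsPGroup.iff_orderOf.mp S.isPGroup' ⟨c, hcS⟩
      rw [Subgroup.orderOf_mk] at hk
      have hdvd : p ∣ orderOf c := by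
        rw [hk]
        rcases k with _ | k
        · exfalso
          apply hc1'
          exact orderOf_eq_one_iff.mp (by simpa using hk)
        · exact dvd_pow_self p (by omega)
      have hd := orderOf_pow_orderOf_div (orderOf_pos c).ne' hdvd
      set d := c ^ (orderOf c / p) with hddef
      have hdS : d ∈ (S : Subgroup G) := Subgroup.pow_mem _ hcS _
      have hdT : d ∈ (T : Subgroup G) := Subgroup.pow_mem _ hcT _
      have h1 := huS S ⟨d, hdS⟩ ⟨z, hzS⟩ (by rw [Subgroup.orderOf_mk]; exact hd)
        (by rw [Subgroup.orderOf_mk]; exact hzo)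
      obtain ⟨e, he⟩ := Subgroup.mem_zpowers_iff.mp h1
      have h2 : z = d ^ e := by
        have := congrArg Subtype.val he
        simpa using this.symm
      rw [h2]
      exact Subgroup.zpow_mem _ hdT e
    have hall : ∀ T : Sylow p G, z ∈ T := by
      intro T
      have h1 := hconn P T
      induction h1 with
      | refl => exact hzP
      | tail _ hadj ih => exact hstep _ _ hadj ih
    have hzc : z ∈ Cfsg.pCore p G := by
      rw [Cfsg.Agent.H01.pCore_eq_iInf_sylow, Subgroup.mem_iInf]
      exact hall
    rw [hcore, Subgroup.mem_bot] at hzc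
    rw [hzc, orderOf_one] at hzo
    exact hp.one_lt.ne hzo

end Cfsg.Agent.S3057
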