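import Mathlib
import Cfsg.Statements.S3058
import Cfsg.Agent.Lib.H14.SylowGraph
import Cfsg.Agent.Lib.H14.CoprimeGen
-- import your own Cfsg.Agent.* helpers here

set_option autoImplicit false
open Cfsg

namespace Cfsg.Agent.S3058


/-- Let p be a prime and G a finite group whose Sylow p-subgroups are not chain-connected through nontrivial intersections (so G has a strongly p-embedded subgroup). If N and M are normal subgroups of G whose orders are both divisible by p, then the order of N ∩ M is divisible by p. Consequently, among the normal subgroups of G whose order is divisible by p there is a smallest one (the intersection of all of them). -/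
theorem result {G : Type*} [Group G] [Finite G]
    (p : ℕ) [Fact p.Prime] (hG : ¬ Cfsg.IsSylowChainConnected p G)
    (N M : Subgroup G) [N.Normal] [M.Normal] (hN : p ∣ Nat.card N) (hM : p ∣ Nat.card M) :
    p ∣ Nat.card ↥(N ⊓ M) := by
  classical
  by_contra hD
  obtain ⟨H, hH, hpH, hse⟩ := H14.exists_stronglyEmbedded hG
  obtain ⟨S, hS⟩ := H14.exists_sylow_le_of_stronglyEmbedded hpH hse
  have hdvd : ∀ (K : Subgroup G) [K.Normal], p ∣ Nat.card K → p ∣ Nat.card ↥((S : Subgroup G) ⊓ K) := by
    intro K _ hK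
    have h1 : ((S : Subgroup G) ⊓ K : Subgroup G) ≠ ⊥ := by
      rw [← H18.map_sylowOfNormal]
      intro h
      rw [Subgroup.map_eq_bot_iff_of_injective _ K.subtype_injective] at h
      exact (H18.sylowOfNormal S K).ne_bot_of_dvd_card hK h
    have h2 : IsPGroup p ↥((S : Subgroup G) ⊓ K : Subgroup G) := S.isPGroup'.to_le inf_le_left
    obtain ⟨k, hk⟩ := h2.exists_card_eq
    have hk0 : k ≠ 0 := by
      rintro rfl
      rw [pow_zero] at hk
      exact h1 (Subgroup.card_eq_one.mp hk)
    rw [hk]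
    exact dvd_pow_self p hk0
  obtain ⟨⟨x, hxS, hxN⟩, hxo⟩ := exists_prime_orderOf_dvd_card' p (hdvd N hN)
  obtain ⟨⟨y, hyS, hyM⟩, hyo⟩ := exists_prime_orderOf_dvd_card' p (hdvd M hM)
  have hxo' : orderOf x = p := by rw [← hxo]; exact (Subgroup.orderOf_mk x _).symm
  have hyo' : orderOf y = p := by rw [← hyo]; exact (Subgroup.orderOf_mk y _).symm
  have hx : x ^ p = 1 := by rw [← hxo']; exact pow_orderOf_eq_one x
  have hy : y ^ p = 1 := by rw [← hyo']; exact pow_orderOf_eq_one y
  -- elements of `S` in `N ⊓ M` are trivial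
  have hSD : ∀ v ∈ (S : Subgroup G), v ∈ N ⊓ M → v = 1 := by
    intro v hvS hvD
    obtain ⟨k, hk⟩ := S.isPGroup' ⟨v, hvS⟩
    have h1 : v ^ p ^ k = 1 := by
      have := congrArg Subtype.val hk
      simpa using this
    have h2 : orderOf v ∣ p ^ k := orderOf_dvd_of_pow_eq_one h1
    have h3 : orderOf v ∣ Nat.card ↥(N ⊓ M) := Subgroup.orderOf_dvd_natCard _ hvD
    have h4 : (p ^ k).Coprime (Nat.card ↥(N ⊓ M)) :=
      Nat.Coprime.pow_left _ ((Nat.Prime.coprime_iff_not_dvd Fact.out).mpr hD)
    exact orderOf_eq_one_iff.mp (Nat.eq_one_of_dvd_coprimes h4 h2 h3)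
  have hxy : Commute x y := by
    have h1 : x * y * x⁻¹ * y⁻¹ ∈ N ⊓ M := by
      constructor
      · have : x * y * x⁻¹ * y⁻¹ = x * (y * x⁻¹ * y⁻¹) := by group
        rw [this]
        exact N.mul_mem hxN (‹N.Normal›.conj_mem _ (N.inv_mem hxN) y)
      · exact M.mul_mem (‹M.Normal›.conj_mem _ hyM x) (M.inv_mem hyM)
    have h2 : x * y * x⁻¹ * y⁻¹ ∈ (S : Subgroup G) :=
      S.mul_mem (S.mul_mem (S.mul_mem hxS hyS) (S.inv_mem hxS)) (S.inv_mem hyS)
    have h3 := hSD _ h2 h1
    show x * y = y * x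
    calc x * y = (x * y * x⁻¹ * y⁻¹) * (y * x) := by group
      _ = y * x := by rw [h3, one_mul]
  have hNN : ∀ g : G, g ∈ Subgroup.normalizer (↑(N ⊓ M) : Set G) := by
    intro g
    have : (N ⊓ M).Normal := inferInstance
    rw [Subgroup.mem_normalizer_iff]
    intro h
    constructor
    · intro hh
      exact this.conj_mem h hh g
    · intro hh
      have := this.conj_mem _ hh g⁻¹
      simpa [mul_assoc] using this
  have hgen := H14.le_cgen (p := p) hxy hx hy _ (N ⊓ M) rfl (hNN x) (hNN y) hD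
  -- centralizers of nontrivial elements of `S` lie in `H`
  have hcent : ∀ e ∈ (S : Subgroup G), e ≠ 1 → ∀ v, Commute v e → v ∈ H := by
    intro e he hne v hv
    have h1 : IsPGroup p (Subgroup.zpowers e) := by
      have : Subgroup.zpowers e ≤ (S : Subgroup G) := (Subgroup.zpowers_le).mpr he
      exact S.isPGroup'.to_le this
    have h2 : Subgroup.zpowers e ≠ ⊥ := by
      intro h
      exact hne (Subgroup.zpowers_eq_bot.mp h)
    have h3 : Subgroup.zpowers e ≤ H := (Subgroup.zpowers_le).mpr (hS he)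
    refine H14.normalizer_le_of_stronglyEmbedded hse h1 h2 h3 ?_
    rw [Subgroup.mem_normalizer_iff]
    intro u
    constructor
    · rintro ⟨k, rfl⟩
      refine ⟨k, ?_⟩
      show e ^ k = v * e ^ k * v⁻¹
      rw [((hv.zpow_right k).eq)]
      group
    · rintro ⟨k, hk⟩
      refine ⟨k, ?_⟩
      have hk' : (fun x => e ^ x) k = v * u * v⁻¹ := hk
      show e ^ k = u
      have h5 : v * e ^ k * v⁻¹ = e ^ k := by
        rw [((hv.zpow_right k).eq)]
        group
      have h6 : v * u * v⁻¹ = v * e ^ k * v⁻¹ := by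
        rw [h5]
        exact hk'.symm
      have h7 : u = e ^ k := by
        have := congrArg (fun w => v⁻¹ * w * v) h6
        simpa [mul_assoc] using this
      exact h7.symm
  -- `D ≤ H`
  have hDH : N ⊓ M ≤ H := by
    refine hgen.trans ?_
    rw [H14.cgen, Subgroup.closure_le]
    rintro v ⟨-, a, b, hab, hc⟩
    refine hcent (x ^ a * y ^ b) (S.mul_mem (S.pow_mem hxS a) (S.pow_mem hyS b)) ?_ v hc
    intro he
    have h1 : x ^ a = (y ^ b)⁻¹ := eq_inv_of_mul_eq_one_left he
    have h2 : x ^ a ∈ N ⊓ M := by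
      refine ⟨N.pow_mem hxN a, ?_⟩
      rw [h1]
      exact M.inv_mem (M.pow_mem hyM b)
    have h3 : x ^ a = 1 := hSD _ (S.pow_mem hxS a) h2
    have h4 : y ^ b = 1 := by
      rw [h3] at he
      simpa using he
    apply hab
    constructor
    · rw [← hxo']; exact orderOf_dvd_of_pow_eq_one h3
    · rw [← hyo']; exact orderOf_dvd_of_pow_eq_one h4
  have hyne : y ≠ 1 := by
    rintro rfl
    rw [orderOf_one] at hyo'
    exact (Fact.out : p.Prime).one_lt.ne hyo'
  -- `N ≤ H`
  have hNH : N ≤ H := by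
    intro n hn
    have hw : n⁻¹ * (y * n * y⁻¹) ∈ N ⊓ M := by
      constructor
      · exact N.mul_mem (N.inv_mem hn) (‹N.Normal›.conj_mem _ hn y)
      · have : n⁻¹ * (y * n * y⁻¹) = (n⁻¹ * y * n) * y⁻¹ := by group
        rw [this]
        refine M.mul_mem ?_ (M.inv_mem hyM)
        have := ‹M.Normal›.conj_mem _ hyM n⁻¹
        simpa using this
    have hcop : (orderOf y).Coprime (Nat.card ↥(N ⊓ M)) := by
      rw [hyo', Nat.Prime.coprime_iff_not_dvd Fact.out]
      exact hD
    obtain ⟨d, hd, hc⟩ := H06.exists_fixed_of_coset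
      (fun u hu => (Subgroup.mem_normalizer_iff.mp (hNN y) u).mp hu) hcop hw
    have h1 : n * d ∈ H := hcent y hyS hyne _ hc
    have := H.mul_mem h1 (H.inv_mem (hDH hd))
    simpa using this
  obtain ⟨g, hg⟩ : ∃ g, g ∉ H := by
    by_contra hcon
    push Not at hcon
    exact hH (eq_top_iff.mpr (fun x _ => hcon x))
  apply hse g hg
  refine hN.trans (Subgroup.card_dvd_of_le ?_)
  intro n hn
  refine ⟨hNH hn, g⁻¹ * n * g, hNH ?_, by simp [mul_assoc]⟩
  have := ‹N.Normal›.conj_mem _ hn g⁻¹
  simpa using this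

end Cfsg.Agent.S3058
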