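import Mathlib
import Cfsg.Statements.S3060
import Cfsg.Agent.Lib.H14.DStar
import Cfsg.Agent.Lib.H13.Basic
-- import your own Cfsg.Agent.* helpers here

set_option autoImplicit false
open Cfsg

namespace Cfsg.Agent.S3060

open scoped commutatorElement

/-- Elements of a normal subgroup preimage: a normal subgroup whose image in `G/C` lies in `O_p`. -/
theorem preimage_pCore_isPGroup {G : Type*} [Group G] [Finite G] {p : ℕ} [Fact p.Prime]
    (C : Subgroup G) [C.Normal] (hC : IsPGroup p C) :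
    IsPGroup p ((Cfsg.pCore p (G ⧸ C)).comap (QuotientGroup.mk' C)) := by
  intro x
  have hx : (QuotientGroup.mk' C (x : G)) ∈ Cfsg.pCore p (G ⧸ C) := x.2
  obtain ⟨k, hk⟩ := (H13.isPGroup_pCore (p := p) (G := G ⧸ C)) ⟨_, hx⟩
  have hk' : (QuotientGroup.mk' C (x : G)) ^ p ^ k = 1 := by
    have := congrArg Subtype.val hk
    simpa using this
  have hmem : (x : G) ^ p ^ k ∈ C := by
    rw [← QuotientGroup.eq_one_iff]
    simpa [map_pow] using hk'
  obtain ⟨m, hm⟩ := hC ⟨_, hmem⟩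
  refine ⟨k + m, ?_⟩
  apply Subtype.ext
  have := congrArg Subtype.val hm
  simp only [Subgroup.coe_pow, Subgroup.coe_one] at this ⊢
  rw [pow_add, pow_mul]
  exact this

theorem main {G : Type*} [Group G] [Finite G] {p : ℕ} [Fact p.Prime]
    (hc : Subgroup.centralizer (Cfsg.pCore p G : Set G) ≤ Cfsg.pCore p G)
    (hst : ∀ (P : Subgroup G) [P.Normal], IsPGroup p P → Cfsg.IsPStableOn p P) (S : Sylow p G) :
    (Cfsg.dStarOf (S : Subgroup G)).Normal := by
  classical
  set S₀ : Subgroup G := (S : Subgroup G) with hS₀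
  set Q := Cfsg.pCore p G with hQ
  have hQp : IsPGroup p Q := H13.isPGroup_pCore
  have hQS : Q ≤ S₀ := H13.pCore_le_sylow S
  haveI hnil : Group.IsNilpotent ↥S₀ := S.2.isNilpotent
  set D₀ := Cfsg.dStar ↥S₀ with hD₀
  have hfam : D₀ ∈ Cfsg.dStarFamily ↥S₀ := H14.dStar_mem_family
  haveI hD₀n : D₀.Normal := H14.dStar_normal
  set D : Subgroup G := D₀.map S₀.subtype with hD
  have hDS : D ≤ S₀ := Subgroup.map_subtype_le _
  have hmemD : ∀ {x : G}, x ∈ D ↔ ∃ h : x ∈ S₀, (⟨x, h⟩ : ↥S₀) ∈ D₀ := by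
    intro x
    constructor
    · rintro ⟨y, hy, rfl⟩
      exact ⟨y.2, hy⟩
    · rintro ⟨h, hx⟩
      exact ⟨⟨x, h⟩, hx, rfl⟩
  have hDc : ∀ a ∈ D, ∀ b ∈ D, a * b = b * a := by
    intro a ha b hb
    obtain ⟨ha1, ha2⟩ := hmemD.mp ha
    obtain ⟨hb1, hb2⟩ := hmemD.mp hb
    have := hfam.1.is_comm.comm (⟨_, ha2⟩ : D₀) ⟨_, hb2⟩
    have h2 := congrArg (fun z : D₀ => ((z : ↥S₀) : G)) this
    simpa using h2
  have hDnorm : ∀ s ∈ S₀, ∀ d ∈ D, s * d * s⁻¹ ∈ D := by
    intro s hs d hd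
    obtain ⟨h1, h2⟩ := hmemD.mp hd
    have := hD₀n.conj_mem _ h2 ⟨s, hs⟩
    exact hmemD.mpr ⟨S₀.mul_mem (S₀.mul_mem hs h1) (S₀.inv_mem hs), this⟩
  -- the family property at the level of G
  have hfamily : ∀ s ∈ S₀, (∀ d ∈ D, s * (s * d * s⁻¹ * d⁻¹) * s⁻¹ = s * d * s⁻¹ * d⁻¹) →
      ∀ d ∈ D, d * s = s * d := by
    intro s hs hq d hd
    set y : ↥S₀ := ⟨s, hs⟩ with hy
    have hDc₀ : ∀ a ∈ D₀, ∀ b ∈ D₀, a * b = b * a := fun a ha b hb =>
      congrArg Subtype.val (hfam.1.is_comm.comm (⟨a, ha⟩ : D₀) ⟨b, hb⟩)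
    have h2 := H14.class_two_of_sup_zpowers (A := D₀) (y := y)
      (D₀ ⊓ Subgroup.centralizer ({y} : Set ↥S₀)) hDc₀
      (fun z hz a ha => hDc₀ z hz.1 a ha)
      (fun z hz => by
        have : z ∈ Subgroup.centralizer ({y} : Set ↥S₀) := hz.2
        rw [Subgroup.mem_centralizer_singleton_iff] at this
        exact this)
      (by
        intro a ha
        refine ⟨?_, ?_⟩
        · exact D₀.mul_mem (hD₀n.conj_mem _ ha y) (D₀.inv_mem ha)
        · show y * a * y⁻¹ * a⁻¹ ∈ Subgroup.centralizer ({y} : Set ↥S₀)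
          rw [Subgroup.mem_centralizer_singleton_iff]
          apply Subtype.ext
          have := hq (a : G) (hmemD.mpr ⟨a.2, ha⟩)
          simp only [Subgroup.coe_mul, Subgroup.coe_inv, hy]
          calc s * a * s⁻¹ * (a : G)⁻¹ * s = (s * (s * a * s⁻¹ * (a : G)⁻¹) * s⁻¹) * s := by rw [this]
            _ = s * (s * a * s⁻¹ * (a : G)⁻¹) := by group)
    obtain ⟨h1, h3⟩ := hmemD.mp hd
    have h4 := hfam.2 y h2 _ h3
    exact congrArg Subtype.val h4
  -- Step 1: D ≤ Q
  have hDQ : D ≤ Q := by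
    intro a ha
    have hquad : ⁅⁅Q, Subgroup.zpowers a⁆, Subgroup.zpowers a⁆ = ⊥ := by
      apply H14.quadratic_of_elementwise
      intro l hl
      have h1 : l * a * l⁻¹ ∈ D := hDnorm l (hQS hl) a ha
      have h2 : l * a * l⁻¹ * a⁻¹ ∈ D := D.mul_mem h1 (D.inv_mem ha)
      exact hDc _ h2 _ ha
    have h1 := hst Q hQp a hquad
    have hT := preimage_pCore_isPGroup (p := p) (Subgroup.centralizer (Q : Set G)) (hQp.to_le hc)
    have hTn : ((Cfsg.pCore p (G ⧸ Subgroup.centralizer (Q : Set G))).comap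
        (QuotientGroup.mk' (Subgroup.centralizer (Q : Set G)))).Normal :=
      Subgroup.Normal.comap inferInstance _
    have hle := H13.le_pCore hTn hT
    exact hle h1
  -- Step 2: conjugates commute
  have hconj : ∀ (g : G), ∀ d ∈ D, ∀ d' ∈ D, d' * (g * d * g⁻¹) = (g * d * g⁻¹) * d' := by
    intro g d hd d' hd'
    set b := g * d * g⁻¹ with hb
    have hbQ : b ∈ Q := (inferInstance : Q.Normal).conj_mem d (hDQ hd) g
    apply hfamily b (hQS hbQ) _ d' hd'
    intro d₁ hd₁
    -- the commutator lies in both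
    have hqS : g⁻¹ * d₁ * g ∈ S₀ := by
      have := (inferInstance : Q.Normal).conj_mem d₁ (hDQ hd₁) g⁻¹
      rw [inv_inv] at this
      exact hQS this
    set e := (g⁻¹ * d₁ * g) * d⁻¹ * (g⁻¹ * d₁ * g)⁻¹ with he
    have heD : e ∈ D := hDnorm _ hqS _ (D.inv_mem hd)
    have hcomm : b * d₁ * b⁻¹ * d₁⁻¹ = g * (d * e) * g⁻¹ := by
      rw [he, hb]
      group
    rw [hcomm, hb]
    have h3 : d * (d * e) = (d * e) * d := hDc _ hd _ (D.mul_mem hd heD)
    calc g * d * g⁻¹ * (g * (d * e) * g⁻¹) * (g * d * g⁻¹)⁻¹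
        = g * (d * (d * e)) * d⁻¹ * g⁻¹ := by group
      _ = g * ((d * e) * d) * d⁻¹ * g⁻¹ := by rw [h3]
      _ = g * (d * e) * g⁻¹ := by group
  -- the normal closure
  set X : Set G := Group.conjugatesOfSet (D : Set G) with hX
  set L : Subgroup G := Subgroup.normalClosure (D : Set G) with hL
  have hLX : L = Subgroup.closure X := rfl
  haveI hLn : L.Normal := Subgroup.normalClosure_normal
  have hmemX : ∀ {x : G}, x ∈ X ↔ ∃ g : G, ∃ d ∈ D, g * d * g⁻¹ = x := by
    intro x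
    rw [hX, Group.mem_conjugatesOfSet_iff]
    constructor
    · rintro ⟨a, ha, hc⟩
      obtain ⟨c, hc⟩ := isConj_iff.mp hc
      exact ⟨c, a, ha, hc⟩
    · rintro ⟨g, d, hd, rfl⟩
      exact ⟨d, hd, isConj_iff.mpr ⟨g, rfl⟩⟩
  have hXcomm : ∀ x ∈ X, ∀ y ∈ X, x * y = y * x := by
    intro x hx y hy
    obtain ⟨g, d, hd, rfl⟩ := hmemX.mp hx
    obtain ⟨h, d', hd', rfl⟩ := hmemX.mp hy
    have h1 := hconj (h⁻¹ * g) d hd d' hd'
    calc g * d * g⁻¹ * (h * d' * h⁻¹)
        = h * ((h⁻¹ * g) * d * (h⁻¹ * g)⁻¹ * d') * h⁻¹ := by group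
      _ = h * (d' * ((h⁻¹ * g) * d * (h⁻¹ * g)⁻¹)) * h⁻¹ := by rw [← h1]
      _ = h * d' * h⁻¹ * (g * d * g⁻¹) := by group
  have hLC : L ≤ Subgroup.centralizer (L : Set G) := by
    rw [hLX, Subgroup.centralizer_closure, Subgroup.closure_le]
    intro x hx
    rw [SetLike.mem_coe, Subgroup.mem_centralizer_iff]
    intro y hy
    exact hXcomm y hy x hx
  have hLab : IsMulCommutative L := Subgroup.le_centralizer_iff_isMulCommutative.mp hLC
  have hLQ : L ≤ Q := Subgroup.normalClosure_le_normal hDQ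
  have hLS : L ≤ S₀ := hLQ.trans hQS
  have hLp : IsPGroup p L := hQp.to_le hLQ
  have hDL : D ≤ L := Subgroup.subset_normalClosure
  have hLc : ∀ a ∈ L, ∀ b ∈ L, a * b = b * a := fun a ha b hb =>
    (Subgroup.mem_centralizer_iff.mp (hLC hb) a ha)
  -- Step 3: L is in the family
  have hLfam : L.subgroupOf S₀ ∈ Cfsg.dStarFamily ↥S₀ := by
    refine ⟨⟨⟨fun a b => ?_⟩⟩, ?_⟩
    · apply Subtype.ext
      apply Subtype.ext
      exact hLc _ (Subgroup.mem_subgroupOf.mp a.2) _ (Subgroup.mem_subgroupOf.mp b.2)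
    intro x hx a ha
    set H := L.subgroupOf S₀ ⊔ Subgroup.zpowers x with hH
    have hxH : x ∈ H := Subgroup.mem_sup_right (Subgroup.mem_zpowers x)
    -- the elementwise quadratic condition
    have hq1 : ∀ l ∈ L, ⁅⁅l, (x : G)⁆, (x : G)⁆ = 1 := by
      intro l hl
      have hl₀ : (⟨l, hLS hl⟩ : ↥S₀) ∈ H :=
        Subgroup.mem_sup_left (Subgroup.mem_subgroupOf.mpr hl)
      have h1 : ⁅⁅(⟨l, hLS hl⟩ : ↥S₀), x⁆, x⁆ ∈ ⁅⁅H, H⁆, H⁆ :=
        Subgroup.commutator_mem_commutator (Subgroup.commutator_mem_commutator hl₀ hxH) hxH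
      rw [hx, Subgroup.mem_bot] at h1
      have h2 := congrArg Subtype.val h1
      simpa [commutatorElement_def] using h2
    have hq2 : ∀ l ∈ L, l * x * l⁻¹ * (x : G)⁻¹ * x = x * (l * x * l⁻¹ * (x : G)⁻¹) := by
      intro l hl
      have h1 := hq1 l hl
      rw [commutatorElement_eq_one_iff_mul_comm] at h1
      exact h1
    have hquad := H14.quadratic_of_elementwise hq2
    have hstL := hst L hLp (x : G) hquad
    -- reduction modulo C(L)
    set C := Subgroup.centralizer (L : Set G) with hC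
    have hsurj := QuotientGroup.mk'_surjective C
    -- every conjugate of x is s * c with s in S₀
    have hkey : ∀ g : G, ∀ d ∈ D, d * (g⁻¹ * x * g) = (g⁻¹ * x * g) * d := by
      intro g d hd
      set y := g⁻¹ * (x : G) * g with hy
      have hyR : QuotientGroup.mk' C y ∈ Cfsg.pCore p (G ⧸ C) := by
        have := (inferInstance : (Cfsg.pCore p (G ⧸ C)).Normal).conj_mem _ hstL (QuotientGroup.mk' C g⁻¹)
        have e : QuotientGroup.mk' C y =
            (QuotientGroup.mk' C g⁻¹) * (QuotientGroup.mk (x : G) : G ⧸ C) * (QuotientGroup.mk' C g⁻¹)⁻¹ := by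
          have hy' : y = g⁻¹ * (x : G) * (g⁻¹)⁻¹ := by rw [hy, inv_inv]
          rw [hy', map_mul, map_mul, map_inv]
          rfl
        rw [e]
        exact this
      have hSbar : Cfsg.pCore p (G ⧸ C) ≤ S₀.map (QuotientGroup.mk' C) := by
        have := H13.pCore_le_sylow (p := p) (G := G ⧸ C) (Sylow.mapSurjective hsurj S)
        rw [Sylow.coe_mapSurjective] at this
        exact this
      obtain ⟨s, hs, hsy⟩ := hSbar hyR
      -- c = y * s⁻¹ centralizes L
      have hc' : y * s⁻¹ ∈ C := by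
        rw [← QuotientGroup.eq_one_iff]
        have : (QuotientGroup.mk' C) s = (QuotientGroup.mk' C) y := hsy
        show (QuotientGroup.mk' C) (y * s⁻¹) = 1
        rw [map_mul, map_inv, ← this]
        simp
      have hcomm_c : ∀ l ∈ L, (y * s⁻¹) * l = l * (y * s⁻¹) := fun l hl =>
        (Subgroup.mem_centralizer_iff.mp hc' l hl).symm
      -- action of y and s agree on L
      have hact : ∀ l ∈ L, y * l * y⁻¹ = s * l * s⁻¹ := by
        intro l hl
        have h1 : s * l * s⁻¹ ∈ L := hLn.conj_mem l hl s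
        have h2 := hcomm_c _ h1
        have e : y * l * y⁻¹ = (y * s⁻¹) * (s * l * s⁻¹) * (y * s⁻¹)⁻¹ := by group
        rw [e, h2]
        group
      -- y acts quadratically on L
      have hqy : ∀ l ∈ L, y * (y * l * y⁻¹ * l⁻¹) * y⁻¹ = y * l * y⁻¹ * l⁻¹ := by
        intro l hl
        -- transport from x
        have hl' : g * l⁻¹ * g⁻¹ ∈ L := hLn.conj_mem _ (L.inv_mem hl) g
        have h1 := hq2 _ hl'
        set l' := g * l⁻¹ * g⁻¹ with hl'def
        have h2 : (x : G) * (l' * x * l'⁻¹ * (x : G)⁻¹) * (x : G)⁻¹ = l' * x * l'⁻¹ * (x : G)⁻¹ := by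
          rw [← h1]; group
        -- rewrite using commutativity in L
        have h3 : l' * x * l'⁻¹ * (x : G)⁻¹ = ((x : G) * l'⁻¹ * (x : G)⁻¹) * l' := by
          have h4 : (x : G) * l'⁻¹ * (x : G)⁻¹ ∈ L := hLn.conj_mem _ (L.inv_mem hl') x
          have e : l' * x * l'⁻¹ * (x : G)⁻¹ = l' * ((x : G) * l'⁻¹ * (x : G)⁻¹) := by group
          rw [e]
          exact hLc _ hl' _ h4
        rw [h3] at h2
        have e1 : y * (y * l * y⁻¹ * l⁻¹) * y⁻¹ =
            g⁻¹ * ((x : G) * (((x : G) * l'⁻¹ * (x : G)⁻¹) * l') * (x : G)⁻¹) * g := by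
          rw [hy, hl'def]; group
        have e2 : y * l * y⁻¹ * l⁻¹ = g⁻¹ * (((x : G) * l'⁻¹ * (x : G)⁻¹) * l') * g := by
          rw [hy, hl'def]; group
        rw [e1, e2, h2]
      have hqs : ∀ d ∈ D, s * (s * d * s⁻¹ * d⁻¹) * s⁻¹ = s * d * s⁻¹ * d⁻¹ := by
        intro d hd
        have hl := hDL hd
        have h1 := hqy d hl
        rw [hact d hl] at h1
        have hmem : s * d * s⁻¹ * d⁻¹ ∈ L := L.mul_mem (hLn.conj_mem d hl s) (L.inv_mem hl)
        rw [hact _ hmem] at h1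
        exact h1
      have hsS : s ∈ S₀ := hs
      have hsd := hfamily s hsS hqs d hd
      have hcd := hcomm_c d (hDL hd)
      calc d * y = d * ((y * s⁻¹) * s) := by group
        _ = (d * (y * s⁻¹)) * s := by group
        _ = ((y * s⁻¹) * d) * s := by rw [hcd]
        _ = (y * s⁻¹) * (d * s) := by group
        _ = (y * s⁻¹) * (s * d) := by rw [hsd]
        _ = y * d := by group
    -- conclude
    have hxL : (x : G) ∈ Subgroup.centralizer (L : Set G) := by
      rw [hLX, Subgroup.centralizer_closure, Subgroup.mem_centralizer_iff]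
      intro z hz
      obtain ⟨g, d, hd, rfl⟩ := hmemX.mp hz
      have h1 := hkey g d hd
      calc g * d * g⁻¹ * x = g * (d * (g⁻¹ * x * g)) * g⁻¹ := by group
        _ = g * ((g⁻¹ * x * g) * d) * g⁻¹ := by rw [h1]
        _ = x * (g * d * g⁻¹) := by group
    apply Subtype.ext
    exact Subgroup.mem_centralizer_iff.mp hxL _ (Subgroup.mem_subgroupOf.mp ha)
  have hLD : L ≤ D := by
    intro l hl
    have h1 : L.subgroupOf S₀ ≤ D₀ := le_sSup hLfam
    exact hmemD.mpr ⟨hLS hl, h1 (Subgroup.mem_subgroupOf.mpr hl)⟩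
  have hDeq : Cfsg.dStarOf S₀ = L := le_antisymm hDL hLD
  rw [hDeq]
  exact hLn

/-- The D*-Theorem. For a finite p-group S let D*(S) be the subgroup generated by the abelian subgroups A of S such that every x ∈ S with ⟨A, x⟩ of nilpotency class at most two centralizes A. Let p be an odd prime and H a finite p-stable group with Sylow p-subgroup S. Here H is p-stable in the following sense: the largest normal p-subgroup O_p(H) contains its centralizer in H, and for every normal p-subgroup P of H, every element acting quadratically on P has image in O_p(H/C_H(P)). Then D*(S) is a normal subgroup of H. -/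
theorem result {G : Type*} [Group G] [Finite G] {p : ℕ} [Fact p.Prime] (hp : p ≠ 2)
    (hc : Subgroup.centralizer (Cfsg.pCore p G : Set G) ≤ Cfsg.pCore p G)
    (hst : ∀ (P : Subgroup G) [P.Normal], IsPGroup p P → Cfsg.IsPStableOn p P) (S : Sylow p G) :
    (Cfsg.dStarOf (S : Subgroup G)).Normal := by
  exact main hc hst S

end Cfsg.Agent.S3060
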