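import Mathlib
import Cfsg.Statements.S3062
import Cfsg.Agent.Lib.H14.DStar
import Cfsg.Agent.Lib.H14.Offender
-- import your own Cfsg.Agent.* helpers here

set_option autoImplicit false
open Cfsg

namespace Cfsg.Agent.S3062

theorem dStar_le_maxAbelian {S : Type*} [Group S] [Finite S] [Group.IsNilpotent S] {A : Subgroup S}
    (hA : A ∈ Cfsg.maxAbelianSubgroups S) : Cfsg.dStar S ≤ A := by
  classical
  set D := Cfsg.dStar S with hD
  have hDfam : D ∈ Cfsg.dStarFamily S := H14.dStar_mem_family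
  have hDab : IsMulCommutative D := hDfam.1
  haveI hDn : D.Normal := H14.dStar_normal
  have hDc : ∀ a ∈ D, ∀ b ∈ D, a * b = b * a := fun a ha b hb =>
    congrArg Subtype.val (hDab.is_comm.comm (⟨a, ha⟩ : D) ⟨b, hb⟩)
  suffices hsuff : A ≤ Subgroup.centralizer (D : Set S) by
    have := Subgroup.le_centralizer_iff.mp hsuff
    rwa [H14.maxAbelian_centralizer_eq hA] at this
  by_contra hne
  -- the family of best offenders not centralizing D
  set M := Nat.card A * Nat.card ↥(D ⊓ Subgroup.centralizer (A : Set S)) with hM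
  have hfin : Set.Finite {E : Subgroup S | E ≤ A ∧
      Nat.card E * Nat.card ↥(D ⊓ Subgroup.centralizer (E : Set S)) = M ∧
      ¬ E ≤ Subgroup.centralizer (D : Set S)} := Set.toFinite _
  obtain ⟨E, hEmin⟩ := hfin.exists_minimal ⟨A, le_rfl, rfl, hne⟩
  obtain ⟨⟨hEA, hEM, hEne⟩, hEmin⟩ := hEmin
  have hEc : ∀ a ∈ E, ∀ b ∈ E, a * b = b * a := fun a ha b hb =>
    congrArg Subtype.val (hA.1.is_comm.comm (⟨a, hEA ha⟩ : A) ⟨b, hEA hb⟩)
  set T := D ⊓ Subgroup.centralizer (E : Set S) with hT
  have hTfix : ∀ t ∈ T, ∀ e ∈ E, e * t * e⁻¹ = t := by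
    intro t ht e he
    have := Subgroup.mem_centralizer_iff.mp ht.2 e he
    rw [this]; group
  -- key: all commutators land in T
  have hkey : ∀ v ∈ D, ∀ e ∈ E, v⁻¹ * (e * v * e⁻¹) ∈ T := by
    intro v hv
    let d : S → S := fun a => v⁻¹ * (a * v * a⁻¹)
    have hdD : ∀ a ∈ E, d a ∈ D := fun a _ =>
      D.mul_mem (D.inv_mem hv) (hDn.conj_mem _ hv a)
    have hco : ∀ a ∈ E, ∀ b ∈ E, d (a * b) = d a * (a * d b * a⁻¹) := by
      intro a _ b _
      simp only [d]
      group
    obtain ⟨E', hE'E, hE'mem, hdF, hcount⟩ := H14.cocycle_count hEc hDc d hdD hco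
    have hbound := H14.offender_bound hA hDab (hE'E.trans hEA)
    rw [← hM] at hbound
    rw [← hT] at hE'mem
    have hcount' : M ≤ Nat.card E' * Nat.card ↥(D ⊓ Subgroup.centralizer (E' : Set S)) := by
      rw [← hEM]
      exact hcount
    have hE'M : Nat.card E' * Nat.card ↥(D ⊓ Subgroup.centralizer (E' : Set S)) = M :=
      le_antisymm hbound hcount'
    by_cases hE'c : E' ≤ Subgroup.centralizer (D : Set S)
    · -- F = D
      have hTsub : T ≤ D ⊓ Subgroup.centralizer (E' : Set S) :=
        le_inf inf_le_left (inf_le_right.trans (Subgroup.centralizer_le hE'E))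
      have hF : D ⊓ Subgroup.centralizer (E' : Set S) = D :=
        inf_eq_left.mpr (Subgroup.le_centralizer_iff.mp hE'c)
      have hsurj := H14.coset_surj (A := E) (F := D ⊓ Subgroup.centralizer (E' : Set S)) (E := E') (T := T)
        d hE'E hTsub hdF
      have hfib : ∀ a ∈ E, ∀ b ∈ E, (d a)⁻¹ * d b ∈ T → a⁻¹ * b ∈ E' := by
        intro a ha b hb h
        rw [hE'mem]
        refine ⟨E.mul_mem (E.inv_mem ha) hb, ?_⟩
        have e : d (a⁻¹ * b) = a⁻¹ * ((d a)⁻¹ * d b) * a := by
          simp only [d]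
          group
        rw [e]
        have h3 := hTfix _ h a⁻¹ (E.inv_mem ha)
        rw [inv_inv] at h3
        rw [h3]
        exact h
      obtain ⟨a, ha, hat⟩ := hsurj hfib (by rw [hE'M, hEM]) v⁻¹ (by rw [hF]; exact D.inv_mem hv)
      have e1 : (d a)⁻¹ * v⁻¹ = a * v⁻¹ * a⁻¹ := by
        simp only [d]
        group
      rw [e1] at hat
      have h2 := hTfix _ hat a⁻¹ (E.inv_mem ha)
      have e2 : a⁻¹ * (a * v⁻¹ * a⁻¹) * a⁻¹⁻¹ = v⁻¹ := by group
      rw [e2] at h2
      have hvT : v⁻¹ ∈ T := by rw [h2]; exact hat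
      have hvT' : v ∈ T := by simpa using T.inv_mem hvT
      intro e he
      have : e * v * e⁻¹ = v := hTfix v hvT' e he
      rw [this]
      simpa using T.one_mem
    · -- E' = E by minimality
      have hle : E ≤ E' := hEmin ⟨hE'E.trans hEA, hE'M, hE'c⟩ hE'E
      intro e he
      exact ((hE'mem e).mp (hle he)).2
  -- now E acts quadratically on D
  obtain ⟨a, haE, haD⟩ := SetLike.not_le_iff_exists.mp hEne
  have h2 := H14.class_two_of_sup_zpowers (A := D) (y := a) T hDc
    (fun z hz x hx => hDc z hz.1 x hx)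
    (fun z hz => (Subgroup.mem_centralizer_iff.mp hz.2 a haE).symm)
    (by
      intro w hw
      have h3 := hkey w hw a haE
      have h4 : a * w * a⁻¹ ∈ D := hDn.conj_mem _ hw a
      have h5 : w⁻¹ * (a * w * a⁻¹) = a * w * a⁻¹ * w⁻¹ := hDc _ (D.inv_mem hw) _ h4
      rwa [h5] at h3)
  have h3 := hDfam.2 a h2
  apply haD
  rw [Subgroup.mem_centralizer_iff]
  intro x hx
  exact (h3 x hx)

/-- Let S be a finite p-group, J(S) the subgroup generated by the abelian subgroups of S of largest order and Z(J(S)) its centre. Then Z(S) ≤ D*(S) ≤ Z(J(S)), and every maximal normal abelian subgroup of S contains D*(S). -/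
theorem result {S : Type*} [Group S] [Finite S] {p : ℕ} [Fact p.Prime]
    (hS : IsPGroup p S) :
    Subgroup.center S ≤ Cfsg.dStar S ∧
    Cfsg.dStar S ≤ Cfsg.thompsonSubgroupA S ⊓ Subgroup.centralizer (Cfsg.thompsonSubgroupA S : Set S) ∧
    ∀ A : Subgroup S, A.Normal → IsMulCommutative A →
      (∀ B : Subgroup S, B.Normal → IsMulCommutative B → A ≤ B → B = A) → Cfsg.dStar S ≤ A := by
  haveI : Group.IsNilpotent S := hS.isNilpotent
  refine ⟨?_, ?_, ?_⟩
  · -- center in the family
    apply le_sSup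
    refine ⟨inferInstance, ?_⟩
    intro x _ a ha
    exact Subgroup.mem_center_iff.mp ha x |>.symm
  · refine le_inf ?_ ?_
    · obtain ⟨A, hA⟩ := H14.exists_maxAbelian (G := S)
      exact (dStar_le_maxAbelian hA).trans (le_sSup hA)
    · rw [Subgroup.le_centralizer_iff]
      apply sSup_le
      intro A hA
      have h1 := dStar_le_maxAbelian hA
      rw [Subgroup.le_centralizer_iff]
      exact h1.trans (H14.le_centralizer_of_isMulCommutative hA.1)
  · intro A hAn hAab hAmax
    exact H14.dStar_le_of_selfCentralizing hAn hAab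
      (H14.centralizer_le_of_maximal_normal_abelian hAn hAab hAmax)

end Cfsg.Agent.S3062
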