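import Mathlib
import Cfsg.Statements.S3063
import Cfsg.Agent.Lib.H14.Offender
-- import your own Cfsg.Agent.* helpers here

set_option autoImplicit false
open Cfsg

namespace Cfsg.Agent.S3063

open scoped commutatorElement

/-- A weak replacement Theorem for metabelian p-groups: let S be a finite p-group whose derived subgroup is abelian and A an abelian subgroup of S of largest possible order. Then the normal closure of A in S contains an abelian subgroup B of the same order as A that is normal in S. -/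
theorem result {S : Type*} [Group S] [Finite S] {p : ℕ} [Fact p.Prime]
    (hS : IsPGroup p S) (hmeta : IsMulCommutative ↥(commutator S))
    (A : Subgroup S) (hA : A ∈ Cfsg.maxAbelianSubgroups S) :
    ∃ B ∈ Cfsg.maxAbelianSubgroups S, B.Normal ∧ B ≤ Subgroup.normalClosure (A : Set S) := by
  classical
  set W : Subgroup S := ⁅A, (⊤ : Subgroup S)⁆ with hWdef
  have hWle : W ≤ commutator S := Subgroup.commutator_mono le_top le_rfl
  have hWc : ∀ a ∈ W, ∀ b ∈ W, a * b = b * a := fun a ha b hb =>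
    congrArg Subtype.val (hmeta.is_comm.comm (⟨a, hWle ha⟩ : commutator S) ⟨b, hWle hb⟩)
  have hWab : IsMulCommutative W := ⟨⟨fun a b => Subtype.ext (hWc a a.2 b b.2)⟩⟩
  have hAc : ∀ a ∈ A, ∀ b ∈ A, a * b = b * a := fun a ha b hb =>
    congrArg Subtype.val (hA.1.is_comm.comm (⟨a, ha⟩ : A) ⟨b, hb⟩)
  have hcommW : ∀ a ∈ A, ∀ x : S, a * x * a⁻¹ * x⁻¹ ∈ W := fun a ha x =>
    Subgroup.commutator_mem_commutator ha (Subgroup.mem_top x)
  -- W is normal
  have hWn : W.Normal := by
    constructor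
    intro n hn g
    have hW' : W ≤ W.comap (MulAut.conj g).toMonoidHom := by
      rw [hWdef, Subgroup.commutator_le]
      intro a ha x _
      show (MulAut.conj g) (a * x * a⁻¹ * x⁻¹) ∈ W
      have e : (MulAut.conj g) (a * x * a⁻¹ * x⁻¹) =
          (a * g * a⁻¹ * g⁻¹)⁻¹ * (a * (g * x) * a⁻¹ * (g * x)⁻¹) := by
        simp only [MulAut.conj_apply]
        group
      rw [e]
      exact W.mul_mem (W.inv_mem (hcommW a ha g)) (hcommW a ha (g * x))
    exact hW' hn
  set M := Nat.card A * Nat.card ↥(W ⊓ Subgroup.centralizer (A : Set S)) with hM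
  -- least best offender
  have hfin : Set.Finite {E : Subgroup S | E ≤ A ∧
      Nat.card E * Nat.card ↥(W ⊓ Subgroup.centralizer (E : Set S)) = M} := Set.toFinite _
  obtain ⟨E, hEmin⟩ := hfin.exists_minimal ⟨A, le_rfl, rfl⟩
  obtain ⟨⟨hEA, hEM⟩, hEmin⟩ := hEmin
  have hEleast : ∀ F : Subgroup S, F ≤ A →
      Nat.card F * Nat.card ↥(W ⊓ Subgroup.centralizer (F : Set S)) = M → E ≤ F := by
    intro F hF hFM
    have h1 := H14.offender_inf hA hWab hEA hF hEM hFM
    have h2 := hEmin (y := E ⊓ F) ⟨inf_le_left.trans hEA, h1⟩ inf_le_left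
    exact h2.trans inf_le_right
  -- E centralizes each d_x(a)
  have hE_comm : ∀ a ∈ A, ∀ x : S, a * x * a⁻¹ * x⁻¹ ∈ Subgroup.centralizer (E : Set S) := by
    intro a ha x
    let d : S → S := fun a => a * x * a⁻¹ * x⁻¹
    have hdW : ∀ a ∈ A, d a ∈ W := fun a ha => hcommW a ha x
    have hco : ∀ a ∈ A, ∀ b ∈ A, d (a * b) = d a * (a * d b * a⁻¹) := by
      intro a ha b hb
      have h1 : a * d b * a⁻¹ ∈ W := hWn.conj_mem _ (hdW b hb) a
      rw [hWc _ (hdW a ha) _ h1]
      simp only [d]
      group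
    obtain ⟨E', hE'A, _, hdF, hcount⟩ := H14.cocycle_count hAc hWc d hdW hco
    have hbound := H14.offender_bound hA hWab hE'A
    have hEE' : E ≤ E' := hEleast E' hE'A (le_antisymm hbound hcount)
    exact (Subgroup.centralizer_le hEE') (hdF a ha).2
  have hEW : W ≤ Subgroup.centralizer (E : Set S) := by
    rw [hWdef, Subgroup.commutator_le]
    intro a ha x _
    exact hE_comm a ha x
  have hFW : W ⊓ Subgroup.centralizer (E : Set S) = W := inf_eq_left.mpr hEW
  rw [hFW] at hEM
  -- the subgroup B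
  have hEab : IsMulCommutative E := by
    apply H14.isMulCommutative_of_le_centralizer
    exact (hEA.trans (H14.le_centralizer_of_isMulCommutative hA.1)).trans (H14.centralizer_anti hEA)
  have hBab : IsMulCommutative ↥(E ⊔ W) := by
    apply H14.isMulCommutative_sup hEab hWab
    exact Subgroup.le_centralizer_iff.mp hEW
  have hprod := H14.card_mul_card_le E W
  have hinf : Nat.card ↥(E ⊓ W) ≤ Nat.card ↥(W ⊓ Subgroup.centralizer (A : Set S)) := by
    apply Subgroup.card_le_of_le
    rintro y ⟨hy1, hy2⟩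
    exact ⟨hy2, H14.le_centralizer_of_isMulCommutative hA.1 (hEA hy1)⟩
  have hcardB : Nat.card A ≤ Nat.card ↥(E ⊔ W) := by
    have hpos : 0 < Nat.card ↥(W ⊓ Subgroup.centralizer (A : Set S)) := Nat.card_pos
    apply Nat.le_of_mul_le_mul_right _ hpos
    calc Nat.card A * Nat.card ↥(W ⊓ Subgroup.centralizer (A : Set S)) = M := rfl
      _ = Nat.card E * Nat.card W := hEM.symm
      _ ≤ Nat.card ↥(E ⊔ W) * Nat.card ↥(E ⊓ W) := hprod
      _ ≤ Nat.card ↥(E ⊔ W) * Nat.card ↥(W ⊓ Subgroup.centralizer (A : Set S)) :=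
          Nat.mul_le_mul_left _ hinf
  refine ⟨E ⊔ W, ⟨hBab, fun B hB => (hA.2 B hB).trans hcardB⟩, ?_, ?_⟩
  · -- normal
    constructor
    intro n hn g
    have hn' : n ∈ ((E ⊔ W : Subgroup S) : Set S) := hn
    rw [Subgroup.mul_normal] at hn'
    obtain ⟨e, he, w, hw, rfl⟩ := Set.mem_mul.mp hn'
    have e1 : g * (e * w) * g⁻¹ = (e * g * e⁻¹ * g⁻¹)⁻¹ * e * (g * w * g⁻¹) := by group
    rw [e1]
    refine Subgroup.mul_mem _ (Subgroup.mul_mem _ ?_ (Subgroup.mem_sup_left he)) ?_
    · exact Subgroup.mem_sup_right (W.inv_mem (hcommW e (hEA he) g))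
    · exact Subgroup.mem_sup_right (hWn.conj_mem _ hw g)
  · -- inside the normal closure
    apply sup_le
    · exact hEA.trans Subgroup.subset_normalClosure
    · rw [hWdef, Subgroup.commutator_le]
      intro a ha x _
      have h1 : a ∈ Subgroup.normalClosure (A : Set S) := Subgroup.subset_normalClosure ha
      have e : ⁅a, x⁆ = a * (x * a⁻¹ * x⁻¹) := by
        simp only [commutatorElement_def]; group
      rw [e]
      exact Subgroup.mul_mem _ h1 ((Subgroup.normalClosure_normal).conj_mem _ (Subgroup.inv_mem _ h1) x)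

end Cfsg.Agent.S3063
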