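import Mathlib
import Cfsg.Statements.S3064
import Cfsg.Agent.Lib.H01.Frobenius
-- import your own Cfsg.Agent.* helpers here

set_option autoImplicit false
open Cfsg

namespace Cfsg.Agent.S3064

universe u
open scoped Pointwise

theorem central_aux {p : ℕ} [hp : Fact p.Prime] : ∀ (n : ℕ) (G : Type u) [Group G] [Finite G],
    Nat.card G = n → ∀ x : G, (∃ k : ℕ, x ^ p ^ k = 1) →
    (∀ g : G, IsPGroup p (Subgroup.closure {x, g * x * g⁻¹}) → g * x * g⁻¹ = x) →
    (∀ H : Subgroup G, (Nat.card H).Coprime p → (∀ h ∈ H, x * h * x⁻¹ ∈ H) → ∀ h ∈ H, x * h = h * x) →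
    x ∈ Subgroup.center G := by
  intro n
  induction n using Nat.strong_induction_on with
  | _ n ih =>
  intro G _ _ hn x hpx hW hb
  classical
  by_contra hxZ
  set M : Subgroup G := Subgroup.centralizer ({x} : Set G) with hM
  have hMmem : ∀ v, v ∈ M ↔ v * x = x * v := fun v => Subgroup.mem_centralizer_singleton_iff
  have hxM : x ∈ M := (hMmem x).mpr rfl
  -- two conjugates generate
  have hgen : ∀ g, g ∉ M → Subgroup.closure {x, g * x * g⁻¹} = ⊤ := by
    intro g hg
    by_contra hne
    set K := Subgroup.closure {x, g * x * g⁻¹} with hK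
    have hxK : x ∈ K := Subgroup.subset_closure (by simp)
    have hyK : g * x * g⁻¹ ∈ K := Subgroup.subset_closure (by simp)
    have hlt : Nat.card K < n := by
      rw [← hn]
      exact lt_of_le_of_ne (Subgroup.card_le_card_group K)
        (fun e => hne (Subgroup.eq_top_of_card_eq K e))
    obtain ⟨k, hk⟩ := hpx
    have hc := ih _ hlt K rfl ⟨x, hxK⟩ ⟨k, Subtype.ext (by simpa using hk)⟩ ?_ ?_
    · have h1 : Commute x (g * x * g⁻¹) := by
        have := (Subgroup.mem_center_iff.mp hc ⟨_, hyK⟩)
        exact (congrArg Subtype.val this).symm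
      have hcommK : ∀ a ∈ K, ∀ b ∈ K, Commute a b := by
        intro a ha b hb
        have hcomm := Subgroup.isMulCommutative_closure (k := {x, g * x * g⁻¹}) (by
          rintro a (rfl | rfl) b (rfl | rfl)
          · rfl
          · exact h1
          · exact h1.symm
          · rfl)
        have := hcomm.is_comm.comm (⟨a, ha⟩ : K) ⟨b, hb⟩
        exact congrArg Subtype.val this
      have hpow : ∀ a ∈ K, a ^ p ^ k = 1 := by
        intro a ha
        induction ha using Subgroup.closure_induction with
        | mem a ha =>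
          rcases ha with rfl | rfl
          · exact hk
          · rw [conj_pow, hk]
            simp
        | one => simp
        | mul a b ha hb iha ihb => rw [(hcommK a ha b hb).mul_pow, iha, ihb, one_mul]
        | inv a _ iha => rw [inv_pow, iha, inv_one]
      have hKp : IsPGroup p K := fun a => ⟨k, Subtype.ext (by simpa using hpow a.1 a.2)⟩
      have := hW g hKp
      apply hg
      rw [hMmem]
      calc g * x = g * x * g⁻¹ * g := by group
        _ = x * g := by rw [this]
    · -- transfer of the conjugation hypothesis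
      intro g' hg'
      apply Subtype.ext
      refine hW g' ?_
      have h2 : Subgroup.closure ({x, (g' : G) * x * (g' : G)⁻¹} : Set G) =
          (Subgroup.closure ({⟨x, hxK⟩, g' * ⟨x, hxK⟩ * g'⁻¹} : Set K)).map K.subtype := by
        rw [MonoidHom.map_closure, Set.image_pair]
        rfl
      rw [h2]
      exact hg'.map _
    · intro H' hH' hinv h' hh'
      have h2 := hb (H'.map K.subtype) (by
        rwa [Subgroup.card_map_of_injective K.subtype_injective]) (by
          rintro _ ⟨v, hv, rfl⟩
          exact ⟨_, hinv v hv, rfl⟩) h' ⟨h', hh', rfl⟩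
      exact Subtype.ext h2
  -- a Sylow subgroup containing `x` centralizes `x`
  obtain ⟨T, hT⟩ : ∃ T : Sylow p G, x ∈ T := by
    obtain ⟨k, hk⟩ := hpx
    have h1 : IsPGroup p (Subgroup.zpowers x) := by
      refine IsPGroup.of_card (n := (orderOf x).primeFactorsList.length) ?_
      rw [Nat.card_zpowers]
      refine Nat.eq_prime_pow_of_unique_prime_dvd (orderOf_pos x).ne' ?_
      intro d hd hdv
      have := hdv.trans (orderOf_dvd_of_pow_eq_one hk)
      exact (Nat.prime_dvd_prime_iff_eq hd hp.out).mp (hd.dvd_of_dvd_pow this)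
    obtain ⟨T, hT⟩ := h1.exists_le_sylow
    exact ⟨T, hT (Subgroup.mem_zpowers x)⟩
  have hTM : (T : Subgroup G) ≤ M := by
    intro s hs
    have h1 : Subgroup.closure {x, s * x * s⁻¹} ≤ (T : Subgroup G) := by
      rw [Subgroup.closure_le]
      rintro v (rfl | rfl)
      · exact hT
      · exact T.mul_mem (T.mul_mem hs hT) (T.inv_mem hs)
    have h2 := hW s (T.isPGroup'.to_le h1)
    rw [hMmem]
    calc s * x = s * x * s⁻¹ * s := by group
      _ = x * s := by rw [h2]
  -- the quotient by the centre
  let π := QuotientGroup.mk' (Subgroup.center G)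
  have hπ : Function.Surjective π := QuotientGroup.mk'_surjective _
  have hπker : π.ker = Subgroup.center G := QuotientGroup.ker_mk' _
  have hZM : Subgroup.center G ≤ M := fun v hv =>
    (hMmem v).mpr (Subgroup.mem_center_iff.mp hv x).symm
  let Mbar := M.map π
  have hcomap : Mbar.comap π = M := Subgroup.comap_map_eq_self (by rw [hπker]; exact hZM)
  have hMne : M ≠ ⊤ := by
    intro h
    apply hxZ
    rw [Subgroup.mem_center_iff]
    intro g
    have : g ∈ M := by rw [h]; trivial
    exact ((hMmem g).mp this)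
  have hFrob : Cfsg.IsFrobeniusComplement Mbar := by
    refine ⟨?_, ?_, ?_⟩
    · intro h
      apply hxZ
      have : π x = 1 := by
        have h1 : π x ∈ Mbar := ⟨x, hxM, rfl⟩
        rw [h] at h1
        simpa using h1
      rw [← hπker]
      exact this
    · intro h
      apply hMne
      rw [← hcomap, h, Subgroup.comap_top]
    · intro gbar hg
      obtain ⟨g, rfl⟩ := hπ gbar
      have hgM : g ∉ M := fun h => hg ⟨g, h, rfl⟩
      rw [eq_bot_iff]
      intro vbar hv
      obtain ⟨hv1, hv2⟩ := hv
      obtain ⟨v, hvM, rfl⟩ := hv1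
      change π v ∈ MulAut.conj (π g) • Mbar at hv2
      rw [Subgroup.mem_pointwise_smul_iff_inv_smul_mem] at hv2
      have h3 : π (g⁻¹ * v * g) ∈ Mbar := by
        have : (MulAut.conj (π g))⁻¹ • π v = π (g⁻¹ * v * g) := by
          simp [MulAut.smul_def]
        rwa [this] at hv2
      have h4 : g⁻¹ * v * g ∈ M := by
        rw [← hcomap]
        exact h3
      have h5 : Subgroup.closure {x, g * x * g⁻¹} ≤ Subgroup.centralizer ({v} : Set G) := by
        rw [Subgroup.closure_le]
        rintro a (rfl | rfl)
        · have hvM' := (hMmem v).mp hvM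
          exact Subgroup.mem_centralizer_singleton_iff.mpr hvM'.symm
        · have h4' := (hMmem _).mp h4
          refine Subgroup.mem_centralizer_singleton_iff.mpr ?_
          calc g * x * g⁻¹ * v = g * (x * (g⁻¹ * v * g)) * g⁻¹ := by group
            _ = g * ((g⁻¹ * v * g) * x) * g⁻¹ := by rw [h4']
            _ = v * (g * x * g⁻¹) := by group
      rw [hgen g hgM] at h5
      have h6 : v ∈ Subgroup.center G := by
        rw [Subgroup.mem_center_iff]
        intro w
        have := Subgroup.mem_centralizer_singleton_iff.mp (h5 (show w ∈ ⊤ by trivial))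
        exact this
      have : π v = 1 := by
        rw [← MonoidHom.mem_ker, hπker]
        exact h6
      simpa using this
  obtain ⟨N, -, hNnormal, hNcompl⟩ := Cfsg.Agent.H01.frobenius_theorem Mbar hFrob
  have hNp : ¬ p ∣ Nat.card N := by
    rw [← hNcompl.index_eq_card]
    rw [← Subgroup.index_comap_of_surjective _ hπ, hcomap]
    exact fun h => T.not_dvd_index (h.trans (Subgroup.index_dvd_of_le hTM))
  let K : Subgroup G := N.comap π
  haveI hKn : K.Normal := hNnormal.comap π
  have hKM : ∀ g : G, ∃ k ∈ K, ∃ m ∈ M, k * m = g := by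
    intro g
    obtain ⟨⟨n', m'⟩, h⟩ := hNcompl.2 (π g)
    obtain ⟨m, hm, hm'⟩ := m'.2
    refine ⟨g * m⁻¹, ?_, m, hm, by group⟩
    show π (g * m⁻¹) ∈ N
    have : π (g * m⁻¹) = n' := by
      rw [map_mul, map_inv, hm', ← h]
      simp
    rw [this]
    exact n'.2
  -- `p`-elements of `K` are central
  have hKp : ∀ a ∈ K, ∀ k : ℕ, a ^ p ^ k = 1 → a ∈ Subgroup.center G := by
    intro a ha k hk
    rw [← hπker, MonoidHom.mem_ker]
    have h1 : (π a) ^ p ^ k = 1 := by rw [← map_pow, hk, map_one]
    have h2 : orderOf (π a) ∣ p ^ k := orderOf_dvd_of_pow_eq_one h1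
    have h3 : orderOf (π a) ∣ Nat.card N := Subgroup.orderOf_dvd_natCard N ha
    have h4 : (p ^ k).Coprime (Nat.card N) :=
      Nat.Coprime.pow_left _ ((Nat.Prime.coprime_iff_not_dvd hp.out).mpr hNp)
    exact orderOf_eq_one_iff.mp (Nat.eq_one_of_dvd_coprimes h4 h2 h3)
  obtain ⟨A⟩ : Nonempty (Sylow p K) := inferInstance
  have hAc : ∀ a ∈ A, (a : G) ∈ Subgroup.center G := by
    intro a ha
    obtain ⟨k, hk⟩ := A.isPGroup' ⟨a, ha⟩
    refine hKp _ a.2 k ?_
    have := congrArg (fun z : A => ((z : K) : G)) hk
    simpa using this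
  have hAN : Subgroup.normalizer (A : Set K) ≤ Subgroup.centralizer (A : Set K) := by
    intro v _
    rw [Subgroup.mem_centralizer_iff]
    intro a ha
    apply Subtype.ext
    exact (Subgroup.mem_center_iff.mp (hAc a ha) v).symm
  let φ := MonoidHom.transferSylow A hAN
  have hcompl := MonoidHom.ker_transferSylow_isComplement' A hAN
  have hLp := MonoidHom.not_dvd_card_ker_transferSylow A hAN
  let L : Subgroup K := (MonoidHom.transferSylow A hAN).ker
  have hLcop : ∀ v : K, (orderOf v).Coprime p → v ∈ L := by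
    intro v hv
    rw [MonoidHom.mem_ker]
    have h1 : orderOf (MonoidHom.transferSylow A hAN v) ∣ orderOf v := orderOf_map_dvd _ v
    obtain ⟨k, hk⟩ := A.isPGroup' (MonoidHom.transferSylow A hAN v)
    have h2 : orderOf (MonoidHom.transferSylow A hAN v) ∣ p ^ k := orderOf_dvd_of_pow_eq_one hk
    have h3 : (orderOf v).Coprime (p ^ k) := Nat.Coprime.pow_right _ hv
    exact orderOf_eq_one_iff.mp (Nat.eq_one_of_dvd_coprimes h3 h1 h2)
  have hHcomm : ∀ h ∈ L, x * (h : G) = h * x := by
    have h1 := hb (L.map K.subtype) (by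
      rw [Subgroup.card_map_of_injective K.subtype_injective]
      exact ((Nat.Prime.coprime_iff_not_dvd hp.out).mpr hLp).symm) (by
        rintro _ ⟨v, hv, rfl⟩
        have hvK : x * (v : G) * x⁻¹ ∈ K := hKn.conj_mem _ v.2 x
        refine ⟨⟨_, hvK⟩, hLcop _ ?_, rfl⟩
        have h2 : orderOf (⟨_, hvK⟩ : K) = orderOf (v : K) := by
          rw [← Subgroup.orderOf_coe, ← Subgroup.orderOf_coe]
          exact orderOf_injective (MulAut.conj x).toMonoidHom (MulAut.conj x).injective (v : G)
        rw [h2]
        have h3 : orderOf v ∣ Nat.card L := Subgroup.orderOf_dvd_natCard L hv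
        exact Nat.Coprime.coprime_dvd_left h3
          ((Nat.Prime.coprime_iff_not_dvd hp.out).mpr hLp).symm)
    intro h hh
    exact h1 _ ⟨h, hh, rfl⟩
  have hKcomm : ∀ v ∈ K, v ∈ M := by
    intro v hv
    obtain ⟨⟨l, a⟩, hla⟩ := hcompl.2 ⟨v, hv⟩
    have h2 : v = (l : K) * (a : K) := by
      have := congrArg Subtype.val hla
      exact this.symm
    rw [h2, hMmem]
    have h3 := hHcomm (l : K) l.2
    have h4 := (Subgroup.mem_center_iff.mp (hAc a a.2) x)
    calc (l : K) * ((a : K) : G) * x = (l : K) * (((a : K) : G) * x) := by group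
      _ = (l : K) * (x * ((a : K) : G)) := by rw [h4]
      _ = ((l : K) * x) * ((a : K) : G) := by group
      _ = (x * (l : K)) * ((a : K) : G) := by rw [h3]
      _ = x * ((l : K) * ((a : K) : G)) := by group
  apply hMne
  rw [eq_top_iff]
  intro g _
  obtain ⟨k, hk, m, hm, rfl⟩ := hKM g
  exact M.mul_mem (hKcomm k hk) hm

/-- Let S be a Sylow p-subgroup of the finite group G and x an element of S such that (i) x is the only G-conjugate of x lying in S, and (ii) x centralizes every subgroup of order prime to p that it normalizes. Then x lies in the centre of G. -/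
theorem result {G : Type*} [Group G] [Finite G] {p : ℕ} [Fact p.Prime]
    (S : Sylow p G) (x : G) (hx : x ∈ S)
    (hU : ∀ g : G, g⁻¹ * x * g ∈ S → g⁻¹ * x * g = x)
    (hb : ∀ H : Subgroup G, (Nat.card H).Coprime p → (∀ h ∈ H, x * h * x⁻¹ ∈ H) → ∀ h ∈ H, x * h = h * x) :
    x ∈ Subgroup.center G := by
  refine central_aux _ G rfl x ?_ ?_ hb
  · obtain ⟨k, hk⟩ := S.isPGroup' ⟨x, hx⟩
    exact ⟨k, by simpa using congrArg Subtype.val hk⟩
  · intro g hg
    obtain ⟨T, hT⟩ := hg.exists_le_sylow
    obtain ⟨h, rfl⟩ := MulAction.exists_smul_eq G S T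
    have h1 : x ∈ h • S := hT (Subgroup.subset_closure (by simp))
    have h2 : g * x * g⁻¹ ∈ h • S := hT (Subgroup.subset_closure (by simp))
    have hmem : ∀ v, v ∈ h • S → h⁻¹ * v * h ∈ S := by
      intro v hv
      have : v ∈ ((h • S : Sylow p G) : Subgroup G) := hv
      rw [Sylow.coe_subgroup_smul, Subgroup.mem_pointwise_smul_iff_inv_smul_mem] at this
      have h0 : h⁻¹ * v * h ∈ (S : Subgroup G) := by simpa [MulAut.smul_def] using this
      exact h0
    have h3 := hU h (hmem _ h1)
    have h4 := hU (g⁻¹ * h) (by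
      have := hmem _ h2
      simpa [mul_assoc] using this)
    have h5 : h⁻¹ * (g * x * g⁻¹) * h = h⁻¹ * x * h := by
      rw [h3]
      simpa [mul_assoc] using h4
    exact mul_right_cancel (mul_left_cancel (a := h⁻¹) (by simpa [mul_assoc] using h5))

end Cfsg.Agent.S3064
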