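import Mathlib
import Cfsg.Statements.S3069
import Cfsg.Agent.Lib.H09.KNorm
import Cfsg.Agent.Lib.H09.KTrans
-- import your own Cfsg.Agent.* helpers here

set_option autoImplicit false
open Cfsg

namespace Cfsg.Agent.S3069


/-- Let p ≥ 7 be a prime and S a nontrivial Sylow p-subgroup of the finite group G. If N_G(S)/C_G(S) is a p-group (every element of N_G(S) of order prime to p centralizes S), then O^p(G) < G, i.e. G has a nontrivial p-factor group. -/
theorem result {G : Type*} [Group G] [Finite G] {p : ℕ} [Fact p.Prime]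
    (hp : 7 ≤ p) (S : Sylow p G) (hS : (S : Subgroup G) ≠ ⊥)
    (hN : ∀ g ∈ Subgroup.normalizer ((S : Subgroup G) : Set G), (orderOf g).Coprime p →
      g ∈ Subgroup.centralizer ((S : Subgroup G) : Set G)) :
    Cfsg.pResidual p G ≠ ⊤ := by
  have hp5 : 5 ≤ p := by omega
  obtain ⟨N, hNn, hNi⟩ := Cfsg.Agent.H09.exists_index_of_control (G := G) Cfsg.kInfLower
    (Cfsg.Agent.H09.isCharPFunctor_kInfLower p)
    (fun K R _ => Cfsg.Agent.H09.kinf_transfer_lower hp5 _) S hS hN
  have hp' : p.Prime := Fact.out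
  have hle : Cfsg.pResidual p G ≤ N := by
    unfold Cfsg.pResidual
    rw [Subgroup.closure_le]
    intro g hg
    have hg' : (orderOf g).Coprime p := hg
    haveI := hNn
    have h1 : (g : G ⧸ N) ^ p = 1 := by
      have h2 : (g : G ⧸ N) ^ Nat.card (G ⧸ N) = 1 := pow_card_eq_one'
      have h3 : Nat.card (G ⧸ N) = p := hNi
      rwa [h3] at h2
    have h4 : g ^ p ∈ N := by
      rw [← QuotientGroup.eq_one_iff, QuotientGroup.mk_pow]
      exact h1
    obtain ⟨t, ht⟩ := exists_pow_eq_self_of_coprime (n := p) (x := g) hg'.symm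
    rw [← ht]
    exact N.pow_mem h4 t
  intro htop
  rw [htop] at hle
  have h1 : N = ⊤ := top_le_iff.mp hle
  rw [h1, Subgroup.index_top] at hNi
  exact hp'.one_lt.ne hNi

end Cfsg.Agent.S3069
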