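import Mathlib
import Cfsg.Statements.S3073
import Cfsg.Agent.Lib.H14.CharK
-- import your own Cfsg.Agent.* helpers here

set_option autoImplicit false
universe u
open Cfsg

namespace Cfsg.Agent.S3073


/-- For an odd prime p, every finite p-group S has a characteristic subgroup K with C_S(K) ≤ K such that, whenever S is (isomorphic to) a Sylow p-subgroup of a finite group G, G has a normal p-complement if and only if N_G(K)/C_G(K) is a p-group, i.e. every element of N_G(K) of order prime to p centralizes K (K transported into G along the isomorphism). -/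
theorem result (p : ℕ) [Fact p.Prime] (hp : p ≠ 2)
    (S : Type u) [Group S] [Finite S] (hS : IsPGroup p S) :
    ∃ K : Subgroup S, K.Characteristic ∧ Subgroup.centralizer (K : Set S) ≤ K ∧
      ∀ (G : Type u) [Group G] [Finite G] (P : Sylow p G) (e : ↥(P : Subgroup G) ≃* S),
        Cfsg.HasNormalPComplement p G ↔
          ∀ g ∈ Subgroup.normalizer (((K.comap (e : ↥(P : Subgroup G) →* S)).map (P : Subgroup G).subtype : Subgroup G) : Set G),
            (orderOf g).Coprime p →
              g ∈ Subgroup.centralizer (((K.comap (e : ↥(P : Subgroup G) →* S)).map (P : Subgroup G).subtype : Subgroup G) : Set G) := by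
  obtain ⟨K, hc, hcen, hpsi⟩ := Cfsg.Agent.H14.exists_K hp _ S rfl hS
  refine ⟨K, hc, hcen, ?_⟩
  intro G _ _ P e
  let f : S →* G := (P : Subgroup G).subtype.comp e.symm.toMonoidHom
  have hf : Function.Injective f := (P : Subgroup G).subtype_injective.comp e.symm.injective
  have hr : f.range = (P : Subgroup G) := by
    ext x
    constructor
    · rintro ⟨y, rfl⟩
      exact (e.symm y).2
    · intro hx
      exact ⟨e ⟨x, hx⟩, by simp [f]⟩
  have hmap : K.map f = (K.comap (e : ↥(P : Subgroup G) →* S)).map (P : Subgroup G).subtype := by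
    ext x
    constructor
    · rintro ⟨y, hy, rfl⟩
      refine ⟨e.symm y, ?_, rfl⟩
      change e (e.symm y) ∈ K
      simpa using hy
    · rintro ⟨y, hy, rfl⟩
      refine ⟨e y, hy, ?_⟩
      simp [f]
  rw [← hmap]
  constructor
  · intro h g hg hgc
    have hT : IsPGroup p (K.map f) := by
      refine P.isPGroup'.to_le ?_
      rw [← hr]
      rintro _ ⟨x, _, rfl⟩
      exact ⟨x, rfl⟩
    exact Cfsg.Agent.H13.frobCond_of_hasNormalPComplement h _ hT g hg hgc
  · intro h
    refine Cfsg.Agent.H13.hasNormalPComplement_of_frobCond (hpsi G f hf ?_ h)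
    rw [hr]
    exact P.not_dvd_index

end Cfsg.Agent.S3073
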