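import Mathlib
import Cfsg.Statements.S3074
import Cfsg.Agent.Lib.H12.Qd2
import Cfsg.Agent.Lib.H18.Special
-- import your own Cfsg.Agent.* helpers here

set_option autoImplicit false
open Cfsg

namespace Cfsg.Agent.S3074

open Cfsg.Agent.H12.Qd

lemma pow_coords {F : Type*} [Field F] (x : Cfsg.qdOver F) (hx : x ∈ (S0 : Subgroup (Cfsg.qdOver F))) (n : ℕ) :
    x ^ n ∈ (S0 : Subgroup (Cfsg.qdOver F)) ∧
    ((x ^ n).1 : Matrix (Fin 3) (Fin 3) F) 0 1 = n * (x.1 : Matrix (Fin 3) (Fin 3) F) 0 1 ∧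
    ((x ^ n).1 : Matrix (Fin 3) (Fin 3) F) 1 2 = n * (x.1 : Matrix (Fin 3) (Fin 3) F) 1 2 ∧
    ((x ^ n).1 : Matrix (Fin 3) (Fin 3) F) 0 2 = n * (x.1 : Matrix (Fin 3) (Fin 3) F) 0 2 +
      (n.choose 2 : ℕ) * ((x.1 : Matrix (Fin 3) (Fin 3) F) 0 1 * (x.1 : Matrix (Fin 3) (Fin 3) F) 1 2) := by
  induction n with
  | zero => simp [Matrix.one_apply]
  | succ n ih =>
    obtain ⟨h0, h1, h2, h3⟩ := ih
    obtain ⟨k1, k2, k3⟩ := coords_mul h0 hx
    rw [pow_succ]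
    refine ⟨mul_mem h0 hx, ?_, ?_, ?_⟩
    · rw [k1, h1]; push_cast; ring
    · rw [k2, h2]; push_cast; ring
    · rw [k3, h3, h1, Nat.choose_succ_succ' n 1, Nat.choose_one_right]; push_cast; ring

section
variable {F : Type*} [Field F]

/-- coordinates determine the elements of `S0` -/
lemma ext_coords {x y : Cfsg.qdOver F} (hx : x ∈ (S0 : Subgroup (Cfsg.qdOver F)))
    (hy : y ∈ (S0 : Subgroup (Cfsg.qdOver F)))
    (h1 : (x.1 : Matrix (Fin 3) (Fin 3) F) 0 1 = (y.1 : Matrix (Fin 3) (Fin 3) F) 0 1)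
    (h2 : (x.1 : Matrix (Fin 3) (Fin 3) F) 1 2 = (y.1 : Matrix (Fin 3) (Fin 3) F) 1 2)
    (h3 : (x.1 : Matrix (Fin 3) (Fin 3) F) 0 2 = (y.1 : Matrix (Fin 3) (Fin 3) F) 0 2) : x = y := by
  rw [eq_heis hx, eq_heis hy, h1, h2, h3]

lemma coords_inv {x : Cfsg.qdOver F} (hx : x ∈ (S0 : Subgroup (Cfsg.qdOver F))) :
    ((x⁻¹).1 : Matrix (Fin 3) (Fin 3) F) 0 1 = - (x.1 : Matrix (Fin 3) (Fin 3) F) 0 1 ∧
    ((x⁻¹).1 : Matrix (Fin 3) (Fin 3) F) 1 2 = - (x.1 : Matrix (Fin 3) (Fin 3) F) 1 2 := by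
  obtain ⟨k1, k2, _⟩ := coords_mul hx (inv_mem hx)
  rw [mul_inv_cancel] at k1 k2
  have e1 : ((1 : Cfsg.qdOver F).1 : Matrix (Fin 3) (Fin 3) F) 0 1 = 0 := by simp [Matrix.one_apply]
  have e2 : ((1 : Cfsg.qdOver F).1 : Matrix (Fin 3) (Fin 3) F) 1 2 = 0 := by simp [Matrix.one_apply]
  rw [e1] at k1
  rw [e2] at k2
  constructor
  · linear_combination -k1
  · linear_combination -k2

lemma mem_center_iff_coords (x : (S0 : Subgroup (Cfsg.qdOver F))) :
    x ∈ Subgroup.center (S0 : Subgroup (Cfsg.qdOver F)) ↔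
      (x.1.1 : Matrix (Fin 3) (Fin 3) F) 0 1 = 0 ∧ (x.1.1 : Matrix (Fin 3) (Fin 3) F) 1 2 = 0 := by
  constructor
  · intro hx
    have hc := fun y => (Subgroup.mem_center_iff.mp hx) y
    constructor
    · have h := hc ⟨heis 0 1 0, heis_mem _ _ _⟩
      have h1 : ((heis (0 : F) 1 0 * x.1).1 : Matrix (Fin 3) (Fin 3) F) 0 2 = ((x.1 * heis (0 : F) 1 0).1 : Matrix (Fin 3) (Fin 3) F) 0 2 :=
        congrArg (fun z : (S0 : Subgroup (Cfsg.qdOver F)) => (z.1.1 : Matrix (Fin 3) (Fin 3) F) 0 2) h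
      have e1 := (coords_mul (heis_mem (0 : F) 1 0) x.2).2.2
      have e2 := (coords_mul x.2 (heis_mem (0 : F) 1 0)).2.2
      rw [e1, e2] at h1
      simp only [heis_00, heis_01, heis_02, heis_12] at h1
      linear_combination -h1
    · have h := hc ⟨heis 1 0 0, heis_mem _ _ _⟩
      have h1 : ((heis (1 : F) 0 0 * x.1).1 : Matrix (Fin 3) (Fin 3) F) 0 2 = ((x.1 * heis (1 : F) 0 0).1 : Matrix (Fin 3) (Fin 3) F) 0 2 :=
        congrArg (fun z : (S0 : Subgroup (Cfsg.qdOver F)) => (z.1.1 : Matrix (Fin 3) (Fin 3) F) 0 2) h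
      have e1 := (coords_mul (heis_mem (1 : F) 0 0) x.2).2.2
      have e2 := (coords_mul x.2 (heis_mem (1 : F) 0 0)).2.2
      rw [e1, e2] at h1
      simp only [heis_00, heis_01, heis_02, heis_12] at h1
      linear_combination h1
  · rintro ⟨h1, h2⟩
    rw [Subgroup.mem_center_iff]
    intro y
    apply Subtype.ext
    apply ext_coords (mul_mem y.2 x.2) (mul_mem x.2 y.2)
    · rw [(coords_mul y.2 x.2).1, (coords_mul x.2 y.2).1]; ring
    · rw [(coords_mul y.2 x.2).2.1, (coords_mul x.2 y.2).2.1]; ring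
    · rw [(coords_mul y.2 x.2).2.2, (coords_mul x.2 y.2).2.2, h1, h2]; ring

/-- coordinates as an equivalence -/
def s0Equiv : (F × F × F) ≃ (S0 : Subgroup (Cfsg.qdOver F)) where
  toFun t := ⟨heis t.1 t.2.1 t.2.2, heis_mem _ _ _⟩
  invFun x := ((x.1.1 : Matrix (Fin 3) (Fin 3) F) 0 1, (x.1.1 : Matrix (Fin 3) (Fin 3) F) 1 2,
    (x.1.1 : Matrix (Fin 3) (Fin 3) F) 0 2)
  left_inv t := by
    rcases t with ⟨a, b, c⟩
    rfl
  right_inv x := by
    apply Subtype.ext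
    exact (eq_heis x.2).symm

/-- the centre in coordinates -/
def centerEquiv : F ≃ Subgroup.center (S0 : Subgroup (Cfsg.qdOver F)) where
  toFun c := ⟨⟨heis 0 0 c, heis_mem _ _ _⟩, (mem_center_iff_coords _).2 ⟨rfl, rfl⟩⟩
  invFun x := (x.1.1.1 : Matrix (Fin 3) (Fin 3) F) 0 2
  left_inv c := rfl
  right_inv x := by
    apply Subtype.ext
    apply Subtype.ext
    have h := (mem_center_iff_coords x.1).1 x.2
    have h2 := eq_heis x.1.2
    rw [h.1, h.2] at h2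
    exact h2.symm

end


/-- Let p be an odd prime. A Sylow p-subgroup of Qd(p), the split extension of an elementary abelian group of order p² by SL₂(p) acting naturally, is extraspecial of order p³ and exponent p. -/
theorem result (p : ℕ) [Fact p.Prime] (hp : p ≠ 2) (P : Sylow p ↥(Cfsg.qd p)) :
    Cfsg.IsExtraspecial p ↥P ∧ Nat.card P = p ^ 3 ∧ Monoid.exponent ↥P = p := by
  classical
  have hp3 : 2 < p := lt_of_le_of_ne (Fact.out : p.Prime).two_le (Ne.symm hp)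
  let S : Sylow p (Cfsg.qdOver (ZMod p)) := S0Sylow p
  let T := (S0 : Subgroup (Cfsg.qdOver (ZMod p)))
  have hTp : IsPGroup p T := S.isPGroup'
  have hcard : Nat.card T = p ^ 3 := by
    rw [← Nat.card_congr (s0Equiv (F := ZMod p))]
    simp only [Nat.card_prod, Nat.card_zmod]
    ring
  have hcen : Nat.card (Subgroup.center T) = p := by
    rw [← Nat.card_congr (centerEquiv (F := ZMod p)), Nat.card_zmod]
  have hpow1 : ∀ x : T, x ^ p = 1 := by
    intro x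
    apply Subtype.ext
    obtain ⟨h0, h1, h2, h3⟩ := pow_coords x.1 x.2 p
    have hch : (p.choose 2 : ZMod p) = 0 := by
      rw [ZMod.natCast_eq_zero_iff]
      exact (Fact.out : p.Prime).dvd_choose_self (by norm_num) hp3
    have hp0 : ((p : ℕ) : ZMod p) = 0 := ZMod.natCast_self p
    apply ext_coords h0 (one_mem _)
    · rw [h1, hp0, zero_mul]; simp [Matrix.one_apply]
    · rw [h2, hp0, zero_mul]; simp [Matrix.one_apply]
    · rw [h3, hp0, hch, zero_mul, zero_mul, zero_add]; simp [Matrix.one_apply]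
  have hcomm : ∀ x y : T, x * y * x⁻¹ * y⁻¹ ∈ Subgroup.center T := by
    intro x y
    rw [mem_center_iff_coords]
    have hx := x.2
    have hy := y.2
    have hxi := coords_inv hx
    have hyi := coords_inv hy
    constructor
    · change (((x : Cfsg.qdOver (ZMod p)) * y * (x : Cfsg.qdOver (ZMod p))⁻¹ * (y : Cfsg.qdOver (ZMod p))⁻¹).1 : Matrix (Fin 3) (Fin 3) (ZMod p)) 0 1 = 0
      rw [(coords_mul (mul_mem (mul_mem hx hy) (inv_mem hx)) (inv_mem hy)).1,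
        (coords_mul (mul_mem hx hy) (inv_mem hx)).1, (coords_mul hx hy).1, hxi.1, hyi.1]
      ring
    · change (((x : Cfsg.qdOver (ZMod p)) * y * (x : Cfsg.qdOver (ZMod p))⁻¹ * (y : Cfsg.qdOver (ZMod p))⁻¹).1 : Matrix (Fin 3) (Fin 3) (ZMod p)) 1 2 = 0
      rw [(coords_mul (mul_mem (mul_mem hx hy) (inv_mem hx)) (inv_mem hy)).2.1,
        (coords_mul (mul_mem hx hy) (inv_mem hx)).2.1, (coords_mul hx hy).2.1, hxi.2, hyi.2]
      ring
  have hne : ∃ x y : T, x * y * x⁻¹ * y⁻¹ ≠ 1 := by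
    refine ⟨⟨heis 1 0 0, heis_mem _ _ _⟩, ⟨heis 0 1 0, heis_mem _ _ _⟩, ?_⟩
    intro h
    have h1 : (⟨heis 1 0 0, heis_mem _ _ _⟩ : T) * ⟨heis 0 1 0, heis_mem _ _ _⟩ =
        ⟨heis 0 1 0, heis_mem _ _ _⟩ * ⟨heis 1 0 0, heis_mem _ _ _⟩ := by
      rw [mul_inv_eq_one, mul_inv_eq_iff_eq_mul] at h
      exact h
    have h2 : ((heis (1 : ZMod p) 0 0 * heis (0 : ZMod p) 1 0).1 : Matrix (Fin 3) (Fin 3) (ZMod p)) 0 2 = ((heis (0 : ZMod p) 1 0 * heis (1 : ZMod p) 0 0).1 : Matrix (Fin 3) (Fin 3) (ZMod p)) 0 2 :=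
      congrArg (fun z : T => (z.1.1 : Matrix (Fin 3) (Fin 3) (ZMod p)) 0 2) h1
    rw [(coords_mul (heis_mem (1 : ZMod p) 0 0) (heis_mem (0 : ZMod p) 1 0)).2.2,
      (coords_mul (heis_mem (0 : ZMod p) 1 0) (heis_mem (1 : ZMod p) 0 0)).2.2] at h2
    simp only [heis_01, heis_02, heis_12] at h2
    norm_num at h2
  let e : T ≃* ↥P := Sylow.equiv S P
  refine ⟨Cfsg.Agent.H18.isExtraspecial_of_equiv e hTp hcen
    (fun x => by rw [hpow1]; exact one_mem _) hcomm hne, ?_, ?_⟩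
  · exact (Nat.card_congr e.toEquiv).symm.trans hcard
  · rw [← Monoid.exponent_eq_of_mulEquiv e]
    haveI : Nontrivial T := by
      obtain ⟨x, y, h⟩ := hne
      refine ⟨⟨x * y * x⁻¹ * y⁻¹, 1, h⟩⟩
    exact (Monoid.exponent_eq_prime_iff (Fact.out : p.Prime)).mpr (fun g hg => orderOf_eq_prime (hpow1 g) hg)

end Cfsg.Agent.S3074
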