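import Mathlib
import Cfsg.Statements.S3075
import Cfsg.Agent.Lib.H14.SplitInv
-- import your own Cfsg.Agent.* helpers here

set_option autoImplicit false
open Cfsg

namespace Cfsg.Agent.S3075


/-- Let p be an odd prime and N a finite group with a normal elementary abelian subgroup A of order p² that is its own centralizer in N, such that N/A is isomorphic to SL₂(p) (over any field F with p elements). Then N splits over A: some subgroup U of N satisfies A ∩ U = 1 and AU = N. -/
theorem result {N : Type*} [Group N] [Finite N] {p : ℕ} [Fact p.Prime] (hp : p ≠ 2)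
    (A : Subgroup N) [A.Normal] (hAcomm : IsMulCommutative A) (hAcard : Nat.card A = p ^ 2) (hAexp : Monoid.exponent ↥A = p)
    (hAself : Subgroup.centralizer (A : Set N) = A)
    {F : Type*} [Field F] [Fintype F] (hF : Fintype.card F = p) (e : N ⧸ A ≃* Matrix.SpecialLinearGroup (Fin 2) F) :
    ∃ U : Subgroup N, A ⊓ U = ⊥ ∧ A ⊔ U = ⊤ := by
  classical
  have hpp : p.Prime := Fact.out
  have hchar : ringChar F ≠ 2 := by
    intro h
    have h1 := FiniteField.even_card_iff_char_two.mp h
    rw [hF] at h1
    have := (hpp.odd_of_ne_two hp)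
    rw [Nat.odd_iff] at this
    omega
  have hneg : (-1 : F) ≠ 1 := Ring.neg_one_ne_one_of_char_ne_two hchar
  let zz : Matrix.SpecialLinearGroup (Fin 2) F := ⟨!![-1, 0; 0, -1], by simp [Matrix.det_fin_two]⟩
  let U : Matrix.SpecialLinearGroup (Fin 2) F := ⟨!![1, 1; 0, 1], by simp [Matrix.det_fin_two]⟩
  let L : Matrix.SpecialLinearGroup (Fin 2) F := ⟨!![1, 0; 1, 1], by simp [Matrix.det_fin_two]⟩
  have hzzc : ∀ g, zz * g = g * zz := by
    intro g
    apply Matrix.SpecialLinearGroup.ext
    intro i j
    change (zz.1 * g.1) i j = (g.1 * zz.1) i j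
    fin_cases i <;> fin_cases j <;> simp [zz, Matrix.mul_apply, Fin.sum_univ_two]
  have hzz1 : zz ≠ 1 := by
    intro h
    have := congrArg (fun g : Matrix.SpecialLinearGroup (Fin 2) F => g.1 0 0) h
    simp [zz] at this
    exact hneg this
  have hzz2 : zz ^ 2 = 1 := by
    apply Matrix.SpecialLinearGroup.ext
    intro i j
    rw [pow_two]
    change (zz.1 * zz.1) i j = (1 : Matrix (Fin 2) (Fin 2) F) i j
    fin_cases i <;> fin_cases j <;> simp [zz, Matrix.mul_apply, Fin.sum_univ_two]
  have hUL : U * L ≠ L * U := by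
    intro h
    have := congrArg (fun g : Matrix.SpecialLinearGroup (Fin 2) F => g.1 0 0) h
    change (U.1 * L.1) 0 0 = (L.1 * U.1) 0 0 at this
    simp [U, L, Matrix.mul_apply, Fin.sum_univ_two] at this
  refine H14.split_of_central_involution hp A ?_ hAcard ?_ hAself ?_ (e.symm zz) ?_ ?_ ?_
  · intro a ha b hb
    have := hAcomm.is_comm.comm ⟨a, ha⟩ ⟨b, hb⟩
    exact congrArg Subtype.val this
  · intro a ha
    have h1 : (⟨a, ha⟩ : A) ^ Monoid.exponent ↥A = 1 := Monoid.pow_exponent_eq_one _
    rw [hAexp] at h1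
    simpa using congrArg Subtype.val h1
  · refine ⟨e.symm U, e.symm L, fun h => hUL ?_⟩
    have := congrArg e h
    simpa using this
  · rw [Subgroup.mem_center_iff]
    intro g
    apply e.injective
    simp [hzzc (e g)]
  · intro h
    apply hzz1
    have := congrArg e h
    simpa using this
  · rw [← map_pow, hzz2, map_one]

end Cfsg.Agent.S3075
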