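import Mathlib
import Cfsg.Statements.S3078
import Cfsg.Agent.Lib.H14.Basic
-- import your own Cfsg.Agent.* helpers here

set_option autoImplicit false
open Cfsg

namespace Cfsg.Agent.S3078

open scoped commutatorElement

section Class2
variable {G : Type*} [Group G]

/-- `H` has class at most two with commutators in the central subgroup `C`. -/
structure C2 (H C : Subgroup G) : Prop where
  hz : ∀ c ∈ C, ∀ g ∈ H, c * g = g * c
  hcc : ∀ g ∈ H, ∀ h ∈ H, ⁅g, h⁆ ∈ C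

variable {H C : Subgroup G}

lemma comm_mem_H {g h : G} (hg : g ∈ H) (hh : h ∈ H) : ⁅g, h⁆ ∈ H := by
  rw [commutatorElement_def]
  exact H.mul_mem (H.mul_mem (H.mul_mem hg hh) (H.inv_mem hg)) (H.inv_mem hh)

lemma C2.central (hc : C2 H C) {g h k : G} (hg : g ∈ H) (hh : h ∈ H) (hk : k ∈ H) :
    Commute ⁅g, h⁆ k := hc.hz _ (hc.hcc g hg h hh) k hk

lemma C2.mul_left (hc : C2 H C) {g₁ g₂ h : G} (h1 : g₁ ∈ H) (h2 : g₂ ∈ H) (hh : h ∈ H) :
    ⁅g₁ * g₂, h⁆ = ⁅g₁, h⁆ * ⁅g₂, h⁆ := by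
  have e1 : g₁ * ⁅g₂, h⁆ * g₁⁻¹ = ⁅g₂, h⁆ := by
    rw [← (hc.central h2 hh h1).eq]
    group
  have e2 : ⁅g₁ * g₂, h⁆ = (g₁ * ⁅g₂, h⁆ * g₁⁻¹) * ⁅g₁, h⁆ := by
    simp only [commutatorElement_def]
    group
  rw [e2, e1]
  exact (hc.central h2 hh (comm_mem_H h1 hh)).eq

lemma C2.mul_right (hc : C2 H C) {g h₁ h₂ : G} (hg : g ∈ H) (h1 : h₁ ∈ H) (h2 : h₂ ∈ H) :
    ⁅g, h₁ * h₂⁆ = ⁅g, h₁⁆ * ⁅g, h₂⁆ := by
  have e1 : h₁ * ⁅g, h₂⁆ * h₁⁻¹ = ⁅g, h₂⁆ := by
    rw [← (hc.central hg h2 h1).eq]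
    group
  have e2 : ⁅g, h₁ * h₂⁆ = ⁅g, h₁⁆ * (h₁ * ⁅g, h₂⁆ * h₁⁻¹) := by
    simp only [commutatorElement_def]
    group
  rw [e2, e1]

lemma C2.inv_left (hc : C2 H C) {g h : G} (hg : g ∈ H) (hh : h ∈ H) :
    ⁅g⁻¹, h⁆ = ⁅g, h⁆⁻¹ := by
  have e1 := hc.mul_left (H.inv_mem hg) hg hh
  rw [inv_mul_cancel, commutatorElement_one_left] at e1
  exact eq_inv_of_mul_eq_one_left e1.symm

lemma C2.inv_right (hc : C2 H C) {g h : G} (hg : g ∈ H) (hh : h ∈ H) :
    ⁅g, h⁻¹⁆ = ⁅g, h⁆⁻¹ := by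
  have e1 := hc.mul_right hg (H.inv_mem hh) hh
  rw [inv_mul_cancel, commutatorElement_one_right] at e1
  exact eq_inv_of_mul_eq_one_left e1.symm

lemma C2.pow_right (hc : C2 H C) {g h : G} (hg : g ∈ H) (hh : h ∈ H) (n : ℕ) :
    ⁅g, h ^ n⁆ = ⁅g, h⁆ ^ n := by
  induction n with
  | zero => simp
  | succ n ih =>
    rw [pow_succ, hc.mul_right hg (H.pow_mem hh n) hh, ih, pow_succ]

lemma C2.pow_left (hc : C2 H C) {g h : G} (hg : g ∈ H) (hh : h ∈ H) (n : ℕ) :
    ⁅g ^ n, h⁆ = ⁅g, h⁆ ^ n := by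
  induction n with
  | zero => simp
  | succ n ih =>
    rw [pow_succ, hc.mul_left (H.pow_mem hg n) hg hh, ih, pow_succ]

lemma C2.mul_pow' (hc : C2 H C) {g h : G} (hg : g ∈ H) (hh : h ∈ H) (n : ℕ) :
    (g * h) ^ n = g ^ n * h ^ n * ⁅h, g⁆ ^ (n.choose 2) := by
  induction n with
  | zero => simp
  | succ n ih =>
    have hκn : ∀ m : ℕ, ∀ k ∈ H, Commute (⁅h, g⁆ ^ m) k :=
      fun m k hk => (hc.central hh hg hk).pow_left m
    have e1 : h ^ n * g = ⁅h, g⁆ ^ n * g * h ^ n := by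
      rw [← hc.pow_left hh hg n]
      simp only [commutatorElement_def]
      group
    have e2 : (n + 1).choose 2 = n + n.choose 2 := by
      rw [Nat.choose_succ_succ' n 1, Nat.choose_one_right]
    rw [pow_succ (g * h) n, ih, e2, pow_add ⁅h, g⁆ n, pow_succ g n, pow_succ h n]
    calc g ^ n * h ^ n * ⁅h, g⁆ ^ n.choose 2 * (g * h)
        = g ^ n * h ^ n * (⁅h, g⁆ ^ n.choose 2 * (g * h)) := by rw [mul_assoc]
      _ = g ^ n * h ^ n * ((g * h) * ⁅h, g⁆ ^ n.choose 2) := by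
          rw [(hκn _ (g * h) (H.mul_mem hg hh)).eq]
      _ = g ^ n * (h ^ n * g) * h * ⁅h, g⁆ ^ n.choose 2 := by simp only [mul_assoc]
      _ = g ^ n * (⁅h, g⁆ ^ n * g * h ^ n) * h * ⁅h, g⁆ ^ n.choose 2 := by rw [e1]
      _ = (g ^ n * ⁅h, g⁆ ^ n) * (g * h ^ n * h) * ⁅h, g⁆ ^ n.choose 2 := by simp only [mul_assoc]
      _ = (⁅h, g⁆ ^ n * g ^ n) * (g * h ^ n * h) * ⁅h, g⁆ ^ n.choose 2 := by
          rw [(hκn n (g ^ n) (H.pow_mem hg n)).eq]
      _ = ⁅h, g⁆ ^ n * (g ^ n * g * (h ^ n * h)) * ⁅h, g⁆ ^ n.choose 2 := by simp only [mul_assoc]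
      _ = (g ^ n * g * (h ^ n * h)) * ⁅h, g⁆ ^ n * ⁅h, g⁆ ^ n.choose 2 := by
          rw [(hκn n (g ^ n * g * (h ^ n * h))
            (H.mul_mem (H.mul_mem (H.pow_mem hg n) hg) (H.mul_mem (H.pow_mem hh n) hh))).eq]
      _ = g ^ n * g * (h ^ n * h) * (⁅h, g⁆ ^ n * ⁅h, g⁆ ^ n.choose 2) := by simp only [mul_assoc]

/-- A finite union-of-generators version: commutators of `A ⊔ A'` land in `C`. -/
lemma comm_sup {A A' : Subgroup G} {C : Subgroup G}
    (hz : ∀ c ∈ C, ∀ g ∈ A ⊔ A', c * g = g * c)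
    (h0 : ∀ g ∈ A, ∀ h ∈ A', ⁅g, h⁆ ∈ C) (hA : ∀ g ∈ A, ∀ h ∈ A, ⁅g, h⁆ ∈ C)
    (hA' : ∀ g ∈ A', ∀ h ∈ A', ⁅g, h⁆ ∈ C) :
    ∀ g ∈ A ⊔ A', ∀ h ∈ A ⊔ A', ⁅g, h⁆ ∈ C := by
  -- the stabilising subgroup
  have hsub : ∀ h : G, (∀ t ∈ A, ⁅t, h⁆ ∈ C) → (∀ t ∈ A', ⁅t, h⁆ ∈ C) → ∀ g ∈ A ⊔ A', ⁅g, h⁆ ∈ C := by
    intro h h1 h2 g hg
    let S : Subgroup G :=
      { carrier := {g | g ∈ A ⊔ A' ∧ ⁅g, h⁆ ∈ C}
        mul_mem' := by
          rintro a b ⟨ha, ha'⟩ ⟨hb, hb'⟩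
          refine ⟨(A ⊔ A').mul_mem ha hb, ?_⟩
          have e1 : a * ⁅b, h⁆ * a⁻¹ = ⁅b, h⁆ := by
            rw [← hz _ hb' a ha]
            group
          have e2 : ⁅a * b, h⁆ = (a * ⁅b, h⁆ * a⁻¹) * ⁅a, h⁆ := by
            simp only [commutatorElement_def]
            group
          rw [e2, e1]
          exact C.mul_mem hb' ha'
        one_mem' := ⟨(A ⊔ A').one_mem, by simp [C.one_mem]⟩
        inv_mem' := by
          rintro a ⟨ha, ha'⟩
          refine ⟨(A ⊔ A').inv_mem ha, ?_⟩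
          have e1 : a⁻¹ * ⁅a, h⁆ * a = ⁅a, h⁆ := by
            rw [← hz _ ha' _ ((A ⊔ A').inv_mem ha)]
            group
          have e2 : ⁅a⁻¹, h⁆ = (a⁻¹ * ⁅a, h⁆ * a)⁻¹ := by
            simp only [commutatorElement_def]
            group
          rw [e2, e1]
          exact C.inv_mem ha' }
    have hle : A ⊔ A' ≤ S := by
      apply sup_le
      · intro t ht
        exact ⟨Subgroup.mem_sup_left ht, h1 t ht⟩
      · intro t ht
        exact ⟨Subgroup.mem_sup_right ht, h2 t ht⟩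
    exact (hle hg).2
  have hsymm : ∀ a b : G, ⁅a, b⁆ ∈ C → ⁅b, a⁆ ∈ C := by
    intro a b h
    rw [← commutatorElement_inv]
    exact C.inv_mem h
  have step1 : ∀ a ∈ A, ∀ g ∈ A ⊔ A', ⁅g, a⁆ ∈ C := fun a ha =>
    hsub a (fun t ht => hA t ht a ha) (fun t ht => hsymm _ _ (h0 a ha t ht))
  have step2 : ∀ a ∈ A', ∀ g ∈ A ⊔ A', ⁅g, a⁆ ∈ C := fun a ha =>
    hsub a (fun t ht => h0 t ht a ha) (fun t ht => hA' t ht a ha)
  intro g hg h hh
  exact hsymm _ _ (hsub g (fun t ht => hsymm _ _ (step1 t ht g hg))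
    (fun t ht => hsymm _ _ (step2 t ht g hg)) h hh)

/-- counting: an induced homomorphism into a quotient. -/
lemma count_le {X Y : Type*} [Group X] [Group Y] [Finite X] [Finite Y] (Y₀ : Subgroup Y) [Y₀.Normal]
    (Ψ : X →* Y ⧸ Y₀) (h : Nat.card Ψ.ker ≤ Nat.card Y₀) : Nat.card X ≤ Nat.card Y := by
  have h1 : Nat.card X = Nat.card Ψ.ker * Nat.card Ψ.range := by
    rw [← Subgroup.index_ker]
    exact (Subgroup.card_mul_index Ψ.ker).symm
  have h2 : Nat.card Y = Nat.card (Y ⧸ Y₀) * Nat.card Y₀ :=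
    Subgroup.card_eq_card_quotient_mul_card_subgroup Y₀
  have h3 : Nat.card Ψ.range ≤ Nat.card (Y ⧸ Y₀) := Subgroup.card_le_card_group _
  rw [h1, h2, mul_comm (Nat.card (Y ⧸ Y₀))]
  exact Nat.mul_le_mul h h3

lemma count_ge {X Y : Type*} [Group X] [Group Y] [Finite X] [Finite Y] (Y₀ : Subgroup Y) [Y₀.Normal]
    (Ψ : X →* Y ⧸ Y₀) (hs : Function.Surjective Ψ) (h : Nat.card Y₀ ≤ Nat.card Ψ.ker) :
    Nat.card Y ≤ Nat.card X := by
  have h1 : Nat.card X = Nat.card Ψ.ker * Nat.card Ψ.range := by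
    rw [← Subgroup.index_ker]
    exact (Subgroup.card_mul_index Ψ.ker).symm
  have h2 : Nat.card Y = Nat.card (Y ⧸ Y₀) * Nat.card Y₀ :=
    Subgroup.card_eq_card_quotient_mul_card_subgroup Y₀
  have h3 : Nat.card Ψ.range = Nat.card (Y ⧸ Y₀) := by
    rw [MonoidHom.range_eq_top.mpr hs, Subgroup.card_top]
  rw [h1, h2, mul_comm (Nat.card (Y ⧸ Y₀)), h3]
  exact Nat.mul_le_mul_right _ h

/-- the homomorphism `a ↦ u a` modulo `C`. -/
noncomputable def uHom [Finite G] {Hs Ts C : Subgroup G} (u : G → G)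
    [(C.subgroupOf Ts).Normal]
    (hu : ∀ a ∈ Hs, u a ∈ Ts)
    (hmul : ∀ a ∈ Hs, ∀ b ∈ Hs, (u a * u b)⁻¹ * u (a * b) ∈ C) :
    Hs →* Ts ⧸ C.subgroupOf Ts :=
  MonoidHom.mk' (fun a => QuotientGroup.mk ⟨u a, hu a a.2⟩) (by
    intro a b
    rw [← QuotientGroup.mk_mul]
    rw [QuotientGroup.eq]
    rw [Subgroup.mem_subgroupOf]
    have := C.inv_mem (hmul a a.2 b b.2)
    simpa [mul_inv_rev] using this)

lemma uHom_ker [Finite G] {Hs Ts C : Subgroup G} (u : G → G)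
    [(C.subgroupOf Ts).Normal]
    (hu : ∀ a ∈ Hs, u a ∈ Ts)
    (hmul : ∀ a ∈ Hs, ∀ b ∈ Hs, (u a * u b)⁻¹ * u (a * b) ∈ C)
    (hker : ∀ a ∈ Hs, (u a ∈ C ↔ a ∈ C)) (a : Hs) :
    a ∈ (uHom u hu hmul).ker ↔ (a : G) ∈ C := by
  rw [MonoidHom.mem_ker]
  change (QuotientGroup.mk ⟨u a, hu a a.2⟩ : Ts ⧸ C.subgroupOf Ts) = 1 ↔ _
  rw [QuotientGroup.eq_one_iff, Subgroup.mem_subgroupOf]
  exact hker a a.2

lemma count_sub [Finite G] {Hs Ts C : Subgroup G} (u : G → G)
    (hTab : ∀ g ∈ Ts, ∀ h ∈ Ts, g * h = h * g)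
    (hu : ∀ a ∈ Hs, u a ∈ Ts)
    (hmul : ∀ a ∈ Hs, ∀ b ∈ Hs, (u a * u b)⁻¹ * u (a * b) ∈ C)
    (hker : ∀ a ∈ Hs, (u a ∈ C ↔ a ∈ C)) (hC : ∀ c ∈ C, c ∈ Hs → c ∈ Ts) :
    Nat.card Hs ≤ Nat.card Ts := by
  haveI : (C.subgroupOf Ts).Normal := by
    constructor
    intro n hn g
    rw [Subgroup.mem_subgroupOf] at hn ⊢
    have : ((g * n * g⁻¹ : Ts) : G) = n := by
      have h1 := hTab g g.2 n n.2
      simp only [Subgroup.coe_mul, Subgroup.coe_inv]
      rw [h1]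
      group
    rw [this]
    exact hn
  apply count_le (C.subgroupOf Ts) (uHom u hu hmul)
  let f : (uHom u hu hmul).ker → C.subgroupOf Ts := fun a =>
    ⟨⟨a.1.1, hC _ ((uHom_ker u hu hmul hker a.1).mp a.2) a.1.2⟩,
      Subgroup.mem_subgroupOf.mpr ((uHom_ker u hu hmul hker a.1).mp a.2)⟩
  apply Nat.card_le_card_of_injective f
  intro a b hab
  have h1 := congrArg (fun z : C.subgroupOf Ts => ((z : Ts) : G)) hab
  exact Subtype.ext (Subtype.ext h1)

lemma count_sub' [Finite G] {Hs Ts C : Subgroup G} (u : G → G)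
    (hTab : ∀ g ∈ Ts, ∀ h ∈ Ts, g * h = h * g)
    (hu : ∀ a ∈ Hs, u a ∈ Ts)
    (hmul : ∀ a ∈ Hs, ∀ b ∈ Hs, (u a * u b)⁻¹ * u (a * b) ∈ C)
    (hker : ∀ a ∈ Hs, (u a ∈ C ↔ a ∈ C)) (hC : C ≤ Hs)
    (hsurj : ∀ g ∈ Ts, ∃ a ∈ Hs, ∃ c ∈ C, g = u a * c) :
    Nat.card Ts ≤ Nat.card Hs := by
  haveI : (C.subgroupOf Ts).Normal := by
    constructor
    intro n hn g
    rw [Subgroup.mem_subgroupOf] at hn ⊢
    have : ((g * n * g⁻¹ : Ts) : G) = n := by
      have h1 := hTab g g.2 n n.2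
      simp only [Subgroup.coe_mul, Subgroup.coe_inv]
      rw [h1]
      group
    rw [this]
    exact hn
  apply count_ge (C.subgroupOf Ts) (uHom u hu hmul)
  · intro q
    obtain ⟨g, rfl⟩ := QuotientGroup.mk_surjective q
    obtain ⟨a, ha, c, hc, hg⟩ := hsurj g g.2
    refine ⟨⟨a, ha⟩, ?_⟩
    change (QuotientGroup.mk ⟨u a, hu a ha⟩ : Ts ⧸ C.subgroupOf Ts) = QuotientGroup.mk g
    rw [QuotientGroup.eq, Subgroup.mem_subgroupOf]
    simp only [Subgroup.coe_mul, Subgroup.coe_inv]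
    rw [hg]
    simpa using hc
  · let f : C.subgroupOf Ts → (uHom u hu hmul).ker := fun a =>
      ⟨⟨a.1.1, hC (Subgroup.mem_subgroupOf.mp a.2)⟩,
        (uHom_ker u hu hmul hker _).mpr (Subgroup.mem_subgroupOf.mp a.2)⟩
    apply Nat.card_le_card_of_injective f
    intro a b hab
    have h1 := congrArg (fun z : (uHom u hu hmul).ker => ((z : Hs) : G)) hab
    exact Subtype.ext (Subtype.ext h1)

lemma mem_omega {p : ℕ} {H : Subgroup G} (hH : ∀ a ∈ H, ∀ b ∈ H, a * b = b * a) {y : G} :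
    y ∈ Cfsg.omegaOne p H ↔ y ∈ H ∧ y ^ p = 1 := by
  constructor
  · intro hy
    unfold Cfsg.omegaOne at hy
    induction hy using Subgroup.closure_induction with
    | mem x hx => exact hx
    | one => exact ⟨H.one_mem, one_pow p⟩
    | mul x y _ _ hx hy =>
      refine ⟨H.mul_mem hx.1 hy.1, ?_⟩
      have : Commute x y := hH x hx.1 y hy.1
      rw [this.mul_pow, hx.2, hy.2, one_mul]
    | inv x _ hx =>
      exact ⟨H.inv_mem hx.1, by rw [inv_pow, hx.2, inv_one]⟩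
  · intro hy
    exact Subgroup.subset_closure hy

end Class2

theorem core {G : Type*} [Group G] [Finite G] {p : ℕ} [Fact p.Prime] (hp : p ≠ 2)
    (hG : IsPGroup p G) (A B : Subgroup G) (hA : IsMulCommutative A) (hB2 : ⁅⁅B, B⁆, B⁆ = ⊥)
    (hBA : ⁅B, B⁆ ≤ A) (hAB : A ≤ Subgroup.normalizer (B : Set G)) {x : G} (hxB : x ∈ B)
    (hxA : x ∉ Subgroup.normalizer (A : Set G))
    (h1 : ∀ a ∈ A, x * a * x⁻¹ ∈ Subgroup.normalizer (A : Set G))
    (h2 : ∀ a ∈ A, x⁻¹ * a * x ∈ Subgroup.normalizer (A : Set G)) :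
    ∃ Astar : Subgroup G, IsMulCommutative Astar ∧ Nat.card Astar = Nat.card A ∧
      A ⊓ B < Astar ⊓ B ∧ Astar ≤ Subgroup.normalizer (A : Set G) ∧
      Astar ≤ Subgroup.normalClosure (A : Set G) ∧ Monoid.exponent Astar ∣ Monoid.exponent A ∧
      Nat.card (Cfsg.omegaOne p A) ≤ Nat.card (Cfsg.omegaOne p Astar) := by
  classical
  have commA : ∀ a ∈ A, ∀ b ∈ A, a * b = b * a := fun a ha b hb =>
    congrArg Subtype.val (hA.is_comm.comm ⟨a, ha⟩ ⟨b, hb⟩)
  set cx : G →* G := (MulAut.conj x).toMonoidHom with hcx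
  have cxdef : ∀ g, cx g = x * g * x⁻¹ := fun g => rfl
  have cxinj : Function.Injective cx := (MulAut.conj x).injective
  set A' : Subgroup G := A.map cx with hA'
  have memA' : ∀ a ∈ A, cx a ∈ A' := fun a ha => Subgroup.mem_map_of_mem cx ha
  have commA' : ∀ a ∈ A', ∀ b ∈ A', a * b = b * a := by
    rintro _ ⟨a, ha, rfl⟩ _ ⟨b, hb, rfl⟩
    rw [← map_mul, ← map_mul, commA a ha b hb]
  have normA : ∀ b ∈ A', ∀ a ∈ A, b * a * b⁻¹ ∈ A := by
    rintro _ ⟨b, hb, rfl⟩ a ha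
    exact (Subgroup.mem_normalizer_iff.mp (h1 b hb) a).mp ha
  have normA' : ∀ a ∈ A, ∀ b ∈ A', a * b * a⁻¹ ∈ A' := by
    rintro a ha _ ⟨b, hb, rfl⟩
    have h3 := (Subgroup.mem_normalizer_iff.mp (h2 a ha) b).mp hb
    refine ⟨_, h3, ?_⟩
    simp only [cxdef]
    group
  set C : Subgroup G := A ⊓ A' with hC
  set H : Subgroup G := A ⊔ A' with hH
  have hAH : A ≤ H := le_sup_left
  have hA'H : A' ≤ H := le_sup_right
  have hCH : C ≤ H := fun c hc => hAH hc.1
  have hzz : ∀ c ∈ C, ∀ g ∈ H, c * g = g * c := by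
    have hle : H ≤ Subgroup.centralizer (C : Set G) := by
      apply sup_le
      · intro a ha
        rw [Subgroup.mem_centralizer_iff]
        intro c hc
        exact commA c hc.1 a ha
      · intro a ha
        rw [Subgroup.mem_centralizer_iff]
        intro c hc
        exact commA' c hc.2 a ha
    intro c hc g hg
    exact (Subgroup.mem_centralizer_iff.mp (hle hg)) c hc
  have h0 : ∀ a ∈ A, ∀ b ∈ A', ⁅a, b⁆ ∈ C := by
    intro a ha b hb
    constructor
    · have e : ⁅a, b⁆ = a * (b * a⁻¹ * b⁻¹) := by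
        rw [commutatorElement_def]
        group
      rw [e]
      exact A.mul_mem ha (normA b hb _ (A.inv_mem ha))
    · rw [commutatorElement_def]
      exact A'.mul_mem (normA' a ha b hb) (A'.inv_mem hb)
  have hc2 : C2 H C := by
    refine ⟨hzz, comm_sup hzz h0 ?_ ?_⟩
    · intro g hg h hh
      rw [commutatorElement_eq_one_iff_mul_comm.mpr (commA g hg h hh)]
      exact C.one_mem
    · intro g hg h hh
      rw [commutatorElement_eq_one_iff_mul_comm.mpr (commA' g hg h hh)]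
      exact C.one_mem
  -- `B`-level facts
  have hBcomm : ∀ g ∈ B, ∀ h ∈ B, ⁅g, h⁆ ∈ A := fun g hg h hh =>
    hBA (Subgroup.commutator_mem_commutator hg hh)
  have hBcent : ∀ g ∈ B, ∀ h ∈ B, ∀ k ∈ B, ⁅g, h⁆ * k = k * ⁅g, h⁆ := by
    intro g hg h hh k hk
    have h3 : ⁅⁅g, h⁆, k⁆ ∈ ⁅⁅B, B⁆, B⁆ :=
      Subgroup.commutator_mem_commutator (Subgroup.commutator_mem_commutator hg hh) hk
    rw [hB2, Subgroup.mem_bot] at h3
    exact commutatorElement_eq_one_iff_mul_comm.mp h3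
  have hxinvB := B.inv_mem hxB
  set u : G → G := fun a => a⁻¹ * cx a with hu
  have hudef : ∀ a, u a = a⁻¹ * cx a := fun a => rfl
  have hcxu : ∀ a, cx a = a * u a := by
    intro a
    rw [hudef]
    group
  have huB : ∀ a ∈ A, u a ∈ B := by
    intro a ha
    have h3 : a⁻¹ * x * a ∈ B := by
      have h4 := (Subgroup.mem_normalizer_iff.mp (hAB (A.inv_mem ha)) x).mp hxB
      simpa using h4
    have e : u a = (a⁻¹ * x * a) * x⁻¹ := by
      rw [hudef, cxdef]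
      group
    rw [e]
    exact B.mul_mem h3 hxinvB
  have huH : ∀ a ∈ A, u a ∈ H := fun a ha =>
    H.mul_mem (hAH (A.inv_mem ha)) (hA'H (memA' a ha))
  have hAB' : ∀ a ∈ A, a ∈ B → a ∈ C := by
    intro a ha haB
    refine ⟨ha, ?_⟩
    have h3 : ⁅a⁻¹, x⁻¹⁆ ∈ A := hBcomm _ (B.inv_mem haB) _ hxinvB
    have h4 : x⁻¹ * a * x ∈ A := by
      have e : x⁻¹ * a * x = a * ⁅a⁻¹, x⁻¹⁆ := by
        rw [commutatorElement_def]
        group
      rw [e]
      exact A.mul_mem ha h3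
    refine ⟨_, h4, ?_⟩
    simp only [cxdef]
    group
  have hw : ∀ a ∈ A, ∃ w ∈ C, cx (cx a) = a * u a * w * u a := by
    intro a ha
    refine ⟨⁅x, u a⁆, ?_, ?_⟩
    · have h3 := hBcomm x hxB _ (huB a ha)
      apply hAB' _ h3
      rw [commutatorElement_def]
      exact B.mul_mem (B.mul_mem (B.mul_mem hxB (huB a ha)) hxinvB) (B.inv_mem (huB a ha))
    · calc cx (cx a) = cx (a * u a) := by rw [← hcxu]
        _ = cx a * cx (u a) := map_mul _ _ _
        _ = a * u a * cx (u a) := by rw [← hcxu]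
        _ = a * u a * (⁅x, u a⁆ * u a) := by
            congr 1
            rw [cxdef, commutatorElement_def]
            group
        _ = a * u a * ⁅x, u a⁆ * u a := by group
  -- an involution-type element is trivial
  have hodd : ∀ z : G, z * z = 1 → z = 1 := by
    intro z hz
    obtain ⟨k, hk⟩ := hG z
    have h3 : orderOf z ∣ p ^ k := orderOf_dvd_of_pow_eq_one hk
    have h4 : orderOf z ∣ 2 := orderOf_dvd_of_pow_eq_one (by rw [pow_two, hz])
    have h5 : Nat.Coprime (p ^ k) 2 :=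
      Nat.Coprime.pow_left k ((Nat.coprime_primes (Fact.out) Nat.prime_two).mpr hp)
    have h6 : orderOf z = 1 := Nat.eq_one_of_dvd_coprimes h5 h3 h4
    exact orderOf_eq_one_iff.mp h6
  -- the elements `u a` commute
  have huu : ∀ a ∈ A, ∀ b ∈ A, u a * u b = u b * u a := by
    intro a ha b hb
    have haH := hAH ha
    have hbH := hAH hb
    have ha'H := hA'H (memA' a ha)
    have hb'H := hA'H (memA' b hb)
    have hainvH := H.inv_mem haH
    have hbinvH := H.inv_mem hbH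
    set a' := cx a with ha'
    set b' := cx b with hb'
    set p' := ⁅a, b'⁆ with hp'
    set q' := ⁅a', b⁆ with hq'
    have huadef : u a = a⁻¹ * a' := rfl
    have hubdef : u b = b⁻¹ * b' := rfl
    have e1 : ⁅u a, u b⁆ = p'⁻¹ * q'⁻¹ := by
      rw [huadef, hubdef, hc2.mul_left hainvH ha'H (H.mul_mem hbinvH hb'H),
        hc2.mul_right hainvH hbinvH hb'H, hc2.mul_right ha'H hbinvH hb'H,
        commutatorElement_eq_one_iff_mul_comm.mpr (commA _ (A.inv_mem ha) _ (A.inv_mem hb)),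
        commutatorElement_eq_one_iff_mul_comm.mpr (commA' _ (memA' a ha) _ (memA' b hb)),
        hc2.inv_left haH hb'H, hc2.inv_right ha'H hbH, one_mul, mul_one]
    obtain ⟨wb, hwb, ewb⟩ := hw b hb
    obtain ⟨wa, hwa, ewa⟩ := hw a ha
    have e4 : ⁅a', u b⁆ = q'⁻¹ := by
      rw [hubdef, hc2.mul_right ha'H hbinvH hb'H,
        commutatorElement_eq_one_iff_mul_comm.mpr (commA' _ (memA' a ha) _ (memA' b hb)),
        hc2.inv_right ha'H hbH, mul_one]
    have e5 : ⁅u a, b'⁆ = p'⁻¹ := by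
      rw [huadef, hc2.mul_left hainvH ha'H hb'H,
        commutatorElement_eq_one_iff_mul_comm.mpr (commA' _ (memA' a ha) _ (memA' b hb)),
        hc2.inv_left haH hb'H, mul_one]
    have e2 : cx p' = q'⁻¹ := by
      have e20 : cx p' = ⁅a', cx b'⁆ := map_commutatorElement cx a b'
      rw [e20, show cx b' = _ from ewb,
        hc2.mul_right ha'H (H.mul_mem (H.mul_mem hbH (huH b hb)) (hCH hwb)) (huH b hb),
        hc2.mul_right ha'H (H.mul_mem hbH (huH b hb)) (hCH hwb),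
        hc2.mul_right ha'H hbH (huH b hb), e4,
        commutatorElement_eq_one_iff_mul_comm.mpr (hzz _ hwb _ ha'H).symm]
      change q' * q'⁻¹ * 1 * q'⁻¹ = q'⁻¹
      rw [mul_inv_cancel, one_mul, one_mul]
    have e3 : cx q' = p'⁻¹ := by
      have e30 : cx q' = ⁅cx a', b'⁆ := map_commutatorElement cx a' b
      rw [e30, show cx a' = _ from ewa,
        hc2.mul_left (H.mul_mem (H.mul_mem haH (huH a ha)) (hCH hwa)) (huH a ha) hb'H,
        hc2.mul_left (H.mul_mem haH (huH a ha)) (hCH hwa) hb'H,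
        hc2.mul_left haH (huH a ha) hb'H, e5,
        commutatorElement_eq_one_iff_mul_comm.mpr (hzz _ hwa _ hb'H)]
      change p' * p'⁻¹ * 1 * p'⁻¹ = p'⁻¹
      rw [mul_inv_cancel, one_mul, one_mul]
    -- `x` centralizes the commutator
    have e6 : cx ⁅u a, u b⁆ = ⁅u a, u b⁆ := by
      have h3 := hBcent _ (huB a ha) _ (huB b hb) x hxB
      rw [cxdef, ← h3]
      group
    have hpq : p' * q' = q' * p' := by
      have hpC : p' ∈ C := h0 a ha b' (memA' b hb)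
      have hqC : q' ∈ C := hc2.hcc a' ha'H b hbH
      exact hzz _ hpC _ (hCH hqC)
    have e7 : ⁅u a, u b⁆ * ⁅u a, u b⁆ = 1 := by
      have e8 : cx ⁅u a, u b⁆ = (⁅u a, u b⁆)⁻¹ := by
        rw [e1, map_mul, map_inv, map_inv, e2, e3, inv_inv, inv_inv, mul_inv_rev, inv_inv, inv_inv]
      rw [e6] at e8
      nth_rewrite 1 [e8]
      exact inv_mul_cancel _
    exact commutatorElement_eq_one_iff_mul_comm.mp (hodd _ e7)
  -- `x` normalizes `C`
  have hCinv : ∀ y ∈ C, ∃ t ∈ C, cx t = y := by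
    rintro y ⟨hyA, t, ht, rfl⟩
    refine ⟨t, ⟨ht, ?_⟩, rfl⟩
    have h3 : u t ∈ A := A.mul_mem (A.inv_mem ht) hyA
    have h4 : u t ∈ C := hAB' _ h3 (huB t ht)
    have e : t = cx t * (u t)⁻¹ := by
      rw [hcxu t]
      group
    rw [e]
    exact A'.mul_mem (memA' t ht) (A'.inv_mem h4.2)
  have hCfw : ∀ t ∈ C, cx t ∈ C := by
    have hle : C ≤ C.map cx := by
      intro y hy
      obtain ⟨t, ht, rfl⟩ := hCinv y hy
      exact Subgroup.mem_map_of_mem cx ht
    have hcard : Nat.card (C.map cx) ≤ Nat.card C :=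
      le_of_eq (Nat.card_congr (Subgroup.equivMapOfInjective C cx cxinj).toEquiv).symm
    have heq := Subgroup.eq_of_le_of_card_ge hle hcard
    intro t ht
    rw [heq]
    exact Subgroup.mem_map_of_mem cx ht
  have hker : ∀ a ∈ A, (u a ∈ C ↔ a ∈ C) := by
    intro a ha
    constructor
    · intro h3
      refine ⟨ha, ?_⟩
      have e : a = cx a * (u a)⁻¹ := by
        rw [hcxu a]
        group
      rw [e]
      exact A'.mul_mem (memA' a ha) (A'.inv_mem h3.2)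
    · intro h3
      exact C.mul_mem (C.inv_mem h3) (hCfw a h3)
  have hmulu : ∀ a ∈ A, ∀ b ∈ A, u (a * b) = u a * u b * ⁅b⁻¹, u a⁆ := by
    intro a ha b hb
    have hκ : Commute ⁅b⁻¹, u a⁆ (u a * u b) :=
      hc2.central (H.inv_mem (hAH hb)) (huH a ha) (H.mul_mem (huH a ha) (huH b hb))
    rw [← hκ.eq, hudef (a * b), hudef a, hudef b, map_mul, commutatorElement_def]
    group
  have hmulC : ∀ a ∈ A, ∀ b ∈ A, ⁅b⁻¹, u a⁆ ∈ C := fun a ha b hb =>
    hc2.hcc _ (H.inv_mem (hAH hb)) _ (huH a ha)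
  have hu1 : u 1 = 1 := by simp [hudef]
  let Astar : Subgroup G :=
    { carrier := {g | ∃ a ∈ A, ∃ c ∈ C, g = u a * c}
      mul_mem' := by
        rintro _ _ ⟨a, ha, c, hc, rfl⟩ ⟨b, hb, d, hd, rfl⟩
        refine ⟨a * b, A.mul_mem ha hb, ⁅b⁻¹, u a⁆⁻¹ * c * d,
          C.mul_mem (C.mul_mem (C.inv_mem (hmulC a ha b hb)) hc) hd, ?_⟩
        rw [hmulu a ha b hb]
        have e : c * u b = u b * c := hzz c hc _ (huH b hb)
        calc u a * c * (u b * d) = u a * (c * u b) * d := by group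
          _ = u a * (u b * c) * d := by rw [e]
          _ = u a * u b * ⁅b⁻¹, u a⁆ * (⁅b⁻¹, u a⁆⁻¹ * c * d) := by group
      one_mem' := ⟨1, A.one_mem, 1, C.one_mem, by simp [hu1]⟩
      inv_mem' := by
        rintro _ ⟨a, ha, c, hc, rfl⟩
        have e1 := hmulu a ha a⁻¹ (A.inv_mem ha)
        rw [mul_inv_cancel, hu1, inv_inv] at e1
        refine ⟨a⁻¹, A.inv_mem ha, ⁅a, u a⁆ * c⁻¹,
          C.mul_mem (by simpa using hmulC a ha a⁻¹ (A.inv_mem ha)) (C.inv_mem hc), ?_⟩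
        have e2 : (u a)⁻¹ = u a⁻¹ * ⁅a, u a⁆ := by
          rw [inv_eq_iff_mul_eq_one]
          exact (mul_assoc _ _ _).symm.trans e1.symm
        have e3 : c⁻¹ * u a⁻¹ = u a⁻¹ * c⁻¹ :=
          hzz _ (C.inv_mem hc) _ (huH _ (A.inv_mem ha))
        have e4 : c⁻¹ * ⁅a, u a⁆ = ⁅a, u a⁆ * c⁻¹ :=
          hzz _ (C.inv_mem hc) _ (hCH (by simpa using hmulC a ha a⁻¹ (A.inv_mem ha)))
        rw [mul_inv_rev, e2, ← mul_assoc, e3, mul_assoc, e4] }
  have memAs : ∀ g, g ∈ Astar ↔ ∃ a ∈ A, ∃ c ∈ C, g = u a * c := fun g => Iff.rfl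
  have hCAs : C ≤ Astar := fun c hc => ⟨1, A.one_mem, c, hc, by simp [hu1]⟩
  have huAs : ∀ a ∈ A, u a ∈ Astar := fun a ha => ⟨a, ha, 1, C.one_mem, by simp⟩
  have hAsH : Astar ≤ H := by
    rintro _ ⟨a, ha, c, hc, rfl⟩
    exact H.mul_mem (huH a ha) (hCH hc)
  have hcommAs : ∀ g ∈ Astar, ∀ h ∈ Astar, g * h = h * g := by
    rintro _ ⟨a, ha, c, hc, rfl⟩ _ ⟨b, hb, d, hd, rfl⟩
    have e1 : c * u b = u b * c := hzz c hc _ (huH b hb)
    have e2 : d * u a = u a * d := hzz d hd _ (huH a ha)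
    have e3 : c * d = d * c := hzz c hc _ (hCH hd)
    calc u a * c * (u b * d) = u a * (c * u b) * d := by group
      _ = u a * u b * (c * d) := by rw [e1]; group
      _ = u b * u a * (d * c) := by rw [huu a ha b hb, e3]
      _ = u b * (u a * d) * c := by group
      _ = u b * (d * u a) * c := by rw [e2]
      _ = u b * d * (u a * c) := by group
  -- power computation
  have hpow : ∀ n : ℕ, Odd n → ∀ a ∈ A, a ^ n = 1 → (u a) ^ n = 1 := by
    intro n hn a ha han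
    rw [hudef, hc2.mul_pow' (H.inv_mem (hAH ha)) (hA'H (memA' a ha)) n]
    have e1 : (a⁻¹) ^ n = 1 := by rw [inv_pow, han, inv_one]
    have e2 : (cx a) ^ n = 1 := by rw [← map_pow, han, map_one]
    have e3 : ⁅cx a, a⁻¹⁆ ^ n = 1 := by
      rw [← hc2.pow_right (hA'H (memA' a ha)) (H.inv_mem (hAH ha)) n, e1]
      simp
    obtain ⟨m, hm⟩ := hn
    have e4 : n.choose 2 = n * m := by
      rw [Nat.choose_two_right, hm]
      have : (2 * m + 1) * (2 * m + 1 - 1) = 2 * ((2 * m + 1) * m) := by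
        simp only [Nat.add_sub_cancel]
        ring
      rw [this]
      simp
    rw [e1, e2, e4, pow_mul, e3]
    simp
  have hcexp : ∀ c ∈ A, c ^ Monoid.exponent A = 1 := by
    intro c hc
    have := Monoid.pow_exponent_eq_one (⟨c, hc⟩ : A)
    exact congrArg Subtype.val this
  have hpodd : Odd p := (Nat.Prime.eq_two_or_odd' (Fact.out : p.Prime)).resolve_left hp
  have heodd : Odd (Monoid.exponent A) := by
    have h3 : Monoid.exponent A ∣ Nat.card A := Group.exponent_dvd_nat_card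
    have h4 : IsPGroup p A := hG.to_subgroup A
    rw [IsPGroup.iff_card] at h4
    obtain ⟨n, hn⟩ := h4
    rw [hn] at h3
    exact (hpodd.pow).of_dvd_nat h3
  refine ⟨Astar, ⟨⟨fun g h => Subtype.ext (hcommAs g g.2 h h.2)⟩⟩, ?_, ?_, ?_, ?_, ?_, ?_⟩
  · -- cardinality
    have hmulC' : ∀ a ∈ A, ∀ b ∈ A, (u a * u b)⁻¹ * u (a * b) ∈ C := by
      intro a ha b hb
      rw [hmulu a ha b hb, inv_mul_cancel_left]
      exact hmulC a ha b hb
    apply le_antisymm
    · exact count_sub' u hcommAs huAs hmulC' hker (fun c hc => hc.1)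
        (fun g hg => (memAs g).mp hg)
    · exact count_sub u hcommAs huAs hmulC' hker (fun c hc _ => hCAs hc)
  · -- strictness
    obtain ⟨a, ha, ha'⟩ : ∃ a ∈ A, cx a ∉ A := by
      by_contra hcon
      push Not at hcon
      have hle : A' ≤ A := by
        rintro _ ⟨a, ha, rfl⟩
        exact hcon a ha
      have hcard : Nat.card A ≤ Nat.card A' :=
        le_of_eq (Nat.card_congr (Subgroup.equivMapOfInjective A cx cxinj).toEquiv)
      have heq := Subgroup.eq_of_le_of_card_ge hle hcard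
      apply hxA
      rw [Subgroup.mem_normalizer_iff]
      intro h
      constructor
      · exact fun hh => hcon h hh
      · intro hh
        have h3 : x * h * x⁻¹ ∈ A' := by rw [heq]; exact hh
        obtain ⟨t, ht, e⟩ := h3
        have : t = h := cxinj e
        rwa [← this]
    rw [SetLike.lt_iff_le_and_exists]
    refine ⟨?_, u a, ⟨huAs a ha, huB a ha⟩, ?_⟩
    · intro t ht
      exact ⟨hCAs (hAB' t ht.1 ht.2), ht.2⟩
    · intro h3
      apply ha'
      rw [hcxu]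
      exact A.mul_mem ha h3.1
  · -- inside the normalizer
    rintro _ ⟨a, ha, c, hc, rfl⟩
    have hAN : A ≤ Subgroup.normalizer (A : Set G) := Subgroup.le_normalizer
    exact Subgroup.mul_mem _ (Subgroup.mul_mem _ (hAN (A.inv_mem ha)) (h1 a ha)) (hAN hc.1)
  · -- inside the normal closure
    rintro _ ⟨a, ha, c, hc, rfl⟩
    have hAN : ∀ t ∈ A, t ∈ Subgroup.normalClosure (A : Set G) :=
      fun t ht => Subgroup.subset_normalClosure ht
    refine Subgroup.mul_mem _ (Subgroup.mul_mem _ (hAN _ (A.inv_mem ha)) ?_) (hAN _ hc.1)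
    exact (Subgroup.normalClosure_normal).conj_mem _ (hAN a ha) x
  · -- exponent
    apply Monoid.exponent_dvd_of_forall_pow_eq_one
    rintro ⟨g, a, ha, c, hc, rfl⟩
    apply Subtype.ext
    have hcm : Commute (u a) c := hcommAs _ (huAs a ha) _ (hCAs hc)
    simp only [SubmonoidClass.coe_pow, Subgroup.coe_one]
    rw [hcm.mul_pow, hcexp c hc.1, mul_one, hpow _ heodd a ha (hcexp a ha)]
  · -- `Ω₁`
    have hmulC' : ∀ a ∈ Cfsg.omegaOne p A, ∀ b ∈ Cfsg.omegaOne p A,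
        (u a * u b)⁻¹ * u (a * b) ∈ C := by
      intro a ha b hb
      have ha1 := ((mem_omega commA).mp ha).1
      have hb1 := ((mem_omega commA).mp hb).1
      rw [hmulu a ha1 b hb1, inv_mul_cancel_left]
      exact hmulC a ha1 b hb1
    apply count_sub u (C := C)
    · intro g hg h hh
      exact hcommAs g ((mem_omega hcommAs).mp hg).1 h ((mem_omega hcommAs).mp hh).1
    · intro a ha
      have ha1 := (mem_omega commA).mp ha
      exact (mem_omega hcommAs).mpr ⟨huAs a ha1.1, hpow p hpodd a ha1.1 ha1.2⟩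
    · exact hmulC'
    · intro a ha
      exact hker a ((mem_omega commA).mp ha).1
    · intro c hc hc2
      exact (mem_omega hcommAs).mpr ⟨hCAs hc, ((mem_omega commA).mp hc2).2⟩

/-- A replacement Theorem for abelian subgroups of p-groups, p odd. Let G be a finite p-group with p odd, A an abelian subgroup of G, and B a subgroup of nilpotency class at most 2 with [B, B] ≤ A, such that A normalizes B but B does not normalize A. Then there is an abelian subgroup A* of G of the same order as A with A ∩ B strictly contained in A* ∩ B, A* contained in N_G(A) and in the normal closure of A, the exponent of A* dividing the exponent of A, and with the subgroup generated by the elements of order dividing p in A of order at most that of the corresponding subgroup of A* (the rank of A is at most the rank of A*). -/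
theorem result {G : Type*} [Group G] [Finite G] {p : ℕ} [Fact p.Prime] (hp : p ≠ 2) (hG : IsPGroup p G) (A B : Subgroup G) (hA : IsMulCommutative A) (hB2 : ⁅⁅B, B⁆, B⁆ = ⊥) (hBA : ⁅B, B⁆ ≤ A) (hAB : A ≤ Subgroup.normalizer (B : Set G)) (hBnA : ¬ B ≤ Subgroup.normalizer (A : Set G)) : ∃ Astar : Subgroup G, IsMulCommutative Astar ∧ Nat.card Astar = Nat.card A ∧ A ⊓ B < Astar ⊓ B ∧ Astar ≤ Subgroup.normalizer (A : Set G) ∧ Astar ≤ Subgroup.normalClosure (A : Set G) ∧ Monoid.exponent Astar ∣ Monoid.exponent A ∧ Nat.card (Cfsg.omegaOne p A) ≤ Nat.card (Cfsg.omegaOne p Astar) := by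
  classical
  set Q : Subgroup G := A ⊔ B with hQ
  have hQp : IsPGroup p Q := hG.to_subgroup Q
  set N : Subgroup G := Q ⊓ Subgroup.normalizer (A : Set G) with hN
  have hAN : A ≤ N := le_inf le_sup_left Subgroup.le_normalizer
  have hne : N ≠ Q := by
    intro h
    apply hBnA
    have h1 : Q ≤ Subgroup.normalizer (A : Set G) := by
      rw [← h]
      exact inf_le_right
    exact le_trans le_sup_right h1
  obtain ⟨y, hyQ, hyN, hyNN⟩ :=
    Cfsg.Agent.H14.exists_mem_normalizer_of_pgroup hQp inf_le_left hne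
  have hcoe := Subgroup.coe_mul_of_left_le_normalizer_right A B hAB
  have hy' : y ∈ ((A ⊔ B : Subgroup G) : Set G) := hyQ
  rw [hcoe] at hy'
  obtain ⟨a, ha, b, hb, rfl⟩ := Set.mem_mul.mp hy'
  have ha' : a ∈ (A : Set G) := ha
  have hb' : b ∈ (B : Set G) := hb
  have hbQ : b ∈ Q := Subgroup.mem_sup_right hb
  have hNN : N ≤ Subgroup.normalizer (N : Set G) := Subgroup.le_normalizer
  have hbNN : b ∈ Subgroup.normalizer (N : Set G) := by
    have e : b = a⁻¹ * (a * b) := by group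
    rw [e]
    exact Subgroup.mul_mem _ (hNN (hAN (A.inv_mem ha))) hyNN
  have hbA : b ∉ Subgroup.normalizer (A : Set G) := by
    intro h
    apply hyN
    exact N.mul_mem (hAN ha) ⟨hbQ, h⟩
  refine core hp hG A B hA hB2 hBA hAB hb hbA ?_ ?_
  · intro t ht
    have h1 := (Subgroup.mem_normalizer_iff.mp hbNN t).mp (hAN ht)
    exact h1.2
  · intro t ht
    have h1 := (Subgroup.mem_normalizer_iff.mp (Subgroup.inv_mem _ hbNN) t).mp (hAN ht)
    have h2 : b⁻¹ * t * b⁻¹⁻¹ = b⁻¹ * t * b := by rw [inv_inv]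
    rw [h2] at h1
    exact h1.2

end Cfsg.Agent.S3078
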