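import Mathlib
import Cfsg.Statements.S3087

set_option autoImplicit false
open Cfsg

namespace Cfsg.Agent.S3087

variable {G V : Type*} [Group G] [Finite G] [AddCommGroup V] [Finite V] (p : ℕ) [Fact p.Prime]
  [Module (ZMod p) V]

/-- fixed points of a subgroup -/
def fixSub (ρ : Representation (ZMod p) G V) (X : Subgroup G) : Submodule (ZMod p) V where
  carrier := {v | ∀ x ∈ X, ρ x v = v}
  add_mem' := by
    intro a b ha hb x hx
    simp only [map_add, ha x hx, hb x hx]
  zero_mem' := by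
    intro x _
    simp
  smul_mem' := by
    intro c v hv x hx
    simp only [map_smul, hv x hx]

lemma card_sub (S : Submodule (ZMod p) V) :
    Nat.card S = p ^ Module.finrank (ZMod p) S := by
  rw [Module.natCard_eq_pow_finrank (K := ZMod p) (V := S), Nat.card_zmod]

/-- Let p be a prime, G a finite group acting linearly on a finite vector space V over the field with p elements, W a G-invariant subspace, and A a subgroup of G with |A|·|C_V(A)| ≥ |B|·|C_V(B)| for every subgroup B of A. Then |A|·|C_W(A)| ≥ |B|·|C_W(B)| for every subgroup B of A that contains C_A(W); that is, the image of A in the group induced on W satisfies the same maximality condition. -/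
theorem result {G V : Type*} [Group G] [Finite G] [AddCommGroup V] [Finite V] (p : ℕ) [Fact p.Prime] [Module (ZMod p) V]
    (ρ : Representation (ZMod p) G V) (W : Submodule (ZMod p) V) (hW : ∀ g : G, ∀ w ∈ W, ρ g w ∈ W)
    (A : Subgroup G)
    (hP : ∀ B : Subgroup G, B ≤ A →
      Nat.card ↥B * Nat.card {v : V // ∀ b ∈ B, ρ b v = v} ≤ Nat.card ↥A * Nat.card {v : V // ∀ a ∈ A, ρ a v = v})
    (B : Subgroup G) (hBA : B ≤ A) (hCB : ∀ a ∈ A, (∀ w ∈ W, ρ a w = w) → a ∈ B) :
    Nat.card ↥B * Nat.card {w : W // ∀ b ∈ B, ρ b w = w} ≤ Nat.card ↥A * Nat.card {w : W // ∀ a ∈ A, ρ a w = w} := by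
  have hp : 0 < p := (Fact.out : p.Prime).pos
  have hcardW : ∀ X : Subgroup G, Nat.card {w : W // ∀ b ∈ X, ρ b w = w} = p ^ Module.finrank (ZMod p) ↥(W ⊓ fixSub p ρ X) := by
    intro X
    rw [← card_sub p (W ⊓ fixSub p ρ X)]
    apply Nat.card_congr
    exact
      { toFun := fun w => ⟨w.1.1, ⟨w.1.2, w.2⟩⟩
        invFun := fun w => ⟨⟨w.1, w.2.1⟩, w.2.2⟩
        left_inv := fun _ => rfl
        right_inv := fun _ => rfl }
  have hcardV : ∀ X : Subgroup G, Nat.card {v : V // ∀ b ∈ X, ρ b v = v} = p ^ Module.finrank (ZMod p) ↥(fixSub p ρ X) := by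
    intro X
    rw [← card_sub p (fixSub p ρ X)]
    rfl
  have h0 := hP B hBA
  rw [hcardV, hcardV] at h0
  rw [hcardW, hcardW]
  -- dimension count
  have hanti : fixSub p ρ A ≤ fixSub p ρ B := fun v hv x hx => hv x (hBA hx)
  have hdim := Submodule.finrank_sup_add_finrank_inf_eq (W ⊓ fixSub p ρ B) (fixSub p ρ A)
  have hinf : (W ⊓ fixSub p ρ B) ⊓ fixSub p ρ A = W ⊓ fixSub p ρ A := by
    rw [inf_assoc, inf_eq_right.mpr hanti]
  have hsup : (W ⊓ fixSub p ρ B) ⊔ fixSub p ρ A ≤ fixSub p ρ B := sup_le inf_le_right hanti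
  have hle := Submodule.finrank_mono hsup
  rw [hinf] at hdim
  set u := Module.finrank (ZMod p) ↥(W ⊓ fixSub p ρ B)
  set a := Module.finrank (ZMod p) ↥(W ⊓ fixSub p ρ A)
  set c := Module.finrank (ZMod p) ↥(fixSub p ρ A)
  set d := Module.finrank (ZMod p) ↥(fixSub p ρ B)
  have h1 : u + c ≤ d + a := by omega
  have h2 : p ^ (u + c) ≤ p ^ (d + a) := Nat.pow_le_pow_right hp h1
  have h3 : Nat.card B * p ^ u * p ^ c ≤ Nat.card A * p ^ a * p ^ c := by
    calc Nat.card B * p ^ u * p ^ c = Nat.card B * p ^ (u + c) := by rw [pow_add]; ring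
      _ ≤ Nat.card B * p ^ (d + a) := Nat.mul_le_mul_left _ h2
      _ = (Nat.card B * p ^ d) * p ^ a := by rw [pow_add]; ring
      _ ≤ (Nat.card A * p ^ c) * p ^ a := Nat.mul_le_mul_right _ h0
      _ = Nat.card A * p ^ a * p ^ c := by ring
  exact Nat.le_of_mul_le_mul_right h3 (by positivity)

end Cfsg.Agent.S3087
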