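import Mathlib
import Cfsg.Statements.S3155

set_option autoImplicit false
open Cfsg

namespace Cfsg.Agent.S3155

/-- Let B be the direct product of three cyclic groups of order 4. Then the automorphism of B inverting every element is not the square of any automorphism of B. -/
theorem result {B : Type*} [CommGroup B] [Finite B] (hB : Nonempty (B ≃* Multiplicative (ZMod 4 × ZMod 4 × ZMod 4)))
    (τ : B ≃* B) : τ.trans τ ≠ MulEquiv.inv B := by
  intro h
  obtain ⟨e⟩ := hB
  let M := ZMod 4 × ZMod 4 × ZMod 4
  let f : M →+ M :=
    { toFun := fun x => Multiplicative.toAdd (e (τ (e.symm (Multiplicative.ofAdd x))))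
      map_zero' := by
        simp
      map_add' := by
        intro x y
        simp [ofAdd_add] }
  let σ : M →ₗ[ZMod 4] M := f.toZModLinearMap 4
  have hσ : ∀ x, σ (σ x) = -x := by
    intro x
    have h1 : τ (τ (e.symm (Multiplicative.ofAdd x))) = (e.symm (Multiplicative.ofAdd x))⁻¹ := by
      have := congrArg (fun φ : B ≃* B => φ (e.symm (Multiplicative.ofAdd x))) h
      simpa using this
    change Multiplicative.toAdd (e (τ (e.symm (Multiplicative.ofAdd
      (Multiplicative.toAdd (e (τ (e.symm (Multiplicative.ofAdd x)))))))))  = -x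
    simp [h1]
  have hmul : σ * σ = (-1 : ZMod 4) • (1 : M →ₗ[ZMod 4] M) := by
    apply LinearMap.ext
    intro x
    rw [Module.End.mul_apply, hσ]
    simp
  have hdet := congrArg LinearMap.det hmul
  rw [map_mul, LinearMap.det_smul, map_one, mul_one] at hdet
  have hfr : Module.finrank (ZMod 4) M = 3 := by
    haveI : Fact (1 < 4) := ⟨by norm_num⟩
    haveI : Nontrivial (ZMod 4) := ZMod.nontrivial 4
    rw [Module.finrank_prod, Module.finrank_prod, Module.finrank_self]
  rw [hfr] at hdet
  have hfinal : ∀ a : ZMod 4, a * a ≠ (-1) ^ 3 := by decide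
  exact hfinal _ hdet

end Cfsg.Agent.S3155
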