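import Cfsg.Statements.S3171
import Mathlib
import Cfsg.Agent.Lib.H01.Basic
import Cfsg.Agent.Lib.H18.UT5

set_option autoImplicit false
open Cfsg

namespace Cfsg.Agent.S3171


set_option linter.unusedSectionVars false
set_option linter.style.haveILetI false
set_option maxRecDepth 100000

open Cfsg.Agent.H27.Golay Cfsg.Agent.H18.UT5

lemma z2 : ∀ t : ZMod 2, t = 0 ∨ t = 1 := by decide

lemma z2_add_self : ∀ t : ZMod 2, t + t = 0 := by decide

/-! ### The embedding in `M24` -/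

noncomputable def Psi0 (x : UT) : Equiv.Perm GolayPt := P (tl (cd x))

lemma ok (x : UT) : permOK (tl (cd x)) = true := by
  cases x
  exact chk_ok _ _ _ _ _ _ _ _ _ _

lemma hom_gen (x y : UT) (hy : y ∈ EL) : Psi0 (x * y) = Psi0 x * Psi0 y := by
  unfold Psi0
  rw [← P_pcomp (ok x) (ok y)]
  cases x
  rw [chk_hom _ _ _ _ _ _ _ _ _ _ y hy]
  rfl

lemma mem_closure_EL (x : UT) : x ∈ Submonoid.closure {y : UT | y ∈ EL} := by
  have hmem : ∀ y ∈ EL, y ∈ Submonoid.closure {y : UT | y ∈ EL} :=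
    fun y hy => Submonoid.subset_closure hy
  have h45 : (⟨0, 0, 0, x.a45, 0, 0, 0, 0, 0, 0⟩ : UT) ∈ Submonoid.closure {y : UT | y ∈ EL} := by
    rcases z2 x.a45 with h | h <;> rw [h]
    · exact one_mem _
    · exact hmem _ (by simp [EL])
  have h34 : (⟨0, 0, x.a34, 0, 0, 0, 0, 0, 0, 0⟩ : UT) ∈ Submonoid.closure {y : UT | y ∈ EL} := by
    rcases z2 x.a34 with h | h <;> rw [h]
    · exact one_mem _
    · exact hmem _ (by simp [EL])
  have h35 : (⟨0, 0, 0, 0, 0, 0, x.a35, 0, 0, 0⟩ : UT) ∈ Submonoid.closure {y : UT | y ∈ EL} := by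
    rcases z2 x.a35 with h | h <;> rw [h]
    · exact one_mem _
    · exact hmem _ (by simp [EL])
  have h23 : (⟨0, x.a23, 0, 0, 0, 0, 0, 0, 0, 0⟩ : UT) ∈ Submonoid.closure {y : UT | y ∈ EL} := by
    rcases z2 x.a23 with h | h <;> rw [h]
    · exact one_mem _
    · exact hmem _ (by simp [EL])
  have h24 : (⟨0, 0, 0, 0, 0, x.a24, 0, 0, 0, 0⟩ : UT) ∈ Submonoid.closure {y : UT | y ∈ EL} := by
    rcases z2 x.a24 with h | h <;> rw [h]
    · exact one_mem _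
    · exact hmem _ (by simp [EL])
  have h25 : (⟨0, 0, 0, 0, 0, 0, 0, 0, x.a25, 0⟩ : UT) ∈ Submonoid.closure {y : UT | y ∈ EL} := by
    rcases z2 x.a25 with h | h <;> rw [h]
    · exact one_mem _
    · exact hmem _ (by simp [EL])
  have h12 : (⟨x.a12, 0, 0, 0, 0, 0, 0, 0, 0, 0⟩ : UT) ∈ Submonoid.closure {y : UT | y ∈ EL} := by
    rcases z2 x.a12 with h | h <;> rw [h]
    · exact one_mem _
    · exact hmem _ (by simp [EL])
  have h13 : (⟨0, 0, 0, 0, x.a13, 0, 0, 0, 0, 0⟩ : UT) ∈ Submonoid.closure {y : UT | y ∈ EL} := by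
    rcases z2 x.a13 with h | h <;> rw [h]
    · exact one_mem _
    · exact hmem _ (by simp [EL])
  have h14 : (⟨0, 0, 0, 0, 0, 0, 0, x.a14, 0, 0⟩ : UT) ∈ Submonoid.closure {y : UT | y ∈ EL} := by
    rcases z2 x.a14 with h | h <;> rw [h]
    · exact one_mem _
    · exact hmem _ (by simp [EL])
  have h15 : (⟨0, 0, 0, 0, 0, 0, 0, 0, 0, x.a15⟩ : UT) ∈ Submonoid.closure {y : UT | y ∈ EL} := by
    rcases z2 x.a15 with h | h <;> rw [h]
    · exact one_mem _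
    · exact hmem _ (by simp [EL])
  have hx : x = (⟨0, 0, 0, x.a45, 0, 0, 0, 0, 0, 0⟩ : UT) * (⟨0, 0, x.a34, 0, 0, 0, 0, 0, 0, 0⟩ : UT) *
      (⟨0, 0, 0, 0, 0, 0, x.a35, 0, 0, 0⟩ : UT) * (⟨0, x.a23, 0, 0, 0, 0, 0, 0, 0, 0⟩ : UT) *
      (⟨0, 0, 0, 0, 0, x.a24, 0, 0, 0, 0⟩ : UT) * (⟨0, 0, 0, 0, 0, 0, 0, 0, x.a25, 0⟩ : UT) *
      (⟨x.a12, 0, 0, 0, 0, 0, 0, 0, 0, 0⟩ : UT) * (⟨0, 0, 0, 0, x.a13, 0, 0, 0, 0, 0⟩ : UT) *
      (⟨0, 0, 0, 0, 0, 0, 0, x.a14, 0, 0⟩ : UT) * (⟨0, 0, 0, 0, 0, 0, 0, 0, 0, x.a15⟩ : UT) := by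
    ext <;> simp only [UT.mul_a12, UT.mul_a23, UT.mul_a34, UT.mul_a45, UT.mul_a13, UT.mul_a24,
      UT.mul_a35, UT.mul_a14, UT.mul_a25, UT.mul_a15] <;> ring
  rw [hx]
  exact mul_mem (mul_mem (mul_mem (mul_mem (mul_mem (mul_mem (mul_mem (mul_mem (mul_mem h45 h34) h35) h23) h24) h25) h12) h13) h14) h15

lemma closure_EL : Submonoid.closure {y : UT | y ∈ EL} = ⊤ := by
  rw [eq_top_iff]
  intro x _
  exact mem_closure_EL x

lemma Psi0_one : Psi0 1 = 1 := by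
  unfold Psi0
  rw [chk_cd1]
  have hok : permOK (tl 0) = true := by
    have := ok 1
    rwa [chk_cd1] at this
  ext p
  rw [P_apply hok, Nat.eq_of_beq_eq_true (allBelow_spec chk_one _ (idx_lt p)), pt_idx]
  rfl

noncomputable def Psi : UT →* Equiv.Perm GolayPt :=
  MonoidHom.ofClosureMEqTopRight Psi0 closure_EL Psi0_one (fun x y hy => hom_gen x y hy)

lemma Psi_apply (x : UT) : Psi x = P (tl (cd x)) := rfl

lemma Psi_mem (x : UT) : Psi x ∈ Cfsg.M24 := by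
  induction mem_closure_EL x using Submonoid.closure_induction with
  | mem y hy => exact P_mem_M24 (chk_m24 y hy)
  | one => rw [map_one]; exact one_mem _
  | mul a b _ _ ha hb => rw [map_mul]; exact mul_mem ha hb

lemma Psi_inj : Function.Injective Psi := by
  rw [injective_iff_map_eq_one]
  intro x hx
  rcases x with ⟨a12, a23, a34, a45, a13, a24, a35, a14, a25, a15⟩
  rcases chk_inj a12 a23 a34 a45 a13 a24 a35 a14 a25 a15 with h | ⟨i, hi⟩
  · obtain ⟨h1, h2, h3, h4, h5, h6, h7, h8, h9, h10⟩ := h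
    subst h1 h2 h3 h4 h5 h6 h7 h8 h9 h10
    rfl
  · exfalso
    apply hi
    have h1 := idx_P (ok ⟨a12, a23, a34, a45, a13, a24, a35, a14, a25, a15⟩) (pt i.1)
    rw [idx_pt' i.2] at h1
    rw [← h1]
    have h2 : P (tl (cd ⟨a12, a23, a34, a45, a13, a24, a35, a14, a25, a15⟩)) = 1 := hx
    rw [h2]
    exact idx_pt' i.2

noncomputable def Psi' : UT →* ↥Cfsg.M24 := Psi.codRestrict Cfsg.M24 Psi_mem

lemma Psi'_inj : Function.Injective Psi' := by
  intro x y h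
  exact Psi_inj (congrArg Subtype.val h)

def UTequiv : UT ≃ (ZMod 2 × ZMod 2 × ZMod 2 × ZMod 2 × ZMod 2 × ZMod 2 × ZMod 2 × ZMod 2 × ZMod 2 × ZMod 2) where
  toFun x := (x.a12, x.a23, x.a34, x.a45, x.a13, x.a24, x.a35, x.a14, x.a25, x.a15)
  invFun t := ⟨t.1, t.2.1, t.2.2.1, t.2.2.2.1, t.2.2.2.2.1, t.2.2.2.2.2.1, t.2.2.2.2.2.2.1,
    t.2.2.2.2.2.2.2.1, t.2.2.2.2.2.2.2.2.1, t.2.2.2.2.2.2.2.2.2⟩
  left_inv _ := rfl
  right_inv _ := rfl

lemma card_UT : Nat.card UT = 1024 := by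
  rw [Nat.card_congr UTequiv]
  simp only [Nat.card_prod, Nat.card_zmod]

instance : Finite UT := Finite.of_equiv _ UTequiv.symm

lemma exists_equiv (P : Sylow 2 ↥Cfsg.M24) : Nonempty (↥(P : Subgroup ↥Cfsg.M24) ≃* UT) := by
  haveI : Fact (Nat.Prime 2) := ⟨Nat.prime_two⟩
  have hcard : Nat.card ↥Psi'.range = 2 ^ (Nat.card ↥Cfsg.M24).factorization 2 := by
    rw [H13.M24S.factorization_card_M24, ← Nat.card_congr (MonoidHom.ofInjective Psi'_inj).toEquiv, card_UT]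
    norm_num
  let Q : Sylow 2 ↥Cfsg.M24 := Sylow.ofCard Psi'.range hcard
  exact ⟨(Sylow.equiv P Q).trans (MonoidHom.ofInjective Psi'_inj).symm⟩

/-! ### The central quotient -/

def qq : UT →* S0 where
  toFun x := ⟨x.a12, x.a23, x.a34, x.a45, x.a13, x.a24, x.a35, x.a14, x.a25⟩
  map_one' := rfl
  map_mul' _ _ := rfl

lemma qq_surj : Function.Surjective qq := fun y =>
  ⟨⟨y.a12, y.a23, y.a34, y.a45, y.a13, y.a24, y.a35, y.a14, y.a25, 0⟩, rfl⟩

lemma center_eq : Subgroup.center UT = qq.ker := by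
  ext x
  rw [Subgroup.mem_center_iff, MonoidHom.mem_ker]
  constructor
  · intro h
    rcases x with ⟨a12, a23, a34, a45, a13, a24, a35, a14, a25, a15⟩
    obtain ⟨h1, h2, h3, h4, h5, h6, h7, h8, h9⟩ := chk_center a12 a23 a34 a45 a13 a24 a35 a14 a25 a15
      (fun y _ => h y)
    subst h1 h2 h3 h4 h5 h6 h7 h8 h9
    rfl
  · intro h g
    have h1 : x.a12 = 0 := congrArg S0.a12 h
    have h2 : x.a23 = 0 := congrArg S0.a23 h
    have h3 : x.a34 = 0 := congrArg S0.a34 h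
    have h4 : x.a45 = 0 := congrArg S0.a45 h
    have h5 : x.a13 = 0 := congrArg S0.a13 h
    have h6 : x.a24 = 0 := congrArg S0.a24 h
    have h7 : x.a35 = 0 := congrArg S0.a35 h
    have h8 : x.a14 = 0 := congrArg S0.a14 h
    have h9 : x.a25 = 0 := congrArg S0.a25 h
    ext <;> simp only [UT.mul_a12, UT.mul_a23, UT.mul_a34, UT.mul_a45, UT.mul_a13, UT.mul_a24,
      UT.mul_a35, UT.mul_a14, UT.mul_a25, UT.mul_a15, h1, h2, h3, h4, h5, h6, h7, h8, h9] <;> ring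

/-! ### The invariant properties -/

def Good (S : Type) [Group S] : Prop :=
  (∀ M : Subgroup S, IsCoatom M → Nat.card ↥(Subgroup.center ↥M) ≤ 8) ∧
    (∃ A : Subgroup S, Cfsg.IsElementaryAbelian 2 A ∧ Nat.card ↥A = 64) ∧
    ∀ A B : Subgroup S, IsMulCommutative ↥A → Nat.card ↥A = 64 → IsMulCommutative ↥B →
      Nat.card ↥B = 64 → A = B

lemma Good.of_equiv {X Y : Type} [Group X] [Group Y] (e : X ≃* Y) (h : Good X) : Good Y := by
  refine ⟨?_, ?_, ?_⟩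
  · intro M hM
    have h1 : IsCoatom (M.comap e.toMonoidHom) := (OrderIso.isCoatom_iff (e.comapSubgroup) M).2 hM
    have h2 := h.1 _ h1
    let eM : ↥(M.comap e.toMonoidHom) ≃* ↥M :=
      { toFun := fun x => ⟨e x.1, x.2⟩
        invFun := fun y => ⟨e.symm y.1, by
          change e (e.symm y.1) ∈ M
          rw [e.apply_symm_apply]
          exact y.2⟩
        left_inv := fun x => Subtype.ext (e.symm_apply_apply x.1)
        right_inv := fun y => Subtype.ext (e.apply_symm_apply y.1)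
        map_mul' := fun x y => Subtype.ext (map_mul e x.1 y.1) }
    rwa [Nat.card_congr (Subgroup.centerCongr eM).toEquiv] at h2
  · obtain ⟨A, hA, hc⟩ := h.2.1
    refine ⟨A.map e.toMonoidHom, ?_, ?_⟩
    · refine ⟨⟨⟨?_⟩⟩, ?_⟩
      · rintro ⟨_, a, ha, rfl⟩ ⟨_, b, hb, rfl⟩
        apply Subtype.ext
        have h1 := hA.1.is_comm.comm ⟨a, ha⟩ ⟨b, hb⟩
        have h2 : a * b = b * a := congrArg Subtype.val h1
        show e a * e b = e b * e a
        rw [← map_mul, ← map_mul, h2]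
      · rintro _ ⟨a, ha, rfl⟩
        show (e a) ^ 2 = 1
        rw [← map_pow, hA.2 a ha, map_one]
    · rw [Nat.card_congr (A.equivMapOfInjective _ e.injective).toEquiv.symm, hc]
  · intro A B hA hAc hB hBc
    have key : ∀ C : Subgroup Y, IsMulCommutative ↥C → Nat.card ↥C = 64 →
        IsMulCommutative ↥(C.comap e.toMonoidHom) ∧ Nat.card ↥(C.comap e.toMonoidHom) = 64 := by
      intro C hC hCc
      constructor
      · refine ⟨⟨fun a b => Subtype.ext ?_⟩⟩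
        apply e.injective
        have h1 := hC.is_comm.comm (⟨e a.1, a.2⟩ : ↥C) ⟨e b.1, b.2⟩
        have h2 : e a.1 * e b.1 = e b.1 * e a.1 := congrArg Subtype.val h1
        show e (a.1 * b.1) = e (b.1 * a.1)
        rw [map_mul, map_mul, h2]
      · rw [← hCc]
        refine Nat.card_congr ⟨fun x => ⟨e x.1, x.2⟩, fun y => ⟨e.symm y.1, ?_⟩, fun x => ?_, fun y => ?_⟩
        · change e (e.symm y.1) ∈ C
          rw [e.apply_symm_apply]
          exact y.2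
        · exact Subtype.ext (e.symm_apply_apply x.1)
        · exact Subtype.ext (e.apply_symm_apply y.1)
    obtain ⟨h1, h2⟩ := key A hA hAc
    obtain ⟨h3, h4⟩ := key B hB hBc
    have h5 := h.2.2 _ _ h1 h2 h3 h4
    exact Subgroup.comap_injective e.surjective h5

/-! ### The group `S0` -/

def S0equiv : S0 ≃ T9 where
  toFun x := (x.a12, x.a23, x.a34, x.a45, x.a13, x.a24, x.a35, x.a14, x.a25)
  invFun t := ⟨t.1, t.2.1, t.2.2.1, t.2.2.2.1, t.2.2.2.2.1, t.2.2.2.2.2.1, t.2.2.2.2.2.2.1,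
    t.2.2.2.2.2.2.2.1, t.2.2.2.2.2.2.2.2⟩
  left_inv _ := rfl
  right_inv _ := rfl

instance : Finite S0 := Finite.of_equiv _ S0equiv.symm

lemma card_S0 : Nat.card S0 = 512 := by
  rw [Nat.card_congr S0equiv]
  simp only [Nat.card_prod, Nat.card_zmod]

lemma isP_S0 : IsPGroup 2 S0 := IsPGroup.of_card (n := 9) (by rw [card_S0]; norm_num)

def A0 : Subgroup S0 where
  carrier := {w | w.a23 = 0 ∧ w.a24 = 0 ∧ w.a34 = 0}
  mul_mem' := by
    rintro a b ⟨h1, h2, h3⟩ ⟨h4, h5, h6⟩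
    refine ⟨?_, ?_, ?_⟩ <;> simp only [S0.mul_a23, S0.mul_a24, S0.mul_a34, h1, h2, h3, h4, h5, h6] <;> ring
  one_mem' := ⟨rfl, rfl, rfl⟩
  inv_mem' := by
    rintro a ⟨h1, h2, h3⟩
    refine ⟨?_, ?_, ?_⟩ <;> simp only [S0.inv_a23, S0.inv_a24, S0.inv_a34, h1, h2, h3] <;> ring

def vv (x : S0) : V3 := (x.a23, x.a24, x.a34)

def ww (x : S0) : W6 := (x.a12, x.a13, x.a14, x.a25, x.a35, x.a45)

lemma card_A0 : Nat.card ↥A0 = 64 := by
  have h : Nat.card W6 = 64 := by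
    simp only [Nat.card_prod, Nat.card_zmod]
  rw [← h]
  refine Nat.card_congr ⟨fun w => ww w.1,
    fun t => ⟨⟨t.1, 0, 0, t.2.2.2.2.2, t.2.1, 0, t.2.2.2.2.1, t.2.2.1, t.2.2.2.1⟩, rfl, rfl, rfl⟩,
    fun w => ?_, fun t => rfl⟩
  exact Subtype.ext (S0.ext rfl w.2.1.symm w.2.2.2.symm rfl rfl w.2.2.1.symm rfl rfl rfl)

lemma A0_el : Cfsg.IsElementaryAbelian 2 A0 := by
  refine ⟨⟨⟨?_⟩⟩, ?_⟩
  · rintro ⟨a, h1, h2, h3⟩ ⟨b, h4, h5, h6⟩
    apply Subtype.ext
    show a * b = b * a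
    ext <;> simp only [S0.mul_a12, S0.mul_a23, S0.mul_a34, S0.mul_a45, S0.mul_a13, S0.mul_a24,
      S0.mul_a35, S0.mul_a14, S0.mul_a25, h1, h2, h3, h4, h5, h6] <;> ring
  · rintro a ⟨h1, h2, h3⟩
    rw [sq]
    ext <;> simp only [S0.mul_a12, S0.mul_a23, S0.mul_a34, S0.mul_a45, S0.mul_a13, S0.mul_a24,
      S0.mul_a35, S0.mul_a14, S0.mul_a25, S0.one_a12, S0.one_a23, S0.one_a34, S0.one_a45, S0.one_a13,
      S0.one_a24, S0.one_a35, S0.one_a14, S0.one_a25, h1, h2, h3, mul_zero, zero_mul, add_zero,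
      z2_add_self]

lemma comm_eqn {x w : S0} (hw : w ∈ A0) (h : x * w = w * x) : eqn (vv x) (ww w) := by
  obtain ⟨hw23, hw24, hw34⟩ := hw
  have h1 := congrArg S0.a13 h
  have h2 := congrArg S0.a35 h
  have h3 := congrArg S0.a14 h
  have h4 := congrArg S0.a25 h
  simp only [S0.mul_a13, S0.mul_a35, S0.mul_a14, S0.mul_a25] at h1 h2 h3 h4
  refine ⟨?_, ?_, ?_, ?_⟩
  · show x.a23 * w.a12 = 0
    linear_combination x.a12 * hw23 - h1
  · show x.a34 * w.a45 = 0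
    linear_combination h2 + x.a45 * hw34
  · show x.a24 * w.a12 + x.a34 * w.a13 = 0
    linear_combination -h3 + x.a12 * hw24 + x.a13 * hw34
  · show x.a23 * w.a35 + x.a24 * w.a45 = 0
    linear_combination h4 + x.a35 * hw23 + x.a45 * hw24

lemma A0_of_vv {x y : S0} (h : vv x = vv y) : x⁻¹ * y ∈ A0 := by
  have hy : y = x * (x⁻¹ * y) := by group
  obtain ⟨w, hw⟩ : ∃ w, w = x⁻¹ * y := ⟨_, rfl⟩
  rw [← hw] at hy ⊢
  have h1 : x.a23 = y.a23 := congrArg Prod.fst h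
  have h2 : x.a24 = y.a24 := congrArg (fun t : V3 => t.2.1) h
  have h3 : x.a34 = y.a34 := congrArg (fun t : V3 => t.2.2) h
  have h4 : y.a23 = x.a23 + w.a23 := congrArg S0.a23 hy
  have h5 : y.a34 = x.a34 + w.a34 := congrArg S0.a34 hy
  have h6 : y.a24 = x.a24 + w.a24 + x.a23 * w.a34 := congrArg S0.a24 hy
  have h7 : w.a34 = 0 := by linear_combination -h5 - h3
  have h8 : w.a23 = 0 := by linear_combination -h4 - h1
  have h9 : w.a24 = 0 := by linear_combination -h6 - h2 - x.a23 * h7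
  exact ⟨h8, h9, h7⟩

lemma uniq (A : Subgroup S0) (hc : IsMulCommutative ↥A) (hA : Nat.card ↥A = 64) : A = A0 := by
  classical
  have hle : A ≤ A0 := by
    by_contra hnot
    obtain ⟨x0, hx0A, hx0⟩ := SetLike.not_le_iff_exists.1 hnot
    haveI := Fintype.ofFinite S0
    obtain ⟨Af, hAf⟩ : ∃ Af : Finset S0, Af = Finset.univ.filter (· ∈ A) := ⟨_, rfl⟩
    have hmem : ∀ x, x ∈ Af ↔ x ∈ A := by
      intro x
      rw [hAf]
      simp
    have hAc : Af.card = 64 := by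
      rw [← hA]
      exact (Nat.subtype_card Af hmem).symm
    obtain ⟨F, hF⟩ : ∃ F : Finset V3, F = Af.image vv := ⟨_, rfl⟩
    obtain ⟨Bf, hBf⟩ : ∃ Bf : Finset S0, Bf = Af.filter (· ∈ A0) := ⟨_, rfl⟩
    have hB : ∀ x, x ∈ Bf ↔ x ∈ A ∧ x ∈ A0 := by
      intro x
      rw [hBf, Finset.mem_filter, hmem]
    have h1 : Af.card ≤ Bf.card * F.card := by
      rw [hF]
      refine Finset.card_le_mul_card_image Af Bf.card ?_
      intro a ha
      obtain ⟨x1, hx1, rfl⟩ := Finset.mem_image.1 ha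
      refine Finset.card_le_card_of_injOn (fun y => x1⁻¹ * y) ?_ ?_
      · intro y hy
        have hy' := Finset.mem_filter.1 (Finset.mem_coe.1 hy)
        refine Finset.mem_coe.2 ((hB _).2 ⟨mul_mem (inv_mem ((hmem _).1 hx1)) ((hmem _).1 hy'.1), ?_⟩)
        exact A0_of_vv hy'.2.symm
      · intro y _ y' _ hyy
        exact mul_left_cancel hyy
    have h2 : Bf.card ≤ cF F := by
      refine Finset.card_le_card_of_injOn ww ?_ ?_
      · intro w hw
        obtain ⟨hwA, hwA0⟩ := (hB w).1 (Finset.mem_coe.1 hw)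
        refine Finset.mem_coe.2 (Finset.mem_filter.2 ⟨Finset.mem_univ _, ?_⟩)
        intro v hv
        rw [hF] at hv
        obtain ⟨x, hx, rfl⟩ := Finset.mem_image.1 hv
        have hxA := (hmem x).1 hx
        have hcomm := hc.is_comm.comm (⟨x, hxA⟩ : ↥A) ⟨w, hwA⟩
        exact comm_eqn hwA0 (congrArg Subtype.val hcomm)
      · intro w hw w' hw' hww
        obtain ⟨_, h23, h24, h34⟩ := (hB w).1 (Finset.mem_coe.1 hw)
        obtain ⟨_, h23', h24', h34'⟩ := (hB w').1 (Finset.mem_coe.1 hw')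
        have e1 : w.a12 = w'.a12 := congrArg Prod.fst hww
        have e2 : w.a13 = w'.a13 := congrArg (fun t : W6 => t.2.1) hww
        have e3 : w.a14 = w'.a14 := congrArg (fun t : W6 => t.2.2.1) hww
        have e4 : w.a25 = w'.a25 := congrArg (fun t : W6 => t.2.2.2.1) hww
        have e5 : w.a35 = w'.a35 := congrArg (fun t : W6 => t.2.2.2.2.1) hww
        have e6 : w.a45 = w'.a45 := congrArg (fun t : W6 => t.2.2.2.2.2) hww
        exact S0.ext e1 (h23.trans h23'.symm) (h34.trans h34'.symm) e6 e2 (h24.trans h24'.symm) e5 e3 e4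
    have h3 : cF F * F.card ≤ 32 := by
      refine chk_ab F ⟨vv x0, ?_, ?_⟩
      · rw [hF]
        exact Finset.mem_image_of_mem _ ((hmem _).2 hx0A)
      · intro h
        apply hx0
        have h4 : x0.a23 = 0 := congrArg Prod.fst h
        have h5 : x0.a24 = 0 := congrArg (fun t : V3 => t.2.1) h
        have h6 : x0.a34 = 0 := congrArg (fun t : V3 => t.2.2) h
        exact ⟨h4, h5, h6⟩
    have h4 : Af.card ≤ cF F * F.card := h1.trans (Nat.mul_le_mul_right _ h2)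
    omega
  exact Subgroup.eq_of_le_of_card_ge hle (by rw [hA, card_A0])

lemma comE_of_comm {x y : S0} (h : x * y = y * x) : comE (S0equiv x) (S0equiv y) := by
  have h1 := congrArg S0.a13 h
  have h2 := congrArg S0.a24 h
  have h3 := congrArg S0.a35 h
  have h4 := congrArg S0.a14 h
  have h5 := congrArg S0.a25 h
  simp only [S0.mul_a13, S0.mul_a24, S0.mul_a35, S0.mul_a14, S0.mul_a25] at h1 h2 h3 h4 h5
  refine ⟨?_, ?_, ?_, ?_, ?_⟩
  · show x.a12 * y.a23 = y.a12 * x.a23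
    linear_combination h1
  · show x.a23 * y.a34 = y.a23 * x.a34
    linear_combination h2
  · show x.a34 * y.a45 = y.a34 * x.a45
    linear_combination h3
  · show x.a12 * y.a24 + x.a13 * y.a34 = y.a12 * x.a24 + y.a13 * x.a34
    linear_combination h4
  · show x.a23 * y.a35 + x.a24 * y.a45 = y.a23 * x.a35 + y.a24 * x.a45
    linear_combination h5

def e12 : S0 := ⟨1, 0, 0, 0, 0, 0, 0, 0, 0⟩
def e23 : S0 := ⟨0, 1, 0, 0, 0, 0, 0, 0, 0⟩
def e34 : S0 := ⟨0, 0, 1, 0, 0, 0, 0, 0, 0⟩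
def e45 : S0 := ⟨0, 0, 0, 1, 0, 0, 0, 0, 0⟩
def e13 : S0 := ⟨0, 0, 0, 0, 1, 0, 0, 0, 0⟩
def e24 : S0 := ⟨0, 0, 0, 0, 0, 1, 0, 0, 0⟩
def e35 : S0 := ⟨0, 0, 0, 0, 0, 0, 1, 0, 0⟩
def e14 : S0 := ⟨0, 0, 0, 0, 0, 0, 0, 1, 0⟩
def e25 : S0 := ⟨0, 0, 0, 0, 0, 0, 0, 0, 1⟩

lemma e13_eq : e13 = e12 * e23 * e12⁻¹ * e23⁻¹ := by decide +kernel
lemma e24_eq : e24 = e23 * e34 * e23⁻¹ * e34⁻¹ := by decide +kernel
lemma e35_eq : e35 = e34 * e45 * e34⁻¹ * e45⁻¹ := by decide +kernel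
lemma e14_eq : e14 = e13 * e34 * e13⁻¹ * e34⁻¹ := by decide +kernel
lemma e25_eq : e25 = e24 * e45 * e24⁻¹ * e45⁻¹ := by decide +kernel

lemma co (M : Subgroup S0) (hM : IsCoatom M) : Nat.card ↥(Subgroup.center ↥M) ≤ 8 := by
  classical
  haveI : Fact (Nat.Prime 2) := ⟨Nat.prime_two⟩
  obtain ⟨_, hidx⟩ := H01.isCoatom_normal_index isP_S0 hM
  obtain ⟨χ, hχdef⟩ : ∃ χ : S0 → ZMod 2, χ = fun x => if x ∈ M then 0 else 1 := ⟨_, rfl⟩
  have hχ0 : ∀ x, χ x = 0 ↔ x ∈ M := by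
    intro x
    rw [hχdef]
    by_cases h : x ∈ M
    · simp [h]
    · simp [h]
  have hχmul : ∀ a b, χ (a * b) = χ a + χ b := by
    intro a b
    have h := Subgroup.mul_mem_iff_of_index_two hidx (a := a) (b := b)
    rw [hχdef]
    by_cases ha : a ∈ M <;> by_cases hb : b ∈ M <;> simp [h, ha, hb]
    exact (z2_add_self 1).symm
  have hχone : χ 1 = 0 := (hχ0 1).2 (one_mem _)
  have hχinv : ∀ a, χ a⁻¹ = χ a := by
    intro a
    have h := hχmul a a⁻¹
    rw [mul_inv_cancel, hχone] at h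
    linear_combination -h - z2_add_self (χ a)
  have hcomm : ∀ a b, χ (a * b * a⁻¹ * b⁻¹) = 0 := by
    intro a b
    rw [hχmul, hχmul, hχmul, hχinv, hχinv]
    linear_combination z2_add_self (χ a) + z2_add_self (χ b)
  have hmk : ∀ (c : ZMod 2) (e e' : S0), (c = 0 → e' = 1) → (c = 1 → e' = e) → χ e' = c * χ e := by
    intro c e e' h0 h1
    rcases z2 c with h | h
    · rw [h0 h, h, hχone, zero_mul]
    · rw [h1 h, h, one_mul]
  have h13 : χ e13 = 0 := by rw [e13_eq]; exact hcomm _ _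
  have h24 : χ e24 = 0 := by rw [e24_eq]; exact hcomm _ _
  have h35 : χ e35 = 0 := by rw [e35_eq]; exact hcomm _ _
  have h14 : χ e14 = 0 := by rw [e14_eq]; exact hcomm _ _
  have h25 : χ e25 = 0 := by rw [e25_eq]; exact hcomm _ _
  obtain ⟨lam, hlam⟩ : ∃ lam : L4, lam = (χ e12, χ e23, χ e34, χ e45) := ⟨_, rfl⟩
  have hχall : ∀ x : S0, χ x = lin lam (S0equiv x) := by
    intro x
    have hx : x = (⟨0, 0, 0, x.a45, 0, 0, 0, 0, 0⟩ : S0) * (⟨0, 0, x.a34, 0, 0, 0, 0, 0, 0⟩ : S0) *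
        (⟨0, 0, 0, 0, 0, 0, x.a35, 0, 0⟩ : S0) * (⟨0, x.a23, 0, 0, 0, 0, 0, 0, 0⟩ : S0) *
        (⟨0, 0, 0, 0, 0, x.a24, 0, 0, 0⟩ : S0) * (⟨0, 0, 0, 0, 0, 0, 0, 0, x.a25⟩ : S0) *
        (⟨x.a12, 0, 0, 0, 0, 0, 0, 0, 0⟩ : S0) * (⟨0, 0, 0, 0, x.a13, 0, 0, 0, 0⟩ : S0) *
        (⟨0, 0, 0, 0, 0, 0, 0, x.a14, 0⟩ : S0) := by
      ext <;> simp only [S0.mul_a12, S0.mul_a23, S0.mul_a34, S0.mul_a45, S0.mul_a13, S0.mul_a24,
        S0.mul_a35, S0.mul_a14, S0.mul_a25] <;> ring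
    have k45 := hmk x.a45 e45 (⟨0, 0, 0, x.a45, 0, 0, 0, 0, 0⟩ : S0) (fun h => by rw [h]; rfl) (fun h => by rw [h]; rfl)
    have k34 := hmk x.a34 e34 (⟨0, 0, x.a34, 0, 0, 0, 0, 0, 0⟩ : S0) (fun h => by rw [h]; rfl) (fun h => by rw [h]; rfl)
    have k35 := hmk x.a35 e35 (⟨0, 0, 0, 0, 0, 0, x.a35, 0, 0⟩ : S0) (fun h => by rw [h]; rfl) (fun h => by rw [h]; rfl)
    have k23 := hmk x.a23 e23 (⟨0, x.a23, 0, 0, 0, 0, 0, 0, 0⟩ : S0) (fun h => by rw [h]; rfl) (fun h => by rw [h]; rfl)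
    have k24 := hmk x.a24 e24 (⟨0, 0, 0, 0, 0, x.a24, 0, 0, 0⟩ : S0) (fun h => by rw [h]; rfl) (fun h => by rw [h]; rfl)
    have k25 := hmk x.a25 e25 (⟨0, 0, 0, 0, 0, 0, 0, 0, x.a25⟩ : S0) (fun h => by rw [h]; rfl) (fun h => by rw [h]; rfl)
    have k12 := hmk x.a12 e12 (⟨x.a12, 0, 0, 0, 0, 0, 0, 0, 0⟩ : S0) (fun h => by rw [h]; rfl) (fun h => by rw [h]; rfl)
    have k13 := hmk x.a13 e13 (⟨0, 0, 0, 0, x.a13, 0, 0, 0, 0⟩ : S0) (fun h => by rw [h]; rfl) (fun h => by rw [h]; rfl)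
    have k14 := hmk x.a14 e14 (⟨0, 0, 0, 0, 0, 0, 0, x.a14, 0⟩ : S0) (fun h => by rw [h]; rfl) (fun h => by rw [h]; rfl)
    have h1 : χ x = x.a45 * χ e45 + x.a34 * χ e34 + x.a35 * χ e35 + x.a23 * χ e23 + x.a24 * χ e24 +
        x.a25 * χ e25 + x.a12 * χ e12 + x.a13 * χ e13 + x.a14 * χ e14 := by
      conv_lhs => rw [hx]
      simp only [hχmul]
      rw [k45, k34, k35, k23, k24, k25, k12, k13, k14]
    rw [h1, h13, h24, h35, h14, h25, hlam]
    show _ = χ e12 * x.a12 + χ e23 * x.a23 + χ e34 * x.a34 + χ e45 * x.a45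
    ring
  have hlam0 : lam ≠ 0 := by
    intro h0
    apply hM.1
    rw [eq_top_iff]
    intro x _
    rw [← hχ0, hχall, h0]
    show (0 : ZMod 2) * _ + 0 * _ + 0 * _ + 0 * _ = 0
    ring
  have hcard := chk_co lam hlam0
  refine le_trans ?_ hcard
  let f : ↥(Subgroup.center ↥M) → ↥(YY lam) := fun z => ⟨S0equiv z.1.1, by
    refine Finset.mem_filter.2 ⟨Finset.mem_univ _, ?_, ?_⟩
    · rw [← hχall, hχ0]
      exact z.1.2
    · intro y _ hy
      have hy' : S0equiv.symm y ∈ M := by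
        rw [← hχ0, hχall, S0equiv.apply_symm_apply]
        exact hy
      have h1 := Subgroup.mem_center_iff.1 z.2 ⟨_, hy'⟩
      have h2 : S0equiv.symm y * z.1.1 = z.1.1 * S0equiv.symm y := congrArg Subtype.val h1
      have h3 := comE_of_comm h2.symm
      rwa [S0equiv.apply_symm_apply] at h3⟩
  have hf : Function.Injective f := by
    intro a b hab
    have h1 : S0equiv a.1.1 = S0equiv b.1.1 := congrArg Subtype.val hab
    exact Subtype.ext (Subtype.ext (S0equiv.injective h1))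
  have h2 := Nat.card_le_card_of_injective f hf
  rwa [Nat.card_eq_fintype_card (α := ↥(YY lam)), Fintype.card_coe] at h2

lemma good_S0 : Good S0 :=
  ⟨co, ⟨A0, A0_el, card_A0⟩, fun A B hA hAc hB hBc => (uniq A hA hAc).trans (uniq B hB hBc).symm⟩


/-- Let P be a Sylow 2-subgroup of the Mathieu group of degree 24 and S the quotient of P by its centre. Then the centre of every maximal subgroup of S has order at most 8; S has an elementary abelian subgroup of order 64; and S has only one abelian subgroup of order 64. -/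
theorem result (P : Sylow 2 ↥Cfsg.M24) :
    (∀ M : Subgroup (↥(P : Subgroup ↥Cfsg.M24) ⧸ Subgroup.center ↥(P : Subgroup ↥Cfsg.M24)), IsCoatom M →
        Nat.card ↥(Subgroup.center ↥M) ≤ 8) ∧
      (∃ A : Subgroup (↥(P : Subgroup ↥Cfsg.M24) ⧸ Subgroup.center ↥(P : Subgroup ↥Cfsg.M24)),
        Cfsg.IsElementaryAbelian 2 A ∧ Nat.card ↥A = 64) ∧
      ∀ A B : Subgroup (↥(P : Subgroup ↥Cfsg.M24) ⧸ Subgroup.center ↥(P : Subgroup ↥Cfsg.M24)),
        IsMulCommutative ↥A → Nat.card ↥A = 64 → IsMulCommutative ↥B → Nat.card ↥B = 64 → A = B := by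
  classical
obtain ⟨e1⟩ := exists_equiv P
have hcen : (Subgroup.center ↥(P : Subgroup ↥Cfsg.M24)).map e1.toMonoidHom = Subgroup.center UT := by
  ext y
  constructor
  · rintro ⟨x, hx, rfl⟩
    rw [Subgroup.mem_center_iff]
    intro g
    have h1 := Subgroup.mem_center_iff.1 hx (e1.symm g)
    have h2 := congrArg e1 h1
    simpa using h2
  · intro hy
    refine ⟨e1.symm y, ?_, by simp⟩
    rw [SetLike.mem_coe, Subgroup.mem_center_iff]
    intro g
    apply e1.injective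
    have h1 := Subgroup.mem_center_iff.1 hy (e1 g)
    simpa using h1
let e2 := QuotientGroup.congr (Subgroup.center ↥(P : Subgroup ↥Cfsg.M24)) (Subgroup.center UT) e1 hcen
let e3 := (QuotientGroup.quotientMulEquivOfEq center_eq).trans (QuotientGroup.quotientKerEquivOfSurjective qq qq_surj)
exact Good.of_equiv (e2.trans e3).symm good_S0

end Cfsg.Agent.S3171
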