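import Cfsg.Statements.S3174
import Cfsg.Agent.Lib.H27.T14b

set_option autoImplicit false
open Cfsg

namespace Cfsg.Agent.S3174



/-- Let T be a finite 2-group of order at least 2^14 in which the fourth term of the upper central series has order 16. Let W be the centralizer in T of the third term Z₃(T), and suppose the Frattini subgroup of W has order at most 8 and lies in every subgroup of W of index at most 16. Then T has order exactly 2^14; the derived subgroup of W and the Frattini subgroup of W both equal Z₃(T), which is elementary abelian of order 8; the centre of W has order 8; W is normal in T with quotient dihedral of order 8; and W modulo its derived subgroup is elementary abelian of order 2^8. -/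
theorem result {T : Type*} [Group T] [Finite T]
    (hT : IsPGroup 2 T) (ha : 2 ^ 14 ≤ Nat.card T) (hb : Nat.card ↥(Subgroup.upperCentralSeries T 4) = 16)
    (W : Subgroup T) (hW : W = Subgroup.centralizer ((Subgroup.upperCentralSeries T 3 : Subgroup T) : Set T))
    (hc : Nat.card ↥(frattini ↥W) ≤ 8) (hd : ∀ U : Subgroup ↥W, U.index ≤ 16 → frattini ↥W ≤ U) :
    Nat.card T = 2 ^ 14 ∧
      (commutator ↥W).map W.subtype = Subgroup.upperCentralSeries T 3 ∧
      (frattini ↥W).map W.subtype = Subgroup.upperCentralSeries T 3 ∧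
      Nat.card ↥(Subgroup.center ↥W) = 8 ∧
      Nat.card ↥(Subgroup.upperCentralSeries T 3) = 8 ∧ (∀ z ∈ Subgroup.upperCentralSeries T 3, z ^ 2 = 1) ∧
      (∃ (_ : W.Normal), Nonempty (T ⧸ W ≃* DihedralGroup 4)) ∧
      Nat.card (↥W ⧸ commutator ↥W) = 2 ^ 8 ∧ (∀ x : ↥W ⧸ commutator ↥W, x ^ 2 = 1) := by
  classical
  have h : Cfsg.Agent.H27.T14.Hyp W := ⟨hT, ha, hb, hW, hc, hd⟩
  have hn := h.normal
  have hc3 : Nat.card ↥(Subgroup.upperCentralSeries T 3) = 8 := by
    have := Cfsg.Agent.H27.T14.card_Z_all hT ha hb 3 (by norm_num)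
    simpa using this
  have hF : (frattini ↥W).map W.subtype = Subgroup.upperCentralSeries T 3 := h.Fr_eq
  refine ⟨h.count.2.2.2, ?_, hF, ?_, hc3, fun z hz => h.elem hz, ?_, ?_, ?_⟩
  · rw [h.comm_eq]
    exact hF
  · have h1 := h.center_eq
    have h2 : Nat.card ↥((Subgroup.center ↥W).map W.subtype) = Nat.card ↥(Subgroup.center ↥W) :=
      Subgroup.card_map_of_injective W.subtype_injective
    rw [← h2, h1]
    exact hc3
  · refine ⟨hn, ?_⟩
    obtain ⟨θ, a, -, -, hker, hsurj, -⟩ := h.exists_theta
    exact ⟨(QuotientGroup.quotientMulEquivOfEq hker.symm).trans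
      (QuotientGroup.quotientKerEquivOfSurjective θ hsurj)⟩
  · have : Nat.card (↥W ⧸ commutator ↥W) = (commutator ↥W).index := rfl
    rw [this, h.comm_eq]
    exact h.count.2.1
  · intro x
    obtain ⟨w, rfl⟩ := QuotientGroup.mk_surjective x
    rw [← QuotientGroup.mk_pow, QuotientGroup.eq_one_iff, h.comm_eq]
    exact Cfsg.Agent.H01.pow_mem_frattini_of_isPGroup h.W2 w

end Cfsg.Agent.S3174
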