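import Cfsg.Statements.S3175
import Cfsg.Agent.Lib.H27.T14

set_option autoImplicit false
open Cfsg

namespace Cfsg.Agent.S3175



/-- Let G be a finite group whose Sylow 2-subgroup T has order at least 2^14 and whose upper central series has fourth term of order 16; let W be the centralizer in T of the third term, and suppose the Frattini subgroup of W has order at most 8 and lies in every subgroup of W of index at most 16. Then the normalizer of T in G has a normal 2-complement, and W is weakly closed in T with respect to G. -/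
theorem result {G : Type*} [Group G] [Finite G]
    (T : Sylow 2 G) (ha : 2 ^ 14 ≤ Nat.card ↥(T : Subgroup G))
    (hb : Nat.card ↥(Subgroup.upperCentralSeries ↥(T : Subgroup G) 4) = 16)
    (W : Subgroup ↥(T : Subgroup G))
    (hW : W = Subgroup.centralizer ((Subgroup.upperCentralSeries ↥(T : Subgroup G) 3 : Subgroup ↥(T : Subgroup G)) : Set ↥(T : Subgroup G)))
    (hc : Nat.card ↥(frattini ↥W) ≤ 8)
    (hd : ∀ U : Subgroup ↥W, U.index ≤ 16 → frattini ↥W ≤ U) :
    Cfsg.HasNormalPComplement 2 ↥(Subgroup.normalizer ((T : Subgroup G) : Set G)) ∧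
      Cfsg.IsWeaklyClosed (W.map (T : Subgroup G).subtype) (T : Subgroup G) := by
  classical
  have hT0 : IsPGroup 2 ↥(T : Subgroup G) := T.isPGroup'
  have h : Cfsg.Agent.H27.T14.Hyp W := ⟨hT0, ha, hb, hW, hc, hd⟩
  constructor
  · -- normal complement
    have hTN : (T : Subgroup G) ≤ Subgroup.normalizer ((T : Subgroup G) : Set G) := Subgroup.le_normalizer
    let P : Sylow 2 ↥(Subgroup.normalizer ((T : Subgroup G) : Set G)) := T.subtype hTN
    haveI hPn : (P : Subgroup ↥(Subgroup.normalizer ((T : Subgroup G) : Set G))).Normal :=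
      Subgroup.normal_in_normalizer
    have hcop := P.card_coprime_index
    obtain ⟨X, hX⟩ := Subgroup.exists_left_complement'_of_coprime hcop
    have hcardP : Nat.card ↥(P : Subgroup ↥(Subgroup.normalizer ((T : Subgroup G) : Set G))) = Nat.card ↥(T : Subgroup G) :=
      Nat.card_congr (Subgroup.subgroupOfEquivOfLe hTN).toEquiv
    have h2P : 2 ∣ Nat.card ↥(P : Subgroup ↥(Subgroup.normalizer ((T : Subgroup G) : Set G))) := by
      rw [hcardP]
      rcases hT0.card_eq_or_dvd with h1 | h1
      · rw [h1] at ha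
        norm_num at ha
      · exact h1
    have hodd : Odd (Nat.card X) := by
      rw [← hX.index_eq_card]
      have h3 : Nat.Coprime 2 (P : Subgroup ↥(Subgroup.normalizer ((T : Subgroup G) : Set G))).index :=
        Nat.Coprime.coprime_dvd_left h2P hcop
      exact Nat.coprime_two_left.1 h3
    have hcent : ∀ x ∈ X, ∀ b ∈ (P : Subgroup ↥(Subgroup.normalizer ((T : Subgroup G) : Set G))), x * b = b * x := by
      intro x hx b hb
      have hox : Odd (orderOf x) := Odd.of_dvd_nat hodd (Subgroup.orderOf_dvd_natCard X hx)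
      have hα : ((T : Subgroup G).normalizerMonoidHom x) ^ (orderOf x) = 1 := by
        rw [← map_pow, pow_orderOf_eq_one, map_one]
      have h1 := h.aut_trivial hox _ hα
      have hbT : ((b : G)) ∈ (T : Subgroup G) := hb
      have h2 := congrArg (fun f : MulAut ↥(T : Subgroup G) => ((f ⟨b, hbT⟩ : ↥(T : Subgroup G)) : G)) h1
      simp only [Subgroup.normalizerMonoidHom_apply_apply_coe, MulAut.one_apply] at h2
      apply Subtype.ext
      show (x : G) * b = b * x
      calc (x : G) * b = (x : G) * b * (x : G)⁻¹ * x := by group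
        _ = b * x := by rw [h2]
    refine ⟨P, X, ⟨?_⟩, hX⟩
    intro x hx n
    obtain ⟨⟨a, b⟩, hab, -⟩ := hX.existsUnique n
    have hab' : (a : ↥(Subgroup.normalizer ((T : Subgroup G) : Set G))) * b = n := hab
    rw [← hab']
    have e : (a : ↥(Subgroup.normalizer ((T : Subgroup G) : Set G))) * b * x * ((a : ↥(Subgroup.normalizer ((T : Subgroup G) : Set G))) * b)⁻¹ = a * x * (a : ↥(Subgroup.normalizer ((T : Subgroup G) : Set G)))⁻¹ := by
      have := hcent x hx b b.2
      calc (a : ↥(Subgroup.normalizer ((T : Subgroup G) : Set G))) * b * x * ((a : ↥(Subgroup.normalizer ((T : Subgroup G) : Set G))) * b)⁻¹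
          = a * (b * x) * (b : ↥(Subgroup.normalizer ((T : Subgroup G) : Set G)))⁻¹ * (a : ↥(Subgroup.normalizer ((T : Subgroup G) : Set G)))⁻¹ := by group
        _ = a * (x * b) * (b : ↥(Subgroup.normalizer ((T : Subgroup G) : Set G)))⁻¹ * (a : ↥(Subgroup.normalizer ((T : Subgroup G) : Set G)))⁻¹ := by rw [this]
        _ = _ := by group
    rw [e]
    exact X.mul_mem (X.mul_mem a.2 hx) (X.inv_mem a.2)
  · refine ⟨?_, ?_⟩
    · rintro _ ⟨w, -, rfl⟩
      exact w.2
    · intro g hg
      have hmem : ∀ w : ↥W, g * ((w : ↥(T : Subgroup G)) : G) * g⁻¹ ∈ (T : Subgroup G) := by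
        intro w
        exact hg ⟨((w : ↥(T : Subgroup G)) : G), ⟨w, w.2, rfl⟩, rfl⟩
      let φ : ↥W →* ↥(T : Subgroup G) := MonoidHom.mk' (fun w => ⟨g * ((w : ↥(T : Subgroup G)) : G) * g⁻¹, hmem w⟩) (by
        intro a b
        apply Subtype.ext
        simp only [Subgroup.coe_mul]
        group)
      have hφ : Function.Injective φ := by
        intro a b hab
        have h1 : g * ((a : ↥(T : Subgroup G)) : G) * g⁻¹ = g * ((b : ↥(T : Subgroup G)) : G) * g⁻¹ :=
          congrArg Subtype.val hab
        have h2 : ((a : ↥(T : Subgroup G)) : G) = ((b : ↥(T : Subgroup G)) : G) := by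
          have := mul_right_cancel h1
          exact mul_left_cancel this
        exact Subtype.ext (Subtype.ext h2)
      have hr := h.range_eq φ hφ
      ext x
      constructor
      · rintro ⟨_, ⟨w, hw, rfl⟩, rfl⟩
        have h1 : φ ⟨w, hw⟩ ∈ φ.range := ⟨⟨w, hw⟩, rfl⟩
        have h2 : φ ⟨w, hw⟩ ∈ W := by
          have := Subgroup.ext_iff.1 hr (φ ⟨w, hw⟩)
          exact this.1 h1
        exact ⟨_, h2, rfl⟩
      · rintro ⟨y, hy, rfl⟩
        have h1 : y ∈ φ.range := (Subgroup.ext_iff.1 hr y).2 hy
        obtain ⟨w, rfl⟩ := h1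
        exact ⟨_, ⟨_, w.2, rfl⟩, rfl⟩

end Cfsg.Agent.S3175
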