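import Cfsg.Statements.S3179
import Cfsg.Agent.Lib.H10.SzOrder
import Cfsg.Agent.Lib.H10.SzBridge
import Cfsg.Agent.Lib.Lead.SUCenter
import Cfsg.Agent.Lib.Lead.CardSL
-- import your own Cfsg.Agent.* helpers here

set_option autoImplicit false
open Cfsg

namespace Cfsg.Agent.S3179

open scoped Matrix

lemma card_dvd_of_free {G α : Type*} [Group G] [Finite G] [Finite α] [MulAction G α]
    (h : ∀ (g : G) (a : α), g • a = a → g = 1) : Nat.card G ∣ Nat.card α := by
  classical
  haveI := Fintype.ofFinite α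
  haveI := Fintype.ofFinite G
  rw [Nat.card_congr (MulAction.selfEquivSigmaOrbits G α), Nat.card_sigma]
  apply Finset.dvd_sum
  intro ω _
  have h2 : MulAction.stabilizer G (Quotient.out ω) = ⊥ := by
    rw [eq_bot_iff]
    intro g hg
    exact h g _ hg
  have h3 : Nat.card (MulAction.orbit G (Quotient.out ω)) = Nat.card G := by
    rw [Nat.card_congr (MulAction.orbitEquivQuotientStabilizer G (Quotient.out ω)), h2]
    exact Subgroup.index_bot
  rw [h3]

/-- The action of a power of a permutation, restricted to the points moved by `f ^ 3`. -/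
lemma nine_dvd {α : Type*} [Finite α] (f : Equiv.Perm α) (h9 : f ^ 9 = 1) (hf : f ^ 3 ≠ 1) :
    9 ∣ Nat.card {a : α // (f ^ 3) a ≠ a} := by
  have ho : orderOf f = 9 := by
    have h1 : orderOf f ∣ 3 ^ 2 := by
      have : f ^ (3 ^ 2) = 1 := by simpa using h9
      exact orderOf_dvd_of_pow_eq_one this
    obtain ⟨k, hk, hk2⟩ := (Nat.dvd_prime_pow Nat.prime_three).1 h1
    interval_cases k
    · exfalso
      apply hf
      have : f = 1 := by simpa using hk2
      rw [this, one_pow]
    · exfalso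
      apply hf
      have := pow_orderOf_eq_one f
      rw [hk2] at this
      simpa using this
    · simpa using hk2
  let S : SubMulAction (Subgroup.zpowers f) α :=
    { carrier := {a | (f ^ 3) a ≠ a}
      smul_mem' := by
        rintro ⟨g, k, rfl⟩ a ha hc
        apply ha
        have hcomm : (f ^ 3) ((f ^ k) a) = (f ^ k) ((f ^ 3) a) := by
          have : (f ^ 3) * (f ^ k) = (f ^ k) * (f ^ 3) := by
            rw [← zpow_natCast, ← zpow_add, ← zpow_add, add_comm]
          simpa using congrArg (fun p : Equiv.Perm α => p a) this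
        change (f ^ 3) ((f ^ k) a) = (f ^ k) a at hc
        rw [hcomm] at hc
        exact (f ^ k).injective hc }
  have hS : Nat.card (Subgroup.zpowers f) ∣ Nat.card S := by
    apply card_dvd_of_free
    rintro ⟨g, k, rfl⟩ ⟨a, ha⟩ h
    have h0 : (f ^ k) a = a := congrArg Subtype.val h
    have h3 : (f ^ 3) a ≠ a := ha
    -- `k` is a multiple of 9
    have hcop : ∀ j : ℤ, (f ^ j) a = a → ((f ^ (3 : ℕ)) a = a) ∨ (9 : ℤ) ∣ j := by
      intro j hj
      by_cases h3j : (3 : ℤ) ∣ j
      · obtain ⟨i, rfl⟩ := h3j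
        by_cases h3i : (3 : ℤ) ∣ i
        · right
          obtain ⟨l, rfl⟩ := h3i
          exact ⟨l, by ring⟩
        · left
          -- gcd(i, 3) = 1
          have hc : IsCoprime i 3 := by
            have := (Int.prime_three.coprime_iff_not_dvd).2 h3i
            exact this.symm
          obtain ⟨u, v, huv⟩ := hc
          have hp : f ^ ((3 : ℤ) * i) = (f ^ (3 : ℕ)) ^ i := by
            rw [zpow_mul]; norm_cast
          have hpow : ∀ n : ℤ, ((f ^ (3 : ℕ)) ^ i) ^ n = ((f ^ (3 : ℕ)) ^ (i * n)) := by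
            intro n; rw [zpow_mul]
          have hfix : ∀ n : ℤ, (((f ^ (3 : ℕ)) ^ i) ^ n) a = a := by
            intro n
            have hb : ((f ^ (3 : ℕ)) ^ i) a = a := by rw [← hp]; exact hj
            have : (((f ^ (3 : ℕ)) ^ i) ^ n) a = a := by
              exact (Equiv.Perm.zpow_apply_eq_self_of_apply_eq_self hb n)
            exact this
          have h9' : (f ^ (3 : ℕ)) ^ (3 : ℤ) = 1 := by
            have : (f ^ (3 : ℕ)) ^ (3 : ℕ) = 1 := by rw [← pow_mul]; exact h9
            exact_mod_cast this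
          have h1 : (f ^ (3 : ℕ)) = ((f ^ (3 : ℕ)) ^ i) ^ u := by
            have hh : (f ^ (3 : ℕ)) ^ (u * i + v * 3) = f ^ (3 : ℕ) := by rw [huv, zpow_one]
            rw [zpow_add, zpow_mul', mul_comm v 3, zpow_mul, h9'] at hh
            rw [one_zpow, mul_one] at hh
            exact hh.symm
          rw [h1]
          exact hfix u
      · left
        have hc : IsCoprime j 3 := ((Int.prime_three.coprime_iff_not_dvd).2 h3j).symm
        obtain ⟨u, v, huv⟩ := hc
        have h9' : f ^ (9 : ℤ) = 1 := by exact_mod_cast h9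
        have : (f ^ (3 : ℕ)) = (f ^ j) ^ (3 * u) * (f ^ (9 : ℤ)) ^ v := by
          rw [← zpow_mul, ← zpow_mul, ← zpow_add]
          have : j * (3 * u) + 9 * v = 3 * (u * j + v * 3) := by ring
          rw [this, huv]
          norm_cast
        rw [this, h9', one_zpow, mul_one]
        exact Equiv.Perm.zpow_apply_eq_self_of_apply_eq_self hj _
    rcases hcop k h0 with h4 | h4
    · exact absurd h4 h3
    · obtain ⟨l, rfl⟩ := h4
      apply Subtype.ext
      show f ^ (9 * l) = 1
      rw [zpow_mul]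
      have h9' : f ^ (9 : ℤ) = 1 := by exact_mod_cast h9
      rw [h9', one_zpow]
  rw [Nat.card_zpowers, ho] at hS
  exact hS

/-- Elements of `GL₅(2)` of order dividing nine have order dividing three. -/
lemma no_order_nine (y : GL (Fin 5) (ZMod 2)) (h9 : y ^ 9 = 1) : y ^ 3 = 1 := by
  classical
  by_contra hy
  -- the permutation of vectors
  let φ : GL (Fin 5) (ZMod 2) →* Equiv.Perm (Fin 5 → ZMod 2) :=
    { toFun := fun g =>
        { toFun := fun v => (g : Matrix (Fin 5) (Fin 5) (ZMod 2)) *ᵥ v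
          invFun := fun v => ((g⁻¹ : GL (Fin 5) (ZMod 2)) : Matrix (Fin 5) (Fin 5) (ZMod 2)) *ᵥ v
          left_inv := fun v => by
            simp [Matrix.mulVec_mulVec]
          right_inv := fun v => by
            simp [Matrix.mulVec_mulVec] }
      map_one' := by
        ext v i; simp
      map_mul' := fun a b => by
        ext v i
        simp [Matrix.mulVec_mulVec] }
  have hφ : ∀ g v, φ g v = (g : Matrix (Fin 5) (Fin 5) (ZMod 2)) *ᵥ v := fun _ _ => rfl
  have hinj : Function.Injective φ := by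
    intro a b hab
    apply Units.ext
    apply Matrix.ext_of_mulVec_single
    intro i
    have := congrArg (fun p : Equiv.Perm (Fin 5 → ZMod 2) => p (Pi.single i 1)) hab
    simpa [hφ] using this
  have h1 : (φ y) ^ 9 = 1 := by rw [← map_pow, h9, map_one]
  have h2 : (φ y) ^ 3 ≠ 1 := by
    intro h
    apply hy
    apply hinj
    rw [map_pow, h, map_one]
  have h3 := nine_dvd (φ y) h1 h2
  -- fixed vectors form a subgroup
  let W : AddSubgroup (Fin 5 → ZMod 2) :=
    { carrier := {v | ((φ y) ^ 3) v = v}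
      add_mem' := by
        intro a b ha hb
        have ha' : ((y ^ 3 : GL (Fin 5) (ZMod 2)) : Matrix (Fin 5) (Fin 5) (ZMod 2)) *ᵥ a = a := by
          have := ha
          rw [Set.mem_ofPred_eq, ← map_pow, hφ] at this
          exact this
        have hb' : ((y ^ 3 : GL (Fin 5) (ZMod 2)) : Matrix (Fin 5) (Fin 5) (ZMod 2)) *ᵥ b = b := by
          have := hb
          rw [Set.mem_ofPred_eq, ← map_pow, hφ] at this
          exact this
        rw [Set.mem_ofPred_eq, ← map_pow, hφ, Matrix.mulVec_add, ha', hb']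
      zero_mem' := by
        rw [Set.mem_ofPred_eq, ← map_pow, hφ, Matrix.mulVec_zero]
      neg_mem' := by
        intro a ha
        have ha' : ((y ^ 3 : GL (Fin 5) (ZMod 2)) : Matrix (Fin 5) (Fin 5) (ZMod 2)) *ᵥ a = a := by
          have := ha
          rw [Set.mem_ofPred_eq, ← map_pow, hφ] at this
          exact this
        rw [Set.mem_ofPred_eq, ← map_pow, hφ, Matrix.mulVec_neg, ha'] }
  have hWdvd : Nat.card W ∣ 32 := by
    have := AddSubgroup.card_addSubgroup_dvd_card W
    simpa [Nat.card_eq_fintype_card, ZMod.card] using this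
  have hsum : Nat.card {a : Fin 5 → ZMod 2 // ((φ y) ^ 3) a ≠ a} + Nat.card W = 32 := by
    have hc : Fintype.card (Fin 5 → ZMod 2) = 32 := by
      simp [ZMod.card]
    have h5 := Fintype.card_subtype_compl (fun a : Fin 5 → ZMod 2 => ((φ y) ^ 3) a = a)
    have hle := Fintype.card_subtype_le (fun a : Fin 5 → ZMod 2 => ((φ y) ^ 3) a = a)
    rw [hc] at h5 hle
    have h6 : Nat.card W = Fintype.card {a : Fin 5 → ZMod 2 // ((φ y) ^ 3) a = a} := by
      rw [← Nat.card_eq_fintype_card]
      rfl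
    have h7 : Nat.card {a : Fin 5 → ZMod 2 // ((φ y) ^ 3) a ≠ a} = Fintype.card {a : Fin 5 → ZMod 2 // ¬ ((φ y) ^ 3) a = a} := by
      rw [← Nat.card_eq_fintype_card]
    rw [h6, h7, h5]
    omega
  have hW32 : Nat.card W = 32 := by
    have hle : Nat.card W ≤ 32 := Nat.le_of_dvd (by norm_num) hWdvd
    obtain ⟨c, hc⟩ := h3
    obtain ⟨k, hk, hk2⟩ := (Nat.dvd_prime_pow Nat.prime_two).1 (show Nat.card W ∣ 2 ^ 5 by simpa using hWdvd)
    rw [hk2] at hsum ⊢
    interval_cases k <;> omega
  apply h2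
  have hall : ∀ v, ((φ y) ^ 3) v = v := by
    intro v
    have htop : W = ⊤ := by
      apply AddSubgroup.eq_top_of_card_eq
      rw [hW32]
      simp [ZMod.card]
    have hv : v ∈ W := by rw [htop]; trivial
    exact hv
  ext v i
  rw [hall v]
  rfl

/-- All elements of `GL₅(2)` of 3-power order have order dividing three. -/
lemma three_elements (y : GL (Fin 5) (ZMod 2)) (a : ℕ) (h : y ^ (3 ^ a) = 1) : y ^ 3 = 1 := by
  induction a with
  | zero =>
    have : y = 1 := by simpa using h
    rw [this, one_pow]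
  | succ a ih =>
    cases a with
    | zero => simpa using h
    | succ b =>
      apply ih
      have h1 : (y ^ (3 ^ b)) ^ 9 = 1 := by
        rw [← pow_mul, ← h]
        congr 1
        ring
      have h2 := no_order_nine _ h1
      rw [← pow_mul] at h2
      rw [← h2]
      congr 1

lemma card_quot_dvd {H : Subgroup (GL (Fin 5) (ZMod 2))} {K : Subgroup ↥H} [K.Normal]
    {X : Type*} [Group X] (e : ↥H ⧸ K ≃* X) : Nat.card X ∣ 9999360 := by
  have h1 : Nat.card (GL (Fin 5) (ZMod 2)) = 9999360 := by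
    rw [Matrix.card_GL_field, ZMod.card]
    simp [Fin.prod_univ_succ]
  rw [← Nat.card_congr e.toEquiv, ← h1]
  refine dvd_trans ?_ (Subgroup.card_subgroup_dvd_card H)
  exact Subgroup.card_quotient_dvd_card K

/-- A quotient section of `GL₅(2)` has no element of order nine. -/
lemma section_no_nine {H : Subgroup (GL (Fin 5) (ZMod 2))} {K : Subgroup ↥H} [K.Normal]
    {X : Type*} [Group X] (e : ↥H ⧸ K ≃* X) (u : X) (h9 : u ^ 9 = 1) : u ^ 3 = 1 := by
  obtain ⟨x, hx⟩ := QuotientGroup.mk_surjective (e.symm u)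
  have hx' : e ((x : ↥H ⧸ K)) = u := by rw [hx]; simp
  have hpos : orderOf (x : GL (Fin 5) (ZMod 2)) ≠ 0 := (orderOf_pos _).ne'
  obtain ⟨a, b, hb, hab⟩ := Nat.exists_eq_pow_mul_and_not_dvd hpos 3 (by norm_num)
  have h1 : ((x : GL (Fin 5) (ZMod 2)) ^ b) ^ (3 ^ a) = 1 := by
    rw [← pow_mul, mul_comm, ← hab, pow_orderOf_eq_one]
  have h2 := three_elements _ a h1
  have h3 : (x ^ b) ^ 3 = 1 := by
    apply Subtype.ext
    simpa using h2
  have h4 : (u ^ 3) ^ b = 1 := by
    rw [← hx', ← map_pow, ← map_pow, ← map_one e]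
    congr 1
    rw [← QuotientGroup.mk_pow, ← QuotientGroup.mk_pow, ← pow_mul, mul_comm, pow_mul, h3]
    rfl
  have h5 : (u ^ 3) ^ 3 = 1 := by rw [← pow_mul]; exact h9
  have hcop : Nat.Coprime 3 b := (Nat.Prime.coprime_iff_not_dvd Nat.prime_three).2 hb
  have h6 : orderOf (u ^ 3) ∣ Nat.gcd 3 b :=
    Nat.dvd_gcd (orderOf_dvd_of_pow_eq_one h5) (orderOf_dvd_of_pow_eq_one h4)
  rw [hcop] at h6
  exact orderOf_eq_one_iff.1 (Nat.dvd_one.1 h6)

/-- `PSL₂(8)` has an element of order nine. -/
lemma psl_eight {F : Type} [Field F] [Fintype F] (hF : Fintype.card F = 8) :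
    ∃ u : Matrix.ProjectiveSpecialLinearGroup (Fin 2) F, u ^ 9 = 1 ∧ u ^ 3 ≠ 1 := by
  classical
  haveI : CharP F 2 := H10.sz_charP (m := 1) (by rw [hF]; norm_num)
  have h2 : (2 : F) = 0 := CharP.cast_eq_zero F 2
  -- a root of x³ + x + 1
  have hroot : ∃ t : F, t ^ 3 + t + 1 = 0 := by
    have hne : ∃ x : F, x ≠ 0 ∧ x ≠ 1 := by
      by_contra hcon
      push Not at hcon
      have hsub : (Finset.univ : Finset F) ⊆ {0, 1} := by
        intro x _
        by_cases hx : x = 0
        · simp [hx]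
        · simp [hcon x hx]
      have := Finset.card_le_card hsub
      rw [Finset.card_univ, hF] at this
      have h3 := Finset.card_le_two (a := (0 : F)) (b := 1)
      omega
    obtain ⟨x, hx0, hx1⟩ := hne
    have h7 : x ^ 7 = 1 := by
      have := FiniteField.pow_card_sub_one_eq_one x hx0
      rwa [hF] at this
    have hfac : (x - 1) * ((x ^ 3 + x + 1) * (x ^ 3 + x ^ 2 + 1)) = 0 := by
      linear_combination (x ^ 4 - x ^ 3) * h2 + h7
    rcases mul_eq_zero.1 hfac with h | h
    · exact absurd (sub_eq_zero.1 h) hx1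
    rcases mul_eq_zero.1 h with h | h
    · exact ⟨x, h⟩
    · refine ⟨x⁻¹, ?_⟩
      have hx3 : x ^ 3 ≠ 0 := pow_ne_zero _ hx0
      field_simp
      linear_combination h
  obtain ⟨t, ht⟩ := hroot
  have ht1 : t ≠ 1 := by
    rintro rfl
    have : (1 : F) = 0 := by linear_combination ht - h2
    exact one_ne_zero this
  have hdet : (!![0, 1; 1, t] : Matrix (Fin 2) (Fin 2) F).det = 1 := by
    rw [Matrix.det_fin_two_of]
    linear_combination (-1 : F) * h2
  let g : Matrix.SpecialLinearGroup (Fin 2) F := ⟨!![0, 1; 1, t], hdet⟩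
  have hg3 : ((g ^ 3 : Matrix.SpecialLinearGroup (Fin 2) F) : Matrix (Fin 2) (Fin 2) F) =
      !![t, 1 + t ^ 2; 1 + t ^ 2, t + 1] := by
    have h1 : ((g ^ 3 : Matrix.SpecialLinearGroup (Fin 2) F) : Matrix (Fin 2) (Fin 2) F) =
        (!![0, 1; 1, t] : Matrix (Fin 2) (Fin 2) F) ^ 3 := rfl
    rw [h1, pow_succ, pow_two, Matrix.mul_fin_two, Matrix.mul_fin_two]
    ext i j
    fin_cases i <;> fin_cases j <;> simp
    · ring
    · ring
    · linear_combination ht - h2
  have hg9 : g ^ 9 = 1 := by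
    apply Subtype.ext
    have h1 : ((g ^ 9 : Matrix.SpecialLinearGroup (Fin 2) F) : Matrix (Fin 2) (Fin 2) F) =
        (((g ^ 3 : Matrix.SpecialLinearGroup (Fin 2) F) : Matrix (Fin 2) (Fin 2) F)) ^ 3 := by
      rw [← Matrix.SpecialLinearGroup.coe_pow, ← pow_mul]
    change ((g ^ 9 : Matrix.SpecialLinearGroup (Fin 2) F) : Matrix (Fin 2) (Fin 2) F) = 1
    rw [h1, hg3]
    have hM2 : (!![t, 1 + t ^ 2; 1 + t ^ 2, t + 1] : Matrix (Fin 2) (Fin 2) F) * !![t, 1 + t ^ 2; 1 + t ^ 2, t + 1]
        = !![t + 1, 1 + t ^ 2; 1 + t ^ 2, t + 2] := by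
      rw [Matrix.mul_fin_two]
      ext i j
      fin_cases i <;> fin_cases j <;> simp
      · linear_combination t * ht + (t ^ 2 - t) * h2
      · linear_combination (t + t ^ 3) * h2
      · linear_combination (t + t ^ 3) * h2
      · linear_combination t * ht + t ^ 2 * h2
    rw [pow_succ, pow_two, hM2, Matrix.mul_fin_two]
    ext i j
    fin_cases i <;> fin_cases j <;> simp
    · linear_combination t * ht + t ^ 2 * h2
    · linear_combination (t + 1) * (1 + t ^ 2) * h2
    · linear_combination (t + 1) * (1 + t ^ 2) * h2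
    · linear_combination t * ht + (t ^ 2 + t + 1) * h2
  refine ⟨(g : Matrix.ProjectiveSpecialLinearGroup (Fin 2) F), ?_, ?_⟩
  · rw [← QuotientGroup.mk_pow, hg9]
    rfl
  · intro h
    rw [← QuotientGroup.mk_pow, QuotientGroup.eq_one_iff, Matrix.SpecialLinearGroup.mem_center_iff] at h
    obtain ⟨r, _, hr⟩ := h
    have h01 := congrFun (congrFun hr 0) 1
    rw [hg3] at h01
    simp at h01
    have h3 : (t + 1) ^ 2 = 0 := by linear_combination -h01 + t * h2
    have h4 : t + 1 = 0 := by simpa using h3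
    apply ht1
    linear_combination h4 - h2


/-- Let X be a section of the general linear group GL(5, 2), that is, a quotient of a subgroup of it. If X is isomorphic to PSL(2, 2^n) for some n ≥ 2, to a Suzuki group over the field with 2^(2m+1) elements for some m ≥ 1, or to PSU(3, 2^n) for some n ≥ 2, then X is isomorphic to PSL(2, 4). -/
theorem result {H : Subgroup (GL (Fin 5) (ZMod 2))}
    {K : Subgroup ↥H} [K.Normal]
    (hX : (∃ (n : ℕ) (F : Type) (_ : Field F) (_ : Fintype F), 2 ≤ n ∧ Fintype.card F = 2 ^ n ∧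
        Nonempty (↥H ⧸ K ≃* Matrix.ProjectiveSpecialLinearGroup (Fin 2) F)) ∨
      (∃ (m : ℕ) (F : Type) (_ : Field F) (_ : Fintype F), 1 ≤ m ∧ Fintype.card F = 2 ^ (2 * m + 1) ∧
        Nonempty (↥H ⧸ K ≃* ↥(Cfsg.Lie.Sz F (2 ^ (m + 1))))) ∨
      (∃ (n : ℕ) (F : Type) (_ : Field F) (_ : Fintype F), 2 ≤ n ∧ Fintype.card F = 4 ^ n ∧
        Nonempty (↥H ⧸ K ≃* Cfsg.PSU 3 F (2 ^ n)))) :
    ∃ (F : Type) (_ : Field F) (_ : Fintype F), Fintype.card F = 4 ∧
      Nonempty (↥H ⧸ K ≃* Matrix.ProjectiveSpecialLinearGroup (Fin 2) F) := by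
  classical
  rcases hX with ⟨n, F, _, _, hn, hF, ⟨e⟩⟩ | ⟨m, F, _, _, hm, hF, ⟨e⟩⟩ | ⟨n, F, _, _, hn, hF, ⟨e⟩⟩
  · -- `PSL₂(2^n)`
    have hd := card_quot_dvd e
    have hcard := Lead.card_PSL (F := F) 2 (by norm_num)
    rw [hF] at hcard
    simp only [Fin.prod_univ_two, Fin.val_zero, Fin.val_one, pow_zero, pow_one] at hcard
    have hq : 2 ^ 2 ≤ 2 ^ n := Nat.pow_le_pow_right (by norm_num) hn
    set q := 2 ^ n with hqdef
    have hgcd : Nat.gcd 2 (q - 1) = 1 := by
      have hodd : Odd (q - 1) := by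
        have h2q : 2 ∣ q := dvd_pow_self 2 (by omega)
        obtain ⟨c, hc⟩ := h2q
        exact ⟨c - 1, by omega⟩
      exact (Nat.coprime_two_left.2 hodd)
    rw [hgcd, one_mul] at hcard
    have h1 : (q ^ 2 - 1) = (q - 1) * (q + 1) := by
      have := Nat.sq_sub_sq q 1
      rw [one_pow] at this
      rw [this, mul_comm]
    have h2 : (q ^ 2 - q) = q * (q - 1) := by
      rw [Nat.mul_sub, mul_one, pow_two]
    rw [h1, h2] at hcard
    have hq1 : 0 < q - 1 := by omega
    have hc : Nat.card (Matrix.ProjectiveSpecialLinearGroup (Fin 2) F) = (q + 1) * q * (q - 1) := by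
      apply Nat.eq_of_mul_eq_mul_left hq1
      rw [hcard]
      ring
    rw [hc] at hd
    have hn10 : n ≤ 10 := by
      by_contra hcon
      push Not at hcon
      have h3 : (2 ^ 11 : ℕ) ∣ q := Nat.pow_dvd_pow 2 (by omega)
      have h5 : q ∣ (q + 1) * q * (q - 1) := ⟨(q + 1) * (q - 1), by ring⟩
      have h4 : (2 ^ 11 : ℕ) ∣ 9999360 := dvd_trans (dvd_trans h3 h5) hd
      norm_num at h4
    have hn3 : n = 2 ∨ n = 3 := by
      interval_cases n <;> first | omega | (exfalso; revert hd; simp only [hqdef]; norm_num)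
    rcases hn3 with rfl | rfl
    · exact ⟨F, inferInstance, inferInstance, by rw [hF, hqdef]; norm_num, ⟨e⟩⟩
    · exfalso
      obtain ⟨u, hu9, hu3⟩ := psl_eight (F := F) (by rw [hF]; norm_num [hqdef])
      exact hu3 (section_no_nine e u hu9)
  · -- Suzuki
    exfalso
    haveI : CharP F 2 := H10.sz_charP hF
    have hd := card_quot_dvd e
    rw [← Nat.card_congr (H10.szEquiv hm hF).toEquiv, H10.card_Sz hm hF] at hd
    have hm2 : m ≤ 2 := by
      by_contra hcon
      push Not at hcon
      have h3 : (2 ^ 11 : ℕ) ∣ (2 ^ (2 * m + 1)) ^ 2 := by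
        rw [← pow_mul]
        exact Nat.pow_dvd_pow 2 (by omega)
      have h4 : (2 ^ 11 : ℕ) ∣ 9999360 := dvd_trans (dvd_trans h3 (Dvd.intro _ (by ring : (2 ^ (2 * m + 1)) ^ 2 * (((2 ^ (2 * m + 1)) ^ 2 + 1) * (2 ^ (2 * m + 1) - 1)) = _))) hd
      norm_num at h4
    interval_cases m <;> norm_num at hd
  · -- `PSU₃`
    exfalso
    have hF' : Fintype.card F = (2 ^ n) ^ 2 := by
      rw [hF, ← pow_mul, mul_comm, pow_mul]
      norm_num
    have hd := card_quot_dvd e
    have hcard := Lead.card_PSU hF' (n := 3) (by norm_num)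
    simp only [Finset.prod_range_succ, Finset.prod_range_zero] at hcard
    have e0 : Even 0 := by decide
    have e1 : ¬ Even 1 := by decide
    have e2 : Even 2 := by decide
    simp only [one_mul, e0, e1, e2, if_true, if_false, zero_add, Nat.reduceAdd, Nat.reduceSub, Nat.reduceMul, Nat.reduceDiv, pow_one] at hcard
    generalize Nat.card (Cfsg.PSU 3 F (2 ^ n)) = N at hcard hd
    have hn3 : n ≤ 3 := by
      by_contra hcon
      push Not at hcon
      -- the 2-part of the order of `PSU₃`
      have h3 : (2 ^ 12 : ℕ) ∣ (2 ^ n) ^ 3 := by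
        rw [← pow_mul]
        exact Nat.pow_dvd_pow 2 (by omega)
      have h4 : (2 ^ 12 : ℕ) ∣ Nat.gcd 3 (2 ^ n + 1) * ((2 ^ n + 1) * N) := by
        rw [hcard]
        exact Dvd.dvd.mul_right h3 _
      have hodd : Nat.Coprime (2 ^ 12) (Nat.gcd 3 (2 ^ n + 1) * (2 ^ n + 1)) := by
        apply Nat.Coprime.pow_left
        rw [Nat.coprime_two_left]
        have h5 : Odd (2 ^ n + 1) := by
          refine Even.add_one ?_
          exact (Nat.even_pow' (by omega)).2 even_two
        have h6 : Odd (Nat.gcd 3 (2 ^ n + 1)) := by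
          exact Odd.of_dvd_nat (by decide) (Nat.gcd_dvd_left _ _)
        exact h6.mul h5
      rw [← mul_assoc] at h4
      have h7 := hodd.dvd_of_dvd_mul_left h4
      have h8 : (2 ^ 12 : ℕ) ∣ 9999360 := dvd_trans h7 hd
      norm_num at h8
    interval_cases n
    · norm_num at hcard
      have hN : N = 62400 := by omega
      rw [hN] at hd
      norm_num at hd
    · norm_num at hcard
      have hN : N = 5515776 := by omega
      rw [hN] at hd
      norm_num at hd

end Cfsg.Agent.S3179
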