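import Cfsg.Statements.S3180
import Cfsg.Agent.Lib.H15.Weak1

set_option autoImplicit false
open Cfsg

namespace Cfsg.Agent.S3180

/-- Let P be a Sylow p-subgroup of a finite group J and P₁ a subgroup of P that is weakly closed in P with respect to J. If J acts on a set and two points, each fixed by every element of P₁, lie in one J-orbit, then they lie in one orbit of the normalizer of P₁ in J. -/
theorem result {J : Type*} [Group J] [Finite J]
    {p : ℕ} [Fact p.Prime] (P : Sylow p J) (P₁ : Subgroup J) (hW : Cfsg.IsWeaklyClosed P₁ (P : Subgroup J))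
    {Ω : Type*} [MulAction J Ω] (x y : Ω) (hx : ∀ g ∈ P₁, g • x = x) (hy : ∀ g ∈ P₁, g • y = y)
    (hc : ∃ g : J, g • x = y) :
    ∃ g ∈ Subgroup.normalizer (P₁ : Set J), g • x = y := by
  classical
  obtain ⟨g, hg⟩ := hc
  have hP₁ : IsPGroup p P₁ :=
    IsPGroup.of_injective P.isPGroup' (Subgroup.inclusion hW.1) (Subgroup.inclusion_injective hW.1)
  set A : Subgroup J := MulAction.stabilizer J x with hA
  have hP₁A : P₁ ≤ A := fun h hh => hx h hh
  -- the conjugate `g⁻¹ P₁ g`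
  set Q₂ : Subgroup J := P₁.map (MulAut.conj g⁻¹).toMonoidHom with hQ₂
  have hQ₂A : Q₂ ≤ A := by
    rintro _ ⟨h, hh, rfl⟩
    change (MulAut.conj g⁻¹).toMonoidHom h • x = x
    have : (MulAut.conj g⁻¹).toMonoidHom h = g⁻¹ * h * g := by simp [MulAut.conj_apply]
    rw [this, mul_smul, mul_smul, hg, hy h hh, ← hg, inv_smul_smul]
  have hQ₂p : IsPGroup p Q₂ := hP₁.map _
  have h1 : IsPGroup p (P₁.subgroupOf A) := hP₁.of_equiv (Subgroup.subgroupOfEquivOfLe hP₁A).symm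
  have h2 : IsPGroup p (Q₂.subgroupOf A) := hQ₂p.of_equiv (Subgroup.subgroupOfEquivOfLe hQ₂A).symm
  obtain ⟨R₁, hR₁⟩ := h1.exists_le_sylow
  obtain ⟨R₂, hR₂⟩ := h2.exists_le_sylow
  obtain ⟨a, ha⟩ := MulAction.exists_smul_eq A R₂ R₁
  -- `R₁` inside `J`
  have hR₁p : IsPGroup p ((R₁ : Subgroup A).map A.subtype) := R₁.isPGroup'.map A.subtype
  obtain ⟨P', hP'⟩ := hR₁p.exists_le_sylow
  obtain ⟨k, hk⟩ := MulAction.exists_smul_eq J P' P
  have hkP : ∀ z ∈ (P' : Subgroup J), k * z * k⁻¹ ∈ (P : Subgroup J) := by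
    intro z hz
    rw [← hk]
    exact Subgroup.smul_mem_pointwise_smul z (MulAut.conj k) _ hz
  have ha' : ∀ z ∈ (R₂ : Subgroup A), a * z * a⁻¹ ∈ (R₁ : Subgroup A) := by
    intro z hz
    rw [← ha]
    exact Subgroup.smul_mem_pointwise_smul z (MulAut.conj a) _ hz
  -- `k` normalizes
  have hn₁ : k ∈ Subgroup.normalizer (P₁ : Set J) := by
    apply Cfsg.Agent.H15.mem_normalizer_of_weaklyClosed hW
    intro h hh
    apply hkP
    apply hP'
    exact ⟨⟨h, hP₁A hh⟩, hR₁ (by simpa [Subgroup.mem_subgroupOf] using hh), rfl⟩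
  have hn₂ : k * a * g⁻¹ ∈ Subgroup.normalizer (P₁ : Set J) := by
    apply Cfsg.Agent.H15.mem_normalizer_of_weaklyClosed hW
    intro h hh
    have h3 : g⁻¹ * h * g ∈ Q₂ := ⟨h, hh, by simp [MulAut.conj_apply]⟩
    have h4 : (⟨g⁻¹ * h * g, hQ₂A h3⟩ : A) ∈ (R₂ : Subgroup A) :=
      hR₂ (by simpa [Subgroup.mem_subgroupOf] using h3)
    have h5 := ha' _ h4
    have h7 : ((a * (⟨g⁻¹ * h * g, hQ₂A h3⟩ : A) * a⁻¹ : A) : J) ∈ (P' : Subgroup J) :=
      hP' ⟨_, h5, rfl⟩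
    have h8 := hkP _ h7
    have : k * a * g⁻¹ * h * (k * a * g⁻¹)⁻¹ =
        k * ((a * (⟨g⁻¹ * h * g, hQ₂A h3⟩ : A) * a⁻¹ : A) : J) * k⁻¹ := by
      push_cast
      group
    rw [this]
    exact h8
  refine ⟨g * ((a : J))⁻¹, ?_, ?_⟩
  · have : g * ((a : J))⁻¹ = (k * a * g⁻¹)⁻¹ * k := by group
    rw [this]
    exact Subgroup.mul_mem _ (Subgroup.inv_mem _ hn₂) hn₁
  · have hax : ((a : J))⁻¹ • x = x := (a⁻¹ : A).2
    rw [mul_smul, hax, hg]

end Cfsg.Agent.S3180
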