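import Cfsg.Statements.S3183
import Cfsg.Agent.Lib.H15.Sylow3
import Cfsg.Agent.Lib.H15.PGroup1

set_option autoImplicit false
open Cfsg

namespace Cfsg.Agent.S3183

open Cfsg.Agent.H15

private theorem lemmaA {G : Type*} [Group G] [Finite G]
    (hCI : ∀ S T : Sylow 2 G, S ≠ T → ∃ U : Sylow 2 G,
      (S : Subgroup G) ⊓ (T : Subgroup G) ≤ (Subgroup.center ↥(U : Subgroup G)).map (U : Subgroup G).subtype)
    (S T : Sylow 2 G) (hST : S ≠ T) (x : G) (hxS : x ∈ (S : Subgroup G)) (hxT : x ∈ (T : Subgroup G)) :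
    ∀ r ∈ (S : Subgroup G), r * x = x * r := by
  classical
  by_contra hcon
  set C : Subgroup G := Subgroup.centralizer ({x} : Set G) with hC
  have memC : ∀ {g : G}, g ∈ C ↔ g * x = x * g := by
    intro g
    rw [hC, Subgroup.mem_centralizer_singleton_iff]
  set D₀ : Subgroup G := (S : Subgroup G) ⊓ C with hD₀
  have hD₀p : IsPGroup 2 D₀ :=
    IsPGroup.to_le (S.isPGroup') inf_le_left
  have hxD₀ : x ∈ D₀ := ⟨hxS, memC.mpr rfl⟩
  obtain ⟨U, hU⟩ := hCI S T hST
  have hxU := (mem_centerMap _ _).mp (hU ⟨hxS, hxT⟩)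
  have hUC : (U : Subgroup G) ≤ C := fun r hr => memC.mpr (hxU.2 r hr)
  obtain ⟨c, hcC, hc⟩ := exists_conj_le_sylow_of_le C D₀ U hUC inf_le_right hD₀p
  -- conjugate `U` by `c⁻¹`
  let U₁ : Sylow 2 G := c⁻¹ • U
  have memU₁ : ∀ {g : G}, g ∈ (U₁ : Subgroup G) ↔ c * g * c⁻¹ ∈ (U : Subgroup G) := by
    intro g
    show g ∈ ((c⁻¹ • U : Sylow 2 G) : Subgroup G) ↔ _
    rw [Sylow.coe_subgroup_smul, Subgroup.mem_pointwise_smul_iff_inv_smul_mem]
    simp [MulAut.smul_def]
  have hcx : c * x * c⁻¹ = x := by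
    rw [memC.mp hcC]; group
  have hU₁C : (U₁ : Subgroup G) ≤ C := by
    intro g hg
    have h1 := hxU.2 _ (memU₁.mp hg)
    rw [memC]
    have h2 : c * (g * x) * c⁻¹ = c * (x * g) * c⁻¹ := by
      calc c * (g * x) * c⁻¹ = (c * g * c⁻¹) * (c * x * c⁻¹) := by group
        _ = (c * g * c⁻¹) * x := by rw [hcx]
        _ = x * (c * g * c⁻¹) := h1
        _ = (c * x * c⁻¹) * (c * g * c⁻¹) := by rw [hcx]
        _ = c * (x * g) * c⁻¹ := by group
    exact mul_left_cancel (mul_right_cancel h2)
  have hD₀U₁ : D₀ ≤ (U₁ : Subgroup G) := fun d hd => memU₁.mpr (hc d hd)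
  -- `S ≠ U₁` since `x` is central in `U₁` but not in `S`.
  have hSU₁ : S ≠ U₁ := by
    intro hEq
    apply hcon
    intro r hr
    rw [hEq] at hr
    exact memC.mp (hU₁C hr)
  obtain ⟨U₂, hU₂⟩ := hCI S U₁ hSU₁
  have hinter : (S : Subgroup G) ⊓ (U₁ : Subgroup G) = D₀ := by
    apply le_antisymm
    · exact inf_le_inf_left _ hU₁C
    · exact le_inf inf_le_left hD₀U₁
  rw [hinter] at hU₂
  have hU₂C : (U₂ : Subgroup G) ≤ Subgroup.centralizer (D₀ : Set G) := by
    intro g hg
    rw [Subgroup.mem_centralizer_iff]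
    intro d hd
    have := ((mem_centerMap _ _).mp (hU₂ hd)).2 g hg
    exact this.symm
  have hD₀ne : D₀ ≠ S := by
    intro hEq
    apply hcon
    intro r hr
    have hr' : r ∈ D₀ := by rw [hEq]; exact hr
    exact memC.mp hr'.2
  have hdvd : 2 ∣ D₀.relIndex (S : Subgroup G) :=
    dvd_relIndex_of_lt inf_le_left hD₀ne S.isPGroup'
  obtain ⟨n, hnS, hnD, hnN, -⟩ := exists_normalizer_elem D₀ (S : Subgroup G) inf_le_left hD₀p hdvd
  obtain ⟨k, hk⟩ := (IsPGroup.iff_orderOf.mp S.isPGroup') ⟨n, hnS⟩
  have hk' : n ^ 2 ^ k = 1 := by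
    have := pow_orderOf_eq_one (⟨n, hnS⟩ : (S : Subgroup G))
    rw [hk] at this
    simpa using congrArg Subtype.val this
  have hnc := mem_centralizer_of_normalizer_of_sylow D₀ U₂ hU₂C hnN k hk'
  apply hnD
  refine ⟨hnS, memC.mpr ?_⟩
  exact ((Subgroup.mem_centralizer_iff.mp hnc) x hxD₀).symm

/-- Let G be a finite group in which the intersection of any two distinct Sylow 2-subgroups is contained in the centre of some Sylow 2-subgroup, and let S be a Sylow 2-subgroup. Then for every x in S the centralizer of x in S is a Sylow 2-subgroup of the centralizer of x in G (no 2-subgroup centralizing x is larger), and for every other Sylow 2-subgroup T the intersection S ∩ T lies in both the centre of S and the centre of T. -/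
theorem result {G : Type*} [Group G] [Finite G]
    (hCI : ∀ S T : Sylow 2 G, S ≠ T → ∃ U : Sylow 2 G,
      (S : Subgroup G) ⊓ (T : Subgroup G) ≤ (Subgroup.center ↥(U : Subgroup G)).map (U : Subgroup G).subtype)
    (S : Sylow 2 G) :
    (∀ x ∈ (S : Subgroup G), ∀ P : Subgroup G, IsPGroup 2 ↥P → P ≤ Subgroup.centralizer ({x} : Set G) →
        Nat.card ↥P ≤ Nat.card ↥((S : Subgroup G) ⊓ Subgroup.centralizer ({x} : Set G))) ∧
    (∀ T : Sylow 2 G, T ≠ S →
        (S : Subgroup G) ⊓ (T : Subgroup G) ≤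
          (Subgroup.center ↥(S : Subgroup G)).map (S : Subgroup G).subtype ⊓
            (Subgroup.center ↥(T : Subgroup G)).map (T : Subgroup G).subtype) := by
  classical
  constructor
  · intro x hxS P hP hPC
    by_cases hother : ∃ T : Sylow 2 G, T ≠ S ∧ x ∈ (T : Subgroup G)
    · obtain ⟨T, hTS, hxT⟩ := hother
      have hcentral := lemmaA hCI S T (Ne.symm hTS) x hxS hxT
      have hle : (S : Subgroup G) ≤ (S : Subgroup G) ⊓ Subgroup.centralizer ({x} : Set G) := by
        refine le_inf le_rfl ?_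
        intro r hr
        rw [Subgroup.mem_centralizer_singleton_iff]
        exact hcentral r hr
      obtain ⟨W, hW⟩ := hP.exists_le_sylow
      calc Nat.card P ≤ Nat.card (W : Subgroup G) := Subgroup.card_le_of_le hW
        _ = Nat.card (S : Subgroup G) := Nat.card_congr (W.equiv S).toEquiv
        _ ≤ _ := Subgroup.card_le_of_le hle
    · push Not at hother
      have hxp : IsPGroup 2 (Subgroup.zpowers x) := by
        apply IsPGroup.to_le (S.isPGroup')
        rw [Subgroup.zpowers_le]
        exact hxS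
      have hnorm : (Subgroup.zpowers x) ≤ Subgroup.normalizer (P : Set G) := by
        rw [Subgroup.zpowers_le, Subgroup.mem_normalizer_iff]
        intro h
        have hcomm : ∀ y ∈ P, x * y * x⁻¹ = y := by
          intro y hy
          have := Subgroup.mem_centralizer_singleton_iff.mp (hPC hy)
          rw [← this]
          group
        constructor
        · intro hh
          rw [hcomm h hh]; exact hh
        · intro hh
          have hy := Subgroup.mem_centralizer_singleton_iff.mp (hPC hh)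
          have e : h = x * h * x⁻¹ := by
            calc h = x⁻¹ * ((x * h * x⁻¹) * x) := by group
              _ = x⁻¹ * (x * (x * h * x⁻¹)) := by rw [hy]
              _ = x * h * x⁻¹ := by group
          rw [e]; exact hh
      have hsup : IsPGroup 2 ↥(Subgroup.zpowers x ⊔ P) :=
        IsPGroup.to_sup_of_normal_right' hxp hP hnorm
      obtain ⟨W, hW⟩ := hsup.exists_le_sylow
      have hxW : x ∈ (W : Subgroup G) := hW (Subgroup.mem_sup_left (Subgroup.mem_zpowers x))
      have hWS : W = S := by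
        by_contra hne
        exact hother W hne hxW
      apply Subgroup.card_le_of_le
      refine le_inf ?_ hPC
      rw [← hWS]
      exact le_sup_right.trans hW
  · intro T hTS x hx
    refine ⟨(mem_centerMap _ _).mpr ⟨hx.1, lemmaA hCI S T (Ne.symm hTS) x hx.1 hx.2⟩,
      (mem_centerMap _ _).mpr ⟨hx.2, lemmaA hCI T S hTS x hx.2 hx.1⟩⟩

end Cfsg.Agent.S3183
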