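import Cfsg.Statements.S3184
import Cfsg.Agent.Lib.H15.ZStarSyl

set_option autoImplicit false
set_option linter.style.haveILetI false
open Cfsg

namespace Cfsg.Agent.S3184

open Cfsg.Agent.H15
open scoped Pointwise

theorem mem_smul {G : Type*} [Group G] (S : Subgroup G) (h x : G) :
    x ∈ (MulAut.conj h • S) ↔ h⁻¹ * x * h ∈ S := by
  rw [Subgroup.mem_pointwise_smul_iff_inv_smul_mem]
  simp [MulAut.smul_def]

/-- Let G be a finite group in which the intersection of any two distinct Sylow 2-subgroups is contained in the centre of some Sylow 2-subgroup, and let S be a Sylow 2-subgroup. If C is a nontrivial cyclic characteristic subgroup of S, then the involution of C is central modulo the largest normal subgroup of odd order of G: each of its conjugates has the same image in G/O(G). -/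
theorem result {G : Type*} [Group G] [Finite G]
    (hCI : ∀ S T : Sylow 2 G, S ≠ T → ∃ U : Sylow 2 G,
      (S : Subgroup G) ⊓ (T : Subgroup G) ≤ (Subgroup.center ↥(U : Subgroup G)).map (U : Subgroup G).subtype)
    (S : Sylow 2 G) (C : Subgroup ↥(S : Subgroup G)) (hC : C ≠ ⊥) (hCc : IsCyclic ↥C) (hCh : C.Characteristic)
    (c : ↥(S : Subgroup G)) (hc : c ∈ C) (hc2 : orderOf c = 2) :
    ∀ g : G, (QuotientGroup.mk (s := Cfsg.oddCore G) (g * (c : G) * g⁻¹)) =
      QuotientGroup.mk (s := Cfsg.oddCore G) (c : G) := by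
  classical
  haveI : Fact (Nat.Prime 2) := ⟨Nat.prime_two⟩
  have hco : orderOf (c : G) = 2 := by rwa [Subgroup.orderOf_coe]
  -- conjugation by an element normalizing `S` fixes `c`
  have hnorm : ∀ h : G, (∀ s ∈ (S : Subgroup G), h * s * h⁻¹ ∈ (S : Subgroup G)) →
      h * (c : G) * h⁻¹ = c := by
    intro h hh
    let f : (S : Subgroup G) →* (S : Subgroup G) :=
      { toFun := fun s => ⟨h * s * h⁻¹, hh s s.2⟩
        map_one' := by ext; simp
        map_mul' := fun a b => by ext; simp [mul_assoc] }
    have hf : Function.Injective f := by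
      intro a b hab
      have h1 : h * (a : G) * h⁻¹ = h * (b : G) * h⁻¹ := congrArg Subtype.val hab
      exact Subtype.ext (mul_left_cancel (mul_right_cancel h1))
    let φ : (S : Subgroup G) ≃* (S : Subgroup G) :=
      MulEquiv.ofBijective f (Finite.injective_iff_bijective.mp hf)
    have h1 : f c ∈ C := by
      have h2 := hCh.fixed φ
      have h3 : c ∈ C.comap φ.toMonoidHom := by rw [h2]; exact hc
      exact h3
    have h4 : orderOf (f c) = 2 := (orderOf_injective f hf c).trans hc2
    have h6 : (⟨f c, h1⟩ : C) = ⟨c, hc⟩ := by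
      obtain ⟨w, hw⟩ := hCc.exists_generator
      have hu := Cfsg.Agent.H15.unique_involution_of_zpowers (a := w) (u := (⟨f c, h1⟩ : C))
        (v := (⟨c, hc⟩ : C)) (hw _) (hw _) ((Subgroup.orderOf_mk (f c) h1).trans h4)
        ((Subgroup.orderOf_mk c hc).trans hc2)
      exact hu
    have h7 : f c = c := congrArg Subtype.val h6
    exact congrArg Subtype.val h7
  -- `c` is central in `S`
  have hcen : ∀ s ∈ (S : Subgroup G), s * (c : G) = c * s := by
    intro s hs
    let s' : (S : Subgroup G) := ⟨s, hs⟩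
    haveI hCn : C.Normal := inferInstance
    have h1 : s' * c * s'⁻¹ ∈ C := hCn.conj_mem c hc s'
    have h2 : orderOf (s' * c * s'⁻¹) = 2 :=
      (orderOf_injective (MulAut.conj s').toMonoidHom (MulEquiv.injective _) c).trans hc2
    obtain ⟨w, hw⟩ := hCc.exists_generator
    have hu := Cfsg.Agent.H15.unique_involution_of_zpowers (a := w) (u := (⟨_, h1⟩ : C))
      (v := (⟨c, hc⟩ : C)) (hw _) (hw _) ((Subgroup.orderOf_mk _ h1).trans h2)
      ((Subgroup.orderOf_mk c hc).trans hc2)
    have h3 : s' * c * s'⁻¹ = c := congrArg Subtype.val hu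
    have h4 : s * (c : G) * s⁻¹ = c := congrArg Subtype.val h3
    calc s * (c : G) = s * (c : G) * s⁻¹ * s := by group
      _ = c * s := by rw [h4]
  -- Step A
  have hA : ∀ h : G, (∀ s ∈ (S : Subgroup G), s * (h * (c : G) * h⁻¹) = (h * (c : G) * h⁻¹) * s) →
      h * (c : G) * h⁻¹ = c := by
    intro h hh
    set y := h * (c : G) * h⁻¹ with hy
    have hS : (S : Subgroup G) ≤ Subgroup.centralizer ({y} : Set G) := fun s hs =>
      Subgroup.mem_centralizer_singleton_iff.mpr (hh s hs)
    set D := (S : Subgroup G).map (MulAut.conj h).toMonoidHom with hD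
    have hDp : IsPGroup 2 D := S.isPGroup'.map _
    have hDC : D ≤ Subgroup.centralizer ({y} : Set G) := by
      rintro _ ⟨s, hs, rfl⟩
      rw [Subgroup.mem_centralizer_singleton_iff]
      have h1 := hcen s hs
      show h * s * h⁻¹ * y = y * (h * s * h⁻¹)
      rw [hy]
      calc h * s * h⁻¹ * (h * (c : G) * h⁻¹) = h * (s * (c : G)) * h⁻¹ := by group
        _ = h * ((c : G) * s) * h⁻¹ := by rw [h1]
        _ = h * (c : G) * h⁻¹ * (h * s * h⁻¹) := by group
    obtain ⟨k, hkC, hk⟩ := exists_conj_le_sylow_of_le _ D S hS hDC hDp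
    have hk' : k * y = y * k := Subgroup.mem_centralizer_singleton_iff.mp hkC
    have h2 := hnorm (k * h) (fun s hs => by
      have := hk (h * s * h⁻¹) ⟨s, hs, rfl⟩
      convert this using 1
      group)
    have h3 : (k * h) * (c : G) * (k * h)⁻¹ = k * y * k⁻¹ := by
      rw [hy]; group
    rw [h3, hk', mul_inv_cancel_right] at h2
    exact h2
  -- isolation in `S`
  have hiso : ∀ g : G, g * (c : G) * g⁻¹ ∈ (S : Subgroup G) → g * (c : G) * g⁻¹ = c := by
    intro g hg
    set y := g * (c : G) * g⁻¹ with hy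
    have hcy : (c : G) * y = y * c := (hcen y hg).symm
    set D := (S : Subgroup G) ⊓ Subgroup.centralizer ({y} : Set G) with hD
    have hDp : IsPGroup 2 D := S.isPGroup'.to_le inf_le_left
    -- `g • S` is a Sylow subgroup of `C(y)`
    have hgS : ∀ t ∈ ((g • S : Sylow 2 G) : Subgroup G), t ∈ Subgroup.centralizer ({y} : Set G) := by
      intro t ht
      rw [Sylow.coe_subgroup_smul, mem_smul] at ht
      rw [Subgroup.mem_centralizer_singleton_iff]
      have h1 := hcen _ ht
      have h2 : t * y = g * (g⁻¹ * t * g * (c : G)) * g⁻¹ := by rw [hy]; group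
      have h3 : y * t = g * ((c : G) * (g⁻¹ * t * g)) * g⁻¹ := by rw [hy]; group
      rw [h2, h3, h1]
    obtain ⟨k, hkC, hk⟩ := exists_conj_le_sylow_of_le (Subgroup.centralizer ({y} : Set G)) D (g • S) hgS inf_le_right hDp
    have hk' : k * y = y * k := Subgroup.mem_centralizer_singleton_iff.mp hkC
    have hkinv : k⁻¹ * y * k = y := by
      rw [mul_assoc, ← hk']; group
    -- the Sylow subgroup `S''`
    set g' := k⁻¹ * g with hg'
    have hyg' : g' * (c : G) * g'⁻¹ = y := by
      rw [hg']
      calc k⁻¹ * g * (c : G) * (k⁻¹ * g)⁻¹ = k⁻¹ * (g * (c : G) * g⁻¹) * k := by group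
        _ = y := hkinv
    have hmemS'' : ∀ d ∈ D, d ∈ ((g' • S : Sylow 2 G) : Subgroup G) := by
      intro d hd
      have h1 := hk d hd
      rw [Sylow.coe_subgroup_smul, mem_smul] at h1 ⊢
      convert h1 using 1
      rw [hg']
      group
    by_cases hSS : S = g' • S
    · -- `g'` normalizes `S`
      have h1 : g' * (c : G) * g'⁻¹ = c := hnorm g' (fun s hs => by
        have h2 : s ∈ ((g' • S : Sylow 2 G) : Subgroup G) := by rw [← hSS]; exact hs
        have h3 : ∀ t ∈ (S : Subgroup G), g' * t * g'⁻¹ ∈ ((g' • S : Sylow 2 G) : Subgroup G) := by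
          intro t ht
          rw [Sylow.coe_subgroup_smul, mem_smul]
          convert ht using 1
          group
        have h4 := h3 s hs
        rw [← hSS] at h4
        exact h4)
      rw [← hyg', h1]
    · obtain ⟨U, hU⟩ := hCI S (g' • S) hSS
      have hyD : y ∈ D := ⟨hg, Subgroup.mem_centralizer_singleton_iff.mpr rfl⟩
      have hcD : (c : G) ∈ D := ⟨c.2, Subgroup.mem_centralizer_singleton_iff.mpr hcy⟩
      have hyU := hU ⟨hg, hmemS'' y hyD⟩
      have hcU := hU ⟨c.2, hmemS'' c hcD⟩
      obtain ⟨⟨y', hy'U⟩, hy'c, hy'e⟩ := hyU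
      obtain ⟨⟨c', hc'U⟩, hc'c, hc'e⟩ := hcU
      have hy'e' : y' = y := hy'e
      have hc'e' : c' = c := hc'e
      subst hy'e' 
      replace hy'c : ∀ u : (U : Subgroup G), u * ⟨y, hy'U⟩ = ⟨y, hy'U⟩ * u :=
        Subgroup.mem_center_iff.mp hy'c
      replace hc'c : ∀ u : (U : Subgroup G), u * ⟨c', hc'U⟩ = ⟨c', hc'U⟩ * u :=
        Subgroup.mem_center_iff.mp hc'c
      have hUc : ∀ u ∈ (U : Subgroup G), u * (c : G) = c * u := by
        intro u hu
        have := hc'c ⟨u, hu⟩
        have h1 := congrArg Subtype.val this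
        simp only [Subgroup.coe_mul] at h1
        rw [hc'e'] at h1
        exact h1
      have hUy : ∀ u ∈ (U : Subgroup G), u * y = y * u := by
        intro u hu
        have := hy'c ⟨u, hu⟩
        have h1 := congrArg Subtype.val this
        simpa using h1
      -- conjugate `U` to `S` in `C(c)`
      have hSC : (S : Subgroup G) ≤ Subgroup.centralizer ({(c : G)} : Set G) := fun s hs =>
        Subgroup.mem_centralizer_singleton_iff.mpr (hcen s hs)
      have hUC : (U : Subgroup G) ≤ Subgroup.centralizer ({(c : G)} : Set G) := fun s hs =>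
        Subgroup.mem_centralizer_singleton_iff.mpr (hUc s hs)
      obtain ⟨l, hlC, hl⟩ := exists_conj_le_sylow_of_le _ (U : Subgroup G) S hSC hUC U.isPGroup'
      have hlc : l * (c : G) = c * l := Subgroup.mem_centralizer_singleton_iff.mp hlC
      -- `l U l⁻¹ = S`
      have hlS : ∀ s ∈ (S : Subgroup G), ∃ u ∈ (U : Subgroup G), s = l * u * l⁻¹ := by
        have h1 : (U : Subgroup G).map (MulAut.conj l).toMonoidHom = (S : Subgroup G) := by
          apply Subgroup.eq_of_le_of_card_ge
          · rintro _ ⟨u, hu, rfl⟩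
            exact hl u hu
          · have h2 : Nat.card ((U : Subgroup G).map (MulAut.conj l).toMonoidHom) =
                Nat.card (U : Subgroup G) :=
              Nat.card_congr ((U : Subgroup G).equivMapOfInjective _ (MulEquiv.injective _)).symm.toEquiv
            rw [h2, Sylow.card_eq_multiplicity, Sylow.card_eq_multiplicity]
        intro s hs
        rw [← h1] at hs
        obtain ⟨u, hu, rfl⟩ := hs
        exact ⟨u, hu, rfl⟩
      have hy1 := hA (l * g') (fun s hs => by
        obtain ⟨u, hu, rfl⟩ := hlS s hs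
        have h2 : (l * g') * (c : G) * (l * g')⁻¹ = l * y * l⁻¹ := by
          rw [← hyg']; group
        rw [h2]
        have h3 := hUy u hu
        calc l * u * l⁻¹ * (l * y * l⁻¹) = l * (u * y) * l⁻¹ := by group
          _ = l * (y * u) * l⁻¹ := by rw [h3]
          _ = l * y * l⁻¹ * (l * u * l⁻¹) := by group)
      have h2 : (l * g') * (c : G) * (l * g')⁻¹ = l * y * l⁻¹ := by
        rw [← hyg']; group
      rw [h2] at hy1
      -- conclude
      have h3 : y = l⁻¹ * (c : G) * l := by
        rw [← hy1]; group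
      rw [h3, mul_assoc, ← hlc]
      group
  have hz := isolated_of_sylow S hco c.2 hiso
  intro g
  rw [QuotientGroup.eq]
  have h1 := zstar_theorem G (c : G) hz g
  have hinv := Cfsg.Agent.H05.iso_inv hz
  have h2 : (g * (c : G) * g⁻¹)⁻¹ * c = (c * g * (c : G)⁻¹ * g⁻¹)⁻¹ := by
    calc (g * (c : G) * g⁻¹)⁻¹ * c = g * (c : G)⁻¹ * g⁻¹ * c := by group
      _ = g * (c : G) * g⁻¹ * (c : G)⁻¹ := by rw [hinv]
      _ = (c * g * (c : G)⁻¹ * g⁻¹)⁻¹ := by group
  rw [h2]
  exact Subgroup.inv_mem _ h1

end Cfsg.Agent.S3184
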