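import Cfsg.Statements.S3190
import Cfsg.Agent.Lib.H15.PGroup1

set_option autoImplicit false
open Cfsg

namespace Cfsg.Agent.S3190

open Cfsg.Agent.H15 in
/-- Let p be an odd prime and, inside a finite group, let P be a p-subgroup normalized by a Klein four-group T. Let R be a subgroup of P, normal in P and normalized by T, such that P is the product of R with the centralizer of T in P. If T centralizes the centre of P, then T centralizes the centre of R. -/
theorem result {X : Type*} [Group X] [Finite X]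
    {p : ℕ} (hp : p.Prime) (hodd : Odd p) (P T R : Subgroup X) (hP : IsPGroup p ↥P) (hT : IsKleinFour ↥T)
    (hTP : T ≤ Subgroup.normalizer (P : Set X)) (hRP : R ≤ P) (hRn : (R.subgroupOf P).Normal)
    (hTR : T ≤ Subgroup.normalizer (R : Set X)) (hfac : R ⊔ (P ⊓ Subgroup.centralizer (T : Set X)) = P)
    (hZ : T ≤ Subgroup.centralizer (((Subgroup.center ↥P).map P.subtype : Subgroup X) : Set X)) :
    T ≤ Subgroup.centralizer (((Subgroup.center ↥R).map R.subtype : Subgroup X) : Set X) := by
  classical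
  have : Fact p.Prime := ⟨hp⟩
  set A : Subgroup X := (Subgroup.center ↥R).map R.subtype with hA
  have hAmem := mem_centerMap R
  have hAR : A ≤ R := fun a ha => ((hAmem a).mp ha).1
  have hAcomm : ∀ a ∈ A, ∀ b ∈ A, a * b = b * a := fun a ha b hb =>
    (((hAmem b).mp hb).2 a (hAR ha))
  -- conjugation by anything normalizing `R` preserves `A`
  have hconjA : ∀ x ∈ Subgroup.normalizer (R : Set X), ∀ a ∈ A, x * a * x⁻¹ ∈ A := by
    intro x hx a ha
    rw [hAmem]
    have hx' := Subgroup.mem_normalizer_iff.mp hx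
    refine ⟨(hx' a).mp (hAR ha), ?_⟩
    intro r hr
    have h1 : x⁻¹ * r * x ∈ R := by
      have h1' := Subgroup.mem_normalizer_iff.mp (Subgroup.inv_mem _ hx) r
      have e : x⁻¹ * r * x⁻¹⁻¹ = x⁻¹ * r * x := by group
      rw [e] at h1'
      exact h1'.mp hr
    have h2 := ((hAmem a).mp ha).2 _ h1
    calc r * (x * a * x⁻¹) = x * ((x⁻¹ * r * x) * a) * x⁻¹ := by group
      _ = x * (a * (x⁻¹ * r * x)) * x⁻¹ := by rw [h2]
      _ = x * a * x⁻¹ * r := by group
  -- P normalizes R
  have hPnormR : P ≤ Subgroup.normalizer (R : Set X) := by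
    apply le_normalizer_of_conj_mem
    intro x hx r hr
    have h1 : (⟨r, hRP hr⟩ : P) ∈ R.subgroupOf P := by simpa [Subgroup.mem_subgroupOf] using hr
    have h2 := hRn.conj_mem _ h1 ⟨x, hx⟩
    simpa [Subgroup.mem_subgroupOf] using h2
  intro u hu
  have hu2 : u * u = 1 := by
    have h := hT.exponent_two
    have h1 : ((⟨u, hu⟩ : T) : T) ^ 2 = 1 := by
      rw [← h]; exact Monoid.pow_exponent_eq_one _
    have := congrArg Subtype.val h1
    simpa [pow_two] using this
  have huinv : u⁻¹ = u := inv_eq_of_mul_eq_one_left hu2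
  -- define `B`
  let B : Subgroup X :=
    { carrier := {a | a ∈ A ∧ u * a * u⁻¹ = a⁻¹}
      mul_mem' := by
        rintro a b ⟨ha, ha'⟩ ⟨hb, hb'⟩
        refine ⟨A.mul_mem ha hb, ?_⟩
        have : u * (a * b) * u⁻¹ = (u * a * u⁻¹) * (u * b * u⁻¹) := by group
        rw [this, ha', hb', mul_inv_rev, ← hAcomm _ (A.inv_mem ha) _ (A.inv_mem hb)]
      one_mem' := ⟨A.one_mem, by simp⟩
      inv_mem' := by
        rintro a ⟨ha, ha'⟩
        refine ⟨A.inv_mem ha, ?_⟩
        have : u * a⁻¹ * u⁻¹ = (u * a * u⁻¹)⁻¹ := by group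
        rw [this, ha'] }
  have hBA : B ≤ A := fun a ha => ha.1
  have hBP : B ≤ P := hBA.trans (hAR.trans hRP)
  -- every element of `P` normalizes `B`
  have hN : P ≤ Subgroup.normalizer (B : Set X) := by
    rw [← hfac, sup_le_iff]
    constructor
    · -- `R` centralizes `A`
      apply le_normalizer_of_conj_mem
      intro r hr b hb
      have : r * b * r⁻¹ = b := by
        rw [((hAmem b).mp hb.1).2 r hr]; group
      rw [this]; exact hb
    · -- the centralizer part
      apply le_normalizer_of_conj_mem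
      rintro c ⟨hcP, hcT⟩ b hb
      have hcu : c * u = u * c := by
        have := (Subgroup.mem_centralizer_iff.mp hcT) u hu
        exact this.symm
      have hcN := hPnormR hcP
      refine ⟨hconjA c hcN b hb.1, ?_⟩
      have h1 : u * (c * b * c⁻¹) * u⁻¹ = c * (u * b * u⁻¹) * c⁻¹ := by
        calc u * (c * b * c⁻¹) * u⁻¹ = (u * c) * b * (u * c)⁻¹ := by group
          _ = (c * u) * b * (c * u)⁻¹ := by rw [hcu]
          _ = c * (u * b * u⁻¹) * c⁻¹ := by group
      rw [h1, hb.2]; group
  -- so `B` is normal in `P`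
  set B' : Subgroup P := B.subgroupOf P with hB'
  have hB'n : B'.Normal := by
    constructor
    rintro ⟨b, hbP⟩ hb ⟨x, hx⟩
    have hb2 : b ∈ B := by simpa [hB', Subgroup.mem_subgroupOf] using hb
    have := (Subgroup.mem_normalizer_iff.mp (hN hx) b).mp hb2
    simpa [hB', Subgroup.mem_subgroupOf] using this
  have hBbot : B = ⊥ := by
    by_contra hne
    have hne' : B' ≠ ⊥ := by
      intro h
      apply hne
      rw [eq_bot_iff]
      intro b hb
      have : (⟨b, hBP hb⟩ : P) ∈ B' := by simpa [hB', Subgroup.mem_subgroupOf] using hb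
      rw [h, Subgroup.mem_bot] at this
      simpa using congrArg Subtype.val this
    obtain ⟨⟨z, hzP⟩, hz, hz1, hzc⟩ := exists_central_mem_of_normal hP B' hne'
    have hzB : z ∈ B := by simpa [hB', Subgroup.mem_subgroupOf] using hz
    -- `u` commutes with `z`
    have hzZ : z ∈ (Subgroup.center ↥P).map P.subtype := by
      rw [mem_centerMap]
      refine ⟨hzP, fun r hr => ?_⟩
      exact congrArg Subtype.val (hzc ⟨r, hr⟩)
    have huz : u * z = z * u := ((Subgroup.mem_centralizer_iff.mp (hZ hu)) z hzZ).symm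
    have h1 : z = z⁻¹ := by
      have := hzB.2
      rw [huz] at this
      simpa using this
    have hzz : z ^ 2 = 1 := by
      rw [pow_two]
      nth_rewrite 1 [h1]
      simp
    -- `z` has `p`-power order
    have hzo : orderOf z ∣ 2 := orderOf_dvd_of_pow_eq_one hzz
    have hzne : orderOf z ≠ 1 := by
      rw [Ne, orderOf_eq_one_iff]
      intro h
      apply hz1
      exact Subtype.ext h
    have hz2 : orderOf z = 2 := by
      rcases (Nat.dvd_prime Nat.prime_two).mp hzo with h | h
      · exact absurd h hzne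
      · exact h
    obtain ⟨k, hk⟩ := hP ⟨z, hzP⟩
    have hk' : z ^ p ^ k = 1 := by simpa using congrArg Subtype.val hk
    have h3 : 2 ∣ p ^ k := by
      rw [← hz2]; exact orderOf_dvd_of_pow_eq_one hk'
    have h4 : 2 ∣ p := Nat.Prime.dvd_of_dvd_pow Nat.prime_two h3
    exact (Nat.not_even_iff_odd.mpr hodd) (even_iff_two_dvd.mpr h4)
  -- conclude
  rw [Subgroup.mem_centralizer_iff]
  intro a ha
  have ha' : a ∈ A := ha
  have huA : u * a * u⁻¹ ∈ A := hconjA u (hTR hu) a ha'
  -- `b = a * (u a⁻¹ u⁻¹)` lies in `B`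
  have hb : a * (u * a⁻¹ * u⁻¹) ∈ B := by
    have h1 : u * a⁻¹ * u⁻¹ ∈ A := hconjA u (hTR hu) a⁻¹ (A.inv_mem ha')
    refine ⟨A.mul_mem ha' h1, ?_⟩
    have h2 : u * (a * (u * a⁻¹ * u⁻¹)) * u⁻¹ = (u * a * u⁻¹) * a⁻¹ := by
      rw [huinv]
      calc u * (a * (u * a⁻¹ * u)) * u = u * a * u * a⁻¹ * (u * u) := by group
        _ = _ := by rw [hu2, mul_one]
    rw [h2, mul_inv_rev]
    have h3 : (u * a⁻¹ * u⁻¹)⁻¹ = u * a * u⁻¹ := by group
    rw [h3]
  rw [hBbot, Subgroup.mem_bot] at hb
  have h5 : a = (u * a⁻¹ * u⁻¹)⁻¹ := eq_inv_of_mul_eq_one_left hb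
  have h6 : (u * a⁻¹ * u⁻¹)⁻¹ = u * a * u⁻¹ := by group
  rw [h6] at h5
  have h7 : a * u = u * a := by
    calc a * u = u * a * u⁻¹ * u := by rw [← h5]
      _ = u * a := by group
  exact h7

end Cfsg.Agent.S3190
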