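import Cfsg.Statements.S3195
import Cfsg.Agent.Lib.H15.Invol
import Cfsg.Agent.Lib.H01.Fitting

set_option autoImplicit false
open Cfsg

namespace Cfsg.Agent.S3195

open Cfsg.Agent.H15

section abstract

variable {G : Type*} [Group G]

private theorem inv_of_conj {a r : G} (h : a * r * a⁻¹ = r⁻¹) : r * a * r⁻¹ = r ^ 2 * a := by
  have h1 : a * r⁻¹ * a⁻¹ = r := by rw [← conj_inv, h, inv_inv]
  calc r * a * r⁻¹ = r * (a * r⁻¹ * a⁻¹) * a := by group
    _ = r * r * a := by rw [h1]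
    _ = r ^ 2 * a := by rw [pow_two]

private theorem two_rotations_contra (a b c r₁ r₂ : G)
    (hab : a * b = b * a) (hac : a * c = c * a) (hbc : b * c = c * b)
    (hr₁ : Odd (orderOf r₁)) (hr₁1 : r₁ ≠ 1) (hr₂ : Odd (orderOf r₂)) (hr₂1 : r₂ ≠ 1)
    (h1b : b * r₁ * b⁻¹ = r₁) (h1a : a * r₁ * a⁻¹ = r₁⁻¹) (h1c : c * r₁ * c⁻¹ = r₁⁻¹)
    (h2a : a * r₂ * a⁻¹ = r₂) (h2b : b * r₂ * b⁻¹ = r₂⁻¹) (h2c : c * r₂ * c⁻¹ = r₂⁻¹)
    (hyp : ∀ u, (u = a ∨ u = b ∨ u = c) → ∀ g : G, ∃ v, (v = a ∨ v = b ∨ v = c) ∧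
      v * (g * u * g⁻¹) = (g * u * g⁻¹) * v) : False := by
  have hr₁2 : r₁ ^ 2 ≠ 1 := fun h => hr₁1 (eq_one_of_two_pow_of_odd hr₁ 1 (by simpa using h))
  have hr₁4 : r₁ ^ 4 ≠ 1 := fun h => hr₁1 (eq_one_of_two_pow_of_odd hr₁ 2 (by simpa using h))
  have hr₂4 : r₂ ^ 4 ≠ 1 := fun h => hr₂1 (eq_one_of_two_pow_of_odd hr₂ 2 (by simpa using h))
  have conjA : ∀ v x : G, MulAut.conj v x = v * x * v⁻¹ := fun _ _ => rfl
  -- first step : the rotations commute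
  have hcomm : Commute r₁ r₂ := by
    set ρ := r₂ * r₁ ^ 2 * r₂⁻¹ with hρ
    have hy : (r₂ * r₁) * a * (r₂ * r₁)⁻¹ = ρ * a := by
      have h2a' : r₂ * a * r₂⁻¹ = a := by
        have : r₂ * a = a * r₂ := by
          rw [mul_inv_eq_iff_eq_mul] at h2a
          exact h2a.symm
        rw [this]; group
      calc (r₂ * r₁) * a * (r₂ * r₁)⁻¹ = r₂ * (r₁ * a * r₁⁻¹) * r₂⁻¹ := by group
        _ = r₂ * (r₁ ^ 2 * a) * r₂⁻¹ := by rw [inv_of_conj h1a]
        _ = ρ * (r₂ * a * r₂⁻¹) := by rw [hρ]; group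
        _ = ρ * a := by rw [h2a']
    obtain ⟨v, hv, hvy⟩ := hyp a (Or.inl rfl) (r₂ * r₁)
    rw [hy] at hvy
    have hφ : ∀ v, v * a = a * v → v * (ρ * a) = ρ * a * v → MulAut.conj v ρ = ρ := by
      intro v hva h
      rw [conjA, mul_inv_eq_iff_eq_mul]
      have h3 : v * ρ * a = ρ * v * a := by
        calc v * ρ * a = v * (ρ * a) := by group
          _ = ρ * a * v := h
          _ = ρ * (a * v) := by group
          _ = ρ * (v * a) := by rw [hva]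
          _ = ρ * v * a := by group
      exact mul_right_cancel h3
    rcases hv with hv | hv | hv
    · subst hv
      exfalso
      have h4 := hφ _ rfl hvy
      rw [hρ, map_mul, map_mul, map_inv, map_pow, conjA v r₂, conjA v r₁, h1a, h2a] at h4
      have h5 : (r₁⁻¹) ^ 2 = r₁ ^ 2 := by
        have := mul_left_cancel (mul_right_cancel h4)
        exact this
      apply hr₁4
      have : r₁ ^ 4 = r₁ ^ 2 * r₁ ^ 2 := by rw [← pow_add]
      rw [this]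
      nth_rw 1 [← h5]
      simp
    · subst hv
      have h4 := hφ _ hab.symm hvy
      rw [hρ, map_mul, map_mul, map_inv, map_pow, conjA v r₂, conjA v r₁, h1b, h2b, inv_inv] at h4
      apply commute_of_sq_commute hr₁ hr₂
      show r₁ ^ 2 * r₂ ^ 2 = r₂ ^ 2 * r₁ ^ 2
      have h5 : r₂ * (r₂⁻¹ * r₁ ^ 2 * r₂) * r₂ = r₂ * (r₂ * r₁ ^ 2 * r₂⁻¹) * r₂ := by rw [h4]
      have e1 : r₂ * (r₂⁻¹ * r₁ ^ 2 * r₂) * r₂ = r₁ ^ 2 * r₂ ^ 2 := by
        rw [pow_two r₂]; group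
      have e2 : r₂ * (r₂ * r₁ ^ 2 * r₂⁻¹) * r₂ = r₂ ^ 2 * r₁ ^ 2 := by
        rw [pow_two r₂]; group
      rw [e1, e2] at h5
      exact h5
    · subst hv
      exfalso
      have h4 := hφ _ hac.symm hvy
      rw [hρ, map_mul, map_mul, map_inv, map_pow, conjA v r₂, conjA v r₁, h1c, h2c, inv_inv] at h4
      -- `r₂²` inverts `r₁²`
      set f := r₁ ^ 2 with hf
      have he : r₂ ^ 2 * f * (r₂ ^ 2)⁻¹ = f⁻¹ := by
        have h5 : r₂ * (r₂ * f * r₂⁻¹) * r₂⁻¹ = r₂ * (r₂⁻¹ * (r₁⁻¹) ^ 2 * r₂) * r₂⁻¹ := by rw [h4]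
        have e1 : r₂ * (r₂ * f * r₂⁻¹) * r₂⁻¹ = r₂ ^ 2 * f * (r₂ ^ 2)⁻¹ := by
          rw [pow_two r₂]; group
        have e2 : r₂ * (r₂⁻¹ * (r₁⁻¹) ^ 2 * r₂) * r₂⁻¹ = f⁻¹ := by
          rw [hf, inv_pow]; group
        rw [e1, e2] at h5
        exact h5
      have he2 : r₂ ^ 4 * f = f * r₂ ^ 4 := by
        have h6 : r₂ ^ 2 * f⁻¹ * (r₂ ^ 2)⁻¹ = f := by rw [← conj_inv, he, inv_inv]
        have h7 : r₂ ^ 4 * f * (r₂ ^ 4)⁻¹ = f := by
          have e : r₂ ^ 4 = r₂ ^ 2 * r₂ ^ 2 := by rw [← pow_add]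
          rw [e]
          calc r₂ ^ 2 * r₂ ^ 2 * f * (r₂ ^ 2 * r₂ ^ 2)⁻¹
              = r₂ ^ 2 * (r₂ ^ 2 * f * (r₂ ^ 2)⁻¹) * (r₂ ^ 2)⁻¹ := by group
            _ = f := by rw [he, h6]
        rwa [mul_inv_eq_iff_eq_mul] at h7
      obtain ⟨n, hn⟩ := exists_pow_sq_eq_of_odd hr₂
      have hc4 : Commute (r₂ ^ 2) f := by
        have : r₂ ^ 2 = (r₂ ^ 4) ^ n := by
          calc r₂ ^ 2 = ((r₂ ^ 2) ^ n) ^ 2 := by rw [hn]
            _ = (r₂ ^ 4) ^ n := by rw [← pow_mul, ← pow_mul, ← pow_mul]; congr 1; ring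
        rw [this]
        exact Commute.pow_left he2 n
      have h8 : f = f⁻¹ := by
        rw [← he]
        have : r₂ ^ 2 * f = f * r₂ ^ 2 := hc4
        rw [this]; group
      apply hr₁4
      have e : r₁ ^ 4 = f * f := by rw [hf, ← pow_add]
      rw [e]
      nth_rw 1 [h8]
      simp
  -- second step
  set τ := r₁ * r₂ with hτ
  have hτ2 : τ ^ 2 = r₁ ^ 2 * r₂ ^ 2 := hcomm.mul_pow 2
  have hcτ : c * τ * c⁻¹ = τ⁻¹ := by
    have e : c * τ * c⁻¹ = (c * r₁ * c⁻¹) * (c * r₂ * c⁻¹) := by rw [hτ]; group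
    rw [e, h1c, h2c, hτ, mul_inv_rev]
    exact (hcomm.inv_inv).eq
  have hy : τ * c * τ⁻¹ = τ ^ 2 * c := inv_of_conj hcτ
  obtain ⟨v, hv, hvy⟩ := hyp c (Or.inr (Or.inr rfl)) τ
  rw [hy] at hvy
  have hφ : ∀ v, v * c = c * v → v * (τ ^ 2 * c) = τ ^ 2 * c * v → MulAut.conj v (τ ^ 2) = τ ^ 2 := by
    intro v hvc h
    rw [conjA, mul_inv_eq_iff_eq_mul]
    have h3 : v * τ ^ 2 * c = τ ^ 2 * v * c := by
      calc v * τ ^ 2 * c = v * (τ ^ 2 * c) := by group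
        _ = τ ^ 2 * c * v := h
        _ = τ ^ 2 * (c * v) := by group
        _ = τ ^ 2 * (v * c) := by rw [hvc]
        _ = τ ^ 2 * v * c := by group
    exact mul_right_cancel h3
  rcases hv with hv | hv | hv
  · subst hv
    have h4 := hφ _ hac hvy
    rw [hτ2, map_mul, map_pow, map_pow, conjA v r₁, conjA v r₂, h1a, h2a] at h4
    have h5 : (r₁⁻¹) ^ 2 = r₁ ^ 2 := mul_right_cancel h4
    apply hr₁4
    have : r₁ ^ 4 = r₁ ^ 2 * r₁ ^ 2 := by rw [← pow_add]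
    rw [this]
    nth_rw 1 [← h5]
    simp
  · subst hv
    have h4 := hφ _ hbc hvy
    rw [hτ2, map_mul, map_pow, map_pow, conjA v r₁, conjA v r₂, h1b, h2b] at h4
    have h5 : (r₂⁻¹) ^ 2 = r₂ ^ 2 := mul_left_cancel h4
    apply hr₂4
    have : r₂ ^ 4 = r₂ ^ 2 * r₂ ^ 2 := by rw [← pow_add]
    rw [this]
    nth_rw 1 [← h5]
    simp
  · subst hv
    have h4 := hφ _ rfl hvy
    rw [map_pow, conjA v τ, hcτ] at h4
    have hτ4 : τ ^ 4 = 1 := by
      have : τ ^ 4 = τ ^ 2 * τ ^ 2 := by rw [← pow_add]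
      rw [this]
      nth_rw 1 [← h4]
      simp
    -- conjugate by `a`
    have h14 : r₁ ^ 4 * r₂ ^ 4 = 1 := by
      rw [← hτ4]
      exact (hcomm.mul_pow 4).symm
    have h6 : a * (r₁ ^ 4 * r₂ ^ 4) * a⁻¹ = 1 := by rw [h14]; group
    have e6 : a * (r₁ ^ 4 * r₂ ^ 4) * a⁻¹ = (a * r₁ * a⁻¹) ^ 4 * (a * r₂ * a⁻¹) ^ 4 := by
      rw [conj_pow, conj_pow]; group
    rw [e6, h1a, h2a, inv_pow] at h6
    apply hr₁1
    apply eq_one_of_two_pow_of_odd hr₁ 3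
    have h7 : r₂ ^ 4 = r₁ ^ 4 := by
      rw [inv_mul_eq_one] at h6
      exact h6.symm
    have h8 : r₁ ^ 4 * r₁ ^ 4 = 1 := by
      nth_rw 2 [← h7]
      exact h14
    rw [show 2 ^ 3 = 4 + 4 from rfl, pow_add]
    exact h8

end abstract

/-- Let A be a Klein four-subgroup of a finite group G. If every G-conjugate of every involution of A commutes with some involution of A (its centralizer meets A nontrivially), then A meets the largest normal 2-subgroup O₂(G) nontrivially. -/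
theorem result {G : Type*} [Group G] [Finite G]
    (A : Subgroup G) (hA : IsKleinFour ↥A)
    (h : ∀ a ∈ A, a ≠ 1 → ∀ g : G, A ⊓ Subgroup.centralizer ({g * a * g⁻¹} : Set G) ≠ ⊥) :
    A ⊓ Cfsg.pCore 2 G ≠ ⊥ := by
  classical
  intro hbot
  -- basic facts on `A`
  have hAc : ∀ x ∈ A, ∀ y ∈ A, x * y = y * x := by
    intro x hx y hy
    have h1 := hA.isMulCommutative.is_comm.comm ⟨x, hx⟩ ⟨y, hy⟩
    exact congrArg Subtype.val h1
  have hAs : ∀ x ∈ A, x * x = 1 := by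
    intro x hx
    have h1 := IsKleinFour.mul_self (⟨x, hx⟩ : A)
    exact congrArg Subtype.val h1
  have hAinv : ∀ x ∈ A, x⁻¹ = x := by
    intro x hx
    rw [inv_eq_iff_mul_eq_one]
    exact hAs x hx
  have hA3 : ∀ x ∈ A, ∀ y ∈ A, ∀ z ∈ A, x ≠ 1 → y ≠ 1 → x ≠ y → z ≠ 1 → z ≠ x → z ≠ y →
      z = x * y := by
    intro x hx y hy z hz h1 h2 h3 h4 h5 h6
    have := IsKleinFour.eq_mul_of_ne_all (x := (⟨x, hx⟩ : A)) (y := ⟨y, hy⟩) (z := ⟨z, hz⟩)
      (fun e => h1 (congrArg Subtype.val e)) (fun e => h2 (congrArg Subtype.val e))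
      (fun e => h3 (congrArg Subtype.val e)) (fun e => h4 (congrArg Subtype.val e))
      (fun e => h5 (congrArg Subtype.val e)) (fun e => h6 (congrArg Subtype.val e))
    exact congrArg Subtype.val this
  have hdata : ∀ u ∈ A, u ≠ 1 → ∃ w ∈ A, w ≠ 1 ∧ w ≠ u ∧ ∃ r : G, Odd (orderOf r) ∧ r ≠ 1 ∧
      w * r * w⁻¹ = r ∧ ∀ v ∈ A, v ≠ 1 → v ≠ w → v * r * v⁻¹ = r⁻¹ := by
    intro u hu hu1
    have hu2 : orderOf u = 2 := orderOf_eq_prime (by rw [pow_two]; exact hAs u hu) hu1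
    have hO : ∀ N : Subgroup G, N.Normal → IsPGroup 2 N → u ∉ N := by
      intro N hNn hNp huN
      have h1 : N ≤ Cfsg.pCore 2 G := Cfsg.Agent.H01.le_pCore hNn hNp
      have h2 : u ∈ A ⊓ Cfsg.pCore 2 G := ⟨hu, h1 huN⟩
      rw [hbot] at h2
      exact hu1 h2
    obtain ⟨x, hx, hodd, hne⟩ := exists_conj_odd_of_not_mem_normal hu2 hO
    obtain ⟨g, rfl⟩ := isConj_iff.mp hx
    set x := g * u * g⁻¹ with hxdef
    have hxx : x * x = 1 := by
      rw [hxdef, ← pow_two, conj_pow, pow_two, hAs u hu]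
      simp
    have hxinv : x⁻¹ = x := by
      rw [inv_eq_iff_mul_eq_one]
      exact hxx
    obtain ⟨⟨w, hwm⟩, hw1⟩ := Subgroup.ne_bot_iff_exists_ne_one.mp (h u hu hu1 g)
    have hwA : w ∈ A := hwm.1
    have hwc : w * x = x * w :=
      (Subgroup.mem_centralizer_singleton_iff.mp hwm.2)
    have hw1' : w ≠ 1 := fun e => hw1 (Subtype.ext e)
    have hwu : w ≠ u := by
      rintro rfl
      apply hne
      apply eq_one_of_two_pow_of_odd hodd 1
      rw [pow_one, pow_two]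
      calc w * x * (w * x) = w * (x * w) * x := by group
        _ = w * (w * x) * x := by rw [hwc]
        _ = (w * w) * (x * x) := by group
        _ = 1 := by rw [hAs w hwA, hxx, one_mul]
    have huw : u * w = w * u := hAc u hu w hwA
    have hconj1 : w * (u * x) * w⁻¹ = u * x := by
      rw [mul_inv_eq_iff_eq_mul]
      calc w * (u * x) = (w * u) * x := by group
        _ = (u * w) * x := by rw [huw]
        _ = u * (w * x) := by group
        _ = u * (x * w) := by rw [hwc]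
        _ = u * x * w := by group
    have hconj2 : u * (u * x) * u⁻¹ = (u * x)⁻¹ := by
      rw [mul_inv_rev, hxinv, hAinv u hu]
      calc u * (u * x) * u = (u * u) * x * u := by group
        _ = x * u := by rw [hAs u hu, one_mul]
    refine ⟨w, hwA, hw1', hwu, u * x, hodd, hne, hconj1, ?_⟩
    intro v hv hv1 hvw
    by_cases hvu : v = u
    · rw [hvu]; exact hconj2
    · have e := hA3 u hu w hwA v hv hu1 hw1' (Ne.symm hwu) hv1 hvu hvw
      rw [e]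
      calc u * w * (u * x) * (u * w)⁻¹ = u * (w * (u * x) * w⁻¹) * u⁻¹ := by group
        _ = u * (u * x) * u⁻¹ := by rw [hconj1]
        _ = (u * x)⁻¹ := hconj2
  -- a non-identity element
  obtain ⟨u₀, hu₀⟩ : ∃ u₀ : A, u₀ ≠ 1 := by
    have : Nontrivial A := by
      rw [← Finite.one_lt_card_iff_nontrivial, IsKleinFour.card_four]
      norm_num
    exact exists_ne 1
  have hu₀' : (u₀ : G) ≠ 1 := fun e => hu₀ (Subtype.ext e)
  obtain ⟨b, hbA, hb1, -, r₁, hr₁, hr₁1, h1b, h1o⟩ := hdata u₀ u₀.2 hu₀'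
  obtain ⟨a, haA, ha1, hab, r₂, hr₂, hr₂1, h2a, h2o⟩ := hdata b hbA hb1
  have hcA : a * b ∈ A := A.mul_mem haA hbA
  have hbb : b * b = 1 := hAs b hbA
  have haa : a * a = 1 := hAs a haA
  have hc1 : a * b ≠ 1 := by
    intro e
    apply hab
    have : a = b⁻¹ := eq_inv_of_mul_eq_one_left e
    rw [this, hAinv b hbA]
  have hca : a * b ≠ a := by
    intro e
    apply hb1
    simpa using e
  have hcb : a * b ≠ b := by
    intro e
    apply ha1
    simpa using e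
  apply two_rotations_contra a b (a * b) r₁ r₂
    (hAc a haA b hbA) (hAc a haA _ hcA) (hAc b hbA _ hcA) hr₁ hr₁1 hr₂ hr₂1 h1b
    (h1o a haA ha1 hab) (h1o _ hcA hc1 hcb) h2a
    (h2o b hbA hb1 (Ne.symm hab)) (h2o _ hcA hc1 hca)
  intro u hu g
  have huA : u ∈ A := by
    rcases hu with rfl | rfl | rfl
    · exact haA
    · exact hbA
    · exact hcA
  have hu1 : u ≠ 1 := by
    rcases hu with rfl | rfl | rfl
    · exact ha1
    · exact hb1
    · exact hc1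
  obtain ⟨⟨v, hvm⟩, hv1⟩ := Subgroup.ne_bot_iff_exists_ne_one.mp (h u huA hu1 g)
  have hvA : v ∈ A := hvm.1
  have hvc := Subgroup.mem_centralizer_singleton_iff.mp hvm.2
  have hv1' : v ≠ 1 := fun e => hv1 (Subtype.ext e)
  refine ⟨v, ?_, hvc⟩
  by_cases hva : v = a
  · exact Or.inl hva
  by_cases hvb : v = b
  · exact Or.inr (Or.inl hvb)
  · exact Or.inr (Or.inr (hA3 a haA b hbA v hvA ha1 hb1 hab hv1' hva hvb))

end Cfsg.Agent.S3195
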