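import Cfsg.Statements.S3196
import Cfsg.Agent.Lib.H15.BaerSuzuki
import Cfsg.Agent.Lib.H01.Fitting

set_option autoImplicit false
open Cfsg

namespace Cfsg.Agent.S3196

open Cfsg.Agent.H15

section

variable {G : Type*} [Group G]

/-- Elements of subgroups commuting elementwise -/
private def Perp (X Y : Subgroup G) : Prop := ∀ x ∈ X, ∀ y ∈ Y, x * y = y * x

private theorem mem_sup_mul {X Y : Subgroup G} (h : Perp X Y) {e : G} (he : e ∈ X ⊔ Y) :
    ∃ x ∈ X, ∃ y ∈ Y, e = x * y := by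
  rw [Subgroup.sup_eq_closure] at he
  induction he using Subgroup.closure_induction with
  | mem e he =>
    rcases he with he | he
    · exact ⟨e, he, 1, Y.one_mem, by simp⟩
    · exact ⟨1, X.one_mem, e, he, by simp⟩
  | one => exact ⟨1, X.one_mem, 1, Y.one_mem, by simp⟩
  | mul a b _ _ ha hb =>
    obtain ⟨x, hx, y, hy, rfl⟩ := ha
    obtain ⟨x', hx', y', hy', rfl⟩ := hb
    refine ⟨x * x', X.mul_mem hx hx', y * y', Y.mul_mem hy hy', ?_⟩
    calc x * y * (x' * y') = x * (y * x') * y' := by group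
      _ = x * (x' * y) * y' := by rw [h x' hx' y hy]
      _ = x * x' * (y * y') := by group
  | inv a _ ha =>
    obtain ⟨x, hx, y, hy, rfl⟩ := ha
    refine ⟨x⁻¹, X.inv_mem hx, y⁻¹, Y.inv_mem hy, ?_⟩
    rw [mul_inv_rev]
    have := h x⁻¹ (X.inv_mem hx) y⁻¹ (Y.inv_mem hy)
    exact this.symm

private theorem gen_of_card {p : ℕ} (hp : p.Prime) {X : Subgroup G} (hX : Nat.card X = p) {x : G}
    (hx : x ∈ X) (hx1 : x ≠ 1) : X = Subgroup.zpowers x := by
  have hfin : Finite X := Nat.finite_of_card_ne_zero (by rw [hX]; exact hp.ne_zero)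
  have hle : Subgroup.zpowers x ≤ X := by
    rw [Subgroup.zpowers_le]; exact hx
  have hinj : Function.Injective (Subgroup.inclusion hle) := Subgroup.inclusion_injective hle
  have h1 : Nat.card (Subgroup.zpowers x) ∣ p := by
    rw [← hX]
    exact Subgroup.card_dvd_of_injective _ hinj
  rcases (Nat.dvd_prime hp).mp h1 with h2 | h2
  · exfalso
    rw [Nat.card_zpowers] at h2
    exact hx1 (orderOf_eq_one_iff.mp h2)
  · apply le_antisymm _ hle
    intro y hy
    have hcard : Nat.card (Subgroup.zpowers x) = Nat.card X := by rw [h2, hX]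
    have hbij := (Nat.bijective_iff_injective_and_card (Subgroup.inclusion hle)).mpr ⟨hinj, hcard⟩
    obtain ⟨z, hz⟩ := hbij.2 ⟨y, hy⟩
    have : (z : G) = y := congrArg Subtype.val hz
    rw [← this]
    exact z.2

private theorem comm_of_mem_zpowers {a b c d : G} (ha : c ∈ Subgroup.zpowers a)
    (hb : d ∈ Subgroup.zpowers b) (h : a * b = b * a) : c * d = d * c := by
  obtain ⟨m, rfl⟩ := Subgroup.mem_zpowers_iff.mp ha
  obtain ⟨n, rfl⟩ := Subgroup.mem_zpowers_iff.mp hb
  exact (Commute.zpow_zpow h m n).eq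

private theorem perp_zpowers {a b : G} (h : a * b = b * a) :
    Perp (Subgroup.zpowers a) (Subgroup.zpowers b) :=
  fun _ hx _ hy => comm_of_mem_zpowers hx hy h

private theorem lemmaQ [Finite G] {p : ℕ} (hp : p.Prime) (K : Set (Subgroup G))
    (hK : ∀ X ∈ K, Nat.card ↥X = p)
    (hKc : ∀ X ∈ K, ∀ g : G, X.map (MulAut.conj g).toMonoidHom ∈ K)
    (ha : ∀ X ∈ K, ∀ Y ∈ K, X ≠ Y → (∀ x ∈ X, ∀ y ∈ Y, x * y = y * x) →
      ∀ Z : Subgroup G, Z ≤ X ⊔ Y → Nat.card ↥Z = p → Z ∈ K)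
    (hb : ∀ X ∈ K, ∀ Y ∈ K, X ≠ Y → (∀ x ∈ X, ∀ y ∈ Y, x * y = y * x) →
      ∀ W ∈ K, (X ⊔ Y) ⊓ Subgroup.centralizer (W : Set G) ≠ ⊥)
    {t t' f f' : G} (hT : Subgroup.zpowers t ∈ K) (hT' : Subgroup.zpowers t' ∈ K)
    (hF : Subgroup.zpowers f ∈ K) (hF' : Subgroup.zpowers f' ∈ K)
    (c1 : t * t' = t' * t) (c2 : t * f = f * t) (c3 : f' * t' = t' * f') (c4 : f' * f = f * f')
    (n1 : t * f' ≠ f' * t) (n2 : t' * f ≠ f * t') :
    ∃ Z ∈ K, ∀ W ∈ K, Perp Z W := by
  classical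
  have : Fact p.Prime := ⟨hp⟩
  have htp : orderOf t = p := by rw [← Nat.card_zpowers]; exact hK _ hT
  have htpow : t ^ p = 1 := by rw [← htp]; exact pow_orderOf_eq_one t
  have ht'p : orderOf t' = p := by rw [← Nat.card_zpowers]; exact hK _ hT'
  have ht'pow : t' ^ p = 1 := by rw [← ht'p]; exact pow_orderOf_eq_one t'
  have memt := Subgroup.mem_zpowers t
  have memt' := Subgroup.mem_zpowers t'
  have memf := Subgroup.mem_zpowers f
  have memf' := Subgroup.mem_zpowers f'
  have hTT' : Subgroup.zpowers t ≠ Subgroup.zpowers t' := by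
    intro h
    rw [← h] at memt'
    exact n2 (comm_of_mem_zpowers memt' memf c2)
  have hFF' : Subgroup.zpowers f ≠ Subgroup.zpowers f' := by
    intro h
    rw [← h] at memf'
    exact n1 (comm_of_mem_zpowers memt memf' c2)
  -- Step 1
  set s := t * t' with hs
  have hss : Subgroup.zpowers s ≤ Subgroup.zpowers t ⊔ Subgroup.zpowers t' := by
    rw [Subgroup.zpowers_le]
    exact Subgroup.mul_mem_sup memt memt'
  have hspow : s ^ p = 1 := by
    rw [hs, (show Commute t t' from c1).mul_pow, htpow, ht'pow, one_mul]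
  have hs1 : s ≠ 1 := by
    intro h
    have : t' = t⁻¹ := eq_inv_of_mul_eq_one_right h
    apply n2
    have h2 : t' ∈ Subgroup.zpowers t := by rw [this]; exact Subgroup.inv_mem _ memt
    exact comm_of_mem_zpowers h2 memf c2
  have hscard : Nat.card (Subgroup.zpowers s) = p := by
    rw [Nat.card_zpowers]; exact orderOf_eq_prime hspow hs1
  have hsK := ha _ hT _ hT' hTT' (perp_zpowers c1) _ hss hscard
  -- Step 2
  obtain ⟨⟨e, he⟩, he1⟩ := Subgroup.ne_bot_iff_exists_ne_one.mp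
    (hb _ hF _ hF' hFF' (perp_zpowers c4.symm) _ hsK)
  have he1' : e ≠ 1 := fun h => he1 (Subtype.ext h)
  obtain ⟨x, hx, y, hy, rfl⟩ := mem_sup_mul (perp_zpowers c4.symm) he.1
  have hes : s * (x * y) = (x * y) * s :=
    (Subgroup.mem_centralizer_iff.mp he.2) s (Subgroup.mem_zpowers s)
  have hxt : Commute x t := comm_of_mem_zpowers hx memt c2.symm
  have hxy : Commute x y := comm_of_mem_zpowers hx hy c4.symm
  have hyt' : Commute y t' := comm_of_mem_zpowers hy memt' c3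
  have hxt' : Commute t x := hxt.symm
  have htt' : Commute t t' := c1
  -- Step 3
  set Y := t⁻¹ * (y * t * y⁻¹) with hY
  have a1 : x * (y * t * y⁻¹) * x⁻¹ = y * t * y⁻¹ := by
    have hcomm : Commute x (y * t * y⁻¹) := ((hxy.mul_right hxt)).mul_right hxy.inv_right
    rw [hcomm.eq, mul_inv_cancel_right]
  have a2 : y * t' * y⁻¹ = t' := by
    rw [hyt'.eq, mul_inv_cancel_right]
  have hmain : (y * t * y⁻¹) * (x * t' * x⁻¹) = t * t' := by
    have h0 : (x * y) * s * (x * y)⁻¹ = s := by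
      rw [← hes, mul_inv_cancel_right]
    calc (y * t * y⁻¹) * (x * t' * x⁻¹)
        = (x * (y * t * y⁻¹) * x⁻¹) * (x * t' * x⁻¹) := by rw [a1]
      _ = x * ((y * t * y⁻¹) * t') * x⁻¹ := by group
      _ = x * ((y * t * y⁻¹) * (y * t' * y⁻¹)) * x⁻¹ := by rw [a2]
      _ = (x * y) * s * (x * y)⁻¹ := by rw [hs]; group
      _ = t * t' := h0
  have hY2 : Y = t' * (x * t' * x⁻¹)⁻¹ := by
    rw [eq_mul_inv_iff_mul_eq, hY]
    calc t⁻¹ * (y * t * y⁻¹) * (x * t' * x⁻¹)
        = t⁻¹ * ((y * t * y⁻¹) * (x * t' * x⁻¹)) := by group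
      _ = t' := by rw [hmain]; group
  have htY : Commute t Y := by
    rw [hY2]
    exact htt'.mul_right (((hxt'.mul_right htt').mul_right hxt'.inv_right).inv_right)
  have hyY : Commute y Y := by
    rw [hY2]
    exact hyt'.mul_right (((hxy.symm.mul_right hyt').mul_right hxy.symm.inv_right).inv_right)
  have hy1 : y ≠ 1 := by
    intro h
    have hY1 : Y = 1 := by rw [hY, h]; simp
    rw [hY2, mul_inv_eq_one] at hY1
    have hx1 : x ≠ 1 := by
      intro hx1
      apply he1'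
      rw [hx1, h, one_mul]
    have hxc : x * t' = t' * x := by
      have := hY1.symm
      rw [mul_inv_eq_iff_eq_mul] at this
      exact this
    have hFgen := gen_of_card hp (hK _ hF) hx hx1
    have hfm : f ∈ Subgroup.zpowers x := by rw [← hFgen]; exact memf
    exact n2 (comm_of_mem_zpowers memt' hfm hxc.symm)
  have hF'gen := gen_of_card hp (hK _ hF') hy hy1
  have hf'y : f' ∈ Subgroup.zpowers y := by rw [← hF'gen]; exact memf'
  have hyt : y * t ≠ t * y := fun h =>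
    n1 (comm_of_mem_zpowers memt hf'y h.symm)
  have hyconj : y * t * y⁻¹ = t * Y := by rw [hY]; group
  have hY1 : Y ≠ 1 := by
    intro h
    rw [h, mul_one, mul_inv_eq_iff_eq_mul] at hyconj
    exact hyt hyconj
  -- Step 4
  have hYpow : Y ^ p = 1 := by
    have h1 : (t * Y) ^ p = 1 := by
      rw [← hyconj, conj_pow, htpow]; simp
    rw [htY.mul_pow, htpow, one_mul] at h1
    exact h1
  have hYcard : Nat.card (Subgroup.zpowers Y) = p := by
    rw [Nat.card_zpowers]; exact orderOf_eq_prime hYpow hY1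
  -- Step 5
  have hYt : Y ∉ Subgroup.zpowers t := by
    intro h
    have hgen := gen_of_card hp (hK _ hT) h hY1
    have htm : t ∈ Subgroup.zpowers Y := by rw [← hgen]; exact memt
    exact hyt (comm_of_mem_zpowers (Subgroup.mem_zpowers y) htm hyY)
  have hTy : Subgroup.zpowers (t * Y) ∈ K := by
    have h1 := hKc _ hT y
    rw [MonoidHom.map_zpowers] at h1
    have h2 : (MulAut.conj y).toMonoidHom t = t * Y := hyconj
    rw [h2] at h1
    exact h1
  have hneq : Subgroup.zpowers t ≠ Subgroup.zpowers (t * Y) := by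
    intro h
    apply hYt
    have h1 : t * Y ∈ Subgroup.zpowers t := by rw [h]; exact Subgroup.mem_zpowers _
    have h2 : Y = t⁻¹ * (t * Y) := by group
    rw [h2]
    exact Subgroup.mul_mem _ (Subgroup.inv_mem _ memt) h1
  have hZ : Subgroup.zpowers Y ∈ K := by
    refine ha _ hT _ hTy hneq (perp_zpowers ((Commute.refl t).mul_right htY).eq) _ ?_ hYcard
    rw [Subgroup.zpowers_le]
    have h3 := Subgroup.mul_mem_sup (Subgroup.inv_mem _ memt) (Subgroup.mem_zpowers (t * Y))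
    simpa using h3
  refine ⟨_, hZ, fun W hW => ?_⟩
  -- Step 6
  set C := Subgroup.centralizer (W : Set G) with hC
  have hfin : Y ∈ C → Perp (Subgroup.zpowers Y) W := by
    intro hYC z hz w hw
    have hle : Subgroup.zpowers Y ≤ C := by rw [Subgroup.zpowers_le]; exact hYC
    exact ((Subgroup.mem_centralizer_iff.mp (hle hz)) w hw).symm
  apply hfin
  have hkey : ∀ u ∈ Subgroup.zpowers Y, u ≠ 1 → u ∈ C → Y ∈ C := by
    intro u hu hu1 huC
    have hgen := gen_of_card hp hYcard hu hu1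
    have hle : Subgroup.zpowers u ≤ C := by rw [Subgroup.zpowers_le]; exact huC
    apply hle
    rw [← hgen]
    exact Subgroup.mem_zpowers Y
  have hTZ : Subgroup.zpowers t ≠ Subgroup.zpowers Y := by
    intro h
    apply hYt
    rw [h]
    exact Subgroup.mem_zpowers Y
  have hF'Z : Subgroup.zpowers f' ≠ Subgroup.zpowers Y := by
    intro h
    have h1 : f' ∈ Subgroup.zpowers Y := by rw [← h]; exact memf'
    exact n1 (comm_of_mem_zpowers memt h1 htY)
  have hf'Y : f' * Y = Y * f' := comm_of_mem_zpowers hf'y (Subgroup.mem_zpowers Y) hyY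
  obtain ⟨⟨e₁, he₁⟩, he₁1⟩ := Subgroup.ne_bot_iff_exists_ne_one.mp
    (hb _ hT _ hZ hTZ (perp_zpowers htY) W hW)
  obtain ⟨⟨e₂, he₂⟩, he₂1⟩ := Subgroup.ne_bot_iff_exists_ne_one.mp
    (hb _ hF' _ hZ hF'Z (perp_zpowers hf'Y) W hW)
  have he₁1' : e₁ ≠ 1 := fun h => he₁1 (Subtype.ext h)
  have he₂1' : e₂ ≠ 1 := fun h => he₂1 (Subtype.ext h)
  obtain ⟨τ, hτ, z₁, hz₁, rfl⟩ := mem_sup_mul (perp_zpowers htY) he₁.1
  obtain ⟨γ, hγ, z₂, hz₂, rfl⟩ := mem_sup_mul (perp_zpowers hf'Y) he₂.1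
  by_cases hτ1 : τ = 1
  · apply hkey z₁ hz₁
    · intro h; apply he₁1'; rw [hτ1, h, one_mul]
    · have := he₁.2
      rwa [hτ1, one_mul] at this
  by_cases hγ1 : γ = 1
  · apply hkey z₂ hz₂
    · intro h; apply he₂1'; rw [hγ1, h, one_mul]
    · have := he₂.2
      rwa [hγ1, one_mul] at this
  -- now the commutator
  have hγy : γ ∈ Subgroup.zpowers y := by rw [← hF'gen]; exact hγ
  obtain ⟨a, rfl⟩ := (mem_powers_iff_mem_zpowers).mpr hτ
  obtain ⟨c, rfl⟩ := (mem_powers_iff_mem_zpowers).mpr hγy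
  have hp1 : ∀ c : ℕ, y ^ c * t * (y ^ c)⁻¹ = t * Y ^ c := by
    intro c
    induction c with
    | zero => simp
    | succ c ih =>
      calc y ^ (c + 1) * t * (y ^ (c + 1))⁻¹
          = y * (y ^ c * t * (y ^ c)⁻¹) * y⁻¹ := by rw [pow_succ']; group
        _ = y * (t * Y ^ c) * y⁻¹ := by rw [ih]
        _ = (y * t * y⁻¹) * (y * Y ^ c * y⁻¹) := by group
        _ = (t * Y) * Y ^ c := by
            rw [hyconj, (hyY.pow_right c).eq, mul_inv_cancel_right]
        _ = t * Y ^ (c + 1) := by rw [pow_succ']; group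
  have hp2 : y ^ c * t ^ a * (y ^ c)⁻¹ = t ^ a * Y ^ (c * a) := by
    rw [← conj_pow, hp1, (htY.pow_right c).mul_pow, pow_mul]
  set u := Y ^ (c * a) with hu
  have huZ : u ∈ Subgroup.zpowers Y := Subgroup.pow_mem _ (Subgroup.mem_zpowers Y) _
  have hzτ : Commute z₁ (t ^ a) := (comm_of_mem_zpowers hz₁ (Subgroup.pow_mem _ memt a) htY.symm)
  have hzγ : Commute z₁ (y ^ c) :=
    (comm_of_mem_zpowers hz₁ (Subgroup.pow_mem _ (Subgroup.mem_zpowers y) c) hyY.symm)
  have hz'τ : Commute z₂ (t ^ a) :=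
    (comm_of_mem_zpowers hz₂ (Subgroup.pow_mem _ memt a) htY.symm)
  have hz'γ : Commute z₂ (y ^ c) :=
    (comm_of_mem_zpowers hz₂ (Subgroup.pow_mem _ (Subgroup.mem_zpowers y) c) hyY.symm)
  have hzz : Commute z₁ z₂ := comm_of_mem_zpowers hz₁ hz₂ (Commute.refl Y)
  have hu1 : u ≠ 1 := by
    intro h
    rw [h, mul_one, mul_inv_eq_iff_eq_mul] at hp2
    have htm : t ∈ Subgroup.zpowers (t ^ a) := by
      rw [← gen_of_card hp (hK _ hT) hτ hτ1]; exact memt
    have hf'm : f' ∈ Subgroup.zpowers (y ^ c) := by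
      rw [← gen_of_card hp (hK _ hF') hγ hγ1]; exact memf'
    exact n1 (comm_of_mem_zpowers htm hf'm hp2.symm)
  apply hkey u huZ hu1
  have hcomm : (t ^ a * z₁)⁻¹ * (y ^ c * z₂) * (t ^ a * z₁) * (y ^ c * z₂)⁻¹ = u := by
    have h3 : (t ^ a)⁻¹ * (y ^ c) * (t ^ a) * (y ^ c)⁻¹ = u := by
      calc (t ^ a)⁻¹ * (y ^ c) * (t ^ a) * (y ^ c)⁻¹
          = (t ^ a)⁻¹ * (y ^ c * t ^ a * (y ^ c)⁻¹) := by group
        _ = u := by rw [hp2]; group
    have h4 : z₂ * (t ^ a * z₁) * z₂⁻¹ = t ^ a * z₁ := by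
      rw [(hz'τ.mul_right hzz.symm).eq, mul_inv_cancel_right]
    have h5 : Commute z₁ u := comm_of_mem_zpowers hz₁ huZ (Commute.refl Y)
    calc (t ^ a * z₁)⁻¹ * (y ^ c * z₂) * (t ^ a * z₁) * (y ^ c * z₂)⁻¹
        = z₁⁻¹ * (t ^ a)⁻¹ * y ^ c * (z₂ * (t ^ a * z₁) * z₂⁻¹) * (y ^ c)⁻¹ := by group
      _ = z₁⁻¹ * ((t ^ a)⁻¹ * y ^ c * t ^ a * (z₁ * (y ^ c)⁻¹)) := by rw [h4]; group
      _ = z₁⁻¹ * ((t ^ a)⁻¹ * y ^ c * t ^ a * ((y ^ c)⁻¹ * z₁)) := by rw [hzγ.inv_right.eq]
      _ = z₁⁻¹ * (((t ^ a)⁻¹ * y ^ c * t ^ a * (y ^ c)⁻¹) * z₁) := by group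
      _ = z₁⁻¹ * (u * z₁) := by rw [h3]
      _ = u := by rw [← h5.eq, inv_mul_cancel_left]
  rw [← hcomm]
  exact C.mul_mem (C.mul_mem (C.mul_mem (C.inv_mem he₁.2) he₂.2) he₁.2) (C.inv_mem he₂.2)

end

/-- Let p be a prime and K a set of subgroups of order p of a finite group G, closed under conjugation, such that at least two distinct members of K commute elementwise, and whenever two distinct members X, Y of K commute: every subgroup of order p of the group XY they generate belongs to K, and every member W of K has centralizer meeting XY nontrivially. Then some member V of K commutes elementwise with every member of K and lies in O_p(G); in particular G is not simple. -/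
theorem result {G : Type*} [Group G] [Finite G]
    {p : ℕ} (hp : p.Prime) (K : Set (Subgroup G)) (hK : ∀ X ∈ K, Nat.card ↥X = p)
    (hKc : ∀ X ∈ K, ∀ g : G, X.map (MulAut.conj g).toMonoidHom ∈ K)
    (hex : ∃ X ∈ K, ∃ Y ∈ K, X ≠ Y ∧ ∀ x ∈ X, ∀ y ∈ Y, x * y = y * x)
    (ha : ∀ X ∈ K, ∀ Y ∈ K, X ≠ Y → (∀ x ∈ X, ∀ y ∈ Y, x * y = y * x) →
      ∀ Z : Subgroup G, Z ≤ X ⊔ Y → Nat.card ↥Z = p → Z ∈ K)
    (hb : ∀ X ∈ K, ∀ Y ∈ K, X ≠ Y → (∀ x ∈ X, ∀ y ∈ Y, x * y = y * x) →
      ∀ W ∈ K, (X ⊔ Y) ⊓ Subgroup.centralizer (W : Set G) ≠ ⊥) :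
    (∃ V ∈ K, (∀ W ∈ K, ∀ v ∈ V, ∀ w ∈ W, v * w = w * v) ∧ V ≤ Cfsg.pCore p G) ∧ ¬ IsSimpleGroup G := by
  classical
  have : Fact p.Prime := ⟨hp⟩
  obtain ⟨X₀, hX₀, Y₀, hY₀, hne, hperp⟩ := hex
  have hgenK : ∀ X ∈ K, ∃ x ∈ X, x ≠ 1 ∧ X = Subgroup.zpowers x := by
    intro X hX
    have hnt : Nontrivial X := by
      rw [← Finite.one_lt_card_iff_nontrivial, hK X hX]
      exact hp.one_lt
    obtain ⟨⟨x, hx⟩, hx1⟩ := exists_ne (1 : X)
    have hx1' : x ≠ 1 := fun h => hx1 (Subtype.ext h)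
    exact ⟨x, hx, hx1', gen_of_card hp (hK X hX) hx hx1'⟩
  have hpow : ∀ X ∈ K, ∀ x ∈ X, x ^ p = 1 := by
    intro X hX x hx
    have h1 := pow_card_eq_one' (x := (⟨x, hx⟩ : X))
    rw [hK X hX] at h1
    exact congrArg Subtype.val h1
  -- the radical is not empty
  have hrad : ∃ V ∈ K, ∀ W ∈ K, Perp V W := by
    set ℓ := X₀ ⊔ Y₀ with hℓ
    have hℓm : ∀ e ∈ ℓ, e ^ p = 1 := by
      intro e he
      obtain ⟨x, hx, y, hy, rfl⟩ := mem_sup_mul hperp he
      rw [(show Commute x y from hperp x hx y hy).mul_pow, hpow X₀ hX₀ x hx, hpow Y₀ hY₀ y hy,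
        one_mul]
    have hℓK : ∀ e ∈ ℓ, e ≠ 1 → Subgroup.zpowers e ∈ K := by
      intro e he he1
      refine ha _ hX₀ _ hY₀ hne hperp _ ?_ ?_
      · rw [Subgroup.zpowers_le]; exact he
      · rw [Nat.card_zpowers]; exact orderOf_eq_prime (hℓm e he) he1
    have hℓc : ∀ e ∈ ℓ, ∀ e' ∈ ℓ, e * e' = e' * e := by
      intro e he e' he'
      obtain ⟨x, hx, y, hy, rfl⟩ := mem_sup_mul hperp he
      obtain ⟨x', hx', y', hy', rfl⟩ := mem_sup_mul hperp he'
      have e1 := hX₀
      have hxx' : x * x' = x' * x := by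
        obtain ⟨a, -, -, ha'⟩ := hgenK X₀ hX₀
        rw [ha'] at hx hx'
        exact comm_of_mem_zpowers hx hx' (Commute.refl a)
      have hyy' : y * y' = y' * y := by
        obtain ⟨a, -, -, ha'⟩ := hgenK Y₀ hY₀
        rw [ha'] at hy hy'
        exact comm_of_mem_zpowers hy hy' (Commute.refl a)
      have hxy' := hperp x hx y' hy'
      have hx'y := hperp x' hx' y hy
      calc x * y * (x' * y') = x * (y * x') * y' := by group
        _ = x * (x' * y) * y' := by rw [hx'y]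
        _ = (x * x') * (y * y') := by group
        _ = (x' * x) * (y' * y) := by rw [hxx', hyy']
        _ = x' * (x * y') * y := by group
        _ = x' * (y' * x) * y := by rw [hxy']
        _ = x' * y' * (x * y) := by group
    by_cases hR : ∃ e ∈ ℓ, e ≠ 1 ∧ ∀ W ∈ K, Perp (Subgroup.zpowers e) W
    · obtain ⟨e, he, he1, h⟩ := hR
      exact ⟨_, hℓK e he he1, h⟩
    push Not at hR
    obtain ⟨x₀, hx₀, hx₀1, -⟩ := hgenK X₀ hX₀
    have hx₀ℓ : x₀ ∈ ℓ := Subgroup.mem_sup_left hx₀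
    obtain ⟨W₁, hW₁, hnW₁⟩ := hR x₀ hx₀ℓ hx₀1
    obtain ⟨⟨e₁, he₁⟩, he₁1⟩ := Subgroup.ne_bot_iff_exists_ne_one.mp (hb _ hX₀ _ hY₀ hne hperp W₁ hW₁)
    have he₁1' : e₁ ≠ 1 := fun h => he₁1 (Subtype.ext h)
    obtain ⟨W₂, hW₂, hnW₂⟩ := hR e₁ he₁.1 he₁1'
    obtain ⟨⟨e₂, he₂⟩, he₂1⟩ := Subgroup.ne_bot_iff_exists_ne_one.mp (hb _ hX₀ _ hY₀ hne hperp W₂ hW₂)
    have he₂1' : e₂ ≠ 1 := fun h => he₂1 (Subtype.ext h)
    obtain ⟨t, htW, ht1, hWt⟩ := hgenK W₁ hW₁
    obtain ⟨t', ht'W, ht'1, hWt'⟩ := hgenK W₂ hW₂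
    have hE₁ := hℓK e₁ he₁.1 he₁1'
    have hE₂ := hℓK e₂ he₂.1 he₂1'
    have hT : Subgroup.zpowers t ∈ K := hWt ▸ hW₁
    have hT' : Subgroup.zpowers t' ∈ K := hWt' ▸ hW₂
    have c2 : t * e₁ = e₁ * t := (Subgroup.mem_centralizer_iff.mp he₁.2) t htW
    have c3 : e₂ * t' = t' * e₂ := ((Subgroup.mem_centralizer_iff.mp he₂.2) t' ht'W).symm
    have c4 : e₂ * e₁ = e₁ * e₂ := hℓc _ he₂.1 _ he₁.1
    have n2 : t' * e₁ ≠ e₁ * t' := by
      intro h
      apply hnW₂
      rw [hWt']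
      exact perp_zpowers h.symm
    have hAB : Subgroup.zpowers e₁ ≠ Subgroup.zpowers e₂ := by
      intro h
      have h1 : e₁ ∈ Subgroup.zpowers e₂ := by rw [← h]; exact Subgroup.mem_zpowers e₁
      exact n2 (comm_of_mem_zpowers (Subgroup.mem_zpowers t') h1 c3.symm)
    have n1 : t * e₂ ≠ e₂ * t := by
      intro h
      apply hnW₁
      rw [hWt]
      -- `t` commutes with `ℓ`
      set A := Subgroup.zpowers e₁ with hA
      set B := Subgroup.zpowers e₂ with hB
      have hAc := hK A hE₁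
      have hBc := hK B hE₂
      have hAB0 : ∀ u, u ∈ A → u ∈ B → u = 1 := by
        intro u huA huB
        by_contra hu1
        apply hAB
        rw [gen_of_card hp hAc huA hu1, gen_of_card hp hBc huB hu1]
      have hAℓ : A ≤ ℓ := by rw [hA, Subgroup.zpowers_le]; exact he₁.1
      have hBℓ : B ≤ ℓ := by rw [hB, Subgroup.zpowers_le]; exact he₂.1
      let φ : A × B → ℓ := fun q => ⟨(q.1 : G) * q.2, ℓ.mul_mem (hAℓ q.1.2) (hBℓ q.2.2)⟩
      have hφi : Function.Injective φ := by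
        rintro ⟨a, b⟩ ⟨a', b'⟩ hq
        have h1 : (a : G) * b = a' * b' := congrArg Subtype.val hq
        have h2 : (a' : G)⁻¹ * a = b' * (b : G)⁻¹ := by
          rw [inv_mul_eq_iff_eq_mul, ← mul_assoc, eq_mul_inv_iff_mul_eq]
          exact h1
        have h3 : (a' : G)⁻¹ * a = 1 :=
          hAB0 _ (A.mul_mem (A.inv_mem a'.2) a.2) (by rw [h2]; exact B.mul_mem b'.2 (B.inv_mem b.2))
        have h4 : (a : G) = a' := by
          rw [inv_mul_eq_one] at h3
          exact h3.symm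
        have h5 : (b : G) = b' := by
          rw [h4] at h1
          exact mul_left_cancel h1
        exact Prod.ext (Subtype.ext h4) (Subtype.ext h5)
      let ψ : X₀ × Y₀ → ℓ := fun q => ⟨(q.1 : G) * q.2,
        ℓ.mul_mem (Subgroup.mem_sup_left q.1.2) (Subgroup.mem_sup_right q.2.2)⟩
      have hψs : Function.Surjective ψ := by
        rintro ⟨e, he⟩
        obtain ⟨x, hx, y, hy, rfl⟩ := mem_sup_mul hperp he
        exact ⟨(⟨x, hx⟩, ⟨y, hy⟩), rfl⟩
      have hcard : Nat.card ℓ ≤ Nat.card (A × B) := by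
        have h1 := Nat.card_le_card_of_surjective ψ hψs
        rw [Nat.card_prod, hK X₀ hX₀, hK Y₀ hY₀] at h1
        rw [Nat.card_prod, hAc, hBc]
        exact h1
      have hφb := hφi.bijective_of_nat_card_le hcard
      have hcomℓ : ∀ u ∈ ℓ, t * u = u * t := by
        intro u hu
        obtain ⟨⟨a, b⟩, hab⟩ := hφb.2 ⟨u, hu⟩
        have h1 : (a : G) * b = u := congrArg Subtype.val hab
        rw [← h1]
        have ha1 : t * a = a * t := comm_of_mem_zpowers (Subgroup.mem_zpowers t) a.2 c2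
        have hb1 : t * b = b * t := comm_of_mem_zpowers (Subgroup.mem_zpowers t) b.2 h
        calc t * (a * b) = (t * a) * b := by group
          _ = a * (t * b) := by rw [ha1]; group
          _ = a * b * t := by rw [hb1]; group
      exact perp_zpowers (hcomℓ x₀ hx₀ℓ).symm
    by_cases hc1 : t * t' = t' * t
    · exact lemmaQ hp K hK hKc ha hb hT hT' hE₁ hE₂ hc1 c2 c3 c4 n1 n2
    · have hne' : Subgroup.zpowers t ≠ Subgroup.zpowers e₁ := by
        intro h
        have h1 : t ∈ Subgroup.zpowers e₁ := by rw [← h]; exact Subgroup.mem_zpowers t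
        exact n1 (comm_of_mem_zpowers h1 (Subgroup.mem_zpowers e₂) c4.symm)
      obtain ⟨⟨e, he⟩, he1⟩ := Subgroup.ne_bot_iff_exists_ne_one.mp
        (hb _ hT _ hE₁ hne' (perp_zpowers c2) _ hT')
      have he1' : e ≠ 1 := fun h => he1 (Subtype.ext h)
      have hemem := he.1
      obtain ⟨τ, hτ, φ, hφ, rfl⟩ := mem_sup_mul (perp_zpowers c2) he.1
      have hcτφ : Commute τ φ := comm_of_mem_zpowers hτ hφ c2
      have hcent : ∀ c : G, c ∈ Subgroup.zpowers t' → c * (τ * φ) = (τ * φ) * c := by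
        intro c hc
        exact (Subgroup.mem_centralizer_iff.mp he.2) c hc
      have hst' : (τ * φ) * t' = t' * (τ * φ) := (hcent t' (Subgroup.mem_zpowers t')).symm
      have hτ1 : τ ≠ 1 := by
        intro h
        rw [h, one_mul] at he1' hst'
        have hgen := gen_of_card hp (hK _ hE₁) hφ he1'
        have h1 : e₁ ∈ Subgroup.zpowers φ := by rw [← hgen]; exact Subgroup.mem_zpowers e₁
        exact n2 (comm_of_mem_zpowers (Subgroup.mem_zpowers t') h1 hst'.symm)
      have hφ1 : φ ≠ 1 := by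
        intro h
        rw [h, mul_one] at he1' hst'
        have hgen := gen_of_card hp (hK _ hT) hτ he1'
        have h1 : t ∈ Subgroup.zpowers τ := by rw [← hgen]; exact Subgroup.mem_zpowers t
        exact hc1 (comm_of_mem_zpowers h1 (Subgroup.mem_zpowers t') hst')
      have hspow : (τ * φ) ^ p = 1 := by
        rw [hcτφ.mul_pow, hpow _ hT τ hτ, hpow _ hE₁ φ hφ, one_mul]
      have hsK : Subgroup.zpowers (τ * φ) ∈ K := by
        refine ha _ hT _ hE₁ hne' (perp_zpowers c2) _ ?_ ?_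
        · rw [Subgroup.zpowers_le]; exact hemem
        · rw [Nat.card_zpowers]; exact orderOf_eq_prime hspow he1'
      have hτe₁ : Commute τ e₁ := comm_of_mem_zpowers hτ (Subgroup.mem_zpowers e₁) c2
      have hφe₁ : Commute φ e₁ :=
        comm_of_mem_zpowers hφ (Subgroup.mem_zpowers e₁) (Commute.refl e₁)
      have hφe₂ : Commute φ e₂ := comm_of_mem_zpowers hφ (Subgroup.mem_zpowers e₂) c4.symm
      refine lemmaQ hp K hK hKc ha hb (t := τ * φ) (t' := t') (f := e₁) (f' := e₂) hsK hT' hE₁ hE₂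
        hst' (hτe₁.mul_left hφe₁).eq c3 c4 ?_ n2
      intro h
      have h1 : Commute τ e₂ := by
        have h2 : Commute (τ * φ) e₂ := h
        have h3 : τ = (τ * φ) * φ⁻¹ := by group
        rw [h3]
        exact h2.mul_left hφe₂.inv_left
      have hgen := gen_of_card hp (hK _ hT) hτ hτ1
      have h4 : t ∈ Subgroup.zpowers τ := by rw [← hgen]; exact Subgroup.mem_zpowers t
      exact n1 (comm_of_mem_zpowers h4 (Subgroup.mem_zpowers e₂) h1)
  obtain ⟨V, hV, hVperp⟩ := hrad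
  have hVp : IsPGroup p V := IsPGroup.of_card (n := 1) (by rw [hK V hV, pow_one])
  have hVcore : V ≤ Cfsg.pCore p G := by
    obtain ⟨N, hNn, hNp, hVN⟩ := baer_suzuki_normal V hVp (by
      intro g
      have hVg := hKc V hV g
      have hVgp : IsPGroup p (V.map (MulAut.conj g).toMonoidHom) := hVp.map _
      apply IsPGroup.to_sup_of_normal_right' hVp hVgp
      have hle : V ≤ Subgroup.centralizer ((V.map (MulAut.conj g).toMonoidHom : Subgroup G) : Set G) := by
        intro v hv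
        rw [Subgroup.mem_centralizer_iff]
        intro w hw
        exact (hVperp _ hVg v hv w hw).symm
      exact hle.trans (Subgroup.centralizer_le_normalizer _))
    exact hVN.trans (Cfsg.Agent.H01.le_pCore hNn hNp)
  refine ⟨⟨V, hV, hVperp, hVcore⟩, ?_⟩
  intro hsimple
  have hVbot : V ≠ ⊥ := by
    intro h
    have := hK V hV
    rw [h, Subgroup.card_bot] at this
    exact hp.one_lt.ne this
  have hcore : Cfsg.pCore p G = ⊤ := by
    rcases (Cfsg.Agent.H01.pCore_normal (G := G) p).eq_bot_or_eq_top with h | h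
    · exfalso
      rw [h] at hVcore
      exact hVbot (le_bot_iff.mp hVcore)
    · exact h
  have hGp : IsPGroup p G := by
    have h1 := Cfsg.Agent.H01.pCore_isPGroup (G := G) p
    rw [hcore] at h1
    exact h1.of_equiv Subgroup.topEquiv
  have hcenter : Subgroup.center G = ⊤ := by
    have hnt := hGp.center_nontrivial
    rcases (inferInstance : (Subgroup.center G).Normal).eq_bot_or_eq_top with h | h
    · exfalso
      rw [h] at hnt
      exact not_nontrivial_iff_subsingleton.mpr inferInstance hnt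
    · exact h
  have htop : ∀ X ∈ K, X = ⊤ := by
    intro X hX
    have hn : X.Normal := by
      constructor
      intro x hx g
      have h1 : x ∈ Subgroup.center G := by rw [hcenter]; trivial
      have h2 := Subgroup.mem_center_iff.mp h1 g
      rw [h2, mul_inv_cancel_right]
      exact hx
    rcases hn.eq_bot_or_eq_top with h | h
    · exfalso
      have := hK X hX
      rw [h, Subgroup.card_bot] at this
      exact hp.one_lt.ne this
    · exact h
  exact hne ((htop X₀ hX₀).trans (htop Y₀ hY₀).symm)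

end Cfsg.Agent.S3196
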