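import Cfsg.Statements.S3200
import Mathlib
import Cfsg.Agent.Lib.Lead.Burnside
import Cfsg.Agent.Lib.H01.Hall

set_option autoImplicit false
set_option linter.style.haveILetI false

open Cfsg

namespace Cfsg.Agent.S3200

universe u

/-- factorization pair -/
private def FP (H : Type u) [Group H] : Prop :=
  ∃ S C : Subgroup H, IsPGroup 2 S ∧ (Nat.card C).Coprime 2 ∧ (∀ x ∈ C, ∀ y ∈ C, x * y = y * x) ∧
    Nat.card S * Nat.card C = Nat.card H

private lemma fp_quot_card {H : Type u} [Group H] [Finite H] {S C : Subgroup H}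
    (hS : IsPGroup 2 S) (hC : (Nat.card C).Coprime 2) (hcard : Nat.card S * Nat.card C = Nat.card H)
    (N : Subgroup H) [N.Normal] :
    Nat.card (S.map (QuotientGroup.mk' N)) * Nat.card (C.map (QuotientGroup.mk' N)) = Nat.card (H ⧸ N) ∧
      (Nat.card (C.map (QuotientGroup.mk' N))).Coprime 2 := by
  classical
  have hcop : (Nat.card S).Coprime (Nat.card C) := by
    obtain ⟨k, hk⟩ := (IsPGroup.iff_card.mp hS)
    rw [hk]
    exact Nat.Coprime.pow_left _ hC.symm
  have hcompl : Subgroup.IsComplement' S C := Subgroup.isComplement'_of_coprime hcard hcop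
  set Sb := S.map (QuotientGroup.mk' N)
  set Cb := C.map (QuotientGroup.mk' N)
  have hSbdvd : Nat.card Sb ∣ Nat.card S := Subgroup.card_map_dvd _ _
  have hCbdvd : Nat.card Cb ∣ Nat.card C := Subgroup.card_map_dvd _ _
  have hcopb : (Nat.card Sb).Coprime (Nat.card Cb) :=
    Nat.Coprime.of_dvd hSbdvd hCbdvd hcop
  have hdvd : Nat.card Sb * Nat.card Cb ∣ Nat.card (H ⧸ N) :=
    hcopb.mul_dvd_of_dvd_of_dvd (Subgroup.card_subgroup_dvd_card _) (Subgroup.card_subgroup_dvd_card _)
  have hsurj : Function.Surjective (fun p : Sb × Cb => (p.1 : H ⧸ N) * (p.2 : H ⧸ N)) := by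
    intro q
    obtain ⟨g, rfl⟩ := QuotientGroup.mk_surjective q
    obtain ⟨⟨s, c⟩, hsc⟩ := (Subgroup.isComplement'_def.mp hcompl).2 g
    refine ⟨(⟨QuotientGroup.mk' N (s : H), Subgroup.mem_map_of_mem _ s.2⟩,
      ⟨QuotientGroup.mk' N (c : H), Subgroup.mem_map_of_mem _ c.2⟩), ?_⟩
    simp only [QuotientGroup.mk'_apply]
    rw [← QuotientGroup.mk_mul]
    congr 1
  have hle : Nat.card (H ⧸ N) ≤ Nat.card Sb * Nat.card Cb := by
    have := Nat.card_le_card_of_surjective _ hsurj
    rwa [Nat.card_prod] at this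
  have heq : Nat.card Sb * Nat.card Cb = Nat.card (H ⧸ N) :=
    le_antisymm (Nat.le_of_dvd Nat.card_pos hdvd) hle
  exact ⟨heq, Nat.Coprime.coprime_dvd_left hCbdvd hC⟩

private lemma fp_quot {H : Type u} [Group H] [Finite H] (hH : FP H) (N : Subgroup H) [N.Normal] :
    FP (H ⧸ N) := by
  obtain ⟨S, C, hS, hC, hab, hcard⟩ := hH
  obtain ⟨h1, h2⟩ := fp_quot_card hS hC hcard N
  refine ⟨S.map (QuotientGroup.mk' N), C.map (QuotientGroup.mk' N), hS.map _, h2, ?_, h1⟩
  rintro _ ⟨x, hx, rfl⟩ _ ⟨y, hy, rfl⟩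
  rw [← map_mul, ← map_mul, hab x hx y hy]

private lemma card_map_mul_inf {H : Type u} [Group H] [Finite H] (S N : Subgroup H) [N.Normal] :
    Nat.card (S.map (QuotientGroup.mk' N)) * Nat.card (S ⊓ N : Subgroup H) = Nat.card S := by
  have h1 := Cfsg.Agent.H01.card_sup_mul_card_inf S N
  have h2 := Cfsg.Agent.H01.card_map_mk_of_le N (S ⊔ N) le_sup_right
  have h3 : (S ⊔ N).map (QuotientGroup.mk' N) = S.map (QuotientGroup.mk' N) := by
    rw [Subgroup.map_sup]
    have : N.map (QuotientGroup.mk' N) = ⊥ := by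
      rw [Subgroup.map_eq_bot_iff, QuotientGroup.ker_mk']
    rw [this, sup_bot_eq]
  rw [h3] at h2
  have hN : 0 < Nat.card N := Nat.card_pos
  apply Nat.eq_of_mul_eq_mul_right hN
  rw [← h1, ← h2]
  ring

private lemma card_subgroupOf_eq {H : Type u} [Group H] (S N : Subgroup H) :
    Nat.card (S.subgroupOf N) = Nat.card (S ⊓ N : Subgroup H) := by
  rw [← Subgroup.subgroupOf_map_subtype]
  exact (Subgroup.card_map_of_injective N.subtype_injective).symm

private lemma fp_normal {H : Type u} [Group H] [Finite H] (hH : FP H) (N : Subgroup H) [N.Normal] :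
    FP N := by
  classical
  obtain ⟨S, C, hS, hC, hab, hcard⟩ := hH
  obtain ⟨h1, h2⟩ := fp_quot_card hS hC hcard N
  have hcS := card_map_mul_inf S N
  have hcC := card_map_mul_inf C N
  have hQ := Cfsg.Agent.H01.card_quotient_mul N
  have hNcard : Nat.card (S ⊓ N : Subgroup H) * Nat.card (C ⊓ N : Subgroup H) = Nat.card N := by
    have hq : 0 < Nat.card (H ⧸ N) := Nat.card_pos
    apply Nat.eq_of_mul_eq_mul_left hq
    rw [hQ, ← hcard, ← hcS, ← hcC, ← h1]
    ring
  refine ⟨S.subgroupOf N, C.subgroupOf N, ?_, ?_, ?_, ?_⟩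
  · exact hS.comap_of_injective N.subtype N.subtype_injective
  · rw [card_subgroupOf_eq]
    exact Nat.Coprime.coprime_dvd_left
      (Subgroup.card_dvd_of_le inf_le_left) hC
  · intro x hx y hy
    exact Subtype.ext (hab _ hx _ hy)
  · rw [card_subgroupOf_eq, card_subgroupOf_eq, hNcard]

/-- the solvability part -/
private theorem solvable_of_fp : ∀ (n : ℕ) (H : Type u) [Group H] [Finite H], Nat.card H = n →
    FP H → Group.IsSolvable H := by
  intro n
  induction n using Nat.strong_induction_on with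
  | _ n ih =>
  intro H _ _ hn hFP
  by_cases hnt : Nontrivial H
  swap
  · rw [not_nontrivial_iff_subsingleton] at hnt
    infer_instance
  by_cases hsimple : IsSimpleGroup H
  · obtain ⟨S, C, hS, hC, hab, hcard⟩ := hFP
    by_cases hCbot : C = ⊥
    · -- 2-group
      subst hCbot
      have hcS : Nat.card S = Nat.card H := by simpa using hcard
      have hStop : S = ⊤ := Subgroup.eq_top_of_card_eq _ hcS
      subst hStop
      have hp : IsPGroup 2 H := by
        intro g
        obtain ⟨k, hk⟩ := hS ⟨g, Subgroup.mem_top g⟩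
        refine ⟨k, ?_⟩
        have := congrArg Subtype.val hk
        simpa using this
      haveI : Fact (Nat.Prime 2) := ⟨Nat.prime_two⟩
      haveI := hp.isNilpotent
      infer_instance
    · obtain ⟨x, hxC, hx1⟩ := (Subgroup.bot_or_exists_ne_one C).resolve_left hCbot
      obtain ⟨k, hk⟩ := IsPGroup.iff_card.mp hS
      have hCle : C ≤ Subgroup.centralizer ({x} : Set H) := by
        intro y hy
        rw [Subgroup.mem_centralizer_singleton_iff]
        exact hab y hy x hxC
      obtain ⟨t, ht⟩ := Subgroup.card_dvd_of_le hCle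
      have hidx := (Subgroup.centralizer ({x} : Set H)).card_mul_index
      have hCpos : 0 < Nat.card C := Nat.card_pos
      have hdvd : (Subgroup.centralizer ({x} : Set H)).index ∣ 2 ^ k := by
        refine ⟨t, ?_⟩
        apply Nat.eq_of_mul_eq_mul_left hCpos
        calc Nat.card C * 2 ^ k = Nat.card H := by rw [← hk, mul_comm]; exact hcard
          _ = _ := by rw [← hidx, ht]; ring
      obtain ⟨j, -, hj⟩ := (Nat.dvd_prime_pow Nat.prime_two).1 hdvd
      by_cases hj0 : j = 0
      · subst hj0
        rw [pow_zero, Subgroup.index_eq_one] at hj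
        have hxZ : x ∈ Subgroup.center H := by
          rw [Subgroup.mem_center_iff]
          intro g
          have : g ∈ Subgroup.centralizer ({x} : Set H) := by rw [hj]; exact Subgroup.mem_top g
          exact Subgroup.mem_centralizer_singleton_iff.mp this
        have hZtop : Subgroup.center H = ⊤ := by
          rcases hsimple.eq_bot_or_eq_top_of_normal (Subgroup.center H) inferInstance with h | h
          · exfalso
            rw [h, Subgroup.mem_bot] at hxZ
            exact hx1 hxZ
          · exact h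
        letI : CommGroup H := { (inferInstance : Group H) with
          mul_comm := fun a b => by
            have : a ∈ Subgroup.center H := by rw [hZtop]; exact Subgroup.mem_top a
            exact (Subgroup.mem_center_iff.mp this b).symm }
        infer_instance
      · exact (Cfsg.Agent.Lead.not_class_prime_pow 2 j Nat.prime_two hj0 x hj).elim
  · have hN : ∃ N : Subgroup H, N.Normal ∧ N ≠ ⊥ ∧ N ≠ ⊤ := by
      by_contra hcon
      push Not at hcon
      apply hsimple
      refine { exists_pair_ne := hnt.exists_pair_ne, eq_bot_or_eq_top_of_normal := ?_ }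
      intro N hN
      by_cases h : N = ⊥
      · exact Or.inl h
      · exact Or.inr (hcon N hN h)
    obtain ⟨N, hNn, hNb, hNt⟩ := hN
    have hQ := Cfsg.Agent.H01.card_quotient_mul N
    have hcN : Nat.card N < n := by
      rw [← hn]
      have hlt : Nat.card N ≠ Nat.card H := fun h => hNt (Subgroup.eq_top_of_card_eq _ h)
      exact lt_of_le_of_ne (Nat.le_of_dvd Nat.card_pos (Subgroup.card_subgroup_dvd_card _)) hlt
    have hcQ : Nat.card (H ⧸ N) < n := by
      rw [← hn, ← hQ]
      have hN1 : 1 < Nat.card N := by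
        have : Nat.card N ≠ 1 := fun h => hNb ((Subgroup.card_eq_one).1 h)
        have h0 : 0 < Nat.card N := Nat.card_pos
        omega
      have hq : 0 < Nat.card (H ⧸ N) := Nat.card_pos
      nlinarith
    haveI := ih _ hcN N rfl (fp_normal hFP N)
    haveI := ih _ hcQ (H ⧸ N) rfl (fp_quot hFP N)
    exact Group.isSolvable_of_ker_le_range N.subtype (QuotientGroup.mk' N) (by
      rw [QuotientGroup.ker_mk', Subgroup.range_subtype])

/-- Hall-type consequence. -/
private theorem fp_subgroup {H : Type u} [Group H] [Finite H] [Group.IsSolvable H]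
    {S C : Subgroup H} (hS : IsPGroup 2 S) (hC : (Nat.card C).Coprime 2)
    (hab : ∀ x ∈ C, ∀ y ∈ C, x * y = y * x) (hcard : Nat.card S * Nat.card C = Nat.card H)
    (L : Subgroup H) :
    ∃ (P : Sylow 2 ↥L) (D : Subgroup ↥L), IsMulCommutative ↥D ∧ Subgroup.IsComplement' (P : Subgroup ↥L) D := by
  classical
  haveI : Fact (Nat.Prime 2) := ⟨Nat.prime_two⟩
  haveI : Group.IsSolvable L := Group.isSolvable_of_isSolvable_injective L.subtype_injective
  obtain ⟨P⟩ : Nonempty (Sylow 2 L) := inferInstance
  have hLcard : Nat.card L ≠ 0 := Nat.card_pos.ne'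
  have hP : Nat.card P = 2 ^ (Nat.card L).factorization 2 := P.card_eq_multiplicity
  set a := (Nat.card L).factorization 2
  set n := ordCompl[2] (Nat.card L) with hndef
  have hcop2 : Nat.Coprime 2 n := Nat.coprime_ordCompl Nat.prime_two hLcard
  have hLfac : Nat.card L = n * 2 ^ a := by
    rw [mul_comm]; exact (Nat.ordProj_mul_ordCompl_eq_self _ _).symm
  have hcopL : n.Coprime (2 ^ a) := Nat.Coprime.pow_right _ hcop2.symm
  obtain ⟨D, hD, -⟩ := Cfsg.Agent.H01.hall_containment _ L rfl n (2 ^ a) hLfac hcopL ⊥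
    (by simp)
  obtain ⟨k, hk⟩ := IsPGroup.iff_card.mp hS
  have hcopH : (Nat.card C).Coprime (2 ^ k) := Nat.Coprime.pow_right _ hC
  have hHfac : Nat.card H = Nat.card C * 2 ^ k := by rw [← hcard, hk, mul_comm]
  set K := D.map L.subtype with hKdef
  have hKcard : Nat.card K = n := by
    rw [hKdef, Subgroup.card_map_of_injective L.subtype_injective, hD]
  obtain ⟨X, hX, hKX⟩ := Cfsg.Agent.H01.hall_containment _ H rfl (Nat.card C) (2 ^ k) hHfac hcopH K
    (by rw [hKcard]; exact Nat.Coprime.pow_right _ hcop2.symm)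
  obtain ⟨g, hg⟩ := Cfsg.Agent.H01.hall_conj _ H rfl (Nat.card C) (2 ^ k) hHfac hcopH X C hX rfl
  have hXab : ∀ x ∈ X, ∀ y ∈ X, x * y = y * x := by
    intro x hx y hy
    have hx' : MulAut.conj g x ∈ C := by
      rw [← hg]; exact Subgroup.smul_mem_pointwise_smul _ _ _ hx
    have hy' : MulAut.conj g y ∈ C := by
      rw [← hg]; exact Subgroup.smul_mem_pointwise_smul _ _ _ hy
    have := hab _ hx' _ hy'
    rw [← map_mul, ← map_mul] at this
    exact (MulAut.conj g).injective this
  refine ⟨P, D, ?_, ?_⟩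
  · refine ⟨⟨fun a b => ?_⟩⟩
    apply Subtype.ext
    apply Subtype.ext
    have hx : ((a : L) : H) ∈ X := hKX (Subgroup.mem_map_of_mem _ a.2)
    have hy : ((b : L) : H) ∈ X := hKX (Subgroup.mem_map_of_mem _ b.2)
    simpa using hXab _ hx _ hy
  · apply Subgroup.isComplement'_of_coprime
    · rw [hP, hD, hLfac, mul_comm]
    · rw [hP, hD]; exact hcopL.symm

/-- Let H be a finite group in which a Sylow 2-subgroup has an abelian complement (an abelian subgroup meeting it trivially whose product with it is all of H). Then H is solvable, and every subgroup and every quotient group of H again has a Sylow 2-subgroup with an abelian complement. -/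
theorem result {H : Type*} [Group H] [Finite H]
    (S : Sylow 2 H) (C : Subgroup H) (hC : IsMulCommutative ↥C) (hSC : Subgroup.IsComplement' (S : Subgroup H) C) :
    Group.IsSolvable H ∧
    (∀ L : Subgroup H, ∃ (P : Sylow 2 ↥L) (D : Subgroup ↥L), IsMulCommutative ↥D ∧ Subgroup.IsComplement' (P : Subgroup ↥L) D) ∧
    (∀ (N : Subgroup H) [N.Normal], ∃ (P : Sylow 2 (H ⧸ N)) (D : Subgroup (H ⧸ N)),
      IsMulCommutative ↥D ∧ Subgroup.IsComplement' (P : Subgroup (H ⧸ N)) D) := by
  classical
  haveI : Fact (Nat.Prime 2) := ⟨Nat.prime_two⟩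
  have hcard : Nat.card S * Nat.card C = Nat.card H := hSC.card_mul_card
  have hS : IsPGroup 2 (S : Subgroup H) := S.isPGroup'
  have hidx : (S : Subgroup H).index = Nat.card C := by
    have h := (S : Subgroup H).card_mul_index
    have hpos : 0 < Nat.card (S : Subgroup H) := Nat.card_pos
    apply Nat.eq_of_mul_eq_mul_left hpos
    rw [h, ← hcard]
  have hCop : (Nat.card C).Coprime 2 := by
    rw [← hidx, Nat.coprime_comm, Nat.Prime.coprime_iff_not_dvd Nat.prime_two]
    exact S.not_dvd_index
  have hab : ∀ x ∈ C, ∀ y ∈ C, x * y = y * x := by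
    intro x hx y hy
    have := hC.is_comm.comm ⟨x, hx⟩ ⟨y, hy⟩
    exact congrArg Subtype.val this
  have hFP : FP H := ⟨S, C, hS, hCop, hab, hcard⟩
  have hsolv := solvable_of_fp _ H rfl hFP
  refine ⟨hsolv, fun L => fp_subgroup hS hCop hab hcard L, ?_⟩
  intro N _
  obtain ⟨h1, h2⟩ := fp_quot_card hS hCop hcard N
  have hSb : IsPGroup 2 (S.1.map (QuotientGroup.mk' N)) := hS.map _
  have hi : (S.1.map (QuotientGroup.mk' N)).index = Nat.card (C.map (QuotientGroup.mk' N)) := by
    have h := (S.1.map (QuotientGroup.mk' N)).card_mul_index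
    have hpos : 0 < Nat.card (S.1.map (QuotientGroup.mk' N)) := Nat.card_pos
    apply Nat.eq_of_mul_eq_mul_left hpos
    rw [h, h1]
  refine ⟨hSb.toSylow (by
    rw [hi, ← Nat.Prime.coprime_iff_not_dvd Nat.prime_two]; exact h2.symm),
    C.map (QuotientGroup.mk' N), ?_, ?_⟩
  · refine ⟨⟨?_⟩⟩
    rintro ⟨_, x, hx, rfl⟩ ⟨_, y, hy, rfl⟩
    apply Subtype.ext
    simp only [Subgroup.coe_mul]
    rw [← map_mul, ← map_mul, hab x hx y hy]
  · change Subgroup.IsComplement' (S.1.map (QuotientGroup.mk' N)) _
    apply Subgroup.isComplement'_of_coprime h1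
    obtain ⟨k, hk⟩ := IsPGroup.iff_card.mp hSb
    rw [hk]
    exact Nat.Coprime.pow_left _ h2.symm

end Cfsg.Agent.S3200
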