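import Cfsg.Statements.S3201
import Mathlib
import Cfsg.Agent.Lib.H15.Quat
import Cfsg.Agent.Lib.H01.Basic

set_option autoImplicit false
set_option linter.style.haveILetI false

open Cfsg

namespace Cfsg.Agent.S3201

section

variable {S : Type*} [Group S] [Finite S]

private theorem coatom_sq (hS : IsPGroup 2 S) (C : Subgroup ↥(Subgroup.center S)) (hC : IsCoatom C) :
    ∀ c : ↥(Subgroup.center S), c ^ 2 ∈ C := by
  classical
  haveI : Fact (Nat.Prime 2) := ⟨Nat.prime_two⟩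
  have hZ : IsPGroup 2 ↥(Subgroup.center S) := hS.to_subgroup _
  haveI : Group.IsNilpotent ↥(Subgroup.center S) := hZ.isNilpotent
  obtain ⟨hn, hidx⟩ := H01.isCoatom_normal_index hZ hC
  intro c
  haveI := hn
  have h1 : c ^ C.index ∈ C := Subgroup.pow_index_mem C c
  rwa [hidx] at h1

private theorem coatom_sq_mem (hS : IsPGroup 2 S) (C : Subgroup ↥(Subgroup.center S)) (hC : IsCoatom C)
    {c : S} (hc : c ∈ Subgroup.center S) : c ^ 2 ∈ C.map (Subgroup.center S).subtype := by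
  refine ⟨⟨c, hc⟩ ^ 2, coatom_sq hS C hC _, ?_⟩
  simp

private theorem coatom_facts (hS : IsPGroup 2 S) (C : Subgroup ↥(Subgroup.center S)) (hC : IsCoatom C)
    [hN : (C.map (Subgroup.center S).subtype).Normal]
    (hu : ∀ x y : S ⧸ C.map (Subgroup.center S).subtype, orderOf x = 2 → orderOf y = 2 → x = y) :
    (∀ s : S, s ^ 2 ∈ Subgroup.center S → s ∉ Subgroup.center S → s ^ 2 ∉ C.map (Subgroup.center S).subtype) ∧
    (∀ w ∈ Subgroup.center S, ∀ w' ∈ Subgroup.center S, w ∉ C.map (Subgroup.center S).subtype →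
      w' ∉ C.map (Subgroup.center S).subtype → w * w'⁻¹ ∈ C.map (Subgroup.center S).subtype) := by
  classical
  set N := C.map (Subgroup.center S).subtype with hNdef
  have hNZ : N ≤ Subgroup.center S := by
    rintro _ ⟨c, -, rfl⟩
    exact c.2
  have horder : ∀ w ∈ Subgroup.center S, w ∉ N → orderOf ((w : S) : S ⧸ N) = 2 := by
    intro w hw hwN
    apply orderOf_eq_prime
    · have := coatom_sq_mem hS C hC hw
      rw [← QuotientGroup.mk_pow]
      exact (QuotientGroup.eq_one_iff _).mpr this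
    · intro h
      exact hwN ((QuotientGroup.eq_one_iff _).mp h)
  have hcoset : ∀ w ∈ Subgroup.center S, ∀ w' ∈ Subgroup.center S, w ∉ N → w' ∉ N → w * w'⁻¹ ∈ N := by
    intro w hw w' hw' h1 h2
    have h3 := hu _ _ (horder w hw h1) (horder w' hw' h2)
    apply (QuotientGroup.eq_one_iff _).mp
    rw [QuotientGroup.mk_mul, QuotientGroup.mk_inv, h3, mul_inv_cancel]
  refine ⟨?_, hcoset⟩
  intro s hs2 hs hsN
  obtain ⟨⟨c₀, hc₀⟩, hc₀C⟩ : ∃ c : ↥(Subgroup.center S), c ∉ C := by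
    by_contra hall
    push Not at hall
    exact hC.1 (eq_top_iff.mpr fun c _ => hall c)
  have hc₀N : c₀ ∉ N := by
    rintro ⟨c, hc, hcc⟩
    have : c = ⟨c₀, hc₀⟩ := Subtype.ext hcc
    exact hc₀C (this ▸ hc)
  have hsN' : s ∉ N := fun h => hs (hNZ h)
  have hso : orderOf ((s : S) : S ⧸ N) = 2 := by
    apply orderOf_eq_prime
    · rw [← QuotientGroup.mk_pow]
      exact (QuotientGroup.eq_one_iff _).mpr hsN
    · intro h
      exact hsN' ((QuotientGroup.eq_one_iff _).mp h)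
  have h3 := hu _ _ hso (horder c₀ hc₀ hc₀N)
  have h4 : s * c₀⁻¹ ∈ N := by
    apply (QuotientGroup.eq_one_iff _).mp
    rw [QuotientGroup.mk_mul, QuotientGroup.mk_inv, h3, mul_inv_cancel]
  have h5 : s = (s * c₀⁻¹) * c₀ := by group
  apply hs
  rw [h5]
  exact Subgroup.mul_mem _ (hNZ h4) hc₀

end

/-- Let S be a finite 2-group whose centre Z(S) has n ≥ 2 distinct maximal subgroups C₁, …, Cₙ with trivial intersection such that each quotient S/Cᵢ is a non-abelian group with exactly one involution (a generalized quaternion group). Then S is the internal direct product of an elementary abelian subgroup and a non-abelian subgroup with exactly one involution. -/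
theorem result {S : Type*} [Group S] [Finite S]
    (hS : IsPGroup 2 S) (n : ℕ) (hn : 2 ≤ n) (C : Fin n → Subgroup ↥(Subgroup.center S))
    (hCmax : ∀ i, IsCoatom (C i)) (hCinj : Function.Injective C) (hCint : ⨅ i, C i = ⊥)
    (hCq : ∀ i, ∃ (_ : ((C i).map (Subgroup.center S).subtype).Normal),
      ¬ IsMulCommutative (S ⧸ (C i).map (Subgroup.center S).subtype) ∧
      ∃! x : S ⧸ (C i).map (Subgroup.center S).subtype, orderOf x = 2) :
    ∃ E Q : Subgroup S, Cfsg.IsInternalDirectProduct E Q ⊤ ∧ Cfsg.IsElementaryAbelian 2 E ∧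
      ¬ IsMulCommutative ↥Q ∧ ∃! x : ↥Q, orderOf x = 2 := by
  classical
  haveI : Fact (Nat.Prime 2) := ⟨Nat.prime_two⟩
  let i₀ : Fin n := ⟨0, by omega⟩
  set N : Fin n → Subgroup S := fun i => (C i).map (Subgroup.center S).subtype with hNdef
  have hNZ : ∀ i, N i ≤ Subgroup.center S := by
    rintro i _ ⟨c, -, rfl⟩
    exact c.2
  have hint : ∀ c : S, c ∈ Subgroup.center S → (∀ i, c ∈ N i) → c = 1 := by
    intro c hc hall
    have h1 : (⟨c, hc⟩ : ↥(Subgroup.center S)) ∈ ⨅ i, C i := by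
      rw [Subgroup.mem_iInf]
      intro i
      obtain ⟨d, hd, hdc⟩ := hall i
      have : d = ⟨c, hc⟩ := Subtype.ext hdc
      exact this ▸ hd
    rw [hCint, Subgroup.mem_bot] at h1
    exact congrArg Subtype.val h1
  -- the facts at each coatom
  have hfacts : ∀ i, (∀ s : S, s ^ 2 ∈ Subgroup.center S → s ∉ Subgroup.center S → s ^ 2 ∉ N i) ∧
      (∀ w ∈ Subgroup.center S, ∀ w' ∈ Subgroup.center S, w ∉ N i → w' ∉ N i → w * w'⁻¹ ∈ N i) := by
    intro i
    obtain ⟨hNi, -, hun⟩ := hCq i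
    refine coatom_facts hS (C i) (hCmax i) ?_
    intro x y hx hy
    exact hun.unique hx hy
  have hsq : ∀ i, ∀ c ∈ Subgroup.center S, c ^ 2 ∈ N i := fun i c hc =>
    coatom_sq_mem hS (C i) (hCmax i) hc
  have hZ2 : ∀ c ∈ Subgroup.center S, c ^ 2 = 1 := fun c hc =>
    hint (c ^ 2) (Subgroup.pow_mem _ hc 2) (fun i => hsq i c hc)
  obtain ⟨hN₀, hnc₀, hun₀⟩ := hCq i₀
  haveI hN₀' : (N i₀).Normal := hN₀
  let π : S →* S ⧸ N i₀ := QuotientGroup.mk' (N i₀)
  have hπ : Function.Surjective π := QuotientGroup.mk'_surjective _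
  have hπ1 : ∀ g, π g = 1 ↔ g ∈ N i₀ := fun g => QuotientGroup.eq_one_iff g
  have hP2 : IsPGroup 2 (S ⧸ N i₀) := hS.to_quotient _
  have hu₀ : ∀ x y : S ⧸ N i₀, orderOf x = 2 → orderOf y = 2 → x = y :=
    fun x y hx hy => hun₀.unique hx hy
  have hnc' : ¬ ∀ x y : S ⧸ N i₀, x * y = y * x := by
    intro h
    exact hnc₀ ⟨⟨h⟩⟩
  obtain ⟨a, y₀, m, hm2, hao, hy₀, hy₀2, hya, hdec⟩ := H15.quaternion_structure hP2 hu₀ hnc'
  obtain ⟨n', rfl⟩ : ∃ n', m = n' + 2 := ⟨m - 2, by omega⟩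
  have hy₀2' : y₀ ^ 2 = a ^ 2 ^ (n' + 1) := hy₀2
  obtain ⟨x, hx⟩ := hπ a
  obtain ⟨y, hy⟩ := hπ y₀
  set z₀ := a ^ 2 ^ (n' + 1) with hz₀
  have hzo : orderOf z₀ = 2 := by
    rw [hz₀, orderOf_pow, hao]
    have : Nat.gcd (2 ^ (n' + 2)) (2 ^ (n' + 1)) = 2 ^ (n' + 1) :=
      Nat.gcd_eq_right (pow_dvd_pow 2 (Nat.le_succ _))
    rw [this, pow_succ 2 (n' + 1)]
    exact Nat.mul_div_cancel_left _ (by positivity)
  have hz₀2 : z₀ ^ 2 = 1 := by
    have := pow_orderOf_eq_one z₀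
    rwa [hzo] at this
  have hz₀1 : z₀ ≠ 1 := by
    intro h
    rw [h, orderOf_one] at hzo
    omega
  -- a central element outside `N i₀`
  obtain ⟨c₀, hc₀Z, hc₀N⟩ : ∃ c ∈ Subgroup.center S, c ∉ N i₀ := by
    by_contra hall
    push Not at hall
    apply (hCmax i₀).1
    rw [eq_top_iff]
    intro c _
    obtain ⟨d, hd, hdc⟩ := hall c c.2
    have : d = c := Subtype.ext hdc
    exact this ▸ hd
  have hπc₀ : π c₀ = z₀ := by
    apply hu₀ _ _ _ hzo
    apply orderOf_eq_prime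
    · rw [← map_pow]
      exact (hπ1 _).mpr (hsq i₀ c₀ hc₀Z)
    · exact fun h => hc₀N ((hπ1 _).mp h)
  have hcentral : ∀ s : S, π s ^ 2 = z₀ → s ^ 2 ∈ Subgroup.center S ∧ s ∉ Subgroup.center S := by
    intro s hs
    constructor
    · have h1 : s ^ 2 * c₀⁻¹ ∈ N i₀ := by
        rw [← hπ1, map_mul, map_pow, hs, map_inv, hπc₀, mul_inv_cancel]
      have h2 : s ^ 2 = (s ^ 2 * c₀⁻¹) * c₀ := by group
      rw [h2]
      exact Subgroup.mul_mem _ (hNZ i₀ h1) hc₀Z
    · intro hsZ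
      have h1 := hsq i₀ s hsZ
      rw [← hπ1, map_pow, hs] at h1
      exact hz₀1 h1
  have hsqeq : ∀ s s' : S, π s ^ 2 = z₀ → π s' ^ 2 = z₀ → s ^ 2 = s' ^ 2 := by
    intro s s' hs hs'
    obtain ⟨h1, h2⟩ := hcentral s hs
    obtain ⟨h3, h4⟩ := hcentral s' hs'
    have h5 : s ^ 2 * (s' ^ 2)⁻¹ = 1 := by
      apply hint
      · exact Subgroup.mul_mem _ h1 (Subgroup.inv_mem _ h3)
      · intro i
        exact (hfacts i).2 _ h1 _ h3 ((hfacts i).1 s h1 h2) ((hfacts i).1 s' h3 h4)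
    exact mul_inv_eq_one.mp h5
  have hπy : π y ^ 2 = z₀ := by rw [hy]; exact hy₀2'
  have hπyx : π (y * x) ^ 2 = z₀ := by
    rw [map_mul, hy, hx, sq]
    have h1 : y₀ * a * (y₀ * a) = (y₀ * a * y₀⁻¹) * y₀ ^ 2 * a := by
      rw [sq]; group
    rw [h1, hya, hy₀2']
    have h2 : Commute z₀ a := (Commute.refl a).pow_left _
    rw [mul_assoc, h2.eq, ← mul_assoc, inv_mul_cancel, one_mul]
  have hπe : π (x ^ 2 ^ n') ^ 2 = z₀ := by
    rw [map_pow, hx, ← pow_mul, ← pow_succ]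
  have hw1 := hsqeq y (y * x) hπy hπyx
  have hw2 := hsqeq y (x ^ 2 ^ n') hπy hπe
  have hwZ := (hcentral y hπy).1
  -- relations in `S`
  have hxyx : x * y * x = y := by
    have h1 : y * y = y * x * (y * x) := by
      rw [← sq, hw1, sq]
    have h2 : y = x * y * x := by
      have h3 : y * y = y * (x * y * x) := by
        rw [h1]; group
      exact mul_left_cancel h3
    exact h2.symm
  have hy_x : y⁻¹ * x * y = x⁻¹ := by
    have h1 : x * y = y * x⁻¹ := by
      calc x * y = (x * y * x) * x⁻¹ := by group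
        _ = y * x⁻¹ := by rw [hxyx]
    calc y⁻¹ * x * y = y⁻¹ * (x * y) := by group
      _ = y⁻¹ * (y * x⁻¹) := by rw [h1]
      _ = x⁻¹ := by group
  have hcomm : ∀ k : ℤ, x ^ k * y = y * x ^ (-k) := by
    intro k
    have h1 : y⁻¹ * x ^ k * y = x ^ (-k) := by
      have h2 : y⁻¹ * x ^ k * y = (y⁻¹ * x * y) ^ k := by
        have := conj_zpow (a := y⁻¹) (b := x) (i := k)
        simpa using this.symm
      rw [h2, hy_x, inv_zpow, zpow_neg]
    calc x ^ k * y = y * (y⁻¹ * x ^ k * y) := by group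
      _ = y * x ^ (-k) := by rw [h1]
  -- the exponent
  set W : ℤ := 2 ^ (n' + 1) with hW
  have hyW : y ^ 2 = x ^ W := by
    rw [hw2, ← pow_mul, ← pow_succ, hW]
    norm_cast
  have hcent : ∀ g : S, g * y ^ 2 = y ^ 2 * g := fun g =>
    (Subgroup.mem_center_iff.mp hwZ g)
  have hxW : x ^ (2 * W) = 1 := by
    have h1 := hcomm W
    rw [← hyW] at h1
    have h2 : y ^ 2 * y = y * x ^ (-W) := h1
    have h3 : y ^ 2 * y = y * y ^ 2 := by rw [sq]; group
    rw [h3] at h2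
    have h4 := mul_left_cancel h2
    rw [hyW] at h4
    have h5 : x ^ (2 * W) = x ^ W * x ^ W := by
      rw [two_mul, zpow_add]
    rw [h5]
    nth_rewrite 1 [h4]
    rw [zpow_neg, inv_mul_cancel]
  let Q : Subgroup S :=
    { carrier := {q | ∃ k : ℤ, q = x ^ k ∨ q = y * x ^ k}
      one_mem' := ⟨0, Or.inl (by simp)⟩
      mul_mem' := by
        rintro _ _ ⟨i, rfl | rfl⟩ ⟨j, rfl | rfl⟩
        · exact ⟨i + j, Or.inl (by rw [zpow_add])⟩
        · refine ⟨-i + j, Or.inr ?_⟩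
          rw [← mul_assoc, hcomm, zpow_add, mul_assoc]
        · exact ⟨i + j, Or.inr (by rw [zpow_add, mul_assoc])⟩
        · refine ⟨W + (-i + j), Or.inl ?_⟩
          calc y * x ^ i * (y * x ^ j) = y * (x ^ i * y) * x ^ j := by group
            _ = y * (y * x ^ (-i)) * x ^ j := by rw [hcomm]
            _ = y ^ 2 * (x ^ (-i) * x ^ j) := by rw [sq]; group
            _ = _ := by rw [hyW, zpow_add, zpow_add]
      inv_mem' := by
        rintro _ ⟨i, rfl | rfl⟩
        · exact ⟨-i, Or.inl (by rw [zpow_neg])⟩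
        · refine ⟨i - W, Or.inr ?_⟩
          have h1 : y⁻¹ = y * x ^ (-W) := by
            rw [zpow_neg, ← hyW, sq]; group
          rw [mul_inv_rev, h1, ← mul_assoc, ← zpow_neg, hcomm, neg_neg, mul_assoc, ← zpow_add]
          rfl }
  have hQmem : ∀ k : ℤ, x ^ k ∈ Q ∧ y * x ^ k ∈ Q := fun k => ⟨⟨k, Or.inl rfl⟩, ⟨k, Or.inr rfl⟩⟩
  have hπQ1 : ∀ q ∈ Q, π q = 1 → q = 1 := by
    rintro _ ⟨k, rfl | rfl⟩ h
    · rw [map_zpow, hx] at h
      have h1 := orderOf_dvd_iff_zpow_eq_one.mpr h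
      rw [hao] at h1
      obtain ⟨t, ht⟩ := h1
      have h2 : x ^ ((2 : ℤ) ^ (n' + 2)) = 1 := by
        have : (2 : ℤ) ^ (n' + 2) = 2 * W := by rw [hW]; ring
        rw [this, hxW]
      rw [ht]
      push_cast
      rw [zpow_mul, h2, one_zpow]
    · exfalso
      apply hy₀
      rw [map_mul, hy, map_zpow, hx] at h
      have h1 : y₀ = (a ^ k)⁻¹ := eq_inv_of_mul_eq_one_left h
      rw [h1]
      exact Subgroup.inv_mem _ (Subgroup.zpow_mem_zpowers a k)
  have hπQ : ∀ s : S, ∃ q ∈ Q, π q = π s := by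
    intro s
    rcases hdec (π s) with h | ⟨h, hh, hs⟩
    · obtain ⟨k, hk⟩ := Subgroup.mem_zpowers_iff.mp h
      exact ⟨x ^ k, (hQmem k).1, by rw [map_zpow, hx, hk]⟩
    · obtain ⟨k, rfl⟩ := Subgroup.mem_zpowers_iff.mp hh
      exact ⟨y * x ^ k, (hQmem k).2, by rw [map_mul, map_zpow, hx, hy, hs]⟩
  refine ⟨N i₀, Q, ⟨le_top, le_top, ?_, ?_, ?_⟩, ⟨⟨⟨?_⟩⟩, ?_⟩, ?_, ?_⟩
  · intro c hc b _
    exact (Subgroup.mem_center_iff.mp (hNZ i₀ hc) b).symm
  · rw [eq_bot_iff]
    rintro q ⟨hq1, hq2⟩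
    exact Subgroup.mem_bot.mpr (hπQ1 q hq2 ((hπ1 q).mpr hq1))
  · rw [eq_top_iff]
    intro s _
    obtain ⟨q, hq, hqs⟩ := hπQ s
    have h1 : q⁻¹ * s ∈ N i₀ := by
      rw [← hπ1, map_mul, map_inv, hqs, inv_mul_cancel]
    have h2 : s = q * (q⁻¹ * s) := by group
    rw [h2]
    exact Subgroup.mul_mem _ (Subgroup.mem_sup_right hq) (Subgroup.mem_sup_left h1)
  · intro a b
    exact Subtype.ext (Subgroup.mem_center_iff.mp (hNZ i₀ a.2) (b : S)).symm
  · intro c hc
    exact hZ2 c (hNZ i₀ hc)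
  · intro hcQ
    apply hnc'
    intro u v
    obtain ⟨s, rfl⟩ := hπ u
    obtain ⟨t, rfl⟩ := hπ v
    obtain ⟨q, hq, hqs⟩ : ∃ q ∈ Q, π q = π s := hπQ s
    obtain ⟨r, hr, hrt⟩ : ∃ q ∈ Q, π q = π t := hπQ t
    have : (⟨q, hq⟩ : Q) * ⟨r, hr⟩ = ⟨r, hr⟩ * ⟨q, hq⟩ := hcQ.is_comm.comm _ _
    have h2 : q * r = r * q := congrArg Subtype.val this
    rw [← hqs, ← hrt, ← map_mul, h2, map_mul]
  · -- the unique involution
    have hQinj : ∀ u : Q, π u = 1 → u = 1 := fun u hu =>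
      Subtype.ext (hπQ1 u u.2 hu)
    obtain ⟨q₀, hq₀, hπq₀⟩ := hπQ y
    obtain ⟨e, he⟩ : ∃ e : Q, π e = z₀ := by
      obtain ⟨s, hs⟩ := hπ z₀
      obtain ⟨q, hq, hqs⟩ := hπQ s
      exact ⟨⟨q, hq⟩, hqs.trans hs⟩
    have horder : ∀ u : Q, orderOf u = 2 → π u = z₀ := by
      intro u hu
      apply hu₀ _ _ _ hzo
      apply orderOf_eq_prime
      · have := pow_orderOf_eq_one u
        rw [hu] at this
        have h2 := congrArg (fun v : Q => π v) this
        simpa using h2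
      · intro h
        have := hQinj u h
        rw [this, orderOf_one] at hu
        omega
    refine ⟨e, ?_, ?_⟩
    · apply orderOf_eq_prime
      · apply hQinj
        simp only [Subgroup.coe_pow, map_pow]
        rw [he, hz₀2]
      · intro h
        rw [h] at he
        exact hz₀1 (by simpa using he.symm)
    · intro u hu
      have h1 := horder u hu
      have h2 : u * e⁻¹ = 1 := by
        apply hQinj
        simp only [Subgroup.coe_mul, InvMemClass.coe_inv, map_mul, map_inv]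
        rw [h1, he, mul_inv_cancel]
      exact mul_inv_eq_one.mp h2

end Cfsg.Agent.S3201
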