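import Cfsg.Statements.S3202
import Mathlib
import Cfsg.Agent.Lib.H15.AbRank
import Cfsg.Agent.Lib.H01.Basic

set_option autoImplicit false
open Cfsg Cfsg.Agent.H15

namespace Cfsg.Agent.S3202

/-- Let S be a finite 2-group of 2-rank exactly 2 and D a maximal subgroup of the centre of S such that S/D is a non-abelian group with exactly one involution (a generalized quaternion group). Then S has a nontrivial cyclic characteristic subgroup. -/
theorem result {S : Type*} [Group S]
    [Finite S] (hS : IsPGroup 2 S) (hr2 : Cfsg.PRankLE 2 2 S) (hr1 : ¬ Cfsg.PRankLE 2 1 S)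
    (D : Subgroup ↥(Subgroup.center S)) (hD : IsCoatom D)
    (hq : ∃ (_ : (D.map (Subgroup.center S).subtype).Normal),
      ¬ IsMulCommutative (S ⧸ D.map (Subgroup.center S).subtype) ∧
      ∃! x : S ⧸ D.map (Subgroup.center S).subtype, orderOf x = 2) :
    ∃ C : Subgroup S, C ≠ ⊥ ∧ IsCyclic ↥C ∧ C.Characteristic := by
  classical
  obtain ⟨hn, hna, x₀, hx₀, hu⟩ := hq
  let instC : CommGroup ↥(Subgroup.center S) :=
    { (inferInstance : Group ↥(Subgroup.center S)) with
      mul_comm := fun a b => Subtype.ext (Subgroup.mem_center_iff.mp b.2 a) }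
  have hZp : IsPGroup 2 ↥(Subgroup.center S) := hS.to_subgroup _
  have hrk : ∀ E : Subgroup ↥(Subgroup.center S), (∀ x ∈ E, x ^ 2 = 1) → Nat.card E ≤ 4 := by
    intro E hE
    have h1 : Nat.card (E.map (Subgroup.center S).subtype) = Nat.card E :=
      Subgroup.card_map_of_injective (Subgroup.center S).subtype_injective
    rw [← h1]
    have hcomm : IsMulCommutative (E.map (Subgroup.center S).subtype) := by
      refine ⟨⟨?_⟩⟩
      rintro ⟨_, a, -, rfl⟩ ⟨_, b, -, rfl⟩
      exact Subtype.ext (Subgroup.mem_center_iff.mp b.2 a)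
    have := hr2 _ hcomm (by
      rintro _ ⟨a, ha, rfl⟩
      have := hE a ha
      simpa using congrArg Subtype.val this)
    simpa using this
  let Φ : Set (↥(Subgroup.center S) ≃* ↥(Subgroup.center S)) := Set.range Subgroup.centerCongr
  let Ξ : Set ↥(Subgroup.center S) := {c | ∃ x : S, x ∉ Subgroup.center S ∧ (c : S) = x ^ 2}
  have hDi : D.index = 2 := (Cfsg.Agent.H01.isCoatom_normal_index hZp hD).2
  have hΞ : ∀ φ ∈ Φ, ∀ x ∈ Ξ, φ x ∈ Ξ := by
    rintro _ ⟨ψ, rfl⟩ c ⟨x, hx, hc⟩
    refine ⟨ψ x, ?_, ?_⟩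
    · intro h
      apply hx
      have h1 := (Subgroup.centerCongr ψ.symm ⟨ψ x, h⟩).2
      have h2 : ((Subgroup.centerCongr ψ.symm ⟨ψ x, h⟩ : ↥(Subgroup.center S)) : S) = x :=
        ψ.symm_apply_apply x
      rwa [h2] at h1
    · have : ((Subgroup.centerCongr ψ c : ↥(Subgroup.center S)) : S) = ψ (c : S) := rfl
      rw [this, hc, map_pow]
  have hne : Ξ.Nonempty := by
    have hnc : Subgroup.center S ≠ ⊤ := by
      intro h
      apply hna
      refine ⟨⟨?_⟩⟩
      intro a b
      induction a using QuotientGroup.induction_on with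
      | H a =>
        induction b using QuotientGroup.induction_on with
        | H b =>
          have hb : b ∈ Subgroup.center S := by rw [h]; trivial
          rw [← QuotientGroup.mk_mul, ← QuotientGroup.mk_mul,
            Subgroup.mem_center_iff.mp hb a]
    have hQ : Nontrivial (S ⧸ Subgroup.center S) :=
      QuotientGroup.nontrivial_iff.mpr hnc
    have hQp : IsPGroup 2 (S ⧸ Subgroup.center S) := hS.to_quotient _
    obtain ⟨k, hk⟩ := IsPGroup.iff_card.mp hQp
    have h2 : 2 ∣ Nat.card (S ⧸ Subgroup.center S) := by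
      rw [hk]
      apply dvd_pow_self
      rintro rfl
      have : Nat.card (S ⧸ Subgroup.center S) = 1 := by simpa using hk
      exact (Finite.one_lt_card (α := S ⧸ Subgroup.center S)).ne' this
    obtain ⟨y, hy⟩ := exists_prime_orderOf_dvd_card' 2 h2
    obtain ⟨x, rfl⟩ := QuotientGroup.mk_surjective y
    have hx2 : x ^ 2 ∈ Subgroup.center S := by
      rw [← QuotientGroup.eq_one_iff, QuotientGroup.mk_pow, ← hy, pow_orderOf_eq_one]
    have hx : x ∉ Subgroup.center S := by
      intro h
      have : (x : S ⧸ Subgroup.center S) = 1 := (QuotientGroup.eq_one_iff x).mpr h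
      rw [this, orderOf_one] at hy
      omega
    exact ⟨⟨x ^ 2, hx2⟩, x, hx, rfl⟩
  have hΞD : ∀ c ∈ Ξ, c ∉ D := by
    rintro c ⟨x, hx, hc⟩ hcD
    have hDtop : D ≠ ⊤ := hD.1
    obtain ⟨y, hy⟩ : ∃ y, y ∉ D := by
      by_contra h
      push Not at h
      exact hDtop (eq_top_iff.mpr fun z _ => h z)
    have memD : ∀ z : ↥(Subgroup.center S), (z : S) ∈ D.map (Subgroup.center S).subtype ↔ z ∈ D := by
      intro z
      constructor
      · rintro ⟨w, hw, hwz⟩
        rwa [← Subtype.ext hwz]
      · intro h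
        exact ⟨z, h, rfl⟩
    have hy1 : orderOf ((y : S) : S ⧸ D.map (Subgroup.center S).subtype) = 2 := by
      apply orderOf_eq_prime
      · rw [← QuotientGroup.mk_pow, QuotientGroup.eq_one_iff]
        have h1 := Subgroup.sq_mem_of_index_two hDi y
        have h2 := (memD (y ^ 2)).mpr h1
        simpa using h2
      · intro h
        exact hy ((memD y).mp ((QuotientGroup.eq_one_iff _).mp h))
    have hx1 : orderOf ((x : S) : S ⧸ D.map (Subgroup.center S).subtype) = 2 := by
      apply orderOf_eq_prime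
      · rw [← QuotientGroup.mk_pow, QuotientGroup.eq_one_iff, ← hc]
        exact (memD c).mpr hcD
      · intro h
        have h1 := (QuotientGroup.eq_one_iff _).mp h
        obtain ⟨w, -, hw⟩ := h1
        exact hx (hw ▸ w.2)
    have h3 := (hu _ hy1).trans (hu _ hx1).symm
    rw [QuotientGroup.eq] at h3
    obtain ⟨w, -, hw⟩ := h3
    apply hx
    have h4 : x = (y : S) * (w : S) := by
      have : (w : S) = (y : S)⁻¹ * x := hw
      rw [this]; group
    rw [h4]
    exact (Subgroup.center S).mul_mem y.2 w.2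
  obtain ⟨P, hP2, hPinv⟩ := exists_invariant_order_two (Φ := Φ) hZp hrk Ξ hΞ hne D hDi hΞD
  refine ⟨P.map (Subgroup.center S).subtype, ?_, ?_, ?_⟩
  · intro h
    have h1 : Nat.card (P.map (Subgroup.center S).subtype) = Nat.card P :=
      Subgroup.card_map_of_injective (Subgroup.center S).subtype_injective
    rw [h] at h1
    rw [hP2] at h1
    simp at h1
  · have h1 : Nat.card (P.map (Subgroup.center S).subtype) = Nat.card P :=
      Subgroup.card_map_of_injective (Subgroup.center S).subtype_injective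
    rw [hP2] at h1
    exact isCyclic_of_prime_card (p := 2) h1
  · rw [Subgroup.characteristic_iff_map_le]
    intro ψ
    rintro _ ⟨_, ⟨p, hp, rfl⟩, rfl⟩
    exact ⟨_, hPinv _ ⟨ψ, rfl⟩ p hp, rfl⟩

end Cfsg.Agent.S3202
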