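import Cfsg.Statements.S3208
import Cfsg.Agent.Lib.H15.Sylow1

set_option autoImplicit false
open Cfsg

namespace Cfsg.Agent.S3208

/-- Let j be an involution of a finite group G, H a subgroup of G, and T a Sylow 2-subgroup of H ∩ C_G(j) containing j such that ⟨j⟩ is a characteristic subgroup of T. Then T is a Sylow 2-subgroup of H. -/
theorem result {G : Type*} [Group G] [Finite G]
    (j : G) (hj : orderOf j = 2) (H T : Subgroup G) (hT : T ≤ H ⊓ Subgroup.centralizer ({j} : Set G)) (h2 : IsPGroup 2 ↥T)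
    (hSyl : ¬ 2 ∣ T.relIndex (H ⊓ Subgroup.centralizer ({j} : Set G))) (hjT : j ∈ T)
    (hchar : ((Subgroup.zpowers j).subgroupOf T).Characteristic) :
    ¬ 2 ∣ T.relIndex H := by
  classical
  have : Fact (Nat.Prime 2) := ⟨Nat.prime_two⟩
  have hTH : T ≤ H := fun x hx => (hT hx).1
  intro hdvd
  obtain ⟨n, hnH, hnT, hnN, hnp⟩ := Cfsg.Agent.H15.exists_normalizer_elem T H hTH h2 hdvd
  -- `n` centralizes `j`
  have hnj : n * j * n⁻¹ = j := by
    -- the conjugation automorphism of `T`
    let φ : ↥T ≃* ↥T := Subgroup.normalizerMonoidHom T ⟨n, hnN⟩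
    have hφ : ∀ t : T, ((φ t : T) : G) = n * t * n⁻¹ := fun t => rfl
    have hmem : (⟨j, hjT⟩ : T) ∈ (Subgroup.zpowers j).subgroupOf T := by
      simp [Subgroup.mem_subgroupOf]
    have hc := hchar.fixed φ
    have h1 : φ ⟨j, hjT⟩ ∈ (Subgroup.zpowers j).subgroupOf T := by
      have : (⟨j, hjT⟩ : T) ∈ ((Subgroup.zpowers j).subgroupOf T).comap φ.toMonoidHom := by
        rw [hc]; exact hmem
      exact this
    have h2' : n * j * n⁻¹ ∈ Subgroup.zpowers j := by
      have := h1
      rw [Subgroup.mem_subgroupOf, hφ] at this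
      exact this
    obtain ⟨k, hk⟩ := Subgroup.mem_zpowers_iff.mp h2'
    have hj1 : j ≠ 1 := by
      intro h; rw [h, orderOf_one] at hj; omega
    have hne : n * j * n⁻¹ ≠ 1 := by
      intro h
      apply hj1
      have : j = n⁻¹ * (n * j * n⁻¹) * n := by group
      rw [this, h]; group
    rw [← zpow_mod_orderOf, hj] at hk
    have h3 : k % ((2 : ℕ) : ℤ) = 0 ∨ k % ((2 : ℕ) : ℤ) = 1 := by omega
    rcases h3 with h3 | h3
    · rw [h3] at hk
      exact absurd (by simpa using hk.symm) hne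
    · rw [h3] at hk
      simpa using hk.symm
  have hnC : n ∈ Subgroup.centralizer ({j} : Set G) := by
    rw [Subgroup.mem_centralizer_iff]
    intro y hy
    rw [Set.mem_singleton_iff] at hy
    subst hy
    rw [mul_inv_eq_iff_eq_mul] at hnj
    exact hnj.symm
  set K : Subgroup G := T ⊔ Subgroup.zpowers n with hK
  have hKle : K ≤ H ⊓ Subgroup.centralizer ({j} : Set G) := by
    refine sup_le hT ?_
    rw [Subgroup.zpowers_le]
    exact ⟨hnH, hnC⟩
  have hTK : T ≤ K := le_sup_left
  have hnK : n ∈ K := (le_sup_right : Subgroup.zpowers n ≤ K) (Subgroup.mem_zpowers n)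
  have hne : T.subgroupOf K ≠ ⊤ := by
    intro h
    apply hnT
    have : (⟨n, hnK⟩ : K) ∈ T.subgroupOf K := by rw [h]; trivial
    simpa [Subgroup.mem_subgroupOf] using this
  have hidx : (T.subgroupOf K).index ≠ 1 := by
    rw [Ne, Subgroup.index_eq_one]; exact hne
  obtain ⟨a, ha⟩ := IsPGroup.iff_card.mp hnp
  have hdvd2 : (T.subgroupOf K).index ∣ 2 ^ a := by
    rw [← ha]; exact Subgroup.index_dvd_card _
  obtain ⟨b, -, hb⟩ := (Nat.dvd_prime_pow Nat.prime_two).mp hdvd2
  have h2idx : 2 ∣ (T.subgroupOf K).index := by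
    rw [hb]
    apply dvd_pow_self
    rintro rfl
    apply hidx
    rw [hb, pow_zero]
  apply hSyl
  have hmul := Subgroup.relIndex_mul_relIndex T K _ hTK hKle
  rw [← hmul]
  exact Dvd.dvd.mul_right h2idx _

end Cfsg.Agent.S3208
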