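import Cfsg.Statements.S3209
import Mathlib
import Cfsg.Agent.Lib.H15.SL2Pair

set_option autoImplicit false

namespace Cfsg.Agent.S3209

open Cfsg.Agent.H15

/-- Let L₁ ≅ SL₂(q₁) and L₂ ≅ SL₂(q₂), q₁ and q₂ odd, be elementwise-commuting subgroups of a finite group meeting in ⟨j⟩ for an involution j. Then L₁L₂ has exactly two conjugacy classes of involutions: the central involution j, and one further class (there is an involution x ≠ j in L₁L₂, and every involution of L₁L₂ other than j is conjugate to x by an element of L₁L₂). -/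
theorem result {G : Type*} [Group G] [Finite G]
    {F₁ : Type*} [Field F₁] [Fintype F₁] {F₂ : Type*} [Field F₂] [Fintype F₂]
    (hF₁ : Odd (Fintype.card F₁)) (hF₂ : Odd (Fintype.card F₂)) (L₁ L₂ : Subgroup G)
    (e₁ : ↥L₁ ≃* Matrix.SpecialLinearGroup (Fin 2) F₁) (e₂ : ↥L₂ ≃* Matrix.SpecialLinearGroup (Fin 2) F₂)
    (hc : ∀ x ∈ L₁, ∀ y ∈ L₂, x * y = y * x) (j : G) (hj : orderOf j = 2) (hm : L₁ ⊓ L₂ = Subgroup.zpowers j) :
    ∃ x ∈ L₁ ⊔ L₂, orderOf x = 2 ∧ x ≠ j ∧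
      ∀ y ∈ L₁ ⊔ L₂, orderOf y = 2 → y = j ∨ ∃ g ∈ L₁ ⊔ L₂, g * x * g⁻¹ = y := by
  classical
  obtain ⟨hj1, hj2⟩ := pair_j_mem hm
  have hjj : j * j = 1 := by
    have := pow_orderOf_eq_one j
    rwa [hj, sq] at this
  obtain ⟨t₁, ht₁, ht₁₁⟩ := sl2sub_exists hF₁ e₁ hj1 hj
  obtain ⟨t₂, ht₂, ht₂₂⟩ := sl2sub_exists hF₂ e₂ hj2 hj
  have hmul : ∀ a ∈ L₁, ∀ b ∈ L₂, (a * b) * (a * b) = (a * a) * (b * b) := by
    intro a ha b hb
    calc (a * b) * (a * b) = a * (b * a) * b := by group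
      _ = a * (a * b) * b := by rw [(hc a ha b hb).symm]
      _ = _ := by group
  have hxne : ∀ u : G, u ∈ L₂ → t₁ * t₂ ≠ u := by
    intro u hu h
    have h1 : t₁ = u * t₂⁻¹ := by rw [← h]; group
    have h2 : t₁ ∈ L₂ := by rw [h1]; exact L₂.mul_mem hu (L₂.inv_mem ht₂)
    exact pair_not_sq hj hm ht₁ h2 ht₁₁
  refine ⟨t₁ * t₂, Subgroup.mul_mem _ (Subgroup.mem_sup_left ht₁) (Subgroup.mem_sup_right ht₂), ?_,
    hxne j hj2, ?_⟩
  · apply orderOf_eq_prime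
    · rw [sq, hmul t₁ ht₁ t₂ ht₂, ht₁₁, ht₂₂, hjj]
    · exact hxne 1 L₂.one_mem
  · intro y hy hyo
    have hyy : y * y = 1 := by
      have := pow_orderOf_eq_one y
      rwa [hyo, sq] at this
    obtain ⟨a, ha, b, hb, rfl⟩ := mem_sup_commuting hc hy
    rw [hmul a ha b hb] at hyy
    have haa : a * a = (b * b)⁻¹ := eq_inv_of_mul_eq_one_left hyy
    have hmem : a * a ∈ L₂ := by
      rw [haa]
      exact L₂.inv_mem (L₂.mul_mem hb hb)
    rcases pair_inf hj hm (L₁.mul_mem ha ha) hmem with h | h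
    · left
      rw [h, one_mul] at hyy
      have hne : a * b ≠ 1 := by
        intro h0
        rw [h0, orderOf_one] at hyo
        omega
      rcases sl2sub_sq_one hF₁ e₁ hj1 hj ha h with rfl | rfl <;>
        rcases sl2sub_sq_one hF₂ e₂ hj2 hj hb hyy with rfl | rfl
      · exact absurd (by simp) hne
      · simp
      · simp
      · exact absurd hjj hne
    · right
      have hbb : b * b = j := by
        rw [h] at hyy
        have : j * (b * b) = j * j := by rw [hyy, hjj]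
        exact mul_left_cancel this
      obtain ⟨g₁, hg₁, hg₁t⟩ := sl2sub_conj hF₁ e₁ hj1 hj ht₁ ha ht₁₁ h
      obtain ⟨g₂, hg₂, hg₂t⟩ := sl2sub_conj hF₂ e₂ hj2 hj ht₂ hb ht₂₂ hbb
      refine ⟨g₁ * g₂, Subgroup.mul_mem _ (Subgroup.mem_sup_left hg₁) (Subgroup.mem_sup_right hg₂), ?_⟩
      have h1 : g₂ * t₁ = t₁ * g₂ := (hc t₁ ht₁ g₂ hg₂).symm
      have h2 : g₁ * t₂ * g₁⁻¹ = t₂ := by
        rw [hc g₁ hg₁ t₂ ht₂]
        group
      calc g₁ * g₂ * (t₁ * t₂) * (g₁ * g₂)⁻¹ = g₁ * (g₂ * t₁) * t₂ * g₂⁻¹ * g₁⁻¹ := by group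
        _ = g₁ * (t₁ * g₂) * t₂ * g₂⁻¹ * g₁⁻¹ := by rw [h1]
        _ = (g₁ * t₁ * g₁⁻¹) * (g₁ * (g₂ * t₂ * g₂⁻¹) * g₁⁻¹) := by group
        _ = a * (g₁ * b * g₁⁻¹) := by rw [hg₁t, hg₂t]
        _ = a * b := by
          rw [hc g₁ hg₁ b hb]
          group

end Cfsg.Agent.S3209
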