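import Cfsg.Statements.S3210
import Mathlib
import Cfsg.Agent.Lib.H15.SL2Pair
import Cfsg.Agent.Lib.H10.CardSL

set_option autoImplicit false

namespace Cfsg.Agent.S3210

open Cfsg.Agent.H15

private theorem cube_sub_inj {a b : ℕ} (ha : 1 ≤ a) (hb : 1 ≤ b)
    (h : a * (a ^ 2 - 1) = b * (b ^ 2 - 1)) : a = b := by
  obtain ⟨a, rfl⟩ : ∃ a', a = a' + 1 := ⟨a - 1, by omega⟩
  obtain ⟨b, rfl⟩ : ∃ b', b = b' + 1 := ⟨b - 1, by omega⟩
  have h1 : (a + 1) ^ 2 - 1 = a * (a + 2) := by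
    have : (a + 1) ^ 2 = a * (a + 2) + 1 := by ring
    rw [this]; omega
  have h2 : (b + 1) ^ 2 - 1 = b * (b + 2) := by
    have : (b + 1) ^ 2 = b * (b + 2) + 1 := by ring
    rw [this]; omega
  rw [h1, h2] at h
  by_contra hne
  rcases Nat.lt_or_gt_of_ne hne with hlt | hlt
  · have hle : a + 1 ≤ b := by omega
    have h3 : (a + 1) * (a * (a + 2)) < (b + 1) * (b * (b + 2)) := by
      have h4 : a + 1 < b + 1 := by omega
      have h5 : a * (a + 2) ≤ b * (b + 2) := Nat.mul_le_mul (by omega) (by omega)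
      calc (a + 1) * (a * (a + 2)) ≤ (a + 1) * (b * (b + 2)) := Nat.mul_le_mul_left _ h5
        _ < (b + 1) * (b * (b + 2)) := by
          apply Nat.mul_lt_mul_of_pos_right h4
          exact Nat.mul_pos (by omega) (by omega)
    omega
  · have hle : b + 1 ≤ a := by omega
    have h3 : (b + 1) * (b * (b + 2)) < (a + 1) * (a * (a + 2)) := by
      have h4 : b + 1 < a + 1 := by omega
      have h5 : b * (b + 2) ≤ a * (a + 2) := Nat.mul_le_mul (by omega) (by omega)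
      calc (b + 1) * (b * (b + 2)) ≤ (b + 1) * (a * (a + 2)) := Nat.mul_le_mul_left _ h5
        _ < (a + 1) * (a * (a + 2)) := by
          apply Nat.mul_lt_mul_of_pos_right h4
          exact Nat.mul_pos (by omega) (by omega)
    omega

/-- Let G be a finite group with subgroups L₁ ≅ SL₂(q₁) and L₂ ≅ SL₂(q₂), q₁ and q₂ odd prime powers, which commute elementwise and meet in ⟨j⟩ for an involution j, and suppose L₁L₂ has index 2 in C_G(j). Then every element n of C_G(j) outside L₁L₂ either normalizes both L₁ and L₂, or conjugates L₁ onto L₂; in the second case q₁ = q₂ and there is an element n′ of C_G(j) outside L₁L₂ conjugating L₁ onto L₂ with n′² ∈ ⟨j⟩. -/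
theorem result {G : Type*} [Group G] [Finite G]
    {F₁ : Type*} [Field F₁] [Fintype F₁] {F₂ : Type*} [Field F₂] [Fintype F₂]
    (hF₁ : Odd (Fintype.card F₁)) (hF₂ : Odd (Fintype.card F₂)) (L₁ L₂ : Subgroup G)
    (e₁ : ↥L₁ ≃* Matrix.SpecialLinearGroup (Fin 2) F₁) (e₂ : ↥L₂ ≃* Matrix.SpecialLinearGroup (Fin 2) F₂)
    (hc : ∀ x ∈ L₁, ∀ y ∈ L₂, x * y = y * x) (j : G) (hj : orderOf j = 2) (hm : L₁ ⊓ L₂ = Subgroup.zpowers j)
    (hle : L₁ ⊔ L₂ ≤ Subgroup.centralizer ({j} : Set G)) (hi : (L₁ ⊔ L₂).relIndex (Subgroup.centralizer ({j} : Set G)) = 2) (n : G) (hn : n ∈ Subgroup.centralizer ({j} : Set G)) (hn' : n ∉ L₁ ⊔ L₂) :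
    (L₁.map (MulAut.conj n).toMonoidHom = L₁ ∧ L₂.map (MulAut.conj n).toMonoidHom = L₂) ∨
      (L₁.map (MulAut.conj n).toMonoidHom = L₂ ∧ Fintype.card F₁ = Fintype.card F₂ ∧
        ∃ n' ∈ Subgroup.centralizer ({j} : Set G), n' ∉ L₁ ⊔ L₂ ∧ L₁.map (MulAut.conj n').toMonoidHom = L₂ ∧ n' ^ 2 ∈ Subgroup.zpowers j) := by
  classical
  obtain ⟨hj1, hj2⟩ := pair_j_mem hm
  have hjj : j * j = 1 := by
    have := pow_orderOf_eq_one j
    rwa [hj, sq] at this
  set L := L₁ ⊔ L₂ with hL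
  set C := Subgroup.centralizer ({j} : Set G) with hC
  have hL₁ : L₁ ≤ L := le_sup_left
  have hL₂ : L₂ ≤ L := le_sup_right
  -- `L` is normal in `C`
  have hidx : (L.subgroupOf C).index = 2 := hi
  have hLn : (L.subgroupOf C).Normal := Subgroup.normal_of_index_eq_two hidx
  have hconjL : ∀ m ∈ C, ∀ l ∈ L, m * l * m⁻¹ ∈ L := by
    intro m hm' l hl
    have h1 : (⟨l, hle hl⟩ : C) ∈ L.subgroupOf C := hl
    exact hLn.conj_mem _ h1 ⟨m, hm'⟩
  have hnsq : n * n ∈ L := by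
    have h1 := Subgroup.mul_mem_iff_of_index_two hidx (a := ⟨n, hn⟩) (b := ⟨n, hn⟩)
    exact h1.mpr (Iff.rfl)
  have hjc : ∀ m ∈ C, m * j * m⁻¹ = j := by
    intro m hm'
    have := Subgroup.mem_centralizer_singleton_iff.mp hm'
    rw [this]; group
  have hninv : n⁻¹ ∈ C := C.inv_mem hn
  -- conjugates of elements of square `j`
  have hsq : ∀ m ∈ C, ∀ t ∈ L, t * t = j → (m * t * m⁻¹) * (m * t * m⁻¹) = j := by
    intro m hm' t _ htt
    calc (m * t * m⁻¹) * (m * t * m⁻¹) = m * (t * t) * m⁻¹ := by group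
      _ = j := by rw [htt, hjc m hm']
  have hmem : ∀ m ∈ C, ∀ t, (t ∈ L₁ ∨ t ∈ L₂) → t * t = j → m * t * m⁻¹ ∈ L₁ ∨ m * t * m⁻¹ ∈ L₂ := by
    intro m hm' t ht htt
    have htL : t ∈ L := ht.elim (fun h => hL₁ h) (fun h => hL₂ h)
    exact pair_sq_mem hF₁ hF₂ e₁ e₂ hc hj hm (hconjL m hm' t htL) (hsq m hm' t htL htt)
  -- dichotomy on `T₁` and `T₂`
  obtain ⟨t₀, ht₀, ht₀₀⟩ := sl2sub_exists hF₁ e₁ hj1 hj
  obtain ⟨s₀, hs₀, hs₀₀⟩ := sl2sub_exists hF₂ e₂ hj2 hj
  have hdich₁ : ∀ i : Subgroup G, (i = L₁ ∨ i = L₂) → n * t₀ * n⁻¹ ∈ i →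
      ∀ t ∈ L₁, t * t = j → n * t * n⁻¹ ∈ i := by
    intro i hi' hti t ht htt
    have hu := hmem n hn t (Or.inl ht) htt
    by_contra hno
    -- `n t₀ n⁻¹` and `n t n⁻¹` lie in different factors
    have hother : (n * t₀ * n⁻¹) * (n * t * n⁻¹) = (n * t * n⁻¹) * (n * t₀ * n⁻¹) := by
      rcases hi' with rfl | rfl
      · have h1 := hu.resolve_left hno
        exact hc _ hti _ h1
      · have h1 := hu.resolve_right hno
        exact (hc _ h1 _ hti).symm
    have hcomm : t₀ * t = t * t₀ := by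
      have h1 : n * (t₀ * t) * n⁻¹ = n * (t * t₀) * n⁻¹ := by
        calc n * (t₀ * t) * n⁻¹ = (n * t₀ * n⁻¹) * (n * t * n⁻¹) := by group
          _ = (n * t * n⁻¹) * (n * t₀ * n⁻¹) := hother
          _ = _ := by group
      exact mul_left_cancel (mul_right_cancel h1)
    rcases sl2sub_comm hF₁ e₁ hj1 hj ht₀ ht ht₀₀ htt hcomm with rfl | rfl
    · exact hno hti
    · apply hno
      have h1 : n * (j * t₀) * n⁻¹ = j * (n * t₀ * n⁻¹) := by
        calc n * (j * t₀) * n⁻¹ = (n * j * n⁻¹) * (n * t₀ * n⁻¹) := by group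
          _ = _ := by rw [hjc n hn]
      rw [h1]
      refine Subgroup.mul_mem _ ?_ hti
      rcases hi' with rfl | rfl
      · exact hj1
      · exact hj2
  have hdich₂ : ∀ i : Subgroup G, (i = L₁ ∨ i = L₂) → n * s₀ * n⁻¹ ∈ i →
      ∀ t ∈ L₂, t * t = j → n * t * n⁻¹ ∈ i := by
    intro i hi' hti t ht htt
    have hu := hmem n hn t (Or.inr ht) htt
    by_contra hno
    have hother : (n * s₀ * n⁻¹) * (n * t * n⁻¹) = (n * t * n⁻¹) * (n * s₀ * n⁻¹) := by
      rcases hi' with rfl | rfl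
      · have h1 := hu.resolve_left hno
        exact hc _ hti _ h1
      · have h1 := hu.resolve_right hno
        exact (hc _ h1 _ hti).symm
    have hcomm : s₀ * t = t * s₀ := by
      have h1 : n * (s₀ * t) * n⁻¹ = n * (t * s₀) * n⁻¹ := by
        calc n * (s₀ * t) * n⁻¹ = (n * s₀ * n⁻¹) * (n * t * n⁻¹) := by group
          _ = (n * t * n⁻¹) * (n * s₀ * n⁻¹) := hother
          _ = _ := by group
      exact mul_left_cancel (mul_right_cancel h1)
    rcases sl2sub_comm hF₂ e₂ hj2 hj hs₀ ht hs₀₀ htt hcomm with rfl | rfl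
    · exact hno hti
    · apply hno
      have h1 : n * (j * s₀) * n⁻¹ = j * (n * s₀ * n⁻¹) := by
        calc n * (j * s₀) * n⁻¹ = (n * j * n⁻¹) * (n * s₀ * n⁻¹) := by group
          _ = _ := by rw [hjc n hn]
      rw [h1]
      refine Subgroup.mul_mem _ ?_ hti
      rcases hi' with rfl | rfl
      · exact hj1
      · exact hj2
  -- a pullback helper
  have hpull : ∀ t, (t ∈ L₁ ∨ t ∈ L₂) → t * t = j →
      ∃ s, (s ∈ L₁ ∨ s ∈ L₂) ∧ s * s = j ∧ n * s * n⁻¹ = t := by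
    intro t ht htt
    have htL : t ∈ L := ht.elim (fun h => hL₁ h) (fun h => hL₂ h)
    have h1 := hmem n⁻¹ hninv t ht htt
    have h2 := hsq n⁻¹ hninv t htL htt
    refine ⟨n⁻¹ * t * n⁻¹⁻¹, h1, h2, by group⟩
  have hcard₁ : ∀ {K : Subgroup G}, Nat.card (K.map (MulAut.conj n).toMonoidHom) = Nat.card K := by
    intro K
    exact Subgroup.card_map_of_injective (MulAut.conj n).injective
  have hu₀ := hmem n hn t₀ (Or.inl ht₀) ht₀₀
  have hv₀ := hmem n hn s₀ (Or.inr hs₀) hs₀₀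
  have hconjmem : ∀ l ∈ L, n * l * n⁻¹ ∈ L := hconjL n hn
  -- commutation transfer
  have htrans : ∀ l t s : G, t = n * s * n⁻¹ → s * l = l * s → t * (n * l * n⁻¹) = (n * l * n⁻¹) * t := by
    intro l t s ht hsl
    rw [ht]
    calc n * s * n⁻¹ * (n * l * n⁻¹) = n * (s * l) * n⁻¹ := by group
      _ = n * (l * s) * n⁻¹ := by rw [hsl]
      _ = _ := by group
  have hcase : (∀ t ∈ L₁, t * t = j → n * t * n⁻¹ ∈ L₁) ∧ (∀ t ∈ L₂, t * t = j → n * t * n⁻¹ ∈ L₂) ∨
      (∀ t ∈ L₁, t * t = j → n * t * n⁻¹ ∈ L₂) ∧ (∀ t ∈ L₂, t * t = j → n * t * n⁻¹ ∈ L₁) := by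
    rcases hu₀ with hu₀ | hu₀ <;> rcases hv₀ with hv₀ | hv₀
    · -- both into `L₁`: contradiction
      exfalso
      have h1 := hdich₁ L₁ (Or.inl rfl) hu₀
      have h2 := hdich₂ L₁ (Or.inl rfl) hv₀
      obtain ⟨s, hs, hss, hst⟩ := hpull s₀ (Or.inr hs₀) hs₀₀
      have h3 : s₀ ∈ L₁ := by
        rw [← hst]
        rcases hs with hs | hs
        · exact h1 s hs hss
        · exact h2 s hs hss
      exact pair_not_sq hj hm h3 hs₀ hs₀₀
    · left
      exact ⟨hdich₁ L₁ (Or.inl rfl) hu₀, hdich₂ L₂ (Or.inr rfl) hv₀⟩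
    · right
      exact ⟨hdich₁ L₂ (Or.inr rfl) hu₀, hdich₂ L₁ (Or.inl rfl) hv₀⟩
    · exfalso
      have h1 := hdich₁ L₂ (Or.inr rfl) hu₀
      have h2 := hdich₂ L₂ (Or.inr rfl) hv₀
      obtain ⟨s, hs, hss, hst⟩ := hpull t₀ (Or.inl ht₀) ht₀₀
      have h3 : t₀ ∈ L₂ := by
        rw [← hst]
        rcases hs with hs | hs
        · exact h1 s hs hss
        · exact h2 s hs hss
      exact pair_not_sq hj hm ht₀ h3 ht₀₀
  have hconjEq : ∀ {K K' : Subgroup G}, K.map (MulAut.conj n).toMonoidHom ≤ K' →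
      K'.map (MulAut.conj n).toMonoidHom ≤ K → K.map (MulAut.conj n).toMonoidHom = K' := by
    intro K K' h1 h2
    apply Subgroup.eq_of_le_of_card_ge h1
    have h3 : Nat.card (K'.map (MulAut.conj n).toMonoidHom) ≤ Nat.card K :=
      Nat.le_of_dvd Nat.card_pos (Subgroup.card_dvd_of_le h2)
    rw [hcard₁] at h3
    rw [hcard₁]
    exact h3
  rcases hcase with ⟨h11, h22⟩ | ⟨h12, h21⟩
  · left
    constructor
    · apply Subgroup.eq_of_le_of_card_ge
      · rintro _ ⟨l, hl, rfl⟩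
        show n * l * n⁻¹ ∈ L₁
        apply pair_cent_left hF₁ hF₂ e₁ e₂ hc hj hm (hconjmem l (hL₁ hl))
        intro t ht htt
        obtain ⟨s, hs, hss, hst⟩ := hpull t (Or.inr ht) htt
        rcases hs with hs | hs
        · exfalso
          have h3 : t ∈ L₁ := by rw [← hst]; exact h11 s hs hss
          exact pair_not_sq hj hm h3 ht htt
        · exact htrans l t s hst.symm (hc l hl s hs).symm
      · rw [hcard₁]
    · apply Subgroup.eq_of_le_of_card_ge
      · rintro _ ⟨l, hl, rfl⟩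
        show n * l * n⁻¹ ∈ L₂
        apply pair_cent_right hF₁ hF₂ e₁ e₂ hc hj hm (hconjmem l (hL₂ hl))
        intro t ht htt
        obtain ⟨s, hs, hss, hst⟩ := hpull t (Or.inl ht) htt
        rcases hs with hs | hs
        · exact htrans l t s hst.symm (hc s hs l hl)
        · exfalso
          have h3 : t ∈ L₂ := by rw [← hst]; exact h22 s hs hss
          exact pair_not_sq hj hm ht h3 htt
      · rw [hcard₁]
  · right
    have hmap₁ : L₁.map (MulAut.conj n).toMonoidHom ≤ L₂ := by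
      rintro _ ⟨l, hl, rfl⟩
      show n * l * n⁻¹ ∈ L₂
      apply pair_cent_right hF₁ hF₂ e₁ e₂ hc hj hm (hconjmem l (hL₁ hl))
      intro t ht htt
      obtain ⟨s, hs, hss, hst⟩ := hpull t (Or.inl ht) htt
      rcases hs with hs | hs
      · exfalso
        have h3 : t ∈ L₂ := by rw [← hst]; exact h12 s hs hss
        exact pair_not_sq hj hm ht h3 htt
      · exact htrans l t s hst.symm (hc l hl s hs).symm
    have hmap₂ : L₂.map (MulAut.conj n).toMonoidHom ≤ L₁ := by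
      rintro _ ⟨l, hl, rfl⟩
      show n * l * n⁻¹ ∈ L₁
      apply pair_cent_left hF₁ hF₂ e₁ e₂ hc hj hm (hconjmem l (hL₂ hl))
      intro t ht htt
      obtain ⟨s, hs, hss, hst⟩ := hpull t (Or.inr ht) htt
      rcases hs with hs | hs
      · exact htrans l t s hst.symm (hc s hs l hl)
      · exfalso
        have h3 : t ∈ L₁ := by rw [← hst]; exact h21 s hs hss
        exact pair_not_sq hj hm h3 ht htt
    have heq := hconjEq hmap₁ hmap₂
    refine ⟨heq, ?_, ?_⟩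
    · have hc1 : Nat.card L₁ = Nat.card L₂ := by
        rw [← heq, hcard₁]
      have hc2 : Nat.card L₁ = Nat.card (Matrix.SpecialLinearGroup (Fin 2) F₁) := Nat.card_congr e₁.toEquiv
      have hc3 : Nat.card L₂ = Nat.card (Matrix.SpecialLinearGroup (Fin 2) F₂) := Nat.card_congr e₂.toEquiv
      rw [hc2, hc3, H10.card_SL_two, H10.card_SL_two] at hc1
      exact cube_sub_inj Fintype.card_pos Fintype.card_pos hc1
    · obtain ⟨a, ha, b, hb, hab⟩ := mem_sup_commuting hc hnsq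
      refine ⟨n * b⁻¹, C.mul_mem hn (C.inv_mem (hle (hL₂ hb))), ?_, ?_, ?_⟩
      · intro h
        apply hn'
        have h1 : n = (n * b⁻¹) * b := by group
        rw [h1]
        exact L.mul_mem h (hL₂ hb)
      · rw [← heq]
        ext z
        constructor
        · rintro ⟨l, hl, rfl⟩
          refine ⟨l, hl, ?_⟩
          show n * l * n⁻¹ = (n * b⁻¹) * l * (n * b⁻¹)⁻¹
          have h1 : b⁻¹ * l = l * b⁻¹ := (hc l hl _ (L₂.inv_mem hb)).symm
          calc n * l * n⁻¹ = n * (l * b⁻¹) * (n * b⁻¹)⁻¹ := by group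
            _ = n * (b⁻¹ * l) * (n * b⁻¹)⁻¹ := by rw [h1]
            _ = _ := by group
        · rintro ⟨l, hl, rfl⟩
          refine ⟨l, hl, ?_⟩
          show (n * b⁻¹) * l * (n * b⁻¹)⁻¹ = n * l * n⁻¹
          have h1 : b⁻¹ * l = l * b⁻¹ := (hc l hl _ (L₂.inv_mem hb)).symm
          calc (n * b⁻¹) * l * (n * b⁻¹)⁻¹ = n * (b⁻¹ * l) * (n * b⁻¹)⁻¹ := by group
            _ = n * (l * b⁻¹) * (n * b⁻¹)⁻¹ := by rw [h1]
            _ = _ := by group
      · -- the square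
        have hφa : n * a * n⁻¹ ∈ L₂ := hmap₁ ⟨a, ha, rfl⟩
        have hφb : n * b * n⁻¹ ∈ L₁ := hmap₂ ⟨b, hb, rfl⟩
        have hcommute : (n * b * n⁻¹) * (n * a * n⁻¹) = a * b := by
          have h1 : n * (a * b) * n⁻¹ = a * b := by
            rw [← hab]; group
          have h2 : n * (a * b) * n⁻¹ = (n * a * n⁻¹) * (n * b * n⁻¹) := by group
          rw [h2] at h1
          rw [hc _ hφb _ hφa]
          exact h1
        have hsquare : (n * b⁻¹) ^ 2 = (n * b * n⁻¹)⁻¹ * a := by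
          rw [sq]
          calc n * b⁻¹ * (n * b⁻¹) = (n * b⁻¹ * n⁻¹) * (n * n) * b⁻¹ := by group
            _ = (n * b⁻¹ * n⁻¹) * (a * b) * b⁻¹ := by rw [hab]
            _ = _ := by group
        have halt : (n * b * n⁻¹)⁻¹ * a = (n * a * n⁻¹) * b⁻¹ := by
          have h1 : a = (n * b * n⁻¹) * (n * a * n⁻¹) * b⁻¹ := by
            rw [hcommute]; group
          calc (n * b * n⁻¹)⁻¹ * a = (n * b * n⁻¹)⁻¹ * ((n * b * n⁻¹) * (n * a * n⁻¹) * b⁻¹) := by
                rw [← h1]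
            _ = _ := by group
        rw [hsquare, ← hm]
        refine ⟨L₁.mul_mem (L₁.inv_mem hφb) ha, ?_⟩
        rw [halt]
        exact L₂.mul_mem hφa (L₂.inv_mem hb)

end Cfsg.Agent.S3210
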