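import Cfsg.Statements.S3213
import Mathlib

set_option autoImplicit false
set_option linter.style.haveILetI false
set_option linter.unusedSectionVars false

open Cfsg Module

namespace Cfsg.Agent.S3213

private abbrev SL25 := Matrix.SpecialLinearGroup (Fin 2) (ZMod 5)

private theorem key5 : ∀ x : SL25, x^3 = 1 → x ≠ 1 →
    ∃ g : SL25, (x*g*x*g⁻¹)^2 ≠ 1 ∧ (x*g*x*g⁻¹)^10 = 1 := by
  decide +kernel

private abbrev nn := Fin 2 ⊕ Fin 2

section linear
variable {F : Type*} [Field F]

private abbrev VV (F : Type*) := nn → F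

private lemma finrank_VV : finrank F (VV F) = 4 := by
  simp [VV, nn]

/-- symplectic form -/
private def BB (v w : VV F) : F := dotProduct v ((Matrix.J (Fin 2) F).mulVec w)

private lemma BB_add_left (u v w : VV F) : BB (u + v) w = BB u w + BB v w := by
  simp [BB, add_dotProduct]

private lemma BB_sub_left (u v w : VV F) : BB (u - v) w = BB u w - BB v w := by
  simp [BB, sub_dotProduct]

private lemma BB_smul_right (c : F) (v w : VV F) : BB v (c • w) = c * BB v w := by
  simp [BB, Matrix.mulVec_smul, dotProduct_smul]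

private lemma BB_add_right (u v w : VV F) : BB u (v + w) = BB u v + BB u w := by
  simp [BB, Matrix.mulVec_add, dotProduct_add]

private lemma BB_antisymm (v w : VV F) : BB v w = - BB w v := by
  unfold BB
  rw [Matrix.dotProduct_mulVec, ← Matrix.mulVec_transpose, Matrix.J_transpose, Matrix.neg_mulVec,
    neg_dotProduct, dotProduct_comm]

private lemma BB_self (h2 : (2 : F) ≠ 0) (v : VV F) : BB v v = 0 := by
  have h := BB_antisymm v v
  have : (2 : F) * BB v v = 0 := by
    rw [two_mul]
    nth_rewrite 1 [h]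
    ring
  exact (mul_eq_zero.mp this).resolve_left h2

private lemma BB_nondeg (e : VV F) (he : e ≠ 0) : ∃ v : VV F, BB v e ≠ 0 := by
  by_contra hcon
  push Not at hcon
  apply he
  have h1 : (Matrix.J (Fin 2) F).mulVec e = 0 := by
    ext i
    have := hcon (Pi.single i 1)
    simpa [BB] using this
  have h2 := congrArg (Matrix.J (Fin 2) F).mulVec h1
  rw [Matrix.mulVec_mulVec, Matrix.J_squared] at h2
  simpa [Matrix.neg_mulVec] using h2

private lemma BB_preserve {A : Matrix nn nn F} (hA : A ∈ Matrix.symplecticGroup (Fin 2) F) (v w : VV F) :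
    BB (A.mulVec v) (A.mulVec w) = BB v w := by
  have h := (SymplecticGroup.mem_iff').mp hA
  unfold BB
  rw [Matrix.mulVec_mulVec, ← Matrix.vecMul_transpose, ← Matrix.dotProduct_mulVec,
    Matrix.mulVec_mulVec, ← Matrix.mul_assoc, h]

variable {V : Type*} [AddCommGroup V] [Module F V] [FiniteDimensional F V]

private lemma rank_sq_le (N : End F V) (hV : finrank F V = 4) (h3 : N * N * N = 0) :
    finrank F (LinearMap.range (N * N)) ≤ 1 := by
  by_cases h : N * N = 0
  · rw [h, LinearMap.range_zero]; simp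
  have h0 := LinearMap.finrank_range_add_finrank_ker N
  have h1 : LinearMap.range (N * N) ≤ LinearMap.range N := LinearMap.range_comp_le_range N N
  have h2 : LinearMap.range (N * N) ≤ LinearMap.ker N := by
    rintro _ ⟨v, rfl⟩
    have := LinearMap.congr_fun h3 v
    exact this
  have hk := Submodule.finrank_mono h2
  have hr := Submodule.finrank_mono h1
  have hne : finrank F (LinearMap.range (N * N)) ≠ finrank F (LinearMap.range N) := by
    intro he
    have heq := Submodule.eq_of_le_of_finrank_eq h1 he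
    apply h
    have hN : LinearMap.range N = ⊥ := by
      have hm : LinearMap.range (N * N * N) = LinearMap.range N := by
        have e1 : LinearMap.range (N * N * N) = (LinearMap.range (N * N)).map N := by
          rw [mul_assoc]
          exact LinearMap.range_comp (N * N) N
        have e2 : LinearMap.range (N * N) = (LinearMap.range N).map N :=
          LinearMap.range_comp N N
        rw [e1, heq, ← e2, heq]
      rw [← hm, h3, LinearMap.range_zero]
    rw [LinearMap.range_eq_bot] at hN
    rw [hN, mul_zero]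
  omega

end linear

private lemma sq_eq_of_char {F : Type*} [Field F] (h3 : (3 : F) = 0) {V : Type*} [AddCommGroup V]
    [Module F V] (L : End F V) (v : V) :
    ((L - 1) * (L - 1)) v = v + L v + L (L v) := by
  have : (3 : F) • L v = 0 := by rw [h3, zero_smul]
  simp only [Module.End.mul_apply, LinearMap.sub_apply, Module.End.one_apply, map_sub]
  have e : (3 : F) • L v = L v + L v + L v := by
    rw [show (3 : F) = 1 + 1 + 1 by norm_num, add_smul, add_smul, one_smul]
  rw [e] at this
  have h' : L (L v) - L v - (L v - v) = v + L v + L (L v) - (L v + L v + L v) := by abel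
  rw [h', this, sub_zero]

private lemma M_zero {F : Type*} [Field F] (h3 : (3 : F) = 0) (h2 : (2 : F) ≠ 0)
    (L : End F (VV F)) (hL3 : ∀ v, L (L (L v)) = v)
    (hB : ∀ v w, BB (L v) (L w) = BB v w) : (L - 1) * (L - 1) = 0 := by
  set N : End F (VV F) := L - 1 with hN
  have hN3 : N * N * N = 0 := by
    apply LinearMap.ext
    intro v
    rw [mul_assoc]
    change ((L - 1) * (L - 1)) (N v) = 0
    rw [sq_eq_of_char h3]
    simp only [hN, LinearMap.sub_apply, Module.End.one_apply, map_sub, hL3]
    abel
  have hrank := rank_sq_le N finrank_VV hN3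
  have halt : ∀ v, BB v ((N * N) v) = 0 := by
    intro v
    rw [sq_eq_of_char h3, BB_add_right, BB_add_right, BB_self h2]
    have : BB v (L (L v)) = BB (L v) (L (L (L v))) := (hB _ _).symm
    rw [this, hL3, BB_antisymm (L v) v]
    ring
  by_contra hne
  have : ∃ u, (N * N) u ≠ 0 := by
    by_contra hcon
    push Not at hcon
    exact hne (LinearMap.ext hcon)
  obtain ⟨u, hu⟩ := this
  set e := (N * N) u with he
  have hmul : ∀ v, ∃ c : F, (N * N) v = c • e := by
    intro v
    have hne' : (⟨e, LinearMap.mem_range_self _ u⟩ : LinearMap.range (N * N)) ≠ 0 := by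
      intro h
      exact hu (congrArg Subtype.val h)
    have hle : finrank F (LinearMap.range (N * N)) = 1 := by
      have hpos : 0 < finrank F (LinearMap.range (N * N)) :=
        Module.finrank_pos_iff_exists_ne_zero.mpr ⟨_, hne'⟩
      omega
    obtain ⟨c, hc⟩ := (finrank_eq_one_iff_of_nonzero' _ hne').mp hle
      ⟨(N * N) v, LinearMap.mem_range_self _ v⟩
    exact ⟨c, (congrArg Subtype.val hc).symm⟩
  obtain ⟨v, hv⟩ := BB_nondeg e hu
  have hzero : ∀ w, BB w e ≠ 0 → (N * N) w = 0 := by
    intro w hw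
    obtain ⟨c, hc⟩ := hmul w
    have := halt w
    rw [hc, BB_smul_right] at this
    have hc0 := (mul_eq_zero.mp this).resolve_right hw
    rw [hc, hc0, zero_smul]
  have h1 := hzero v hv
  have h4 : BB (v + u) e = BB v e := by
    rw [BB_add_left, he, halt u, add_zero]
  have h5 := hzero (v + u) (by rw [h4]; exact hv)
  rw [map_add, h1, zero_add] at h5
  exact hu h5

private lemma not_three {F : Type*} [Field F] [Fintype F] (hF : Fintype.card F = 3)
    (L P Q : End F (VV F)) (hPQ : P * Q = 1) (hQP : Q * P = 1)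
    (T : End F (VV F)) (hT : T = L * (P * L * Q)) (hT2 : T ^ 2 ≠ 1) (hT10 : T ^ 10 = 1)
    (hk : finrank F (LinearMap.ker (L - 1)) = 3) : False := by
  classical
  set K₁ := LinearMap.ker (L - 1) with hK₁
  set L₂ := P * L * Q with hL₂
  set K₂ := LinearMap.ker (L₂ - 1) with hK₂
  let Pe : VV F ≃ₗ[F] VV F := LinearEquiv.ofLinearMap P Q hPQ hQP
  have hK₂map : K₂ = K₁.map (Pe : VV F →ₗ[F] VV F) := by
    ext v
    constructor
    · intro hv
      refine ⟨Q v, ?_, ?_⟩
      · have hv' : (L₂ - 1) v = 0 := hv
        have : P (L (Q v)) = v := by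
          have := sub_eq_zero.mp hv'
          simpa [hL₂] using this
        have h2 : Q (P (L (Q v))) = Q v := by rw [this]
        have h3 : L (Q v) = Q v := by
          have := LinearMap.congr_fun hQP (L (Q v))
          simpa [h2] using this.symm
        change (L - 1) (Q v) = 0
        simp [h3]
      · exact LinearMap.congr_fun hPQ v
    · rintro ⟨w, hw, rfl⟩
      have hw' : (L - 1) w = 0 := hw
      have hLw : L w = w := by simpa [sub_eq_zero] using hw'
      change (L₂ - 1) (P w) = 0
      have : Q (P w) = w := LinearMap.congr_fun hQP w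
      simp [hL₂, this, hLw]
  have hk₂ : finrank F K₂ = 3 := by
    rw [hK₂map, LinearEquiv.finrank_map_eq]
    exact hk
  have hsum := Submodule.finrank_sup_add_finrank_inf_eq K₁ K₂
  have hsup : finrank F (K₁ ⊔ K₂ : Submodule F (VV F)) ≤ 4 := by
    have := Submodule.finrank_le (K₁ ⊔ K₂)
    rwa [finrank_VV] at this
  have hW : 2 ≤ finrank F (K₁ ⊓ K₂ : Submodule F (VV F)) := by omega
  set S := T ^ 2 with hS
  have hle : K₁ ⊓ K₂ ≤ LinearMap.ker (S - 1) := by
    rintro v ⟨hv1, hv2⟩
    have h1 : (L - 1) v = 0 := hv1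
    have h2 : (L₂ - 1) v = 0 := hv2
    have h1' : L v = v := by simpa [sub_eq_zero] using h1
    have h2' : L₂ v = v := by simpa [sub_eq_zero] using h2
    have hTv : T v = v := by
      rw [hT]
      change L (L₂ v) = v
      rw [h2', h1']
    change (S - 1) v = 0
    simp [hS, pow_two, hTv]
  have hk' := Submodule.finrank_mono hle
  have hk4 : finrank F (LinearMap.ker (S - 1)) ≠ 4 := by
    intro h
    have : LinearMap.ker (S - 1) = ⊤ :=
      Submodule.eq_top_of_finrank_eq (by rw [h, finrank_VV])
    rw [LinearMap.ker_eq_top] at this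
    exact hT2 (sub_eq_zero.mp this)
  have hk5 : finrank F (LinearMap.ker (S - 1)) ≤ 4 := by
    have := Submodule.finrank_le (LinearMap.ker (S - 1))
    rwa [finrank_VV] at this
  -- counting
  have hS5 : S ^ 5 = 1 := by
    rw [hS, ← pow_mul]; exact hT10
  let f : Function.End (VV F) := fun v => S v
  have hf : f ^ 5 ^ 1 = 1 := by
    funext v
    have : (S ^ 5) v = v := by rw [hS5]; rfl
    have e : ∀ n : ℕ, ∀ v, (f ^ n) v = (S ^ n) v := by
      intro n
      induction n with
      | zero => intro v; rfl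
      | succ n ih =>
        intro v
        rw [pow_succ, pow_succ]
        exact ih (f v)
    rw [pow_one, e 5 v, this]
    rfl
  haveI : Fact (Nat.Prime 5) := ⟨by norm_num⟩
  have hmod := Equiv.Perm.card_fixedPoints_modEq (α := VV F) hf
  have hcard1 : Fintype.card (VV F) = 3 ^ 4 := by
    rw [Module.card_eq_pow_finrank (K := F), hF, finrank_VV]
  have hcard2 : Nat.card (Function.fixedPoints f) = 3 ^ finrank F (LinearMap.ker (S - 1)) := by
    rw [← hF, ← Module.card_eq_pow_finrank (K := F), ← Nat.card_eq_fintype_card]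
    apply Nat.card_congr
    refine ⟨fun v => ⟨v.1, ?_⟩, fun v => ⟨v.1, ?_⟩, fun _ => rfl, fun _ => rfl⟩
    · have h : S v.1 = v.1 := Function.mem_fixedPoints_iff.mp v.2
      change (S - 1) v.1 = 0
      simp [h]
    · have h : (S - 1) v.1 = 0 := v.2
      have h' : S v.1 = v.1 := by
        rw [LinearMap.sub_apply, sub_eq_zero] at h
        exact h
      exact Function.mem_fixedPoints_iff.mpr h'
  rw [Fintype.card_eq_nat_card, Fintype.card_eq_nat_card, hcard2, ← Fintype.card_eq_nat_card, hcard1] at hmod
  generalize finrank F (LinearMap.ker (S - 1)) = k at *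
  interval_cases k
  · omega
  · omega
  · revert hmod; decide
  · revert hmod; decide
  · omega

private lemma core {F : Type*} [Field F] [Fintype F] (hF : Fintype.card F = 3)
    {A : Matrix nn nn F} (hA : A ∈ Matrix.symplecticGroup (Fin 2) F) (hA3 : A ^ 3 = 1) (hA1 : A ≠ 1)
    (h3 : finrank F (LinearMap.ker (Matrix.toLin' A - LinearMap.id)) ≠ 3) :
    finrank F (LinearMap.ker (Matrix.toLin' A - LinearMap.id)) = 2 ∧
      ∀ v w : nn → F, A.mulVec v = v → A.mulVec w = w → dotProduct v ((Matrix.J (Fin 2) F).mulVec w) = 0 := by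
  classical
  have e : ZMod 3 ≃+* F := ZMod.ringEquivOfPrime F Nat.prime_three hF
  have hF3 : (3 : F) = 0 := by
    have := map_zero e
    rw [show (0 : ZMod 3) = ((3 : ℕ) : ZMod 3) by decide, map_natCast] at this
    exact_mod_cast this
  have hF2 : (2 : F) ≠ 0 := by
    intro h
    have h1 : (1 : F) = 0 := by
      have : (3 : F) = 2 + 1 := by norm_num
      rw [this, h, zero_add] at hF3
      exact hF3
    exact one_ne_zero h1
  set L : End F (VV F) := Matrix.toLin' A with hL
  have hLapp : ∀ v, L v = A.mulVec v := fun v => Matrix.toLin'_apply A v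
  have hL3 : ∀ v, L (L (L v)) = v := by
    intro v
    rw [hLapp, hLapp, hLapp, Matrix.mulVec_mulVec, Matrix.mulVec_mulVec]
    have : A * A * A = A ^ 3 := by rw [pow_succ, pow_two]
    rw [this, hA3, Matrix.one_mulVec]
  have hB : ∀ v w, BB (L v) (L w) = BB v w := by
    intro v w
    rw [hLapp, hLapp]
    exact BB_preserve hA v w
  have hM := M_zero hF3 hF2 L hL3 hB
  have hid : (LinearMap.id : End F (VV F)) = 1 := rfl
  rw [hid] at h3 ⊢
  set N : End F (VV F) := L - 1 with hN
  have h0 := LinearMap.finrank_range_add_finrank_ker N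
  rw [finrank_VV] at h0
  have hle : LinearMap.range N ≤ LinearMap.ker N := by
    rintro _ ⟨v, rfl⟩
    exact LinearMap.congr_fun hM v
  have hle' := Submodule.finrank_mono hle
  have hne4 : finrank F (LinearMap.ker N) ≠ 4 := by
    intro h
    have : LinearMap.ker N = ⊤ := Submodule.eq_top_of_finrank_eq (by rw [h, finrank_VV])
    rw [LinearMap.ker_eq_top] at this
    have hL1 : L = 1 := sub_eq_zero.mp this
    apply hA1
    have : A = LinearMap.toMatrix' L := by rw [hL, LinearMap.toMatrix'_toLin']
    rw [this, hL1]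
    exact LinearMap.toMatrix'_id
  have key : ∀ r k : ℕ, r + k = 4 → r ≤ k → k ≠ 3 → k ≠ 4 → k = 2 ∧ r = k := by
    intro r k h1 h2 h3 h4
    omega
  have hk2 : finrank F (LinearMap.ker N) = 2 := (key _ _ h0 hle' h3 hne4).1
  refine ⟨hk2, ?_⟩
  intro v w hv hw
  have hrange : LinearMap.range N = LinearMap.ker N :=
    Submodule.eq_of_le_of_finrank_eq hle (key _ _ h0 hle' h3 hne4).2
  have hvk : v ∈ LinearMap.ker N := by
    change L v - v = 0
    rw [hLapp, hv, sub_self]
  rw [← hrange] at hvk
  obtain ⟨u, rfl⟩ := hvk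
  change BB (N u) w = 0
  have hw' : L w = w := by rw [hLapp, hw]
  have : BB (L u) w = BB u w := by
    have := hB u w
    rwa [hw'] at this
  change BB (L u - u) w = 0
  rw [BB_sub_left, this, sub_self]

/-- Let F be the field with 3 elements and K the field with 5 elements. For every injective homomorphism φ from SL₂(K) into the symplectic group Sp₄(F) (4 × 4 matrices g with g J gᵀ = J for the standard alternating matrix J) and every element x of order 3 of SL₂(K), the vectors of F⁴ fixed by φ(x) form a 2-dimensional subspace that is totally isotropic for the alternating form defined by J. -/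
theorem result {F : Type*} [Field F] [Fintype F] (hF : Fintype.card F = 3)
    {K : Type*} [Field K] [Fintype K] (hK : Fintype.card K = 5)
    (φ : Matrix.SpecialLinearGroup (Fin 2) K →* ↥(Matrix.symplecticGroup (Fin 2) F)) (hφ : Function.Injective φ)
    (x : Matrix.SpecialLinearGroup (Fin 2) K) (hx : orderOf x = 3) :
    Module.finrank F ↥(LinearMap.ker (Matrix.toLin' ((φ x : Matrix (Fin 2 ⊕ Fin 2) (Fin 2 ⊕ Fin 2) F)) - LinearMap.id)) = 2 ∧
      ∀ v w : Fin 2 ⊕ Fin 2 → F, (φ x : Matrix (Fin 2 ⊕ Fin 2) (Fin 2 ⊕ Fin 2) F).mulVec v = v →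
        (φ x : Matrix (Fin 2 ⊕ Fin 2) (Fin 2 ⊕ Fin 2) F).mulVec w = w →
          dotProduct v ((Matrix.J (Fin 2) F).mulVec w) = 0 := by
  classical
  have e : ZMod 5 ≃+* K := ZMod.ringEquivOfPrime K (by norm_num) hK
  let ψ := Matrix.SpecialLinearGroup.map (n := Fin 2) (e : ZMod 5 →+* K)
  let ψ' := Matrix.SpecialLinearGroup.map (n := Fin 2) (e.symm : K →+* ZMod 5)
  have hψψ' : ∀ y, ψ (ψ' y) = y := by
    intro y
    ext i j
    simp [ψ, ψ']
  have hψ'ψ : ∀ y, ψ' (ψ y) = y := by
    intro y
    ext i j
    simp [ψ, ψ']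
  have hx3 : x ^ 3 = 1 := by rw [← hx]; exact pow_orderOf_eq_one x
  have hx1 : x ≠ 1 := by
    rintro rfl
    simp at hx
  have hx0 : (ψ' x) ^ 3 = 1 := by rw [← map_pow, hx3, map_one]
  have hx01 : ψ' x ≠ 1 := by
    intro h
    apply hx1
    rw [← hψψ' x, h, map_one]
  obtain ⟨g₀, hg1, hg2⟩ := key5 (ψ' x) hx0 hx01
  set g := ψ g₀ with hg
  have hw : ψ (ψ' x * g₀ * ψ' x * g₀⁻¹) = x * g * x * g⁻¹ := by
    simp only [map_mul, map_inv, hψψ', hg]
  have hw2 : (x * g * x * g⁻¹) ^ 2 ≠ 1 := by
    rw [← hw, ← map_pow]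
    intro h
    apply hg1
    rw [← hψ'ψ ((ψ' x * g₀ * ψ' x * g₀⁻¹) ^ 2), h, map_one]
  have hw10 : (x * g * x * g⁻¹) ^ 10 = 1 := by
    rw [← hw, ← map_pow, hg2, map_one]
  set A : Matrix nn nn F := (φ x : Matrix nn nn F) with hA
  have hAmem : A ∈ Matrix.symplecticGroup (Fin 2) F := (φ x).2
  have hA3 : A ^ 3 = 1 := by
    have : (φ x) ^ 3 = 1 := by rw [← map_pow, hx3, map_one]
    have h := congrArg (fun y : ↥(Matrix.symplecticGroup (Fin 2) F) => (y : Matrix nn nn F)) this
    simpa using h
  have hinj : ∀ y, (φ y : Matrix nn nn F) = 1 → y = 1 := by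
    intro y hy
    apply hφ
    rw [map_one]
    exact Subtype.ext hy
  have hA1 : A ≠ 1 := fun h => hx1 (hinj x h)
  set P : End F (VV F) := Matrix.toLin' (φ g : Matrix nn nn F) with hP
  set Q : End F (VV F) := Matrix.toLin' (φ g⁻¹ : Matrix nn nn F) with hQ
  set L : End F (VV F) := Matrix.toLin' A with hL
  have htl : ∀ y z : Matrix nn nn F, (Matrix.toLin' y : End F (VV F)) * Matrix.toLin' z = Matrix.toLin' (y * z) := by
    intro y z
    rw [Matrix.toLin'_mul]
    rfl
  have hφmul : ∀ y z, (φ (y * z) : Matrix nn nn F) = (φ y : Matrix nn nn F) * (φ z : Matrix nn nn F) := by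
    intro y z
    rw [map_mul]
    rfl
  have hone : (Matrix.toLin' (1 : Matrix nn nn F) : End F (VV F)) = 1 := Matrix.toLin'_one
  have hPQ : P * Q = 1 := by
    rw [hP, hQ, htl, ← hφmul, mul_inv_cancel, map_one]
    exact hone
  have hQP : Q * P = 1 := by
    rw [hP, hQ, htl, ← hφmul, inv_mul_cancel, map_one]
    exact hone
  have hT : (Matrix.toLin' (φ (x * g * x * g⁻¹) : Matrix nn nn F) : End F (VV F)) = L * (P * L * Q) := by
    have : x * g * x * g⁻¹ = x * (g * x * g⁻¹) := by group
    rw [this, hφmul, hφmul, hφmul, hL, hP, hQ, htl, htl, htl]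
  have hpow : ∀ (y : Matrix.SpecialLinearGroup (Fin 2) K) (n : ℕ),
      (Matrix.toLin' (φ y : Matrix nn nn F) : End F (VV F)) ^ n = Matrix.toLin' (φ (y ^ n) : Matrix nn nn F) := by
    intro y n
    induction n with
    | zero =>
      simp only [pow_zero, map_one]
      exact hone.symm
    | succ n ih =>
      rw [pow_succ, ih, htl, ← hφmul, pow_succ]
  refine core hF hAmem hA3 hA1 ?_
  intro h3
  refine not_three hF L P Q hPQ hQP _ hT ?_ ?_ h3
  · rw [hpow]
    intro h
    apply hw2
    apply hinj
    rw [← hone] at h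
    exact Matrix.toLin'.injective h
  · rw [hpow, hw10, map_one]
    exact hone

end Cfsg.Agent.S3213
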