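import Cfsg.Statements.S3215
import Mathlib
import Cfsg.Agent.Lib.H15.CIT

set_option autoImplicit false

open Cfsg

namespace Cfsg.Agent.S3215

/-- Let H be a finite solvable group with no nontrivial normal subgroup of odd order in which the centralizer of every involution has a normal 2-complement. Let X be a Hall 2'-subgroup of H (odd order, index a power of 2) and Y = O₂(H). Then no non-identity element of X commutes with a non-identity element of Y (so for X ≠ 1 the group XY is a Frobenius group with kernel Y), every Sylow subgroup of X is cyclic, XY is normal in H, and H/XY is a cyclic 2-group. -/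
theorem result {H : Type*} [Group H] [Finite H] (hsol : Group.IsSolvable H)
    (hO : Cfsg.oddCore H = ⊥)
    (hI : ∀ t : H, orderOf t = 2 → Cfsg.HasNormalPComplement 2 ↥(Subgroup.centralizer ({t} : Set H)))
    (X : Subgroup H) (hXodd : Odd (Nat.card X)) (hXidx : ∃ k : ℕ, X.index = 2 ^ k) :
    (∀ x ∈ X, x ≠ 1 → ∀ y ∈ Cfsg.pCore 2 H, y ≠ 1 → x * y ≠ y * x) ∧
      (∀ (p : ℕ) [Fact p.Prime] (P : Sylow p ↥X), IsCyclic ↥(P : Subgroup ↥X)) ∧
      (X ⊔ Cfsg.pCore 2 H).Normal ∧
      ∀ hN : (X ⊔ Cfsg.pCore 2 H).Normal, IsCyclic (H ⧸ (X ⊔ Cfsg.pCore 2 H)) ∧ IsPGroup 2 (H ⧸ (X ⊔ Cfsg.pCore 2 H)) := by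
  classical
  haveI : Fact (Nat.Prime 2) := ⟨Nat.prime_two⟩
  have hodd : ∀ x ∈ X, Odd (orderOf x) := fun x hx =>
    Odd.of_dvd_nat hXodd (Subgroup.orderOf_dvd_natCard X hx)
  have hYp : IsPGroup 2 (pCore 2 H) := H01.pCore_isPGroup 2
  obtain ⟨hWcyc, hW2⟩ := H15.cit_structure hsol hO hI
  let mk : H →* H ⧸ pCore 2 H := QuotientGroup.mk' (pCore 2 H)
  have hmk : Function.Surjective mk := QuotientGroup.mk'_surjective _
  let π₂ : (H ⧸ pCore 2 H) →* (H ⧸ pCore 2 H) ⧸ oddCore (H ⧸ pCore 2 H) :=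
    QuotientGroup.mk' (oddCore (H ⧸ pCore 2 H))
  let π : H →* (H ⧸ pCore 2 H) ⧸ oddCore (H ⧸ pCore 2 H) := π₂.comp mk
  have hπ : Function.Surjective π :=
    (QuotientGroup.mk'_surjective _).comp hmk
  have hπZ : ∀ g : H, π g = 1 ↔ mk g ∈ oddCore (H ⧸ pCore 2 H) := by
    intro g
    exact QuotientGroup.eq_one_iff (mk g)
  have hXZ : ∀ x ∈ X, mk x ∈ oddCore (H ⧸ pCore 2 H) := by
    intro x hx
    rw [← hπZ]
    obtain ⟨k, hk⟩ := hW2 (π x)
    have h1 : orderOf (π x) ∣ orderOf x := orderOf_map_dvd π x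
    have h2 : (orderOf (π x)).Coprime 2 :=
      Nat.coprime_two_right.mpr (Odd.of_dvd_nat (hodd x hx) h1)
    exact H15.eq_one_of_pow_of_coprime hk h2
  have hinj : Function.Injective (mk.comp X.subtype) := by
    rw [injective_iff_map_eq_one]
    rintro ⟨x, hx⟩ h1
    have h2 : x ∈ pCore 2 H := (QuotientGroup.eq_one_iff x).mp h1
    obtain ⟨k, hk⟩ := hYp ⟨x, h2⟩
    have hk' : x ^ 2 ^ k = 1 := by simpa using congrArg Subtype.val hk
    have h3 := H15.eq_one_of_pow_of_coprime hk' (Nat.coprime_two_right.mpr (hodd x hx))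
    exact Subtype.ext h3
  have hmapEq : X.map mk = oddCore (H ⧸ pCore 2 H) := by
    have hle : X.map mk ≤ oddCore (H ⧸ pCore 2 H) := by
      rintro _ ⟨x, hx, rfl⟩
      exact hXZ x hx
    apply Subgroup.eq_of_le_of_card_ge hle
    have hc1 : Nat.card (X.map mk) = Nat.card X := by
      have : X.map mk = (⊤ : Subgroup X).map (mk.comp X.subtype) := by
        ext z
        constructor
        · rintro ⟨x, hx, rfl⟩
          exact ⟨⟨x, hx⟩, trivial, rfl⟩
        · rintro ⟨x, -, rfl⟩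
          exact ⟨x, x.2, rfl⟩
      rw [this, Subgroup.card_map_of_injective hinj, Subgroup.card_top]
    rw [hc1]
    have hZc := H15.card_oddCore_coprime (G := H ⧸ pCore 2 H)
    have hd1 : Nat.card (oddCore (H ⧸ pCore 2 H)) ∣ Nat.card (H ⧸ pCore 2 H) :=
      Subgroup.card_subgroup_dvd_card _
    have hd2 : Nat.card (H ⧸ pCore 2 H) ∣ Nat.card H :=
      ⟨_, (Subgroup.card_mul_index (pCore 2 H)).symm.trans (by
        rw [mul_comm]; rfl)⟩
    obtain ⟨k, hk⟩ := hXidx
    have hd3 : Nat.card H = Nat.card X * 2 ^ k := by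
      rw [← hk]; exact (Subgroup.card_mul_index X).symm
    have hd4 : Nat.card (oddCore (H ⧸ pCore 2 H)) ∣ Nat.card X * 2 ^ k := by
      rw [← hd3]; exact hd1.trans hd2
    have hd5 : Nat.card (oddCore (H ⧸ pCore 2 H)) ∣ Nat.card X :=
      (Nat.Coprime.pow_right k hZc).dvd_of_dvd_mul_right hd4
    exact Nat.le_of_dvd Nat.card_pos hd5
  have hker : X ⊔ pCore 2 H = π.ker := by
    apply le_antisymm
    · apply sup_le
      · intro x hx
        rw [MonoidHom.mem_ker]
        exact (hπZ x).mpr (hXZ x hx)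
      · intro y hy
        rw [MonoidHom.mem_ker]
        apply (hπZ y).mpr
        have : mk y = 1 := (QuotientGroup.eq_one_iff y).mpr hy
        rw [this]
        exact Subgroup.one_mem _
    · intro l hl
      rw [MonoidHom.mem_ker] at hl
      have h1 := (hπZ l).mp hl
      rw [← hmapEq] at h1
      obtain ⟨x, hx, hxl⟩ := h1
      have h2 : x⁻¹ * l ∈ pCore 2 H := by
        apply (QuotientGroup.eq_one_iff _).mp
        show mk (x⁻¹ * l) = 1
        rw [map_mul, map_inv, hxl, inv_mul_cancel]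
      have h3 : l = x * (x⁻¹ * l) := by group
      rw [h3]
      exact Subgroup.mul_mem _ (Subgroup.mem_sup_left hx) (Subgroup.mem_sup_right h2)
  refine ⟨?_, ?_, ?_, ?_⟩
  · intro x hx hx1 y hy hy1
    exact H15.odd_not_commute hsol hO hI (hodd x hx) hx1 hy hy1
  · intro p _ P
    exact H15.sylow_cyclic_of_odd hsol hO hI X hXodd p P
  · rw [hker]
    exact MonoidHom.normal_ker π
  · intro hN
    let e : H ⧸ (X ⊔ pCore 2 H) ≃* (H ⧸ pCore 2 H) ⧸ oddCore (H ⧸ pCore 2 H) :=
      (QuotientGroup.quotientMulEquivOfEq hker).trans (QuotientGroup.quotientKerEquivOfSurjective π hπ)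
    refine ⟨isCyclic_of_surjective e.symm e.symm.surjective, hW2.of_equiv e.symm⟩

end Cfsg.Agent.S3215
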