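import Cfsg.Statements.S3224
import Cfsg.Agent.Lib.H15.MaxClass
import Cfsg.Prelude.Def_CaseTheorems

set_option autoImplicit false
open Cfsg

namespace Cfsg.Agent.S3224

open Cfsg.Agent.H15

/-- A finite 2-group containing an involution whose centralizer has order 4 is dihedral, quasi-dihedral (semidihedral), or of order 4. -/
theorem result {S : Type*} [Group S] [Finite S] (hS : IsPGroup 2 S)
    (x : S) (hx : orderOf x = 2) (hC : Nat.card ↥(Subgroup.centralizer ({x} : Set S)) = 4) :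
    (∃ n : ℕ, Nonempty (S ≃* DihedralGroup n)) ∨ Cfsg.IsQuasiDihedral S ∨ Nat.card S = 4 := by
  classical
  obtain ⟨e, he⟩ := IsPGroup.iff_card.mp hS
  have h4 : 4 ∣ Nat.card S := by
    rw [← hC]; exact Subgroup.card_subgroup_dvd_card _
  have he2 : 2 ≤ e := by
    rw [he, show (4 : ℕ) = 2 ^ 2 from rfl] at h4
    exact (Nat.pow_dvd_pow_iff_le_right (by norm_num)).mp h4
  by_cases he3 : e = 2
  · right; right
    rw [he, he3]; rfl
  have he3' : 3 ≤ e := by omega
  have h8 : 8 ≤ Nat.card S := by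
    rw [he]
    calc 8 = 2 ^ 3 := rfl
      _ ≤ 2 ^ e := Nat.pow_le_pow_right (by norm_num) he3'
  obtain ⟨A, hAc, hAi, hxA⟩ := exists_cyclic_index_two _ S rfl hS x hx hC.le h8
  obtain ⟨⟨a, haA⟩, hagen⟩ := IsCyclic.exists_generator (α := A)
  have hA : A = Subgroup.zpowers a := by
    apply le_antisymm
    · intro u hu
      obtain ⟨k, hk⟩ := Subgroup.mem_zpowers_iff.mp (hagen ⟨u, hu⟩)
      rw [Subgroup.mem_zpowers_iff]
      exact ⟨k, congrArg Subtype.val hk⟩
    · rw [Subgroup.zpowers_le]; exact haA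
  have hAn : A.Normal := Subgroup.normal_of_index_eq_two hAi
  obtain ⟨n, he'⟩ : ∃ n, e = n + 1 := ⟨e - 1, by omega⟩
  have hAcard : Nat.card A = 2 ^ n := by
    have h1 := Subgroup.card_mul_index A
    rw [hAi, he, he', pow_succ] at h1
    omega
  have hao : orderOf a = 2 ^ n := by
    rw [← Nat.card_zpowers, ← hA]; exact hAcard
  have hn2 : 2 ≤ n := by omega
  have hxx : x * x = 1 := by rw [← pow_two, ← hx]; exact pow_orderOf_eq_one x
  have hxi : x⁻¹ = x := inv_eq_of_mul_eq_one_left hxx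
  have hxaA : x * a * x⁻¹ ∈ Subgroup.zpowers a := by
    rw [← hA]; exact hAn.conj_mem a haA x
  obtain ⟨u, hu⟩ := (mem_powers_iff_mem_zpowers).mpr hxaA
  have hu' : x * a * x⁻¹ = a ^ u := hu.symm
  -- `u` is odd and congruent to `3` modulo `4`
  have hinf := card_inf_centralizer_le_two hAi hxA hC.le
  have hpow : a ^ (u * u) = a := by
    have h1 : x * a ^ u * x⁻¹ = a := by
      rw [← hu', hxi]
      calc x * (x * a * x) * x = (x * x) * a * (x * x) := by group
        _ = a := by rw [hxx]; group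
    rw [← conj_pow, hu', ← pow_mul] at h1
    exact h1
  have hmod : u * u ≡ 1 [MOD 2 ^ n] := by
    rw [← hao]
    apply (pow_eq_pow_iff_modEq).mp
    rw [hpow, pow_one]
  have huodd : Odd u := by
    by_contra hev
    rw [Nat.not_odd_iff_even] at hev
    obtain ⟨v, rfl⟩ := hev
    have h1 : 2 ∣ 2 ^ n := dvd_pow_self 2 (by omega)
    have h2 := (hmod.of_dvd h1)
    have h3 : (v + v) * (v + v) % 2 = 0 := by
      have : (v + v) * (v + v) = 2 * (2 * (v * v)) := by ring
      omega
    unfold Nat.ModEq at h2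
    omega
  have hu3 : u % 4 = 3 := by
    by_contra hne
    have hu1 : u % 4 = 1 := by
      obtain ⟨v, rfl⟩ := huodd
      omega
    -- then `a ^ (2 ^ (n - 2))` is centralized by `x`
    set w := a ^ 2 ^ (n - 2) with hw
    have hw4 : w ^ 4 = 1 := by
      rw [hw, ← pow_mul]
      have : 2 ^ (n - 2) * 4 = 2 ^ n := by
        rw [show (4 : ℕ) = 2 ^ 2 from rfl, ← pow_add]
        congr 1
        omega
      rw [this, ← hao]
      exact pow_orderOf_eq_one a
    have hwo : orderOf w = 4 := by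
      rw [hw, orderOf_pow' a (by positivity), hao]
      rw [Nat.gcd_eq_right (Nat.pow_dvd_pow 2 (by omega))]
      rw [show (4 : ℕ) = 2 ^ 2 from rfl]
      rw [Nat.pow_div (by omega) (by norm_num)]
      congr 1
      omega
    have hxw : x * w * x⁻¹ = w := by
      rw [hw, ← conj_pow, hu', ← pow_mul, mul_comm u, pow_mul, ← hw]
      obtain ⟨v, hv⟩ : ∃ v, u = 4 * v + 1 := ⟨u / 4, by omega⟩
      rw [hv, pow_succ, pow_mul, hw4, one_pow, one_mul]
    have hwC : Subgroup.zpowers w ≤ A ⊓ Subgroup.centralizer ({x} : Set S) := by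
      rw [Subgroup.zpowers_le]
      refine ⟨by rw [hA, hw]; exact Subgroup.pow_mem _ (Subgroup.mem_zpowers a) _, ?_⟩
      show w ∈ Subgroup.centralizer ({x} : Set S)
      rw [Subgroup.mem_centralizer_singleton_iff]
      rw [mul_inv_eq_iff_eq_mul] at hxw
      exact hxw.symm
    have h1 := Subgroup.card_le_of_le hwC
    rw [Nat.card_zpowers, hwo] at h1
    omega
  -- divisibility
  have hdvd : 2 ^ (n - 1) ∣ u + 1 := by
    obtain ⟨v, hv⟩ : ∃ v, u = 4 * v + 3 := ⟨u / 4, by omega⟩
    have h1 : 2 ^ n ∣ u * u - 1 := (Nat.modEq_iff_dvd' (by nlinarith [hv])).mp hmod.symm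
    have h2 : u * u - 1 = 2 * ((2 * v + 1) * (u + 1)) := by
      rw [hv]
      have : (4 * v + 3) * (4 * v + 3) = 2 * ((2 * v + 1) * (4 * v + 3 + 1)) + 1 := by ring
      omega
    rw [h2] at h1
    have h3 : (2 : ℕ) ^ n = 2 * 2 ^ (n - 1) := by
      rw [← pow_succ']; congr 1; omega
    rw [h3] at h1
    have h4 : 2 ^ (n - 1) ∣ (2 * v + 1) * (u + 1) := Nat.dvd_of_mul_dvd_mul_left (by norm_num) h1
    have hcop : Nat.Coprime (2 ^ (n - 1)) (2 * v + 1) := by
      apply Nat.Coprime.pow_left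
      rw [Nat.coprime_two_left]
      exact ⟨v, rfl⟩
    exact hcop.dvd_of_dvd_mul_left h4
  obtain ⟨t, ht⟩ := hdvd
  rcases Nat.even_or_odd' t with ⟨s, rfl | rfl⟩
  · -- dihedral
    left
    refine ⟨2 ^ n, dihedral_of a x (2 ^ n) (by positivity) hao hxx ?_ ?_ ?_⟩
    · rw [hu', eq_inv_iff_mul_eq_one, ← pow_succ, ht]
      have : 2 ^ (n - 1) * (2 * s) = 2 ^ n * s := by
        have h3 : (2 : ℕ) ^ n = 2 * 2 ^ (n - 1) := by
          rw [← pow_succ']; congr 1; omega
        rw [h3]; ring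
      rw [this, pow_mul, ← hao, pow_orderOf_eq_one, one_pow]
    · rw [he, he', pow_succ]; ring
    · rw [← hA]; exact hxA
  · -- semidihedral
    right; left
    have hn3 : 3 ≤ n := by
      by_contra hlt
      have : n = 2 := by omega
      subst this
      simp only [show 2 - 1 = 1 from rfl, pow_one] at ht
      omega
    have h3 : (2 : ℕ) ^ n = 2 * 2 ^ (n - 1) := by
      rw [← pow_succ']; congr 1; omega
    have hpos : 1 ≤ 2 ^ (n - 1) := Nat.one_le_two_pow
    refine ⟨n, hn3, by rw [he, he'], a, x, hao, hx, ?_⟩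
    rw [hu']
    have : u = 2 ^ n * s + (2 ^ (n - 1) - 1) := by
      have h5 : u + 1 = 2 ^ n * s + 2 ^ (n - 1) := by
        rw [ht, h3]; ring
      omega
    rw [this, pow_add, pow_mul, ← hao, pow_orderOf_eq_one, one_pow, one_mul]

end Cfsg.Agent.S3224
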