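import Cfsg.Statements.S3246
import Mathlib
import Cfsg.Agent.Lib.H15.EarlyChar2

set_option autoImplicit false

open Cfsg

namespace Cfsg.Agent.S3246

private theorem exists_maximal_local {G : Type*} [Group G] [Finite G] (T : Subgroup G)
    (hT : IsPGroup 2 ↥T) (hT1 : T ≠ ⊥) :
    ∃ M : Subgroup G, IsMaximalTwoLocal M ∧ Subgroup.normalizer (T : Set G) ≤ M := by
  classical
  let P : Set (Subgroup G) := {M | IsTwoLocal M}
  have hPfin : P.Finite := Set.toFinite _
  have hmem : Subgroup.normalizer (T : Set G) ∈ P := ⟨T, hT, hT1, rfl⟩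
  obtain ⟨M, hTM, hMmax⟩ := hPfin.exists_le_maximal hmem
  refine ⟨M, ⟨hMmax.prop, fun N hN hMN => ?_⟩, hTM⟩
  exact le_antisymm (hMmax.le_of_ge hN hMN) hMN

/-- Let G be a finite group whose Sylow 2-subgroup S has a self-centralizing normal subgroup of rank at least 3. Suppose that either every maximal 2-local subgroup of G is 2-constrained with no nontrivial normal subgroup of odd order, or the centralizer of every involution of G is 2-constrained with no nontrivial normal subgroup of odd order. Then S normalizes no nontrivial subgroup of G of odd order and every 2-local subgroup of G is 2-constrained. -/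
theorem result {G : Type*} [Group G] [Finite G]
    (S : Sylow 2 G) (A : Subgroup G) (hA : Cfsg.IsSCN (S : Subgroup G) A) (hA3 : ¬ Cfsg.PRankLE 2 2 ↥A)
    (h : (∀ M : Subgroup G, Cfsg.IsMaximalTwoLocal M → Cfsg.IsPConstrained 2 ↥M ∧ Cfsg.oddCore ↥M = ⊥) ∨
      (∀ t : G, orderOf t = 2 → Cfsg.IsPConstrained 2 ↥(Subgroup.centralizer ({t} : Set G)) ∧
        Cfsg.oddCore ↥(Subgroup.centralizer ({t} : Set G)) = ⊥)) :
    (∀ X : Subgroup G, Odd (Nat.card ↥X) → (S : Subgroup G) ≤ Subgroup.normalizer (X : Set G) → X = ⊥) ∧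
      (∀ T : Subgroup G, IsPGroup 2 ↥T → T ≠ ⊥ → Cfsg.IsPConstrained 2 ↥(Subgroup.normalizer (T : Set G))) := by
  classical
  haveI : Fact (Nat.Prime 2) := ⟨Nat.prime_two⟩
  obtain ⟨hAS, hSA, hAC⟩ := hA
  have hAc : ∀ a ∈ A, ∀ b ∈ A, a * b = b * a := by
    intro a ha b hb
    have h1 : b ∈ (S : Subgroup G) ⊓ Subgroup.centralizer (A : Set G) := by rw [hAC]; exact hb
    have h2 := Subgroup.mem_centralizer_iff.mp h1.2 a ha
    exact h2
  constructor
  · intro X hX hSX
    obtain ⟨x, a, hxS, haS, hx2, ha2, hx1, ha1, hxa, hc, hxc, hac⟩ :=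
      H15.exists_normal_four (S : Subgroup G) A S.isPGroup' hAS hSA hAc hA3
    refine H15.odd_bot_of_normal_four S x a hxS haS hx2 ha2 hx1 ha1 hxa hc hxc hac ?_ X hX hSX
    intro b hb2 hb1
    have hbo : orderOf b = 2 := orderOf_eq_prime hb2 hb1
    rcases h with h | h
    · have hTp : IsPGroup 2 (Subgroup.zpowers b) := by
        rw [IsPGroup.iff_card, Nat.card_zpowers, hbo]
        exact ⟨1, by norm_num⟩
      have hT1 : Subgroup.zpowers b ≠ ⊥ := by
        rw [Ne, Subgroup.zpowers_eq_bot]
        exact hb1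
      obtain ⟨M, hM, hTM⟩ := exists_maximal_local _ hTp hT1
      obtain ⟨hc1, hc2⟩ := h M hM
      refine ⟨M, ?_, hc1, hc2⟩
      refine le_trans ?_ hTM
      intro g hg
      have hgc := Subgroup.mem_centralizer_singleton_iff.mp hg
      apply H15.mem_normalizer_of_forall_conj_mem
      intro y hy
      obtain ⟨k, rfl⟩ := Subgroup.mem_zpowers_iff.mp hy
      refine Subgroup.mem_zpowers_iff.mpr ⟨k, ?_⟩
      have hcomm : Commute g (b ^ k) := (show Commute g b from hgc).zpow_right k
      rw [hcomm.eq]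
      group
    · exact ⟨_, le_refl _, h b hbo⟩
  · intro T hT hT1
    rcases h with h | h
    · obtain ⟨M, hM, hTM⟩ := exists_maximal_local T hT hT1
      exact H15.constrained_normalizer_of_le hT hTM (h M hM).1
    · exact H15.constrained_normalizer_of_centralizers hT hT1 (fun x hx => (h x hx).1)

end Cfsg.Agent.S3246
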