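import Cfsg.Statements.S3265
-- import your own Cfsg.Agent.* helpers here

set_option autoImplicit false
open Cfsg

namespace Cfsg.Agent.S3265

variable {α : Type*} [Fintype α] [DecidableEq α]

theorem odd_order_of_pow {G : Type*} [Group G] {g : G} {k : ℕ} (hk : Odd k) (h : g ^ k = 1) :
    Odd (orderOf g) :=
  Odd.of_dvd_nat hk (orderOf_dvd_of_pow_eq_one h)

theorem odd_order_mul {G : Type*} [Group G] {a b : G} (hab : Commute a b)
    (ha : Odd (orderOf a)) (hb : Odd (orderOf b)) : Odd (orderOf (a * b)) := by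
  refine odd_order_of_pow (ha.mul hb) ?_
  rw [hab.mul_pow, pow_mul, pow_orderOf_eq_one, one_pow, mul_comm, pow_mul, pow_orderOf_eq_one,
    one_pow, one_mul]

theorem odd_order_of_pointwise (ρ : Equiv.Perm α) (h : ∀ v, ∃ k, Odd k ∧ (ρ ^ k) v = v) :
    Odd (orderOf ρ) := by
  classical
  choose k hk hv using h
  have hK : Odd (∏ v, k v) :=
    Finset.prod_induction _ Odd (fun _ _ => Odd.mul) odd_one (fun v _ => hk v)
  refine odd_order_of_pow hK ?_
  ext v
  obtain ⟨c, hc⟩ : k v ∣ ∏ w, k w := Finset.dvd_prod_of_mem _ (Finset.mem_univ v)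
  have key : ∀ c, ((ρ ^ k v) ^ c) v = v := by
    intro c
    induction c with
    | zero => simp
    | succ c ih => rw [pow_succ, Equiv.Perm.mul_apply, hv, ih]
  rw [hc, pow_mul, key c]
  rfl

theorem pow_fix_of_fix {π : Equiv.Perm α} {b : α} (hb : π b = b) (j : ℕ) : (π ^ j) b = b := by
  induction j with
  | zero => simp
  | succ j ih => rw [pow_succ, Equiv.Perm.mul_apply, hb, ih]

theorem odd_insert (π : Equiv.Perm α) {u b d : α} (hπ : Odd (orderOf π)) (hb : π b = b)
    (hd : π d = d) (hub : u ≠ b) (hud : u ≠ d) (hbd : b ≠ d) :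
    Odd (orderOf (π * (Equiv.swap u b * Equiv.swap b d))) := by
  set ρ := π * (Equiv.swap u b * Equiv.swap b d) with hρ
  have ρu : ρ u = b := by
    simp [hρ, Equiv.swap_apply_of_ne_of_ne, hub, hud, hb]
  have ρb : ρ b = d := by
    simp [hρ, Equiv.swap_apply_of_ne_of_ne, hud.symm, hbd.symm, hd]
  have ρd : ρ d = π u := by
    simp [hρ]
  have ρv : ∀ v, v ≠ u → v ≠ b → v ≠ d → ρ v = π v := by
    intro v h1 h2 h3
    simp [hρ, Equiv.swap_apply_of_ne_of_ne, h1, h2, h3]
  have hNpos : 0 < orderOf π := hπ.pos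
  have hN : π ^ orderOf π = 1 := pow_orderOf_eq_one π
  have hper : Function.IsPeriodicPt π (orderOf π) u := by
    unfold Function.IsPeriodicPt Function.IsFixedPt
    rw [Equiv.Perm.iterate_eq_pow, hN]; rfl
  set m := Function.minimalPeriod π u with hm
  have hmpos : 0 < m := hper.minimalPeriod_pos hNpos
  have hmdvd : m ∣ orderOf π := hper.minimalPeriod_dvd
  have hmodd : Odd m := Odd.of_dvd_nat hπ hmdvd
  have hmfix : (π ^ m) u = u := by
    have := Function.iterate_minimalPeriod (f := π) (x := u)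
    rwa [Equiv.Perm.iterate_eq_pow] at this
  have hne_u : ∀ j, 0 < j → j < m → (π ^ j) u ≠ u := by
    intro j h0 hj hfix
    have : Function.IsPeriodicPt π j u := by
      unfold Function.IsPeriodicPt Function.IsFixedPt
      rw [Equiv.Perm.iterate_eq_pow]; exact hfix
    exact absurd (this.minimalPeriod_le h0) (not_le.2 hj)
  have hne_b : ∀ j, (π ^ j) u ≠ b := by
    intro j h
    exact hub ((π ^ j).injective (h.trans (pow_fix_of_fix hb j).symm))
  have hne_d : ∀ j, (π ^ j) u ≠ d := by
    intro j h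
    exact hud ((π ^ j).injective (h.trans (pow_fix_of_fix hd j).symm))
  have ρ3 : (ρ ^ 3) u = π u := by
    have : (ρ ^ 3) u = ρ (ρ (ρ u)) := by
      simp [pow_succ, Equiv.Perm.mul_apply]
    rw [this, ρu, ρb, ρd]
  have claim : ∀ j, 1 ≤ j → j ≤ m → (ρ ^ (j + 2)) u = (π ^ j) u := by
    intro j hj
    induction j, hj using Nat.le_induction with
    | base => intro _; simpa using ρ3
    | succ j hj ih =>
      intro hle
      have h1 := ih (by omega)
      have : (ρ ^ (j + 1 + 2)) u = ρ ((ρ ^ (j + 2)) u) := by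
        rw [show j + 1 + 2 = (j + 2) + 1 by omega, pow_succ', Equiv.Perm.mul_apply]
      rw [this, h1, ρv _ (hne_u j (by omega) (by omega)) (hne_b j) (hne_d j), pow_succ',
        Equiv.Perm.mul_apply]
  have hρm : (ρ ^ (m + 2)) u = u := by
    rw [claim m hmpos le_rfl, hmfix]
  have horb : ∀ j, ∃ i, (ρ ^ i) u = (π ^ j) u := by
    intro j
    induction j with
    | zero => exact ⟨0, by simp⟩
    | succ j ih =>
      obtain ⟨i, hi⟩ := ih
      by_cases h : (π ^ j) u = u
      · refine ⟨3, ?_⟩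
        rw [ρ3, pow_succ', Equiv.Perm.mul_apply, h]
      · refine ⟨i + 1, ?_⟩
        rw [pow_succ', Equiv.Perm.mul_apply, hi, ρv _ h (hne_b j) (hne_d j), pow_succ',
          Equiv.Perm.mul_apply]
  refine odd_order_of_pointwise ρ ?_
  intro v
  by_cases hv : ∃ i, (ρ ^ i) u = v
  · obtain ⟨i, rfl⟩ := hv
    refine ⟨m + 2, hmodd.add_even even_two, ?_⟩
    rw [← Equiv.Perm.mul_apply, ← pow_add, add_comm (m + 2) i, pow_add, Equiv.Perm.mul_apply, hρm]
  · push Not at hv
    have h1 : v ≠ u := by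
      rintro rfl
      exact hv 0 (by simp)
    have h2 : v ≠ b := by
      rintro rfl
      exact hv 1 (by simpa using ρu)
    have h3 : v ≠ d := by
      rintro rfl
      refine hv 2 ?_
      rw [pow_two, Equiv.Perm.mul_apply, ρu, ρb]
    have hvb : ∀ i, (π ^ i) v ≠ b := by
      intro i h
      exact h2 ((π ^ i).injective (h.trans (pow_fix_of_fix hb i).symm))
    have hvd : ∀ i, (π ^ i) v ≠ d := by
      intro i h
      exact h3 ((π ^ i).injective (h.trans (pow_fix_of_fix hd i).symm))
    have hvu : ∀ i, (π ^ i) v ≠ u := by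
      intro i h
      have hback : (π ^ (orderOf π * i - i)) ((π ^ i) v) = v := by
        rw [← Equiv.Perm.mul_apply, ← pow_add,
          Nat.sub_add_cancel (Nat.le_mul_of_pos_left i hNpos), pow_mul, hN, one_pow]
        rfl
      rw [h] at hback
      obtain ⟨i', hi'⟩ := horb (orderOf π * i - i)
      exact hv i' (hi'.trans hback)
    have same : ∀ i, (ρ ^ i) v = (π ^ i) v := by
      intro i
      induction i with
      | zero => simp
      | succ i ih =>
        rw [pow_succ', Equiv.Perm.mul_apply, ih, ρv _ (hvu i) (hvb i) (hvd i), pow_succ',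
          Equiv.Perm.mul_apply]
    exact ⟨orderOf π, hπ, by rw [same, hN]; rfl⟩

theorem inv_app {x : Equiv.Perm α} (h : x * x = 1) (v : α) : x (x v) = v := by
  rw [← Equiv.Perm.mul_apply, h]; rfl

theorem ins_odd {x' z' : Equiv.Perm α} {u a b c d : α} (hz : z' * z' = 1)
    (hab : a ≠ b) (hac : a ≠ c) (had : a ≠ d) (hbc : b ≠ c) (hbd : b ≠ d) (hcd : c ≠ d)
    (hua : u ≠ a) (hub : u ≠ b) (huc : u ≠ c) (hud : u ≠ d)
    (xa : x' a = a) (xb : x' b = b) (xc : x' c = c) (xd : x' d = d)
    (za : z' a = a) (zb : z' b = b) (zc : z' c = c) (zd : z' d = d)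
    (h : Odd (orderOf (x' * z'))) :
    Odd (orderOf (x' * (Equiv.swap a b * Equiv.swap c d) *
      (Equiv.swap u d * z' * Equiv.swap u d * (Equiv.swap u a * Equiv.swap b c)))) := by
  have pa : (x' * z') a = a := by simp [za, xa]
  have pb : (x' * z') b = b := by simp [zb, xb]
  have pc : (x' * z') c = c := by simp [zc, xc]
  have pd : (x' * z') d = d := by simp [zd, xd]
  have h1 := odd_insert (x' * z') h pb pd hub hud hbd
  set π₁ := x' * z' * (Equiv.swap u b * Equiv.swap b d) with hπ₁
  have p1c : π₁ c = c := by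
    simp [hπ₁, Equiv.swap_apply_of_ne_of_ne, hbc.symm, hcd, huc.symm, za, zb, zc, zd, xa, xb, xc, xd]
  have p1a : π₁ a = a := by
    simp [hπ₁, Equiv.swap_apply_of_ne_of_ne, hab, had, hua.symm, za, zb, zc, zd, xa, xb, xc, xd]
  have hba := hab.symm
  have hca := hac.symm
  have hda := had.symm
  have hcb := hbc.symm
  have hdb := hbd.symm
  have hdc := hcd.symm
  have hau := hua.symm
  have hbu := hub.symm
  have hcu := huc.symm
  have hdu := hud.symm
  by_cases hw : z' u = u
  · -- the five-cycle case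
    have h2 := odd_insert π₁ h1 p1c p1a hdc hda hca
    have : x' * (Equiv.swap a b * Equiv.swap c d) *
        (Equiv.swap u d * z' * Equiv.swap u d * (Equiv.swap u a * Equiv.swap b c)) =
        π₁ * (Equiv.swap d c * Equiv.swap c a) := by
      ext v
      by_cases h1 : v = u
      · subst h1; simp [hπ₁, Equiv.swap_apply_def, *]
      by_cases h2 : v = a
      · subst h2; simp [hπ₁, Equiv.swap_apply_def, *]
      by_cases h3 : v = b
      · subst h3; simp [hπ₁, Equiv.swap_apply_def, *]
      by_cases h4 : v = c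
      · subst h4; simp [hπ₁, Equiv.swap_apply_def, *]
      by_cases h5 : v = d
      · subst h5; simp [hπ₁, Equiv.swap_apply_def, *]
      have hzu : z' v ≠ u := fun e => h1 (by rw [← inv_app hz v, e, hw])
      have hza : z' v ≠ a := fun e => h2 (by rw [← inv_app hz v, e, za])
      have hzb : z' v ≠ b := fun e => h3 (by rw [← inv_app hz v, e, zb])
      have hzc : z' v ≠ c := fun e => h4 (by rw [← inv_app hz v, e, zc])
      have hzd : z' v ≠ d := fun e => h5 (by rw [← inv_app hz v, e, zd])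
      simp [hπ₁, Equiv.swap_apply_def, *]
    rw [this]; exact h2
  · obtain ⟨w, hwdef⟩ : ∃ w, z' u = w := ⟨_, rfl⟩
    rw [hwdef] at hw
    have zw : z' w = u := by rw [← hwdef]; exact inv_app hz u
    have hwa : w ≠ a := fun e => hua (by rw [← inv_app hz u, hwdef, e, za])
    have hwb : w ≠ b := fun e => hub (by rw [← inv_app hz u, hwdef, e, zb])
    have hwc : w ≠ c := fun e => huc (by rw [← inv_app hz u, hwdef, e, zc])
    have hwd : w ≠ d := fun e => hud (by rw [← inv_app hz u, hwdef, e, zd])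
    have huw : u ≠ w := Ne.symm hw
    have h2 := odd_insert π₁ h1 p1c p1a hwc hwa hca
    have haw := hwa.symm
    have hbw := hwb.symm
    have hcw := hwc.symm
    have hdw := hwd.symm
    have hwu := huw.symm
    have : x' * (Equiv.swap a b * Equiv.swap c d) *
        (Equiv.swap u d * z' * Equiv.swap u d * (Equiv.swap u a * Equiv.swap b c)) =
        π₁ * (Equiv.swap w c * Equiv.swap c a) := by
      ext v
      by_cases h1 : v = u
      · subst h1; simp [hπ₁, Equiv.swap_apply_def, *]
      by_cases h6 : v = w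
      · rw [h6]; simp [hπ₁, Equiv.swap_apply_def, *]
      by_cases h2 : v = a
      · subst h2; simp [hπ₁, Equiv.swap_apply_def, *]
      by_cases h3 : v = b
      · subst h3; simp [hπ₁, Equiv.swap_apply_def, *]
      by_cases h4 : v = c
      · subst h4; simp [hπ₁, Equiv.swap_apply_def, *]
      by_cases h5 : v = d
      · subst h5; simp [hπ₁, Equiv.swap_apply_def, *]
      have hzu : z' v ≠ u := fun e => h6 (by rw [← inv_app hz v, e, hwdef])
      have hzw : z' v ≠ w := fun e => h1 (by rw [← inv_app hz v, e, zw])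
      have hza : z' v ≠ a := fun e => h2 (by rw [← inv_app hz v, e, za])
      have hzb : z' v ≠ b := fun e => h3 (by rw [← inv_app hz v, e, zb])
      have hzc : z' v ≠ c := fun e => h4 (by rw [← inv_app hz v, e, zc])
      have hzd : z' v ≠ d := fun e => h5 (by rw [← inv_app hz v, e, zd])
      simp [hπ₁, Equiv.swap_apply_def, *]
    rw [this]; exact h2

theorem split_perm {y p : Equiv.Perm α} {P : Finset α} (hy : y * y = 1) (hp : p * p = 1)
    (hsupp : p.support ⊆ P) (hP : ∀ v ∈ P, y v = p v) :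
    (y * p) * (y * p) = 1 ∧ (y * p).support = y.support \ P ∧ Equiv.Perm.Disjoint (y * p) p ∧
      y.support.card = (y * p).support.card + p.support.card ∧ (y * p) * p = y := by
  have pP : ∀ v ∈ P, p v ∈ P := by
    intro v hv
    by_cases h : p v = v
    · rwa [h]
    · exact hsupp (Equiv.Perm.apply_mem_support.2 (Equiv.Perm.mem_support.2 h))
  have pout : ∀ v, v ∉ P → p v = v := by
    intro v hv
    by_contra h
    exact hv (hsupp (Equiv.Perm.mem_support.2 h))
  have fix : ∀ v ∈ P, (y * p) v = v := by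
    intro v hv
    rw [Equiv.Perm.mul_apply, hP _ (pP v hv), inv_app hp]
  have out : ∀ v, v ∉ P → (y * p) v = y v := by
    intro v hv
    rw [Equiv.Perm.mul_apply, pout v hv]
  have yout : ∀ v, v ∉ P → y v ∉ P := by
    intro v hv h
    have h1 := hP _ h
    rw [inv_app hy] at h1
    exact hv (h1 ▸ pP _ h)
  have hdisj : Equiv.Perm.Disjoint (y * p) p := by
    intro v
    by_cases hv : v ∈ P
    · exact Or.inl (fix v hv)
    · exact Or.inr (pout v hv)
  have hmul : (y * p) * p = y := by
    rw [mul_assoc, hp, mul_one]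
  refine ⟨?_, ?_, hdisj, ?_, hmul⟩
  · ext v
    by_cases hv : v ∈ P
    · rw [Equiv.Perm.mul_apply, fix v hv, fix v hv]; rfl
    · rw [Equiv.Perm.mul_apply, out v hv, out _ (yout v hv), inv_app hy]; rfl
  · ext v
    simp only [Equiv.Perm.mem_support, Finset.mem_sdiff]
    by_cases hv : v ∈ P
    · simp [fix v hv, hv]
    · simp [out v hv, hv]
  · conv_lhs => rw [← hmul]
    exact hdisj.card_support_mul

structure Adm (S : Finset α) (x y : Equiv.Perm α) : Prop where
  hx : x * x = 1
  hy : y * y = 1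
  sx : x.support ⊆ S
  sy : y.support ⊆ S
  card : x.support.card = y.support.card

structure Sol (S : Finset α) (x y z : Equiv.Perm α) : Prop where
  hz : z * z = 1
  sz : z.support ⊆ S
  card : z.support.card = x.support.card
  ox : Odd (orderOf (x * z))
  oy : Odd (orderOf (y * z))

def Bad (S : Finset α) (x y : Equiv.Perm α) : Prop :=
  S.card = 4 ∧ x.support = S ∧ y.support = S ∧ x ≠ y

def C2 (x y : Equiv.Perm α) (a b c d : α) : Prop :=
  a ≠ b ∧ a ≠ c ∧ a ≠ d ∧ b ≠ c ∧ b ≠ d ∧ c ≠ d ∧ x a = b ∧ y b = c ∧ x c = d ∧ y d = a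

theorem Adm.symm {S : Finset α} {x y : Equiv.Perm α} (h : Adm S x y) : Adm S y x :=
  ⟨h.hy, h.hx, h.sy, h.sx, h.card.symm⟩

theorem Sol.symm {S : Finset α} {x y z : Equiv.Perm α} (h : Sol S y x z)
    (hc : x.support.card = y.support.card) : Sol S x y z :=
  ⟨h.hz, h.sz, h.card.trans hc.symm, h.oy, h.ox⟩

theorem mem_of_moved {S : Finset α} {x : Equiv.Perm α} (hs : x.support ⊆ S) {v : α}
    (h : x v ≠ v) : v ∈ S := hs (Equiv.Perm.mem_support.2 h)

theorem fix_of_notMem {S : Finset α} {x : Equiv.Perm α} (hs : x.support ⊆ S) {v : α}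
    (h : v ∉ S) : x v = v := by
  by_contra h'
  exact h (mem_of_moved hs h')

theorem disj_of_subset {S P : Finset α} {f g : Equiv.Perm α} (hf : f.support ⊆ S \ P)
    (hg : g.support ⊆ P) : Equiv.Perm.Disjoint f g :=
  Equiv.Perm.disjoint_iff_disjoint_support.2
    (Finset.disjoint_of_subset_left hf (Finset.disjoint_of_subset_right hg Finset.sdiff_disjoint))

theorem support_mul_subset {f g : Equiv.Perm α} {S : Finset α} (hf : f.support ⊆ S)
    (hg : g.support ⊆ S) : (f * g).support ⊆ S := by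
  intro v hv
  have := Equiv.Perm.support_mul_le f g hv
  rcases Finset.mem_union.1 this with h | h
  · exact hf h
  · exact hg h

theorem piece {S P : Finset α} {x y p q r : Equiv.Perm α} (adm : Adm S x y)
    (hp : p * p = 1) (hq : q * q = 1) (hr : r * r = 1)
    (sp : p.support ⊆ P) (sq : q.support ⊆ P) (sr : r.support ⊆ P) (hPS : P ⊆ S)
    (hxp : ∀ v ∈ P, x v = p v) (hyq : ∀ v ∈ P, y v = q v)
    (c1 : p.support.card = q.support.card) (c2 : r.support.card = p.support.card)
    (o1 : Odd (orderOf (p * r))) (o2 : Odd (orderOf (q * r))) :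
    Adm (S \ P) (x * p) (y * q) ∧
      ∀ z', Sol (S \ P) (x * p) (y * q) z' → Sol S x y (z' * r) := by
  obtain ⟨i1, s1, d1, k1, m1⟩ := split_perm adm.hx hp sp hxp
  obtain ⟨i2, s2, d2, k2, m2⟩ := split_perm adm.hy hq sq hyq
  have admc := adm.card
  refine ⟨⟨i1, i2, ?_, ?_, by omega⟩, ?_⟩
  · rw [s1]; exact Finset.sdiff_subset_sdiff adm.sx le_rfl
  · rw [s2]; exact Finset.sdiff_subset_sdiff adm.sy le_rfl
  intro z' hz
  have dzr : Equiv.Perm.Disjoint z' r := disj_of_subset hz.sz sr
  have dzp : Equiv.Perm.Disjoint z' p := disj_of_subset hz.sz sp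
  have dzq : Equiv.Perm.Disjoint z' q := disj_of_subset hz.sz sq
  have hsz := hz.card
  have key : ∀ {g t : Equiv.Perm α}, t.support ⊆ P → g.support ⊆ S \ P →
      Odd (orderOf (g * z')) → Equiv.Perm.Disjoint z' t →
      Odd (orderOf (t * r)) → Odd (orderOf ((g * t) * (z' * r))) := by
    intro g t ht sg og dt otr
    have e : (g * t) * (z' * r) = (g * z') * (t * r) := by
      rw [mul_assoc, ← mul_assoc t, (dt.commute.eq).symm, mul_assoc z', ← mul_assoc g]
    rw [e]
    refine odd_order_mul (Equiv.Perm.Disjoint.commute (disj_of_subset (S := S) (P := P) ?_ ?_)) og otr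
    · exact support_mul_subset sg hz.sz
    · exact support_mul_subset ht sr
  have sx' : (x * p).support ⊆ S \ P := by
    rw [s1]; exact Finset.sdiff_subset_sdiff adm.sx le_rfl
  have sy' : (y * q).support ⊆ S \ P := by
    rw [s2]; exact Finset.sdiff_subset_sdiff adm.sy le_rfl
  refine ⟨?_, ?_, ?_, ?_, ?_⟩
  · rw [mul_assoc, ← mul_assoc r, (dzr.commute.eq).symm, mul_assoc z', hr, mul_one, hz.hz]
  · exact support_mul_subset (hz.sz.trans Finset.sdiff_subset) (sr.trans hPS)
  · rw [dzr.card_support_mul]; omega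
  · have h0 := key sp sx' hz.ox dzp o1
    rwa [m1] at h0
  · have h0 := key sq sy' hz.oy dzq o2
    rwa [m2] at h0

theorem odd_order_hom {G H : Type*} [Group G] [Group H] (φ : G →* H) {g : G} {k : ℕ}
    (hk : Odd k) (h : g ^ k = 1) : Odd (orderOf (φ g)) :=
  odd_order_of_pow hk (by rw [← map_pow, h, map_one])

theorem model {m : ℕ} {S : Finset α} {x y : Equiv.Perm α} (adm : Adm S x y)
    (f : Fin m → α) (hf : Function.Injective f) (hfS : ∀ i, f i ∈ S)
    (x₀ y₀ z₀ : Equiv.Perm (Fin m)) (hx₀ : x₀ * x₀ = 1) (hy₀ : y₀ * y₀ = 1) (hz₀ : z₀ * z₀ = 1)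
    (c1 : x₀.support.card = y₀.support.card) (c2 : z₀.support.card = x₀.support.card)
    (o1 : (x₀ * z₀) ^ 3 = 1) (o2 : (y₀ * z₀) ^ 3 = 1)
    (hx : ∀ i, x (f i) = f (x₀ i)) (hy : ∀ i, y (f i) = f (y₀ i)) :
    ∃ p q r : Equiv.Perm α, (∀ v, v ∉ Finset.univ.image f → p v = v ∧ q v = v) ∧
      Adm (S \ Finset.univ.image f) (x * p) (y * q) ∧
      ∀ z', Sol (S \ Finset.univ.image f) (x * p) (y * q) z' → Sol S x y (z' * r) := by
  classical
  let e : Fin m ≃ {v // v ∈ Set.range f} := Equiv.ofInjective f hf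
  let φ : Equiv.Perm (Fin m) →* Equiv.Perm α := Equiv.Perm.extendDomainHom e
  have φimg : ∀ (g : Equiv.Perm (Fin m)) (i : Fin m), φ g (f i) = f (g i) := by
    intro g i
    have := Equiv.Perm.extendDomain_apply_image g e i
    simpa [e, φ, Equiv.ofInjective] using this
  have φout : ∀ (g : Equiv.Perm (Fin m)) (v : α), v ∉ Finset.univ.image f → φ g v = v := by
    intro g v hv
    refine Equiv.Perm.extendDomain_apply_not_subtype g e ?_
    rintro ⟨i, rfl⟩
    exact hv (Finset.mem_image_of_mem _ (Finset.mem_univ _))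
  have φs : ∀ g, (φ g).support ⊆ Finset.univ.image f := by
    intro g v hv
    by_contra h
    exact (Equiv.Perm.mem_support.1 hv) (φout g v h)
  have φc : ∀ g, (φ g).support.card = g.support.card := by
    intro g
    exact Equiv.Perm.card_support_extend_domain e
  have φi : ∀ {g : Equiv.Perm (Fin m)}, g * g = 1 → φ g * φ g = 1 := by
    intro g h
    rw [← map_mul, h, map_one]
  have hall : Finset.univ.image f ⊆ S := by
    intro v hv
    obtain ⟨i, -, rfl⟩ := Finset.mem_image.1 hv
    exact hfS i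
  have agree : ∀ {w : Equiv.Perm α} {g : Equiv.Perm (Fin m)}, (∀ i, w (f i) = f (g i)) →
      ∀ v ∈ Finset.univ.image f, w v = φ g v := by
    intro w g h v hv
    obtain ⟨i, -, rfl⟩ := Finset.mem_image.1 hv
    rw [h, φimg]
  obtain ⟨h1, h2⟩ := piece (P := Finset.univ.image f) (p := φ x₀) (q := φ y₀) (r := φ z₀) adm
    (φi hx₀) (φi hy₀) (φi hz₀) (φs _) (φs _) (φs _) hall (agree hx) (agree hy)
    (by rw [φc, φc, c1]) (by rw [φc, φc, c2])
    (by rw [← map_mul]; exact odd_order_hom φ (by decide) o1)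
    (by rw [← map_mul]; exact odd_order_hom φ (by decide) o2)
  exact ⟨φ x₀, φ y₀, φ z₀, fun v hv => ⟨φout _ v hv, φout _ v hv⟩, h1, h2⟩

theorem bad_C2 {S : Finset α} {x y : Equiv.Perm α} (hx : x * x = 1) (hy : y * y = 1)
    (hb : Bad S x y) {u : α} (hu : u ∈ S) :
    ∃ b c d, C2 x y u b c d ∧ S = {u, b, c, d} := by
  obtain ⟨h4, sx, sy, hne⟩ := hb
  have mvx : ∀ v ∈ S, x v ≠ v := fun v hv => Equiv.Perm.mem_support.1 (sx ▸ hv)
  have mvy : ∀ v ∈ S, y v ≠ v := fun v hv => Equiv.Perm.mem_support.1 (sy ▸ hv)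
  have inx : ∀ v ∈ S, x v ∈ S := fun v hv =>
    sx ▸ Equiv.Perm.apply_mem_support.2 (sx ▸ hv)
  have iny : ∀ v ∈ S, y v ∈ S := fun v hv =>
    sy ▸ Equiv.Perm.apply_mem_support.2 (sy ▸ hv)
  have fxo : ∀ v, v ∉ S → x v = v := fun v hv => by
    by_contra h
    exact hv (sx ▸ Equiv.Perm.mem_support.2 h)
  have fyo : ∀ v, v ∉ S → y v = v := fun v hv => by
    by_contra h
    exact hv (sy ▸ Equiv.Perm.mem_support.2 h)
  obtain ⟨b, hb⟩ : ∃ b, x u = b := ⟨_, rfl⟩
  have bS : b ∈ S := hb ▸ inx u hu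
  have xb : x b = u := by rw [← hb]; exact inv_app hx u
  have hub : u ≠ b := fun e => mvx u hu (by rw [hb, e])
  obtain ⟨c, hc⟩ : ∃ c, y b = c := ⟨_, rfl⟩
  have cS : c ∈ S := hc ▸ iny b bS
  have yc : y c = b := by rw [← hc]; exact inv_app hy b
  have hbc : b ≠ c := fun e => mvy b bS (by rw [hc, e])
  have huc : u ≠ c := by
    intro e
    -- common edge: then x = y
    subst e
    apply hne
    have yu : y u = b := yc
    have hcard : (S \ {u, b}).card = 2 := by
      rw [Finset.card_sdiff_of_subset (by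
        intro v hv; simp only [Finset.mem_insert, Finset.mem_singleton] at hv
        rcases hv with rfl | rfl <;> assumption), h4, Finset.card_pair hub]
    obtain ⟨p, r, hpr, hE⟩ := Finset.card_eq_two.1 hcard
    have pm : p ∈ S \ {u, b} := by rw [hE]; simp
    have rm : r ∈ S \ {u, b} := by rw [hE]; simp
    simp only [Finset.mem_sdiff, Finset.mem_insert, Finset.mem_singleton, not_or] at pm rm
    have val : ∀ w : Equiv.Perm α, w * w = 1 → (∀ v ∈ S, w v ≠ v) → (∀ v ∈ S, w v ∈ S) →
        w u = b → w p = r ∧ w r = p := by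
      intro w hw mv inw wu
      have wb : w b = u := by rw [← wu]; exact inv_app hw u
      have key : ∀ v, v ∈ S → v ≠ u → v ≠ b → w v ≠ u ∧ w v ≠ b := by
        intro v _ h1 h2
        constructor
        · intro e; apply h2; rw [← inv_app hw v, e, wu]
        · intro e; apply h1; rw [← inv_app hw v, e, wb]
      have hp : w p ∈ S \ {u, b} := by
        have := key p pm.1 pm.2.1 pm.2.2
        simp only [Finset.mem_sdiff, Finset.mem_insert, Finset.mem_singleton, not_or]
        exact ⟨inw p pm.1, this⟩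
      rw [hE] at hp
      simp only [Finset.mem_insert, Finset.mem_singleton] at hp
      have wp : w p = r := by
        rcases hp with hp | hp
        · exact absurd hp (mv p pm.1)
        · exact hp
      exact ⟨wp, by rw [← wp]; exact inv_app hw p⟩
    obtain ⟨x1, x2⟩ := val x hx mvx inx hb
    obtain ⟨y1, y2⟩ := val y hy mvy iny yu
    ext v
    by_cases hv : v ∈ S
    · by_cases h1 : v = u
      · rw [h1, hb, yu]
      by_cases h2 : v = b
      · rw [h2, xb, hc]
      have : v ∈ S \ {u, b} := by simp [hv, h1, h2]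
      rw [hE] at this
      simp only [Finset.mem_insert, Finset.mem_singleton] at this
      rcases this with rfl | rfl
      · rw [x1, y1]
      · rw [x2, y2]
    · rw [fxo v hv, fyo v hv]
  obtain ⟨d, hd⟩ : ∃ d, x c = d := ⟨_, rfl⟩
  have dS : d ∈ S := hd ▸ inx c cS
  have xd : x d = c := by rw [← hd]; exact inv_app hx c
  have hcd : c ≠ d := fun e => mvx c cS (by rw [hd, e])
  have hud : u ≠ d := fun e => hbc (by rw [← hb, ← (show x c = u by rw [hd, e]), inv_app hx])
  have hbd : b ≠ d := fun e => huc (by rw [← xb, e, xd])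
  have hS : S = {u, b, c, d} := by
    symm
    apply Finset.eq_of_subset_of_card_le
    · intro v hv
      simp only [Finset.mem_insert, Finset.mem_singleton] at hv
      rcases hv with rfl | rfl | rfl | rfl <;> assumption
    · rw [h4]
      have : ({u, b, c, d} : Finset α).card = 4 := by
        rw [Finset.card_insert_of_notMem, Finset.card_insert_of_notMem, Finset.card_insert_of_notMem,
          Finset.card_singleton]
        · simpa using hcd
        · simp [hbc, hbd]
        · simp [hub, huc, hud]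
      omega
  have yd : y d = u := by
    have hm : y d ∈ ({u, b, c, d} : Finset α) := hS ▸ iny d dS
    simp only [Finset.mem_insert, Finset.mem_singleton] at hm
    rcases hm with h | h | h | h
    · exact h
    · exfalso; apply hcd; rw [← hc, ← h]; exact inv_app hy d
    · exfalso; apply hbd; rw [← yc, ← h]; exact inv_app hy d
    · exact absurd h (mvy d dS)
  exact ⟨b, c, d, ⟨hub, huc, hud, hbc, hbd, hcd, hb, hc, hd, yd⟩, hS⟩

def IHyp (S : Finset α) : Prop :=
  ∀ S' : Finset α, S'.card < S.card → ∀ x' y' : Equiv.Perm α, Adm S' x' y' → ¬ Bad S' x' y' →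
    ∃ z, Sol S' x' y' z

theorem model_solve {m : ℕ} {S : Finset α} {x y : Equiv.Perm α} (adm : Adm S x y) (hIH : IHyp S)
    (hno : ∀ a b c d, ¬ C2 x y a b c d) (hm : 0 < m)
    (f : Fin m → α) (hf : Function.Injective f) (hfS : ∀ i, f i ∈ S)
    (x₀ y₀ z₀ : Equiv.Perm (Fin m)) (hx₀ : x₀ * x₀ = 1) (hy₀ : y₀ * y₀ = 1) (hz₀ : z₀ * z₀ = 1)
    (c1 : x₀.support.card = y₀.support.card) (c2 : z₀.support.card = x₀.support.card)
    (o1 : (x₀ * z₀) ^ 3 = 1) (o2 : (y₀ * z₀) ^ 3 = 1)
    (hx : ∀ i, x (f i) = f (x₀ i)) (hy : ∀ i, y (f i) = f (y₀ i)) : ∃ z, Sol S x y z := by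
  obtain ⟨p, q, r, hout, hadm, hsol⟩ :=
    model adm f hf hfS x₀ y₀ z₀ hx₀ hy₀ hz₀ c1 c2 o1 o2 hx hy
  have hsub : Finset.univ.image f ⊆ S := by
    intro v hv
    obtain ⟨i, -, rfl⟩ := Finset.mem_image.1 hv
    exact hfS i
  have hcard : (S \ Finset.univ.image f).card < S.card :=
    Finset.card_lt_card (Finset.sdiff_ssubset hsub
      ⟨f ⟨0, hm⟩, Finset.mem_image_of_mem _ (Finset.mem_univ _)⟩)
  have hnb : ¬ Bad (S \ Finset.univ.image f) (x * p) (y * q) := by
    intro hb
    obtain ⟨u, hu⟩ : (S \ Finset.univ.image f).Nonempty :=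
      Finset.card_pos.1 (by rw [hb.1]; norm_num)
    obtain ⟨b', c', d', hC, hE⟩ := bad_C2 hadm.hx hadm.hy hb hu
    have hmem : ∀ v ∈ ({u, b', c', d'} : Finset α), v ∉ Finset.univ.image f := by
      intro v hv
      rw [← hE] at hv
      exact (Finset.mem_sdiff.1 hv).2
    have xv : ∀ v ∈ ({u, b', c', d'} : Finset α), (x * p) v = x v := by
      intro v hv
      rw [Equiv.Perm.mul_apply, (hout v (hmem v hv)).1]
    have yv : ∀ v ∈ ({u, b', c', d'} : Finset α), (y * q) v = y v := by
      intro v hv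
      rw [Equiv.Perm.mul_apply, (hout v (hmem v hv)).2]
    obtain ⟨h1, h2, h3, h4, h5, h6, h7, h8, h9, h10⟩ := hC
    refine hno u b' c' d' ⟨h1, h2, h3, h4, h5, h6, ?_, ?_, ?_, ?_⟩
    · rw [← xv u (by simp)]; exact h7
    · rw [← yv b' (by simp)]; exact h8
    · rw [← xv c' (by simp)]; exact h9
    · rw [← yv d' (by simp)]; exact h10
  obtain ⟨z', hz'⟩ := hIH _ hcard _ _ hadm hnb
  exact ⟨_, hsol z' hz'⟩

theorem model_all {m : ℕ} {S : Finset α} {x y : Equiv.Perm α} (adm : Adm S x y) (hIH : IHyp S)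
    (hm : 0 < m)
    (f : Fin m → α) (hf : Function.Injective f) (hfS : ∀ i, f i ∈ S)
    (hall : ∀ v ∈ S, ∃ i, f i = v)
    (x₀ y₀ z₀ : Equiv.Perm (Fin m)) (hx₀ : x₀ * x₀ = 1) (hy₀ : y₀ * y₀ = 1) (hz₀ : z₀ * z₀ = 1)
    (c1 : x₀.support.card = y₀.support.card) (c2 : z₀.support.card = x₀.support.card)
    (o1 : (x₀ * z₀) ^ 3 = 1) (o2 : (y₀ * z₀) ^ 3 = 1)
    (hx : ∀ i, x (f i) = f (x₀ i)) (hy : ∀ i, y (f i) = f (y₀ i)) : ∃ z, Sol S x y z := by
  obtain ⟨p, q, r, hout, hadm, hsol⟩ :=
    model adm f hf hfS x₀ y₀ z₀ hx₀ hy₀ hz₀ c1 c2 o1 o2 hx hy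
  have hsub : Finset.univ.image f ⊆ S := by
    intro v hv
    obtain ⟨i, -, rfl⟩ := Finset.mem_image.1 hv
    exact hfS i
  have hcard : (S \ Finset.univ.image f).card < S.card :=
    Finset.card_lt_card (Finset.sdiff_ssubset hsub
      ⟨f ⟨0, hm⟩, Finset.mem_image_of_mem _ (Finset.mem_univ _)⟩)
  have hempty : S \ Finset.univ.image f = ∅ := by
    rw [Finset.sdiff_eq_empty_iff_subset]
    intro v hv
    obtain ⟨i, rfl⟩ := hall v hv
    exact Finset.mem_image_of_mem _ (Finset.mem_univ _)
  have hnb : ¬ Bad (S \ Finset.univ.image f) (x * p) (y * q) := by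
    intro hb
    have := hb.1
    rw [hempty] at this
    simp at this
  obtain ⟨z', hz'⟩ := hIH _ hcard _ _ hadm hnb
  exact ⟨_, hsol z' hz'⟩

theorem two_swaps {a b c d : α} (hab : a ≠ b) (hac : a ≠ c) (had : a ≠ d) (hbc : b ≠ c)
    (hbd : b ≠ d) (hcd : c ≠ d) :
    (Equiv.swap a b * Equiv.swap c d) * (Equiv.swap a b * Equiv.swap c d) = 1 ∧
      (Equiv.swap a b * Equiv.swap c d).support.card = 4 ∧
      (Equiv.swap a b * Equiv.swap c d).support ⊆ {a, b, c, d} := by
  have hd : Equiv.Perm.Disjoint (Equiv.swap a b) (Equiv.swap c d) :=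
    Equiv.Perm.disjoint_swap_swap (by simp [*])
  refine ⟨?_, ?_, ?_⟩
  · rw [mul_assoc, ← mul_assoc (Equiv.swap c d), (hd.commute.eq).symm]
    simp [mul_assoc]
  · rw [hd.card_support_mul, Equiv.Perm.card_support_swap hab, Equiv.Perm.card_support_swap hcd]
  · apply support_mul_subset
    · rw [Equiv.Perm.support_swap hab]
      intro v hv
      simp only [Finset.mem_insert, Finset.mem_singleton] at hv ⊢
      tauto
    · rw [Equiv.Perm.support_swap hcd]
      intro v hv
      simp only [Finset.mem_insert, Finset.mem_singleton] at hv ⊢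
      tauto

theorem conj_invol {σ g : Equiv.Perm α} (hσ : σ * σ = 1) (hg : g * g = 1) :
    (σ * g * σ) * (σ * g * σ) = 1 := by
  have : (σ * g * σ) * (σ * g * σ) = σ * (g * (σ * σ) * g) * σ := by simp only [mul_assoc]
  rw [this, hσ, mul_one, hg, mul_one, hσ]

theorem order_conj_invol {σ : Equiv.Perm α} (hσ : σ * σ = 1) (g : Equiv.Perm α) :
    orderOf (σ * g * σ) = orderOf g := by
  have hinv : σ⁻¹ = σ := inv_eq_of_mul_eq_one_left hσ
  have := orderOf_injective (MulAut.conj σ).toMonoidHom (MulAut.conj σ).injective g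
  simpa [MulAut.conj_apply, hinv] using this

theorem card_conj_invol {σ : Equiv.Perm α} (hσ : σ * σ = 1) (g : Equiv.Perm α) :
    (σ * g * σ).support.card = g.support.card := by
  have hinv : σ⁻¹ = σ := inv_eq_of_mul_eq_one_left hσ
  have := Equiv.Perm.card_support_conj (σ := σ) (τ := g)
  rwa [hinv] at this

theorem swap_sq (a b : α) : Equiv.swap a b * Equiv.swap a b = 1 := by simp

/-- Facts about the modified involution. -/
theorem ins_props {S : Finset α} {z' : Equiv.Perm α} {u a b c d : α} (hz : z' * z' = 1)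
    (hab : a ≠ b) (hac : a ≠ c) (had : a ≠ d) (hbc : b ≠ c) (hbd : b ≠ d) (hcd : c ≠ d)
    (hua : u ≠ a) (hub : u ≠ b) (huc : u ≠ c) (hud : u ≠ d)
    (za : z' a = a) (zb : z' b = b) (zc : z' c = c) (zd : z' d = d)
    (uS : u ∈ S) (aS : a ∈ S) (bS : b ∈ S) (cS : c ∈ S) (dS : d ∈ S) (sz : z'.support ⊆ S) :
    Commute (Equiv.swap u d * z' * Equiv.swap u d) (Equiv.swap u a * Equiv.swap b c) ∧
      (Equiv.swap u d * z' * Equiv.swap u d * (Equiv.swap u a * Equiv.swap b c)) *
        (Equiv.swap u d * z' * Equiv.swap u d * (Equiv.swap u a * Equiv.swap b c)) = 1 ∧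
      (Equiv.swap u d * z' * Equiv.swap u d * (Equiv.swap u a * Equiv.swap b c)).support ⊆ S ∧
      (Equiv.swap u d * z' * Equiv.swap u d * (Equiv.swap u a * Equiv.swap b c)).support.card =
        z'.support.card + 4 := by
  obtain ⟨q1, q2, q3⟩ := two_swaps (a := u) (b := a) (c := b) (d := c) hua hub huc hab hac hbc
  set σ := Equiv.swap u d with hσdef
  set q := Equiv.swap u a * Equiv.swap b c with hq
  have hσ : σ * σ = 1 := swap_sq u d
  have ζu : (σ * z' * σ) u = u := by simp [hσdef, zd]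
  have ζa : (σ * z' * σ) a = a := by
    simp [hσdef, Equiv.swap_apply_of_ne_of_ne, hua.symm, had, za]
  have ζb : (σ * z' * σ) b = b := by
    simp [hσdef, Equiv.swap_apply_of_ne_of_ne, hub.symm, hbd, zb]
  have ζc : (σ * z' * σ) c = c := by
    simp [hσdef, Equiv.swap_apply_of_ne_of_ne, huc.symm, hcd, zc]
  have hdisj : Equiv.Perm.Disjoint (σ * z' * σ) q := by
    intro v
    by_cases hv : v ∈ ({u, a, b, c} : Finset α)
    · left
      simp only [Finset.mem_insert, Finset.mem_singleton] at hv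
      rcases hv with rfl | rfl | rfl | rfl <;> assumption
    · right
      by_contra h
      exact hv (q3 (Equiv.Perm.mem_support.2 h))
  have hζi : (σ * z' * σ) * (σ * z' * σ) = 1 := conj_invol hσ hz
  refine ⟨hdisj.commute, ?_, ?_, ?_⟩
  · rw [mul_assoc, ← mul_assoc q, (hdisj.commute.eq).symm, mul_assoc (σ * z' * σ), q1, mul_one, hζi]
  · apply support_mul_subset
    · intro v hv
      have hv' := Equiv.Perm.mem_support.1 hv
      have h1 : z' (σ v) ≠ σ v := by
        intro e
        apply hv'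
        rw [Equiv.Perm.mul_apply, Equiv.Perm.mul_apply, e, ← Equiv.Perm.mul_apply, hσ]
        rfl
      have h2 : σ v ∈ S := mem_of_moved sz h1
      by_cases e1 : v = u
      · rw [e1]; exact uS
      by_cases e2 : v = d
      · rw [e2]; exact dS
      rwa [hσdef, Equiv.swap_apply_of_ne_of_ne e1 e2] at h2
    · intro v hv
      have := q3 hv
      simp only [Finset.mem_insert, Finset.mem_singleton] at this
      rcases this with rfl | rfl | rfl | rfl <;> assumption
  · rw [hdisj.card_support_mul, card_conj_invol hσ, q2]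

theorem caseE_aux {S : Finset α} {x y : Equiv.Perm α} (adm : Adm S x y) {a b c d u : α}
    (hab : a ≠ b) (hac : a ≠ c) (had : a ≠ d) (hbc : b ≠ c) (hbd : b ≠ d) (hcd : c ≠ d)
    (hua : u ≠ a) (hub : u ≠ b) (huc : u ≠ c) (hud : u ≠ d)
    (xa : x a = b) (yb : y b = c) (xc : x c = d) (ya : y a = u) :
    ∃ x' y' : Equiv.Perm α,
      Adm (S \ {a, b, c, d}) x' y' ∧
      (∀ v, v ∉ ({a, b, c, d} : Finset α) → x' v = x v) ∧
      (∀ v, v ∉ ({a, b, c, d} : Finset α) → v ≠ u →
        y' v = Equiv.swap u d (y v)) ∧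
      y' u = Equiv.swap u d (y d) ∧
      ∀ z', Sol (S \ {a, b, c, d}) x' y' z' → ∃ z, Sol S x y z := by
  have xb : x b = a := by rw [← xa]; exact inv_app adm.hx a
  have xd : x d = c := by rw [← xc]; exact inv_app adm.hx c
  have yc : y c = b := by rw [← yb]; exact inv_app adm.hy b
  have yu : y u = a := by rw [← ya]; exact inv_app adm.hy a
  have aS : a ∈ S := mem_of_moved adm.sx (by rw [xa]; exact hab.symm)
  have bS : b ∈ S := mem_of_moved adm.sx (by rw [xb]; exact hab)
  have cS : c ∈ S := mem_of_moved adm.sx (by rw [xc]; exact hcd.symm)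
  have dS : d ∈ S := mem_of_moved adm.sx (by rw [xd]; exact hcd)
  have uS : u ∈ S := mem_of_moved adm.sy (by rw [yu]; exact hua.symm)
  obtain ⟨p1, p2, p3⟩ := two_swaps hab hac had hbc hbd hcd
  obtain ⟨q1, q2, q3⟩ := two_swaps (a := u) (b := a) (c := b) (d := c) hua hub huc hab hac hbc
  have hpa : ∀ v ∈ ({a, b, c, d} : Finset α), x v = (Equiv.swap a b * Equiv.swap c d) v := by
    intro v hv
    simp only [Finset.mem_insert, Finset.mem_singleton] at hv
    rcases hv with rfl | rfl | rfl | rfl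
    · simp [xa, Equiv.swap_apply_of_ne_of_ne, hac, had]
    · simp [xb, Equiv.swap_apply_of_ne_of_ne, hbc, hbd]
    · simp [xc, Equiv.swap_apply_of_ne_of_ne, hac.symm, hbc.symm, hcd, had.symm, hbd.symm]
    · simp [xd, Equiv.swap_apply_of_ne_of_ne, hac.symm, hbc.symm]
  have hqa : ∀ v ∈ ({u, a, b, c} : Finset α), y v = (Equiv.swap u a * Equiv.swap b c) v := by
    intro v hv
    simp only [Finset.mem_insert, Finset.mem_singleton] at hv
    rcases hv with rfl | rfl | rfl | rfl
    · simp [yu, Equiv.swap_apply_of_ne_of_ne, hub, huc]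
    · simp [ya, Equiv.swap_apply_of_ne_of_ne, hab, hac]
    · simp [yb, Equiv.swap_apply_of_ne_of_ne, hub.symm, hab.symm, huc.symm, hac.symm]
    · simp [yc, Equiv.swap_apply_of_ne_of_ne, hub.symm, hab.symm]
  obtain ⟨i1, s1, d1, k1, m1⟩ := split_perm adm.hx p1 p3 hpa
  obtain ⟨i2, s2, d2, k2, m2⟩ := split_perm adm.hy q1 q3 hqa
  set p := Equiv.swap a b * Equiv.swap c d with hp
  set q := Equiv.swap u a * Equiv.swap b c with hq
  set σ := Equiv.swap u d with hσdef
  have hσ : σ * σ = 1 := swap_sq u d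
  have qout : ∀ v, v ≠ u → v ≠ a → v ≠ b → v ≠ c → q v = v := by
    intro v h1 h2 h3 h4
    by_contra h
    have := q3 (Equiv.Perm.mem_support.2 h)
    simp only [Finset.mem_insert, Finset.mem_singleton] at this
    tauto
  have pout : ∀ v, v ∉ ({a, b, c, d} : Finset α) → p v = v := by
    intro v h1
    by_contra h
    exact h1 (p3 (Equiv.Perm.mem_support.2 h))
  have y0fix : ∀ v ∈ ({u, a, b, c} : Finset α), (y * q) v = v := by
    intro v hv
    rw [Equiv.Perm.mul_apply]
    have hqv : q v ∈ ({u, a, b, c} : Finset α) := by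
      by_cases h : q v = v
      · rwa [h]
      · exact q3 (Equiv.Perm.apply_mem_support.2 (Equiv.Perm.mem_support.2 h))
    rw [hqa _ hqv, inv_app q1]
  have y0d : (y * q) d = y d := by
    rw [Equiv.Perm.mul_apply, qout d hud.symm had.symm hbd.symm hcd.symm]
  refine ⟨x * p, σ * (y * q) * σ, ⟨i1, conj_invol hσ i2, ?_, ?_, ?_⟩, ?_, ?_, ?_, ?_⟩
  · rw [s1]; exact Finset.sdiff_subset_sdiff adm.sx le_rfl
  · -- support of y'
    intro v hv
    have hv' := Equiv.Perm.mem_support.1 hv
    rw [Equiv.Perm.mul_apply, Equiv.Perm.mul_apply] at hv'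
    simp only [Finset.mem_sdiff, Finset.mem_insert, Finset.mem_singleton, not_or]
    have va : v ≠ a := by
      rintro rfl
      apply hv'
      rw [hσdef, Equiv.swap_apply_of_ne_of_ne hua.symm had, y0fix _ (by simp),
        Equiv.swap_apply_of_ne_of_ne hua.symm had]
    have vb : v ≠ b := by
      rintro rfl
      apply hv'
      rw [hσdef, Equiv.swap_apply_of_ne_of_ne hub.symm hbd, y0fix _ (by simp),
        Equiv.swap_apply_of_ne_of_ne hub.symm hbd]
    have vc : v ≠ c := by
      rintro rfl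
      apply hv'
      rw [hσdef, Equiv.swap_apply_of_ne_of_ne huc.symm hcd, y0fix _ (by simp),
        Equiv.swap_apply_of_ne_of_ne huc.symm hcd]
    have vd : v ≠ d := by
      rintro rfl
      apply hv'
      rw [hσdef, Equiv.swap_apply_right, y0fix _ (by simp), Equiv.swap_apply_left]
    refine ⟨?_, va, vb, vc, vd⟩
    by_cases vu : v = u
    · rw [vu]; exact uS
    have hσv : σ v = v := Equiv.swap_apply_of_ne_of_ne vu vd
    rw [hσv] at hv'
    by_contra hvS
    apply hv'
    have : y v = v := fix_of_notMem adm.sy hvS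
    rw [Equiv.Perm.mul_apply, qout v vu va vb vc, this, hσv]
  · rw [card_conj_invol hσ]
    have := adm.card
    omega
  · intro v hv
    rw [Equiv.Perm.mul_apply, pout v hv]
  · intro v hv hvu
    simp only [Finset.mem_insert, Finset.mem_singleton, not_or] at hv
    rw [Equiv.Perm.mul_apply, Equiv.Perm.mul_apply,
      show σ v = v from Equiv.swap_apply_of_ne_of_ne hvu hv.2.2.2, Equiv.Perm.mul_apply,
      qout v hvu hv.1 hv.2.1 hv.2.2.1]
  · rw [Equiv.Perm.mul_apply, Equiv.Perm.mul_apply,
      show σ u = d from Equiv.swap_apply_left u d, y0d]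
  · intro z' hz'
    have hzz : ∀ v ∈ ({a, b, c, d} : Finset α), z' v = v := by
      intro v hv
      refine fix_of_notMem hz'.sz ?_
      simp [hv]
    obtain ⟨c1, c2, c3, c4⟩ := ins_props (S := S) hz'.hz hab hac had hbc hbd hcd hua hub huc hud
      (hzz a (by simp)) (hzz b (by simp)) (hzz c (by simp)) (hzz d (by simp)) uS aS bS cS dS
      (hz'.sz.trans Finset.sdiff_subset)
    refine ⟨_, c2, c3, ?_, ?_, ?_⟩
    · rw [c4, hz'.card]; omega
    · have hfix : ∀ v ∈ ({a, b, c, d} : Finset α), (x * p) v = v := by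
        intro v hv
        have : v ∉ (x * p).support := by
          rw [s1]; simp [hv]
        by_contra h
        exact this (Equiv.Perm.mem_support.2 h)
      have := ins_odd (x' := x * p) (z' := z') (u := u) (a := a) (b := b) (c := c) (d := d)
        hz'.hz hab hac had hbc hbd hcd hua hub huc hud
        (hfix a (by simp)) (hfix b (by simp)) (hfix c (by simp)) (hfix d (by simp))
        (hzz a (by simp)) (hzz b (by simp)) (hzz c (by simp)) (hzz d (by simp)) hz'.ox
      rwa [m1] at this
    · have e : y * (σ * z' * σ * q) = σ * ((σ * (y * q) * σ) * z') * σ := by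
        calc y * (σ * z' * σ * q) = (y * q) * q * (σ * z' * σ * q) := by rw [m2]
          _ = (y * q) * (q * (σ * z' * σ)) * q := by simp only [mul_assoc]
          _ = (y * q) * ((σ * z' * σ) * q) * q := by rw [(c1.eq).symm]
          _ = (y * q) * (σ * z' * σ) * (q * q) := by simp only [mul_assoc]
          _ = (y * q) * (σ * z' * σ) := by rw [q1, mul_one]
          _ = σ * (σ * (y * q) * σ * z') * σ := by
            have : σ * (σ * (y * q) * σ * z') * σ = (σ * σ) * (y * q) * (σ * z' * σ) := by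
              simp only [mul_assoc]
            rw [this, hσ, one_mul]
      rw [e, order_conj_invol hσ]
      exact hz'.oy

theorem inj_nodup {m : ℕ} (f : Fin m → α) (h : (List.ofFn f).Nodup) : Function.Injective f :=
  List.nodup_ofFn.1 h

def xOct : Equiv.Perm (Fin 8) :=
  Equiv.swap 0 1 * Equiv.swap 2 3 * Equiv.swap 4 5 * Equiv.swap 6 7
def yOct : Equiv.Perm (Fin 8) :=
  Equiv.swap 1 2 * Equiv.swap 3 4 * Equiv.swap 5 6 * Equiv.swap 7 0
def zOct : Equiv.Perm (Fin 8) :=
  Equiv.swap 0 1 * Equiv.swap 2 4 * Equiv.swap 3 7 * Equiv.swap 5 6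
def yCC : Equiv.Perm (Fin 8) :=
  Equiv.swap 1 2 * Equiv.swap 3 0 * Equiv.swap 5 6 * Equiv.swap 7 4
def xF44 : Equiv.Perm (Fin 8) :=
  Equiv.swap 0 1 * Equiv.swap 2 3 * Equiv.swap 5 6
def yF44 : Equiv.Perm (Fin 8) :=
  Equiv.swap 1 2 * Equiv.swap 4 5 * Equiv.swap 6 7
def zF44 : Equiv.Perm (Fin 8) :=
  Equiv.swap 0 1 * Equiv.swap 3 4 * Equiv.swap 6 7
def xF42 : Equiv.Perm (Fin 6) := Equiv.swap 0 1 * Equiv.swap 2 3
def yF42 : Equiv.Perm (Fin 6) := Equiv.swap 1 2 * Equiv.swap 4 5
def zF42 : Equiv.Perm (Fin 6) := Equiv.swap 0 1 * Equiv.swap 3 4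
def xF22 : Equiv.Perm (Fin 4) := Equiv.swap 0 1
def yF22 : Equiv.Perm (Fin 4) := Equiv.swap 2 3
def zF22 : Equiv.Perm (Fin 4) := Equiv.swap 0 2
def xP3 : Equiv.Perm (Fin 3) := Equiv.swap 0 1
def yP3 : Equiv.Perm (Fin 3) := Equiv.swap 1 2
def eP2 : Equiv.Perm (Fin 2) := Equiv.swap 0 1

set_option maxRecDepth 100000 in
theorem oct_facts : xOct * xOct = 1 ∧ yOct * yOct = 1 ∧ zOct * zOct = 1 ∧
    xOct.support.card = yOct.support.card ∧ zOct.support.card = xOct.support.card ∧
    (xOct * zOct) ^ 3 = 1 ∧ (yOct * zOct) ^ 3 = 1 := by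
  decide

set_option maxRecDepth 100000 in
theorem cc_facts : yCC * yCC = 1 ∧ xOct.support.card = yCC.support.card ∧
    (yCC * zOct) ^ 3 = 1 := by
  decide

set_option maxRecDepth 100000 in
theorem f44_facts : xF44 * xF44 = 1 ∧ yF44 * yF44 = 1 ∧ zF44 * zF44 = 1 ∧
    xF44.support.card = yF44.support.card ∧ zF44.support.card = xF44.support.card ∧
    (xF44 * zF44) ^ 3 = 1 ∧ (yF44 * zF44) ^ 3 = 1 := by
  decide

set_option maxRecDepth 100000 in
theorem f42_facts : xF42 * xF42 = 1 ∧ yF42 * yF42 = 1 ∧ zF42 * zF42 = 1 ∧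
    xF42.support.card = yF42.support.card ∧ zF42.support.card = xF42.support.card ∧
    (xF42 * zF42) ^ 3 = 1 ∧ (yF42 * zF42) ^ 3 = 1 := by
  decide

set_option maxRecDepth 100000 in
theorem f22_facts : xF22 * xF22 = 1 ∧ yF22 * yF22 = 1 ∧ zF22 * zF22 = 1 ∧
    xF22.support.card = yF22.support.card ∧ zF22.support.card = xF22.support.card ∧
    (xF22 * zF22) ^ 3 = 1 ∧ (yF22 * zF22) ^ 3 = 1 := by
  decide

set_option maxRecDepth 100000 in
theorem p3_facts : xP3 * xP3 = 1 ∧ yP3 * yP3 = 1 ∧
    xP3.support.card = yP3.support.card ∧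
    (xP3 * xP3) ^ 3 = 1 ∧ (yP3 * xP3) ^ 3 = 1 := by
  decide

set_option maxRecDepth 100000 in
theorem e2_facts : eP2 * eP2 = 1 ∧ (eP2 * eP2) ^ 3 = 1 := by
  decide

theorem caseE {S : Finset α} {x y : Equiv.Perm α} (adm : Adm S x y) (hIH : IHyp S) {a b c d u : α}
    (hab : a ≠ b) (hac : a ≠ c) (had : a ≠ d) (hbc : b ≠ c) (hbd : b ≠ d) (hcd : c ≠ d)
    (hua : u ≠ a) (hub : u ≠ b) (huc : u ≠ c) (hud : u ≠ d)
    (xa : x a = b) (yb : y b = c) (xc : x c = d) (ya : y a = u) :
    ∃ z, Sol S x y z := by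
  obtain ⟨x', y', hadm, hxv, hyv, hyu, hsol⟩ :=
    caseE_aux adm hab hac had hbc hbd hcd hua hub huc hud xa yb xc ya
  have xb : x b = a := by rw [← xa]; exact inv_app adm.hx a
  have xd : x d = c := by rw [← xc]; exact inv_app adm.hx c
  have yc : y c = b := by rw [← yb]; exact inv_app adm.hy b
  have yu : y u = a := by rw [← ya]; exact inv_app adm.hy a
  have aS : a ∈ S := mem_of_moved adm.sx (by rw [xa]; exact hab.symm)
  have bS : b ∈ S := mem_of_moved adm.sx (by rw [xb]; exact hab)
  have cS : c ∈ S := mem_of_moved adm.sx (by rw [xc]; exact hcd.symm)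
  have dS : d ∈ S := mem_of_moved adm.sx (by rw [xd]; exact hcd)
  have uS : u ∈ S := mem_of_moved adm.sy (by rw [yu]; exact hua.symm)
  have hcard : (S \ {a, b, c, d}).card < S.card :=
    Finset.card_lt_card (Finset.sdiff_ssubset (by
      intro v hv
      simp only [Finset.mem_insert, Finset.mem_singleton] at hv
      rcases hv with rfl | rfl | rfl | rfl <;> assumption) ⟨a, by simp⟩)
  by_cases hb : Bad (S \ {a, b, c, d}) x' y'
  · -- octagon
    have hu' : u ∈ S \ {a, b, c, d} := by
      simp [uS, hua, hub, huc, hud]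
    have hb' : Bad (S \ {a, b, c, d}) y' x' := ⟨hb.1, hb.2.2.1, hb.2.1, hb.2.2.2.symm⟩
    obtain ⟨t, k, l, ⟨h1, h2, h3, h4, h5, h6, h7, h8, h9, h10⟩, hE⟩ :=
      bad_C2 hadm.hy hadm.hx hb' hu'
    have tm : t ∈ S \ {a, b, c, d} := by rw [hE]; simp
    have km : k ∈ S \ {a, b, c, d} := by rw [hE]; simp
    have lm : l ∈ S \ {a, b, c, d} := by rw [hE]; simp
    simp only [Finset.mem_sdiff, Finset.mem_insert, Finset.mem_singleton, not_or] at tm km lm
    obtain ⟨tS, ta, tb, tc, td⟩ := tm
    obtain ⟨kS, ka, kb, kc, kd⟩ := km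
    obtain ⟨lS, la, lb, lc, ld⟩ := lm
    have ht : y d = t := by
      rw [hyu] at h7
      rw [← Equiv.swap_apply_self u d (y d), h7, Equiv.swap_apply_of_ne_of_ne (Ne.symm h1) td]
    have hxt : x t = k := by
      rw [← hxv t (by simp [ta, tb, tc, td])]; exact h8
    have hyk : y k = l := by
      have := hyv k (by simp [ka, kb, kc, kd]) (Ne.symm h2)
      rw [h9] at this
      rw [← Equiv.swap_apply_self u d (y k), ← this, Equiv.swap_apply_of_ne_of_ne (Ne.symm h3) ld]
    have hxl : x l = u := by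
      rw [← hxv l (by simp [la, lb, lc, ld])]; exact h10
    have hxk : x k = t := by rw [← hxt]; exact inv_app adm.hx t
    have hxu : x u = l := by rw [← hxl]; exact inv_app adm.hx l
    have hyt : y t = d := by rw [← ht]; exact inv_app adm.hy d
    have hyl : y l = k := by rw [← hyk]; exact inv_app adm.hy k
    obtain ⟨f1, f2, f3, f4, f5, f6, f7⟩ := oct_facts
    refine model_all adm hIH (by norm_num) ![a, b, c, d, t, k, l, u] ?_ ?_ ?_
      xOct yOct zOct f1 f2 f3 f4 f5 f6 f7 ?_ ?_
    · apply inj_nodup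
      have e : List.ofFn ![a, b, c, d, t, k, l, u] = [a, b, c, d, t, k, l, u] := rfl
      rw [e]
      simp only [List.nodup_cons, List.mem_cons, List.not_mem_nil, or_false, not_or,
        List.nodup_nil, not_false_eq_true, and_true]
      exact ⟨⟨hab, hac, had, Ne.symm ta, Ne.symm ka, Ne.symm la, hua.symm⟩,
        ⟨hbc, hbd, Ne.symm tb, Ne.symm kb, Ne.symm lb, hub.symm⟩,
        ⟨hcd, Ne.symm tc, Ne.symm kc, Ne.symm lc, huc.symm⟩,
        ⟨Ne.symm td, Ne.symm kd, Ne.symm ld, hud.symm⟩,
        ⟨h4, h5, h1.symm⟩, ⟨h6, h2.symm⟩, h3.symm⟩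
    · intro i; fin_cases i <;> first | exact aS | exact bS | exact cS | exact dS | exact tS | exact kS | exact lS | exact uS
    · intro v hv
      by_cases hv1 : v ∈ ({a, b, c, d} : Finset α)
      · simp only [Finset.mem_insert, Finset.mem_singleton] at hv1
        rcases hv1 with rfl | rfl | rfl | rfl
        · exact ⟨0, rfl⟩
        · exact ⟨1, rfl⟩
        · exact ⟨2, rfl⟩
        · exact ⟨3, rfl⟩
      · have : v ∈ S \ {a, b, c, d} := Finset.mem_sdiff.2 ⟨hv, hv1⟩
        rw [hE] at this
        simp only [Finset.mem_insert, Finset.mem_singleton] at this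
        rcases this with rfl | rfl | rfl | rfl
        · exact ⟨7, rfl⟩
        · exact ⟨4, rfl⟩
        · exact ⟨5, rfl⟩
        · exact ⟨6, rfl⟩
    · intro i; fin_cases i
      · exact xa
      · exact xb
      · exact xc
      · exact xd
      · exact hxt
      · exact hxk
      · exact hxl
      · exact hxu
    · intro i; fin_cases i
      · exact ya
      · exact yb
      · exact yc
      · exact ht
      · exact hyt
      · exact hyk
      · exact hyl
      · exact yu
  · obtain ⟨z', hz'⟩ := hIH _ hcard _ _ hadm hb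
    exact hsol z' hz'

theorem caseC {S : Finset α} {x y : Equiv.Perm α} (adm : Adm S x y) (hIH : IHyp S)
    (hnb : ¬ Bad S x y) {a b c d : α} (hC : C2 x y a b c d) : ∃ z, Sol S x y z := by
  obtain ⟨hab, hac, had, hbc, hbd, hcd, xa, yb, xc, yd⟩ := hC
  have xb : x b = a := by rw [← xa]; exact inv_app adm.hx a
  have xd : x d = c := by rw [← xc]; exact inv_app adm.hx c
  have yc : y c = b := by rw [← yb]; exact inv_app adm.hy b
  have ya : y a = d := by rw [← yd]; exact inv_app adm.hy d
  have aS : a ∈ S := mem_of_moved adm.sx (by rw [xa]; exact hab.symm)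
  have bS : b ∈ S := mem_of_moved adm.sx (by rw [xb]; exact hab)
  have cS : c ∈ S := mem_of_moved adm.sx (by rw [xc]; exact hcd.symm)
  have dS : d ∈ S := mem_of_moved adm.sx (by rw [xd]; exact hcd)
  have hPS : ({a, b, c, d} : Finset α) ⊆ S := by
    intro v hv
    simp only [Finset.mem_insert, Finset.mem_singleton] at hv
    rcases hv with rfl | rfl | rfl | rfl <;> assumption
  obtain ⟨p1, p2, p3⟩ := two_swaps hab hac had hbc hbd hcd
  obtain ⟨q1, q2, q3'⟩ := two_swaps (a := a) (b := d) (c := b) (d := c) had hab hac hbd.symm hcd.symm hbc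
  have q3 : (Equiv.swap a d * Equiv.swap b c).support ⊆ ({a, b, c, d} : Finset α) := by
    refine q3'.trans ?_
    intro v hv
    simp only [Finset.mem_insert, Finset.mem_singleton] at hv ⊢
    tauto
  have hpa : ∀ v ∈ ({a, b, c, d} : Finset α), x v = (Equiv.swap a b * Equiv.swap c d) v := by
    intro v hv
    simp only [Finset.mem_insert, Finset.mem_singleton] at hv
    rcases hv with rfl | rfl | rfl | rfl
    · simp [xa, Equiv.swap_apply_of_ne_of_ne, hac, had]
    · simp [xb, Equiv.swap_apply_of_ne_of_ne, hbc, hbd]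
    · simp [xc, Equiv.swap_apply_of_ne_of_ne, hac.symm, hbc.symm, hcd, had.symm, hbd.symm]
    · simp [xd, Equiv.swap_apply_of_ne_of_ne, hac.symm, hbc.symm]
  have hqa : ∀ v ∈ ({a, b, c, d} : Finset α), y v = (Equiv.swap a d * Equiv.swap b c) v := by
    intro v hv
    simp only [Finset.mem_insert, Finset.mem_singleton] at hv
    rcases hv with rfl | rfl | rfl | rfl
    · simp [ya, Equiv.swap_apply_of_ne_of_ne, hab, hac]
    · simp [yb, Equiv.swap_apply_of_ne_of_ne, hab.symm, hbd, hac.symm, hcd]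
    · simp [yc, Equiv.swap_apply_of_ne_of_ne, hac.symm, hcd, hab.symm, hbd]
    · simp [yd, Equiv.swap_apply_of_ne_of_ne, hbd.symm, hcd.symm]
  obtain ⟨i1, s1, d1, k1, m1⟩ := split_perm adm.hx p1 p3 hpa
  obtain ⟨i2, s2, d2, k2, m2⟩ := split_perm adm.hy q1 q3 hqa
  have hadm : Adm (S \ {a, b, c, d}) (x * (Equiv.swap a b * Equiv.swap c d))
      (y * (Equiv.swap a d * Equiv.swap b c)) := by
    refine ⟨i1, i2, ?_, ?_, ?_⟩
    · rw [s1]; exact Finset.sdiff_subset_sdiff adm.sx le_rfl
    · rw [s2]; exact Finset.sdiff_subset_sdiff adm.sy le_rfl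
    · have := adm.card
      omega
  have hcard : (S \ {a, b, c, d}).card < S.card :=
    Finset.card_lt_card (Finset.sdiff_ssubset hPS ⟨a, by simp⟩)
  rcases (S \ {a, b, c, d}).eq_empty_or_nonempty with hE | ⟨u, hu⟩
  · -- S is the four points: the excluded configuration
    exfalso
    apply hnb
    have hS : S = {a, b, c, d} :=
      Finset.Subset.antisymm (Finset.sdiff_eq_empty_iff_subset.1 hE) hPS
    have mv : ∀ (w : Equiv.Perm α), w a ≠ a → w b ≠ b → w c ≠ c → w d ≠ d → w.support ⊆ S →
        w.support = S := by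
      intro w h1 h2 h3 h4 h5
      refine Finset.Subset.antisymm h5 ?_
      rw [hS]
      intro v hv
      simp only [Finset.mem_insert, Finset.mem_singleton] at hv
      rcases hv with rfl | rfl | rfl | rfl <;> exact Equiv.Perm.mem_support.2 (by assumption)
    refine ⟨?_, ?_, ?_, ?_⟩
    · rw [hS, Finset.card_insert_of_notMem, Finset.card_insert_of_notMem,
        Finset.card_insert_of_notMem, Finset.card_singleton]
      · simpa using hcd
      · simp [hbc, hbd]
      · simp [hab, hac, had]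
    · exact mv x (by rw [xa]; exact hab.symm) (by rw [xb]; exact hab) (by rw [xc]; exact hcd.symm)
        (by rw [xd]; exact hcd) adm.sx
    · exact mv y (by rw [ya]; exact had.symm) (by rw [yb]; exact hbc.symm) (by rw [yc]; exact hbc)
        (by rw [yd]; exact had) adm.sy
    · intro e
      apply hbd
      rw [← xa, e, ya]
  have um := hu
  simp only [Finset.mem_sdiff, Finset.mem_insert, Finset.mem_singleton, not_or] at um
  obtain ⟨uS, hua, hub, huc, hud⟩ := um
  have hxv : ∀ v, v ∉ ({a, b, c, d} : Finset α) →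
      (x * (Equiv.swap a b * Equiv.swap c d)) v = x v := by
    intro v hv
    have : (Equiv.swap a b * Equiv.swap c d) v = v := by
      by_contra h
      exact hv (p3 (Equiv.Perm.mem_support.2 h))
    rw [Equiv.Perm.mul_apply, this]
  have hyv : ∀ v, v ∉ ({a, b, c, d} : Finset α) →
      (y * (Equiv.swap a d * Equiv.swap b c)) v = y v := by
    intro v hv
    have : (Equiv.swap a d * Equiv.swap b c) v = v := by
      by_contra h
      exact hv (q3 (Equiv.Perm.mem_support.2 h))
    rw [Equiv.Perm.mul_apply, this]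
  by_cases hb : Bad (S \ {a, b, c, d}) (x * (Equiv.swap a b * Equiv.swap c d))
      (y * (Equiv.swap a d * Equiv.swap b c))
  · obtain ⟨t, k, l, ⟨h1, h2, h3, h4, h5, h6, h7, h8, h9, h10⟩, hE⟩ :=
      bad_C2 hadm.hx hadm.hy hb hu
    have tm : t ∈ S \ {a, b, c, d} := by rw [hE]; simp
    have km : k ∈ S \ {a, b, c, d} := by rw [hE]; simp
    have lm : l ∈ S \ {a, b, c, d} := by rw [hE]; simp
    have tn := (Finset.mem_sdiff.1 tm).2
    have kn := (Finset.mem_sdiff.1 km).2
    have ln := (Finset.mem_sdiff.1 lm).2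
    have un := (Finset.mem_sdiff.1 hu).2
    rw [hxv u un] at h7
    rw [hyv t tn] at h8
    rw [hxv k kn] at h9
    rw [hyv l ln] at h10
    simp only [Finset.mem_sdiff, Finset.mem_insert, Finset.mem_singleton, not_or] at tm km lm
    obtain ⟨tS, ta, tb, tc, td⟩ := tm
    obtain ⟨kS, ka, kb, kc, kd⟩ := km
    obtain ⟨lS, la, lb, lc, ld⟩ := lm
    have hxt : x t = u := by rw [← h7]; exact inv_app adm.hx u
    have hxl : x l = k := by rw [← h9]; exact inv_app adm.hx k
    have hyk : y k = t := by rw [← h8]; exact inv_app adm.hy t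
    have hyu : y u = l := by rw [← h10]; exact inv_app adm.hy l
    obtain ⟨f1, f2, f3, f4, f5, f6, f7⟩ := oct_facts
    obtain ⟨g1, g2, g3⟩ := cc_facts
    refine model_all adm hIH (by norm_num) ![a, b, c, d, u, t, k, l] ?_ ?_ ?_
      xOct yCC zOct f1 g1 f3 g2 f5 f6 g3 ?_ ?_
    · apply inj_nodup
      have e : List.ofFn ![a, b, c, d, u, t, k, l] = [a, b, c, d, u, t, k, l] := rfl
      rw [e]
      simp only [List.nodup_cons, List.mem_cons, List.not_mem_nil, or_false, not_or,
        List.nodup_nil, not_false_eq_true, and_true]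
      exact ⟨⟨hab, hac, had, Ne.symm hua, Ne.symm ta, Ne.symm ka, Ne.symm la⟩,
        ⟨hbc, hbd, Ne.symm hub, Ne.symm tb, Ne.symm kb, Ne.symm lb⟩,
        ⟨hcd, Ne.symm huc, Ne.symm tc, Ne.symm kc, Ne.symm lc⟩,
        ⟨Ne.symm hud, Ne.symm td, Ne.symm kd, Ne.symm ld⟩,
        ⟨h1, h2, h3⟩, ⟨h4, h5⟩, h6⟩
    · intro i; fin_cases i <;> first | exact aS | exact bS | exact cS | exact dS | exact tS | exact kS | exact lS | exact uS
    · intro v hv
      by_cases hv1 : v ∈ ({a, b, c, d} : Finset α)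
      · simp only [Finset.mem_insert, Finset.mem_singleton] at hv1
        rcases hv1 with rfl | rfl | rfl | rfl
        · exact ⟨0, rfl⟩
        · exact ⟨1, rfl⟩
        · exact ⟨2, rfl⟩
        · exact ⟨3, rfl⟩
      · have : v ∈ S \ {a, b, c, d} := Finset.mem_sdiff.2 ⟨hv, hv1⟩
        rw [hE] at this
        simp only [Finset.mem_insert, Finset.mem_singleton] at this
        rcases this with rfl | rfl | rfl | rfl
        · exact ⟨4, rfl⟩
        · exact ⟨5, rfl⟩
        · exact ⟨6, rfl⟩
        · exact ⟨7, rfl⟩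
    · intro i; fin_cases i
      · exact xa
      · exact xb
      · exact xc
      · exact xd
      · exact h7
      · exact hxt
      · exact h9
      · exact hxl
    · intro i; fin_cases i
      · exact ya
      · exact yb
      · exact yc
      · exact yd
      · exact hyu
      · exact h8
      · exact hyk
      · exact h10
  · obtain ⟨z', hz'⟩ := hIH _ hcard _ _ hadm hb
    have hzz : ∀ v ∈ ({a, b, c, d} : Finset α), z' v = v := by
      intro v hv
      refine fix_of_notMem hz'.sz ?_
      simp [hv]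
    obtain ⟨c1, c2, c3, c4⟩ := ins_props (S := S) (u := u) (a := a) (b := b) (c := d) (d := c)
      hz'.hz hab had hac hbd hbc hcd.symm hua hub hud huc
      (hzz a (by simp)) (hzz b (by simp)) (hzz d (by simp)) (hzz c (by simp)) uS aS bS dS cS
      (hz'.sz.trans Finset.sdiff_subset)
    have hfix1 : ∀ v ∈ ({a, b, c, d} : Finset α), (x * (Equiv.swap a b * Equiv.swap c d)) v = v := by
      intro v hv
      have : v ∉ (x * (Equiv.swap a b * Equiv.swap c d)).support := by
        rw [s1]; simp [hv]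
      by_contra h
      exact this (Equiv.Perm.mem_support.2 h)
    have hfix2 : ∀ v ∈ ({a, b, c, d} : Finset α), (y * (Equiv.swap a d * Equiv.swap b c)) v = v := by
      intro v hv
      have : v ∉ (y * (Equiv.swap a d * Equiv.swap b c)).support := by
        rw [s2]; simp [hv]
      by_contra h
      exact this (Equiv.Perm.mem_support.2 h)
    refine ⟨_, c2, c3, ?_, ?_, ?_⟩
    · rw [c4, hz'.card]; omega
    · have := ins_odd (x' := x * (Equiv.swap a b * Equiv.swap c d)) (z' := z') (u := u)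
        (a := a) (b := b) (c := d) (d := c)
        hz'.hz hab had hac hbd hbc hcd.symm hua hub hud huc
        (hfix1 a (by simp)) (hfix1 b (by simp)) (hfix1 d (by simp)) (hfix1 c (by simp))
        (hzz a (by simp)) (hzz b (by simp)) (hzz d (by simp)) (hzz c (by simp)) hz'.ox
      rw [Equiv.swap_comm d c, m1] at this
      exact this
    · have := ins_odd (x' := y * (Equiv.swap a d * Equiv.swap b c)) (z' := z') (u := u)
        (a := a) (b := d) (c := b) (d := c)
        hz'.hz had hab hac hbd.symm hcd.symm hbc hua hud hub huc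
        (hfix2 a (by simp)) (hfix2 d (by simp)) (hfix2 b (by simp)) (hfix2 c (by simp))
        (hzz a (by simp)) (hzz d (by simp)) (hzz b (by simp)) (hzz c (by simp)) hz'.oy
      rw [m2, Equiv.swap_comm d b] at this
      exact this

def X4 (x y : Equiv.Perm α) (a b c d : α) : Prop :=
  a ≠ b ∧ a ≠ c ∧ a ≠ d ∧ b ≠ c ∧ b ≠ d ∧ c ≠ d ∧ x a = b ∧ y b = c ∧ x c = d ∧ y a = a ∧ y d = d

theorem classify {S : Finset α} {x y : Equiv.Perm α} (adm : Adm S x y) (hIH : IHyp S)
    (hno : ∀ a b c d, ¬ C2 x y a b c d) {a : α} (ya : y a = a) (hxa : x a ≠ a) :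
    (∃ z, Sol S x y z) ∨ y (x a) = x a ∨ ∃ c d, X4 x y a (x a) c d := by
  obtain ⟨b, xa⟩ : ∃ b, x a = b := ⟨_, rfl⟩
  rw [xa] at hxa ⊢
  have hab : a ≠ b := Ne.symm hxa
  have xb : x b = a := by rw [← xa]; exact inv_app adm.hx a
  by_cases yb' : y b = b
  · exact Or.inr (Or.inl yb')
  obtain ⟨c, yb⟩ : ∃ c, y b = c := ⟨_, rfl⟩
  have hbc : b ≠ c := fun e => yb' (by rw [yb, e])
  have yc : y c = b := by rw [← yb]; exact inv_app adm.hy b
  have hac : a ≠ c := by
    rintro rfl
    exact hab (by rw [← yc, ya])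
  have aS : a ∈ S := mem_of_moved adm.sx (by rw [xa]; exact hab.symm)
  have bS : b ∈ S := mem_of_moved adm.sx (by rw [xb]; exact hab)
  have cS : c ∈ S := mem_of_moved adm.sy (by rw [yc]; exact hbc)
  by_cases xc' : x c = c
  · left
    obtain ⟨f1, f2, f3, f4, f5⟩ := p3_facts
    refine model_solve adm hIH hno (by norm_num) ![a, b, c] ?_ ?_
      xP3 yP3 xP3 f1 f2 f1 f3 rfl f4 f5 ?_ ?_
    · apply inj_nodup
      have e : List.ofFn ![a, b, c] = [a, b, c] := rfl
      rw [e]
      simp only [List.nodup_cons, List.mem_cons, List.not_mem_nil, or_false, not_or,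
        List.nodup_nil, not_false_eq_true, and_true]
      exact ⟨⟨hab, hac⟩, hbc⟩
    · intro i; fin_cases i <;> first | exact aS | exact bS | exact cS
    · intro i; fin_cases i
      · exact xa
      · exact xb
      · exact xc'
    · intro i; fin_cases i
      · exact ya
      · exact yb
      · exact yc
  obtain ⟨d, xc⟩ : ∃ d, x c = d := ⟨_, rfl⟩
  have hcd : c ≠ d := fun e => xc' (by rw [xc, e])
  have xd : x d = c := by rw [← xc]; exact inv_app adm.hx c
  have had : a ≠ d := by
    rintro rfl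
    exact hbc (by rw [← xa, xd])
  have hbd : b ≠ d := by
    rintro rfl
    exact hac (by rw [← xb, xd])
  by_cases yd : y d = d
  · exact Or.inr (Or.inr ⟨c, d, hab, hac, had, hbc, hbd, hcd, xa, yb, xc, ya, yd⟩)
  left
  refine caseE (a := d) (b := c) (c := b) (d := a) (u := y d) adm hIH hcd.symm hbd.symm had.symm
    hbc.symm hac.symm hab.symm yd ?_ ?_ ?_ xd yc xb rfl
  · intro e
    exact hbd (by rw [← yc, ← e, inv_app adm.hy])
  · intro e
    exact hcd (by rw [← yb, ← e, inv_app adm.hy])
  · intro e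
    exact had (by rw [← ya, ← e, inv_app adm.hy])

theorem pair22 {S : Finset α} {x y : Equiv.Perm α} (adm : Adm S x y) (hIH : IHyp S)
    (hno : ∀ a b c d, ¬ C2 x y a b c d) {a e : α} (ya : y a = a) (hxa : x a ≠ a)
    (yb : y (x a) = x a) (xe : x e = e) (hye : y e ≠ e) (xf : x (y e) = y e) :
    ∃ z, Sol S x y z := by
  obtain ⟨b, xa⟩ : ∃ b, x a = b := ⟨_, rfl⟩
  obtain ⟨f, ye⟩ : ∃ f, y e = f := ⟨_, rfl⟩
  rw [xa] at hxa yb
  rw [ye] at hye xf
  have xb : x b = a := by rw [← xa]; exact inv_app adm.hx a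
  have yf : y f = e := by rw [← ye]; exact inv_app adm.hy e
  have hab : a ≠ b := Ne.symm hxa
  have hef : e ≠ f := Ne.symm hye
  have hae : a ≠ e := by rintro rfl; exact hab (by rw [← xa, xe])
  have haf : a ≠ f := by rintro rfl; exact hab (by rw [← xa, xf])
  have hbe : b ≠ e := by rintro rfl; exact hab (by rw [← xb, xe])
  have hbf : b ≠ f := by rintro rfl; exact hab (by rw [← xb, xf])
  have aS : a ∈ S := mem_of_moved adm.sx (by rw [xa]; exact hab.symm)
  have bS : b ∈ S := mem_of_moved adm.sx (by rw [xb]; exact hab)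
  have eS : e ∈ S := mem_of_moved adm.sy (by rw [ye]; exact hef.symm)
  have fS : f ∈ S := mem_of_moved adm.sy (by rw [yf]; exact hef)
  obtain ⟨f1, f2, f3, f4, f5, f6, f7⟩ := f22_facts
  refine model_solve adm hIH hno (by norm_num) ![a, b, e, f] ?_ ?_
    xF22 yF22 zF22 f1 f2 f3 f4 f5 f6 f7 ?_ ?_
  · apply inj_nodup
    have e' : List.ofFn ![a, b, e, f] = [a, b, e, f] := rfl
    rw [e']
    simp only [List.nodup_cons, List.mem_cons, List.not_mem_nil, or_false, not_or,
      List.nodup_nil, not_false_eq_true, and_true]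
    exact ⟨⟨hab, hae, haf⟩, ⟨hbe, hbf⟩, hef⟩
  · intro i; fin_cases i <;> first | exact aS | exact bS | exact eS | exact fS
  · intro i; fin_cases i
    · exact xa
    · exact xb
    · exact xe
    · exact xf
  · intro i; fin_cases i
    · exact ya
    · exact yb
    · exact ye
    · exact yf

theorem pair42 {S : Finset α} {x y : Equiv.Perm α} (adm : Adm S x y) (hIH : IHyp S)
    (hno : ∀ a b c d, ¬ C2 x y a b c d) {a b c d e : α} (hX : X4 x y a b c d)
    (xe : x e = e) (hye : y e ≠ e) (xf : x (y e) = y e) :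
    ∃ z, Sol S x y z := by
  obtain ⟨hab, hac, had, hbc, hbd, hcd, xa, yb, xc, ya, yd⟩ := hX
  obtain ⟨f, ye⟩ : ∃ f, y e = f := ⟨_, rfl⟩
  rw [ye] at hye xf
  have xb : x b = a := by rw [← xa]; exact inv_app adm.hx a
  have xd : x d = c := by rw [← xc]; exact inv_app adm.hx c
  have yc : y c = b := by rw [← yb]; exact inv_app adm.hy b
  have yf : y f = e := by rw [← ye]; exact inv_app adm.hy e
  have hef : e ≠ f := Ne.symm hye
  have hfix : ∀ {v w : α}, x w = w → x v ≠ v → v ≠ w := by
    rintro v w h1 h2 rfl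
    exact h2 h1
  have ma : x a ≠ a := by rw [xa]; exact hab.symm
  have mb : x b ≠ b := by rw [xb]; exact hab
  have mc : x c ≠ c := by rw [xc]; exact hcd.symm
  have md : x d ≠ d := by rw [xd]; exact hcd
  have aS : a ∈ S := mem_of_moved adm.sx ma
  have bS : b ∈ S := mem_of_moved adm.sx mb
  have cS : c ∈ S := mem_of_moved adm.sx mc
  have dS : d ∈ S := mem_of_moved adm.sx md
  have eS : e ∈ S := mem_of_moved adm.sy (by rw [ye]; exact hef.symm)
  have fS : f ∈ S := mem_of_moved adm.sy (by rw [yf]; exact hef)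
  obtain ⟨f1, f2, f3, f4, f5, f6, f7⟩ := f42_facts
  refine model_solve adm hIH hno (by norm_num) ![a, b, c, d, e, f] ?_ ?_
    xF42 yF42 zF42 f1 f2 f3 f4 f5 f6 f7 ?_ ?_
  · apply inj_nodup
    have e' : List.ofFn ![a, b, c, d, e, f] = [a, b, c, d, e, f] := rfl
    rw [e']
    simp only [List.nodup_cons, List.mem_cons, List.not_mem_nil, or_false, not_or,
      List.nodup_nil, not_false_eq_true, and_true]
    exact ⟨⟨hab, hac, had, hfix xe ma, hfix xf ma⟩, ⟨hbc, hbd, hfix xe mb, hfix xf mb⟩,
      ⟨hcd, hfix xe mc, hfix xf mc⟩, ⟨hfix xe md, hfix xf md⟩, hef⟩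
  · intro i; fin_cases i <;> first | exact aS | exact bS | exact cS | exact dS | exact eS | exact fS
  · intro i; fin_cases i
    · exact xa
    · exact xb
    · exact xc
    · exact xd
    · exact xe
    · exact xf
  · intro i; fin_cases i
    · exact ya
    · exact yb
    · exact yc
    · exact yd
    · exact ye
    · exact yf

theorem pair44 {S : Finset α} {x y : Equiv.Perm α} (adm : Adm S x y) (hIH : IHyp S)
    (hno : ∀ a b c d, ¬ C2 x y a b c d) {a b c d e f g h : α} (hX : X4 x y a b c d)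
    (hY : X4 y x e f g h) : ∃ z, Sol S x y z := by
  obtain ⟨hab, hac, had, hbc, hbd, hcd, xa, yb, xc, ya, yd⟩ := hX
  obtain ⟨hef, heg, heh, hfg, hfh, hgh, ye, xf, yg, xe, xh⟩ := hY
  have xb : x b = a := by rw [← xa]; exact inv_app adm.hx a
  have xd : x d = c := by rw [← xc]; exact inv_app adm.hx c
  have yc : y c = b := by rw [← yb]; exact inv_app adm.hy b
  have yf : y f = e := by rw [← ye]; exact inv_app adm.hy e
  have xg : x g = f := by rw [← xf]; exact inv_app adm.hx f
  have yh : y h = g := by rw [← yg]; exact inv_app adm.hy g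
  have hfix : ∀ {v w : α}, x w = w → x v ≠ v → v ≠ w := by
    rintro v w h1 h2 rfl
    exact h2 h1
  have hfiy : ∀ {v w : α}, y w = w → y v ≠ v → w ≠ v := by
    rintro v w h1 h2 rfl
    exact h2 h1
  have ma : x a ≠ a := by rw [xa]; exact hab.symm
  have mb : x b ≠ b := by rw [xb]; exact hab
  have mc : x c ≠ c := by rw [xc]; exact hcd.symm
  have md : x d ≠ d := by rw [xd]; exact hcd
  have mf : y f ≠ f := by rw [yf]; exact hef
  have mg : y g ≠ g := by rw [yg]; exact hgh.symm
  have me : y e ≠ e := by rw [ye]; exact hef.symm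
  have mh : y h ≠ h := by rw [yh]; exact hgh
  have mf' : x f ≠ f := by rw [xf]; exact hfg.symm
  have mg' : x g ≠ g := by rw [xg]; exact hfg
  have hbf : b ≠ f := by
    rintro rfl
    exact hfix xe mc (by rw [← yb, yf])
  have hbg : b ≠ g := by
    rintro rfl
    exact hfix xh mc (by rw [← yb, yg])
  have hcf : c ≠ f := by
    rintro rfl
    exact hfix xe mb (by rw [← yc, yf])
  have hcg : c ≠ g := by
    rintro rfl
    exact hfix xh mb (by rw [← yc, yg])
  obtain ⟨f1, f2, f3, f4, f5, f6, f7⟩ := f44_facts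
  refine model_solve adm hIH hno (by norm_num) ![a, b, c, d, e, f, g, h] ?_ ?_
    xF44 yF44 zF44 f1 f2 f3 f4 f5 f6 f7 ?_ ?_
  · apply inj_nodup
    have e' : List.ofFn ![a, b, c, d, e, f, g, h] = [a, b, c, d, e, f, g, h] := rfl
    rw [e']
    simp only [List.nodup_cons, List.mem_cons, List.not_mem_nil, or_false, not_or,
      List.nodup_nil, not_false_eq_true, and_true]
    exact ⟨⟨hab, hac, had, hfix xe ma, hfiy ya mf, hfiy ya mg, hfix xh ma⟩,
      ⟨hbc, hbd, hfix xe mb, hbf, hbg, hfix xh mb⟩,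
      ⟨hcd, hfix xe mc, hcf, hcg, hfix xh mc⟩,
      ⟨hfix xe md, hfiy yd mf, hfiy yd mg, hfix xh md⟩,
      ⟨hef, heg, heh⟩, ⟨hfg, hfh⟩, hgh⟩
  · intro i; fin_cases i
    · exact mem_of_moved adm.sx ma
    · exact mem_of_moved adm.sx mb
    · exact mem_of_moved adm.sx mc
    · exact mem_of_moved adm.sx md
    · exact mem_of_moved adm.sy me
    · exact mem_of_moved adm.sy mf
    · exact mem_of_moved adm.sy mg
    · exact mem_of_moved adm.sy mh
  · intro i; fin_cases i
    · exact xa
    · exact xb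
    · exact xc
    · exact xd
    · exact xe
    · exact xf
    · exact xg
    · exact xh
  · intro i; fin_cases i
    · exact ya
    · exact yb
    · exact yc
    · exact yd
    · exact ye
    · exact yf
    · exact yg
    · exact yh

theorem main_aux : ∀ (k : ℕ) (S : Finset α), S.card = k → ∀ x y : Equiv.Perm α, Adm S x y →
    ¬ Bad S x y → ∃ z, Sol S x y z := by
  intro k
  induction k using Nat.strong_induction_on with
  | _ k ih =>
  intro S hS x y adm hnb
  have hIH : IHyp S := fun S' hc x' y' a nb => ih _ (hS ▸ hc) S' rfl x' y' a nb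
  by_cases hC : ∃ a b c d, C2 x y a b c d
  · obtain ⟨a, b, c, d, h⟩ := hC
    exact caseC adm hIH hnb h
  have hno : ∀ a b c d, ¬ C2 x y a b c d := fun a b c d h => hC ⟨a, b, c, d, h⟩
  have hno' : ∀ a b c d, ¬ C2 y x a b c d := by
    rintro a b c d ⟨h1, h2, h3, h4, h5, h6, h7, h8, h9, h10⟩
    exact hno b c d a ⟨h4, h5, h1.symm, h6, h2.symm, h3.symm, h8, h9, h10, h7⟩
  by_cases hA : ∃ v ∈ S, x v = v ∧ y v = v
  · obtain ⟨v, hv, h1, h2⟩ := hA
    refine model_solve adm hIH hno (m := 1) (by norm_num) ![v] ?_ ?_ 1 1 1 (by simp) (by simp)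
      (by simp) rfl rfl (by simp) (by simp) ?_ ?_
    · intro i j _
      exact Subsingleton.elim i j
    · intro i; fin_cases i; exact hv
    · intro i; fin_cases i; exact h1
    · intro i; fin_cases i; exact h2
  by_cases hB : ∃ v, x v ≠ v ∧ x v = y v
  · obtain ⟨v, h1, h2⟩ := hB
    obtain ⟨w, xv⟩ : ∃ w, x v = w := ⟨_, rfl⟩
    rw [xv] at h1 h2
    have xw : x w = v := by rw [← xv]; exact inv_app adm.hx v
    have yv : y v = w := h2.symm
    have yw : y w = v := by rw [← yv]; exact inv_app adm.hy v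
    have vS : v ∈ S := mem_of_moved adm.sx (by rw [xv]; exact h1)
    have wS : w ∈ S := mem_of_moved adm.sx (by rw [xw]; exact Ne.symm h1)
    obtain ⟨e1, e2⟩ := e2_facts
    refine model_solve adm hIH hno (by norm_num) ![v, w] ?_ ?_ eP2 eP2 eP2 e1 e1 e1 rfl rfl e2 e2 ?_ ?_
    · apply inj_nodup
      have e' : List.ofFn ![v, w] = [v, w] := rfl
      rw [e']
      simp only [List.nodup_cons, List.mem_cons, List.not_mem_nil, or_false, not_or,
        List.nodup_nil, not_false_eq_true, and_true]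
      exact Ne.symm h1
    · intro i; fin_cases i
      · exact vS
      · exact wS
    · intro i; fin_cases i
      · exact xv
      · exact xw
    · intro i; fin_cases i
      · exact yv
      · exact yw
  by_cases hX : ∃ a, y a = a ∧ x a ≠ a
  · obtain ⟨a, ya, xa⟩ := hX
    obtain ⟨e, xe, ye⟩ : ∃ e, x e = e ∧ y e ≠ e := by
      by_contra hne
      push Not at hne
      have hsub : y.support ⊆ x.support := by
        intro v hv
        rw [Equiv.Perm.mem_support] at hv ⊢
        intro hx
        exact hv (hne v hx)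
      have hEq := Finset.eq_of_subset_of_card_le hsub adm.card.le
      have : a ∈ y.support := hEq ▸ Equiv.Perm.mem_support.2 xa
      exact (Equiv.Perm.mem_support.1 this) ya
    rcases classify adm hIH hno ya xa with h | h | ⟨c, d, h⟩
    · exact h
    · rcases classify adm.symm hIH hno' xe ye with h' | h' | ⟨g, k', h'⟩
      · obtain ⟨z, hz⟩ := h'
        exact ⟨z, hz.symm adm.card⟩
      · exact pair22 adm hIH hno ya xa h xe ye h'
      · obtain ⟨z, hz⟩ := pair42 adm.symm hIH hno' h' ya xa h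
        exact ⟨z, hz.symm adm.card⟩
    · rcases classify adm.symm hIH hno' xe ye with h' | h' | ⟨g, k', h'⟩
      · obtain ⟨z, hz⟩ := h'
        exact ⟨z, hz.symm adm.card⟩
      · exact pair42 adm hIH hno h xe ye h'
      · exact pair44 adm hIH hno h h'
  · push Not at hX
    have hsub : x.support ⊆ y.support := by
      intro v hv
      rw [Equiv.Perm.mem_support] at hv ⊢
      intro hy
      exact hv (hX v hy)
    have hEq := Finset.eq_of_subset_of_card_le hsub adm.card.ge
    have iff1 : ∀ v, x v ≠ v ↔ y v ≠ v := by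
      intro v
      rw [← Equiv.Perm.mem_support, ← Equiv.Perm.mem_support, hEq]
    rcases S.eq_empty_or_nonempty with rfl | ⟨a, ha⟩
    · have x1 : x = 1 := by
        rw [← Equiv.Perm.support_eq_empty_iff]
        exact Finset.subset_empty.1 adm.sx
      have y1 : y = 1 := by
        rw [← Equiv.Perm.support_eq_empty_iff]
        exact Finset.subset_empty.1 adm.sy
      subst x1 y1
      exact ⟨1, by simp, by simp, by simp, by simp, by simp⟩
    · have hxa : x a ≠ a := by
        intro h
        have h2 : y a = a := by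
          by_contra h3
          exact (iff1 a).2 h3 h
        exact hA ⟨a, ha, h, h2⟩
      have hya : y a ≠ a := (iff1 a).1 hxa
      obtain ⟨b, xa⟩ : ∃ b, x a = b := ⟨_, rfl⟩
      rw [xa] at hxa
      have hab : a ≠ b := Ne.symm hxa
      have xb : x b = a := by rw [← xa]; exact inv_app adm.hx a
      have hyb : y b ≠ b := (iff1 b).1 (by rw [xb]; exact hab)
      obtain ⟨c, yb⟩ : ∃ c, y b = c := ⟨_, rfl⟩
      rw [yb] at hyb
      have hbc : b ≠ c := Ne.symm hyb
      have yc : y c = b := by rw [← yb]; exact inv_app adm.hy b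
      have hac : a ≠ c := by
        rintro rfl
        exact hB ⟨a, by rw [xa]; exact hab.symm, by rw [xa, yc]⟩
      have hxc : x c ≠ c := (iff1 c).2 (by rw [yc]; exact hbc)
      obtain ⟨d, xc⟩ : ∃ d, x c = d := ⟨_, rfl⟩
      rw [xc] at hxc
      have hcd : c ≠ d := Ne.symm hxc
      have xd : x d = c := by rw [← xc]; exact inv_app adm.hx c
      have had : a ≠ d := by
        rintro rfl
        exact hbc (by rw [← xa, xd])
      have hbd : b ≠ d := by
        rintro rfl
        exact hac (by rw [← xb, xd])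
      have hyd : y d ≠ a := fun e => hno a b c d ⟨hab, hac, had, hbc, hbd, hcd, xa, yb, xc, e⟩
      refine caseE (u := y a) adm hIH hab hac had hbc hbd hcd hya ?_ ?_ ?_ xa yb xc rfl
      · intro e
        exact hac (by rw [← yb, ← e, inv_app adm.hy])
      · intro e
        exact hab (by rw [← yc, ← e, inv_app adm.hy])
      · intro e
        exact hyd (by rw [← e, inv_app adm.hy])

theorem cycleType_of_invol {w : Equiv.Perm α} (hw : w * w = 1) :
    w.cycleType = Multiset.replicate (w.support.card / 2) 2 := by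
  have all2 : ∀ m ∈ w.cycleType, m = 2 := by
    intro m hm
    have h1 := Equiv.Perm.two_le_of_mem_cycleType hm
    have h2 := Equiv.Perm.dvd_of_mem_cycleType hm
    have h3 : orderOf w ∣ 2 := orderOf_dvd_of_pow_eq_one (by rw [pow_two, hw])
    have h4 := Nat.le_of_dvd (by norm_num) (h2.trans h3)
    omega
  have h1 := Multiset.eq_replicate_card.2 all2
  have h2 := Equiv.Perm.sum_cycleType w
  rw [h1, Multiset.sum_replicate, smul_eq_mul] at h2
  have h3 : Multiset.card w.cycleType = w.support.card / 2 := by omega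
  rw [← h3]
  exact h1

theorem isConj_of_card {x z : Equiv.Perm α} (hx : x * x = 1) (hz : z * z = 1)
    (h : x.support.card = z.support.card) : IsConj x z := by
  rw [Equiv.Perm.isConj_iff_cycleType_eq, cycleType_of_invol hx, cycleType_of_invol hz, h]

theorem card_of_isConj {x z : Equiv.Perm α} (h : IsConj x z) :
    x.support.card = z.support.card := by
  rw [← Equiv.Perm.sum_cycleType, ← Equiv.Perm.sum_cycleType,
    Equiv.Perm.isConj_iff_cycleType_eq.1 h]

theorem invol_of_isConj {t x : Equiv.Perm α} (ht : t * t = 1) (h : IsConj t x) : x * x = 1 := by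
  obtain ⟨c, rfl⟩ := isConj_iff.1 h
  have : c * t * c⁻¹ * (c * t * c⁻¹) = c * (t * t) * c⁻¹ := by group
  rw [this, ht]
  simp

theorem common_neighbour (hn : 5 ≤ Fintype.card α) {x y : Equiv.Perm α} (hx : x * x = 1)
    (hy : y * y = 1) (hc : x.support.card = y.support.card) :
    ∃ z : Equiv.Perm α, z * z = 1 ∧ z.support.card = x.support.card ∧
      Odd (orderOf (x * z)) ∧ Odd (orderOf (y * z)) := by
  have hadm : Adm Finset.univ x y :=
    ⟨hx, hy, Finset.subset_univ _, Finset.subset_univ _, hc⟩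
  have hnb : ¬ Bad Finset.univ x y := by
    intro h
    have := h.1
    rw [Finset.card_univ] at this
    omega
  obtain ⟨z, hz⟩ := main_aux _ Finset.univ rfl x y hadm hnb
  exact ⟨z, hz.hz, hz.card, hz.ox, hz.oy⟩

/-- A conjugate of `t`, different from it, commuting with it. -/
theorem exists_commuting_conj (hn : 5 ≤ Fintype.card α) {t : Equiv.Perm α} (ht : t * t = 1)
    (ht1 : t ≠ 1) :
    ∃ y : Equiv.Perm α, IsConj t y ∧ (t * y) ^ 2 = 1 ∧ t * y ≠ 1 := by
  obtain ⟨a, ha⟩ : ∃ a, t a ≠ a := by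
    by_contra h
    push Not at h
    exact ht1 (Equiv.ext h)
  obtain ⟨b, ta⟩ : ∃ b, t a = b := ⟨_, rfl⟩
  rw [ta] at ha
  have hab : a ≠ b := Ne.symm ha
  have tb : t b = a := by rw [← ta]; exact inv_app ht a
  have tinv : t⁻¹ = t := inv_eq_of_mul_eq_one_left ht
  by_cases hc : ∃ c, c ≠ a ∧ c ≠ b ∧ t c ≠ c
  · obtain ⟨c, hca, hcb, hc⟩ := hc
    obtain ⟨d, tc⟩ : ∃ d, t c = d := ⟨_, rfl⟩
    rw [tc] at hc
    have hcd : c ≠ d := Ne.symm hc
    have td : t d = c := by rw [← tc]; exact inv_app ht c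
    have had : a ≠ d := by
      rintro rfl
      exact hcb (by rw [← td, ta])
    have hbd : b ≠ d := by
      rintro rfl
      exact hca (by rw [← td, tb])
    refine ⟨Equiv.swap b c * t * Equiv.swap b c, ?_, ?_, ?_⟩
    · exact isConj_iff.2 ⟨Equiv.swap b c, by simp⟩
    · have e : t * (Equiv.swap b c * t * Equiv.swap b c) = Equiv.swap a d * Equiv.swap b c := by
        have h1 := Equiv.swap_apply_apply t b c
        rw [tb, tc, tinv] at h1
        rw [h1]
        group
      rw [e, pow_two]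
      exact (two_swaps (a := a) (b := d) (c := b) (d := c) had hab hca.symm hbd.symm hcd.symm
        (Ne.symm hcb)).1
    · have e : t * (Equiv.swap b c * t * Equiv.swap b c) = Equiv.swap a d * Equiv.swap b c := by
        have h1 := Equiv.swap_apply_apply t b c
        rw [tb, tc, tinv] at h1
        rw [h1]
        group
      rw [e]
      intro h1
      have h2 := congrArg (fun g : Equiv.Perm α => g a) h1
      simp [Equiv.swap_apply_of_ne_of_ne, hab, hca.symm] at h2
      exact had h2.symm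
  · push Not at hc
    have ht' : t = Equiv.swap a b := by
      ext v
      by_cases h1 : v = a
      · rw [h1, ta]; simp
      by_cases h2 : v = b
      · rw [h2, tb]; simp
      rw [hc v h1 h2, Equiv.swap_apply_of_ne_of_ne h1 h2]
    have hcard : 1 < ((Finset.univ : Finset α) \ {a, b}).card := by
      rw [Finset.card_sdiff_of_subset (Finset.subset_univ _), Finset.card_univ,
        Finset.card_pair hab]
      omega
    obtain ⟨c, hc1, d, hd1, hcd⟩ := Finset.one_lt_card.1 hcard
    simp only [Finset.mem_sdiff, Finset.mem_univ, true_and, Finset.mem_insert,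
      Finset.mem_singleton, not_or] at hc1 hd1
    refine ⟨Equiv.swap c d, ?_, ?_, ?_⟩
    · rw [ht']
      exact Equiv.Perm.isConj_swap hab hcd
    · rw [ht', pow_two]
      exact (two_swaps hab (Ne.symm hc1.1) (Ne.symm hd1.1) (Ne.symm hc1.2) (Ne.symm hd1.2) hcd).1
    · rw [ht']
      intro h1
      have h2 := congrArg (fun g : Equiv.Perm α => g a) h1
      simp [Equiv.swap_apply_of_ne_of_ne, Ne.symm hc1.1, Ne.symm hd1.1] at h2
      exact hab h2.symm

/-- Let n ≥ 5 and let X be a conjugacy class of involutions of the symmetric group of degree n. The graph on X joining two distinct involutions whose product has odd order is connected and has diameter exactly 2. -/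
theorem result (n : ℕ) (hn : 5 ≤ n) (t : Equiv.Perm (Fin n)) (ht : orderOf t = 2) :
    (SimpleGraph.fromRel fun x y : {x : Equiv.Perm (Fin n) // IsConj t x} =>
        Odd (orderOf (x.1 * y.1))).Connected ∧
      (SimpleGraph.fromRel fun x y : {x : Equiv.Perm (Fin n) // IsConj t x} =>
        Odd (orderOf (x.1 * y.1))).diam = 2 := by
  have hcardn : 5 ≤ Fintype.card (Fin n) := by simpa using hn
  have ht2 : t * t = 1 := by
    rw [← pow_two, ← ht]; exact pow_orderOf_eq_one t
  have ht1 : t ≠ 1 := by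
    rintro rfl
    simp at ht
  set r : {x : Equiv.Perm (Fin n) // IsConj t x} → {x : Equiv.Perm (Fin n) // IsConj t x} → Prop :=
    fun x y => Odd (orderOf (x.1 * y.1)) with hr
  set G := SimpleGraph.fromRel r with hG
  have hinv : ∀ x : {x : Equiv.Perm (Fin n) // IsConj t x}, x.1 * x.1 = 1 :=
    fun x => invol_of_isConj ht2 x.2
  have hnb : ∀ x y : {x : Equiv.Perm (Fin n) // IsConj t x}, ∃ z, r x z ∧ r y z := by
    intro x y
    obtain ⟨z, h1, h2, h3, h4⟩ := common_neighbour hcardn (hinv x) (hinv y)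
      ((card_of_isConj x.2).symm.trans (card_of_isConj y.2))
    have hz : IsConj t z := by
      refine x.2.trans (isConj_of_card (hinv x) h1 h2.symm)
    exact ⟨⟨z, hz⟩, h3, h4⟩
  have hsymm : ∀ x z, r x z → r z x ∨ True := fun _ _ _ => Or.inr trivial
  have hwalk : ∀ x y : {x : Equiv.Perm (Fin n) // IsConj t x},
      ∃ p : G.Walk x y, p.length ≤ 2 := by
    intro x y
    obtain ⟨z, h1, h2⟩ := hnb x y
    by_cases hxz : x = z
    · subst hxz
      by_cases hxy : x = y
      · subst hxy
        exact ⟨SimpleGraph.Walk.nil, by simp⟩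
      · have : G.Adj x y := (SimpleGraph.fromRel_adj _ _ _).2 ⟨hxy, Or.inr h2⟩
        exact ⟨SimpleGraph.Walk.cons this SimpleGraph.Walk.nil, by simp⟩
    · by_cases hyz : y = z
      · subst hyz
        have : G.Adj x y := (SimpleGraph.fromRel_adj _ _ _).2 ⟨hxz, Or.inl h1⟩
        exact ⟨SimpleGraph.Walk.cons this SimpleGraph.Walk.nil, by simp⟩
      · have a1 : G.Adj x z := (SimpleGraph.fromRel_adj _ _ _).2 ⟨hxz, Or.inl h1⟩
        have a2 : G.Adj z y := (SimpleGraph.fromRel_adj _ _ _).2 ⟨Ne.symm hyz, Or.inr h2⟩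
        exact ⟨SimpleGraph.Walk.cons a1 (SimpleGraph.Walk.cons a2 SimpleGraph.Walk.nil), by simp⟩
  have hne : Nonempty {x : Equiv.Perm (Fin n) // IsConj t x} := ⟨⟨t, IsConj.refl t⟩⟩
  have hconn : G.Connected := by
    rw [SimpleGraph.connected_iff]
    refine ⟨?_, hne⟩
    intro x y
    obtain ⟨p, -⟩ := hwalk x y
    exact p.reachable
  refine ⟨hconn, ?_⟩
  have hedist : ∀ x y, G.edist x y ≤ 2 := by
    intro x y
    obtain ⟨p, hp⟩ := hwalk x y
    exact (SimpleGraph.Walk.edist_le p).trans (by exact_mod_cast hp)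
  have hediam : G.ediam ≤ 2 := SimpleGraph.ediam_le_of_edist_le hedist
  have hetop : G.ediam ≠ ⊤ := ne_top_of_le_ne_top (by simp) hediam
  apply le_antisymm
  · unfold SimpleGraph.diam
    exact ENat.toNat_le_of_le_coe (by exact_mod_cast hediam)
  · obtain ⟨y, hy1, hy2, hy3⟩ := exists_commuting_conj hcardn ht2 ht1
    let X : {x : Equiv.Perm (Fin n) // IsConj t x} := ⟨t, IsConj.refl t⟩
    let Y : {x : Equiv.Perm (Fin n) // IsConj t x} := ⟨y, hy1⟩
    have hord : orderOf (t * y) = 2 := orderOf_eq_prime hy2 hy3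
    have hyi : y * y = 1 := invol_of_isConj ht2 hy1
    have hord' : orderOf (y * t) = 2 := by
      have e : y * t = (t * y)⁻¹ := by
        rw [mul_inv_rev, inv_eq_of_mul_eq_one_left hyi, inv_eq_of_mul_eq_one_left ht2]
      rw [e, orderOf_inv, hord]
    have hXY : X ≠ Y := by
      intro e
      have e' : t = y := congrArg Subtype.val e
      apply hy3
      rw [← e', ht2]
    have hnadj : ¬ G.Adj X Y := by
      intro h
      rcases ((SimpleGraph.fromRel_adj _ _ _).1 h).2 with h | h
      · have h' : Odd (orderOf (t * y)) := h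
        rw [hord] at h'
        exact absurd h' (by decide)
      · have h' : Odd (orderOf (y * t)) := h
        rw [hord'] at h'
        exact absurd h' (by decide)
    have h1 : G.dist X Y ≤ G.diam := SimpleGraph.dist_le_diam hetop
    have h2 : G.dist X Y ≠ 0 := fun h =>
      hXY (hconn.dist_eq_zero_iff.1 h)
    have h3 : G.dist X Y ≠ 1 := fun h =>
      hnadj (SimpleGraph.dist_eq_one_iff_adj.1 h)
    omega

end Cfsg.Agent.S3265
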