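import Cfsg.Statements.S3266
import Cfsg.Agent.Lib.H16.PG.Even

set_option autoImplicit false
open Cfsg

namespace Cfsg.Agent.S3266
theorem aux_ord {G : Type*} [Group G] {t x : G} (h : IsConj t x) : orderOf x = orderOf t := by
  obtain ⟨c, rfl⟩ := isConj_iff.mp h
  exact (MulAut.conj c).orderOf_eq t

/-- Let F be a finite field with at least 4 elements and let X be a conjugacy class of involutions of PSL(2, F). The graph on X joining two distinct involutions whose product has odd order is connected and has diameter exactly 2. -/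
theorem result {F : Type*} [Field F] [Fintype F] (hF : 4 ≤ Fintype.card F)
    (t : Matrix.ProjectiveSpecialLinearGroup (Fin 2) F) (ht : orderOf t = 2) :
    (SimpleGraph.fromRel fun x y : {x : Matrix.ProjectiveSpecialLinearGroup (Fin 2) F // IsConj t x} =>
        Odd (orderOf (x.1 * y.1))).Connected ∧
      (SimpleGraph.fromRel fun x y : {x : Matrix.ProjectiveSpecialLinearGroup (Fin 2) F // IsConj t x} =>
        Odd (orderOf (x.1 * y.1))).diam = 2 := by
  classical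
  set G := (SimpleGraph.fromRel fun x y : {x : Matrix.ProjectiveSpecialLinearGroup (Fin 2) F // IsConj t x} =>
          Odd (orderOf (x.1 * y.1))) with hG
  have : Nonempty {x : Matrix.ProjectiveSpecialLinearGroup (Fin 2) F // IsConj t x} := ⟨⟨t, IsConj.refl t⟩⟩
  obtain ⟨T, hT⟩ := Cfsg.Agent.H16.PG.pm_surj t
  have hT2 : orderOf (Cfsg.Agent.H16.PG.pm F T) = 2 := by rw [hT]; exact ht
  have hTtr := Cfsg.Agent.H16.PG.trace_zero_of_order_two hT2
  have hT1 : Cfsg.Agent.H16.PG.pm F T ≠ 1 := by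
    intro h
    rw [h, orderOf_one] at hT2
    omega
  have hadj : ∀ a b : {x : Matrix.ProjectiveSpecialLinearGroup (Fin 2) F // IsConj t x},
      G.Adj a b ↔ a ≠ b ∧ (Odd (orderOf (a.1 * b.1)) ∨ Odd (orderOf (b.1 * a.1))) := by
    intro a b
    rw [hG, SimpleGraph.fromRel_adj]
  -- all trace-zero non-trivial elements are in the class
  have hclass : ∀ Z : Cfsg.Agent.H16.PG.SL2 F, Z.1 0 0 + Z.1 1 1 = 0 → Cfsg.Agent.H16.PG.pm F Z ≠ 1 →
      IsConj t (Cfsg.Agent.H16.PG.pm F Z) := by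
    intro Z hZ hZ1
    rw [← hT]
    by_cases h2 : (2 : F) = 0
    · exact Cfsg.Agent.H16.PG.isConj_even h2 T Z hTtr hZ hT1 hZ1
    · exact Cfsg.Agent.H16.PG.isConj_odd h2 T Z hTtr hZ
  have hmain : ∀ x y : {x : Matrix.ProjectiveSpecialLinearGroup (Fin 2) F // IsConj t x}, x ≠ y →
      G.Adj x y ∨ ∃ z, G.Adj x z ∧ G.Adj z y := by
    rintro ⟨x, hx⟩ ⟨y, hy⟩ hxy
    obtain ⟨A, rfl⟩ := Cfsg.Agent.H16.PG.pm_surj x
    obtain ⟨B, rfl⟩ := Cfsg.Agent.H16.PG.pm_surj y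
    have hAo : orderOf (Cfsg.Agent.H16.PG.pm F A) = 2 := by rw [aux_ord hx, ht]
    have hBo : orderOf (Cfsg.Agent.H16.PG.pm F B) = 2 := by rw [aux_ord hy, ht]
    have hA := Cfsg.Agent.H16.PG.trace_zero_of_order_two hAo
    have hB := Cfsg.Agent.H16.PG.trace_zero_of_order_two hBo
    have hA1 : Cfsg.Agent.H16.PG.pm F A ≠ 1 := by
      intro h
      rw [h, orderOf_one] at hAo
      omega
    have hB1 : Cfsg.Agent.H16.PG.pm F B ≠ 1 := by
      intro h
      rw [h, orderOf_one] at hBo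
      omega
    have key : Odd (orderOf (Cfsg.Agent.H16.PG.pm F A * Cfsg.Agent.H16.PG.pm F B)) ∨
        ∃ Z : Cfsg.Agent.H16.PG.SL2 F, Z.1 0 0 + Z.1 1 1 = 0 ∧ Cfsg.Agent.H16.PG.pm F Z ≠ 1 ∧
          Cfsg.Agent.H16.PG.pm F A ≠ Cfsg.Agent.H16.PG.pm F Z ∧ Cfsg.Agent.H16.PG.pm F Z ≠ Cfsg.Agent.H16.PG.pm F B ∧
          Odd (orderOf (Cfsg.Agent.H16.PG.pm F A * Cfsg.Agent.H16.PG.pm F Z)) ∧
          Odd (orderOf (Cfsg.Agent.H16.PG.pm F Z * Cfsg.Agent.H16.PG.pm F B)) := by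
      by_cases h2 : (2 : F) = 0
      · exact Or.inr (Cfsg.Agent.H16.PG.common_even h2 hF A B hA hB hA1 hB1)
      · exact Cfsg.Agent.H16.PG.common_odd h2 hF A B hA hB
    rcases key with h | ⟨Z, hZ, hZ1, hAZ, hZB, hoAZ, hoZB⟩
    · left
      rw [hadj]
      exact ⟨hxy, Or.inl h⟩
    · right
      refine ⟨⟨Cfsg.Agent.H16.PG.pm F Z, hclass Z hZ hZ1⟩, ?_, ?_⟩
      · rw [hadj]
        exact ⟨fun h => hAZ (congrArg Subtype.val h), Or.inl hoAZ⟩
      · rw [hadj]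
        exact ⟨fun h => hZB (congrArg Subtype.val h), Or.inl hoZB⟩
  have hnon : ∃ x y : {x : Matrix.ProjectiveSpecialLinearGroup (Fin 2) F // IsConj t x}, x ≠ y ∧ ¬ G.Adj x y := by
    have key : ∃ A B : Cfsg.Agent.H16.PG.SL2 F, A.1 0 0 + A.1 1 1 = 0 ∧ B.1 0 0 + B.1 1 1 = 0 ∧
        Cfsg.Agent.H16.PG.pm F A ≠ 1 ∧ Cfsg.Agent.H16.PG.pm F B ≠ 1 ∧
        Cfsg.Agent.H16.PG.pm F A ≠ Cfsg.Agent.H16.PG.pm F B ∧
        orderOf (Cfsg.Agent.H16.PG.pm F A * Cfsg.Agent.H16.PG.pm F B) = 2 ∧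
        orderOf (Cfsg.Agent.H16.PG.pm F B * Cfsg.Agent.H16.PG.pm F A) = 2 := by
      by_cases h2 : (2 : F) = 0
      · exact Cfsg.Agent.H16.PG.nonadj_even h2 hF
      · obtain ⟨A, B, hA, hB, hne, h1, h3⟩ := Cfsg.Agent.H16.PG.nonadj_odd (F := F) h2
        have hnot : ∀ M : Cfsg.Agent.H16.PG.SL2 F, M.1 0 0 + M.1 1 1 = 0 → Cfsg.Agent.H16.PG.pm F M ≠ 1 := by
          intro M hM h1
          obtain ⟨l, hl, hs⟩ := Cfsg.Agent.H16.PG.pm_eq_one_iff.mp h1
          have h00 : M.1 0 0 = l := by rw [hs]; simp [Matrix.scalar_apply]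
          have h11 : M.1 1 1 = l := by rw [hs]; simp [Matrix.scalar_apply]
          rw [h00, h11] at hM
          have : 2 * l = 0 := by linear_combination hM
          have hl0 : l = 0 := (mul_eq_zero.mp this).resolve_left h2
          rw [hl0] at hl
          simp at hl
        exact ⟨A, B, hA, hB, hnot A hA, hnot B hB, hne, h1, h3⟩
    obtain ⟨A, B, hA, hB, hA1, hB1, hne, h1, h3⟩ := key
    refine ⟨⟨Cfsg.Agent.H16.PG.pm F A, hclass A hA hA1⟩, ⟨Cfsg.Agent.H16.PG.pm F B, hclass B hB hB1⟩, ?_, ?_⟩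
    · exact fun h => hne (congrArg Subtype.val h)
    · rw [hadj]
      rintro ⟨-, h | h⟩
      · rw [h1] at h; exact absurd h (by decide)
      · rw [h3] at h; exact absurd h (by decide)
  exact Cfsg.Agent.H16.PG.graph_diam_two G hmain hnon

end Cfsg.Agent.S3266
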