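import Cfsg.Statements.S3276
import Cfsg.Agent.Lib.H15.Dihedral1

set_option autoImplicit false
open Cfsg

namespace Cfsg.Agent.S3276

theorem card_le_two {H : Type*} [Group H] [Finite H] (K : Subgroup H) (a : H)
    (h : ∀ v ∈ K, v = 1 ∨ v = a) : Nat.card K ≤ 2 := by
  classical
  have h1 : (K : Set H) ⊆ {1, a} := by
    intro v hv
    rcases h v hv with rfl | rfl <;> simp
  calc Nat.card K = Set.ncard (K : Set H) := Nat.card_coe_set_eq _
    _ ≤ Set.ncard ({1, a} : Set H) := Set.ncard_le_ncard h1 (Set.toFinite _)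
    _ ≤ 2 := (Set.ncard_insert_le _ _).trans (by simp)

/-- Let x and y be commuting, non-conjugate involutions of a finite group G, and suppose that for every involution u commuting with x, each conjugate of y that commutes with u also commutes with y. Then the normal closure of y is a proper, normal, elementary abelian 2-subgroup of G; and if y is the only involution of that normal closure commuting with x, it has order at most 4. -/
theorem result {G : Type*} [Group G] [Finite G] (x y : G) (hx : orderOf x = 2) (hy : orderOf y = 2)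
    (hxy : Commute x y) (hnc : ¬ IsConj x y)
    (hstar : ∀ u : G, orderOf u = 2 → Commute u x → ∀ g : G, Commute (g * y * g⁻¹) u → Commute (g * y * g⁻¹) y) :
    Subgroup.normalClosure ({y} : Set G) ≠ ⊤ ∧ Cfsg.IsElementaryAbelian 2 (Subgroup.normalClosure ({y} : Set G)) ∧
      ((∀ u ∈ Subgroup.normalClosure ({y} : Set G), orderOf u = 2 → Commute u x → u = y) →
        Nat.card ↥(Subgroup.normalClosure ({y} : Set G)) ≤ 4) := by
  classical
  have hxx : x * x = 1 := by rw [← pow_two, ← hx, pow_orderOf_eq_one]
  have hyy : y * y = 1 := by rw [← pow_two, ← hy, pow_orderOf_eq_one]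
  -- all conjugates of `y` commute with `y`
  have hc1 : ∀ g : G, Commute (g * y * g⁻¹) y := by
    intro g
    have hgg : (g * y * g⁻¹) * (g * y * g⁻¹) = 1 := by
      have : (g * y * g⁻¹) * (g * y * g⁻¹) = g * (y * y) * g⁻¹ := by group
      rw [this, hyy]; group
    have hnc' : ¬ IsConj x (g * y * g⁻¹) := by
      intro h
      apply hnc
      refine h.trans ?_
      rw [isConj_iff]
      exact ⟨g⁻¹, by group⟩
    obtain ⟨u, hu, hux, hua⟩ := Cfsg.Agent.H15.exists_commuting_involution_of_not_isConj hxx hgg hnc'
    exact hstar u hu hux g hua.symm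
  have hc2 : ∀ g h : G, Commute (g * y * g⁻¹) (h * y * h⁻¹) := by
    intro g h
    have := hc1 (h⁻¹ * g)
    have h2 := this.eq
    show g * y * g⁻¹ * (h * y * h⁻¹) = h * y * h⁻¹ * (g * y * g⁻¹)
    have e1 : g * y * g⁻¹ * (h * y * h⁻¹) = h * ((h⁻¹ * g) * y * (h⁻¹ * g)⁻¹ * y) * h⁻¹ := by group
    have e2 : h * y * h⁻¹ * (g * y * g⁻¹) = h * (y * ((h⁻¹ * g) * y * (h⁻¹ * g)⁻¹)) * h⁻¹ := by group
    rw [e1, e2, h2]
  set N := Subgroup.normalClosure ({y} : Set G) with hN
  have hgen : N = Subgroup.closure (Group.conjugatesOfSet ({y} : Set G)) := rfl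
  have hconjmem : ∀ z ∈ Group.conjugatesOfSet ({y} : Set G), ∃ g : G, z = g * y * g⁻¹ := by
    intro z hz
    rw [Group.mem_conjugatesOfSet_iff] at hz
    obtain ⟨a, ha, hz⟩ := hz
    rw [Set.mem_singleton_iff] at ha
    subst ha
    rw [isConj_iff] at hz
    obtain ⟨c, hc⟩ := hz
    exact ⟨c, hc.symm⟩
  have hcomm : ∀ a ∈ N, ∀ b ∈ N, a * b = b * a := by
    intro a ha b hb
    rw [hgen] at ha hb
    refine Subgroup.closure_induction₂ (p := fun a b _ _ => a * b = b * a) ?_ ?_ ?_ ?_ ?_ ?_ ?_ ha hb
    · intro a b ha hb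
      obtain ⟨g, rfl⟩ := hconjmem a ha
      obtain ⟨h, rfl⟩ := hconjmem b hb
      exact hc2 g h
    · simp
    · simp
    · intro a b c _ _ _ h1 h2
      rw [mul_assoc, h2, ← mul_assoc, h1, mul_assoc]
    · intro a b c _ _ _ h1 h2
      rw [← mul_assoc, h1, mul_assoc, h2, mul_assoc]
    · intro a b _ _ h1
      exact (Commute.inv_left h1)
    · intro a b _ _ h1
      exact (Commute.inv_right h1)
  have hsq : ∀ a ∈ N, a ^ 2 = 1 := by
    intro a ha
    have ha' := ha
    rw [hgen] at ha'
    induction ha' using Subgroup.closure_induction with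
    | mem z hz =>
      obtain ⟨g, rfl⟩ := hconjmem z hz
      have : (g * y * g⁻¹) ^ 2 = g * (y * y) * g⁻¹ := by rw [pow_two]; group
      rw [this, hyy]; group
    | one => simp
    | mul a b ha' hb' ih1 ih2 =>
      have ha2 : a ∈ N := by rw [hgen]; exact ha'
      have hb2 : b ∈ N := by rw [hgen]; exact hb'
      rw [pow_two]
      calc a * b * (a * b) = a * (b * a) * b := by group
        _ = a * (a * b) * b := by rw [hcomm b hb2 a ha2]
        _ = a ^ 2 * b ^ 2 := by rw [pow_two, pow_two]; group
        _ = 1 := by rw [ih1 ha2, ih2 hb2, one_mul]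
    | inv a ha' ih =>
      have ha2 : a ∈ N := by rw [hgen]; exact ha'
      rw [inv_pow, ih ha2, inv_one]
  have hyN : y ∈ N := Subgroup.subset_normalClosure (Set.mem_singleton y)
  refine ⟨?_, ⟨⟨⟨?_⟩⟩, hsq⟩, ?_⟩
  · -- proper
    intro htop
    have hxN : x ∈ N := by rw [htop]; trivial
    -- `G` is commutative so `y` is central
    have hcen : ∀ g : G, g * y * g⁻¹ = y := by
      intro g
      have hgN : g ∈ N := by rw [htop]; trivial
      rw [hcomm g hgN y hyN]; group
    have hmem : ∀ z ∈ N, z = 1 ∨ z = y := by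
      intro z hz
      have hz' := hz
      rw [hgen] at hz'
      induction hz' using Subgroup.closure_induction with
      | mem z hz2 =>
        obtain ⟨g, rfl⟩ := hconjmem z hz2
        right; exact hcen g
      | one => left; rfl
      | mul a b ha' hb' ih1 ih2 =>
        have ha2 : a ∈ N := by rw [hgen]; exact ha'
        have hb2 : b ∈ N := by rw [hgen]; exact hb'
        rcases ih1 ha2 with rfl | rfl <;> rcases ih2 hb2 with rfl | rfl <;> simp [hyy]
      | inv a ha' ih =>
        have ha2 : a ∈ N := by rw [hgen]; exact ha'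
        rcases ih ha2 with rfl | rfl
        · simp
        · right; exact inv_eq_of_mul_eq_one_left hyy
    rcases hmem x hxN with rfl | rfl
    · rw [orderOf_one] at hx; omega
    · exact hnc (IsConj.refl _)
  · -- commutative
    rintro ⟨a, ha⟩ ⟨b, hb⟩
    exact Subtype.ext (hcomm a ha b hb)
  · -- the bound
    intro huniq
    have hNn : N.Normal := Subgroup.normalClosure_normal
    have hxm : ∀ v ∈ N, x * v * x⁻¹ ∈ N := fun v hv => hNn.conj_mem v hv x
    have hxinv : x⁻¹ = x := inv_eq_of_mul_eq_one_left hxx
    let φ : N →* N :=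
      { toFun := fun v => ⟨v * (x * v * x⁻¹), N.mul_mem v.2 (hxm v v.2)⟩
        map_one' := by ext; simp
        map_mul' := by
          intro a b
          ext
          show (a : G) * b * (x * (a * b) * x⁻¹) = (a * (x * a * x⁻¹)) * (b * (x * b * x⁻¹))
          have h1 : (x * a * x⁻¹) * (b : G) = b * (x * a * x⁻¹) := hcomm _ (hxm a a.2) _ b.2
          calc (a : G) * b * (x * (a * b) * x⁻¹)
              = a * (b * (x * a * x⁻¹)) * (x * b * x⁻¹) := by group
            _ = a * ((x * a * x⁻¹) * b) * (x * b * x⁻¹) := by rw [h1]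
            _ = _ := by group }
    have hφ : ∀ v : N, ((φ v : N) : G) = v * (x * v * x⁻¹) := fun v => rfl
    -- elements of `C_N(x)`
    have hC : ∀ v ∈ N, x * v * x⁻¹ = v → v = 1 ∨ v = y := by
      intro v hv h
      by_cases hv1 : v = 1
      · exact Or.inl hv1
      · right
        apply huniq v hv (orderOf_eq_prime (hsq v hv) hv1)
        rw [mul_inv_eq_iff_eq_mul] at h
        exact h.symm
    have hker : Nat.card φ.ker ≤ 2 := by
      apply card_le_two _ ⟨y, hyN⟩
      intro v hv
      have h1 : (v : G) * (x * v * x⁻¹) = 1 := by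
        have := congrArg (Subtype.val) (MonoidHom.mem_ker.mp hv)
        simpa [hφ] using this
      have hvv : (v : G) * v = 1 := by rw [← pow_two]; exact hsq v v.2
      have h2 : x * (v : G) * x⁻¹ = v := by
        have h3 : (v : G)⁻¹ = v := inv_eq_of_mul_eq_one_left hvv
        have h4 := eq_inv_of_mul_eq_one_right h1
        rw [h3] at h4
        exact h4
      rcases hC v v.2 h2 with h | h
      · left; exact Subtype.ext h
      · right; exact Subtype.ext h
    have hrange : Nat.card φ.range ≤ 2 := by
      apply card_le_two _ ⟨y, hyN⟩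
      rintro _ ⟨v, rfl⟩
      have h2 : x * ((φ v : N) : G) * x⁻¹ = (φ v : N) := by
        rw [hφ, hxinv]
        have h3 : x * ((v : G) * (x * v * x)) * x = (x * v * x) * v := by
          calc x * ((v : G) * (x * v * x)) * x = (x * v * x) * v * (x * x) := by group
            _ = _ := by rw [hxx, mul_one]
        rw [h3]
        have h4 := hxm v v.2
        rw [hxinv] at h4
        exact hcomm _ h4 _ v.2
      rcases hC _ (φ v).2 h2 with h | h
      · left; exact Subtype.ext h
      · right; exact Subtype.ext h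
    have hcard : Nat.card N = Nat.card φ.ker * Nat.card φ.range := by
      rw [← Subgroup.index_ker, Subgroup.card_mul_index]
    rw [hcard]
    calc Nat.card φ.ker * Nat.card φ.range ≤ 2 * 2 := Nat.mul_le_mul hker hrange
      _ = 4 := rfl

end Cfsg.Agent.S3276
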