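import Cfsg.Statements.S3305
import Cfsg.Agent.Lib.H15.Sylow3

set_option autoImplicit false
open Cfsg

namespace Cfsg.Agent.S3305

open Cfsg.Agent.H15

/-- If any two distinct Sylow 2-subgroups of the finite group G intersect in a cyclic group, then the same holds in every quotient group G/H, H a normal subgroup of G. -/
theorem result {G : Type*} [Group G] [Finite G]
    (hC : ∀ S T : Sylow 2 G, S ≠ T → IsCyclic ↥((S : Subgroup G) ⊓ (T : Subgroup G))) (H : Subgroup G) [H.Normal] :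
    ∀ S T : Sylow 2 (G ⧸ H), S ≠ T → IsCyclic ↥((S : Subgroup (G ⧸ H)) ⊓ (T : Subgroup (G ⧸ H))) := by
  classical
  intro Pb Qb hne
  let π : G →* G ⧸ H := QuotientGroup.mk' H
  have hπ : Function.Surjective π := QuotientGroup.mk'_surjective H
  set Rb : Subgroup (G ⧸ H) := (Pb : Subgroup (G ⧸ H)) ⊓ (Qb : Subgroup (G ⧸ H)) with hRb
  set X : Subgroup G := Rb.comap π with hX
  -- Sylow subgroup of `X`, surjecting on `Rb`
  let f : X →* Rb := π.subgroupComap Rb
  have hf : Function.Surjective f := by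
    rintro ⟨y, hy⟩
    obtain ⟨g, rfl⟩ := hπ y
    exact ⟨⟨g, hy⟩, rfl⟩
  obtain ⟨Q₀⟩ : Nonempty (Sylow 2 X) := inferInstance
  have hRbp : IsPGroup 2 Rb := IsPGroup.to_le Pb.isPGroup' inf_le_left
  have hmapQ : (Q₀ : Subgroup X).map f = ⊤ := by
    have hs := (Sylow.mapSurjective hf Q₀).is_maximal' (Q := ⊤) (by
      exact IsPGroup.of_equiv hRbp Subgroup.topEquiv.symm) le_top
    exact hs.symm
  set R : Subgroup G := (Q₀ : Subgroup X).map X.subtype with hR
  have hRX : R ≤ X := by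
    rintro _ ⟨y, _, rfl⟩
    exact y.2
  have hRp : IsPGroup 2 R := Q₀.isPGroup'.map X.subtype
  have hRmap : R.map π = Rb := by
    apply le_antisymm
    · rintro _ ⟨y, hy, rfl⟩
      exact hRX hy
    · intro y hy
      have : (⟨y, hy⟩ : Rb) ∈ (Q₀ : Subgroup X).map f := by rw [hmapQ]; trivial
      obtain ⟨a, ha, hae⟩ := this
      refine ⟨a, ⟨a, ha, rfl⟩, ?_⟩
      exact congrArg Subtype.val hae
  -- general step : `R` lies in a Sylow subgroup of `G` mapping onto a given Sylow containing `Rb`.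
  have key : ∀ P : Sylow 2 (G ⧸ H), Rb ≤ (P : Subgroup (G ⧸ H)) →
      ∃ S : Sylow 2 G, R ≤ (S : Subgroup G) ∧ (S : Subgroup G).map π = (P : Subgroup (G ⧸ H)) := by
    intro P hP
    obtain ⟨S₀, hS₀⟩ := Sylow.mapSurjective_surjective hπ 2 P
    have hS₀m : (S₀ : Subgroup G).map π = (P : Subgroup (G ⧸ H)) := by
      rw [← hS₀]; rfl
    set Y : Subgroup G := (P : Subgroup (G ⧸ H)).comap π with hY
    have hS₀Y : (S₀ : Subgroup G) ≤ Y := by
      intro s hs
      show π s ∈ (P : Subgroup (G ⧸ H))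
      rw [← hS₀m]
      exact ⟨s, hs, rfl⟩
    have hRY : R ≤ Y := hRX.trans (Subgroup.comap_mono hP)
    obtain ⟨c, hcY, hc⟩ := exists_conj_le_sylow_of_le Y R S₀ hS₀Y hRY hRp
    refine ⟨c⁻¹ • S₀, ?_, ?_⟩
    · intro r hr
      rw [Sylow.coe_subgroup_smul, Subgroup.mem_pointwise_smul_iff_inv_smul_mem]
      simpa [MulAut.smul_def] using hc r hr
    · have hcP : π c ∈ (P : Subgroup (G ⧸ H)) := hcY
      apply le_antisymm
      · rintro _ ⟨s, hs, rfl⟩
        replace hs : s ∈ ((c⁻¹ • S₀ : Sylow 2 G) : Subgroup G) := hs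
        rw [Sylow.coe_subgroup_smul, Subgroup.mem_pointwise_smul_iff_inv_smul_mem] at hs
        have h1 : c * s * c⁻¹ ∈ (S₀ : Subgroup G) := by simpa [MulAut.smul_def] using hs
        have h2 : π (c * s * c⁻¹) ∈ (P : Subgroup (G ⧸ H)) := by
          rw [← hS₀m]; exact ⟨_, h1, rfl⟩
        have h3 : π s = (π c)⁻¹ * π (c * s * c⁻¹) * π c := by
          simp [map_mul, mul_assoc]
        rw [h3]
        exact Subgroup.mul_mem _ (Subgroup.mul_mem _ (Subgroup.inv_mem _ hcP) h2) hcP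
      · intro y hy
        have hy' : (π c) * y * (π c)⁻¹ ∈ (S₀ : Subgroup G).map π := by
          rw [hS₀m]
          exact Subgroup.mul_mem _ (Subgroup.mul_mem _ hcP hy) (Subgroup.inv_mem _ hcP)
        obtain ⟨s, hs, hse⟩ := hy'
        refine ⟨c⁻¹ * s * c, ?_, ?_⟩
        · show c⁻¹ * s * c ∈ ((c⁻¹ • S₀ : Sylow 2 G) : Subgroup G)
          rw [Sylow.coe_subgroup_smul, Subgroup.mem_pointwise_smul_iff_inv_smul_mem]
          have e : (MulAut.conj c⁻¹)⁻¹ • (c⁻¹ * s * c) = s := by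
            simp [MulAut.smul_def, mul_assoc]
          rw [e]; exact hs
        · rw [map_mul, map_mul, hse, map_inv]
          group
  obtain ⟨S, hRS, hSm⟩ := key Pb inf_le_left
  obtain ⟨T, hRT, hTm⟩ := key Qb inf_le_right
  have hST : S ≠ T := by
    intro h
    apply hne
    apply Sylow.ext
    rw [← hSm, ← hTm, h]
  have hcyc := hC S T hST
  have hRcyc : IsCyclic R :=
    isCyclic_of_injective (Subgroup.inclusion (le_inf hRS hRT)) (Subgroup.inclusion_injective _)
  rw [← hRmap]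
  exact isCyclic_of_surjective (π.subgroupMap R) (π.subgroupMap_surjective R)

end Cfsg.Agent.S3305
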