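import Cfsg.Statements.S3303
import Cfsg.Agent.S3305
import Cfsg.Agent.Lib.H15.OddCore

set_option autoImplicit false
open Cfsg

namespace Cfsg.Agent.S3303

open Cfsg.Agent.H15

/-- Let G be a finite solvable group in which the intersection of any two distinct Sylow 2-subgroups is cyclic. Then G/O(G) has a normal Sylow 2-subgroup, where O(G) is the largest normal subgroup of odd order. -/
theorem result {G : Type*} [Group G] [Finite G] (hs : Group.IsSolvable G)
    (hC : ∀ S T : Sylow 2 G, S ≠ T → IsCyclic ↥((S : Subgroup G) ⊓ (T : Subgroup G))) :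
    ∃ P : Sylow 2 (G ⧸ Cfsg.oddCore G), (P : Subgroup (G ⧸ Cfsg.oddCore G)).Normal := by
  classical
  set H := G ⧸ Cfsg.oddCore G with hH
  have hO : oddCore H = ⊥ := oddCore_quotient_eq_bot
  have hsH : Group.IsSolvable H := inferInstance
  have hCH := Cfsg.Agent.S3305.result hC (oddCore G)
  obtain ⟨P⟩ : Nonempty (Sylow 2 H) := inferInstance
  refine ⟨P, ?_⟩
  by_cases hsub : Subsingleton (Sylow 2 H)
  · exact Sylow.normal_of_subsingleton P
  exfalso
  rw [not_subsingleton_iff_nontrivial] at hsub
  obtain ⟨S, T, hST⟩ := exists_pair_ne (Sylow 2 H)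
  have hSTc := hCH S T hST
  set Q := pCore 2 H with hQ
  have hQST : Q ≤ (S : Subgroup H) ⊓ (T : Subgroup H) :=
    le_inf (Cfsg.Agent.H01.pCore_le_sylow 2 S) (Cfsg.Agent.H01.pCore_le_sylow 2 T)
  have hQc : IsCyclic Q :=
    isCyclic_of_injective (Subgroup.inclusion hQST) (Subgroup.inclusion_injective _)
  have hQp : IsPGroup 2 Q := Cfsg.Agent.H01.pCore_isPGroup 2
  have hQn : Q.Normal := Cfsg.Agent.H01.pCore_normal 2
  have hcent := centralizer_pCore_two_le hsH hO
  have hp : IsPGroup 2 H := by
    apply isPGroup_two_of_odd_trivial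
    intro g hg
    have h1 := commute_of_odd_of_cyclic_two Q hQp (g := g) (by
      rw [Subgroup.normalizer_eq_top]
      trivial) hg
    have h2 : g ∈ Q := by
      apply hcent
      rw [Subgroup.mem_centralizer_iff]
      intro q hq
      exact (h1 q hq).symm
    have h3 : IsPGroup 2 (Subgroup.zpowers g) := IsPGroup.to_le hQp (by
      rw [Subgroup.zpowers_le]; exact h2)
    obtain ⟨k, hk⟩ := IsPGroup.iff_orderOf.mp hQp ⟨g, h2⟩
    have h4 : orderOf g = 2 ^ k := by
      rw [← hk]; exact (Subgroup.orderOf_mk g h2).symm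
    rw [h4] at hg
    rcases k with _ | k
    · exact orderOf_eq_one_iff.mp (by simpa using h4)
    · exact absurd hg (by simp [pow_succ, Nat.not_odd_iff_even])
  apply hST
  exact Sylow.ext (by
    rw [sylow_eq_top_of_isPGroup hp S, sylow_eq_top_of_isPGroup hp T])

end Cfsg.Agent.S3303
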