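import Cfsg.Statements.S3304
import Cfsg.Agent.S0106
import Cfsg.Agent.Lib.H26.GL23
import Cfsg.Agent.Lib.H13.Q8Act2
import Cfsg.Agent.Lib.H14.UniqueSub
import Cfsg.Agent.Lib.H15.OddCore
import Cfsg.Agent.Lib.H15.Sylow3
import Cfsg.Agent.Lib.H03.S4Rec
import Mathlib

set_option autoImplicit false
set_option linter.unusedVariables false
set_option linter.style.haveILetI false
open Cfsg

namespace Cfsg.Agent.S3304

open Cfsg.Agent.H15 Cfsg.Agent.H13 Cfsg.Agent.H26.GL23

/-- rank condition at the level of the ambient group -/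
def Prk {K : Type*} [Group K] (X : Subgroup K) : Prop :=
  ∀ A : Subgroup K, A ≤ X → (∀ x ∈ A, ∀ y ∈ A, x * y = y * x) → (∀ x ∈ A, x ^ 2 = 1) → Nat.card A ≤ 2

theorem prk_of_prank {K : Type*} [Group K] {X : Subgroup K} (h : PRankLE 2 1 ↥X) : Prk X := by
  intro A hAX hc he
  have h1 := h (A.subgroupOf X) ⟨⟨fun x y => Subtype.ext (Subtype.ext (hc _ x.2 _ y.2))⟩⟩
    (fun x hx => Subtype.ext (he _ hx))
  have h2 : Nat.card (A.subgroupOf X) = Nat.card A :=
    Nat.card_congr (Subgroup.subgroupOfEquivOfLe hAX).toEquiv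
  rw [h2] at h1
  simpa using h1

section quot

variable {G : Type*} [Group G] [Finite G]

theorem rank_quot (hI : ∀ S T : Sylow 2 G, S ≠ T → Prk ((S : Subgroup G) ⊓ (T : Subgroup G)))
    (H : Subgroup G) [H.Normal] (hodd : (Nat.card H).Coprime 2) :
    ∀ S T : Sylow 2 (G ⧸ H), S ≠ T → Prk ((S : Subgroup (G ⧸ H)) ⊓ (T : Subgroup (G ⧸ H))) := by
  classical
  intro Pb Qb hne
  let π : G →* G ⧸ H := QuotientGroup.mk' H
  have hπ : Function.Surjective π := QuotientGroup.mk'_surjective H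
  set Rb : Subgroup (G ⧸ H) := (Pb : Subgroup (G ⧸ H)) ⊓ (Qb : Subgroup (G ⧸ H)) with hRb
  set X : Subgroup G := Rb.comap π with hX
  let f : X →* Rb := π.subgroupComap Rb
  have hf : Function.Surjective f := by
    rintro ⟨y, hy⟩
    obtain ⟨g, rfl⟩ := hπ y
    exact ⟨⟨g, hy⟩, rfl⟩
  obtain ⟨Q₀⟩ : Nonempty (Sylow 2 X) := inferInstance
  have hRbp : IsPGroup 2 Rb := IsPGroup.to_le Pb.isPGroup' inf_le_left
  have hmapQ : (Q₀ : Subgroup X).map f = ⊤ := by
    have hs := (Sylow.mapSurjective hf Q₀).is_maximal' (Q := ⊤) (by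
      exact IsPGroup.of_equiv hRbp Subgroup.topEquiv.symm) le_top
    exact hs.symm
  set R : Subgroup G := (Q₀ : Subgroup X).map X.subtype with hR
  have hRX : R ≤ X := by
    rintro _ ⟨y, _, rfl⟩
    exact y.2
  have hRp : IsPGroup 2 R := Q₀.isPGroup'.map X.subtype
  have hRmap : R.map π = Rb := by
    apply le_antisymm
    · rintro _ ⟨y, hy, rfl⟩
      exact hRX hy
    · intro y hy
      have : (⟨y, hy⟩ : Rb) ∈ (Q₀ : Subgroup X).map f := by rw [hmapQ]; trivial
      obtain ⟨a, ha, hae⟩ := this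
      refine ⟨a, ⟨a, ha, rfl⟩, ?_⟩
      exact congrArg Subtype.val hae
  have key : ∀ P : Sylow 2 (G ⧸ H), Rb ≤ (P : Subgroup (G ⧸ H)) →
      ∃ S : Sylow 2 G, R ≤ (S : Subgroup G) ∧ (S : Subgroup G).map π = (P : Subgroup (G ⧸ H)) := by
    intro P hP
    obtain ⟨S₀, hS₀⟩ := Sylow.mapSurjective_surjective hπ 2 P
    have hS₀m : (S₀ : Subgroup G).map π = (P : Subgroup (G ⧸ H)) := by
      rw [← hS₀]; rfl
    set Y : Subgroup G := (P : Subgroup (G ⧸ H)).comap π with hY
    have hS₀Y : (S₀ : Subgroup G) ≤ Y := by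
      intro s hs
      show π s ∈ (P : Subgroup (G ⧸ H))
      rw [← hS₀m]
      exact ⟨s, hs, rfl⟩
    have hRY : R ≤ Y := hRX.trans (Subgroup.comap_mono hP)
    obtain ⟨c, hcY, hc⟩ := exists_conj_le_sylow_of_le Y R S₀ hS₀Y hRY hRp
    refine ⟨c⁻¹ • S₀, ?_, ?_⟩
    · intro r hr
      rw [Sylow.coe_subgroup_smul, Subgroup.mem_pointwise_smul_iff_inv_smul_mem]
      simpa [MulAut.smul_def] using hc r hr
    · have hcP : π c ∈ (P : Subgroup (G ⧸ H)) := hcY
      apply le_antisymm
      · rintro _ ⟨s, hs, rfl⟩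
        replace hs : s ∈ ((c⁻¹ • S₀ : Sylow 2 G) : Subgroup G) := hs
        rw [Sylow.coe_subgroup_smul, Subgroup.mem_pointwise_smul_iff_inv_smul_mem] at hs
        have h1 : c * s * c⁻¹ ∈ (S₀ : Subgroup G) := by simpa [MulAut.smul_def] using hs
        have h2 : π (c * s * c⁻¹) ∈ (P : Subgroup (G ⧸ H)) := by
          rw [← hS₀m]; exact ⟨_, h1, rfl⟩
        have h3 : π s = (π c)⁻¹ * π (c * s * c⁻¹) * π c := by
          simp [map_mul, mul_assoc]
        rw [h3]
        exact Subgroup.mul_mem _ (Subgroup.mul_mem _ (Subgroup.inv_mem _ hcP) h2) hcP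
      · intro y hy
        have hy' : (π c) * y * (π c)⁻¹ ∈ (S₀ : Subgroup G).map π := by
          rw [hS₀m]
          exact Subgroup.mul_mem _ (Subgroup.mul_mem _ hcP hy) (Subgroup.inv_mem _ hcP)
        obtain ⟨s, hs, hse⟩ := hy'
        refine ⟨c⁻¹ * s * c, ?_, ?_⟩
        · show c⁻¹ * s * c ∈ ((c⁻¹ • S₀ : Sylow 2 G) : Subgroup G)
          rw [Sylow.coe_subgroup_smul, Subgroup.mem_pointwise_smul_iff_inv_smul_mem]
          have e : (MulAut.conj c⁻¹)⁻¹ • (c⁻¹ * s * c) = s := by
            simp [MulAut.smul_def, mul_assoc]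
          rw [e]; exact hs
        · rw [map_mul, map_mul, hse, map_inv]
          group
  obtain ⟨S, hRS, hSm⟩ := key Pb inf_le_left
  obtain ⟨T, hRT, hTm⟩ := key Qb inf_le_right
  have hST : S ≠ T := by
    intro h
    apply hne
    apply Sylow.ext
    rw [← hSm, ← hTm, h]
  have hpr := hI S T hST
  -- `π` is injective on `R`
  have hker : ∀ r ∈ R, π r = 1 → r = 1 := by
    intro r hr h1
    have hrH : r ∈ H := (QuotientGroup.eq_one_iff r).mp h1
    obtain ⟨k, hk⟩ := (IsPGroup.iff_orderOf.mp hRp) ⟨r, hr⟩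
    have h2 : orderOf r = 2 ^ k := by rw [← hk]; exact (Subgroup.orderOf_mk r hr).symm
    have h3 : orderOf (⟨r, hrH⟩ : H) = orderOf r := Subgroup.orderOf_mk r hrH
    have h4 : orderOf r ∣ Nat.card H := h3 ▸ orderOf_dvd_natCard (⟨r, hrH⟩ : H)
    have h5 : Nat.Coprime (orderOf r) (Nat.card H) := by
      rw [h2]
      exact Nat.Coprime.pow_left _ hodd.symm
    have h6 : orderOf r = 1 := Nat.eq_one_of_dvd_coprimes h5 dvd_rfl h4
    exact orderOf_eq_one_iff.mp h6
  intro A hARb hc he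
  set B : Subgroup G := R ⊓ A.comap π with hB
  have hBR : B ≤ R := inf_le_left
  have hBpr : ∀ x ∈ B, π x ∈ A := fun x hx => hx.2
  have hcB : ∀ x ∈ B, ∀ y ∈ B, x * y = y * x := by
    intro x hx y hy
    have h1 : π (x * y * (y * x)⁻¹) = 1 := by
      rw [map_mul, map_inv, map_mul, map_mul, hc _ (hBpr x hx) _ (hBpr y hy)]
      group
    have h2 := hker _ (R.mul_mem (R.mul_mem (hBR hx) (hBR hy)) (R.inv_mem (R.mul_mem (hBR hy) (hBR hx)))) h1
    exact mul_inv_eq_one.mp h2
  have heB : ∀ x ∈ B, x ^ 2 = 1 := by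
    intro x hx
    apply hker _ (R.pow_mem (hBR hx) 2)
    rw [map_pow]
    exact he _ (hBpr x hx)
  have h1 := hpr B (hBR.trans (le_inf hRS hRT)) hcB heB
  have h2 : Nat.card A ≤ Nat.card B := by
    have hs : Function.Surjective (fun x : B => (⟨π x, hBpr x x.2⟩ : A)) := by
      rintro ⟨y, hy⟩
      have hy' : y ∈ R.map π := by rw [hRmap]; exact hARb hy
      obtain ⟨r, hr, rfl⟩ := hy'
      exact ⟨⟨r, hr, hy⟩, rfl⟩
    exact Nat.card_le_card_of_surjective _ hs
  exact h2.trans h1

end quot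

section klein

set_option linter.unusedSectionVars false

variable {K : Type*} [Group K] [Finite K]

/-- two commuting involutions contradict `Prk` -/
theorem no_klein {X : Subgroup K} (h : Prk X) {u w : K} (hu : u ∈ X) (hw : w ∈ X) (huw : u * w = w * u)
    (hu2 : u ^ 2 = 1) (hw2 : w ^ 2 = 1) (hu1 : u ≠ 1) (hw1 : w ≠ 1) (hne : u ≠ w) : False := by
  classical
  set A : Subgroup K := Subgroup.closure {u, w} with hA
  have hAX : A ≤ X := by
    rw [hA, Subgroup.closure_le]
    rintro x (rfl | rfl)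
    · exact hu
    · exact hw
  have hAC : A ≤ Subgroup.centralizer ({u, w} : Set K) := by
    rw [hA, Subgroup.closure_le]
    rintro x (rfl | rfl)
    · rw [SetLike.mem_coe, Subgroup.mem_centralizer_iff]
      rintro y (rfl | rfl)
      · rfl
      · exact huw.symm
    · rw [SetLike.mem_coe, Subgroup.mem_centralizer_iff]
      rintro y (rfl | rfl)
      · exact huw
      · rfl
  have hcomm : ∀ x ∈ A, ∀ y ∈ A, x * y = y * x := by
    intro x hx y hy
    have h1 : A ≤ Subgroup.centralizer ({x} : Set K) := by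
      rw [hA, Subgroup.closure_le]
      rintro t ht
      have := (Subgroup.mem_centralizer_iff.1 (hAC hx)) t ht
      rw [SetLike.mem_coe, Subgroup.mem_centralizer_iff]
      rintro _ rfl
      exact this.symm
    have := (Subgroup.mem_centralizer_iff.1 (h1 hy)) x rfl
    exact this
  have hexp : ∀ x ∈ A, x ^ 2 = 1 := by
    intro x hx
    induction hx using Subgroup.closure_induction with
    | mem x hx =>
      rcases hx with rfl | rfl
      · exact hu2
      · exact hw2
    | one => simp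
    | mul a b ha hb h1 h2 =>
      have := hcomm a ha b hb
      rw [(show Commute a b from this).mul_pow, h1, h2, one_mul]
    | inv a ha h1 => rw [inv_pow, h1, inv_one]
  have h1 := h A hAX hcomm hexp
  have h3 : ({1, u, w} : Set K) ⊆ (A : Set K) := by
    rintro x (rfl | rfl | rfl)
    · exact A.one_mem
    · exact Subgroup.subset_closure (by simp)
    · exact Subgroup.subset_closure (by simp)
  have h4 : ({1, u, w} : Set K).ncard = 3 := by
    rw [Set.ncard_eq_three]
    exact ⟨1, u, w, hu1.symm, hw1.symm, hne, rfl⟩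
  have h5 := Set.ncard_le_ncard h3 (Set.toFinite _)
  rw [h4] at h5
  have h6 : (A : Set K).ncard = Nat.card A := (Nat.card_coe_set_eq _).symm
  omega

/-- A `2`-group without Klein subgroups has a unique involution. -/
theorem uniqueP_of_prk {F : Subgroup K} (hF : IsPGroup 2 F) (h : Prk F) : Cfsg.Agent.H14.UniqueP 2 F := by
  classical
  intro x y hx hy
  haveI : Nontrivial F := ⟨⟨x, 1, fun h1 => by rw [h1, orderOf_one] at hx; omega⟩⟩
  have hcn := hF.center_nontrivial
  obtain ⟨m, hm⟩ := IsPGroup.iff_card.mp (hF.to_subgroup (Subgroup.center F))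
  have hm0 : m ≠ 0 := by
    rintro rfl
    have := Finite.one_lt_card (α := Subgroup.center F)
    rw [hm] at this
    simp at this
  have h2 : 2 ∣ Nat.card (Subgroup.center F) := by
    rw [hm]; exact dvd_pow_self 2 hm0
  obtain ⟨w, hw⟩ := exists_prime_orderOf_dvd_card' (G := Subgroup.center F) 2 h2
  have hkey : ∀ v : F, orderOf v = 2 → v = (w : F) := by
    intro v hv
    by_contra hne
    have hw' : orderOf (w : F) = 2 := by rw [Subgroup.orderOf_coe]; exact hw
    have hv2 : (v : K) ^ 2 = 1 := by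
      have := pow_orderOf_eq_one v
      rw [hv] at this
      exact congrArg Subtype.val this
    have hw2 : (((w : F) : K)) ^ 2 = 1 := by
      have := pow_orderOf_eq_one (w : F)
      rw [hw'] at this
      exact congrArg Subtype.val this
    have hv1 : (v : K) ≠ 1 := fun h1 => by
      have : v = 1 := Subtype.ext h1
      rw [this, orderOf_one] at hv
      omega
    have hw1 : (((w : F) : K)) ≠ 1 := fun h1 => by
      have : (w : F) = 1 := Subtype.ext h1
      rw [this, orderOf_one] at hw'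
      omega
    have hc : (v : K) * ((w : F) : K) = ((w : F) : K) * (v : K) := by
      have := (Subgroup.mem_center_iff.1 w.2) v
      exact congrArg Subtype.val this
    exact no_klein h v.2 (w : F).2 hc hv2 hw2 hv1 hw1 (fun h1 => hne (Subtype.ext h1))
  have h1 := hkey x hx
  have h2 := hkey y hy
  rw [h2, ← h1]
  exact Subgroup.mem_zpowers x

end klein

section q8facts

open QuaternionGroup

theorem Qa (q : QQ) : q ^ 2 = 1 → q = 1 ∨ q = a 2 := by
  revert q; decide +kernel

theorem Qb (q : QQ) : q ≠ 1 → q ≠ a 2 → q ^ 2 = a 2 := by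
  revert q; decide +kernel

theorem Qc (q : QQ) : (∀ r : QQ, q * r = r * q) → q = 1 ∨ q = a 2 := by
  revert q; decide +kernel

theorem Qc' (r : QQ) : (a 2 : QQ) * r = r * a 2 := by
  revert r; decide +kernel

theorem Qd0 : ∀ x y w : QQ, (x ≠ 1 ∧ x ≠ a 2 ∧ y ≠ 1 ∧ y ≠ a 2 ∧ w ≠ 1 ∧ w ≠ a 2 ∧
    x ≠ y ∧ x ≠ y * a 2 ∧ x ≠ w ∧ x ≠ w * a 2 ∧ y ≠ w ∧ y ≠ w * a 2) →
    y * y = x ^ 2 ∧ y * x * y⁻¹ = x⁻¹ ∧ (w = x * y ∨ w = y * x) := by
  decide +kernel

theorem Qe (q : QQ) : q ≠ 1 → ∃ m : Fin 4, q ^ m.val = a 2 := by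
  revert q; decide +kernel

end q8facts

section s4facts

abbrev S4 := Equiv.Perm (Fin 4)

theorem S4a (u : S4) : u ^ 2 = 1 → u ≠ 1 → (∃ x, u x = x) →
    ∃ g : S4, u * (g * u * g⁻¹) ≠ 1 ∧ (u * (g * u * g⁻¹)) ^ 3 = 1 := by
  revert u; decide +kernel

theorem S4b (u v : S4) : u ^ 2 = 1 → u ≠ 1 → (∀ x, u x ≠ x) → v ^ 2 = 1 → v ≠ 1 → (∀ x, v x ≠ x) →
    ∃ g : S4, g * u * g⁻¹ = v := by
  revert u v; decide +kernel

theorem S4c0 : ∀ τ : S4, (τ ^ 2 = 1 ∧ τ ≠ 1 ∧ (∃ x, τ x = x)) →
    ∃ c v : S4, c ^ 3 = 1 ∧ c ≠ 1 ∧ τ * c * τ⁻¹ = c⁻¹ ∧ v ≠ 1 ∧ v ^ 2 = 1 ∧ (∀ x, v x ≠ x) ∧ τ * v * τ⁻¹ = v ∧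
      c * v * c⁻¹ ≠ v ∧ c⁻¹ * v * c ≠ v ∧ c * v * c⁻¹ ≠ c⁻¹ * v * c ∧
      τ * c ≠ 1 ∧ τ * c ^ 2 ≠ 1 := by
  decide +kernel

end s4facts

section setup

variable {K : Type*} [Group K] [Finite K]

open QuaternionGroup in
theorem q8_setup (hs : Group.IsSolvable K) (hO : oddCore K = ⊥)
    (hI : ∀ S T : Sylow 2 K, S ≠ T → Prk ((S : Subgroup K) ⊓ (T : Subgroup K)))
    (hsub : ¬ Subsingleton (Sylow 2 K)) :
    Nonempty (↥(pCore 2 K) ≃* QQ) ∧ Nat.card K = 48 := by
  classical
  rw [not_subsingleton_iff_nontrivial] at hsub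
  obtain ⟨S, T, hST⟩ := exists_pair_ne (Sylow 2 K)
  set F := pCore 2 K with hFdef
  have hFp : IsPGroup 2 F := Cfsg.Agent.H01.pCore_isPGroup 2
  haveI hFn : F.Normal := Cfsg.Agent.H01.pCore_normal 2
  have hFmax : ∀ N : Subgroup K, N.Normal → IsPGroup 2 N → N ≤ F := fun N hN hp =>
    Cfsg.Agent.H01.le_pCore hN hp
  have hCF := centralizer_pCore_two_le hs hO
  have hFST : F ≤ (S : Subgroup K) ⊓ (T : Subgroup K) :=
    le_inf (Cfsg.Agent.H01.pCore_le_sylow 2 S) (Cfsg.Agent.H01.pCore_le_sylow 2 T)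
  have hk : Prk F := fun A hA hc he => hI S T hST A (hA.trans hFST) hc he
  have hU := uniqueP_of_prk hFp hk
  have hnot2 : ¬ IsPGroup 2 K := by
    intro h
    apply hST
    apply Sylow.ext
    rw [sylow_eq_top_of_isPGroup h S, sylow_eq_top_of_isPGroup h T]
  have hFoddt : ∀ g ∈ F, Odd (orderOf g) → g = 1 := by
    intro g hg hodd
    obtain ⟨k, hk⟩ := IsPGroup.iff_orderOf.mp hFp ⟨g, hg⟩
    have h4 : orderOf g = 2 ^ k := by
      rw [← hk]; exact (Subgroup.orderOf_mk g hg).symm
    rw [h4] at hodd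
    rcases k with _ | k
    · exact orderOf_eq_one_iff.mp (by simpa using h4)
    · exact absurd hodd (by simp [pow_succ, Nat.not_odd_iff_even])
  obtain ⟨g, hgodd, hg1⟩ : ∃ g : K, Odd (orderOf g) ∧ g ≠ 1 := by
    by_contra hcon
    push Not at hcon
    exact hnot2 (isPGroup_two_of_odd_trivial hcon)
  have hgnc : ∃ f ∈ F, g * f ≠ f * g := by
    by_contra hcon
    push Not at hcon
    have h1 : g ∈ F := hCF (Subgroup.mem_centralizer_iff.2 fun f hf => (hcon f hf).symm)
    exact hg1 (hFoddt g h1 hgodd)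
  have hgN : ∀ f ∈ F, g * f * g⁻¹ ∈ F := fun f hf => hFn.conj_mem f hf g
  rcases Cfsg.Agent.H14.isCyclic_or_quaternion hFp hU with hc | ⟨_, k, hk1, ⟨e⟩⟩
  · exfalso
    obtain ⟨f, hf, hne⟩ := hgnc
    exact hne (commute_of_odd_of_cyclic_two F hFp (g := g) (by
      rw [Subgroup.normalizer_eq_top]; trivial) hgodd f hf)
  -- the cyclic subgroup of index two
  have hM : TwoMaxCyc F ((e.symm (QuaternionGroup.a 1) : F) : K) :=
    (TwoMaxCyc.of_mulEquiv e (Cfsg.Agent.S0106.twoMaxCyc_quat k hk1)).of_subgroup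
  let zR : F := e.symm (QuaternionGroup.a ((2 ^ k : ℕ) : ZMod (2 * 2 ^ k)))
  let z : K := zR
  have hzpow : z ∈ Subgroup.zpowers ((e.symm (QuaternionGroup.a 1) : F) : K) := by
    refine Subgroup.mem_zpowers_iff.2 ⟨((2 ^ k : ℕ) : ℤ), ?_⟩
    rw [zpow_natCast]
    show _ = ((e.symm (QuaternionGroup.a ((2 ^ k : ℕ) : ZMod (2 * 2 ^ k))) : F) : K)
    rw [← QuaternionGroup.a_one_pow, map_pow, Subgroup.coe_pow]
  have hz1 : z ≠ 1 := by
    intro h1
    have h2 : zR = 1 := Subtype.ext h1
    have h3 : QuaternionGroup.a ((2 ^ k : ℕ) : ZMod (2 * 2 ^ k)) = (1 : QuaternionGroup (2 ^ k)) :=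
      (MulEquiv.map_eq_one_iff e.symm).mp h2
    rw [QuaternionGroup.one_def] at h3
    exact Cfsg.Agent.S0106.natCast_ne_zero_quat (2 ^ k) (by positivity) (QuaternionGroup.a.inj h3)
  have hz2 : z ^ 2 = 1 := by
    have h2 : zR ^ 2 = 1 := by
      show (e.symm _) ^ 2 = 1
      rw [← map_pow, sq, QuaternionGroup.a_mul_a, Cfsg.Agent.S0106.natCast_add_self_quat,
        QuaternionGroup.a_zero, map_one]
    exact congrArg Subtype.val h2
  have hzF : z ∈ F := zR.2
  have hord2 : ∀ v : K, v ^ 2 = 1 → v ≠ 1 → orderOf v = 2 := fun v h1 h2 =>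
    orderOf_eq_prime h1 h2
  have huniq : ∀ u ∈ F, u ^ 2 = 1 → u ≠ 1 → u = z := by
    intro u hu hu2 hu1
    have h1 : orderOf (⟨u, hu⟩ : F) = 2 := by rw [Subgroup.orderOf_mk]; exact hord2 u hu2 hu1
    have h2 : orderOf zR = 2 := by rw [← Subgroup.orderOf_coe]; exact hord2 z hz2 hz1
    have h3 := hU _ _ h1 h2
    have h4 : zR ^ 2 = 1 := Subtype.ext hz2
    obtain ⟨m, hm⟩ := Subgroup.mem_zpowers_iff.1 h3
    rcases Int.even_or_odd m with ⟨n, rfl⟩ | ⟨n, rfl⟩
    · exfalso
      apply hz1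
      have h5 : (⟨u, hu⟩ : F) ^ (2 : ℤ) = 1 := by
        apply Subtype.ext
        simpa using hu2
      have h6 : zR = 1 := by
        rw [← hm, ← two_mul, zpow_mul, h5, one_zpow]
      exact congrArg Subtype.val h6
    · have h5 : (⟨u, hu⟩ : F) ^ (2 : ℤ) = 1 := by
        apply Subtype.ext
        simpa using hu2
      have h6 : zR = ⟨u, hu⟩ := by
        rw [← hm, zpow_add, zpow_mul, h5, one_zpow, one_mul, zpow_one]
      exact (congrArg Subtype.val h6).symm
  have hgz : g * z * g⁻¹ = z := by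
    apply huniq _ (hgN z hzF)
    · rw [conj_pow, hz2]; group
    · intro h1
      apply hz1
      have : z = g⁻¹ * (g * z * g⁻¹) * g := by group
      rw [this, h1]; group
  obtain ⟨c, hcF, htA, hcA, hc4, hc2, htt, htc, hNF, hS⟩ := q8_of_noncentral hM le_rfl hgodd hgN hgnc
    (Subgroup.zpowers z) (by rw [Subgroup.zpowers_le]; exact hzF) (by rw [Subgroup.zpowers_le]; exact hzpow)
    (by rw [Ne, Subgroup.zpowers_eq_bot]; exact hz1) (by
      intro w hw
      obtain ⟨m, rfl⟩ := Subgroup.mem_zpowers_iff.1 hw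
      rw [← conj_zpow, hgz]
      exact zpow_mem (Subgroup.mem_zpowers z) m)
  have hjF : g * c * g⁻¹ ∈ F := hgN c hcF
  have hidx := index_dvd_six_of_q8 hFp hFmax hCF hcF hjF hc4 hc2 htt htc hNF
  -- `F` has order 8
  have hcardF : Nat.card F = 4 * 2 ^ k := by
    rw [Nat.card_congr e.toEquiv, Nat.card_eq_fintype_card, QuaternionGroup.card]
  have hle8 : Nat.card F ≤ 8 := by
    let φ : Fin 4 × Fin 2 → F := fun p => ⟨c ^ p.1.val * (g * c * g⁻¹) ^ p.2.val,
      F.mul_mem (F.pow_mem hcF _) (F.pow_mem hjF _)⟩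
    have hφ : Function.Surjective φ := by
      rintro ⟨f, hf⟩
      obtain ⟨i, b, h1⟩ := hNF f hf
      exact ⟨(i, b), Subtype.ext h1.symm⟩
    have := Nat.card_le_card_of_surjective φ hφ
    simpa using this
  have hk1' : k = 1 := by
    rw [hcardF] at hle8
    have h2 : 2 ^ k ≤ 2 ^ 1 := by omega
    have := (Nat.pow_le_pow_iff_right (by norm_num : 1 < 2)).mp h2
    omega
  subst hk1'
  have hF8 : Nat.card F = 8 := by rw [hcardF]; norm_num
  have hmul : Nat.card F * F.index = Nat.card K := F.card_mul_index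
  refine ⟨⟨e⟩, ?_⟩
  -- the index
  have h3 : 3 ∣ F.index := by
    by_contra hn
    apply hnot2
    have h1 : F.index = 1 ∨ F.index = 2 := by
      have h2 : F.index ∈ Nat.divisors 6 := by
        simp [Nat.mem_divisors, hidx]
      have h4 : Nat.divisors 6 = {1, 2, 3, 6} := by decide
      rw [h4] at h2
      simp only [Finset.mem_insert, Finset.mem_singleton] at h2
      rcases h2 with h | h | h | h
      · exact Or.inl h
      · exact Or.inr h
      · rw [h] at hn; exact absurd (dvd_refl 3) hn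
      · rw [h] at hn; exact absurd (by norm_num) hn
    rw [IsPGroup.iff_card]
    rcases h1 with h | h
    · exact ⟨3, by rw [← hmul, hF8, h]; norm_num⟩
    · exact ⟨4, by rw [← hmul, hF8, h]; norm_num⟩
  have h2 : 2 ∣ F.index := by
    by_contra hn
    apply hST
    have hOdd : F.index.Coprime 2 := ((Nat.Prime.coprime_iff_not_dvd Nat.prime_two).2 hn).symm
    have hall : ∀ P : Sylow 2 K, (P : Subgroup K) = F := by
      intro P
      have hFP : F ≤ (P : Subgroup K) := Cfsg.Agent.H01.pCore_le_sylow 2 P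
      symm
      apply Subgroup.eq_of_le_of_card_ge hFP
      obtain ⟨m, hm⟩ := IsPGroup.iff_card.mp P.isPGroup'
      obtain ⟨d, hd⟩ := Subgroup.card_dvd_of_le hFP
      have h5 : d ∣ F.index := by
        have h6 : Nat.card P ∣ Nat.card K := Subgroup.card_subgroup_dvd_card _
        rw [← hmul, hd] at h6
        exact Nat.dvd_of_mul_dvd_mul_left (by rw [hF8]; norm_num) h6
      have h7 : d ∣ 2 ^ m := ⟨Nat.card F, by rw [← hm, hd, mul_comm]⟩
      obtain ⟨j, _, hj⟩ := (Nat.dvd_prime_pow Nat.prime_two).1 h7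
      have h8 : d = 1 := by
        rcases j with _ | j
        · simpa using hj
        · exfalso
          have h9 : 2 ∣ d := by rw [hj]; exact dvd_pow_self 2 (by omega)
          exact hn (h9.trans h5)
      rw [hd, h8, mul_one]
    apply Sylow.ext
    rw [hall S, hall T]
  have h6 : 6 ∣ F.index := by
    have : Nat.Coprime 2 3 := by norm_num
    exact this.mul_dvd_of_dvd_of_dvd h2 h3
  have h7 : F.index = 6 := Nat.dvd_antisymm hidx h6
  rw [← hmul, hF8, h7]

end setup

section final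

variable {K : Type*} [Group K] [Finite K]

open QuaternionGroup in
theorem final_core (hs : Group.IsSolvable K) (hO : oddCore K = ⊥)
    (e : ↥(pCore 2 K) ≃* QQ) (h48 : Nat.card K = 48) :
    Nonempty (K ≃* GL (Fin 2) (ZMod 3)) ∨
    (Nat.card K = 48 ∧ Nat.card ↥(Subgroup.center K) = 2 ∧
      Nonempty (K ⧸ Subgroup.center K ≃* Equiv.Perm (Fin 4)) ∧
      ∀ P : Sylow 2 K, Nonempty (↥(P : Subgroup K) ≃* QuaternionGroup 4)) := by
  classical
  set F := pCore 2 K with hFdef
  have hFp : IsPGroup 2 F := Cfsg.Agent.H01.pCore_isPGroup 2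
  haveI hFn : F.Normal := Cfsg.Agent.H01.pCore_normal 2
  have hFmax : ∀ N : Subgroup K, N.Normal → IsPGroup 2 N → N ≤ F := fun N hN hp =>
    Cfsg.Agent.H01.le_pCore hN hp
  have hCF : Subgroup.centralizer (F : Set K) ≤ F := centralizer_pCore_two_le hs hO
  have hFoddt : ∀ g ∈ F, Odd (orderOf g) → g = 1 := by
    intro g hg hodd
    obtain ⟨k, hk⟩ := IsPGroup.iff_orderOf.mp hFp ⟨g, hg⟩
    have h4 : orderOf g = 2 ^ k := by
      rw [← hk]; exact (Subgroup.orderOf_mk g hg).symm
    rw [h4] at hodd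
    rcases k with _ | k
    · exact orderOf_eq_one_iff.mp (by simpa using h4)
    · exact absurd hodd (by simp [pow_succ, Nat.not_odd_iff_even])
  have hF8 : Nat.card F = 8 := by
    rw [Nat.card_congr e.toEquiv, Nat.card_eq_fintype_card, QuaternionGroup.card]
  have hFi : F.index = 6 := by
    have h1 := F.card_mul_index
    rw [hF8, h48] at h1
    omega
  -- coordinates
  let z : K := (e.symm (a 2) : F)
  have hzF : z ∈ F := (e.symm (a 2) : F).2
  have he1 : ∀ f (hf : f ∈ F), e ⟨f, hf⟩ = 1 → f = 1 := by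
    intro f hf h
    have := (MulEquiv.map_eq_one_iff e).mp h
    exact congrArg Subtype.val this
  have hez : ∀ f (hf : f ∈ F), e ⟨f, hf⟩ = a 2 → f = z := by
    intro f hf h
    have h1 : (⟨f, hf⟩ : F) = e.symm (a 2) := by
      rw [MulEquiv.eq_symm_apply]; exact h
    exact congrArg Subtype.val h1
  have hz1 : z ≠ 1 := by
    intro h
    have h1 : (e.symm (a 2) : F) = 1 := Subtype.ext h
    have h2 := (MulEquiv.map_eq_one_iff e.symm).mp h1
    exact absurd h2 (by decide)
  have hz2 : z ^ 2 = 1 := by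
    have h1 : (e.symm (a 2) : F) ^ 2 = 1 := by
      rw [← map_pow]
      have : (a 2 : QQ) ^ 2 = 1 := by decide
      rw [this, map_one]
    exact congrArg Subtype.val h1
  have hF2 : ∀ f ∈ F, f ^ 2 = 1 → f = 1 ∨ f = z := by
    intro f hf h
    have h1 : e ⟨f, hf⟩ ^ 2 = 1 := by
      rw [← map_pow]
      have : (⟨f, hf⟩ : F) ^ 2 = 1 := Subtype.ext h
      rw [this, map_one]
    rcases Qa _ h1 with h2 | h2
    · exact Or.inl (he1 f hf h2)
    · exact Or.inr (hez f hf h2)
  have hFb : ∀ f ∈ F, f ≠ 1 → f ≠ z → f ^ 2 = z := by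
    intro f hf h1 h2
    have h3 := Qb (e ⟨f, hf⟩) (fun h => h1 (he1 f hf h)) (fun h => h2 (hez f hf h))
    exact hez _ (F.pow_mem hf 2) (by rw [← h3, ← map_pow]; rfl)
  have hzc : ∀ g : K, g * z = z * g := by
    intro g
    have h1 : g * z * g⁻¹ ∈ F := hFn.conj_mem z hzF g
    have h2 : (g * z * g⁻¹) ^ 2 = 1 := by rw [conj_pow, hz2]; group
    rcases hF2 _ h1 h2 with h3 | h3
    · exfalso
      apply hz1
      have : z = g⁻¹ * (g * z * g⁻¹) * g := by group
      rw [this, h3]; group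
    · calc g * z = (g * z * g⁻¹) * g := by group
        _ = z * g := by rw [h3]
  have hcen : ∀ x : K, x ∈ Subgroup.center K ↔ x = 1 ∨ x = z := by
    intro x
    constructor
    · intro hx
      have h1 : x ∈ F := hCF (Subgroup.mem_centralizer_iff.2 fun f _ => (Subgroup.mem_center_iff.1 hx f))
      have h2 : ∀ r : QQ, e ⟨x, h1⟩ * r = r * e ⟨x, h1⟩ := by
        intro r
        obtain ⟨f, rfl⟩ := e.surjective r
        rw [← map_mul, ← map_mul]
        congr 1
        exact Subtype.ext (Subgroup.mem_center_iff.1 hx (f : K)).symm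
      rcases Qc _ h2 with h3 | h3
      · exact Or.inl (he1 x h1 h3)
      · exact Or.inr (hez x h1 h3)
    · rintro (rfl | rfl)
      · exact Subgroup.one_mem _
      · exact Subgroup.mem_center_iff.2 hzc
  set Z := Subgroup.center K with hZdef
  have hZcard : Nat.card Z = 2 := by
    have h1 : (Z : Set K) = {1, z} := by
      ext x
      simp only [SetLike.mem_coe, hcen x, Set.mem_insert_iff, Set.mem_singleton_iff]
    calc Nat.card Z = (Z : Set K).ncard := Nat.card_coe_set_eq _
      _ = ({1, z} : Set K).ncard := by rw [h1]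
      _ = 2 := Set.ncard_pair hz1.symm
  have hZF : Z ≤ F := by
    intro x hx
    rcases (hcen x).1 hx with rfl | rfl
    · exact F.one_mem
    · exact hzF
  let π : K →* K ⧸ Z := QuotientGroup.mk' Z
  have hπs : Function.Surjective π := QuotientGroup.mk'_surjective Z
  have hπker : π.ker = Z := QuotientGroup.ker_mk' Z
  have hπeq : ∀ x y : K, π x = π y → y = x ∨ y = x * z := by
    intro x y h
    have h1 : x⁻¹ * y ∈ Z := by
      rw [← hπker, MonoidHom.mem_ker, map_mul, map_inv, h]; group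
    rcases (hcen _).1 h1 with h2 | h2
    · left
      rw [← mul_one x, ← h2]; group
    · right
      rw [← h2]; group
  have h24 : Nat.card (K ⧸ Z) = 24 := by
    have h1 := Z.card_mul_index
    rw [hZcard, h48] at h1
    have : Nat.card (K ⧸ Z) = Z.index := rfl
    omega
  set V : Subgroup (K ⧸ Z) := F.map π with hVdef
  haveI hVn : V.Normal := Subgroup.Normal.map hFn π hπs
  have hVcomap : V.comap π = F := by
    rw [hVdef, Subgroup.comap_map_eq_self]
    rw [hπker]; exact hZF
  have hVcard : Nat.card V = 4 := by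
    have h1 : V.index = 6 := by
      rw [← Subgroup.index_comap_of_surjective V hπs, hVcomap, hFi]
    have h2 := V.card_mul_index
    rw [h24, h1] at h2
    omega
  have hVC : ∀ g : K ⧸ Z, (∀ v ∈ V, g * v = v * g) → g ∈ V := by
    set N : Subgroup K := (Subgroup.centralizer (V : Set (K ⧸ Z))).comap π with hN
    haveI hNn : N.Normal := by
      haveI : (Subgroup.centralizer (V : Set (K ⧸ Z))).Normal := Subgroup.normal_centralizer (H := V)
      exact Subgroup.Normal.comap inferInstance π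
    have hNodd : ∀ n ∈ N, Odd (orderOf n) → n = 1 := by
      intro n hn hodd
      have hcomm : ∀ f ∈ F, n * f = f * n := by
        intro f hf
        by_cases hf1 : f = 1
        · rw [hf1, mul_one, one_mul]
        by_cases hfz : f = z
        · rw [hfz]; exact hzc n
        have hfs : f ^ 2 = z := hFb f hf hf1 hfz
        have hf4 : f ^ (2 ^ 2) = 1 := by
          have : f ^ (2 ^ 2) = (f ^ 2) ^ 2 := by rw [← pow_mul]; rfl
          rw [this, hfs, hz2]
        have h1 : π (n * f * n⁻¹) = π f := by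
          have h2 : π n ∈ Subgroup.centralizer (V : Set (K ⧸ Z)) := hn
          have h3 := Subgroup.mem_centralizer_iff.1 h2 (π f) ⟨f, hf, rfl⟩
          rw [map_mul, map_mul, map_inv, ← h3]
          group
        have h4 : n * f * n⁻¹ ∈ Subgroup.zpowers f := by
          rcases hπeq _ _ h1.symm with h5 | h5
          · rw [h5]; exact Subgroup.mem_zpowers f
          · rw [h5, ← hfs]
            exact Subgroup.mul_mem _ (Subgroup.mem_zpowers f) (Subgroup.pow_mem _ (Subgroup.mem_zpowers f) 2)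
        exact odd_comm_of_conj_mem_zpowers hodd hf4 h4
      have h1 : n ∈ F := hCF (Subgroup.mem_centralizer_iff.2 fun f hf => (hcomm f hf).symm)
      exact hFoddt n h1 hodd
    have hNp : IsPGroup 2 N := by
      apply isPGroup_two_of_odd_trivial
      rintro ⟨n, hn⟩ hodd
      have h1 : Odd (orderOf n) := by rwa [Subgroup.orderOf_mk] at hodd
      exact Subtype.ext (hNodd n hn h1)
    have hNF : N ≤ F := hFmax N hNn hNp
    intro g hg
    obtain ⟨g₀, rfl⟩ := hπs g
    have h1 : g₀ ∈ N := by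
      show π g₀ ∈ Subgroup.centralizer (V : Set (K ⧸ Z))
      exact Subgroup.mem_centralizer_iff.2 fun v hv => (hg v hv).symm
    exact ⟨g₀, hNF h1, rfl⟩
  obtain ⟨E⟩ := Cfsg.Agent.H03.S4R.sym_four_of V hVcard hVC h24
  let p : K →* S4 := E.toMonoidHom.comp π
  have hps : Function.Surjective p := E.surjective.comp hπs
  have hpeq : ∀ x y : K, p x = p y → y = x ∨ y = x * z := by
    intro x y h
    exact hπeq x y (E.injective h)
  have hpz : p z = 1 := by
    show E (π z) = 1
    have : π z = 1 := by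
      rw [← MonoidHom.mem_ker, hπker]; exact (hcen z).2 (Or.inr rfl)
    rw [this, map_one]
  by_cases hinv : ∃ t : K, t ^ 2 = 1 ∧ t ≠ 1 ∧ t ≠ z
  · left
    obtain ⟨t, ht2, ht1, htz⟩ := hinv
    have htF : t ∉ F := fun h => by
      rcases hF2 t h ht2 with h1 | h1
      · exact ht1 h1
      · exact htz h1
    have hp1 : ∀ x : K, p x = 1 → x = 1 ∨ x = z := by
      intro x hx
      have h1 : p 1 = p x := by rw [map_one, hx]
      rcases hpeq 1 x h1 with h2 | h2
      · exact Or.inl h2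
      · right; rw [h2, one_mul]
    set τ := p t with hτ
    have hτ2 : τ ^ 2 = 1 := by rw [hτ, ← map_pow, ht2, map_one]
    have hτ1 : τ ≠ 1 := by
      intro h
      rcases hp1 t h with h2 | h2
      · exact ht1 h2
      · exact htz h2
    set V₀ : Subgroup S4 := F.map p with hV₀
    haveI hV₀n : V₀.Normal := Subgroup.Normal.map hFn p hps
    have hV₀F : ∀ x, p x ∈ V₀ → x ∈ F := by
      intro x hx
      obtain ⟨f, hf, hfx⟩ := hx
      rcases hpeq f x hfx with h | h
      · rw [h]; exact hf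
      · rw [h]; exact F.mul_mem hf hzF
    let f₁ : K := (e.symm (a 1) : F)
    have hf₁F : f₁ ∈ F := (e.symm (a 1) : F).2
    have hef₁ : e ⟨f₁, hf₁F⟩ = a 1 := e.apply_symm_apply _
    have hf₁1 : f₁ ≠ 1 := by
      intro h
      have h1 : (⟨f₁, hf₁F⟩ : F) = 1 := Subtype.ext h
      have h2 : e ⟨f₁, hf₁F⟩ = 1 := by rw [h1, map_one]
      rw [hef₁] at h2
      exact absurd h2 (by decide)
    have hf₁z : f₁ ≠ z := by
      intro h
      have h1 : (⟨f₁, hf₁F⟩ : F) = e.symm (a 2) := Subtype.ext h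
      have h2 : e ⟨f₁, hf₁F⟩ = a 2 := by rw [h1, e.apply_symm_apply]
      rw [hef₁] at h2
      exact absurd h2 (by decide)
    have hf₁s := hFb f₁ hf₁F hf₁1 hf₁z
    set u₀ := p f₁ with hu₀
    have hu₀2 : u₀ ^ 2 = 1 := by rw [hu₀, ← map_pow, hf₁s, hpz]
    have hu₀1 : u₀ ≠ 1 := by
      intro h
      rcases hp1 f₁ h with h2 | h2
      · exact hf₁1 h2
      · exact hf₁z h2
    have hu₀m : u₀ ∈ V₀ := ⟨f₁, hf₁F, rfl⟩
    have hu₀no : ∀ x, u₀ x ≠ x := by
      by_contra hcon
      push Not at hcon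
      obtain ⟨g, hg1, hg3⟩ := S4a u₀ hu₀2 hu₀1 hcon
      have hmem : u₀ * (g * u₀ * g⁻¹) ∈ V₀ := V₀.mul_mem hu₀m (hV₀n.conj_mem _ hu₀m g)
      obtain ⟨f, hf, hfe⟩ := hmem
      have hf8 : f ^ 8 = 1 := by
        have h1 : (⟨f, hf⟩ : F) ^ 8 = 1 := by
          rw [← hF8]; exact pow_card_eq_one'
        exact congrArg Subtype.val h1
      have hv8 : (u₀ * (g * u₀ * g⁻¹)) ^ 8 = 1 := by
        rw [← hfe, ← map_pow, hf8, map_one]
      apply hg1
      calc u₀ * (g * u₀ * g⁻¹) = (u₀ * (g * u₀ * g⁻¹)) ^ 9 := by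
            rw [show 9 = 8 + 1 from rfl, pow_succ, hv8, one_mul]
        _ = ((u₀ * (g * u₀ * g⁻¹)) ^ 3) ^ 3 := by rw [← pow_mul]
        _ = 1 := by rw [hg3, one_pow]
    have hV₀all : ∀ v : S4, v ^ 2 = 1 → v ≠ 1 → (∀ x, v x ≠ x) → v ∈ V₀ := by
      intro v h1 h2 h3
      obtain ⟨g, hg⟩ := S4b u₀ v hu₀2 hu₀1 hu₀no h1 h2 h3
      rw [← hg]
      exact hV₀n.conj_mem _ hu₀m g
    have hτfix : ∃ x, τ x = x := by
      by_contra hcon
      push Not at hcon
      exact htF (hV₀F t (hV₀all τ hτ2 hτ1 hcon))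
    obtain ⟨c, v, hc3, hc1, hτc, hv1, hv2, hvno, hτv, hcv1, hcv2, hcv3, hτc1, hτc2⟩ :=
      S4c0 τ ⟨hτ2, hτ1, hτfix⟩
    obtain ⟨i, hiF, hiv⟩ := hV₀all v hv2 hv1 hvno
    obtain ⟨a₀, ha₀⟩ := hps c
    set A := a₀ ^ 4 with hA
    have hpA : p A = c := by
      rw [hA, map_pow, ha₀]
      calc c ^ 4 = c ^ 3 * c := pow_succ c 3
        _ = c := by rw [hc3, one_mul]
    have hA3 : A ^ 3 = 1 := by
      have h1 : p (a₀ ^ 3) = 1 := by rw [map_pow, ha₀, hc3]
      have h2 : A ^ 3 = (a₀ ^ 3) ^ 4 := by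
        rw [hA, ← pow_mul, ← pow_mul]
      rw [h2]
      rcases hp1 _ h1 with h3 | h3
      · rw [h3, one_pow]
      · rw [h3]
        calc z ^ 4 = (z ^ 2) ^ 2 := by rw [← pow_mul]
          _ = 1 := by rw [hz2, one_pow]
    have hi1 : i ≠ 1 := by
      rintro rfl
      rw [map_one] at hiv
      exact hv1 hiv.symm
    have hiz : i ≠ z := by
      intro h
      rw [h, hpz] at hiv
      exact hv1 hiv.symm
    have hi2 : i ^ 2 = z := hFb i hiF hi1 hiz
    have hi4 : i ^ 4 = 1 := by
      calc i ^ 4 = (i ^ 2) ^ 2 := by rw [← pow_mul]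
        _ = 1 := by rw [hi2, hz2]
    have hQd : ∀ x ∈ F, ∀ y ∈ F, ∀ w ∈ F, p x ≠ 1 → p y ≠ 1 → p w ≠ 1 → p x ≠ p y → p x ≠ p w → p y ≠ p w →
        y * y = x ^ 2 ∧ y * x * y⁻¹ = x⁻¹ ∧ (w = x * y ∨ w = y * x) := by
      intro x hx y hy w hw h1 h2 h3 h4 h5 h6
      have hn1 : ∀ f (hf : f ∈ F), p f ≠ 1 → e ⟨f, hf⟩ ≠ 1 ∧ e ⟨f, hf⟩ ≠ a 2 := by
        intro f hf hp
        constructor
        · intro h; apply hp; rw [he1 f hf h, map_one]
        · intro h; apply hp; rw [hez f hf h, hpz]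
      have hn2 : ∀ f (hf : f ∈ F) g (hg : g ∈ F), p f ≠ p g → e ⟨f, hf⟩ ≠ e ⟨g, hg⟩ ∧ e ⟨f, hf⟩ ≠ e ⟨g, hg⟩ * a 2 := by
        intro f hf g hg hp
        constructor
        · intro h
          apply hp
          have h7 := e.injective h
          rw [show f = g from congrArg Subtype.val h7]
        · intro h
          apply hp
          have h7 : e ⟨f, hf⟩ = e (⟨g, hg⟩ * e.symm (a 2)) := by rw [h, map_mul, e.apply_symm_apply]
          have h8 := e.injective h7
          have h9 : f = g * z := congrArg Subtype.val h8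
          rw [h9, map_mul, hpz, mul_one]
      obtain ⟨r1, r2, r3⟩ := Qd0 (e ⟨x, hx⟩) (e ⟨y, hy⟩) (e ⟨w, hw⟩)
        ⟨(hn1 x hx h1).1, (hn1 x hx h1).2, (hn1 y hy h2).1, (hn1 y hy h2).2, (hn1 w hw h3).1, (hn1 w hw h3).2,
          (hn2 x hx y hy h4).1, (hn2 x hx y hy h4).2, (hn2 x hx w hw h5).1, (hn2 x hx w hw h5).2,
          (hn2 y hy w hw h6).1, (hn2 y hy w hw h6).2⟩
      refine ⟨?_, ?_, ?_⟩
      · rw [← map_mul, ← map_pow] at r1
        exact congrArg Subtype.val (e.injective r1)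
      · rw [← map_inv, ← map_mul, ← map_inv, ← map_mul] at r2
        exact congrArg Subtype.val (e.injective r2)
      · rcases r3 with r3 | r3
        · left
          rw [← map_mul] at r3
          exact congrArg Subtype.val (e.injective r3)
        · right
          rw [← map_mul] at r3
          exact congrArg Subtype.val (e.injective r3)
    have hconjne : ∀ (y : S4) (g : S4), y ≠ 1 → g * y * g⁻¹ ≠ 1 := by
      intro y g hy h
      apply hy
      have : y = g⁻¹ * (g * y * g⁻¹) * g := by group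
      rw [this, h]; group
    set J := A * i * A⁻¹ with hJ
    set L := A⁻¹ * i * A with hL
    have hJF : J ∈ F := hFn.conj_mem i hiF A
    have hLF : L ∈ F := by
      have := hFn.conj_mem i hiF A⁻¹
      rwa [inv_inv] at this
    have hpJ : p J = c * v * c⁻¹ := by rw [hJ, map_mul, map_mul, map_inv, hpA, hiv]
    have hpL : p L = c⁻¹ * v * c := by rw [hL, map_mul, map_mul, map_inv, hpA, hiv]
    have hpJ1 : p J ≠ 1 := by rw [hpJ]; exact hconjne v c hv1
    have hpL1 : p L ≠ 1 := by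
      rw [hpL]
      have := hconjne v c⁻¹ hv1
      rwa [inv_inv] at this
    have hpi1 : p i ≠ 1 := by rw [hiv]; exact hv1
    obtain ⟨r1, r2, r3⟩ := hQd i hiF J hJF L hLF hpi1 hpJ1 hpL1
      (by rw [hiv, hpJ]; exact hcv1.symm) (by rw [hiv, hpL]; exact hcv2.symm) (by rw [hpJ, hpL]; exact hcv3)
    obtain ⟨s1, s2, s3⟩ := hQd i hiF L hLF J hJF hpi1 hpL1 hpJ1
      (by rw [hiv, hpL]; exact hcv2.symm) (by rw [hiv, hpJ]; exact hcv1.symm) (by rw [hpJ, hpL]; exact hcv3.symm)
    have hzc' : ∀ g : K, z * g = g * z := fun g => (hzc g).symm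
    have hτA : t * A * t⁻¹ = A⁻¹ := by
      have h1 : p A⁻¹ = p (t * A * t⁻¹) := by
        rw [map_mul, map_mul, map_inv, map_inv, hpA, ← hτ, hτc]
      rcases hpeq _ _ h1 with h2 | h2
      · exact h2
      · exfalso
        apply hz1
        have h3 : (t * A * t⁻¹) ^ 3 = 1 := by rw [conj_pow, hA3]; group
        rw [h2] at h3
        have h4 : (A⁻¹ * z) ^ 3 = z := by
          have hcm : Commute A⁻¹ z := (hzc A⁻¹)
          rw [hcm.mul_pow, inv_pow, hA3, inv_one, one_mul]
          calc z ^ 3 = z ^ 2 * z := pow_succ z 2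
            _ = z := by rw [hz2, one_mul]
        rw [← h4]; exact h3
    have hc2 : c ^ 2 ≠ 1 := by
      intro h
      apply hc1
      calc c = c ^ 3 * (c ^ 2)⁻¹ := by
            rw [pow_succ c 2]; group
        _ = 1 := by rw [hc3, h]; group
    have hcinv : c⁻¹ = c ^ 2 := by
      rw [inv_eq_iff_mul_eq_one, ← pow_succ', hc3]
    have hexists : ∃ u : K, u ^ 3 = 1 ∧ t * u * t⁻¹ = u⁻¹ ∧ (u * i * u⁻¹) * (u * i * u⁻¹) = i ^ 2 ∧
        (u * i * u⁻¹) * i * (u * i * u⁻¹)⁻¹ = i⁻¹ ∧ u⁻¹ * i * u = i * (u * i * u⁻¹) ∧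
        (∀ n : ℕ, n < 3 → τ * (p u) ^ n ≠ 1) ∧ (∀ n : ℕ, n < 3 → n ≠ 0 → (p u) ^ n ≠ 1) := by
      rcases r3 with r3 | r3
      · refine ⟨A, hA3, hτA, r1, r2, r3, ?_, ?_⟩
        · intro n hn
          rw [hpA]
          interval_cases n
          · simpa using hτ1
          · simpa using hτc1
          · exact hτc2
        · intro n hn h0
          rw [hpA]
          interval_cases n
          · exact absurd rfl h0
          · simpa using hc1
          · exact hc2
      · refine ⟨A⁻¹, by rw [inv_pow, hA3, inv_one], ?_, ?_, ?_, ?_, ?_, ?_⟩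
        · rw [inv_inv]
          have : t * A⁻¹ * t⁻¹ = (t * A * t⁻¹)⁻¹ := by group
          rw [this, hτA, inv_inv]
        · rw [inv_inv]; exact s1
        · rw [inv_inv]; exact s2
        · rw [inv_inv]
          show J = i * L
          have h1 : J * i = i⁻¹ * J := by
            rw [← r2]; group
          rw [r3, h1]; group
        · intro n hn
          rw [map_inv, hpA, hcinv]
          interval_cases n
          · simpa using hτ1
          · simpa using hτc2
          · have : (c ^ 2) ^ 2 = c := by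
              calc (c ^ 2) ^ 2 = c ^ 3 * c := by rw [← pow_mul, ← pow_succ]
                _ = c := by rw [hc3, one_mul]
            rw [this]; exact hτc1
        · intro n hn h0
          rw [map_inv, hpA, hcinv]
          interval_cases n
          · exact absurd rfl h0
          · simpa using hc2
          · have : (c ^ 2) ^ 2 = c := by
              calc (c ^ 2) ^ 2 = c ^ 3 * c := by rw [← pow_mul, ← pow_succ]
                _ = c := by rw [hc3, one_mul]
            rw [this]; exact hc1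
    obtain ⟨u, hu3, htu, hjj, hjz, hty, huτ, hun⟩ := hexists
    have htu' : t * u⁻¹ * t⁻¹ = u := by
      have : t * u⁻¹ * t⁻¹ = (t * u * t⁻¹)⁻¹ := by group
      rw [this, htu, inv_inv]
    have htt : t * t = 1 := by rw [← sq]; exact ht2
    have hti : t * i * t⁻¹ = i⁻¹ := by
      have h1 : p i = p (t * i * t⁻¹) := by
        rw [map_mul, map_mul, map_inv, ← hτ, hiv, hτv]
      rcases hpeq _ _ h1 with h2 | h2
      · exfalso
        have hJ2 : t * (u * i * u⁻¹) * t⁻¹ = u⁻¹ * i * u := by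
          calc t * (u * i * u⁻¹) * t⁻¹ = (t * u * t⁻¹) * (t * i * t⁻¹) * (t * u⁻¹ * t⁻¹) := by group
            _ = u⁻¹ * i * u := by rw [htu, h2, htu']
        have hL2 : t * (u⁻¹ * i * u) * t⁻¹ = u * i * u⁻¹ := by
          calc t * (u⁻¹ * i * u) * t⁻¹ = (t * u⁻¹ * t⁻¹) * (t * i * t⁻¹) * (t * u * t⁻¹) := by group
            _ = u * i * u⁻¹ := by rw [htu', h2, htu]
        have hL3 : t * (u⁻¹ * i * u) * t⁻¹ = i * (i * (u * i * u⁻¹)) := by
          calc t * (u⁻¹ * i * u) * t⁻¹ = t * (i * (u * i * u⁻¹)) * t⁻¹ := by rw [hty]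
            _ = (t * i * t⁻¹) * (t * (u * i * u⁻¹) * t⁻¹) := by group
            _ = i * (i * (u * i * u⁻¹)) := by rw [h2, hJ2, hty]
        rw [hL2] at hL3
        have h4 : i * i = 1 := by
          have h5 : (i * i) * (u * i * u⁻¹) = 1 * (u * i * u⁻¹) := by
            rw [one_mul, mul_assoc]; exact hL3.symm
          exact mul_right_cancel h5
        apply hz1
        rw [← hi2, sq, h4]
      · rw [h2, ← hi2]
        rw [eq_inv_iff_mul_eq_one]
        calc i * i ^ 2 * i = i ^ 4 := by group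
          _ = 1 := hi4
    have hrel : Rel i u t := ⟨hi4, hjj, hjz, hty, hu3, htt, htu, hti⟩
    refine iso_GL h48 hrel ?_
    set Ju := u * i * u⁻¹ with hJu
    have hJuF : Ju ∈ F := hFn.conj_mem i hiF u
    have hqF : ∀ q : QQ, quatF i Ju q ∈ F := by
      rintro (k | k)
      · exact F.pow_mem hiF _
      · exact F.mul_mem hJuF (F.pow_mem hiF _)
    have hq1 : ∀ q : QQ, quatF i Ju q = 1 → q = 1 := by
      intro q hq
      by_contra hne
      obtain ⟨m, hm⟩ := Qe q hne
      have h1 : delta hrel q = 1 := hq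
      have h2 : delta hrel (a 2) = 1 := by
        rw [← hm, map_pow, h1, one_pow]
      have h3 : delta hrel (a 2) = i ^ 2 := rfl
      rw [h3, hi2] at h2
      exact hz1 h2
    intro q s hqs
    rcases s with k | k
    · have hqs' : quatF i Ju q * u ^ k.val = 1 := hqs
      have hf : u ^ k.val ∈ F := by
        rw [eq_inv_of_mul_eq_one_right hqs']
        exact F.inv_mem (hqF q)
      have hf1 : u ^ k.val = 1 := by
        apply hFoddt _ hf
        apply Odd.of_dvd_nat (by norm_num : Odd 3)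
        apply orderOf_dvd_of_pow_eq_one
        rw [← pow_mul, mul_comm, pow_mul, hu3, one_pow]
      have hk0 : k.val = 0 := by
        by_contra h0
        apply hun k.val (ZMod.val_lt k) h0
        rw [← map_pow, hf1, map_one]
      have hk : k = 0 := (ZMod.val_eq_zero k).mp hk0
      rw [hf1, mul_one] at hqs'
      exact ⟨hq1 q hqs', by rw [hk]; rfl⟩
    · exfalso
      have hqs' : quatF i Ju q * (t * u ^ k.val) = 1 := hqs
      have hf : t * u ^ k.val ∈ F := by
        rw [eq_inv_of_mul_eq_one_right hqs']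
        exact F.inv_mem (hqF q)
      have hconj : t * u ^ k.val * t⁻¹ = (u ^ k.val)⁻¹ := by
        rw [← conj_pow, htu, inv_pow]
      have hsq : (t * u ^ k.val) ^ 2 = 1 := by
        calc (t * u ^ k.val) ^ 2 = (t * u ^ k.val * t⁻¹) * (t * t) * u ^ k.val := by
              rw [sq]; group
          _ = 1 := by rw [hconj, htt]; group
      have hpf : p (t * u ^ k.val) = 1 := by
        rcases hF2 _ hf hsq with h1 | h1
        · rw [h1, map_one]
        · rw [h1, hpz]
      apply huτ k.val (ZMod.val_lt k)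
      rw [← hpf, map_mul, map_pow]
  · right
    push Not at hinv
    refine ⟨h48, hZcard, ⟨E⟩, ?_⟩
    intro P
    have hFP : F ≤ (P : Subgroup K) := Cfsg.Agent.H01.pCore_le_sylow 2 P
    have hU : Cfsg.Agent.H14.UniqueP 2 P := by
      intro x y hx hy
      have hkey : ∀ v : P, orderOf v = 2 → (v : K) = z := by
        intro v hv
        have h1 : (v : K) ^ 2 = 1 := by
          have := pow_orderOf_eq_one v
          rw [hv] at this
          exact congrArg Subtype.val this
        by_contra hne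
        have h2 : (v : K) ≠ 1 := fun h => by
          have : v = 1 := Subtype.ext h
          rw [this, orderOf_one] at hv
          omega
        exact hne (hinv _ h1 h2)
      have h1 : x = y := Subtype.ext ((hkey x hx).trans (hkey y hy).symm)
      rw [← h1]
      exact Subgroup.mem_zpowers x
    rcases Cfsg.Agent.H14.isCyclic_or_quaternion P.isPGroup' hU with hc | ⟨_, k, hk1, ⟨e'⟩⟩
    · exfalso
      have hcomm := (IsCyclic.commGroup (α := P)).mul_comm
      let f₁ : F := e.symm (a 1)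
      let f₂ : F := e.symm (xa 0)
      have h1 := hcomm ⟨f₁, hFP f₁.2⟩ ⟨f₂, hFP f₂.2⟩
      have h2 : f₁ * f₂ = f₂ * f₁ := Subtype.ext (congrArg (Subtype.val : P → K) h1)
      have h3 := congrArg e h2
      rw [map_mul, map_mul] at h3
      simp only [f₁, f₂, MulEquiv.apply_symm_apply] at h3
      exact absurd h3 (by decide)
    · have hPcard : Nat.card P = 16 := by
        obtain ⟨m, hm⟩ := IsPGroup.iff_card.mp P.isPGroup'
        have h1 : 2 ^ m ∣ 48 := by
          rw [← hm, ← h48]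
          exact Subgroup.card_subgroup_dvd_card _
        have h2 : m ≤ 4 := by
          by_contra hn
          have h3 : 2 ^ 5 ∣ 2 ^ m := pow_dvd_pow 2 (by omega)
          have h4 := h3.trans h1
          norm_num at h4
        have h5 : ¬ 2 ∣ (P : Subgroup K).index := P.not_dvd_index
        have h6 := (P : Subgroup K).card_mul_index
        rw [hm, h48] at h6
        interval_cases m
        · omega
        · omega
        · omega
        · omega
        · rw [hm]; norm_num
      have h2 : Nat.card P = 4 * 2 ^ k := by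
        rw [Nat.card_congr e'.toEquiv, Nat.card_eq_fintype_card, QuaternionGroup.card]
      have h3 : 2 ^ k = 2 ^ 2 := by omega
      have h4 : k = 2 := Nat.pow_right_injective (le_refl 2) h3
      subst h4
      exact ⟨e'⟩

end final

/-- Let G be a finite solvable group in which the intersection of any two distinct Sylow 2-subgroups has 2-rank at most 1 (contains no Klein four-group). Write Q = G/O(G), O(G) the largest normal subgroup of odd order. Then Q has a normal Sylow 2-subgroup; or Q is isomorphic to GL(2,3); or Q has order 48, centre of order 2 with central quotient isomorphic to the symmetric group of degree 4, and generalized quaternion Sylow 2-subgroups of order 16 (the binary octahedral group). The last two are the two representation groups of the symmetric group of degree 4. -/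
theorem result {G : Type*} [Group G] [Finite G] (hs : Group.IsSolvable G)
    (hI : ∀ S T : Sylow 2 G, S ≠ T → Cfsg.PRankLE 2 1 ↥((S : Subgroup G) ⊓ (T : Subgroup G))) :
    (∃ P : Sylow 2 (G ⧸ Cfsg.oddCore G), (P : Subgroup (G ⧸ Cfsg.oddCore G)).Normal) ∨
    Nonempty ((G ⧸ Cfsg.oddCore G) ≃* GL (Fin 2) (ZMod 3)) ∨
    (Nat.card (G ⧸ Cfsg.oddCore G) = 48 ∧ Nat.card ↥(Subgroup.center (G ⧸ Cfsg.oddCore G)) = 2 ∧
      Nonempty ((G ⧸ Cfsg.oddCore G) ⧸ Subgroup.center (G ⧸ Cfsg.oddCore G) ≃* Equiv.Perm (Fin 4)) ∧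
      ∀ P : Sylow 2 (G ⧸ Cfsg.oddCore G), Nonempty (↥(P : Subgroup (G ⧸ Cfsg.oddCore G)) ≃* QuaternionGroup 4)) := by
  classical
  have hO : oddCore (G ⧸ oddCore G) = ⊥ := oddCore_quotient_eq_bot
  have hsH : Group.IsSolvable (G ⧸ oddCore G) := inferInstance
  have hI' : ∀ S T : Sylow 2 (G ⧸ oddCore G), S ≠ T →
      Prk ((S : Subgroup (G ⧸ oddCore G)) ⊓ (T : Subgroup (G ⧸ oddCore G))) :=
    rank_quot (fun S T hST => prk_of_prank (hI S T hST)) (oddCore G) card_oddCore_coprime
  by_cases hsub : Subsingleton (Sylow 2 (G ⧸ oddCore G))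
  · left
    obtain ⟨P⟩ : Nonempty (Sylow 2 (G ⧸ oddCore G)) := inferInstance
    exact ⟨P, Sylow.normal_of_subsingleton P⟩
  · right
    obtain ⟨⟨e⟩, h48⟩ := q8_setup hsH hO hI' hsub
    exact final_core hsH hO e h48

end Cfsg.Agent.S3304
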