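import Cfsg.Statements.S3335
import Cfsg.Agent.Lib.H16.CosetEnum

set_option autoImplicit false
open Cfsg

namespace Cfsg.Agent.S3335

open Cfsg.Agent.H16.CosetEnum

section Abs

variable {G : Type*} [Group G]

/-- The relations on a sequence of generators up to index `L`. -/
structure Rels (x : ℕ → G) (L : ℕ) : Prop where
  h3 : x 0 ^ 3 = 1
  h2 : ∀ i, 1 ≤ i → i ≤ L → x i * x i = 1
  hb : ∀ i, i + 1 ≤ L → (x i * x (i + 1)) ^ 3 = 1
  hf : ∀ i j, i + 1 < j → j ≤ L → (x i * x j) ^ 2 = 1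

variable {x : ℕ → G} {L : ℕ}

theorem Rels.inv_eq (R : Rels x L) {i : ℕ} (h1 : 1 ≤ i) (h2 : i ≤ L) : (x i)⁻¹ = x i :=
  inv_eq_of_mul_eq_one_left (R.h2 i h1 h2)

theorem Rels.comm (R : Rels x L) {i j : ℕ} (h1 : 1 ≤ i) (h2 : i + 1 < j) (h3 : j ≤ L) :
    x i * x j = x j * x i := by
  have e := R.hf i j h2 h3
  rw [pow_two] at e
  have e1 := eq_inv_of_mul_eq_one_left e
  rw [mul_inv_rev, R.inv_eq (by omega) h3, R.inv_eq h1 (by omega)] at e1
  exact e1

theorem Rels.conj0 (R : Rels x L) {j : ℕ} (h2 : 2 ≤ j) (h3 : j ≤ L) :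
    x 0 * x j = x j * (x 0)⁻¹ := by
  have e := R.hf 0 j (by omega) h3
  rw [pow_two] at e
  have e1 := eq_inv_of_mul_eq_one_left e
  rw [mul_inv_rev, R.inv_eq (by omega) h3] at e1
  exact e1

theorem Rels.conj0' (R : Rels x L) {j : ℕ} (h2 : 2 ≤ j) (h3 : j ≤ L) :
    (x 0)⁻¹ * x j = x j * x 0 := by
  have e := R.conj0 h2 h3
  have e4 : x j = (x 0)⁻¹ * x j * (x 0)⁻¹ := by
    have : (x 0)⁻¹ * (x 0 * x j) = (x 0)⁻¹ * (x j * (x 0)⁻¹) := by rw [e]
    simpa [mul_assoc] using this
  calc (x 0)⁻¹ * x j = ((x 0)⁻¹ * x j * (x 0)⁻¹) * x 0 := by group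
    _ = x j * x 0 := by rw [← e4]

theorem Rels.braid (R : Rels x L) {i : ℕ} (h1 : 1 ≤ i) (h2 : i + 1 ≤ L) :
    x (i + 1) * x i * x (i + 1) = x i * x (i + 1) * x i := by
  have e := R.hb i h2
  have a1 : x i * x i = 1 := R.h2 i h1 (by omega)
  have a2 : x (i + 1) * x (i + 1) = 1 := R.h2 (i + 1) (by omega) h2
  have e3 : x i * x (i + 1) * (x i * x (i + 1) * (x i * x (i + 1))) = 1 := by
    rw [pow_succ, pow_two] at e
    rw [← e]; group
  have e4 : x i * x (i + 1) * x i = (x (i + 1) * x i * x (i + 1))⁻¹ := by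
    apply eq_inv_of_mul_eq_one_left
    calc _ = x i * x (i + 1) * (x i * x (i + 1) * (x i * x (i + 1))) := by
          simp only [mul_assoc]
      _ = 1 := e3
  rw [e4, mul_inv_rev, mul_inv_rev, R.inv_eq h1 (by omega), R.inv_eq (by omega) h2, ← mul_assoc]

/-- Words for the points. -/
def u (x : ℕ → G) (L : ℕ) : ℕ → G
  | 0 => 1
  | k + 1 => u x L k * x (L - k)

theorem u_comm (R : Rels x L) {j : ℕ} (h1 : 1 ≤ j) : ∀ k, k + j + 1 ≤ L → u x L k * x j = x j * u x L k := by
  intro k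
  induction k with
  | zero => intro _; simp [u]
  | succ k ih =>
    intro h
    have e1 : x (L - k) * x j = x j * x (L - k) :=
      (R.comm h1 (by omega) (by omega)).symm
    simp only [u]
    rw [mul_assoc, e1, ← mul_assoc, ih (by omega), mul_assoc]

theorem u_conj0 (R : Rels x L) : ∀ k, k + 1 ≤ L →
    (u x L k * x 0 * (u x L k)⁻¹ = x 0 ∨ u x L k * x 0 * (u x L k)⁻¹ = (x 0)⁻¹) := by
  intro k
  induction k with
  | zero => intro _; left; simp [u]
  | succ k ih =>
    intro h
    have e1 : x (L - k) * x 0 * (x (L - k))⁻¹ = (x 0)⁻¹ := by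
      have e2 := R.conj0' (j := L - k) (by omega) (by omega)
      rw [R.inv_eq (by omega) (by omega)]
      rw [← e2, mul_assoc, R.h2 _ (by omega) (by omega), mul_one]
    have e3 : u x L (k + 1) * x 0 * (u x L (k + 1))⁻¹ = (u x L k * x 0 * (u x L k)⁻¹)⁻¹ := by
      simp only [u]
      calc u x L k * x (L - k) * x 0 * (u x L k * x (L - k))⁻¹
          = u x L k * (x (L - k) * x 0 * (x (L - k))⁻¹) * (u x L k)⁻¹ := by group
        _ = _ := by rw [e1]; group
    rw [e3]
    rcases ih (by omega) with e | e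
    · right; rw [e]
    · left; rw [e, inv_inv]

theorem u_braid (R : Rels x L) {j : ℕ} (h2 : 2 ≤ j) (h3 : j ≤ L) : ∀ k, L - j + 2 ≤ k → k ≤ L →
    u x L k * x j = x (j - 1) * u x L k := by
  intro k hk
  induction k, hk using Nat.le_induction with
  | base =>
    intro _
    have e0 : u x L (L - j + 2) = u x L (L - j) * x j * x (j - 1) := by
      have e1 : L - j + 2 = (L - j) + 1 + 1 := by omega
      rw [e1]
      simp only [u]
      have e2 : L - (L - j) = j := by omega
      have e3 : L - (L - j + 1) = j - 1 := by omega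
      rw [e2, e3]
    have e4 := R.braid (i := j - 1) (by omega) (by omega)
    have e5 : j - 1 + 1 = j := by omega
    rw [e5] at e4
    have e6 := u_comm R (j := j - 1) (by omega) (L - j) (by omega)
    rw [e0]
    calc u x L (L - j) * x j * x (j - 1) * x j = u x L (L - j) * (x j * x (j - 1) * x j) := by group
      _ = u x L (L - j) * (x (j - 1) * x j * x (j - 1)) := by rw [e4]
      _ = (u x L (L - j) * x (j - 1)) * x j * x (j - 1) := by group
      _ = x (j - 1) * (u x L (L - j) * x j * x (j - 1)) := by rw [e6]; group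
  | succ k hk ih =>
    intro h
    have e1 : x (L - k) * x j = x j * x (L - k) := R.comm (by omega) (by omega) h3
    simp only [u]
    rw [mul_assoc, e1, ← mul_assoc, ih (by omega), mul_assoc]

variable {H : Subgroup G}

theorem rel_left {h y : G} (hh : h ∈ H) : Rel H (h * y) y := by
  show h * y * y⁻¹ ∈ H
  simpa using hh

/-- The transversal. -/
def t (x : ℕ → G) (L : ℕ) (k : ℕ) : G :=
  if k ≤ L then u x L k else if k = L + 1 then u x L L * x 0 else u x L L * (x 0)⁻¹

/-- The letters. -/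
def ltr (x : ℕ → G) (L : ℕ) (a : ℕ) : G := if a ≤ L then x a else (x 0)⁻¹

theorem t_le {k : ℕ} (h : k ≤ L) : t x L k = u x L k := by simp [t, h]
theorem t_a : t x L (L + 1) = u x L L * x 0 := by simp [t]
theorem t_b : t x L (L + 2) = u x L L * (x 0)⁻¹ := by simp [t]

theorem inv_mul_inv (R : Rels x L) : (x 0)⁻¹ * (x 0)⁻¹ = x 0 := by
  have := R.h3
  rw [pow_succ, pow_two] at this
  have e : x 0 = (x 0 * x 0)⁻¹ := eq_inv_of_mul_eq_one_right this
  rw [mul_inv_rev] at e
  exact e.symm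

theorem mul_self0 (R : Rels x L) : x 0 * x 0 = (x 0)⁻¹ := by
  have := R.h3
  rw [pow_succ, pow_two] at this
  exact eq_inv_of_mul_eq_one_left this

theorem edge1 (R : Rels x L) (hH : ∀ j, j < L → x j ∈ H) {k j : ℕ} (hk : k ≤ L) (hj : j ≤ L) :
    ∃ l, l < L + 3 ∧ Rel H (u x L k * x j) (t x L l) := by
  by_cases c1 : j + k + 1 ≤ L
  · refine ⟨k, by omega, ?_⟩
    rw [t_le hk]
    by_cases j0 : j = 0
    · subst j0
      have h0 := hH 0 (by omega)
      have e := u_conj0 R k (by omega)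
      have h1 : u x L k * x 0 * (u x L k)⁻¹ ∈ H := by
        rcases e with e | e <;> rw [e]
        · exact h0
        · exact H.inv_mem h0
      exact h1
    · rw [u_comm R (by omega) k (by omega)]
      exact rel_left (hH j (by omega))
  by_cases c2 : j + k = L
  · by_cases c3 : k = L
    · subst c3
      have : j = 0 := by omega
      subst this
      refine ⟨k + 1, by omega, ?_⟩
      rw [t_a]
      exact Rel.refl _
    · refine ⟨k + 1, by omega, ?_⟩
      rw [t_le (by omega)]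
      have e : L - k = j := by omega
      simp only [u]
      rw [e]
      exact Rel.refl _
  by_cases c4 : j + k = L + 1
  · obtain ⟨k', rfl⟩ : ∃ k', k = k' + 1 := ⟨k - 1, by omega⟩
    refine ⟨k', by omega, ?_⟩
    rw [t_le (by omega)]
    simp only [u]
    have e : L - k' = j := by omega
    rw [e, mul_assoc, R.h2 j (by omega) hj, mul_one]
    exact Rel.refl _
  · refine ⟨k, by omega, ?_⟩
    rw [t_le hk, u_braid R (j := j) (by omega) hj k (by omega) hk]
    exact rel_left (hH _ (by omega))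

theorem edge2 (R : Rels x L) (hH : ∀ j, j < L → x j ∈ H) {k : ℕ} (hk : k ≤ L) :
    ∃ l, l < L + 3 ∧ Rel H (u x L k * (x 0)⁻¹) (t x L l) := by
  by_cases c : k = L
  · subst c
    refine ⟨k + 2, by omega, ?_⟩
    rw [t_b]
    exact Rel.refl _
  · refine ⟨k, by omega, ?_⟩
    rw [t_le hk]
    have h0 := hH 0 (by omega)
    have e := u_conj0 R k (by omega)
    have h1 : u x L k * x 0 * (u x L k)⁻¹ ∈ H := by
      rcases e with e | e <;> rw [e]
      · exact h0
      · exact H.inv_mem h0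
    have h2 := H.inv_mem h1
    have e2 : (u x L k * x 0 * (u x L k)⁻¹)⁻¹ = u x L k * (x 0)⁻¹ * (u x L k)⁻¹ := by group
    rw [e2] at h2
    exact h2

theorem u_last {L' : ℕ} (hL : L = L' + 1) : u x L L = u x L L' * x 1 := by
  subst hL
  show u x (L' + 1) (L' + 1) = _
  simp only [u]
  have : L' + 1 - L' = 1 := by omega
  rw [this]

theorem rel_a2 (R : Rels x L) (h1 : 1 ≤ L) : x 1 * x 0 * x 1 * x 0 * x 1 = (x 0)⁻¹ := by
  have e3 := R.hb 0 (by omega)
  rw [pow_succ, pow_two, zero_add] at e3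
  apply eq_inv_of_mul_eq_one_right
  rw [← e3]
  simp only [mul_assoc]

theorem rel_a3 (R : Rels x L) (h1 : 1 ≤ L) : x 1 * (x 0)⁻¹ * x 1 * (x 0)⁻¹ * x 1 = x 0 := by
  have e := rel_a2 R h1
  have e2 := R.inv_eq (i := 1) le_rfl h1
  have e3 : (x 1 * x 0 * x 1 * x 0 * x 1)⁻¹ = x 0 := by rw [e, inv_inv]
  calc x 1 * (x 0)⁻¹ * x 1 * (x 0)⁻¹ * x 1
      = (x 1)⁻¹ * (x 0)⁻¹ * (x 1)⁻¹ * (x 0)⁻¹ * (x 1)⁻¹ := by rw [e2]
    _ = (x 1 * x 0 * x 1 * x 0 * x 1)⁻¹ := by group
    _ = x 0 := e3

theorem edge3 (R : Rels x L) (hH : ∀ j, j < L → x j ∈ H) {j : ℕ} (hj : j ≤ L) :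
    ∃ l, l < L + 3 ∧ Rel H (t x L (L + 1) * x j) (t x L l) := by
  rw [t_a]
  by_cases c0 : j = 0
  · subst c0
    refine ⟨L + 2, by omega, ?_⟩
    rw [t_b, mul_assoc, mul_self0 R]
    exact Rel.refl _
  by_cases c1 : j = 1
  · subst c1
    obtain ⟨L', rfl⟩ : ∃ L', L = L' + 1 := ⟨L - 1, by omega⟩
    refine ⟨L' + 1 + 2, by omega, ?_⟩
    rw [t_b, u_last rfl]
    set v := u x (L' + 1) L' with hv
    have h0 := hH 0 (by omega)
    have e := u_conj0 R L' (by omega)
    rw [← hv] at e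
    have h1 : v * x 0 * v⁻¹ ∈ H := by
      rcases e with e | e <;> rw [e]
      · exact h0
      · exact H.inv_mem h0
    have h2 := H.inv_mem h1
    show v * x 1 * x 0 * x 1 * (v * x 1 * (x 0)⁻¹)⁻¹ ∈ H
    have e2 : v * x 1 * x 0 * x 1 * (v * x 1 * (x 0)⁻¹)⁻¹ = (v * x 0 * v⁻¹)⁻¹ := by
      calc v * x 1 * x 0 * x 1 * (v * x 1 * (x 0)⁻¹)⁻¹
          = v * (x 1 * x 0 * x 1 * x 0 * (x 1)⁻¹) * v⁻¹ := by group
        _ = v * (x 1 * x 0 * x 1 * x 0 * x 1) * v⁻¹ := by rw [R.inv_eq le_rfl (by omega)]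
        _ = v * (x 0)⁻¹ * v⁻¹ := by rw [rel_a2 R (by omega)]
        _ = (v * x 0 * v⁻¹)⁻¹ := by group
    rw [e2]
    exact h2
  · refine ⟨L + 2, by omega, ?_⟩
    rw [t_b]
    have e := R.conj0 (j := j) (by omega) hj
    have e2 := u_braid R (j := j) (by omega) hj L (by omega) le_rfl
    have e3 : u x L L * x 0 * x j = x (j - 1) * (u x L L * (x 0)⁻¹) := by
      rw [mul_assoc, e, ← mul_assoc, e2, mul_assoc]
    rw [e3]
    exact rel_left (hH _ (by omega))

theorem edge4 (R : Rels x L) (hH : ∀ j, j < L → x j ∈ H) {j : ℕ} (hj : j ≤ L) :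
    ∃ l, l < L + 3 ∧ Rel H (t x L (L + 2) * x j) (t x L l) := by
  rw [t_b]
  by_cases c0 : j = 0
  · subst c0
    refine ⟨L, by omega, ?_⟩
    rw [t_le le_rfl]
    simp only [inv_mul_cancel_right]
    exact Rel.refl _
  by_cases c1 : j = 1
  · subst c1
    obtain ⟨L', rfl⟩ : ∃ L', L = L' + 1 := ⟨L - 1, by omega⟩
    refine ⟨L' + 1 + 1, by omega, ?_⟩
    rw [t_a, u_last rfl]
    set v := u x (L' + 1) L' with hv
    have h0 := hH 0 (by omega)
    have e := u_conj0 R L' (by omega)
    rw [← hv] at e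
    have h1 : v * x 0 * v⁻¹ ∈ H := by
      rcases e with e | e <;> rw [e]
      · exact h0
      · exact H.inv_mem h0
    show v * x 1 * (x 0)⁻¹ * x 1 * (v * x 1 * x 0)⁻¹ ∈ H
    have e2 : v * x 1 * (x 0)⁻¹ * x 1 * (v * x 1 * x 0)⁻¹ = v * x 0 * v⁻¹ := by
      calc v * x 1 * (x 0)⁻¹ * x 1 * (v * x 1 * x 0)⁻¹
          = v * (x 1 * (x 0)⁻¹ * x 1 * (x 0)⁻¹ * (x 1)⁻¹) * v⁻¹ := by group
        _ = v * (x 1 * (x 0)⁻¹ * x 1 * (x 0)⁻¹ * x 1) * v⁻¹ := by rw [R.inv_eq le_rfl (by omega)]
        _ = v * x 0 * v⁻¹ := by rw [rel_a3 R (by omega)]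
    rw [e2]
    exact h1
  · refine ⟨L + 1, by omega, ?_⟩
    rw [t_a]
    have e := R.conj0' (j := j) (by omega) hj
    have e2 := u_braid R (j := j) (by omega) hj L (by omega) le_rfl
    have e3 : u x L L * (x 0)⁻¹ * x j = x (j - 1) * (u x L L * x 0) := by
      rw [mul_assoc, e, ← mul_assoc, e2, mul_assoc]
    rw [e3]
    exact rel_left (hH _ (by omega))

theorem edge_all (R : Rels x L) (hH : ∀ j, j < L → x j ∈ H) {i a : ℕ} (hi : i < L + 3) (ha : a < L + 2) :
    ∃ l, l < L + 3 ∧ Rel H (t x L i * ltr x L a) (t x L l) := by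
  by_cases a1 : a ≤ L
  · have e : ltr x L a = x a := by simp [ltr, a1]
    rw [e]
    by_cases i1 : i ≤ L
    · rw [t_le i1]; exact edge1 R hH i1 a1
    · by_cases i2 : i = L + 1
      · subst i2; exact edge3 R hH a1
      · have : i = L + 2 := by omega
        subst this; exact edge4 R hH a1
  · have e : ltr x L a = (x 0)⁻¹ := by simp [ltr, a1]
    rw [e]
    by_cases i1 : i ≤ L
    · rw [t_le i1]; exact edge2 R hH i1
    · by_cases i2 : i = L + 1
      · subst i2
        refine ⟨L, by omega, ?_⟩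
        rw [t_a, t_le le_rfl]
        simp only [mul_inv_cancel_right]
        exact Rel.refl _
      · have : i = L + 2 := by omega
        subst this
        refine ⟨L + 1, by omega, ?_⟩
        rw [t_b, t_a, mul_assoc, inv_mul_inv R]
        exact Rel.refl _

theorem cover_all (R : Rels x L) (hH : ∀ j, j < L → x j ∈ H)
    (hgen : Subgroup.closure (ltr x L '' {a | a < L + 2}) = ⊤) (g : G) :
    ∃ i, i < L + 3 ∧ Rel H g (t x L i) := by
  have key : ∀ a i, ∃ l, i < L + 3 → a < L + 2 → l < L + 3 ∧ Rel H (t x L i * ltr x L a) (t x L l) := by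
    intro a i
    by_cases hi : i < L + 3
    · by_cases ha : a < L + 2
      · obtain ⟨l, h1, h2⟩ := edge_all R hH hi ha
        exact ⟨l, fun _ _ => ⟨h1, h2⟩⟩
      · exact ⟨0, fun _ h => absurd h ha⟩
    · exact ⟨0, fun h _ => absurd h hi⟩
  choose f hf using key
  have h0 : t x L 0 = 1 := by rw [t_le (Nat.zero_le _)]; rfl
  refine cover_of_edges (ℓ := ltr x L) (t := f) (k := L + 2) (N := L + 3) h0 (by omega)
    (fun i a hi ha => (hf a i hi ha).symm.symm |> fun h => ⟨h.2, h.1⟩) ?_ hgen g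
  intro a ha
  by_cases a0 : a = 0
  · subst a0
    refine ⟨L + 1, by omega, ?_⟩
    simp [ltr]
  by_cases a1 : a ≤ L
  · refine ⟨a, ha, ?_⟩
    simp only [ltr, a1, if_true]
    exact (R.inv_eq (by omega) a1).symm
  · refine ⟨0, by omega, ?_⟩
    simp [ltr, a1]

end Abs

/-! ### The presented groups -/

/-- The relators on `m` generators. -/
def Rl (m : ℕ) : Set (FreeGroup (Fin m)) :=
  {g | ∃ i : Fin m, i.val = 0 ∧ g = FreeGroup.of i ^ 3} ∪
  {g | ∃ i : Fin m, 1 ≤ i.val ∧ g = FreeGroup.of i ^ 2} ∪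
  {g | ∃ i j : Fin m, j.val = i.val + 1 ∧ g = (FreeGroup.of i * FreeGroup.of j) ^ 3} ∪
  {g | ∃ i j : Fin m, i.val + 1 < j.val ∧ g = (FreeGroup.of i * FreeGroup.of j) ^ 2}

abbrev Gm (m : ℕ) := PresentedGroup (Rl m)

noncomputable def xx (m i : ℕ) : Gm m := if h : i < m then PresentedGroup.of ⟨i, h⟩ else 1

theorem xx_of {m i : ℕ} (h : i < m) : xx m i = PresentedGroup.mk (Rl m) (FreeGroup.of ⟨i, h⟩) := by
  simp [xx, h, PresentedGroup.of]

theorem mk_rel {m : ℕ} {r : FreeGroup (Fin m)} (hr : r ∈ Rl m) : PresentedGroup.mk (Rl m) r = 1 :=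
  PresentedGroup.mk_eq_one_iff.2 (Subgroup.subset_normalClosure hr)

theorem rels_xx (L : ℕ) : Rels (xx (L + 1)) L where
  h3 := by
    rw [xx_of (by omega), ← map_pow]
    exact mk_rel (Or.inl (Or.inl (Or.inl ⟨⟨0, by omega⟩, rfl, rfl⟩)))
  h2 := by
    intro i h1 h2
    rw [xx_of (by omega), ← map_mul, ← pow_two]
    exact mk_rel (Or.inl (Or.inl (Or.inr ⟨⟨i, by omega⟩, h1, rfl⟩)))
  hb := by
    intro i h
    rw [xx_of (by omega), xx_of (by omega), ← map_mul, ← map_pow]
    exact mk_rel (Or.inl (Or.inr ⟨⟨i, by omega⟩, ⟨i + 1, by omega⟩, rfl, rfl⟩))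
  hf := by
    intro i j h1 h2
    rw [xx_of (by omega), xx_of (by omega), ← map_mul, ← map_pow]
    exact mk_rel (Or.inr ⟨⟨i, by omega⟩, ⟨j, by omega⟩, h1, rfl⟩)

/-- The inclusion of the group with fewer generators. -/
noncomputable def iota (m : ℕ) : Gm m →* Gm (m + 1) :=
  PresentedGroup.toGroup (f := fun i : Fin m => xx (m + 1) i) (by
    have R := rels_xx m
    rintro r ((((⟨i, h, rfl⟩ | ⟨i, h, rfl⟩) | ⟨i, j, h, rfl⟩) | ⟨i, j, h, rfl⟩))
    · have e : (i : ℕ) = 0 := h
      simp only [map_pow, FreeGroup.lift_apply_of, e]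
      exact R.h3
    · rw [map_pow, FreeGroup.lift_apply_of, pow_two]
      exact R.h2 _ h (by omega)
    · simp only [map_pow, map_mul, FreeGroup.lift_apply_of]
      rw [h]
      exact R.hb _ (by omega)
    · simp only [map_pow, map_mul, FreeGroup.lift_apply_of]
      exact R.hf _ _ h (by omega))

theorem iota_xx {m j : ℕ} (h : j < m) : iota m (xx m j) = xx (m + 1) j := by
  rw [xx_of h]
  have : PresentedGroup.mk (Rl m) (FreeGroup.of ⟨j, h⟩) = PresentedGroup.of ⟨j, h⟩ := rfl
  rw [this, iota, PresentedGroup.toGroup.of]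

theorem closure_ltr (m : ℕ) :
    Subgroup.closure (ltr (xx (m + 1)) m '' {a | a < m + 2}) = ⊤ := by
  rw [eq_top_iff, ← PresentedGroup.closure_range_of]
  apply Subgroup.closure_mono
  rintro _ ⟨⟨i, hi⟩, rfl⟩
  refine ⟨i, by simp; omega, ?_⟩
  have hi' : i ≤ m := by omega
  simp only [ltr, hi', if_true]
  rw [xx_of hi]
  rfl

theorem step (m : ℕ) [Finite (Gm m)] :
    Finite (Gm (m + 1)) ∧ Nat.card (Gm (m + 1)) ≤ (m + 3) * Nat.card (Gm m) := by
  set H : Subgroup (Gm (m + 1)) := (iota m).range with hHdef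
  have hH : ∀ j, j < m → xx (m + 1) j ∈ H := by
    intro j hj
    exact ⟨xx m j, iota_xx hj⟩
  have R := rels_xx m
  let f : Fin (m + 3) → Gm (m + 1) ⧸ H := fun i => QuotientGroup.mk (t (xx (m + 1)) m i)⁻¹
  have hf : Function.Surjective f := by
    intro q
    obtain ⟨g, rfl⟩ := QuotientGroup.mk_surjective q
    obtain ⟨i, hi, hr⟩ := cover_all R hH (closure_ltr m) g⁻¹
    refine ⟨⟨i, hi⟩, ?_⟩
    show (QuotientGroup.mk (t (xx (m + 1)) m i)⁻¹ : Gm (m + 1) ⧸ H) = QuotientGroup.mk g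
    rw [QuotientGroup.eq]
    have h2 := H.inv_mem hr
    simpa using h2
  haveI : Finite (Gm (m + 1) ⧸ H) := Finite.of_surjective f hf
  haveI : Finite H := by
    have : Function.Surjective (iota m).rangeRestrict := (iota m).rangeRestrict_surjective
    exact Finite.of_surjective _ this
  have hfin : Finite (Gm (m + 1)) :=
    Finite.of_equiv _ (Subgroup.groupEquivQuotientProdSubgroup (s := H)).symm
  refine ⟨hfin, ?_⟩
  rw [Subgroup.card_eq_card_quotient_mul_card_subgroup H]
  have h1 : Nat.card (Gm (m + 1) ⧸ H) ≤ m + 3 := by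
    have := Nat.card_le_card_of_surjective f hf
    simpa using this
  have h2 : Nat.card H ≤ Nat.card (Gm m) :=
    Nat.card_le_card_of_surjective _ (iota m).rangeRestrict_surjective
  exact Nat.mul_le_mul h1 h2

/-- The bound. -/
def bnd : ℕ → ℕ
  | 0 => 1
  | m + 1 => (m + 3) * bnd m

theorem bnd_fact (m : ℕ) : 2 * bnd m = (m + 2).factorial := by
  induction m with
  | zero => rfl
  | succ m ih =>
    simp only [bnd]
    rw [Nat.factorial_succ (m + 2), ← ih]
    ring

theorem gm_bound : ∀ m, Finite (Gm m) ∧ Nat.card (Gm m) ≤ bnd m := by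
  intro m
  induction m with
  | zero =>
    haveI : Subsingleton (Gm 0) := by
      constructor
      intro a b
      induction a using QuotientGroup.induction_on with
      | H a =>
        induction b using QuotientGroup.induction_on with
        | H b =>
          have : a = b := Subsingleton.elim _ _
          rw [this]
    refine ⟨inferInstance, ?_⟩
    simp [bnd]
  | succ m ih =>
    obtain ⟨h1, h2⟩ := ih
    obtain ⟨h3, h4⟩ := step m
    refine ⟨h3, h4.trans ?_⟩
    simp only [bnd]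
    exact Nat.mul_le_mul_left _ h2

/-! ### The action on points -/

section Perm

open Equiv Equiv.Perm

variable {α : Type*} [DecidableEq α] [Fintype α]

theorem swap3 {a b c : α} (ab : a ≠ b) (ac : a ≠ c) (bc : b ≠ c) : (swap a b * swap a c) ^ 3 = 1 := by
  have := (isThreeCycle_swap_mul_swap_same ab ac bc).orderOf
  rw [← this]
  exact pow_orderOf_eq_one _

theorem swap_comm2 {a b c d : α} (ac : a ≠ c) (ad : a ≠ d) (bc : b ≠ c) (bd : b ≠ d) :
    swap a b * swap c d = swap c d * swap a b := by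
  apply Equiv.Perm.Disjoint.commute
  intro x
  by_cases h1 : x = a
  · right
    subst h1
    exact swap_apply_of_ne_of_ne ac ad
  · by_cases h2 : x = b
    · right
      subst h2
      exact swap_apply_of_ne_of_ne bc bd
    · left
      exact swap_apply_of_ne_of_ne h1 h2

theorem swap_sq (a b : α) : swap a b * swap a b = 1 := swap_mul_self a b

theorem disj_sq {a b c d : α} (ac : a ≠ c) (ad : a ≠ d) (bc : b ≠ c) (bd : b ≠ d) :
    (swap a b * swap c d) ^ 2 = 1 := by
  rw [pow_two]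
  calc swap a b * swap c d * (swap a b * swap c d)
      = swap a b * (swap c d * swap a b) * swap c d := by group
    _ = swap a b * (swap a b * swap c d) * swap c d := by rw [swap_comm2 ac ad bc bd]
    _ = (swap a b * swap a b) * (swap c d * swap c d) := by group
    _ = 1 := by rw [swap_sq, swap_sq, one_mul]

theorem conj_swap {a b c : α} (ab : a ≠ b) (ac : a ≠ c) (bc : b ≠ c) :
    swap a b * swap b c * swap a b = swap a c := by
  have := swap_mul_swap_mul_swap (x := c) (y := b) (z := a) bc.symm ac.symm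
  rw [swap_comm a b, swap_comm b c]
  exact this

theorem swap3' {a b c : α} (ab : a ≠ b) (ac : a ≠ c) (bc : b ≠ c) : (swap a b * swap b c) ^ 3 = 1 := by
  rw [swap_comm a b]
  exact swap3 ab.symm bc ac

end Perm

open Equiv in
/-- Points. -/
def pt (m k : ℕ) : Fin (m + 2) := if h : k < m + 2 then ⟨k, h⟩ else ⟨0, by omega⟩

theorem pt_ne {m k l : ℕ} (h : k ≠ l) (hk : k < m + 2) (hl : l < m + 2) : pt m k ≠ pt m l := by
  simp only [pt, hk, hl, dif_pos]
  intro e
  exact h (congrArg Fin.val e)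

open Equiv in
/-- The images of the generators. -/
def gen (m i : ℕ) : Perm (Fin (m + 2)) :=
  if i = 0 then swap (pt m 0) (pt m 1) * swap (pt m 1) (pt m 2)
  else swap (pt m 0) (pt m 1) * swap (pt m (i + 1)) (pt m (i + 2))

open Equiv in
theorem gen_zero (m : ℕ) : gen m 0 = swap (pt m 0) (pt m 1) * swap (pt m 1) (pt m 2) := by simp [gen]

open Equiv in
theorem gen_pos (m : ℕ) {i : ℕ} (h : 1 ≤ i) :
    gen m i = swap (pt m 0) (pt m 1) * swap (pt m (i + 1)) (pt m (i + 2)) := by
  have : i ≠ 0 := by omega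
  simp [gen, this]

open Equiv in
theorem tau_comm (m : ℕ) {i : ℕ} (h : 1 ≤ i) (hi : i < m) :
    swap (pt m 0) (pt m 1) * swap (pt m (i + 1)) (pt m (i + 2)) =
      swap (pt m (i + 1)) (pt m (i + 2)) * swap (pt m 0) (pt m 1) :=
  swap_comm2 (pt_ne (by omega) (by omega) (by omega)) (pt_ne (by omega) (by omega) (by omega))
    (pt_ne (by omega) (by omega) (by omega)) (pt_ne (by omega) (by omega) (by omega))

theorem gen_h3 (m : ℕ) (hm : 0 < m) : gen m 0 ^ 3 = 1 := by
  rw [gen_zero]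
  exact swap3' (pt_ne (by omega) (by omega) (by omega)) (pt_ne (by omega) (by omega) (by omega))
    (pt_ne (by omega) (by omega) (by omega))

theorem gen_h2 (m : ℕ) {i : ℕ} (h : 1 ≤ i) (hi : i < m) : gen m i ^ 2 = 1 := by
  rw [gen_pos m h]
  exact disj_sq (pt_ne (by omega) (by omega) (by omega)) (pt_ne (by omega) (by omega) (by omega))
    (pt_ne (by omega) (by omega) (by omega)) (pt_ne (by omega) (by omega) (by omega))

open Equiv in
theorem gen0_mul (m : ℕ) {j : ℕ} (h : 1 ≤ j) (hj : j < m) :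
    gen m 0 * gen m j = swap (pt m 0) (pt m 2) * swap (pt m (j + 1)) (pt m (j + 2)) := by
  rw [gen_zero, gen_pos m h, ← mul_assoc,
    conj_swap (pt_ne (by omega) (by omega) (by omega)) (pt_ne (by omega) (by omega) (by omega))
    (pt_ne (by omega) (by omega) (by omega))]

open Equiv in
theorem gen_mul (m : ℕ) {i j : ℕ} (h : 1 ≤ i) (hi : i < m) (h' : 1 ≤ j) :
    gen m i * gen m j = swap (pt m (i + 1)) (pt m (i + 2)) * swap (pt m (j + 1)) (pt m (j + 2)) := by
  rw [gen_pos m h, gen_pos m h', tau_comm m h hi, mul_assoc, ← mul_assoc (swap (pt m 0) (pt m 1)),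
    swap_sq, one_mul]

theorem gen_b0 (m : ℕ) (hm : 1 < m) : (gen m 0 * gen m 1) ^ 3 = 1 := by
  rw [gen0_mul m le_rfl hm]
  exact swap3' (pt_ne (by omega) (by omega) (by omega)) (pt_ne (by omega) (by omega) (by omega))
    (pt_ne (by omega) (by omega) (by omega))

theorem gen_b (m : ℕ) {i : ℕ} (h : 1 ≤ i) (hi : i + 1 < m) : (gen m i * gen m (i + 1)) ^ 3 = 1 := by
  rw [gen_mul m h (by omega) (by omega)]
  exact swap3' (pt_ne (by omega) (by omega) (by omega)) (pt_ne (by omega) (by omega) (by omega))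
    (pt_ne (by omega) (by omega) (by omega))

theorem gen_f0 (m : ℕ) {j : ℕ} (h : 2 ≤ j) (hj : j < m) : (gen m 0 * gen m j) ^ 2 = 1 := by
  rw [gen0_mul m (by omega) hj]
  exact disj_sq (pt_ne (by omega) (by omega) (by omega)) (pt_ne (by omega) (by omega) (by omega))
    (pt_ne (by omega) (by omega) (by omega)) (pt_ne (by omega) (by omega) (by omega))

theorem gen_f (m : ℕ) {i j : ℕ} (h : 1 ≤ i) (hij : i + 1 < j) (hj : j < m) : (gen m i * gen m j) ^ 2 = 1 := by
  rw [gen_mul m h (by omega) (by omega)]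
  exact disj_sq (pt_ne (by omega) (by omega) (by omega)) (pt_ne (by omega) (by omega) (by omega))
    (pt_ne (by omega) (by omega) (by omega)) (pt_ne (by omega) (by omega) (by omega))

/-- The action. -/
noncomputable def phi (m : ℕ) : Gm m →* Equiv.Perm (Fin (m + 2)) :=
  PresentedGroup.toGroup (f := fun i : Fin m => gen m i) (by
    rintro r ((((⟨i, h, rfl⟩ | ⟨i, h, rfl⟩) | ⟨i, j, h, rfl⟩) | ⟨i, j, h, rfl⟩))
    · have e : (i : ℕ) = 0 := h
      rw [map_pow, FreeGroup.lift_apply_of, e]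
      exact gen_h3 m (by have := i.2; omega)
    · rw [map_pow, FreeGroup.lift_apply_of]
      exact gen_h2 m h i.2
    · rw [map_pow, map_mul, FreeGroup.lift_apply_of, FreeGroup.lift_apply_of, h]
      by_cases c : (i : ℕ) = 0
      · rw [c]
        exact gen_b0 m (by have := j.2; omega)
      · exact gen_b m (by omega) (by have := j.2; omega)
    · rw [map_pow, map_mul, FreeGroup.lift_apply_of, FreeGroup.lift_apply_of]
      by_cases c : (i : ℕ) = 0
      · rw [c]
        exact gen_f0 m (by omega) j.2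
      · exact gen_f m (by omega) h j.2)

theorem phi_xx {m j : ℕ} (h : j < m) : phi m (xx m j) = gen m j := by
  rw [xx_of h]
  have : PresentedGroup.mk (Rl m) (FreeGroup.of ⟨j, h⟩) = PresentedGroup.of ⟨j, h⟩ := rfl
  rw [this, phi, PresentedGroup.toGroup.of]

theorem gen_even (m : ℕ) {i : ℕ} (hi : i < m) : gen m i ∈ alternatingGroup (Fin (m + 2)) := by
  rw [Equiv.Perm.mem_alternatingGroup]
  by_cases c : i = 0
  · subst c
    rw [gen_zero, Equiv.Perm.sign_mul, Equiv.Perm.sign_swap (pt_ne (by omega) (by omega) (by omega)),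
      Equiv.Perm.sign_swap (pt_ne (by omega) (by omega) (by omega))]
    decide
  · rw [gen_pos m (by omega), Equiv.Perm.sign_mul, Equiv.Perm.sign_swap (pt_ne (by omega) (by omega) (by omega)),
      Equiv.Perm.sign_swap (pt_ne (by omega) (by omega) (by omega))]
    decide

theorem phi_even (m : ℕ) (g : Gm m) : phi m g ∈ alternatingGroup (Fin (m + 2)) := by
  have h : (⊤ : Subgroup (Gm m)) ≤ (alternatingGroup (Fin (m + 2))).comap (phi m) := by
    rw [← PresentedGroup.closure_range_of, Subgroup.closure_le]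
    rintro _ ⟨i, rfl⟩
    have e : phi m (PresentedGroup.of i) = gen m i := by
      rw [phi, PresentedGroup.toGroup.of]
    show phi m (PresentedGroup.of i) ∈ alternatingGroup (Fin (m + 2))
    rw [e]
    exact gen_even m i.2
  exact h (Subgroup.mem_top g)

open Equiv in
/-- Conjugation by the transposition preserves the image. -/
theorem tau_conj (m : ℕ) (g : Gm m) :
    swap (pt m 0) (pt m 1) * phi m g * swap (pt m 0) (pt m 1) ∈ (phi m).range := by
  have h : (⊤ : Subgroup (Gm m)) ≤ ((phi m).range.comap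
      (MulAut.conj (swap (pt m 0) (pt m 1))).toMonoidHom).comap (phi m) := by
    rw [← PresentedGroup.closure_range_of, Subgroup.closure_le]
    rintro _ ⟨i, rfl⟩
    have e : phi m (PresentedGroup.of i) = gen m i := by
      rw [phi, PresentedGroup.toGroup.of]
    show (MulAut.conj (swap (pt m 0) (pt m 1))).toMonoidHom (phi m (PresentedGroup.of i)) ∈ (phi m).range
    rw [e]
    show swap (pt m 0) (pt m 1) * gen m i * (swap (pt m 0) (pt m 1))⁻¹ ∈ (phi m).range
    rw [swap_inv]
    by_cases c : (i : ℕ) = 0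
    · have e2 : swap (pt m 0) (pt m 1) * gen m 0 * swap (pt m 0) (pt m 1) = (gen m 0)⁻¹ := by
        rw [gen_zero, mul_inv_rev, swap_inv, swap_inv]
        calc swap (pt m 0) (pt m 1) * (swap (pt m 0) (pt m 1) * swap (pt m 1) (pt m 2)) * swap (pt m 0) (pt m 1)
            = (swap (pt m 0) (pt m 1) * swap (pt m 0) (pt m 1)) * swap (pt m 1) (pt m 2) * swap (pt m 0) (pt m 1) := by
              group
          _ = swap (pt m 1) (pt m 2) * swap (pt m 0) (pt m 1) := by rw [swap_sq, one_mul]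
      rw [c, e2]
      exact ⟨(xx m 0)⁻¹, by rw [map_inv, phi_xx (by rw [← c]; exact i.2)]⟩
    · refine ⟨xx m i, ?_⟩
      rw [phi_xx i.2, gen_pos m (by omega), tau_comm m (by omega) i.2, mul_assoc, mul_assoc, swap_sq, mul_one]
      rw [tau_comm m (by omega) i.2]
  have h2 := h (Subgroup.mem_top g)
  have h3 : (MulAut.conj (swap (pt m 0) (pt m 1))).toMonoidHom (phi m g) ∈ (phi m).range := h2
  have e : (MulAut.conj (swap (pt m 0) (pt m 1))).toMonoidHom (phi m g) =
      swap (pt m 0) (pt m 1) * phi m g * swap (pt m 0) (pt m 1) := by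
    show swap (pt m 0) (pt m 1) * phi m g * (swap (pt m 0) (pt m 1))⁻¹ = _
    rw [swap_inv]
  rw [e] at h3
  exact h3

open Equiv in
theorem perm_cases (m : ℕ) (s : Perm (Fin (m + 2))) :
    ∃ k ∈ (phi m).range, s = k ∨ s = k * swap (pt m 0) (pt m 1) := by
  have hs : s ∈ Submonoid.closure (Set.range fun i : Fin (m + 1) => swap i.castSucc i.succ) := by
    rw [Equiv.Perm.mclosure_swap_castSucc_succ (m + 1)]
    trivial
  set τ := swap (pt m 0) (pt m 1) with hτ
  have hconj : ∀ k ∈ (phi m).range, τ * k * τ ∈ (phi m).range := by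
    rintro _ ⟨g, rfl⟩
    exact tau_conj m g
  have hττ : τ * τ = 1 := swap_sq _ _
  induction hs using Submonoid.closure_induction with
  | mem s hs =>
    obtain ⟨⟨i, hi⟩, rfl⟩ := hs
    have e : (swap (Fin.castSucc ⟨i, hi⟩) (Fin.succ ⟨i, hi⟩) : Perm (Fin (m + 2))) = swap (pt m i) (pt m (i + 1)) := by
      have e1 : (Fin.castSucc ⟨i, hi⟩ : Fin (m + 2)) = pt m i := by
        simp only [pt, show i < m + 2 by omega, dif_pos]; rfl
      have e2 : (Fin.succ ⟨i, hi⟩ : Fin (m + 2)) = pt m (i + 1) := by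
        simp only [pt, show i + 1 < m + 2 by omega, dif_pos]; rfl
      rw [e1, e2]
    show ∃ k ∈ (phi m).range, (swap (Fin.castSucc ⟨i, hi⟩) (Fin.succ ⟨i, hi⟩) : Perm (Fin (m + 2))) = k ∨
      (swap (Fin.castSucc ⟨i, hi⟩) (Fin.succ ⟨i, hi⟩) : Perm (Fin (m + 2))) = k * τ
    rw [e]
    by_cases c0 : i = 0
    · subst c0
      exact ⟨1, Subgroup.one_mem _, Or.inr (by rw [one_mul])⟩
    by_cases c1 : i = 1
    · subst c1
      have hm : 0 < m := by omega
      refine ⟨τ * gen m 0 * τ, hconj _ ⟨xx m 0, phi_xx hm⟩, Or.inr ?_⟩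
      rw [mul_assoc, mul_assoc, hττ, mul_one, gen_zero, ← hτ, ← mul_assoc, hττ, one_mul]
    · obtain ⟨j, rfl⟩ : ∃ j, i = j + 1 := ⟨i - 1, by omega⟩
      have hj : j < m := by omega
      refine ⟨gen m j, ⟨xx m j, phi_xx hj⟩, Or.inr ?_⟩
      rw [gen_pos m (by omega), ← hτ, hτ, tau_comm m (by omega) hj, mul_assoc, ← hτ, hττ, mul_one]
  | one => exact ⟨1, Subgroup.one_mem _, Or.inl rfl⟩
  | mul a b _ _ ha hb =>
    obtain ⟨k, hk, ha⟩ := ha
    obtain ⟨l, hl, hb⟩ := hb
    rcases ha with e1 | e1 <;> rcases hb with e2 | e2 <;> rw [e1, e2]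
    · exact ⟨k * l, Subgroup.mul_mem _ hk hl, Or.inl rfl⟩
    · exact ⟨k * l, Subgroup.mul_mem _ hk hl, Or.inr (by group)⟩
    · refine ⟨k * (τ * l * τ), Subgroup.mul_mem _ hk (hconj l hl), Or.inr ?_⟩
      calc k * τ * l = k * (τ * l * 1) := by group
        _ = k * (τ * l * (τ * τ)) := by rw [hττ]
        _ = _ := by group
    · refine ⟨k * (τ * l * τ), Subgroup.mul_mem _ hk (hconj l hl), Or.inl ?_⟩
      group

theorem phi_surj (m : ℕ) (s : Equiv.Perm (Fin (m + 2))) (hs : s ∈ alternatingGroup (Fin (m + 2))) :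
    s ∈ (phi m).range := by
  obtain ⟨k, hk, h⟩ := perm_cases m s
  rcases h with rfl | rfl
  · exact hk
  · exfalso
    obtain ⟨g, rfl⟩ := hk
    rw [Equiv.Perm.mem_alternatingGroup, Equiv.Perm.sign_mul, Equiv.Perm.mem_alternatingGroup.1 (phi_even m g),
      Equiv.Perm.sign_swap (pt_ne (by omega) (by omega) (by omega))] at hs
    exact absurd hs (by decide)

/-- The isomorphism. -/
theorem exists_iso (m : ℕ) : Nonempty (Gm m ≃* alternatingGroup (Fin (m + 2))) := by
  let f : Gm m →* alternatingGroup (Fin (m + 2)) := (phi m).codRestrict _ (phi_even m)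
  have hf : Function.Surjective f := by
    rintro ⟨s, hs⟩
    obtain ⟨g, hg⟩ := phi_surj m s hs
    exact ⟨g, Subtype.ext hg⟩
  obtain ⟨h1, h2⟩ := gm_bound m
  have hc : Nat.card (Gm m) ≤ Nat.card (alternatingGroup (Fin (m + 2))) := by
    refine h2.trans ?_
    have e1 := two_mul_card_alternatingGroup (α := Fin (m + 2))
    rw [Fintype.card_perm, Fintype.card_fin, ← bnd_fact] at e1
    rw [Nat.card_eq_fintype_card]
    omega
  exact ⟨MulEquiv.ofBijective f (hf.bijective_of_nat_card_le hc)⟩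



/-- A presentation of the alternating group of degree n ≥ 3 on generators x_1, …, x_{n−2} (indexed here by 0, …, n−3): the first generator cubes to 1, every other generator squares to 1, the product of two consecutive generators has order dividing 3, and the product of two generators at distance at least 2 has order dividing 2. The group so presented is isomorphic to the alternating group of degree n. -/
theorem result (n : ℕ) (hn : 3 ≤ n) :
    Nonempty (PresentedGroup
      ({g : FreeGroup (Fin (n - 2)) | ∃ i : Fin (n - 2), i.val = 0 ∧ g = FreeGroup.of i ^ 3} ∪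
       {g | ∃ i : Fin (n - 2), 1 ≤ i.val ∧ g = FreeGroup.of i ^ 2} ∪
       {g | ∃ i j : Fin (n - 2), j.val = i.val + 1 ∧ g = (FreeGroup.of i * FreeGroup.of j) ^ 3} ∪
       {g | ∃ i j : Fin (n - 2), i.val + 1 < j.val ∧ g = (FreeGroup.of i * FreeGroup.of j) ^ 2})
      ≃* alternatingGroup (Fin n)) := by
  obtain ⟨m, rfl⟩ : ∃ m, n = m + 2 := ⟨n - 2, by omega⟩
  exact exists_iso m

end Cfsg.Agent.S3335
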