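import Cfsg.Statements.S3349


set_option autoImplicit false
open Cfsg

namespace Cfsg.Agent.S3349

/-- Let Q be a finite extraspecial p-group and α an automorphism of Q fixing every element of some maximal abelian subgroup of Q. Then the order of α is a power of p. -/
theorem result {Q : Type*} [Group Q] [Finite Q]
    (p : ℕ) [Fact p.Prime] (hQ : Cfsg.IsExtraspecial p Q) (α : MulAut Q)
    (A : Subgroup Q) (hA : IsMulCommutative A) (hmax : ∀ B : Subgroup Q, A ≤ B → IsMulCommutative B → B = A)
    (hfix : ∀ a ∈ A, α a = a) :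
    ∃ k : ℕ, orderOf α = p ^ k := by
  have hmaxc : ∀ x : Q, (∀ a ∈ A, x * a = a * x) → x ∈ A := by
    intro x hx
    classical
    have hcl : IsMulCommutative (Subgroup.closure ((A : Set Q) ∪ {x})) := by
      have hgen : ∀ u ∈ ((A : Set Q) ∪ {x}), ∀ v ∈ ((A : Set Q) ∪ {x}), u * v = v * u := by
        rintro u (hu | hu) v (hv | hv)
        · have h := hA.is_comm.comm (⟨u, hu⟩ : A) (⟨v, hv⟩ : A)
          exact congrArg Subtype.val h
        · rw [Set.mem_singleton_iff] at hv
          rw [hv]
          exact (hx u hu).symm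
        · rw [Set.mem_singleton_iff] at hu
          rw [hu]
          exact hx v hv
        · rw [Set.mem_singleton_iff] at hu hv
          rw [hu, hv]
      exact Subgroup.isMulCommutative_closure hgen
    have hle : A ≤ Subgroup.closure ((A : Set Q) ∪ {x}) :=
      fun y hy => Subgroup.subset_closure (Or.inl hy)
    have := hmax _ hle hcl
    rw [← this]
    exact Subgroup.subset_closure (Or.inr rfl)
  have hZ : Subgroup.center Q ≤ A := by
    intro z hz
    apply hmaxc z
    intro a _
    exact (Subgroup.mem_center_iff.mp hz a).symm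
  have hcomm : commutator Q = Subgroup.center Q := hQ.1.2.2
  have hnorm : ∀ x : Q, ∀ a ∈ A, x * a * x⁻¹ ∈ A := by
    intro x a ha
    have h1 : x * a * x⁻¹ * a⁻¹ ∈ commutator Q := by
      rw [commutator_def]
      exact Subgroup.commutator_mem_commutator (Subgroup.mem_top _) (Subgroup.mem_top _)
    rw [hcomm] at h1
    have h2 := A.mul_mem (hZ h1) ha
    simpa using h2
  have hc : ∀ x : Q, x⁻¹ * α x ∈ A := by
    intro x
    apply hmaxc
    intro a ha
    have h1 := hfix _ (hnorm x a ha)
    have h2 : α (x * a * x⁻¹) = α x * a * (α x)⁻¹ := by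
      simp [map_mul, map_inv, hfix a ha]
    rw [h2] at h1
    calc x⁻¹ * α x * a = x⁻¹ * (α x * a * (α x)⁻¹) * α x := by group
      _ = x⁻¹ * (x * a * x⁻¹) * α x := by rw [h1]
      _ = a * (x⁻¹ * α x) := by group
  have hpow : ∀ (k : ℕ) (x : Q), (α ^ k) x = x * (x⁻¹ * α x) ^ k := by
    intro k x
    induction k with
    | zero => simp
    | succ k ih =>
      rw [pow_succ', MulAut.mul_apply, ih, map_mul, map_pow, hfix _ (hc x), pow_succ', ← mul_assoc,
        mul_inv_cancel_left]
  have hone : α ^ (Nat.card A) = 1 := by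
    ext x
    rw [hpow, MulAut.one_apply]
    have : (x⁻¹ * α x) ^ (Nat.card A) = 1 := by
      have := pow_card_eq_one' (G := A) (x := ⟨_, hc x⟩)
      exact congrArg Subtype.val this
    rw [this, mul_one]
  have hpA : IsPGroup p A := hQ.1.1.to_subgroup A
  obtain ⟨n, hn⟩ := (IsPGroup.iff_card).1 hpA
  have hdvd := orderOf_dvd_of_pow_eq_one hone
  rw [hn] at hdvd
  obtain ⟨m, _, hm⟩ := (Nat.dvd_prime_pow (Fact.out : p.Prime)).1 hdvd
  exact ⟨m, hm⟩

end Cfsg.Agent.S3349
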