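import Cfsg.Statements.S3358
import Cfsg.Agent.Lib.H12.FC4
import Cfsg.Agent.Lib.H12.FpfLift3
-- import your own Cfsg.Agent.* helpers here

set_option autoImplicit false
open Cfsg

namespace Cfsg.Agent.S3358



/-- Structure of solvable Frobenius complements. Let G be a finite solvable group that occurs as a Frobenius complement. Then G has a normal subgroup G₀ such that G/G₀ is isomorphic to a subgroup of Sym(4) (G₀ is the kernel of a homomorphism to Sym(4)), all Sylow subgroups of G₀ are cyclic, and G₀ has a presentation ⟨x, y | x^n = 1, y^m = 1, x⁻¹ y x = y^r⟩ with n, m ≥ 1, gcd(r − 1, m) = gcd(n, m) = 1 and r^(n/n′) ≡ 1 (mod m), where n′ is the product of the distinct primes dividing n. -/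
theorem result {G : Type*} [Group G] [Finite G] (hsol : Group.IsSolvable G)
    (hFC : ∃ (L : Type) (_ : Group L) (_ : Finite L) (H : Subgroup L), Cfsg.IsFrobeniusComplement H ∧ Nonempty (G ≃* H)) :
    ∃ G₀ : Subgroup G, G₀.Normal ∧
      (∃ f : G →* Equiv.Perm (Fin 4), f.ker = G₀) ∧
      (∀ (p : ℕ) [Fact p.Prime] (P : Sylow p G₀), IsCyclic P) ∧
      ∃ n m r : ℕ, 0 < n ∧ 0 < m ∧ Nat.Coprime (r - 1) m ∧ Nat.Coprime n m ∧ 1 ≤ r ∧
        r ^ (n / ∏ p ∈ n.primeFactors, p) % m = 1 % m ∧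
        Nonempty (G₀ ≃* PresentedGroup
          ({FreeGroup.of (0 : Fin 2) ^ n, FreeGroup.of (1 : Fin 2) ^ m,
            (FreeGroup.of (0 : Fin 2))⁻¹ * FreeGroup.of 1 * FreeGroup.of 0 * (FreeGroup.of (1 : Fin 2) ^ r)⁻¹} :
            Set (FreeGroup (Fin 2)))) := by
  classical
  obtain ⟨L, _, _, H, hH, ⟨e⟩⟩ := hFC
  obtain ⟨n, hn, φ, hφ⟩ := H12.FpfLift.exists_fpf_algClosure hH e
  -- unique subgroups of prime order
  have hU : ∀ (q : ℕ) [Fact q.Prime] (S : Subgroup G), IsPGroup q S → H14.UniqueP q S :=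
    fun q _ S hS => H12.FC.uniqueP_of_fpf hn hφ S hS
  haveI : Fact (Nat.Prime 2) := ⟨Nat.prime_two⟩
  haveI : Group.IsSolvable G := hsol
  obtain ⟨f, hf⟩ := H12.FC.exists_hom (fun S hS => hU 2 S hS)
  have hcyc : ∀ (p : ℕ) [Fact p.Prime] (T : Subgroup G), T ≤ f.ker → IsPGroup p T → IsCyclic T := by
    intro p _ T hTk hT
    by_cases hp2 : p = 2
    · subst hp2
      exact hf T hTk hT
    · rcases H14.isCyclic_or_quaternion hT (hU p T hT) with h | ⟨h, -⟩
      · exact h
      · exact (hp2 h).elim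
  have hsyl : ∀ (p : ℕ) [Fact p.Prime] (P : Sylow p f.ker), IsCyclic P := by
    intro p _ P
    have h1 : IsPGroup p ((P : Subgroup f.ker).map f.ker.subtype) := P.isPGroup'.map _
    have h2 : (P : Subgroup f.ker).map f.ker.subtype ≤ f.ker := Subgroup.map_subtype_le _
    haveI := hcyc p _ h2 h1
    exact isCyclic_of_injective ((P : Subgroup f.ker).equivMapOfInjective _ f.ker.subtype_injective).toMonoidHom
      ((P : Subgroup f.ker).equivMapOfInjective _ f.ker.subtype_injective).injective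
  haveI hZ : IsZGroup f.ker := ⟨fun p hp P => by
    haveI := Fact.mk hp
    exact hsyl p P⟩
  have hP2 : ∀ (w y : f.ker) (p e : ℕ), p.Prime → orderOf w = p → w⁻¹ * y * w = y ^ e →
      w * y = y * w := by
    intro w y p e' hp hw hc
    apply Subtype.ext
    have h1 : orderOf (w : G) = p := by rw [Subgroup.orderOf_coe]; exact hw
    have h2 : (w : G)⁻¹ * y * w = (y : G) ^ e' := by
      simpa using congrArg Subtype.val hc
    simpa using H12.FC.commute_of_prime hn hφ hp h1 h2
  obtain ⟨n', m, r, hn', hm, hr1, hcop, hr, hrad, hiso⟩ := H12.FC.zgroup_presentation hP2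
  exact ⟨f.ker, inferInstance, ⟨f, rfl⟩, hsyl, n', m, r, hn', hm, hr1, hcop, hr, hrad, hiso⟩

end Cfsg.Agent.S3358
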