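import Cfsg.Statements.S3376
import Cfsg.Agent.Lib.H16.ThreeHalf

set_option autoImplicit false
open Cfsg

namespace Cfsg.Agent.S3376
open Cfsg.Agent.H16.ThreeHalf

/-- a `τ`-invariant complement to `⟨c⟩` -/
theorem exists_compl {A : Type*} [CommGroup A] [Finite A] (τ : A →* A) (hτ : ∀ x, τ (τ x) = x)
    (h3 : ∀ x : A, x ^ 3 = 1) (c : A) (hc1 : c ≠ 1) (hτc : τ c = c) :
    ∃ L : Subgroup A, c ∉ L ∧ (∀ l ∈ L, τ l ∈ L) ∧ Nat.card L * 3 = Nat.card A := by
  let S : Set (Subgroup A) := {L | c ∉ L ∧ ∀ l ∈ L, τ l ∈ L}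
  have hS : S.Nonempty := ⟨⊥, by simpa using hc1, by simp⟩
  obtain ⟨L, hL⟩ := S.toFinite.exists_maximal hS
  obtain ⟨hcL, hτL⟩ := hL.1
  refine ⟨L, hcL, hτL, ?_⟩
  have hpow : ∀ {x : A} {k : ℕ}, k % 3 ≠ 0 → ∀ M : Subgroup A, x ^ k ∈ M → x ∈ M := by
    intro x k hk M hx
    have e : ∀ j, x ^ (3 * j) = 1 := fun j => by rw [pow_mul, h3, one_pow]
    have h1 : k % 3 = 1 ∨ k % 3 = 2 := by omega
    have hk' : x ^ k = x ^ (k % 3) := by
      conv_lhs => rw [← Nat.div_add_mod k 3, pow_add, e, one_mul]
    rw [hk'] at hx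
    rcases h1 with h1 | h1
    · rw [h1, pow_one] at hx
      exact hx
    · rw [h1] at hx
      have := M.mul_mem hx hx
      have e2 : x ^ 2 * x ^ 2 = x := by
        rw [← pow_add, show 2 + 2 = 3 * 1 + 1 by norm_num, pow_add, e, one_mul, pow_one]
      rwa [e2] at this
  have hsup : L ⊔ Subgroup.zpowers c = ⊤ := by
    by_contra hne
    obtain ⟨x, -, hx⟩ : ∃ x, x ∈ (⊤ : Subgroup A) ∧ x ∉ L ⊔ Subgroup.zpowers c := by
      by_contra hno
      push Not at hno
      exact hne (le_antisymm le_top (fun x hx => hno x hx))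
    set M := L ⊔ Subgroup.zpowers c with hM
    have hx2 : x * τ x * (x * (τ x)⁻¹) = x ^ 2 := by
      rw [pow_two]
      simp only [mul_assoc, mul_comm, mul_left_comm, inv_mul_cancel, mul_one, mul_inv_cancel]
    have hy : ∃ y, y ∉ M ∧ (τ y = y ∨ τ y = y⁻¹) := by
      by_cases h1 : x * τ x ∈ M
      · refine ⟨x * (τ x)⁻¹, ?_, Or.inr ?_⟩
        · intro h2
          have := M.mul_mem h1 h2
          rw [hx2] at this
          exact hx (hpow (by norm_num) M this)
        · rw [map_mul, map_inv, hτ, mul_inv, inv_inv, mul_comm]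
      · refine ⟨x * τ x, h1, Or.inl ?_⟩
        rw [map_mul, hτ, mul_comm]
    obtain ⟨y, hyM, hyτ⟩ := hy
    have hyL : y ∉ L := fun h => hyM (Subgroup.mem_sup_left h)
    -- the bigger subgroup
    have hmem : L ⊔ Subgroup.zpowers y ∈ S := by
      constructor
      · intro hc
        obtain ⟨l, hl, z, hz, e⟩ := Subgroup.mem_sup.1 hc
        obtain ⟨k, hk0⟩ := hz
        replace hk0 : y ^ k = z := hk0
        subst hk0
        -- write the exponent
        have hk : y ^ k = y ^ (k % 3).toNat := by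
          have e3 : y ^ (3 : ℤ) = 1 := by exact_mod_cast h3 y
          have h4 : y ^ k = y ^ (k % 3) := by
            conv_lhs => rw [← Int.mul_ediv_add_emod k 3, zpow_add, zpow_mul, e3, one_zpow, one_mul]
          rw [h4]
          have h5 : 0 ≤ k % 3 := Int.emod_nonneg _ (by norm_num)
          conv_lhs => rw [← Int.toNat_of_nonneg h5]
          rw [zpow_natCast]
        have hlt : (k % 3).toNat < 3 := by omega
        rw [hk] at e
        by_cases h0 : (k % 3).toNat = 0
        · rw [h0, pow_zero, mul_one] at e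
          exact hcL (e ▸ hl)
        · apply hyM
          apply hpow (k := (k % 3).toNat) (by omega) M
          have : y ^ (k % 3).toNat = l⁻¹ * c := by
            rw [← e]
            group
          rw [this]
          exact M.mul_mem (M.inv_mem (Subgroup.mem_sup_left hl))
            (Subgroup.mem_sup_right (Subgroup.mem_zpowers c))
      · intro z hz
        obtain ⟨l, hl, w, hw, rfl⟩ := Subgroup.mem_sup.1 hz
        obtain ⟨k, hk0⟩ := hw
        replace hk0 : y ^ k = w := hk0
        subst hk0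
        rw [map_mul, map_zpow]
        apply Subgroup.mul_mem _ (Subgroup.mem_sup_left (hτL l hl))
        apply Subgroup.zpow_mem
        apply Subgroup.mem_sup_right
        rcases hyτ with h | h
        · rw [h]
          exact Subgroup.mem_zpowers y
        · rw [h]
          exact Subgroup.inv_mem _ (Subgroup.mem_zpowers y)
    have h4 := hL.2 hmem le_sup_left
    exact hyL (h4 (Subgroup.mem_sup_right (Subgroup.mem_zpowers y)))
  -- counting
  have hq : Nat.card (A ⧸ L) = 3 := by
    set c' : A ⧸ L := QuotientGroup.mk c with hc'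
    have h1 : c' ≠ 1 := by
      intro h
      exact hcL ((QuotientGroup.eq_one_iff c).1 h)
    have h2 : c' ^ 3 = 1 := by
      rw [hc', ← QuotientGroup.mk_pow, h3]
      rfl
    haveI : Fact (Nat.Prime 3) := ⟨by norm_num⟩
    have ho : orderOf c' = 3 := orderOf_eq_prime h2 h1
    have htop : Subgroup.zpowers c' = ⊤ := by
      rw [eq_top_iff]
      intro z _
      obtain ⟨x, rfl⟩ := QuotientGroup.mk_surjective z
      have hx : x ∈ L ⊔ Subgroup.zpowers c := by rw [hsup]; trivial
      obtain ⟨l, hl, w, hw, rfl⟩ := Subgroup.mem_sup.1 hx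
      obtain ⟨k, hk0⟩ := hw
      replace hk0 : c ^ k = w := hk0
      subst hk0
      refine ⟨k, ?_⟩
      show c' ^ k = ((l * c ^ k : A) : A ⧸ L)
      rw [QuotientGroup.mk_mul, QuotientGroup.mk_zpow, (QuotientGroup.eq_one_iff l).2 hl, one_mul]
    rw [← Subgroup.card_top (G := A ⧸ L), ← htop, Nat.card_zpowers, ho]
  rw [Subgroup.card_eq_card_quotient_mul_card_subgroup L, hq, mul_comm]

/-- A nontrivial normal subgroup of a `p`-group meets the centre. -/
theorem meets_center {G : Type*} [Group G] [Finite G] {p : ℕ} [Fact p.Prime] (P M : Subgroup G)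
    (hP : IsPGroup p P) (hMP : M ≤ P) (hMn : ∀ s ∈ P, ∀ x ∈ M, s * x * s⁻¹ ∈ M) (hM1 : M ≠ ⊥) :
    ∃ v ∈ M, v ≠ 1 ∧ ∀ s ∈ P, s * v = v * s := by
  letI := conjAction P (M : Set G) hMn
  have h1 := hP.card_modEq_card_fixedPoints (↥(M : Set G))
  have hone : (⟨1, M.one_mem⟩ : ↥(M : Set G)) ∈ MulAction.fixedPoints P ↥(M : Set G) := by
    rw [MulAction.mem_fixedPoints]
    intro m
    apply Subtype.ext
    show (m : G) * 1 * (m : G)⁻¹ = 1
    simp
  have hpM : p ∣ Nat.card M := by
    have hnt : Nontrivial M := (Subgroup.nontrivial_iff_ne_bot M).2 hM1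
    have hg : IsPGroup p M := hP.to_le hMP
    obtain ⟨k, hk⟩ := IsPGroup.iff_card.1 hg
    rw [hk]
    apply dvd_pow_self
    rintro rfl
    have := Finite.one_lt_card (α := M)
    rw [pow_zero] at hk
    omega
  have h2 : p ∣ Nat.card (MulAction.fixedPoints P ↥(M : Set G)) := by
    have h3 : Nat.card ↥(M : Set G) = Nat.card M := rfl
    rw [h3] at h1
    exact (Nat.modEq_zero_iff_dvd.1 (h1.symm.trans ((Nat.modEq_zero_iff_dvd).2 hpM)))
  have h4 : 1 < Nat.card (MulAction.fixedPoints P ↥(M : Set G)) := by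
    have hp := (Fact.out : p.Prime).two_le
    have h5 := Nat.le_of_dvd (Nat.card_pos_iff.2 ⟨⟨⟨_, hone⟩⟩, inferInstance⟩) h2
    omega
  haveI := Finite.one_lt_card_iff_nontrivial.1 h4
  obtain ⟨⟨v, hv⟩, hv1⟩ := exists_ne (⟨_, hone⟩ : MulAction.fixedPoints P ↥(M : Set G))
  refine ⟨v, v.2, ?_, ?_⟩
  · intro h
    apply hv1
    apply Subtype.ext
    apply Subtype.ext
    exact h
  · intro s hs
    have h6 := (MulAction.mem_fixedPoints.1 hv) ⟨s, hs⟩
    have h7 : s * (v : G) * s⁻¹ = v := congrArg Subtype.val h6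
    calc s * (v : G) = (s * v * s⁻¹) * s := by group
      _ = v * s := by rw [h7]

/-- Let G be a group of order 162 = 3⁴·2 with Sylow 3-subgroup S and Sylow 2-subgroup T, having an elementary abelian normal subgroup J of order 27, such that Z = Z(S) has order 3, Z centralizes T, and C_S(T) ≠ S. Then G is isomorphic to the centralizer in Sym(9) of a product of three disjoint 3-cycles. -/
theorem result {G : Type*} [Group G] [Finite G] (hG : Nat.card G = 162)
    (S : Sylow 3 G) (T : Sylow 2 G) (J : Subgroup G) [hJn : J.Normal] (hJcomm : IsMulCommutative J)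
    (hJexp : ∀ a ∈ J, a ^ 3 = 1) (hJcard : Nat.card J = 27)
    (Z : Subgroup G) (hZ : Z = (S : Subgroup G) ⊓ Subgroup.centralizer ((S : Subgroup G) : Set G)) (hZcard : Nat.card Z = 3)
    (hZT : Z ≤ Subgroup.centralizer ((T : Subgroup G) : Set G))
    (hST : (S : Subgroup G) ⊓ Subgroup.centralizer ((T : Subgroup G) : Set G) ≠ S) :
    Nonempty (G ≃* Subgroup.centralizer ({Equiv.swap (0 : Fin 9) 1 * Equiv.swap 1 2 * Equiv.swap 3 4 * Equiv.swap 4 5 * Equiv.swap 6 7 * Equiv.swap 7 8} : Set (Equiv.Perm (Fin 9)))) := by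
  classical
  haveI f3 : Fact (Nat.Prime 3) := ⟨by norm_num⟩
  haveI f2 : Fact (Nat.Prime 2) := ⟨by norm_num⟩
  have hf3 : (162 : ℕ).factorization 3 = 4 := by
    rw [show (162 : ℕ) = 3 ^ 4 * 2 by norm_num, Nat.factorization_mul (by norm_num) (by norm_num),
      Nat.Prime.factorization_pow (by norm_num)]
    simp only [Finsupp.coe_add, Pi.add_apply, Finsupp.single_eq_same]
    rw [Nat.factorization_eq_zero_of_not_dvd (by norm_num)]
  have hf2 : (162 : ℕ).factorization 2 = 1 := by
    rw [show (162 : ℕ) = 2 * 81 by norm_num, Nat.factorization_mul (by norm_num) (by norm_num),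
      Nat.Prime.factorization (by norm_num)]
    simp only [Finsupp.coe_add, Pi.add_apply, Finsupp.single_eq_same]
    rw [Nat.factorization_eq_zero_of_not_dvd (by norm_num)]
  have hS81 : Nat.card (S : Subgroup G) = 81 := by
    rw [S.card_eq_multiplicity, hG, hf3]
    norm_num
  have hT2 : Nat.card (T : Subgroup G) = 2 := by
    rw [T.card_eq_multiplicity, hG, hf2]
    norm_num
  have hSi : (S : Subgroup G).index = 2 := by
    have := (S : Subgroup G).card_mul_index
    rw [hS81, hG] at this
    omega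
  have hSn : (S : Subgroup G).Normal := Subgroup.normal_of_index_eq_two hSi
  have hSpg : IsPGroup 3 (S : Subgroup G) := S.isPGroup'
  have hsq : ∀ a : G, a ^ 2 ∈ (S : Subgroup G) := Subgroup.sq_mem_of_index_two hSi
  have h3S : ∀ a : G, a ^ 3 = 1 → a ∈ (S : Subgroup G) := by
    intro a ha
    have h1 := Subgroup.mul_mem _ (hsq a) (hsq a)
    have e : a ^ 2 * a ^ 2 = a := by
      rw [← pow_add, show 2 + 2 = 3 + 1 by norm_num, pow_add, ha, one_mul, pow_one]
    rwa [e] at h1
  have hJS : J ≤ (S : Subgroup G) := fun x hx => h3S x (hJexp x hx)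
  -- the central element
  have hJ1 : J ≠ ⊥ := by
    intro h
    rw [h, Subgroup.card_bot] at hJcard
    omega
  obtain ⟨c, hcJ, hc1, hcS⟩ := meets_center (p := 3) (S : Subgroup G) J hSpg hJS
    (fun s _ x hx => hJn.conj_mem x hx s) hJ1
  have hcZ : c ∈ Z := by
    rw [hZ]
    refine ⟨hJS hcJ, Subgroup.mem_centralizer_iff.2 ?_⟩
    intro s hs
    exact hcS s hs
  have hc3 : c ^ 3 = 1 := hJexp c hcJ
  have hco : orderOf c = 3 := orderOf_eq_prime hc3 hc1
  have hZz : ∀ z ∈ Z, z ∈ Subgroup.zpowers c := by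
    have hle : Subgroup.zpowers c ≤ Z := by
      rw [Subgroup.zpowers_le]
      exact hcZ
    have he : Subgroup.zpowers c = Z := by
      apply Subgroup.eq_of_le_of_card_ge hle
      rw [hZcard, Nat.card_zpowers, hco]
    rw [he]
    exact fun z hz => hz
  -- the involution
  obtain ⟨t₀, ht₀⟩ := exists_prime_orderOf_dvd_card' (G := (T : Subgroup G)) 2 (by rw [hT2])
  set t : G := (t₀ : G) with ht
  have hto : orderOf t = 2 := by rw [ht, Subgroup.orderOf_coe, ht₀]
  have ht2 : t ^ 2 = 1 := by rw [← hto]; exact pow_orderOf_eq_one t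
  have ht1 : t ≠ 1 := by
    intro h
    rw [h, orderOf_one] at hto
    omega
  have htT : t ∈ (T : Subgroup G) := t₀.2
  have hTe : ∀ x ∈ (T : Subgroup G), x = 1 ∨ x = t := by
    intro x hx
    have he : Subgroup.zpowers t = (T : Subgroup G) := by
      apply Subgroup.eq_of_le_of_card_ge
      · rw [Subgroup.zpowers_le]
        exact htT
      · rw [hT2, Nat.card_zpowers, hto]
    rw [← he] at hx
    obtain ⟨k, hk⟩ := hx
    replace hk : t ^ k = x := hk
    subst hk
    rcases Int.even_or_odd' k with ⟨c', rfl | rfl⟩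
    · left
      rw [zpow_mul]
      simp [ht2]
    · right
      rw [zpow_add, zpow_mul]
      simp [ht2]
  have hinv3 : ∀ s ∈ (S : Subgroup G), s ^ 2 = 1 → s = 1 := by
    intro s hs hs2
    have h1 : orderOf (⟨s, hs⟩ : (S : Subgroup G)) ∣ 81 := by
      rw [← hS81]
      exact orderOf_dvd_natCard _
    have h2 : orderOf (⟨s, hs⟩ : (S : Subgroup G)) ∣ 2 := by
      apply orderOf_dvd_of_pow_eq_one
      exact Subtype.ext hs2
    have h3 : orderOf (⟨s, hs⟩ : (S : Subgroup G)) = 1 :=
      Nat.dvd_one.1 ((Nat.dvd_gcd h1 h2).trans (by norm_num))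
    have h4 := orderOf_eq_one_iff.1 h3
    exact congrArg Subtype.val h4
  have htS : t ∉ (S : Subgroup G) := fun h => ht1 (hinv3 t h ht2)
  have hfac : ∀ g : G, g ∈ (S : Subgroup G) ∨ g * t ∈ (S : Subgroup G) := by
    intro g
    by_cases h : g ∈ (S : Subgroup G)
    · exact Or.inl h
    · right
      rw [Subgroup.mul_mem_iff_of_index_two hSi]
      exact ⟨fun a => absurd a h, fun a => absurd a htS⟩
  have hct : c * t = t * c := by
    have h1 := hZT hcZ
    rw [Subgroup.mem_centralizer_iff] at h1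
    exact (h1 t htT).symm
  have hcc : ∀ g : G, g * c = c * g := by
    intro g
    rcases hfac g with h | h
    · exact hcS g h
    · have h1 := hcS _ h
      have e : g = (g * t) * t⁻¹ := by group
      rw [e]
      have h2 : t⁻¹ * c = c * t⁻¹ := by
        rw [inv_mul_eq_iff_eq_mul, ← mul_assoc, ← hct, mul_assoc, mul_inv_cancel, mul_one]
      calc g * t * t⁻¹ * c = g * t * (t⁻¹ * c) := by group
        _ = g * t * (c * t⁻¹) := by rw [h2]
        _ = (g * t * c) * t⁻¹ := by group
        _ = (c * (g * t)) * t⁻¹ := by rw [h1]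
        _ = _ := by group
  -- the complement
  obtain ⟨L, hcL, htL, hLc⟩ : ∃ L : Subgroup G, c ∉ L ∧ (∀ l ∈ L, t * l * t⁻¹ ∈ L) ∧
      (L ≤ J ∧ Nat.card L = 9) := by
    letI inst : CommGroup J := { (inferInstance : Group J) with mul_comm := hJcomm.is_comm.comm }
    let τ : J →* J :=
      { toFun := fun x => ⟨t * x * t⁻¹, hJn.conj_mem x x.2 t⟩
        map_one' := by
          apply Subtype.ext
          show t * 1 * t⁻¹ = 1
          group
        map_mul' := by
          intro x y
          apply Subtype.ext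
          show t * ((x : G) * y) * t⁻¹ = (t * x * t⁻¹) * (t * y * t⁻¹)
          group }
    obtain ⟨L₀, h1, h2, h3⟩ := exists_compl τ
      (by
        intro x
        apply Subtype.ext
        show t * (t * x * t⁻¹) * t⁻¹ = x
        have key : ∀ a b : G, a ^ 2 = 1 → a * (a * b * a⁻¹) * a⁻¹ = b := by
          intro a b ha
          have hi : a⁻¹ = a := inv_eq_of_mul_eq_one_left (by rw [← pow_two, ha])
          rw [hi]
          calc a * (a * b * a) * a = (a ^ 2) * b * (a ^ 2) := by simp only [pow_two, mul_assoc]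
            _ = b := by rw [ha]; simp
        exact key _ _ ht2)
      (fun x => Subtype.ext (hJexp x x.2)) ⟨c, hcJ⟩
      (fun h => hc1 (congrArg Subtype.val h))
      (by
        apply Subtype.ext
        show t * c * t⁻¹ = c
        rw [← hct]
        group)
    refine ⟨L₀.map J.subtype, ?_, ?_, Subgroup.map_subtype_le _, ?_⟩
    · rintro ⟨x, hx, hxe⟩
      apply h1
      have : x = ⟨c, hcJ⟩ := Subtype.ext hxe
      rwa [← this]
    · rintro _ ⟨x, hx, rfl⟩
      exact ⟨τ x, h2 x hx, rfl⟩
    · rw [Subgroup.card_map_of_injective J.subtype_injective]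
      rw [hJcard] at h3
      omega
  obtain ⟨hLJ, hL9⟩ := hLc
  have hLS : L ≤ (S : Subgroup G) := hLJ.trans hJS
  have hTL : (T : Subgroup G) ≤ Subgroup.normalizer (L : Set G) := by
    rw [Subgroup.le_normalizer_iff]
    intro x hx l hl
    rcases hTe x hx with rfl | rfl
    · simpa using hl
    · exact htL l hl
  set U : Subgroup G := (T : Subgroup G) ⊔ L with hU
  have hUmem : ∀ u ∈ U, ∃ l ∈ L, u = l ∨ u = t * l := by
    intro u hu
    have hu' : u ∈ ((U : Subgroup G) : Set G) := hu
    rw [hU, Subgroup.coe_mul_of_left_le_normalizer_right _ _ hTL] at hu'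
    obtain ⟨x, hx, l, hl, rfl⟩ := hu'
    refine ⟨l, hl, ?_⟩
    rcases hTe x hx with rfl | rfl
    · left
      simp
    · right
      rfl
  have hcU : c ∉ U := by
    intro h
    obtain ⟨l, hl, e | e⟩ := hUmem c h
    · exact hcL (e ▸ hl)
    · apply htS
      have : t = c * l⁻¹ := by rw [e]; group
      rw [this]
      exact Subgroup.mul_mem _ (hJS hcJ) (Subgroup.inv_mem _ (hLS hl))
  have hUc : Nat.card U = 18 := by
    have h2 : 2 ∣ Nat.card U := by
      rw [← hT2]
      exact Subgroup.card_dvd_of_le le_sup_left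
    have h9 : 9 ∣ Nat.card U := by
      rw [← hL9]
      exact Subgroup.card_dvd_of_le le_sup_right
    have h18 : 18 ∣ Nat.card U := (Nat.Coprime.mul_dvd_of_dvd_of_dvd (by norm_num) h2 h9)
    have hle : Nat.card U ≤ 18 := by
      let f : Bool × L → U := fun p => ⟨(if p.1 then t else 1) * p.2, by
        refine Subgroup.mul_mem _ ?_ (Subgroup.mem_sup_right p.2.2)
        apply Subgroup.mem_sup_left
        split_ifs
        · exact htT
        · exact Subgroup.one_mem _⟩
      have hf : Function.Surjective f := by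
        rintro ⟨u, hu⟩
        obtain ⟨l, hl, e | e⟩ := hUmem u hu
        · refine ⟨(false, ⟨l, hl⟩), Subtype.ext ?_⟩
          simp [f, e]
        · refine ⟨(true, ⟨l, hl⟩), Subtype.ext ?_⟩
          simp [f, e]
      have := Nat.card_le_card_of_surjective f hf
      rw [Nat.card_prod, hL9, Nat.card_eq_fintype_card (α := Bool), Fintype.card_bool] at this
      omega
    have hpos : 0 < Nat.card U := Nat.card_pos
    have := Nat.le_of_dvd hpos h18
    omega
  have hUi : Nat.card (G ⧸ U) = 9 := by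
    have := Subgroup.card_eq_card_quotient_mul_card_subgroup U
    rw [hG, hUc] at this
    omega
  let φ : G →* Equiv.Perm (G ⧸ U) := MulAction.toPermHom G (G ⧸ U)
  have hker : ∀ g, φ g = 1 → ∀ h : G, h⁻¹ * g * h ∈ U := by
    intro g hg h
    have h1 : g • ((h : G) : G ⧸ U) = ((h : G) : G ⧸ U) := by
      have := congrArg (fun σ : Equiv.Perm (G ⧸ U) => σ ((h : G) : G ⧸ U)) hg
      exact this
    have h2 : ((g * h : G) : G ⧸ U) = ((h : G) : G ⧸ U) := h1
    have h3 := QuotientGroup.eq.1 h2
    have e : h⁻¹ * g * h = ((g * h)⁻¹ * h)⁻¹ := by group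
    rw [e]
    exact U.inv_mem h3
  let K : Subgroup G := φ.ker
  have hKn : K.Normal := MonoidHom.normal_ker _
  have hKU : ∀ k ∈ K, k ∈ U := by
    intro k hk
    have := hker k hk 1
    simpa using this
  have hφinj : Function.Injective φ := by
    rw [← MonoidHom.ker_eq_bot_iff]
    by_contra hK1
    by_cases hM : K ⊓ (S : Subgroup G) = ⊥
    · obtain ⟨k, hk⟩ := Subgroup.ne_bot_iff_exists_ne_one.1 hK1
      have hkK : (k : G) ∈ K := k.2
      have hk1 : (k : G) ≠ 1 := fun h => hk (Subtype.ext h)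
      have hkS : (k : G) ∉ (S : Subgroup G) := by
        intro h
        have : (k : G) ∈ K ⊓ (S : Subgroup G) := ⟨hkK, h⟩
        rw [hM, Subgroup.mem_bot] at this
        exact hk1 this
      have hk2 : (k : G) ^ 2 = 1 := by
        have : (k : G) ^ 2 ∈ K ⊓ (S : Subgroup G) := ⟨K.pow_mem hkK 2, hsq _⟩
        rw [hM, Subgroup.mem_bot] at this
        exact this
      have hcent : ∀ g : G, g * k = k * g := by
        intro g
        have h1 : g * k * g⁻¹ ∉ (S : Subgroup G) := by
          intro h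
          apply hkS
          have := hSn.conj_mem _ h g⁻¹
          have e : g⁻¹ * (g * (k : G) * g⁻¹) * g⁻¹⁻¹ = k := by group
          rw [e] at this
          exact this
        have h2 : (g * k * g⁻¹) * (k : G)⁻¹ ∈ (S : Subgroup G) := by
          rw [Subgroup.mul_mem_iff_of_index_two hSi]
          constructor
          · exact fun a => absurd a h1
          · intro a
            exact absurd (by simpa using Subgroup.inv_mem _ a) hkS
        have h3 : (g * k * g⁻¹) * (k : G)⁻¹ ∈ K :=
          K.mul_mem (hKn.conj_mem _ hkK g) (K.inv_mem hkK)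
        have h4 : (g * k * g⁻¹) * (k : G)⁻¹ ∈ K ⊓ (S : Subgroup G) := ⟨h3, h2⟩
        rw [hM, Subgroup.mem_bot] at h4
        have h5 : g * k * g⁻¹ = k := mul_inv_eq_one.1 h4
        calc g * k = (g * k * g⁻¹) * g := by group
          _ = k * g := by rw [h5]
      have hkt : (k : G) * t ∈ (S : Subgroup G) := by
        rw [Subgroup.mul_mem_iff_of_index_two hSi]
        exact ⟨fun a => absurd a hkS, fun a => absurd a htS⟩
      have hkt2 : ((k : G) * t) ^ 2 = 1 := by
        rw [(show Commute (k : G) t from (hcent t).symm).mul_pow, hk2, ht2, one_mul]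
      have hkt1 := hinv3 _ hkt hkt2
      have hkte : (k : G) = t := by
        have h5 : (k : G) = t⁻¹ := eq_inv_of_mul_eq_one_left hkt1
        have h6 : t⁻¹ = t := inv_eq_of_mul_eq_one_left (by rw [← pow_two]; exact ht2)
        rw [h5, h6]
      apply hST
      apply le_antisymm inf_le_left
      intro s hs
      refine ⟨hs, Subgroup.mem_centralizer_iff.2 ?_⟩
      intro x hx
      rcases hTe x hx with rfl | rfl
      · simp
      · rw [← hkte]
        exact (hcent s).symm
    · obtain ⟨v, hv, hv1, hvc⟩ := meets_center (p := 3) (S : Subgroup G) (K ⊓ (S : Subgroup G)) hSpg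
        inf_le_right (fun s hs x hx => ⟨hKn.conj_mem x hx.1 s, hSn.conj_mem x hx.2 s⟩) hM
      have hvZ : v ∈ Z := by
        rw [hZ]
        exact ⟨hv.2, Subgroup.mem_centralizer_iff.2 (fun s hs => hvc s hs)⟩
      obtain ⟨k, hk⟩ := hZz v hvZ
      replace hk : c ^ k = v := hk
      have hv3 : v ^ 3 = 1 := by
        rw [← hk, ← zpow_natCast, ← zpow_mul, mul_comm, zpow_mul]
        simp [hc3]
      have hvo : orderOf v = 3 := orderOf_eq_prime hv3 hv1
      have he : Subgroup.zpowers v = Subgroup.zpowers c := by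
        apply Subgroup.eq_of_le_of_card_ge
        · rw [Subgroup.zpowers_le]
          exact hZz v hvZ
        · rw [Nat.card_zpowers, Nat.card_zpowers, hvo, hco]
      have hcv : c ∈ Subgroup.zpowers v := by rw [he]; exact Subgroup.mem_zpowers c
      have hcK : c ∈ K := (Subgroup.zpowers_le.2 hv.1) hcv
      exact hcU (hKU c hcK)
  have hcfree : ∀ x : G ⧸ U, φ c x ≠ x := by
    intro x
    obtain ⟨h, rfl⟩ := QuotientGroup.mk_surjective x
    intro hfix
    have h2 : ((c * h : G) : G ⧸ U) = ((h : G) : G ⧸ U) := hfix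
    have h3 := QuotientGroup.eq.1 h2
    apply hcU
    have e : c = ((c * h)⁻¹ * h)⁻¹ := by
      have := hcc h
      calc c = h⁻¹ * (h * c) := by group
        _ = h⁻¹ * (c * h) := by rw [this]
        _ = _ := by group
    rw [e]
    exact U.inv_mem h3
  let e₉ : (G ⧸ U) ≃ Fin 9 := Finite.equivFinOfCardEq hUi
  let φ' : G →* Equiv.Perm (Fin 9) := (Equiv.permCongrHom e₉).toMonoidHom.comp φ
  have hφ'inj : Function.Injective φ' := (Equiv.permCongrHom e₉).injective.comp hφinj
  set σ : Equiv.Perm (Fin 9) := φ' c with hσ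
  have hσ3 : σ ^ 3 = 1 := by
    rw [hσ, ← map_pow, hc3, map_one]
  have hσfree : ∀ i, σ i ≠ i := by
    intro i hi
    have h1 : e₉ (φ c (e₉.symm i)) = i := hi
    apply hcfree (e₉.symm i)
    apply e₉.injective
    rw [h1]
    simp
  have hσsupp : σ.support = Finset.univ := by
    ext i
    simp [hσfree i]
  have hσc : σ.cycleType = Multiset.replicate 3 3 := by
    have h1 := Equiv.Perm.cycleType_of_pow_prime_eq_one hσ3
    have h2 := σ.sum_cycleType
    rw [hσsupp, h1, Multiset.sum_replicate] at h2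
    simp only [Finset.card_univ, Fintype.card_fin, smul_eq_mul] at h2
    have h3 : Multiset.card σ.cycleType = 3 := by omega
    rw [h3] at h1
    exact h1
  set τ₀ : Equiv.Perm (Fin 9) := Equiv.swap (0 : Fin 9) 1 * Equiv.swap 1 2 * Equiv.swap 3 4 * Equiv.swap 4 5 * Equiv.swap 6 7 * Equiv.swap 7 8 with hτ₀
  have hτ3 : τ₀ ^ 3 = 1 := by decide +kernel
  have hτsupp : τ₀.support.card = 9 := by decide +kernel
  have hτc : τ₀.cycleType = Multiset.replicate 3 3 := by
    have h1 := Equiv.Perm.cycleType_of_pow_prime_eq_one hτ3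
    have h2 := τ₀.sum_cycleType
    rw [hτsupp, h1, Multiset.sum_replicate] at h2
    simp only [smul_eq_mul] at h2
    have h3 : Multiset.card τ₀.cycleType = 3 := by omega
    rw [h3] at h1
    exact h1
  have hconj : IsConj σ τ₀ := Equiv.Perm.isConj_iff_cycleType_eq.2 (hσc.trans hτc.symm)
  obtain ⟨x, hx⟩ := isConj_iff.1 hconj
  let Φ : G →* Equiv.Perm (Fin 9) := (MulAut.conj x).toMonoidHom.comp φ'
  have hΦinj : Function.Injective Φ := (MulAut.conj x).injective.comp hφ'inj
  have hΦc : Φ c = τ₀ := hx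
  have hmem : ∀ g, Φ g ∈ Subgroup.centralizer ({τ₀} : Set (Equiv.Perm (Fin 9))) := by
    intro g
    rw [Subgroup.mem_centralizer_singleton_iff, ← hΦc, ← map_mul, ← map_mul, hcc]
  let Ψ : G →* Subgroup.centralizer ({τ₀} : Set (Equiv.Perm (Fin 9))) := Φ.codRestrict _ hmem
  have hΨinj : Function.Injective Ψ := by
    intro a b hab
    exact hΦinj (congrArg Subtype.val hab)
  have hcardC : Nat.card (Subgroup.centralizer ({τ₀} : Set (Equiv.Perm (Fin 9)))) = 162 := by
    rw [Equiv.Perm.nat_card_centralizer, hτc]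
    simp
    decide
  exact ⟨MulEquiv.ofBijective Ψ (hΨinj.bijective_of_nat_card_le (by rw [hcardC, hG]))⟩

end Cfsg.Agent.S3376
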