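import Cfsg.Statements.S3389
-- import your own Cfsg.Agent.* helpers here

set_option autoImplicit false
open Cfsg

namespace Cfsg.Agent.S3389

theorem card_dvd_of_free {Z X : Type*} [Group Z] [MulAction Z X]
    (h : ∀ b : X, MulAction.stabilizer Z b = ⊥) : Nat.card Z ∣ Nat.card X := by
  have h1 := Nat.card_congr (MulAction.selfEquivOrbitsQuotientProd h)
  rw [Nat.card_prod] at h1
  exact Dvd.intro_left _ h1.symm

theorem partB {G : Type*} [Group G] [Finite G] {Ω : Type*} [Fintype Ω] [MulAction G Ω]
    (htr : MulAction.IsPretransitive G Ω)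
    (hfix : ∀ g : G, g ≠ 1 → Nat.card (MulAction.fixedBy Ω g) ≤ 2)
    (hex : ∃ g : G, g ≠ 1 ∧ Nat.card (MulAction.fixedBy Ω g) = 2) : 2 ∣ Nat.card G := by
  classical
  have hGf : Fintype G := Fintype.ofFinite G
  by_contra hodd
  obtain ⟨g, hg1, hg2⟩ := hex
  obtain ⟨⟨a, ha⟩, ⟨b, hb⟩, hab, -⟩ := Nat.card_eq_two_iff.1 hg2
  have hab' : a ≠ b := fun h => hab (Subtype.ext h)
  have hga : g • a = a := ha
  have hgb : g • b = b := hb
  have hthree : ∀ y : G, y ≠ 1 → ∀ x1 x2 x3 : Ω, y • x1 = x1 → y • x2 = x2 → y • x3 = x3 →
      x1 ≠ x2 → x1 ≠ x3 → x2 ≠ x3 → False := by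
    intro y hy x1 x2 x3 h1 h2 h3 h12 h13 h23
    have hsub : ({x1, x2, x3} : Set Ω) ⊆ MulAction.fixedBy Ω y := by
      intro z hz
      rcases hz with rfl | rfl | rfl
      · exact h1
      · exact h2
      · exact h3
    have hc := Set.ncard_le_ncard hsub (Set.toFinite _)
    have h4 : ({x1, x2, x3} : Set Ω).ncard = 3 := by
      rw [Set.ncard_eq_toFinset_card']
      simp [Finset.card_insert_of_notMem, h12, h13, h23]
    have h5 := hfix y hy
    rw [Nat.card_coe_set_eq] at h5
    omega
  let P : Ω × Ω := (a, b)
  let s := Nat.card (MulAction.stabilizer G P)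
  have hgP : g ∈ MulAction.stabilizer G P := by
    rw [MulAction.mem_stabilizer_iff, Prod.smul_def]
    simp only [P, hga, hgb]
  have hs2 : 2 ≤ s := by
    have h6 : MulAction.stabilizer G P ≠ ⊥ := by
      intro h
      rw [h, Subgroup.mem_bot] at hgP
      exact hg1 hgP
    have := (Subgroup.one_lt_card_iff_ne_bot (MulAction.stabilizer G P)).2 h6
    omega
  -- cardinality of stabilizers on the orbit
  have hstab : ∀ p ∈ MulAction.orbit G P, Nat.card (MulAction.stabilizer G p) = s := by
    rintro _ ⟨u, rfl⟩
    change Nat.card (MulAction.stabilizer G (u • P)) = s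
    rw [MulAction.stabilizer_smul_eq_stabilizer_map_conj]
    exact Subgroup.card_map_of_injective (MulEquiv.injective _)
  let O : Finset (Ω × Ω) := Finset.univ.filter (fun p => p ∈ MulAction.orbit G P)
  have hOcard : O.card * s = Nat.card G := by
    have h7 := Subgroup.card_mul_index (MulAction.stabilizer G P)
    rw [MulAction.index_stabilizer] at h7
    have h8 : (MulAction.orbit G P).ncard = O.card := by
      rw [Set.ncard_eq_toFinset_card']
      congr 1
      ext p
      simp [O]
    rw [h8] at h7
    rw [mul_comm]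
    exact h7
  let E : Ω × Ω → Finset G := fun p => Finset.univ.filter (fun y => y ≠ 1 ∧ y • p = p)
  have hEcard : ∀ p ∈ O, (E p).card + 1 = s := by
    intro p hp
    have hp' : p ∈ MulAction.orbit G P := by simpa [O] using hp
    rw [← hstab p hp', Nat.card_eq_fintype_card, Fintype.card_subtype]
    have h9 : (Finset.univ.filter (fun y : G => y ∈ MulAction.stabilizer G p)) = insert 1 (E p) := by
      ext y
      simp only [Finset.mem_filter, Finset.mem_univ, true_and, Finset.mem_insert, E,
        MulAction.mem_stabilizer_iff]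
      constructor
      · intro h
        by_cases hy : y = 1
        · exact Or.inl hy
        · exact Or.inr ⟨hy, h⟩
      · rintro (rfl | h)
        · exact one_smul _ _
        · exact h.2
    rw [h9, Finset.card_insert_of_notMem]
    simp [E]
  have hPne : ∀ p ∈ O, p.1 ≠ p.2 := by
    intro p hp
    have hp' : p ∈ MulAction.orbit G P := by simpa [O] using hp
    obtain ⟨u, rfl⟩ := hp'
    intro h
    exact hab' (smul_left_cancel u h)
  have hEfix : ∀ p, ∀ y ∈ E p, y ≠ 1 ∧ y • p.1 = p.1 ∧ y • p.2 = p.2 := by
    intro p y hy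
    simp only [E, Finset.mem_filter, Finset.mem_univ, true_and] at hy
    refine ⟨hy.1, ?_, ?_⟩
    · have := congrArg Prod.fst hy.2
      simpa using this
    · have := congrArg Prod.snd hy.2
      simpa using this
  have hdisj : ∀ p ∈ O, ∀ q ∈ O, p ≠ q → Disjoint (E p) (E q) := by
    intro p hp q hq hpq
    rw [Finset.disjoint_left]
    intro y hy hy'
    obtain ⟨hy1, hy2, hy3⟩ := hEfix p y hy
    obtain ⟨-, hy4, hy5⟩ := hEfix q y hy'
    have hp' : p ∈ MulAction.orbit G P := by simpa [O] using hp
    have hq' : q ∈ MulAction.orbit G P := by simpa [O] using hq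
    have hp12 := hPne p hp
    have hq12 := hPne q hq
    obtain ⟨u, hu⟩ := hp'
    obtain ⟨v, hv⟩ := hq'
    have hu1 : p.1 = u • a := by rw [← hu]; rfl
    have hu2 : p.2 = u • b := by rw [← hu]; rfl
    have hv1 : q.1 = v • a := by rw [← hv]; rfl
    have hv2 : q.2 = v • b := by rw [← hv]; rfl
    -- q.1 and q.2 lie in {p.1, p.2}
    have hq1mem : q.1 = p.1 ∨ q.1 = p.2 := by
      by_contra hcon
      push Not at hcon
      exact hthree y hy1 p.1 p.2 q.1 hy2 hy3 hy4 hp12 hcon.1.symm hcon.2.symm
    have hq2mem : q.2 = p.1 ∨ q.2 = p.2 := by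
      by_contra hcon
      push Not at hcon
      exact hthree y hy1 p.1 p.2 q.2 hy2 hy3 hy5 hp12 hcon.1.symm hcon.2.symm
    have hswap : q.1 = p.2 ∧ q.2 = p.1 := by
      rcases hq1mem with h1 | h1 <;> rcases hq2mem with h2 | h2
      · exact absurd (h1.trans h2.symm) hq12
      · exact absurd (Prod.ext h1 h2).symm hpq
      · exact ⟨h1, h2⟩
      · exact absurd (h1.trans h2.symm) hq12
    -- the swapping element
    let w := v⁻¹ * u
    have hwa : w • a = b := by
      have : u • a = v • b := by rw [← hu1, ← hv2, hswap.2]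
      simp only [w, mul_smul, this, inv_smul_smul]
    have hwb : w • b = a := by
      have : u • b = v • a := by rw [← hu2, ← hv1, hswap.1]
      simp only [w, mul_smul, this, inv_smul_smul]
    apply hodd
    have hord : 2 ∣ orderOf w := by
      by_contra hne
      have hne' : orderOf w % 2 = 1 := by omega
      obtain ⟨j, hj⟩ : ∃ j, orderOf w = 2 * j + 1 := ⟨orderOf w / 2, by omega⟩
      have h1 : w ^ (2 * j + 1) = 1 := by rw [← hj]; exact pow_orderOf_eq_one w
      have h2 : (w ^ 2) • a = a := by
        rw [pow_two, mul_smul, hwa, hwb]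
      have hp2 : ∀ i : ℕ, ((w ^ 2) ^ i) • a = a := by
        intro i
        induction i with
        | zero => simp
        | succ i ih => rw [pow_succ, mul_smul, h2, ih]
      have h3 : (w ^ (2 * j)) • a = a := by
        rw [pow_mul]
        exact hp2 j
      have h4 : w • a = a := by
        have := congrArg (fun z : G => z • a) h1
        simp only [one_smul] at this
        rw [pow_succ', mul_smul, h3] at this
        exact this
      rw [hwa] at h4
      exact hab' h4.symm
    exact hord.trans (orderOf_dvd_natCard w)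
  let U : Finset G := O.biUnion E
  have hUcard : U.card = O.card * (s - 1) := by
    rw [Finset.card_biUnion hdisj]
    exact Finset.sum_const_nat (fun p hp => by
      have := hEcard p hp
      omega)
  have hUfix : ∀ y ∈ U, Fintype.card (MulAction.fixedBy Ω y) = 2 := by
    intro y hy
    obtain ⟨p, hp, hyp⟩ := Finset.mem_biUnion.1 hy
    obtain ⟨hy1, hy2, hy3⟩ := hEfix p y hyp
    have h1 := hfix y hy1
    rw [Nat.card_eq_fintype_card] at h1
    have h2 : 2 ≤ Fintype.card (MulAction.fixedBy Ω y) := by
      rw [← Set.toFinset_card]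
      have h3 : ({p.1, p.2} : Finset Ω) ⊆ (MulAction.fixedBy Ω y).toFinset := by
        intro z hz
        simp only [Finset.mem_insert, Finset.mem_singleton] at hz
        rw [Set.mem_toFinset]
        rcases hz with rfl | rfl
        · exact hy2
        · exact hy3
      have h4 := Finset.card_le_card h3
      rw [Finset.card_pair (hPne p hp)] at h4
      exact h4
    omega
  have h1U : (1 : G) ∉ U := by
    intro h
    obtain ⟨p, _, hyp⟩ := Finset.mem_biUnion.1 h
    exact (hEfix p 1 hyp).1 rfl
  -- Burnside
  have hΩne : Nonempty Ω := ⟨a⟩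
  have : Fintype (MulAction.orbitRel.Quotient G Ω) := Fintype.ofFinite _
  have hburn := MulAction.sum_card_fixedBy_eq_card_orbits_mul_card_group G Ω
  have hq1 : Fintype.card (MulAction.orbitRel.Quotient G Ω) = 1 := by
    rw [Fintype.card_eq_one_iff]
    refine ⟨Quotient.mk'' a, fun z => ?_⟩
    induction z using Quotient.inductionOn' with
    | h x =>
      apply Quotient.sound'
      exact MulAction.orbitRel_apply.2 (MulAction.exists_smul_eq G a x)
  rw [hq1, one_mul] at hburn
  have hsum : Fintype.card Ω + 2 * U.card ≤ ∑ y : G, Fintype.card (MulAction.fixedBy Ω y) := by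
    have h1 : ∑ y ∈ insert 1 U, Fintype.card (MulAction.fixedBy Ω y) ≤
        ∑ y : G, Fintype.card (MulAction.fixedBy Ω y) :=
      Finset.sum_le_sum_of_subset (Finset.subset_univ _)
    rw [Finset.sum_insert h1U, Finset.sum_congr rfl hUfix, Finset.sum_const, smul_eq_mul] at h1
    have h2 : Fintype.card (MulAction.fixedBy Ω (1 : G)) = Fintype.card Ω := by
      rw [Fintype.card_congr (Equiv.subtypeUnivEquiv (fun x => by simp))]
    rw [h2] at h1
    omega
  have hΩpos : 0 < Fintype.card Ω := Fintype.card_pos
  rw [hburn, hUcard, ← Nat.card_eq_fintype_card (α := G), ← hOcard] at hsum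
  obtain ⟨t, ht⟩ : ∃ t, s = t + 2 := ⟨s - 2, by omega⟩
  rw [ht] at hsum
  have h1 : t + 2 - 1 = t + 1 := by omega
  rw [h1] at hsum
  nlinarith [Nat.zero_le (O.card * t)]


/-- Let G be a finite group acting faithfully and transitively on a finite set Ω with fixity k ≥ 1: every non-identity element fixes at most k points and some non-identity element fixes exactly k points. Then |Z(G)| divides k; if k = 2 then |G| is even; and for every prime p > k dividing |G| and every point α, either p does not divide |G_α| or G_α contains a Sylow p-subgroup of G. -/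
theorem result {G : Type*} [Group G] [Finite G] {Ω : Type*} [Fintype Ω] [MulAction G Ω] [FaithfulSMul G Ω]
    (htr : MulAction.IsPretransitive G Ω) (k : ℕ) (hk : 1 ≤ k)
    (hfix : ∀ g : G, g ≠ 1 → Nat.card (MulAction.fixedBy Ω g) ≤ k) (hex : ∃ g : G, g ≠ 1 ∧ Nat.card (MulAction.fixedBy Ω g) = k) :
    Nat.card (Subgroup.center G) ∣ k ∧ (k = 2 → 2 ∣ Nat.card G) ∧
      ∀ (p : ℕ), p.Prime → k < p → p ∣ Nat.card G → ∀ α : Ω,
        ¬ p ∣ Nat.card (MulAction.stabilizer G α) ∨ ¬ p ∣ (MulAction.stabilizer G α).index := by
  classical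
  refine ⟨?_, ?_, ?_⟩
  · obtain ⟨g, hg1, hgk⟩ := hex
    let S : SubMulAction (Subgroup.center G) Ω :=
      { carrier := MulAction.fixedBy Ω g
        smul_mem' := by
          intro z x hx
          have hx' : g • x = x := hx
          have hz : g * (z : G) = z * g := Subgroup.mem_center_iff.1 z.2 g
          change g • ((z : G) • x) = (z : G) • x
          rw [← mul_smul, hz, mul_smul, hx'] }
    have hfree : ∀ b : S, MulAction.stabilizer (Subgroup.center G) b = ⊥ := by
      intro b
      rw [eq_bot_iff]
      intro z hz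
      have hz' : (z : G) • (b : Ω) = b := congrArg Subtype.val hz
      rw [Subgroup.mem_bot]
      apply Subtype.ext
      apply eq_of_smul_eq_smul (α := Ω)
      intro y
      obtain ⟨x, rfl⟩ := MulAction.exists_smul_eq G (b : Ω) y
      rw [← mul_smul, (Subgroup.mem_center_iff.1 z.2 x).symm, mul_smul, hz']
      simp
    have := card_dvd_of_free hfree
    rw [← hgk]
    exact this
  · rintro rfl
    exact partB htr hfix hex
  · intro p hp hkp hpG α
    by_contra hcon
    push Not at hcon
    obtain ⟨h1, h2⟩ := hcon
    have hpF : Fact p.Prime := ⟨hp⟩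
    set a := (Nat.card (MulAction.stabilizer G α)).factorization p with ha
    have hcard0 : Nat.card (MulAction.stabilizer G α) ≠ 0 := Nat.card_pos.ne'
    have ha1 : 1 ≤ a := by
      rw [ha]
      exact (hp.pow_dvd_iff_le_factorization hcard0).1 (by simpa using h1)
    have hdvd : p ^ a ∣ Nat.card (MulAction.stabilizer G α) := Nat.ordProj_dvd _ _
    obtain ⟨K, hK⟩ := Sylow.exists_subgroup_card_pow_prime p hdvd
    let Q : Subgroup G := K.map (MulAction.stabilizer G α).subtype
    have hQ : Nat.card Q = p ^ a := by
      rw [← hK]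
      exact Subgroup.card_map_of_injective (Subgroup.subtype_injective _)
    have hQα : Q ≤ MulAction.stabilizer G α := by
      rintro _ ⟨x, -, rfl⟩
      exact x.2
    have hG : p ^ (a + 1) ∣ Nat.card G := by
      rw [← Subgroup.card_mul_index (MulAction.stabilizer G α), pow_succ]
      exact mul_dvd_mul hdvd h2
    have hN := Sylow.prime_pow_dvd_card_normalizer hG hQ
    let N := Subgroup.normalizer (Q : Set G)
    -- pick a non-trivial element of Q
    have hQne : Q ≠ ⊥ := by
      intro h
      rw [h, Subgroup.card_bot] at hQ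
      have : 1 < p ^ a := Nat.one_lt_pow (by omega) hp.one_lt
      omega
    obtain ⟨y, hyQ, hy1⟩ := (Subgroup.bot_or_exists_ne_one Q).resolve_left hQne
    -- the orbit of α under N is inside the fixed points of y
    have horb : MulAction.orbit N α ⊆ MulAction.fixedBy Ω y := by
      rintro _ ⟨n, rfl⟩
      change y • ((n : G) • α) = (n : G) • α
      have h3 : (n : G)⁻¹ * y * n ∈ Q := by
        have := (Subgroup.mem_normalizer_iff''.1 n.2 y).1 hyQ
        exact this
      have h4 : ((n : G)⁻¹ * y * n) • α = α := hQα h3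
      calc y • ((n : G) • α) = (n : G) • (((n : G)⁻¹ * y * n) • α) := by
            rw [← mul_smul, ← mul_smul]
            congr 1
            group
        _ = (n : G) • α := by rw [h4]
    have hle : (MulAction.orbit N α).ncard ≤ k := by
      have h5 := Set.ncard_le_ncard horb (Set.toFinite _)
      have h6 := hfix y hy1
      rw [Nat.card_coe_set_eq] at h6
      omega
    have hO := Subgroup.card_mul_index (MulAction.stabilizer N α)
    rw [MulAction.index_stabilizer] at hO
    have hpos : 0 < (MulAction.orbit N α).ncard := by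
      rw [Set.ncard_pos (Set.toFinite _)]
      exact ⟨α, MulAction.mem_orbit_self α⟩
    have hcop : Nat.Coprime (p ^ (a + 1)) (MulAction.orbit N α).ncard := by
      apply Nat.Coprime.pow_left
      rw [hp.coprime_iff_not_dvd]
      intro hd
      have := Nat.le_of_dvd hpos hd
      omega
    have hd2 : p ^ (a + 1) ∣ Nat.card (MulAction.stabilizer N α) := by
      rw [← hO] at hN
      exact hcop.dvd_of_dvd_mul_right hN
    have hd3 : Nat.card (MulAction.stabilizer N α) ∣ Nat.card (MulAction.stabilizer G α) := by
      let L : Subgroup G := (MulAction.stabilizer N α).map N.subtype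
      have hL : Nat.card L = Nat.card (MulAction.stabilizer N α) :=
        Subgroup.card_map_of_injective (Subgroup.subtype_injective _)
      rw [← hL]
      apply Subgroup.card_dvd_of_le
      rintro _ ⟨x, hx, rfl⟩
      exact hx
    have := hd2.trans hd3
    exact Nat.pow_succ_factorization_not_dvd hcard0 hp this

end Cfsg.Agent.S3389
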