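import Mathlib
import Cfsg.Statements.S3391
import Cfsg.Agent.Lib.H10.SzFix

set_option autoImplicit false

open Cfsg

namespace Cfsg.Agent.S3391

theorem result {G : Type*} [Group G] [Finite G] (F : Type) [Field F] [Fintype F] (m : ℕ) (hm : 1 ≤ m) (hF : Fintype.card F = 2 ^ (2 * m + 1))
    (e : G ≃* ↥(Cfsg.Lie.Sz F (2 ^ (m + 1)))) {Ω : Type*} [Fintype Ω] [MulAction G Ω] [FaithfulSMul G Ω] (htr : MulAction.IsPretransitive G Ω)
    (hfix : ∀ g : G, g ≠ 1 → Nat.card (MulAction.fixedBy Ω g) ≤ 2) (hex : ∃ g : G, g ≠ 1 ∧ Nat.card (MulAction.fixedBy Ω g) = 2) :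
    (Fintype.card Ω = Fintype.card F ^ 2 + 1 ∧ MulAction.IsMultiplyPretransitive G Ω 2) ∨
    (Fintype.card Ω = Fintype.card F ^ 2 * (Fintype.card F ^ 2 + 1) ∧ ∀ α : Ω, Nat.card (MulAction.stabilizer G α) = Fintype.card F - 1) := by
  classical
  haveI := H10.sz_charP hF
  let e' : ↥(Cfsg.Sz F m) ≃* G := (H10.szEquiv hm hF).trans e.symm
  letI : MulAction ↥(Cfsg.Sz F m) Ω := MulAction.compHom Ω e'.toMonoidHom
  have hsmul : ∀ (s : ↥(Cfsg.Sz F m)) (ω : Ω), s • ω = e' s • ω := fun _ _ => rfl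
  have htr' : MulAction.IsPretransitive ↥(Cfsg.Sz F m) Ω := ⟨fun x y => by
    obtain ⟨g, hg⟩ := htr.exists_smul_eq x y
    refine ⟨e'.symm g, ?_⟩
    rw [hsmul, MulEquiv.apply_symm_apply]
    exact hg⟩
  have hfix' : H10.FixTwo ↥(Cfsg.Sz F m) Ω := by
    intro s hs a b c ha hb hc
    have h1 : e' s ≠ 1 := by
      intro h
      apply hs
      apply e'.injective
      rw [h, map_one]
    have h2 := hfix _ h1
    by_contra hcon
    push Not at hcon
    obtain ⟨h3, h4, h5⟩ := hcon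
    have h6 : 2 < (MulAction.fixedBy Ω (e' s)).ncard :=
      (Set.two_lt_ncard (Set.toFinite _)).2 ⟨a, ha, b, hb, c, hc, h3, h5, h4⟩
    rw [Nat.card_coe_set_eq] at h2
    omega
  have hex' : ∃ s : ↥(Cfsg.Sz F m), s ≠ 1 ∧ ∃ a b : Ω, a ≠ b ∧ s • a = a ∧ s • b = b := by
    obtain ⟨g, hg1, hg2⟩ := hex
    obtain ⟨⟨a, ha⟩, ⟨b, hb⟩, hab, -⟩ := Nat.card_eq_two_iff.1 hg2
    refine ⟨e'.symm g, ?_, a, b, fun h => hab (Subtype.ext h), ?_, ?_⟩
    · intro h
      apply hg1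
      have := congrArg e' h
      simpa using this
    · rw [hsmul, MulEquiv.apply_symm_apply]
      exact ha
    · rw [hsmul, MulEquiv.apply_symm_apply]
      exact hb
  rcases H10.fixity_two hm hF htr' hfix' hex' with ⟨h1, h2⟩ | ⟨h1, h2⟩
  · left
    refine ⟨by rw [h1, hF], ?_⟩
    rw [MulAction.is_two_pretransitive_iff]
    intro a b c d hab hcd
    obtain ⟨s, hs1, hs2⟩ := h2 a b c d hab hcd
    exact ⟨e' s, hs1, hs2⟩
  · right
    refine ⟨by rw [h1, hF], ?_⟩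
    intro α
    rw [hF, ← h2 α]
    exact Nat.card_congr (Equiv.subtypeEquiv e'.symm.toEquiv (fun g => by
      show g • α = α ↔ e' (e'.symm g) • α = α
      rw [MulEquiv.apply_symm_apply]))

end Cfsg.Agent.S3391
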