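import Cfsg.Statements.S3493
import Cfsg.Agent.Lib.H16.ExtMain2
import Cfsg.Agent.Lib.H01.Basic

set_option autoImplicit false
open Cfsg

namespace Cfsg.Agent.S3493

/-- An extremely primitive permutation group is of affine type or almost simple. Let a finite group G act faithfully and primitively on a finite set Ω with at least two points, in such a way that every point stabilizer acts primitively on each of its own orbits in Ω (an orbit of size one counts as primitive). Then either G has a non-trivial abelian normal subgroup whose elements other than the identity fix no point (affine type), or G has a non-abelian simple normal subgroup with trivial centralizer (almost simple). -/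
theorem result {G : Type*} [Group G] [Finite G] {Ω : Type*} [Fintype Ω] [MulAction G Ω] [FaithfulSMul G Ω] (hΩ : 2 ≤ Fintype.card Ω) (hprim : MulAction.IsPreprimitive G Ω) (hep : ∀ (α : Ω) (ω : Ω), MulAction.IsPreprimitive (MulAction.stabilizer G α) (MulAction.orbit (MulAction.stabilizer G α) ω)) :
    (∃ N : Subgroup G, N.Normal ∧ N ≠ ⊥ ∧ IsMulCommutative N ∧ ∀ ω : Ω, MulAction.stabilizer N ω = ⊥) ∨ (∃ T : Subgroup G, T.Normal ∧ IsSimpleGroup T ∧ ¬ IsMulCommutative T ∧ Subgroup.centralizer (T : Set G) = ⊥) := by
  classical
  open MulAction Cfsg.Agent.H16 in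
  have hfinal : (∃ N : Subgroup G, N.Normal ∧ N ≠ ⊥ ∧ IsMulCommutative N ∧ ∀ ω : Ω, MulAction.stabilizer N ω = ⊥) ∨ (∃ T : Subgroup G, T.Normal ∧ IsSimpleGroup T ∧ ¬ IsMulCommutative T ∧ Subgroup.centralizer (T : Set G) = ⊥) := by
    haveI := hprim
    have hpret : IsPretransitive G Ω := hprim.toIsPretransitive
    have hne : Nonempty Ω := by
      rw [← Fintype.card_pos_iff]
      omega
    obtain ⟨α⟩ := hne
    by_cases hbot : stabilizer G α = ⊥
    · left
      have hnt : Nontrivial Ω := Fintype.one_lt_card_iff_nontrivial.1 (by omega)
      have hcoat : IsCoatom (stabilizer G α) := IsPreprimitive.isCoatom_stabilizer_of_isPreprimitive G α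
      rw [hbot] at hcoat
      have hG : ∀ x : G, x ≠ 1 → Subgroup.zpowers x = ⊤ := fun x hx =>
        hcoat.2 _ (bot_lt_iff_ne_bot.2 (fun h => hx (Subgroup.zpowers_eq_bot.1 h)))
      have hcomm : ∀ a b : G, a * b = b * a := by
        intro a b
        by_cases ha : a = 1
        · rw [ha, one_mul, mul_one]
        · have hb : b ∈ Subgroup.zpowers a := by
            rw [hG a ha]
            trivial
          obtain ⟨k, rfl⟩ := hb
          exact ((Commute.refl a).zpow_right k).eq
      refine ⟨⊤, inferInstance, fun h => hcoat.1 h.symm, ⟨⟨fun a b => Subtype.ext (hcomm a b)⟩⟩, ?_⟩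
      intro ω
      rw [eq_bot_iff]
      intro x hx
      rw [Subgroup.mem_bot]
      apply Subtype.ext
      have hx' : (x : G) • ω = ω := hx
      obtain ⟨g, rfl⟩ := exists_smul_eq G α ω
      have h1 : g⁻¹ * x * g ∈ stabilizer G α := by
        rw [mem_stabilizer_iff, mul_smul, mul_smul, hx', inv_smul_smul]
      rw [hbot, Subgroup.mem_bot] at h1
      have h2 : (x : G) = g * (g⁻¹ * x * g) * g⁻¹ := by group
      change (x : G) = 1
      rw [h2, h1]
      simp
    · have hH : ∀ β : Ω, stabilizer G β ≠ ⊥ := stabilizer_ne_bot_all hbot
      have hnG : Nontrivial G := by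
        obtain ⟨x, -, hx1⟩ := (Subgroup.bot_or_exists_ne_one _).resolve_left hbot
        exact ⟨⟨x, 1, hx1⟩⟩
      obtain ⟨N, hNn, hNne, hmin⟩ := Cfsg.Agent.H01.exists_minimal_normal (G := G)
      by_cases hNab : ∀ a ∈ N, ∀ b ∈ N, a * b = b * a
      · left
        refine ⟨N, hNn, hNne, ⟨⟨fun a b => Subtype.ext (hNab a a.2 b b.2)⟩⟩, ?_⟩
        intro ω
        have htr : IsPretransitive N Ω := normal_trans (X := Ω) N hNne
        rw [eq_bot_iff]
        intro n hn
        rw [Subgroup.mem_bot]
        apply Subtype.ext
        have hn' : (n : G) • ω = ω := hn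
        apply eq_one_of_forall_fix (Ω := Ω)
        intro y
        obtain ⟨m, hm⟩ := htr.exists_smul_eq ω y
        have hm' : (m : G) • ω = y := hm
        rw [← hm', ← mul_smul, hNab n n.2 m m.2, mul_smul, hn']
      · obtain ⟨T, -, hT⟩ := exists_minSub hNne le_rfl (Subgroup.le_normalizer (H := N))
        have hTab : ¬ ∀ a ∈ T, ∀ b ∈ T, a * b = b * a := fun h => hNab (hT.comm_of_abelian hNn hmin h)
        by_cases hTN : T = N
        · subst hTN
          have hs : IsSimpleGroup T := minSub_simple hT (fun m hm => ⟨m, hm, 1, T.one_mem, by simp, by simp⟩)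
          by_cases hC : Subgroup.centralizer (T : Set G) = ⊥
          · right
            refine ⟨T, hNn, hs, ?_, hC⟩
            intro hc
            apply hTab
            intro a ha b hb
            exact congrArg Subtype.val (hc.is_comm.comm ⟨a, ha⟩ ⟨b, hb⟩)
          · exact (case_I hH hep α T hNn hTab hC).elim
        · exfalso
          have hne : ∃ g : G, cj g T ≠ T := by
            by_contra hcon
            push Not at hcon
            have htop : Subgroup.normalizer (T : Set G) = ⊤ := by
              rw [eq_top_iff]
              intro g _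
              exact mem_normalizer_of_cj_eq (hcon g)
            have hTn : T.Normal := Subgroup.normalizer_eq_top_iff.1 htop
            rcases hmin T hTn hT.le with h | h
            · exact hT.ne h
            · exact hTN h
          by_cases hR : T ⊓ stabilizer G α = ⊥
          · by_cases hM : N ⊓ stabilizer G α = ⊥
            · exact case_c hH hep α N hNn hNne hmin T hT hTab hne hM
            · exact case_b hH hep α N hNn hNne hmin T hT hTab hne hR hM
          · exact case_a hH hep α N hNn hNne hmin T hT hne hR
  exact hfinal

end Cfsg.Agent.S3493
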