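import Cfsg.Statements.S3495
import Cfsg.Agent.Lib.H16.ExtPrim

set_option autoImplicit false
open Cfsg

namespace Cfsg.Agent.S3495

/-- Let a finite group G act faithfully and primitively on a finite set Ω with non-trivial point stabilizers, each acting primitively on every one of its orbits (an extremely primitive group), and suppose G has an elementary abelian normal p-subgroup N acting regularly on Ω (affine type). Then every non-trivial subgroup M of a point stabilizer G_α that is normal in G_α has the same orbits on Ω as G_α, and normalizes no subgroup of N other than 1 and N. -/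
theorem result {G : Type*} [Group G] [Finite G] {Ω : Type*} [Fintype Ω] [MulAction G Ω] [FaithfulSMul G Ω] (hprim : MulAction.IsPreprimitive G Ω) (hH : ∀ α : Ω, MulAction.stabilizer G α ≠ ⊥) (hep : ∀ (α : Ω) (ω : Ω), MulAction.IsPreprimitive (MulAction.stabilizer G α) (MulAction.orbit (MulAction.stabilizer G α) ω))
    (N : Subgroup G) [N.Normal] (hNc : IsMulCommutative N) (p : ℕ) (hp : p.Prime) (hNp : ∀ n ∈ N, n ^ p = 1)
    (hNtr : MulAction.IsPretransitive N Ω) (hNreg : ∀ ω : Ω, MulAction.stabilizer N ω = ⊥) (α : Ω) (M : Subgroup G) (hM : M ≠ ⊥) (hMle : M ≤ MulAction.stabilizer G α)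
    (hMn : MulAction.stabilizer G α ≤ Subgroup.normalizer (M : Set G)) :
    (∀ ω : Ω, MulAction.orbit M ω = MulAction.orbit (MulAction.stabilizer G α) ω) ∧
    (∀ L : Subgroup G, L ≤ N → M ≤ Subgroup.normalizer (L : Set G) → L = ⊥ ∨ L = N) := by
  classical
  have hreg : ∀ n ∈ N, n • α = α → n = 1 := by
    intro n hn hna
    have h1 : (⟨n, hn⟩ : N) ∈ MulAction.stabilizer N α := hna
    rw [hNreg α, Subgroup.mem_bot] at h1
    exact congrArg Subtype.val h1
  have hreg' : ∀ a ∈ N, ∀ b ∈ N, a • α = b • α → a = b := by
    intro a ha b hb hab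
    have h1 := hreg (b⁻¹ * a) (N.mul_mem (N.inv_mem hb) ha) (by rw [mul_smul, hab, inv_smul_smul])
    have := mul_eq_one_iff_eq_inv.1 h1
    simpa using this.symm
  have hstrans := Cfsg.Agent.H16.normal_trans_ext hH hep α
  refine ⟨?_, ?_⟩
  · intro ω
    ext u
    constructor
    · rintro ⟨⟨m, hm⟩, rfl⟩
      exact ⟨⟨m, hMle hm⟩, rfl⟩
    · rintro ⟨⟨h, hh⟩, rfl⟩
      by_cases hω : ω = α
      · subst hω
        have hh' : h • ω = ω := hh
        refine ⟨1, ?_⟩
        change (1 : M) • ω = h • ω
        rw [hh', one_smul]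
      · obtain ⟨m, hm, hmω⟩ := hstrans ω hω M hM hMle hMn h hh
        exact ⟨⟨m, hm⟩, hmω⟩
  · intro L hLN hLM
    have hαnorm : MulAction.stabilizer G α ≤ Subgroup.normalizer (L : Set G) := by
      rw [Subgroup.le_normalizer_iff]
      intro h hh l hl
      by_cases hω : l • α = α
      · have : l = 1 := hreg l (hLN hl) hω
        rw [this]
        simp [L.one_mem]
      · obtain ⟨m, hm, hmω⟩ := hstrans (l • α) hω M hM hMle hMn h hh
        have hh' : h • α = α := hh
        have hmα : m • α = α := hMle hm
        have h1 : (h * l * h⁻¹) • α = (m * l * m⁻¹) • α := by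
          simp only [mul_smul]
          rw [inv_smul_eq_iff.2 hh'.symm, inv_smul_eq_iff.2 hmα.symm, hmω]
        have h2 := hreg' _ (‹N.Normal›.conj_mem l (hLN hl) h) _ (‹N.Normal›.conj_mem l (hLN hl) m) h1
        rw [h2]
        have := (Subgroup.le_normalizer_iff.1 hLM) m hm l hl
        exact this
    have hNnorm : N ≤ Subgroup.normalizer (L : Set G) := by
      rw [Subgroup.le_normalizer_iff]
      intro n hn l hl
      have h1 : n * l = l * n := by
        have := hNc.is_comm.comm (⟨n, hn⟩ : N) ⟨l, hLN hl⟩
        exact congrArg Subtype.val this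
      rw [h1]
      simpa using hl
    have htop : Subgroup.normalizer (L : Set G) = ⊤ := by
      rw [eq_top_iff]
      intro g _
      obtain ⟨n, hn⟩ := MulAction.exists_smul_eq N α (g • α)
      have hn' : (n : G) • α = g • α := hn
      have h1 : (n : G)⁻¹ * g ∈ MulAction.stabilizer G α := by
        rw [MulAction.mem_stabilizer_iff, mul_smul, ← hn', inv_smul_smul]
      have h2 : g = (n : G) * ((n : G)⁻¹ * g) := by group
      rw [h2]
      exact Subgroup.mul_mem _ (hNnorm n.2) (hαnorm h1)
    have hLnormal : L.Normal := Subgroup.normalizer_eq_top_iff.1 htop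
    by_cases hfix : MulAction.fixedPoints L Ω = Set.univ
    · left
      rw [eq_bot_iff]
      intro l hl
      rw [Subgroup.mem_bot]
      apply eq_of_smul_eq_smul (α := Ω)
      intro y
      have h1 : y ∈ MulAction.fixedPoints L Ω := by rw [hfix]; trivial
      have h2 := h1 ⟨l, hl⟩
      simpa using h2
    · right
      have htr := MulAction.IsQuasiPreprimitive.isPretransitive_of_normal (G := G) (X := Ω) (N := L) hfix
      apply le_antisymm hLN
      intro n hn
      obtain ⟨l, hl⟩ := htr.exists_smul_eq α (n • α)
      have hl' : (l : G) • α = n • α := hl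
      have := hreg' _ (hLN l.2) _ hn hl'
      rw [← this]
      exact l.2

end Cfsg.Agent.S3495
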