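import Cfsg.Statements.S3496
import Cfsg.Agent.S3495
import Cfsg.Agent.Lib.H16.EndField
import Cfsg.Agent.Lib.H16.Orb
import Cfsg.Agent.Lib.H17.AbelianIrred

set_option autoImplicit false
open Cfsg

namespace Cfsg.Agent.S3496

set_option linter.style.haveILetI false
set_option linter.unusedSectionVars false

open MulAction Cfsg.Agent.H16
open scoped commutatorElement

theorem exists_ab_exp {K : Type*} [Group K] [Finite K] [Nontrivial K] (hs : Group.IsSolvable K) :
    ∃ (M : Subgroup K) (q : ℕ), M.Normal ∧ q.Prime ∧ M ≠ ⊥ ∧ (∀ x ∈ M, x ^ q = 1) ∧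
      ∀ x ∈ M, ∀ y ∈ M, x * y = y * x := by
  classical
  have hex : ∃ n, derivedSeries K n = ⊥ := hs.solvable
  have hmin := Nat.find_spec hex
  have hpos : Nat.find hex ≠ 0 := by
    intro h0
    rw [h0] at hmin
    simp only [derivedSeries_zero] at hmin
    exact top_ne_bot hmin
  obtain ⟨m, hm⟩ := Nat.exists_eq_succ_of_ne_zero hpos
  have hm1 : derivedSeries K m ≠ ⊥ := Nat.find_min hex (by omega)
  have hm2 : ⁅derivedSeries K m, derivedSeries K m⁆ = ⊥ := by
    rw [← derivedSeries_succ, ← Nat.succ_eq_add_one, ← hm]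
    exact hmin
  set A := derivedSeries K m with hA
  have hAn : A.Normal := derivedSeries_normal K m
  have hAab : ∀ x ∈ A, ∀ y ∈ A, x * y = y * x := by
    intro a ha b hb
    have : ⁅a, b⁆ ∈ ⁅A, A⁆ := Subgroup.commutator_mem_commutator ha hb
    rw [hm2, Subgroup.mem_bot, commutatorElement_eq_one_iff_mul_comm] at this
    exact this
  haveI : Nontrivial A := (Subgroup.nontrivial_iff_ne_bot A).2 hm1
  obtain ⟨p, hp, hpd⟩ := Nat.exists_prime_and_dvd (Finite.one_lt_card (α := A)).ne'
  haveI : Fact p.Prime := ⟨hp⟩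
  obtain ⟨a, ha⟩ := exists_prime_orderOf_dvd_card' p hpd
  let V : Subgroup K :=
    { carrier := {x | x ∈ A ∧ x ^ p = 1}
      mul_mem' := by
        rintro x y ⟨hx, hxp⟩ ⟨hy, hyp⟩
        refine ⟨A.mul_mem hx hy, ?_⟩
        have : Commute x y := hAab x hx y hy
        rw [this.mul_pow, hxp, hyp, one_mul]
      one_mem' := ⟨A.one_mem, one_pow _⟩
      inv_mem' := by
        rintro x ⟨hx, hxp⟩
        exact ⟨A.inv_mem hx, by rw [inv_pow, hxp, inv_one]⟩ }
  refine ⟨V, p, ?_, hp, ?_, fun x hx => hx.2, fun x hx y hy => hAab x hx.1 y hy.1⟩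
  · constructor
    rintro x ⟨hx, hxp⟩ g
    refine ⟨hAn.conj_mem x hx g, ?_⟩
    rw [conj_pow, hxp]
    simp
  · intro h
    have h1 : (a : K) ∈ V := ⟨a.2, by
      have : a ^ p = 1 := by rw [← ha]; exact pow_orderOf_eq_one a
      simpa using congrArg Subtype.val this⟩
    rw [h, Subgroup.mem_bot] at h1
    have : a = 1 := Subtype.ext h1
    rw [this, orderOf_one] at ha
    exact hp.one_lt.ne ha

section Op

variable {G : Type*} [Group G] (N : Subgroup G) [N.Normal]

/-- conjugation on `N`, as an additive endomorphism of `Additive N` -/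
noncomputable def conjOp : G →* AddMonoid.End (Additive N) where
  toFun g :=
    { toFun := fun x => Additive.ofMul (⟨g * ((Additive.toMul x : N) : G) * g⁻¹,
        ‹N.Normal›.conj_mem _ (Additive.toMul x : N).2 g⟩ : N)
      map_zero' := by
        apply Additive.toMul.injective
        apply Subtype.ext
        simp
      map_add' := fun x y => by
        apply Additive.toMul.injective
        apply Subtype.ext
        simp [mul_assoc] }
  map_one' := by
    refine AddMonoidHom.ext fun x => Additive.toMul.injective (Subtype.ext ?_)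
    show (1 : G) * _ * (1 : G)⁻¹ = ((Additive.toMul x : N) : G)
    simp
  map_mul' a b := by
    refine AddMonoidHom.ext fun x => Additive.toMul.injective (Subtype.ext ?_)
    show (a * b) * _ * (a * b)⁻¹ = a * (b * _ * b⁻¹) * a⁻¹
    group

theorem conjOp_val (g : G) (x : Additive N) :
    ((Additive.toMul (conjOp N g x) : N) : G) = g * (Additive.toMul x : N) * g⁻¹ := rfl

end Op


/-- The soluble extremely primitive groups. Let a finite solvable group G act faithfully and primitively on a finite set Ω with p ^ d points (p prime), with non-trivial point stabilizers each acting primitively on every one of its orbits. Then there is a prime q such that every orbit of a point stabilizer G_α other than {α} has exactly q points, q divides p ^ d − 1 but no p ^ i − 1 with 0 < i < d, and G_α has a normal subgroup T of order q with G_α generated by T and one further element and the order of G_α dividing q·d (so G_α is cyclic of order q, or an extension of T by a cyclic group of order dividing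 d). -/
theorem result {G : Type*} [Group G] [Finite G] {Ω : Type*} [Fintype Ω] [MulAction G Ω] [FaithfulSMul G Ω] [Group.IsSolvable G] (p d : ℕ) (hp : p.Prime) (hcard : Fintype.card Ω = p ^ d)
    (hprim : MulAction.IsPreprimitive G Ω) (hH : ∀ α : Ω, MulAction.stabilizer G α ≠ ⊥) (hep : ∀ (α : Ω) (ω : Ω), MulAction.IsPreprimitive (MulAction.stabilizer G α) (MulAction.orbit (MulAction.stabilizer G α) ω)) (α : Ω) :
    ∃ q : ℕ, q.Prime ∧ (∀ ω : Ω, ω ≠ α → Nat.card (MulAction.orbit (MulAction.stabilizer G α) ω) = q) ∧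
      q ∣ p ^ d - 1 ∧ (∀ i : ℕ, 0 < i → i < d → ¬ q ∣ p ^ i - 1) ∧
      ∃ T : Subgroup G, T ≤ MulAction.stabilizer G α ∧ MulAction.stabilizer G α ≤ Subgroup.normalizer (T : Set G) ∧ Nat.card T = q ∧
        (∃ h : G, MulAction.stabilizer G α = T ⊔ Subgroup.zpowers h) ∧ Nat.card (MulAction.stabilizer G α) ∣ q * d := by
  classical
  haveI := hprim
  have hpret : IsPretransitive G Ω := hprim.toIsPretransitive
  have hH1 := hH α
  set H := stabilizer G α with hHdef
  haveI hnH : Nontrivial H := (Subgroup.nontrivial_iff_ne_bot _).2 hH1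
  haveI hnG : Nontrivial G := by
    obtain ⟨x, hx⟩ := exists_ne (1 : H)
    exact ⟨⟨x, 1, fun h => hx (Subtype.ext h)⟩⟩
  haveI hnΩ : Nontrivial Ω := by
    by_contra hcon
    rw [not_nontrivial_iff_subsingleton] at hcon
    obtain ⟨g, hg⟩ := exists_ne (1 : G)
    apply hg
    apply eq_of_smul_eq_smul (α := Ω)
    intro y
    exact Subsingleton.elim _ _
  -- the regular normal subgroup
  obtain ⟨N, r, hNn, hr, hNne, hNr, hNab⟩ := exists_ab_exp (K := G) inferInstance
  haveI := hNn
  have htr : IsPretransitive N Ω := H16.normal_trans N hNne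
  have hNtr : ∀ a b : Ω, ∃ n ∈ N, n • a = b := by
    intro a b
    obtain ⟨n, hn⟩ := htr.exists_smul_eq a b
    exact ⟨n, n.2, hn⟩
  have hreg : ∀ ω : Ω, ∀ n ∈ N, n • ω = ω → n = 1 := by
    intro ω n hn hnω
    apply eq_of_smul_eq_smul (α := Ω)
    intro y
    obtain ⟨m, hm, rfl⟩ := hNtr ω y
    rw [one_smul, ← mul_smul, hNab n hn m hm, mul_smul, hnω]
  have hNcard : Nat.card N = p ^ d := by
    rw [← hcard, ← Nat.card_eq_fintype_card (α := Ω)]
    apply Nat.card_eq_of_bijective (fun n : N => (n : G) • α)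
    constructor
    · intro a b hab
      have hab' : (a : G) • α = (b : G) • α := hab
      have h1 := hreg α ((b : G)⁻¹ * a) (N.mul_mem (N.inv_mem b.2) a.2) (by rw [mul_smul, hab', inv_smul_smul])
      apply Subtype.ext
      have := mul_eq_one_iff_eq_inv.1 h1
      simpa using this.symm
    · intro y
      obtain ⟨n, hn, hy⟩ := hNtr α y
      exact ⟨⟨n, hn⟩, hy⟩
  have hd : d ≠ 0 := by
    rintro rfl
    rw [pow_zero] at hcard
    have := Fintype.one_lt_card (α := Ω)
    omega
  -- `r = p`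
  have hrp : r = p := by
    have hne : ∃ n ∈ N, n ≠ 1 := by
      by_contra hcon
      push Not at hcon
      exact hNne ((Subgroup.eq_bot_iff_forall _).2 hcon)
    obtain ⟨n, hn, hn1⟩ := hne
    haveI : Fact r.Prime := ⟨hr⟩
    have ho : orderOf n = r := orderOf_eq_prime (hNr n hn) hn1
    have h1 : orderOf (⟨n, hn⟩ : N) = r := by
      rw [← ho]
      exact Subgroup.orderOf_mk n hn
    have h2 : r ∣ Nat.card N := by
      rw [← h1]
      exact orderOf_dvd_natCard _
    rw [hNcard] at h2
    exact (Nat.prime_dvd_prime_iff_eq hr hp).1 (hr.dvd_of_dvd_pow h2)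
  subst hrp
  haveI : Fact r.Prime := ⟨hr⟩
  have hNc : IsMulCommutative N := ⟨⟨fun a b => Subtype.ext (hNab a a.2 b b.2)⟩⟩
  have hNreg : ∀ ω : Ω, stabilizer N ω = ⊥ := by
    intro ω
    rw [eq_bot_iff]
    intro n hn
    rw [Subgroup.mem_bot]
    exact Subtype.ext (hreg ω n n.2 hn)
  -- minimal normal-like subgroup of the stabiliser
  haveI hHs : Group.IsSolvable H := inferInstance
  obtain ⟨M, q, hMn, hq, hMne, hMq, hMab⟩ := exists_ab_exp (K := H) hHs
  haveI : Fact q.Prime := ⟨hq⟩
  let A : Subgroup G := M.map H.subtype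
  have hAle : A ≤ H := by
    rintro _ ⟨m, _, rfl⟩
    exact m.2
  have hAne : A ≠ ⊥ := by
    intro h
    apply hMne
    rwa [Subgroup.map_eq_bot_iff_of_injective _ H.subtype_injective] at h
  have hAn0 : ∀ h ∈ H, ∀ a ∈ A, h * a * h⁻¹ ∈ A := by
    rintro h hh _ ⟨m, hm, rfl⟩
    exact ⟨⟨h, hh⟩ * m * ⟨h, hh⟩⁻¹, hMn.conj_mem m hm _, rfl⟩
  have hAn : H ≤ Subgroup.normalizer (A : Set G) := Subgroup.le_normalizer_iff.2 hAn0
  have hAab : ∀ a ∈ A, ∀ b ∈ A, a * b = b * a := by
    rintro _ ⟨a, ha, rfl⟩ _ ⟨b, hb, rfl⟩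
    exact congrArg Subtype.val (hMab a ha b hb)
  have hAq : ∀ a ∈ A, a ^ q = 1 := by
    rintro _ ⟨a, ha, rfl⟩
    exact congrArg Subtype.val (hMq a ha)
  obtain ⟨horb, hirr0⟩ := Cfsg.Agent.S3495.result hprim hH hep N hNc r hr hNr htr hNreg α A hAne hAle hAn
  -- the operator picture
  letI : CommGroup N := { (inferInstance : Group N) with mul_comm := fun a b => Subtype.ext (hNab a a.2 b b.2) }
  haveI : Finite (Additive N) := inferInstanceAs (Finite N)
  haveI : Nontrivial (Additive N) := by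
    haveI : Nontrivial N := (Subgroup.nontrivial_iff_ne_bot _).2 hNne
    exact inferInstanceAs (Nontrivial (Additive N))
  let φ : G →* AddMonoid.End (Additive N) := conjOp N
  have hφv : ∀ (g : G) (x : Additive N), ((Additive.toMul (φ g x) : N) : G) = g * (Additive.toMul x : N) * g⁻¹ :=
    conjOp_val N
  have hVcard : Nat.card (Additive N) = r ^ d := hNcard
  have hp0 : ∀ v : Additive N, r • v = 0 := by
    intro v
    apply Additive.toMul.injective
    apply Subtype.ext
    have h1 := hNr _ (Additive.toMul v : N).2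
    simpa using h1
  -- faithfulness
  have hfaith : ∀ g ∈ H, (∀ n ∈ N, g * n * g⁻¹ = n) → g = 1 := by
    intro g hg hc
    apply eq_of_smul_eq_smul (α := Ω)
    intro y
    obtain ⟨m, hm, rfl⟩ := hNtr α y
    have hg' : g • α = α := hg
    have h1 : g * m = m * g := by
      have := hc m hm
      rw [mul_inv_eq_iff_eq_mul] at this
      exact this
    rw [one_smul, ← mul_smul, h1, mul_smul, hg']
  have hφinj : ∀ a ∈ H, ∀ b ∈ H, φ a = φ b → a = b := by
    intro a ha b hb hab
    have h1 := hfaith (b⁻¹ * a) (H.mul_mem (H.inv_mem hb) ha) (by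
      intro n hn
      have h2 := congrArg (fun f : AddMonoid.End (Additive N) => ((Additive.toMul (f (Additive.ofMul ⟨n, hn⟩)) : N) : G)) hab
      simp only [hφv] at h2
      have h3 : a * n * a⁻¹ = b * n * b⁻¹ := h2
      calc b⁻¹ * a * n * (b⁻¹ * a)⁻¹ = b⁻¹ * (a * n * a⁻¹) * b := by group
        _ = b⁻¹ * (b * n * b⁻¹) * b := by rw [h3]
        _ = n := by group)
    have := mul_eq_one_iff_eq_inv.1 h1
    simpa using this.symm
  -- subgroups from stable additive subgroups
  have hLof : ∀ U : AddSubgroup (Additive N), ∃ L : Subgroup G, L ≤ N ∧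
      (∀ x (hx : x ∈ N), x ∈ L ↔ Additive.ofMul (⟨x, hx⟩ : N) ∈ U) := by
    intro U
    refine ⟨(AddSubgroup.toSubgroup' U).map N.subtype, ?_, ?_⟩
    · rintro _ ⟨n, _, rfl⟩
      exact n.2
    · intro x hx
      constructor
      · rintro ⟨n, hn, rfl⟩
        exact hn
      · intro h
        exact ⟨⟨x, hx⟩, h, rfl⟩
  have hirrA : ∀ U : AddSubgroup (Additive N), (∀ a ∈ A, ∀ u ∈ U, φ a u ∈ U) → U = ⊥ ∨ U = ⊤ := by
    intro U hU
    obtain ⟨L, hLN, hL⟩ := hLof U
    have hLA : A ≤ Subgroup.normalizer (L : Set G) := by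
      rw [Subgroup.le_normalizer_iff]
      intro a ha l hl
      have hlN := hLN hl
      have h1 := (hL l hlN).1 hl
      have h2 := hU a ha _ h1
      have h3 : a * l * a⁻¹ ∈ N := hNn.conj_mem l hlN a
      rw [hL _ h3]
      exact h2
    rcases hirr0 L hLN hLA with h | h
    · left
      rw [eq_bot_iff]
      intro u hu
      have h1 : ((Additive.toMul u : N) : G) ∈ L := (hL _ (Additive.toMul u : N).2).2 hu
      rw [h, Subgroup.mem_bot] at h1
      have : (Additive.toMul u : N) = 1 := Subtype.ext h1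
      rw [AddSubgroup.mem_bot]
      exact this
    · right
      rw [eq_top_iff]
      intro u _
      have h1 : ((Additive.toMul u : N) : G) ∈ L := by rw [h]; exact (Additive.toMul u : N).2
      exact (hL _ (Additive.toMul u : N).2).1 h1
  -- cyclicity
  obtain ⟨t, htA, hgen⟩ : ∃ t ∈ A, ∀ a ∈ A, ∃ k : ℕ, a = t ^ k := by
    letI : CommGroup A := { (inferInstance : Group A) with mul_comm := fun a b => Subtype.ext (hAab a a.2 b b.2) }
    let φA : A →* AddMonoid.End (Additive N) := φ.comp A.subtype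
    obtain ⟨a, ha⟩ := Cfsg.Agent.H17.exists_gen_of_irreducible φA (by
      intro U hU
      exact hirrA U (fun a ha u hu => hU ⟨a, ha⟩ u hu))
    refine ⟨a, a.2, ?_⟩
    intro b hb
    obtain ⟨k, hk⟩ := ha ⟨b, hb⟩
    have h1 : b = ((a ^ k : A) : G) := hφinj b (hAle hb) _ (hAle (a ^ k).2) hk
    have h2 : b ∈ Subgroup.zpowers (a : G) := by
      rw [h1]
      exact ⟨k, by simp⟩
    rw [← mem_powers_iff_mem_zpowers] at h2
    obtain ⟨n, hn⟩ := h2
    exact ⟨n, hn.symm⟩
  have htH : t ∈ H := hAle htA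
  have ht1 : t ≠ 1 := by
    rintro rfl
    apply hAne
    rw [eq_bot_iff]
    intro a ha
    obtain ⟨k, rfl⟩ := hgen a ha
    simp
  have hto : orderOf t = q := orderOf_eq_prime (hAq t htA) ht1
  have hAz : A = Subgroup.zpowers t := by
    apply le_antisymm
    · intro a ha
      obtain ⟨k, rfl⟩ := hgen a ha
      exact pow_mem (Subgroup.mem_zpowers t) k
    · rw [Subgroup.zpowers_le]
      exact htA
  have hAcard : Nat.card A = q := by
    rw [hAz, Nat.card_zpowers, hto]
  -- free action on the non-trivial points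
  have hfree : ∀ ω : Ω, ω ≠ α → ∀ a ∈ A, a • ω = ω → a = 1 := by
    intro ω hω a ha h
    exact abelian_free_ext hH hep α ω hω A hAne hAle hAn hAab ha h
  have hfixedpt : ∀ ω : Ω, ω ≠ α → t • ω ≠ ω := fun ω hω h => ht1 (hfree ω hω t htA h)
  -- orbit lengths
  have horbcard : ∀ ω : Ω, ω ≠ α → Nat.card (orbit H ω) = q := by
    intro ω hω
    rw [← horb ω, ← hAcard]
    symm
    apply Nat.card_eq_of_bijective (fun a : A => (⟨(a : G) • ω, ⟨a, rfl⟩⟩ : orbit A ω))
    constructor
    · intro a b hab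
      have hab' : (a : G) • ω = (b : G) • ω := congrArg Subtype.val hab
      have h1 := hfree ω hω ((b : G)⁻¹ * a) (A.mul_mem (A.inv_mem b.2) a.2) (by rw [mul_smul, hab', inv_smul_smul])
      apply Subtype.ext
      have := mul_eq_one_iff_eq_inv.1 h1
      simpa using this.symm
    · rintro ⟨_, a, rfl⟩
      exact ⟨a, rfl⟩
  -- `q ∣ p ^ d - 1`
  have hqp : IsPGroup q A := by
    intro a
    refine ⟨1, ?_⟩
    apply Subtype.ext
    simpa using hAq a a.2
  have hmod := hqp.card_modEq_card_fixedPoints Ω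
  have hfixcard : Nat.card (fixedPoints A Ω) = 1 := by
    rw [Nat.card_eq_one_iff_unique]
    refine ⟨⟨?_⟩, ⟨⟨α, ?_⟩⟩⟩
    · rintro ⟨x, hx⟩ ⟨y, hy⟩
      apply Subtype.ext
      have key : ∀ z ∈ fixedPoints A Ω, z = α := by
        intro z hz
        by_contra hne
        exact hfixedpt z hne (hz ⟨t, htA⟩)
      exact (key x hx).trans (key y hy).symm
    · rintro ⟨a, ha⟩
      exact hAle ha
  rw [hfixcard, Nat.card_eq_fintype_card, hcard] at hmod
  have h1le : 1 ≤ r ^ d := Nat.one_le_pow _ _ hr.pos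
  have hqdvd : q ∣ r ^ d - 1 := (Nat.modEq_iff_dvd' h1le).1 hmod.symm
  have hqr : q ≠ r := by
    rintro rfl
    have h1 : q ∣ q ^ d := dvd_pow_self q hd
    have h2 : q ∣ 1 := by
      have := (Nat.dvd_sub h1 hqdvd)
      rwa [Nat.sub_sub_self h1le] at this
    exact hq.one_lt.ne' (Nat.dvd_one.1 h2)
  have hcop : Nat.Coprime q r := (Nat.coprime_primes hq hr).2 hqr
  -- the operator of `t`
  let τ : AddMonoid.End (Additive N) := φ t
  have hirrT : ∀ U : AddSubgroup (Additive N), (∀ u ∈ U, τ u ∈ U) → U = ⊥ ∨ U = ⊤ := by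
    intro U hU
    apply hirrA
    intro a ha u hu
    obtain ⟨k, rfl⟩ := hgen a ha
    rw [map_pow]
    induction k with
    | zero => simpa using hu
    | succ k ih =>
      rw [pow_succ']
      exact hU _ (ih (pow_mem htA k))
  have hqi : ∀ i : ℕ, 0 < i → i < d → ¬ q ∣ r ^ i - 1 := by
    intro i hi hid hdvd
    have h1 : t ^ r ^ i = t := by
      have h2 : r ^ i = (r ^ i - 1) + 1 := by
        have := Nat.one_le_pow i r hr.pos
        omega
      rw [h2, pow_succ]
      have h3 : t ^ (r ^ i - 1) = 1 := by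
        rw [← orderOf_dvd_iff_pow_eq_one, hto]
        exact hdvd
      rw [h3, one_mul]
    have h2 : τ ^ r ^ i = τ := by
      change (φ t) ^ r ^ i = φ t
      rw [← map_pow, h1]
    have h3 := op_card_le r hp0 τ hirrT i h2 hi
    rw [hVcard] at h3
    have h4 := (Nat.pow_le_pow_iff_right hr.one_lt).1 h3
    omega
  -- conjugation is a Frobenius power
  have hfrob : ∀ x ∈ H, ∃ i : ℕ, x * t * x⁻¹ = t ^ r ^ i := by
    intro x hx
    obtain ⟨k, hk⟩ := hgen _ (hAn0 x hx t htA)
    have h1 : φ x * τ * φ x⁻¹ = τ ^ k := by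
      change φ x * φ t * φ x⁻¹ = (φ t) ^ k
      rw [← map_mul, ← map_mul, hk, map_pow]
    have h2 : φ x * φ x⁻¹ = 1 := by rw [← map_mul, mul_inv_cancel, map_one]
    have h3 : φ x⁻¹ * φ x = 1 := by rw [← map_mul, inv_mul_cancel, map_one]
    obtain ⟨i, hi⟩ := op_conj_pow r hp0 τ hirrT (φ x) (φ x⁻¹) h2 h3 k h1
    refine ⟨i, ?_⟩
    rw [hk]
    apply hφinj _ (pow_mem htH _) _ (pow_mem htH _)
    rw [map_pow, map_pow]
    exact hi
  -- action on `A`
  have hAnorm : H ≤ Subgroup.normalizer ((A : Subgroup G) : Set G) := hAn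
  let Φ : H →* MulAut A := A.normalizerMonoidHom.comp (Subgroup.inclusion hAnorm)
  have hΦv : ∀ (x : H) (a : A), ((Φ x a : A) : G) = x * a * (x : G)⁻¹ := fun x a => rfl
  -- the Frobenius automorphism of `A`
  have hcopA : (Nat.card A).Coprime r := by rw [hAcard]; exact hcop
  have hAcomm : ∀ a b : A, Commute a b := fun a b => Subtype.ext (hAab a a.2 b b.2)
  let π : MulAut A :=
    { powCoprime hcopA with
      map_mul' := fun a b => (hAcomm a b).mul_pow r }
  have hπv : ∀ (i : ℕ) (a : A), (π ^ i) a = a ^ r ^ i := by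
    intro i
    induction i with
    | zero => intro a; simp
    | succ i ih =>
      intro a
      rw [pow_succ, MulAut.mul_apply, ih]
      change (a ^ r) ^ r ^ i = _
      rw [← pow_mul, pow_succ']
  have hπd : π ^ d = 1 := by
    ext a
    rw [hπv]
    simp only [MulAut.one_apply]
    have h2 : r ^ d = (r ^ d - 1) + 1 := by omega
    obtain ⟨c, hc⟩ := hqdvd
    rw [Subgroup.coe_pow, h2, pow_succ, hc, pow_mul, hAq a a.2, one_pow, one_mul]
  have hΦle : Φ.range ≤ Subgroup.zpowers π := by
    rintro _ ⟨x, rfl⟩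
    obtain ⟨i, hi⟩ := hfrob x x.2
    have h1 : Φ x = π ^ i := by
      ext a
      obtain ⟨k, hk⟩ := hgen a a.2
      rw [hΦv, hπv, Subgroup.coe_pow, hk]
      calc (x : G) * t ^ k * (x : G)⁻¹ = ((x : G) * t * (x : G)⁻¹) ^ k := (conj_pow).symm
        _ = (t ^ r ^ i) ^ k := by rw [hi]
        _ = (t ^ k) ^ r ^ i := by rw [← pow_mul, ← pow_mul, mul_comm]
    rw [h1]
    exact pow_mem (Subgroup.mem_zpowers π) i
  have hcyc : IsCyclic Φ.range :=
    isCyclic_of_injective (Subgroup.inclusion hΦle) (Subgroup.inclusion_injective hΦle)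
  obtain ⟨g, hg⟩ := Φ.range.isCyclic_iff_exists_zpowers_eq_top.1 hcyc
  have hgr : g ∈ Φ.range := by
    rw [← hg]
    exact Subgroup.mem_zpowers g
  obtain ⟨x₀, rfl⟩ := hgr
  obtain ⟨ω₀, hω₀⟩ := exists_ne α
  have hkerA : ∀ x : H, Φ x = 1 → (x : G) ∈ A := by
    intro x hx
    apply abelian_selfcent_ext hH hep α ω₀ hω₀ A hAne hAle hAn hAab x.2
    intro a ha
    have h1 := hΦv x ⟨a, ha⟩
    rw [hx] at h1
    have h2 : a = (x : G) * a * (x : G)⁻¹ := h1
    rw [eq_mul_inv_iff_mul_eq] at h2
    exact h2.symm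
  have hker : Φ.ker = A.subgroupOf H := by
    ext x
    rw [MonoidHom.mem_ker, Subgroup.mem_subgroupOf]
    constructor
    · exact hkerA x
    · intro hx
      ext a
      rw [hΦv]
      simp only [MulAut.one_apply]
      rw [hAab _ hx _ a.2]
      group
  have hkercard : Nat.card Φ.ker = q := by
    rw [hker, ← hAcard]
    exact Nat.card_congr (Subgroup.subgroupOfEquivOfLe hAle).toEquiv
  have hcardH : Nat.card H = q * Nat.card Φ.range := by
    rw [← Subgroup.index_ker, ← hkercard]
    exact (Subgroup.card_mul_index _).symm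
  have hrangedvd : Nat.card Φ.range ∣ d := by
    have h1 := Subgroup.card_dvd_of_le hΦle
    rw [Nat.card_zpowers] at h1
    exact h1.trans (orderOf_dvd_of_pow_eq_one hπd)
  have hH₀ : H = A ⊔ Subgroup.zpowers (x₀ : G) := by
    apply le_antisymm
    · intro x hx
      have h1 : Φ ⟨x, hx⟩ ∈ Subgroup.zpowers (Φ x₀) := by
        rw [hg]
        exact ⟨⟨x, hx⟩, rfl⟩
      obtain ⟨n, hn⟩ := h1
      have h2 : Φ (⟨x, hx⟩ * x₀ ^ (-n)) = 1 := by
        rw [map_mul, map_zpow, zpow_neg, ← hn]
        simp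
      have h3 := hkerA _ h2
      have h4 : x = ((⟨x, hx⟩ * x₀ ^ (-n) : H) : G) * (x₀ : G) ^ n := by
        simp
      rw [h4]
      apply Subgroup.mul_mem
      · exact Subgroup.mem_sup_left h3
      · exact Subgroup.mem_sup_right (zpow_mem (Subgroup.mem_zpowers _) n)
    · apply sup_le hAle
      rw [Subgroup.zpowers_le]
      exact x₀.2
  refine ⟨q, hq, horbcard, hqdvd, hqi, A, hAle, hAn, hAcard, ⟨x₀, hH₀⟩, ?_⟩
  rw [hcardH]
  exact Nat.mul_dvd_mul_left q hrangedvd

end Cfsg.Agent.S3496
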