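import Cfsg.Statements.S3497
import Cfsg.Agent.Lib.H16.ExtPrim
import Cfsg.Agent.Lib.H01.Fitting

set_option autoImplicit false
open Cfsg

namespace Cfsg.Agent.S3497
set_option linter.style.haveILetI false

theorem card_dvd_of_free {Z X : Type*} [Group Z] [MulAction Z X]
    (h : ∀ b : X, MulAction.stabilizer Z b = ⊥) : Nat.card Z ∣ Nat.card X := by
  have h1 := Nat.card_congr (MulAction.selfEquivOrbitsQuotientProd h)
  rw [Nat.card_prod] at h1
  exact Dvd.intro_left _ h1.symm

theorem gl_rep {p : ℕ} [Fact p.Prime] {H N₀ : Type*} [Group H] [CommGroup N₀] [Finite N₀]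
    [Module (ZMod p) (Additive N₀)] (c : H →* MulAut N₀) (e : ℕ) (hcard : Nat.card N₀ = p ^ e) :
    ∃ φ : H →* GL (Fin e) (ZMod p), ∀ h, φ h = 1 ↔ ∀ x, c h x = x := by
  classical
  have hp := (Fact.out : p.Prime)
  have hfinite : Module.Finite (ZMod p) (Additive N₀) := Module.Finite.of_finite
  have hfinrank : Module.finrank (ZMod p) (Additive N₀) = e := by
    have h1 := Module.natCard_eq_pow_finrank (K := ZMod p) (V := Additive N₀)
    rw [show Nat.card (Additive N₀) = Nat.card N₀ from Nat.card_congr Additive.toMul, hcard,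
      Nat.card_zmod] at h1
    exact (Nat.pow_right_injective hp.two_le h1).symm
  let b : Module.Basis (Fin e) (ZMod p) (Additive N₀) := Module.finBasisOfFinrankEq _ _ hfinrank
  let ρ : H →* Module.End (ZMod p) (Additive N₀) :=
    { toFun := fun h => (((c h).toMonoidHom).toAdditive).toZModLinearMap p
      map_one' := by
        apply LinearMap.ext
        intro x
        simp [map_one]
      map_mul' := by
        intro a b
        apply LinearMap.ext
        intro x
        simp [map_mul] }
  have hρ : ∀ h x, Additive.toMul (ρ h x) = c h (Additive.toMul x) := fun h x => rfl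
  let ψ : Module.End (ZMod p) (Additive N₀) ≃ₐ[ZMod p] Matrix (Fin e) (Fin e) (ZMod p) :=
    LinearMap.toMatrixAlgEquiv b
  refine ⟨MonoidHom.toHomUnits (ψ.toMonoidHom.comp ρ), fun h => ?_⟩
  constructor
  · intro h1
    have h2 : ψ (ρ h) = 1 := by
      have := congrArg Units.val h1
      simpa [MonoidHom.coe_toHomUnits] using this
    have h3 : ρ h = 1 := by
      apply ψ.injective
      rw [h2, map_one]
    intro x
    have h4 := hρ h (Additive.ofMul x)
    rw [h3] at h4
    exact h4.symm
  · intro h1
    apply Units.ext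
    have h3 : ρ h = 1 := by
      apply LinearMap.ext
      intro x
      apply Additive.toMul.injective
      rw [hρ, h1]
      rfl
    simp [MonoidHom.coe_toHomUnits, h3]


/-- Restrictions on the point stabilizer of an extremely primitive group. Let a finite group G act faithfully and primitively on a finite set Ω with point stabilizers H = G_α whose order is neither 1 nor a prime, each acting primitively on every one of its orbits. Then H has trivial center, the Fitting subgroup F(H) is an elementary abelian p-group for some prime p, and if F(H) ≠ 1 has order p ^ e then p ^ e divides the number of points minus one and H / F(H) embeds in GL_e(p) (there is a homomorphism from H to GL_e(p) with kernel exactly F(H)). -/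
theorem result {G : Type*} [Group G] [Finite G] {Ω : Type*} [Fintype Ω] [MulAction G Ω] [FaithfulSMul G Ω] (hprim : MulAction.IsPreprimitive G Ω) (hep : ∀ (α : Ω) (ω : Ω), MulAction.IsPreprimitive (MulAction.stabilizer G α) (MulAction.orbit (MulAction.stabilizer G α) ω)) (α : Ω)
    (hH1 : MulAction.stabilizer G α ≠ ⊥) (hHp : ¬ (Nat.card (MulAction.stabilizer G α)).Prime) :
    Subgroup.center (MulAction.stabilizer G α) = ⊥ ∧
    IsMulCommutative (Cfsg.fittingSubgroup (MulAction.stabilizer G α)) ∧
    ∃ p e : ℕ, p.Prime ∧ Nat.card (Cfsg.fittingSubgroup (MulAction.stabilizer G α)) = p ^ e ∧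
      (∀ x ∈ Cfsg.fittingSubgroup (MulAction.stabilizer G α), x ^ p = 1) ∧
      (Cfsg.fittingSubgroup (MulAction.stabilizer G α) ≠ ⊥ →
        p ^ e ∣ Fintype.card Ω - 1 ∧
        ∃ φ : MulAction.stabilizer G α →* GL (Fin e) (ZMod p), φ.ker = Cfsg.fittingSubgroup (MulAction.stabilizer G α)) := by
  classical
  have hpret : MulAction.IsPretransitive G Ω := hprim.toIsPretransitive
  have hH : ∀ β : Ω, MulAction.stabilizer G β ≠ ⊥ := Cfsg.Agent.H16.stabilizer_ne_bot_all hH1
  obtain ⟨ω, hω⟩ : ∃ ω : Ω, ω ≠ α := by
    obtain ⟨x, hx, hx1⟩ := (Subgroup.bot_or_exists_ne_one _).resolve_left hH1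
    by_contra hcon
    push Not at hcon
    apply hx1
    apply eq_of_smul_eq_smul (α := Ω)
    intro y
    rw [hcon y, one_smul]
    exact hx
  have hFinΩ : Finite Ω := inferInstance
  have hfacts : ∀ A : Subgroup (MulAction.stabilizer G α), A.Normal → (∀ a ∈ A, ∀ b ∈ A, a * b = b * a) → A ≠ ⊥ →
      (∀ w : Ω, w ≠ α → Nat.card A = Nat.card (MulAction.orbit (MulAction.stabilizer G α) w)) ∧
      (∀ x : MulAction.stabilizer G α, (∀ a ∈ A, x * a = a * x) → x ∈ A) ∧
      (∀ w : Ω, w ≠ α → ∀ a ∈ A, a • w = w → a = 1) := by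
    intro A hAn hAc hAne
    let A' : Subgroup G := A.map (MulAction.stabilizer G α).subtype
    have hA'ne : A' ≠ ⊥ := by
      intro h
      rw [Subgroup.map_eq_bot_iff_of_injective _ (Subgroup.subtype_injective _)] at h
      exact hAne h
    have hA'le : A' ≤ MulAction.stabilizer G α := Subgroup.map_subtype_le A
    have hA'n : MulAction.stabilizer G α ≤ Subgroup.normalizer (A' : Set G) := by
      rw [Subgroup.le_normalizer_iff]
      rintro h hh _ ⟨a, ha, rfl⟩
      exact ⟨_, hAn.conj_mem a ha ⟨h, hh⟩, rfl⟩
    have hA'c : ∀ a ∈ A', ∀ b ∈ A', a * b = b * a := by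
      rintro _ ⟨a, ha, rfl⟩ _ ⟨b, hb, rfl⟩
      exact congrArg Subtype.val (hAc a ha b hb)
    have hmem : ∀ a : MulAction.stabilizer G α, a ∈ A → (a : G) ∈ A' := fun a ha => ⟨a, ha, rfl⟩
    have hmem' : ∀ a : MulAction.stabilizer G α, (a : G) ∈ A' → a ∈ A := by
      rintro a ⟨b, hb, hba⟩
      have : b = a := Subtype.ext hba
      rwa [← this]
    have hfree : ∀ w : Ω, w ≠ α → ∀ a ∈ A, a • w = w → a = 1 := by
      intro w hw a ha h
      exact Subtype.ext (Cfsg.Agent.H16.abelian_free_ext hH hep α w hw A' hA'ne hA'le hA'n hA'c (hmem a ha) h)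
    refine ⟨?_, ?_, hfree⟩
    · intro w hw
      let f : A → MulAction.orbit (MulAction.stabilizer G α) w :=
        fun a => ⟨(a : MulAction.stabilizer G α) • w, ⟨a, rfl⟩⟩
      have hf : Function.Bijective f := by
        constructor
        · intro a b hab
          have h1 : (a : MulAction.stabilizer G α) • w = (b : MulAction.stabilizer G α) • w := congrArg Subtype.val hab
          have h2 : ((b : MulAction.stabilizer G α)⁻¹ * a) • w = w := by
            rw [mul_smul, h1, inv_smul_smul]
          have h3 := hfree w hw _ (A.mul_mem (A.inv_mem b.2) a.2) h2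
          have h4 := mul_eq_one_iff_eq_inv.1 h3
          apply Subtype.ext
          simpa using h4.symm
        · rintro ⟨_, ⟨h, rfl⟩⟩
          obtain ⟨m, hm, hmw⟩ := Cfsg.Agent.H16.normal_trans_ext hH hep α w hw A' hA'ne hA'le hA'n h h.2
          exact ⟨⟨⟨m, hA'le hm⟩, hmem' ⟨m, hA'le hm⟩ hm⟩, Subtype.ext hmw⟩
      exact Nat.card_eq_of_bijective f hf
    · intro x hx
      have h := Cfsg.Agent.H16.abelian_selfcent_ext hH hep α ω hω A' hA'ne hA'le hA'n hA'c x.2 (by
        rintro _ ⟨a, ha, rfl⟩
        exact congrArg Subtype.val (hx a ha))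
      exact hmem' x h
  have hZ : Subgroup.center (MulAction.stabilizer G α) = ⊥ := by
    by_contra hne
    have hc : ∀ a ∈ Subgroup.center (MulAction.stabilizer G α), ∀ b ∈ Subgroup.center (MulAction.stabilizer G α), a * b = b * a :=
      fun a ha b _ => (Subgroup.mem_center_iff.1 ha b).symm
    obtain ⟨hcard, hsc, -⟩ := hfacts _ inferInstance hc hne
    have htop : ∀ x : MulAction.stabilizer G α, x ∈ Subgroup.center (MulAction.stabilizer G α) :=
      fun x => hsc x (fun a ha => Subgroup.mem_center_iff.1 ha x)
    have hHc : Subgroup.center (MulAction.stabilizer G α) = ⊤ := eq_top_iff.2 fun x _ => htop x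
    apply hHp
    have hH1' : Nat.card (MulAction.stabilizer G α) ≠ 1 := by
      intro h
      exact hH1 (Subgroup.eq_bot_of_card_eq _ h)
    obtain ⟨q, hq, hqd⟩ := Nat.exists_prime_and_dvd hH1'
    have hqF : Fact q.Prime := ⟨hq⟩
    obtain ⟨y, hy⟩ := exists_prime_orderOf_dvd_card' q hqd
    have hcomm : ∀ a b : MulAction.stabilizer G α, a * b = b * a := fun a b => (Subgroup.mem_center_iff.1 (htop a) b).symm
    have hKn : (Subgroup.zpowers y).Normal := by
      constructor
      intro n hn g
      have : g * n * g⁻¹ = n := by rw [hcomm g n]; group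
      rw [this]; exact hn
    have hKne : Subgroup.zpowers y ≠ ⊥ := by
      intro h
      rw [Subgroup.zpowers_eq_bot] at h
      rw [h, orderOf_one] at hy
      exact hq.ne_one hy.symm
    obtain ⟨hcardK, -, -⟩ := hfacts _ hKn (fun a _ b _ => hcomm a b) hKne
    have h1 := (hcardK ω hω).trans (hcard ω hω).symm
    rw [Nat.card_zpowers, hy, hHc, Subgroup.card_top] at h1
    rw [← h1]
    exact hq
  by_cases hF : Cfsg.fittingSubgroup (MulAction.stabilizer G α) = ⊥
  · refine ⟨hZ, ?_, 2, 0, Nat.prime_two, ?_, ?_, fun h => absurd hF h⟩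
    · rw [hF]
      exact ⟨⟨fun a b => Subsingleton.elim _ _⟩⟩
    · rw [hF]
      simp
    · rw [hF]
      intro x hx
      rw [Subgroup.mem_bot.1 hx, one_pow]
  · have hFn := Cfsg.Agent.H01.fitting_normal (G := MulAction.stabilizer G α)
    have hFnil := Cfsg.Agent.H01.fitting_nilpotent (G := MulAction.stabilizer G α)
    set F := Cfsg.fittingSubgroup (MulAction.stabilizer G α) with hFdef
    have hFnt : Nontrivial F := by
      rw [Subgroup.nontrivial_iff_ne_bot]
      exact hF
    let A : Subgroup (MulAction.stabilizer G α) := F ⊓ Subgroup.centralizer (F : Set (MulAction.stabilizer G α))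
    have hAn : A.Normal := inferInstance
    have hAc : ∀ a ∈ A, ∀ b ∈ A, a * b = b * a := by
      intro a ha b hb
      exact (Subgroup.mem_centralizer_iff.1 ha.2 b hb.1).symm
    have hAne : A ≠ ⊥ := by
      have h1 := Group.IsNilpotent.center_ne_bot (G := F)
      obtain ⟨z, hz, hz1⟩ := (Subgroup.bot_or_exists_ne_one _).resolve_left h1
      intro hbot
      apply hz1
      have hzA : (z : MulAction.stabilizer G α) ∈ A := by
        refine Subgroup.mem_inf.2 ⟨z.2, ?_⟩
        rw [Subgroup.mem_centralizer_iff]
        intro f hf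
        have := Subgroup.mem_center_iff.1 hz ⟨f, hf⟩
        exact congrArg Subtype.val this
      rw [hbot, Subgroup.mem_bot] at hzA
      exact Subtype.ext hzA
    obtain ⟨-, hsc, -⟩ := hfacts A hAn hAc hAne
    have hFleA : F ≤ A := by
      intro x hx
      apply hsc
      intro a ha
      exact Subgroup.mem_centralizer_iff.1 ha.2 x hx
    have hFc : ∀ a ∈ F, ∀ b ∈ F, a * b = b * a := by
      intro a ha b hb
      exact (Subgroup.mem_centralizer_iff.1 (hFleA ha).2 b hb).symm
    obtain ⟨hcardF, hscF, hfreeF⟩ := hfacts F hFn hFc hF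
    have h1 : Nat.card F ≠ 1 := by
      intro h
      exact hF (Subgroup.eq_bot_of_card_eq _ h)
    obtain ⟨p, hp, hpd⟩ := Nat.exists_prime_and_dvd h1
    have hpF : Fact p.Prime := ⟨hp⟩
    obtain ⟨y, hy⟩ := exists_prime_orderOf_dvd_card' p hpd
    let E : Subgroup (MulAction.stabilizer G α) :=
      { carrier := {x | x ∈ F ∧ x ^ p = 1}
        one_mem' := ⟨F.one_mem, one_pow _⟩
        mul_mem' := by
          rintro a b ⟨ha, ha'⟩ ⟨hb, hb'⟩
          refine ⟨F.mul_mem ha hb, ?_⟩
          rw [(show Commute a b from hFc a ha b hb).mul_pow, ha', hb', one_mul]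
        inv_mem' := by
          rintro a ⟨ha, ha'⟩
          exact ⟨F.inv_mem ha, by rw [inv_pow, ha', inv_one]⟩ }
    have hEle : E ≤ F := fun x hx => hx.1
    have hEn : E.Normal := by
      constructor
      rintro x ⟨hx, hx'⟩ g
      refine ⟨hFn.conj_mem x hx g, ?_⟩
      rw [conj_pow, hx', mul_one, mul_inv_cancel]
    have hEne : E ≠ ⊥ := by
      intro h
      have hyE : (y : MulAction.stabilizer G α) ∈ E := by
        refine ⟨y.2, ?_⟩
        have := pow_orderOf_eq_one y
        rw [hy] at this
        exact congrArg Subtype.val this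
      rw [h, Subgroup.mem_bot] at hyE
      have : y = 1 := Subtype.ext hyE
      rw [this, orderOf_one] at hy
      exact hp.ne_one hy.symm
    obtain ⟨hcardE, -, -⟩ := hfacts E hEn (fun a ha b hb => hFc a ha.1 b hb.1) hEne
    have hEF : E = F := Subgroup.eq_of_le_of_card_ge hEle ((hcardF ω hω).trans (hcardE ω hω).symm).le
    have hexp : ∀ x ∈ F, x ^ p = 1 := by
      intro x hx
      rw [← hEF] at hx
      exact hx.2
    have hFp : IsPGroup p F := fun x => ⟨1, by
      rw [pow_one]
      exact Subtype.ext (hexp x x.2)⟩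
    obtain ⟨e, he⟩ := IsPGroup.iff_card.1 hFp
    refine ⟨hZ, ⟨⟨fun a b => Subtype.ext (hFc a a.2 b b.2)⟩⟩, p, e, hp, he, hexp, fun _ => ⟨?_, ?_⟩⟩
    · let S : SubMulAction F Ω :=
        { carrier := {x | x ≠ α}
          smul_mem' := by
            intro c x hx hcx
            apply hx
            have hc : (c : MulAction.stabilizer G α) • α = α := (c : MulAction.stabilizer G α).2
            have h2 : c • α = α := hc
            exact smul_left_cancel c (hcx.trans h2.symm) }
      have hfree : ∀ b : S, MulAction.stabilizer F b = ⊥ := by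
        intro b
        rw [eq_bot_iff]
        intro c hc
        have hc' : (c : MulAction.stabilizer G α) • (b : Ω) = b := congrArg Subtype.val hc
        rw [Subgroup.mem_bot]
        exact Subtype.ext (hfreeF b b.2 c c.2 hc')
      have hd := card_dvd_of_free hfree
      have hSc : Nat.card S = Fintype.card Ω - 1 := by
        have h2 : Nat.card S = Nat.card {x : Ω | x ≠ α} := rfl
        rw [h2, Nat.card_eq_fintype_card, Set.card_ne_eq]
      rw [he, hSc] at hd
      exact hd
    · letI cg : CommGroup F := { (inferInstance : Group F) with mul_comm := fun a b => Subtype.ext (hFc a a.2 b b.2) }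
      letI modM : Module (ZMod p) (Additive F) := AddCommGroup.zmodModule (n := p) (by
        intro x
        apply Additive.toMul.injective
        apply Subtype.ext
        simpa using hexp (Additive.toMul x : F).1 (Additive.toMul x : F).2)
      obtain ⟨φ, hφ⟩ := gl_rep (p := p) (H := MulAction.stabilizer G α) (N₀ := F) (MulAut.conjNormal (H := F)) e he
      refine ⟨φ, ?_⟩
      ext x
      rw [MonoidHom.mem_ker, hφ]
      constructor
      · intro h2
        apply hscF
        intro a ha
        have h3 := h2 ⟨a, ha⟩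
        have h4 : x * a * x⁻¹ = a := congrArg Subtype.val h3
        calc x * a = x * a * x⁻¹ * x := by group
          _ = a * x := by rw [h4]
      · intro hxF y
        apply Subtype.ext
        have h4 : ((MulAut.conjNormal x y : F) : MulAction.stabilizer G α) = x * y * x⁻¹ :=
          MulAut.conjNormal_apply x y
        rw [h4, hFc x hxF y y.2]
        group

end Cfsg.Agent.S3497
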