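import Cfsg.Statements.S3498


set_option autoImplicit false
open Cfsg

namespace Cfsg.Agent.S3498

open scoped Pointwise

/-- A maximal subgroup of a finite almost simple group does not have prime order. Here G is almost simple in the sense that it has a non-abelian simple normal subgroup T with trivial centralizer. -/
theorem result {G : Type*} [Group G] [Finite G] (T : Subgroup G) [T.Normal] (hT : IsSimpleGroup T) (hTc : ¬ IsMulCommutative T)
    (hC : Subgroup.centralizer (T : Set G) = ⊥) (H : Subgroup G) (hmax : IsCoatom H) : ¬ (Nat.card H).Prime := by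
  classical
  intro hprime
  have : Fintype G := Fintype.ofFinite G
  set r := Nat.card H with hr
  have hrF : Fact r.Prime := ⟨hprime⟩
  have hrF' : Fact (Nat.card H).Prime := ⟨hprime⟩
  have hHne : H ≠ ⊥ := by
    rintro rfl
    simp only [Subgroup.card_bot] at hr
    rw [hr] at hprime
    exact Nat.not_prime_one hprime
  -- H is commutative
  have hHcomm : ∀ a ∈ H, ∀ b ∈ H, a * b = b * a := by
    have : IsCyclic H := isCyclic_of_prime_card (p := r) hr.symm
    intro a ha b hb
    have := mul_comm' (⟨a, ha⟩ : H) ⟨b, hb⟩
    exact congrArg Subtype.val this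
  -- H is self-normalizing
  have hnorm : Subgroup.normalizer (H : Set G) = H := by
    rcases (hmax.le_iff).1 (Subgroup.le_normalizer (H := H)) with h | h
    · exfalso
      have hHn : H.Normal := Subgroup.normalizer_eq_top_iff.mp h
      rcases Subgroup.eq_bot_or_eq_top_of_prime_card (T.subgroupOf H) with h1 | h1
      · -- disjoint, so H centralizes T
        rw [Subgroup.subgroupOf_eq_bot] at h1
        apply hHne
        rw [eq_bot_iff, ← hC]
        intro h hh
        rw [Subgroup.mem_centralizer_iff]
        intro t ht
        exact (Subgroup.commute_of_normal_of_disjoint _ _ ‹T.Normal› hHn h1 t h ht hh).eq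
      · rw [Subgroup.subgroupOf_eq_top] at h1
        rcases hT.eq_bot_or_eq_top_of_normal (H.subgroupOf T) inferInstance with h2 | h2
        · rw [Subgroup.subgroupOf_eq_bot] at h2
          exact hHne (disjoint_self.mp (h2.mono_right h1))
        · rw [Subgroup.subgroupOf_eq_top] at h2
          have h3 : T = H := le_antisymm h2 h1
          apply hTc
          refine ⟨⟨fun a b => Subtype.ext ?_⟩⟩
          exact hHcomm _ (h3 ▸ a.2) _ (h3 ▸ b.2)
    · exact h
  have h2 : ¬ r ^ 2 ∣ Nat.card G := by
    intro hd
    have hcard : Nat.card H = r ^ 1 := by simp [hr]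
    have := Sylow.prime_pow_dvd_card_normalizer (p := r) (n := 1) hd hcard
    rw [hnorm, ← hr] at this
    have h3 := Nat.le_of_dvd hprime.pos this
    have h5 : r * r ≤ r := by simpa [pow_succ] using h3
    nlinarith [hprime.two_le]
  have hfact : (Nat.card G).factorization r = 1 := by
    have hd : r ∣ Nat.card G := Subgroup.card_subgroup_dvd_card H
    have h0 : Nat.card G ≠ 0 := Nat.card_pos.ne'
    have h3 : 1 ≤ (Nat.card G).factorization r :=
      (hprime.pow_dvd_iff_le_factorization h0).1 (by simpa using hd)
    have h4 : ¬ 2 ≤ (Nat.card G).factorization r := fun h5 =>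
      h2 ((hprime.pow_dvd_iff_le_factorization h0).2 h5)
    omega
  let P : Sylow r G := Sylow.ofCard H (by rw [hfact, pow_one])
  have hPH : (P : Subgroup G) = H := rfl
  have hP : Subgroup.normalizer (P : Subgroup G) ≤ Subgroup.centralizer ((P : Subgroup G) : Set G) := by
    rw [hPH]
    have : Subgroup.normalizer (H : Subgroup G) = H := hnorm
    rw [this]
    intro a ha
    rw [Subgroup.mem_centralizer_iff]
    intro b hb
    exact hHcomm _ hb _ ha
  have : (P : Subgroup G).FiniteIndex := ⟨Subgroup.index_ne_zero_of_finite⟩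
  let f := MonoidHom.transferSylow P hP
  let M := f.ker
  have hMn : M.Normal := MonoidHom.normal_ker f
  have hcomp : Subgroup.IsComplement' M H := MonoidHom.ker_transferSylow_isComplement' P hP
  have hcard : Nat.card M * r = Nat.card G := hcomp.card_mul_card
  have hrM : ¬ r ∣ Nat.card M := fun hd => h2 (by
    rw [← hcard, pow_two, mul_comm]
    exact mul_dvd_mul_right hd r)
  have hdisj : Disjoint M H := hcomp.disjoint
  have hS : ∀ (s : ℕ), s.Prime → ∃ S : Sylow s M, (S : Subgroup M) = ⊥ ∨ (S : Subgroup M) = ⊤ := by
    intro s hs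
    have hsF : Fact s.Prime := ⟨hs⟩
    let act : MulAction H (Sylow s M) :=
      MulAction.compHom (Sylow s M) ((MulAut.conjNormal (H := M)).comp H.subtype)
    have hHp : IsPGroup r H := by
      apply IsPGroup.of_card (n := 1)
      simp [hr]
    obtain ⟨S0⟩ : Nonempty (Sylow s M) := inferInstance
    have hnd : ¬ r ∣ Nat.card (Sylow s M) := fun hd =>
      hrM (hd.trans ((Sylow.card_dvd_index S0).trans (Subgroup.index_dvd_card _)))
    obtain ⟨S, hSf⟩ := hHp.nonempty_fixed_point_of_prime_not_dvd_card (Sylow s M) hnd
    refine ⟨S, ?_⟩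
    have hfix : ∀ h ∈ H, ∀ m : M, m ∈ (S : Subgroup M) → (MulAut.conjNormal (H := M) h m) ∈ (S : Subgroup M) := by
      intro h hh m hm
      have h1 : (⟨h, hh⟩ : H) • S = S := hSf ⟨h, hh⟩
      have h3 : MulAut.conjNormal (H := M) h • (S : Subgroup M) = (S : Subgroup M) :=
        congrArg (fun Q : Sylow s M => (Q : Subgroup M)) h1
      have h4 := Subgroup.smul_mem_pointwise_smul m (MulAut.conjNormal (H := M) h) (S : Subgroup M) hm
      rw [h3] at h4
      exact h4
    let K : Subgroup G := (S : Subgroup M).map M.subtype
    have hKM : K ≤ M := by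
      rintro _ ⟨m, -, rfl⟩
      exact m.2
    have hHK : H ≤ Subgroup.normalizer (K : Set G) := by
      rw [Subgroup.le_normalizer_iff]
      rintro h hh _ ⟨m, hm, rfl⟩
      refine ⟨MulAut.conjNormal (H := M) h m, hfix h hh m hm, ?_⟩
      simp [MulAut.conjNormal_apply]
    rcases (hmax.le_iff).1 (le_sup_left : H ≤ H ⊔ K) with hL | hL
    · right
      rw [eq_top_iff]
      intro m _
      have hm : (m : G) ∈ ((H ⊔ K : Subgroup G) : Set G) := by
        rw [hL]; trivial
      rw [Subgroup.coe_mul_of_left_le_normalizer_right H K hHK] at hm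
      obtain ⟨h, hh, k, hk, hmeq⟩ := Set.mem_mul.mp hm
      have hhM : h ∈ M := by
        have : h = m * k⁻¹ := by rw [← hmeq]; group
        rw [this]
        exact M.mul_mem m.2 (M.inv_mem (hKM hk))
      have hh1 : h = 1 := Subgroup.disjoint_def.mp hdisj hhM hh
      rw [hh1, one_mul] at hmeq
      obtain ⟨m', hm', hm'eq⟩ := hk
      have : m' = m := Subtype.ext (by rw [← hmeq]; exact hm'eq)
      rw [← this]
      exact hm'
    · left
      rw [eq_bot_iff]
      intro m hm
      have h3 : (m : G) ∈ K := ⟨m, hm, rfl⟩
      have h4 : (m : G) ∈ H := by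
        have : K ≤ H := le_sup_right.trans hL.le
        exact this h3
      have h5 : (m : G) = 1 := Subgroup.disjoint_def.mp hdisj m.2 h4
      exact Subgroup.mem_bot.2 (Subtype.ext h5)
  have hMsol : Group.IsSolvable M := by
    by_cases hM1 : Nat.card M = 1
    · have := (Nat.card_eq_one_iff_unique.mp hM1).1
      infer_instance
    · obtain ⟨s, hs, hsd⟩ := Nat.exists_prime_and_dvd hM1
      have hsF : Fact s.Prime := ⟨hs⟩
      obtain ⟨S, hS'⟩ := hS s hs
      rcases hS' with h | h
      · exact absurd h (S.ne_bot_of_dvd_card hsd)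
      · have h3 : IsPGroup s M := by
          have h4 := S.isPGroup'
          intro g
          obtain ⟨k, hk⟩ := h4 ⟨g, by rw [h]; trivial⟩
          exact ⟨k, congrArg Subtype.val hk⟩
        have := h3.isNilpotent
        infer_instance
  have hPsol : Group.IsSolvable P := by
    apply Group.isSolvable_of_comm
    intro a b
    exact Subtype.ext (hHcomm _ a.2 _ b.2)
  have hGsol : Group.IsSolvable G := by
    apply Group.isSolvable_of_ker_le_range M.subtype f
    rw [Subgroup.range_subtype]
  have hTsol : Group.IsSolvable T := Group.isSolvable_of_isSolvable_injective T.subtype_injective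
  apply hTc
  have := IsSimpleGroup.comm_iff_isSolvable.2 hTsol
  exact ⟨⟨this⟩⟩

end Cfsg.Agent.S3498
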