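import Cfsg.Statements.S3504
-- import your own Cfsg.Agent.* helpers here

set_option autoImplicit false
open Cfsg

namespace Cfsg.Agent.S3504

/-- For n ≥ 5, the fixed-point-free permutations of prime order in the symmetric group of degree n form a single conjugacy class if and only if n is a prime power. -/
theorem result (n : ℕ) (hn : 5 ≤ n) :
    Nat.card {c : ConjClasses (Equiv.Perm (Fin n)) // ∃ g : Equiv.Perm (Fin n), ConjClasses.mk g = c ∧ (orderOf g).Prime ∧ ∀ i : Fin n, g i ≠ i} = 1 ↔ IsPrimePow n := by
  classical
  have hcyc : ∀ g : Equiv.Perm (Fin n), (orderOf g).Prime → (∀ i, g i ≠ i) →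
      g.cycleType = Multiset.replicate (n / orderOf g) (orderOf g) := by
    intro g hg hd
    obtain ⟨k, hk⟩ := Equiv.Perm.cycleType_prime_order hg
    have hsup : g.support = Finset.univ := by
      ext i
      simp [Equiv.Perm.mem_support, hd i]
    have hsum : g.cycleType.sum = n := by
      rw [Equiv.Perm.sum_cycleType, hsup, Finset.card_univ, Fintype.card_fin]
    rw [hk, Multiset.sum_replicate, smul_eq_mul] at hsum
    have h1 : n / orderOf g = k + 1 := Nat.div_eq_of_eq_mul_left hg.pos hsum.symm
    rw [hk, h1]
  have hdvd : ∀ g : Equiv.Perm (Fin n), (orderOf g).Prime → (∀ i, g i ≠ i) → orderOf g ∣ n := by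
    intro g hg hd
    have hsup : g.support = Finset.univ := by
      ext i
      simp [Equiv.Perm.mem_support, hd i]
    have hsum : g.cycleType.sum = n := by
      rw [Equiv.Perm.sum_cycleType, hsup, Finset.card_univ, Fintype.card_fin]
    obtain ⟨k, hk⟩ := Equiv.Perm.cycleType_prime_order hg
    rw [hk, Multiset.sum_replicate, smul_eq_mul] at hsum
    exact ⟨k + 1, by rw [mul_comm]; exact hsum.symm⟩
  have hn0 : n ≠ 0 := by omega
  let X := {c : ConjClasses (Equiv.Perm (Fin n)) // ∃ g : Equiv.Perm (Fin n), ConjClasses.mk g = c ∧ (orderOf g).Prime ∧ ∀ i : Fin n, g i ≠ i}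
  let Φ : X → n.primeFactors := fun c =>
    ⟨orderOf c.2.choose, Nat.mem_primeFactors.2 ⟨c.2.choose_spec.2.1, hdvd _ c.2.choose_spec.2.1 c.2.choose_spec.2.2, hn0⟩⟩
  have hΦ : Function.Bijective Φ := by
    constructor
    · intro c d hcd
      have h1 : orderOf c.2.choose = orderOf d.2.choose := congrArg Subtype.val hcd
      apply Subtype.ext
      rw [← c.2.choose_spec.1, ← d.2.choose_spec.1, ConjClasses.mk_eq_mk_iff_isConj,
        Equiv.Perm.isConj_iff_cycleType_eq, hcyc _ c.2.choose_spec.2.1 c.2.choose_spec.2.2,
        hcyc _ d.2.choose_spec.2.1 d.2.choose_spec.2.2, h1]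
    · rintro ⟨q, hq⟩
      have hq' := Nat.mem_primeFactors.1 hq
      have hqp := hq'.1
      have hqd := hq'.2.1
      have hm : ∃ g : Equiv.Perm (Fin n), g.cycleType = Multiset.replicate (n / q) q := by
        rw [Equiv.Perm.exists_with_cycleType_iff]
        constructor
        · rw [Multiset.sum_replicate, smul_eq_mul, Fintype.card_fin, Nat.div_mul_cancel hqd]
        · intro a ha
          rw [Multiset.eq_of_mem_replicate ha]
          exact hqp.two_le
      obtain ⟨g, hg⟩ := hm
      have hk : n / q ≠ 0 := by
        intro h
        have := Nat.div_mul_cancel hqd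
        rw [h, zero_mul] at this
        exact hn0 this.symm
      have hord : orderOf g = q := by
        rw [← Equiv.Perm.lcm_cycleType, hg]
        obtain ⟨k, hk'⟩ := Nat.exists_eq_succ_of_ne_zero hk
        rw [hk']
        clear hk' hg
        induction k with
        | zero => simp
        | succ k ih =>
          rw [Multiset.replicate_succ, Multiset.lcm_cons, ih]
          simp
      have hder : ∀ i, g i ≠ i := by
        have hs : g.support = Finset.univ := by
          apply Finset.eq_univ_of_card
          rw [← Equiv.Perm.sum_cycleType, hg, Multiset.sum_replicate, smul_eq_mul,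
            Nat.div_mul_cancel hqd, Fintype.card_fin]
        intro i
        have : i ∈ g.support := by rw [hs]; exact Finset.mem_univ i
        exact Equiv.Perm.mem_support.1 this
      let c : X := ⟨ConjClasses.mk g, g, rfl, hord ▸ hqp, hder⟩
      refine ⟨c, Subtype.ext ?_⟩
      have h1 : ConjClasses.mk c.2.choose = ConjClasses.mk g := c.2.choose_spec.1
      rw [ConjClasses.mk_eq_mk_iff_isConj, Equiv.Perm.isConj_iff_cycleType_eq] at h1
      have h2 := hcyc _ c.2.choose_spec.2.1 c.2.choose_spec.2.2
      rw [h1, hg] at h2
      have h3 : orderOf c.2.choose = q := by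
        have h4 := c.2.choose_spec.2.1
        have h5 : c.2.choose.cycleType = Multiset.replicate (n / q) q := by rw [h1, hg]
        have h6 := Equiv.Perm.lcm_cycleType c.2.choose
        rw [← h6, h5]
        obtain ⟨k, hk'⟩ := Nat.exists_eq_succ_of_ne_zero hk
        rw [hk']
        clear hk'
        induction k with
        | zero => simp
        | succ k ih =>
          rw [Multiset.replicate_succ, Multiset.lcm_cons, ih]
          simp
      exact h3
  have hcard : Nat.card X = n.primeFactors.card := by
    rw [Nat.card_eq_of_bijective Φ hΦ, Nat.card_eq_fintype_card, Fintype.card_coe]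
  change Nat.card X = 1 ↔ _
  rw [hcard, isPrimePow_iff_card_primeFactors_eq_one]

end Cfsg.Agent.S3504
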