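import Cfsg.Statements.S3508
-- import your own Cfsg.Agent.* helpers here

set_option autoImplicit false
open Cfsg

namespace Cfsg.Agent.S3508

theorem unipotent_key {p : ℕ} [Fact p.Prime] {M : Type*} [AddCommGroup M] [Module (ZMod p) M]
    [Finite M] (A : Module.End (ZMod p) M) (r s m : ℕ) (hcard : Nat.card M = p ^ m)
    (hA : A ^ (p ^ r) = 1) (hq : m < p ^ s) :
    A ^ (p ^ s) = 1 ∧ ∑ i ∈ Finset.range (p ^ s), A ^ i = 0 := by
  classical
  have hp := (Fact.out : p.Prime)
  set T : Module.End (ZMod p) M := A - 1 with hT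
  have hpoly1 : ∀ k : ℕ, ((Polynomial.X - 1 : Polynomial (ZMod p)) ^ (p ^ k)) =
      Polynomial.X ^ (p ^ k) - 1 := by
    intro k
    rw [sub_pow_char_pow, one_pow]
  have hne : (Polynomial.X - 1 : Polynomial (ZMod p)) ≠ 0 := by
    have := Polynomial.X_sub_C_ne_zero (1 : ZMod p)
    simpa using this
  have hpoly2 : ∀ k : ℕ, ((Polynomial.X - 1 : Polynomial (ZMod p)) ^ (p ^ k - 1)) =
      ∑ i ∈ Finset.range (p ^ k), (Polynomial.X : Polynomial (ZMod p)) ^ i := by
    intro k
    apply mul_left_cancel₀ hne
    rw [← pow_succ', Nat.sub_add_cancel (Nat.pos_of_ne_zero (pow_ne_zero _ hp.ne_zero)), hpoly1,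
      mul_geom_sum]
  have hT1 : ∀ k : ℕ, T ^ (p ^ k) = A ^ (p ^ k) - 1 := by
    intro k
    have := congrArg (Polynomial.aeval A) (hpoly1 k)
    simpa [map_sub, map_pow] using this
  have hT2 : ∀ k : ℕ, T ^ (p ^ k - 1) = ∑ i ∈ Finset.range (p ^ k), A ^ i := by
    intro k
    have := congrArg (Polynomial.aeval A) (hpoly2 k)
    simpa [map_sub, map_pow, map_sum] using this
  have hnil : IsNilpotent T := ⟨p ^ r, by rw [hT1, hA, sub_self]⟩
  have hfinM : Module.Finite (ZMod p) M := Module.Finite.of_finite
  have hfin : Module.finrank (ZMod p) M = m := by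
    have h1 := Module.natCard_eq_pow_finrank (K := ZMod p) (V := M)
    rw [hcard, Nat.card_zmod] at h1
    exact (Nat.pow_right_injective hp.two_le h1).symm
  have hTm : T ^ m = 0 := by
    have h1 := (LinearMap.isNilpotent_iff_charpoly T).1 hnil
    have h2 := LinearMap.aeval_self_charpoly T
    rw [h1, hfin] at h2
    simpa using h2
  constructor
  · rw [← sub_eq_zero, ← hT1]
    exact pow_eq_zero_of_le hq.le hTm
  · rw [← hT2]
    exact pow_eq_zero_of_le (by omega) hTm

theorem aff_pow {R M Ω G : Type*} [CommRing R] [AddCommGroup M] [Module R M] [Monoid G] [MulAction G Ω]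
    (A : Module.End R M) (b : M) (g : G) (F : M → Ω)
    (h : ∀ x, g • F x = F (A x + b)) (k : ℕ) (x : M) :
    g ^ k • F x = F ((A ^ k) x + (∑ i ∈ Finset.range k, A ^ i) b) := by
  induction k with
  | zero => simp
  | succ k ih =>
    rw [pow_succ', mul_smul, ih, h, pow_succ', Finset.sum_range_succ', Module.End.mul_apply]
    congr 1
    simp only [map_add, add_assoc]
    congr 1
    simp only [LinearMap.add_apply, pow_zero, Module.End.one_apply]
    congr 1
    have h2 : (∑ i ∈ Finset.range k, A ^ (i + 1)) = A * ∑ i ∈ Finset.range k, A ^ i := by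
      rw [Finset.mul_sum]
      simp only [pow_succ']
    rw [h2, Module.End.mul_apply]

theorem core2 {p : ℕ} [Fact p.Prime] {G Ω N₀ : Type*} [Group G] [MulAction G Ω] [FaithfulSMul G Ω]
    [CommGroup N₀] [Finite N₀] [Module (ZMod p) (Additive N₀)] (ι : N₀ →* G) (hι : Function.Injective ι)
    (m : ℕ) (hcard : Nat.card N₀ = p ^ m) (ω : Ω) (htr : ∀ y : Ω, ∃ x : N₀, ι x • ω = y)
    (φ : N₀ →* N₀) (g : G) (hφ : ∀ x, ι (φ x) = g * ι x * g⁻¹) (r s : ℕ) (hg : g ^ (p ^ r) = 1)
    (hq : m < p ^ s) : g ^ (p ^ s) = 1 := by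
  classical
  let A : Module.End (ZMod p) (Additive N₀) := (φ.toAdditive).toZModLinearMap p
  have hApow : ∀ (k : ℕ) (x : Additive N₀), ι (Additive.toMul ((A ^ k) x)) = g ^ k * ι (Additive.toMul x) * (g ^ k)⁻¹ := by
    intro k
    induction k with
    | zero => intro x; simp
    | succ k ih =>
      intro x
      rw [pow_succ', Module.End.mul_apply]
      have h1 : ∀ y : Additive N₀, ι (Additive.toMul (A y)) = g * ι (Additive.toMul y) * g⁻¹ := by
        intro y
        exact hφ (Additive.toMul y)
      rw [h1, ih]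
      group
  have hA : A ^ (p ^ r) = 1 := by
    apply LinearMap.ext
    intro x
    apply Additive.toMul.injective
    apply hι
    have h5 := hApow (p ^ r) x
    rw [hg] at h5
    simpa using h5
  obtain ⟨hq1, hq2⟩ := unipotent_key A r s m ((Nat.card_congr Additive.toMul).trans hcard) hA hq
  obtain ⟨b, hb⟩ := htr (g • ω)
  let F : Additive N₀ → Ω := fun x => ι (Additive.toMul x) • ω
  have hF : ∀ x, g • F x = F (A x + Additive.ofMul b) := by
    intro x
    simp only [F]
    rw [toMul_add, map_mul, mul_smul, toMul_ofMul, hb, ← mul_smul]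
    have h1 : ι (Additive.toMul (A x)) = g * ι (Additive.toMul x) * g⁻¹ := hφ (Additive.toMul x)
    rw [h1, ← mul_smul]
    congr 1
    group
  have hpow := aff_pow (R := ZMod p) A (Additive.ofMul b) g F hF (p ^ s)
  rw [hq1, hq2] at hpow
  apply eq_of_smul_eq_smul (α := Ω)
  intro y
  obtain ⟨x, rfl⟩ := htr y
  have := hpow (Additive.ofMul x)
  simpa [F] using this

theorem num1 (m : ℕ) (hm : 3 ≤ m) : m < 2 ^ (m - 1) := by
  induction m, hm using Nat.le_induction with
  | base => norm_num
  | succ m hm ih =>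
    have : m + 1 - 1 = (m - 1) + 1 := by omega
    rw [this, pow_succ]
    omega

theorem num2 (m : ℕ) (hm : 2 ≤ m) : m < 3 ^ (m - 1) := by
  induction m, hm using Nat.le_induction with
  | base => norm_num
  | succ m hm ih =>
    have : m + 1 - 1 = (m - 1) + 1 := by omega
    rw [this, pow_succ]
    omega


/-- Let a finite group G act faithfully on a set Ω with p ^ m points (p prime) and have an elementary abelian normal p-subgroup N acting regularly on Ω (so G is a group of affine transformations of an m-dimensional space over the field with p elements). If G contains an element of order p ^ r with r ≥ 1, then p ^ (r − 1) ≤ m. In particular an element of order p ^ m forces m ≤ 2, and m ≤ 1 when p is odd. -/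
theorem result {G : Type*} [Group G] [Finite G] {Ω : Type*} [Fintype Ω] [MulAction G Ω] [FaithfulSMul G Ω] (p m : ℕ) (hp : p.Prime) (hcard : Fintype.card Ω = p ^ m)
    (N : Subgroup G) [N.Normal] (hNc : IsMulCommutative N) (hNp : ∀ n ∈ N, n ^ p = 1)
    (hNtr : MulAction.IsPretransitive N Ω) (hNreg : ∀ ω : Ω, MulAction.stabilizer N ω = ⊥)
    (g : G) (r : ℕ) (hr : 1 ≤ r) (hg : orderOf g = p ^ r) :
    p ^ (r - 1) ≤ m ∧ (r = m → m ≤ 2 ∧ (2 < p → m ≤ 1)) := by
  classical
  have hfact : Fact p.Prime := ⟨hp⟩
  have hmain : p ^ (r - 1) ≤ m := by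
    by_contra hlt
    push Not at hlt
    -- the point
    have hΩ : Nonempty Ω := by
      rw [← Fintype.card_pos_iff, hcard]
      exact pow_pos hp.pos m
    obtain ⟨ω⟩ := hΩ
    have hcardN : Nat.card N = p ^ m := by
      have h1 := MulAction.index_stabilizer_of_transitive (G := N) (X := Ω) ω
      rw [hNreg ω, Subgroup.index_bot, Nat.card_eq_fintype_card (α := Ω), hcard] at h1
      exact h1
    letI cg : CommGroup N := { (inferInstance : Group N) with mul_comm := hNc.is_comm.comm }
    letI modM : Module (ZMod p) (Additive N) := AddCommGroup.zmodModule (n := p) (by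
      intro x
      apply Additive.toMul.injective
      apply Subtype.ext
      simpa using hNp (Additive.toMul x : N).1 (Additive.toMul x : N).2)
    have h := core2 (G := G) (Ω := Ω) (N₀ := N) (p := p) N.subtype N.subtype_injective
      m hcardN ω
      (fun y => by
        obtain ⟨x, hx⟩ := MulAction.exists_smul_eq N ω y
        exact ⟨x, hx⟩)
      (MulAut.conjNormal (H := N) g).toMonoidHom g (fun x => MulAut.conjNormal_apply g x)
      r (r - 1) (by rw [← hg, pow_orderOf_eq_one]) hlt
    have hd := orderOf_dvd_of_pow_eq_one h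
    rw [hg, Nat.pow_dvd_pow_iff_le_right hp.one_lt] at hd
    omega
  refine ⟨hmain, ?_⟩
  rintro rfl
  have hr0 : 1 ≤ r := hr
  constructor
  · by_contra h3
    push Not at h3
    have h4 := num1 r (by omega)
    have h5 : 2 ^ (r - 1) ≤ p ^ (r - 1) := Nat.pow_le_pow_left hp.two_le _
    omega
  · intro h2p
    by_contra h3
    push Not at h3
    have h4 := num2 r (by omega)
    have h5 : 3 ^ (r - 1) ≤ p ^ (r - 1) := Nat.pow_le_pow_left h2p _
    omega

end Cfsg.Agent.S3508
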