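import Cfsg.Statements.S3511


set_option autoImplicit false
open Cfsg

namespace Cfsg.Agent.S3511

/-- Let a finite group G act faithfully on a set Ω. If every element of G of square-free order has a regular cycle (an orbit of the cyclic group it generates with trivial stabilizer), then every element of G has a regular cycle. -/
theorem result {G : Type*} [Group G] [Finite G] {Ω : Type*} [MulAction G Ω] [FaithfulSMul G Ω]
    (h : ∀ g : G, Squarefree (orderOf g) → ∃ ω : Ω, MulAction.stabilizer (Subgroup.zpowers g) ω = ⊥) (g : G) :
    ∃ ω : Ω, MulAction.stabilizer (Subgroup.zpowers g) ω = ⊥ := by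
  have key : ∀ (n : ℕ) (g : G), orderOf g = n → ∃ ω : Ω, MulAction.stabilizer (Subgroup.zpowers g) ω = ⊥ := by
    intro n
    induction n using Nat.strong_induction_on with
    | _ n ih =>
      intro g hg
      by_cases hsq : Squarefree n
      · exact h g (hg ▸ hsq)
      · rw [Nat.squarefree_iff_prime_squarefree] at hsq
        push Not at hsq
        obtain ⟨q, hq, hqq⟩ := hsq
        have hn0 : 0 < n := hg ▸ orderOf_pos g
        have hq1 : q ∣ n := Dvd.dvd.trans (Dvd.intro _ rfl) hqq
        have hord : orderOf (g ^ q) = n / q := by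
          rw [orderOf_pow_of_dvd hq.ne_zero (hg ▸ hq1), hg]
        have hlt : n / q < n := Nat.div_lt_self hn0 hq.one_lt
        obtain ⟨ω, hω⟩ := ih _ hlt (g ^ q) hord
        refine ⟨ω, ?_⟩
        rw [eq_bot_iff]
        rintro ⟨x, hx⟩ hxs
        have hxs' : x • ω = ω := hxs
        rw [Subgroup.mem_bot, Subgroup.mk_eq_one]
        by_contra hx1
        -- take a prime order power of x
        have hoπ : orderOf x ≠ 1 := by
          rw [Ne, orderOf_eq_one_iff]; exact hx1
        obtain ⟨s, hs, hsd⟩ := Nat.exists_prime_and_dvd hoπ
        obtain ⟨m, hm⟩ := hsd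
        have hxo : 0 < orderOf x := orderOf_pos x
        have hm0 : m ≠ 0 := by
          rintro rfl
          rw [mul_zero] at hm
          exact hxo.ne' hm
        have hy : orderOf (x ^ m) = s := by
          rw [orderOf_pow_of_dvd hm0 ⟨s, by rw [hm, mul_comm]⟩]
          rw [hm]
          exact Nat.mul_div_cancel _ (Nat.pos_of_ne_zero hm0)
        obtain ⟨k, hk⟩ := hx
        have hyg : g ^ (k * m : ℤ) = x ^ m := by
          rw [zpow_mul, ← hk]
          simp
        -- reduce exponent mod n to a natural number
        set a : ℕ := ((k * m : ℤ) % (orderOf g : ℤ)).toNat with ha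
        have hga : g ^ a = x ^ m := by
          rw [← hyg]
          have h0 : (0:ℤ) ≤ (k * m : ℤ) % (orderOf g : ℤ) :=
            Int.emod_nonneg _ (by exact_mod_cast (orderOf_pos g).ne')
          have : ((a : ℕ) : ℤ) = (k * m : ℤ) % (orderOf g : ℤ) := Int.toNat_of_nonneg h0
          rw [← zpow_natCast, this, zpow_mod_orderOf]
        have hqa : q ∣ a := by
          by_contra hqa
          have hcop : Nat.Coprime (q * q) a :=
            (Nat.Coprime.mul_left ((Nat.Prime.coprime_iff_not_dvd hq).2 hqa)
              ((Nat.Prime.coprime_iff_not_dvd hq).2 hqa))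
          have h1 : g ^ (a * s) = 1 := by
            rw [pow_mul, hga, ← hy, pow_orderOf_eq_one]
          have h2 : n ∣ a * s := hg ▸ orderOf_dvd_of_pow_eq_one h1
          have h3 : q * q ∣ s := hcop.dvd_of_dvd_mul_left (hqq.trans h2)
          have h4 : q ∣ s := Dvd.dvd.trans (Dvd.intro _ rfl) h3
          have h5 : q = s := (Nat.prime_dvd_prime_iff_eq hq hs).1 h4
          rw [← h5] at h3
          have := Nat.le_of_dvd hq.pos h3
          nlinarith [hq.two_le]
        obtain ⟨b, hb⟩ := hqa
        have hmem : x ^ m ∈ Subgroup.zpowers (g ^ q) := by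
          rw [← hga, hb, pow_mul]
          exact Subgroup.npow_mem_zpowers _ _
        have hfix : (x ^ m) • ω = ω := by
          have : ∀ j : ℕ, (x ^ j) • ω = ω := by
            intro j
            induction j with
            | zero => simp
            | succ j ih => rw [pow_succ, mul_smul, hxs', ih]
          exact this m
        have : (⟨x ^ m, hmem⟩ : Subgroup.zpowers (g ^ q)) ∈ MulAction.stabilizer (Subgroup.zpowers (g ^ q)) ω := hfix
        rw [hω, Subgroup.mem_bot, Subgroup.mk_eq_one] at this
        rw [this, orderOf_one] at hy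
        exact hs.one_lt.ne hy
  exact key _ g rfl

end Cfsg.Agent.S3511
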