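import Cfsg.Statements.S3514
-- import your own Cfsg.Agent.* helpers here

set_option autoImplicit false
open Cfsg

namespace Cfsg.Agent.S3514

theorem orbit_card {G X : Type*} [Group G] [MulAction G X] (L : Subgroup G) (v : X) :
    Nat.card {u : X | ∃ g ∈ L, g • v = u} = (MulAction.stabilizer G v).relIndex L := by
  have h1 : (MulAction.stabilizer G v).subgroupOf L = MulAction.stabilizer L v := by
    ext x
    simp [Subgroup.mem_subgroupOf, MulAction.mem_stabilizer_iff]
    rfl
  rw [Subgroup.relIndex, h1, MulAction.index_stabilizer]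
  have h2 : MulAction.orbit L v = {u : X | ∃ g ∈ L, g • v = u} := by
    ext u
    constructor
    · rintro ⟨⟨g, hg⟩, rfl⟩
      exact ⟨g, hg, rfl⟩
    · rintro ⟨g, hg, rfl⟩
      exact ⟨⟨g, hg⟩, rfl⟩
  rw [h2]
  rfl

theorem relIndex_sup_of_le_normalizer {G : Type*} [Group G] (A B : Subgroup G)
    (hB : B ≤ Subgroup.normalizer (A : Set G)) :
    B.relIndex (A ⊔ B) = B.relIndex A := by
  have hs : MulAction.stabilizer G ((1 : G) : G ⧸ B) = B := MulAction.stabilizer_quotient B
  have e1 := orbit_card (G := G) (X := G ⧸ B) (A ⊔ B) ((1 : G) : G ⧸ B)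
  have e2 := orbit_card (G := G) (X := G ⧸ B) A ((1 : G) : G ⧸ B)
  rw [hs] at e1 e2
  rw [← e1, ← e2]
  congr 2
  ext u
  constructor
  · rintro ⟨g, hg, rfl⟩
    have hg' : g ∈ ((A ⊔ B : Subgroup G) : Set G) := hg
    rw [sup_comm, Subgroup.coe_mul_of_left_le_normalizer_right B A hB,
      Subgroup.set_mul_normalizer_comm _ _ hB] at hg'
    obtain ⟨a, ha, b, hb, rfl⟩ := Set.mem_mul.mp hg'
    refine ⟨a, ha, ?_⟩
    rw [mul_smul]
    congr 1
    symm
    change ((b * 1 : G) : G ⧸ B) = _
    rw [mul_one]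
    refine QuotientGroup.eq.2 ?_
    simpa using hb
  · rintro ⟨g, hg, rfl⟩
    exact ⟨g, Subgroup.mem_sup_left hg, rfl⟩


/-- Let p be a prime, V a finite vector space over the field with p elements, and H a group of linear transformations of V all of whose orbits on V have size coprime to p. (i) Every normal subgroup K of H has all its orbits on V of size coprime to p. (ii) If N is a group of linear transformations of V of order coprime to p that is normalized by H, then the group generated by N and H has all its orbits on V of size coprime to p. -/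
theorem result (p : ℕ) [Fact p.Prime] {V : Type*} [AddCommGroup V] [Module (ZMod p) V] [Finite V]
    (H : Subgroup (V ≃ₗ[ZMod p] V)) (hH : ∀ v : V, ¬ p ∣ Nat.card {u : V | ∃ h ∈ H, h v = u}) :
    (∀ K : Subgroup (V ≃ₗ[ZMod p] V), K ≤ H → H ≤ Subgroup.normalizer (K : Set (V ≃ₗ[ZMod p] V)) →
        ∀ v : V, ¬ p ∣ Nat.card {u : V | ∃ k ∈ K, k v = u}) ∧
    (∀ N : Subgroup (V ≃ₗ[ZMod p] V), ¬ p ∣ Nat.card N → H ≤ Subgroup.normalizer (N : Set (V ≃ₗ[ZMod p] V)) →
        ∀ v : V, ¬ p ∣ Nat.card {u : V | ∃ x ∈ N ⊔ H, x v = u}) := by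
  have hfin : Finite (V ≃ₗ[ZMod p] V) := by
    apply Finite.of_injective (fun f : V ≃ₗ[ZMod p] V => (f : V → V))
    intro f g h
    ext x
    exact congrFun h x
  have horb : ∀ (L : Subgroup (V ≃ₗ[ZMod p] V)) (v : V),
      Nat.card {u : V | ∃ h ∈ L, h v = u} = (MulAction.stabilizer (V ≃ₗ[ZMod p] V) v).relIndex L := by
    intro L v
    exact orbit_card L v
  constructor
  · intro K hK hKn v
    have hv := hH v
    rw [horb] at hv ⊢
    intro hdvd
    apply hv
    set S := MulAction.stabilizer (V ≃ₗ[ZMod p] V) v with hS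
    set S' := S ⊓ H with hS'
    have hS'H : S' ≤ H := inf_le_right
    have h1 : S'.relIndex K = S.relIndex K := by
      rw [Subgroup.relIndex, Subgroup.relIndex]
      congr 1
      ext x
      simp only [Subgroup.mem_subgroupOf, hS', Subgroup.mem_inf]
      exact ⟨fun h => h.1, fun h => ⟨h, hK x.2⟩⟩
    have h2 : S'.relIndex H = S.relIndex H := by
      rw [hS', Subgroup.inf_relIndex_right]
    have h3 : S'.relIndex (K ⊔ S') = S'.relIndex K :=
      relIndex_sup_of_le_normalizer K S' (hS'H.trans hKn)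
    have h4 : K ⊔ S' ≤ H := sup_le hK hS'H
    have h5 := Subgroup.relIndex_mul_relIndex S' (K ⊔ S') H le_sup_right h4
    rw [← h2, ← h5, h3, h1]
    exact hdvd.trans (Dvd.intro _ rfl)
  · intro N hN hNn v
    have hv := hH v
    rw [horb] at hv ⊢
    set S := MulAction.stabilizer (V ≃ₗ[ZMod p] V) v with hS
    have h1 : H.relIndex (N ⊔ H) = H.relIndex N := relIndex_sup_of_le_normalizer N H hNn
    have h2 : (H ⊓ S).relIndex (N ⊔ H) = (H ⊓ S).relIndex H * H.relIndex (N ⊔ H) :=
      (Subgroup.relIndex_mul_relIndex _ _ _ inf_le_left le_sup_right).symm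
    have h3 : H.relIndex (S ⊓ (N ⊔ H)) * S.relIndex (N ⊔ H) = (H ⊓ S).relIndex (N ⊔ H) :=
      Subgroup.relIndex_inf_mul_relIndex _ _ _
    have h4 : (H ⊓ S).relIndex H = S.relIndex H := by
      rw [Subgroup.inf_relIndex_left]
    have h5 : ¬ p ∣ H.relIndex N := by
      intro hd
      apply hN
      have h6 : H.relIndex N ∣ Nat.card N := by
        rw [Subgroup.relIndex]
        exact Subgroup.index_dvd_card _
      exact hd.trans h6
    intro hd
    have h7 : p ∣ (H ⊓ S).relIndex (N ⊔ H) := by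
      rw [← h3]
      exact hd.trans (Dvd.intro_left _ rfl)
    rw [h2, h4, h1] at h7
    rcases (Nat.Prime.dvd_mul (Fact.out : p.Prime)).1 h7 with h8 | h8
    · exact hv h8
    · exact h5 h8

end Cfsg.Agent.S3514
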