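import Cfsg.Statements.S3515
import Cfsg.Agent.Lib.H16.Affine

set_option autoImplicit false
open Cfsg

namespace Cfsg.Agent.S3515

theorem affine_of_add {p : ℕ} [Fact p.Prime] {V : Type*} [AddCommGroup V]
    [Module (ZMod p) V] (σ : Equiv.Perm V) (add : ∀ x y : V, σ (x + y) = σ x + σ y - σ 0) :
    ∃ (A : V ≃ₗ[ZMod p] V) (b : V), ∀ x, σ x = A x + b := by
  let τ : V →+ V := AddMonoidHom.mk' (fun x => σ x - σ 0) (by
    intro x y
    rw [add]
    abel)
  let L : V →ₗ[ZMod p] V := τ.toZModLinearMap p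
  have hL : ∀ x, L x = σ x - σ 0 := fun x => rfl
  have hbij : Function.Bijective L := by
    constructor
    · intro x y hxy
      rw [hL, hL] at hxy
      exact σ.injective (sub_left_inj.mp hxy)
    · intro y
      refine ⟨σ.symm (y + σ 0), ?_⟩
      rw [hL, Equiv.apply_symm_apply]
      abel
  refine ⟨LinearEquiv.ofBijective L hbij, σ 0, fun x => ?_⟩
  rw [LinearEquiv.ofBijective_apply, hL]
  abel

theorem f2_add : ∀ (σ : Equiv.Perm (Fin 2 → ZMod 2)) (x y : Fin 2 → ZMod 2),
    σ (x + y) = σ x + σ y - σ 0 := by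
  decide +kernel


/-- Every primitive affine permutation group of degree p² is 3-closed. Let p be a prime and G a group of permutations of the plane V = F_p² consisting of affine maps x ↦ Ax + b, containing all translations, and acting primitively on V. Then any permutation σ of V that agrees on every triple of points with some element of G (σ preserves every G-orbit on ordered triples) already lies in G. -/
theorem result (p : ℕ) [Fact p.Prime] (G : Subgroup (Equiv.Perm (Fin 2 → ZMod p)))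
    (haff : (G : Set (Equiv.Perm (Fin 2 → ZMod p))) ⊆ {τ : Equiv.Perm (Fin 2 → ZMod p) | ∃ (A : (Fin 2 → ZMod p) ≃ₗ[ZMod p] (Fin 2 → ZMod p)) (b : Fin 2 → ZMod p), ∀ x, τ x = A x + b})
    (htrans : ∀ b : Fin 2 → ZMod p, ∃ g ∈ G, ∀ x, g x = x + b) (hprim : MulAction.IsPreprimitive G (Fin 2 → ZMod p))
    (σ : Equiv.Perm (Fin 2 → ZMod p)) (hσ : (∀ t : Fin 3 → (Fin 2 → ZMod p), ∃ g ∈ G, ∀ i, σ (t i) = g (t i))) : σ ∈ G := by
  classical
  have haffine : ∃ (A : (Fin 2 → ZMod p) ≃ₗ[ZMod p] (Fin 2 → ZMod p)) (b : Fin 2 → ZMod p), ∀ x, σ x = A x + b := by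
    by_cases hp : p = 2
    · subst hp
      exact affine_of_add σ (f2_add σ)
    · apply Cfsg.Agent.H16.affine_of_triples hp σ
      intro t
      obtain ⟨g, hg, hgt⟩ := hσ t
      obtain ⟨A, b, hAb⟩ := haff hg
      exact ⟨A, b, fun i => by rw [hgt i, hAb]⟩
  obtain ⟨A, b, hAb⟩ := haffine
  let e : Fin 2 → (Fin 2 → ZMod p) := fun i => Pi.single i 1
  obtain ⟨g, hg, hgt⟩ := hσ ![0, e 0, e 1]
  obtain ⟨A', b', hAb'⟩ := haff hg
  have e0 := hgt 0
  have e1 := hgt 1
  have e2 := hgt 2
  simp only [Matrix.cons_val_zero, Matrix.cons_val_one, Matrix.cons_val] at e0 e1 e2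
  rw [hAb, hAb', map_zero, map_zero, zero_add, zero_add] at e0
  rw [hAb, hAb', e0, add_left_inj] at e1 e2
  have hAA' : (A : (Fin 2 → ZMod p) →ₗ[ZMod p] (Fin 2 → ZMod p)) = A' := by
    apply (Pi.basisFun (ZMod p) (Fin 2)).ext
    intro i
    rw [Pi.basisFun_apply]
    fin_cases i
    · exact e1
    · exact e2
  have hσg : σ = g := by
    ext x y
    rw [hAb, hAb', e0]
    have : A x = A' x := LinearMap.congr_fun hAA' x
    rw [this]
  rw [hσg]
  exact hg

end Cfsg.Agent.S3515
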