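import Cfsg.Statements.S3516
import Cfsg.Agent.Lib.H16.Affine

set_option autoImplicit false
open Cfsg

namespace Cfsg.Agent.S3516

/-- Let p be an odd prime, d ≥ 3, and G a group of affine permutations x ↦ Ax + b of V = F_p^d containing all translations and all maps x ↦ Ax with A of determinant 1. Then the 3-closure of G is the full affine group: a permutation σ of V agrees on every triple of points with some element of G if and only if σ is an affine map. -/
theorem result (p : ℕ) [Fact p.Prime] (hp : p ≠ 2) (d : ℕ) (hd : 3 ≤ d) (G : Subgroup (Equiv.Perm (Fin d → ZMod p)))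
    (haff : (G : Set (Equiv.Perm (Fin d → ZMod p))) ⊆ {τ : Equiv.Perm (Fin d → ZMod p) | ∃ (A : (Fin d → ZMod p) ≃ₗ[ZMod p] (Fin d → ZMod p)) (b : Fin d → ZMod p), ∀ x, τ x = A x + b})
    (htrans : ∀ b : Fin d → ZMod p, ∃ g ∈ G, ∀ x, g x = x + b)
    (hsl : ∀ A : (Fin d → ZMod p) ≃ₗ[ZMod p] (Fin d → ZMod p), LinearMap.det (A : (Fin d → ZMod p) →ₗ[ZMod p] (Fin d → ZMod p)) = 1 → ∃ g ∈ G, ∀ x, g x = A x)
    (σ : Equiv.Perm (Fin d → ZMod p)) :
    (∀ t : Fin 3 → (Fin d → ZMod p), ∃ g ∈ G, ∀ i, σ (t i) = g (t i)) ↔ σ ∈ {τ : Equiv.Perm (Fin d → ZMod p) | ∃ (A : (Fin d → ZMod p) ≃ₗ[ZMod p] (Fin d → ZMod p)) (b : Fin d → ZMod p), ∀ x, τ x = A x + b} := by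
  classical
  constructor
  · intro h
    apply Cfsg.Agent.H16.affine_of_triples hp σ
    intro t
    obtain ⟨g, hg, hgt⟩ := h t
    obtain ⟨A, b, hAb⟩ := haff hg
    exact ⟨A, b, fun i => by rw [hgt i, hAb]⟩
  · rintro ⟨A, b, hAb⟩ t
    -- the subspace spanned by differences
    set u := t 1 - t 0 with hu
    set v := t 2 - t 0 with hv
    let W : Submodule (ZMod p) (Fin d → ZMod p) := Submodule.span (ZMod p) {u, v}
    have hWfin : Module.finrank (ZMod p) W ≤ 2 := by
      have h1 := finrank_span_finset_le_card (R := ZMod p) ({u, v} : Finset (Fin d → ZMod p))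
      have h2 := Finset.card_le_two (a := u) (b := v)
      rw [Set.finrank, Finset.coe_pair] at h1
      exact h1.trans h2
    have hWlt : W < ⊤ := by
      rw [lt_top_iff_ne_top]
      intro h
      rw [h, finrank_top, Module.finrank_fin_fun] at hWfin
      omega
    obtain ⟨w, -, hw⟩ := SetLike.exists_of_lt hWlt
    obtain ⟨f, hfw, hfW⟩ := Submodule.exists_le_ker_of_notMem hw
    have hdet0 : LinearMap.det (A : (Fin d → ZMod p) →ₗ[ZMod p] (Fin d → ZMod p)) ≠ 0 := by
      have := LinearEquiv.isUnit_det' A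
      exact this.ne_zero
    set d0 := LinearMap.det (A : (Fin d → ZMod p) →ₗ[ZMod p] (Fin d → ZMod p)) with hd0
    set c : Fin d → ZMod p := ((f w)⁻¹ * (d0⁻¹ - 1)) • w with hc
    have hfc : 1 + f c = d0⁻¹ := by
      rw [hc, map_smul, smul_eq_mul, mul_assoc, mul_comm _ (f w), ← mul_assoc, inv_mul_cancel₀ hfw]
      ring
    have hunit : IsUnit (1 + f c) := by
      rw [hfc]
      exact (inv_ne_zero hdet0).isUnit
    let C := LinearEquiv.dilatransvection hunit
    have hCW : ∀ x ∈ W, C x = x := by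
      intro x hx
      rw [LinearEquiv.dilatransvection.apply]
      have : f x = 0 := hfW hx
      simp [this]
    have hCdet : LinearMap.det (C : (Fin d → ZMod p) →ₗ[ZMod p] (Fin d → ZMod p)) = d0⁻¹ := by
      have : (C : (Fin d → ZMod p) →ₗ[ZMod p] (Fin d → ZMod p)) = LinearMap.transvection f c :=
        LinearEquiv.dilatransvection.coe_toLinearMap
      rw [this, LinearMap.transvection.det, hfc]
    let A' : (Fin d → ZMod p) ≃ₗ[ZMod p] (Fin d → ZMod p) := C.trans A
    have hA'det : LinearMap.det (A' : (Fin d → ZMod p) →ₗ[ZMod p] (Fin d → ZMod p)) = 1 := by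
      have : (A' : (Fin d → ZMod p) →ₗ[ZMod p] (Fin d → ZMod p)) =
          (A : (Fin d → ZMod p) →ₗ[ZMod p] (Fin d → ZMod p)) ∘ₗ (C : (Fin d → ZMod p) →ₗ[ZMod p] (Fin d → ZMod p)) := rfl
      rw [this, LinearMap.det_comp, hCdet, ← hd0, mul_inv_cancel₀ hdet0]
    obtain ⟨g1, hg1, h1⟩ := hsl A' hA'det
    obtain ⟨g2, hg2, h2⟩ := htrans (σ (t 0) - A' (t 0))
    refine ⟨g2 * g1, G.mul_mem hg2 hg1, fun i => ?_⟩
    have hgx : ∀ x, (g2 * g1) x = A' x + (σ (t 0) - A' (t 0)) := by
      intro x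
      rw [Equiv.Perm.mul_apply, h2, h1]
    rw [hgx]
    have hdiff : ∀ x ∈ W, A' x = A x := by
      intro x hx
      change A (C x) = A x
      rw [hCW x hx]
    have huW : u ∈ W := Submodule.subset_span (by simp)
    have hvW : v ∈ W := Submodule.subset_span (by simp)
    have e0 := hAb (t 0)
    fin_cases i
    · simp
    · change σ (t 1) = A' (t 1) + (σ (t 0) - A' (t 0))
      have h3 : t 1 = u + t 0 := by rw [hu]; abel
      rw [hAb (t 1), e0]
      have h4 : A' (t 1) - A' (t 0) = A (t 1) - A (t 0) := by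
        rw [← map_sub, ← map_sub]
        exact hdiff _ huW
      have h5 : A' (t 1) + (A (t 0) + b - A' (t 0)) = (A' (t 1) - A' (t 0)) + A (t 0) + b := by abel
      rw [h5, h4]
      abel
    · change σ (t 2) = A' (t 2) + (σ (t 0) - A' (t 0))
      rw [hAb (t 2), e0]
      have h4 : A' (t 2) - A' (t 0) = A (t 2) - A (t 0) := by
        rw [← map_sub, ← map_sub]
        exact hdiff _ hvW
      have h5 : A' (t 2) + (A (t 0) + b - A' (t 0)) = (A' (t 2) - A' (t 0)) + A (t 0) + b := by abel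
      rw [h5, h4]
      abel

end Cfsg.Agent.S3516
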