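import Cfsg.Statements.S3517
import Cfsg.Agent.Lib.H16.Affine

set_option autoImplicit false
open Cfsg

namespace Cfsg.Agent.S3517

/-- For d ≥ 3, the 3-closure of the affine group AGL_d(2) acting on F_2^d is the full symmetric group: every permutation of F_2^d agrees on every ordered triple of points with some affine map (AGL_d(2) is 3-transitive). -/
theorem result (d : ℕ) (hd : 3 ≤ d) (σ : Equiv.Perm (Fin d → ZMod 2)) (t : Fin 3 → (Fin d → ZMod 2)) :
    ∃ (A : (Fin d → ZMod 2) ≃ₗ[ZMod 2] (Fin d → ZMod 2)) (b : Fin d → ZMod 2), ∀ i, σ (t i) = A (t i) + b := by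
  classical
  have hF2 : ∀ s : ZMod 2, s = 0 ∨ s = 1 := by decide
  have single : ∀ u u' : Fin d → ZMod 2, u ≠ 0 → u' ≠ 0 →
      ∃ A : (Fin d → ZMod 2) ≃ₗ[ZMod 2] (Fin d → ZMod 2), A u = u' := by
    intro u u' hu hu'
    obtain ⟨g, hg⟩ := Cfsg.Agent.H16.exists_equiv_of_independent (K := ZMod 2) (ι := Unit)
      (v := fun _ => u) (v' := fun _ => u') (linearIndependent_unique_iff.2 hu) (linearIndependent_unique_iff.2 hu')
    exact ⟨g, hg ()⟩
  have pair : ∀ u v u' v' : Fin d → ZMod 2, (u = 0 ↔ u' = 0) → (v = 0 ↔ v' = 0) → (u = v ↔ u' = v') →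
      ∃ A : (Fin d → ZMod 2) ≃ₗ[ZMod 2] (Fin d → ZMod 2), A u = u' ∧ A v = v' := by
    intro u v u' v' h1 h2 h3
    by_cases hu : u = 0
    · have hu' := h1.1 hu
      by_cases hv : v = 0
      · have hv' := h2.1 hv
        exact ⟨LinearEquiv.refl _ _, by simp [hu, hu'], by simp [hv, hv']⟩
      · have hv' : v' ≠ 0 := fun h => hv (h2.2 h)
        obtain ⟨A, hA⟩ := single v v' hv hv'
        exact ⟨A, by simp [hu, hu'], hA⟩
    · have hu' : u' ≠ 0 := fun h => hu (h1.2 h)
      by_cases hv : v = 0
      · have hv' := h2.1 hv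
        obtain ⟨A, hA⟩ := single u u' hu hu'
        exact ⟨A, hA, by simp [hv, hv']⟩
      · have hv' : v' ≠ 0 := fun h => hv (h2.2 h)
        by_cases huv : u = v
        · have huv' := h3.1 huv
          obtain ⟨A, hA⟩ := single u u' hu hu'
          exact ⟨A, hA, by rw [← huv, ← huv', hA]⟩
        · have huv' : u' ≠ v' := fun h => huv (h3.2 h)
          have indep : ∀ a b : Fin d → ZMod 2, a ≠ 0 → b ≠ 0 → a ≠ b → LinearIndependent (ZMod 2) ![a, b] := by
            intro a b ha hb hab
            rw [LinearIndependent.pair_iff]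
            intro s t hst
            rcases hF2 s with rfl | rfl <;> rcases hF2 t with rfl | rfl
            · exact ⟨rfl, rfl⟩
            · simp only [zero_smul, one_smul, zero_add] at hst
              exact absurd hst hb
            · simp only [zero_smul, one_smul, add_zero] at hst
              exact absurd hst ha
            · simp only [one_smul] at hst
              exact absurd (by
                have := eq_neg_of_add_eq_zero_left hst
                rw [this, ZModModule.neg_eq_self]) hab
          obtain ⟨g, hg⟩ := Cfsg.Agent.H16.exists_equiv_of_independent (indep u v hu hv huv) (indep u' v' hu' hv' huv')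
          exact ⟨g, by simpa using hg 0, by simpa using hg 1⟩
  set x0 := t 0
  set x1 := t 1
  set x2 := t 2
  have hs : ∀ a b, σ a - σ b = 0 ↔ a - b = 0 := by
    intro a b
    rw [sub_eq_zero, sub_eq_zero, σ.injective.eq_iff]
  obtain ⟨A, hA1, hA2⟩ := pair (x1 - x0) (x2 - x0) (σ x1 - σ x0) (σ x2 - σ x0)
    (hs _ _).symm (hs _ _).symm (by
      rw [sub_left_inj, sub_left_inj, σ.injective.eq_iff])
  refine ⟨A, σ x0 - A x0, fun i => ?_⟩
  fin_cases i
  · simp [x0]
  · have : A x1 = A (x1 - x0) + A x0 := by rw [← map_add]; simp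
    change σ x1 = A x1 + (σ x0 - A x0)
    rw [this, hA1]
    abel
  · have : A x2 = A (x2 - x0) + A x0 := by rw [← map_add]; simp
    change σ x2 = A x2 + (σ x0 - A x0)
    rw [this, hA2]
    abel

end Cfsg.Agent.S3517
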