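import Cfsg.Statements.S3518
import Cfsg.Agent.Lib.H16.Redei

set_option autoImplicit false
open Cfsg

namespace Cfsg.Agent.S3518

set_option linter.style.haveILetI false

variable {p : ℕ} [Fact p.Prime]

/-- the affine permutation -/
def affPerm (u : (ZMod p)ˣ) (b : ZMod p) : Equiv.Perm (ZMod p) where
  toFun x := (u : ZMod p) * x + b
  invFun y := ((u⁻¹ : (ZMod p)ˣ) : ZMod p) * (y - b)
  left_inv x := by
    show ((u⁻¹ : (ZMod p)ˣ) : ZMod p) * ((u : ZMod p) * x + b - b) = x
    rw [add_sub_cancel_right, Units.inv_mul_cancel_left]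
  right_inv y := by
    show (u : ZMod p) * (((u⁻¹ : (ZMod p)ˣ) : ZMod p) * (y - b)) + b = y
    rw [Units.mul_inv_cancel_left, sub_add_cancel]

theorem affPerm_apply (u : (ZMod p)ˣ) (b x : ZMod p) : affPerm u b x = (u : ZMod p) * x + b := rfl

theorem affPerm_mem (u : (ZMod p)ˣ) (b : ZMod p) : affPerm u b ∈ Cfsg.affineGroup (ZMod p) :=
  ⟨u, b, fun _ => rfl⟩


/-- Closures of subgroups of the one-dimensional affine group. Let p be a prime and G a group of permutations of F_p lying in the affine group AGL₁(p) = {x ↦ ax + b, a ≠ 0} and containing all translations. (1) If G is a proper subgroup of AGL₁(p), then G is 2-closed: a permutation of F_p agreeing on every ordered pair of points with some element of G lies in G. (2) Every permutation of F_p agrees on every ordered pair with some element of AGL₁(p) (the 2-closure of AGL₁(p) is the symmetric group). (3) AGL₁(p) is 3-closed: a permutation agreeing on every ordered triple with some affine map is affine. -/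
theorem result (p : ℕ) [Fact p.Prime] (G : Subgroup (Equiv.Perm (ZMod p))) (hG : G ≤ Cfsg.affineGroup (ZMod p))
    (htrans : ∀ b : ZMod p, ∃ g ∈ G, ∀ x, g x = x + b) :
    (G ≠ Cfsg.affineGroup (ZMod p) → ∀ σ : Equiv.Perm (ZMod p), (∀ t : Fin 2 → ZMod p, ∃ g ∈ G, ∀ i, σ (t i) = g (t i)) → σ ∈ G) ∧
    (∀ σ : Equiv.Perm (ZMod p), (∀ t : Fin 2 → ZMod p, ∃ g ∈ Cfsg.affineGroup (ZMod p), ∀ i, σ (t i) = g (t i))) ∧
    (∀ σ : Equiv.Perm (ZMod p), (∀ t : Fin 3 → ZMod p, ∃ g ∈ Cfsg.affineGroup (ZMod p), ∀ i, σ (t i) = g (t i)) → σ ∈ Cfsg.affineGroup (ZMod p)) := by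
  classical
  have h01 : (0 : ZMod p) ≠ 1 := zero_ne_one
  refine ⟨?_, ?_, ?_⟩
  · -- part (1)
    intro hne σ hσ
    -- translations in `G`
    have htr : ∀ b : ZMod p, affPerm 1 b ∈ G := by
      intro b
      obtain ⟨g, hg, hgb⟩ := htrans b
      convert hg using 1
      ext x
      rw [hgb x, affPerm_apply]
      simp
    have hsplit : ∀ g ∈ G, ∃ u : (ZMod p)ˣ, ∃ b : ZMod p, (∀ x, g x = (u : ZMod p) * x + b) ∧ affPerm u 0 ∈ G := by
      intro g hg
      obtain ⟨u, b, h⟩ := hG hg
      refine ⟨u, b, h, ?_⟩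
      have h1 : affPerm 1 (-b) * g ∈ G := G.mul_mem (htr _) hg
      convert h1 using 1
      ext x
      simp [affPerm_apply, h]
    -- the multiplier group is proper
    let A : Subgroup (ZMod p)ˣ :=
      { carrier := {u | affPerm u 0 ∈ G}
        one_mem' := by
          have := htr 0
          exact this
        mul_mem' := by
          intro a b ha hb
          have h1 : affPerm a 0 * affPerm b 0 ∈ G := G.mul_mem ha hb
          have e : affPerm (a * b) 0 = affPerm a 0 * affPerm b 0 :=
            Equiv.ext fun x => by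
              simp only [Equiv.Perm.coe_mul, Function.comp_apply, affPerm_apply, Units.val_mul, add_zero, mul_assoc]
          show affPerm (a * b) 0 ∈ G
          rw [e]
          exact h1
        inv_mem' := by
          intro a ha
          have h1 : (affPerm a 0)⁻¹ ∈ G := G.inv_mem ha
          have e : affPerm a⁻¹ 0 = (affPerm a 0)⁻¹ := by
            rw [eq_inv_iff_mul_eq_one]
            refine Equiv.ext fun x => ?_
            simp only [Equiv.Perm.coe_mul, Function.comp_apply, affPerm_apply, add_zero, Equiv.Perm.coe_one, id_eq]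
            rw [Units.inv_mul_cancel_left]
          show affPerm a⁻¹ 0 ∈ G
          rw [e]
          exact h1 }
    have hAne : A ≠ ⊤ := by
      intro hA
      apply hne
      apply le_antisymm hG
      rintro τ ⟨u, b, h⟩
      have h1 : u ∈ A := by rw [hA]; trivial
      have h2 : affPerm 1 b * affPerm u 0 ∈ G := G.mul_mem (htr b) h1
      convert h2 using 1
      ext x
      simp [affPerm_apply, h]
    haveI : Fintype A := Fintype.ofFinite _
    let D : Finset (ZMod p) := Finset.univ.image (fun u : A => ((u : (ZMod p)ˣ) : ZMod p))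
    have hmem : ∀ a : ZMod p, a ∈ D ↔ ∃ u ∈ A, (u : ZMod p) = a := by
      intro a
      constructor
      · intro h
        obtain ⟨u, _, rfl⟩ := Finset.mem_image.1 h
        exact ⟨u, u.2, rfl⟩
      · rintro ⟨u, hu, rfl⟩
        exact Finset.mem_image.2 ⟨⟨u, hu⟩, Finset.mem_univ _, rfl⟩
    have hDcard : 2 * D.card ≤ p := by
      have h1 : D.card ≤ Nat.card A := by
        rw [Nat.card_eq_fintype_card]
        exact Finset.card_image_le
      have h2 : Nat.card A * A.index = p - 1 := by
        rw [Subgroup.card_mul_index, Nat.card_eq_fintype_card, ZMod.card_units]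
      have h3 : A.index ≠ 1 := by
        intro h
        exact hAne (Subgroup.index_eq_one.1 h)
      have h4 : A.index ≠ 0 := by
        intro h
        rw [h, mul_zero] at h2
        have := (Fact.out : p.Prime).two_le
        omega
      have h5 : 2 ≤ A.index := by omega
      have h6 : Nat.card A * 2 ≤ Nat.card A * A.index := Nat.mul_le_mul_left _ h5
      omega
    -- slopes
    have hslope : ∀ x y, x ≠ y → (σ y - σ x) / (y - x) ∈ D := by
      intro x y hxy
      obtain ⟨g, hg, hag⟩ := hσ ![x, y]
      have hx := hag 0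
      have hy := hag 1
      simp only [Matrix.cons_val_zero, Matrix.cons_val_one] at hx hy
      obtain ⟨u, b, hu, hu0⟩ := hsplit g hg
      have hxy' : y - x ≠ 0 := sub_ne_zero.2 (Ne.symm hxy)
      have : (σ y - σ x) / (y - x) = (u : ZMod p) := by
        rw [div_eq_iff hxy', hx, hy, hu, hu]
        ring
      rw [this]
      exact (hmem _).2 ⟨u, hu0, rfl⟩
    obtain ⟨a, b, hab⟩ := Cfsg.Agent.H16.affine_of_few_slopes (fun x => σ x) D hslope hDcard
    have ha : a ∈ D := by
      have h1 := hslope 0 1 h01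
      have h2 : (σ 1 - σ 0) / (1 - 0) = a := by
        rw [hab, hab]
        simp
      rwa [h2] at h1
    obtain ⟨u, hu, rfl⟩ := (hmem a).1 ha
    have h2 : affPerm 1 b * affPerm u 0 ∈ G := G.mul_mem (htr b) hu
    convert h2 using 1
    ext x
    simp [affPerm_apply, hab]
  · -- part (2)
    intro σ t
    by_cases h : t 0 = t 1
    · refine ⟨affPerm 1 (σ (t 0) - t 0), affPerm_mem _ _, fun i => ?_⟩
      fin_cases i
      · simp [affPerm_apply]
      · simp [affPerm_apply, ← h]
    · have hd : t 1 - t 0 ≠ 0 := sub_ne_zero.2 (Ne.symm h)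
      have hd2 : σ (t 1) - σ (t 0) ≠ 0 := sub_ne_zero.2 (fun h' => h (σ.injective h').symm)
      let u : (ZMod p)ˣ := Units.mk0 ((σ (t 1) - σ (t 0)) / (t 1 - t 0)) (div_ne_zero hd2 hd)
      refine ⟨affPerm u (σ (t 0) - (u : ZMod p) * t 0), affPerm_mem _ _, fun i => ?_⟩
      have hu : (u : ZMod p) * (t 1 - t 0) = σ (t 1) - σ (t 0) := by
        simp [u, div_mul_cancel₀ _ hd]
      fin_cases i
      · simp [affPerm_apply]
      · simp only [affPerm_apply, Fin.mk_one, Fin.isValue]
        linear_combination -hu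
  · -- part (3)
    intro σ hσ
    have hd2 : σ 1 - σ 0 ≠ 0 := sub_ne_zero.2 (fun h' => h01 (σ.injective h').symm)
    let u : (ZMod p)ˣ := Units.mk0 (σ 1 - σ 0) hd2
    refine ⟨u, σ 0, fun x => ?_⟩
    obtain ⟨g, ⟨v, b, hg⟩, hag⟩ := hσ ![0, 1, x]
    have h0 := hag 0
    have h1 := hag 1
    have h2 := hag 2
    simp only [Matrix.cons_val_zero, Matrix.cons_val_one, Matrix.cons_val] at h0 h1 h2
    rw [hg] at h0 h1 h2
    show σ x = (σ 1 - σ 0) * x + σ 0
    rw [h0, h1, h2]
    ring

end Cfsg.Agent.S3518
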