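import Cfsg.Statements.S3532
import Cfsg.Agent.Lib.H11.SL2T2
import Mathlib

set_option autoImplicit false
set_option linter.style.haveILetI false
set_option linter.unusedVariables false
set_option linter.unusedSectionVars false
open Cfsg

namespace Cfsg.Agent.S3532

section frob

variable {K : Type} [Field K] [Fintype K]

/-- Multiplication by a unit. -/
def actE (c : Kˣ) : MulAut (Multiplicative K) where
  toFun k := Multiplicative.ofAdd ((c : K) * Multiplicative.toAdd k)
  invFun k := Multiplicative.ofAdd (((c⁻¹ : Kˣ) : K) * Multiplicative.toAdd k)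
  left_inv k := by simp
  right_inv k := by simp
  map_mul' a b := by
    apply Multiplicative.toAdd.injective
    simp [mul_add]

/-- The scalar action of a subgroup of units on the additive group. -/
def act (C : Subgroup Kˣ) : C →* MulAut (Multiplicative K) where
  toFun c := actE (c : Kˣ)
  map_one' := by
    ext k
    apply Multiplicative.toAdd.injective
    simp [actE]
  map_mul' a b := by
    ext k
    apply Multiplicative.toAdd.injective
    simp [actE, mul_assoc]

/-- The Frobenius-like group `K ⋊ C`. -/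
abbrev FG (C : Subgroup Kˣ) : Type := SemidirectProduct (Multiplicative K) C (act C)

theorem act_apply (C : Subgroup Kˣ) (c : C) (k : Multiplicative K) :
    act C c k = Multiplicative.ofAdd (((c : Kˣ) : K) * Multiplicative.toAdd k) := rfl

instance finFG (C : Subgroup Kˣ) : Finite (FG C) :=
  Finite.of_equiv _ SemidirectProduct.equivProd.symm

theorem solvFG (C : Subgroup Kˣ) : Group.IsSolvable (FG C) := by
  have h : (SemidirectProduct.rightHom (φ := act C)).ker ≤ (SemidirectProduct.inl (φ := act C)).range := by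
    rw [SemidirectProduct.range_inl_eq_ker_rightHom]
  exact Group.isSolvable_of_ker_le_range _ _ h

theorem conj_form (C : Subgroup Kˣ) (g : FG C) (hc : g.right ≠ 1) :
    ∃ t : Multiplicative K, g = SemidirectProduct.inl t * SemidirectProduct.inr g.right *
      (SemidirectProduct.inl t)⁻¹ := by
  set c : C := g.right with hcdef
  have hc' : (1 - ((c : Kˣ) : K)) ≠ 0 := by
    intro h
    apply hc
    have : ((c : Kˣ) : K) = 1 := by linear_combination -h
    exact Subtype.ext (Units.ext this)
  refine ⟨Multiplicative.ofAdd (Multiplicative.toAdd g.left / (1 - ((c : Kˣ) : K))), ?_⟩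
  refine SemidirectProduct.ext ?_ ?_
  · simp only [SemidirectProduct.mul_left, SemidirectProduct.left_inl, SemidirectProduct.left_inr,
      SemidirectProduct.inv_left, SemidirectProduct.right_inl, SemidirectProduct.mul_right,
      SemidirectProduct.right_inr, map_one, MulAut.one_apply, mul_one, one_mul, inv_one]
    rw [act_apply]
    apply Multiplicative.toAdd.injective
    simp only [toAdd_mul, toAdd_ofAdd, toAdd_inv]
    field_simp
    ring
  · simp [hcdef]

theorem order_dvd (p : ℕ) [CharP K p] (C : Subgroup Kˣ) (x : Kˣ) (hC : C = Subgroup.zpowers x)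
    (g : FG C) : orderOf g ∣ p ∨ orderOf g ∣ orderOf x := by
  by_cases hc : g.right = 1
  · left
    apply orderOf_dvd_of_pow_eq_one
    have : g = SemidirectProduct.inl g.left := by
      refine SemidirectProduct.ext rfl ?_
      simp [hc]
    rw [this, ← map_pow]
    have h1 : g.left ^ p = 1 := by
      apply Multiplicative.toAdd.injective
      simp
    rw [h1, map_one]
  · right
    obtain ⟨t, ht⟩ := conj_form C g hc
    apply orderOf_dvd_of_pow_eq_one
    have hcp : g.right ^ orderOf x = 1 := by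
      have hm : (g.right : Kˣ) ∈ Subgroup.zpowers x := hC ▸ g.right.2
      obtain ⟨n, hn⟩ := hm
      apply Subtype.ext
      rw [Subgroup.coe_pow, Subgroup.coe_one, ← hn, ← zpow_natCast, ← zpow_mul, mul_comm, zpow_mul,
        zpow_natCast, pow_orderOf_eq_one, one_zpow]
    rw [ht, conj_pow, ← map_pow, hcp, map_one, mul_one, mul_inv_cancel]

theorem order_left (p : ℕ) [Fact p.Prime] [CharP K p] (C : Subgroup Kˣ) :
    orderOf (SemidirectProduct.inl (φ := act C) (Multiplicative.ofAdd (1 : K))) = p := by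
  rw [orderOf_injective _ SemidirectProduct.inl_injective, orderOf_ofAdd_eq_addOrderOf]
  exact CharP.eq K (CharP.addOrderOf_one K) inferInstance

theorem spec_FG (p : ℕ) [Fact p.Prime] [CharP K p] (x : Kˣ) :
    Set.range (orderOf : FG (Subgroup.zpowers x) → ℕ) = {m : ℕ | m ∣ p ∨ m ∣ orderOf x} := by
  have hp : p.Prime := Fact.out
  ext m
  constructor
  · rintro ⟨g, rfl⟩
    exact order_dvd p _ x rfl g
  · rintro (h | h)
    · rcases (Nat.dvd_prime hp).1 h with rfl | rfl
      · exact ⟨1, orderOf_one⟩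
      · exact ⟨_, order_left m _⟩
    · have hx : orderOf x ≠ 0 := (orderOf_pos x).ne'
      refine ⟨SemidirectProduct.inr ⟨x ^ (orderOf x / m), ?_⟩, ?_⟩
      · exact Subgroup.pow_mem _ (Subgroup.mem_zpowers x) _
      · rw [orderOf_injective _ SemidirectProduct.inr_injective, Subgroup.orderOf_mk]
        exact orderOf_pow_orderOf_div hx h

end frob

/-- The set of orders in a direct product. -/
theorem range_prod {A B : Type*} [Group A] [Group B] :
    Set.range (orderOf : A × B → ℕ) =
      {m | ∃ u ∈ Set.range (orderOf : A → ℕ), ∃ v ∈ Set.range (orderOf : B → ℕ), m = Nat.lcm u v} := by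
  ext m
  constructor
  · rintro ⟨g, rfl⟩
    exact ⟨_, ⟨g.1, rfl⟩, _, ⟨g.2, rfl⟩, Prod.orderOf g⟩
  · rintro ⟨_, ⟨a, rfl⟩, _, ⟨b, rfl⟩, rfl⟩
    exact ⟨(a, b), Prod.orderOf _⟩

theorem sets_eq (p a b : ℕ) :
    {m | ∃ u ∈ {m : ℕ | m ∣ p ∨ m ∣ a}, ∃ v ∈ {m : ℕ | m ∣ p ∨ m ∣ b}, m = Nat.lcm u v} =
    {m | ∃ u ∈ {m : ℕ | m ∣ p ∨ m ∣ a ∨ m ∣ b}, ∃ v ∈ {m : ℕ | m ∣ p ∨ m ∣ a ∨ m ∣ b}, m = Nat.lcm u v} := by
  ext m
  constructor
  · rintro ⟨u, hu, v, hv, rfl⟩
    refine ⟨u, ?_, v, ?_, rfl⟩
    · rcases hu with h | h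
      · exact Or.inl h
      · exact Or.inr (Or.inl h)
    · rcases hv with h | h
      · exact Or.inl h
      · exact Or.inr (Or.inr h)
  · rintro ⟨u, hu, v, hv, rfl⟩
    rcases hu with hu | hu | hu <;> rcases hv with hv | hv | hv
    · exact ⟨u, Or.inl hu, v, Or.inl hv, rfl⟩
    · exact ⟨v, Or.inr hv, u, Or.inl hu, Nat.lcm_comm _ _⟩
    · exact ⟨u, Or.inl hu, v, Or.inr hv, rfl⟩
    · exact ⟨u, Or.inr hu, v, Or.inl hv, rfl⟩
    · exact ⟨Nat.lcm u v, Or.inr (Nat.lcm_dvd hu hv), 1, Or.inr (one_dvd _), by simp⟩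
    · exact ⟨u, Or.inr hu, v, Or.inr hv, rfl⟩
    · exact ⟨v, Or.inl hv, u, Or.inr hu, Nat.lcm_comm _ _⟩
    · exact ⟨v, Or.inr hv, u, Or.inr hu, Nat.lcm_comm _ _⟩
    · exact ⟨1, Or.inr (one_dvd _), Nat.lcm u v, Or.inr (Nat.lcm_dvd hu hv), by simp⟩

/-- Let q ≥ 4 be a prime power and L = PSL(2,q). There is a finite solvable group with the same set of element orders as L × L (so L × L is not determined by its spectrum). -/
theorem result {F : Type*} [Field F] [Fintype F] (hF : 4 ≤ Fintype.card F) :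
    ∃ (H : Type) (_ : Group H) (_ : Finite H), Group.IsSolvable H ∧
      Set.range (orderOf : H → ℕ) = Set.range (orderOf : Matrix.ProjectiveSpecialLinearGroup (Fin 2) F × Matrix.ProjectiveSpecialLinearGroup (Fin 2) F → ℕ) := by
  classical
  obtain ⟨p, hchar⟩ := CharP.exists F
  obtain ⟨n, hp, hq⟩ := FiniteField.card F p
  haveI : Fact p.Prime := ⟨hp⟩
  set q := Fintype.card F with hqdef
  set d := Nat.gcd 2 (q - 1) with hd
  have hspec := Cfsg.Agent.H11.SL2T.orders_psl2 (F := F) p hF
  -- the two fields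
  let K1 := GaloisField p n
  let K2 := GaloisField p (2 * n)
  haveI : Fintype K1 := Fintype.ofFinite _
  haveI : Fintype K2 := Fintype.ofFinite _
  have c1 : Nat.card K1 = q := by
    rw [hq]; exact GaloisField.card p n n.ne_zero
  have c2 : Nat.card K2 = q ^ 2 := by
    rw [hq, ← pow_mul, mul_comm]
    exact GaloisField.card p (2 * n) (by positivity)
  have hd1 : d ∣ q - 1 := Nat.gcd_dvd_right _ _
  have hd2 : d ∣ q + 1 := by
    have h2 : d ∣ 2 := Nat.gcd_dvd_left _ _
    have : q + 1 = (q - 1) + 2 := by omega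
    rw [this]
    exact dvd_add hd1 h2
  have ua : (q - 1) / d ∣ Nat.card K1ˣ := by
    rw [Nat.card_units, c1]
    exact Nat.div_dvd_of_dvd hd1
  have ub : (q + 1) / d ∣ Nat.card K2ˣ := by
    rw [Nat.card_units, c2]
    have : q ^ 2 - 1 = (q - 1) * (q + 1) := by
      have h1 : 1 ≤ q := by omega
      obtain ⟨k, hk⟩ : ∃ k, q = k + 1 := ⟨q - 1, by omega⟩
      rw [hk]
      simp only [Nat.add_sub_cancel]
      have : (k + 1) ^ 2 = k * (k + 1 + 1) + 1 := by ring
      omega
    rw [this]
    exact Dvd.dvd.mul_left (Nat.div_dvd_of_dvd hd2) _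
  obtain ⟨x1, hx1⟩ := Cfsg.Agent.H11.SL2T.exists_pow_order ua
  obtain ⟨x2, hx2⟩ := Cfsg.Agent.H11.SL2T.exists_pow_order ub
  haveI : CharP K1 p := inferInstance
  haveI : CharP K2 p := inferInstance
  refine ⟨FG (Subgroup.zpowers x1) × FG (Subgroup.zpowers x2), inferInstance, inferInstance, ?_, ?_⟩
  · haveI := solvFG (Subgroup.zpowers x1)
    haveI := solvFG (Subgroup.zpowers x2)
    infer_instance
  · rw [range_prod, range_prod, hspec, spec_FG p, spec_FG p, hx1, hx2]
    exact sets_eq p _ _

end Cfsg.Agent.S3532
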