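import Cfsg.Statements.S3547
import Cfsg.Agent.Lib.H17.Derangement

set_option autoImplicit false
set_option linter.style.haveILetI false
open Cfsg

namespace Cfsg.Agent.S3547

open MulAction

lemma card_fixedBy_prod {G Ω : Type*} [Group G] [MulAction G Ω] (g : G) :
    Nat.card (fixedBy (Ω × Ω) g) = Nat.card (fixedBy Ω g) * Nat.card (fixedBy Ω g) := by
  rw [← Nat.card_prod]
  apply Nat.card_congr
  refine ⟨fun p => ⟨⟨p.1.1, ?_⟩, ⟨p.1.2, ?_⟩⟩, fun q => ⟨(q.1.1, q.2.1), ?_⟩, ?_, ?_⟩
  · have h := p.2
    exact congrArg Prod.fst h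
  · have h := p.2
    exact congrArg Prod.snd h
  · exact Prod.ext q.1.2 q.2.2
  · intro p; rfl
  · intro q; rfl

/-- Let G act faithfully and transitively on a finite set Ω, let D be the subgroup generated by the derangements, and let r_G and r_D be the numbers of orbits of G and of D on ordered pairs of points (the permutation ranks). Then r_D − 1 = (r_G − 1)·[G : D]. -/
theorem result {G Ω : Type*} [Group G] [Finite G] [MulAction G Ω] [FaithfulSMul G Ω] [Finite Ω]
    (htrans : MulAction.IsPretransitive G Ω) :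
    Nat.card (MulAction.orbitRel.Quotient ↥(Subgroup.closure {g : G | ∀ ω : Ω, g • ω ≠ ω}) (Ω × Ω)) - 1 =
      (Nat.card (MulAction.orbitRel.Quotient G (Ω × Ω)) - 1) * (Subgroup.closure {g : G | ∀ ω : Ω, g • ω ≠ ω}).index := by
  classical
  haveI := Fintype.ofFinite G
  set D := H17.derSub G Ω with hD
  change Nat.card (MulAction.orbitRel.Quotient ↥D (Ω × Ω)) - 1 =
      (Nat.card (MulAction.orbitRel.Quotient G (Ω × Ω)) - 1) * D.index
  haveI : Fintype D := Fintype.ofFinite _
  rcases isEmpty_or_nonempty Ω with hΩ | hΩ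
  · have h1 : IsEmpty (orbitRel.Quotient G (Ω × Ω)) := by
      constructor
      intro q
      induction q using Quotient.inductionOn with
      | h p => exact hΩ.elim p.1
    have h2 : IsEmpty (orbitRel.Quotient D (Ω × Ω)) := by
      constructor
      intro q
      induction q using Quotient.inductionOn with
      | h p => exact hΩ.elim p.1
    simp
  have hG := H17.burnside_sum (G := G) (X := Ω × Ω)
  have hDb := H17.burnside_sum (G := D) (X := Ω × Ω)
  set rG := Nat.card (orbitRel.Quotient G (Ω × Ω)) with hrG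
  set rD := Nat.card (orbitRel.Quotient D (Ω × Ω)) with hrD
  have hrG1 : 1 ≤ rG := by
    obtain ⟨x⟩ := hΩ
    haveI : Nonempty (orbitRel.Quotient G (Ω × Ω)) := ⟨Quotient.mk _ (x, x)⟩
    exact Nat.card_pos
  -- split the sum
  have hsplit : ∑ g : G, Nat.card (fixedBy (Ω × Ω) g) =
      ∑ d : D, Nat.card (fixedBy (Ω × Ω) d) + (Nat.card G - Nat.card D) := by
    have h1 : ∑ g : G, Nat.card (fixedBy (Ω × Ω) g) =
        ∑ g ∈ Finset.univ.filter (fun g : G => g ∈ D), Nat.card (fixedBy (Ω × Ω) g) +
        ∑ g ∈ Finset.univ.filter (fun g : G => g ∉ D), Nat.card (fixedBy (Ω × Ω) g) :=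
      (Finset.sum_filter_add_sum_filter_not _ _ _).symm
    have h2 : ∑ g ∈ Finset.univ.filter (fun g : G => g ∉ D), Nat.card (fixedBy (Ω × Ω) g) =
        Nat.card G - Nat.card D := by
      have h3 : ∀ g ∈ Finset.univ.filter (fun g : G => g ∉ D), Nat.card (fixedBy (Ω × Ω) g) = 1 := by
        intro g hg
        rw [card_fixedBy_prod, H17.card_fixedBy_eq_one (Finset.mem_filter.mp hg).2]
      rw [Finset.sum_congr rfl h3, Finset.sum_const, smul_eq_mul, mul_one]
      have h4 : (Finset.univ.filter (fun g : G => g ∈ D)).card + (Finset.univ.filter (fun g : G => g ∉ D)).card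
          = Fintype.card G := Finset.card_filter_add_card_filter_not _
      have h5 : (Finset.univ.filter (fun g : G => g ∈ D)).card = Nat.card D := by
        rw [Nat.card_eq_fintype_card, Fintype.card_subtype]
      rw [Nat.card_eq_fintype_card (α := G)]
      omega
    have h6 : ∑ g ∈ Finset.univ.filter (fun g : G => g ∈ D), Nat.card (fixedBy (Ω × Ω) g) =
        ∑ d : D, Nat.card (fixedBy (Ω × Ω) d) := by
      refine Finset.sum_bij' (fun g hg => ⟨g, (Finset.mem_filter.mp hg).2⟩) (fun d _ => (d : G)) ?_ ?_ ?_ ?_ ?_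
      · intro g hg; exact Finset.mem_univ _
      · intro d _; exact Finset.mem_filter.mpr ⟨Finset.mem_univ _, d.2⟩
      · intro g hg; rfl
      · intro d _; rfl
      · intro g hg; rfl
    rw [h1, h2, h6]
  have hcard : Nat.card G = D.index * Nat.card D := (Subgroup.index_mul_card D).symm
  set m := D.index with hm
  have hDpos : 0 < Nat.card D := Nat.card_pos
  have hmpos : 0 < m := Nat.pos_of_ne_zero Subgroup.index_ne_zero_of_finite
  rw [hsplit, hDb] at hG
  -- hG : rD * |D| + (|G| - |D|) = rG * |G|
  have hle : Nat.card D ≤ Nat.card G := by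
    rw [hcard]
    exact Nat.le_mul_of_pos_left _ hmpos
  have h7 : rD * Nat.card D + Nat.card G = rG * Nat.card G + Nat.card D := by omega
  rw [hcard] at h7
  have h8 : (rD + m) * Nat.card D = (rG * m + 1) * Nat.card D := by
    nlinarith
  have h9 : rD + m = rG * m + 1 := Nat.eq_of_mul_eq_mul_right hDpos h8
  rw [Nat.sub_mul, one_mul]
  omega

end Cfsg.Agent.S3547
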