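import Cfsg.Statements.S3549
import Cfsg.Agent.Lib.H17.DerangementIndex

set_option autoImplicit false
open Cfsg

namespace Cfsg.Agent.S3549

/-- Let G act faithfully, transitively but imprimitively on a finite set with n points, and let D be the subgroup generated by the derangements. Then the index of D in G is at most √n − 1. -/
theorem result {G Ω : Type*} [Group G] [Finite G] [MulAction G Ω] [FaithfulSMul G Ω] [Finite Ω]
    (htrans : MulAction.IsPretransitive G Ω) (himp : ¬ MulAction.IsPreprimitive G Ω) :
    ((Subgroup.closure {g : G | ∀ ω : Ω, g • ω ≠ ω}).index : ℝ) ≤ Real.sqrt (Nat.card Ω) - 1 := by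
  obtain ⟨B, hB, hBt⟩ : ∃ B : Set Ω, MulAction.IsBlock G B ∧ ¬ MulAction.IsTrivialBlock B := by
    by_contra hcon
    push Not at hcon
    exact himp { toIsPretransitive := htrans, isTrivialBlock_of_isBlock := fun {B} hB => hcon B hB }
  have hsub : ¬ B.Subsingleton := fun h => hBt (Or.inl h)
  have huniv : B ≠ Set.univ := fun h => hBt (Or.inr h)
  have hb := H17.index_bound_of_block B hB hsub huniv
  have hb' : (((Subgroup.closure {g : G | ∀ ω : Ω, g • ω ≠ ω}).index : ℝ) + 1) ^ 2 ≤ (Nat.card Ω : ℝ) := by
    exact_mod_cast hb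
  have := Real.le_sqrt_of_sq_le hb'
  linarith

end Cfsg.Agent.S3549
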