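import Cfsg.Statements.S3559
import Cfsg.Agent.Lib.H16.ExtPrim
import Mathlib

/-!
Schur's theorem for cyclic regular subgroups of non prime power order.
-/

set_option autoImplicit false
set_option linter.style.haveILetI false
open Cfsg

namespace Cfsg.Agent.S3559

open MulAction

section setup

variable {G Ω A : Type*} [Group G] [MulAction G Ω] [CommGroup A] (i : A →* G) (ω : Ω)

/-- `H`-invariant subsets of the regular group. -/
def Inv (T : Set A) : Prop :=
  ∀ h : G, h • ω = ω → ∀ t ∈ T, ∀ t' : A, h • (i t • ω) = i t' • ω → t' ∈ T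

/-- `H`-invariant functions on the regular group. -/
def IsI {X : Type*} (f : A → X) : Prop :=
  ∀ h : G, h • ω = ω → ∀ x x' : A, h • (i x • ω) = i x' • ω → f x' = f x

variable (hreg : ∀ β : Ω, ∃ a : A, i a • ω = β) (hinj : ∀ a b : A, i a • ω = i b • ω → a = b)

include hreg in
lemma exists_comm {h : G} (hh : h • ω = ω) (a : A) :
    ∃ a' : A, ∃ h' : G, h' • ω = ω ∧ h * i a = i a' * h' := by
  obtain ⟨a', ha'⟩ := hreg (h • (i a • ω))
  refine ⟨a', (i a')⁻¹ * (h * i a), ?_, by group⟩
  rw [mul_smul, mul_smul, ← ha', inv_smul_smul]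

/-- the relation attached to a subset -/
def rel (T : Set A) (α β : Ω) : Prop :=
  ∃ a b : A, α = i a • ω ∧ β = i b • ω ∧ a⁻¹ * b ∈ T

include hreg in
lemma rel_smul {T : Set A} (hT : Inv i ω T) (g : G) {α β : Ω} (h : rel i ω T α β) :
    rel i ω T (g • α) (g • β) := by
  obtain ⟨a, b, rfl, rfl, hab⟩ := h
  obtain ⟨a', ha'⟩ := hreg (g • (i a • ω))
  obtain ⟨b', hb'⟩ := hreg (g • (i b • ω))
  refine ⟨a', b', ha'.symm, hb'.symm, ?_⟩
  apply hT ((i a')⁻¹ * (g * i a)) _ _ hab
  · have e1 : i a • i (a⁻¹ * b) • ω = i b • ω := by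
      rw [← mul_smul, ← map_mul, mul_inv_cancel_left]
    rw [mul_smul, mul_smul, e1, ← hb', map_mul, map_inv, mul_smul]
  · rw [mul_smul, mul_smul, ← ha', inv_smul_smul]

include hinj in
lemma eq_one_of_fix {a : A} (h : i a • ω = ω) : a = 1 := by
  apply hinj
  rw [h, map_one, one_smul]

/-- The relation of the submonoid generated by an invariant set. -/
theorem closure_inv {S : Set A} (hS : Inv i ω S) (hreg : ∀ β : Ω, ∃ a : A, i a • ω = β)
    (hinj : ∀ a b : A, i a • ω = i b • ω → a = b) :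
    Inv i ω (Submonoid.closure S : Set A) := by
  intro h hh t ht
  revert h hh
  induction ht using Submonoid.closure_induction with
  | mem x hx =>
    intro h hh t' ht'
    exact Submonoid.subset_closure (hS h hh x hx t' ht')
  | one =>
    intro h hh t' ht'
    rw [map_one, one_smul, hh] at ht'
    have : t' = 1 := eq_one_of_fix i ω hinj ht'.symm
    rw [this]
    exact one_mem _
  | mul x y _ _ hx hy =>
    intro h hh t' ht'
    obtain ⟨a', h', hh', e⟩ := exists_comm i ω hreg hh x
    have ha' : a' ∈ (Submonoid.closure S : Set A) := by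
      apply hx h hh a'
      rw [← mul_smul, e, mul_smul, hh']
    obtain ⟨b', hb'⟩ := hreg (h' • (i y • ω))
    have hb'' : b' ∈ (Submonoid.closure S : Set A) := hy h' hh' b' hb'.symm
    have h1 : t' = a' * b' := by
      apply hinj
      rw [← ht', map_mul, mul_smul, ← mul_smul, e, map_mul, mul_smul, mul_smul, hb']
    rw [h1]
    exact mul_mem ha' hb''

variable [Finite A]

include hreg hinj in
/-- dichotomy -/
theorem closure_dichotomy [IsPreprimitive G Ω] {S : Set A} (hS : Inv i ω S) :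
    (∀ a, a ∈ Submonoid.closure S) ∨ (∀ a ∈ Submonoid.closure S, a = 1) := by
  set M := Submonoid.closure S with hM
  have hMinv : Inv i ω (M : Set A) := closure_inv i ω hS hreg hinj
  have hinvM : ∀ z ∈ M, z⁻¹ ∈ M := by
    intro z hz
    have h1 : z⁻¹ = z ^ (orderOf z - 1) := by
      rw [inv_eq_iff_mul_eq_one, ← pow_succ', Nat.sub_add_cancel (orderOf_pos z)]
      exact pow_orderOf_eq_one z
    rw [h1]
    exact pow_mem hz _
  have hequiv : Equivalence (rel i ω (M : Set A)) := by
    refine ⟨?_, ?_, ?_⟩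
    · intro α
      obtain ⟨a, rfl⟩ := hreg α
      refine ⟨a, a, rfl, rfl, ?_⟩
      rw [inv_mul_cancel]
      exact one_mem M
    · rintro _ _ ⟨a, b, rfl, rfl, h⟩
      refine ⟨b, a, rfl, rfl, ?_⟩
      have := hinvM _ h
      have h2 : (a⁻¹ * b)⁻¹ = b⁻¹ * a := by group
      rwa [h2] at this
    · rintro _ _ _ ⟨a, b, rfl, hb, h⟩ ⟨b', c, hb', rfl, h'⟩
      have h3 : b = b' := hinj _ _ (hb.symm.trans hb')
      subst h3
      refine ⟨a, c, rfl, rfl, ?_⟩
      have := mul_mem h h'
      have h2 : a⁻¹ * b * (b⁻¹ * c) = a⁻¹ * c := by group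
      rwa [h2] at this
  by_cases hall : ∀ a ∈ M, a = 1
  · exact Or.inr hall
  · left
    push Not at hall
    obtain ⟨a, ha, ha1⟩ := hall
    have hne : ω ≠ i a • ω := by
      intro h
      exact ha1 (eq_one_of_fix i ω hinj h.symm)
    have hr : rel i ω (M : Set A) ω (i a • ω) := by
      refine ⟨1, a, by simp, rfl, ?_⟩
      simpa using ha
    intro c
    obtain ⟨a₀, b₀, h₀, h₁, h₂⟩ := H16.prim_rel (G := G) (rel i ω (M : Set A)) hequiv
      (fun g x y hxy => rel_smul i ω hreg hMinv g hxy) hne hr (i c • ω)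
    have ha₀ : a₀ = 1 := eq_one_of_fix i ω hinj h₀.symm
    have hb₀ : c = b₀ := hinj _ _ h₁
    rw [ha₀, inv_one, one_mul, ← hb₀] at h₂
    exact h₂

include hreg hinj in
lemma isI_mul_aux {R : Type*} [CommRing R] [Finite A] {f g : A → R} (hf : IsI i ω f) (hg : IsI i ω g)
    [Fintype A] : IsI i ω (fun x => ∑ a : A, f a * g (a⁻¹ * x)) := by
  intro h hh x x' hxx
  choose X hX using hreg
  let σ : A → A := fun z => X (h • (i z • ω))
  have hσ : ∀ z, i (σ z) • ω = h • (i z • ω) := fun z => hX _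
  have hσinj : Function.Injective σ := by
    intro z z' hzz
    apply hinj
    have h1 := hσ z
    rw [hzz, hσ z'] at h1
    exact (MulAction.injective h h1).symm
  have hσbij : Function.Bijective σ := Finite.injective_iff_bijective.1 hσinj
  show ∑ a : A, f a * g (a⁻¹ * x') = ∑ a : A, f a * g (a⁻¹ * x)
  rw [← hσbij.sum_comp]
  apply Finset.sum_congr rfl
  intro z _
  congr 1
  · exact hf h hh z (σ z) (hσ z).symm
  · apply hg ((i (σ z))⁻¹ * (h * i z)) _ (z⁻¹ * x) ((σ z)⁻¹ * x')
    · have e1 : i z • i (z⁻¹ * x) • ω = i x • ω := by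
        rw [← mul_smul, ← map_mul, mul_inv_cancel_left]
      rw [mul_smul, mul_smul, e1, hxx, map_mul, map_inv, mul_smul]
    · rw [mul_smul, mul_smul, ← hσ z, inv_smul_smul]

end setup

section algebra

variable {A : Type*} [CommGroup A] [Fintype A]

open MonoidAlgebra

lemma coeff_mul_conv {R : Type*} [CommRing R] (x y : MonoidAlgebra R A) (m : A) :
    (x * y).coeff m = ∑ a : A, x.coeff a * y.coeff (a⁻¹ * m) := by
  classical
  rw [MonoidAlgebra.coeff_mul_antidiag x y m (Finset.univ.image fun a => (a, a⁻¹ * m))]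
  · rw [Finset.sum_image]
    intro a _ b _ h
    exact congrArg Prod.fst h
  · intro p
    simp only [Finset.mem_image, Finset.mem_univ, true_and]
    constructor
    · rintro ⟨a, rfl⟩
      simp
    · intro h
      refine ⟨p.1, ?_⟩
      ext
      · rfl
      · simp [← h]

lemma pow_sum_single (p : ℕ) [Fact p.Prime] (T : Finset A) :
    (∑ t ∈ T, MonoidAlgebra.single t (1 : ZMod p)) ^ p
      = ∑ t ∈ T, MonoidAlgebra.single (t ^ p) (1 : ZMod p) := by
  haveI : CharP (MonoidAlgebra (ZMod p) A) p :=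
    charP_of_injective_algebraMap (R := ZMod p) (algebraMap (ZMod p) _).injective p
  rw [sum_pow_char p]
  apply Finset.sum_congr rfl
  intro t _
  rw [MonoidAlgebra.single_pow, one_pow]

end algebra

section main

variable {G Ω A : Type*} [Group G] [MulAction G Ω] [CommGroup A] (i : A →* G) (ω : Ω)
  (hreg : ∀ β : Ω, ∃ a : A, i a • ω = β) (hinj : ∀ a b : A, i a • ω = i b • ω → a = b)
  [Fintype A] [DecidableEq A]

include hreg hinj in
lemma isI_coeff_mul {R : Type*} [CommRing R] {x y : MonoidAlgebra R A}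
    (hx : IsI i ω (fun m => x.coeff m)) (hy : IsI i ω (fun m => y.coeff m)) :
    IsI i ω (fun m => (x * y).coeff m) := by
  have := isI_mul_aux i ω hreg hinj hx hy
  simpa only [coeff_mul_conv] using this

include hinj in
lemma isI_coeff_one {R : Type*} [CommRing R] :
    IsI i ω (fun m => (1 : MonoidAlgebra R A).coeff m) := by
  intro h hh x x' hxx
  have key : x' = 1 ↔ x = 1 := by
    constructor
    · rintro rfl
      rw [map_one, one_smul] at hxx
      have : i x • ω = ω := by
        apply MulAction.injective h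
        show h • (i x • ω) = h • ω
        rw [hxx, hh]
      exact eq_one_of_fix i ω hinj this
    · rintro rfl
      rw [map_one, one_smul, hh] at hxx
      exact eq_one_of_fix i ω hinj hxx.symm
  simp only [MonoidAlgebra.one_def, MonoidAlgebra.coeff_single, Finsupp.single_apply, key,
    eq_comm (a := (1 : A))]

include hreg hinj in
lemma isI_coeff_pow {R : Type*} [CommRing R] {x : MonoidAlgebra R A}
    (hx : IsI i ω (fun m => x.coeff m)) (n : ℕ) :
    IsI i ω (fun m => (x ^ n).coeff m) := by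
  induction n with
  | zero => simpa using isI_coeff_one i ω hinj
  | succ n ih =>
    rw [pow_succ]
    exact isI_coeff_mul i ω hreg hinj ih hx

lemma coeff_sum_single {R : Type*} [CommRing R] (T : Finset A) (f : A → A) (m : A) :
    (∑ t ∈ T, MonoidAlgebra.single (f t) (1 : R)).coeff m
      = ((T.filter (fun t => f t = m)).card : R) := by
  rw [MonoidAlgebra.coeff_sum, Finset.card_filter, Finsupp.finset_sum_apply]
  push_cast
  apply Finset.sum_congr rfl
  intro t _
  simp [MonoidAlgebra.coeff_single, Finsupp.single_apply]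

lemma isI_indicator {R : Type*} [CommRing R] {T : Finset A} (hT : Inv i ω (T : Set A)) :
    IsI i ω (fun m => (∑ t ∈ T, MonoidAlgebra.single t (1 : R)).coeff m) := by
  intro h hh x x' hxx
  have key : x' ∈ T ↔ x ∈ T := by
    constructor
    · intro hx'
      have h1 : h⁻¹ • ω = ω := by rw [inv_smul_eq_iff, hh]
      have h2 : h⁻¹ • (i x' • ω) = i x • ω := by rw [← hxx, inv_smul_smul]
      exact hT h⁻¹ h1 x' hx' x h2
    · intro hx
      exact hT h hh x hx x' hxx
  have e := coeff_sum_single (R := R) T id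
  simp only [id] at e
  simp only [e, Finset.filter_eq', key]
  split_ifs <;> simp

variable [IsCyclic A]

include hreg hinj in
/-- The Schur "multiplier" lemma. -/
theorem coset_lemma [IsPreprimitive G Ω] {p : ℕ} [hp : Fact p.Prime] (hpd : p ∣ Fintype.card A)
    {T : Finset A} (hT : Inv i ω (T : Set A)) {y u : A} (hy : y ∈ T) (hy1 : y ^ p ≠ 1)
    (hu : u ^ p = 1) : y * u ∈ T := by
  classical
  set a : MonoidAlgebra (ZMod p) A := ∑ t ∈ T, MonoidAlgebra.single t (1 : ZMod p) with ha
  have hIa : IsI i ω (fun m => a.coeff m) := isI_indicator i ω hT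
  have hIap : IsI i ω (fun m => (a ^ p).coeff m) := isI_coeff_pow i ω hreg hinj hIa p
  set S : Set A := {x | (a ^ p).coeff x ≠ 0} with hS
  have hSinv : Inv i ω S := by
    intro h hh t ht t' ht'
    show (a ^ p).coeff t' ≠ 0
    have e : (a ^ p).coeff t' = (a ^ p).coeff t := hIap h hh t t' ht'
    rw [e]
    exact ht
  have hap : a ^ p = ∑ t ∈ T, MonoidAlgebra.single (t ^ p) (1 : ZMod p) := pow_sum_single p T
  have hcoef : ∀ m, (a ^ p).coeff m = ((T.filter (fun t => t ^ p = m)).card : ZMod p) := by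
    intro m
    rw [hap]
    exact coeff_sum_single T (fun t => t ^ p) m
  -- `S` is contained in the `p`-th powers
  obtain ⟨u₀, hu₀⟩ := exists_prime_orderOf_dvd_card (G := A) p hpd
  have hu₀p : u₀ ^ p = 1 := by rw [← hu₀]; exact pow_orderOf_eq_one u₀
  have hu₀1 : u₀ ≠ 1 := by
    intro h
    rw [h, orderOf_one] at hu₀
    exact hp.out.one_lt.ne hu₀
  let P : A →* A := powMonoidHom p
  have hSP : S ⊆ (P.range : Set A) := by
    intro x hx
    have hne : ((T.filter (fun t => t ^ p = x)).card : ZMod p) ≠ 0 := by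
      rw [← hcoef]; exact hx
    have hne2 : (T.filter (fun t => t ^ p = x)).card ≠ 0 := by
      intro h0
      rw [h0] at hne
      exact hne (Nat.cast_zero)
    obtain ⟨t, ht⟩ := Finset.card_ne_zero.1 hne2
    exact ⟨t, (Finset.mem_filter.1 ht).2⟩
  have hclP : ∀ z ∈ Submonoid.closure S, z ∈ P.range := by
    intro z hz
    have : Submonoid.closure S ≤ P.range.toSubmonoid := Submonoid.closure_le.2 hSP
    exact this hz
  have hnotall : ¬ ∀ z, z ∈ Submonoid.closure S := by
    intro hall
    have hsurj : Function.Surjective P := fun z => hclP z (hall z)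
    have hinj' : Function.Injective P := Finite.injective_iff_surjective.2 hsurj
    apply hu₀1
    apply hinj'
    show u₀ ^ p = 1 ^ p
    rw [hu₀p, one_pow]
  have hS1 : ∀ z ∈ Submonoid.closure S, z = 1 :=
    (closure_dichotomy i ω hreg hinj hSinv).resolve_left hnotall
  have hyS : y ^ p ∉ S := fun h => hy1 (hS1 _ (Submonoid.subset_closure h))
  have hdvd : p ∣ (T.filter (fun t => t ^ p = y ^ p)).card := by
    have h0 : (a ^ p).coeff (y ^ p) = 0 := by
      by_contra h
      exact hyS h
    rw [hcoef] at h0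
    exact (ZMod.natCast_eq_zero_iff _ _).1 h0
  have hpos : 0 < (T.filter (fun t => t ^ p = y ^ p)).card :=
    Finset.card_pos.2 ⟨y, Finset.mem_filter.2 ⟨hy, rfl⟩⟩
  have hge : p ≤ (T.filter (fun t => t ^ p = y ^ p)).card := Nat.le_of_dvd hpos hdvd
  set U : Finset A := Finset.univ.filter (fun z => z ^ p = 1) with hU
  have hUcard : U.card ≤ p := by
    have := IsCyclic.card_pow_eq_one_le (α := A) (n := p) hp.out.pos
    convert this
  let F : Finset A := (T.filter (fun t => t ^ p = y ^ p)).image (fun t => y⁻¹ * t)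
  have hFU : F ⊆ U := by
    intro z hz
    obtain ⟨t, ht, rfl⟩ := Finset.mem_image.1 hz
    refine Finset.mem_filter.2 ⟨Finset.mem_univ _, ?_⟩
    rw [mul_pow, inv_pow, (Finset.mem_filter.1 ht).2, inv_mul_cancel]
  have hFcard : F.card = (T.filter (fun t => t ^ p = y ^ p)).card :=
    Finset.card_image_of_injective _ (mul_right_injective _)
  have hFeq : F = U := Finset.eq_of_subset_of_card_le hFU (by
    rw [hFcard]; exact hUcard.trans hge)
  have huU : u ∈ U := Finset.mem_filter.2 ⟨Finset.mem_univ _, hu⟩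
  rw [← hFeq] at huU
  obtain ⟨t, ht, rfl⟩ := Finset.mem_image.1 huU
  rw [mul_inv_cancel_left]
  exact (Finset.mem_filter.1 ht).1

include hinj in
lemma rel_iff {T : Set A} (a b : A) : rel i ω T (i a • ω) (i b • ω) ↔ a⁻¹ * b ∈ T := by
  constructor
  · rintro ⟨a', b', h1, h2, h3⟩
    rw [hinj _ _ h1, hinj _ _ h2]
    exact h3
  · intro h
    exact ⟨a, b, rfl, rfl, h⟩

include hreg hinj in
/-- An invariant nonempty subset avoiding `1` meets each prime order subgroup. -/
theorem meets_lemma [IsPreprimitive G Ω] {p : ℕ} [hp : Fact p.Prime] (hpd : p ∣ Fintype.card A)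
    {T : Finset A} (hT : Inv i ω (T : Set A)) (hne : T.Nonempty) (h1 : (1 : A) ∉ T) :
    ∃ u ∈ T, u ^ p = 1 := by
  by_contra hcon
  push Not at hcon
  obtain ⟨u₀, hu₀⟩ := exists_prime_orderOf_dvd_card (G := A) p hpd
  have hu₀p : u₀ ^ p = 1 := by rw [← hu₀]; exact pow_orderOf_eq_one u₀
  have hu₀1 : u₀ ≠ 1 := by
    intro h
    rw [h, orderOf_one] at hu₀
    exact hp.out.one_lt.ne hu₀
  have hstep : ∀ y ∈ T, y * u₀ ∈ T := fun y hy =>
    coset_lemma i ω hreg hinj hpd hT hy (hcon y hy) hu₀p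
  -- `u₀ T = T`
  have hperm : ∀ c : A, c ∈ T ↔ u₀⁻¹ * c ∈ T := by
    have hmaps : Set.MapsTo (fun c => c * u₀) (T : Set A) (T : Set A) := fun y hy => hstep y hy
    have hinj2 : Set.InjOn (fun c => c * u₀) (T : Set A) := fun x _ y _ hxy =>
      mul_right_cancel hxy
    have himg : T.image (fun c => c * u₀) = T := by
      apply Finset.eq_of_subset_of_card_le
      · intro z hz
        obtain ⟨t, ht, rfl⟩ := Finset.mem_image.1 hz
        exact hstep t ht
      · rw [Finset.card_image_of_injective _ (mul_left_injective u₀)]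
    intro c
    constructor
    · intro hc
      rw [← himg] at hc
      obtain ⟨t, ht, rfl⟩ := Finset.mem_image.1 hc
      have : u₀⁻¹ * (t * u₀) = t := by rw [mul_comm t, inv_mul_cancel_left]
      rw [this]
      exact ht
    · intro hc
      have := hstep _ hc
      have e : u₀⁻¹ * c * u₀ = c := by rw [mul_comm u₀⁻¹, mul_assoc, inv_mul_cancel, mul_one]
      rwa [e] at this
  let r : Ω → Ω → Prop := fun α β => ∀ γ, rel i ω (T : Set A) α γ ↔ rel i ω (T : Set A) β γ
  have hrequiv : Equivalence r :=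
    ⟨fun _ _ => Iff.rfl, fun h γ => (h γ).symm, fun h h' γ => (h γ).trans (h' γ)⟩
  have hrinv : ∀ (g : G) (x y : Ω), r x y → r (g • x) (g • y) := by
    intro g x y hxy γ
    have hback : ∀ {α β}, rel i ω (T : Set A) (g • α) β ↔ rel i ω (T : Set A) α (g⁻¹ • β) := by
      intro α β
      constructor
      · intro h
        have := rel_smul i ω hreg hT g⁻¹ h
        rwa [inv_smul_smul] at this
      · intro h
        have := rel_smul i ω hreg hT g h
        rwa [smul_inv_smul] at this
    rw [hback, hback]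
    exact hxy _
  have hone : ω = i 1 • ω := by rw [map_one, one_smul]
  have hrr : r ω (i u₀ • ω) := by
    intro γ
    obtain ⟨c, rfl⟩ := hreg γ
    have h3 : rel i ω (T : Set A) ω (i c • ω) ↔ c ∈ (T : Set A) := by
      have := rel_iff i ω hinj (T := (T : Set A)) 1 c
      rw [← hone, inv_one, one_mul] at this
      exact this
    rw [h3, rel_iff i ω hinj]
    exact hperm c
  have hneω : ω ≠ i u₀ • ω := fun h => hu₀1 (eq_one_of_fix i ω hinj h.symm)
  obtain ⟨t, ht⟩ := hne
  have hfin := H16.prim_rel (G := G) r hrequiv hrinv hneω hrr (i t • ω)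
  have h3 : rel i ω (T : Set A) ω (i t • ω) := by
    refine ⟨1, t, hone, rfl, ?_⟩
    rw [inv_one, one_mul]
    exact ht
  have h4 := (hfin _).1 h3
  rw [rel_iff i ω hinj, inv_mul_cancel] at h4
  exact h1 h4

include hreg hinj in
/-- The main theorem on the abstract regular group. -/
theorem abstract_two [IsPreprimitive G Ω] {p q : ℕ} [hp : Fact p.Prime] [hq : Fact q.Prime]
    (hpq : p ≠ q) (hpd : p ∣ Fintype.card A) (hqd : q ∣ Fintype.card A) :
    IsMultiplyPretransitive G Ω 2 := by
  classical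
  obtain ⟨v₀, hv₀⟩ := exists_prime_orderOf_dvd_card (G := A) q hqd
  have hv₀q : v₀ ^ q = 1 := by rw [← hv₀]; exact pow_orderOf_eq_one v₀
  have hv₀1 : v₀ ≠ 1 := by
    intro h
    rw [h, orderOf_one] at hv₀
    exact hq.out.one_lt.ne hv₀
  -- for every nontrivial `x`, some stabilizer element moves `x` to `v₀`
  have key : ∀ x : A, x ≠ 1 → ∃ h : G, h • ω = ω ∧ h • (i x • ω) = i v₀ • ω := by
    intro x hx
    let T : Finset A := Finset.univ.filter
      (fun t => ∃ h : G, h • ω = ω ∧ h • (i x • ω) = i t • ω)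
    have hmem : ∀ t, t ∈ T ↔ ∃ h : G, h • ω = ω ∧ h • (i x • ω) = i t • ω := by
      intro t
      simp [T]
    have hT : Inv i ω (T : Set A) := by
      intro h hh t ht t' ht'
      obtain ⟨h', hh', e⟩ := (hmem t).1 ht
      refine (hmem t').2 ⟨h * h', ?_, ?_⟩
      · rw [mul_smul, hh', hh]
      · rw [mul_smul, e, ht']
    have hxT : x ∈ T := (hmem x).2 ⟨1, one_smul _ _, one_smul _ _⟩
    have h1T : (1 : A) ∉ T := by
      intro h1
      obtain ⟨h, hh, e⟩ := (hmem 1).1 h1
      rw [map_one, one_smul] at e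
      have : i x • ω = ω := by
        apply MulAction.injective h
        show h • (i x • ω) = h • ω
        rw [e, hh]
      exact hx (eq_one_of_fix i ω hinj this)
    obtain ⟨u, huT, hup⟩ := meets_lemma i ω hreg hinj hpd hT ⟨x, hxT⟩ h1T
    have hu1 : u ≠ 1 := fun h => h1T (h ▸ huT)
    -- orders
    have hcop : Nat.Coprime p q := (Nat.coprime_primes hp.out hq.out).2 hpq
    have huq : u ^ q ≠ 1 := by
      intro h
      have h1 : orderOf u ∣ Nat.gcd p q :=
        Nat.dvd_gcd (orderOf_dvd_of_pow_eq_one hup) (orderOf_dvd_of_pow_eq_one h)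
      rw [hcop.gcd_eq_one, Nat.dvd_one, orderOf_eq_one_iff] at h1
      exact hu1 h1
    have h2 : u * v₀ ∈ T := coset_lemma i ω hreg hinj hqd hT huT huq hv₀q
    have h3 : (u * v₀) ^ p ≠ 1 := by
      rw [mul_pow, hup, one_mul]
      intro h
      have h1 : orderOf v₀ ∣ Nat.gcd p q :=
        Nat.dvd_gcd (orderOf_dvd_of_pow_eq_one h) (orderOf_dvd_of_pow_eq_one hv₀q)
      rw [hcop.gcd_eq_one, Nat.dvd_one, orderOf_eq_one_iff] at h1
      exact hv₀1 h1
    have hup' : u⁻¹ ^ p = 1 := by rw [inv_pow, hup, inv_one]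
    have h4 := coset_lemma i ω hreg hinj hpd hT h2 h3 hup'
    have e : u * v₀ * u⁻¹ = v₀ := by
      rw [mul_comm u v₀, mul_assoc, mul_inv_cancel, mul_one]
    rw [e] at h4
    exact (hmem v₀).1 h4
  -- two-point transitivity
  have hv₀ne : i v₀ • ω ≠ ω := fun h => hv₀1 (eq_one_of_fix i ω hinj h)
  have key2 : ∀ {a b : Ω}, a ≠ b → ∃ g : G, g • a = ω ∧ g • b = i v₀ • ω := by
    intro a b hab
    obtain ⟨c, rfl⟩ := hreg a
    obtain ⟨d, rfl⟩ := hreg b
    have hx : c⁻¹ * d ≠ 1 := by
      intro h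
      apply hab
      rw [inv_mul_eq_one.1 h]
    obtain ⟨h, hh, e⟩ := key _ hx
    refine ⟨h * (i c)⁻¹, ?_, ?_⟩
    · rw [mul_smul, inv_smul_smul, hh]
    · rw [mul_smul, ← e]
      congr 1
      rw [map_mul, map_inv, mul_smul]
  rw [is_two_pretransitive_iff]
  intro a b c d hab hcd
  obtain ⟨g, h1, h2⟩ := key2 hab
  obtain ⟨g', h3, h4⟩ := key2 hcd
  refine ⟨g'⁻¹ * g, ?_, ?_⟩
  · rw [mul_smul, h1, ← h3, inv_smul_smul]
  · rw [mul_smul, h2, ← h4, inv_smul_smul]

end main

/-- Two distinct primes dividing a number which is not a prime power. -/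
lemma exists_two_primes {n : ℕ} (hn : 2 ≤ n) (h : ¬ IsPrimePow n) :
    ∃ p q : ℕ, p.Prime ∧ q.Prime ∧ p ≠ q ∧ p ∣ n ∧ q ∣ n := by
  obtain ⟨p, hp, hpn⟩ := Nat.exists_prime_and_dvd (by omega : n ≠ 1)
  by_contra hcon
  push Not at hcon
  apply h
  have : ∀ q : ℕ, q.Prime → q ∣ n → q = p := by
    intro q hq hqn
    by_contra hne
    exact hcon p q hp hq (Ne.symm hne) hpn hqn
  rw [isPrimePow_nat_iff]
  have hprime : ∀ {d : ℕ}, d.Prime → d ∣ n → d = p := fun {d} h1 h2 => this d h1 h2
  have e := Nat.eq_prime_pow_of_unique_prime_dvd (n := n) (p := p) (by omega) hprime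
  refine ⟨p, n.primeFactorsList.length, hp, ?_, e.symm⟩
  rw [Nat.pos_iff_ne_zero]
  intro h0
  rw [h0, pow_zero] at e
  omega

theorem result {G Ω : Type*} [Group G] [Finite G] [MulAction G Ω] [FaithfulSMul G Ω] [Finite Ω]
    (htrans : MulAction.IsPretransitive G Ω) (hn : 2 ≤ Nat.card Ω) (hnp : ¬ IsPrimePow (Nat.card Ω))
    (C : Subgroup G) (hcyc : IsCyclic ↥C) (hC : MulAction.IsPretransitive ↥C Ω ∧ ∀ a : Ω, MulAction.stabilizer ↥C a = ⊥) :
    ¬ MulAction.IsPreprimitive G Ω ∨ MulAction.IsMultiplyPretransitive G Ω 2 := by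
  classical
  by_cases hprim : MulAction.IsPreprimitive G Ω
  swap
  · exact Or.inl hprim
  right
  obtain ⟨p, q, hp, hq, hpq, hpn, hqn⟩ := exists_two_primes hn hnp
  letI : CommGroup C := IsCyclic.commGroup
  haveI : Fintype C := Fintype.ofFinite C
  obtain ⟨hCt, hCs⟩ := hC
  haveI : Nonempty Ω := Finite.card_pos_iff.1 (by omega)
  obtain ⟨ω⟩ := ‹Nonempty Ω›
  let i : C →* G := C.subtype
  have hreg : ∀ β : Ω, ∃ a : C, i a • ω = β := by
    intro β
    obtain ⟨a, ha⟩ := exists_smul_eq C ω β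
    exact ⟨a, ha⟩
  have hinj : ∀ a b : C, i a • ω = i b • ω → a = b := by
    intro a b hab
    have h1 : (b⁻¹ * a) ∈ MulAction.stabilizer C ω := by
      rw [MulAction.mem_stabilizer_iff, mul_smul, inv_smul_eq_iff]
      exact hab
    rw [hCs ω, Subgroup.mem_bot] at h1
    exact (inv_mul_eq_one.1 h1).symm
  have hcard : Nat.card Ω = Fintype.card C := by
    rw [← Nat.card_eq_fintype_card]
    apply Nat.card_congr
    refine (Equiv.ofBijective (fun a : C => a • ω) ⟨?_, ?_⟩).symm
    · intro a b hab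
      exact hinj a b hab
    · intro β
      exact hreg β
  rw [hcard] at hpn hqn
  haveI : Fact p.Prime := ⟨hp⟩
  haveI : Fact q.Prime := ⟨hq⟩
  exact abstract_two i ω hreg hinj hpq hpn hqn

end Cfsg.Agent.S3559
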