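-- Hamming graph construction
import Cfsg.Statements.S3560

set_option autoImplicit false
set_option linter.style.haveILetI false
open Cfsg

namespace Cfsg.Agent.S3560

open MulAction
open scoped Pointwise

/-- two points differ exactly at one coordinate -/
def Adj {ι β : Type*} (x y : ι → β) : Prop := ∃ i, x i ≠ y i ∧ ∀ j, j ≠ i → x j = y j

/-- a generalized coordinate permutation -/
def tauE {ι β : Type*} (π : Equiv.Perm ι) (ρ : ι → Equiv.Perm β) : Equiv.Perm (ι → β) where
  toFun z k := ρ k (z (π k))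
  invFun z k := (ρ (π⁻¹ k))⁻¹ (z (π⁻¹ k))
  left_inv z := by
    funext k
    simp
  right_inv z := by
    funext k
    simp

lemma tauE_apply {ι β : Type*} (π : Equiv.Perm ι) (ρ : ι → Equiv.Perm β) (z : ι → β) (k : ι) :
    tauE π ρ z k = ρ k (z (π k)) := rfl

lemma adj_tauE {ι β : Type*} (π : Equiv.Perm ι) (ρ : ι → Equiv.Perm β) (x y : ι → β) :
    Adj (tauE π ρ x) (tauE π ρ y) ↔ Adj x y := by
  constructor
  · rintro ⟨k, hk, hl⟩
    refine ⟨π k, ?_, ?_⟩
    · intro h
      apply hk
      simp only [tauE_apply, h]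
    · intro j hj
      have h1 : π⁻¹ j ≠ k := by
        intro h
        apply hj
        rw [← h]
        simp
      have h2 := hl _ h1
      simpa [tauE_apply] using h2
  · rintro ⟨i, hi, hj⟩
    refine ⟨π⁻¹ i, ?_, ?_⟩
    · simpa [tauE_apply] using hi
    · intro l hl
      have h1 : π l ≠ i := by
        intro h
        apply hl
        rw [← h]
        simp
      simp only [tauE_apply]
      rw [hj _ h1]

/-- the automorphism group of the Hamming graph -/
def autG (ι β : Type*) : Subgroup (Equiv.Perm (ι → β)) where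
  carrier := {σ | ∀ x y, Adj (σ x) (σ y) ↔ Adj x y}
  mul_mem' := by
    intro a b ha hb x y
    simp only [Equiv.Perm.coe_mul, Function.comp_apply]
    rw [ha, hb]
  one_mem' := by
    intro x y
    simp
  inv_mem' := by
    intro a ha x y
    have := ha (a⁻¹ x) (a⁻¹ y)
    simpa using this.symm

lemma mem_autG {ι β : Type*} (σ : Equiv.Perm (ι → β)) :
    σ ∈ autG ι β ↔ ∀ x y, Adj (σ x) (σ y) ↔ Adj x y := Iff.rfl

lemma tauE_mem {ι β : Type*} (π : Equiv.Perm ι) (ρ : ι → Equiv.Perm β) :
    tauE π ρ ∈ autG ι β := fun x y => adj_tauE π ρ x y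

lemma exists_third {m : ℕ} (hm : 3 ≤ m) (a b : Fin m) : ∃ t : Fin m, t ≠ a ∧ t ≠ b := by
  have h1 : ({a, b} : Finset (Fin m)).card < (Finset.univ : Finset (Fin m)).card := by
    calc ({a, b} : Finset (Fin m)).card ≤ 2 := Finset.card_le_two
      _ < m := hm
      _ = _ := by simp
  obtain ⟨t, -, ht⟩ := Finset.exists_mem_notMem_of_card_lt_card h1
  simp only [Finset.mem_insert, Finset.mem_singleton, not_or] at ht
  exact ⟨t, ht.1, ht.2⟩

lemma perm_two {β : Type*} [DecidableEq β] (a b a' b' : β) (hab : a ≠ b) (hab' : a' ≠ b') :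
    ∃ ρ : Equiv.Perm β, ρ a = a' ∧ ρ b = b' := by
  let ρ₀ := Equiv.swap a a'
  have h0 : ρ₀ a = a' := Equiv.swap_apply_left _ _
  have h1 : ρ₀ b ≠ a' := by
    intro h
    rw [← h0] at h
    exact hab (ρ₀.injective h).symm
  refine ⟨Equiv.swap b' (ρ₀ b) * ρ₀, ?_, ?_⟩
  · simp only [Equiv.Perm.coe_mul, Function.comp_apply, h0]
    exact Equiv.swap_apply_of_ne_of_ne hab' h1.symm
  · simp only [Equiv.Perm.coe_mul, Function.comp_apply]
    exact Equiv.swap_apply_right _ _

lemma exists_tau {ι β : Type*} [DecidableEq ι] [DecidableEq β] {u v w w' : ι → β}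
    (huv : Adj u v) (hww : Adj w w') :
    ∃ τ ∈ autG ι β, τ u = w ∧ τ v = w' := by
  obtain ⟨i, hi, hi'⟩ := huv
  obtain ⟨j, hj, hj'⟩ := hww
  obtain ⟨ρj, hρ1, hρ2⟩ := perm_two (u i) (v i) (w j) (w' j) hi hj
  let π : Equiv.Perm ι := Equiv.swap i j
  let ρ : ι → Equiv.Perm β := fun k => if k = j then ρj else Equiv.swap (u (π k)) (w k)
  refine ⟨tauE π ρ, tauE_mem π ρ, ?_, ?_⟩
  · funext k
    rw [tauE_apply]
    by_cases hk : k = j
    · subst hk
      simp only [ρ, if_true, π, Equiv.swap_apply_right, hρ1]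
    · simp only [ρ, if_neg hk]
      exact Equiv.swap_apply_left _ _
  · funext k
    rw [tauE_apply]
    by_cases hk : k = j
    · subst hk
      simp only [ρ, if_true, π, Equiv.swap_apply_right, hρ2]
    · simp only [ρ, if_neg hk]
      have h1 : π k ≠ i := by
        intro h
        apply hk
        have : π (π k) = π i := by rw [h]
        simpa [π] using this
      rw [← hi' _ h1, ← hj' _ hk]
      exact Equiv.swap_apply_left _ _

lemma block_mem {G Ω : Type*} [Group G] [MulAction G Ω] {B : Set Ω} (hB : IsBlock G B) (σ : G)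
    {x z : Ω} (hx : x ∈ B) (hσ : σ • x ∈ B) (hz : z ∈ B) : σ • z ∈ B := by
  have h := hB.smul_eq_of_mem hx hσ
  have : σ • z ∈ σ • B := Set.smul_mem_smul_set hz
  rwa [h] at this

theorem prim {ι : Type*} [Fintype ι] [DecidableEq ι] {m : ℕ} (hm : 3 ≤ m)
    (htr : IsPretransitive (autG ι (Fin m)) (ι → Fin m)) :
    IsPreprimitive (autG ι (Fin m)) (ι → Fin m) := by
  refine { toIsPretransitive := htr, isTrivialBlock_of_isBlock := ?_ }
  intro B hB
  by_cases hsub : B.Subsingleton
  · exact Or.inl hsub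
  right
  rw [Set.not_subsingleton_iff] at hsub
  obtain ⟨x, hx, y, hy, hxy⟩ := hsub
  obtain ⟨i, hi⟩ : ∃ i, x i ≠ y i := Function.ne_iff.1 hxy
  obtain ⟨t, ht1, ht2⟩ := exists_third hm (x i) (y i)
  let ρ : ι → Equiv.Perm (Fin m) := fun k => if k = i then Equiv.swap (y i) t else 1
  let σ : autG ι (Fin m) := ⟨tauE 1 ρ, tauE_mem 1 ρ⟩
  have hσx : σ • x = x := by
    show tauE 1 ρ x = x
    funext k
    rw [tauE_apply]
    by_cases hk : k = i
    · subst hk
      simp only [ρ, if_true, Equiv.Perm.one_apply]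
      exact Equiv.swap_apply_of_ne_of_ne hi ht1.symm
    · simp [ρ, if_neg hk]
  have hσy : Adj y (σ • y) := by
    refine ⟨i, ?_, ?_⟩
    · show y i ≠ tauE 1 ρ y i
      rw [tauE_apply]
      simp only [ρ, if_true, Equiv.Perm.one_apply, Equiv.swap_apply_left]
      exact ht2.symm
    · intro j hj
      show y j = tauE 1 ρ y j
      rw [tauE_apply]
      simp [ρ, if_neg hj]
  have hy' : σ • y ∈ B := block_mem hB σ hx (by rwa [hσx]) hy
  -- closed under adjacency
  have hadj : ∀ w w', w ∈ B → Adj w w' → w' ∈ B := by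
    intro w w' hw hww
    obtain ⟨τ, hτ, h1, h2⟩ := exists_tau hσy hww
    have := block_mem hB (⟨τ, hτ⟩ : autG ι (Fin m)) hy (by
      show τ y ∈ B
      rwa [h1]) hy'
    have h3 : ((⟨τ, hτ⟩ : autG ι (Fin m)) • (σ • y)) = w' := h2
    rwa [h3] at this
  rw [Set.eq_univ_iff_forall]
  intro z
  have key : ∀ S : Finset ι, (fun k => if k ∈ S then z k else y k) ∈ B := by
    intro S
    induction S using Finset.induction_on with
    | empty => simpa using hy
    | insert a S ha ih =>
      by_cases hza : z a = y a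
      · have : (fun k => if k ∈ insert a S then z k else y k) =
            (fun k => if k ∈ S then z k else y k) := by
          funext k
          by_cases hk : k = a
          · subst hk
            simp [ha, hza]
          · simp [hk]
        rwa [this]
      · apply hadj _ _ ih
        refine ⟨a, ?_, ?_⟩
        · simp [ha]
          exact fun h => hza h.symm
        · intro j hj
          simp [hj]
  simpa using key Finset.univ

lemma not_two {ι : Type*} [DecidableEq ι] {m : ℕ} (hm : 3 ≤ m) (i j : ι) (hij : i ≠ j) :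
    ¬ IsMultiplyPretransitive (autG ι (Fin m)) (ι → Fin m) 2 := by
  intro h
  rw [is_two_pretransitive_iff] at h
  have h0 : (⟨0, by omega⟩ : Fin m) ≠ ⟨1, by omega⟩ := by simp [Fin.ext_iff]
  let a : ι → Fin m := fun _ => ⟨0, by omega⟩
  let b : ι → Fin m := Function.update a i ⟨1, by omega⟩
  let c : ι → Fin m := Function.update b j ⟨1, by omega⟩
  have hab : Adj a b := by
    refine ⟨i, ?_, ?_⟩
    · simpa [a, b] using h0
    · intro l hl
      simp [a, b, hl]
  have hac : ¬ Adj a c := by
    rintro ⟨l, hl, hl'⟩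
    by_cases hli : l = i
    · subst hli
      have := hl' j hij.symm
      simp [a, b, c] at this
    · have := hl' i (Ne.symm hli)
      simp [a, b, c, hij] at this
  have hne1 : a ≠ b := by
    obtain ⟨l, hl, -⟩ := hab
    exact fun h => hl (by rw [h])
  have hne2 : a ≠ c := by
    intro h
    have := congrFun h j
    simp [a, b, c] at this
  obtain ⟨g, hg1, hg2⟩ := h hne1 hne2
  have h3 := (g.2 a b).2 hab
  have hg1' : (g : Equiv.Perm (ι → Fin m)) a = a := hg1
  have hg2' : (g : Equiv.Perm (ι → Fin m)) b = c := hg2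
  rw [hg1', hg2'] at h3
  exact hac h3

theorem transfer {K Ω : Type*} [Group K] [Finite Ω] (G R : Subgroup (Equiv.Perm Ω)) (hRG : R ≤ G)
    (hRK : Nonempty (↥R ≃* K)) (htr : IsPretransitive R Ω)
    (hstab : ∀ a : Ω, MulAction.stabilizer ↥R a = ⊥) (hprim : IsPreprimitive G Ω)
    (hnot : ¬ IsMultiplyPretransitive G Ω 2) :
    ∃ (n : ℕ) (G R : Subgroup (Equiv.Perm (Fin n))), R ≤ G ∧ Nonempty (↥R ≃* K) ∧
      MulAction.IsPretransitive ↥R (Fin n) ∧ (∀ a : Fin n, MulAction.stabilizer ↥R a = ⊥) ∧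
      MulAction.IsPreprimitive ↥G (Fin n) ∧ ¬ MulAction.IsMultiplyPretransitive ↥G (Fin n) 2 := by
  classical
  let c : Ω ≃ Fin (Nat.card Ω) := Finite.equivFin Ω
  let Φ : Equiv.Perm Ω ≃* Equiv.Perm (Fin (Nat.card Ω)) := c.permCongrHom
  have hΦ : ∀ (σ : Equiv.Perm Ω) (x : Ω), Φ σ (c x) = c (σ x) := by
    intro σ x
    simp [Φ, Equiv.permCongrHom, Equiv.permCongr_apply]
  refine ⟨Nat.card Ω, G.map Φ.toMonoidHom, R.map Φ.toMonoidHom, Subgroup.map_mono hRG, ?_, ?_, ?_,
    ?_, ?_⟩
  · obtain ⟨e⟩ := hRK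
    exact ⟨(R.equivMapOfInjective Φ.toMonoidHom Φ.injective).symm.trans e⟩
  · refine ⟨fun a b => ?_⟩
    obtain ⟨r, hr⟩ := htr.exists_smul_eq (c.symm a) (c.symm b)
    refine ⟨⟨Φ r, r, r.2, rfl⟩, ?_⟩
    show Φ r a = b
    have h1 := hΦ r (c.symm a)
    have h2 : (r : Equiv.Perm Ω) (c.symm a) = c.symm b := hr
    rw [h2] at h1
    simpa using h1
  · intro a
    rw [eq_bot_iff]
    rintro ⟨_, r, hr, rfl⟩ hs
    have h1 : Φ r a = a := hs
    have h2 : (⟨r, hr⟩ : R) ∈ MulAction.stabilizer R (c.symm a) := by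
      show r (c.symm a) = c.symm a
      have h3 := hΦ r (c.symm a)
      simp only [Equiv.apply_symm_apply] at h3
      rw [h1] at h3
      apply c.injective
      simpa using h3.symm
    rw [hstab] at h2
    have h4 : r = 1 := congrArg Subtype.val h2
    subst h4
    apply Subtype.ext
    show Φ 1 = 1
    exact map_one _
  · let φ : G → (G.map Φ.toMonoidHom) := fun g => ⟨Φ g, g, g.2, rfl⟩
    have hφ : Function.Surjective φ := by
      rintro ⟨_, g, hg, rfl⟩
      exact ⟨⟨g, hg⟩, rfl⟩
    let f : Ω →ₑ[φ] Fin (Nat.card Ω) :=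
      { toFun := c
        map_smul' := fun g x => (hΦ g x).symm }
    exact (isPreprimitive_congr hφ (f := f) c.bijective).1 hprim
  · intro h
    rw [is_two_pretransitive_iff] at h
    apply hnot
    rw [is_two_pretransitive_iff]
    intro a b x y hab hxy
    obtain ⟨⟨_, g, hg, rfl⟩, h1, h2⟩ := h (c.injective.ne hab) (c.injective.ne hxy)
    refine ⟨⟨g, hg⟩, ?_, ?_⟩
    · apply c.injective
      rw [← h1]
      exact (hΦ g a).symm
    · apply c.injective
      rw [← h2]
      exact (hΦ g b).symm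

/-- Let K be a finite group isomorphic to a direct product of r ≥ 2 groups all of the same order m ≥ 3. Then K is not a B-group: there is a primitive but not doubly transitive permutation group (on some finite set) containing a regular subgroup isomorphic to K. -/
theorem result {K : Type*} [Group K] [Finite K] {ι : Type*} [Fintype ι] (F : ι → Type*) [∀ i, Group (F i)]
    (hr : 2 ≤ Fintype.card ι) (m : ℕ) (hm : 3 ≤ m) (hcard : ∀ i, Nat.card (F i) = m) (e : K ≃* (∀ i, F i)) :
    ∃ (n : ℕ) (G R : Subgroup (Equiv.Perm (Fin n))), R ≤ G ∧ Nonempty (↥R ≃* K) ∧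
      MulAction.IsPretransitive ↥R (Fin n) ∧ (∀ a : Fin n, MulAction.stabilizer ↥R a = ⊥) ∧
      MulAction.IsPreprimitive ↥G (Fin n) ∧ ¬ MulAction.IsMultiplyPretransitive ↥G (Fin n) 2 := by
  classical
  haveI : ∀ i, Finite (F i) := fun i => Nat.finite_of_card_ne_zero (by rw [hcard]; omega)
  let E : ∀ i, F i ≃ Fin m := fun i => Finite.equivFinOfCardEq (hcard i)
  let ρ : K → ι → Equiv.Perm (Fin m) := fun k i =>
    (E i).symm.trans ((Equiv.mulLeft (e k i)).trans (E i))
  have hρ : ∀ k i (t : Fin m), ρ k i t = E i (e k i * (E i).symm t) := fun k i t => rfl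
  let lam : K →* Equiv.Perm (ι → Fin m) :=
    { toFun := fun k => tauE 1 (ρ k)
      map_one' := by
        ext z i
        simp [tauE_apply, hρ]
      map_mul' := by
        intro a b
        ext z i
        simp [tauE_apply, hρ, mul_assoc] }
  have hlam : ∀ k (z : ι → Fin m) i, lam k z i = E i (e k i * (E i).symm (z i)) := fun k z i => rfl
  have hfix : ∀ k (z : ι → Fin m), lam k z = z → k = 1 := by
    intro k z h
    apply e.injective
    funext i
    have h1 := congrFun h i
    rw [hlam] at h1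
    have h2 : e k i * (E i).symm (z i) = (E i).symm (z i) := by
      rw [Equiv.eq_symm_apply]
      exact h1
    rw [map_one]
    exact mul_eq_right.1 h2
  have hinj : Function.Injective lam := by
    rw [injective_iff_map_eq_one]
    intro k hk
    apply hfix k (fun _ => ⟨0, by omega⟩)
    rw [hk]
    rfl
  let R : Subgroup (Equiv.Perm (ι → Fin m)) := lam.range
  have hRG : R ≤ autG ι (Fin m) := by
    rintro _ ⟨k, rfl⟩
    exact tauE_mem 1 (ρ k)
  have htrR : IsPretransitive R (ι → Fin m) := by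
    refine ⟨fun x y => ?_⟩
    let k : K := e.symm (fun i => (E i).symm (y i) * ((E i).symm (x i))⁻¹)
    refine ⟨⟨lam k, k, rfl⟩, ?_⟩
    show lam k x = y
    funext i
    rw [hlam]
    simp [k]
  have htrG : IsPretransitive (autG ι (Fin m)) (ι → Fin m) := by
    refine ⟨fun x y => ?_⟩
    obtain ⟨r, hr⟩ := htrR.exists_smul_eq x y
    exact ⟨⟨r, hRG r.2⟩, hr⟩
  obtain ⟨i, j, hij⟩ : ∃ i j : ι, i ≠ j := by
    haveI : Nontrivial ι := Fintype.one_lt_card_iff_nontrivial.1 (by omega)
    exact exists_pair_ne ι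
  apply transfer (K := K) (autG ι (Fin m)) R hRG ⟨(MonoidHom.ofInjective hinj).symm⟩ htrR
    _ (prim hm htrG) (not_two hm i j hij)
  intro a
  rw [eq_bot_iff]
  rintro ⟨_, k, rfl⟩ hs
  have h1 : lam k a = a := hs
  have := hfix k a h1
  subst this
  apply Subtype.ext
  exact map_one lam

end Cfsg.Agent.S3560
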