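import Cfsg.Statements.S3572
import Cfsg.Agent.Lib.H08.Dih8

set_option autoImplicit false
open Cfsg

namespace Cfsg.Agent.S3572

open Cfsg.Agent.H08.Dih Pointwise in
/-- A finite primitive permutation group containing a dihedral subgroup that acts regularly (transitively with trivial point stabilizers) is doubly transitive. -/
theorem result {G Ω : Type*} [Group G] [Finite G] [MulAction G Ω] [FaithfulSMul G Ω] [Finite Ω]
    (hprim : MulAction.IsPreprimitive G Ω) (D : Subgroup G) (m : ℕ) (hD : Nonempty (↥D ≃* DihedralGroup m))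
    (hDreg : MulAction.IsPretransitive ↥D Ω ∧ ∀ a : Ω, MulAction.stabilizer ↥D a = ⊥) :
    MulAction.IsMultiplyPretransitive G Ω 2 := by
  classical
  rcases isEmpty_or_nonempty Ω with hΩ | ⟨⟨ω₀⟩⟩
  · rw [MulAction.is_two_pretransitive_iff]
    intro a
    exact (hΩ.false a).elim
  obtain ⟨φ⟩ := hD
  have hm0 : m ≠ 0 := by
    rintro rfl
    have h1 := Nat.card_congr φ.toEquiv
    rw [DihedralGroup.nat_card] at h1
    have := Nat.card_pos (α := D)
    omega
  haveI : NeZero m := ⟨hm0⟩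
  haveI := hDreg.1
  have hact : ∀ (d : D) (ω : Ω), d • ω = (d : G) • ω := fun d ω => rfl
  let e : DihedralGroup m → Ω := fun h => (φ.symm h) • ω₀
  have he_inj : Function.Injective e := by
    intro x y hxy
    have h1 : (φ.symm y)⁻¹ * (φ.symm x) ∈ MulAction.stabilizer D ω₀ := by
      rw [MulAction.mem_stabilizer_iff, mul_smul]
      have : (φ.symm x) • ω₀ = (φ.symm y) • ω₀ := hxy
      rw [this, inv_smul_smul]
    rw [hDreg.2 ω₀, Subgroup.mem_bot, inv_mul_eq_one] at h1
    exact φ.symm.injective h1.symm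
  have he_surj : Function.Surjective e := by
    intro ω
    obtain ⟨d, hd⟩ := MulAction.exists_smul_eq D ω₀ ω
    exact ⟨φ d, by simp [e, hd]⟩
  let E : DihedralGroup m ≃ Ω := Equiv.ofBijective e ⟨he_inj, he_surj⟩
  have hE : ∀ h, E h = (φ.symm h) • ω₀ := fun h => rfl
  let π : G →* Equiv.Perm (DihedralGroup m) :=
    (E.symm.permCongrHom).toMonoidHom.comp (MulAction.toPermHom G Ω)
  have hπ : ∀ (g : G) (x), E (π g x) = g • E x := by
    intro g x
    simp [π, Equiv.permCongrHom, Equiv.permCongr]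
  have hmulL : ∀ h x, E (h * x) = ((φ.symm h : D) : G) • E x := by
    intro h x
    rw [hE, hE, map_mul, mul_smul]
    rfl
  have hL : ∀ h : DihedralGroup m, Equiv.mulLeft h ∈ π.range := by
    intro h
    refine ⟨((φ.symm h : D) : G), ?_⟩
    ext x
    apply E.injective
    rw [hπ, Equiv.coe_mulLeft, hmulL]
  have hprim' : ∀ N : Subgroup (DihedralGroup m),
      (∀ g ∈ π.range, ∀ x y, x⁻¹ * y ∈ N → (g x)⁻¹ * (g y) ∈ N) → N = ⊥ ∨ N = ⊤ := by
    intro N hN
    have hN' : ∀ (g : G) (x y), x⁻¹ * y ∈ N → (π g x)⁻¹ * (π g y) ∈ N :=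
      fun g x y h => hN _ ⟨g, rfl⟩ x y h
    set B : Set Ω := E '' (N : Set (DihedralGroup m)) with hB
    have hsub : ∀ g : G, (g • B ∩ B).Nonempty → g • B ⊆ B := by
      rintro g ⟨b, ⟨_, ⟨n₁, hn₁, rfl⟩, rfl⟩, ⟨n₂, hn₂, hb⟩⟩ _ ⟨_, ⟨n, hn, rfl⟩, rfl⟩
      have e1 : π g n₁ = n₂ := by
        apply E.injective
        rw [hπ, hb]
      have h1 := hN' g n₁ n (N.mul_mem (N.inv_mem hn₁) hn)
      rw [e1] at h1
      have h2 : π g n ∈ N := by
        have := N.mul_mem hn₂ h1
        simpa using this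
      exact ⟨π g n, h2, hπ g n⟩
    have hblock : MulAction.IsBlock G B := by
      rw [MulAction.isBlock_iff_smul_eq_of_nonempty]
      intro g hg
      apply Set.Subset.antisymm (hsub g hg)
      have hg' : (g⁻¹ • B ∩ B).Nonempty := by
        obtain ⟨b, hb1, hb2⟩ := hg
        refine ⟨g⁻¹ • b, Set.smul_mem_smul_set hb2, ?_⟩
        obtain ⟨c, hc, rfl⟩ := hb1
        rwa [inv_smul_smul]
      intro b hb
      have := hsub g⁻¹ hg' (Set.smul_mem_smul_set hb)
      exact ⟨g⁻¹ • b, this, smul_inv_smul g b⟩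
    rcases hprim.isTrivialBlock_of_isBlock hblock with h | h
    · left
      rw [eq_bot_iff]
      intro x hx
      have h3 : E x = E 1 := h ⟨x, hx, rfl⟩ ⟨1, N.one_mem, rfl⟩
      exact E.injective h3
    · right
      rw [eq_top_iff]
      intro x _
      have h3 : E x ∈ B := by rw [h]; trivial
      obtain ⟨n, hn, hnx⟩ := h3
      rw [← E.injective hnx]
      exact hn
  let P : PG m := ⟨π.range, hL, hprim'⟩
  rw [MulAction.is_two_pretransitive_iff]
  intro a b c d hab hcd
  let a' := E.symm a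
  let b' := E.symm b
  let c' := E.symm c
  let d' := E.symm d
  have hx : a'⁻¹ * b' ≠ 1 := by
    intro h
    apply hab
    have : a' = b' := inv_mul_eq_one.1 h
    exact E.symm.injective this
  have hy : c'⁻¹ * d' ≠ 1 := by
    intro h
    apply hcd
    have : c' = d' := inv_mul_eq_one.1 h
    exact E.symm.injective this
  obtain ⟨γ, ⟨g₀, hg₀⟩, hγ1, hγx⟩ := two_trans_PG P _ _ hx hy
  obtain ⟨g₁, hg₁⟩ := hL c'
  obtain ⟨g₂, hg₂⟩ := hL a'⁻¹
  refine ⟨g₁ * g₀ * g₂, ?_, ?_⟩
  · have h1 : π (g₁ * g₀ * g₂) a' = c' := by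
      simp only [map_mul, hg₁, hg₀, hg₂, Equiv.Perm.coe_mul, Function.comp, Equiv.coe_mulLeft]
      simp [hγ1]
    have h2 := hπ (g₁ * g₀ * g₂) a'
    rw [h1] at h2
    simp only [a', c', Equiv.apply_symm_apply] at h2
    exact h2.symm
  · have h1 : π (g₁ * g₀ * g₂) b' = d' := by
      simp only [map_mul, hg₁, hg₀, hg₂, Equiv.Perm.coe_mul, Function.comp, Equiv.coe_mulLeft]
      simp [hγx]
    have h2 := hπ (g₁ * g₀ * g₂) b'
    rw [h1] at h2
    simp only [b', d', Equiv.apply_symm_apply] at h2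
    exact h2.symm

end Cfsg.Agent.S3572
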