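import Cfsg.Statements.S3573

set_option autoImplicit false
set_option linter.style.haveILetI false
open Cfsg

namespace Cfsg.Agent.S3573

open Equiv Equiv.Perm Finset

variable {α : Type*} [Fintype α] [DecidableEq α]

/-- The sizes of invariant subsets modulo `r`. -/
lemma invariant_card_modEq (σ : Perm α) (r : ℕ) (hr : r.Prime) (hσ : σ ^ r = 1) (s : Finset α)
    (hs : s.image σ = s) :
    (s.filter (fun x => σ x = x)).card ≡ s.card [MOD r] := by
  haveI := Fact.mk hr
  have hmem : ∀ x, x ∈ s ↔ σ x ∈ s := by
    intro x
    constructor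
    · intro hx
      rw [← hs]
      exact Finset.mem_image_of_mem σ hx
    · intro hx
      rw [← hs, Finset.mem_image] at hx
      obtain ⟨y, hy, hyx⟩ := hx
      rw [σ.injective hyx] at hy
      exact hy
  let τ : Perm s := σ.subtypePerm (fun x => (hmem x).symm)
  have hτ : τ ^ r ^ 1 = 1 := by
    rw [pow_one]
    ext x
    simp only [τ, Perm.subtypePerm_pow, Perm.subtypePerm_apply, Perm.one_apply, hσ]
  have h := card_compl_support_modEq hτ
  have h1 : τ.supportᶜ.card = (s.filter (fun x => σ x = x)).card := by
    apply Finset.card_bij (fun (x : s) _ => (x : α))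
    · intro x hx
      simp only [Finset.mem_compl, Perm.mem_support, not_not] at hx
      have h2 : σ x = x := congrArg Subtype.val hx
      exact Finset.mem_filter.2 ⟨x.2, h2⟩
    · intro a _ b _ hab
      exact Subtype.ext hab
    · intro b hb
      rw [Finset.mem_filter] at hb
      refine ⟨⟨b, hb.1⟩, ?_, rfl⟩
      simp only [Finset.mem_compl, Perm.mem_support, not_not]
      exact Subtype.ext hb.2
  rw [h1] at h
  simpa using h

/-- Construction of an invariant subset of the wanted size. -/
lemma exists_invariant (σ : Perm α) (r : ℕ) (hr : r.Prime) (hσ : orderOf σ = r) (k : ℕ)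
    (hk : k ≤ Fintype.card α) (hkr : k % r ≤ Fintype.card α % r) :
    ∃ s : Finset α, s.card = k ∧ s.image σ = s := by
  classical
  have hcyc : ∀ τ ∈ σ.cycleFactorsFinset, τ.support.card = r := by
    intro τ hτ
    obtain ⟨n, hn⟩ := cycleType_prime_order (σ := σ) (by rwa [hσ])
    have h1 : τ.support.card ∈ σ.cycleType := by
      rw [cycleType_def]
      exact Multiset.mem_map_of_mem _ hτ
    rw [hn] at h1
    rw [Multiset.eq_of_mem_replicate h1, hσ]
  set cf := σ.cycleFactorsFinset with hcf
  have hsup : σ.support.card = cf.card * r := by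
    rw [← sum_cycleType, cycleType_def]
    have : (cf.val.map (Finset.card ∘ Perm.support)) = Multiset.replicate cf.card r := by
      rw [Multiset.eq_replicate]
      refine ⟨by simp, ?_⟩
      intro b hb
      rw [Multiset.mem_map] at hb
      obtain ⟨τ, hτ, rfl⟩ := hb
      exact hcyc τ hτ
    rw [this]
    simp
  have hFx : (σ.supportᶜ).card = Fintype.card α - cf.card * r := by
    rw [Finset.card_compl, hsup]
  have hle : cf.card * r ≤ Fintype.card α := by
    rw [← hsup]
    exact Finset.card_le_univ _
  set a := min cf.card (k / r) with ha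
  have hrpos := hr.pos
  have ha1 : a * r ≤ k := by
    calc a * r ≤ (k / r) * r := Nat.mul_le_mul_right _ (min_le_right _ _)
      _ ≤ k := Nat.div_mul_le_self k r
  set b := k - a * r with hb
  have hbF : b ≤ (σ.supportᶜ).card := by
    rw [hFx]
    by_cases h : k / r ≤ cf.card
    · have h1 : a = k / r := min_eq_right h
      have h2 : b = k % r := by
        rw [hb, h1]
        have := Nat.div_add_mod k r
        have h3 : k / r * r = r * (k / r) := mul_comm _ _
        omega
      rw [h2]
      -- `card - cf * r ≡ card mod r`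
      have h3 : Fintype.card α % r ≤ Fintype.card α - cf.card * r := by
        have h4 : (Fintype.card α - cf.card * r) % r = Fintype.card α % r := by
          have : Fintype.card α = (Fintype.card α - cf.card * r) + cf.card * r := by omega
          conv_rhs => rw [this]
          rw [Nat.add_mul_mod_self_right]
        rw [← h4]
        exact Nat.mod_le _ _
      omega
    · have h1 : a = cf.card := min_eq_left (by omega)
      rw [hb, h1]
      omega
  obtain ⟨T, hT, hTc⟩ := Finset.exists_subset_card_eq (s := cf) (n := a) (min_le_left _ _)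
  obtain ⟨B, hB, hBc⟩ := Finset.exists_subset_card_eq hbF
  set U := T.biUnion Perm.support with hU
  have hUc : U.card = a * r := by
    rw [hU, Finset.card_biUnion, ← hTc]
    · exact Finset.sum_const_nat (fun τ hτ => hcyc τ (hT hτ))
    · intro τ hτ ρ hρ hne
      exact (Perm.disjoint_iff_disjoint_support).1
        (cycleFactorsFinset_pairwise_disjoint σ (hT hτ) (hT hρ) hne)
  have hUsup : U ⊆ σ.support := by
    intro x hx
    obtain ⟨τ, hτ, hxτ⟩ := Finset.mem_biUnion.1 hx
    exact mem_cycleFactorsFinset_support_le (hT hτ) hxτ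
  have hdisj : Disjoint U B := by
    rw [Finset.disjoint_left]
    intro x hx hx'
    have h1 := hUsup hx
    have h2 := hB hx'
    rw [Finset.mem_compl] at h2
    exact h2 h1
  refine ⟨U ∪ B, ?_, ?_⟩
  · rw [Finset.card_union_of_disjoint hdisj, hUc, hBc, hb]
    omega
  · have hmaps : ∀ x ∈ U ∪ B, σ x ∈ U ∪ B := by
      intro x hx
      rcases Finset.mem_union.1 hx with hx | hx
      · obtain ⟨τ, hτ, hxτ⟩ := Finset.mem_biUnion.1 hx
        have h1 := (mem_cycleFactorsFinset_iff.1 (hT hτ)).2 x hxτ
        rw [← h1]
        exact Finset.mem_union_left _ (Finset.mem_biUnion.2 ⟨τ, hτ, Perm.apply_mem_support.2 hxτ⟩)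
      · have h1 := hB hx
        rw [Finset.mem_compl, Perm.mem_support, not_not] at h1
        rw [h1]
        exact Finset.mem_union_right _ hx
    apply Finset.eq_of_subset_of_card_le
    · intro y hy
      obtain ⟨x, hx, rfl⟩ := Finset.mem_image.1 hy
      exact hmaps x hx
    · rw [Finset.card_image_of_injective _ σ.injective]

/-- A permutation of order `r` with `card % r` fixed points. -/
lemma exists_perm (r : ℕ) (hr : r.Prime) (hrn : r ≤ Fintype.card α) :
    ∃ σ : Perm α, orderOf σ = r ∧ (Finset.univ.filter (fun x => σ x = x)).card = Fintype.card α % r := by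
  classical
  have hc : 0 < Fintype.card α / r := Nat.div_pos hrn hr.pos
  obtain ⟨σ, hσ⟩ := (exists_with_cycleType_iff α (m := Multiset.replicate (Fintype.card α / r) r)).2
    (by
      refine ⟨?_, ?_⟩
      · rw [Multiset.sum_replicate, smul_eq_mul]
        exact Nat.div_mul_le_self _ _
      · intro a ha
        rw [Multiset.eq_of_mem_replicate ha]
        exact hr.two_le)
  haveI := Fact.mk hr
  refine ⟨σ, ?_, ?_⟩
  · apply orderOf_eq_prime
    · rw [pow_prime_eq_one_iff, hσ]
      intro c hc
      exact Multiset.eq_of_mem_replicate hc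
    · rintro rfl
      rw [cycleType_one] at hσ
      have := congrArg Multiset.card hσ
      simp at this
      omega
  · have h1 : (Finset.univ.filter (fun x => σ x = x)) = σ.supportᶜ := by
      ext x
      simp
    rw [h1, Finset.card_compl, ← sum_cycleType, hσ, Multiset.sum_replicate, smul_eq_mul]
    have := Nat.div_add_mod (Fintype.card α) r
    have h3 : Fintype.card α / r * r = r * (Fintype.card α / r) := mul_comm _ _
    omega

/-- The main equivalence. -/
lemma main_iff (n k r : ℕ) (hr : r.Prime) (hrn : r ≤ n) (hkn : k ≤ n) :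
    (∀ σ : Equiv.Perm (Fin n), orderOf σ = r → ∃ s : Finset (Fin n), s.card = k ∧ s.image σ = s) ↔
      k % r ≤ n % r := by
  classical
  haveI := Fact.mk hr
  constructor
  · intro h
    obtain ⟨σ, hσ, hfix⟩ := exists_perm (α := Fin n) r hr (by simpa using hrn)
    obtain ⟨s, hs, hinv⟩ := h σ hσ
    have hpow : σ ^ r = 1 := by rw [← hσ]; exact pow_orderOf_eq_one σ
    have h1 := invariant_card_modEq σ r hr hpow s hinv
    rw [hs] at h1
    simp only [Fintype.card_fin] at hfix
    have h2 : (s.filter (fun x => σ x = x)).card ≤ n % r := by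
      rw [← hfix]
      apply Finset.card_le_card
      intro x hx
      rw [Finset.mem_filter] at hx ⊢
      exact ⟨Finset.mem_univ _, hx.2⟩
    have h3 : n % r < r := Nat.mod_lt _ hr.pos
    have h4 : (s.filter (fun x => σ x = x)).card % r = (s.filter (fun x => σ x = x)).card :=
      Nat.mod_eq_of_lt (by omega)
    rw [Nat.ModEq, h4] at h1
    omega
  · intro h σ hσ
    exact exists_invariant σ r hr hσ k (by simpa using hkn) (by simpa using h)

/-- `r ∣ C(n,k)` excludes small `k`. -/
lemma not_small (n k r : ℕ) (hr : r.Prime) (hrd : r ∣ Nat.choose n k) (hkr : k < r)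
    (hk : k ≤ n % r) : False := by
  haveI := Fact.mk hr
  have h1 := Choose.choose_modEq_choose_mod_mul_choose_div_nat (p := r) (n := n) (k := k)
  rw [Nat.mod_eq_of_lt hkr, Nat.div_eq_of_lt hkr, Nat.choose_zero_right, mul_one] at h1
  have h2 : r ∣ Nat.choose (n % r) k := (Nat.modEq_zero_iff_dvd.1 (h1.symm.trans
    (Nat.modEq_zero_iff_dvd.2 hrd)))
  have h3 : Nat.choose (n % r) k ∣ (n % r).factorial := by
    exact ⟨k.factorial * (n % r - k).factorial, by
      rw [← mul_assoc]; exact (Nat.choose_mul_factorial_mul_factorial hk).symm⟩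
  have h4 := hr.dvd_factorial.1 (h2.trans h3)
  have h5 := Nat.mod_lt n hr.pos
  omega

theorem result (n k : ℕ) (hk : 1 ≤ k) (hkn : 2 * k < n) (r : ℕ) (hr : r.Prime) (hrd : r ∣ Nat.choose n k) :
    (r ≠ 2 → ((∀ σ : Equiv.Perm (Fin n), orderOf σ = r → ∃ s : Finset (Fin n), s.card = k ∧ s.image σ = s) ↔
      (r ≤ k ∧ k % r ≤ n % r))) ∧
    (r = 2 → ((∀ σ : Equiv.Perm (Fin n), orderOf σ = 2 → ∃ s : Finset (Fin n), s.card = k ∧ s.image σ = s) ↔
      (Even k ∨ Odd n))) := by
  have hrn : r ≤ n := by
    by_contra hc
    have h1 : Nat.choose n k ∣ n.factorial := by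
      exact ⟨k.factorial * (n - k).factorial, by
        rw [← mul_assoc]; exact (Nat.choose_mul_factorial_mul_factorial (by omega)).symm⟩
    have := hr.dvd_factorial.1 (hrd.trans h1)
    omega
  have hmain := main_iff n k r hr hrn (by omega)
  refine ⟨fun _ => ?_, ?_⟩
  · rw [hmain]
    constructor
    · intro h
      refine ⟨?_, h⟩
      by_contra hc
      push Not at hc
      rw [Nat.mod_eq_of_lt hc] at h
      exact not_small n k r hr hrd hc h
    · exact fun h => h.2
  · rintro rfl
    rw [hmain, Nat.even_iff, Nat.odd_iff]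
    omega

end Cfsg.Agent.S3573
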