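import Mathlib
import Cfsg.Statements.S3575

set_option autoImplicit false
set_option linter.style.haveILetI false
open Cfsg

namespace Cfsg.Agent.S3575

lemma nt_suff (a b r m l n k : ℕ) (ha : a = r * m + l) (hb : b = r * n + k) (hr : 0 < r)
    (ha0 : 0 < a) (hkl : k * l < r) (hgap : n = 0 ∨ l ≤ k * m + 1) (c : ℕ) (hc : c * r ≤ a * b) :
    ∃ t s, c = t * a + s ∧ t * r ≤ b ∧ s ≤ (b - r * t) * m := by
  have h1 : c ≤ m * b + l * n := by
    have h2 : a * b = (m * b + l * n) * r + k * l := by
      rw [ha, hb]; ring
    rw [h2] at hc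
    by_contra hcon
    push Not at hcon
    have h3 : (m * b + l * n + 1) * r ≤ c * r := Nat.mul_le_mul_right _ hcon
    have h4 : (m * b + l * n + 1) * r = (m * b + l * n) * r + r := by ring
    omega
  by_cases h2 : n * a ≤ c
  · refine ⟨n, c - n * a, by omega, ?_, ?_⟩
    · rw [hb]
      nlinarith
    · have h3 : b - r * n = k := by
        rw [hb]; omega
      rw [h3]
      have h4 : m * b + l * n = n * a + k * m := by
        rw [ha, hb]; ring
      omega
  · push Not at h2
    have h3 : c / a < n := by
      rw [Nat.div_lt_iff_lt_mul ha0]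
      exact h2
    have hn : n ≠ 0 := by
      rintro rfl
      simp at h2
    have hl : l ≤ k * m + 1 := by
      rcases hgap with h | h
      · exact absurd h hn
      · exact h
    obtain ⟨u, hu⟩ : ∃ u, n = c / a + 1 + u := ⟨n - (c / a + 1), (Nat.add_sub_cancel' h3).symm⟩
    refine ⟨c / a, c % a, (Nat.div_add_mod' c a).symm, ?_, ?_⟩
    · rw [hb, hu]
      nlinarith
    · have h4 : b - r * (c / a) = r * (1 + u) + k := by
        rw [hb, hu]
        apply Nat.sub_eq_of_eq_add
        ring
      rw [h4]
      have h5 : c % a < a := Nat.mod_lt _ ha0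
      generalize c % a = s at *
      have h6 : s ≤ r * m + k * m := by
        rw [ha] at h5
        omega
      have h7 : (r * (1 + u) + k) * m = r * m + k * m + r * u * m := by ring
      omega

lemma nt (a b r : ℕ) (ha : 2 ≤ a) (hb : 2 ≤ b) (hr : r.Prime) (hab : r ≤ a * b) :
    (∀ c, 1 ≤ c → c * r ≤ a * b → ∃ t s, c = t * a + s ∧ t * r ≤ b ∧ s ≤ (b - r * t) * (a / r)) ↔
    (r ≤ a ∧ (a % r = 0 ∨ (b % r = 0 ∧ a % r = 1) ∨
        (a % r ≠ 0 ∧ b % r ≠ 0 ∧ (b % r) * (a % r) < r ∧
          (b < r ∨ (b % r + r) * (a % r) ≤ (b % r) * a + r)))) := by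
  have hr0 := hr.pos
  have ha' : a = r * (a / r) + a % r := (Nat.div_add_mod a r).symm
  have hb' : b = r * (b / r) + b % r := (Nat.div_add_mod b r).symm
  have hl : a % r < r := Nat.mod_lt _ hr0
  have hk : b % r < r := Nat.mod_lt _ hr0
  generalize a / r = m at *
  generalize a % r = l at *
  generalize hn : b / r = n at *
  generalize b % r = k at *
  constructor
  · intro H
    have hra : r ≤ a := by
      obtain ⟨t, s, h1, h2, h3⟩ := H 1 le_rfl (by simpa using hab)
      have ht : t = 0 := by
        by_contra h
        have : 1 ≤ t := Nat.pos_of_ne_zero h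
        nlinarith
      subst ht
      have hs : s = 1 := by omega
      subst hs
      have hm : m ≠ 0 := by
        rintro rfl
        simp at h3
      have : 1 ≤ m := Nat.pos_of_ne_zero hm
      rw [ha']
      nlinarith
    have hgap : n ≠ 0 → l ≤ k * m + 1 := by
      intro hn0
      by_contra hcon
      push Not at hcon
      obtain ⟨n', rfl⟩ : ∃ n', n = n' + 1 := ⟨n - 1, by omega⟩
      set c := n' * a + (k + r) * m + 1 with hc
      have hc1 : c < (n' + 1) * a := by
        have h1 : (n' + 1) * a = n' * a + (r * m + l) := by rw [← ha']; ring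
        have h2 : (k + r) * m = k * m + r * m := by ring
        omega
      have hc2 : c * r ≤ a * b := by
        have h1 : c * r ≤ (n' + 1) * a * r := Nat.mul_le_mul_right _ hc1.le
        have h2 : a * ((n' + 1) * r) ≤ a * b := by
          apply Nat.mul_le_mul_left
          rw [hb']
          nlinarith
        nlinarith
      obtain ⟨t, s, h1, h2, h3⟩ := H c (by omega) hc2
      have ht : t < n' + 1 := by
        by_contra h
        push Not at h
        have : (n' + 1) * a ≤ t * a := Nat.mul_le_mul_right _ h
        omega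
      obtain ⟨u, hu⟩ : ∃ u, n' = t + u := ⟨n' - t, by omega⟩
      have h4 : b - r * t = r * (u + 1) + k := by
        rw [hb', hu]
        apply Nat.sub_eq_of_eq_add
        ring
      rw [h4] at h3
      have h5 : t * a + s = n' * a + (k + r) * m + 1 := by rw [← h1]
      rw [hu] at h5
      have h6 : (t + u) * a = t * a + u * a := by ring
      have h7 : (r * (u + 1) + k) * m = r * u * m + (k + r) * m := by ring
      have h8 : r * u * m ≤ u * a := by
        rw [ha']
        nlinarith
      omega
    have hkl : ¬ r ≤ k * l := by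
      intro hcon
      have hc2 : (m * b + l * n + 1) * r ≤ a * b := by
        have h2 : a * b = (m * b + l * n) * r + k * l := by
          conv_lhs => rw [ha']
          conv_lhs => rw [hb']
          conv_rhs => rw [hb']
          ring
        have h3 : (m * b + l * n + 1) * r = (m * b + l * n) * r + r := by ring
        omega
      obtain ⟨t, s, h1, h2, h3⟩ := H _ (by omega) hc2
      have ht : t ≤ n := by
        rw [← hn, Nat.le_div_iff_mul_le hr0]
        exact h2
      obtain ⟨w, hw⟩ : ∃ w, b = r * t + w := ⟨b - r * t, by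
        have : r * t = t * r := mul_comm _ _
        omega⟩
      have h4 : b - r * t = w := by omega
      rw [h4] at h3
      have h5 : t * a + w * m = m * b + t * l := by
        rw [ha', hw]; ring
      have h6 : t * l ≤ n * l := Nat.mul_le_mul_right _ ht
      have h7 : n * l = l * n := mul_comm _ _
      omega
    refine ⟨hra, ?_⟩
    by_cases hl0 : l = 0
    · exact Or.inl hl0
    right
    by_cases hk0 : k = 0
    · left
      refine ⟨hk0, ?_⟩
      have hn0 : n ≠ 0 := by
        rintro rfl
        rw [hk0] at hb'
        simp at hb'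
        omega
      have := hgap hn0
      rw [hk0] at this
      omega
    · right
      refine ⟨hl0, hk0, by omega, ?_⟩
      by_cases hbr : b < r
      · exact Or.inl hbr
      · right
        have hn0 : n ≠ 0 := by
          rintro rfl
          simp at hb'
          omega
        have := hgap hn0
        have h1 : (k + r) * l = k * l + r * l := by ring
        have h2 : k * a + r = k * l + k * r * m + r := by
          conv_lhs => rw [ha']
          ring
        rw [h1, h2]
        have h3 : r * l ≤ r * (k * m + 1) := Nat.mul_le_mul_left _ this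
        have h4 : r * (k * m + 1) = k * r * m + r := by ring
        omega
  · rintro ⟨hra, hcases⟩ c hc1 hc2
    have hcond : k * l < r ∧ (n = 0 ∨ l ≤ k * m + 1) := by
      rcases hcases with h | h | h
      · subst h
        simp [hr0]
      · rw [h.1, h.2]
        simp [hr0]
      · obtain ⟨h1, h2, h3, h4⟩ := h
        refine ⟨h3, ?_⟩
        rcases h4 with h4 | h4
        · left
          rw [← hn]
          exact Nat.div_eq_of_lt h4
        · right
          have h5 : (k + r) * l = k * l + r * l := by ring
          have h6 : k * a + r = k * l + r * (k * m + 1) := by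
            conv_lhs => rw [ha']
            ring
          rw [h5, h6] at h4
          have h7 : r * l ≤ r * (k * m + 1) := by omega
          exact Nat.le_of_mul_le_mul_left h7 hr0
    exact nt_suff a b r m l n k ha' hb' hr0 (by omega) hcond.1 hcond.2 c hc2

open Equiv Equiv.Perm Finset

section perm

lemma dvd_support {α : Type*} [Fintype α] [DecidableEq α] (r : ℕ) (hr : r.Prime) (τ : Perm α)
    (h : τ ^ r = 1) : r ∣ τ.support.card := by
  haveI := Fact.mk hr
  rw [← sum_cycleType, cycleType_of_pow_prime_eq_one h]
  simp

lemma card_support_congr {α β : Type*} [Fintype α] [DecidableEq α] [Fintype β] [DecidableEq β]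
    (g : β ≃ α) (τ : Perm β) : (Equiv.permCongrHom g τ).support.card = τ.support.card := by
  have : (Equiv.permCongrHom g τ).support = τ.support.map g.toEmbedding := by
    ext x
    simp only [Perm.mem_support, Finset.mem_map, Equiv.coe_toEmbedding]
    constructor
    · intro h
      refine ⟨g.symm x, ?_, by simp⟩
      intro h2
      apply h
      show g (τ (g.symm x)) = x
      rw [h2]
      simp
    · rintro ⟨y, hy, rfl⟩ h2
      apply hy
      have : g (τ (g.symm (g y))) = g y := h2
      simpa using this
  rw [this, Finset.card_map]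

lemma exists_perm {α : Type*} [Fintype α] [DecidableEq α] (r e : ℕ) (hr : r.Prime)
    (h : r * e ≤ Fintype.card α) :
    ∃ ρ : Perm α, ρ ^ r = 1 ∧ ρ.support.card = r * e := by
  haveI := Fact.mk hr
  haveI : NeZero r := ⟨hr.ne_zero⟩
  let β := (ZMod r × Fin e) ⊕ Fin (Fintype.card α - r * e)
  have hβ : Fintype.card β = Fintype.card α := by
    simp only [β, Fintype.card_sum, Fintype.card_prod, ZMod.card, Fintype.card_fin]
    omega
  let g : β ≃ α := Fintype.equivOfCardEq hβ
  let τ : Perm β :=
    Equiv.sumCongr (Equiv.prodCongr (Equiv.addRight (1 : ZMod r)) (Equiv.refl _)) (Equiv.refl _)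
  have hτl : ∀ (i : ZMod r) u, τ (Sum.inl (i, u)) = Sum.inl (i + 1, u) := fun _ _ => rfl
  have hτr : ∀ v, τ (Sum.inr v) = Sum.inr v := fun _ => rfl
  have hτpow : ∀ (k : ℕ) (i : ZMod r) u, (τ ^ k) (Sum.inl (i, u)) = Sum.inl (i + k, u) := by
    intro k
    induction k with
    | zero => intro i u; simp
    | succ k ih =>
      intro i u
      rw [pow_succ, Perm.mul_apply, hτl, ih]
      congr 2
      push_cast
      ring
  have hτpowr : ∀ (k : ℕ) v, (τ ^ k) (Sum.inr v) = Sum.inr v := by
    intro k
    induction k with
    | zero => intro v; simp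
    | succ k ih =>
      intro v
      rw [pow_succ, Perm.mul_apply, hτr, ih]
  have hτ1 : τ ^ r = 1 := by
    ext x
    rcases x with ⟨i, u⟩ | v
    · rw [hτpow]
      simp
    · rw [hτpowr]
      simp
  have hsupp : τ.support = (Finset.univ : Finset (ZMod r × Fin e)).map Function.Embedding.inl := by
    ext x
    simp only [Perm.mem_support, Finset.mem_map, Finset.mem_univ, true_and]
    rcases x with ⟨i, u⟩ | v
    · simp only [hτl]
      constructor
      · intro _
        exact ⟨(i, u), rfl⟩
      · intro _ h2
        have h3 : i + 1 = i := congrArg Prod.fst (Sum.inl.inj h2)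
        have h4 : (1 : ZMod r) = 0 := by simpa using h3
        haveI : Fact (1 < r) := ⟨hr.one_lt⟩
        exact one_ne_zero h4
    · simp only [hτr, ne_eq, not_true_eq_false, false_iff]
      rintro ⟨p, hp⟩
      exact Sum.inl_ne_inr hp
  refine ⟨Equiv.permCongrHom g τ, ?_, ?_⟩
  · rw [← map_pow, hτ1, map_one]
  · rw [card_support_congr, hsupp, Finset.card_map, Finset.card_univ, Fintype.card_prod, ZMod.card,
      Fintype.card_fin]

lemma support_count {X J : Type*} [Fintype X] [Fintype J] [DecidableEq X] [DecidableEq J]
    (σ : Perm X) (π : Perm J) (f : X → J) (hf : ∀ x, f (σ x) = π (f x)) (a : ℕ)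
    (hfib : ∀ j, (Finset.univ.filter (fun x => f x = j)).card = a) :
    σ.support.card = a * π.support.card +
      ∑ j ∈ (π.support)ᶜ, (σ.support.filter (fun x => f x = j)).card := by
  have h1 := Finset.card_eq_sum_card_fiberwise (f := f) (s := σ.support) (t := Finset.univ)
    (fun _ _ => Finset.mem_coe.mpr (Finset.mem_univ _))
  rw [h1, ← Finset.sum_add_sum_compl π.support]
  congr 1
  rw [Finset.sum_congr rfl (g := fun _ => a)]
  · rw [Finset.sum_const, smul_eq_mul, mul_comm]
  · intro j hj
    rw [← hfib j]
    congr 1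
    ext x
    simp only [Finset.mem_filter, Perm.mem_support, Finset.mem_univ, true_and]
    constructor
    · exact fun h => h.2
    · rintro rfl
      refine ⟨?_, rfl⟩
      intro h2
      apply (Perm.mem_support.mp hj)
      rw [← hf, h2]

lemma key_count {X J : Type*} [Fintype X] [Fintype J] [DecidableEq X] [DecidableEq J]
    (a b r : ℕ) (hr : r.Prime) (hJ : Fintype.card J = b) (ha : 0 < a)
    (σ : Perm X) (π : Perm J) (f : X → J) (hf : ∀ x, f (σ x) = π (f x))
    (hfib : ∀ j, (Finset.univ.filter (fun x => f x = j)).card = a) (hσ : σ ^ r = 1) :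
    ∃ t s, σ.support.card = r * (t * a + s) ∧ t * r ≤ b ∧ s ≤ (b - r * t) * (a / r) := by
  have hfk : ∀ (k : ℕ) x, f ((σ ^ k) x) = (π ^ k) (f x) := by
    intro k
    induction k with
    | zero => intro x; simp
    | succ k ih =>
      intro x
      rw [pow_succ', Perm.mul_apply, hf, ih, pow_succ', Perm.mul_apply]
  have hπ : π ^ r = 1 := by
    ext j
    have hne : (Finset.univ.filter (fun x => f x = j)).Nonempty := by
      rw [← Finset.card_pos, hfib]
      exact ha
    obtain ⟨x, hx⟩ := hne
    have hx' : f x = j := (Finset.mem_filter.mp hx).2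
    have := hfk r x
    rw [hσ, hx'] at this
    simp only [Perm.coe_one, id_eq] at this
    rw [← this]
    simp [hx']
  obtain ⟨t, ht⟩ := dvd_support r hr π hπ
  have htb : t * r ≤ b := by
    rw [mul_comm, ← ht, ← hJ]
    exact Finset.card_le_univ _
  have hdvd : ∀ j ∈ (π.support)ᶜ, r ∣ (σ.support.filter (fun x => f x = j)).card := by
    intro j hj
    have hj' : π j = j := by
      simpa using hj
    have hp : ∀ x, f (σ x) = j ↔ f x = j := by
      intro x
      rw [hf]
      constructor
      · intro h
        apply π.injective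
        rw [h, hj']
      · intro h
        rw [h, hj']
    let τ : Perm {x // f x = j} := σ.subtypePerm hp
    have hτ : τ ^ r = 1 := by
      ext x
      simp only [τ, subtypePerm_pow, subtypePerm_apply, hσ]
      simp
    have h1 := dvd_support r hr τ hτ
    have h2 : τ.support.map (Function.Embedding.subtype _) = σ.support.filter (fun x => f x = j) := by
      ext x
      simp only [Finset.mem_map, Perm.mem_support, Finset.mem_filter, Function.Embedding.coe_subtype]
      constructor
      · rintro ⟨y, hy, rfl⟩
        refine ⟨?_, y.2⟩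
        intro h3
        apply hy
        exact Subtype.ext h3
      · rintro ⟨h3, h4⟩
        refine ⟨⟨x, h4⟩, ?_, rfl⟩
        intro h5
        apply h3
        exact congrArg Subtype.val h5
    rw [← h2, Finset.card_map]
    exact h1
  have hle : ∀ j, (σ.support.filter (fun x => f x = j)).card ≤ a := by
    intro j
    rw [← hfib j]
    apply Finset.card_le_card
    intro x hx
    simp only [Finset.mem_filter, Finset.mem_univ, true_and] at hx ⊢
    exact hx.2
  refine ⟨t, ∑ j ∈ (π.support)ᶜ, (σ.support.filter (fun x => f x = j)).card / r, ?_, htb, ?_⟩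
  · rw [support_count σ π f hf a hfib, ht, mul_add, ← Finset.sum_congr rfl (fun j hj =>
      (Nat.mul_div_cancel' (hdvd j hj)).symm) |>.trans (Finset.mul_sum _ _ _).symm |>.symm]
    ring
  · have hcard : ((π.support)ᶜ).card = b - r * t := by
      rw [Finset.card_compl, hJ, ht]
    rw [← hcard, ← smul_eq_mul]
    apply Finset.sum_le_card_nsmul
    intro j _
    exact Nat.div_le_div_right (hle j)

lemma exists_conj {α β : Type*} [Fintype α] [DecidableEq α] [Fintype β] [DecidableEq β]
    (hc : Fintype.card α = Fintype.card β) (r : ℕ) (hr : r.Prime) (σ : Perm α) (σ' : Perm β)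
    (h : σ ^ r = 1) (h' : σ' ^ r = 1) (hs : σ.support.card = σ'.support.card) :
    ∃ e : α ≃ β, ∀ x, e (σ x) = σ' (e x) := by
  haveI := Fact.mk hr
  let e₀ : α ≃ β := Fintype.equivOfCardEq hc
  let σ₁ : Perm β := Equiv.permCongrHom e₀ σ
  have hσ₁ : σ₁ ^ r = 1 := by
    show (Equiv.permCongrHom e₀ σ) ^ r = 1
    rw [← map_pow, h, map_one]
  have hs₁ : σ₁.support.card = σ'.support.card := by
    rw [← hs]
    exact card_support_congr e₀ σ
  have hcy : σ₁.cycleType = σ'.cycleType := by
    rw [cycleType_of_pow_prime_eq_one hσ₁, cycleType_of_pow_prime_eq_one h']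
    congr 1
    have h1 := sum_cycleType σ₁
    have h2 := sum_cycleType σ'
    rw [cycleType_of_pow_prime_eq_one hσ₁] at h1
    rw [cycleType_of_pow_prime_eq_one h'] at h2
    simp only [Multiset.sum_replicate, smul_eq_mul, Multiset.card_replicate] at h1 h2
    have h3 : Multiset.card σ₁.cycleType * r = Multiset.card σ'.cycleType * r := by
      rw [h1, h2, hs₁]
    exact Nat.eq_of_mul_eq_mul_right hr.pos h3
  have hconj : IsConj σ₁ σ' := isConj_iff_cycleType_eq.mpr hcy
  obtain ⟨c, hc⟩ := isConj_iff.mp hconj
  refine ⟨e₀.trans c, ?_⟩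
  intro x
  have h1 : σ' (c (e₀ x)) = c (σ₁ (e₀ x)) := by
    rw [← hc]
    simp
  rw [Equiv.trans_apply, Equiv.trans_apply, h1]
  congr 1
  show e₀ (σ x) = e₀ (σ (e₀.symm (e₀ x)))
  simp

lemma exists_weights {J : Type*} [DecidableEq J] (A : Finset J) (m s : ℕ) (hs : s ≤ A.card * m) :
    ∃ w : J → ℕ, (∀ j, w j ≤ m) ∧ ∑ j ∈ A, w j = s := by
  induction A using Finset.induction_on generalizing s with
  | empty =>
    simp only [Finset.card_empty, zero_mul, Nat.le_zero] at hs
    exact ⟨fun _ => 0, by simp, by simp [hs]⟩
  | insert x A hx ih =>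
    rw [Finset.card_insert_of_notMem hx] at hs
    obtain ⟨w, hw1, hw2⟩ := ih (s - min s m) (by
      have h1 : (A.card + 1) * m = A.card * m + m := by ring
      omega)
    refine ⟨fun j => if j = x then min s m else w j, ?_, ?_⟩
    · intro j
      by_cases h : j = x
      · simp [h]
      · simp [h, hw1]
    · rw [Finset.sum_insert hx, if_pos rfl, Finset.sum_congr rfl (g := w)]
      · rw [hw2]
        omega
      · intro j hj
        rw [if_neg]
        rintro rfl
        exact hx hj

lemma exists_model (a b r t s : ℕ) (hr : r.Prime) (htr : t * r ≤ b)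
    (hs : s ≤ (b - r * t) * (a / r)) :
    ∃ (σ' : Perm (Fin b × Fin a)) (π' : Perm (Fin b)), σ' ^ r = 1 ∧ (∀ x, (σ' x).1 = π' x.1) ∧
      σ'.support.card = r * (t * a + s) := by
  classical
  obtain ⟨π', hπ1, hπ2⟩ := exists_perm (α := Fin b) r t hr (by simpa [mul_comm] using htr)
  have hA : ((π'.support)ᶜ).card = b - r * t := by
    rw [Finset.card_compl, hπ2]
    simp
  obtain ⟨w, hw1, hw2⟩ := exists_weights ((π'.support)ᶜ) (a / r) s (by rw [hA]; exact hs)
  let w' : Fin b → ℕ := fun j => if π' j = j then w j else 0
  have hw'r : ∀ j, r * w' j ≤ Fintype.card (Fin a) := by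
    intro j
    rw [Fintype.card_fin]
    by_cases h : π' j = j
    · simp only [w', h, if_true]
      calc r * w j ≤ r * (a / r) := Nat.mul_le_mul_left _ (hw1 j)
        _ ≤ a := Nat.mul_div_le a r
    · simp [w', h]
  choose ρ hρ1 hρ2 using fun j => exists_perm (α := Fin a) r (w' j) hr (hw'r j)
  have hρmoved : ∀ j, π' j ≠ j → ρ j = 1 := by
    intro j hj
    have h1 := hρ2 j
    simp only [w', hj, if_false, mul_zero] at h1
    exact card_support_eq_zero.mp h1
  have hρinv : ∀ j, ρ (π' j) = ρ j := by
    intro j
    by_cases h : π' j = j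
    · rw [h]
    · rw [hρmoved j h, hρmoved]
      intro h2
      exact h (π'.injective h2)
  have hρinvk : ∀ (k : ℕ) j, ρ ((π' ^ k) j) = ρ j := by
    intro k
    induction k with
    | zero => intro j; simp
    | succ k ih =>
      intro j
      rw [pow_succ', Perm.mul_apply, hρinv, ih]
  let σ' : Perm (Fin b × Fin a) := Equiv.prodShear π' ρ
  have hσ' : ∀ j v, σ' (j, v) = (π' j, ρ j v) := fun _ _ => rfl
  have hpow : ∀ (k : ℕ) j v, (σ' ^ k) (j, v) = ((π' ^ k) j, (ρ j ^ k) v) := by
    intro k
    induction k with
    | zero => intro j v; simp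
    | succ k ih =>
      intro j v
      rw [pow_succ', Perm.mul_apply, ih, hσ', hρinvk, pow_succ', pow_succ', Perm.mul_apply,
        Perm.mul_apply]
  have hσ'1 : σ' ^ r = 1 := by
    ext ⟨j, v⟩ : 1
    rw [hpow, hπ1, hρ1]
    simp
  refine ⟨σ', π', hσ'1, fun _ => rfl, ?_⟩
  have hfib : ∀ j : Fin b,
      (Finset.univ.filter (fun x : Fin b × Fin a => x.1 = j)).card = a := by
    intro j
    have : Finset.univ.filter (fun x : Fin b × Fin a => x.1 = j) =
        (Finset.univ : Finset (Fin a)).map ⟨fun v => (j, v), fun _ _ h => (Prod.ext_iff.mp h).2⟩ := by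
      ext ⟨j', v⟩
      constructor
      · intro h
        have h' : j' = j := (Finset.mem_filter.mp h).2
        subst h'
        exact Finset.mem_map.mpr ⟨v, Finset.mem_univ _, rfl⟩
      · intro h
        obtain ⟨v', _, h2⟩ := Finset.mem_map.mp h
        have h3 : (j, v') = (j', v) := h2
        have h4 : j = j' := congrArg Prod.fst h3
        exact Finset.mem_filter.mpr ⟨Finset.mem_univ _, h4.symm⟩
    rw [this, Finset.card_map, Finset.card_univ, Fintype.card_fin]
  rw [support_count σ' π' Prod.fst (fun _ => rfl) a hfib, hπ2]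
  have hinner : ∀ j ∈ (π'.support)ᶜ,
      (σ'.support.filter (fun x => x.1 = j)).card = r * w j := by
    intro j hj
    have hj' : π' j = j := by
      simpa using hj
    have h1 : σ'.support.filter (fun x => x.1 = j) =
        (ρ j).support.map ⟨fun v => (j, v), fun _ _ h => (Prod.ext_iff.mp h).2⟩ := by
      ext ⟨j', v⟩
      constructor
      · intro h
        obtain ⟨h2, h3⟩ := Finset.mem_filter.mp h
        have h3' : j' = j := h3
        subst h3'
        refine Finset.mem_map.mpr ⟨v, Perm.mem_support.mpr ?_, rfl⟩
        intro h4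
        apply Perm.mem_support.mp h2
        rw [hσ', hj', h4]
      · intro h
        obtain ⟨v', h2, h3⟩ := Finset.mem_map.mp h
        have h3' : (j, v') = (j', v) := h3
        obtain ⟨rfl, rfl⟩ := Prod.mk.inj h3'
        refine Finset.mem_filter.mpr ⟨Perm.mem_support.mpr ?_, rfl⟩
        intro h4
        apply Perm.mem_support.mp h2
        rw [hσ'] at h4
        exact (Prod.ext_iff.mp h4).2
    rw [h1, Finset.card_map, hρ2]
    simp [w', hj']
  rw [Finset.sum_congr rfl hinner, ← Finset.mul_sum, hw2]
  ring

end perm

/-- Let a, b ≥ 2 and consider the symmetric group of degree a·b acting on the partitions of an (a·b)-set into b parts of size a (encoded as maps onto a b-element set all of whose fibres have a elements; a permutation fixes such a partition when it permutes the fibres). Let r be a prime dividing the number (ab)!/((a!)^b·b!) of such partitions, and let ℓ and k be the remainders of a and b modulo r. Then every permutation of order r fixes some such partition if and only if r ≤ a and one of the following holds: ℓ = 0; or k = 0 and ℓ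 = 1; or ℓ and k are non-zero, k·ℓ < r, and either b < r or (k + r)·ℓ ≤ k·a + r. -/
theorem result (a b : ℕ) (ha : 2 ≤ a) (hb : 2 ≤ b) (r : ℕ) (hr : r.Prime)
    (hrd : r ∣ (a * b).factorial / (a.factorial ^ b * b.factorial)) :
    (∀ σ : Equiv.Perm (Fin (a * b)), orderOf σ = r →
        ∃ f : Fin (a * b) → Fin b, (∀ j : Fin b, Nat.card {x : Fin (a * b) // f x = j} = a) ∧
          ∃ π : Equiv.Perm (Fin b), ∀ x : Fin (a * b), f (σ x) = π (f x)) ↔
      (r ≤ a ∧ (a % r = 0 ∨ (b % r = 0 ∧ a % r = 1) ∨
        (a % r ≠ 0 ∧ b % r ≠ 0 ∧ (b % r) * (a % r) < r ∧ (b < r ∨ (b % r + r) * (a % r) ≤ (b % r) * a + r)))) := by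
  have hr0 := hr.pos
  have ha0 : a ≠ 0 := by omega
  have hab : r ≤ a * b := by
    have h1 := Nat.uniformBell_mul_eq b ha0
    have h2 := Nat.uniformBell_eq_div b ha0
    rw [mul_comm b a] at h1 h2
    rw [← h2] at hrd
    rw [← Nat.Prime.dvd_factorial hr, ← h1]
    exact Dvd.dvd.mul_right (Dvd.dvd.mul_right hrd _) _
  rw [← nt a b r ha hb hr hab]
  constructor
  · intro H c hc1 hc2
    obtain ⟨ρ, hρ1, hρ2⟩ := exists_perm (α := Fin (a * b)) r c hr (by
      rw [Fintype.card_fin, mul_comm]
      exact hc2)
    have hρo : orderOf ρ = r := by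
      haveI := Fact.mk hr
      apply orderOf_eq_prime hρ1
      rintro rfl
      simp only [Perm.support_one, Finset.card_empty] at hρ2
      have : 0 < r * c := Nat.mul_pos hr0 hc1
      omega
    obtain ⟨f, hf1, π, hπ⟩ := H ρ hρo
    have hfib : ∀ j, (Finset.univ.filter (fun x => f x = j)).card = a := by
      intro j
      have h9 := hf1 j
      rw [Nat.card_eq_fintype_card, Fintype.card_subtype] at h9
      exact h9
    obtain ⟨t, s, h1, h2, h3⟩ := key_count a b r hr (by simp) (by omega) ρ π f hπ hfib hρ1
    refine ⟨t, s, ?_, h2, h3⟩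
    rw [hρ2] at h1
    exact Nat.eq_of_mul_eq_mul_left hr0 h1
  · intro H σ hσ
    have hσ1 : σ ^ r = 1 := by
      rw [← hσ]
      exact pow_orderOf_eq_one σ
    obtain ⟨c, hc⟩ := dvd_support r hr σ hσ1
    have hc1 : 1 ≤ c := by
      rcases Nat.eq_zero_or_pos c with h | h
      · subst h
        simp only [mul_zero] at hc
        have : σ = 1 := card_support_eq_zero.mp hc
        rw [this, orderOf_one] at hσ
        have := hr.one_lt
        omega
      · exact h
    have hc2 : c * r ≤ a * b := by
      have h1 := Finset.card_le_univ σ.support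
      rw [hc, Fintype.card_fin] at h1
      rwa [mul_comm]
    obtain ⟨t, s, h1, h2, h3⟩ := H c hc1 hc2
    obtain ⟨σ', π', h4, h5, h6⟩ := exists_model a b r t s hr h2 h3
    obtain ⟨e, he⟩ := exists_conj (α := Fin (a * b)) (β := Fin b × Fin a)
      (by simp [mul_comm]) r hr σ σ' hσ1 h4 (by rw [hc, h6, h1])
    refine ⟨fun x => (e x).1, ?_, π', ?_⟩
    · intro j
      have : {x : Fin (a * b) // (e x).1 = j} ≃ Fin a :=
        { toFun := fun x => (e x.1).2
          invFun := fun v => ⟨e.symm (j, v), by simp⟩
          left_inv := by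
            rintro ⟨x, hx⟩
            apply Subtype.ext
            show e.symm (j, (e x).2) = x
            rw [← hx]
            simp
          right_inv := by
            intro v
            simp }
      rw [Nat.card_congr this]
      simp
    · intro x
      show (e (σ x)).1 = _
      rw [he, h5]

end Cfsg.Agent.S3575
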