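import Cfsg.Statements.S3599
import Mathlib

set_option autoImplicit false
set_option linter.style.haveILetI false
open Cfsg

namespace Cfsg.Agent.S3599

/-- `w`-elements are closed under products -/
def Qp (w : ℕ) (X : Type*) [Group X] : Prop :=
  ∀ x y : X, (∃ e, x ^ (w ^ e) = 1) → (∃ e, y ^ (w ^ e) = 1) → ∃ e, (x * y) ^ (w ^ e) = 1

lemma range_orderOf_congr {A B : Type*} [Group A] [Group B] (e : A ≃* B) :
    Set.range (orderOf : A → ℕ) = Set.range (orderOf : B → ℕ) := by
  ext n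
  constructor
  · rintro ⟨x, rfl⟩
    exact ⟨e x, MulEquiv.orderOf_eq e x⟩
  · rintro ⟨x, rfl⟩
    refine ⟨e.symm x, ?_⟩
    rw [MulEquiv.orderOf_eq]

/-- Every finite group with a given spectrum has a critical section. -/
theorem exists_crit (P : Type) [Group P] [Finite P] (Ω : Set ℕ)
    (hΩ : Set.range (orderOf : P → ℕ) = Ω) :
    ∃ (G : Type) (_ : Group G) (_ : Finite G), Set.range (orderOf : G → ℕ) = Ω ∧
      (∀ (H : Subgroup G) (N : Subgroup ↥H) [N.Normal], (H ≠ ⊤ ∨ N ≠ ⊥) →
        Set.range (orderOf : (↥H ⧸ N) → ℕ) ≠ Ω) ∧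
      ∃ (H : Subgroup P) (f : H →* G), Function.Surjective f := by
  classical
  let S : Set ℕ := {n | ∃ (H : Subgroup P) (N : Subgroup H) (_ : N.Normal),
    Nat.card (H ⧸ N) = n ∧ Set.range (orderOf : (H ⧸ N) → ℕ) = Ω}
  have hS : S.Nonempty := by
    refine ⟨_, ⊤, ⊥, inferInstance, rfl, ?_⟩
    rw [← hΩ]
    exact range_orderOf_congr (QuotientGroup.quotientBot.trans Subgroup.topEquiv)
  obtain ⟨H, N, hNn, hcard, hrange⟩ := Nat.sInf_mem hS
  have hmin : ∀ n ∈ S, sInf S ≤ n := fun n hn => Nat.sInf_le hn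
  refine ⟨H ⧸ N, inferInstance, inferInstance, hrange, ?_, H, QuotientGroup.mk' N,
    QuotientGroup.mk'_surjective N⟩
  intro H₁ N₁ hN₁ hne hr
  let K : Subgroup H := H₁.comap (QuotientGroup.mk' N)
  let H₂ : Subgroup P := K.map H.subtype
  let e : K ≃* H₂ := K.equivMapOfInjective H.subtype H.subtype_injective
  let φ : K →* H₁ := (QuotientGroup.mk' N).subgroupComap H₁
  have hφ : Function.Surjective φ :=
    MonoidHom.subgroupComap_surjective_of_surjective _ _ (QuotientGroup.mk'_surjective N)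
  let g : H₂ →* H₁ ⧸ N₁ := (QuotientGroup.mk' N₁).comp (φ.comp e.symm.toMonoidHom)
  have hg : Function.Surjective g :=
    (QuotientGroup.mk'_surjective N₁).comp (hφ.comp e.symm.surjective)
  let e₂ : H₂ ⧸ g.ker ≃* H₁ ⧸ N₁ := QuotientGroup.quotientKerEquivOfSurjective g hg
  have hmem : Nat.card (H₁ ⧸ N₁) ∈ S := by
    refine ⟨H₂, g.ker, inferInstance, Nat.card_congr e₂.toEquiv, ?_⟩
    rw [range_orderOf_congr e₂, hr]
  have h1 := hmin _ hmem
  rw [← hcard] at h1
  have h2 : Nat.card (H₁ ⧸ N₁) * Nat.card N₁ = Nat.card H₁ :=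
    (Subgroup.card_eq_card_quotient_mul_card_subgroup N₁).symm
  have h3 : Nat.card H₁ ≤ Nat.card (H ⧸ N) := Subgroup.card_le_card_group H₁
  have hpos : 0 < Nat.card (H₁ ⧸ N₁) := Nat.card_pos
  rcases hne with h | h
  · have h4 : Nat.card H₁ < Nat.card (H ⧸ N) := by
      apply lt_of_le_of_ne h3
      intro h5
      exact h (Subgroup.eq_top_of_card_eq _ h5)
    have h5 : 0 < Nat.card N₁ := Nat.card_pos
    nlinarith
  · have h4 : 1 < Nat.card N₁ := (Subgroup.one_lt_card_iff_ne_bot N₁).2 h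
    nlinarith

lemma qp_section {P X : Type*} [Group P] [Group X] [Finite P] (H : Subgroup P) (f : H →* X)
    (hf : Function.Surjective f) (w : ℕ) (hw : w.Prime) (hQ : Qp w P) : Qp w X := by
  have hlift : ∀ x : X, (∃ e, x ^ (w ^ e) = 1) → ∃ h : H, f h = x ∧ ∃ k, h ^ (w ^ k) = 1 := by
    rintro x ⟨e, he⟩
    obtain ⟨h, rfl⟩ := hf x
    have hne : orderOf h ≠ 0 := (orderOf_pos h).ne'
    obtain ⟨k, m, hm, hord⟩ := Nat.exists_eq_pow_mul_and_not_dvd hne w hw.ne_one
    have hcop : m.Coprime (orderOf (f h)) := by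
      have h1 : orderOf (f h) ∣ w ^ e := orderOf_dvd_of_pow_eq_one he
      apply Nat.Coprime.coprime_dvd_right h1
      apply Nat.Coprime.pow_right
      exact ((Nat.Prime.coprime_iff_not_dvd hw).2 hm).symm
    obtain ⟨m', hm'⟩ := exists_pow_eq_self_of_coprime hcop
    refine ⟨(h ^ m) ^ m', ?_, k, ?_⟩
    · rw [map_pow, map_pow, hm']
    · rw [← pow_mul, ← pow_mul]
      have : m * (m' * w ^ k) = orderOf h * m' := by
        rw [hord]
        ring
      rw [this, pow_mul, pow_orderOf_eq_one, one_pow]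
  intro x y hx hy
  obtain ⟨h, rfl, k, hk⟩ := hlift x hx
  obtain ⟨h', rfl, k', hk'⟩ := hlift y hy
  obtain ⟨e, he⟩ := hQ (h : P) (h' : P) ⟨k, by exact_mod_cast congrArg Subtype.val hk⟩
    ⟨k', by exact_mod_cast congrArg Subtype.val hk'⟩
  refine ⟨e, ?_⟩
  rw [← map_mul, ← map_pow]
  have : (h * h') ^ (w ^ e) = 1 := by
    apply Subtype.ext
    exact_mod_cast he
  rw [this, map_one]

lemma qp_pi {ι : Type*} [Fintype ι] (F : ι → Type*) [∀ j, Group (F j)] (w : ℕ)
    (h : ∀ j, Qp w (F j)) : Qp w (∀ j, F j) := by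
  rintro x y ⟨e, he⟩ ⟨e', he'⟩
  have h1 : ∀ j, ∃ k, (x j * y j) ^ (w ^ k) = 1 := fun j =>
    h j (x j) (y j) ⟨e, congrFun he j⟩ ⟨e', congrFun he' j⟩
  choose k hk using h1
  refine ⟨∑ j, k j, ?_⟩
  funext j
  have h2 : k j ≤ ∑ j, k j := Finset.single_le_sum (fun _ _ => Nat.zero_le _) (Finset.mem_univ j)
  obtain ⟨t, ht⟩ := Nat.exists_eq_add_of_le h2
  rw [ht]
  show (x j * y j) ^ (w ^ (k j + t)) = 1
  rw [pow_add, pow_mul, hk, one_pow]

/-- The Frobenius group -/
@[ext] structure Fr (E : Type) [Field E] (Z : Subgroup Eˣ) where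
  /-- translation part -/
  x : E
  /-- scaling part -/
  z : Z

section fr

variable {E : Type} [Field E] {Z : Subgroup Eˣ}

/-- scalar of an element -/
abbrev sc (a : Z) : E := ((a : Eˣ) : E)

noncomputable instance : Mul (Fr E Z) := ⟨fun a b => ⟨a.x + sc a.z * b.x, a.z * b.z⟩⟩
noncomputable instance : One (Fr E Z) := ⟨⟨0, 1⟩⟩
noncomputable instance : Inv (Fr E Z) := ⟨fun a => ⟨-(sc a.z⁻¹ * a.x), a.z⁻¹⟩⟩

@[simp] lemma Fr.mul_x (a b : Fr E Z) : (a * b).x = a.x + sc a.z * b.x := rfl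
@[simp] lemma Fr.mul_z (a b : Fr E Z) : (a * b).z = a.z * b.z := rfl
@[simp] lemma Fr.one_x : (1 : Fr E Z).x = 0 := rfl
@[simp] lemma Fr.one_z : (1 : Fr E Z).z = 1 := rfl
@[simp] lemma Fr.inv_x (a : Fr E Z) : (a⁻¹).x = -(sc a.z⁻¹ * a.x) := rfl
@[simp] lemma Fr.inv_z (a : Fr E Z) : (a⁻¹).z = a.z⁻¹ := rfl

lemma sc_mul (a b : Z) : sc (a * b) = sc a * sc b := rfl
lemma sc_one : sc (1 : Z) = (1 : E) := rfl
lemma sc_inv_mul (a : Z) : sc a⁻¹ * sc a = (1 : E) := by
  rw [← sc_mul, inv_mul_cancel, sc_one]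

noncomputable instance : Group (Fr E Z) :=
  Group.ofLeftAxioms
    (by
      intro a b c
      ext1
      · simp [sc_mul, mul_add, add_assoc, mul_assoc]
      · simp [mul_assoc])
    (by
      intro a
      ext1
      · simp [sc_one]
      · simp)
    (by
      intro a
      ext1
      · simp [← mul_assoc, sc_inv_mul]
      · simp)

lemma Fr.pow_trans (a : Fr E Z) (h : a.z = 1) (n : ℕ) : (a ^ n).x = n • a.x ∧ (a ^ n).z = 1 := by
  induction n with
  | zero => simp
  | succ n ih =>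
    rw [pow_succ]
    simp only [Fr.mul_x, Fr.mul_z, ih.2, h, mul_one, sc_one, one_mul, and_true]
    rw [ih.1, succ_nsmul]

lemma Fr.orderOf_of_z (a : Fr E Z) (h : a.z ≠ 1) : orderOf a = orderOf a.z := by
  have h1 : (1 - sc a.z) ≠ 0 := by
    intro h2
    apply h
    apply Subtype.ext
    apply Units.ext
    exact (sub_eq_zero.1 h2).symm
  let u : E := (1 - sc a.z)⁻¹ * a.x
  have hu : u - sc a.z * u = a.x := by
    have : u - sc a.z * u = (1 - sc a.z) * u := by ring
    rw [this, ← mul_assoc, mul_inv_cancel₀ h1, one_mul]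
  let c : Fr E Z := ⟨u, 1⟩
  let i : Z →* Fr E Z :=
    { toFun := fun w => ⟨0, w⟩
      map_one' := rfl
      map_mul' := fun w w' => by
        ext1
        · simp
        · simp }
  have hi : Function.Injective i := fun w w' hww => congrArg Fr.z hww
  have hconj : a = c * i a.z * c⁻¹ := by
    ext1
    · simp [c, i, sc_one, inv_one]
      rw [← hu]
      ring
    · simp [c, i]
  have h3 : c * i a.z * c⁻¹ = MulAut.conj c (i a.z) := rfl
  conv_lhs => rw [hconj, h3, MulEquiv.orderOf_eq]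
  exact orderOf_injective _ hi _

end fr

theorem exists_frob (u v : ℕ) (hu : u.Prime) (hv : v.Prime) (huv : u ≠ v) :
    ∃ (F : Type) (_ : Group F) (_ : Finite F),
      (∀ x : F, orderOf x = 1 ∨ orderOf x = u ∨ orderOf x = v) ∧
      (∃ x : F, orderOf x = u) ∧ (∃ x : F, orderOf x = v) ∧
      ∀ w : ℕ, w.Prime → w ≠ v → Qp w F := by
  classical
  haveI : Fact u.Prime := ⟨hu⟩
  haveI : Fact v.Prime := ⟨hv⟩
  let E : Type := GaloisField u (v - 1)
  haveI : Fintype E := Fintype.ofFinite E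
  have hv1 : v - 1 ≠ 0 := by
    have := hv.two_le
    omega
  have hE : Nat.card E = u ^ (v - 1) := GaloisField.card u (v - 1) hv1
  have hcharE : (u : E) = 0 := CharP.cast_eq_zero E u
  have hcop : u.Coprime v := (Nat.coprime_primes hu hv).2 huv
  have hdvd : v ∣ Nat.card Eˣ := by
    have h1 : Nat.card Eˣ = u ^ (v - 1) - 1 := by
      rw [Nat.card_eq_fintype_card, Fintype.card_units, ← hE, Nat.card_eq_fintype_card]
    rw [h1]
    have h2 := Nat.ModEq.pow_totient hcop
    rw [Nat.totient_prime hv] at h2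
    have h3 : 1 ≤ u ^ (v - 1) := Nat.one_le_pow _ _ hu.pos
    exact (Nat.modEq_iff_dvd' h3).1 h2.symm
  obtain ⟨ζ, hζ⟩ := exists_prime_orderOf_dvd_card' (G := Eˣ) v hdvd
  let Z : Subgroup Eˣ := Subgroup.zpowers ζ
  have hZcard : Nat.card Z = v := by
    rw [Nat.card_zpowers, hζ]
  have hZord : ∀ z : Z, z ≠ 1 → orderOf z = v := by
    intro z hz
    have h1 : orderOf z ∣ v := by
      have h0 := orderOf_dvd_natCard z
      rwa [hZcard] at h0
    rcases (Nat.dvd_prime hv).1 h1 with h2 | h2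
    · exact absurd (orderOf_eq_one_iff.1 h2) hz
    · exact h2
  have hpow_u : ∀ a : Fr E Z, a.z = 1 → a ^ u = 1 := by
    intro a ha
    obtain ⟨h1, h2⟩ := a.pow_trans ha u
    ext1
    · rw [h1, nsmul_eq_mul, hcharE, zero_mul]
      rfl
    · rw [h2]
      rfl
  have hord_u : ∀ a : Fr E Z, a.z = 1 → a ≠ 1 → orderOf a = u := by
    intro a ha hne
    exact orderOf_eq_prime (hpow_u a ha) hne
  haveI : Finite (Fr E Z) := by
    have e : Fr E Z ≃ E × Z :=
      { toFun := fun a => (a.x, a.z)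
        invFun := fun p => ⟨p.1, p.2⟩
        left_inv := fun a => rfl
        right_inv := fun p => rfl }
    exact Finite.of_equiv _ e.symm
  refine ⟨Fr E Z, inferInstance, inferInstance, ?_, ?_, ?_, ?_⟩
  · intro a
    by_cases hz : a.z = 1
    · by_cases ha : a = 1
      · left
        rw [ha, orderOf_one]
      · right; left
        exact hord_u a hz ha
    · right; right
      rw [a.orderOf_of_z hz]
      exact hZord _ hz
  · refine ⟨⟨1, 1⟩, hord_u _ rfl ?_⟩
    intro h
    have := congrArg Fr.x h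
    simp at this
  · have hζZ : (⟨ζ, Subgroup.mem_zpowers ζ⟩ : Z) ≠ 1 := by
      intro h
      have h1 : ζ = 1 := congrArg Subtype.val h
      rw [h1, orderOf_one] at hζ
      exact hv.one_lt.ne hζ
    refine ⟨⟨0, ⟨ζ, Subgroup.mem_zpowers ζ⟩⟩, ?_⟩
    rw [Fr.orderOf_of_z _ hζZ]
    exact hZord _ hζZ
  · intro w hw hwv
    have hz1 : ∀ a : Fr E Z, (∃ e, a ^ (w ^ e) = 1) → a.z = 1 := by
      rintro a ⟨e, he⟩
      by_contra hz
      have h1 : orderOf a = v := by
        rw [a.orderOf_of_z hz]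
        exact hZord _ hz
      have h2 : v ∣ w ^ e := by
        rw [← h1]
        exact orderOf_dvd_of_pow_eq_one he
      exact hwv ((Nat.prime_dvd_prime_iff_eq hv hw).1 (hv.dvd_of_dvd_pow h2)).symm
    intro a b ha hb
    have ha1 := hz1 a ha
    have hb1 := hz1 b hb
    have hab : (a * b).z = 1 := by
      rw [Fr.mul_z, ha1, hb1, one_mul]
    by_cases ha2 : a = 1
    · subst ha2
      simpa using hb
    by_cases hb2 : b = 1
    · subst hb2
      simpa using ha
    obtain ⟨e, he⟩ := ha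
    have h1 : orderOf a = u := hord_u a ha1 ha2
    have h2 : u ∣ w ^ e := by
      rw [← h1]
      exact orderOf_dvd_of_pow_eq_one he
    have h3 : u = w := (Nat.prime_dvd_prime_iff_eq hu hw).1 (hu.dvd_of_dvd_pow h2)
    refine ⟨1, ?_⟩
    rw [pow_one, ← h3]
    exact hpow_u _ hab

section spectrum

variable {s : ℕ} {p : Fin s → Fin 2 → ℕ}

/-- The spectrum -/
abbrev Om (p : Fin s → Fin 2 → ℕ) : Set ℕ :=
  {m : ℕ | ∃ c : Fin s → ℕ, (∀ j, c j = 1 ∨ c j = p j 0 ∨ c j = p j 1) ∧ m = ∏ j, c j}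

lemma coprime_of_values (hp : ∀ j i, (p j i).Prime)
    (hinj : ∀ j i j' i', p j i = p j' i' → j = j' ∧ i = i') {c : Fin s → ℕ}
    (hc : ∀ j, c j = 1 ∨ c j = p j 0 ∨ c j = p j 1) (i j : Fin s) (hij : i ≠ j) :
    (c i).Coprime (c j) := by
  have key : ∀ a b : Fin 2, (p i a).Coprime (p j b) := by
    intro a b
    rw [Nat.coprime_primes (hp _ _) (hp _ _)]
    intro h
    exact hij (hinj _ _ _ _ h).1
  rcases hc i with h | h | h <;> rcases hc j with h' | h' | h' <;> rw [h, h'] <;>
    first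
      | exact Nat.coprime_one_left _
      | exact Nat.coprime_one_right _
      | exact key _ _

lemma orderOf_pi_eq (hp : ∀ j i, (p j i).Prime)
    (hinj : ∀ j i j' i', p j i = p j' i' → j = j' ∧ i = i')
    {F : Fin s → Type} [∀ j, Group (F j)] (z : ∀ j, F j)
    (hz : ∀ j, orderOf (z j) = 1 ∨ orderOf (z j) = p j 0 ∨ orderOf (z j) = p j 1) :
    orderOf z = ∏ j, orderOf (z j) := by
  apply Nat.dvd_antisymm
  · apply orderOf_dvd_of_pow_eq_one
    funext j
    show z j ^ (∏ j, orderOf (z j)) = 1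
    rw [orderOf_dvd_iff_pow_eq_one.symm]
    exact Finset.dvd_prod_of_mem _ (Finset.mem_univ j)
  · apply Finset.prod_dvd_of_isRelPrime
    · intro i _ j _ hij
      exact Nat.coprime_iff_isRelPrime.1 (coprime_of_values hp hinj hz i j hij)
    · intro j _
      apply orderOf_dvd_of_pow_eq_one
      have := congrFun (pow_orderOf_eq_one z) j
      exact this

theorem spectrum_pi (hp : ∀ j i, (p j i).Prime)
    (hinj : ∀ j i j' i', p j i = p j' i' → j = j' ∧ i = i')
    (F : Fin s → Type) [∀ j, Group (F j)]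
    (hord : ∀ j, ∀ x : F j, orderOf x = 1 ∨ orderOf x = p j 0 ∨ orderOf x = p j 1)
    (hex0 : ∀ j, ∃ x : F j, orderOf x = p j 0) (hex1 : ∀ j, ∃ x : F j, orderOf x = p j 1) :
    Set.range (orderOf : (∀ j, F j) → ℕ) = Om p := by
  ext m
  constructor
  · rintro ⟨z, rfl⟩
    exact ⟨fun j => orderOf (z j), fun j => hord j _, orderOf_pi_eq hp hinj z fun j => hord j _⟩
  · rintro ⟨c, hc, rfl⟩
    have hx : ∀ j, ∃ x : F j, orderOf x = c j := by
      intro j
      rcases hc j with h | h | h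
      · exact ⟨1, by rw [orderOf_one, h]⟩
      · obtain ⟨x, hx⟩ := hex0 j
        exact ⟨x, by rw [hx, h]⟩
      · obtain ⟨x, hx⟩ := hex1 j
        exact ⟨x, by rw [hx, h]⟩
    choose z hz using hx
    refine ⟨z, ?_⟩
    rw [orderOf_pi_eq hp hinj z fun j => hord j _]
    exact Finset.prod_congr rfl fun j _ => hz j

lemma prime_dvd_c (hp : ∀ j i, (p j i).Prime)
    (hinj : ∀ j i j' i', p j i = p j' i' → j = j' ∧ i = i') (c : Fin s → ℕ)
    (hc : ∀ j, c j = 1 ∨ c j = p j 0 ∨ c j = p j 1) (j : Fin s) (q : Fin 2)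
    (hq : p j q ∣ ∏ k, c k) : p j q ∣ c j := by
  obtain ⟨k, -, hk⟩ := (Prime.dvd_finset_prod_iff (hp j q).prime _).1 hq
  rcases hc k with h | h | h
  · rw [h] at hk
    exact absurd (Nat.dvd_one.1 hk) (hp j q).one_lt.ne'
  · have h0 := hk
    rw [h] at h0
    have := (Nat.prime_dvd_prime_iff_eq (hp j q) (hp k 0)).1 h0
    have h6 := (hinj _ _ _ _ this).1
    subst h6
    exact hk
  · have h0 := hk
    rw [h] at h0
    have := (Nat.prime_dvd_prime_iff_eq (hp j q) (hp k 1)).1 h0
    have h6 := (hinj _ _ _ _ this).1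
    subst h6
    exact hk

/-- The two primes of a single factor cannot be in commuting position. -/
theorem not_both (hp : ∀ j i, (p j i).Prime)
    (hinj : ∀ j i j' i', p j i = p j' i' → j = j' ∧ i = i')
    (X : Type*) [Group X] (hX : Set.range (orderOf : X → ℕ) = Om p) (j : Fin s) (i i' : Fin 2)
    (hii : i ≠ i') (hQ : Qp (p j i) X) (hQ' : Qp (p j i') X) : False := by
  classical
  set u := p j i with hu
  set v := p j i' with hv
  have huv : u ≠ v := fun h => hii (hinj _ _ _ _ h).2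
  have hup := hp j i
  have hvp := hp j i'
  have hOm : ∀ t : Fin 2, p j t ∈ Om p := by
    intro t
    refine ⟨fun k => if k = j then p j t else 1, ?_, ?_⟩
    · intro k
      by_cases hk : k = j
      · subst hk
        simp only [if_true]
        fin_cases t
        · exact Or.inr (Or.inl rfl)
        · exact Or.inr (Or.inr rfl)
      · simp [hk]
    · rw [Finset.prod_ite_eq' Finset.univ j (fun _ => p j t)]
      simp
  obtain ⟨x, hx⟩ : p j i ∈ Set.range (orderOf : X → ℕ) := by rw [hX]; exact hOm i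
  obtain ⟨y, hy⟩ : p j i' ∈ Set.range (orderOf : X → ℕ) := by rw [hX]; exact hOm i'
  have hxu : x ^ u = 1 := by rw [hu, ← hx]; exact pow_orderOf_eq_one x
  have hyv : y ^ v = 1 := by rw [hv, ← hy]; exact pow_orderOf_eq_one y
  -- the commutator
  have h1 : ∃ e, (x * (y * x⁻¹ * y⁻¹)) ^ (u ^ e) = 1 := by
    apply hQ x _ ⟨1, by rwa [pow_one]⟩
    refine ⟨1, ?_⟩
    rw [pow_one, conj_pow, inv_pow, hxu]
    group
  have h2 : ∃ e, ((x * y * x⁻¹) * y⁻¹) ^ (v ^ e) = 1 := by
    apply hQ' _ y⁻¹ ?_ ⟨1, by rw [pow_one, inv_pow, hyv, inv_one]⟩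
    refine ⟨1, ?_⟩
    rw [pow_one, conj_pow, hyv]
    group
  obtain ⟨e, he⟩ := h1
  obtain ⟨e', he'⟩ := h2
  have h3 : x * (y * x⁻¹ * y⁻¹) = x * y * x⁻¹ * y⁻¹ := by group
  rw [h3] at he
  have hcop : (u ^ e).Coprime (v ^ e') :=
    Nat.Coprime.pow _ _ ((Nat.coprime_primes hup hvp).2 huv)
  have h4 : orderOf (x * y * x⁻¹ * y⁻¹) = 1 :=
    Nat.eq_one_of_dvd_coprimes hcop (orderOf_dvd_of_pow_eq_one he)
      (orderOf_dvd_of_pow_eq_one he')
  rw [orderOf_eq_one_iff] at h4
  have hcomm : Commute x y := by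
    have h5 : x * y * x⁻¹ = y := mul_inv_eq_one.1 h4
    show x * y = y * x
    calc x * y = x * y * x⁻¹ * x := by group
      _ = y * x := by rw [h5]
  have hord : orderOf (x * y) = u * v := by
    rw [hcomm.orderOf_mul_eq_mul_orderOf_of_coprime (by rw [hx, hy]; exact (Nat.coprime_primes hup hvp).2 huv),
      hx, hy]
  have hmem : u * v ∈ Om p := by
    rw [← hX, ← hord]
    exact ⟨_, rfl⟩
  obtain ⟨c, hc, hcprod⟩ := hmem
  have hdiv : ∀ q : Fin 2, p j q ∣ ∏ k, c k → p j q ∣ c j := fun q hq =>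
    prime_dvd_c hp hinj c hc j q hq
  have h7 := hdiv i (by rw [← hcprod, ← hu]; exact dvd_mul_right _ _)
  have h8 := hdiv i' (by rw [← hcprod, ← hv]; exact dvd_mul_left _ _)
  rw [← hu] at h7
  rw [← hv] at h8
  have h9 : ∀ q : Fin 2, ∀ t : ℕ, t.Prime → t ∣ p j q → t = p j q := fun q t ht hd =>
    (Nat.prime_dvd_prime_iff_eq ht (hp j q)).1 hd
  rcases hc j with h | h | h
  · rw [h] at h7
    exact hup.one_lt.ne' (Nat.dvd_one.1 h7)
  · rw [h] at h7 h8
    exact huv ((h9 0 u hup h7).trans (h9 0 v hvp h8).symm)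
  · rw [h] at h7 h8
    exact huv ((h9 1 u hup h7).trans (h9 1 v hvp h8).symm)

end spectrum

/-- A finite group is critical with respect to a set Ω of natural numbers when its set of element orders is Ω while no proper section H/N (H a subgroup, N normal in H, (H, N) ≠ (whole group, 1)) has Ω as its set of element orders. Let s ≥ 1 and let p(j,0), p(j,1) (j < s) be 2s pairwise distinct primes, and let Ω be the set of all products c(0)·…·c(s−1) with each c(j) ∈ {1, p(j,0), p(j,1)}. Then there are 2^s pairwise non-isomorphic finite groups critical with respect to Ω. -/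
theorem result (s : ℕ) (hs : 1 ≤ s) (p : Fin s → Fin 2 → ℕ)
    (hp : ∀ j i, (p j i).Prime) (hinj : ∀ j i j' i', p j i = p j' i' → j = j' ∧ i = i') :
    ∃ (G : Fin (2 ^ s) → Type) (_ : ∀ a, Group (G a)) (_ : ∀ a, Fintype (G a)),
      (∀ a b, a ≠ b → ¬ Nonempty (G a ≃* G b)) ∧
      ∀ a, Set.range (orderOf : (G a) → ℕ) = {m : ℕ | ∃ c : Fin s → ℕ, (∀ j, c j = 1 ∨ c j = p j 0 ∨ c j = p j 1) ∧ m = ∏ j, c j} ∧
      ∀ (H : Subgroup (G a)) (N : Subgroup ↥H) [N.Normal], (H ≠ ⊤ ∨ N ≠ ⊥) → Set.range (orderOf : (↥H ⧸ N) → ℕ) ≠ {m : ℕ | ∃ c : Fin s → ℕ, (∀ j, c j = 1 ∨ c j = p j 0 ∨ c j = p j 1) ∧ m = ∏ j, c j} := by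
  classical
  let bit : Fin (2 ^ s) → Fin s → Fin 2 := fun a => finFunctionFinEquiv.symm a
  have hbit : Function.Injective bit := finFunctionFinEquiv.symm.injective
  have hdist : ∀ j (i : Fin 2), p j i ≠ p j (i + 1) := by
    intro j i h
    have := (hinj _ _ _ _ h).2
    revert this
    fin_cases i <;> decide
  have hfr := fun x : Fin s × Fin 2 =>
    exists_frob (p x.1 x.2) (p x.1 (x.2 + 1)) (hp _ _) (hp _ _) (hdist _ _)
  choose F iF fF hF1 hF2 hF3 hF4 using hfr
  have key : ∀ a : Fin (2 ^ s), ∃ (G : Type) (_ : Group G) (_ : Finite G),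
      Set.range (orderOf : G → ℕ) = Om p ∧
      (∀ (H : Subgroup G) (N : Subgroup ↥H) [N.Normal], (H ≠ ⊤ ∨ N ≠ ⊥) →
        Set.range (orderOf : (↥H ⧸ N) → ℕ) ≠ Om p) ∧
      ∀ j, Qp (p j (bit a j)) G := by
    intro a
    letI : ∀ j, Group (F (j, bit a j)) := fun j => iF _
    haveI : ∀ j, Finite (F (j, bit a j)) := fun j => fF _
    have hspec : Set.range (orderOf : (∀ j, F (j, bit a j)) → ℕ) = Om p := by
      apply spectrum_pi hp hinj
      · intro j x
        have h := hF1 (j, bit a j) x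
        have hcases : bit a j = 0 ∨ bit a j = 1 := by
          generalize bit a j = t
          fin_cases t
          · exact Or.inl rfl
          · exact Or.inr rfl
        rcases hcases with h0 | h0
        · simp only [h0] at h
          simpa [h0] using h
        · simp only [h0] at h
          have h11 : (1 + 1 : Fin 2) = 0 := rfl
          rw [h11] at h
          rcases h with h | h | h
          · exact Or.inl h
          · exact Or.inr (Or.inr h)
          · exact Or.inr (Or.inl h)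
      · intro j
        have hcases : bit a j = 0 ∨ bit a j = 1 := by
          generalize bit a j = t
          fin_cases t
          · exact Or.inl rfl
          · exact Or.inr rfl
        rcases hcases with h0 | h0
        · have h := hF2 (j, bit a j)
          simp only [h0] at h
          simpa [h0] using h
        · have h := hF3 (j, bit a j)
          simp only [h0] at h
          have h11 : (1 + 1 : Fin 2) = 0 := rfl
          rw [h11] at h
          simpa [h0] using h
      · intro j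
        have hcases : bit a j = 0 ∨ bit a j = 1 := by
          generalize bit a j = t
          fin_cases t
          · exact Or.inl rfl
          · exact Or.inr rfl
        rcases hcases with h0 | h0
        · have h := hF3 (j, bit a j)
          simp only [h0] at h
          have h11 : (0 + 1 : Fin 2) = 1 := rfl
          rw [h11] at h
          simpa [h0] using h
        · have h := hF2 (j, bit a j)
          simp only [h0] at h
          simpa [h0] using h
    obtain ⟨G, iG, fG, hG1, hG2, H, f, hf⟩ := exists_crit (∀ j, F (j, bit a j)) (Om p) hspec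
    refine ⟨G, iG, fG, hG1, hG2, ?_⟩
    intro j
    apply qp_section H f hf _ (hp _ _)
    apply qp_pi
    intro k
    apply hF4 _ _ (hp _ _)
    intro h
    have h1 := hinj _ _ _ _ h
    have hjk : j = k := h1.1
    subst hjk
    have h2 : bit a j = bit a j + 1 := h1.2
    revert h2
    generalize bit a j = t
    fin_cases t <;> decide
  choose G iG fG hG1 hG2 hG3 using key
  refine ⟨G, iG, fun a => @Fintype.ofFinite _ (fG a), ?_, ?_⟩
  · intro a b hab ⟨e⟩
    have hne : ∃ j, bit a j ≠ bit b j := by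
      by_contra h
      push Not at h
      exact hab (hbit (funext h))
    obtain ⟨j, hj⟩ := hne
    letI := iG a
    letI := iG b
    apply not_both hp hinj (G a) (hG1 a) j (bit a j) (bit b j) hj (hG3 a j)
    intro x y hx hy
    obtain ⟨ex, hx⟩ := hx
    obtain ⟨ey, hy⟩ := hy
    obtain ⟨e', he'⟩ := hG3 b j (e x) (e y)
      ⟨ex, by rw [← map_pow, hx, map_one]⟩ ⟨ey, by rw [← map_pow, hy, map_one]⟩
    refine ⟨e', ?_⟩
    apply e.injective
    rw [map_pow, map_mul, he', map_one]
  · intro a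
    exact ⟨hG1 a, hG2 a⟩

end Cfsg.Agent.S3599
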