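import Cfsg.Statements.S3619
import Mathlib.GroupTheory.GroupAction.Jordan

set_option autoImplicit false
set_option linter.style.haveILetI false
open Cfsg

namespace Cfsg.Agent.S3619

open MulAction Pointwise

theorem result {G Ω : Type*} [Group G] [Finite G] [MulAction G Ω] [FaithfulSMul G Ω] [Finite Ω]
    (hqp : ∀ N : Subgroup G, N.Normal → N ≠ ⊥ → MulAction.IsPretransitive ↥N Ω)
    (Γ : Set Ω) (hΓ1 : 1 < Γ.ncard) (hΓ2 : Γ.ncard < Nat.card Ω)
    (hJ : MulAction.IsPretransitive ↥(fixingSubgroup G Γᶜ) ↥(SubMulAction.ofFixingSubgroup G Γᶜ))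
    (hJp : MulAction.IsPreprimitive ↥(fixingSubgroup G Γᶜ) ↥(SubMulAction.ofFixingSubgroup G Γᶜ)) :
    MulAction.IsMultiplyPretransitive G Ω (Nat.card Ω - Γ.ncard + 1) := by
  classical
  haveI := hJ
  haveI := hJp
  -- notation
  set K : Subgroup G := fixingSubgroup G Γᶜ with hK
  have hKfix : ∀ k ∈ K, ∀ z, z ∉ Γ → k • z = z := by
    intro k hk z hz
    exact (mem_fixingSubgroup_iff G).1 hk z hz
  obtain ⟨x, y, hx, hy, hxy⟩ := (Set.one_lt_ncard_iff (Set.toFinite Γ)).1 hΓ1
  have hxT : x ∈ SubMulAction.ofFixingSubgroup G Γᶜ := by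
    rw [SubMulAction.mem_ofFixingSubgroup_iff]
    simpa using hx
  have hyT : y ∈ SubMulAction.ofFixingSubgroup G Γᶜ := by
    rw [SubMulAction.mem_ofFixingSubgroup_iff]
    simpa using hy
  have hKne : K ≠ ⊥ := by
    obtain ⟨⟨k, hk⟩, hkxy⟩ := MulAction.exists_smul_eq K (⟨x, hxT⟩ : SubMulAction.ofFixingSubgroup G Γᶜ) ⟨y, hyT⟩
    have hkxy' : k • x = y := congrArg Subtype.val hkxy
    intro hbot
    rw [hbot, Subgroup.mem_bot] at hk
    subst hk
    rw [one_smul] at hkxy'
    exact hxy hkxy'
  -- K stabilizes each nontrivial block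
  have hKstab : ∀ C : Set Ω, IsBlock G C → ¬ C.Subsingleton → ∀ k ∈ K, k • C = C := by
    intro C hC hCs k hk
    by_cases hsub : C ⊆ Γ
    · have hB' : IsBlock K (Subtype.val ⁻¹' C : Set (SubMulAction.ofFixingSubgroup G Γᶜ)) :=
        (IsBlock.subgroup (H := K) hC).subtype_val_preimage
      rcases hB'.subsingleton_or_eq_univ with h | h
      · exfalso
        apply hCs
        intro u hu v hv
        have huT : u ∈ SubMulAction.ofFixingSubgroup G Γᶜ := by
          rw [SubMulAction.mem_ofFixingSubgroup_iff]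
          simpa using hsub hu
        have hvT : v ∈ SubMulAction.ofFixingSubgroup G Γᶜ := by
          rw [SubMulAction.mem_ofFixingSubgroup_iff]
          simpa using hsub hv
        have := @h ⟨u, huT⟩ hu ⟨v, hvT⟩ hv
        exact congrArg Subtype.val this
      · have hCΓ : C = Γ := by
          apply le_antisymm hsub
          intro u hu
          have huT : u ∈ SubMulAction.ofFixingSubgroup G Γᶜ := by
            rw [SubMulAction.mem_ofFixingSubgroup_iff]
            simpa using hu
          have : (⟨u, huT⟩ : SubMulAction.ofFixingSubgroup G Γᶜ) ∈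
              (Subtype.val ⁻¹' C : Set (SubMulAction.ofFixingSubgroup G Γᶜ)) := by
            rw [h]; trivial
          exact this
        subst hCΓ
        have hmaps : ∀ k ∈ K, k • C ⊆ C := by
          intro k hk u hu
          obtain ⟨v, hv, rfl⟩ := hu
          by_contra hc
          have h1 := hKfix k⁻¹ (K.inv_mem hk) _ hc
          rw [inv_smul_smul] at h1
          have h2 : v = k • v := h1
          apply hc
          show k • v ∈ C
          rw [← h2]
          exact hv
        apply le_antisymm (hmaps k hk)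
        intro u hu
        exact ⟨k⁻¹ • u, hmaps k⁻¹ (K.inv_mem hk) ⟨u, hu, rfl⟩, smul_inv_smul k u⟩
    · obtain ⟨z, hzC, hzΓ⟩ := Set.not_subset.1 hsub
      have hkz := hKfix k hk z hzΓ
      refine (isBlock_iff_smul_eq_of_nonempty.1 hC) ⟨z, ⟨z, hzC, hkz⟩, hzC⟩
  -- primitivity of G
  have hprim : IsPreprimitive G Ω := by
    have htop : IsPretransitive G Ω := by
      have h1 : (⊤ : Subgroup G) ≠ ⊥ := by
        intro h
        apply hKne
        rw [eq_bot_iff, ← h]
        exact le_top
      have h2 := hqp ⊤ inferInstance h1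
      refine ⟨fun a b => ?_⟩
      obtain ⟨⟨g, _⟩, h⟩ := MulAction.exists_smul_eq (⊤ : Subgroup G) a b
      exact ⟨g, h⟩
    haveI := htop
    refine ⟨?_⟩
    intro B hB
    by_contra hcon
    have hB1 : ¬ B.Subsingleton := fun h => hcon (Or.inl h)
    have hB2 : B ≠ Set.univ := fun h => hcon (Or.inr h)
    set M : Subgroup G := (stabilizer G B).normalCore with hM
    have hKM : K ≤ M := by
      intro k hk
      rw [hM]
      intro b
      show b * k * b⁻¹ ∈ stabilizer G B
      have hC : IsBlock G (b⁻¹ • B) := hB.translate b⁻¹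
      have hCs : ¬ (b⁻¹ • B).Subsingleton := by
        intro h
        apply hB1
        intro u hu v hv
        have := h ⟨u, hu, rfl⟩ ⟨v, hv, rfl⟩
        exact MulAction.injective b⁻¹ this
      have := hKstab _ hC hCs k hk
      rw [mem_stabilizer_iff, mul_smul, mul_smul, this, smul_inv_smul]
    have hMne : M ≠ ⊥ := by
      intro h
      apply hKne
      rw [eq_bot_iff, ← h]
      exact hKM
    have hMtr := hqp M inferInstance hMne
    have hBne : B.Nonempty := by
      by_contra h
      rw [Set.not_nonempty_iff_eq_empty] at h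
      exact hB1 (by rw [h]; exact Set.subsingleton_empty)
    obtain ⟨a, ha⟩ := hBne
    obtain ⟨c, hc⟩ := (Set.ne_univ_iff_exists_notMem B).1 hB2
    obtain ⟨⟨m, hm⟩, hmac⟩ := MulAction.exists_smul_eq M a c
    have hmac' : m • a = c := hmac
    have hstab : m ∈ stabilizer G B := Subgroup.normalCore_le _ hm
    apply hc
    rw [← hmac']
    have : m • B = B := hstab
    rw [← this]
    exact ⟨a, ha, rfl⟩
  -- Jordan
  have hs : (Γᶜ).ncard + Γ.ncard = Nat.card Ω := by
    rw [add_comm]
    exact Set.ncard_add_ncard_compl Γ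
  obtain ⟨n, hn⟩ : ∃ n, (Γᶜ).ncard = n + 1 := ⟨(Γᶜ).ncard - 1, by omega⟩
  have hcard : Nat.card Ω - Γ.ncard + 1 = n + 2 := by omega
  rw [hcard]
  have := hprim.isMultiplyPreprimitive hn (by omega) hJp
  exact IsMultiplyPreprimitive.isMultiplyPretransitive G Ω (n + 2)

end Cfsg.Agent.S3619
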