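import Mathlib
import Cfsg.Agent.Lib.H17.Mg4

set_option autoImplicit false
set_option linter.style.longLine false

open Cfsg

namespace Cfsg.Agent.S3620

open Cfsg.Agent.H17.Marg

/-- Let G act faithfully on a finite set in such a way that every non-trivial normal subgroup of G is transitive (G is quasiprimitive). Let Γ be a subset with more than one point and fewer than half of the points, such that the pointwise stabilizer of the complement of Γ acts transitively on Γ. Then G induces every even permutation of the set (G is the alternating or the symmetric group). -/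
theorem result {G Ω : Type*} [Group G] [Finite G] [MulAction G Ω] [FaithfulSMul G Ω] [Fintype Ω] [DecidableEq Ω]
    (hqp : ∀ N : Subgroup G, N.Normal → N ≠ ⊥ → MulAction.IsPretransitive ↥N Ω)
    (Γ : Set Ω) (hΓ1 : 1 < Γ.ncard) (hΓ2 : 2 * Γ.ncard < Fintype.card Ω)
    (hJ : MulAction.IsPretransitive ↥(fixingSubgroup G Γᶜ) ↥(SubMulAction.ofFixingSubgroup G Γᶜ)) :
    ∀ σ : Equiv.Perm Ω, Equiv.Perm.sign σ = 1 → ∃ x : G, (MulAction.toPerm x : Equiv.Perm Ω) = σ := by
  intro σ hσ
  classical
  haveI := Fintype.ofFinite G
  have hJ' : Jor G Γ := jor_of_iso hJ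
  have hc : Nat.card Ω = Fintype.card Ω := Nat.card_eq_fintype_card
  have hprim := prim_of_qp _ Ω rfl hqp Γ hJ' hΓ1 (by rw [hc]; exact hΓ2)
  have hsum : Γ.ncard + Γᶜ.ncard = Nat.card Ω := Set.ncard_add_ncard_compl Γ
  exact alt_of_prim hprim hJ' (by omega) (by omega) σ hσ

end Cfsg.Agent.S3620
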