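import Cfsg.Statements.S3622
import Mathlib

set_option autoImplicit false
open Cfsg

namespace Cfsg.Agent.S3622

/-- Let G be a group of permutations of a finite set, m ≥ 2, and α a point. Say a permutation σ is k-approximated by a set S of permutations if for every k points there is a member of S agreeing with σ at those points. Suppose every permutation that is (m-1)-approximated by the stabilizer of α in G lies in that stabilizer (the stabilizer is (m-1)-closed). Then every permutation that is m-approximated by G lies in G (G is m-closed). -/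
theorem result {Ω : Type*} [Finite Ω] (G : Subgroup (Equiv.Perm Ω)) (m : ℕ) (hm : 2 ≤ m) (α : Ω)
    (hclosed : ∀ σ : Equiv.Perm Ω,
      (∀ t : Fin (m - 1) → Ω, ∃ g ∈ MulAction.stabilizer ↥G α, ∀ i, (g : Equiv.Perm Ω) (t i) = σ (t i)) →
      σ ∈ G ∧ σ α = α) :
    ∀ σ : Equiv.Perm Ω, (∀ t : Fin m → Ω, ∃ g ∈ G, ∀ i, g (t i) = σ (t i)) → σ ∈ G := by
  intro σ hσ
  obtain ⟨m', rfl⟩ : ∃ m', m = m' + 1 := ⟨m - 1, by omega⟩
  have hm1 : m' + 1 - 1 = m' := by omega
  -- pick g with g α = σ α
  obtain ⟨g, hgG, hg⟩ := hσ (fun _ => α)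
  have hgα : g α = σ α := hg 0
  let τ : Equiv.Perm Ω := g⁻¹ * σ
  have hτα : τ α = α := by
    simp only [τ, Equiv.Perm.coe_mul, Function.comp, ← hgα]
    simp
  have key := (hclosed τ ?_).1
  · have : σ = g * τ := by simp [τ]
    rw [this]
    exact G.mul_mem hgG key
  · intro t
    -- extended tuple
    obtain ⟨h, hhG, hh⟩ := hσ (Fin.cons α (fun i => t (Fin.cast hm1.symm i) ))
    refine ⟨⟨g⁻¹ * h, G.mul_mem (G.inv_mem hgG) hhG⟩, ?_, ?_⟩
    · rw [MulAction.mem_stabilizer_iff]
      have h0 := hh 0
      simp only [Fin.cons_zero] at h0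
      change (g⁻¹ * h) α = α
      simp only [Equiv.Perm.coe_mul, Function.comp, h0, ← hgα]
      simp
    · intro i
      have hi := hh (Fin.succ (Fin.cast hm1 i))
      simp only [Fin.cons_succ] at hi
      change (g⁻¹ * h) (t i) = τ (t i)
      simp only [τ, Equiv.Perm.coe_mul, Function.comp]
      have : Fin.cast hm1.symm (Fin.cast hm1 i) = i := by
        ext; simp
      rw [this] at hi
      rw [hi]

end Cfsg.Agent.S3622
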