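import Mathlib
import Cfsg.Statements.S3627
import Cfsg.Agent.Lib.H17.J1Orders

set_option autoImplicit false
set_option linter.style.haveILetI false
open Cfsg

namespace Cfsg.Agent.S3627

open Cfsg.Agent.H17.J1

/-- inversion action of `ℤˣ` on an abelian group. -/
def invAct (N : Type) [CommGroup N] : ℤˣ →* MulAut N where
  toFun u := if u = 1 then 1 else MulEquiv.inv N
  map_one' := by simp
  map_mul' u v := by
    rcases Int.units_eq_one_or u with rfl | rfl <;> rcases Int.units_eq_one_or v with rfl | rfl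
    · simp
    · simp
    · simp
    · ext x
      simp

/-- generalized dihedral group of `C₃^a`. -/
abbrev A (a : ℕ) : Type := Multiplicative (Fin a → ZMod 3) ⋊[invAct _] ℤˣ

lemma exp3 {a : ℕ} (n : Multiplicative (Fin a → ZMod 3)) : n ^ 3 = 1 := by
  have h : (3 : ℕ) • (Multiplicative.toAdd n) = 0 := by
    ext i
    simp only [Pi.smul_apply, Pi.zero_apply, nsmul_eq_mul]
    have : ((3 : ℕ) : ZMod 3) = 0 := by decide
    rw [this, zero_mul]
  exact congrArg Multiplicative.ofAdd h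

lemma invAct_neg (N : Type) [CommGroup N] (n : N) : invAct N (-1) n = n⁻¹ := by
  have h : invAct N (-1) = MulEquiv.inv N := by
    change (if (-1 : ℤˣ) = 1 then (1 : MulAut N) else MulEquiv.inv N) = _
    rw [if_neg (by decide)]
  rw [h]
  rfl

lemma sq_neg {a : ℕ} (n : Multiplicative (Fin a → ZMod 3)) : (⟨n, -1⟩ : A a) ^ 2 = 1 := by
  rw [pow_two]
  apply SemidirectProduct.ext
  · change n * (invAct _ (-1)) n = 1
    rw [invAct_neg, mul_inv_cancel]
  · change (-1 : ℤˣ) * (-1) = 1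
    decide

lemma A_cases {a : ℕ} (x : A a) : x ^ 2 = 1 ∨ x ^ 3 = 1 := by
  obtain ⟨n, u⟩ := x
  rcases Int.units_eq_one_or u with rfl | rfl
  · right
    have : (⟨n, 1⟩ : A a) = SemidirectProduct.inl n := rfl
    rw [this, ← map_pow, exp3, map_one]
  · left
    exact sq_neg n

lemma A_order {a : ℕ} (x : A a) : orderOf x = 1 ∨ orderOf x = 2 ∨ orderOf x = 3 := by
  rcases A_cases x with h | h
  · have := orderOf_dvd_of_pow_eq_one h
    have h2 : orderOf x ≤ 2 := Nat.le_of_dvd (by norm_num) this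
    interval_cases (orderOf x) <;> simp_all
  · have := orderOf_dvd_of_pow_eq_one h
    have h2 : orderOf x ≤ 3 := Nat.le_of_dvd (by norm_num) this
    interval_cases (orderOf x) <;> simp_all

lemma A_two (a : ℕ) : ∃ x : A a, orderOf x = 2 := by
  refine ⟨⟨1, -1⟩, orderOf_eq_prime (sq_neg 1) ?_⟩
  intro h
  have h2 : (-1 : ℤˣ) = 1 := congrArg SemidirectProduct.right h
  exact absurd h2 (by decide)

lemma A_three (a : ℕ) : ∃ x : A (a + 1), orderOf x = 3 := by
  refine ⟨SemidirectProduct.inl (Multiplicative.ofAdd (fun _ => 1)), orderOf_eq_prime ?_ ?_⟩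
  · rw [← map_pow, exp3, map_one]
  · intro h
    have h2 := SemidirectProduct.inl_injective (h.trans (map_one _).symm)
    have h3 := congrFun (congrArg Multiplicative.toAdd h2) 0
    simp only [toAdd_ofAdd, toAdd_one, Pi.zero_apply] at h3
    exact absurd h3 (by decide)

lemma A_card (a : ℕ) : Nat.card (A a) = 3 ^ a * 2 := by
  rw [Nat.card_congr (SemidirectProduct.equivProd), Nat.card_prod]
  congr 1
  · rw [Nat.card_congr (Multiplicative.toAdd (α := Fin a → ZMod 3))]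
    simp [Nat.card_pi, Nat.card_zmod]
  · rw [Nat.card_eq_fintype_card]
    decide

lemma D_cases (x : DihedralGroup 5) : orderOf x = 1 ∨ orderOf x = 2 ∨ orderOf x = 5 := by
  have h : x ^ 2 = 1 ∨ x ^ 5 = 1 := by
    revert x
    decide
  rcases h with h | h
  · have := orderOf_dvd_of_pow_eq_one h
    have h2 : orderOf x ≤ 2 := Nat.le_of_dvd (by norm_num) this
    interval_cases (orderOf x) <;> simp_all
  · have := orderOf_dvd_of_pow_eq_one h
    have h2 : orderOf x ≤ 5 := Nat.le_of_dvd (by norm_num) this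
    interval_cases (orderOf x) <;> simp_all

lemma D_two : orderOf (DihedralGroup.sr (0 : ZMod 5)) = 2 := DihedralGroup.orderOf_sr 0

lemma D_five : orderOf (DihedralGroup.r (1 : ZMod 5)) = 5 := by
  rw [DihedralGroup.orderOf_r]
  decide

lemma lcmlc (a b c : ℕ) : Nat.lcm a (Nat.lcm b c) = Nat.lcm b (Nat.lcm a c) := by
  rw [← Nat.lcm_assoc, ← Nat.lcm_assoc, Nat.lcm_comm a b]

lemma big_of (a : ℕ) (h : a = 1 ∨ a = 2 ∨ a = 3 ∨ a = 5 ∨ a = 6 ∨ a = 7 ∨ a = 10 ∨ a = 11 ∨ a = 15 ∨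
    a = 19) (h2 : ¬ (a = 1 ∨ a = 2 ∨ a = 3 ∨ a = 5 ∨ a = 6 ∨ a = 10 ∨ a = 15)) :
    a = 7 ∨ a = 11 ∨ a = 19 := by
  omega

lemma pig_aux (a b c d : ℕ) (ha : a = 7 ∨ a = 11 ∨ a = 19) (hb : b = 7 ∨ b = 11 ∨ b = 19)
    (hc : c = 7 ∨ c = 11 ∨ c = 19) (hd : d = 7 ∨ d = 11 ∨ d = 19) :
    a = b ∨ a = c ∨ a = d ∨ b = c ∨ b = d ∨ c = d := by
  omega

section generic

variable {J : Type} [Group J] [Finite J]

/-- the group with the same spectrum -/
abbrev H (J : Type) (a : ℕ) : Type := A a × DihedralGroup 5 × J × J × J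

lemma order_H {a : ℕ} (p : A a) (q : DihedralGroup 5) (x y z : J) :
    orderOf ((p, q, x, y, z) : H J a) =
      Nat.lcm (Nat.lcm (orderOf p) (orderOf q)) (Nat.lcm (orderOf x) (Nat.lcm (orderOf y) (orderOf z))) := by
  simp only [Prod.orderOf, Nat.lcm_assoc]

lemma order_J (w x y z : J) :
    orderOf ((w, x, y, z) : J × J × J × J) =
      Nat.lcm (orderOf w) (Nat.lcm (orderOf x) (Nat.lcm (orderOf y) (orderOf z))) := by
  simp only [Prod.orderOf]

lemma exists_pair (a : ℕ) (n : ℕ) (hn : n = 1 ∨ n = 2 ∨ n = 3 ∨ n = 5 ∨ n = 6 ∨ n = 10 ∨ n = 15) :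
    ∃ (p : A (a + 1)) (q : DihedralGroup 5), Nat.lcm (orderOf p) (orderOf q) = n := by
  obtain ⟨p2, hp2⟩ := A_two (a + 1)
  obtain ⟨p3, hp3⟩ := A_three a
  rcases hn with rfl | rfl | rfl | rfl | rfl | rfl | rfl
  · exact ⟨1, 1, by simp⟩
  · exact ⟨p2, 1, by simp [hp2]⟩
  · exact ⟨p3, 1, by simp [hp3]⟩
  · exact ⟨1, _, by rw [orderOf_one, D_five]; rfl⟩
  · exact ⟨p3, _, by rw [hp3, D_two]; rfl⟩
  · exact ⟨p2, _, by rw [hp2, D_five]; rfl⟩
  · exact ⟨p3, _, by rw [hp3, D_five]; rfl⟩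

lemma mk (a : ℕ) (n : ℕ) (hn : n = 1 ∨ n = 2 ∨ n = 3 ∨ n = 5 ∨ n = 6 ∨ n = 10 ∨ n = 15)
    (x y z : J) : ∃ h : H J (a + 1), orderOf h =
      Nat.lcm n (Nat.lcm (orderOf x) (Nat.lcm (orderOf y) (orderOf z))) := by
  obtain ⟨p, q, hpq⟩ := exists_pair a n hn
  exact ⟨(p, q, x, y, z), by rw [order_H, hpq]⟩

lemma small_of_pair {a : ℕ} (p : A a) (q : DihedralGroup 5) :
    Nat.lcm (orderOf p) (orderOf q) = 1 ∨ Nat.lcm (orderOf p) (orderOf q) = 2 ∨
    Nat.lcm (orderOf p) (orderOf q) = 3 ∨ Nat.lcm (orderOf p) (orderOf q) = 5 ∨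
    Nat.lcm (orderOf p) (orderOf q) = 6 ∨ Nat.lcm (orderOf p) (orderOf q) = 10 ∨
    Nat.lcm (orderOf p) (orderOf q) = 15 := by
  rcases A_order p with h1 | h1 | h1 <;> rcases D_cases q with h2 | h2 | h2 <;>
    rw [h1, h2] <;> decide

theorem generic
    (hc : ∀ g : J, orderOf g = 1 ∨ orderOf g = 2 ∨ orderOf g = 3 ∨ orderOf g = 5 ∨
      orderOf g = 6 ∨ orderOf g = 7 ∨ orderOf g = 10 ∨ orderOf g = 11 ∨ orderOf g = 15 ∨
      orderOf g = 19)
    (hs : ∀ n : ℕ, (n = 1 ∨ n = 2 ∨ n = 3 ∨ n = 5 ∨ n = 6 ∨ n = 10 ∨ n = 15) →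
      ∃ z : J, orderOf z = n) (N : ℕ) :
    ∃ (H : Type) (_ : Group H) (_ : Fintype H), N < Fintype.card H ∧
      Set.range (orderOf : H → ℕ) = Set.range (orderOf : J × J × J × J → ℕ) := by
  haveI : Finite (A (N + 1)) := Nat.finite_of_card_ne_zero (by
    rw [A_card]; positivity)
  haveI : Finite (H J (N + 1)) := inferInstance
  letI : Fintype (H J (N + 1)) := Fintype.ofFinite _
  refine ⟨H J (N + 1), inferInstance, inferInstance, ?_, ?_⟩
  · rw [← Nat.card_eq_fintype_card, Nat.card_prod, A_card]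
    have h1 : N < 3 ^ (N + 1) := by
      calc N < N + 1 := by omega
        _ < 3 ^ (N + 1) := Nat.lt_pow_self (by norm_num)
    have h2 : 0 < Nat.card (DihedralGroup 5 × J × J × J) := Nat.card_pos
    nlinarith
  · ext m
    constructor
    · rintro ⟨⟨p, q, x, y, z⟩, rfl⟩
      obtain ⟨w, hw⟩ := hs _ (small_of_pair p q)
      refine ⟨(w, x, y, z), ?_⟩
      change orderOf ((w, x, y, z) : J × J × J × J) = orderOf ((p, q, x, y, z) : H J (N + 1))
      rw [order_J, order_H, hw]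
    · rintro ⟨⟨w, x, y, z⟩, rfl⟩
      change ∃ h : H J (N + 1), orderOf h = orderOf ((w, x, y, z) : J × J × J × J)
      rw [order_J]
      have c1 := hc w
      have c2 := hc x
      have c3 := hc y
      have c4 := hc z
      by_cases s1 : orderOf w = 1 ∨ orderOf w = 2 ∨ orderOf w = 3 ∨ orderOf w = 5 ∨ orderOf w = 6 ∨
          orderOf w = 10 ∨ orderOf w = 15
      · exact mk N _ s1 x y z
      by_cases s2 : orderOf x = 1 ∨ orderOf x = 2 ∨ orderOf x = 3 ∨ orderOf x = 5 ∨ orderOf x = 6 ∨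
          orderOf x = 10 ∨ orderOf x = 15
      · obtain ⟨h, hh⟩ := mk N _ s2 w y z
        exact ⟨h, by rw [hh, lcmlc]⟩
      by_cases s3 : orderOf y = 1 ∨ orderOf y = 2 ∨ orderOf y = 3 ∨ orderOf y = 5 ∨ orderOf y = 6 ∨
          orderOf y = 10 ∨ orderOf y = 15
      · obtain ⟨h, hh⟩ := mk N _ s3 w x z
        exact ⟨h, by rw [hh, lcmlc, lcmlc (orderOf y) (orderOf x)]⟩
      by_cases s4 : orderOf z = 1 ∨ orderOf z = 2 ∨ orderOf z = 3 ∨ orderOf z = 5 ∨ orderOf z = 6 ∨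
          orderOf z = 10 ∨ orderOf z = 15
      · obtain ⟨h, hh⟩ := mk N _ s4 w x y
        refine ⟨h, ?_⟩
        rw [hh, lcmlc, lcmlc (orderOf z) (orderOf x), Nat.lcm_comm (orderOf z) (orderOf y)]
      have one : (1 : ℕ) = 1 ∨ (1 : ℕ) = 2 ∨ (1 : ℕ) = 3 ∨ (1 : ℕ) = 5 ∨ (1 : ℕ) = 6 ∨ (1 : ℕ) = 10 ∨
          (1 : ℕ) = 15 := Or.inl rfl
      have pig := pig_aux _ _ _ _ (big_of _ c1 s1) (big_of _ c2 s2) (big_of _ c3 s3)
        (big_of _ c4 s4)
      rcases pig with e | e | e | e | e | e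
      · obtain ⟨h, hh⟩ := mk N 1 one x y z
        refine ⟨h, ?_⟩
        rw [hh, e, Nat.lcm_one_left, ← Nat.lcm_assoc (orderOf x) (orderOf x), Nat.lcm_self]
      · obtain ⟨h, hh⟩ := mk N 1 one x y z
        refine ⟨h, ?_⟩
        rw [hh, e, Nat.lcm_one_left, lcmlc (orderOf y), ← Nat.lcm_assoc (orderOf y) (orderOf y), Nat.lcm_self]
      · obtain ⟨h, hh⟩ := mk N 1 one x y z
        refine ⟨h, ?_⟩
        rw [hh, e, Nat.lcm_one_left, Nat.lcm_comm (orderOf y) (orderOf z), lcmlc (orderOf z),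
          ← Nat.lcm_assoc (orderOf z) (orderOf z), Nat.lcm_self]
      · obtain ⟨h, hh⟩ := mk N 1 one w y z
        refine ⟨h, ?_⟩
        rw [hh, e, Nat.lcm_one_left, ← Nat.lcm_assoc (orderOf y) (orderOf y), Nat.lcm_self]
      · obtain ⟨h, hh⟩ := mk N 1 one w y z
        refine ⟨h, ?_⟩
        rw [hh, e, Nat.lcm_one_left, lcmlc (orderOf z), Nat.lcm_self]
      · obtain ⟨h, hh⟩ := mk N 1 one w x z
        refine ⟨h, ?_⟩
        rw [hh, e, Nat.lcm_one_left, Nat.lcm_self]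

end generic

/-- Let J be the first Janko group. Then there are finite groups of arbitrarily large order with exactly the same set of element orders as J × J × J × J. -/
theorem result (N : ℕ) : ∃ (H : Type) (_ : Group H) (_ : Fintype H), N < Fintype.card H ∧
      Set.range (orderOf : H → ℕ) = Set.range (orderOf : ↥Cfsg.Spor.J1 × ↥Cfsg.Spor.J1 × ↥Cfsg.Spor.J1 × ↥Cfsg.Spor.J1 → ℕ) := by
  haveI : Finite G := Nat.finite_of_card_ne_zero (by rw [card_G]; norm_num)
  exact generic (J := G) orderOf_cases exists_order_small N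

end Cfsg.Agent.S3627
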