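import Cfsg.Statements.S3633
import Cfsg.Agent.Lib.H17.PrimeGraph

set_option autoImplicit false
set_option linter.style.haveILetI false
open Cfsg

namespace Cfsg.Agent.S3633

theorem result {G : Type*} [Group G] [Finite G] (ρ : Finset ℕ) (hρ : 3 ≤ ρ.card) (hc : ((∀ r ∈ ρ, r.Prime ∧ r ∣ Nat.card G) ∧ (∀ r ∈ ρ, ∀ s ∈ ρ, r ≠ s → ¬ ∃ x : G, orderOf x = r * s)))
    (K : Subgroup G) [K.Normal] (hK : Group.IsSolvable ↥K) :
    (∀ r ∈ ρ, ∀ s ∈ ρ, r ∣ Nat.card ↥K → s ∣ Nat.card ↥K → r = s) ∧ ¬ Group.IsSolvable G := by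
  classical
  obtain ⟨hprime, hno⟩ := hc
  constructor
  · intro r hr s hs hrK hsK
    by_contra hrs
    -- third prime
    obtain ⟨t, ht, htr, hts⟩ : ∃ t ∈ ρ, t ≠ r ∧ t ≠ s := by
      have h1 : 0 < ((ρ.erase r).erase s).card := by
        have h2 := Finset.pred_card_le_card_erase (s := ρ) (a := r)
        have h3 := Finset.pred_card_le_card_erase (s := ρ.erase r) (a := s)
        omega
      obtain ⟨t, ht⟩ := Finset.card_pos.1 h1
      rw [Finset.mem_erase, Finset.mem_erase] at ht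
      exact ⟨t, ht.2.2, ht.2.1, ht.1⟩
    obtain ⟨hrp, -⟩ := hprime r hr
    obtain ⟨hsp, -⟩ := hprime s hs
    obtain ⟨htp, htG⟩ := hprime t ht
    haveI := Fact.mk htp
    obtain ⟨x, hx⟩ := exists_prime_orderOf_dvd_card' t htG
    set X : Subgroup G := K ⊔ Subgroup.zpowers x with hX
    have hsol : Group.IsSolvable X := by
      refine H17.sol_sup K (Subgroup.zpowers x) ?_ hK inferInstance
      rw [Subgroup.normalizer_eq_top_iff.2 inferInstance]
      exact le_top
    have hKX : K ≤ X := le_sup_left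
    have hxX : Subgroup.zpowers x ≤ X := le_sup_right
    have hrX : r ∣ Nat.card X := hrK.trans (Subgroup.card_dvd_of_le hKX)
    have hsX : s ∣ Nat.card X := hsK.trans (Subgroup.card_dvd_of_le hKX)
    have htX : t ∣ Nat.card X := by
      rw [← hx, ← Nat.card_zpowers]
      exact Subgroup.card_dvd_of_le hxX
    have := H17.three_primes _ X rfl hrp hsp htp hrs (Ne.symm htr) (Ne.symm hts) hrX hsX htX
    rcases this with ⟨y, hy⟩ | ⟨y, hy⟩ | ⟨y, hy⟩
    · exact hno r hr s hs hrs ⟨y, by rw [Subgroup.orderOf_coe, hy]⟩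
    · exact hno r hr t ht (Ne.symm htr) ⟨y, by rw [Subgroup.orderOf_coe, hy]⟩
    · exact hno s hs t ht (Ne.symm hts) ⟨y, by rw [Subgroup.orderOf_coe, hy]⟩
  · intro hsol
    obtain ⟨r, hr, s, hs, t, ht, hrs, hrt, hst⟩ := Finset.two_lt_card.1 (by omega : 2 < ρ.card)
    obtain ⟨hrp, hrG⟩ := hprime r hr
    obtain ⟨hsp, hsG⟩ := hprime s hs
    obtain ⟨htp, htG⟩ := hprime t ht
    have := H17.three_primes _ G rfl hrp hsp htp hrs hrt hst hrG hsG htG
    rcases this with h | h | h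
    · exact hno r hr s hs hrs h
    · exact hno r hr t ht hrt h
    · exact hno s hs t ht hst h

end Cfsg.Agent.S3633
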