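import Cfsg.Statements.S3639
import Cfsg.Agent.Lib.H17.PrimeCover
import Mathlib

/-!
The Suzuki group `Sz(q)`: a nonidentity element of odd order fixes no nonzero vector in the
natural module, so that the groups `(F⁴)^k ⋊ Sz(q)` have the same prime graph as `Sz(q)`.
-/

set_option autoImplicit false
set_option linter.style.haveILetI false
open Cfsg

namespace Cfsg.Agent.S3639

open Cfsg.Lie H17

section CH

variable {R : Type*} [CommRing R] (M : Matrix (Fin 4) (Fin 4) R)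

/-- the second coefficient of the characteristic polynomial -/
def e2 : R :=
  M 0 0 * M 1 1 - M 0 1 * M 1 0 + (M 0 0 * M 2 2 - M 0 2 * M 2 0) + (M 0 0 * M 3 3 - M 0 3 * M 3 0)
    + (M 1 1 * M 2 2 - M 1 2 * M 2 1) + (M 1 1 * M 3 3 - M 1 3 * M 3 1)
    + (M 2 2 * M 3 3 - M 2 3 * M 3 2)

/-- the trace of the adjugate -/
def e3 : R :=
  (M 1 1 * M 2 2 * M 3 3 - M 1 1 * M 2 3 * M 3 2 - M 1 2 * M 2 1 * M 3 3 + M 1 2 * M 2 3 * M 3 1
      + M 1 3 * M 2 1 * M 3 2 - M 1 3 * M 2 2 * M 3 1)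
  + (M 0 0 * M 2 2 * M 3 3 - M 0 0 * M 2 3 * M 3 2 - M 0 2 * M 2 0 * M 3 3 + M 0 2 * M 2 3 * M 3 0
      + M 0 3 * M 2 0 * M 3 2 - M 0 3 * M 2 2 * M 3 0)
  + (M 0 0 * M 1 1 * M 3 3 - M 0 0 * M 1 3 * M 3 1 - M 0 1 * M 1 0 * M 3 3 + M 0 1 * M 1 3 * M 3 0
      + M 0 3 * M 1 0 * M 3 1 - M 0 3 * M 1 1 * M 3 0)
  + (M 0 0 * M 1 1 * M 2 2 - M 0 0 * M 1 2 * M 2 1 - M 0 1 * M 1 0 * M 2 2 + M 0 1 * M 1 2 * M 2 0
      + M 0 2 * M 1 0 * M 2 1 - M 0 2 * M 1 1 * M 2 0)

lemma det4 : M.det =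
    M 0 0 * (M 1 1 * M 2 2 * M 3 3 - M 1 1 * M 2 3 * M 3 2 - M 1 2 * M 2 1 * M 3 3
        + M 1 2 * M 2 3 * M 3 1 + M 1 3 * M 2 1 * M 3 2 - M 1 3 * M 2 2 * M 3 1)
    - M 0 1 * (M 1 0 * M 2 2 * M 3 3 - M 1 0 * M 2 3 * M 3 2 - M 1 2 * M 2 0 * M 3 3
        + M 1 2 * M 2 3 * M 3 0 + M 1 3 * M 2 0 * M 3 2 - M 1 3 * M 2 2 * M 3 0)
    + M 0 2 * (M 1 0 * M 2 1 * M 3 3 - M 1 0 * M 2 3 * M 3 1 - M 1 1 * M 2 0 * M 3 3
        + M 1 1 * M 2 3 * M 3 0 + M 1 3 * M 2 0 * M 3 1 - M 1 3 * M 2 1 * M 3 0)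
    - M 0 3 * (M 1 0 * M 2 1 * M 3 2 - M 1 0 * M 2 2 * M 3 1 - M 1 1 * M 2 0 * M 3 2
        + M 1 1 * M 2 2 * M 3 0 + M 1 2 * M 2 0 * M 3 1 - M 1 2 * M 2 1 * M 3 0) := by
  rw [Matrix.det_succ_row_zero]
  simp only [Fin.sum_univ_four, Matrix.det_fin_three, Matrix.submatrix_apply]
  simp [Fin.succAbove]
  ring

lemma trace_adjugate : (Matrix.adjugate M).trace = e3 M := by
  simp only [Matrix.trace, Matrix.diag_apply, Fin.sum_univ_four]
  simp only [Matrix.adjugate_fin_succ_eq_det_submatrix, Matrix.det_fin_three,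
    Matrix.submatrix_apply]
  simp [Fin.succAbove, e3]
  ring

/-- Cayley--Hamilton in dimension four. -/
theorem cayley_hamilton4 :
    M * M * M * M = M.trace • (M * M * M) - e2 M • (M * M) + e3 M • M - M.det • 1 := by
  rw [det4]
  ext i j
  simp only [Matrix.mul_apply, Fin.sum_univ_four, Matrix.add_apply, Matrix.sub_apply,
    Matrix.smul_apply, smul_eq_mul, Matrix.trace, Matrix.diag_apply, e2, e3]
  fin_cases i <;> fin_cases j <;>
    simp only [Fin.zero_eta, Fin.mk_one, Fin.reduceFinMk, Matrix.one_apply_eq] <;>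
    simp <;> ring

end CH


section Sp

variable {F : Type*} [Field F]

/-- the column relations of an element of `Sp₄` -/
lemma col_rel {g : GL (Fin 4) F} (hg : g ∈ Sp4 F) (i j : Fin 4) :
    g.1 0 i * g.1 3 j + g.1 1 i * g.1 2 j + g.1 2 i * g.1 1 j + g.1 3 i * g.1 0 j =
      if j = Fin.rev i then 1 else 0 := by
  have h := hg (Pi.single i 1) (Pi.single j 1)
  simp only [Units.coeHom_apply, Matrix.mulVec_single_one] at h
  simp only [altForm4] at h
  have e : ∀ a b : Fin 4, (Pi.single a (1 : F) : Fin 4 → F) b = if b = a then 1 else 0 := by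
    intro a b
    simp [Pi.single_apply]
  simp only [e] at h
  simp only [Matrix.col_apply] at h
  rw [h]
  fin_cases i <;> fin_cases j <;> simp <;> decide

/-- the "reverse transpose" -/
def revT (M : Matrix (Fin 4) (Fin 4) F) : Matrix (Fin 4) (Fin 4) F :=
  Matrix.of fun i j => M (Fin.rev j) (Fin.rev i)

lemma revT_mul {g : GL (Fin 4) F} (hg : g ∈ Sp4 F) : revT g.1 * g.1 = 1 := by
  ext i j
  have h := col_rel hg (Fin.rev i) j
  simp only [Matrix.mul_apply, Fin.sum_univ_four, revT, Matrix.of_apply]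
  have e0 : Fin.rev (0 : Fin 4) = 3 := rfl
  have e1 : Fin.rev (1 : Fin 4) = 2 := rfl
  have e2 : Fin.rev (2 : Fin 4) = 1 := rfl
  have e3 : Fin.rev (3 : Fin 4) = 0 := rfl
  simp only [e0, e1, e2, e3]
  rw [Fin.rev_rev] at h
  rw [Matrix.one_apply]
  have e : (if i = j then (1 : F) else 0) = if j = i then 1 else 0 := by
    simp [eq_comm]
  rw [e, ← h]
  ring

lemma mul_revT {g : GL (Fin 4) F} (hg : g ∈ Sp4 F) : g.1 * revT g.1 = 1 :=
  mul_eq_one_comm.1 (revT_mul hg)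

/-- the row relations of an element of `Sp₄` -/
lemma row_rel {g : GL (Fin 4) F} (hg : g ∈ Sp4 F) (k l : Fin 4) :
    g.1 k 0 * g.1 l 3 + g.1 k 1 * g.1 l 2 + g.1 k 2 * g.1 l 1 + g.1 k 3 * g.1 l 0 =
      if l = Fin.rev k then 1 else 0 := by
  have h := congrFun (congrFun (mul_revT hg) k) (Fin.rev l)
  simp only [Matrix.mul_apply, Fin.sum_univ_four, revT, Matrix.of_apply, Fin.rev_rev] at h
  have e0 : Fin.rev (0 : Fin 4) = 3 := rfl
  have e1 : Fin.rev (1 : Fin 4) = 2 := rfl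
  have e2 : Fin.rev (2 : Fin 4) = 1 := rfl
  have e3 : Fin.rev (3 : Fin 4) = 0 := rfl
  simp only [e0, e1, e2, e3] at h
  rw [h, Matrix.one_apply]
  by_cases hkl : k = Fin.rev l
  · subst hkl
    simp
  · have : l ≠ Fin.rev k := by
      intro h2
      apply hkl
      rw [h2, Fin.rev_rev]
    simp [hkl, this]

variable (h2 : (2 : F) = 0)

include h2 in
lemma det_eq_one {g : GL (Fin 4) F} (hg : g ∈ Sp4 F) : g.1.det = 1 := by
  have h := congrArg Matrix.det (revT_mul hg)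
  rw [Matrix.det_mul, Matrix.det_one] at h
  have hdet : (revT g.1).det = g.1.det := by
    have : revT g.1 = (g.1.transpose).submatrix Fin.revPerm Fin.revPerm := by
      ext i j
      rfl
    rw [this, Matrix.det_submatrix_equiv_self, Matrix.det_transpose]
  rw [hdet] at h
  have h3 : (g.1.det - 1) * (g.1.det - 1) = 0 := by
    linear_combination h - g.1.det * h2 + h2
  have h4 := mul_self_eq_zero.1 h3
  exact sub_eq_zero.1 h4

include h2 in
/-- the trace of the adjugate is the trace -/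
lemma e3_eq_trace {g : GL (Fin 4) F} (hg : g ∈ Sp4 F) : e3 g.1 = g.1.trace := by
  rw [← trace_adjugate]
  have h1 : Matrix.adjugate g.1 = revT g.1 := by
    have h3 : Matrix.adjugate g.1 * g.1 = 1 := by
      rw [Matrix.adjugate_mul, det_eq_one h2 hg, one_smul]
    calc Matrix.adjugate g.1 = Matrix.adjugate g.1 * (g.1 * revT g.1) := by
          rw [mul_revT hg, mul_one]
      _ = revT g.1 := by rw [← mul_assoc, h3, one_mul]
  rw [h1]
  simp only [Matrix.trace, Matrix.diag_apply, Fin.sum_univ_four, revT, Matrix.of_apply]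
  have e0 : Fin.rev (0 : Fin 4) = 3 := rfl
  have e1 : Fin.rev (1 : Fin 4) = 2 := rfl
  have e2 : Fin.rev (2 : Fin 4) = 1 := rfl
  have e3 : Fin.rev (3 : Fin 4) = 0 := rfl
  simp only [e0, e1, e2, e3]
  ring

omit h2 in
lemma det_add_one (M : Matrix (Fin 4) (Fin 4) F) :
    (M + 1).det = 1 + M.trace + e2 M + e3 M + M.det := by
  rw [det4, det4]
  simp only [e3, e2, Matrix.trace, Matrix.diag_apply, Fin.sum_univ_four]
  simp only [Matrix.add_apply, Matrix.one_apply_eq, Matrix.one_apply_ne, ne_eq, Fin.reduceEq,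
    not_false_eq_true, add_zero, zero_add]
  ring

include h2 in
/-- `det (g + 1) = e₂ (g)` for `g ∈ Sp₄` -/
lemma det_add_one_eq {g : GL (Fin 4) F} (hg : g ∈ Sp4 F) : (g.1 + 1).det = e2 g.1 := by
  rw [det_add_one, det_eq_one h2 hg, e3_eq_trace h2 hg]
  linear_combination (1 + g.1.trace) * h2

/-- the action of `g ∈ Sp₄` on `U/W` -/
lemma star4_apply (M : Matrix (Fin 4) (Fin 4) F) (p r : Fin 4) :
    star4 M p r = M (pairOf p).1 (pairOf r).1 * M (pairOf p).2 (pairOf r).2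
      - M (pairOf p).2 (pairOf r).1 * M (pairOf p).1 (pairOf r).2 := rfl

include h2 in
/-- the trace of `g*` is the second coefficient of the characteristic polynomial of `g`. -/
lemma trace_star {g : GL (Fin 4) F} (hg : g ∈ Sp4 F) : (star4 g.1).trace = e2 g.1 := by
  have r1 := row_rel hg 0 3
  have c1 := col_rel hg 0 3
  have c2 := col_rel hg 1 2
  have e0 : Fin.rev (0 : Fin 4) = 3 := rfl
  have e1 : Fin.rev (1 : Fin 4) = 2 := rfl
  have r2 := row_rel hg 1 2
  rw [e0] at r1 c1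
  rw [e1] at r2 c2
  simp only [if_true] at r1 r2 c1 c2
  simp only [Matrix.trace, Matrix.diag_apply, Fin.sum_univ_four, star4_apply, e2, pairOf]
  simp
  linear_combination -c1 - r2 + (g.1 0 3 * g.1 3 0 + g.1 1 2 * g.1 2 1 + g.1 1 0 * g.1 2 3 +
    g.1 2 0 * g.1 1 3 - 1) * h2


include h2 in
/-- Cauchy--Binet for the minors -/
lemma minor_mul (g h : Matrix (Fin 4) (Fin 4) F) (k l i j : Fin 4)
    (hRg : g k 0 * g l 3 - g l 0 * g k 3 + (g k 1 * g l 2 - g l 1 * g k 2) = 0)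
    (hRh : h 0 i * h 3 j - h 3 i * h 0 j + (h 1 i * h 2 j - h 2 i * h 1 j) = 0) :
    (g * h) k i * (g * h) l j - (g * h) l i * (g * h) k j =
      (g k 0 * g l 1 - g l 0 * g k 1) * (h 0 i * h 1 j - h 1 i * h 0 j)
      + (g k 0 * g l 2 - g l 0 * g k 2) * (h 0 i * h 2 j - h 2 i * h 0 j)
      + (g k 1 * g l 3 - g l 1 * g k 3) * (h 1 i * h 3 j - h 3 i * h 1 j)
      + (g k 2 * g l 3 - g l 2 * g k 3) * (h 2 i * h 3 j - h 3 i * h 2 j) := by
  simp only [Matrix.mul_apply, Fin.sum_univ_four]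
  linear_combination (g k 0 * g l 3 - g l 0 * g k 3) * hRh
    + (h 1 i * h 2 j - h 2 i * h 1 j) * hRg
    - (g k 0 * g l 3 - g l 0 * g k 3) * (h 1 i * h 2 j - h 2 i * h 1 j) * h2

lemma pair_ne (p : Fin 4) : (pairOf p).2 ≠ Fin.rev (pairOf p).1 := by
  fin_cases p <;> decide

include h2 in
lemma pair_row_rel {g : GL (Fin 4) F} (hg : g ∈ Sp4 F) (p : Fin 4) :
    g.1 (pairOf p).1 0 * g.1 (pairOf p).2 3 - g.1 (pairOf p).2 0 * g.1 (pairOf p).1 3 +
      (g.1 (pairOf p).1 1 * g.1 (pairOf p).2 2 - g.1 (pairOf p).2 1 * g.1 (pairOf p).1 2) = 0 := by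
  have h := row_rel hg (pairOf p).1 (pairOf p).2
  rw [if_neg (pair_ne p)] at h
  linear_combination h - (g.1 (pairOf p).2 0 * g.1 (pairOf p).1 3 +
    g.1 (pairOf p).2 1 * g.1 (pairOf p).1 2) * h2

include h2 in
lemma pair_col_rel {g : GL (Fin 4) F} (hg : g ∈ Sp4 F) (p : Fin 4) :
    g.1 0 (pairOf p).1 * g.1 3 (pairOf p).2 - g.1 3 (pairOf p).1 * g.1 0 (pairOf p).2 +
      (g.1 1 (pairOf p).1 * g.1 2 (pairOf p).2 - g.1 2 (pairOf p).1 * g.1 1 (pairOf p).2) = 0 := by
  have h := col_rel hg (pairOf p).1 (pairOf p).2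
  rw [if_neg (pair_ne p)] at h
  linear_combination h - (g.1 3 (pairOf p).1 * g.1 0 (pairOf p).2 +
    g.1 2 (pairOf p).1 * g.1 1 (pairOf p).2) * h2

include h2 in
/-- `g ↦ g*` is multiplicative on `Sp₄` in characteristic two. -/
theorem star_mul {g h : GL (Fin 4) F} (hg : g ∈ Sp4 F) (hh : h ∈ Sp4 F) :
    star4 (g.1 * h.1) = star4 g.1 * star4 h.1 := by
  ext p r
  rw [Matrix.mul_apply, Fin.sum_univ_four]
  simp only [star4_apply]
  rw [minor_mul h2 g.1 h.1 _ _ _ _ (pair_row_rel h2 hg p) (pair_col_rel h2 hh r)]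
  rfl

end Sp

section Sz

variable {F : Type*} [Field F]

/-- the defining set of the Suzuki group -/
def szSet (F : Type*) [Field F] (e : ℕ) : Set (GL (Fin 4) F) :=
  {g | g ∈ Sp4 F ∧ star4 (g : Matrix (Fin 4) (Fin 4) F) =
    (g : Matrix (Fin 4) (Fin 4) F).map (fun x => x ^ e)}

variable (h2 : (2 : F) = 0)

lemma fin4_cases (p : Fin 4) : p = 0 ∨ p = 1 ∨ p = 2 ∨ p = 3 := by
  fin_cases p <;> simp

lemma pair0 : pairOf 0 = (0, 1) := rfl
lemma pair1 : pairOf 1 = (0, 2) := rfl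
lemma pair2 : pairOf 2 = (1, 3) := rfl
lemma pair3 : pairOf 3 = (2, 3) := rfl

lemma star_one (e : ℕ) (he : e ≠ 0) :
    star4 (1 : Matrix (Fin 4) (Fin 4) F) = (1 : Matrix (Fin 4) (Fin 4) F).map (fun x => x ^ e) := by
  ext p r
  rw [star4_apply, Matrix.map_apply]
  simp only [Matrix.one_apply]
  obtain rfl | rfl | rfl | rfl := fin4_cases p <;> obtain rfl | rfl | rfl | rfl := fin4_cases r <;>
    simp [pair0, pair1, pair2, pair3, he]

lemma szSet_one (e : ℕ) (he : e ≠ 0) : (1 : GL (Fin 4) F) ∈ szSet F e :=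
  ⟨one_mem _, star_one e he⟩

include h2 in
lemma szSet_mul {n : ℕ} {g h : GL (Fin 4) F} (hg : g ∈ szSet F (2 ^ n)) (hh : h ∈ szSet F (2 ^ n)) :
    g * h ∈ szSet F (2 ^ n) := by
  refine ⟨mul_mem hg.1 hh.1, ?_⟩
  haveI : CharP F 2 := CharTwo.of_one_ne_zero_of_two_eq_zero one_ne_zero h2
  haveI : Fact (Nat.Prime 2) := ⟨Nat.prime_two⟩
  have e : (fun x : F => x ^ (2 ^ n)) = iterateFrobenius F 2 n := by
    funext x
    rw [iterateFrobenius_def]
  have h3 : star4 ((g * h : GL (Fin 4) F) : Matrix (Fin 4) (Fin 4) F) =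
      star4 (g : Matrix (Fin 4) (Fin 4) F) * star4 (h : Matrix (Fin 4) (Fin 4) F) :=
    star_mul h2 hg.1 hh.1
  rw [h3, hg.2, hh.2, e, Units.val_mul]
  exact (Matrix.map_mul).symm

include h2 in
/-- Every element of the Suzuki group lies in the defining set. -/
lemma mem_szSet [Finite F] {n : ℕ} {x : GL (Fin 4) F} (hx : x ∈ Sz F (2 ^ n)) :
    x ∈ szSet F (2 ^ n) := by
  haveI : Finite (GL (Fin 4) F) := inferInstance
  induction hx using Subgroup.closure_induction with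
  | mem x hx => exact hx
  | one => exact szSet_one _ (by positivity)
  | mul x y _ _ hx hy => exact szSet_mul h2 hx hy
  | inv x _ hx =>
    have hpow : ∀ k : ℕ, x ^ k ∈ szSet F (2 ^ n) := by
      intro k
      induction k with
      | zero => simpa using szSet_one _ (by positivity)
      | succ k ih =>
        rw [pow_succ]
        exact szSet_mul h2 ih hx
    have h1 : x⁻¹ = x ^ (orderOf x - 1) := by
      rw [inv_eq_iff_mul_eq_one, ← pow_succ', Nat.sub_add_cancel (orderOf_pos x)]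
      exact pow_orderOf_eq_one x
    rw [h1]
    exact hpow _

include h2 in
/-- An element of the defining set fixing a nonzero vector has order dividing 4. -/
theorem pow_four_of_fixed {n : ℕ} {x : GL (Fin 4) F} (hx : x ∈ szSet F (2 ^ n))
    {v : Fin 4 → F} (hv : v ≠ 0) (hf : (x : Matrix (Fin 4) (Fin 4) F).mulVec v = v) : x ^ 4 = 1 := by
  haveI : CharP F 2 := CharTwo.of_one_ne_zero_of_two_eq_zero one_ne_zero h2
  haveI : Fact (Nat.Prime 2) := ⟨Nat.prime_two⟩
  set M : Matrix (Fin 4) (Fin 4) F := (x : Matrix (Fin 4) (Fin 4) F) with hM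
  have h1 : (M + 1).mulVec v = 0 := by
    rw [Matrix.add_mulVec, hf, Matrix.one_mulVec]
    funext i
    simp only [Pi.add_apply, Pi.zero_apply]
    linear_combination (v i) * h2
  have hdet : (M + 1).det = 0 :=
    Matrix.exists_mulVec_eq_zero_iff.1 ⟨v, hv, h1⟩
  have he2 : e2 M = 0 := by
    rw [← det_add_one_eq h2 hx.1]
    exact hdet
  have ht : M.trace = 0 := by
    have h3 := trace_star h2 hx.1
    rw [← hM, he2, hx.2] at h3
    have e : (fun x : F => x ^ (2 ^ n)) = iterateFrobenius F 2 n := by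
      funext x
      rw [iterateFrobenius_def]
    have h4 : (M.map (fun x : F => x ^ (2 ^ n))).trace = iterateFrobenius F 2 n M.trace := by
      rw [e]
      simp only [Matrix.trace, Matrix.diag_apply, Fin.sum_univ_four, Matrix.map_apply, map_add]
    rw [h4] at h3
    exact (map_eq_zero _).1 h3
  have he3 : e3 M = 0 := by
    rw [e3_eq_trace h2 hx.1]
    exact ht
  have hd : M.det = 1 := det_eq_one h2 hx.1
  have hch := cayley_hamilton4 M
  rw [ht, he2, he3, hd, zero_smul, zero_smul, zero_smul, one_smul, sub_zero, add_zero,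
    zero_sub] at hch
  apply Units.ext
  have h5 : M * M * M * M = 1 := by
    rw [hch]
    ext i j
    simp only [Matrix.neg_apply]
    linear_combination (-(1 : Matrix (Fin 4) (Fin 4) F) i j) * h2
  rw [Units.val_pow_eq_pow_val, Units.val_one, ← hM]
  rw [← h5]
  noncomm_ring

end Sz

section final

variable {F : Type*} [Field F] (h2 : (2 : F) = 0)

/-- an involution of the Suzuki group -/
def Tm (F : Type*) [Field F] : Matrix (Fin 4) (Fin 4) F :=
  !![1, 0, 0, 0; 0, 1, 0, 0; 1, 0, 1, 0; 1, 1, 0, 1]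

include h2 in
lemma Tm_mul : Tm F * Tm F = 1 := by
  ext i j
  obtain rfl | rfl | rfl | rfl := fin4_cases i <;> obtain rfl | rfl | rfl | rfl := fin4_cases j <;>
    simp [Tm, Matrix.mul_apply, Fin.sum_univ_four, Matrix.one_apply] <;>
    linear_combination h2

/-- the involution as an invertible matrix -/
def Tu (h2 : (2 : F) = 0) : GL (Fin 4) F := ⟨Tm F, Tm F, Tm_mul h2, Tm_mul h2⟩

include h2 in
lemma Tu_mem_Sp : Tu h2 ∈ Sp4 F := by
  intro u v
  simp only [Units.coeHom_apply, Tu, altForm4, Tm, Matrix.mulVec, dotProduct, Fin.sum_univ_four]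
  simp
  linear_combination (u 0 * v 0 + u 0 * v 1 + u 1 * v 0) * h2

include h2 in
lemma Tu_mem (e : ℕ) (he : e ≠ 0) : Tu h2 ∈ szSet F e := by
  refine ⟨Tu_mem_Sp h2, ?_⟩
  ext p r
  rw [star4_apply, Matrix.map_apply]
  show Tm F _ _ * Tm F _ _ - Tm F _ _ * Tm F _ _ = (Tm F _ _) ^ e
  obtain rfl | rfl | rfl | rfl := fin4_cases p <;> obtain rfl | rfl | rfl | rfl := fin4_cases r <;>
    simp [Tm, pair0, pair1, pair2, pair3, he] <;>
    first | linear_combination h2 | linear_combination -h2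

include h2 in
lemma Tu_order : orderOf (Tu h2) = 2 := by
  haveI : Fact (Nat.Prime 2) := ⟨Nat.prime_two⟩
  apply orderOf_eq_prime
  · apply Units.ext
    rw [Units.val_pow_eq_pow_val, pow_two]
    exact Tm_mul h2
  · intro h
    have h3 := congrArg (fun A : GL (Fin 4) F => (A : Matrix (Fin 4) (Fin 4) F) 2 0) h
    simp [Tu, Tm] at h3

end final

/-- the natural action -/
noncomputable instance szAction (F : Type*) [Field F] (S : Subgroup (GL (Fin 4) F)) :
    DistribMulAction S (Fin 4 → F) where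
  smul x v := ((x : GL (Fin 4) F) : Matrix (Fin 4) (Fin 4) F).mulVec v
  one_smul v := Matrix.one_mulVec v
  mul_smul x y v := (Matrix.mulVec_mulVec _ _ _).symm
  smul_zero x := Matrix.mulVec_zero _
  smul_add x u v := Matrix.mulVec_add _ _ _

theorem result {F : Type*} [Field F] [Fintype F] {m : ℕ} (hm : 1 ≤ m) (hF : Fintype.card F = 2 ^ (2 * m + 1)) (N : ℕ) :
    ∃ (H : Type) (_ : Group H) (_ : Fintype H), N < Fintype.card H ∧ ((∀ r : ℕ, r.Prime → (r ∣ Nat.card ↥(Cfsg.Lie.Sz F (2 ^ (m + 1))) ↔ r ∣ Nat.card H)) ∧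
      (∀ r s : ℕ, r.Prime → s.Prime → r ≠ s → ((∃ x : ↥(Cfsg.Lie.Sz F (2 ^ (m + 1))), orderOf x = r * s) ↔ (∃ y : H, orderOf y = r * s)))) := by
  have h2 : (2 : F) = 0 := by
    have h := FiniteField.cast_card_eq_zero F
    rw [hF] at h
    push_cast at h
    exact pow_eq_zero_iff (by omega) |>.1 h
  have hnv : Nontrivial (Fin 4 → F) := inferInstance
  set L := Cfsg.Lie.Sz F (2 ^ (m + 1)) with hL
  have hinv : (Tu h2) ∈ L := Subgroup.subset_closure (Tu_mem h2 _ (by positivity))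
  have hpL : 2 ∣ Nat.card L := by
    rw [← Tu_order h2] 
    have h3 : orderOf (⟨Tu h2, hinv⟩ : L) = orderOf (Tu h2) := Subgroup.orderOf_mk _ _
    rw [← h3]
    exact orderOf_dvd_natCard _
  have hV : ∀ w : Fin 4 → F, 2 • w = 0 := by
    intro w
    funext i
    simp only [Pi.smul_apply, Pi.zero_apply, two_nsmul]
    linear_combination (w i) * h2
  have hfix : ∀ (s : ℕ) (x : L) (w : Fin 4 → F), s.Prime → s ≠ 2 → orderOf x = s → w ≠ 0 →
      x • w = w → ∃ g : L, orderOf g = 2 * s := by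
    intro s x w hs hs2 hx hw hf
    exfalso
    have h3 : x.1 ^ 4 = 1 := pow_four_of_fixed h2 (mem_szSet h2 x.2) hw hf
    have h4 : x ^ 4 = 1 := Subtype.ext h3
    have h5 : s ∣ 2 ^ 2 := by
      rw [← hx]
      exact orderOf_dvd_of_pow_eq_one h4
    have h6 := hs.dvd_of_dvd_pow h5
    exact hs2 ((Nat.prime_dvd_prime_iff_eq hs Nat.prime_two).1 h6)
  obtain ⟨H, iH, fH, hN, h3, h4⟩ := unbounded_prime_graph (L := L) (V := Fin 4 → F) Nat.prime_two hV
    hpL hfix N
  letI : Fintype H := Fintype.ofFinite H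
  refine ⟨H, iH, this, ?_, h3, h4⟩
  rw [← Nat.card_eq_fintype_card]
  exact hN

end Cfsg.Agent.S3639
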