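import Cfsg.Statements.S3660
import Cfsg.Agent.Lib.H17.AffineSL

set_option autoImplicit false
set_option linter.style.haveILetI false
open Cfsg

namespace Cfsg.Agent.S3660

open H17

/-- The prime graph of a finite group has the prime divisors of its order as vertices, two distinct primes p, q being joined when the group has an element of order pq; two groups have the same prime graph when they have the same prime divisors and the same joined pairs. Let F be a finite field of characteristic 2 with at least 4 elements. Then there are finite groups of arbitrarily large order with the same prime graph as PSL(2,F); in particular PSL(2,F) is not determined by its prime graph. -/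
theorem result {F : Type*} [Field F] [Fintype F] [CharP F 2] (hF : 4 ≤ Fintype.card F) (N : ℕ) :
    ∃ (H : Type) (_ : Group H) (_ : Finite H), N < Nat.card H ∧
      ((∀ p : ℕ, p.Prime → (p ∣ Nat.card (Matrix.ProjectiveSpecialLinearGroup (Fin 2) F) ↔ p ∣ Nat.card H)) ∧
      (∀ p q : ℕ, p.Prime → q.Prime → p ≠ q → ((∃ g : (Matrix.ProjectiveSpecialLinearGroup (Fin 2) F), orderOf g = p * q) ↔ (∃ g : H, orderOf g = p * q)))) := by
  classical
  haveI hfin : Finite (Aff F N) := Aff.finite
  haveI : Finite (Matrix.SpecialLinearGroup (Fin 2) F) := Subtype.finite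
  obtain ⟨T, iT, ⟨eT⟩⟩ := toType0' (Aff F N)
  haveI : Finite T := Finite.of_equiv _ eT.symm.toEquiv
  have hcardT : Nat.card T = Nat.card (Aff F N) := Nat.card_congr eT.toEquiv
  have he := pslEquiv F
  have hcardP : Nat.card (Matrix.ProjectiveSpecialLinearGroup (Fin 2) F) =
      Nat.card (Matrix.SpecialLinearGroup (Fin 2) F) := Nat.card_congr (pslEquiv F).toEquiv
  refine ⟨T, iT, inferInstance, ?_, ?_, ?_⟩
  · rw [hcardT]
    exact Aff.card_lt N
  · intro p hp
    haveI : Fact p.Prime := ⟨hp⟩
    rw [hcardP, hcardT]
    have hdvd : Nat.card (Matrix.SpecialLinearGroup (Fin 2) F) ∣ Nat.card (Aff F N) := by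
      have h1 : (affI (k := N) (F := F)).range.map (MonoidHom.id _) = (affI (k := N) (F := F)).range :=
        Subgroup.map_id _
      have h2 := Subgroup.card_subgroup_dvd_card (affI (k := N) (F := F)).range
      rwa [Nat.card_congr (MonoidHom.ofInjective (affI_injective (k := N) (F := F))).toEquiv.symm]
        at h2
    refine ⟨fun h => h.trans hdvd, fun h => ?_⟩
    by_cases hp2 : p = 2
    · subst hp2
      obtain ⟨t, ht⟩ := exists_sl_two (F := F)
      have h5 := orderOf_dvd_natCard t
      rwa [ht] at h5
    · obtain ⟨a, ha⟩ := exists_prime_orderOf_dvd_card' (G := Aff F N) p h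
      by_cases htr : (a.g : Matrix (Fin 2) (Fin 2) F).trace = 0
      · exfalso
        have h1 := a.pow_four_of_trace htr
        have h2 := orderOf_dvd_of_pow_eq_one h1
        rw [ha] at h2
        have h3 : p ∣ 2 ^ 2 := by simpa using h2
        have h4 := hp.dvd_of_dvd_pow h3
        exact hp2 ((Nat.prime_dvd_prime_iff_eq hp Nat.prime_two).1 h4)
      · rw [← ha, a.orderOf_of_trace htr]
        exact orderOf_dvd_natCard a.g
  · intro p q hp hq hpq
    constructor
    · rintro ⟨g, hg⟩
      refine ⟨eT.symm (affI (pslEquiv F g)), ?_⟩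
      rw [MulEquiv.orderOf_eq, orderOf_injective _ affI_injective, MulEquiv.orderOf_eq, hg]
    · rintro ⟨g, hg⟩
      rw [← MulEquiv.orderOf_eq eT] at hg
      set a := eT g with ha
      by_cases htr : (a.g : Matrix (Fin 2) (Fin 2) F).trace = 0
      · exfalso
        have h1 := a.pow_four_of_trace htr
        have h2 := orderOf_dvd_of_pow_eq_one h1
        rw [hg] at h2
        have hp4 : p ∣ 2 ^ 2 := (Dvd.intro _ rfl).trans h2
        have hq4 : q ∣ 2 ^ 2 := (Dvd.intro_left _ rfl).trans h2
        have hp2 := (Nat.prime_dvd_prime_iff_eq hp Nat.prime_two).1 (hp.dvd_of_dvd_pow hp4)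
        have hq2 := (Nat.prime_dvd_prime_iff_eq hq Nat.prime_two).1 (hq.dvd_of_dvd_pow hq4)
        exact hpq (hp2.trans hq2.symm)
      · rw [a.orderOf_of_trace htr] at hg
        refine ⟨(pslEquiv F).symm a.g, ?_⟩
        rw [MulEquiv.orderOf_eq, hg]

end Cfsg.Agent.S3660
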