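import Mathlib
import Cfsg.Statements.S3669
import Cfsg.Agent.Lib.H22.Degree
import Cfsg.Agent.Lib.H21.CharBasis
import Cfsg.Agent.Lib.H23.Ito2
import Cfsg.Agent.Lib.H01.Hall
import Cfsg.Agent.Lib.H16.SL25Rec
import Cfsg.Agent.Lib.H02.SmallC

set_option autoImplicit false
set_option linter.style.haveILetI false
open Cfsg

namespace Cfsg.Agent.S3669

universe u

abbrev A5 := alternatingGroup (Fin 5)

def reps : Fin 5 → Equiv.Perm (Fin 5)
  | 0 => 1
  | 1 => c[0, 1] * c[2, 3]
  | 2 => c[0, 1, 2]
  | 3 => c[0, 1, 2, 3, 4]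
  | 4 => c[0, 2, 1, 3, 4]

theorem class_reps :
    ∀ g : Equiv.Perm (Fin 5), Equiv.Perm.sign g = 1 →
      ∃ i : Fin 5, ∃ x : Equiv.Perm (Fin 5), Equiv.Perm.sign x = 1 ∧ x * g * x⁻¹ = reps i := by
  decide +kernel

theorem reps_even (i : Fin 5) : Equiv.Perm.sign (reps i) = 1 := by
  revert i; decide +kernel

theorem card_conj_le : Nat.card (ConjClasses A5) ≤ 5 := by
  let f : Fin 5 → ConjClasses A5 := fun i =>
    ConjClasses.mk ⟨reps i, by rw [Equiv.Perm.mem_alternatingGroup]; exact reps_even i⟩
  have hf : Function.Surjective f := by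
    intro c
    obtain ⟨g, rfl⟩ := ConjClasses.mk_surjective c
    obtain ⟨i, x, hx, hg⟩ := class_reps g.1 (Equiv.Perm.mem_alternatingGroup.1 g.2)
    refine ⟨i, ?_⟩
    refine ConjClasses.mk_eq_mk_iff_isConj.2 ?_
    rw [isConj_comm, isConj_iff]
    refine ⟨⟨x, by rw [Equiv.Perm.mem_alternatingGroup]; exact hx⟩, ?_⟩
    apply Subtype.ext
    simpa using hg
  have := Nat.card_le_card_of_surjective f hf
  simpa using this

theorem count_aux {ι : Type*} (s : Finset ι) (f : ι → ℕ)
    (hf : ∀ i ∈ s, f i = 1 ∨ f i = 4 ∨ f i = 9 ∨ f i = 16 ∨ f i = 36) :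
    ∃ a b c d e : ℕ, s.card = a + b + c + d + e ∧
      ∑ i ∈ s, f i = a + 4 * b + 9 * c + 16 * d + 36 * e := by
  classical
  induction s using Finset.induction_on with
  | empty => exact ⟨0, 0, 0, 0, 0, by simp, by simp⟩
  | insert x s hx ih =>
    obtain ⟨a, b, c, d, e, h1, h2⟩ := ih (fun i hi => hf i (Finset.mem_insert_of_mem hi))
    rw [Finset.card_insert_of_notMem hx, Finset.sum_insert hx, h1, h2]
    rcases hf x (Finset.mem_insert_self x s) with h | h | h | h | h <;> rw [h]
    · exact ⟨a + 1, b, c, d, e, by ring, by ring⟩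
    · exact ⟨a, b + 1, c, d, e, by ring, by ring⟩
    · exact ⟨a, b, c + 1, d, e, by ring, by ring⟩
    · exact ⟨a, b, c, d + 1, e, by ring, by ring⟩
    · exact ⟨a, b, c, d, e + 1, by ring, by ring⟩

theorem card_A5 : Nat.card A5 = 60 := by
  rw [Nat.card_eq_fintype_card]
  decide +kernel

theorem five_mem : 5 ∈ Cfsg.degreePrimes A5 := by
  classical
  refine ⟨by norm_num, ?_⟩
  by_contra hno
  push Not at hno
  haveI : Fintype A5 := Fintype.ofFinite _
  haveI : Fintype (IrrCharacter A5) := Fintype.ofFinite _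
  have hcardA : Nat.card A5 = 60 := card_A5
  have hsum : ∑ χ : IrrCharacter A5, charDegree (χ : A5 → ℂ) ^ 2 = 60 := by
    rw [Cfsg.Agent.H21.sum_degree_sq, hcardA]
  have hcount : Fintype.card (IrrCharacter A5) ≤ 5 := by
    rw [← Nat.card_eq_fintype_card, Cfsg.Agent.H21.card_irr_eq_card_conjClasses]
    exact card_conj_le
  let one : IrrCharacter A5 := ⟨fun _ => 1, Cfsg.Agent.H21.isIrrCharacter_one⟩
  have hone : charDegree (one : A5 → ℂ) = 1 := by
    have := Cfsg.Agent.H21.one_eq_charDegree (Cfsg.Agent.H21.isCharacter_of_irr one.2)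
    have h1 : (one : A5 → ℂ) 1 = 1 := rfl
    rw [h1] at this
    exact_mod_cast this.symm
  have hvals : ∀ χ : IrrCharacter A5, charDegree (χ : A5 → ℂ) ^ 2 = 1 ∨
      charDegree (χ : A5 → ℂ) ^ 2 = 4 ∨ charDegree (χ : A5 → ℂ) ^ 2 = 9 ∨
      charDegree (χ : A5 → ℂ) ^ 2 = 16 ∨ charDegree (χ : A5 → ℂ) ^ 2 = 36 := by
    intro χ
    have h1 : charDegree (χ : A5 → ℂ) ∣ 60 := by
      rw [← hcardA]
      exact Cfsg.Agent.H22.charDegree_dvd_card χ
    have h2 : charDegree (χ : A5 → ℂ) ^ 2 ≤ 60 := by
      rw [← hsum]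
      exact Finset.single_le_sum (f := fun χ : IrrCharacter A5 => charDegree (χ : A5 → ℂ) ^ 2)
        (fun _ _ => Nat.zero_le _) (Finset.mem_univ χ)
    have h3 : ¬ 5 ∣ charDegree (χ : A5 → ℂ) := hno _ ⟨χ, rfl⟩
    generalize charDegree (χ : A5 → ℂ) = d at h1 h2 h3 ⊢
    have hd : d ≤ 7 := by nlinarith
    interval_cases d <;> first | omega | simp
  obtain ⟨a, b, c, d, e, h1, h2⟩ := count_aux (Finset.univ.erase one)
    (fun χ : IrrCharacter A5 => charDegree (χ : A5 → ℂ) ^ 2) (fun χ _ => hvals χ)
  have h3 : ∑ χ ∈ Finset.univ.erase one, charDegree (χ : A5 → ℂ) ^ 2 = 59 := by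
    have := Finset.add_sum_erase Finset.univ
      (fun χ : IrrCharacter A5 => charDegree (χ : A5 → ℂ) ^ 2) (Finset.mem_univ one)
    rw [hsum] at this
    simp only [hone] at this
    omega
  have h4 : (Finset.univ.erase one).card ≤ 4 := by
    rw [Finset.card_erase_of_mem (Finset.mem_univ _), Finset.card_univ]
    omega
  rw [h3] at h2
  rw [h1] at h4
  have he : e ≤ 1 := by omega
  have hd : d ≤ 3 := by omega
  have hc : c ≤ 4 := by omega
  interval_cases e <;> interval_cases d <;> interval_cases c <;> omega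

section main

variable {G : Type u} [Group G] [Finite G]

theorem no_normal_five (hcard : Nat.card G = 60) (hmem : 5 ∈ Cfsg.degreePrimes G)
    (P : Subgroup G) (hP : Nat.card P = 5) : ¬ P.Normal := by
  intro hn
  haveI : Fintype G := Fintype.ofFinite _
  obtain ⟨-, d, ⟨χ, rfl⟩, h5⟩ := hmem
  haveI : Fact (Nat.Prime 5) := ⟨by norm_num⟩
  have hab : ∀ a ∈ P, ∀ b ∈ P, a * b = b * a := by
    haveI : IsCyclic P := isCyclic_of_prime_card hP
    intro a ha b hb
    have := (IsCyclic.commGroup : CommGroup P).mul_comm ⟨a, ha⟩ ⟨b, hb⟩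
    exact congrArg Subtype.val this
  have := Cfsg.Agent.H23.ito_dvd χ.2 P hab
  have hidx : P.index = 12 := by
    have := P.card_mul_index
    rw [hP, hcard] at this
    omega
  rw [hidx] at this
  have := h5.trans this
  omega

theorem solvable_normal_five (hcard : Nat.card G = 60) [Group.IsSolvable G] :
    ∃ P : Subgroup G, Nat.card P = 5 ∧ P.Normal := by
  classical
  haveI : Fact (Nat.Prime 5) := ⟨by norm_num⟩
  obtain ⟨K, hK, -⟩ := Cfsg.Agent.H01.hall_containment 60 G hcard 15 4 (by omega) (by norm_num) ⊥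
    (by simp)
  -- normal Sylow in `K`
  obtain ⟨Q⟩ : Nonempty (Sylow 5 K) := inferInstance
  have hQcard : Nat.card Q = 5 := by
    have := Sylow.card_eq_multiplicity Q
    rw [hK] at this
    have hf : (Nat.factorization 15) 5 = 1 := by
      have : (15 : ℕ) = 5 ^ 1 * 3 := by norm_num
      rw [this, Nat.factorization_mul (by norm_num) (by norm_num), Nat.Prime.factorization_pow (by norm_num)]
      simp [Nat.factorization_eq_zero_of_not_dvd]
    rw [hf] at this
    simpa using this
  have hQn : (Q : Subgroup K).Normal := by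
    have h1 : Nat.card (Sylow 5 K) ≡ 1 [MOD 5] := card_sylow_modEq_one 5 K
    have h2 := Sylow.card_dvd_index Q
    have hidx : (Q : Subgroup K).index = 3 := by
      have := (Q : Subgroup K).card_mul_index
      rw [hQcard, hK] at this
      omega
    rw [hidx] at h2
    have h3 : Nat.card (Sylow 5 K) ≤ 3 := Nat.le_of_dvd (by norm_num) h2
    have h4 : Nat.card (Sylow 5 K) = 1 := by
      unfold Nat.ModEq at h1
      omega
    haveI : Subsingleton (Sylow 5 K) := (Nat.card_eq_one_iff_unique.1 h4).1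
    exact Q.normal_of_subsingleton
  let P : Subgroup G := (Q : Subgroup K).map K.subtype
  have hPcard : Nat.card P = 5 := by
    have : Nat.card P = Nat.card Q := Nat.card_congr (Subgroup.equivMapOfInjective _ _ K.subtype_injective).symm.toEquiv
    omega
  have hKN : K ≤ Subgroup.normalizer (P : Set G) := by
    intro k hk
    rw [Subgroup.mem_normalizer_iff]
    intro x
    constructor
    · rintro ⟨q, hq, rfl⟩
      refine ⟨⟨k, hk⟩ * q * ⟨k, hk⟩⁻¹, hQn.conj_mem q hq _, by simp⟩
    · rintro ⟨q, hq, hqx⟩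
      have hx : x = k⁻¹ * ((K.subtype q)) * k := by
        rw [hqx]; group
      rw [hx]
      refine ⟨⟨k, hk⟩⁻¹ * q * ⟨k, hk⟩⁻¹⁻¹, hQn.conj_mem q hq _, by simp⟩
  let S : Sylow 5 G := Sylow.ofCard P (by
    rw [hPcard, hcard]
    have : (Nat.factorization 60) 5 = 1 := by
      have : (60 : ℕ) = 5 ^ 1 * 12 := by norm_num
      rw [this, Nat.factorization_mul (by norm_num) (by norm_num), Nat.Prime.factorization_pow (by norm_num)]
      simp [Nat.factorization_eq_zero_of_not_dvd]
    rw [this]; norm_num)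
  refine ⟨P, hPcard, ?_⟩
  have hSP : (S : Subgroup G) = P := rfl
  have hN : Nat.card (Sylow 5 G) = (Subgroup.normalizer (P : Set G)).index := by
    rw [← hSP]
    exact Sylow.card_eq_index_normalizer S
  have h15 : 15 ∣ Nat.card (Subgroup.normalizer (P : Set G)) := by
    rw [← hK]
    exact Subgroup.card_dvd_of_le hKN
  have h60 := (Subgroup.normalizer (P : Set G)).card_mul_index
  rw [hcard, ← hN] at h60
  obtain ⟨t, ht⟩ := h15
  have h1 : Nat.card (Sylow 5 G) ≡ 1 [MOD 5] := card_sylow_modEq_one 5 G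
  have h4 : Nat.card (Sylow 5 G) ∣ 4 := by
    rw [ht] at h60
    refine ⟨t, ?_⟩
    nlinarith
  have h5 : Nat.card (Sylow 5 G) ≤ 4 := Nat.le_of_dvd (by norm_num) h4
  have h6 : Nat.card (Sylow 5 G) = 1 := by
    unfold Nat.ModEq at h1
    omega
  rw [hN] at h6
  exact Subgroup.normalizer_eq_top_iff.1 (Subgroup.index_eq_one.1 h6)

end main

/-- The character degree graph of a finite group has as vertices the primes dividing some irreducible complex character degree, two distinct primes being joined when their product divides some irreducible character degree; two groups have the same character degree graph when they have the same vertices and the same joined pairs. A finite group of order 60 with the same character degree graph as the alternating group A₅ (whose character degrees are 1, 3, 4, 5, so the graph has vertices 2, 3, 5 and no edges) is isomorphic to A₅. -/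
theorem result {G : Type*} [Group G] [Finite G] (hcard : Nat.card G = 60)
    (hΓ : Cfsg.degreePrimes G = Cfsg.degreePrimes (alternatingGroup (Fin 5)) ∧ Cfsg.degreeGraph G = Cfsg.degreeGraph (alternatingGroup (Fin 5))) : Nonempty (G ≃* alternatingGroup (Fin 5)) := by
  have hmem : 5 ∈ Cfsg.degreePrimes G := by
    rw [hΓ.1]; exact five_mem
  have hns : ¬ Group.IsSolvable G := by
    intro hs
    obtain ⟨P, hP, hn⟩ := solvable_normal_five hcard
    exact no_normal_five hcard hmem P hP hn
  haveI := Cfsg.Agent.H16.simple_of_not_solvable60 hcard hns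
  exact Cfsg.Agent.H02.simple_sixty hcard

end Cfsg.Agent.S3669
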