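import Cfsg.Statements.S3678
import Cfsg.Agent.Lib.H17.AffineSL
import Cfsg.Agent.Lib.Lead.CardSL
import Cfsg.Agent.Lib.H10.CardSL

set_option autoImplicit false
set_option linter.style.haveILetI false
open Cfsg

namespace Cfsg.Agent.S3678

open H17

section ring

variable {F : Type*} [Field F]

/-- multiplication by `M`, in terms of coordinates -/
lemma step {M : Matrix (Fin 2) (Fin 2) F} {t : F} (hM : M * M = t • M - (1 : Matrix (Fin 2) (Fin 2) F))
    (a b : F) : (a • M + b • (1 : Matrix (Fin 2) (Fin 2) F)) * M =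
      (a * t + b) • M + (-a) • (1 : Matrix (Fin 2) (Fin 2) F) := by
  rw [add_mul, smul_mul_assoc, smul_mul_assoc, hM, one_mul, smul_sub, smul_smul, add_smul, neg_smul]
  abel

lemma mat_sq' (g : Matrix.SpecialLinearGroup (Fin 2) F) :
    (g : Matrix (Fin 2) (Fin 2) F) * (g : Matrix (Fin 2) (Fin 2) F) =
      (g : Matrix (Fin 2) (Fin 2) F).trace • (g : Matrix (Fin 2) (Fin 2) F) -
        (1 : Matrix (Fin 2) (Fin 2) F) := by
  have h1 := mat_sq (g : Matrix (Fin 2) (Fin 2) F)
  rwa [Matrix.SpecialLinearGroup.det_coe, one_smul] at h1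

lemma powers {M : Matrix (Fin 2) (Fin 2) F} {t : F}
    (hM : M * M = t • M - (1 : Matrix (Fin 2) (Fin 2) F)) :
    M ^ 3 = (t ^ 2 - 1) • M + (-t) • (1 : Matrix (Fin 2) (Fin 2) F) ∧
    M ^ 4 = (t ^ 3 - 2 * t) • M + (1 - t ^ 2) • (1 : Matrix (Fin 2) (Fin 2) F) ∧
    M ^ 7 = (t ^ 6 - 5 * t ^ 4 + 6 * t ^ 2 - 1) • M +
      (-t ^ 5 + 4 * t ^ 3 - 3 * t) • (1 : Matrix (Fin 2) (Fin 2) F) := by
  have h1 : M ^ 1 = (1 : F) • M + (0 : F) • (1 : Matrix (Fin 2) (Fin 2) F) := by simp
  have hs : ∀ (n : ℕ) (a b : F), M ^ n = a • M + b • (1 : Matrix (Fin 2) (Fin 2) F) →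
      M ^ (n + 1) = (a * t + b) • M + (-a) • (1 : Matrix (Fin 2) (Fin 2) F) := by
    intro n a b h
    rw [pow_succ, h, step hM]
  have h2 := hs _ _ _ h1
  have h3 := hs _ _ _ h2
  have h4 := hs _ _ _ h3
  have h5 := hs _ _ _ h4
  have h6 := hs _ _ _ h5
  have h7 := hs _ _ _ h6
  refine ⟨?_, ?_, ?_⟩
  · rw [h3]
    congr 2 <;> ring
  · rw [h4]
    congr 2 <;> ring
  · rw [h7]
    congr 2 <;> ring

end ring

section seven

variable {F : Type*} [Field F] [Fintype F]

lemma char_seven (hF : Fintype.card F = 7) : (7 : F) = 0 := by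
  obtain ⟨p, hp⟩ := CharP.exists F
  obtain ⟨n, hpp, hcard⟩ := FiniteField.card F p
  rw [hF] at hcard
  have h1 : p ∣ 7 := by
    rw [hcard]
    exact dvd_pow_self _ n.ne_zero
  have h2 : p = 7 := (Nat.prime_dvd_prime_iff_eq hpp (by norm_num)).1 h1
  subst h2
  exact_mod_cast CharP.cast_eq_zero F 7

lemma trace_cases (hF : Fintype.card F = 7) (t : F) :
    t = 0 ∨ t = 1 ∨ t = -1 ∨ t = 2 ∨ t = -2 ∨ t = 3 ∨ t = -3 := by
  have h7 : (7 : F) = 0 := char_seven hF
  have h1 : t ^ 7 = t := by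
    have := FiniteField.pow_card t
    rwa [hF] at this
  have h2 : t * ((t - 1) * ((t + 1) * ((t - 2) * ((t + 2) * ((t - 3) * (t + 3)))))) = 0 := by
    linear_combination h1 + (-2 * t ^ 5 + 7 * t ^ 3 - 5 * t) * h7
  rcases mul_eq_zero.1 h2 with h | h
  · exact Or.inl h
  rcases mul_eq_zero.1 h with h | h
  · exact Or.inr (Or.inl (sub_eq_zero.1 h))
  rcases mul_eq_zero.1 h with h | h
  · exact Or.inr (Or.inr (Or.inl (eq_neg_of_add_eq_zero_left h)))
  rcases mul_eq_zero.1 h with h | h
  · exact Or.inr (Or.inr (Or.inr (Or.inl (sub_eq_zero.1 h))))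
  rcases mul_eq_zero.1 h with h | h
  · exact Or.inr (Or.inr (Or.inr (Or.inr (Or.inl (eq_neg_of_add_eq_zero_left h)))))
  rcases mul_eq_zero.1 h with h | h
  · exact Or.inr (Or.inr (Or.inr (Or.inr (Or.inr (Or.inl (sub_eq_zero.1 h))))))
  · exact Or.inr (Or.inr (Or.inr (Or.inr (Or.inr (Or.inr (eq_neg_of_add_eq_zero_left h))))))

/-- A matrix `g ^ k = ±1` gives an element of the centre. -/
lemma mem_center_of_scalar (g : Matrix.SpecialLinearGroup (Fin 2) F) (r : F) (hr : r * r = 1)
    (h : (g : Matrix (Fin 2) (Fin 2) F) = r • (1 : Matrix (Fin 2) (Fin 2) F)) :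
    g ∈ Subgroup.center (Matrix.SpecialLinearGroup (Fin 2) F) := by
  rw [Matrix.SpecialLinearGroup.mem_center_iff]
  refine ⟨r, ?_, ?_⟩
  · rw [Fintype.card_fin, pow_two, hr]
  · rw [h]
    ext i j
    simp [Matrix.scalar_apply, Matrix.diagonal_apply, Matrix.one_apply]

theorem psl_orders (hF : Fintype.card F = 7) (x : Matrix.ProjectiveSpecialLinearGroup (Fin 2) F) :
    x ^ 3 = 1 ∨ x ^ 4 = 1 ∨ x ^ 7 = 1 := by
  have h7 : (7 : F) = 0 := char_seven hF
  obtain ⟨g, rfl⟩ := QuotientGroup.mk_surjective x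
  have hcase : ∀ k : ℕ, ∀ r : F, r * r = 1 →
      (g : Matrix (Fin 2) (Fin 2) F) ^ k = r • (1 : Matrix (Fin 2) (Fin 2) F) →
      (g : Matrix.ProjectiveSpecialLinearGroup (Fin 2) F) ^ k = 1 := by
    intro k r hr h
    rw [← QuotientGroup.mk_pow, QuotientGroup.eq_one_iff]
    apply mem_center_of_scalar _ r hr
    rw [Matrix.SpecialLinearGroup.coe_pow]
    exact h
  set M : Matrix (Fin 2) (Fin 2) F := (g : Matrix (Fin 2) (Fin 2) F) with hMdef
  have hM := mat_sq' g
  rw [← hMdef] at hM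
  set t := M.trace with ht
  obtain ⟨h3, h4, h77⟩ := powers hM
  rcases trace_cases hF t with h | h | h | h | h | h | h
  · -- t = 0
    right; left
    apply hcase 4 1 (by simp)
    rw [h4, h]
    simp
  · -- t = 1
    left
    apply hcase 3 (-1) (by simp)
    rw [h3, h]
    simp
  · -- t = -1
    left
    apply hcase 3 1 (by simp)
    rw [h3, h]
    simp
  · -- t = 2
    right; right
    apply hcase 7 1 (by simp)
    rw [h77, h]
    have e1 : ((2 : F) ^ 6 - 5 * 2 ^ 4 + 6 * 2 ^ 2 - 1) = 0 := by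
      linear_combination h7
    have e2 : (-(2 : F) ^ 5 + 4 * 2 ^ 3 - 3 * 2) = 1 := by
      linear_combination (-1 : F) * h7
    rw [e1, e2]
    simp
  · -- t = -2
    right; right
    apply hcase 7 (-1) (by simp)
    rw [h77, h]
    have e1 : ((-2 : F) ^ 6 - 5 * (-2) ^ 4 + 6 * (-2) ^ 2 - 1) = 0 := by
      linear_combination h7
    have e2 : (-(-2 : F) ^ 5 + 4 * (-2) ^ 3 - 3 * (-2)) = -1 := by
      linear_combination (1 : F) * h7
    rw [e1, e2]
    simp
  · -- t = 3
    right; left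
    apply hcase 4 (-1) (by simp)
    rw [h4, h]
    have e1 : ((3 : F) ^ 3 - 2 * 3) = 0 := by
      linear_combination (3 : F) * h7
    have e2 : ((1 : F) - 3 ^ 2) = -1 := by
      linear_combination (-1 : F) * h7
    rw [e1, e2]
    simp
  · -- t = -3
    right; left
    apply hcase 4 (-1) (by simp)
    rw [h4, h]
    have e1 : ((-3 : F) ^ 3 - 2 * (-3)) = 0 := by
      linear_combination (-3 : F) * h7
    have e2 : ((1 : F) - (-3) ^ 2) = -1 := by
      linear_combination (-1 : F) * h7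
    rw [e1, e2]
    simp

end seven

section eight

variable {F : Type*} [Field F] [Fintype F] [CharP F 2]

/-- The element orders in `SL₂(8)`. -/
theorem sl8_orders (hF : Fintype.card F = 8) (g : Matrix.SpecialLinearGroup (Fin 2) F)
    (htr : (g : Matrix (Fin 2) (Fin 2) F).trace ≠ 0) : g ^ 7 = 1 ∨ g ^ 9 = 1 := by
  set M : Matrix (Fin 2) (Fin 2) F := (g : Matrix (Fin 2) (Fin 2) F) with hMdef
  set t := M.trace with ht
  have h2 : (2 : F) = 0 := two_eq_zero'
  have ht7 : t ^ 7 = 1 := by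
    have := FiniteField.pow_card_sub_one_eq_one t htr
    rwa [hF] at this
  have hM : M * M = t • M + (1 : Matrix (Fin 2) (Fin 2) F) := by
    have := mat_sq' g
    rw [← hMdef, ← ht] at this
    rw [this, sub_eq_iff_eq_add, add_assoc, add_self_mat, add_zero]
  have hmul : ∀ a b c d : F, (a • M + b • (1 : Matrix (Fin 2) (Fin 2) F)) *
      (c • M + d • (1 : Matrix (Fin 2) (Fin 2) F)) =
      (a * c * t + a * d + b * c) • M + (a * c + b * d) • (1 : Matrix (Fin 2) (Fin 2) F) := by
    intro a b c d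
    simp only [add_mul, mul_add, smul_mul_assoc, mul_smul_comm, hM, one_mul, mul_one, smul_add,
      smul_smul, add_smul]
    module
  have hM2 : M ^ 2 = t • M + (1 : F) • (1 : Matrix (Fin 2) (Fin 2) F) := by
    rw [pow_two, hM, one_smul]
  have hM4 : M ^ 4 = t ^ 3 • M + (t ^ 2 + 1) • (1 : Matrix (Fin 2) (Fin 2) F) := by
    rw [show 4 = 2 + 2 from rfl, pow_add, hM2, hmul]
    congr 2
    · linear_combination t * h2
    · ring
  have hM8 : M ^ 8 = t ^ 7 • M + (t ^ 6 + t ^ 4 + 1) • (1 : Matrix (Fin 2) (Fin 2) F) := by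
    rw [show 8 = 4 + 4 from rfl, pow_add, hM4, hmul]
    congr 2
    · linear_combination (t ^ 3 * (t ^ 2 + 1)) * h2
    · linear_combination (t ^ 2) * h2
  rw [ht7, one_smul] at hM8
  set w : F := t ^ 6 + t ^ 5 + t ^ 3 with hw
  have hww : w * w = w := by
    rw [hw]
    linear_combination (t ^ 5 + t ^ 3) * ht7 + (t ^ 11 + t ^ 9 + t ^ 8) * h2
  have hs : t ^ 6 + t ^ 4 + 1 = t * w := by
    rw [hw]
    linear_combination (-1 : F) * ht7
  rw [hs] at hM8
  have hw01 : w * (w - 1) = 0 := by linear_combination hww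
  rcases mul_eq_zero.1 hw01 with h0 | h1
  · left
    have h8 : M ^ 8 = M := by
      rw [hM8, h0]
      simp
    have h9 : g ^ 8 = g := by
      apply Subtype.ext
      rw [Matrix.SpecialLinearGroup.coe_pow]
      exact h8
    rw [show 8 = 7 + 1 from rfl, pow_succ] at h9
    exact mul_eq_right.1 h9
  · right
    have hw1 : w = 1 := sub_eq_zero.1 h1
    have h8 : M ^ 9 = 1 := by
      rw [show 9 = 8 + 1 from rfl, pow_succ, hM8, hw1, mul_one, add_mul, hM, smul_mul_assoc, one_mul,
        add_comm (t • M) 1, add_assoc, add_self_mat, add_zero]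
    apply Subtype.ext
    rw [Matrix.SpecialLinearGroup.coe_pow]
    exact h8

end eight

lemma no_pq {p q r k : ℕ} (hp : p.Prime) (hq : q.Prime) (hr : r.Prime) (hpq : p ≠ q)
    (h : p * q ∣ r ^ k) : False := by
  have h1 := (Nat.prime_dvd_prime_iff_eq hp hr).1 (hp.dvd_of_dvd_pow ((Dvd.intro _ rfl).trans h))
  have h2 := (Nat.prime_dvd_prime_iff_eq hq hr).1
    (hq.dvd_of_dvd_pow ((Dvd.intro_left _ rfl).trans h))
  exact hpq (h1.trans h2.symm)

/-- The prime graph of a finite group has the prime divisors of its order as vertices, two distinct primes p, q being joined when the group has an element of order pq; two groups have the same prime graph when they have the same prime divisors and the same joined pairs. Let F be the field with 7 elements. There are finite groups of arbitrarily large order with the same prime graph as PSL(2,F) (the graph on {2, 3, 7} with no edges, which is also the prime graph of PSL(2,8)). -/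
theorem result {F : Type*} [Field F] [Fintype F] (hF : Fintype.card F = 7) (N : ℕ) :
    ∃ (H : Type) (_ : Group H) (_ : Finite H), N < Nat.card H ∧
      ((∀ p : ℕ, p.Prime → (p ∣ Nat.card (Matrix.ProjectiveSpecialLinearGroup (Fin 2) F) ↔ p ∣ Nat.card H)) ∧
      (∀ p q : ℕ, p.Prime → q.Prime → p ≠ q → ((∃ g : (Matrix.ProjectiveSpecialLinearGroup (Fin 2) F), orderOf g = p * q) ↔ (∃ g : H, orderOf g = p * q)))) := by
  classical
  let E : Type := GaloisField 2 3
  haveI : Fintype E := Fintype.ofFinite E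
  have hE : Fintype.card E = 8 := by
    rw [← Nat.card_eq_fintype_card]
    exact GaloisField.card 2 3 (by norm_num)
  haveI hfin : Finite (Aff E N) := Aff.finite
  haveI : Finite (Matrix.SpecialLinearGroup (Fin 2) E) := Subtype.finite
  have hord : ∀ a : Aff E N, orderOf a ∣ 2 ^ 2 ∨ orderOf a ∣ 7 ^ 1 ∨ orderOf a ∣ 3 ^ 2 := by
    intro a
    by_cases htr : (a.g : Matrix (Fin 2) (Fin 2) E).trace = 0
    · exact Or.inl (orderOf_dvd_of_pow_eq_one (a.pow_four_of_trace htr))
    · rw [a.orderOf_of_trace htr]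
      rcases sl8_orders hE a.g htr with h | h
      · exact Or.inr (Or.inl (orderOf_dvd_of_pow_eq_one h))
      · exact Or.inr (Or.inr (orderOf_dvd_of_pow_eq_one h))
  have hordP : ∀ x : Matrix.ProjectiveSpecialLinearGroup (Fin 2) F,
      orderOf x ∣ 3 ^ 1 ∨ orderOf x ∣ 2 ^ 2 ∨ orderOf x ∣ 7 ^ 1 := by
    intro x
    rcases psl_orders hF x with h | h | h
    · exact Or.inl (orderOf_dvd_of_pow_eq_one h)
    · exact Or.inr (Or.inl (orderOf_dvd_of_pow_eq_one h))
    · exact Or.inr (Or.inr (orderOf_dvd_of_pow_eq_one h))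
  have hcardSL : Nat.card (Matrix.SpecialLinearGroup (Fin 2) F) = 336 := by
    rw [H10.card_SL_two, hF]
    norm_num
  have hcardSL8 : Nat.card (Matrix.SpecialLinearGroup (Fin 2) E) = 504 := by
    rw [H10.card_SL_two, hE]
    norm_num
  have hcardP : Nat.card (Matrix.ProjectiveSpecialLinearGroup (Fin 2) F) = 168 := by
    have h1 := Lead.card_SL_eq_mul_card_PSL (F := F) (ι := Fin 2)
    rw [hcardSL, hF, Fintype.card_fin] at h1
    have h2 : Nat.gcd 2 (7 - 1) = 2 := by norm_num
    rw [h2] at h1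
    omega
  have hdvd : 504 ∣ Nat.card (Aff E N) := by
    have h2 := Subgroup.card_subgroup_dvd_card (affI (k := N) (F := E)).range
    rw [Nat.card_congr (MonoidHom.ofInjective (affI_injective (k := N) (F := E))).toEquiv.symm,
      hcardSL8] at h2
    exact h2
  refine ⟨Aff E N, inferInstance, hfin, Aff.card_lt N, ?_, ?_⟩
  · intro p hp
    haveI : Fact p.Prime := ⟨hp⟩
    rw [hcardP]
    constructor
    · intro h
      have hp' : p ∣ Nat.card (Matrix.ProjectiveSpecialLinearGroup (Fin 2) F) := by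
        rwa [hcardP]
      obtain ⟨x, hx⟩ := exists_prime_orderOf_dvd_card' (G := Matrix.ProjectiveSpecialLinearGroup (Fin 2) F) p hp'
      have h1 : p = 3 ∨ p = 2 ∨ p = 7 := by
        rcases hordP x with h2 | h2 | h2 <;> rw [hx] at h2
        · exact Or.inl ((Nat.prime_dvd_prime_iff_eq hp (by norm_num)).1 (hp.dvd_of_dvd_pow h2))
        · exact Or.inr (Or.inl ((Nat.prime_dvd_prime_iff_eq hp (by norm_num)).1
            (hp.dvd_of_dvd_pow h2)))
        · exact Or.inr (Or.inr ((Nat.prime_dvd_prime_iff_eq hp (by norm_num)).1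
            (hp.dvd_of_dvd_pow h2)))
      refine Dvd.dvd.trans ?_ hdvd
      rcases h1 with rfl | rfl | rfl <;> norm_num
    · intro h
      obtain ⟨a, ha⟩ := exists_prime_orderOf_dvd_card' (G := Aff E N) p h
      have h1 : p = 2 ∨ p = 7 ∨ p = 3 := by
        rcases hord a with h2 | h2 | h2 <;> rw [ha] at h2
        · exact Or.inl ((Nat.prime_dvd_prime_iff_eq hp (by norm_num)).1 (hp.dvd_of_dvd_pow h2))
        · exact Or.inr (Or.inl ((Nat.prime_dvd_prime_iff_eq hp (by norm_num)).1
            (hp.dvd_of_dvd_pow h2)))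
        · exact Or.inr (Or.inr ((Nat.prime_dvd_prime_iff_eq hp (by norm_num)).1
            (hp.dvd_of_dvd_pow h2)))
      rcases h1 with rfl | rfl | rfl <;> norm_num
  · intro p q hp hq hpq
    constructor
    · rintro ⟨g, hg⟩
      exfalso
      rcases hordP g with h2 | h2 | h2 <;> rw [hg] at h2
      · exact no_pq hp hq (by norm_num) hpq h2
      · exact no_pq hp hq (by norm_num) hpq h2
      · exact no_pq hp hq (by norm_num) hpq h2
    · rintro ⟨g, hg⟩
      exfalso
      rcases hord g with h2 | h2 | h2 <;> rw [hg] at h2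
      · exact no_pq hp hq (by norm_num) hpq h2
      · exact no_pq hp hq (by norm_num) hpq h2
      · exact no_pq hp hq (by norm_num) hpq h2

end Cfsg.Agent.S3678
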