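import Cfsg.Statements.S3680
import Cfsg.Agent.Lib.H17.MinNormal
import Cfsg.Agent.Lib.H01.Basic

set_option autoImplicit false
set_option linter.style.haveILetI false
open Cfsg

namespace Cfsg.Agent.S3680

open MulAction H17

variable {G Ω : Type*} [Group G] [MulAction G Ω] [FaithfulSMul G Ω]

/-- the minimal normal subgroups -/
abbrev MN (G : Type*) [Group G] : Set (Subgroup G) :=
  {V | V.Normal ∧ V ≠ ⊥ ∧ ∀ M : Subgroup G, M.Normal → M ≤ V → M = ⊥ ∨ M = V}

omit [FaithfulSMul G Ω] in
lemma smul_coe (V : Subgroup G) (v : V) (ω : Ω) : v • ω = (v : G) • ω := rfl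

lemma eq_one_of_fix_all (g : G) (h : ∀ ω : Ω, g • ω = ω) : g = 1 :=
  FaithfulSMul.eq_of_smul_eq_smul (α := Ω) (by simpa using h)

lemma trans_of_normal (hprim : IsPreprimitive G Ω) (V : Subgroup G) (hVn : V.Normal) (hV : V ≠ ⊥) :
    IsPretransitive V Ω := by
  apply IsQuasiPreprimitive.isPretransitive_of_normal (G := G)
  intro h
  apply hV
  rw [eq_bot_iff]
  intro v hv
  rw [Subgroup.mem_bot]
  apply eq_one_of_fix_all (Ω := Ω)
  intro ω
  have : ω ∈ fixedPoints V Ω := by rw [h]; trivial
  exact this ⟨v, hv⟩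

lemma central_semireg (V : Subgroup G) (hV : IsPretransitive V Ω) (c : G)
    (hc : ∀ v ∈ V, c * v = v * c) (ω : Ω) (hfix : c • ω = ω) : c = 1 := by
  apply eq_one_of_fix_all (Ω := Ω)
  intro ω'
  obtain ⟨v, hv⟩ := hV.exists_smul_eq ω ω'
  rw [smul_coe] at hv
  rw [← hv, ← mul_smul, hc v v.2, mul_smul, hfix]

lemma central_mem (V W : Subgroup G) (hV : IsPretransitive V Ω) (hW : IsPretransitive W Ω)
    (hWV : ∀ w ∈ W, ∀ v ∈ V, w * v = v * w) (ω : Ω) (c : G) (hc : ∀ v ∈ V, c * v = v * c) : c ∈ W := by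
  obtain ⟨w, hw⟩ := hW.exists_smul_eq ω (c • ω)
  rw [smul_coe] at hw
  have h1 : (w : G)⁻¹ * c = 1 := by
    apply central_semireg V hV _ _ ω
    · rw [mul_smul, ← hw, ← mul_smul]
      simp
    · intro v hv
      have h2 := hWV w w.2 v hv
      have h3 : (w : G)⁻¹ * v = v * (w : G)⁻¹ := (show Commute (w : G) v from h2).inv_left.eq
      rw [mul_assoc, hc v hv, ← mul_assoc, h3, mul_assoc]
  have h2 : c = w := by
    rw [inv_mul_eq_one] at h1
    exact h1.symm
  rw [h2]
  exact w.2

/-- Two distinct minimal normal subgroups intersect trivially and commute. -/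
lemma mn_disjoint {V W : Subgroup G} (hV : V ∈ MN G) (hW : W ∈ MN G) (hne : V ≠ W) : V ⊓ W = ⊥ := by
  haveI := hV.1
  haveI := hW.1
  rcases hV.2.2 (V ⊓ W) inferInstance inf_le_left with h | h
  · exact h
  · rcases hW.2.2 (V ⊓ W) inferInstance inf_le_right with h' | h'
    · exact h'
    · exact absurd (h.symm.trans h') hne

lemma mn_comm {V W : Subgroup G} (hV : V ∈ MN G) (hW : W ∈ MN G) (hne : V ≠ W) :
    ∀ v ∈ V, ∀ w ∈ W, v * w = w * v := by
  intro v hv w hw
  haveI := hV.1
  haveI := hW.1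
  exact commute_of_normalize (by rw [Subgroup.normalizer_eq_top]; exact le_top)
    (by rw [Subgroup.normalizer_eq_top]; exact le_top) (mn_disjoint hV hW hne) hv hw

lemma toType0 (S : Type*) [Group S] [Finite S] : ∃ (T : Type) (_ : Group T), Nonempty (T ≃* S) :=
  ⟨Fin (Nat.card S), (Finite.equivFin S).symm.group, ⟨(Finite.equivFin S).symm.mulEquiv⟩⟩

/-- Two commuting regular subgroups are isomorphic. -/
lemma regular_iso (V W : Subgroup G) (hV : IsPretransitive V Ω) (hW : IsPretransitive W Ω)
    (hVW : ∀ v ∈ V, ∀ w ∈ W, v * w = w * v) (ω : Ω) : Nonempty (V ≃* W) := by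
  choose f hf using fun v : V => hW.exists_smul_eq ω ((v : G) • ω)
  have hreg : ∀ w w' : W, (w : G) • ω = (w' : G) • ω → w = w' := by
    intro w w' h
    have h1 : (w' : G)⁻¹ * w = 1 := by
      apply central_semireg V hV _ _ ω
      · rw [mul_smul, h, ← mul_smul]
        simp
      · intro v hv
        have h2 := hVW v hv w w.2
        have h3 := hVW v hv w' w'.2
        have h4 : (w' : G)⁻¹ * v = v * (w' : G)⁻¹ := ((show Commute v (w' : G) from h3).inv_right).eq.symm
        rw [mul_assoc, ← h2, ← mul_assoc, h4, mul_assoc]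
    rw [inv_mul_eq_one] at h1
    exact Subtype.ext h1.symm
  have hreg' : ∀ v v' : V, (v : G) • ω = (v' : G) • ω → v = v' := by
    intro v v' h
    have h1 : (v' : G)⁻¹ * v = 1 := by
      apply central_semireg W hW _ _ ω
      · rw [mul_smul, h, ← mul_smul]
        simp
      · intro w hw
        have h2 := hVW v v.2 w hw
        have h3 := hVW v' v'.2 w hw
        have h4 : (v' : G)⁻¹ * w = w * (v' : G)⁻¹ := (show Commute (v' : G) w from h3).inv_left.eq
        rw [mul_assoc, h2, ← mul_assoc, h4, mul_assoc]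
    rw [inv_mul_eq_one] at h1
    exact Subtype.ext h1.symm
  have hfm : ∀ v v' : V, f (v * v') = f v' * f v := by
    intro v v'
    apply hreg
    have h1 : (f (v * v') : G) • ω = (v : G) • (v' : G) • ω := by
      have := hf (v * v')
      rw [smul_coe] at this
      rw [this, Subgroup.coe_mul, mul_smul]
    have h2 : ((f v' * f v : W) : G) • ω = (f v' : G) • (f v : G) • ω := by
      rw [Subgroup.coe_mul, mul_smul]
    rw [h1, h2]
    have h3 := hf v'
    have h4 := hf v
    rw [smul_coe] at h3 h4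
    rw [← h3, h4, ← mul_smul, ← mul_smul, hVW v v.2 _ (f v').2]
  refine ⟨MulEquiv.ofBijective (show V →* W from
    { toFun := fun v => (f v)⁻¹
      map_one' := by
        have : f 1 = 1 := by
          apply hreg
          have := hf 1
          rw [smul_coe] at this
          simpa using this
        simp [this]
      map_mul' := by
        intro a b
        rw [hfm]
        simp }) ?_⟩
  constructor
  · intro a b hab
    have hab' : (f a)⁻¹ = (f b)⁻¹ := hab
    have h1 : f a = f b := inv_injective hab'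
    apply hreg'
    have h3 := hf a
    have h4 := hf b
    rw [smul_coe] at h3 h4
    rw [← h3, ← h4, h1]
  · intro w
    obtain ⟨v, hv⟩ := hV.exists_smul_eq ω ((w : G)⁻¹ • ω)
    refine ⟨v, ?_⟩
    show (f v)⁻¹ = w
    rw [inv_eq_iff_eq_inv]
    apply hreg
    have h3 := hf v
    rw [smul_coe] at h3 hv
    rw [h3, hv]
    simp

variable [Finite G] [Finite Ω]

lemma comm_of_equiv {V S : Type*} [Group V] [Group S] {m : ℕ} (e : V ≃* (Fin m → S))
    (hS : ∀ a b : S, a * b = b * a) (a b : V) : a * b = b * a := by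
  apply e.injective
  rw [map_mul, map_mul]
  funext i
  exact hS _ _

theorem main (hprim : MulAction.IsPreprimitive G Ω) (N : Subgroup G)
    (hN : N = sSup (MN G)) :
    (∃ p : ℕ, p.Prime ∧ IsMulCommutative N ∧ (∀ x : N, x ^ p = 1) ∧
      MulAction.IsPretransitive N Ω ∧ ∀ ω : Ω, MulAction.stabilizer N ω = ⊥) ∨
    (∃ (T : Type) (_ : Group T) (m : ℕ), 1 ≤ m ∧ IsSimpleGroup T ∧ ¬ IsMulCommutative T ∧ Nonempty (N ≃* (Fin m → T))) := by
  classical
  by_cases hG : Nontrivial G
  swap
  · rw [not_nontrivial_iff_subsingleton] at hG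
    left
    refine ⟨2, Nat.prime_two, ⟨⟨fun a b => Subsingleton.elim _ _⟩⟩, fun x => Subsingleton.elim _ _,
      ?_, ?_⟩
    · refine ⟨fun a b => ?_⟩
      obtain ⟨g, hg⟩ := hprim.exists_smul_eq a b
      refine ⟨1, ?_⟩
      have : g = 1 := Subsingleton.elim _ _
      rw [this, one_smul] at hg
      rw [one_smul, hg]
    · intro ω
      rw [eq_bot_iff]
      intro x _
      exact Subsingleton.elim _ _
  obtain ⟨V₀, hV₀n, hV₀1, hV₀⟩ := H01.exists_minimal_normal (G := G)
  have hV₀MN : V₀ ∈ MN G := ⟨hV₀n, hV₀1, hV₀⟩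
  have hT : ∀ V ∈ MN G, IsPretransitive V Ω := fun V hV => trans_of_normal hprim V hV.1 hV.2.1
  obtain ⟨ω₀⟩ : Nonempty Ω := by
    obtain ⟨g, hg⟩ := exists_ne (1 : G)
    by_contra h
    rw [not_nonempty_iff] at h
    exact hg (eq_one_of_fix_all (Ω := Ω) g (fun ω => (h.false ω).elim))
  by_cases hab : ∃ V ∈ MN G, ∀ a ∈ V, ∀ b ∈ V, a * b = b * a
  · -- abelian case
    obtain ⟨V, hV, hVab⟩ := hab
    left
    have hVt := hT V hV
    have huniq : ∀ W ∈ MN G, W = V := by
      intro W hW
      by_contra hne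
      have h1 : W ≤ V := fun w hw => central_mem V V hVt hVt hVab ω₀ w
        (fun v hv => ((mn_comm hV hW (Ne.symm hne)) v hv w hw).symm)
      have h2 := hW.2.2 (W ⊓ V)
      haveI := hV.1
      haveI := hW.1
      have h3 := mn_disjoint hW hV hne
      rw [inf_eq_left.2 h1] at h3
      exact hW.2.1 h3
    have hNV : N = V := by
      rw [hN]
      apply le_antisymm
      · exact sSup_le fun W hW => (huniq W hW).le
      · exact le_sSup hV
    subst hNV
    haveI hVn := hV.1
    have hcard : Nat.card N ≠ 1 := by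
      intro h
      rw [Subgroup.card_eq_one] at h
      exact hV.2.1 h
    obtain ⟨p, hp, hpd⟩ := Nat.exists_prime_and_dvd hcard
    haveI : Fact p.Prime := ⟨hp⟩
    obtain ⟨x, hx⟩ := exists_prime_orderOf_dvd_card' (G := N) p hpd
    let Ω₁ : Subgroup G :=
      { carrier := {y | y ∈ N ∧ y ^ p = 1}
        one_mem' := ⟨N.one_mem, one_pow _⟩
        mul_mem' := by
          rintro a b ⟨ha, ha'⟩ ⟨hb, hb'⟩
          refine ⟨N.mul_mem ha hb, ?_⟩
          have : Commute a b := hVab a ha b hb
          rw [this.mul_pow, ha', hb', one_mul]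
        inv_mem' := by
          rintro a ⟨ha, ha'⟩
          exact ⟨N.inv_mem ha, by rw [inv_pow, ha', inv_one]⟩ }
    have hΩn : Ω₁.Normal := ⟨fun y hy g => ⟨hVn.conj_mem y hy.1 g, by
      rw [conj_pow, hy.2]
      group⟩⟩
    have hΩ : Ω₁ = N := by
      rcases hV.2.2 Ω₁ hΩn (fun y hy => hy.1) with h | h
      · exfalso
        have h1 : (x : G) ∈ Ω₁ := ⟨x.2, by
          have : x ^ p = 1 := by rw [← hx]; exact pow_orderOf_eq_one x
          exact_mod_cast congrArg Subtype.val this⟩
        rw [h, Subgroup.mem_bot] at h1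
        have h2 : x = 1 := Subtype.ext h1
        rw [h2, orderOf_one] at hx
        exact hp.one_lt.ne hx
      · exact h
    refine ⟨p, hp, ⟨⟨fun a b => Subtype.ext (hVab a a.2 b b.2)⟩⟩, ?_, hVt, ?_⟩
    · intro y
      have : (y : G) ∈ Ω₁ := by rw [hΩ]; exact y.2
      exact Subtype.ext this.2
    · intro ω
      rw [eq_bot_iff]
      intro y hy
      rw [Subgroup.mem_bot]
      apply Subtype.ext
      exact central_semireg N hVt y (fun v hv => hVab y y.2 v hv) ω hy
  · push Not at hab
    right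
    have hnab : ¬ ∀ a ∈ V₀, ∀ b ∈ V₀, a * b = b * a := by
      intro h
      obtain ⟨a, ha, b, hb, hne⟩ := hab V₀ hV₀MN
      exact hne (h a ha b hb)
    obtain ⟨S, m, hm, hS, ⟨e⟩⟩ := minNormal_equiv_pi V₀ hV₀n hV₀1 hV₀
    obtain ⟨T, iT, ⟨eT⟩⟩ := toType0 S
    have hTnc : ¬ IsMulCommutative T := by
      intro hc
      apply hnab
      intro a ha b hb
      have h := comm_of_equiv e (fun x y => by
        have h1 := hc.is_comm.comm (eT.symm x) (eT.symm y)
        have h2 := congrArg eT h1
        simpa using h2) ⟨a, ha⟩ ⟨b, hb⟩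
      exact congrArg Subtype.val h
    haveI : IsSimpleGroup T := eT.isSimpleGroup
    by_cases hW : ∃ W ∈ MN G, W ≠ V₀
    · obtain ⟨W, hWMN, hne⟩ := hW
      have hV₀t := hT V₀ hV₀MN
      have hWt := hT W hWMN
      have hcomm := mn_comm hV₀MN hWMN (Ne.symm hne)
      have hNsup : N = V₀ ⊔ W := by
        rw [hN]
        apply le_antisymm
        · refine sSup_le fun X hX => ?_
          by_cases hXV : X = V₀
          · rw [hXV]
            exact le_sup_left
          · have hX1 : X ≤ W := fun c hc => central_mem V₀ W hV₀t hWt (fun w hw v hv => (hcomm v hv w hw).symm)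
              ω₀ c (fun v hv => ((mn_comm hV₀MN hX (Ne.symm hXV)) v hv c hc).symm)
            rcases hWMN.2.2 X hX.1 hX1 with h | h
            · exact absurd h hX.2.1
            · rw [h]
              exact le_sup_right
        · exact sup_le (le_sSup hV₀MN) (le_sSup hWMN)
      obtain ⟨eVW⟩ := regular_iso V₀ W hV₀t hWt hcomm ω₀
      subst hNsup
      have hd := mn_disjoint hV₀MN hWMN (Ne.symm hne)
      let e1 : ↥(V₀ ⊔ W) ≃* (V₀ × W) := (prodEquivSup V₀ W hcomm hd).symm
      let e2 : (V₀ × W) ≃* ((Fin m → S) × (Fin m → S)) := MulEquiv.prodCongr e (eVW.symm.trans e)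
      let e3 : (Fin (m + m) → S) ≃* (Fin (m + m) → T) := MulEquiv.piCongrRight fun _ => eT.symm
      exact ⟨T, iT, m + m, by omega, inferInstance, hTnc,
        ⟨e1.trans (e2.trans ((piAddEquiv S m m).trans e3))⟩⟩
    · push Not at hW
      have hNV : N = V₀ := by
        rw [hN]
        apply le_antisymm
        · exact sSup_le fun W hW' => (hW W hW').le
        · exact le_sSup hV₀MN
      subst hNV
      exact ⟨T, iT, m, hm, inferInstance, hTnc,
        ⟨e.trans (MulEquiv.piCongrRight fun _ => eT.symm)⟩⟩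

/-- The socle of a finite primitive permutation group. Let a finite group G act faithfully and primitively on a set Ω, and let N be the subgroup generated by the minimal normal subgroups of G. Then either N is an elementary abelian p-group for some prime p and acts regularly on Ω (transitively with trivial point stabilizers), or N is isomorphic to a direct product of m ≥ 1 copies of a non-abelian simple group. -/
theorem result {G Ω : Type*} [Group G] [Finite G] [MulAction G Ω] [FaithfulSMul G Ω] [Finite Ω]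
    (hprim : MulAction.IsPreprimitive G Ω) (N : Subgroup G)
    (hN : N = sSup {V : Subgroup G | V.Normal ∧ V ≠ ⊥ ∧ ∀ M : Subgroup G, M.Normal → M ≤ V → M = ⊥ ∨ M = V}) :
    (∃ p : ℕ, p.Prime ∧ IsMulCommutative N ∧ (∀ x : N, x ^ p = 1) ∧
      MulAction.IsPretransitive N Ω ∧ ∀ ω : Ω, MulAction.stabilizer N ω = ⊥) ∨
    (∃ (T : Type) (_ : Group T) (m : ℕ), 1 ≤ m ∧ IsSimpleGroup T ∧ ¬ IsMulCommutative T ∧ Nonempty (N ≃* (Fin m → T))) :=
  main hprim N hN

end Cfsg.Agent.S3680
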