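import Cfsg.Statements.S3681
import Mathlib.GroupTheory.GroupAction.Jordan

set_option autoImplicit false
set_option linter.style.haveILetI false
open Cfsg

namespace Cfsg.Agent.S3681

open MulAction Equiv

lemma app_inv {α : Type*} (f : Perm α) (x : α) : f (f⁻¹ x) = x := by simp

/-- Commutator of two permutations whose supports meet in exactly one point is a 3-cycle. -/
lemma isThreeCycle_commutator {α : Type*} [Fintype α] [DecidableEq α] (σ τ : Perm α) (a : α)
    (hσ : σ a ≠ a) (hτ : τ a ≠ a) (hdisj : ∀ z, z ≠ a → σ z ≠ z → τ z = z) :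
    (σ * τ * σ⁻¹ * τ⁻¹).IsThreeCycle := by
  -- fixed-point reformulations
  have hdisj' : ∀ z, z ≠ a → τ z ≠ z → σ z = z := by
    intro z hz h
    by_contra hc
    exact h (hdisj z hz hc)
  set a' := τ a with ha'
  set a'' := σ a with ha''
  have h1 : a ≠ a' := fun h => hτ h.symm
  have h2 : a ≠ a'' := fun h => hσ h.symm
  have hσa' : σ a' = a' := by
    apply hdisj' a' h1.symm
    intro h
    exact h1 (τ.injective h).symm
  have hτa'' : τ a'' = a'' := by
    apply hdisj a'' h2.symm
    intro h
    exact h2 (σ.injective h).symm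
  have h3 : a' ≠ a'' := by
    intro h
    apply h1
    apply τ.injective
    rw [← ha', h, hτa'', ← h]
  have hsw := Perm.isThreeCycle_swap_mul_swap_same h1 h2 h3
  convert hsw using 1
  ext z
  have hiτ : ∀ u v, τ⁻¹ u = v ↔ u = τ v := fun u v => Perm.inv_eq_iff_eq
  have hiσ : ∀ u v, σ⁻¹ u = v ↔ u = σ v := fun u v => Perm.inv_eq_iff_eq
  simp only [Perm.mul_apply]
  by_cases hza : z = a
  · subst hza
    have he : τ⁻¹ z ≠ z := by
      intro h
      rw [hiτ] at h
      exact hτ h.symm
    have hse : σ (τ⁻¹ z) = τ⁻¹ z := by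
      apply hdisj' _ he
      rw [app_inv]
      exact he.symm
    have hse' : σ⁻¹ (τ⁻¹ z) = τ⁻¹ z := by
      rw [hiσ, hse]
    rw [hse', app_inv, swap_apply_left, swap_apply_of_ne_of_ne h2.symm h3.symm]
  by_cases hza' : z = a'
  · subst hza'
    have hd : σ⁻¹ a ≠ a := by
      intro h
      rw [hiσ] at h
      exact hσ h.symm
    have htd : τ (σ⁻¹ a) = σ⁻¹ a := by
      apply hdisj _ hd
      rw [app_inv]
      exact hd.symm
    rw [show τ⁻¹ a' = a by rw [hiτ], htd, app_inv,
      swap_apply_of_ne_of_ne h1.symm h3, swap_apply_right]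
  by_cases hza'' : z = a''
  · subst hza''
    rw [show τ⁻¹ a'' = a'' by rw [hiτ, hτa''], show σ⁻¹ a'' = a by rw [hiσ], ← ha', hσa',
      swap_apply_right, swap_apply_left]
  rw [swap_apply_of_ne_of_ne hza hza'', swap_apply_of_ne_of_ne hza hza']
  by_cases hτz : τ z = z
  · have hi : τ⁻¹ z = z := by rw [hiτ, hτz]
    rw [hi]
    have hw : σ⁻¹ z ≠ a := by
      intro h
      rw [hiσ] at h
      exact hza'' h
    have htw : τ (σ⁻¹ z) = σ⁻¹ z := by
      by_cases hs : σ (σ⁻¹ z) = σ⁻¹ z
      · rw [app_inv] at hs
        rw [← hs, hτz]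
      · exact hdisj _ hw hs
    rw [htw, app_inv]
  · have hw : τ⁻¹ z ≠ a := by
      intro h
      rw [hiτ] at h
      exact hza' h
    have hsw' : σ (τ⁻¹ z) = τ⁻¹ z := by
      apply hdisj' _ hw
      rw [app_inv]
      intro h
      apply hτz
      have h' := congrArg τ h
      rw [app_inv] at h'
      exact h'
    have hsw'' : σ⁻¹ (τ⁻¹ z) = τ⁻¹ z := by rw [hiσ, hsw']
    rw [hsw'', app_inv]
    exact hdisj' z hza hτz

/-- A faithful primitive group containing a 3-cycle has image containing the alternating group. -/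
lemma alternating_le_of_threeCycle {G Ω : Type*} [Group G] [MulAction G Ω] [Fintype Ω]
    [DecidableEq Ω] (hprim : MulAction.IsPreprimitive G Ω) (g : G)
    (hg : (MulAction.toPermHom G Ω g).IsThreeCycle) :
    alternatingGroup Ω ≤ (MulAction.toPermHom G Ω).range := by
  have hp : IsPreprimitive (MulAction.toPermHom G Ω).range Ω := by
    haveI := hprim
    let φ : G → (MulAction.toPermHom G Ω).range := (MulAction.toPermHom G Ω).rangeRestrict
    let f : Ω →ₑ[φ] Ω := { toFun := id, map_smul' := fun _ _ => rfl }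
    exact IsPreprimitive.of_surjective (f := f) Function.surjective_id
  exact Equiv.Perm.alternatingGroup_le_of_isPreprimitive_of_isThreeCycle_mem hp hg ⟨g, rfl⟩

theorem result {G Ω : Type*} [Group G] [Finite G] [MulAction G Ω] [FaithfulSMul G Ω] [Fintype Ω] [DecidableEq Ω]
    (hprim : MulAction.IsPreprimitive G Ω) (hA : ¬ alternatingGroup Ω ≤ (MulAction.toPermHom G Ω).range) :
    Nat.card G * Nat.factorial ((Fintype.card Ω + 1) / 2) ≤ Nat.factorial (Fintype.card Ω) := by
  classical
  -- a minimum base
  let P : Finset Ω → Prop := fun Δ => ∀ g : G, (∀ x ∈ Δ, g • x = x) → g = 1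
  have huniv : P Finset.univ := by
    intro g hg
    apply FaithfulSMul.eq_of_smul_eq_smul (α := Ω)
    intro x
    rw [one_smul]
    exact hg x (Finset.mem_univ x)
  obtain ⟨Δ, hΔ, hmin⟩ := Finset.exists_min_image (Finset.univ.filter P) Finset.card
    ⟨Finset.univ, by simp [huniv]⟩
  have hΔP : P Δ := by simpa using hΔ
  have hminP : ∀ Δ', P Δ' → Δ.card ≤ Δ'.card := by
    intro Δ' h
    exact hmin Δ' (by simp [h])
  -- the complement is a base too
  have hcompl : P Δᶜ := by
    intro x hx
    by_contra hx1
    have : ∃ a : Ω, x • a ≠ a := by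
      by_contra hc
      push Not at hc
      apply hx1
      apply FaithfulSMul.eq_of_smul_eq_smul (α := Ω)
      intro z
      rw [one_smul]
      exact hc z
    obtain ⟨a, ha⟩ := this
    have haΔ : a ∈ Δ := by
      by_contra hc
      exact ha (hx a (Finset.mem_compl.2 hc))
    have hnot : ¬ P (Δ.erase a) := by
      intro h
      have := hminP _ h
      rw [Finset.card_erase_of_mem haΔ] at this
      have hpos : 0 < Δ.card := Finset.card_pos.2 ⟨a, haΔ⟩
      omega
    simp only [P] at hnot
    push Not at hnot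
    obtain ⟨y, hy, hy1⟩ := hnot
    have hya : y • a ≠ a := by
      intro h
      apply hy1
      apply hΔP
      intro z hz
      by_cases hza : z = a
      · rw [hza, h]
      · exact hy z (Finset.mem_erase.2 ⟨hza, hz⟩)
    apply hA
    apply alternating_le_of_threeCycle hprim (x * y * x⁻¹ * y⁻¹)
    rw [map_mul, map_mul, map_mul, map_inv, map_inv]
    apply isThreeCycle_commutator _ _ a ha hya
    intro z hza hz
    apply hy z
    refine Finset.mem_erase.2 ⟨hza, ?_⟩
    by_contra hc
    exact hz (hx z (Finset.mem_compl.2 hc))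
  have hle := hminP _ hcompl
  rw [Finset.card_compl] at hle
  set n := Fintype.card Ω with hn
  set b := Δ.card with hb
  have hbn : b ≤ n := by
    rw [hb, hn]
    exact Finset.card_le_univ Δ
  have h2b : 2 * b ≤ n := by omega
  -- injection into embeddings
  have hcard : Nat.card G ≤ n.descFactorial b := by
    have hinj : Function.Injective (fun g : G =>
        (⟨fun x : Δ => g • (x : Ω), fun x y h => Subtype.ext (MulAction.injective g h)⟩ : Δ ↪ Ω)) := by
      intro g h hgh
      have h1 : g⁻¹ * h = 1 := by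
        apply hΔP
        intro x hx
        have this : g • x = h • x := congrArg (fun f : Δ ↪ Ω => f ⟨x, hx⟩) hgh
        rw [mul_smul, ← this, inv_smul_smul]
      rw [inv_mul_eq_one] at h1
      exact h1
    have := Nat.card_le_card_of_injective _ hinj
    rw [Nat.card_eq_fintype_card (α := Δ ↪ Ω), Fintype.card_embedding_eq, Fintype.card_coe] at this
    exact this
  have hfac : Nat.factorial ((n + 1) / 2) ≤ Nat.factorial (n - b) :=
    Nat.factorial_le (by omega)
  calc Nat.card G * Nat.factorial ((n + 1) / 2)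
      ≤ n.descFactorial b * Nat.factorial (n - b) := Nat.mul_le_mul hcard hfac
    _ = n.factorial := by
      rw [mul_comm, Nat.factorial_mul_descFactorial hbn]

end Cfsg.Agent.S3681
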