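import Cfsg.Statements.S3682
import Cfsg.Agent.Lib.H17.TW3

set_option autoImplicit false
open Cfsg

namespace Cfsg.Agent.S3682

/-- Wielandt's bound toward the Sims conjecture. Let a finite group G act faithfully and primitively on a set Ω, let a and b be points, and suppose the orbit of b under the stabilizer of a has length d ≥ 2. Then there are a prime p and a normal p-subgroup P of the stabilizer of a, all of whose elements fix b, such that the index of P in the stabilizer of a divides d! · ((d - 1)!)^d. -/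
theorem result {G Ω : Type*} [Group G] [Finite G] [MulAction G Ω] [FaithfulSMul G Ω] [Finite Ω]
    (hprim : MulAction.IsPreprimitive G Ω) (a b : Ω) (d : ℕ) (hd : Nat.card (MulAction.orbit (MulAction.stabilizer G a) b) = d) (h2 : 2 ≤ d) :
    ∃ p : ℕ, p.Prime ∧ ∃ P : Subgroup (MulAction.stabilizer G a), P.Normal ∧ IsPGroup p P ∧ (∀ g : P, ((g : MulAction.stabilizer G a) : G) • b = b) ∧
      P.index ∣ Nat.factorial d * (Nat.factorial (d - 1)) ^ d := by
  obtain ⟨A, B, X, Y, hs, hi, hc⟩ := H17.TW.action_main hprim a b d hd h2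
  rcases hc with hc | ⟨_, _, p, hp, hpX, _⟩
  · refine ⟨2, Nat.prime_two, ⊥, inferInstance, IsPGroup.of_bot, ?_, ?_⟩
    · rintro ⟨g, hg⟩
      have : g = 1 := hg
      simp [this]
    · rw [Subgroup.index_bot]
      exact hc.2
  · refine ⟨p, hp, X.subgroupOf (MulAction.stabilizer G a), Subgroup.normal_subgroupOf_of_le_normalizer hs.X_nrm, ?_, ?_, hi⟩
    · exact hpX.of_equiv (Subgroup.subgroupOfEquivOfLe (H17.TW.X_le_M₁ hs)).symm
    · rintro ⟨g, hg⟩
      exact (H17.TW.X_le_M₂ hs) hg

end Cfsg.Agent.S3682
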