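import Cfsg.Statements.S3683

set_option autoImplicit false
set_option linter.style.haveILetI false
open Cfsg

namespace Cfsg.Agent.S3683

open MulAction Pointwise

theorem result {G Ω : Type*} [Group G] [Finite G] [MulAction G Ω] [FaithfulSMul G Ω] [Finite Ω]
    (hprim : MulAction.IsPreprimitive G Ω) (a b : Ω) (hab : a ≠ b) (hfix : ∀ g : G, g • a = a → g • b = b) :
    MulAction.stabilizer G a = ⊥ ∧ IsCyclic G ∧ (Nat.card G).Prime := by
  classical
  haveI := hprim
  -- conjugation on stabilizers
  have hconj : ∀ (h y : G), y ∈ stabilizer G (h • a) ↔ h⁻¹ * y * h ∈ stabilizer G a := by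
    intro h y
    simp only [mem_stabilizer_iff, mul_smul, inv_smul_eq_iff]
  have hN : ∀ h : G, stabilizer G a ≤ stabilizer G (h • a) →
      h ∈ Subgroup.normalizer (stabilizer G a : Set G) := by
    intro h hle
    -- the map y ↦ h y h⁻¹ injects G_a into G_a, hence is onto
    have hinj : Function.Injective (fun y : stabilizer G a =>
        (⟨h⁻¹ * y.1 * h, (hconj h y.1).1 (hle y.2)⟩ : stabilizer G a)) := by
      intro y z hyz
      have := congrArg Subtype.val hyz
      simp only [mul_left_inj, mul_right_inj] at this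
      exact Subtype.ext this
    have hsurj := Finite.surjective_of_injective hinj
    rw [Subgroup.mem_normalizer_iff'']
    intro y
    constructor
    · intro hy
      exact (hconj h y).1 (hle hy)
    · intro hy
      obtain ⟨z, hz⟩ := hsurj ⟨h⁻¹ * y * h, hy⟩
      have := congrArg Subtype.val hz
      simp only [mul_left_inj, mul_right_inj] at this
      rw [← this]
      exact z.2
  obtain ⟨h0, hh0⟩ := MulAction.exists_smul_eq G a b
  have hle0 : stabilizer G a ≤ stabilizer G (h0 • a) := by
    intro y hy
    rw [hh0]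
    exact hfix y hy
  have hB : IsBlock G (orbit (Subgroup.normalizer (stabilizer G a : Set G)) a) :=
    IsBlock.of_orbit Subgroup.le_normalizer
  have huniv : orbit (Subgroup.normalizer (stabilizer G a : Set G)) a = Set.univ := by
    rcases hB.subsingleton_or_eq_univ with h | h
    · exfalso
      apply hab
      apply h (mem_orbit_self a)
      rw [← hh0]
      exact ⟨⟨h0, hN h0 hle0⟩, rfl⟩
    · exact h
  have hbot : stabilizer G a = ⊥ := by
    rw [eq_bot_iff]
    intro y hy
    rw [Subgroup.mem_bot]
    apply FaithfulSMul.eq_of_smul_eq_smul (α := Ω)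
    intro x
    rw [one_smul]
    have hx : x ∈ orbit (Subgroup.normalizer (stabilizer G a : Set G)) a := by rw [huniv]; trivial
    obtain ⟨⟨n, hn⟩, rfl⟩ := hx
    show y • n • a = n • a
    rw [Subgroup.mem_normalizer_iff''] at hn
    have := (hn y).1 hy
    have h2 : (n⁻¹ * y * n) • a = a := this
    rw [mul_smul, mul_smul, inv_smul_eq_iff] at h2
    exact h2
  refine ⟨hbot, ?_⟩
  haveI : Nontrivial Ω := ⟨⟨a, b, hab⟩⟩
  have hco : IsCoatom (stabilizer G a) := (isCoatom_stabilizer_iff_preprimitive G a).2 hprim
  rw [hbot] at hco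
  have hnt : Nontrivial G := by
    by_contra hc
    rw [not_nontrivial_iff_subsingleton] at hc
    apply hco.1
    exact Subsingleton.elim _ _
  have hprimeord : ∀ x : G, x ≠ 1 → Subgroup.zpowers x = ⊤ := by
    intro x hx
    by_contra hc
    have hlt : ⊥ < Subgroup.zpowers x := by
      rw [bot_lt_iff_ne_bot]
      simpa using hx
    exact hc (hco.2 _ hlt)
  obtain ⟨x, hx⟩ := exists_ne (1 : G)
  have hcyc : IsCyclic G := isCyclic_iff_exists_zpowers_eq_top.2 ⟨x, hprimeord x hx⟩
  refine ⟨hcyc, ?_⟩
  have hc1 : Nat.card G ≠ 1 := by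
    intro h
    rw [Nat.card_eq_one_iff_unique] at h
    exact not_subsingleton_iff_nontrivial.2 hnt h.1
  obtain ⟨p, hp, hpd⟩ := Nat.exists_prime_and_dvd hc1
  haveI := Fact.mk hp
  obtain ⟨y, hy⟩ := exists_prime_orderOf_dvd_card' p hpd
  have hy1 : y ≠ 1 := by
    rintro rfl
    rw [orderOf_one] at hy
    exact hp.one_lt.ne hy
  have := hprimeord y hy1
  have h3 : orderOf y = Nat.card G := by
    rw [← Nat.card_zpowers, this, Subgroup.card_top]
  rw [← h3, hy]
  exact hp

end Cfsg.Agent.S3683
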