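import Cfsg.Statements.S3684
import Cfsg.Agent.Lib.H17.DerangementIndex
import Mathlib.GroupTheory.IndexNormal

set_option autoImplicit false
set_option linter.style.haveILetI false
open Cfsg

namespace Cfsg.Agent.S3684

open MulAction Pointwise

/-- A group generated by an element `ρ` and an involution `t` inverting it, with `t ∉ ⟨ρ⟩`,
is dihedral. -/
lemma dihedral_of_invert {G : Type*} [Group G] (t ρ : G) (hn : orderOf ρ ≠ 0)
    (ht : t * t = 1) (hinv : t * ρ * t = ρ⁻¹)
    (hnot : ∀ k : ℕ, ρ ^ k ≠ t)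
    (hcov : ∀ g : G, (∃ k : ℕ, g = ρ ^ k) ∨ (∃ k : ℕ, g = t * ρ ^ k)) :
    Nonempty (G ≃* DihedralGroup (orderOf ρ)) := by
  classical
  set n := orderOf ρ with hndef
  haveI : NeZero n := ⟨hn⟩
  let ψ : ZMod n → G := fun i => ρ ^ i.val
  have hψadd : ∀ a b, ψ (a + b) = ψ a * ψ b := by
    intro a b
    show ρ ^ (a + b).val = ρ ^ a.val * ρ ^ b.val
    rw [← pow_add, ZMod.val_add]
    rw [← pow_mod_orderOf (x := ρ) (n := a.val + b.val)]
  have hψzero : ψ 0 = 1 := by
    show ρ ^ (0 : ZMod n).val = 1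
    rw [ZMod.val_zero, pow_zero]
  have hψneg : ∀ a, ψ (-a) = (ψ a)⁻¹ := by
    intro a
    rw [eq_inv_iff_mul_eq_one, ← hψadd, neg_add_cancel, hψzero]
  have hψsub : ∀ a b, ψ (b - a) = (ψ a)⁻¹ * ψ b := by
    intro a b
    rw [sub_eq_neg_add, hψadd, hψneg]
  have htt : t⁻¹ = t := inv_eq_of_mul_eq_one_left ht
  have hconj : ∀ a, t * ψ a = (ψ a)⁻¹ * t := by
    intro a
    show t * ρ ^ a.val = (ρ ^ a.val)⁻¹ * t
    have h : t * ρ ^ a.val * t = (ρ⁻¹) ^ a.val := by
      rw [← hinv]
      have : (t * ρ * t) = t * ρ * t⁻¹ := by rw [htt]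
      rw [this, conj_pow, htt]
    rw [inv_pow] at h
    rw [← h, mul_assoc, mul_assoc, ht, mul_one]
  have hconj' : ∀ a, ψ a * t = t * (ψ a)⁻¹ := by
    intro a
    have := hconj (-a)
    rw [hψneg, inv_inv] at this
    exact this.symm
  let f : DihedralGroup n → G := fun x => match x with
    | .r i => ψ i
    | .sr i => t * ψ i
  have hmul : ∀ x y, f (x * y) = f x * f y := by
    rintro (a | a) (b | b)
    · show ψ (a + b) = ψ a * ψ b
      exact hψadd a b
    · show t * ψ (b - a) = ψ a * (t * ψ b)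
      rw [hψsub, ← mul_assoc, ← mul_assoc, hconj' a]
    · show t * ψ (a + b) = t * ψ a * ψ b
      rw [hψadd, mul_assoc]
    · show ψ (b - a) = t * ψ a * (t * ψ b)
      rw [hψsub]
      calc (ψ a)⁻¹ * ψ b = (ψ a)⁻¹ * (t * t) * ψ b := by rw [ht, mul_one]
        _ = ((ψ a)⁻¹ * t) * t * ψ b := by group
        _ = (t * ψ a) * t * ψ b := by rw [hconj a]
        _ = t * ψ a * (t * ψ b) := by group
  have hψinj : Function.Injective ψ := by
    intro a b hab
    have h1 : ρ ^ a.val = ρ ^ b.val := hab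
    have h2 := pow_injOn_Iio_orderOf (x := ρ)
      (by simpa using ZMod.val_lt a) (by simpa using ZMod.val_lt b) h1
    exact ZMod.val_injective n h2
  have hinj : Function.Injective f := by
    rintro (a | a) (b | b) hab
    · have : ψ a = ψ b := hab
      rw [hψinj this]
    · exfalso
      have h1 : ψ a = t * ψ b := hab
      have h2 : ψ a * (ψ b)⁻¹ = t := by rw [h1]; group
      have h3 : ψ a * (ψ b)⁻¹ = ψ (a - b) := by
        rw [sub_eq_add_neg, hψadd, hψneg]
      rw [h3] at h2
      exact hnot _ h2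
    · exfalso
      have h1 : t * ψ a = ψ b := hab
      have h2 : ψ b * (ψ a)⁻¹ = t := by rw [← h1]; group
      have h3 : ψ b * (ψ a)⁻¹ = ψ (b - a) := by
        rw [sub_eq_add_neg, hψadd, hψneg]
      rw [h3] at h2
      exact hnot _ h2
    · have : t * ψ a = t * ψ b := hab
      rw [hψinj (mul_left_cancel this)]
  have hsurj : Function.Surjective f := by
    intro g
    have key : ∀ k : ℕ, ρ ^ k = ψ (k : ZMod n) := by
      intro k
      show ρ ^ k = ρ ^ (k : ZMod n).val
      rw [ZMod.val_natCast, pow_mod_orderOf]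
    rcases hcov g with ⟨k, rfl⟩ | ⟨k, rfl⟩
    · exact ⟨.r k, (key k).symm⟩
    · refine ⟨.sr k, ?_⟩
      show t * ψ (k : ZMod n) = t * ρ ^ k
      rw [key]
  exact ⟨(MulEquiv.ofBijective (MulHom.mk f hmul) ⟨hinj, hsurj⟩).symm⟩

theorem result {G Ω : Type*} [Group G] [Finite G] [MulAction G Ω] [FaithfulSMul G Ω] [Finite Ω]
    (hprim : MulAction.IsPreprimitive G Ω) (a b : Ω) (h2 : Nat.card (MulAction.orbit (MulAction.stabilizer G a) b) = 2) :
    Nat.card (MulAction.stabilizer G a) = 2 ∧ ∃ p : ℕ, p.Prime ∧ Nonempty (G ≃* DihedralGroup p) := by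
  classical
  haveI := hprim
  haveI : Fintype G := Fintype.ofFinite G
  -- `G_a` does not fix `b`
  have hnotfix : ∃ g ∈ stabilizer G a, g • b ≠ b := by
    by_contra hc
    push Not at hc
    have hsing : orbit (stabilizer G a) b = {b} := by
      ext x
      constructor
      · rintro ⟨⟨g, hg⟩, rfl⟩
        exact hc g hg
      · rintro rfl
        exact mem_orbit_self _
    rw [hsing] at h2
    simp at h2
  have hab : a ≠ b := by
    rintro rfl
    obtain ⟨g, hg, hgb⟩ := hnotfix
    exact hgb hg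
  haveI : Nontrivial Ω := ⟨⟨a, b, hab⟩⟩
  have hco : IsCoatom (stabilizer G a) := (isCoatom_stabilizer_iff_preprimitive G a).2 hprim
  -- cardinalities
  have hcardconj : ∀ x y : Ω, Nat.card (stabilizer G x) = Nat.card (stabilizer G y) := by
    intro x y
    obtain ⟨g, rfl⟩ := MulAction.exists_smul_eq G x y
    exact Nat.card_congr (MulAction.stabilizerEquivStabilizer (g := g) (a := x) rfl).toEquiv
  set D : Subgroup G := stabilizer G a ⊓ stabilizer G b with hDdef
  have hDa : Nat.card (stabilizer G a) = 2 * Nat.card D := by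
    have h := H17.natCard_orbit_mul_stabilizer (K := stabilizer G a) b
    rw [h2] at h
    rw [← h]
    congr 1
    exact Nat.card_congr
      { toFun := fun x => ⟨x.1.1, x.1.2, x.2⟩
        invFun := fun y => ⟨⟨y.1, y.2.1⟩, y.2.2⟩
        left_inv := fun x => rfl
        right_inv := fun y => rfl }
  have hDb : Nat.card (stabilizer G b) = 2 * Nat.card D := by
    rw [hcardconj b a, hDa]
  have hnorm : ∀ H : Subgroup G, D ≤ H → Nat.card H = 2 * Nat.card D → H ≤ Subgroup.normalizer (D : Set G) := by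
    intro H hle hcard
    have hidx : (D.subgroupOf H).index = 2 := by
      have h1 := Subgroup.card_mul_index (D.subgroupOf H)
      rw [hcard, Nat.card_congr (Subgroup.subgroupOfEquivOfLe hle).toEquiv] at h1
      have hpos : 0 < Nat.card D := Nat.card_pos
      nlinarith
    haveI := Subgroup.normal_of_index_eq_two hidx
    exact (Subgroup.normal_subgroupOf_iff_le_normalizer hle).1 inferInstance
  have hna := hnorm _ inf_le_left hDa
  have hnb := hnorm _ inf_le_right hDb
  -- G_b ≰ G_a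
  have hbnle : ¬ stabilizer G b ≤ stabilizer G a := by
    intro hle
    have heq : stabilizer G b = stabilizer G a :=
      Subgroup.eq_of_le_of_card_ge hle (le_of_eq (hcardconj a b))
    obtain ⟨g, hg, hgb⟩ := hnotfix
    apply hgb
    have : g ∈ stabilizer G b := by rw [heq]; exact hg
    exact this
  have hsup : stabilizer G a ⊔ stabilizer G b = ⊤ := by
    apply hco.2
    refine lt_of_le_of_ne le_sup_left ?_
    intro h
    exact hbnle (by rw [h]; exact le_sup_right)
  have hDnorm : Subgroup.normalizer (D : Set G) = ⊤ := by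
    rw [eq_top_iff, ← hsup]
    exact sup_le hna hnb
  have hDbot : D = ⊥ := by
    rw [eq_bot_iff]
    intro y hy
    rw [Subgroup.mem_bot]
    apply FaithfulSMul.eq_of_smul_eq_smul (α := Ω)
    intro x
    rw [one_smul]
    obtain ⟨h, rfl⟩ := MulAction.exists_smul_eq G a x
    have hh : h ∈ Subgroup.normalizer (D : Set G) := by rw [hDnorm]; trivial
    have := (Subgroup.mem_normalizer_iff''.1 hh y).1 hy
    have h3 : (h⁻¹ * y * h) • a = a := this.1
    rw [mul_smul, mul_smul, inv_smul_eq_iff] at h3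
    exact h3
  have hD1 : Nat.card D = 1 := by
    rw [hDbot]; exact Subgroup.card_bot
  rw [hD1] at hDa hDb
  refine ⟨hDa, ?_⟩
  have htwo : ∀ H : Subgroup G, Nat.card H = 2 →
      ∃ t ∈ H, t ≠ 1 ∧ t * t = 1 ∧ ∀ g ∈ H, g = 1 ∨ g = t := by
    intro H hH
    obtain ⟨⟨y, hy⟩, hy1, hy2⟩ := (Nat.card_eq_two_iff' (1 : H)).1 hH
    have hy1' : y ≠ 1 := by
      intro h
      apply hy1
      exact Subtype.ext h
    have hcov : ∀ g ∈ H, g = 1 ∨ g = y := by
      intro g hg
      by_cases h1 : g = 1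
      · exact Or.inl h1
      · right
        have := hy2 ⟨g, hg⟩ (fun h => h1 (congrArg Subtype.val h))
        exact congrArg Subtype.val this
    refine ⟨y, hy, hy1', ?_, hcov⟩
    rcases hcov (y * y) (H.mul_mem hy hy) with h | h
    · exact h
    · exfalso
      apply hy1'
      exact mul_eq_left.mp h
  obtain ⟨t, ht, ht1, htt, hcovt⟩ := htwo _ hDa
  obtain ⟨u, hu, hu1, huu, hcovu⟩ := htwo _ hDb
  have htinv : t⁻¹ = t := inv_eq_of_mul_eq_one_left htt
  have huinv : u⁻¹ = u := inv_eq_of_mul_eq_one_left huu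
  have htu : t ≠ u := by
    rintro rfl
    have : t ∈ D := ⟨ht, hu⟩
    rw [hDbot, Subgroup.mem_bot] at this
    exact ht1 this
  set ρ : G := t * u with hρdef
  have hρ1 : ρ ≠ 1 := by
    intro h
    apply htu
    have := eq_inv_of_mul_eq_one_left h
    rw [this, huinv]
  have hρinv : ρ⁻¹ = u * t := by
    rw [hρdef, mul_inv_rev, htinv, huinv]
  have htρ : t * ρ * t = ρ⁻¹ := by
    rw [hρinv, hρdef, ← mul_assoc, htt, one_mul]
  have huρ : u * ρ * u = ρ⁻¹ := by
    rw [hρinv, hρdef, mul_assoc, mul_assoc, huu, mul_one]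
  -- normality
  have hinvnorm : ∀ s : G, s * s = 1 → ∀ x : G, s * x * s = x⁻¹ →
      s ∈ Subgroup.normalizer ((Subgroup.zpowers x : Subgroup G) : Set G) := by
    intro s hs x hx
    have hsinv : s⁻¹ = s := inv_eq_of_mul_eq_one_left hs
    rw [Subgroup.mem_normalizer_iff]
    have hconj : ∀ k : ℤ, s * x ^ k * s⁻¹ = (x⁻¹) ^ k := by
      intro k
      rw [← conj_zpow, hsinv, hx]
    intro h
    constructor
    · rintro ⟨k, rfl⟩
      show s * x ^ k * s⁻¹ ∈ Subgroup.zpowers x
      rw [hconj, inv_zpow]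
      exact inv_mem (Subgroup.zpow_mem_zpowers x k)
    · intro hh
      obtain ⟨k, hk⟩ := hh
      have hk' : x ^ k = s * h * s⁻¹ := hk
      have : h = s * x ^ k * s⁻¹ := by
        rw [hk', hsinv]
        simp only [mul_assoc, hs, mul_one]
        rw [← mul_assoc, hs, one_mul]
      rw [this, hconj, inv_zpow]
      exact inv_mem (Subgroup.zpow_mem_zpowers x k)
  have hnormal : ∀ x : G, t * x * t = x⁻¹ → u * x * u = x⁻¹ → (Subgroup.zpowers x).Normal := by
    intro x h1 h2
    rw [← Subgroup.normalizer_eq_top_iff, eq_top_iff, ← hsup]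
    apply sup_le
    · intro g hg
      rcases hcovt g hg with rfl | rfl
      · exact one_mem _
      · exact hinvnorm _ htt _ h1
    · intro g hg
      rcases hcovu g hg with rfl | rfl
      · exact one_mem _
      · exact hinvnorm _ huu _ h2
  have htrans : ∀ x : G, t * x * t = x⁻¹ → u * x * u = x⁻¹ → x ≠ 1 →
      IsPretransitive (Subgroup.zpowers x) Ω := by
    intro x h1 h2 hx
    haveI := hnormal x h1 h2
    apply IsQuasiPreprimitive.isPretransitive_of_normal
    intro hfp
    apply hx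
    apply FaithfulSMul.eq_of_smul_eq_smul (α := Ω)
    intro y
    have : y ∈ fixedPoints (Subgroup.zpowers x) Ω := by rw [hfp]; trivial
    have h3 := this ⟨x, Subgroup.mem_zpowers x⟩
    rw [one_smul]
    exact h3
  have hρn := hnormal ρ htρ huρ
  have hρtr := htrans ρ htρ huρ hρ1
  have hnot : ∀ k : ℕ, ρ ^ k ≠ t := by
    intro k hk
    have hc : t * ρ = ρ * t := by
      rw [← hk]
      exact (Commute.pow_left (Commute.refl ρ) k).eq
    have hcomm : t * ρ * t = ρ := by
      rw [hc, mul_assoc, htt, mul_one]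
    have hsq : ρ * ρ = 1 := by
      have h3 := htρ
      rw [hcomm] at h3
      nth_rewrite 1 [h3]
      exact inv_mul_cancel ρ
    rcases k.even_or_odd' with ⟨m, rfl | rfl⟩
    · apply ht1
      rw [← hk, pow_mul, pow_two, hsq, one_pow]
    · apply hu1
      have h4 : ρ = t := by
        rw [← hk, pow_succ, pow_mul, pow_two, hsq, one_pow, one_mul]
      have h5 : t * u = t := h4
      exact mul_eq_left.mp h5
  have hstab : ∀ k : ℕ, ρ ^ k • a = a → ρ ^ k = 1 := by
    intro k hk
    rcases hcovt _ hk with h | h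
    · exact h
    · exact absurd h (hnot k)
  have hn0 : orderOf ρ ≠ 0 := (orderOf_pos ρ).ne'
  have hcov : ∀ g : G, (∃ k : ℕ, g = ρ ^ k) ∨ (∃ k : ℕ, g = t * ρ ^ k) := by
    intro g
    obtain ⟨⟨z, hz⟩, hzg⟩ := MulAction.exists_smul_eq (Subgroup.zpowers ρ) a (g • a)
    have hzg' : z • a = g • a := hzg
    have hs : z⁻¹ * g ∈ stabilizer G a := by
      show (z⁻¹ * g) • a = a
      rw [mul_smul, ← hzg', inv_smul_smul]
    rcases hcovt _ hs with h | h
    · left
      have hgz : g = z := by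
        rw [inv_mul_eq_one] at h
        exact h.symm
      obtain ⟨k, hk⟩ := (mem_powers_iff_mem_zpowers).2 hz
      exact ⟨k, by rw [hgz]; exact hk.symm⟩
    · right
      have hg : g = z * t := by
        rw [inv_mul_eq_iff_eq_mul] at h
        exact h
      have hmem : t * z * t⁻¹ ∈ Subgroup.zpowers ρ := hρn.conj_mem z hz t
      obtain ⟨k, hk⟩ := (mem_powers_iff_mem_zpowers).2 hmem
      refine ⟨k, ?_⟩
      have hk' : ρ ^ k = t * z * t⁻¹ := hk
      rw [hk', htinv, hg, ← mul_assoc, ← mul_assoc, htt, one_mul]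
  have hn1 : orderOf ρ ≠ 1 := by
    rwa [Ne, orderOf_eq_one_iff]
  obtain ⟨p, hp, hpd⟩ := Nat.exists_prime_and_dvd hn1
  have hpow : ∀ s : G, s * s = 1 → s * ρ * s = ρ⁻¹ → s * ρ ^ p * s = (ρ ^ p)⁻¹ := by
    intro s hs hsρ
    have hsinv : s⁻¹ = s := inv_eq_of_mul_eq_one_left hs
    have h1 := conj_pow (a := s) (b := ρ) (i := p)
    rw [hsinv, hsρ, inv_pow] at h1
    exact h1.symm
  have hx1 : ρ ^ p = 1 := by
    by_contra hne
    haveI := htrans (ρ ^ p) (hpow t htt htρ) (hpow u huu huρ) hne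
    obtain ⟨⟨z, hz⟩, hzg⟩ := MulAction.exists_smul_eq (Subgroup.zpowers (ρ ^ p)) a (ρ • a)
    have hzg' : z • a = ρ • a := hzg
    obtain ⟨k, hk⟩ := (mem_powers_iff_mem_zpowers).2 hz
    have hk' : (ρ ^ p) ^ k = z := hk
    have hinvpow : ρ ^ (orderOf ρ - 1) * ρ = 1 := by
      rw [← pow_succ, Nat.sub_add_cancel (orderOf_pos ρ), pow_orderOf_eq_one]
    have h5 : ρ ^ (orderOf ρ - 1 + p * k) • a = a := by
      rw [pow_add, pow_mul, hk', mul_smul, hzg', ← mul_smul, hinvpow, one_smul]
    have h6 := hstab _ h5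
    have h7 := orderOf_dvd_of_pow_eq_one h6
    have h8 : p ∣ orderOf ρ - 1 := by
      have := hpd.trans h7
      exact (Nat.dvd_add_left (dvd_mul_right p k)).1 this
    have h9 : p ∣ 1 := by
      have h10 := Nat.dvd_sub hpd h8
      have h11 : orderOf ρ - (orderOf ρ - 1) = 1 := by
        have := orderOf_pos ρ
        omega
      rwa [h11] at h10
    exact hp.one_lt.ne' (Nat.dvd_one.1 h9)
  have hnp : orderOf ρ = p := by
    have := orderOf_dvd_of_pow_eq_one hx1
    rcases (Nat.dvd_prime hp).1 this with h | h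
    · exact absurd h hn1
    · exact h
  refine ⟨orderOf ρ, hnp ▸ hp, ?_⟩
  exact dihedral_of_invert t ρ hn0 htt htρ hnot hcov

end Cfsg.Agent.S3684
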