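import Cfsg.Statements.S3693
import Cfsg.Agent.Lib.H17.TW4

set_option autoImplicit false
open Cfsg

namespace Cfsg.Agent.S3693

/-- Let a finite group G act faithfully and primitively on a set Ω, let a and b be points such that the orbit Δ of b under the stabilizer H of a has length d ≥ 2, and consider the permutation group induced on Δ by the elements of H fixing b. If that induced group has trivial Fitting subgroup (no non-trivial nilpotent normal subgroup), then the two-point stabilizer of a and b has trivial Fitting subgroup and the order of H divides d! · ((d - 1)!)^d. -/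
theorem result {G Ω : Type*} [Group G] [Finite G] [MulAction G Ω] [FaithfulSMul G Ω] [Finite Ω]
    (hprim : MulAction.IsPreprimitive G Ω) (a b : Ω) (d : ℕ) (hd : Nat.card (MulAction.orbit (MulAction.stabilizer G a) b) = d) (h2 : 2 ≤ d)
    (hF : Cfsg.fittingSubgroup ↥(((MulAction.stabilizer G b).subgroupOf (MulAction.stabilizer G a)).map (MulAction.toPermHom (MulAction.stabilizer G a) (MulAction.orbit (MulAction.stabilizer G a) b))) = ⊥) :
    Cfsg.fittingSubgroup ↥(MulAction.stabilizer G a ⊓ MulAction.stabilizer G b) = ⊥ ∧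
      Nat.card (MulAction.stabilizer G a) ∣ Nat.factorial d * (Nat.factorial (d - 1)) ^ d := by
  classical
  obtain ⟨hmax, hcore, hne, ⟨g, hconj⟩, hi1, hi2⟩ := H17.TW.action_facts hprim a b d hd h2
  have hs := H17.TW.main_of_conj hmax g hconj hne hcore
  set M₁ := MulAction.stabilizer G a with hM₁
  set M₂ := MulAction.stabilizer G b with hM₂
  have hcard : Nat.card M₁ = Nat.card M₂ := by
    rw [hconj]
    exact Nat.card_congr (M₁.equivMapOfInjective _ (MulAut.conj g).injective).toEquiv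
  set A := H17.TW.coreIn M₁ (M₁ ⊓ M₂) with hA
  -- `O_p(D)` acts trivially on the orbit
  have hO : ∀ (p : ℕ) [Fact p.Prime], Cfsg.pCoreOf p (M₁ ⊓ M₂) = ⊥ := by
    intro p _
    apply H17.TW.pCoreOf_inf_eq_bot hmax hcore g hconj hne
    set T := Cfsg.pCoreOf p (M₁ ⊓ M₂) with hT
    have hTD : T ≤ M₁ ⊓ M₂ := H13.pCoreOf_le _
    have hTp : IsPGroup p T := H13.isPGroup_pCoreOf _
    have hDT : (M₁ ⊓ M₂) ≤ Subgroup.normalizer (T : Set G) := H13.pCoreOf_normalized _
    have hTle : T ≤ M₁ := hTD.trans inf_le_left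
    have hker := H17.TW.le_ker_of_fitting (MulAction.toPermHom M₁ (MulAction.orbit M₁ b))
      (D' := M₂.subgroupOf M₁) (T₁ := T.subgroupOf M₁) (p := p)
      (fun x hx => (hTD hx).2)
      (by
        intro d hd
        rw [Subgroup.mem_normalizer_iff]
        intro x
        have h1 := Subgroup.mem_normalizer_iff.mp (hDT (show (d : G) ∈ M₁ ⊓ M₂ from ⟨d.2, hd⟩)) (x : G)
        simpa [Subgroup.mem_subgroupOf] using h1)
      (hTp.of_equiv (Subgroup.subgroupOfEquivOfLe hTle).symm)
      hF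
    have hTA : T ≤ A := by
      intro x hx
      apply H17.TW.mem_B hs.symm (hTle hx)
      intro m hm
      have h1 := hker ⟨x, hTle hx⟩ hx
      have h2 := congrArg (fun f : Equiv.Perm (MulAction.orbit M₁ b) => ((f ⟨(⟨m, hm⟩⁻¹ : M₁) • b, MulAction.mem_orbit _ _⟩ : MulAction.orbit M₁ b) : Ω)) h1
      have h3 : x • (m⁻¹ • b) = m⁻¹ • b := h2
      show (m * x * m⁻¹) • b = b
      rw [mul_smul, mul_smul, h3, smul_inv_smul]
    have hEq : T = Cfsg.pCoreOf p A := by
      apply le_antisymm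
      · exact H13.le_pCoreOf hTA hTp ((hs.A_le).trans hDT)
      · exact H17.TW.pCoreOf_le_pCoreOf_of_normal hs.A_le (inf_le_left.trans hs.A_nrm)
    rw [hEq]
    exact hs.A_nrm.trans (H13.normalizer_le_normalizer_pCoreOf A)
  have hFit : Cfsg.fittingSubgroup ↥(M₁ ⊓ M₂) = ⊥ := by
    rw [H01.fitting_eq_iSup_pCore]
    apply le_bot_iff.mp
    apply iSup_le
    intro p
    haveI : Fact (p : ℕ).Prime := ⟨p.2⟩
    rw [H17.TW.pCoreOf_eq_bot_iff.mp (hO p)]
  refine ⟨hFit, ?_⟩
  by_cases hb : (H17.TW.coreIn M₁ (A ⊓ H17.TW.coreIn M₂ (M₁ ⊓ M₂)) = ⊥ ∨ H17.TW.coreIn M₂ (A ⊓ H17.TW.coreIn M₂ (M₁ ⊓ M₂)) = ⊥)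
  · exact H17.TW.card_dvd_of_bot hs hi1 hi2 hcard hb
  · exfalso
    push Not at hb
    obtain ⟨p, hp, hpX, _⟩ := H17.TW.exists_p hs hb.1 hb.2
    haveI := Fact.mk hp
    apply hpX
    rw [eq_bot_iff, ← hO p]
    apply H17.TW.pCoreOf_le_pCoreOf_of_normal
    · exact hs.X_le.trans (inf_le_left.trans hs.A_le)
    · exact inf_le_left.trans hs.X_nrm

end Cfsg.Agent.S3693
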