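import Cfsg.Statements.S3696
import Cfsg.Agent.Lib.H17.DerangementIndex

set_option autoImplicit false
set_option linter.style.haveILetI false
open Cfsg

namespace Cfsg.Agent.S3696

open MulAction

/-- Discrete interpolation. -/
lemma exists_interp {ι : Type*} [DecidableEq ι] (e : ι → ℕ) (X : Finset ι) :
    ∀ k : ℕ, (∀ x ∈ X, 1 ≤ e x) → X.card ≤ k → k ≤ ∑ x ∈ X, e x →
      ∃ c : ι → ℕ, (∀ x ∈ X, 1 ≤ c x ∧ c x ≤ e x) ∧ ∑ x ∈ X, c x = k := by
  induction X using Finset.induction_on with
  | empty =>
    intro k _ h1 h2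
    refine ⟨fun _ => 0, by simp, ?_⟩
    simp at h2 ⊢
    omega
  | insert a Y ha ih =>
    intro k he h1 h2
    rw [Finset.card_insert_of_notMem ha] at h1
    rw [Finset.sum_insert ha] at h2
    have hea : 1 ≤ e a := he a (Finset.mem_insert_self a Y)
    have hY : ∀ x ∈ Y, 1 ≤ e x := fun x hx => he x (Finset.mem_insert_of_mem hx)
    set m := min (e a) (k - Y.card) with hm
    have hm1 : 1 ≤ m := le_min hea (by omega)
    have hm2 : m ≤ e a := min_le_left _ _
    have hm3 : m ≤ k - Y.card := min_le_right _ _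
    obtain ⟨c, hc, hsum⟩ := ih (k - m) hY (by omega) (by
      by_cases h : e a ≤ k - Y.card
      · have : m = e a := min_eq_left h
        omega
      · have : m = k - Y.card := min_eq_right (by omega)
        have h4 : Y.card ≤ ∑ x ∈ Y, e x := by
          have := Finset.card_nsmul_le_sum Y e 1 hY
          simpa using this
        omega)
    refine ⟨fun x => if x = a then m else c x, ?_, ?_⟩
    · intro x hx
      by_cases hxa : x = a
      · subst hxa
        simp [hm1, hm2]
      · simp only [hxa, if_false]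
        exact hc x (Finset.mem_of_mem_insert_of_ne hx hxa)
    · rw [Finset.sum_insert ha, if_pos rfl]
      have : ∑ x ∈ Y, (if x = a then m else c x) = ∑ x ∈ Y, c x := by
        apply Finset.sum_congr rfl
        intro x hx
        rw [if_neg]
        rintro rfl
        exact ha hx
      rw [this, hsum]
      omega

/-- `s ≤ (s / c) ^ c` as soon as `2 ^ c ≤ s`. -/
lemma le_div_pow (s c : ℕ) (hc : 1 ≤ c) (hs : 2 ^ c ≤ s) :
    (s : ℝ) ≤ ((s : ℝ) / c) ^ c := by
  have h1 : c ≤ 2 ^ (c - 1) := by
    have := Nat.lt_two_pow_self (n := c - 1)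
    omega
  have h2 : c ^ c ≤ s ^ (c - 1) := by
    calc c ^ c ≤ (2 ^ (c - 1)) ^ c := Nat.pow_le_pow_left h1 c
      _ = (2 ^ c) ^ (c - 1) := by rw [← pow_mul, ← pow_mul, mul_comm]
      _ ≤ s ^ (c - 1) := Nat.pow_le_pow_left hs _
  have hcpos : (0 : ℝ) < c := by exact_mod_cast hc
  have hspos : (0 : ℝ) < s := by
    have : 0 < s := lt_of_lt_of_le (by positivity) hs
    exact_mod_cast this
  rw [div_pow, le_div_iff₀ (by positivity)]
  have h3 : (s : ℝ) ^ c = s * s ^ (c - 1) := by
    rw [← pow_succ']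
    congr 1
    omega
  rw [h3]
  apply mul_le_mul_of_nonneg_left _ hspos.le
  exact_mod_cast h2

lemma numeric {ι : Type*} [DecidableEq ι] (X : Finset ι) (p : ℕ) (hp : 2 ≤ p) (e : ι → ℕ)
    (he : ∀ x ∈ X, 1 ≤ e x) (k n : ℕ) (hXk : X.card ≤ k) (hk : k ≤ ∑ x ∈ X, e x)
    (hn : ∑ x ∈ X, p ^ e x ≤ n) :
    (∏ x ∈ X, p ^ e x) * k ^ k ≤ n ^ k := by
  rcases Nat.eq_zero_or_pos k with rfl | hkpos
  · have : X = ∅ := Finset.card_eq_zero.1 (by omega)
    subst this
    simp
  obtain ⟨c, hc, hsum⟩ := exists_interp e X k he hXk hk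
  set s : ι → ℕ := fun x => p ^ e x with hs
  have hsbig : ∀ x ∈ X, 2 ^ c x ≤ s x := by
    intro x hx
    calc 2 ^ c x ≤ p ^ c x := Nat.pow_le_pow_left hp _
      _ ≤ p ^ e x := Nat.pow_le_pow_right (by omega) (hc x hx).2
  have hkR : (0 : ℝ) < k := by exact_mod_cast hkpos
  have hspos : ∀ x, (0 : ℝ) < s x := by
    intro x
    have : 0 < s x := by
      simp only [hs]
      positivity
    exact_mod_cast this
  have hcpos : ∀ x ∈ X, (0 : ℝ) < c x := by
    intro x hx
    have := (hc x hx).1
    exact_mod_cast this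
  -- AM-GM
  have hamgm := Real.geom_mean_le_arith_mean_weighted X (fun x => (c x : ℝ) / k)
    (fun x => (s x : ℝ) / c x) (fun x hx => div_nonneg (hcpos x hx).le hkR.le)
    (by
      rw [← Finset.sum_div, ← Nat.cast_sum, hsum]
      exact div_self hkR.ne')
    (fun x hx => div_nonneg (hspos x).le (hcpos x hx).le)
  have hsumle : ∑ x ∈ X, ((c x : ℝ) / k) * ((s x : ℝ) / c x) ≤ (n : ℝ) / k := by
    have h1 : ∑ x ∈ X, ((c x : ℝ) / k) * ((s x : ℝ) / c x) = ∑ x ∈ X, (s x : ℝ) / k := by
      apply Finset.sum_congr rfl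
      intro x hx
      have := hcpos x hx
      field_simp
    rw [h1, ← Finset.sum_div]
    apply div_le_div_of_nonneg_right _ hkR.le
    exact_mod_cast hn
  have hnonneg : ∀ x ∈ X, (0 : ℝ) ≤ ((s x : ℝ) / c x) := fun x hx =>
    div_nonneg (hspos x).le (hcpos x hx).le
  have hprodnn : (0 : ℝ) ≤ ∏ x ∈ X, ((s x : ℝ) / c x) ^ ((c x : ℝ) / k) :=
    Finset.prod_nonneg (fun x hx => Real.rpow_nonneg (hnonneg x hx) _)
  have hpowk : (∏ x ∈ X, ((s x : ℝ) / c x) ^ ((c x : ℝ) / k)) ^ k ≤ ((n : ℝ) / k) ^ k :=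
    pow_le_pow_left₀ hprodnn (hamgm.trans hsumle) k
  have hkpow : (∏ x ∈ X, ((s x : ℝ) / c x) ^ ((c x : ℝ) / k)) ^ k
      = ∏ x ∈ X, ((s x : ℝ) / c x) ^ c x := by
    rw [← Finset.prod_pow]
    apply Finset.prod_congr rfl
    intro x hx
    rw [← Real.rpow_natCast, ← Real.rpow_mul (hnonneg x hx), div_mul_cancel₀ _ hkR.ne',
      Real.rpow_natCast]
  rw [hkpow] at hpowk
  have hlow : (∏ x ∈ X, (s x : ℝ)) ≤ ∏ x ∈ X, ((s x : ℝ) / c x) ^ c x := by
    apply Finset.prod_le_prod
    · intro x _
      exact (hspos x).le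
    · intro x hx
      exact le_div_pow _ _ (hc x hx).1 (hsbig x hx)
  have hfinal := hlow.trans hpowk
  rw [div_pow, le_div_iff₀ (by positivity)] at hfinal
  exact_mod_cast hfinal

/-- The main lemma for a commutative group. -/
lemma main {A Ω : Type*} [CommGroup A] [Finite A] [MulAction A Ω] [FaithfulSMul A Ω] [Fintype Ω]
    (p : ℕ) (hp : p.Prime) (hA : IsPGroup p A) (k : ℕ) (hk : Nat.card {x : A // x ^ p = 1} = p ^ k) :
    Nat.card A * k ^ k ≤ Fintype.card Ω ^ k := by
  classical
  haveI := Fact.mk hp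
  -- a minimal base
  let P : Finset Ω → Prop := fun X => ∀ a : A, (∀ x ∈ X, a • x = x) → a = 1
  have huniv : P Finset.univ := by
    intro g hg
    apply FaithfulSMul.eq_of_smul_eq_smul (α := Ω)
    intro x
    rw [one_smul]
    exact hg x (Finset.mem_univ x)
  obtain ⟨X, hX, hmin⟩ := Finset.exists_min_image (Finset.univ.filter P) Finset.card
    ⟨Finset.univ, by simp [huniv]⟩
  have hXP : P X := by simpa using hX
  have hminP : ∀ x ∈ X, ¬ P (X.erase x) := by
    intro x hx hP
    have := hmin (X.erase x) (by simp [hP])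
    rw [Finset.card_erase_of_mem hx] at this
    have hpos : 0 < X.card := Finset.card_pos.2 ⟨x, hx⟩
    omega
  -- for each point of `X` an element of order `p`
  have hu : ∀ x ∈ X, ∃ u : A, orderOf u = p ∧ (∀ y ∈ X, y ≠ x → u • y = y) ∧ u • x ≠ x := by
    intro x hx
    have h1 := hminP x hx
    simp only [P] at h1
    push Not at h1
    obtain ⟨a, ha, ha1⟩ := h1
    obtain ⟨j, hj⟩ := (IsPGroup.iff_orderOf.1 hA) a
    have hj0 : j ≠ 0 := by
      rintro rfl
      rw [pow_zero, orderOf_eq_one_iff] at hj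
      exact ha1 hj
    obtain ⟨i, rfl⟩ := Nat.exists_eq_succ_of_ne_zero hj0
    set u := a ^ p ^ i with hudef
    have hu1 : u ≠ 1 := by
      apply pow_ne_one_of_lt_orderOf (pow_ne_zero _ hp.ne_zero)
      rw [hj, pow_succ]
      exact lt_mul_of_one_lt_right (pow_pos hp.pos _) hp.one_lt
    have hup : orderOf u = p := by
      apply orderOf_eq_prime _ hu1
      rw [hudef, ← pow_mul, ← pow_succ, ← hj]
      exact pow_orderOf_eq_one a
    have hfix : ∀ y ∈ X, y ≠ x → u • y = y := by
      intro y hy hyx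
      have h2 : a ∈ stabilizer A y := ha y (Finset.mem_erase.2 ⟨hyx, hy⟩)
      exact Subgroup.pow_mem _ h2 _
    refine ⟨u, hup, hfix, ?_⟩
    intro h
    apply hu1
    apply hXP
    intro y hy
    by_cases hyx : y = x
    · rw [hyx]; exact h
    · exact hfix y hy hyx
  choose! u hu1 hu2 hu3 using hu
  -- `|X| ≤ k`
  have hXk : X.card ≤ k := by
    let f : (X → Fin p) → {a : A // a ^ p = 1} := fun e =>
      ⟨∏ x : X, u x ^ (e x).val, by
        rw [← Finset.prod_pow]
        apply Finset.prod_eq_one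
        intro x _
        rw [← pow_mul, mul_comm, pow_mul]
        have : u x ^ p = 1 := by
          rw [← hu1 x x.2]
          exact pow_orderOf_eq_one _
        rw [this, one_pow]⟩
    have hact : ∀ (e : X → Fin p) (x : X), (f e : A) • (x : Ω) = u x ^ (e x).val • (x : Ω) := by
      intro e x
      show (∏ y : X, u y ^ (e y).val) • (x : Ω) = _
      rw [← Finset.mul_prod_erase Finset.univ (fun y : X => u y ^ (e y).val) (Finset.mem_univ x)]
      rw [mul_smul]
      congr 1
      have hR : (∏ y ∈ Finset.univ.erase x, u y ^ (e y).val) ∈ stabilizer A (x : Ω) := by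
        apply Subgroup.prod_mem
        intro y hy
        apply Subgroup.pow_mem
        have hne : (x : Ω) ≠ y := by
          intro h
          exact (Finset.mem_erase.1 hy).1 (Subtype.ext h.symm)
        exact hu2 y y.2 x x.2 hne
      exact hR
    have hinj : Function.Injective f := by
      intro e e' hee
      funext x
      by_contra hne
      -- WLOG ordering
      have key : ∀ a b : Fin p, a < b → u x ^ a.val • (x : Ω) = u x ^ b.val • (x : Ω) → False := by
        intro a b hab heq
        have h1 : u x ^ (b.val - a.val) • (x : Ω) = x := by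
          have h2 : u x ^ b.val = u x ^ a.val * u x ^ (b.val - a.val) := by
            rw [← pow_add]
            congr 1
            have : a.val < b.val := hab
            omega
          rw [h2, mul_smul] at heq
          exact (MulAction.injective (u x ^ a.val) heq).symm
        have hcop : Nat.Coprime (b.val - a.val) p := by
          apply Nat.Coprime.symm
          rw [hp.coprime_iff_not_dvd]
          intro hd
          have h3 := Nat.le_of_dvd (by have : a.val < b.val := hab; omega) hd
          have := b.isLt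
          omega
        obtain ⟨m, -, hm⟩ := Nat.exists_mul_mod_eq_one_of_coprime hcop hp.one_lt
        apply hu3 x x.2
        have hord := hu1 x x.2
        have h5 : u x = (u x ^ (b.val - a.val)) ^ m := by
          rw [← pow_mul, ← pow_mod_orderOf, hord, hm, pow_one]
        rw [h5]
        have hstab : u x ^ (b.val - a.val) ∈ stabilizer A (x : Ω) := h1
        exact Subgroup.pow_mem _ hstab m
      have heq : u x ^ (e x).val • (x : Ω) = u x ^ (e' x).val • (x : Ω) := by
        rw [← hact, ← hact, hee]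
      rcases lt_or_gt_of_ne hne with h | h
      · exact key _ _ h heq
      · exact key _ _ h heq.symm
    have hc := Nat.card_le_card_of_injective f hinj
    rw [hk] at hc
    have h3 : Nat.card (X → Fin p) = p ^ X.card := by
      simp [Nat.card_eq_fintype_card]
    rw [h3] at hc
    exact (Nat.pow_le_pow_iff_right hp.one_lt).1 hc
  -- orbit sizes
  have horb : ∀ x : Ω, ∃ e, Nat.card (orbit A x) = p ^ e := by
    intro x
    have h1 := H17.natCard_orbit_mul_stabilizer (K := A) x
    obtain ⟨a, ha⟩ := (IsPGroup.iff_card.1 hA)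
    rw [ha] at h1
    have h2 : Nat.card (orbit A x) ∣ p ^ a := ⟨_, h1.symm⟩
    obtain ⟨e, -, he⟩ := (Nat.dvd_prime_pow hp).1 h2
    exact ⟨e, he⟩
  choose e he using horb
  have he1 : ∀ x ∈ X, 1 ≤ e x := by
    intro x hx
    by_contra hc
    have h0 : e x = 0 := by omega
    have h1 : Nat.card (orbit A x) = 1 := by rw [he, h0, pow_zero]
    apply hminP x hx
    intro a ha
    apply hXP
    intro y hy
    by_cases hyx : y = x
    · subst hyx
      rw [Nat.card_eq_one_iff_unique] at h1
      have h2 := h1.1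
      have h3 : (⟨a • y, mem_orbit _ a⟩ : orbit A y) = ⟨y, mem_orbit_self y⟩ := Subsingleton.elim _ _
      exact congrArg Subtype.val h3
    · exact ha y (Finset.mem_erase.2 ⟨hyx, hy⟩)
  -- orbits of `X` are disjoint
  have hdisj : ∀ x ∈ X, ∀ y ∈ X, x ≠ y → Disjoint (orbit A x) (orbit A y) := by
    intro x hx y hy hxy
    rw [Set.disjoint_iff_inter_eq_empty]
    by_contra hc
    obtain ⟨z, hzx, hzy⟩ := Set.nonempty_iff_ne_empty.2 hc
    obtain ⟨a, ha⟩ := hzx
    obtain ⟨b, hb⟩ := hzy
    have ha' : a • x = z := ha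
    have hb' : b • y = z := hb
    have hy' : y = (b⁻¹ * a) • x := by
      rw [mul_smul, ha', ← hb', inv_smul_smul]
    apply hminP y hy
    intro c hc'
    apply hXP
    intro w hw
    by_cases hwy : w = y
    · rw [hwy, hy', ← mul_smul, mul_comm, mul_smul]
      rw [hc' x (Finset.mem_erase.2 ⟨hxy, hx⟩)]
    · exact hc' w (Finset.mem_erase.2 ⟨hwy, hw⟩)
  have hsumle : ∑ x ∈ X, p ^ e x ≤ Fintype.card Ω := by
    have h1 : ∀ x ∈ X, p ^ e x = ((orbit A x).toFinset).card := by
      intro x _
      rw [← he, Nat.card_eq_fintype_card, Set.toFinset_card]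
    rw [Finset.sum_congr rfl h1, ← Finset.card_biUnion]
    · exact Finset.card_le_univ _
    · intro x hx y hy hxy
      show Disjoint (orbit A x).toFinset (orbit A y).toFinset
      rw [Set.disjoint_toFinset]
      exact hdisj x hx y hy hxy
  -- `|A| ≤ ∏ s`
  have hAle : Nat.card A ≤ ∏ x ∈ X, p ^ e x := by
    let g : A → (∀ x : X, orbit A (x : Ω)) := fun a x => ⟨a • (x : Ω), mem_orbit _ a⟩
    have hg : Function.Injective g := by
      intro a b hab
      have h1 : a⁻¹ * b = 1 := by
        apply hXP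
        intro x hx
        have := congrArg (fun f : (∀ x : X, orbit A (x : Ω)) => ((f ⟨x, hx⟩ : orbit A x) : Ω)) hab
        have h2 : a • x = b • x := this
        rw [mul_smul, ← h2, inv_smul_smul]
      rw [inv_mul_eq_one] at h1
      exact h1
    have := Nat.card_le_card_of_injective g hg
    rw [Nat.card_pi] at this
    have h2 : ∏ x : X, Nat.card (orbit A (x : Ω)) = ∏ x ∈ X, p ^ e x := by
      rw [← Finset.prod_attach X]
      exact Finset.prod_congr rfl (fun x _ => he x)
    rwa [h2] at this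
  have hkle : k ≤ ∑ x ∈ X, e x := by
    have h1 : p ^ k ≤ p ^ ∑ x ∈ X, e x := by
      rw [← hk]
      exact (Nat.card_le_card_of_injective _ Subtype.val_injective).trans
        (by rw [← Finset.prod_pow_eq_pow_sum]; exact hAle)
    exact (Nat.pow_le_pow_iff_right hp.one_lt).1 h1
  have hnum := numeric X p hp.two_le e he1 k _ hXk hkle hsumle
  calc Nat.card A * k ^ k ≤ (∏ x ∈ X, p ^ e x) * k ^ k := Nat.mul_le_mul_right _ hAle
    _ ≤ _ := hnum

theorem result {Ω : Type*} [Fintype Ω] [DecidableEq Ω]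
    (p : ℕ) (hp : p.Prime) (hn : p ≤ Fintype.card Ω) (A : Subgroup (Equiv.Perm Ω)) (hA : IsPGroup p A) (hab : IsMulCommutative A)
    (k : ℕ) (hk : Nat.card {x : A // x ^ p = 1} = p ^ k) :
    Nat.card A * k ^ k ≤ Fintype.card Ω ^ k := by
  classical
  letI : CommGroup A := { (inferInstance : Group A) with
    mul_comm := fun a b => hab.is_comm.comm a b }
  exact main p hp hA k hk

end Cfsg.Agent.S3696
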