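import Cfsg.Statements.S3765
import Cfsg.Agent.Lib.H26.ExtraRep2
import Cfsg.Agent.Lib.H26.FrobAct
import Cfsg.Agent.Lib.H18.Syl
import Cfsg.Agent.S3755
import Mathlib

set_option autoImplicit false
set_option linter.style.haveILetI false
set_option linter.unusedVariables false

namespace Cfsg.Agent.S3765

open Cfsg Module
open Cfsg.Agent.H26.ExtraRep
open Cfsg.Agent.H26.FrobAct
open scoped commutatorElement

variable {G : Type*} [Group G] [Finite G]

/-- A Frobenius action on an abelian group without fixed points of the complement is trivial. -/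
theorem frob_central (V Q₁ : Subgroup G) (x : G) (hVc : ∀ u ∈ V, ∀ v ∈ V, u * v = v * u)
    (hQV : Q₁ ≤ Subgroup.normalizer (V : Set G)) (hxV : x ∈ Subgroup.normalizer (V : Set G))
    (hxQ : x ∈ Subgroup.normalizer (Q₁ : Set G)) (hcop : (Nat.card Q₁).Coprime (Nat.card V))
    (hfrob : ∀ g ∈ Subgroup.zpowers x, g ≠ 1 → ∀ z ∈ Q₁, z * g = g * z → z = 1)
    (hfix : ∀ v ∈ V, x * v * x⁻¹ = v → v = 1) :
    ∀ z ∈ Q₁, ∀ v ∈ V, z * v = v * z := by
  classical
  letI iC : CommGroup V := { (inferInstance : Group V) with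
    mul_comm := fun a b => Subtype.ext (hVc a a.2 b b.2) }
  let A : Subgroup G := Subgroup.normalizer (Q₁ : Set G) ⊓ Subgroup.normalizer (V : Set G)
  have hA : A ≤ Subgroup.normalizer (V : Set G) := inf_le_right
  let ρ : A →* MulAut V := (Subgroup.normalizerMonoidHom V).comp (Subgroup.inclusion hA)
  have hρ : ∀ (a : A) (v : V), ((ρ a v : V) : G) = (a : G) * v * (a : G)⁻¹ := fun a x => rfl
  let Z : Subgroup A := Q₁.subgroupOf A
  let R : Subgroup A := (Subgroup.zpowers x).subgroupOf A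
  letI : Fintype Z := Fintype.ofFinite Z
  letI : Fintype R := Fintype.ofFinite R
  have hxA : x ∈ A := ⟨hxQ, hxV⟩
  have hQA : Q₁ ≤ A := fun z hz => ⟨Subgroup.le_normalizer hz, hQV hz⟩
  have hZn : Z.Normal := by
    constructor
    intro z hz a
    rw [Subgroup.mem_subgroupOf] at hz ⊢
    exact (Subgroup.mem_normalizer_iff.mp a.2.1 _).mp hz
  have hcardZ : Nat.card Z = Nat.card Q₁ := Nat.card_congr (Subgroup.subgroupOfEquivOfLe hQA).toEquiv
  have hcop' : (Nat.card Z).Coprime (Nat.card V) := by rw [hcardZ]; exact hcop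
  have hfrob' : ∀ r ∈ R, r ≠ 1 → ∀ z ∈ Z, z * r = r * z → z = 1 := by
    intro r hr hr1 z hz hzr
    apply Subtype.ext
    exact hfrob r.1 hr (fun h => hr1 (Subtype.ext h)) z.1 hz (congrArg Subtype.val hzr)
  let U : Subgroup V := (TH ρ Z).ker
  have hUmem : ∀ v, v ∈ U ↔ T ρ Z v = 1 := fun v => Iff.rfl
  have hUinv : ∀ a : A, ∀ y ∈ U, ρ a y ∈ U := by
    intro a y hy
    rw [hUmem] at hy ⊢
    rw [T_conj ρ Z hZn, hy, map_one]
  have hUfix : ∀ v ∈ U, (∀ z ∈ Z, ρ z v = v) → v = 1 := by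
    intro v hv hz
    rw [hUmem, T_const ρ Z hz] at hv
    have h1 : orderOf v ∣ Nat.card Z := orderOf_dvd_of_pow_eq_one hv
    have h2 : orderOf v ∣ Nat.card V := orderOf_dvd_natCard v
    exact orderOf_eq_one_iff.mp (Nat.eq_one_of_dvd_coprimes hcop' h1 h2)
  have hU1 : ∀ v ∈ U, v = 1 := by
    intro v hv
    by_contra hv1
    obtain ⟨c, -, hcR, hc1⟩ := exists_fix_ne_one ρ Z R
      (fun r hr z hz => hZn.conj_mem z hz r) hfrob' U (fun a _ y hy => hUinv a y hy)
      (fun a _ y hy => hUinv a y hy) hUfix hcop' hv hv1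
    apply hc1
    apply Subtype.ext
    apply hfix _ c.2
    have h1 := congrArg Subtype.val (hcR ⟨x, hxA⟩ (Subgroup.mem_zpowers x))
    exact h1
  intro z hz v hv
  obtain ⟨y, y', h1, -, -, hyf, hy'⟩ := decomp ρ Z hcop' ⊤ (fun _ _ _ _ => trivial)
    (Subgroup.mem_top (⟨v, hv⟩ : V))
  have hy'1 : y' = 1 := hU1 y' hy'
  rw [hy'1, mul_one] at h1
  rw [← h1] at hyf
  have h2 := congrArg Subtype.val (hyf ⟨z, hQA hz⟩ hz)
  have h3 : z * v * z⁻¹ = v := h2
  calc z * v = (z * v * z⁻¹) * z := by group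
    _ = v * z := by rw [h3]

/-- The numerics. -/
theorem numeric {q r N m : ℕ} (hq : q.Prime) (hr : r.Prime) (hN : N ^ 2 ∣ q ^ m) (hN1 : N ≠ 1)
    (hs : N % r = 0 ∨ N % r = 1 ∨ N % r + 1 = r) (hNr : N + 1 ≤ r) (hN0 : 0 < N) :
    q = 2 ∧ ∃ n : ℕ, r = 2 ^ n + 1 := by
  have hmod : N % r = N := Nat.mod_eq_of_lt (by omega)
  rw [hmod] at hs
  have hNr' : N + 1 = r := by
    rcases hs with h | h | h
    · omega
    · exact absurd h hN1
    · exact h
  have hNdvd : N ∣ q ^ m := (dvd_pow_self N (by norm_num)).trans hN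
  obtain ⟨n, -, hn⟩ := (Nat.dvd_prime_pow hq).mp hNdvd
  have hq2 : q = 2 := by
    rcases hq.eq_two_or_odd' with h | h
    · exact h
    · exfalso
      have hodd : Odd N := by rw [hn]; exact h.pow
      have heven : Even r := by
        rw [← hNr']
        exact hodd.add_one
      have hr2 : r = 2 := (hr.even_iff.mp heven)
      rw [hr2] at hNr'
      exact hN1 (by omega)
  subst hq2
  exact ⟨rfl, n, by rw [← hNr', hn]⟩

/-- Let p, q, r be distinct primes and let X, Q, V be subgroups of a finite group with X of order r normalizing the q-group Q and acting faithfully on it (X ∩ C(Q) = 1), and V a nontrivial elementary abelian p-group normalized by X and Q on which XQ acts faithfully. If q = 2 and r has the form 2^n + 1, assume in addition that Q is abelian. Then C_V(X) ≠ 1. -/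
theorem result {p q r : ℕ} (hp : p.Prime) (hq : q.Prime) (hr : r.Prime) (hpq : p ≠ q) (hpr : p ≠ r) (hqr : q ≠ r) (X Q V : Subgroup G) (hX : Nat.card X = r) (hQ : IsPGroup q Q) (hXQ : X ≤ Subgroup.normalizer (Q : Set G)) (hXfaith : X ⊓ Subgroup.centralizer (Q : Set G) = ⊥) (hV : Cfsg.IsElementaryAbelian p V) (hV1 : V ≠ ⊥) (hXV : X ≤ Subgroup.normalizer (V : Set G)) (hQV : Q ≤ Subgroup.normalizer (V : Set G)) (hfaith : (X ⊔ Q) ⊓ Subgroup.centralizer (V : Set G) = ⊥) (hexc : q = 2 → (∃ n : ℕ, r = 2 ^ n + 1) → IsMulCommutative Q) : V ⊓ Subgroup.centralizer (X : Set G) ≠ ⊥ := by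
  classical
  haveI hfp : Fact p.Prime := ⟨hp⟩
  haveI hfq : Fact q.Prime := ⟨hq⟩
  haveI hfr : Fact r.Prime := ⟨hr⟩
  intro hCV
  -- a generator of `X`
  haveI : IsCyclic X := isCyclic_of_prime_card hX
  obtain ⟨x', hx'⟩ := IsCyclic.exists_generator (α := X)
  have hord : orderOf (x' : G) = r := by
    rw [Subgroup.orderOf_coe, ← hX]
    exact orderOf_eq_card_of_forall_mem_zpowers hx'
  set x : G := (x' : G) with hx
  have hxX : x ∈ X := x'.2
  have hXle : X ≤ Subgroup.zpowers x := by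
    intro g hg
    obtain ⟨k, hk⟩ := Subgroup.mem_zpowers_iff.mp (hx' ⟨g, hg⟩)
    exact Subgroup.mem_zpowers_iff.mpr ⟨k, congrArg Subtype.val hk⟩
  have hpos : 0 < r := hr.pos
  have hrpow : x ^ r = 1 := by rw [← hord]; exact pow_orderOf_eq_one x
  have hx1 : x ≠ 1 := by
    intro h
    rw [h, orderOf_one] at hord
    exact hr.one_lt.ne hord
  -- the minimal subgroup
  let S : Set (Subgroup G) := {R | R ≤ Q ∧ (∀ y ∈ R, x * y * x⁻¹ ∈ R) ∧ ∃ y ∈ R, x * y * x⁻¹ ≠ y}
  have hQS : Q ∈ S := by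
    refine ⟨le_rfl, fun y hy => (Subgroup.mem_normalizer_iff.mp (hXQ hxX) y).mp hy, ?_⟩
    by_contra hcon
    push Not at hcon
    have h1 : x ∈ X ⊓ Subgroup.centralizer (Q : Set G) := by
      refine ⟨hxX, ?_⟩
      change x ∈ Subgroup.centralizer (Q : Set G)
      rw [Subgroup.mem_centralizer_iff]
      intro y hy
      have := hcon y hy
      calc y * x = (x * y * x⁻¹) * x := by rw [this]
        _ = x * y := by group
    rw [hXfaith, Subgroup.mem_bot] at h1
    exact hx1 h1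
  obtain ⟨Q₁, hQ₁⟩ := (Set.toFinite S).exists_minimal ⟨Q, hQS⟩
  obtain ⟨hQ₁Q, hQ₁inv, y₀, hy₀, hy₀x⟩ := hQ₁.prop
  have hprop : ∀ R : Subgroup G, R ≤ Q₁ → (∀ y ∈ R, x * y * x⁻¹ ∈ R) → R ≠ Q₁ →
      ∀ y ∈ R, x * y * x⁻¹ = y := by
    intro R hR hRinv hne y hy
    by_contra h
    have hRS : R ∈ S := ⟨hR.trans hQ₁Q, hRinv, y, hy, h⟩
    exact hne (le_antisymm hR (hQ₁.2 hRS hR))
  have hQ₁pg : IsPGroup q Q₁ := hQ.to_le hQ₁Q
  have hpowinv : ∀ (k : ℕ), ∀ y ∈ Q₁, x ^ k * y * (x ^ k)⁻¹ ∈ Q₁ := by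
    intro k
    induction k with
    | zero => intro y hy; simpa using hy
    | succ k ih =>
      intro y hy
      have h1 := hQ₁inv _ (ih y hy)
      have h2 : x ^ (k + 1) * y * (x ^ (k + 1))⁻¹ = x * (x ^ k * y * (x ^ k)⁻¹) * x⁻¹ := by
        rw [pow_succ']; group
      rw [h2]
      exact h1
  have hxN : x ∈ Subgroup.normalizer (Q₁ : Set G) := by
    rw [Subgroup.mem_normalizer_iff]
    intro h
    refine ⟨hQ₁inv h, fun hm => ?_⟩
    have h1 := hpowinv (r - 1) _ hm
    have h2 : x ^ (r - 1) * x = 1 := by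
      rw [← pow_succ, Nat.sub_add_cancel hpos, hrpow]
    have h3 : x ^ (r - 1) * (x * h * x⁻¹) * (x ^ (r - 1))⁻¹ = h := by
      have h4 : x ^ (r - 1) * (x * h * x⁻¹) * (x ^ (r - 1))⁻¹ =
          (x ^ (r - 1) * x) * h * (x ^ (r - 1) * x)⁻¹ := by group
      rw [h4, h2]
      group
    rwa [h3] at h1
  have hxinv : ∀ y ∈ Q₁, x⁻¹ * y * x ∈ Q₁ := by
    intro y hy
    have := (Subgroup.mem_normalizer_iff.mp (Subgroup.inv_mem _ hxN) y).mp hy
    simpa using this
  set D := Q₁ ⊓ Subgroup.centralizer ({x} : Set G) with hD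
  have hDQ : D ≤ Q₁ := inf_le_left
  have hDfix : ∀ d ∈ D, x * d * x⁻¹ = d := by
    intro d hd
    have h1 := Subgroup.mem_centralizer_iff.mp hd.2 x rfl
    rw [h1]
    group
  have hDmem : ∀ y ∈ Q₁, x * y * x⁻¹ = y → y ∈ D := by
    intro y hy hfix
    refine ⟨hy, ?_⟩
    change y ∈ Subgroup.centralizer ({x} : Set G)
    rw [Subgroup.mem_centralizer_iff]
    intro g hg
    have hg' : g = x := hg
    rw [hg']
    calc x * y = x * y * x⁻¹ * x := by group
      _ = y * x := by rw [hfix]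
  have hDinv : ∀ d ∈ D, x * d * x⁻¹ ∈ D := by
    intro d hd
    rw [hDfix d hd]
    exact hd
  have hDne : D ≠ Q₁ := by
    intro h
    rw [← h] at hy₀
    exact hy₀x (hDfix y₀ hy₀)
  -- commutators
  have hcommQ : ∀ t ∈ Q₁, ∀ y ∈ Q₁, t * y * t⁻¹ * y⁻¹ ∈ D := by
    haveI : Group.IsNilpotent ↥Q₁ := hQ₁pg.isNilpotent
    have hnt : Nontrivial ↥Q₁ := by
      refine ⟨⟨⟨y₀, hy₀⟩, 1, fun h => hy₀x ?_⟩⟩
      have h1 : y₀ = 1 := congrArg Subtype.val h
      rw [h1]; group
    have hlt := Group.IsSolvable.commutator_lt_top_of_nontrivial ↥Q₁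
    set C₁ := (commutator ↥Q₁).map Q₁.subtype with hC₁
    have h1 : C₁ ≤ Q₁ := by
      rintro _ ⟨w, -, rfl⟩
      exact w.2
    have h2 : ∀ y ∈ C₁, x * y * x⁻¹ ∈ C₁ := by
      rintro _ ⟨w, hw, rfl⟩
      let σ : MulAut Q₁ := Q₁.normalizerMonoidHom ⟨x, hxN⟩
      have hfixσ := (inferInstance : (commutator ↥Q₁).Characteristic).fixed σ
      have hw' : σ w ∈ commutator ↥Q₁ := by
        have : w ∈ (commutator ↥Q₁).comap σ.toMonoidHom := by rw [hfixσ]; exact hw
        exact this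
      exact ⟨σ w, hw', rfl⟩
    have h3 : C₁ ≠ Q₁ := by
      intro h
      apply hlt.ne
      rw [eq_top_iff]
      intro y _
      have h4 : (y : G) ∈ C₁ := by rw [h]; exact y.2
      obtain ⟨w, hw, hwy⟩ := h4
      have h5 : w = y := Subtype.ext hwy
      rw [← h5]
      exact hw
    intro t ht y hy
    have h4 : t * y * t⁻¹ * y⁻¹ ∈ C₁ := by
      refine ⟨⁅(⟨t, ht⟩ : Q₁), (⟨y, hy⟩ : Q₁)⁆, ?_, rfl⟩
      rw [commutator_def]
      exact Subgroup.commutator_mem_commutator (Subgroup.mem_top _) (Subgroup.mem_top _)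
    exact hDmem _ (h1 h4) (hprop C₁ h1 h2 h3 _ h4)
  have hDnorm : ∀ y ∈ Q₁, ∀ d ∈ D, y * d * y⁻¹ ∈ D := by
    intro y hy d hd
    have h1 := D.mul_mem (hcommQ y hy d (hDQ hd)) hd
    have h2 : y * d * y⁻¹ * d⁻¹ * d = y * d * y⁻¹ := by group
    rwa [h2] at h1
  have hQ₁cop : r.Coprime (Nat.card Q₁) := by
    obtain ⟨k, hk⟩ := IsPGroup.iff_card.mp hQ₁pg
    rw [hk]
    exact Nat.Coprime.pow_right k ((Nat.coprime_primes hr hq).mpr hqr.symm)
  have hpowcomm : ∀ y k, 0 < k → k < r → x ^ k * y * (x ^ k)⁻¹ = y → x * y = y * x := by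
    intro y k hk hkr hfix
    have hcop : Nat.Coprime k (orderOf x) := by
      rw [hord]
      apply Nat.Coprime.symm
      rw [Nat.Prime.coprime_iff_not_dvd hr]
      intro hd
      have := Nat.le_of_dvd hk hd
      omega
    obtain ⟨m, hm⟩ := exists_pow_eq_self_of_coprime hcop
    have hcomm1 : Commute (x ^ k) y := by
      show x ^ k * y = y * x ^ k
      calc x ^ k * y = x ^ k * y * (x ^ k)⁻¹ * x ^ k := by group
        _ = y * x ^ k := by rw [hfix]
    have hcomm2 : Commute x y := by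
      rw [← hm]
      exact hcomm1.pow_left m
    exact hcomm2
  have hDpow : ∀ d ∈ D, ∀ k : ℕ, x ^ k * d * (x ^ k)⁻¹ = d := by
    intro d hd k
    induction k with
    | zero => simp
    | succ k ih =>
      have h2 : x ^ (k + 1) * d * (x ^ (k + 1))⁻¹ = x * (x ^ k * d * (x ^ k)⁻¹) * x⁻¹ := by
        rw [pow_succ']; group
      rw [h2, ih, hDfix d hd]
  have hfree : ∀ k, 0 < k → k < r → ∀ y ∈ Q₁, x ^ k * y * (x ^ k)⁻¹ * y⁻¹ ∈ D → y ∈ D := by
    intro k hk hkr y hy hmem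
    have hzq : (x ^ k * y * (x ^ k)⁻¹ * y⁻¹) ^ Nat.card Q₁ = 1 := by
      have h1 : (⟨_, hDQ hmem⟩ : Q₁) ^ Nat.card Q₁ = 1 := pow_card_eq_one'
      exact congrArg Subtype.val h1
    have h3 := conj_eq_of_stab' (g := x ^ k) (y := y) (h := r) (q := Nat.card Q₁)
      (by rw [← pow_mul, mul_comm, pow_mul, hrpow, one_pow]) (hDpow _ hmem k) hzq hQ₁cop rfl
    have h4 := hpowcomm y k hk hkr h3
    apply hDmem y hy
    rw [h4]
    group
  have hfree1 : ∀ y ∈ Q₁, x * y * x⁻¹ * y⁻¹ ∈ D → y ∈ D := by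
    intro y hy hmem
    have h1 := hfree 1 (by norm_num) hr.one_lt y hy
    simpa using h1 (by simpa using hmem)
  -- the subgroup `D` is central
  have hDcent : ∀ d ∈ D, ∀ y ∈ Q₁, d * y = y * d := by
    set C := Q₁ ⊓ Subgroup.centralizer (D : Set G) with hC
    have hCle : C ≤ Q₁ := inf_le_left
    have hCmem : ∀ y ∈ C, ∀ d ∈ D, d * y = y * d := by
      intro y hy d hd
      exact Subgroup.mem_centralizer_iff.mp hy.2 d hd
    have hCinv : ∀ y ∈ C, x * y * x⁻¹ ∈ C := by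
      intro y hy
      refine ⟨hQ₁inv y hy.1, ?_⟩
      change x * y * x⁻¹ ∈ Subgroup.centralizer (D : Set G)
      rw [Subgroup.mem_centralizer_iff]
      intro d hd
      have h1 : x⁻¹ * d * x = d := by
        have h2 := hDfix d hd
        calc x⁻¹ * d * x = x⁻¹ * (x * d * x⁻¹) * x := by rw [h2]
          _ = d := by group
      have h2 := hCmem y hy d hd
      calc d * (x * y * x⁻¹) = x * (x⁻¹ * d * x) * y * x⁻¹ := by group
        _ = x * (d * y) * x⁻¹ := by rw [h1]; group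
        _ = x * (y * d) * x⁻¹ := by rw [h2]
        _ = x * y * (x⁻¹ * (x * d * x⁻¹)) := by group
        _ = x * y * x⁻¹ * d := by rw [hDfix d hd]; group
    by_cases hCeq : C = Q₁
    · intro d hd y hy
      rw [← hCeq] at hy
      exact hCmem y hy d hd
    · exfalso
      have hfixC := hprop C hCle hCinv hCeq
      -- the element `w`
      set w := y₀⁻¹ * (x * y₀ * x⁻¹) with hw
      have hwQ : w ∈ Q₁ := Q₁.mul_mem (Q₁.inv_mem hy₀) (hQ₁inv _ hy₀)
      have hwC : w ∈ C := by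
        refine ⟨hwQ, ?_⟩
        change w ∈ Subgroup.centralizer (D : Set G)
        rw [Subgroup.mem_centralizer_iff]
        intro d hd
        have h1 : x⁻¹ * d * x = d := by
          have h2 := hDfix d hd
          calc x⁻¹ * d * x = x⁻¹ * (x * d * x⁻¹) * x := by rw [h2]
            _ = d := by group
        have hd' : y₀ * d * y₀⁻¹ ∈ D := hDnorm y₀ hy₀ d hd
        have h3 := hDfix _ hd'
        have h4 : w * d * w⁻¹ = d := by
          calc w * d * w⁻¹ = y₀⁻¹ * (x * (y₀ * (x⁻¹ * d * x) * y₀⁻¹) * x⁻¹) * y₀ := by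
                simp only [hw]; group
            _ = y₀⁻¹ * (x * (y₀ * d * y₀⁻¹) * x⁻¹) * y₀ := by rw [h1]
            _ = d := by rw [h3]; group
        calc d * w = w * (w⁻¹ * d * w) := by group
          _ = w * d := by
              have h5 : w⁻¹ * d * w = d := by
                calc w⁻¹ * d * w = w⁻¹ * (w * d * w⁻¹) * w := by rw [h4]
                  _ = d := by group
              rw [h5]
      have hwD : w ∈ D := hDmem w hwQ (hfixC w hwC)
      have h5 : x * y₀ * x⁻¹ * y₀⁻¹ = y₀ * w * y₀⁻¹ := by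
        simp only [hw]; group
      have h6 : y₀ ∈ D := hfree1 y₀ hy₀ (by rw [h5]; exact hDnorm y₀ hy₀ w hwD)
      exact hy₀x (hDfix y₀ h6)
  -- properties of `V`
  have hVc : ∀ u ∈ V, ∀ v ∈ V, u * v = v * u := by
    intro u hu v hv
    haveI := hV.1
    exact congrArg Subtype.val (mul_comm' (⟨u, hu⟩ : V) ⟨v, hv⟩)
  have hnofix : ∀ v ∈ V, x * v * x⁻¹ = v → v = 1 := by
    intro v hv hfix
    have h1 : v ∈ V ⊓ Subgroup.centralizer (X : Set G) := by
      refine ⟨hv, ?_⟩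
      change v ∈ Subgroup.centralizer (X : Set G)
      rw [Subgroup.mem_centralizer_iff]
      intro g hg
      obtain ⟨j, hj⟩ := Subgroup.mem_zpowers_iff.mp (hXle hg)
      rw [← hj]
      have h2 : Commute x v := by
        show x * v = v * x
        calc x * v = x * v * x⁻¹ * x := by group
          _ = v * x := by rw [hfix]
      exact h2.zpow_left j
    rw [hCV, Subgroup.mem_bot] at h1
    exact h1
  have hfaith' : ∀ c ∈ Q₁, (∀ v ∈ V, c * v * c⁻¹ = v) → c = 1 := by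
    intro c hc hcon
    have h1 : c ∈ (X ⊔ Q) ⊓ Subgroup.centralizer (V : Set G) := by
      refine ⟨(le_sup_right : Q ≤ X ⊔ Q) (hQ₁Q hc), ?_⟩
      change c ∈ Subgroup.centralizer (V : Set G)
      rw [Subgroup.mem_centralizer_iff]
      intro v hv
      have := hcon v hv
      calc v * c = (c * v * c⁻¹) * c := by rw [this]
        _ = c * v := by group
    rw [hfaith, Subgroup.mem_bot] at h1
    exact h1
  have hQ₁V : Q₁ ≤ Subgroup.normalizer (V : Set G) := hQ₁Q.trans hQV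
  by_cases hab : ∀ t ∈ Q₁, ∀ y ∈ Q₁, t * y = y * t
  · -- the abelian case
    have hD1 : ∀ d ∈ D, d = 1 := by
      let θ : Q₁ →* Q₁ := Cfsg.Agent.S3755.cmap Q₁ hab x hxN
      have hθ : ∀ y : Q₁, ((θ y : Q₁) : G) = (y : G)⁻¹ * (x * y * x⁻¹) := fun y => rfl
      have hsurj : Function.Surjective θ := by
        rw [← MonoidHom.range_eq_top]
        by_contra hne
        set I := θ.range.map Q₁.subtype with hI
        have hIle : I ≤ Q₁ := by
          rintro _ ⟨w, -, rfl⟩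
          exact w.2
        have hIinv : ∀ y ∈ I, x * y * x⁻¹ ∈ I := by
          rintro _ ⟨_, ⟨w, rfl⟩, rfl⟩
          refine ⟨θ ⟨x * w * x⁻¹, hQ₁inv _ w.2⟩, ⟨_, rfl⟩, ?_⟩
          change ((θ ⟨x * w * x⁻¹, hQ₁inv _ w.2⟩ : Q₁) : G) = x * ((θ w : Q₁) : G) * x⁻¹
          rw [hθ, hθ]
          group
        have hIne : I ≠ Q₁ := by
          intro h
          apply hne
          rw [eq_top_iff]
          intro y _
          have h4 : (y : G) ∈ I := by rw [h]; exact y.2
          obtain ⟨w, hw, hwy⟩ := h4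
          have h5 : w = y := Subtype.ext hwy
          rw [← h5]
          exact hw
        have hfixI := hprop I hIle hIinv hIne
        have hz : ((θ ⟨y₀, hy₀⟩ : Q₁) : G) ∈ I := ⟨_, ⟨_, rfl⟩, rfl⟩
        have hzfix := hfixI _ hz
        rw [hθ] at hzfix hz
        have hzq : (y₀⁻¹ * (x * y₀ * x⁻¹)) ^ Nat.card Q₁ = 1 := by
          have h1 : (⟨_, hIle hz⟩ : Q₁) ^ Nat.card Q₁ = 1 := pow_card_eq_one'
          exact congrArg Subtype.val h1
        have hmem : y₀⁻¹ * (x * y₀ * x⁻¹) ∈ Q₁ := hIle hz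
        have hcomm' : y₀ * (y₀⁻¹ * (x * y₀ * x⁻¹)) = (y₀⁻¹ * (x * y₀ * x⁻¹)) * y₀ := hab _ hy₀ _ hmem
        have heq : x * y₀ * x⁻¹ * y₀⁻¹ = y₀⁻¹ * (x * y₀ * x⁻¹) := by
          have h1 : x * y₀ * x⁻¹ = y₀ * (y₀⁻¹ * (x * y₀ * x⁻¹)) := by group
          calc x * y₀ * x⁻¹ * y₀⁻¹ = y₀ * (y₀⁻¹ * (x * y₀ * x⁻¹)) * y₀⁻¹ := by rw [← h1]
            _ = (y₀⁻¹ * (x * y₀ * x⁻¹)) * y₀ * y₀⁻¹ := by rw [hcomm']
            _ = y₀⁻¹ * (x * y₀ * x⁻¹) := by group
        have h3 := conj_eq_of_stab' (g := x) (y := y₀) (h := r) (q := Nat.card Q₁)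
          hrpow hzfix hzq hQ₁cop heq
        exact hy₀x h3
      have hinj : Function.Injective θ := Finite.injective_iff_surjective.mpr hsurj
      intro d hd
      have h1 : θ ⟨d, hDQ hd⟩ = 1 := by
        apply Subtype.ext
        rw [hθ, hDfix d hd]
        simp
      have h2 : (⟨d, hDQ hd⟩ : Q₁) = 1 := hinj (by rw [h1, map_one])
      exact congrArg Subtype.val h2
    have hVp : IsPGroup p V := by
      intro v
      refine ⟨1, Subtype.ext ?_⟩
      simpa using hV.2 v v.2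
    have hcop : (Nat.card Q₁).Coprime (Nat.card V) := by
      obtain ⟨k, hk⟩ := IsPGroup.iff_card.mp hQ₁pg
      obtain ⟨l, hl⟩ := IsPGroup.iff_card.mp hVp
      rw [hk, hl]
      exact Nat.Coprime.pow k l ((Nat.coprime_primes hq hp).mpr hpq.symm)
    have hcent := frob_central V Q₁ x hVc hQ₁V (hXV hxX) hxN hcop
      (by
        intro g hg hg1 z hz hzg
        apply hD1 z
        have hcardz : Nat.card (Subgroup.zpowers x) = r := by
          rw [Nat.card_zpowers, hord]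
        have h1 := mem_zpowers_of_prime_card (p := r) hcardz (g := ⟨g, hg⟩)
          (g' := ⟨x, Subgroup.mem_zpowers x⟩) (fun h => hg1 (congrArg Subtype.val h))
        obtain ⟨k, hk⟩ := Subgroup.mem_zpowers_iff.mp h1
        have h2 : g ^ k = x := congrArg Subtype.val hk
        have h3 : Commute g z := hzg.symm
        have h4 : Commute x z := by
          rw [← h2]
          exact h3.zpow_left k
        apply hDmem z hz
        rw [h4.eq]
        group)
      hnofix
    have h1 := hfaith' y₀ hy₀ (fun v hv => by rw [hcent y₀ hy₀ v hv]; group)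
    apply hy₀x
    rw [h1]
    group
  · -- the nonabelian case
    push Not at hab
    obtain ⟨t₀, ht₀, y₁, hy₁, hne⟩ := hab
    set c := t₀ * y₁ * t₀⁻¹ * y₁⁻¹ with hc
    have hcD : c ∈ D := hcommQ t₀ ht₀ y₁ hy₁
    have hc1 : c ≠ 1 := by
      intro h
      apply hne
      have h2 : t₀ * y₁ * t₀⁻¹ = y₁ := by
        have := mul_eq_one_iff_eq_inv.mp h
        rwa [inv_inv] at this
      calc t₀ * y₁ = t₀ * y₁ * t₀⁻¹ * t₀ := by group
        _ = y₁ * t₀ := by rw [h2]
    have hcV : ∃ v ∈ V, c * v * c⁻¹ ≠ v := by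
      by_contra hcon
      push Not at hcon
      exact hc1 (hfaith' c (hDQ hcD) hcon)
    have hQ₁cop' : (Nat.card Q₁).Coprime p := by
      obtain ⟨k, hk⟩ := IsPGroup.iff_card.mp hQ₁pg
      rw [hk]
      exact Nat.Coprime.pow_left k ((Nat.coprime_primes hq hp).mpr hpq.symm)
    obtain ⟨N, hN0, hN2, hs, hno⟩ := T2 (p := p) (F := AlgebraicClosure (ZMod p)) V Q₁ D hVc hV.2 hDQ
      hQ₁V (hXV hxX) hxN hpos hrpow hQ₁cop' ((Nat.coprime_primes hr hp).mpr hpr.symm) hDcent hcommQ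
      hDfix hfree hcD hcV
      (by
        intro χ hmul h1 hcχ y hy hyD
        by_contra hcon
        push Not at hcon
        -- the radical
        have hmulc : ∀ t ∈ Q₁, ∀ a ∈ Q₁, ∀ b ∈ Q₁,
            χ (t * (a * b) * t⁻¹ * (a * b)⁻¹) = χ (t * a * t⁻¹ * a⁻¹) * χ (t * b * t⁻¹ * b⁻¹) := by
          intro t ht a ha b hb
          have hb' := hcommQ t ht b hb
          have h2 : t * (a * b) * t⁻¹ * (a * b)⁻¹ =
              (t * a * t⁻¹ * a⁻¹) * (a * (t * b * t⁻¹ * b⁻¹) * a⁻¹) := by group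
          have h3 : a * (t * b * t⁻¹ * b⁻¹) * a⁻¹ = t * b * t⁻¹ * b⁻¹ := by
            rw [← hDcent _ hb' a ha]
            group
          rw [h2, h3, hmul _ (hcommQ t ht a ha) _ hb']
        let Rad : Subgroup G :=
          { carrier := {a | a ∈ Q₁ ∧ ∀ t ∈ Q₁, χ (t * a * t⁻¹ * a⁻¹) = 1}
            one_mem' := ⟨Q₁.one_mem, fun t ht => by
              have h2 : t * 1 * t⁻¹ * 1⁻¹ = 1 := by group
              rw [h2]; exact h1⟩
            mul_mem' := by
              rintro a b ⟨ha, ha'⟩ ⟨hb, hb'⟩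
              refine ⟨Q₁.mul_mem ha hb, fun t ht => ?_⟩
              rw [hmulc t ht a ha b hb, ha' t ht, hb' t ht, one_mul]
            inv_mem' := by
              rintro a ⟨ha, ha'⟩
              refine ⟨Q₁.inv_mem ha, fun t ht => ?_⟩
              have h2 := hmulc t ht a ha a⁻¹ (Q₁.inv_mem ha)
              have h3 : t * (a * a⁻¹) * t⁻¹ * (a * a⁻¹)⁻¹ = 1 := by group
              rw [h3, h1, ha' t ht, one_mul] at h2
              exact h2.symm }
        have hRadle : Rad ≤ Q₁ := fun a ha => ha.1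
        have hRadinv : ∀ a ∈ Rad, x * a * x⁻¹ ∈ Rad := by
          rintro a ⟨ha, ha'⟩
          refine ⟨hQ₁inv a ha, fun t ht => ?_⟩
          have ht' := hxinv t ht
          have h2 := hcommQ _ ht' a ha
          have h3 : t * (x * a * x⁻¹) * t⁻¹ * (x * a * x⁻¹)⁻¹ =
              x * ((x⁻¹ * t * x) * a * (x⁻¹ * t * x)⁻¹ * a⁻¹) * x⁻¹ := by group
          rw [h3, hDfix _ h2]
          exact ha' _ ht'
        have hyRad : y ∈ Rad := ⟨hy, hcon⟩
        by_cases hRad : Rad = Q₁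
        · apply hcχ
          have h2 : y₁ ∈ Rad := by rw [hRad]; exact hy₁
          exact h2.2 t₀ ht₀
        · have h2 := hprop Rad hRadle hRadinv hRad y hyRad
          exact hyD (hDmem y hy h2))
    have hNr := hno hnofix
    have hidx1 : D.relIndex Q₁ ≠ 1 := by
      intro h1
      apply hDne
      rw [Subgroup.relIndex_eq_one] at h1
      exact le_antisymm hDQ h1
    have hNne1 : N ≠ 1 := by
      intro h1
      rw [h1, one_pow] at hN2
      exact hidx1 hN2.symm
    obtain ⟨m, hm⟩ := IsPGroup.iff_card.mp hQ₁pg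
    have hdvd : N ^ 2 ∣ q ^ m := by
      rw [hN2, ← hm]
      exact Subgroup.relIndex_dvd_card D Q₁
    obtain ⟨hq2, hfer⟩ := numeric hq hr hdvd hNne1 hs hNr hN0
    have hQab := hexc hq2 hfer
    apply hne
    have := mul_comm' (⟨t₀, hQ₁Q ht₀⟩ : Q) ⟨y₁, hQ₁Q hy₁⟩
    exact congrArg Subtype.val this

end Cfsg.Agent.S3765
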