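import Cfsg.Statements.S3769
import Cfsg.Agent.S3765
import Cfsg.Agent.Lib.H01.Solv2
import Cfsg.Agent.Lib.H18.Syl
import Cfsg.Agent.Lib.H12.Core
import Mathlib

set_option autoImplicit false
set_option linter.style.haveILetI false
set_option linter.unusedVariables false

namespace Cfsg.Agent.S3769

open Cfsg Module
open scoped commutatorElement

/-- The abstract version of the fixed point theorem. -/
theorem fixed_abs {Γ A : Type*} [Group Γ] [Finite Γ] [CommGroup A] [Finite A] {p q r : ℕ}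
    (hp : p.Prime) (hq : q.Prime) (hr : r.Prime) (hpq : p ≠ q) (hpr : p ≠ r) (hqr : q ≠ r)
    (hA : ∀ a : A, a ^ p = 1) (hA1 : Nontrivial A) (φ : Γ →* MulAut A) (hφ : Function.Injective φ)
    (X Q : Subgroup Γ) (hX : Nat.card X = r) (hQ : IsPGroup q Q)
    (hXQ : X ≤ Subgroup.normalizer (Q : Set Γ)) (hXfaith : X ⊓ Subgroup.centralizer (Q : Set Γ) = ⊥)
    (hexc : q = 2 → (∃ n : ℕ, r = 2 ^ n + 1) → IsMulCommutative Q) :
    ∃ a : A, a ≠ 1 ∧ ∀ g ∈ X, φ g a = a := by
  classical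
  haveI hTfin : Finite (A ⋊[φ] Γ) := Finite.of_equiv _ SemidirectProduct.equivProd.symm
  let il : A →* (A ⋊[φ] Γ) := SemidirectProduct.inl
  let ir : Γ →* (A ⋊[φ] Γ) := SemidirectProduct.inr
  have hil : Function.Injective il := SemidirectProduct.inl_injective
  have hir : Function.Injective ir := SemidirectProduct.inr_injective
  have hconj : ∀ (g : Γ) (a : A), ir g * il a * (ir g)⁻¹ = il (φ g a) := by
    intro g a
    rw [← map_inv]
    exact (SemidirectProduct.inl_aut g a).symm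
  let V' : Subgroup (A ⋊[φ] Γ) := il.range
  let X' : Subgroup (A ⋊[φ] Γ) := X.map ir
  let Q' : Subgroup (A ⋊[φ] Γ) := Q.map ir
  have hVea : IsElementaryAbelian p V' := by
    refine ⟨IsMulCommutative.of_setLike_mul_comm ?_, ?_⟩
    · rintro _ ⟨a, rfl⟩ _ ⟨b, rfl⟩
      rw [← map_mul, ← map_mul, mul_comm]
    · rintro _ ⟨a, rfl⟩
      rw [← map_pow, hA, map_one]
  have hV1 : V' ≠ ⊥ := by
    obtain ⟨a, ha⟩ := exists_ne (1 : A)
    intro h
    have h1 : il a ∈ V' := ⟨a, rfl⟩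
    rw [h, Subgroup.mem_bot] at h1
    exact ha (hil (by rw [h1, map_one]))
  have hirV : ∀ g : Γ, ir g ∈ Subgroup.normalizer (V' : Set (A ⋊[φ] Γ)) := by
    intro g
    have key : ∀ (g : Γ) (h : (A ⋊[φ] Γ)), h ∈ V' → ir g * h * (ir g)⁻¹ ∈ V' := by
      rintro g _ ⟨a, rfl⟩
      rw [hconj]
      exact ⟨_, rfl⟩
    rw [Subgroup.mem_normalizer_iff]
    intro h
    refine ⟨key g h, fun hm => ?_⟩
    have h1 := key g⁻¹ _ hm
    rw [map_inv] at h1
    simpa [mul_assoc] using h1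
  have hX' : Nat.card X' = r := by
    rw [Subgroup.card_map_of_injective hir, hX]
  have hQ' : IsPGroup q Q' := hQ.map ir
  have hXQ' : X' ≤ Subgroup.normalizer (Q' : Set (A ⋊[φ] Γ)) := by
    rintro _ ⟨g, hg, rfl⟩
    have key : ∀ g ∈ X, ∀ h ∈ Q', ir g * h * (ir g)⁻¹ ∈ Q' := by
      rintro g hg _ ⟨y, hy, rfl⟩
      refine ⟨g * y * g⁻¹, (Subgroup.mem_normalizer_iff.mp (hXQ hg) y).mp hy, ?_⟩
      simp [map_mul, map_inv]
    rw [Subgroup.mem_normalizer_iff]
    intro h
    refine ⟨key g hg h, fun hm => ?_⟩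
    have h1 := key g⁻¹ (X.inv_mem hg) _ hm
    rw [map_inv] at h1
    simpa [mul_assoc] using h1
  have hfaith' : X' ⊓ Subgroup.centralizer (Q' : Set (A ⋊[φ] Γ)) = ⊥ := by
    rw [eq_bot_iff]
    rintro t ⟨⟨g, hg, rfl⟩, ht⟩
    rw [Subgroup.mem_bot]
    have h1 : g ∈ X ⊓ Subgroup.centralizer (Q : Set Γ) := by
      refine ⟨hg, ?_⟩
      change g ∈ Subgroup.centralizer (Q : Set Γ)
      rw [Subgroup.mem_centralizer_iff]
      intro y hy
      apply hir
      have h2 := Subgroup.mem_centralizer_iff.mp ht (ir y) ⟨y, hy, rfl⟩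
      rw [map_mul, map_mul]
      exact h2
    rw [hXfaith, Subgroup.mem_bot] at h1
    change ir g = 1
    rw [h1, map_one]
  have hfaithV : (X' ⊔ Q') ⊓ Subgroup.centralizer (V' : Set (A ⋊[φ] Γ)) = ⊥ := by
    rw [eq_bot_iff]
    rintro t ⟨h1, ht⟩
    rw [Subgroup.mem_bot]
    have hle : X' ⊔ Q' ≤ ir.range := sup_le
      (by rintro _ ⟨g, -, rfl⟩; exact ⟨g, rfl⟩) (by rintro _ ⟨g, -, rfl⟩; exact ⟨g, rfl⟩)
    obtain ⟨g, rfl⟩ := hle h1
    have h2 : φ g = 1 := by
      ext a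
      have h3 := Subgroup.mem_centralizer_iff.mp ht (il a) ⟨a, rfl⟩
      have h4 : il (φ g a) = il a := by
        rw [← hconj, ← h3]
        group
      have h5 := hil h4
      simpa using h5
    have h3 : g = 1 := hφ (by rw [h2, map_one])
    rw [h3, map_one]
  have hresult := Cfsg.Agent.S3765.result hp hq hr hpq hpr hqr X' Q' V' hX' hQ' hXQ' hfaith' hVea hV1
    (by rintro _ ⟨g, -, rfl⟩; exact hirV g) (by rintro _ ⟨g, -, rfl⟩; exact hirV g) hfaithV
    (by
      intro h2 h3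
      haveI := hexc h2 h3
      refine IsMulCommutative.of_setLike_mul_comm ?_
      rintro _ ⟨a, ha, rfl⟩ _ ⟨b, hb, rfl⟩
      rw [← map_mul, ← map_mul]
      congr 1
      exact congrArg Subtype.val (mul_comm' (⟨a, ha⟩ : Q) ⟨b, hb⟩))
  obtain ⟨v, hv, hv1⟩ := (Subgroup.bot_or_exists_ne_one _).resolve_left hresult
  obtain ⟨⟨a, rfl⟩, hv2⟩ := hv
  refine ⟨a, fun h => hv1 (by rw [h, map_one]), fun g hg => ?_⟩
  apply hil
  rw [← hconj]
  have h2 := Subgroup.mem_centralizer_iff.mp hv2 (ir g) ⟨g, hg, rfl⟩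
  rw [h2]
  group

/-- The main theorem for a faithful action. -/
theorem main_abs {Γ A : Type*} [Group Γ] [Finite Γ] [CommGroup A] [Finite A] {ℓ r : ℕ}
    (hℓ : ℓ.Prime) (hA : ∀ a : A, a ^ ℓ = 1) (hA1 : Nontrivial A) (φ : Γ →* MulAut A)
    (hφ : Function.Injective φ) (hsolv : Group.IsSolvable Γ) (hodd : Odd (Nat.card Γ))
    (hℓΓ : ¬ ℓ ∣ Nat.card Γ) (K : Subgroup Γ) (hK : K.Normal) {x : Γ} (hr : r.Prime)
    (hxr : orderOf x = r) (hcop : (Nat.card K).Coprime r) (hfix : ∀ a : A, φ x a = a → a = 1) :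
    ∀ k ∈ K, x * k = k * x := by
  classical
  haveI := hK
  haveI := hsolv
  haveI hsolvK : Group.IsSolvable K := inferInstance
  let σ : MulAut K := MulAut.conjNormal x
  have hσ : ∀ w : K, ((σ w : K) : Γ) = x * w * x⁻¹ := fun w => rfl
  have hxpow : x ^ r = 1 := by rw [← hxr]; exact pow_orderOf_eq_one x
  have hrΓ : r ∣ Nat.card Γ := by rw [← hxr]; exact orderOf_dvd_natCard x
  -- Step 1
  have hstep1 : ∀ (q : ℕ) (hq : q.Prime), ∀ w ∈ Cfsg.pCore q K, σ w = w := by
    intro q hq w hw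
    by_contra hne
    haveI hfq : Fact q.Prime := ⟨hq⟩
    have hw1 : w ≠ 1 := by
      rintro rfl
      exact hne (map_one σ)
    have hpg : IsPGroup q (Cfsg.pCore q K) := H01.pCore_isPGroup q
    have hqK : q ∣ Nat.card K := by
      have h1 : orderOf (⟨w, hw⟩ : Cfsg.pCore q K) ≠ 1 := by
        intro h2
        have h3 := orderOf_eq_one_iff.mp h2
        exact hw1 (congrArg Subtype.val h3)
      obtain ⟨k, hk⟩ := IsPGroup.iff_orderOf.mp hpg ⟨w, hw⟩
      have h2 : q ∣ orderOf (⟨w, hw⟩ : Cfsg.pCore q K) := by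
        rw [hk]
        refine dvd_pow_self q ?_
        rintro rfl
        exact h1 (by rw [hk, pow_zero])
      refine h2.trans ?_
      rw [Subgroup.orderOf_mk]
      have h4 : orderOf w ∣ Nat.card K := orderOf_dvd_natCard w
      exact h4
    have hqΓ : q ∣ Nat.card Γ := hqK.trans (Subgroup.card_subgroup_dvd_card K)
    have hℓq : ℓ ≠ q := fun h => hℓΓ (h ▸ hqΓ)
    have hℓr : ℓ ≠ r := fun h => hℓΓ (h ▸ hrΓ)
    have hqr : q ≠ r := by
      intro h
      rw [h] at hqK
      have := Nat.eq_one_of_dvd_coprimes hcop hqK (dvd_refl r)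
      exact hr.one_lt.ne this.symm
    have hq2 : q ≠ 2 := by
      rintro rfl
      have h1 : ¬ 2 ∣ Nat.card Γ := by
        rw [← even_iff_two_dvd, Nat.not_even_iff_odd]
        exact hodd
      exact h1 hqΓ
    set Q : Subgroup Γ := (Cfsg.pCore q K).map K.subtype with hQ
    have hXcard : Nat.card (Subgroup.zpowers x) = r := by
      rw [Nat.card_zpowers, hxr]
    have hpcoreChar : (Cfsg.pCore q K).Characteristic := H12.pCore_characteristic (p := q) K
    have hσpres : ∀ u ∈ Cfsg.pCore q K, σ u ∈ Cfsg.pCore q K := by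
      intro u hu
      have hfixσ := hpcoreChar.fixed σ
      have : u ∈ (Cfsg.pCore q K).comap σ.toMonoidHom := by rw [hfixσ]; exact hu
      exact this
    obtain ⟨a, ha1, hax⟩ := fixed_abs hℓ hq hr hℓq hℓr hqr hA hA1 φ hφ (Subgroup.zpowers x) Q hXcard
      (hpg.map K.subtype)
      (by
        rw [Subgroup.zpowers_le, Subgroup.mem_normalizer_iff]
        have key : ∀ (g : Γ), (∃ τ : MulAut K, (∀ u : K, ((τ u : K) : Γ) = g * u * g⁻¹) ∧ ∀ u ∈ Cfsg.pCore q K, τ u ∈ Cfsg.pCore q K) →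
            ∀ h ∈ Q, g * h * g⁻¹ ∈ Q := by
          rintro g ⟨τ, hτ, hτp⟩ _ ⟨u, hu, rfl⟩
          exact ⟨τ u, hτp u hu, hτ u⟩
        intro h
        refine ⟨key x ⟨σ, hσ, hσpres⟩ h, fun hm => ?_⟩
        have h1 := key x⁻¹ ⟨σ⁻¹, ?_, ?_⟩ _ hm
        · simpa [mul_assoc] using h1
        · intro u
          have h2 : ((σ (σ⁻¹ u) : K) : Γ) = u := by simp
          rw [hσ] at h2
          calc ((σ⁻¹ u : K) : Γ) = x⁻¹ * (x * ((σ⁻¹ u : K) : Γ) * x⁻¹) * x := by group
            _ = x⁻¹ * u * x⁻¹⁻¹ := by rw [h2]; group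
        · intro u hu
          have hfixσ := hpcoreChar.fixed σ⁻¹
          have : u ∈ (Cfsg.pCore q K).comap (σ⁻¹ : MulAut K).toMonoidHom := by rw [hfixσ]; exact hu
          exact this)
      (by
        rw [eq_bot_iff]
        rintro g ⟨hg, hgc⟩
        rw [Subgroup.mem_bot]
        by_contra hg1
        apply hne
        have h1 := mem_zpowers_of_prime_card (p := r) (hp := ⟨hr⟩) hXcard (g := ⟨g, hg⟩)
          (g' := ⟨x, Subgroup.mem_zpowers x⟩) (fun h => hg1 (congrArg Subtype.val h))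
        obtain ⟨k, hk⟩ := Subgroup.mem_zpowers_iff.mp h1
        have h2 : g ^ k = x := congrArg Subtype.val hk
        have h3 : Commute g (w : Γ) := Subgroup.mem_centralizer_iff.mp hgc _ ⟨w, hw, rfl⟩ |>.symm
        have h4 : Commute x (w : Γ) := by
          rw [← h2]
          exact h3.zpow_left k
        apply Subtype.ext
        rw [hσ, h4.eq]
        group)
      (fun h => absurd h hq2)
    exact ha1 (hfix a (hax x (Subgroup.mem_zpowers x)))
  -- Step 2
  have hstep2 : ∀ w ∈ Cfsg.fittingSubgroup K, σ w = w := by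
    intro w hw
    rw [H01.fitting_eq_iSup_pCore] at hw
    have hle : (⨆ p : Nat.Primes, Cfsg.pCore (p : ℕ) K) ≤ MonoidHom.eqLocus σ.toMonoidHom (MonoidHom.id K) := by
      apply iSup_le
      rintro ⟨q, hq⟩ u hu
      exact hstep1 q hq u hu
    exact hle hw
  -- Step 3
  intro k hk
  set k' : K := ⟨k, hk⟩ with hk'
  have hFn : (Cfsg.fittingSubgroup K).Normal := H01.fitting_normal
  set w := k'⁻¹ * σ k' with hw
  have hwC : w ∈ Subgroup.centralizer (Cfsg.fittingSubgroup K : Set K) := by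
    rw [Subgroup.mem_centralizer_iff]
    intro f hf
    have h1 := hstep2 _ (hFn.conj_mem f hf k')
    rw [map_mul, map_mul, map_inv, hstep2 f hf] at h1
    have h2 : w * f * w⁻¹ = f := by
      calc w * f * w⁻¹ = k'⁻¹ * (σ k' * f * (σ k')⁻¹) * k' := by simp only [hw]; group
        _ = k'⁻¹ * (k' * f * k'⁻¹) * k' := by rw [h1]
        _ = f := by group
    calc f * w = (w * f * w⁻¹) * w := by rw [h2]
      _ = w * f := by group
  have hwF : w ∈ Cfsg.fittingSubgroup K := H01.centralizer_fitting_le hwC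
  set z := k' * w * k'⁻¹ with hz
  have hzF : z ∈ Cfsg.fittingSubgroup K := hFn.conj_mem w hwF k'
  have hzfix := hstep2 z hzF
  have hzval : x * (z : Γ) * x⁻¹ = z := by
    rw [← hσ, hzfix]
  have hzq : (z : Γ) ^ Nat.card K = 1 := by
    have h1 : z ^ Nat.card K = 1 := pow_card_eq_one'
    exact congrArg Subtype.val h1
  have heq : x * k * x⁻¹ * k⁻¹ = (z : Γ) := by
    have h1 : z = σ k' * k'⁻¹ := by simp only [hz, hw]; group
    rw [h1]
    simp [hσ, hk']
  have h3 := H26.ExtraRep.conj_eq_of_stab' (g := x) (y := k) (h := r) (q := Nat.card K) hxpow hzval hzq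
    hcop.symm heq
  calc x * k = x * k * x⁻¹ * x := by group
    _ = k * x := by rw [h3]

/-- Let G and V be subgroups of a finite group with G solvable of odd order normalizing V, V an elementary abelian ℓ-group for a prime ℓ not dividing the order of G, and suppose G has a normal Hall subgroup K with a complement R of prime order. If C_V(R) = 1, then [R, K] centralizes V. -/
theorem result {X : Type*} [Group X] [Finite X] (G : Subgroup X) (hsolv : Group.IsSolvable G) (hodd : Odd (Nat.card G)) (V : Subgroup X) {ℓ : ℕ} (hℓ : ℓ.Prime) (hV : Cfsg.IsElementaryAbelian ℓ V) (hℓG : ¬ ℓ ∣ Nat.card G) (hGV : G ≤ Subgroup.normalizer (V : Set X)) (K R : Subgroup X) (hKG : K ≤ G) (hKn : G ≤ Subgroup.normalizer (K : Set X)) (hHall : (Nat.card K).Coprime (K.relIndex G)) (hRG : R ≤ G) (hR : (Nat.card R).Prime) (hKR : K ⊓ R = ⊥) (hKRG : K ⊔ R = G) (hCV : V ⊓ Subgroup.centralizer (R : Set X) = ⊥) : ⁅R, K⁆ ≤ Subgroup.centralizer (V : Set X) := by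
  classical
  by_cases hV0 : V = ⊥
  · intro g _
    rw [Subgroup.mem_centralizer_iff]
    intro h hh
    rw [hV0] at hh
    have h1 : h = 1 := by simpa using hh
    rw [h1]
    simp
  have hVc : ∀ u ∈ V, ∀ v ∈ V, u * v = v * u := by
    intro u hu v hv
    haveI := hV.1
    exact congrArg Subtype.val (mul_comm' (⟨u, hu⟩ : V) ⟨v, hv⟩)
  let iC : CommGroup V := { (inferInstance : Group V) with
    mul_comm := fun a b => Subtype.ext (hVc a a.2 b b.2) }
  have hnt : Nontrivial V := by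
    obtain ⟨v, hv, hv1⟩ := (Subgroup.bot_or_exists_ne_one V).resolve_left hV0
    exact ⟨⟨⟨v, hv⟩, 1, fun h => hv1 (congrArg Subtype.val h)⟩⟩
  have hVp : ∀ a : V, a ^ ℓ = 1 := fun a => Subtype.ext (by simpa using hV.2 a a.2)
  let φ₀ : G →* MulAut V := V.normalizerMonoidHom.comp (Subgroup.inclusion hGV)
  have hφ₀ : ∀ (g : G) (v : V), ((φ₀ g v : V) : X) = (g : X) * v * (g : X)⁻¹ := fun g v => rfl
  let π : G →* (G ⧸ φ₀.ker) := QuotientGroup.mk' φ₀.ker
  let φ : (G ⧸ φ₀.ker) →* MulAut V := QuotientGroup.kerLift φ₀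
  have hφinj : Function.Injective φ := QuotientGroup.kerLift_injective φ₀
  have hφπ : ∀ g : G, φ (π g) = φ₀ g := fun g => rfl
  have hπsurj : Function.Surjective π := QuotientGroup.mk'_surjective _
  -- the normal subgroup
  let K' : Subgroup G := K.subgroupOf G
  have hK'n : K'.Normal := by
    constructor
    intro k hk g
    rw [Subgroup.mem_subgroupOf] at hk ⊢
    exact (Subgroup.mem_normalizer_iff.mp (hKn g.2) _).mp hk
  let Kb : Subgroup (G ⧸ φ₀.ker) := K'.map π
  have hKbn : Kb.Normal := hK'n.map π hπsurj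
  -- the cyclic subgroup
  set r := Nat.card R with hr
  haveI hfr : Fact r.Prime := ⟨hR⟩
  haveI : IsCyclic R := isCyclic_of_prime_card (p := r) rfl
  obtain ⟨x', hx'⟩ := IsCyclic.exists_generator (α := R)
  have hord : orderOf (x' : X) = r := by
    rw [Subgroup.orderOf_coe]
    exact orderOf_eq_card_of_forall_mem_zpowers hx'
  set x₀ : X := (x' : X) with hx₀
  have hx₀R : x₀ ∈ R := x'.2
  have hx₀G : x₀ ∈ G := hRG hx₀R
  have hRle : R ≤ Subgroup.zpowers x₀ := by
    intro g hg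
    obtain ⟨k, hk⟩ := Subgroup.mem_zpowers_iff.mp (hx' ⟨g, hg⟩)
    exact Subgroup.mem_zpowers_iff.mpr ⟨k, congrArg Subtype.val hk⟩
  set x : G ⧸ φ₀.ker := π ⟨x₀, hx₀G⟩ with hx
  have hcentR : ∀ v : V, (x₀ * v * x₀⁻¹ = v) → (v : X) ∈ V ⊓ Subgroup.centralizer (R : Set X) := by
    intro v hv
    refine ⟨v.2, ?_⟩
    change (v : X) ∈ Subgroup.centralizer (R : Set X)
    rw [Subgroup.mem_centralizer_iff]
    intro g hg
    obtain ⟨j, hj⟩ := Subgroup.mem_zpowers_iff.mp (hRle hg)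
    rw [← hj]
    have h2 : Commute x₀ (v : X) := by
      show x₀ * v = v * x₀
      calc x₀ * v = x₀ * v * x₀⁻¹ * x₀ := by group
        _ = v * x₀ := by rw [hv]
    exact h2.zpow_left j
  have hfix : ∀ a : V, φ x a = a → a = 1 := by
    intro a ha
    have h1 : φ₀ ⟨x₀, hx₀G⟩ a = a := ha
    have h2 := congrArg Subtype.val h1
    rw [hφ₀] at h2
    have h3 := hcentR a h2
    rw [hCV, Subgroup.mem_bot] at h3
    exact Subtype.ext h3
  have hxord : orderOf x = r := by
    apply orderOf_eq_prime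
    · rw [hx, ← map_pow]
      have h1 : (⟨x₀, hx₀G⟩ : G) ^ r = 1 := by
        apply Subtype.ext
        change x₀ ^ r = 1
        rw [← hord]
        exact pow_orderOf_eq_one x₀
      rw [h1, map_one]
    · intro h1
      obtain ⟨a, ha⟩ := exists_ne (1 : V)
      apply ha
      apply hfix
      rw [h1, map_one]
      rfl
  -- the Hall condition
  have hcopK : (Nat.card K).Coprime r := by
    have hRle' : R ≤ G := hRG
    let R' : Subgroup G := R.subgroupOf G
    haveI := hK'n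
    have h1 := H18.card_sup_mul_card_inf R' K'
    have h2 : R' ⊔ K' = ⊤ := by
      change R.subgroupOf G ⊔ K.subgroupOf G = ⊤
      rw [← Subgroup.subgroupOf_sup hRG hKG, sup_comm, hKRG, Subgroup.subgroupOf_self]
    have h3 : R' ⊓ K' = ⊥ := by
      rw [eq_bot_iff]
      rintro y ⟨hy1, hy2⟩
      have h4 : (y : X) ∈ K ⊓ R := ⟨hy2, hy1⟩
      rw [hKR, Subgroup.mem_bot] at h4
      exact Subgroup.mem_bot.mpr (Subtype.ext h4)
    rw [h2, h3, Subgroup.card_top, Subgroup.card_bot, mul_one] at h1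
    have h4 : Nat.card R' = r := Nat.card_congr (Subgroup.subgroupOfEquivOfLe hRG).toEquiv
    have h5 : Nat.card K' = Nat.card K := Nat.card_congr (Subgroup.subgroupOfEquivOfLe hKG).toEquiv
    have h6 := Subgroup.card_mul_index K'
    have h7 : K.relIndex G = r := by
      change K'.index = r
      rw [h1, h4, mul_comm] at h6
      exact Nat.eq_of_mul_eq_mul_right Nat.card_pos h6
    rw [h7] at hHall
    exact hHall
  have hKbcard : Nat.card Kb ∣ Nat.card K := by
    have h1 : Nat.card K' = Nat.card K := Nat.card_congr (Subgroup.subgroupOfEquivOfLe hKG).toEquiv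
    rw [← h1]
    exact Subgroup.card_dvd_of_surjective (π.subgroupMap K') (π.subgroupMap_surjective K')
  have hcopKb : (Nat.card Kb).Coprime r := Nat.Coprime.coprime_dvd_left hKbcard hcopK
  have hΓdvd : Nat.card (G ⧸ φ₀.ker) ∣ Nat.card G := Subgroup.card_quotient_dvd_card _
  have hmain := main_abs (A := V) hℓ hVp hnt φ hφinj (by haveI := hsolv; infer_instance)
    (Odd.of_dvd_nat hodd hΓdvd) (fun h => hℓG (h.trans hΓdvd)) Kb hKbn hR hxord hcopKb hfix
  -- conclusion
  rw [Subgroup.commutator_le]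
  intro g₁ hg₁ g₂ hg₂
  obtain ⟨j, hj⟩ := Subgroup.mem_zpowers_iff.mp (hRle hg₁)
  let a : G := ⟨g₁, hRG hg₁⟩
  let b : G := ⟨g₂, hKG hg₂⟩
  have hbK : π b ∈ Kb := ⟨b, hg₂, rfl⟩
  have hxcomm : Commute x (π b) := hmain _ hbK
  have hax : π a = x ^ j := by
    rw [hx, ← map_zpow]
    congr 1
    apply Subtype.ext
    change g₁ = _
    rw [← hj]
    rfl
  have hcomm : Commute (π a) (π b) := by
    rw [hax]
    exact hxcomm.zpow_left j
  have hcomm' : Commute (φ₀ a) (φ₀ b) := by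
    rw [← hφπ, ← hφπ]
    exact hcomm.map φ
  have hone : φ₀ ⁅a, b⁆ = 1 := by
    rw [map_commutatorElement]
    exact commutatorElement_eq_one_iff_commute.mpr hcomm'
  rw [Subgroup.mem_centralizer_iff]
  intro v hv
  have h1 := congrArg (fun f : MulAut V => ((f (⟨v, hv⟩ : V) : V) : X)) hone
  have h2 : ((⁅a, b⁆ : G) : X) * v * ((⁅a, b⁆ : G) : X)⁻¹ = v := h1
  have h3 : ((⁅a, b⁆ : G) : X) = ⁅g₁, g₂⁆ := rfl
  rw [h3] at h2
  calc v * ⁅g₁, g₂⁆ = (⁅g₁, g₂⁆ * v * ⁅g₁, g₂⁆⁻¹) * ⁅g₁, g₂⁆ := by rw [h2]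
    _ = ⁅g₁, g₂⁆ * v := by group

end Cfsg.Agent.S3769
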