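import Cfsg.Statements.S3770
import Cfsg.Agent.Lib.H26.FrobAct
import Mathlib

set_option autoImplicit false
set_option linter.style.haveILetI false
set_option linter.unusedVariables false
set_option linter.unusedSectionVars false

open Cfsg Cfsg.Agent.H26.FrobAct

namespace Cfsg.Agent.S3770

section Core

variable {A V : Type*} [Group A] [Finite A] [CommGroup V] [Finite V] (ρ : A →* MulAut V)

lemma rho_mul (a b : A) (y : V) : ρ (a * b) y = ρ a (ρ b y) := by
  rw [map_mul, MulAut.mul_apply]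

lemma rho_inv_self (a : A) (y : V) : ρ a⁻¹ (ρ a y) = y := by
  rw [← rho_mul, inv_mul_cancel, map_one]
  rfl

lemma rho_self_inv (a : A) (y : V) : ρ a (ρ a⁻¹ y) = y := by
  rw [← rho_mul, mul_inv_cancel, map_one]
  rfl

lemma eq_one_of_pow_coprime {n : ℕ} (hco : n.Coprime (Nat.card V)) {x : V} (h : x ^ n = 1) : x = 1 := by
  have h1 : orderOf x ∣ n := orderOf_dvd_of_pow_eq_one h
  have h2 : orderOf x ∣ Nat.card V := orderOf_dvd_natCard x
  exact orderOf_eq_one_iff.mp (Nat.eq_one_of_dvd_coprimes hco h1 h2)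

/-- Two elements commuting on a subgroup generated by an orbit of an abelian group of operators
commute. -/
lemma commute_of_orbit (Z : Subgroup A) [Fintype Z] (W : Subgroup V) {v : V} (hv : v ∈ W)
    (hWZ : ∀ z ∈ Z, ∀ x ∈ W, ρ z x ∈ W)
    (hgen : ∀ x ∈ W, x ∈ Subgroup.closure {y : V | ∃ z ∈ Z, y = ρ z v})
    (hZZ : ∀ z ∈ Z, ∀ w ∈ Z, ∀ x ∈ W, ρ z (ρ w x) = ρ w (ρ z x))
    {k k' : A} (hkW : ∀ x ∈ W, ρ k x ∈ W) (hk'W : ∀ x ∈ W, ρ k' x ∈ W)
    (hk : ∀ z ∈ Z, ∀ x ∈ W, ρ z (ρ k x) = ρ k (ρ z x))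
    (hk' : ∀ z ∈ Z, ∀ x ∈ W, ρ z (ρ k' x) = ρ k' (ρ z x)) :
    ∀ x ∈ W, ρ k (ρ k' x) = ρ k' (ρ k x) := by
  classical
  have hform : ∀ u ∈ Subgroup.closure {y : V | ∃ z ∈ Z, y = ρ z v},
      ∃ c : Z → ℤ, u = ∏ z : Z, (ρ (z : A) v) ^ c z := by
    intro u hu
    induction hu using Subgroup.closure_induction with
    | mem y hy =>
      obtain ⟨z, hz, rfl⟩ := hy
      refine ⟨Pi.single ⟨z, hz⟩ 1, ?_⟩
      rw [Finset.prod_eq_single (⟨z, hz⟩ : Z)]
      · simp
      · intro b _ hb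
        simp [Pi.single_eq_of_ne hb]
      · intro h
        exact absurd (Finset.mem_univ _) h
    | one =>
      exact ⟨0, by simp⟩
    | mul a b _ _ ha hb =>
      obtain ⟨c, rfl⟩ := ha
      obtain ⟨d, rfl⟩ := hb
      refine ⟨c + d, ?_⟩
      rw [← Finset.prod_mul_distrib]
      refine Finset.prod_congr rfl (fun z _ => ?_)
      rw [Pi.add_apply, zpow_add]
    | inv a _ ha =>
      obtain ⟨c, rfl⟩ := ha
      refine ⟨-c, ?_⟩
      rw [← Finset.prod_inv_distrib]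
      refine Finset.prod_congr rfl (fun z _ => ?_)
      rw [Pi.neg_apply, zpow_neg]
  obtain ⟨c, hc⟩ := hform _ (hgen _ (hkW v hv))
  obtain ⟨d, hd⟩ := hform _ (hgen _ (hk'W v hv))
  have hzv : ∀ z : Z, ρ (z : A) v ∈ W := fun z => hWZ z z.2 v hv
  have hkv : ρ k (ρ k' v) = ρ k' (ρ k v) := by
    have h1 : ρ k (ρ k' v) = ∏ w : Z, ∏ z : Z, (ρ (w : A) (ρ (z : A) v)) ^ (c z * d w) := by
      conv_lhs => rw [hd]
      rw [map_prod]
      refine Finset.prod_congr rfl (fun w _ => ?_)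
      rw [map_zpow, ← hk w w.2 v hv, hc, map_prod, ← Finset.prod_zpow]
      refine Finset.prod_congr rfl (fun z _ => ?_)
      rw [map_zpow, zpow_mul]
    have h2 : ρ k' (ρ k v) = ∏ z : Z, ∏ w : Z, (ρ (z : A) (ρ (w : A) v)) ^ (d w * c z) := by
      conv_lhs => rw [hc]
      rw [map_prod]
      refine Finset.prod_congr rfl (fun z _ => ?_)
      rw [map_zpow, ← hk' z z.2 v hv, hd, map_prod, ← Finset.prod_zpow]
      refine Finset.prod_congr rfl (fun w _ => ?_)
      rw [map_zpow, zpow_mul]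
    rw [h1, h2, Finset.prod_comm]
    refine Finset.prod_congr rfl (fun z _ => Finset.prod_congr rfl (fun w _ => ?_))
    rw [hZZ z z.2 w w.2 v hv, mul_comm]
  have hall : ∀ x ∈ Subgroup.closure {y : V | ∃ z ∈ Z, y = ρ z v}, ρ k (ρ k' x) = ρ k' (ρ k x) := by
    intro x hcl
    induction hcl using Subgroup.closure_induction with
    | mem y hy =>
      obtain ⟨z, hz, rfl⟩ := hy
      rw [← hk' z hz v hv, ← hk z hz (ρ k' v) (hk'W v hv), ← hk z hz v hv,
        ← hk' z hz (ρ k v) (hkW v hv), hkv]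
    | one => simp
    | mul a b _ _ ha hb =>
      simp only [map_mul, ha, hb]
    | inv a _ ha =>
      simp only [map_inv, ha]
  exact fun x hx => hall x (hgen x hx)

/-- The heart of the matter. -/
theorem commute_on_all (K R : Subgroup A) (hKn : K.Normal) (hKnil : Group.IsNilpotent K)
    (hfrob : ∀ r ∈ R, r ≠ 1 → ∀ z ∈ K, z * r = r * z → z = 1)
    (hcop : (Nat.card K).Coprime (Nat.card V))
    (hC : ∀ c₁ c₂ : V, (∀ r ∈ R, ρ r c₁ = c₁) → (∀ r ∈ R, ρ r c₂ = c₂) → c₂ ≠ 1 →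
      c₁ ∈ Subgroup.zpowers c₂) :
    ∀ k ∈ K, ∀ k' ∈ K, ∀ x, ρ k (ρ k' x) = ρ k' (ρ k x) := by
  classical
  letI : Fintype K := Fintype.ofFinite K
  letI : Fintype R := Fintype.ofFinite R
  let W : Subgroup V := (TH ρ K).ker
  have hWmem : ∀ x, x ∈ W ↔ T ρ K x = 1 := fun x => MonoidHom.mem_ker
  have hWinv : ∀ (a : A), ∀ x ∈ W, ρ a x ∈ W := by
    intro a x hx
    rw [hWmem] at hx ⊢
    rw [T_conj ρ K hKn, hx, map_one]
  have hnorK : ∀ r ∈ R, ∀ z ∈ K, r * z * r⁻¹ ∈ K := fun r _ z hz => hKn.conj_mem z hz r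
  have hmain : ∀ k ∈ K, ∀ k' ∈ K, ∀ x ∈ W, ρ k (ρ k' x) = ρ k' (ρ k x) := by
    by_cases htriv : ∀ k ∈ K, ∀ x ∈ W, ρ k x = x
    · intro k hk k' hk' x hx
      rw [htriv k' hk' x hx, htriv k hk x hx, htriv k' hk' x hx]
    · push Not at htriv
      obtain ⟨k₀, hk₀, x₀, hx₀, hne⟩ := htriv
      -- the kernel of the action of `K` on `W`
      let K₀ : Subgroup K :=
        { carrier := {k | ∀ x ∈ W, ρ (k : A) x = x}
          mul_mem' := by
            intro a b ha hb x hx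
            have ha' : ∀ x ∈ W, ρ (a : A) x = x := ha
            have hb' : ∀ x ∈ W, ρ (b : A) x = x := hb
            rw [Subgroup.coe_mul, rho_mul, hb' x hx, ha' x hx]
          one_mem' := by
            intro x _
            simp
          inv_mem' := by
            intro a ha x hx
            have ha' : ∀ x ∈ W, ρ (a : A) x = x := ha
            have h1 := ha' _ (hWinv (a : A)⁻¹ x hx)
            rw [rho_self_inv] at h1
            exact h1.symm }
      have hK₀mem : ∀ k : K, k ∈ K₀ ↔ ∀ x ∈ W, ρ (k : A) x = x := fun k => Iff.rfl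
      have hK₀n : K₀.Normal := by
        refine ⟨fun a ha b => ?_⟩
        rw [hK₀mem] at ha ⊢
        intro x hx
        have h1 := ha _ (hWinv (b : A)⁻¹ x hx)
        rw [Subgroup.coe_mul, Subgroup.coe_mul, rho_mul, rho_mul]
        rw [show ((b⁻¹ : K) : A) = (b : A)⁻¹ from rfl, h1, rho_self_inv]
      have hK₀top : K₀ ≠ ⊤ := by
        intro h
        have : (⟨k₀, hk₀⟩ : K) ∈ K₀ := by
          rw [h]
          trivial
        exact hne ((hK₀mem _).mp this x₀ hx₀)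
      haveI := hK₀n
      haveI : Nontrivial (K ⧸ K₀) := QuotientGroup.nontrivial_iff.mpr hK₀top
      haveI : Group.IsNilpotent (K ⧸ K₀) := inferInstance
      have hcenter : Subgroup.center (K ⧸ K₀) ≠ ⊥ := Group.IsNilpotent.center_ne_bot _
      obtain ⟨zb, hzb1⟩ := Subgroup.ne_bot_iff_exists_ne_one.mp hcenter
      obtain ⟨z₁, hz₁⟩ := QuotientGroup.mk_surjective (zb : K ⧸ K₀)
      have hz₁K₀ : z₁ ∉ K₀ := by
        intro h
        apply hzb1
        apply Subtype.ext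
        change (zb : K ⧸ K₀) = 1
        rw [← hz₁]
        exact (QuotientGroup.eq_one_iff _).mpr h
      have hz₁c : ∀ k : K, z₁ * k * z₁⁻¹ * k⁻¹ ∈ K₀ := by
        intro k
        rw [← QuotientGroup.eq_one_iff]
        have h := Subgroup.mem_center_iff.mp zb.2 (k : K ⧸ K₀)
        rw [← hz₁] at h
        rw [QuotientGroup.mk_mul, QuotientGroup.mk_mul, QuotientGroup.mk_mul, QuotientGroup.mk_inv,
          QuotientGroup.mk_inv, ← h]
        group
      let Z : Subgroup A :=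
        { carrier := {z | z ∈ K ∧ ∀ k ∈ K, ∀ x ∈ W, ρ z (ρ k x) = ρ k (ρ z x)}
          mul_mem' := by
            rintro a b ⟨ha, ha'⟩ ⟨hb, hb'⟩
            refine ⟨K.mul_mem ha hb, fun k hk x hx => ?_⟩
            rw [rho_mul, rho_mul, hb' k hk x hx, ha' k hk _ (hWinv b x hx)]
          one_mem' := ⟨K.one_mem, by simp⟩
          inv_mem' := by
            rintro a ⟨ha, ha'⟩
            refine ⟨K.inv_mem ha, fun k hk x hx => ?_⟩
            have h1 := ha' k hk _ (hWinv a⁻¹ x hx)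
            rw [rho_self_inv] at h1
            rw [← h1, rho_inv_self] }
      have hZmem : ∀ z, z ∈ Z ↔ z ∈ K ∧ ∀ k ∈ K, ∀ x ∈ W, ρ z (ρ k x) = ρ k (ρ z x) :=
        fun z => Iff.rfl
      have hZK : Z ≤ K := fun z hz => hz.1
      have hZn : Z.Normal := by
        refine ⟨fun z hz a => ⟨hKn.conj_mem z hz.1 a, fun k hk x hx => ?_⟩⟩
        have hk' : a⁻¹ * k * a ∈ K := by simpa using hKn.conj_mem k hk a⁻¹
        have h1 := hz.2 _ hk' (ρ a⁻¹ x) (hWinv _ x hx)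
        have e1 : ρ (a⁻¹ * k * a) (ρ a⁻¹ x) = ρ a⁻¹ (ρ k x) := by
          rw [rho_mul, rho_mul, rho_self_inv]
        have e2 : ρ (a⁻¹ * k * a) (ρ z (ρ a⁻¹ x)) = ρ a⁻¹ (ρ k (ρ a (ρ z (ρ a⁻¹ x)))) := by
          rw [rho_mul, rho_mul]
        rw [e1, e2] at h1
        rw [rho_mul, rho_mul, rho_mul, rho_mul, h1, rho_self_inv]
      have hz₁Z : (z₁ : A) ∈ Z := by
        refine ⟨z₁.2, fun k hk x hx => ?_⟩
        have h1 := (hK₀mem _).mp (hz₁c ⟨k, hk⟩) (ρ k (ρ (z₁ : A) x)) (hWinv _ _ (hWinv _ _ hx))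
        have e : ρ (((z₁ * ⟨k, hk⟩ * z₁⁻¹ * (⟨k, hk⟩ : K)⁻¹ : K)) : A) (ρ k (ρ (z₁ : A) x))
            = ρ (z₁ : A) (ρ k x) := by
          have e0 : (((z₁ * ⟨k, hk⟩ * z₁⁻¹ * (⟨k, hk⟩ : K)⁻¹ : K)) : A)
              = (z₁ : A) * k * (z₁ : A)⁻¹ * k⁻¹ := rfl
          rw [e0, rho_mul, rho_inv_self, rho_mul, rho_inv_self, rho_mul]
        rw [e] at h1
        exact h1
      obtain ⟨x₁, hx₁, hx₁ne⟩ : ∃ x₁ ∈ W, ρ (z₁ : A) x₁ ≠ x₁ := by
        by_contra h
        push Not at h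
        exact hz₁K₀ ((hK₀mem z₁).mpr h)
      letI : Fintype Z := Fintype.ofFinite Z
      have hcopZ : (Nat.card Z).Coprime (Nat.card V) :=
        Nat.Coprime.coprime_dvd_left (Subgroup.card_dvd_of_le hZK) hcop
      have hnorZ : ∀ r ∈ R, ∀ z ∈ Z, r * z * r⁻¹ ∈ Z := fun r _ z hz => hZn.conj_mem z hz r
      have hfrobZ : ∀ r ∈ R, r ≠ 1 → ∀ z ∈ Z, z * r = r * z → z = 1 :=
        fun r hr h1 z hz => hfrob r hr h1 z (hZK hz)
      let Y : Subgroup V :=
        { carrier := {x | x ∈ W ∧ ∀ z ∈ Z, ρ z x = x}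
          mul_mem' := by
            rintro a b ⟨ha, ha'⟩ ⟨hb, hb'⟩
            refine ⟨W.mul_mem ha hb, fun z hz => ?_⟩
            rw [map_mul, ha' z hz, hb' z hz]
          one_mem' := ⟨W.one_mem, by simp⟩
          inv_mem' := by
            rintro a ⟨ha, ha'⟩
            refine ⟨W.inv_mem ha, fun z hz => ?_⟩
            rw [map_inv, ha' z hz] }
      have hYmem : ∀ x, x ∈ Y ↔ x ∈ W ∧ ∀ z ∈ Z, ρ z x = x := fun x => Iff.rfl
      let Y' : Subgroup V := W ⊓ (TH ρ Z).ker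
      have hY'mem : ∀ x, x ∈ Y' ↔ x ∈ W ∧ T ρ Z x = 1 := fun x => by
        simp only [Y', Subgroup.mem_inf, MonoidHom.mem_ker, TH_apply]
      have hYinv : ∀ a : A, ∀ x ∈ Y, ρ a x ∈ Y := by
        intro a x hx
        refine (hYmem _).mpr ⟨hWinv a x hx.1, fun z hz => ?_⟩
        have h1 : a⁻¹ * z * a ∈ Z := by simpa using hZn.conj_mem z hz a⁻¹
        have h2 := hx.2 _ h1
        rw [rho_mul, rho_mul] at h2
        have h3 := congrArg (ρ a) h2
        rwa [rho_self_inv] at h3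
      have hY'inv : ∀ a : A, ∀ x ∈ Y', ρ a x ∈ Y' := by
        intro a x hx
        rw [hY'mem] at hx ⊢
        refine ⟨hWinv a x hx.1, ?_⟩
        rw [T_conj ρ Z hZn, hx.2, map_one]
      obtain ⟨y, y', hxy, hyW, hy'W, hyf, hy'1⟩ := decomp ρ Z hcopZ W (fun a _ y hy => hWinv a y hy) hx₁
      have hy'ne : y' ≠ 1 := by
        intro h
        apply hx₁ne
        rw [hxy, h, mul_one]
        exact hyf _ hz₁Z
      have hfixY' : ∀ x ∈ Y', (∀ z ∈ Z, ρ z x = x) → x = 1 := by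
        intro x hx hfx
        have h1 := ((hY'mem x).mp hx).2
        rw [T_const ρ Z hfx] at h1
        exact eq_one_of_pow_coprime hcopZ h1
      obtain ⟨c₂, hc₂Y', hc₂R, hc₂1⟩ := exists_fix_ne_one ρ Z R hnorZ hfrobZ Y'
        (fun a _ y hy => hY'inv a y hy) (fun a _ y hy => hY'inv a y hy) hfixY' hcopZ
        ((hY'mem y').mpr ⟨hy'W, hy'1⟩) hy'ne
      have hc₂W : c₂ ∈ W := ((hY'mem c₂).mp hc₂Y').1
      have hfixY : ∀ x ∈ Y, (∀ z ∈ K, ρ z x = x) → x = 1 := by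
        intro x hx hfx
        have h1 := (hWmem x).mp hx.1
        rw [T_const ρ K hfx] at h1
        exact eq_one_of_pow_coprime hcop h1
      have hYbot : ∀ x ∈ Y, x = 1 := by
        intro x hx
        by_contra hx1
        obtain ⟨c₁, hc₁Y, hc₁R, hc₁1⟩ := exists_fix_ne_one ρ K R hnorK hfrob Y
          (fun a _ y hy => hYinv a y hy) (fun a _ y hy => hYinv a y hy) hfixY hcop hx hx1
        have h1 := hC c₁ c₂ hc₁R hc₂R hc₂1
        have h2 : c₁ ∈ Y' := (Subgroup.zpowers_le.mpr hc₂Y') h1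
        exact hc₁1 (hfixY' c₁ h2 hc₁Y.2)
      have hfixW : ∀ x ∈ W, (∀ z ∈ Z, ρ z x = x) → x = 1 := fun x hx h => hYbot x ((hYmem x).mpr ⟨hx, h⟩)
      have hgen₀ := mem_closure_fix ρ Z R hnorZ hfrobZ W (fun a _ y hy => hWinv a y hy)
        (fun a _ y hy => hWinv a y hy) hfixW hcopZ
      have hgen : ∀ x ∈ W, x ∈ Subgroup.closure {y : V | ∃ z ∈ Z, y = ρ z c₂} := by
        intro x hx
        refine (Subgroup.closure_le _).mpr ?_ (hgen₀ x hx)
        rintro _ ⟨z, hz, c, hcW, hcR, rfl⟩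
        obtain ⟨n, rfl⟩ := Subgroup.mem_zpowers_iff.mp (hC c c₂ hcR hc₂R hc₂1)
        rw [map_zpow]
        have hm : ρ z c₂ ∈ Subgroup.closure {y : V | ∃ z ∈ Z, y = ρ z c₂} :=
          Subgroup.subset_closure ⟨z, hz, rfl⟩
        exact Subgroup.zpow_mem _ hm n
      intro k hk k' hk'
      exact commute_of_orbit ρ Z W hc₂W (fun z _ x hx => hWinv z x hx) hgen
        (fun z hz w hw x hx => hz.2 w (hZK hw) x hx) (fun x hx => hWinv k x hx)
        (fun x hx => hWinv k' x hx) (fun z hz x hx => hz.2 k hk x hx)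
        (fun z hz x hx => hz.2 k' hk' x hx)
  intro k hk k' hk' x
  obtain ⟨y, y', rfl, -, hy', hyf, hy'1⟩ := decomp ρ K hcop ⊤ (fun _ _ _ _ => trivial) (Subgroup.mem_top x)
  have hy'W : y' ∈ W := (hWmem y').mpr hy'1
  simp only [map_mul, hyf k hk, hyf k' hk', hmain k hk k' hk' y' hy'W]

end Core

/-- Let G and V be subgroups of a finite group with G a Frobenius group with complement R of prime order and kernel K, G normalizing V, and V an elementary abelian ℓ-group for a prime ℓ not dividing the order of G. If C_V(R) has order ℓ, then the derived subgroup of K centralizes V. -/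
theorem result {X : Type*} [Group X] [Finite X] (G : Subgroup X) (V : Subgroup X) {ℓ : ℕ} (hℓ : ℓ.Prime) (hV : Cfsg.IsElementaryAbelian ℓ V) (hℓG : ¬ ℓ ∣ Nat.card G) (hGV : G ≤ Subgroup.normalizer (V : Set X)) (R : Subgroup ↥G) (hR : Cfsg.IsFrobeniusComplement R) (hRp : (Nat.card R).Prime) (hCV : Nat.card ↥(V ⊓ Subgroup.centralizer ((R.map G.subtype : Subgroup X) : Set X)) = ℓ) : ⁅Subgroup.closure (Subtype.val '' Cfsg.frobeniusKernel R), Subgroup.closure (Subtype.val '' Cfsg.frobeniusKernel R)⁆ ≤ Subgroup.centralizer (V : Set X) := by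
  classical
  obtain ⟨N, hN, hNn, hc, hnil, hfrob⟩ := frob_data R hR
  obtain ⟨hVab, hVexp⟩ := hV
  have hcomm : ∀ a b : V, a * b = b * a := fun a b => hVab.is_comm.comm a b
  letI : CommGroup V := { (inferInstance : Group V) with mul_comm := hcomm }
  let ρ : G →* MulAut V := (Subgroup.normalizerMonoidHom V).comp (Subgroup.inclusion hGV)
  have hρ : ∀ (a : G) (x : V), ((ρ a x : V) : X) = (a : X) * x * (a : X)⁻¹ := fun a x => rfl
  haveI : Fact ℓ.Prime := ⟨hℓ⟩
  have hVp : IsPGroup ℓ V := by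
    intro x
    refine ⟨1, ?_⟩
    apply Subtype.ext
    simpa using hVexp x x.2
  have hcop : (Nat.card N).Coprime (Nat.card V) := by
    obtain ⟨n, hn⟩ := IsPGroup.iff_card.mp hVp
    rw [hn]
    refine Nat.Coprime.pow_right n ?_
    refine ((Nat.Prime.coprime_iff_not_dvd hℓ).mpr ?_).symm
    exact fun h => hℓG (h.trans (Subgroup.card_subgroup_dvd_card N))
  have hfixR : ∀ c : V, (∀ r ∈ R, ρ r c = c) →
      (c : X) ∈ V ⊓ Subgroup.centralizer ((R.map G.subtype : Subgroup X) : Set X) := by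
    intro c hc'
    refine Subgroup.mem_inf.mpr ⟨c.2, ?_⟩
    rw [Subgroup.mem_centralizer_iff]
    rintro _ ⟨r, hr, rfl⟩
    have h2 := congrArg Subtype.val (hc' r hr)
    rw [hρ] at h2
    have h3 : (r : X) * c = c * r := by
      rw [← mul_inv_eq_iff_eq_mul]
      exact h2
    exact h3
  have hC : ∀ c₁ c₂ : V, (∀ r ∈ R, ρ r c₁ = c₁) → (∀ r ∈ R, ρ r c₂ = c₂) → c₂ ≠ 1 →
      c₁ ∈ Subgroup.zpowers c₂ := by
    intro c₁ c₂ h1 h2 h21
    let D := V ⊓ Subgroup.centralizer ((R.map G.subtype : Subgroup X) : Set X)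
    let d₁ : D := ⟨c₁, hfixR c₁ h1⟩
    let d₂ : D := ⟨c₂, hfixR c₂ h2⟩
    have hd₂ : d₂ ≠ 1 := by
      intro h
      apply h21
      apply Subtype.ext
      exact congrArg (fun t : D => (t : X)) h
    have h3 := mem_zpowers_of_prime_card hCV hd₂ (g' := d₁)
    obtain ⟨n, hn⟩ := Subgroup.mem_zpowers_iff.mp h3
    refine Subgroup.mem_zpowers_iff.mpr ⟨n, ?_⟩
    apply Subtype.ext
    have := congrArg (fun t : D => (t : X)) hn
    exact this
  have hmain := commute_on_all ρ N R hNn hnil hfrob hcop hC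
  have hcl : Subgroup.closure (Subtype.val '' Cfsg.frobeniusKernel R : Set X) = N.map G.subtype := by
    rw [← hN]
    have : (Subtype.val '' (N : Set G) : Set X) = ((N.map G.subtype : Subgroup X) : Set X) := rfl
    rw [this, Subgroup.closure_eq]
  rw [hcl, Subgroup.commutator_le]
  rintro _ ⟨k, hk, rfl⟩ _ ⟨k', hk', rfl⟩
  rw [Subgroup.mem_centralizer_iff]
  intro y hy
  have h := hmain k hk k' hk' (ρ k⁻¹ (ρ k'⁻¹ ⟨y, hy⟩))
  rw [rho_self_inv, rho_self_inv] at h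
  have h2 := congrArg (Subtype.val) h
  simp only [hρ] at h2
  simp only [Subgroup.coe_inv, inv_inv] at h2
  change y * ((k : X) * k' * (k : X)⁻¹ * (k' : X)⁻¹) = ((k : X) * k' * (k : X)⁻¹ * (k' : X)⁻¹) * y
  have e : ((k : X) * k' * (k : X)⁻¹ * (k' : X)⁻¹) * y =
      ((k : X) * ((k' : X) * ((k : X)⁻¹ * ((k' : X)⁻¹ * y * k') * k) * (k' : X)⁻¹) * (k : X)⁻¹) *
        ((k : X) * k' * (k : X)⁻¹ * (k' : X)⁻¹) := by
    group
  rw [e, h2]

end Cfsg.Agent.S3770
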