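import Cfsg.Statements.S3783
import Cfsg.Agent.Lib.H26.HHBridge
import Cfsg.Agent.Lib.H03.PLength
import Mathlib

set_option autoImplicit false
set_option linter.style.haveILetI false
set_option linter.unusedVariables false

open Cfsg

namespace Cfsg.Agent.S3783

open Cfsg.Agent.H26.HHBridge

universe u

theorem main {p : ℕ} [Fact p.Prime] (e : ℕ) : ∀ (G : Type u) [Group G] [Finite G], IsPSolvable p G →
    (∀ q : ℕ, q.Prime → q ≠ p → ∀ S : Subgroup G, IsPGroup q S →
      ∀ x ∈ S, ∀ y ∈ S, x * y = y * x) →
    (∀ P : Sylow p G, ∀ x ∈ (P : Subgroup G), x ^ p ^ e = 1) →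
    (upperPSeries p G (2 * e + 1)).1 = ⊤ := by
  induction e with
  | zero =>
    intro G _ _ hsol hab hexp
    obtain ⟨S⟩ : Nonempty (Sylow p G) := inferInstance
    apply Cfsg.Agent.H03.upper_one_top S
    constructor
    rintro ⟨a, ha⟩ ⟨b, hb⟩
    apply Subtype.ext
    have h1 := hexp S a ha
    have h2 := hexp S b hb
    simp only [pow_zero, pow_one] at h1 h2
    simp [h1, h2]
  | succ e ih =>
    intro G _ _ hsol hab hexp
    have hQn : (upperPSeries p G 2).1.Normal := inferInstance
    have hshift := Cfsg.Agent.H03.upper_shift (p := p) (upperPSeries p G 2).1 rfl (2 * e + 1)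
    have h1 : 2 * (e + 1) + 1 = 2 * e + 1 + 2 := by omega
    rw [h1, hshift]
    have hsurj := QuotientGroup.mk'_surjective (upperPSeries p G 2).1
    have h2 := ih (G ⧸ (upperPSeries p G 2).1) (Cfsg.Agent.H03.isPSolvable_of_surjective hsurj hsol)
      (hab_of_surjective _ hsurj hab) (by
        intro Pb xb hxb
        obtain ⟨P, rfl⟩ := Sylow.mapSurjective_surjective hsurj p Pb
        rw [Sylow.coe_mapSurjective] at hxb
        obtain ⟨x, hx, rfl⟩ := hxb
        have h3 := Cfsg.Agent.H03.upper_succ_even (p := p) (G := G) (n := 0) (by simp)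
        have hO := Cfsg.Agent.H03.pPrimeCore_quotient_comap_eq_bot (p := p)
          (upperPSeries p G 0).1 (upperPSeries p G 1).1 h3
        have hs1 := QuotientGroup.mk'_surjective (upperPSeries p G 1).1
        have hkey := key_M (Cfsg.Agent.H03.isPSolvable_of_surjective hs1 hsol) hO
          (hab_of_surjective _ hs1 hab) e (by
            intro Pb' yb hyb
            obtain ⟨P', rfl⟩ := Sylow.mapSurjective_surjective hs1 p Pb'
            rw [Sylow.coe_mapSurjective] at hyb
            obtain ⟨y, hy, rfl⟩ := hyb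
            rw [← map_pow, hexp P' y hy, map_one]) (P.mapSurjective hs1)
            (QuotientGroup.mk' _ x) (by
              rw [Sylow.coe_mapSurjective]
              exact Subgroup.mem_map_of_mem _ hx)
        have h4 : (upperPSeries p G 2).1 = (pCore p (G ⧸ (upperPSeries p G 1).1)).comap
            (QuotientGroup.mk' _) := Cfsg.Agent.H03.upper_succ_odd (by simp)
        have h5 : x ^ p ^ e ∈ (upperPSeries p G 2).1 := by
          rw [h4, Subgroup.mem_comap, map_pow]
          exact hkey
        rw [← map_pow]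
        exact (QuotientGroup.eq_one_iff _).mpr h5)
    rw [h2, Subgroup.comap_top]

/-- Let G be a finite p-soluble group in which, for every prime q ≠ p, the Sylow q-subgroups are abelian. If the Sylow p-subgroups of G have exponent dividing p^n, then G has p-length at most n. -/
theorem result {G : Type*} [Group G] [Finite G] {p : ℕ} [Fact p.Prime] (hG : Cfsg.IsPSolvable p G) (hab : ∀ (q : ℕ) [Fact q.Prime], q ≠ p → ∀ Q : Sylow q G, IsMulCommutative (Q : Subgroup G)) (n : ℕ) (hexp : ∀ (P : Sylow p G), ∀ x ∈ (P : Subgroup G), x ^ p ^ n = 1) : Cfsg.PLengthLE p n G := by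
  refine main n G hG ?_ hexp
  intro q hq hqp S hS x hx y hy
  haveI : Fact q.Prime := ⟨hq⟩
  obtain ⟨Q, hQ⟩ := hS.exists_le_sylow
  have h1 := hab q hqp Q
  have h2 := h1.is_comm.comm (⟨x, hQ hx⟩ : (Q : Subgroup G)) ⟨y, hQ hy⟩
  exact congrArg Subtype.val h2

end Cfsg.Agent.S3783
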