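import Cfsg.Statements.S3787
import Cfsg.Agent.Lib.H26.HBWreath
import Cfsg.Agent.Lib.H03.PLength
import Cfsg.Agent.Lib.H09.Sect
import Mathlib

set_option autoImplicit false
set_option linter.style.haveILetI false
set_option linter.unusedVariables false

open Cfsg

namespace Cfsg.Agent.S3787

open Cfsg.Agent.H26.HHBridge Cfsg.Agent.H26.HBWreath

universe u

/-- A copy of `Fin n` without any algebraic structure. -/
def Carrier (n : ℕ) : Type := Fin n

instance (n : ℕ) : Finite (Carrier n) := inferInstanceAs (Finite (Fin n))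

theorem key_M {M : Type u} [Group M] [Finite M] {p : ℕ} [hp : Fact p.Prime] (hp2 : p ≠ 2)
    (hnf : ¬ ∃ k : ℕ, p = 2 ^ k + 1) (hG : IsPSolvable p M) (hM : pPrimeCore p M = ⊥) (g₁ : M)
    (hg₁ : g₁ ∉ pCore p M) (hg₁p : g₁ ^ p ∈ pCore p M) :
    ∃ (W : Type) (_ : Group W) (_ : Finite W)
      (f : ↥(Vf p M ⊔ Subgroup.zpowers (g₁ : M ⧸ Kf p M)) →* W), Function.Surjective f ∧
      ∃ (B : Subgroup W) (t : W), B.Normal ∧ IsMulCommutative B ∧ (∀ b ∈ B, b ^ p = 1) ∧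
        Nat.card B = p ^ p ∧ orderOf t = p ∧ t ∉ B ∧ Nat.card W = p ^ (p + 1) ∧
        Nat.card ↥(B ⊓ Subgroup.centralizer ({t} : Set W)) = p := by
  classical
  have hker := ker_eq hG hM
  let iC : CommGroup (Vf p M) := { (inferInstance : Group (Vf p M)) with mul_comm := Vf_comm }
  have hsurj := QuotientGroup.mk'_surjective (phi0 p M).ker
  have hgb : ((g₁ : M ⧸ (phi0 p M).ker)) ^ p = 1 := by
    rw [← QuotientGroup.mk_pow, QuotientGroup.eq_one_iff, hker]
    exact hg₁p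
  have hgb1 : (g₁ : M ⧸ (phi0 p M).ker) ≠ 1 := by
    rw [Ne, QuotientGroup.eq_one_iff, hker]
    exact hg₁
  obtain ⟨a₀, ha₀⟩ := @norm_ne_one (M ⧸ (phi0 p M).ker) (Vf p M) _ _ iC _ p hp
    (QuotientGroup.kerLift (phi0 p M)) (QuotientGroup.kerLift_injective _) Vf_pow
    (Cfsg.Agent.H03.isPSolvable_of_surjective hsurj hG)
    (Cfsg.Agent.H02.pCore_quotient_of_eq _ hker) (g₁ : M ⧸ (phi0 p M).ker) hgb hgb1 hp2 hnf
  set g' : M ⧸ Kf p M := (g₁ : M ⧸ Kf p M) with hg'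
  let L₁ : Subgroup (M ⧸ Kf p M) := Vf p M ⊔ Subgroup.zpowers g'
  have hle : Vf p M ≤ L₁ := le_sup_left
  let ι : Vf p M →* ↥L₁ := Subgroup.inclusion hle
  have hι : Function.Injective ι := Subgroup.inclusion_injective hle
  let u : ↥L₁ := ⟨g', (le_sup_right : Subgroup.zpowers g' ≤ L₁) (Subgroup.mem_zpowers g')⟩
  have hKQ : Kf p M ≤ pCore p M := Subgroup.map_subtype_le _
  have hu : u ∉ ι.range := by
    rintro ⟨⟨_, ⟨y, hy, rfl⟩⟩, ha⟩
    have h1 : ((y : M) : M ⧸ Kf p M) = g' := congrArg Subtype.val ha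
    rw [hg', QuotientGroup.eq] at h1
    apply hg₁
    have h2 := Subgroup.mul_mem _ hy (hKQ h1)
    simpa using h2
  have hup : u ^ p ∈ ι.range := by
    have hmem : g' ^ p ∈ Vf p M := ⟨g₁ ^ p, hg₁p, by simp [hg']⟩
    exact ⟨⟨g' ^ p, hmem⟩, Subtype.ext (by simp [ι, u])⟩
  have hgen : ι.range ⊔ Subgroup.zpowers u = ⊤ := by
    rw [eq_top_iff]
    rintro ⟨y, hy⟩ _
    have h1 : L₁ ≤ (ι.range ⊔ Subgroup.zpowers u).map L₁.subtype := by
      refine sup_le ?_ (Subgroup.zpowers_le.mpr ?_)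
      · intro a ha
        exact ⟨⟨a, hle ha⟩, (le_sup_left : ι.range ≤ ι.range ⊔ Subgroup.zpowers u) ⟨⟨a, ha⟩, rfl⟩, rfl⟩
      · exact ⟨u, (le_sup_right : Subgroup.zpowers u ≤ ι.range ⊔ Subgroup.zpowers u)
          (Subgroup.mem_zpowers u), rfl⟩
    obtain ⟨y', hy', e⟩ := h1 hy
    have : y' = ⟨y, hy⟩ := Subtype.ext e
    rw [← this]
    exact hy'
  obtain ⟨C, hCn, hW⟩ := @exists_wreath.{0, u, u} ↥L₁ (Vf p M) _ _ iC _ p hp ι hι Vf_pow u (phi0 p M g₁)
    (fun a => rfl) hu hup hgen a₀ ha₀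
  let W₀ := ↥L₁ ⧸ C
  let e₀ : W₀ ≃ Carrier (Nat.card W₀) := Finite.equivFin W₀
  letI grp : Group (Carrier (Nat.card W₀)) := e₀.symm.group
  let e₁ : W₀ ≃* Carrier (Nat.card W₀) := (e₀.symm.mulEquiv).symm
  let f : ↥L₁ →* Carrier (Nat.card W₀) := e₁.toMonoidHom.comp (QuotientGroup.mk' C)
  have hf : Function.Surjective f := e₁.surjective.comp (QuotientGroup.mk'_surjective C)
  have hfker : f.ker = C := by
    ext x
    rw [MonoidHom.mem_ker]
    change e₁ (x : W₀) = 1 ↔ _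
    rw [map_eq_one_iff e₁ e₁.injective, QuotientGroup.eq_one_iff]
  exact ⟨Carrier (Nat.card W₀), grp, inferInstance, f, hf, hW _ f hf hfker⟩

/-- Let G be a finite p-soluble group, p an odd prime not of the form 2^k + 1, and suppose the wreath product C_p ≀ C_p (of order p^(p+1)) is not involved in a Sylow p-subgroup of G: no section of a Sylow p-subgroup is isomorphic to it. Then G has p-length at most 1. -/
theorem result {G : Type*} [Group G] [Finite G] {p : ℕ} [Fact p.Prime] (hp2 : p ≠ 2) (hnf : (¬ ∃ k : ℕ, p = 2 ^ k + 1)) (hG : Cfsg.IsPSolvable p G) (P : Sylow p G) (hwr : ∀ (W : Type) [Group W] [Finite W], (∃ (B : Subgroup W) (t : W), B.Normal ∧ IsMulCommutative B ∧ (∀ b ∈ B, b ^ p = 1) ∧ Nat.card B = p ^ p ∧ orderOf t = p ∧ t ∉ B ∧ Nat.card W = p ^ (p + 1) ∧ Nat.card ↥(B ⊓ Subgroup.centralizer ({t} : Set W)) = p) → ¬ Cfsg.Involves W ↥(P : Subgroup G)) : Cfsg.PLengthLE p 1 G := by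
  classical
  have hpp : p.Prime := Fact.out
  have hmain : ∀ x ∈ (P : Subgroup G), x ∈ (upperPSeries p G 2).1 := by
    intro x hx
    by_contra hcon
    have h3 := Cfsg.Agent.H03.upper_succ_even (p := p) (G := G) (n := 0) (by simp)
    have hO := Cfsg.Agent.H03.pPrimeCore_quotient_comap_eq_bot (p := p)
      (upperPSeries p G 0).1 (upperPSeries p G 1).1 h3
    have hs1 := QuotientGroup.mk'_surjective (upperPSeries p G 1).1
    have hMsol := Cfsg.Agent.H03.isPSolvable_of_surjective hs1 hG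
    have h4 : (upperPSeries p G 2).1 = (pCore p (G ⧸ (upperPSeries p G 1).1)).comap
        (QuotientGroup.mk' _) := Cfsg.Agent.H03.upper_succ_odd (by simp)
    set M := G ⧸ (upperPSeries p G 1).1 with hMdef
    let mk₁ : G →* M := QuotientGroup.mk' (upperPSeries p G 1).1
    have hnotQ : mk₁ x ∉ pCore p M := by
      intro h
      apply hcon
      rw [h4]
      exact h
    obtain ⟨N, hN⟩ := P.isPGroup' ⟨x, hx⟩
    have hxN : x ^ p ^ N = 1 := congrArg Subtype.val hN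
    have hex : ∃ e : ℕ, (mk₁ x) ^ p ^ e ∈ pCore p M := ⟨N, by
      rw [← map_pow, hxN, map_one]
      exact Subgroup.one_mem _⟩
    have hspec := Nat.find_spec hex
    have hne0 : Nat.find hex ≠ 0 := by
      intro h0
      rw [h0, pow_zero, pow_one] at hspec
      exact hnotQ hspec
    obtain ⟨e', he'⟩ : ∃ e', Nat.find hex = e' + 1 := ⟨Nat.find hex - 1, by omega⟩
    have hnot : ¬ (mk₁ x) ^ p ^ e' ∈ pCore p M := Nat.find_min hex (by omega)
    rw [he', pow_succ, pow_mul] at hspec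
    obtain ⟨W, iW, iF, f, hf, hprops⟩ := key_M hp2 hnf hMsol hO _ hnot hspec
    refine @hwr W iW iF hprops ?_
    -- the section
    let mk₂ : M →* M ⧸ Kf p M := QuotientGroup.mk' (Kf p M)
    let h : ↥(P : Subgroup G) →* M ⧸ Kf p M := mk₂.comp (mk₁.comp (P : Subgroup G).subtype)
    let g' : M ⧸ Kf p M := (((mk₁ x) ^ p ^ e' : M) : M ⧸ Kf p M)
    let L₁ : Subgroup (M ⧸ Kf p M) := Vf p M ⊔ Subgroup.zpowers g'
    have hL₁ : L₁ ≤ h.range := by
      refine sup_le ?_ (Subgroup.zpowers_le.mpr ?_)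
      · rintro _ ⟨y, hy, rfl⟩
        have h5 := Cfsg.Agent.H01.pCore_le_sylow p (P.mapSurjective hs1) hy
        rw [Sylow.coe_mapSurjective] at h5
        obtain ⟨z, hz, rfl⟩ := h5
        exact ⟨⟨z, hz⟩, rfl⟩
      · refine ⟨⟨x ^ p ^ e', Subgroup.pow_mem _ hx _⟩, ?_⟩
        change mk₂ (mk₁ (x ^ p ^ e')) = g'
        rw [map_pow]
        rfl
    let K : Subgroup ↥(P : Subgroup G) := L₁.comap h
    let θ : ↥K →* W := f.comp (h.subgroupComap L₁)
    refine Cfsg.Agent.H09.involves_of_surjective K θ ?_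
    intro w
    obtain ⟨⟨y, hy⟩, rfl⟩ := hf w
    obtain ⟨z, hz⟩ := hL₁ hy
    refine ⟨⟨z, by change h z ∈ L₁; rw [hz]; exact hy⟩, ?_⟩
    change f ((h.subgroupComap L₁) ⟨z, _⟩) = _
    congr 1
    exact Subtype.ext hz
  change (upperPSeries p G (2 * 1 + 1)).1 = ⊤
  have hQn : (upperPSeries p G 2).1.Normal := inferInstance
  have hshift := Cfsg.Agent.H03.upper_shift (p := p) (upperPSeries p G 2).1 rfl 1
  have h1 : 2 * 1 + 1 = 1 + 2 := rfl
  rw [h1, hshift]
  have hsurj := QuotientGroup.mk'_surjective (upperPSeries p G 2).1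
  have h2 : (upperPSeries p (G ⧸ (upperPSeries p G 2).1) 1).1 = ⊤ := by
    apply Cfsg.Agent.H03.upper_one_top (P.mapSurjective hsurj)
    rw [Sylow.coe_mapSurjective]
    constructor
    rintro ⟨_, ⟨a, ha, rfl⟩⟩ ⟨_, ⟨b, hb, rfl⟩⟩
    apply Subtype.ext
    have e1 : QuotientGroup.mk' (upperPSeries p G 2).1 a = 1 :=
      (QuotientGroup.eq_one_iff _).mpr (hmain a ha)
    have e2 : QuotientGroup.mk' (upperPSeries p G 2).1 b = 1 :=
      (QuotientGroup.eq_one_iff _).mpr (hmain b hb)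
    change QuotientGroup.mk' (upperPSeries p G 2).1 a = QuotientGroup.mk' (upperPSeries p G 2).1 b
    rw [e1, e2]
  rw [h2, Subgroup.comap_top]

end Cfsg.Agent.S3787
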