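import Cfsg.Statements.S3788
import Cfsg.Agent.Lib.H26.HBCyc
import Mathlib

set_option autoImplicit false
set_option linter.style.haveILetI false
set_option linter.unusedVariables false

open Cfsg

namespace Cfsg.Agent.S3788

theorem mem_zpowers_of_not_dvd {M : Type*} [Group M] {p : ℕ} (hpp : p.Prime) (a : M) (n : ℕ)
    (hn : a ^ p ^ n = 1) (j : ℤ) (hj : ¬ (p : ℤ) ∣ j) : a ∈ Subgroup.zpowers (a ^ j) := by
  have h1 : IsCoprime j ((p : ℤ) ^ n) := by
    apply IsCoprime.pow_right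
    rw [isCoprime_comm]
    exact (Nat.prime_iff_prime_int.mp hpp).coprime_iff_not_dvd.mpr hj
  obtain ⟨s, t, hst⟩ := h1
  refine Subgroup.mem_zpowers_iff.mpr ⟨s, ?_⟩
  have h2 : a ^ ((p : ℤ) ^ n) = 1 := by
    have : ((p : ℤ) ^ n) = ((p ^ n : ℕ) : ℤ) := by push_cast; rfl
    rw [this, zpow_natCast, hn]
  calc (a ^ j) ^ s = a ^ (s * j) := by rw [← zpow_mul, mul_comm]
    _ = a ^ (s * j + t * (p : ℤ) ^ n) := by
        rw [zpow_add, mul_comm t, zpow_mul _ _ t, h2, one_zpow, mul_one]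
    _ = a := by rw [hst, zpow_one]

/-- Let G be a finite p-soluble group, P a Sylow p-subgroup of G and A a cyclic normal subgroup of P. If p is odd, or if no section of G is isomorphic to the symmetric group of degree 4, then A ≤ O_{p',p}(G). -/
theorem result {G : Type*} [Group G] [Finite G] {p : ℕ} [Fact p.Prime] (hG : Cfsg.IsPSolvable p G) (P : Sylow p G) (A : Subgroup G) (hAP : A ≤ (P : Subgroup G)) (hAn : (P : Subgroup G) ≤ Subgroup.normalizer (A : Set G)) (hA : IsCyclic A) (h : p ≠ 2 ∨ ¬ Cfsg.Involves (Equiv.Perm (Fin 4)) G) : A ≤ Cfsg.pPrimePCore p G := by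
  classical
  have hpp : p.Prime := Fact.out
  haveI hOn : (pPrimeCore p G).Normal := Cfsg.Agent.H03.pPrimeCore_normal'
  have hs1 := QuotientGroup.mk'_surjective (pPrimeCore p G)
  have hMsol := Cfsg.Agent.H03.isPSolvable_of_surjective hs1 hG
  have hO : pPrimeCore p (G ⧸ pPrimeCore p G) = ⊥ := Cfsg.Agent.H08.pPrimeCore_quotient_eq_bot p
  set M := G ⧸ pPrimeCore p G with hMdef
  let mk₁ : G →* M := QuotientGroup.mk' (pPrimeCore p G)
  obtain ⟨g₀, hg₀⟩ := hA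
  have hgA : (g₀ : G) ∈ A := g₀.2
  suffices hmain : mk₁ g₀ ∈ pCore p M by
    intro y hy
    obtain ⟨k, hk⟩ := Subgroup.mem_zpowers_iff.mp (hg₀ ⟨y, hy⟩)
    have h1 : (g₀ : G) ^ k = y := congrArg Subtype.val hk
    change mk₁ y ∈ pCore p M
    rw [← h1, map_zpow]
    exact Subgroup.zpow_mem _ hmain k
  by_contra hnot
  obtain ⟨N, hN⟩ := P.isPGroup' ⟨g₀, hAP hgA⟩
  have hg₀N : (g₀ : G) ^ p ^ N = 1 := congrArg Subtype.val hN
  have hex : ∃ e : ℕ, (mk₁ g₀) ^ p ^ e ∈ pCore p M := ⟨N, by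
    rw [← map_pow, hg₀N, map_one]
    exact Subgroup.one_mem _⟩
  have hspec := Nat.find_spec hex
  have hne0 : Nat.find hex ≠ 0 := by
    intro h0
    rw [h0, pow_zero, pow_one] at hspec
    exact hnot hspec
  obtain ⟨e', he'⟩ : ∃ e', Nat.find hex = e' + 1 := ⟨Nat.find hex - 1, by omega⟩
  have hnot' : ¬ (mk₁ g₀) ^ p ^ e' ∈ pCore p M := Nat.find_min hex (by omega)
  rw [he', pow_succ, pow_mul] at hspec
  set a : M := (mk₁ g₀) ^ p ^ e' with ha
  have haN : a ^ p ^ N = 1 := by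
    rw [ha, ← pow_mul, mul_comm, pow_mul, ← map_pow, hg₀N, map_one, one_pow]
  haveI hQn : (pCore p M).Normal := Cfsg.Agent.H01.pCore_normal p
  have hcomm : ∀ u ∈ pCore p M, a * u * a⁻¹ * u⁻¹ ∈ Subgroup.zpowers (a ^ p) := by
    intro u hu
    have h5 := Cfsg.Agent.H01.pCore_le_sylow p (P.mapSurjective hs1) hu
    rw [Sylow.coe_mapSurjective] at h5
    obtain ⟨v, hv, rfl⟩ := h5
    have h6 : v * g₀ * v⁻¹ ∈ A := (Subgroup.mem_normalizer_iff.mp (hAn hv) g₀).mp hgA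
    obtain ⟨k, hk⟩ := Subgroup.mem_zpowers_iff.mp (hg₀ ⟨_, h6⟩)
    have h7 : (g₀ : G) ^ k = v * g₀ * v⁻¹ := congrArg Subtype.val hk
    have h8 : mk₁ v * a * (mk₁ v)⁻¹ = a ^ k := by
      have h9 : mk₁ v * mk₁ g₀ * (mk₁ v)⁻¹ = (mk₁ g₀) ^ k := by
        rw [← map_zpow, h7, map_mul, map_mul, map_inv]
      rw [ha, ← conj_pow, h9, ← zpow_natCast (mk₁ g₀ ^ k), ← zpow_natCast (mk₁ g₀), ← zpow_mul, ← zpow_mul, mul_comm]
    have h10 : a * mk₁ v * a⁻¹ * (mk₁ v)⁻¹ = a ^ (1 - k) := by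
      rw [zpow_sub, zpow_one, ← h8]
      group
    have h11 : a ^ (1 - k) ∈ pCore p M := by
      rw [← h10]
      exact Subgroup.mul_mem _ (hQn.conj_mem _ hu a) (Subgroup.inv_mem _ hu)
    rw [h10]
    by_cases hd : (p : ℤ) ∣ (1 - k)
    · obtain ⟨m, hm⟩ := hd
      refine Subgroup.mem_zpowers_iff.mpr ⟨m, ?_⟩
      rw [hm, ← zpow_natCast, ← zpow_mul]
    · exfalso
      apply hnot'
      have h12 := mem_zpowers_of_not_dvd hpp a N haN (1 - k) hd
      exact (Subgroup.zpowers_le.mpr h11) h12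
  obtain ⟨hp2, hinv⟩ := Cfsg.Agent.H26.HBCyc.key_cyc hMsol hO a hnot' hspec hcomm
  rcases h with h | h
  · exact h hp2
  · exact h (Cfsg.Agent.H09.Involves.trans' hinv (Cfsg.Agent.H09.involves_quotient _))

end Cfsg.Agent.S3788
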