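import Cfsg.Statements.S3789
import Cfsg.Agent.Lib.H26.HBWreath
import Cfsg.Agent.Lib.H03.PLength
import Cfsg.Agent.Lib.H01.Coprime3
import Cfsg.Agent.Lib.H01.Basic
import Cfsg.Agent.Lib.H19.CyclicSylow
import Cfsg.Agent.Lib.H12.LinDL
import Mathlib

set_option autoImplicit false
set_option linter.style.haveILetI false
set_option linter.unusedVariables false
set_option linter.unusedSectionVars false
set_option linter.unusedSimpArgs false
open Cfsg

namespace Cfsg.Agent.S3789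

open Cfsg.Agent.H26.HHBridge Cfsg.Agent.H26.HBWreath
open scoped commutatorElement

section Free

variable {V : Type*} [AddCommGroup V] {Γ : Type*} [Group Γ] {k : Type*} [Ring k] [Module k V]
variable (ρ : Γ →* Module.End k V)

def IsQ (a : Γ) : Prop := ∀ x, ρ a (ρ a x) + ρ a x + x = 0

lemma act_mul (a b : Γ) (x : V) : ρ (a * b) x = ρ a (ρ b x) := by
  rw [map_mul, Module.End.mul_apply]

lemma act_one (x : V) : ρ 1 x = x := by
  rw [map_one, Module.End.one_apply]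

lemma act_inv_left (a : Γ) (x : V) : ρ a⁻¹ (ρ a x) = x := by
  rw [← act_mul, inv_mul_cancel, act_one]

lemma act_inv_right (a : Γ) (x : V) : ρ a (ρ a⁻¹ x) = x := by
  rw [← act_mul, mul_inv_cancel, act_one]

lemma isQ_conj {a : Γ} (h : IsQ ρ a) (y : Γ) : IsQ ρ (y * a * y⁻¹) := by
  intro x
  have h1 := h (ρ y⁻¹ x)
  have h2 := congrArg (ρ y) h1
  simp only [map_add, map_zero, act_inv_right] at h2
  have e : ∀ z, ρ (y * a * y⁻¹) z = ρ y (ρ a (ρ y⁻¹ z)) := by
    intro z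
    rw [act_mul, act_mul]
  rw [e, e, act_inv_left]
  exact h2

lemma key_I {a b : Γ} (hb : IsQ ρ (b * a)) {v : V} (hv : ρ a v = v) :
    ρ a (ρ b v) + v + ρ b⁻¹ v = 0 := by
  have h1 := hb v
  have e : ρ (b * a) v = ρ b v := by rw [act_mul, hv]
  rw [e, act_mul] at h1
  have h2 := congrArg (ρ b⁻¹) h1
  simpa only [map_add, map_zero, act_inv_left] using h2

lemma fix_of_sq {a b : Γ} (ha : IsQ ρ a) (hb : IsQ ρ (b * a)) {v : V} (hv : ρ a v = v)
    (h : ρ b⁻¹ v = ρ b v) : ρ b v = v := by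
  have h1 := key_I ρ hb hv
  rw [h] at h1
  have h2 := ha (ρ b v)
  have h3 : ρ a (ρ a (ρ b v)) = v := by
    have e1 : ρ a (ρ b v) = - v - ρ b v := by
      rw [eq_sub_iff_add_eq, eq_neg_iff_add_eq_zero, ← h1]
      abel
    have e2 : ρ a (ρ a (ρ b v)) = - (ρ a (ρ b v)) - ρ b v := by
      rw [eq_sub_iff_add_eq, eq_neg_iff_add_eq_zero, ← h2]
      abel
    rw [e2, e1]
    abel
  have hinv : ρ a⁻¹ v = v := by
    conv_lhs => rw [← hv]
    exact act_inv_left ρ a v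
  have h4 := congrArg (ρ a⁻¹) h3
  rw [act_inv_left, hinv] at h4
  have h5 := congrArg (ρ a⁻¹) h4
  rw [act_inv_left, hinv] at h5
  exact h5

lemma im_of_sq {a b : Γ} (hb : IsQ ρ (b * a)) {v : V} (hv : ρ a v = v)
    (h : ρ b⁻¹ v = - ρ b v) : v = ρ a (- ρ b v) - (- ρ b v) := by
  have h1 := key_I ρ hb hv
  rw [h] at h1
  rw [map_neg]
  have h' : ρ a (ρ b v) + v = ρ b v := by
    rw [← sub_eq_zero, ← h1]
    abel
  have e : v = ρ b v - ρ a (ρ b v) := by
    rw [eq_sub_iff_add_eq, add_comm]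
    exact h'
  calc v = ρ b v - ρ a (ρ b v) := e
    _ = - ρ a (ρ b v) - (- ρ b v) := by abel

/-- The commutator submodule. -/
def comM (R : Subgroup Γ) : AddSubgroup V :=
  AddSubgroup.closure {w | ∃ r ∈ R, ∃ v, w = ρ r v - v}

lemma comM_inv (R : Subgroup Γ) (g : Γ) (hg : ∀ r ∈ R, g * r * g⁻¹ ∈ R) :
    ∀ x ∈ comM ρ R, ρ g x ∈ comM ρ R := by
  intro x hx
  induction hx using AddSubgroup.closure_induction with
  | mem x hx =>
    obtain ⟨r, hr, v, rfl⟩ := hx
    apply AddSubgroup.subset_closure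
    refine ⟨g * r * g⁻¹, hg r hr, ρ g v, ?_⟩
    rw [map_sub, act_mul, act_mul, act_inv_left]
  | zero => rw [map_zero]; exact AddSubgroup.zero_mem _
  | add x y _ _ hx hy => rw [map_add]; exact AddSubgroup.add_mem _ hx hy
  | neg x _ hx => rw [map_neg]; exact AddSubgroup.neg_mem _ hx

lemma fixed_zero (R : Subgroup Γ) [Finite R] (h3 : ∀ x : V, (3 : ℕ) • x = 0) (hR2 : IsPGroup 2 R)
    {v : V} (hv : v ∈ comM ρ R) (hfix : ∀ r ∈ R, ρ r v = v) : v = 0 := by
  classical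
  haveI : Fintype R := Fintype.ofFinite R
  have hsum : ∀ x ∈ comM ρ R, ∑ r : R, ρ (r : Γ) x = 0 := by
    intro x hx
    induction hx using AddSubgroup.closure_induction with
    | mem x hx =>
      obtain ⟨s, hs, w, rfl⟩ := hx
      simp only [map_sub, Finset.sum_sub_distrib]
      rw [sub_eq_zero]
      refine Fintype.sum_equiv (Equiv.mulRight (⟨s, hs⟩ : R)) _ _ (fun r => ?_)
      simp only [Equiv.coe_mulRight, Subgroup.coe_mul]
      rw [act_mul]
    | zero => simp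
    | add x y _ _ hx hy => simp only [map_add, Finset.sum_add_distrib, hx, hy, add_zero]
    | neg x _ hx => simp only [map_neg, Finset.sum_neg_distrib, hx, neg_zero]
  have h1 := hsum v hv
  have h2 : ∑ r : R, ρ (r : Γ) v = (Fintype.card R) • v := by
    rw [← Finset.card_univ, ← Finset.sum_const]
    exact Finset.sum_congr rfl (fun r _ => hfix r r.2)
  rw [h2, ← Nat.card_eq_fintype_card] at h1
  obtain ⟨n, hn⟩ := IsPGroup.iff_card.mp hR2
  rw [hn] at h1
  have h4 : addOrderOf v ∣ 2 ^ n := addOrderOf_dvd_of_nsmul_eq_zero h1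
  have h5 : addOrderOf v ∣ 3 := addOrderOf_dvd_of_nsmul_eq_zero (h3 v)
  have h6 : addOrderOf v = 1 :=
    Nat.eq_one_of_dvd_coprimes (Nat.Coprime.pow_left n (by norm_num : Nat.Coprime 2 3)) h4 h5
  exact AddMonoid.addOrderOf_eq_one_iff.mp h6

end Free

section GroupFacts

variable {Γ : Type*} [Group Γ]

lemma comm_central {R : Subgroup Γ} (hcent : ∀ x ∈ R, ∀ u ∈ R, x * x * u = u * (x * x))
    {x u w : Γ} (hx : x ∈ R) (hu : u ∈ R) (hw : w ∈ R) :
    (x * u * x⁻¹ * u⁻¹) * w = w * (x * u * x⁻¹ * u⁻¹) := by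
  have e : x * u * x⁻¹ * u⁻¹ = (x * u) * (x * u) * (x⁻¹ * x⁻¹) * (u⁻¹ * u⁻¹) := by
    have h1 := hcent x⁻¹ (R.inv_mem hx) u hu
    calc x * u * x⁻¹ * u⁻¹ = x * u * x * ((x⁻¹ * x⁻¹) * u) * (u⁻¹ * u⁻¹) := by group
      _ = x * u * x * (u * (x⁻¹ * x⁻¹)) * (u⁻¹ * u⁻¹) := by rw [h1]
      _ = (x * u) * (x * u) * (x⁻¹ * x⁻¹) * (u⁻¹ * u⁻¹) := by group
  rw [e]
  have h1 := hcent _ (R.mul_mem hx hu) w hw
  have h2 := hcent x⁻¹ (R.inv_mem hx) w hw
  have h3 := hcent u⁻¹ (R.inv_mem hu) w hw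
  calc (x * u) * (x * u) * (x⁻¹ * x⁻¹) * (u⁻¹ * u⁻¹) * w
      = (x * u) * (x * u) * (x⁻¹ * x⁻¹) * ((u⁻¹ * u⁻¹) * w) := by group
    _ = (x * u) * (x * u) * (x⁻¹ * x⁻¹) * (w * (u⁻¹ * u⁻¹)) := by rw [h3]
    _ = (x * u) * (x * u) * ((x⁻¹ * x⁻¹) * w) * (u⁻¹ * u⁻¹) := by group
    _ = (x * u) * (x * u) * (w * (x⁻¹ * x⁻¹)) * (u⁻¹ * u⁻¹) := by rw [h2]
    _ = ((x * u) * (x * u) * w) * (x⁻¹ * x⁻¹) * (u⁻¹ * u⁻¹) := by group
    _ = (w * ((x * u) * (x * u))) * (x⁻¹ * x⁻¹) * (u⁻¹ * u⁻¹) := by rw [h1]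
    _ = w * ((x * u) * (x * u) * (x⁻¹ * x⁻¹) * (u⁻¹ * u⁻¹)) := by group

lemma comm_sq_one {R : Subgroup Γ} (hcent : ∀ x ∈ R, ∀ u ∈ R, x * x * u = u * (x * x))
    {x u : Γ} (hx : x ∈ R) (hu : u ∈ R) :
    (x * u * x⁻¹ * u⁻¹) * (x * u * x⁻¹ * u⁻¹) = 1 := by
  set c := x * u * x⁻¹ * u⁻¹ with hc
  have hcx : c * x = x * c := comm_central hcent hx hu hx
  have h1 : x * u * x⁻¹ = c * u := by rw [hc]; group
  have h2 : x * (x * u * x⁻¹) * x⁻¹ = c * (c * u) := by
    rw [h1]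
    calc x * (c * u) * x⁻¹ = (x * c) * u * x⁻¹ := by group
      _ = (c * x) * u * x⁻¹ := by rw [hcx]
      _ = c * (x * u * x⁻¹) := by group
      _ = c * (c * u) := by rw [h1]
  have h3 : x * (x * u * x⁻¹) * x⁻¹ = u := by
    have h4 := hcent x hx u hu
    calc x * (x * u * x⁻¹) * x⁻¹ = (x * x * u) * (x * x)⁻¹ := by group
      _ = u := by rw [h4]; group
  rw [h3] at h2
  have h5 : c * c * u = 1 * u := by
    rw [one_mul, mul_assoc]
    exact h2.symm
  exact mul_right_cancel h5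

lemma bb_sq {R : Subgroup Γ} (hcent : ∀ x ∈ R, ∀ u ∈ R, x * x * u = u * (x * x)) {a y : Γ}
    (hRa : ∀ r ∈ R, a * r * a⁻¹ ∈ R) (hfix : ∀ x ∈ R, a * (x * x) * a⁻¹ = x * x) (hy : y ∈ R) :
    ((y * a * y⁻¹ * a⁻¹) * (y * a * y⁻¹ * a⁻¹)) * ((y * a * y⁻¹ * a⁻¹) * (y * a * y⁻¹ * a⁻¹)) = 1 := by
  set y₁ := a * y * a⁻¹ with hy₁
  have hy₁R : y₁ ∈ R := hRa y hy
  have hyy : y₁ * y₁ = y * y := by
    have := hfix y hy
    rw [← this, hy₁]
    group
  have hb : y * a * y⁻¹ * a⁻¹ = y * y₁⁻¹ := by rw [hy₁]; group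
  rw [hb]
  set c := y₁⁻¹ * y * (y₁⁻¹)⁻¹ * y⁻¹ with hc
  have hcy : c * y = y * c := comm_central hcent (R.inv_mem hy₁R) hy hy
  have h1 : y₁⁻¹ * y = c * y * y₁⁻¹ := by rw [hc]; group
  have h2 : (y * y₁⁻¹) * (y * y₁⁻¹) = c := by
    calc (y * y₁⁻¹) * (y * y₁⁻¹) = y * (y₁⁻¹ * y) * y₁⁻¹ := by group
      _ = y * (c * y * y₁⁻¹) * y₁⁻¹ := by rw [h1]
      _ = (y * c) * (y * y₁⁻¹ * y₁⁻¹) := by group
      _ = (c * y) * (y * y₁⁻¹ * y₁⁻¹) := by rw [hcy]
      _ = c * ((y * y) * (y₁ * y₁)⁻¹) := by group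
      _ = c := by rw [hyy]; group
  rw [h2]
  exact comm_sq_one hcent (R.inv_mem hy₁R) hy

end GroupFacts

section FreeMain

variable {V : Type*} [AddCommGroup V] {Γ : Type*} [Group Γ] {k : Type*} [Ring k] [Module k V]
variable (ρ : Γ →* Module.End k V)

theorem free_main (R : Subgroup Γ) [Finite R] (a : Γ) (hq : IsQ ρ a)
    (hRa : ∀ r ∈ R, a * r * a⁻¹ ∈ R)
    (hgen : R ≤ Subgroup.closure {b | ∃ y ∈ R, b = y * a * y⁻¹ * a⁻¹})
    (hcent : ∀ x ∈ R, ∀ u ∈ R, x * x * u = u * (x * x))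
    (hfix : ∀ x ∈ R, a * (x * x) * a⁻¹ = x * x)
    (h3 : ∀ x : V, (3 : ℕ) • x = 0) (hR2 : IsPGroup 2 R) :
    ∀ v ∈ comM ρ R, ρ a v = v → ∃ u ∈ comM ρ R, v = ρ a u - u := by
  classical
  set M := comM ρ R with hM
  have hMR : ∀ r ∈ R, ∀ x ∈ M, ρ r x ∈ M := fun r hr x hx =>
    comM_inv ρ R r (fun s hs => R.mul_mem (R.mul_mem hr hs) (R.inv_mem hr)) x hx
  have hMa : ∀ x ∈ M, ρ a x ∈ M := comM_inv ρ R a hRa
  have hBR : ∀ y ∈ R, y * a * y⁻¹ * a⁻¹ ∈ R := by
    intro y hy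
    have : y * a * y⁻¹ * a⁻¹ = y * (a * y⁻¹ * a⁻¹) := by group
    rw [this]
    exact R.mul_mem hy (hRa _ (R.inv_mem hy))
  have step : ∀ T : Finset Γ, (∀ b ∈ T, b ∈ {b | ∃ y ∈ R, b = y * a * y⁻¹ * a⁻¹}) → ∀ v ∈ M,
      ρ a v = v → ∃ v' ∈ M, ρ a v' = v' ∧ (∀ b ∈ T, ρ b v' = v') ∧ ∃ u ∈ M, v = v' + (ρ a u - u) := by
    intro T
    induction T using Finset.induction_on with
    | empty =>
      intro _ v hv hav
      exact ⟨v, hv, hav, by simp, 0, M.zero_mem, by simp⟩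
    | insert b T hbT ih =>
      intro hT v hv hav
      obtain ⟨v₁, hv₁, hav₁, hfix₁, u₁, hu₁, he₁⟩ :=
        ih (fun c hc => hT c (Finset.mem_insert_of_mem hc)) v hv hav
      obtain ⟨y, hy, hby⟩ := hT b (Finset.mem_insert_self _ _)
      have hbR : b ∈ R := hby ▸ hBR y hy
      have hz2 : (b * b) * (b * b) = 1 := by
        rw [hby]
        exact bb_sq hcent hRa hfix hy
      have hzcomm : ∀ c ∈ R, b * b * c = c * (b * b) := hcent b hbR
      have hzfix : a * (b * b) * a⁻¹ = b * b := hfix b hbR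
      have hza : ∀ x, ρ a (ρ (b * b) x) = ρ (b * b) (ρ a x) := by
        intro x
        have h0 := hzfix
        rw [mul_inv_eq_iff_eq_mul] at h0
        rw [← act_mul, ← act_mul, h0]
      have hqba : IsQ ρ (b * a) := by
        have e : b * a = y * a * y⁻¹ := by rw [hby]; group
        rw [e]
        exact isQ_conj ρ hq y
      have hzz : ∀ x, ρ (b * b) (ρ (b * b) x) = x := by
        intro x
        rw [← act_mul, hz2, act_one]
      have h3' : v₁ = (-(v₁ + ρ (b * b) v₁)) + (-v₁ + ρ (b * b) v₁) := by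
        have h4 := h3 v₁
        have h5 : (3 : ℕ) • v₁ = v₁ + v₁ + v₁ := by
          simp only [succ_nsmul, zero_smul, zero_add]
        rw [h5] at h4
        have h6 : (-(v₁ + ρ (b * b) v₁)) + (-v₁ + ρ (b * b) v₁) = v₁ - (v₁ + v₁ + v₁) := by abel
        rw [h6, h4, sub_zero]
      set vp := -(v₁ + ρ (b * b) v₁) with hvp
      set vm := -v₁ + ρ (b * b) v₁ with hvm
      have hzvp : ρ (b * b) vp = vp := by
        rw [hvp, map_neg, map_add, hzz]
        abel
      have hzvm : ρ (b * b) vm = - vm := by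
        rw [hvm, map_add, map_neg, hzz]
        abel
      have hzM : ∀ x ∈ M, ρ (b * b) x ∈ M := fun x hx => hMR _ (R.mul_mem hbR hbR) x hx
      have hvpM : vp ∈ M := M.neg_mem (M.add_mem hv₁ (hzM _ hv₁))
      have hvmM : vm ∈ M := M.add_mem (M.neg_mem hv₁) (hzM _ hv₁)
      have havp : ρ a vp = vp := by
        rw [hvp, map_neg, map_add, hza, hav₁]
      have havm : ρ a vm = vm := by
        rw [hvm, map_add, map_neg, hza, hav₁]
      have hbp : ρ b⁻¹ vp = ρ b vp := by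
        conv_lhs => rw [← hzvp]
        rw [act_mul, act_inv_left]
      have hbm : ρ b⁻¹ vm = - ρ b vm := by
        have e : b⁻¹ = b * (b * b) := by
          apply inv_eq_of_mul_eq_one_right
          rw [← hz2]
          group
        rw [e, act_mul, hzvm, map_neg]
      have hbvp := fix_of_sq ρ hq hqba havp hbp
      have hvmim := im_of_sq ρ hqba havm hbm
      refine ⟨vp, hvpM, havp, ?_, - ρ b vm + u₁, M.add_mem (M.neg_mem (hMR _ hbR _ hvmM)) hu₁, ?_⟩
      · intro c hc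
        rcases Finset.mem_insert.mp hc with rfl | hc
        · exact hbvp
        · have hcB := hT c (Finset.mem_insert_of_mem hc)
          obtain ⟨y', hy', hcy'⟩ := hcB
          have hcR : c ∈ R := hcy' ▸ hBR y' hy'
          rw [hvp, map_neg, map_add, hfix₁ c hc, ← act_mul, ← hzcomm c hcR, act_mul, hfix₁ c hc]
      · have e1 : ρ a (- ρ b vm + u₁) = ρ a (- ρ b vm) + ρ a u₁ := map_add _ _ _
        rw [e1, he₁]
        generalize ρ a (- ρ b vm) = A at *
        generalize ρ b vm = B at *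
        generalize ρ a u₁ = C at *
        have e2 : v₁ = vp + (A - (-B)) := by
          rw [← hvmim]
          exact h3'
        rw [e2]
        abel
  -- conclude
  have hfinB : {b | ∃ y ∈ R, b = y * a * y⁻¹ * a⁻¹}.Finite := by
    have hRfin : (R : Set Γ).Finite := Set.toFinite _
    exact hRfin.subset (by
      rintro _ ⟨y, hy, rfl⟩
      exact hBR y hy)
  intro v hv hav
  obtain ⟨v', hv', hav', hfix', u, hu, he⟩ := step hfinB.toFinset
    (fun b hb => hfinB.mem_toFinset.mp hb) v hv hav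
  have hcl : ∀ x ∈ Subgroup.closure {b | ∃ y ∈ R, b = y * a * y⁻¹ * a⁻¹}, ρ x v' = v' := by
    intro x hx
    induction hx using Subgroup.closure_induction with
    | mem x hx => exact hfix' x (hfinB.mem_toFinset.mpr hx)
    | one => exact act_one ρ v'
    | mul x y _ _ hx hy => rw [act_mul, hy, hx]
    | inv x _ hx =>
      conv_lhs => rw [← hx]
      exact act_inv_left ρ x v'
  have hfixR : ∀ r ∈ R, ρ r v' = v' := fun r hr => hcl r (hgen hr)
  have hv0 := fixed_zero ρ R h3 hR2 hv' hfixR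
  refine ⟨u, hu, ?_⟩
  rw [he, hv0, zero_add]

end FreeMain

section Cocycle

variable {V : Type*} [AddCommGroup V] {L : Type*} [Group L] {k : Type*} [Ring k] [Module k V]
variable (ρ : L →* Module.End k V)

/-- Iterated commutators along the derived series. -/
noncomputable def SS (M : AddSubgroup V) : ℕ → AddSubgroup V
  | 0 => M
  | (i + 1) => AddSubgroup.closure {w | ∃ g ∈ derivedSeries L i, ∃ s ∈ SS M i, w = ρ g s - s}

lemma SS_inv (M : AddSubgroup V) (hM : ∀ g, ∀ m ∈ M, ρ g m ∈ M) :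
    ∀ i, ∀ g, ∀ x ∈ SS ρ M i, ρ g x ∈ SS ρ M i := by
  intro i
  induction i with
  | zero => exact hM
  | succ i ih =>
    intro g x hx
    induction hx using AddSubgroup.closure_induction with
    | mem x hx =>
      obtain ⟨h, hh, s, hs, rfl⟩ := hx
      apply AddSubgroup.subset_closure
      refine ⟨g * h * g⁻¹, (derivedSeries_normal L i).conj_mem h hh g, ρ g s, ih g s hs, ?_⟩
      rw [map_sub, act_mul, act_mul, act_inv_left]
    | zero => rw [map_zero]; exact AddSubgroup.zero_mem _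
    | add x y _ _ hx hy => rw [map_add]; exact AddSubgroup.add_mem _ hx hy
    | neg x _ hx => rw [map_neg]; exact AddSubgroup.neg_mem _ hx

lemma SS_le (M : AddSubgroup V) (hM : ∀ g, ∀ m ∈ M, ρ g m ∈ M) : ∀ i, SS ρ M i ≤ M := by
  intro i
  induction i with
  | zero => exact le_rfl
  | succ i ih =>
    refine (AddSubgroup.closure_le _).mpr ?_
    rintro _ ⟨g, hg, s, hs, rfl⟩
    exact M.sub_mem (hM g s (ih hs)) (ih hs)

theorem cocycle_main (M : AddSubgroup V) (hM : ∀ g, ∀ m ∈ M, ρ g m ∈ M) (α : L)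
    (hc : ∀ g x, ρ g (ρ α x) = ρ α (ρ g x))
    (hfree : ∀ v ∈ M, ρ α v = v → ∃ u ∈ M, v = ρ α u - u)
    (s : V) (hs : s ∈ M) (hz : ∀ g, ρ g (ρ α s - s) = ρ α s - s) (d : ℕ)
    (hα : α ∈ derivedSeries L d) : ρ α s - s ∈ SS ρ M (d + 1) := by
  have hinv := SS_inv ρ M hM
  have hεc : ∀ g x, ρ g (ρ α x - x) = ρ α (ρ g x) - ρ g x := by
    intro g x
    rw [map_sub, hc]
  have hB : ∀ i, ∀ g ∈ derivedSeries L i, ∃ t ∈ SS ρ M i, ρ g s - s = ρ α t - t := by
    intro i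
    induction i with
    | zero =>
      intro g _
      have hx : ρ g s - s ∈ M := M.sub_mem (hM g s hs) hs
      refine hfree _ hx ?_
      have h1 := hz g
      rw [hεc] at h1
      rw [map_sub]
      rw [sub_eq_sub_iff_add_eq_add] at h1 ⊢
      rw [h1, add_comm]
    | succ i ih =>
      intro g hg
      rw [derivedSeries_succ, Subgroup.commutator_def] at hg
      induction hg using Subgroup.closure_induction with
      | mem x hx =>
        obtain ⟨g₁, hg₁, h₁, hh₁, rfl⟩ := hx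
        obtain ⟨t₁, ht₁, he₁⟩ := ih g₁ hg₁
        obtain ⟨t₂, ht₂, he₂⟩ := ih h₁ hh₁
        set c := ⁅g₁, h₁⁆ with hcdef
        have hcd : c = g₁ * h₁ * g₁⁻¹ * h₁⁻¹ := commutatorElement_def g₁ h₁
        have hn := derivedSeries_normal L i
        let e := g₁ * h₁ * g₁⁻¹
        have he : e ∈ derivedSeries L i := hn.conj_mem h₁ hh₁ g₁
        let r := g₁ * (h₁ * g₁⁻¹ * h₁⁻¹) * g₁⁻¹
        have hr : r ∈ derivedSeries L i :=
          hn.conj_mem _ (hn.conj_mem _ ((derivedSeries L i).inv_mem hg₁) h₁) g₁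
        let w := ρ g₁ t₂
        have hw : w ∈ SS ρ M i := hinv i g₁ t₂ ht₂
        have hg1 : ρ e t₁ - t₁ ∈ SS ρ M (i + 1) :=
          AddSubgroup.subset_closure ⟨e, he, t₁, ht₁, rfl⟩
        have hg2 : ρ r w - w ∈ SS ρ M (i + 1) :=
          AddSubgroup.subset_closure ⟨r, hr, w, hw, rfl⟩
        refine ⟨-(ρ e t₁ - t₁) - (ρ r w - w),
          AddSubgroup.sub_mem _ (AddSubgroup.neg_mem _ hg1) hg2, ?_⟩
        have hDg : ρ e (ρ g₁ s - s) = ρ (g₁ * h₁) s - ρ e s := by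
          rw [map_sub, ← act_mul]
          congr 2
          simp only [e]
          group
        have hDh1 : ρ c (ρ h₁ s - s) = ρ e s - ρ c s := by
          rw [map_sub, ← act_mul]
          congr 2
          simp only [e, hcd]
          group
        have hDh2 : ρ g₁ (ρ h₁ s - s) = ρ (g₁ * h₁) s - ρ g₁ s := by
          rw [map_sub, ← act_mul]
        have hrw : ρ r (ρ g₁ (ρ h₁ s - s)) = ρ c (ρ h₁ s - s) := by
          rw [← act_mul]
          congr 2
          simp only [r, hcd]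
          group
        have h1 : ρ α (ρ e t₁ - t₁) - (ρ e t₁ - t₁) = ρ e (ρ α t₁ - t₁) - (ρ α t₁ - t₁) := by
          rw [hεc e t₁, map_sub]
          abel
        have h2 : ρ α (ρ r w - w) - (ρ r w - w) = ρ r (ρ α w - w) - (ρ α w - w) := by
          rw [hεc r w, map_sub]
          abel
        have h3 : ρ α w - w = ρ g₁ (ρ h₁ s - s) := by
          rw [he₂, hεc]
        have key : ρ α (-(ρ e t₁ - t₁) - (ρ r w - w)) - (-(ρ e t₁ - t₁) - (ρ r w - w)) =
            -(ρ α (ρ e t₁ - t₁) - (ρ e t₁ - t₁)) - (ρ α (ρ r w - w) - (ρ r w - w)) := by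
          rw [map_sub, map_neg]
          abel
        rw [key, h1, h2, h3, ← he₁, hrw, hDg, hDh1, hDh2]
        abel
      | one =>
        refine ⟨0, AddSubgroup.zero_mem _, ?_⟩
        rw [act_one, sub_self, map_zero, sub_self]
      | mul x y _ _ hx hy =>
        obtain ⟨tx, htx, hex⟩ := hx
        obtain ⟨ty, hty, hey⟩ := hy
        refine ⟨tx + ρ x ty, AddSubgroup.add_mem _ htx (hinv _ x ty hty), ?_⟩
        have h1 : ρ x (ρ y s - s) = ρ α (ρ x ty) - ρ x ty := by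
          rw [hey, hεc]
        have h2 : ρ (x * y) s - s = (ρ x s - s) + ρ x (ρ y s - s) := by
          rw [map_sub, act_mul]
          abel
        rw [h2, hex, h1, map_add]
        abel
      | inv x _ hx =>
        obtain ⟨tx, htx, hex⟩ := hx
        refine ⟨- ρ x⁻¹ tx, AddSubgroup.neg_mem _ (hinv _ x⁻¹ tx htx), ?_⟩
        have h1 : ρ x⁻¹ (ρ x s - s) = ρ α (ρ x⁻¹ tx) - ρ x⁻¹ tx := by
          rw [hex, hεc]
        have h2 : ρ x⁻¹ s - s = - ρ x⁻¹ (ρ x s - s) := by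
          rw [map_sub, act_inv_left]
          abel
        rw [h2, h1, map_neg]
        abel
  obtain ⟨t, ht, he⟩ := hB d α hα
  rw [he]
  exact AddSubgroup.subset_closure ⟨α, hα, t, ht, rfl⟩

theorem SS_image (M : AddSubgroup V) (Q : Subgroup L) (hQ : Q.Normal) (f : L → V)
    (hmul : ∀ x ∈ Q, ∀ y ∈ Q, f (x * y) = f x + f y)
    (hconj : ∀ g, ∀ q ∈ Q, ρ g (f q) = f (g * q * g⁻¹))
    (hMf : ∀ v ∈ M, ∃ q ∈ Q, v = f q) :
    ∀ i, ∀ v ∈ SS ρ M i, ∃ q ∈ Q, q ∈ derivedSeries L i ∧ v = f q := by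
  have hf1 : f 1 = 0 := by
    have := hmul 1 Q.one_mem 1 Q.one_mem
    rw [mul_one] at this
    simpa using this
  have hfinv : ∀ q ∈ Q, f q⁻¹ = - f q := by
    intro q hq
    have := hmul q hq q⁻¹ (Q.inv_mem hq)
    rw [mul_inv_cancel, hf1] at this
    exact (neg_eq_of_add_eq_zero_right this.symm).symm
  intro i
  induction i with
  | zero =>
    intro v hv
    obtain ⟨q, hq, he⟩ := hMf v hv
    exact ⟨q, hq, by simp, he⟩
  | succ i ih =>
    intro v hv
    induction hv using AddSubgroup.closure_induction with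
    | mem x hx =>
      obtain ⟨g, hg, s, hs, rfl⟩ := hx
      obtain ⟨q, hq, hqi, rfl⟩ := ih s hs
      refine ⟨g * q * g⁻¹ * q⁻¹, Q.mul_mem (hQ.conj_mem q hq g) (Q.inv_mem hq), ?_, ?_⟩
      · rw [derivedSeries_succ]
        have := Subgroup.commutator_mem_commutator hg hqi
        rwa [commutatorElement_def] at this
      · rw [hmul _ (hQ.conj_mem q hq g) _ (Q.inv_mem hq), hfinv q hq, hconj g q hq, sub_eq_add_neg]
    | zero => exact ⟨1, Q.one_mem, Subgroup.one_mem _, hf1.symm⟩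
    | add x y _ _ hx hy =>
      obtain ⟨q₁, hq₁, h1, rfl⟩ := hx
      obtain ⟨q₂, hq₂, h2, rfl⟩ := hy
      exact ⟨q₁ * q₂, Q.mul_mem hq₁ hq₂, Subgroup.mul_mem _ h1 h2, (hmul q₁ hq₁ q₂ hq₂).symm⟩
    | neg x _ hx =>
      obtain ⟨q₁, hq₁, h1, rfl⟩ := hx
      exact ⟨q₁⁻¹, Q.inv_mem hq₁, Subgroup.inv_mem _ h1, (hfinv q₁ hq₁).symm⟩

end Cocycle

section Struct

variable {Γ : Type*} [Group Γ] [Finite Γ]

/-- The minimal invariant `2`-subgroup moved by `a`. -/
theorem exists_R0 (L : Subgroup Γ) (a : Γ) (hLa : ∀ g ∈ L, g * a = a * g) (haL : a ∈ L) (ha3 : a ^ 3 = 1)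
    (S : Subgroup Γ) (hS2 : IsPGroup 2 S) (hLS : ∀ g ∈ L, ∀ s ∈ S, g * s * g⁻¹ ∈ S)
    (hmoved : ∃ s ∈ S, a * s * a⁻¹ ≠ s) :
    ∃ R : Subgroup Γ, R ≤ S ∧ (∀ g ∈ L, ∀ r ∈ R, g * r * g⁻¹ ∈ R) ∧ (∃ s ∈ R, a * s * a⁻¹ ≠ s) ∧
      R ≤ Subgroup.closure {b | ∃ y ∈ R, b = y * a * y⁻¹ * a⁻¹} ∧
      (∀ x ∈ R, ∀ u ∈ R, x * x * u = u * (x * x)) ∧ (∀ x ∈ R, a * (x * x) * a⁻¹ = x * x) := by
  classical
  let T : Set (Subgroup Γ) := {R | R ≤ S ∧ (∀ g ∈ L, ∀ r ∈ R, g * r * g⁻¹ ∈ R) ∧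
    ∃ s ∈ R, a * s * a⁻¹ ≠ s}
  obtain ⟨R, hR, hmin⟩ := (wellFounded_lt (α := Subgroup Γ)).has_min T ⟨S, le_rfl, hLS, hmoved⟩
  obtain ⟨hRS, hLR, hRmoved⟩ := hR
  have hR2 : IsPGroup 2 R := hS2.to_le hRS
  have haR : ∀ r ∈ R, a * r * a⁻¹ ∈ R := hLR a haL
  have h3a : a * a * a = 1 := by
    have := ha3
    rw [pow_succ, pow_two] at this
    exact this
  let R₁ : Subgroup Γ := Subgroup.closure {b | ∃ y ∈ R, b = y * a * y⁻¹ * a⁻¹}
  have hBR : ∀ y ∈ R, y * a * y⁻¹ * a⁻¹ ∈ R := by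
    intro y hy
    have : y * a * y⁻¹ * a⁻¹ = y * (a * y⁻¹ * a⁻¹) := by group
    rw [this]
    exact R.mul_mem hy (haR _ (R.inv_mem hy))
  have hR₁le : R₁ ≤ R := by
    refine (Subgroup.closure_le _).mpr ?_
    rintro _ ⟨y, hy, rfl⟩
    exact hBR y hy
  have hR₁L : ∀ g ∈ L, ∀ r ∈ R₁, g * r * g⁻¹ ∈ R₁ := by
    intro g hg r hr
    induction hr using Subgroup.closure_induction with
    | mem x hx =>
      obtain ⟨y, hy, rfl⟩ := hx
      apply Subgroup.subset_closure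
      refine ⟨g * y * g⁻¹, hLR g hg y hy, ?_⟩
      have h1 := hLa g hg
      have h2 : g * a * g⁻¹ = a := by rw [h1]; group
      calc g * (y * a * y⁻¹ * a⁻¹) * g⁻¹
          = g * y * g⁻¹ * (g * a * g⁻¹) * (g * y * g⁻¹)⁻¹ * (g * a * g⁻¹)⁻¹ := by group
        _ = g * y * g⁻¹ * a * (g * y * g⁻¹)⁻¹ * a⁻¹ := by rw [h2]
    | one => simp
    | mul x y _ _ hx hy =>
      have : g * (x * y) * g⁻¹ = (g * x * g⁻¹) * (g * y * g⁻¹) := by group
      rw [this]
      exact Subgroup.mul_mem _ hx hy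
    | inv x _ hx =>
      have : g * x⁻¹ * g⁻¹ = (g * x * g⁻¹)⁻¹ := by group
      rw [this]
      exact Subgroup.inv_mem _ hx
  have horder3 : ∀ x ∈ R, x ^ 3 = 1 → x = 1 := by
    intro x hx h3
    obtain ⟨n, hn⟩ := hR2 ⟨x, hx⟩
    have h1 : x ^ 2 ^ n = 1 := congrArg Subtype.val hn
    have h4 : orderOf x = 1 := Nat.eq_one_of_dvd_coprimes
      (Nat.Coprime.pow_left n (by norm_num : Nat.Coprime 2 3)) (orderOf_dvd_of_pow_eq_one h1)
      (orderOf_dvd_of_pow_eq_one h3)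
    exact orderOf_eq_one_iff.mp h4
  have hR₁moved : ∃ s ∈ R₁, a * s * a⁻¹ ≠ s := by
    by_contra hcon
    push Not at hcon
    obtain ⟨y, hy, hy1⟩ := hRmoved
    apply hy1
    set b := y * a * y⁻¹ * a⁻¹ with hb
    have hbm : b ∈ R₁ := Subgroup.subset_closure ⟨y, hy, rfl⟩
    have hbfix := hcon b hbm
    set y₁ := a * y * a⁻¹ with hy₁
    set y₂ := a * y₁ * a⁻¹ with hy₂
    have e0 : y = b * y₁ := by rw [hb, hy₁]; group
    have e1 : y₁ = b * y₂ := by
      calc y₁ = a * y * a⁻¹ := rfl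
        _ = a * (b * y₁) * a⁻¹ := by rw [← e0]
        _ = (a * b * a⁻¹) * (a * y₁ * a⁻¹) := by group
        _ = b * y₂ := by rw [hbfix]
    have e3 : a * y₂ * a⁻¹ = y := by
      rw [hy₂, hy₁]
      have h5 : a * (a * (a * y * a⁻¹) * a⁻¹) * a⁻¹ = (a * a * a) * y * (a * a * a)⁻¹ := by group
      rw [h5, h3a]
      group
    have e2 : y₂ = b * y := by
      calc y₂ = a * y₁ * a⁻¹ := rfl
        _ = a * (b * y₂) * a⁻¹ := by rw [← e1]
        _ = (a * b * a⁻¹) * (a * y₂ * a⁻¹) := by group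
        _ = b * y := by rw [hbfix, e3]
    have hb3 : b ^ 3 = 1 := by
      have h6 : y = (b * b * b) * y := by
        calc y = b * y₁ := e0
          _ = b * (b * y₂) := by rw [← e1]
          _ = b * (b * (b * y)) := by rw [← e2]
          _ = (b * b * b) * y := by group
      rw [pow_succ, pow_two]
      exact mul_eq_right.mp h6.symm
    have hb1 := horder3 b (hBR y hy) hb3
    have h7 : y = y₁ := by
      have h8 := e0
      rw [hb1, one_mul] at h8
      exact h8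
    exact h7.symm
  have hR₁eq : R₁ = R := by
    by_contra hne
    exact hmin _ ⟨hR₁le.trans hRS, hR₁L, hR₁moved⟩ (lt_of_le_of_ne hR₁le hne)
  -- squares
  let Ψ : Subgroup Γ := Subgroup.closure {w | ∃ x ∈ R, w = x * x}
  have hΨle : Ψ ≤ R := by
    refine (Subgroup.closure_le _).mpr ?_
    rintro _ ⟨x, hx, rfl⟩
    exact R.mul_mem hx hx
  have hΨconj : ∀ g : Γ, (∀ r ∈ R, g * r * g⁻¹ ∈ R) → ∀ r ∈ Ψ, g * r * g⁻¹ ∈ Ψ := by
    intro g hg r hr
    induction hr using Subgroup.closure_induction with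
    | mem x hx =>
      obtain ⟨y, hy, rfl⟩ := hx
      apply Subgroup.subset_closure
      refine ⟨g * y * g⁻¹, hg y hy, ?_⟩
      group
    | one => simp
    | mul x y _ _ hx hy =>
      have : g * (x * y) * g⁻¹ = (g * x * g⁻¹) * (g * y * g⁻¹) := by group
      rw [this]
      exact Subgroup.mul_mem _ hx hy
    | inv x _ hx =>
      have : g * x⁻¹ * g⁻¹ = (g * x * g⁻¹)⁻¹ := by group
      rw [this]
      exact Subgroup.inv_mem _ hx
  have hΨne : Ψ ≠ R := by
    intro heq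
    haveI : Fact (Nat.Prime 2) := ⟨Nat.prime_two⟩
    have hF : Ψ ≤ (frattini ↥R).map R.subtype := by
      refine (Subgroup.closure_le _).mpr ?_
      rintro _ ⟨x, hx, rfl⟩
      have h1 := Cfsg.Agent.H01.pow_mem_frattini_of_isPGroup hR2 (⟨x, hx⟩ : ↥R)
      exact ⟨_, h1, by simp [pow_two]⟩
    have htop : frattini ↥R = ⊤ := by
      rw [eq_top_iff]
      rintro ⟨x, hx⟩ _
      have h2 : x ∈ (frattini ↥R).map R.subtype := hF (heq ▸ hx)
      obtain ⟨y, hy, hye⟩ := h2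
      have : y = ⟨x, hx⟩ := Subtype.ext hye
      rwa [← this]
    have hbot : (⊥ : Subgroup ↥R) = ⊤ := frattini_nongenerating (K := ⊥) (by rw [htop]; simp)
    obtain ⟨s, hs, hs1⟩ := hRmoved
    apply hs1
    have h3 : (⟨s, hs⟩ : ↥R) ∈ (⊥ : Subgroup ↥R) := by rw [hbot]; trivial
    have h4 : s = 1 := congrArg Subtype.val (Subgroup.mem_bot.mp h3)
    rw [h4]
    simp
  have hΨfix : ∀ w ∈ Ψ, a * w * a⁻¹ = w := by
    by_contra hcon
    push Not at hcon
    obtain ⟨w, hw, hw1⟩ := hcon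
    exact hmin Ψ ⟨hΨle.trans hRS, fun g hg => hΨconj g (hLR g hg), w, hw, hw1⟩
      (lt_of_le_of_ne hΨle hΨne)
  have hcomm : ∀ w ∈ Ψ, ∀ r ∈ R, w * r = r * w := by
    intro w hw r hr
    have hrgen : r ∈ Subgroup.closure {b | ∃ y ∈ R, b = y * a * y⁻¹ * a⁻¹} := by
      have : r ∈ R₁ := by rw [hR₁eq]; exact hr
      exact this
    induction hrgen using Subgroup.closure_induction with
    | mem x hx =>
      obtain ⟨y, hy, rfl⟩ := hx
      -- the element `e = w u w⁻¹ u⁻¹` with `u = y⁻¹`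
      set y₁ := a * y * a⁻¹ with hy₁
      have hb : y * a * y⁻¹ * a⁻¹ = y * y₁⁻¹ := by rw [hy₁]; group
      have hu : y⁻¹ ∈ R := R.inv_mem hy
      have he : w * y⁻¹ * w⁻¹ * y ∈ Ψ := by
        have h1 := hΨconj y⁻¹ (fun s hs => R.mul_mem (R.mul_mem hu hs) (R.inv_mem hu)) w⁻¹ (Ψ.inv_mem hw)
        have e : w * y⁻¹ * w⁻¹ * y = w * (y⁻¹ * w⁻¹ * y⁻¹⁻¹) := by group
        rw [e]
        exact Ψ.mul_mem hw h1
      have hef := hΨfix _ he
      have hwf := hΨfix w hw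
      have h2 : a * (w * y⁻¹ * w⁻¹ * y) * a⁻¹ = w * y₁⁻¹ * w⁻¹ * y₁ := by
        calc a * (w * y⁻¹ * w⁻¹ * y) * a⁻¹
            = (a * w * a⁻¹) * (a * y * a⁻¹)⁻¹ * (a * w * a⁻¹)⁻¹ * (a * y * a⁻¹) := by group
          _ = w * y₁⁻¹ * w⁻¹ * y₁ := by rw [hwf]
      rw [h2] at hef
      rw [hb]
      have h3 : y₁⁻¹ * w⁻¹ * y₁ = y⁻¹ * w⁻¹ * y := by
        have := mul_left_cancel (a := w) (b := y₁⁻¹ * w⁻¹ * y₁) (c := y⁻¹ * w⁻¹ * y) (by
          calc w * (y₁⁻¹ * w⁻¹ * y₁) = w * y₁⁻¹ * w⁻¹ * y₁ := by group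
            _ = w * y⁻¹ * w⁻¹ * y := hef
            _ = w * (y⁻¹ * w⁻¹ * y) := by group)
        exact this
      have h4 : (y * y₁⁻¹) * w⁻¹ = w⁻¹ * (y * y₁⁻¹) := by
        have h5 : y₁⁻¹ * w⁻¹ = y⁻¹ * w⁻¹ * y * y₁⁻¹ := by
          rw [← h3]
          group
        calc (y * y₁⁻¹) * w⁻¹ = y * (y₁⁻¹ * w⁻¹) := by group
          _ = y * (y⁻¹ * w⁻¹ * y * y₁⁻¹) := by rw [h5]
          _ = w⁻¹ * (y * y₁⁻¹) := by group
      calc w * (y * y₁⁻¹) = w * ((y * y₁⁻¹) * w⁻¹) * w := by group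
        _ = w * (w⁻¹ * (y * y₁⁻¹)) * w := by rw [h4]
        _ = (y * y₁⁻¹) * w := by group
    | one => simp
    | mul x y hx' hy' hx hy =>
      have hxR : x ∈ R := by
        have : x ∈ R₁ := hx'
        rw [hR₁eq] at this
        exact this
      have hyR : y ∈ R := by
        have : y ∈ R₁ := hy'
        rw [hR₁eq] at this
        exact this
      rw [← mul_assoc, hx hxR, mul_assoc, hy hyR, mul_assoc]
    | inv x hx' hx =>
      have hxR : x ∈ R := by
        have : x ∈ R₁ := hx'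
        rw [hR₁eq] at this
        exact this
      have := hx hxR
      calc w * x⁻¹ = x⁻¹ * (x * w) * x⁻¹ := by group
        _ = x⁻¹ * (w * x) * x⁻¹ := by rw [this]
        _ = x⁻¹ * w := by group
  refine ⟨R, hRS, hLR, hRmoved, ?_, ?_, ?_⟩
  · intro r hr
    have : r ∈ R₁ := by rw [hR₁eq]; exact hr
    exact this
  · intro x hx u hu
    exact hcomm _ (Subgroup.subset_closure ⟨x, hx, rfl⟩) u hu
  · intro x hx
    exact hΨfix _ (Subgroup.subset_closure ⟨x, hx, rfl⟩)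

end Struct

section Moved

variable {Γ : Type*} [Group Γ] [Finite Γ] {p : ℕ} [hp : Fact p.Prime]

/-- A `p`-subgroup acting: a Sylow subgroup of `O_{p'}` invariant under `L` and moved by `a`. -/
theorem exists_moved_inv (hΓ : IsPSolvable p Γ) (hO : pCore p Γ = ⊥) (L : Subgroup Γ) (hL : IsPGroup p L)
    (a : Γ) (haL : a ∈ L) (ha : a ≠ 1) :
    ∃ q : ℕ, q.Prime ∧ q ≠ p ∧ ∃ S : Subgroup Γ, IsPGroup q S ∧ S ≤ pPrimeCore p Γ ∧
      L ≤ Subgroup.normalizer (S : Set Γ) ∧ ∃ s ∈ S, a * s * a⁻¹ ≠ s := by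
  classical
  by_contra hcon
  push Not at hcon
  have hYn : (pPrimeCore p Γ).Normal := Cfsg.Agent.H03.pPrimeCore_normal'
  have hYc : (Nat.card (pPrimeCore p Γ)).Coprime p := Cfsg.Agent.H06.coprime_card_pPrimeCore p
  set Y := pPrimeCore p Γ with hY
  have hAK : L ≤ Subgroup.normalizer (Y : Set Γ) := by
    rw [Subgroup.normalizer_eq_top_iff.mpr hYn]; exact le_top
  obtain ⟨nL, hnL⟩ := IsPGroup.iff_card.mp hL
  have hcop : (Nat.card L).Coprime (Nat.card Y) := by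
    rw [hnL]
    exact Nat.Coprime.pow_left _ hYc.symm
  have hsolv : Group.IsSolvable L ∨ Group.IsSolvable Y := by
    left
    haveI : Group.IsNilpotent L := hL.isNilpotent
    infer_instance
  let C : Subgroup Y := (Subgroup.centralizer ({a} : Set Γ)).subgroupOf Y
  have htop : C = ⊤ := by
    apply Cfsg.Agent.H01.eq_top_of_forall_sylow_le
    intro q hq
    obtain ⟨P, hP⟩ := Cfsg.Agent.H01.exists_invariant_sylow hAK hcop hsolv q
    refine ⟨P, ?_⟩
    intro y hy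
    have hfix : a * (y : Γ) * a⁻¹ = y := by
      by_cases hqp : q = p
      · subst hqp
        have hy1 : y = 1 := by
          have h1 : IsPGroup q ↥(P : Subgroup Y) := P.isPGroup'
          have h2 : (Nat.card (P : Subgroup Y)).Coprime q :=
            Nat.Coprime.coprime_dvd_left (Subgroup.card_subgroup_dvd_card _) hYc
          have h3 : Nat.card (P : Subgroup Y) = 1 := by
            obtain ⟨n, hn⟩ := IsPGroup.iff_card.mp h1
            rw [hn] at h2 ⊢
            rcases n with _ | n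
            · simp
            · exfalso
              have := Nat.Coprime.eq_one_of_dvd h2.symm (dvd_pow_self q (Nat.succ_ne_zero n))
              exact (Fact.out : q.Prime).one_lt.ne' this
          have := Nat.card_eq_one_iff_unique.mp h3
          have h4 : (⟨y, hy⟩ : (P : Subgroup Y)) = 1 := this.1.elim _ _
          exact congrArg Subtype.val h4
        rw [hy1]; simp
      · exact hcon q hq.out hqp ((P : Subgroup Y).map Y.subtype) (P.isPGroup'.map _)
          (by rintro _ ⟨x, -, rfl⟩; exact x.2) hP y (Subgroup.mem_map_of_mem Y.subtype hy)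
    show (y : Γ) ∈ Subgroup.centralizer ({a} : Set Γ)
    rw [Subgroup.mem_centralizer_iff]
    intro t ht
    rw [Set.mem_singleton_iff] at ht
    rw [ht]
    rw [mul_inv_eq_iff_eq_mul] at hfix
    exact hfix
  have hzC : a ∈ Subgroup.centralizer (Y : Set Γ) := by
    rw [Subgroup.mem_centralizer_iff]
    intro y hy
    have h1 : (⟨y, hy⟩ : Y) ∈ C := by rw [htop]; trivial
    have h2 : y ∈ Subgroup.centralizer ({a} : Set Γ) := h1
    rw [Subgroup.mem_centralizer_iff] at h2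
    exact (h2 a rfl).symm
  have hzY := Cfsg.Agent.H26.HHCore.centralizer_pPrimeCore_le hΓ hO hzC
  obtain ⟨k, hk⟩ := hL ⟨a, haL⟩
  have hzk : a ^ p ^ k = 1 := congrArg Subtype.val hk
  have h1 : orderOf a ∣ p ^ k := orderOf_dvd_of_pow_eq_one hzk
  have h2 : orderOf a ∣ Nat.card Y := Subgroup.orderOf_dvd_natCard Y hzY
  have h3 : (p ^ k).Coprime (Nat.card Y) := Nat.Coprime.pow_left _ hYc.symm
  have h4 : orderOf a = 1 := Nat.Coprime.eq_one_of_dvd (Nat.Coprime.coprime_dvd_left h1 h3) h2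
  exact ha (orderOf_eq_one_iff.mp h4)

end Moved

section NoOdd

variable {Γ : Type*} [Group Γ] [Finite Γ]
variable {V : Type*} [AddCommGroup V] [Module (ZMod 3) V] [FiniteDimensional (ZMod 3) V]

/-- `q` odd cannot occur. -/
theorem no_odd (ρ : Γ →* Module.End (ZMod 3) V) (hρ : Function.Injective ρ) (a : Γ) (ha3 : a ^ 3 = 1)
    (ha1 : a ≠ 1) (hq : (ρ a - 1) ^ 2 = 0) (q : ℕ) (hqp : q.Prime) (hq2 : q ≠ 2) (hq3 : q ≠ 3)
    (S : Subgroup Γ) (hS : IsPGroup q S) (haS : a ∈ Subgroup.normalizer (S : Set Γ))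
    (hmoved : ∃ s ∈ S, a * s * a⁻¹ ≠ s) : False := by
  classical
  haveI h3f : Fact (Nat.Prime 3) := ⟨Nat.prime_three⟩
  haveI hqf : Fact q.Prime := ⟨hqp⟩
  have hoa : orderOf a = 3 := orderOf_eq_prime ha3 ha1
  let A : Subgroup Γ := Subgroup.zpowers a
  have hcardA : Nat.card A = 3 := by rw [Nat.card_zpowers, hoa]
  have hAS : A ≤ Subgroup.normalizer (S : Set Γ) := Subgroup.zpowers_le.mpr haS
  obtain ⟨nS, hnS⟩ := IsPGroup.iff_card.mp hS
  have hcop : (Nat.card S).Coprime 3 := by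
    rw [hnS]
    exact Nat.Coprime.pow_left _ ((Nat.coprime_primes hqp Nat.prime_three).mpr hq3)
  have hinf : S ⊓ A = ⊥ := by
    rw [eq_bot_iff]
    intro x hx
    have h1 : Nat.card ↥(S ⊓ A) ∣ Nat.card S := Subgroup.card_dvd_of_le inf_le_left
    have h2 : Nat.card ↥(S ⊓ A) ∣ Nat.card A := Subgroup.card_dvd_of_le inf_le_right
    rw [hcardA] at h2
    have h3 := Nat.eq_one_of_dvd_coprimes hcop h1 h2
    have h4 := Subgroup.card_eq_one.mp h3
    rw [h4] at hx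
    exact hx
  have hcop' : (Nat.card S).Coprime (Nat.card A) := by rw [hcardA]; exact hcop
  have hcardΓ : Nat.card S * Nat.card A = Nat.card (S ⊔ A : Subgroup Γ) :=
    Cfsg.Agent.H01.card_sup_of_le_normalizer hAS hcop'
  let Γ' : Subgroup Γ := S ⊔ A
  have hSΓ : S ≤ Γ' := le_sup_left
  have hAΓ : A ≤ Γ' := le_sup_right
  have hΓn : Γ' ≤ Subgroup.normalizer (S : Set Γ) := sup_le Subgroup.le_normalizer hAS
  let S' : Subgroup Γ' := S.subgroupOf Γ'
  haveI hS'n : S'.Normal := Subgroup.normal_subgroupOf_of_le_normalizer hΓn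
  have hS'card : Nat.card S' = Nat.card S :=
    Nat.card_congr (Subgroup.subgroupOfEquivOfLe hSΓ).toEquiv
  have hΓ'card : Nat.card Γ' = Nat.card S * 3 := by
    rw [← hcardA]
    exact hcardΓ.symm
  have hSpos : 0 < Nat.card S := Nat.card_pos
  have hindex : S'.index = 3 := by
    have h1 := Subgroup.card_mul_index S'
    rw [hS'card, hΓ'card] at h1
    exact Nat.eq_of_mul_eq_mul_left hSpos h1
  have hsolv : IsPSolvable 3 Γ' := by
    refine Cfsg.Agent.H19.isPSolvable_of_normal_chain (p := 3) (k := 1) S' ⊤ le_top ?_ ?_ ?_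
    · rw [hS'card]; exact hcop
    · rw [Subgroup.index_top]
      exact Nat.coprime_one_left 3
    · rw [Subgroup.relIndex_top_right, hindex, pow_one]
  let x : Γ' := ⟨a, hAΓ (Subgroup.mem_zpowers a)⟩
  have hxa : ((x : Γ') : Γ) = a := rfl
  have hx3 : x ^ 3 = 1 := Subtype.ext ha3
  have hx1 : x ≠ 1 := fun h => ha1 (congrArg Subtype.val h)
  have hox : orderOf x = 3 := orderOf_eq_prime hx3 hx1
  have hO : pCore 3 Γ' = ⊥ := by
    rw [eq_bot_iff]
    intro u hu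
    by_contra hu1
    have hu1' : u ≠ 1 := hu1
    have hxp : IsPGroup 3 (Subgroup.zpowers x) := by
      rw [IsPGroup.iff_card, Nat.card_zpowers, hox]
      exact ⟨1, (pow_one 3).symm⟩
    obtain ⟨P, hP⟩ := hxp.exists_le_sylow
    have hUP := Cfsg.Agent.H01.pCore_le_sylow (G := Γ') 3 P hu
    have hPcard : Nat.card P ∣ 3 := by
      have h1 : Nat.card P ∣ Nat.card Γ' := Subgroup.card_subgroup_dvd_card _
      rw [hΓ'card] at h1
      obtain ⟨n, hn⟩ := IsPGroup.iff_card.mp P.isPGroup'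
      have h2 : (Nat.card P).Coprime (Nat.card S) := by
        rw [hn]
        exact Nat.Coprime.pow_left _ hcop.symm
      exact h2.dvd_of_dvd_mul_left h1
    have hPeq : Subgroup.zpowers x = (P : Subgroup Γ') := by
      apply Subgroup.eq_of_le_of_card_ge hP
      rw [Nat.card_zpowers, hox]
      exact Nat.le_of_dvd (by norm_num) hPcard
    have huz : u ∈ Subgroup.zpowers x := by rw [hPeq]; exact hUP
    have hu3 : u ^ 3 = 1 := by
      obtain ⟨k, rfl⟩ := Subgroup.mem_zpowers_iff.mp huz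
      rw [← zpow_natCast, ← zpow_mul, mul_comm, zpow_mul, zpow_natCast, hx3, one_zpow]
    have hou : orderOf u = 3 := orderOf_eq_prime hu3 hu1'
    have hzeq : Subgroup.zpowers u = Subgroup.zpowers x := by
      apply Subgroup.eq_of_le_of_card_ge (Subgroup.zpowers_le.mpr huz)
      rw [Nat.card_zpowers, Nat.card_zpowers, hox, hou]
    have hxU : x ∈ pCore 3 Γ' := by
      have h1 : x ∈ Subgroup.zpowers u := by rw [hzeq]; exact Subgroup.mem_zpowers x
      exact (Subgroup.zpowers_le.mpr hu) h1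
    haveI hUn : (pCore 3 Γ').Normal := Cfsg.Agent.H01.pCore_normal 3
    obtain ⟨s, hs, hs1⟩ := hmoved
    apply hs1
    let t : Γ' := ⟨s, hSΓ hs⟩
    have htS : t ∈ S' := hs
    let c : Γ' := x * t * x⁻¹ * t⁻¹
    have hcU : c ∈ pCore 3 Γ' := by
      have e : c = x * (t * x⁻¹ * t⁻¹) := by simp only [c]; group
      rw [e]
      exact Subgroup.mul_mem _ hxU (hUn.conj_mem _ (Subgroup.inv_mem _ hxU) t)
    have hcS : c ∈ S' := Subgroup.mul_mem _ (hS'n.conj_mem t htS x) (Subgroup.inv_mem _ htS)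
    have hc1 : c = 1 := by
      have h1 : orderOf c ∣ Nat.card S' := Subgroup.orderOf_dvd_natCard S' hcS
      have h2 : c ∈ (P : Subgroup Γ') := Cfsg.Agent.H01.pCore_le_sylow (G := Γ') 3 P hcU
      have h3 : orderOf c ∣ Nat.card P := Subgroup.orderOf_dvd_natCard _ h2
      rw [hS'card] at h1
      have h4 := Nat.eq_one_of_dvd_coprimes hcop h1 (h3.trans hPcard)
      exact orderOf_eq_one_iff.mp h4
    have h5 : x * t * x⁻¹ = t := by
      have h6 : x * t * x⁻¹ * t⁻¹ = 1 := hc1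
      rwa [mul_inv_eq_one] at h6
    exact congrArg Subtype.val h5
  let ρ' : Γ' →* Module.End (ZMod 3) V := ρ.comp Γ'.subtype
  have hρ' : Function.Injective ρ' := hρ.comp Γ'.subtype_injective
  rcases thmB_F (F := ZMod 3) (p := 3) ρ' hρ' hsolv hO x 0 (by simpa using hx3) (by simpa using hx1) with
    h | ⟨n₀, q', e, h1, h2, hq', he, heq, ⟨R, hR2, hRnc⟩, _⟩
  · apply h
    have e2 : (3 : ℕ) ^ (0 + 1) - 1 = 2 := by norm_num
    rw [e2]
    exact hq
  · have hn₀ : n₀ = 1 := by omega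
    subst hn₀
    have h3 : (2 : ℕ) = q' ^ e := by
      rw [← heq]
      norm_num
    have h4 : q' ∣ 2 := by
      rw [h3]
      exact dvd_pow_self q' (by omega)
    have h5 : q' = 2 := (Nat.prime_dvd_prime_iff_eq hq' Nat.prime_two).mp h4
    subst h5
    apply hRnc
    have h6 : Nat.card R ∣ Nat.card Γ' := Subgroup.card_subgroup_dvd_card R
    rw [hΓ'card, hnS] at h6
    obtain ⟨m, hm⟩ := IsPGroup.iff_card.mp hR2
    have h7 : (Nat.card R).Coprime (q ^ nS * 3) := by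
      rw [hm]
      apply Nat.Coprime.pow_left
      apply Nat.Coprime.mul_right
      · exact Nat.Coprime.pow_right _ ((Nat.coprime_primes Nat.prime_two hqp).mpr (Ne.symm hq2))
      · norm_num
    have h8 : Nat.card R = 1 := Nat.Coprime.eq_one_of_dvd h7 h6
    have h9 := Subgroup.card_eq_one.mp h8
    rw [h9]
    rintro a₁ ha₁ b₁ hb₁
    rw [Subgroup.mem_bot] at ha₁ hb₁
    rw [ha₁, hb₁]

end NoOdd

section P3

variable {Γ : Type*} [Group Γ] [Finite Γ]
variable {V : Type*} [AddCommGroup V] [Module (ZMod 3) V] [FiniteDimensional (ZMod 3) V]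

theorem h3_of_zmod : ∀ x : V, (3 : ℕ) • x = 0 := by
  intro x
  rw [← Nat.cast_smul_eq_nsmul (ZMod 3)]
  have : ((3 : ℕ) : ZMod 3) = 0 := by decide
  rw [this, zero_smul]

theorem isQ_of_sq (ρ : Γ →* Module.End (ZMod 3) V) (a : Γ) (hq : (ρ a - 1) ^ 2 = 0) : IsQ ρ a := by
  intro x
  have h1 := LinearMap.congr_fun hq x
  simp only [pow_two, Module.End.mul_apply, LinearMap.sub_apply, Module.End.one_apply, map_sub,
    LinearMap.zero_apply] at h1
  have h2 := h3_of_zmod (ρ a x)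
  have h3 : (3 : ℕ) • (ρ a x) = ρ a x + ρ a x + ρ a x := by
    simp only [succ_nsmul, zero_smul, zero_add]
  rw [h3] at h2
  have h4 : ρ a (ρ a x) + ρ a x + x = (ρ a (ρ a x) - ρ a x - (ρ a x - x)) + (ρ a x + ρ a x + ρ a x) := by
    abel
  rw [h4, h1, h2, add_zero]

theorem p3_core (ρ : Γ →* Module.End (ZMod 3) V) (hρ : Function.Injective ρ) (hΓ : IsPSolvable 3 Γ)
    (hO : pCore 3 Γ = ⊥) (L : Subgroup Γ) (hL : IsPGroup 3 L) (a : Γ) (haL : a ∈ L)
    (hLa : ∀ g ∈ L, g * a = a * g) (ha3 : a ^ 3 = 1) (ha1 : a ≠ 1) (hq : (ρ a - 1) ^ 2 = 0) :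
    ∃ M : AddSubgroup V, (∀ g ∈ L, ∀ m ∈ M, ρ g m ∈ M) ∧
      (∀ v ∈ M, ρ a v = v → ∃ u ∈ M, v = ρ a u - u) ∧ ∃ m ∈ M, m ≠ 0 := by
  classical
  haveI h3f : Fact (Nat.Prime 3) := ⟨Nat.prime_three⟩
  obtain ⟨q, hqp, hq3, S, hSq, hSY, hLS, hmoved⟩ := exists_moved_inv hΓ hO L hL a haL ha1
  by_cases hq2 : q = 2
  · subst hq2
    have hLS' : ∀ g ∈ L, ∀ s ∈ S, g * s * g⁻¹ ∈ S := fun g hg s hs =>
      (Subgroup.mem_normalizer_iff.mp (hLS hg) s).mp hs
    obtain ⟨R, hRS, hLR, hRm, hgen, hcent, hfix⟩ := exists_R0 L a hLa haL ha3 S hSq hLS' hmoved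
    have hR2 : IsPGroup 2 R := hSq.to_le hRS
    refine ⟨comM ρ R, fun g hg => comM_inv ρ R g (hLR g hg), ?_, ?_⟩
    · exact free_main ρ R a (isQ_of_sq ρ a hq) (hLR a haL) hgen hcent hfix h3_of_zmod hR2
    · obtain ⟨s, hs, hs1⟩ := hRm
      have hs2 : s ≠ 1 := by
        rintro rfl
        simp at hs1
      have hne : ρ s ≠ 1 := fun h => hs2 (hρ (h.trans (map_one ρ).symm))
      obtain ⟨v, hv⟩ : ∃ v, ρ s v ≠ v := by
        by_contra hcon
        push Not at hcon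
        exact hne (LinearMap.ext hcon)
      exact ⟨ρ s v - v, AddSubgroup.subset_closure ⟨s, hs, v, rfl⟩, sub_ne_zero.mpr hv⟩
  · exfalso
    exact no_odd ρ hρ a ha3 ha1 hq q hqp hq2 hq3 S hSq (hLS haL) hmoved

end P3

section CoreAbs

lemma exists_central_in_normal {X : Type*} [Group X] [Finite X] {p : ℕ} [hpf : Fact p.Prime]
    (hX : IsPGroup p X) (N : Subgroup X) [hN : N.Normal] (hne : N ≠ ⊥) :
    ∃ z ∈ N, z ≠ 1 ∧ z ^ p = 1 ∧ ∀ g, g * z = z * g := by
  classical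
  letI : MulAction X N := MulAction.compHom N (MulAut.conjNormal (H := N))
  have hsm : ∀ (g : X) (n : N), ((g • n : N) : X) = g * n * g⁻¹ := fun g n => by
    change ((MulAut.conjNormal (H := N) g n : N) : X) = _
    rw [MulAut.conjNormal_apply]
  have hNp : IsPGroup p N := hX.to_subgroup N
  have hdvd : p ∣ Nat.card N := by
    obtain ⟨n, hn⟩ := IsPGroup.iff_card.mp hNp
    rw [hn]
    apply dvd_pow_self
    rintro rfl
    rw [pow_zero] at hn
    exact hne (Subgroup.card_eq_one.mp hn)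
  have h1fix : (1 : N) ∈ MulAction.fixedPoints X N := by
    intro g
    apply Subtype.ext
    rw [hsm]
    simp
  obtain ⟨b, hb, hb1⟩ := hX.exists_fixed_point_of_prime_dvd_card_of_fixed_point N hdvd h1fix
  have hbc : ∀ g : X, g * (b : X) = b * g := by
    intro g
    have h2 := congrArg Subtype.val (hb g)
    rw [hsm] at h2
    rwa [mul_inv_eq_iff_eq_mul] at h2
  have hb1' : (b : X) ≠ 1 := fun h => hb1 (Subtype.ext h.symm)
  have hex : ∃ k, (b : X) ^ p ^ k = 1 := hX (b : X)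
  have hspec := Nat.find_spec hex
  have hne0 : Nat.find hex ≠ 0 := by
    intro h0
    rw [h0, pow_zero, pow_one] at hspec
    exact hb1' hspec
  obtain ⟨k, hk⟩ : ∃ k, Nat.find hex = k + 1 := ⟨Nat.find hex - 1, by omega⟩
  have hmin : (b : X) ^ p ^ k ≠ 1 := Nat.find_min hex (by omega)
  rw [hk, pow_succ, pow_mul] at hspec
  refine ⟨(b : X) ^ p ^ k, Subgroup.pow_mem _ b.2 _, hmin, hspec, fun g => ?_⟩
  exact ((show Commute g (b : X) from hbc g).pow_right _).eq

lemma exists_fixed_in {p : ℕ} [hpf : Fact p.Prime] {L : Type*} [Group L] [Finite L] (hL : IsPGroup p L)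
    {V : Type*} [AddCommGroup V] [Module (ZMod p) V] (ρ : L →* Module.End (ZMod p) V)
    (E : AddSubgroup V) (hE : ∀ g, ∀ x ∈ E, ρ g x ∈ E) {e : V} (he : e ∈ E) (he0 : e ≠ 0) :
    ∃ z ∈ E, z ≠ 0 ∧ ∀ g, ρ g z = z := by
  classical
  let E' : Submodule (ZMod p) V := AddSubgroup.toZModSubmodule p E
  have hE' : ∀ x, x ∈ E' ↔ x ∈ E := fun x => Iff.rfl
  let ρ' : L →* Module.End (ZMod p) E' :=
    { toFun := fun g => (ρ g).restrict (p := E') (q := E') (fun x hx => hE g x hx)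
      map_one' := by
        refine LinearMap.ext fun x => Subtype.ext ?_
        change ρ 1 (x : V) = x
        rw [map_one]
        rfl
      map_mul' := by
        intro a b
        refine LinearMap.ext fun x => Subtype.ext ?_
        change ρ (a * b) (x : V) = ρ a (ρ b (x : V))
        rw [map_mul]
        rfl }
  haveI : Nontrivial E' := ⟨⟨⟨e, he⟩, 0, fun h => he0 (congrArg Subtype.val h)⟩⟩
  obtain ⟨v, hv0, hv⟩ := Cfsg.Agent.H12.LinDL.exists_fixed_vector (F := ZMod p) p hL ρ'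
  refine ⟨v, v.2, fun h => hv0 (Subtype.ext h), fun g => ?_⟩
  exact congrArg Subtype.val (hv g)

theorem abs_core {Γ L V : Type*} [Group Γ] [Finite Γ] [Group L] [Finite L] [AddCommGroup V] {p : ℕ}
    [hpf : Fact p.Prime] [Module (ZMod p) V] [FiniteDimensional (ZMod p) V] (hp : p ≠ 2)
    (ρ : Γ →* Module.End (ZMod p) V) (hρ : Function.Injective ρ) (hΓ : IsPSolvable p Γ)
    (hO : pCore p Γ = ⊥) (τ : L →* Γ) (hL : IsPGroup p L) (d : ℕ) (α : L)
    (hα : α ∈ derivedSeries L d) (ha1 : τ α ≠ 1) (hap : τ α ^ p = 1)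
    (hcent : ∀ g, τ g * τ α = τ α * τ g) (hq : (ρ (τ α) - 1) ^ 2 = 0)
    (Q : Subgroup L) (hQ : Q.Normal) (f : L → V) (hmul : ∀ x ∈ Q, ∀ y ∈ Q, f (x * y) = f x + f y)
    (hconj : ∀ g, ∀ q ∈ Q, ρ (τ g) (f q) = f (g * q * g⁻¹)) (hsurj : ∀ v, ∃ q ∈ Q, v = f q)
    (hd : derivedSeries L (d + 1) = ⊥) : False := by
  classical
  have hpp : p.Prime := hpf.out
  rcases eq_or_ne p 3 with rfl | hp3
  · obtain ⟨M, hMinv, hfree, m₀, hm₀, hm₀0⟩ := p3_core ρ hρ hΓ hO τ.range (by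
        rintro ⟨_, g, rfl⟩
        obtain ⟨n, hn⟩ := hL g
        exact ⟨n, Subtype.ext (by
          change τ g ^ 3 ^ n = 1
          rw [← map_pow, hn, map_one])⟩) (τ α) ⟨α, rfl⟩
      (by rintro _ ⟨g, rfl⟩; exact hcent g) hap ha1 hq
    let ρ' : L →* Module.End (ZMod 3) V := ρ.comp τ
    have hρ' : ∀ g x, ρ' g x = ρ (τ g) x := fun g x => rfl
    have hM' : ∀ g, ∀ m ∈ M, ρ' g m ∈ M := fun g => hMinv (τ g) ⟨g, rfl⟩
    have hc : ∀ g x, ρ' g (ρ' α x) = ρ' α (ρ' g x) := by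
      intro g x
      rw [hρ', hρ', hρ', hρ', ← act_mul, ← act_mul, hcent]
    have hfree' : ∀ v ∈ M, ρ' α v = v → ∃ u ∈ M, v = ρ' α u - u := hfree
    let E : AddSubgroup V := AddSubgroup.closure {w | ∃ s ∈ M, w = ρ' α s - s}
    have hEsub : ∀ x ∈ E, ∃ s ∈ M, x = ρ' α s - s := by
      intro x hx
      induction hx using AddSubgroup.closure_induction with
      | mem x hx => exact hx
      | zero => exact ⟨0, M.zero_mem, by simp⟩
      | add x y _ _ hx hy =>
        obtain ⟨s₁, hs₁, rfl⟩ := hx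
        obtain ⟨s₂, hs₂, rfl⟩ := hy
        exact ⟨s₁ + s₂, M.add_mem hs₁ hs₂, by rw [map_add]; abel⟩
      | neg x _ hx =>
        obtain ⟨s₁, hs₁, rfl⟩ := hx
        exact ⟨-s₁, M.neg_mem hs₁, by rw [map_neg]; abel⟩
    have hEinv : ∀ g, ∀ x ∈ E, ρ' g x ∈ E := by
      intro g x hx
      obtain ⟨s, hs, rfl⟩ := hEsub x hx
      apply AddSubgroup.subset_closure
      exact ⟨ρ' g s, hM' g s hs, by rw [map_sub, hc]⟩
    obtain ⟨e, he, he0⟩ : ∃ e ∈ E, e ≠ 0 := by
      by_contra hcon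
      push Not at hcon
      have h1 : ∀ s ∈ M, ρ' α s - s = 0 := fun s hs =>
        hcon _ (AddSubgroup.subset_closure ⟨s, hs, rfl⟩)
      apply hm₀0
      obtain ⟨u, hu, hue⟩ := hfree' m₀ hm₀ (sub_eq_zero.mp (h1 m₀ hm₀))
      rw [hue, h1 u hu]
    obtain ⟨z, hzE, hz0, hzfix⟩ := exists_fixed_in hL ρ' E hEinv he he0
    obtain ⟨s, hs, rfl⟩ := hEsub z hzE
    have hmem := cocycle_main ρ' M hM' α hc hfree' s hs hzfix d hα
    obtain ⟨q, hqQ, hqd, hqe⟩ := SS_image ρ' M Q hQ f hmul hconj (fun v _ => hsurj v) (d + 1) _ hmem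
    rw [hd, Subgroup.mem_bot] at hqd
    subst hqd
    have hf1 : f 1 = 0 := by
      have := hmul 1 Q.one_mem 1 Q.one_mem
      rw [mul_one] at this
      simpa using this
    apply hz0
    rw [hqe, hf1]
  · have hp5 : 4 ≤ p := by
      have h2 := hpp.two_le
      by_contra hlt
      have : p = 3 := by omega
      exact hp3 this
    have hzero : ∀ n, 2 ≤ n → (ρ (τ α) - 1) ^ n = 0 := fun n hn => pow_eq_zero_of_le hn hq
    rcases thmB_F (F := ZMod p) (p := p) ρ hρ hΓ hO (τ α) 0 (by simpa using hap) (by simpa using ha1) with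
      h | ⟨n₀, q', e, h1, h2, hq', he, heq, _, h4⟩
    · apply h
      apply hzero
      have : p ^ (0 + 1) = p := by simp
      omega
    · have hn₀ : n₀ = 1 := by omega
      subst hn₀
      apply h4
      apply hzero
      have e1 : p ^ (0 + 1 - 1) * (p ^ 1 - 1) - 1 = p - 2 := by
        simp only [zero_add, Nat.sub_self, pow_zero, one_mul, pow_one]
        omega
      rw [e1]
      omega

end CoreAbs

section AbsMain

variable {Γ A L : Type*} [Group Γ] [Finite Γ] [CommGroup A] [Finite A] [Group L] [Finite L] {p : ℕ}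
  [hpf : Fact p.Prime]

theorem abs_main_aux [iM : Module (ZMod p) (Additive A)] (hp : p ≠ 2) (φ : Γ →* MulAut A)
    (hφ : Function.Injective φ) (hΓ : IsPSolvable p Γ) (hO : pCore p Γ = ⊥) (τ : L →* Γ)
    (hL : IsPGroup p L) (d : ℕ) (α : L) (hα : α ∈ derivedSeries L d) (ha1 : τ α ≠ 1)
    (hap : τ α ^ p = 1) (hcent : ∀ g, τ g * τ α = τ α * τ g)
    (hq : ∀ v : A, φ (τ α) (φ (τ α) v * v⁻¹) = φ (τ α) v * v⁻¹)
    (Q : Subgroup L) (hQ : Q.Normal) (f : L → A) (hmul : ∀ x ∈ Q, ∀ y ∈ Q, f (x * y) = f x * f y)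
    (hconj : ∀ g, ∀ q ∈ Q, φ (τ g) (f q) = f (g * q * g⁻¹)) (hsurj : ∀ v, ∃ q ∈ Q, v = f q)
    (hd : derivedSeries L (d + 1) = ⊥) : False := by
  classical
  haveI : FiniteDimensional (ZMod p) (Additive A) := Module.Finite.of_finite
  let ρ : Γ →* Module.End (ZMod p) (Additive A) :=
    { toFun := fun h => (AddMonoidHom.toZModLinearMap p) (MonoidHom.toAdditive (φ h : A →* A))
      map_one' := by
        refine LinearMap.ext fun v => ?_
        change Additive.ofMul ((φ 1) (Additive.toMul v)) = v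
        rw [map_one]
        rfl
      map_mul' := by
        intro a b
        refine LinearMap.ext fun v => ?_
        change Additive.ofMul ((φ (a * b)) (Additive.toMul v)) = _
        rw [map_mul]
        rfl }
  have hρ : ∀ h v, ρ h v = Additive.ofMul ((φ h) (Additive.toMul v)) := fun h v => rfl
  have hinj : Function.Injective ρ := by
    intro a b hab
    apply hφ
    refine MulEquiv.ext fun x => Additive.ofMul.injective ?_
    have := LinearMap.congr_fun hab (Additive.ofMul x)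
    exact this
  have hq' : (ρ (τ α) - 1) ^ 2 = 0 := by
    refine LinearMap.ext fun v => ?_
    have e1 : ∀ w : Additive A, (ρ (τ α) - 1) w =
        Additive.ofMul (φ (τ α) (Additive.toMul w) * (Additive.toMul w)⁻¹) := by
      intro w
      change ρ (τ α) w - w = _
      rw [hρ]
      rw [sub_eq_add_neg]
      rfl
    rw [pow_two, Module.End.mul_apply, e1, e1]
    simp only [toMul_ofMul, LinearMap.zero_apply]
    rw [hq, mul_inv_cancel]
    rfl
  refine abs_core hp ρ hinj hΓ hO τ hL d α hα ha1 hap hcent hq' Q hQ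
    (fun g => Additive.ofMul (f g)) ?_ ?_ ?_ hd
  · intro x hx y hy
    simp only [hmul x hx y hy, ofMul_mul]
  · intro g q hq₁
    rw [hρ]
    change Additive.ofMul (φ (τ g) (f q)) = _
    rw [hconj g q hq₁]
  · intro v
    obtain ⟨q, hq₁, he⟩ := hsurj (Additive.toMul v)
    exact ⟨q, hq₁, by rw [← he]; rfl⟩

theorem abs_main (hp : p ≠ 2) (φ : Γ →* MulAut A) (hφ : Function.Injective φ) (hA : ∀ a : A, a ^ p = 1)
    (hΓ : IsPSolvable p Γ) (hO : pCore p Γ = ⊥) (τ : L →* Γ)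
    (hL : IsPGroup p L) (d : ℕ) (α : L) (hα : α ∈ derivedSeries L d) (ha1 : τ α ≠ 1)
    (hap : τ α ^ p = 1) (hcent : ∀ g, τ g * τ α = τ α * τ g)
    (hq : ∀ v : A, φ (τ α) (φ (τ α) v * v⁻¹) = φ (τ α) v * v⁻¹)
    (Q : Subgroup L) (hQ : Q.Normal) (f : L → A) (hmul : ∀ x ∈ Q, ∀ y ∈ Q, f (x * y) = f x * f y)
    (hconj : ∀ g, ∀ q ∈ Q, φ (τ g) (f q) = f (g * q * g⁻¹)) (hsurj : ∀ v, ∃ q ∈ Q, v = f q)
    (hd : derivedSeries L (d + 1) = ⊥) : False :=
  @abs_main_aux Γ A L _ _ _ _ _ _ p hpf (AddCommGroup.zmodModule (by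
    intro x
    change Additive.ofMul ((Additive.toMul x) ^ p) = 0
    rw [hA]
    rfl)) hp φ hφ hΓ hO τ hL d α hα ha1 hap hcent hq Q hQ f hmul hconj hsurj hd

end AbsMain

section KeyA

universe u

variable {p : ℕ} [hpf : Fact p.Prime]

theorem key_A {M₀ : Type u} [Group M₀] [Finite M₀] (hp : p ≠ 2) (hG : IsPSolvable p M₀)
    (hO' : pPrimeCore p M₀ = ⊥) (P : Sylow p M₀) (d : ℕ)
    (hd : derivedSeries ↥(P : Subgroup M₀) (d + 1) = ⊥) :
    ∀ α ∈ derivedSeries ↥(P : Subgroup M₀) d, (α : M₀) ∈ pCore p M₀ := by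
  classical
  by_contra hcon
  push Not at hcon
  obtain ⟨α₀, hα₀, hα₀Q⟩ := hcon
  have hker := ker_eq hG hO'
  haveI hQn : (pCore p M₀).Normal := Cfsg.Agent.H01.pCore_normal p
  have hQP : pCore p M₀ ≤ (P : Subgroup M₀) := Cfsg.Agent.H01.pCore_le_sylow p P
  let iC : CommGroup (Vf p M₀) := { (inferInstance : Group (Vf p M₀)) with mul_comm := Vf_comm }
  have hsurj := QuotientGroup.mk'_surjective (phi0 p M₀).ker
  let mk₀ : M₀ →* M₀ ⧸ (phi0 p M₀).ker := QuotientGroup.mk' (phi0 p M₀).ker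
  let τ : ↥(P : Subgroup M₀) →* M₀ ⧸ (phi0 p M₀).ker := mk₀.comp (P : Subgroup M₀).subtype
  have hτ1 : ∀ x : ↥(P : Subgroup M₀), τ x = 1 ↔ (x : M₀) ∈ pCore p M₀ := by
    intro x
    change ((x : M₀) : M₀ ⧸ (phi0 p M₀).ker) = 1 ↔ _
    rw [QuotientGroup.eq_one_iff, hker]
  have hLp : IsPGroup p ↥(P : Subgroup M₀) := P.isPGroup'
  -- a central element of the image of the last derived term
  let X : Subgroup (M₀ ⧸ (phi0 p M₀).ker) := τ.range
  have hXp : IsPGroup p X := by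
    rintro ⟨_, g, rfl⟩
    obtain ⟨n, hn⟩ := hLp g
    exact ⟨n, Subtype.ext (by
      change τ g ^ p ^ n = 1
      rw [← map_pow, hn, map_one])⟩
  let τ' : ↥(P : Subgroup M₀) →* X := τ.rangeRestrict
  have hτ's : Function.Surjective τ' := τ.rangeRestrict_surjective
  let N : Subgroup X := (derivedSeries ↥(P : Subgroup M₀) d).map τ'
  haveI hNn : N.Normal := Subgroup.Normal.map (derivedSeries_normal _ d) τ' hτ's
  have hNne : N ≠ ⊥ := by
    intro h
    have h1 : τ' α₀ ∈ N := ⟨α₀, hα₀, rfl⟩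
    rw [h, Subgroup.mem_bot] at h1
    apply hα₀Q
    rw [← hτ1]
    exact congrArg Subtype.val h1
  obtain ⟨z, ⟨α, hα, rfl⟩, hz1, hzp, hzc⟩ := exists_central_in_normal hXp N hNne
  have ha1 : τ α ≠ 1 := fun h => hz1 (Subtype.ext h)
  have hap : τ α ^ p = 1 := congrArg Subtype.val hzp
  have hcent : ∀ g, τ g * τ α = τ α * τ g := by
    intro g
    exact congrArg Subtype.val (hzc (τ' g))
  have hVmem : ∀ y : M₀, y ∈ pCore p M₀ → ((y : M₀ ⧸ Kf p M₀)) ∈ Vf p M₀ := fun y hy => ⟨y, hy, rfl⟩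
  let f : ↥(P : Subgroup M₀) → Vf p M₀ := fun x =>
    if h : (x : M₀) ∈ pCore p M₀ then ⟨((x : M₀) : M₀ ⧸ Kf p M₀), hVmem _ h⟩ else 1
  have hf : ∀ (x : ↥(P : Subgroup M₀)) (h : (x : M₀) ∈ pCore p M₀),
      f x = ⟨((x : M₀) : M₀ ⧸ Kf p M₀), hVmem _ h⟩ := fun x h => dif_pos h
  have hφ : ∀ (g : M₀) (v : Vf p M₀), QuotientGroup.kerLift (phi0 p M₀) (g : M₀ ⧸ (phi0 p M₀).ker) v =
      phi0 p M₀ g v := fun g v => rfl
  have hcomm : ∀ y : ↥(P : Subgroup M₀), α * y * α⁻¹ * y⁻¹ ∈ derivedSeries ↥(P : Subgroup M₀) d ∧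
      α * (α * y * α⁻¹ * y⁻¹) * α⁻¹ = α * y * α⁻¹ * y⁻¹ := by
    intro y
    have hn := derivedSeries_normal ↥(P : Subgroup M₀) d
    have h1 : α * y * α⁻¹ * y⁻¹ ∈ derivedSeries ↥(P : Subgroup M₀) d := by
      have e : α * y * α⁻¹ * y⁻¹ = α * (y * α⁻¹ * y⁻¹) := by group
      rw [e]
      exact Subgroup.mul_mem _ hα (hn.conj_mem _ (Subgroup.inv_mem _ hα) y)
    refine ⟨h1, ?_⟩
    have h2 : ⁅α, α * y * α⁻¹ * y⁻¹⁆ ∈ derivedSeries ↥(P : Subgroup M₀) (d + 1) := by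
      rw [derivedSeries_succ]
      exact Subgroup.commutator_mem_commutator hα h1
    rw [hd, Subgroup.mem_bot, commutatorElement_eq_one_iff_mul_comm] at h2
    rw [h2]
    group
  refine @abs_main (M₀ ⧸ (phi0 p M₀).ker) (Vf p M₀) ↥(P : Subgroup M₀) _ _ iC _ _ _ p hpf hp
    (QuotientGroup.kerLift (phi0 p M₀)) (QuotientGroup.kerLift_injective _) Vf_pow
    (Cfsg.Agent.H03.isPSolvable_of_surjective hsurj hG) (Cfsg.Agent.H02.pCore_quotient_of_eq _ hker)
    τ hLp d α hα ha1 hap hcent ?_ ((pCore p M₀).subgroupOf (P : Subgroup M₀)) inferInstance f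
    ?_ ?_ ?_ hd
  · -- quadratic action
    rintro ⟨_, ⟨y, hy, rfl⟩⟩
    have h2 := (hcomm ⟨y, hQP hy⟩).2
    have h3 := congrArg (fun t : ↥(P : Subgroup M₀) => ((t : M₀) : M₀ ⧸ Kf p M₀)) h2
    simp only [Subgroup.coe_mul, InvMemClass.coe_inv, QuotientGroup.mk_mul, QuotientGroup.mk_inv] at h3
    apply Subtype.ext
    exact h3
  · intro x hx y hy
    have hx' : (x : M₀) ∈ pCore p M₀ := hx
    have hy' : (y : M₀) ∈ pCore p M₀ := hy
    have hxy : ((x * y : ↥(P : Subgroup M₀)) : M₀) ∈ pCore p M₀ := Subgroup.mul_mem _ hx' hy'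
    rw [hf x hx', hf y hy', hf _ hxy]
    rfl
  · intro g q hq₁
    have hq' : (q : M₀) ∈ pCore p M₀ := hq₁
    have hgq : ((g * q * g⁻¹ : ↥(P : Subgroup M₀)) : M₀) ∈ pCore p M₀ := hQn.conj_mem _ hq' _
    rw [hf q hq', hf _ hgq]
    apply Subtype.ext
    change (phi0 p M₀ (g : M₀) _ : Vf p M₀).1 = _
    rw [phi0_coe]
    rfl
  · rintro ⟨_, ⟨y, hy, rfl⟩⟩
    refine ⟨⟨y, hQP hy⟩, hy, ?_⟩
    rw [hf _ hy]
    rfl

theorem derived_le {G : Type u} [Group G] [Finite G] (hp : p ≠ 2) (hsol : IsPSolvable p G) (S : Sylow p G)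
    (d : ℕ) (hd : derivedSeries ↥(S : Subgroup G) (d + 1) = ⊥) :
    ∀ x ∈ derivedSeries ↥(S : Subgroup G) d, (x : G) ∈ (upperPSeries p G 2).1 := by
  intro x hx
  have h1 : (upperPSeries p G 2).1 = (pCore p (G ⧸ (upperPSeries p G 1).1)).comap
      (QuotientGroup.mk' _) := Cfsg.Agent.H03.upper_succ_odd (by simp)
  rw [h1]
  have h3 := Cfsg.Agent.H03.upper_succ_even (p := p) (G := G) (n := 0) (by simp)
  have hO := Cfsg.Agent.H03.pPrimeCore_quotient_comap_eq_bot (p := p)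
    (upperPSeries p G 0).1 (upperPSeries p G 1).1 h3
  have hsurj := QuotientGroup.mk'_surjective (upperPSeries p G 1).1
  have hMsol := Cfsg.Agent.H03.isPSolvable_of_surjective hsurj hsol
  let S₁ : Sylow p (G ⧸ (upperPSeries p G 1).1) := S.mapSurjective hsurj
  let g : ↥(S : Subgroup G) →* ↥(S₁ : Subgroup (G ⧸ (upperPSeries p G 1).1)) :=
    (QuotientGroup.mk' (upperPSeries p G 1).1).subgroupMap (S : Subgroup G)
  have hg : Function.Surjective g :=
    (QuotientGroup.mk' (upperPSeries p G 1).1).subgroupMap_surjective (S : Subgroup G)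
  have hd₁ : derivedSeries ↥(S₁ : Subgroup (G ⧸ (upperPSeries p G 1).1)) (d + 1) = ⊥ := by
    rw [← map_derivedSeries_eq hg, hd, Subgroup.map_bot]
  have hmem : g x ∈ derivedSeries ↥(S₁ : Subgroup (G ⧸ (upperPSeries p G 1).1)) d := by
    rw [← map_derivedSeries_eq hg]
    exact ⟨x, hx, rfl⟩
  exact key_A hp hMsol hO (S.mapSurjective hsurj) d hd₁ _ hmem

theorem upper_top_of_derived (hp : p ≠ 2) (k : ℕ) : ∀ (G : Type u) [Group G] [Finite G], IsPSolvable p G →
    ∀ S : Sylow p G, derivedSeries ↥(S : Subgroup G) k = ⊥ → (upperPSeries p G (2 * k + 1)).1 = ⊤ := by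
  induction k with
  | zero =>
    intro G _ _ hsol S hS
    have hsub : Subsingleton ↥(S : Subgroup G) := by
      rw [derivedSeries_zero] at hS
      refine ⟨fun a b => ?_⟩
      have ha : a ∈ (⊤ : Subgroup ↥(S : Subgroup G)) := trivial
      have hb : b ∈ (⊤ : Subgroup ↥(S : Subgroup G)) := trivial
      rw [hS] at ha hb
      rw [Subgroup.mem_bot.mp ha, Subgroup.mem_bot.mp hb]
    exact Cfsg.Agent.H03.upper_one_top S hsub
  | succ k ih =>
    intro G _ _ hsol S hS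
    have hQn : (upperPSeries p G 2).1.Normal := inferInstance
    have hshift := Cfsg.Agent.H03.upper_shift (p := p) (upperPSeries p G 2).1 rfl (2 * k + 1)
    have h1 : 2 * (k + 1) + 1 = 2 * k + 1 + 2 := by omega
    rw [h1, hshift]
    have hsurj := QuotientGroup.mk'_surjective (upperPSeries p G 2).1
    have h2 := ih (G ⧸ (upperPSeries p G 2).1) (Cfsg.Agent.H03.isPSolvable_of_surjective hsurj hsol)
      (S.mapSurjective hsurj) (by
        let S₁ : Sylow p (G ⧸ (upperPSeries p G 2).1) := S.mapSurjective hsurj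
        let g : ↥(S : Subgroup G) →* ↥(S₁ : Subgroup (G ⧸ (upperPSeries p G 2).1)) :=
          (QuotientGroup.mk' (upperPSeries p G 2).1).subgroupMap (S : Subgroup G)
        have hg : Function.Surjective g :=
          (QuotientGroup.mk' (upperPSeries p G 2).1).subgroupMap_surjective (S : Subgroup G)
        rw [← map_derivedSeries_eq hg, eq_bot_iff]
        rintro _ ⟨x, hx, rfl⟩
        rw [Subgroup.mem_bot]
        apply Subtype.ext
        exact (QuotientGroup.eq_one_iff _).mpr (derived_le hp hsol S k hS x hx))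
    rw [h2, Subgroup.comap_top]

end KeyA

/-- Let p be an odd prime and G a finite p-soluble group whose Sylow p-subgroups have derived length at most d. Then G has p-length at most d. -/
theorem result {G : Type*} [Group G] [Finite G] {p : ℕ} [Fact p.Prime] (hp : p ≠ 2) (hG : Cfsg.IsPSolvable p G) (d : ℕ) (hd : ∀ P : Sylow p G, derivedSeries ↥(P : Subgroup G) d = ⊥) : Cfsg.PLengthLE p d G := by
  obtain ⟨P⟩ : Nonempty (Sylow p G) := inferInstance
  exact upper_top_of_derived hp d G hG P (hd P)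

end Cfsg.Agent.S3789
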