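import Cfsg.Statements.S3802
import Mathlib
import Cfsg.Agent.Lib.H18.Basic

set_option autoImplicit false
open Cfsg

namespace Cfsg.Agent.S3802


universe u

theorem aux (n : ℕ) : ∀ (G : Type u) [Group G] [Finite G], Nat.card G = n → ∀ (M N : Subgroup G),
    IsCoatom M → N.IsSubnormal → N ≤ M → N ≤ Subgroup.normalCore M := by
  induction n using Nat.strong_induction_on with
  | _ n ih =>
  intro G _ _ hn M N hM hN hNM
  classical
  set K := Subgroup.normalClosure (N : Set G) with hK
  haveI : K.Normal := Subgroup.normalClosure_normal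
  have hNK : N ≤ K := Subgroup.le_normalClosure
  by_cases hKM : K ≤ M
  · exact le_trans hNK (Subgroup.normal_le_normalCore.2 hKM)
  exfalso
  have hsup : K ⊔ M = ⊤ := by
    apply hM.2
    refine lt_of_le_of_ne le_sup_right ?_
    intro h
    apply hKM
    rw [h]
    exact le_sup_left
  have hKtop : K ≠ ⊤ := by
    intro h
    rcases hN.lt_normal with h1 | ⟨L, hL, hNL, hlt⟩
    · rw [h1] at hNM
      exact hM.1 (top_le_iff.1 hNM)
    · haveI := hL
      have : K ≤ L := Subgroup.normalClosure_le_normal hNL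
      rw [h] at this
      exact hlt.ne (top_le_iff.1 this)
  have hcard : Nat.card K < n := by
    rw [← hn]
    refine lt_of_le_of_ne (Subgroup.card_le_card_group K) ?_
    intro h
    exact hKtop (Subgroup.eq_top_of_card_eq K h)
  have hR : M.subgroupOf K ≠ ⊤ := by
    intro h
    rw [Subgroup.subgroupOf_eq_top] at h
    exact hKM h
  obtain ⟨M', hM', hRM'⟩ : ∃ M' : Subgroup K, IsCoatom M' ∧ M.subgroupOf K ≤ M' := by
    obtain h | ⟨M', hM', hle⟩ := eq_top_or_exists_le_coatom (M.subgroupOf K)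
    · exact absurd h hR
    · exact ⟨M', hM', hle⟩
  -- every conjugate of `N` lies in `M'`
  have hconj : ∀ g : G, ∀ x ∈ N, g * x * g⁻¹ ∈ M'.map K.subtype := by
    intro g x hx
    have hg : g ∈ K ⊔ M := by rw [hsup]; trivial
    obtain ⟨k, hk, m, hm, rfl⟩ := H18.mem_sup_normal_left.1 hg
    set N₁ := N.map (MulAut.conj m).toMonoidHom with hN₁
    have hN₁s : N₁.IsSubnormal := hN.map (MulAut.conj m).surjective
    have hN₁K : N₁ ≤ K := by
      rintro _ ⟨y, hy, rfl⟩
      exact ‹K.Normal›.conj_mem y (hNK hy) m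
    have hN₁M : N₁ ≤ M := by
      rintro _ ⟨y, hy, rfl⟩
      exact M.mul_mem (M.mul_mem hm (hNM hy)) (M.inv_mem hm)
    have hN₂s : (N₁.subgroupOf K).IsSubnormal := hN₁s.subgroupOf
    have hN₂M' : N₁.subgroupOf K ≤ M' := by
      intro y hy
      apply hRM'
      rw [Subgroup.mem_subgroupOf] at hy ⊢
      exact hN₁M hy
    have h1 := ih (Nat.card K) hcard K rfl M' (N₁.subgroupOf K) hM' hN₂s hN₂M'
    have hy0 : m * x * m⁻¹ ∈ N₁ := ⟨x, hx, rfl⟩
    have hy1 : (⟨m * x * m⁻¹, hN₁K hy0⟩ : K) ∈ N₁.subgroupOf K := Subgroup.mem_subgroupOf.2 hy0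
    have h2 := h1 hy1
    have h3 := (Subgroup.normalCore_normal M').conj_mem _ h2 ⟨k, hk⟩
    have h4 := Subgroup.normalCore_le M' h3
    refine ⟨_, h4, ?_⟩
    simp [mul_assoc]
  have hKle : K ≤ M'.map K.subtype := by
    have h5 : Subgroup.normalClosure (N : Set G) ≤ M'.map K.subtype := by
      rw [Subgroup.normalClosure, Subgroup.closure_le]
      intro y hy
      rw [Group.mem_conjugatesOfSet_iff] at hy
      obtain ⟨x, hx, hc⟩ := hy
      obtain ⟨g, rfl⟩ := isConj_iff.1 hc
      exact hconj g x hx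
    exact h5
  apply hM'.1
  rw [eq_top_iff]
  rintro ⟨y, hy⟩ -
  obtain ⟨z, hz, e⟩ := hKle hy
  have : z = ⟨y, hy⟩ := Subtype.ext e
  rwa [← this]


/-- Let G be a finite group, M a maximal subgroup of G and N a subnormal subgroup of G contained in M. Then N is contained in every conjugate of M, that is, N lies in the core of M in G. -/
theorem result {G : Type*} [Group G] [Finite G] (M N : Subgroup G) (hM : IsCoatom M) (hN : N.IsSubnormal) (hNM : N ≤ M) :
    N ≤ Subgroup.normalCore M := by
  exact aux _ G rfl M N hM hN hNM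

end Cfsg.Agent.S3802
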