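import Cfsg.Statements.S3803
import Mathlib
import Cfsg.Agent.Lib.H01.Coprime4
import Cfsg.Agent.Lib.H18.OddAct

set_option autoImplicit false
open Cfsg

namespace Cfsg.Agent.S3803


open Cfsg

variable {X : Type*} [Group X] [Finite X]

theorem commute_of_normalizes_cyclic {x a : X} {k : ℕ} (hk : x ^ 2 ^ k = 1)
    (ha : a ∈ Subgroup.normalizer ((Subgroup.zpowers x : Subgroup X) : Set X))
    (hodd : Odd (orderOf a)) : a * x = x * a := by
  let Z : Subgroup X := Subgroup.zpowers x
  have hdvd : orderOf x ∣ 2 ^ k := orderOf_dvd_of_pow_eq_one hk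
  obtain ⟨j, -, hj⟩ := (Nat.dvd_prime_pow Nat.prime_two).mp hdvd
  have hcardZ : Nat.card Z = 2 ^ j := by rw [Nat.card_zpowers, hj]
  have hcardA : ∃ i, Nat.card (MulAut Z) = 2 ^ i := by
    rw [IsCyclic.card_mulAut, hcardZ]
    rcases j with _ | j
    · exact ⟨0, by simp⟩
    · refine ⟨j, ?_⟩
      rw [Nat.totient_prime_pow_succ Nat.prime_two]
      simp
  obtain ⟨i, hi⟩ := hcardA
  let a' : Subgroup.normalizer (Z : Set X) := ⟨a, ha⟩
  let f := Z.normalizerMonoidHom a'
  have h1 : orderOf f ∣ orderOf a := by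
    have h2 : orderOf a' = orderOf a := Subgroup.orderOf_mk a ha
    rw [← h2]
    exact orderOf_map_dvd _ _
  have h2 : orderOf f ∣ 2 ^ i := by
    rw [← hi]
    exact orderOf_dvd_natCard f
  have hcop : Nat.Coprime (orderOf a) (2 ^ i) :=
    Nat.Coprime.pow_right _ (Nat.coprime_two_right.mpr hodd)
  have h3 : orderOf f = 1 := Nat.eq_one_of_dvd_coprimes hcop h1 h2
  have h4 : f = 1 := orderOf_eq_one_iff.mp h3
  have h5 : f ⟨x, Subgroup.mem_zpowers x⟩ = ⟨x, Subgroup.mem_zpowers x⟩ := by
    rw [h4]; rfl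
  have h6 : a * x * a⁻¹ = x := congrArg Subtype.val h5
  calc a * x = a * x * a⁻¹ * a := by group
    _ = x * a := by rw [h6]

theorem exists_between {H L : Subgroup X} (hHL : H ≤ L) {n m : ℕ}
    (hH : Nat.card H = 2 ^ n) (hnm : n ≤ m) (hm : 2 ^ m ∣ Nat.card L) :
    ∃ F : Subgroup X, H ≤ F ∧ F ≤ L ∧ Nat.card F = 2 ^ m := by
  haveI hF2 : Fact (Nat.Prime 2) := ⟨Nat.prime_two⟩
  have h1 : Nat.card (H.subgroupOf L) = 2 ^ n := by
    rw [← hH]
    exact Nat.card_congr (Subgroup.subgroupOfEquivOfLe hHL).toEquiv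
  obtain ⟨K, hK, hHK⟩ := Sylow.exists_subgroup_card_pow_prime_le (G := L) 2 hm _ h1 hnm
  refine ⟨K.map L.subtype, ?_, ?_, ?_⟩
  · intro x hx
    exact ⟨⟨x, hHL hx⟩, hHK hx, rfl⟩
  · rintro _ ⟨x, -, rfl⟩
    exact x.2
  · rw [← hK]
    exact Nat.card_congr (K.equivMapOfInjective L.subtype L.subtype_injective).symm.toEquiv

/-- A noncyclic `F` of order `2 s` all of whose subgroups of order `s` are invariant. -/
theorem centralizes_noncyclic {F : Subgroup X} {a : X} {s : ℕ} (hF : IsPGroup 2 F)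
    (hcard : Nat.card F = 2 * s) (hnc : ¬ IsCyclic F) (hodd : Odd (orderOf a))
    (hinv : ∀ E : Subgroup X, E ≤ F → Nat.card E = s → a ∈ Subgroup.normalizer (E : Set X)) :
    a ∈ Subgroup.centralizer (F : Set X) := by
  haveI hF2 : Fact (Nat.Prime 2) := ⟨Nat.prime_two⟩
  obtain ⟨m, hm⟩ := IsPGroup.iff_card.mp hF
  -- coatoms have index two
  have hco : ∀ M : Subgroup F, IsCoatom M → M.index = 2 := by
    intro M hM
    obtain ⟨n, hn⟩ := IsPGroup.iff_card.mp (hF.to_subgroup M)
    have hlt : n < m := by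
      have h1 : M ≠ ⊤ := hM.1
      by_contra hge
      push_neg at hge
      apply h1
      apply Subgroup.eq_top_of_card_eq
      have h2 : Nat.card M ∣ Nat.card F := Subgroup.card_subgroup_dvd_card M
      rw [hn, hm] at h2
      rw [hn, hm]
      have h3 := (Nat.pow_dvd_pow_iff_le_right (by norm_num : 1 < 2)).mp h2
      have : n = m := le_antisymm h3 hge
      rw [this]
    obtain ⟨K, hK, hMK⟩ := Sylow.exists_subgroup_card_pow_prime_le (G := F) 2 (m := n + 1)
      (by rw [hm]; exact pow_dvd_pow 2 hlt) M hn (Nat.le_succ n)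
    have hKtop : K = ⊤ := by
      have h1 := hM.2 K
      by_contra hne
      have h2 : K = M := by
        by_contra hne2
        exact hne (h1 (lt_of_le_of_ne hMK (Ne.symm hne2)))
      rw [h2, hn] at hK
      have := Nat.pow_right_injective (le_refl 2) hK
      omega
    have h1 := Subgroup.card_mul_index M
    have h2 : Nat.card F = 2 ^ (n + 1) := by rw [← hK, hKtop]; simp
    rw [h2, hn, pow_succ] at h1
    exact Nat.eq_of_mul_eq_mul_left (by positivity) h1
  have hcardM : ∀ M : Subgroup F, M.index = 2 → Nat.card (M.map F.subtype) = s := by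
    intro M hM
    have h1 := Subgroup.card_mul_index M
    rw [hM, hcard, mul_comm] at h1
    have h2 : Nat.card M = s := Nat.eq_of_mul_eq_mul_left (by norm_num) h1
    rw [← h2]
    exact Nat.card_congr (M.equivMapOfInjective F.subtype F.subtype_injective).symm.toEquiv
  have hAllB : ∀ b ∈ Subgroup.zpowers a, ∀ E : Subgroup X, E ≤ F → Nat.card E = s →
      b ∈ Subgroup.normalizer (E : Set X) := by
    intro b hb E hE hEc
    exact (Subgroup.zpowers_le.mpr (hinv E hE hEc)) hb
  -- `a` normalizes `F`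
  have hNF : a ∈ Subgroup.normalizer (F : Set X) := by
    apply H19.mem_normalizer_of_conj_le
    intro u hu
    have hne : Subgroup.zpowers (⟨u, hu⟩ : F) ≠ ⊤ := by
      intro h
      apply hnc
      exact ⟨⟨⟨u, hu⟩, fun x => by rw [← Subgroup.mem_zpowers_iff (G := F), h]; trivial⟩⟩
    obtain ⟨M, hM, hle⟩ := (eq_top_or_exists_le_coatom (Subgroup.zpowers (⟨u, hu⟩ : F))).resolve_left hne
    have hMidx := hco M hM
    have h1 := hinv _ (by
      rintro _ ⟨x, -, rfl⟩
      exact x.2) (hcardM M hMidx)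
    have h2 : u ∈ M.map F.subtype := ⟨⟨u, hu⟩, hle (Subgroup.mem_zpowers _), rfl⟩
    obtain ⟨w, -, hw⟩ := (Subgroup.mem_normalizer_iff.mp h1 u).mp h2
    rw [← hw]
    exact w.2
  have hcent := H01.centralizes_of_trivial_on_frattini_quotient (Subgroup.zpowers a) F
    (Subgroup.zpowers_le.mpr hNF) (by
      rw [Nat.card_zpowers]
      apply Nat.Coprime.coprime_dvd_right (Subgroup.card_subgroup_dvd_card (frattini F))
      rw [hm]
      exact Nat.Coprime.pow_right _ (Nat.coprime_two_right.mpr hodd)) (by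
      intro b hb k hk
      have hbN : b ∈ Subgroup.normalizer (F : Set X) := (Subgroup.zpowers_le.mpr hNF) hb
      have hw : b * k * b⁻¹ ∈ F := (Subgroup.mem_normalizer_iff.mp hbN k).mp hk
      have hc : b * k * b⁻¹ * k⁻¹ ∈ F := F.mul_mem hw (F.inv_mem hk)
      refine ⟨⟨_, hc⟩, ?_, rfl⟩
      show _ ∈ Order.radical (Subgroup F)
      unfold Order.radical
      simp only [Subgroup.mem_iInf]
      intro M hM
      have hMidx := hco M hM
      have h1 := hAllB b hb _ (by
        rintro _ ⟨x, -, rfl⟩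
        exact x.2) (hcardM M hMidx)
      have hiff : (⟨b * k * b⁻¹, hw⟩ : F) ∈ M ↔ (⟨k, hk⟩ : F) ∈ M := by
        have h2 := Subgroup.mem_normalizer_iff.mp h1 k
        constructor
        · intro h3
          have h4 : b * k * b⁻¹ ∈ M.map F.subtype := ⟨_, h3, rfl⟩
          obtain ⟨w, hwM, hwk⟩ := h2.mpr h4
          have : w = ⟨k, hk⟩ := Subtype.ext hwk
          rwa [← this]
        · intro h3
          have h4 : k ∈ M.map F.subtype := ⟨_, h3, rfl⟩
          obtain ⟨w, hwM, hwk⟩ := h2.mp h4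
          have : w = ⟨b * k * b⁻¹, hw⟩ := Subtype.ext hwk
          rwa [← this]
      have h5 : (⟨b * k * b⁻¹ * k⁻¹, hc⟩ : F) = ⟨b * k * b⁻¹, hw⟩ * (⟨k, hk⟩ : F)⁻¹ := rfl
      rw [h5, Subgroup.mul_mem_iff_of_index_two hMidx, Subgroup.inv_mem_iff]
      exact hiff)
  exact hcent (Subgroup.mem_zpowers a)



/-- Let P be a 2-subgroup and A a subgroup of odd order of a finite group, with A normalizing P. Let D ≤ P with 1 < |D| < |P|. If every subgroup of P of order |D|, and also every subgroup of P of order 4 in case |D| = 2, is normalized by A, then A centralizes P. -/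
theorem result {X : Type*} [Group X] [Finite X] (P A D : Subgroup X) (hP : IsPGroup 2 P) (hA : Odd (Nat.card A))
    (hAP : A ≤ Subgroup.normalizer (P : Set X)) (hDP : D ≤ P) (hD1 : 1 < Nat.card D) (hD2 : Nat.card D < Nat.card P)
    (hinv : ∀ E : Subgroup X, E ≤ P → (Nat.card E = Nat.card D ∨ (Nat.card D = 2 ∧ Nat.card E = 4)) → A ≤ Subgroup.normalizer (E : Set X)) :
    A ≤ Subgroup.centralizer (P : Set X) := by
  haveI hF2 : Fact (Nat.Prime 2) := ⟨Nat.prime_two⟩
  intro a ha
  have haodd : Odd (orderOf a) := by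
    have h1 : orderOf a ∣ Nat.card A := by
      have h2 : orderOf (⟨a, ha⟩ : A) = orderOf a := Subgroup.orderOf_mk a ha
      rw [← h2]
      exact orderOf_dvd_natCard _
    exact Odd.of_dvd_nat hA h1
  have hac : (orderOf a).Coprime 2 := Nat.coprime_two_right.mpr haodd
  by_cases hs2 : Nat.card D = 2
  · apply H13.centralizes_of_centralizes_omega_two hP (hAP ha) hac
    intro x hx hx4
    have hZP : Subgroup.zpowers x ≤ P := Subgroup.zpowers_le.mpr hx
    have hx4' : x ^ 2 ^ 2 = 1 := by simpa using hx4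
    have hord : orderOf x ∣ 2 ^ 2 := orderOf_dvd_of_pow_eq_one hx4'
    obtain ⟨j, hj2, hj⟩ := (Nat.dvd_prime_pow Nat.prime_two).mp hord
    have hcardZ : Nat.card (Subgroup.zpowers x) = 2 ^ j := by rw [Nat.card_zpowers, hj]
    have hN : a ∈ Subgroup.normalizer ((Subgroup.zpowers x : Subgroup X) : Set X) := by
      interval_cases j
      · have h1 : x = 1 := orderOf_eq_one_iff.mp (by simpa using hj)
        apply H19.mem_normalizer_of_conj_le
        intro y hy
        rw [h1, Subgroup.zpowers_one_eq_bot, Subgroup.mem_bot] at hy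
        rw [h1, Subgroup.zpowers_one_eq_bot, hy]
        simp [Subgroup.mem_bot]
      · exact hinv _ hZP (Or.inl (by rw [hcardZ, hs2]; norm_num)) ha
      · exact hinv _ hZP (Or.inr ⟨hs2, by rw [hcardZ]; norm_num⟩) ha
    exact commute_of_normalizes_cyclic hx4' hN haodd
  -- the main case
  by_contra hnc
  obtain ⟨d, hd⟩ := IsPGroup.iff_card.mp (hP.to_le hDP |> fun h => h)
  obtain ⟨m, hm⟩ := IsPGroup.iff_card.mp hP
  have hd2 : 2 ≤ d := by
    by_contra hlt
    have : d = 0 ∨ d = 1 := by omega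
    rcases this with rfl | rfl
    · rw [hd] at hD1; simp at hD1
    · rw [hd] at hs2; simp at hs2
  have hdm : d < m := by
    rw [hd, hm] at hD2
    exact (Nat.pow_lt_pow_iff_right (by norm_num)).mp hD2
  have hFact : ∀ F : Subgroup X, F ≤ P → Nat.card F = 2 ^ (d + 1) → ¬ IsCyclic F →
      a ∈ Subgroup.centralizer (F : Set X) := by
    intro F hFP hFc hFnc
    refine centralizes_noncyclic (s := Nat.card D) (hP.to_le hFP) ?_ hFnc haodd ?_
    · rw [hFc, hd, pow_succ]; ring
    · intro E hE hEc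
      exact hinv E (hE.trans hFP) (Or.inl hEc) ha
  -- a minimal subgroup
  let S : Set (Subgroup X) := {R | R ≤ P ∧ a ∈ Subgroup.normalizer (R : Set X) ∧
    a ∉ Subgroup.centralizer (R : Set X)}
  have hS : S.Nonempty := ⟨P, le_rfl, hAP ha, hnc⟩
  obtain ⟨R, hR, hRmin⟩ := S.toFinite.exists_minimal hS
  obtain ⟨hRP, hRN, hRc⟩ := hR
  have hRp : IsPGroup 2 R := hP.to_le hRP
  have hmin : ∀ R' : Subgroup X, R' < R → a ∈ Subgroup.normalizer (R' : Set X) →
      a ∈ Subgroup.centralizer (R' : Set X) := by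
    intro R' hlt hN'
    by_contra hc'
    have : R' ∈ S := ⟨hlt.le.trans hRP, hN', hc'⟩
    exact absurd (hRmin this hlt.le) (not_le_of_gt hlt)
  obtain ⟨-, -, h3⟩ := H18.min_structure hRp hRN haodd hRc hmin
  have hexp : ∀ u ∈ R, u ^ 4 = 1 := by
    intro u hu
    have := h3 _ (H18.sq_mem_sqSub hu)
    rwa [← pow_mul] at this
  -- `R` is not cyclic
  have hRnc : ¬ IsCyclic R := by
    intro hcyc
    obtain ⟨g, hg⟩ := IsCyclic.exists_generator (α := R)
    have hz : Subgroup.zpowers (g : X) = R := by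
      apply le_antisymm
      · rw [Subgroup.zpowers_le]; exact g.2
      · intro u hu
        obtain ⟨i, hi⟩ := Subgroup.mem_zpowers_iff.mp (hg ⟨u, hu⟩)
        refine Subgroup.mem_zpowers_iff.mpr ⟨i, ?_⟩
        have := congrArg (fun t : R => (t : X)) hi
        simpa using this
    obtain ⟨k, hk⟩ := hRp g
    have hk' : (g : X) ^ 2 ^ k = 1 := by
      have := congrArg (fun t : R => (t : X)) hk
      simpa using this
    have h5 := commute_of_normalizes_cyclic hk' (by rw [hz]; exact hRN) haodd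
    apply hRc
    rw [← hz, Subgroup.mem_centralizer_iff]
    rintro _ ⟨i, rfl⟩
    have h6 : Commute (g : X) a := h5.symm
    exact (h6.zpow_left i)
  obtain ⟨r, hr⟩ := IsPGroup.iff_card.mp hRp
  by_cases hcase : d + 1 ≤ r
  · -- an element not fixed
    have hexy : ∃ y ∈ R, a * y ≠ y * a := by
      by_contra hall
      push Not at hall
      apply hRc
      rw [Subgroup.mem_centralizer_iff]
      intro u hu
      exact (hall u hu).symm
    obtain ⟨y, hy, hya⟩ := hexy
    have hord : orderOf y ∣ 2 ^ 2 := orderOf_dvd_of_pow_eq_one (by simpa using hexp y hy)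
    obtain ⟨j, hj2, hj⟩ := (Nat.dvd_prime_pow Nat.prime_two).mp hord
    obtain ⟨F, hyF, hFR, hFc⟩ := exists_between (H := Subgroup.zpowers y) (L := R)
      (Subgroup.zpowers_le.mpr hy) (n := j) (m := d + 1) (by rw [Nat.card_zpowers, hj]) (by omega)
      (by rw [hr]; exact pow_dvd_pow 2 hcase)
    have hFnc : ¬ IsCyclic F := by
      intro hcyc
      obtain ⟨g, hg⟩ := IsCyclic.exists_generator (α := F)
      have h5 : Nat.card F = orderOf g := (orderOf_eq_card_of_forall_mem_zpowers hg).symm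
      have h6 : (g : X) ^ 4 = 1 := hexp g (hFR g.2)
      have h7 : orderOf (g : X) ∣ 4 := orderOf_dvd_of_pow_eq_one h6
      rw [Subgroup.orderOf_coe, ← h5, hFc] at h7
      have h8 := Nat.le_of_dvd (by norm_num) h7
      have h9 : 2 ^ 3 ≤ 2 ^ (d + 1) := Nat.pow_le_pow_right (by norm_num) (by omega)
      omega
    have h5 := hFact F (hFR.trans hRP) hFc hFnc
    exact hya ((Subgroup.mem_centralizer_iff.mp h5 y (hyF (Subgroup.mem_zpowers y))).symm)
  · obtain ⟨F, hRF, hFP, hFc⟩ := exists_between (H := R) (L := P) hRP (n := r) (m := d + 1) hr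
      (by omega) (by rw [hm]; exact pow_dvd_pow 2 hdm)
    have hFnc : ¬ IsCyclic F := by
      intro hcyc
      haveI := hcyc
      apply hRnc
      exact isCyclic_of_surjective (Subgroup.subgroupOfEquivOfLe hRF)
        (Subgroup.subgroupOfEquivOfLe hRF).surjective
    have h5 := hFact F hFP hFc hFnc
    apply hRc
    rw [Subgroup.mem_centralizer_iff] at h5 ⊢
    intro u hu
    exact h5 u (hRF hu)

end Cfsg.Agent.S3803
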