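import Cfsg.Statements.S3815
import Mathlib
import Cfsg.Agent.Lib.H18.Basic

set_option autoImplicit false
open Cfsg

namespace Cfsg.Agent.S3815

/-- Let G be a finite group, p a prime and d ∈ G an element of order prime to p. If dg has order prime to p for every element g ∈ G of order prime to p, then d ∈ O_{p'}(G). -/
theorem result {G : Type*} [Group G] [Finite G] {p : ℕ} [Fact p.Prime]
    (d : G) (hd : (orderOf d).Coprime p)
    (h : ∀ g : G, (orderOf g).Coprime p → (orderOf (d * g)).Coprime p) :
    d ∈ Cfsg.pPrimeCore p G := by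
    classical
  -- the set of `x` with `x C ⊆ C`
  let C : Set G := {g : G | (orderOf g).Coprime p}
  have hfin : Finite G := inferInstance
  -- the submonoid
  let T : Submonoid G :=
    { carrier := {x : G | ∀ g ∈ C, x * g ∈ C}
      one_mem' := by intro g hg; simpa using hg
      mul_mem' := by
        intro a b ha hb g hg
        have := ha _ (hb g hg)
        simpa [mul_assoc] using this }
  let T' : Subgroup G :=
    { T with
      inv_mem' := by
        intro x hx
        have hx' : x ∈ T := hx
        have h2 : x⁻¹ ∈ Submonoid.powers x := by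
          have := (isOfFinOrder_of_finite x)
          obtain ⟨n, hn⟩ := mem_powers_iff_mem_zpowers.mpr (Subgroup.inv_mem _ (Subgroup.mem_zpowers x))
          exact ⟨n, hn⟩
        obtain ⟨n, hn⟩ := h2
        show x⁻¹ ∈ T
        have hn' : x ^ n = x⁻¹ := hn
        rw [← hn']
        exact Submonoid.pow_mem T hx' n }
  have hT'C : ∀ x ∈ T', (orderOf x).Coprime p := by
    intro x hx
    have : x * 1 ∈ C := hx 1 (by simp [C])
    simpa [C] using this
  have hn : T'.Normal := by
    constructor
    intro x hx g y hy
    have hy' : g⁻¹ * y * g ∈ C := by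
      show (orderOf (g⁻¹ * y * g)).Coprime p
      have : g⁻¹ * y * g = g⁻¹ * y * g⁻¹⁻¹ := by simp
      rw [this, Cfsg.Agent.H18.orderOf_conj']
      exact hy
    have h1 : x * (g⁻¹ * y * g) ∈ C := hx _ hy'
    have h2 : g * x * g⁻¹ * y = g * (x * (g⁻¹ * y * g)) * g⁻¹ := by group
    show (orderOf (g * x * g⁻¹ * y)).Coprime p
    rw [h2, Cfsg.Agent.H18.orderOf_conj']
    exact h1
  have hcard : (Nat.card T').Coprime p := by
    have hp : p.Prime := Fact.out
    rw [Nat.coprime_comm, Nat.Prime.coprime_iff_not_dvd hp]
    intro hdvd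
    obtain ⟨x, hx⟩ := exists_prime_orderOf_dvd_card' p hdvd
    have := hT'C x.1 x.2
    rw [Subgroup.orderOf_coe, hx] at this
    have h3 : p = 1 := (Nat.coprime_self p).mp this
    exact hp.one_lt.ne' h3
  have hdT : d ∈ T' := h
  have : T' ≤ Cfsg.pPrimeCore p G := le_sSup ⟨hn, hcard⟩
  exact this hdT

end Cfsg.Agent.S3815
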