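import Cfsg.Statements.S3819
import Cfsg.Agent.Lib.H01.Coprime
import Cfsg.Agent.Lib.H01.Coprime4
import Cfsg.Agent.Lib.H01.Solv2
import Cfsg.Agent.Lib.H03.PSolv
import Cfsg.Agent.Lib.H03.PConstr
import Cfsg.Agent.Lib.H06.FittingHall
import Cfsg.Agent.Lib.H06.Layer2
import Cfsg.Agent.Lib.H06.PSolvable
import Cfsg.Agent.Lib.H08.PCoreL
import Cfsg.Agent.Lib.H12.Core
import Mathlib

set_option autoImplicit false
set_option linter.style.haveILetI false
set_option linter.unusedVariables false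
set_option linter.unusedSectionVars false
set_option linter.unusedSimpArgs false
open Cfsg
open scoped commutatorElement

namespace Cfsg.Agent.S3819

section Core

variable {Γ : Type*} [Group Γ] [Finite Γ]

lemma eq_one_of_mem_both {q : ℕ} [Fact q.Prime] {U Q : Subgroup Γ} (hU : (Nat.card U).Coprime q)
    (hQ : IsPGroup q Q) {w : Γ} (hwU : w ∈ U) (hwQ : w ∈ Q) : w = 1 := by
  obtain ⟨n, hn⟩ := hQ ⟨w, hwQ⟩
  have h1 : w ^ q ^ n = 1 := congrArg Subtype.val hn
  have h2 : orderOf w ∣ Nat.card U := by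
    have := orderOf_dvd_natCard (⟨w, hwU⟩ : U)
    rwa [Subgroup.orderOf_mk] at this
  have h3 : orderOf w = 1 := Nat.eq_one_of_dvd_coprimes (Nat.Coprime.pow_right n hU) h2
    (orderOf_dvd_of_pow_eq_one h1)
  exact orderOf_eq_one_iff.mp h3

omit [Finite Γ] in
lemma le_normalizer_of_conj {K E : Subgroup Γ} (h : ∀ c ∈ K, ∀ e ∈ E, c * e * c⁻¹ ∈ E) :
    K ≤ Subgroup.normalizer (E : Set Γ) := by
  intro c hc
  rw [Subgroup.mem_normalizer_iff]
  intro x
  constructor
  · exact h c hc x
  · intro hh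
    have := h c⁻¹ (K.inv_mem hc) _ hh
    have e : c⁻¹ * (c * x * c⁻¹) * c⁻¹⁻¹ = x := by group
    rwa [e] at this

omit [Finite Γ] in
lemma conj_mem_centralizer {T : Subgroup Γ} (hT : T.Normal) {c : Γ} (hc : c ∈ Subgroup.centralizer (T : Set Γ))
    (g : Γ) : g * c * g⁻¹ ∈ Subgroup.centralizer (T : Set Γ) := by
  rw [Subgroup.mem_centralizer_iff] at hc ⊢
  intro t ht
  have h1 := hc (g⁻¹ * t * g⁻¹⁻¹) (hT.conj_mem t ht g⁻¹)
  have e1 : t * (g * c * g⁻¹) = g * ((g⁻¹ * t * g⁻¹⁻¹) * c) * g⁻¹ := by group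
  have e2 : g * c * g⁻¹ * t = g * (c * (g⁻¹ * t * g⁻¹⁻¹)) * g⁻¹ := by group
  rw [e1, e2, h1]

/-- The core of the argument, in a group with `O_{q'}(H) = 1`. -/
theorem core {q : ℕ} [hq : Fact q.Prime]
    (H P H₀ : Subgroup Γ) (hHn : H.Normal) (hH₀n : H₀.Normal) (hH₀le : H₀ ≤ H)
    (hcomm : ∀ h ∈ H, ∀ u ∈ P, ⁅h, u⁆ ∈ H₀)
    (hsup : H ≤ H₀ ⊔ (H ⊓ Subgroup.centralizer (P : Set Γ))) (hsol : Group.IsSolvable H₀)
    (hO : ∀ N : Subgroup Γ, N ≤ H → H ≤ Subgroup.normalizer (N : Set Γ) → (Nat.card N).Coprime q → N = ⊥)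
    (z : Γ) (hzq : IsPGroup q (Subgroup.zpowers z))
    (A : Subgroup Γ) (hAH : A ≤ H) (hAz : A ≤ Subgroup.centralizer {z}) (hAq : (Nat.card A).Coprime q)
    (hAn : ∀ g ∈ H ⊓ Subgroup.centralizer {z}, ∀ a ∈ A, g * a * g⁻¹ ∈ A)
    (hAP : ∀ u ∈ P, ∀ a ∈ A, u * a * u⁻¹ ∈ A)
    (D : Subgroup Γ) (hDH : D ≤ H) (hDP : D ≤ Subgroup.centralizer (P : Set Γ)) (hDq : (Nat.card D).Coprime q)
    (hDn : ∀ g ∈ H ⊓ Subgroup.centralizer (P : Set Γ), ∀ d ∈ D, g * d * g⁻¹ ∈ D) :
    (∀ a ∈ A, ∀ u ∈ P, ⁅a, u⁆ = 1) ∧ (∀ a ∈ A, a ∈ D → a = 1) := by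
  classical
  set T : Subgroup Γ := (Cfsg.pCore q ↥H₀).map H₀.subtype with hT
  haveI hpc : (Cfsg.pCore q ↥H₀).Characteristic := Cfsg.Agent.H12.pCore_characteristic ↥H₀
  haveI hTn : T.Normal := ConjAct.normal_of_characteristic_of_normal
  have hTq : IsPGroup q T := (Cfsg.Agent.H01.pCore_isPGroup q).map _
  have hTH₀ : T ≤ H₀ := Subgroup.map_subtype_le _
  have hO₀ : Cfsg.pPrimeCore q ↥H₀ = ⊥ := by
    haveI hc : (Cfsg.pPrimeCore q ↥H₀).Characteristic := Cfsg.Agent.H06.pPrimeCore_characteristic ↥H₀ q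
    haveI hN : ((Cfsg.pPrimeCore q ↥H₀).map H₀.subtype).Normal := ConjAct.normal_of_characteristic_of_normal
    have h1 := hO ((Cfsg.pPrimeCore q ↥H₀).map H₀.subtype) ((Subgroup.map_subtype_le _).trans hH₀le)
      (by rw [Subgroup.normalizer_eq_top_iff.mpr hN]; exact le_top)
      (by
        rw [Subgroup.card_map_of_injective H₀.subtype_injective]
        exact Cfsg.Agent.H06.coprime_card_pPrimeCore q)
    exact (Subgroup.map_eq_bot_iff_of_injective _ H₀.subtype_injective).mp h1
  have hCT : ∀ g ∈ H₀, g ∈ Subgroup.centralizer (T : Set Γ) → g ∈ T := by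
    intro g hg hgT
    have h1 := Cfsg.Agent.H03.centralizer_pCore_le_of_isPSolvable
      (Cfsg.Agent.H06.isPSolvable_of_isSolvable q ↥H₀) hO₀
    have h2 : (⟨g, hg⟩ : H₀) ∈ Subgroup.centralizer (Cfsg.pCore q ↥H₀ : Set ↥H₀) := by
      rw [Subgroup.mem_centralizer_iff]
      intro t ht
      apply Subtype.ext
      exact (Subgroup.mem_centralizer_iff.mp hgT) t ⟨t, ht, rfl⟩
    exact ⟨_, h1 h2, rfl⟩
  -- `A` centralizes `T`
  have hzmem : z ∈ Subgroup.centralizer (A : Set Γ) := by
    rw [Subgroup.mem_centralizer_iff]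
    intro a ha
    exact Subgroup.mem_centralizer_singleton_iff.mp (hAz ha)
  have hAT : A ≤ Subgroup.centralizer (T : Set Γ) := by
    have h1 := Cfsg.Agent.H01.thompson_PxQ q (Subgroup.zpowers z) A T hzq hAq hTq
      (by
        rw [Subgroup.zpowers_le]
        exact hzmem)
      (by rw [Subgroup.normalizer_eq_top_iff.mpr hTn]; exact le_top)
      (by rw [Subgroup.normalizer_eq_top_iff.mpr hTn]; exact le_top)
      (by
        rintro t ⟨ht, htz⟩
        refine Subgroup.mem_centralizer_iff.mpr ?_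
        intro a ha
        have htz' : t ∈ Subgroup.centralizer (Subgroup.zpowers z : Set Γ) := htz
        have h3 : z * t = t * z := (Subgroup.mem_centralizer_iff.mp htz') z (Subgroup.mem_zpowers z)
        have h4 : t ∈ H ⊓ Subgroup.centralizer {z} :=
          ⟨hH₀le (hTH₀ ht), Subgroup.mem_centralizer_singleton_iff.mpr h3.symm⟩
        have h5 : t * a * t⁻¹ ∈ A := hAn t h4 a ha
        have h6 : t * a * t⁻¹ * a⁻¹ ∈ A := A.mul_mem h5 (A.inv_mem ha)
        have h7 : t * a * t⁻¹ * a⁻¹ ∈ T := by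
          have e : t * a * t⁻¹ * a⁻¹ = t * (a * t⁻¹ * a⁻¹) := by group
          rw [e]
          exact T.mul_mem ht (hTn.conj_mem _ (T.inv_mem ht) a)
        have h8 := eq_one_of_mem_both hAq hTq h6 h7
        calc a * t = (t * a * t⁻¹ * a⁻¹)⁻¹ * (t * a) := by group
          _ = t * a := by rw [h8]; simp)
    exact h1
  refine ⟨?_, ?_⟩
  · intro a ha u hu
    have h1 : ⁅a, u⁆ = a * (u * a⁻¹ * u⁻¹) := by
      rw [commutatorElement_def]
      group
    have h2 : ⁅a, u⁆ ∈ A := by
      rw [h1]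
      exact A.mul_mem ha (hAP u hu _ (A.inv_mem ha))
    have h3 : ⁅a, u⁆ ∈ Subgroup.centralizer (T : Set Γ) := by
      rw [h1]
      exact Subgroup.mul_mem _ (hAT ha) (conj_mem_centralizer hTn (Subgroup.inv_mem _ (hAT ha)) u)
    have h4 := hCT _ (hcomm a (hAH ha) u hu) h3
    exact eq_one_of_mem_both hAq hTq h2 h4
  · -- the second part
    set E : Subgroup Γ := D ⊓ Subgroup.centralizer (T : Set Γ) with hE
    have hEq : (Nat.card E).Coprime q :=
      Nat.Coprime.coprime_dvd_left (Subgroup.card_dvd_of_le inf_le_left) hDq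
    have hEH₀ : ∀ e ∈ E, ∀ h ∈ H₀, h * e * h⁻¹ = e := by
      intro e he h hh
      have hTe : e ∈ Subgroup.centralizer (T : Set Γ) := he.2
      set t := h * e * h⁻¹ * e⁻¹ with ht
      have h1 : t ∈ H₀ := by
        have e1 : t = h * (e * h⁻¹ * e⁻¹) := by rw [ht]; group
        rw [e1]
        exact H₀.mul_mem hh (hH₀n.conj_mem _ (H₀.inv_mem hh) e)
      have h2 : t ∈ Subgroup.centralizer (T : Set Γ) :=
        Subgroup.mul_mem _ (conj_mem_centralizer hTn hTe h) (Subgroup.inv_mem _ hTe)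
      have h3 : t ∈ T := hCT t h1 h2
      have h4 : Commute t e := ((Subgroup.mem_centralizer_iff.mp hTe) t h3)
      have h5 : h * e * h⁻¹ = t * e := by rw [ht]; group
      have h6 : t ^ orderOf e = 1 := by
        have h7 : (h * e * h⁻¹) ^ orderOf e = 1 := by
          rw [conj_pow, pow_orderOf_eq_one]
          simp
        rw [h5, h4.mul_pow, pow_orderOf_eq_one, mul_one] at h7
        exact h7
      have h8 : t = 1 := by
        obtain ⟨n, hn⟩ := hTq ⟨t, h3⟩
        have h9 : t ^ q ^ n = 1 := congrArg Subtype.val hn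
        have h10 : orderOf e ∣ Nat.card E := by
          have := orderOf_dvd_natCard (⟨e, he⟩ : E)
          rwa [Subgroup.orderOf_mk] at this
        have h11 : (orderOf e).Coprime (q ^ n) :=
          Nat.Coprime.pow_right n (Nat.Coprime.coprime_dvd_left h10 hEq)
        have h12 : orderOf t = 1 := Nat.eq_one_of_dvd_coprimes h11 (orderOf_dvd_of_pow_eq_one h6)
          (orderOf_dvd_of_pow_eq_one h9)
        exact orderOf_eq_one_iff.mp h12
      rw [h5, h8, one_mul]
    have hEn : H ≤ Subgroup.normalizer (E : Set Γ) := by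
      refine hsup.trans (sup_le ?_ ?_)
      · refine le_normalizer_of_conj ?_
        intro c hc e he
        rw [hEH₀ e he c hc]
        exact he
      · refine le_normalizer_of_conj ?_
        intro c hc e he
        exact ⟨hDn c hc e he.1, conj_mem_centralizer hTn he.2 c⟩
    have hEbot := hO E (inf_le_left.trans hDH) hEn hEq
    intro a ha had
    have : a ∈ E := ⟨had, hAT ha⟩
    rw [hEbot] at this
    exact Subgroup.mem_bot.mp this

end Core

section Lift

variable {G : Type*} [Group G] [Finite G]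

/-- Fixed point on a coset. -/
lemma lift_fix {r : ℕ} [hrf : Fact r.Prime] (A : Subgroup G) (hA : IsPGroup r A) (M : Subgroup G) [M.Normal]
    (hM : (Nat.card M).Coprime r) (x : G)
    (hx : ∀ a ∈ A, QuotientGroup.mk' M a * QuotientGroup.mk' M x = QuotientGroup.mk' M x * QuotientGroup.mk' M a) :
    ∃ y : G, QuotientGroup.mk' M y = QuotientGroup.mk' M x ∧ ∀ a ∈ A, y * a = a * y := by
  classical
  have hpp : r.Prime := hrf.out
  set π := QuotientGroup.mk' M with hπ
  let X : Type _ := {y : G // π y = π x}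
  have hconj : ∀ (a : A) (y : X), π ((a : G) * y.1 * (a : G)⁻¹) = π x := by
    intro a y
    rw [map_mul, map_mul, map_inv, y.2, hx a a.2]
    group
  letI : MulAction A X :=
    { smul := fun a y => ⟨(a : G) * y.1 * (a : G)⁻¹, hconj a y⟩
      one_smul := fun y => Subtype.ext (by
        change ((1 : A) : G) * y.1 * ((1 : A) : G)⁻¹ = y.1
        simp)
      mul_smul := fun g h r => Subtype.ext (by
        change ((g * h : A) : G) * r.1 * ((g * h : A) : G)⁻¹
          = (g : G) * ((h : G) * r.1 * (h : G)⁻¹) * (g : G)⁻¹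
        simp only [Subgroup.coe_mul]
        group) }
  have hcard : Nat.card X = Nat.card M := by
    refine Nat.card_congr ⟨fun y => ⟨x⁻¹ * y.1, ?_⟩, fun o => ⟨x * o.1, ?_⟩, fun y => ?_, fun o => ?_⟩
    · have : ((x : G) : G ⧸ M) = ((y.1 : G) : G ⧸ M) := y.2.symm
      exact QuotientGroup.eq.mp this
    · have : π o.1 = 1 := by
        rw [hπ]
        exact (QuotientGroup.eq_one_iff o.1).mpr o.2
      rw [map_mul, this, mul_one]
    · apply Subtype.ext
      simp
    · apply Subtype.ext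
      simp
  have hnd : ¬ r ∣ Nat.card X := by
    rw [hcard]
    intro hd
    have := Nat.Coprime.eq_one_of_dvd hM.symm hd
    exact hpp.one_lt.ne' this
  obtain ⟨y, hy⟩ := hA.nonempty_fixed_point_of_prime_not_dvd_card X hnd
  refine ⟨y.1, y.2, ?_⟩
  intro a ha
  have h1 : a * y.1 * a⁻¹ = y.1 := congrArg Subtype.val (hy ⟨a, ha⟩)
  calc y.1 * a = (a * y.1 * a⁻¹) * a := by rw [h1]
    _ = a * y.1 := by group

lemma core_conj_mem (L : Subgroup G) (g : G) (hg : ∀ x ∈ L, g * x * g⁻¹ ∈ L) (q : ℕ) (a : G)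
    (ha : a ∈ (Cfsg.pPrimeCore q ↥L).map L.subtype) :
    g * a * g⁻¹ ∈ (Cfsg.pPrimeCore q ↥L).map L.subtype := by
  classical
  let φ : L →* L :=
    { toFun := fun x => ⟨g * x * g⁻¹, hg x x.2⟩
      map_one' := Subtype.ext (by simp)
      map_mul' := fun x y => Subtype.ext (by
        change g * ((x : G) * y) * g⁻¹ = (g * x * g⁻¹) * (g * y * g⁻¹)
        group) }
  have hinj : Function.Injective φ := by
    intro x y hxy
    have h1 : g * (x : G) * g⁻¹ = g * y * g⁻¹ := congrArg Subtype.val hxy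
    apply Subtype.ext
    simpa using h1
  let φe : L ≃* L := MulEquiv.ofBijective φ (Finite.injective_iff_bijective.mp hinj)
  have hchar := (Subgroup.characteristic_iff_map_eq.mp
    (Cfsg.Agent.H06.pPrimeCore_characteristic ↥L q)) φe
  obtain ⟨a₀, ha₀, rfl⟩ := ha
  have h2 : φe a₀ ∈ Cfsg.pPrimeCore q ↥L := by
    rw [← hchar]
    exact ⟨a₀, ha₀, rfl⟩
  exact ⟨_, h2, rfl⟩

end Lift

/-- Let G be a finite group with Sylow p-subgroup P and H = O_{p'}(G), and suppose G = PH and the commutator subgroup [H, P] is solvable. Let q be a prime and z an element of q-power order of C_H(P). Then (O_{q'}(C_H(z)) ∩ O_{q'}(C_H(P))) · [O_{q'}(C_H(z)), P] ≤ O_{q'}(H). -/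
theorem result {G : Type*} [Group G] [Finite G] {p : ℕ} [Fact p.Prime]
    (P : Sylow p G) (hPH : Cfsg.pPrimeCore p G ⊔ (P : Subgroup G) = ⊤)
    (hsol : Group.IsSolvable ↥⁅Cfsg.pPrimeCore p G, (P : Subgroup G)⁆)
    {q : ℕ} [Fact q.Prime] (z : G) (hzH : z ∈ Cfsg.pPrimeCore p G) (hzP : z ∈ Subgroup.centralizer ((P : Subgroup G) : Set G))
    (hz : ∃ k : ℕ, orderOf z = q ^ k) :
    ((Cfsg.pPrimeCore q ↥(Cfsg.pPrimeCore p G ⊓ Subgroup.centralizer ({z} : Set G))).map
        (Cfsg.pPrimeCore p G ⊓ Subgroup.centralizer ({z} : Set G)).subtype ⊓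
      (Cfsg.pPrimeCore q ↥(Cfsg.pPrimeCore p G ⊓ Subgroup.centralizer ((P : Subgroup G) : Set G))).map
        (Cfsg.pPrimeCore p G ⊓ Subgroup.centralizer ((P : Subgroup G) : Set G)).subtype) ⊔
    ⁅(Cfsg.pPrimeCore q ↥(Cfsg.pPrimeCore p G ⊓ Subgroup.centralizer ({z} : Set G))).map
        (Cfsg.pPrimeCore p G ⊓ Subgroup.centralizer ({z} : Set G)).subtype, (P : Subgroup G)⁆ ≤
    (Cfsg.pPrimeCore q ↥(Cfsg.pPrimeCore p G)).map (Cfsg.pPrimeCore p G).subtype := by
  classical
  have hpp : p.Prime := Fact.out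
  have hqq : q.Prime := Fact.out
  set H : Subgroup G := Cfsg.pPrimeCore p G with hHdef
  haveI hHn : H.Normal := Cfsg.Agent.H03.pPrimeCore_normal'
  have hHp : (Nat.card H).Coprime p := Cfsg.Agent.H06.coprime_card_pPrimeCore p
  haveI hMc : (Cfsg.pPrimeCore q ↥H).Characteristic := Cfsg.Agent.H06.pPrimeCore_characteristic ↥H q
  set M : Subgroup G := (Cfsg.pPrimeCore q ↥H).map H.subtype with hMdef
  haveI hMn : M.Normal := ConjAct.normal_of_characteristic_of_normal
  have hMH : M ≤ H := Subgroup.map_subtype_le _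
  have hMq : (Nat.card M).Coprime q := by
    rw [hMdef, Subgroup.card_map_of_injective H.subtype_injective]
    exact Cfsg.Agent.H06.coprime_card_pPrimeCore q
  have hMp : (Nat.card M).Coprime p := Nat.Coprime.coprime_dvd_left (Subgroup.card_dvd_of_le hMH) hHp
  set π := QuotientGroup.mk' M with hπ
  have hπ1 : ∀ x, π x = 1 ↔ x ∈ M := fun x => QuotientGroup.eq_one_iff x
  have hsurj : Function.Surjective π := QuotientGroup.mk'_surjective M
  have hπeq : ∀ x y : G, π y = π x → x ⁻¹ * y ∈ M := by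
    intro x y h
    rw [← hπ1, map_mul, map_inv, h]
    simp
  have hPp : IsPGroup p (P : Subgroup G) := P.isPGroup'
  have hcopPH : (Nat.card (P : Subgroup G)).Coprime (Nat.card H) := by
    obtain ⟨n, hn⟩ := IsPGroup.iff_card.mp hPp
    rw [hn]
    exact Nat.Coprime.pow_left _ hHp.symm
  have hsolvP : Group.IsSolvable (P : Subgroup G) ∨ Group.IsSolvable H := by
    left
    haveI : Group.IsNilpotent (P : Subgroup G) := hPp.isNilpotent
    infer_instance
  set H₀ : Subgroup G := ⁅H, (P : Subgroup G)⁆ with hH₀def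
  have hH₀H : H₀ ≤ H := by
    rw [hH₀def, Subgroup.commutator_le]
    intro h hh u hu
    have : ⁅h, u⁆ = h * (u * h⁻¹ * u⁻¹) := by
      rw [commutatorElement_def]
      group
    rw [this]
    exact H.mul_mem hh (hHn.conj_mem _ (H.inv_mem hh) u)
  have hH₀n : H₀.Normal := by
    have hle : (⊤ : Subgroup G) ≤ Subgroup.normalizer (H₀ : Set G) := by
      rw [← hPH]
      refine sup_le ?_ ?_
      · refine le_normalizer_of_conj ?_
        intro c hc e he
        rw [hH₀def, Subgroup.commutator_def] at he ⊢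
        induction he using Subgroup.closure_induction with
        | mem x hx =>
          obtain ⟨h, hh, u, hu, rfl⟩ := hx
          have e1 : c * ⁅h, u⁆ * c⁻¹ = ⁅c * h, u⁆ * ⁅c, u⁆⁻¹ := by
            simp only [commutatorElement_def]
            group
          rw [e1]
          exact Subgroup.mul_mem _ (Subgroup.subset_closure ⟨_, H.mul_mem hc hh, u, hu, rfl⟩)
            (Subgroup.inv_mem _ (Subgroup.subset_closure ⟨c, hc, u, hu, rfl⟩))
        | one => simp
        | mul x y _ _ hx hy =>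
          have : c * (x * y) * c⁻¹ = (c * x * c⁻¹) * (c * y * c⁻¹) := by group
          rw [this]
          exact Subgroup.mul_mem _ hx hy
        | inv x _ hx =>
          have : c * x⁻¹ * c⁻¹ = (c * x * c⁻¹)⁻¹ := by group
          rw [this]
          exact Subgroup.inv_mem _ hx
      · intro u hu
        exact Cfsg.Agent.H01.mem_normalizer_commutator
          (by rw [Subgroup.normalizer_eq_top_iff.mpr hHn]; trivial) (Subgroup.le_normalizer hu)
    rw [top_le_iff] at hle
    exact Subgroup.normalizer_eq_top_iff.mp hle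
  have hsup0 := Cfsg.Agent.H01.commutator_sup_centralizer (A := (P : Subgroup G)) (K := H)
    (by rw [Subgroup.normalizer_eq_top_iff.mpr hHn]; exact le_top) hcopPH hsolvP
  -- the data in the quotient
  set L₁ : Subgroup G := H ⊓ Subgroup.centralizer ({z} : Set G) with hL₁
  set L₂ : Subgroup G := H ⊓ Subgroup.centralizer ((P : Subgroup G) : Set G) with hL₂
  set A₀ : Subgroup G := (Cfsg.pPrimeCore q ↥L₁).map L₁.subtype with hA₀
  set B₀ : Subgroup G := (Cfsg.pPrimeCore q ↥L₂).map L₂.subtype with hB₀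
  have hA₀L : A₀ ≤ L₁ := Subgroup.map_subtype_le _
  have hB₀L : B₀ ≤ L₂ := Subgroup.map_subtype_le _
  have hA₀q : (Nat.card A₀).Coprime q := by
    rw [hA₀, Subgroup.card_map_of_injective L₁.subtype_injective]
    exact Cfsg.Agent.H06.coprime_card_pPrimeCore q
  have hB₀q : (Nat.card B₀).Coprime q := by
    rw [hB₀, Subgroup.card_map_of_injective L₂.subtype_injective]
    exact Cfsg.Agent.H06.coprime_card_pPrimeCore q
  have hzq' : IsPGroup q (Subgroup.zpowers z) := by
    obtain ⟨k, hk⟩ := hz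
    rw [IsPGroup.iff_card, Nat.card_zpowers]
    exact ⟨k, hk⟩
  have hmain := core (q := q) (H.map π) ((P : Subgroup G).map π) (H₀.map π)
    (hHn.map π hsurj) (hH₀n.map π hsurj) (Subgroup.map_mono hH₀H)
    (by
      rintro _ ⟨h, hh, rfl⟩ _ ⟨u, hu, rfl⟩
      exact ⟨⁅h, u⁆, Subgroup.commutator_mem_commutator hh hu, map_commutatorElement π h u⟩)
    (by
      rintro _ ⟨h, hh, rfl⟩
      have h1 : h ∈ H₀ ⊔ L₂ := by
        rw [hH₀def, hsup0]
        exact hh
      have h2 : H₀ ⊔ L₂ ≤ (H₀.map π ⊔ (H.map π ⊓ Subgroup.centralizer ((P : Subgroup G).map π : Set (G ⧸ M)))).comap π := by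
        refine sup_le ?_ ?_
        · intro x hx
          exact Subgroup.mem_sup_left ⟨x, hx, rfl⟩
        · intro x hx
          refine Subgroup.mem_sup_right ⟨⟨x, hx.1, rfl⟩, ?_⟩
          refine Subgroup.mem_centralizer_iff.mpr ?_
          rintro _ ⟨u, hu, rfl⟩
          have := (Subgroup.mem_centralizer_iff.mp hx.2) u hu
          rw [← map_mul, ← map_mul, this]
      exact h2 h1)
    (by
      haveI : Group.IsSolvable ↥(H₀.map π) :=
        Group.isSolvable_of_surjective (f := π.subgroupMap H₀) (π.subgroupMap_surjective H₀)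
      infer_instance)
    (by
      intro N hNH hNn hNq
      rw [eq_bot_iff]
      set N₁ : Subgroup G := N.comap π ⊓ H with hN₁
      have hN₁n : (N₁.subgroupOf H).Normal := by
        constructor
        intro n hn g
        have hn' : (n : G) ∈ N₁ := hn
        have hgN : π g ∈ Subgroup.normalizer (N : Set (G ⧸ M)) := hNn ⟨g, g.2, rfl⟩
        have h1 : π ((g : G) * n * (g : G)⁻¹) ∈ N := by
          rw [map_mul, map_mul, map_inv]
          exact (Subgroup.mem_normalizer_iff.mp hgN _).mp hn'.1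
        exact ⟨h1, H.mul_mem (H.mul_mem g.2 hn'.2) (H.inv_mem g.2)⟩
      have hN₁q : (Nat.card N₁).Coprime q := by
        rw [Nat.coprime_comm, Nat.Prime.coprime_iff_not_dvd hqq]
        intro hd
        obtain ⟨x, hx⟩ := exists_prime_orderOf_dvd_card' q hd
        have hxm : (x : G) ^ q = 1 := by
          have := pow_orderOf_eq_one x
          rw [hx] at this
          exact congrArg Subtype.val this
        have hx1 : (x : G) ≠ 1 := by
          intro h
          have h2 : x = 1 := Subtype.ext h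
          rw [h2, orderOf_one] at hx
          exact hqq.one_lt.ne hx
        have hπx : π (x : G) = 1 := by
          have hmem : π (x : G) ∈ N := x.2.1
          by_contra hne
          have h3 : orderOf (π (x : G)) = q := orderOf_eq_prime (by rw [← map_pow, hxm, map_one]) hne
          have h4 : orderOf (π (x : G)) ∣ Nat.card N := by
            have := orderOf_dvd_natCard (⟨_, hmem⟩ : N)
            rwa [Subgroup.orderOf_mk] at this
          rw [h3] at h4
          exact hqq.one_lt.ne' (Nat.Coprime.eq_one_of_dvd hNq.symm h4)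
        have hxM : (x : G) ∈ M := (hπ1 _).mp hπx
        apply hx1
        have h5 : orderOf (x : G) = q := orderOf_eq_prime hxm hx1
        have h6 : orderOf (x : G) ∣ Nat.card M := by
          have := orderOf_dvd_natCard (⟨_, hxM⟩ : M)
          rwa [Subgroup.orderOf_mk] at this
        rw [h5] at h6
        exact absurd (Nat.Coprime.eq_one_of_dvd hMq.symm h6) hqq.one_lt.ne'
      have hle : N₁.subgroupOf H ≤ Cfsg.pPrimeCore q ↥H := by
        apply Cfsg.Agent.H08.le_pPrimeCore hN₁n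
        have : Nat.card (N₁.subgroupOf H) = Nat.card N₁ :=
          Nat.card_congr (Subgroup.subgroupOfEquivOfLe inf_le_right).toEquiv
        rw [this]
        exact hN₁q
      intro n hn
      obtain ⟨h, hh, rfl⟩ := hNH hn
      have h1 : (⟨h, hh⟩ : H) ∈ N₁.subgroupOf H := ⟨hn, hh⟩
      have h2 : h ∈ M := ⟨_, hle h1, rfl⟩
      rw [Subgroup.mem_bot]
      exact (hπ1 h).mpr h2)
    (π z)
    (by
      rw [IsPGroup.iff_card, Nat.card_zpowers]
      obtain ⟨k, hk⟩ := hz
      have h1 : orderOf (π z) ∣ q ^ k := by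
        apply orderOf_dvd_of_pow_eq_one
        rw [← map_pow, ← hk, pow_orderOf_eq_one, map_one]
      obtain ⟨j, -, hj⟩ := (Nat.dvd_prime_pow hqq).mp h1
      exact ⟨j, hj⟩)
    (A₀.map π) (Subgroup.map_mono (hA₀L.trans inf_le_left))
    (by
      rintro _ ⟨a, ha, rfl⟩
      have h1 : a * z = z * a := Subgroup.mem_centralizer_singleton_iff.mp (hA₀L ha).2
      refine Subgroup.mem_centralizer_singleton_iff.mpr ?_
      rw [← map_mul, ← map_mul, h1])
    (Nat.Coprime.coprime_dvd_left (Subgroup.card_map_dvd _ _) hA₀q)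
    (by
      rintro g ⟨⟨g₀, hg₀, rfl⟩, hgz⟩ _ ⟨a, ha, rfl⟩
      have hgz' : π g₀ * π z = π z * π g₀ := Subgroup.mem_centralizer_singleton_iff.mp hgz
      obtain ⟨y, hy, hyc⟩ := lift_fix (Subgroup.zpowers z) hzq' M hMq g₀ (by
        rintro _ ⟨k, rfl⟩
        have h1 : Commute (π g₀) (π z) := hgz'
        have h2 := (h1.zpow_right k).eq.symm
        change π (z ^ k) * π g₀ = π g₀ * π (z ^ k)
        rw [map_zpow]
        exact h2)
      have hyH : y ∈ H := by
        have h1 := hMH (hπeq g₀ y hy)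
        have h2 : y = g₀ * (g₀⁻¹ * y) := by group
        rw [h2]
        exact H.mul_mem hg₀ h1
      have hyL : y ∈ L₁ := ⟨hyH, Subgroup.mem_centralizer_singleton_iff.mpr (hyc z (Subgroup.mem_zpowers z))⟩
      have h3 := core_conj_mem L₁ y (fun x hx => L₁.mul_mem (L₁.mul_mem hyL hx) (L₁.inv_mem hyL)) q a ha
      refine ⟨_, h3, ?_⟩
      simp only [map_mul, map_inv]
      rw [show π y = π g₀ from hy])
    (by
      rintro _ ⟨u, hu, rfl⟩ _ ⟨a, ha, rfl⟩
      have hzu : u * z = z * u := (Subgroup.mem_centralizer_iff.mp hzP u hu)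
      have h3 := core_conj_mem L₁ u (by
        intro x hx
        refine ⟨hHn.conj_mem x hx.1 u, Subgroup.mem_centralizer_singleton_iff.mpr ?_⟩
        have h1 : x * z = z * x := Subgroup.mem_centralizer_singleton_iff.mp hx.2
        have hc : Commute u z := hzu
        have hc' : Commute u⁻¹ z := hc.inv_left
        calc u * x * u⁻¹ * z = u * x * (u⁻¹ * z) := by group
          _ = u * (x * z) * u⁻¹ := by rw [hc'.eq]; group
          _ = (u * z) * x * u⁻¹ := by rw [h1]; group
          _ = z * (u * x * u⁻¹) := by rw [hzu]; group) q a ha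
      refine ⟨_, h3, ?_⟩
      simp only [map_mul, map_inv])
    (B₀.map π) (Subgroup.map_mono (hB₀L.trans inf_le_left))
    (by
      rintro _ ⟨b, hb, rfl⟩
      refine Subgroup.mem_centralizer_iff.mpr ?_
      rintro _ ⟨u, hu, rfl⟩
      have := (Subgroup.mem_centralizer_iff.mp (hB₀L hb).2) u hu
      rw [← map_mul, ← map_mul, this])
    (Nat.Coprime.coprime_dvd_left (Subgroup.card_map_dvd _ _) hB₀q)
    (by
      rintro g ⟨⟨g₀, hg₀, rfl⟩, hgz⟩ _ ⟨b, hb, rfl⟩
      obtain ⟨y, hy, hyc⟩ := lift_fix (P : Subgroup G) hPp M hMp g₀ (by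
        intro a ha
        exact (Subgroup.mem_centralizer_iff.mp hgz) _ ⟨a, ha, rfl⟩)
      have hyH : y ∈ H := by
        have h1 := hMH (hπeq g₀ y hy)
        have h2 : y = g₀ * (g₀⁻¹ * y) := by group
        rw [h2]
        exact H.mul_mem hg₀ h1
      have hyL : y ∈ L₂ := ⟨hyH, Subgroup.mem_centralizer_iff.mpr (fun a ha => (hyc a ha).symm)⟩
      have h3 := core_conj_mem L₂ y (fun x hx => L₂.mul_mem (L₂.mul_mem hyL hx) (L₂.inv_mem hyL)) q b hb
      refine ⟨_, h3, ?_⟩
      simp only [map_mul, map_inv]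
      rw [show π y = π g₀ from hy])
  obtain ⟨hm1, hm2⟩ := hmain
  refine sup_le ?_ ?_
  · rintro x ⟨hx1, hx2⟩
    exact (hπ1 x).mp (hm2 _ ⟨x, hx1, rfl⟩ ⟨x, hx2, rfl⟩)
  · rw [Subgroup.commutator_le]
    intro a ha u hu
    apply (hπ1 _).mp
    rw [map_commutatorElement]
    exact hm1 _ ⟨a, ha, rfl⟩ _ ⟨u, hu, rfl⟩

end Cfsg.Agent.S3819
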