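import Cfsg.Statements.S3820
import Mathlib
import Cfsg.Agent.Lib.H18.Basic

set_option autoImplicit false
open Cfsg

namespace Cfsg.Agent.S3820

/-- Call a subgroup H of G pronormal if H and gHg⁻¹ are conjugate inside ⟨H, gHg⁻¹⟩ for every g ∈ G. Let S ≤ H ≤ G be subgroups of a finite group with S pronormal in G (for instance S a Sylow subgroup). Then H is pronormal in G if and only if H and gHg⁻¹ are conjugate inside ⟨H, gHg⁻¹⟩ for every g ∈ N_G(S). In particular H is pronormal whenever N_G(S) ≤ H. -/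
theorem result {G : Type*} [Group G] [Finite G] (S H : Subgroup G) (hSH : S ≤ H)
    (hS : Cfsg.IsPronormal S) :
    Cfsg.IsPronormal H ↔
      ∀ g ∈ Subgroup.normalizer (S : Set G), ∃ w ∈ H ⊔ H.map (MulAut.conj g).toMonoidHom,
        H.map (MulAut.conj g).toMonoidHom = H.map (MulAut.conj w).toMonoidHom := by
    open Cfsg.Agent.H18 in
  constructor
  · intro h g _
    exact h g
  · intro h g
    obtain ⟨x, hx, e⟩ := hS g
    have hxJ : x ∈ H ⊔ H.map (MulAut.conj g).toMonoidHom := by
      have : S ⊔ S.map (MulAut.conj g).toMonoidHom ≤ H ⊔ H.map (MulAut.conj g).toMonoidHom :=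
        sup_le_sup hSH (Subgroup.map_mono hSH)
      exact this hx
    have hn : x⁻¹ * g ∈ Subgroup.normalizer (S : Set G) := by
      rw [mem_normalizer_iff_map_conj, map_conj_mul, e, map_conj_map_conj_inv]
    obtain ⟨w, hw, e'⟩ := h _ hn
    have hgeq : g = x * (x⁻¹ * g) := by group
    have e1 : H.map (MulAut.conj (x⁻¹ * g)).toMonoidHom ≤ H ⊔ H.map (MulAut.conj g).toMonoidHom := by
      rw [map_conj_mul]
      rintro _ ⟨y, hy, rfl⟩
      have hy' : y ∈ H ⊔ H.map (MulAut.conj g).toMonoidHom := Subgroup.mem_sup_right hy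
      change x⁻¹ * y * x⁻¹⁻¹ ∈ _
      exact Subgroup.mul_mem _ (Subgroup.mul_mem _ (Subgroup.inv_mem _ hxJ) hy') (by simpa using hxJ)
    have hwJ : w ∈ H ⊔ H.map (MulAut.conj g).toMonoidHom := (sup_le le_sup_left e1) hw
    refine ⟨x * w, Subgroup.mul_mem _ hxJ hwJ, ?_⟩
    rw [map_conj_mul, ← e']
    conv_lhs => rw [hgeq]
    rw [map_conj_mul]

end Cfsg.Agent.S3820
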