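import Cfsg.Statements.S3821
import Mathlib
import Cfsg.Agent.Lib.H18.Basic

set_option autoImplicit false
open Cfsg

namespace Cfsg.Agent.S3821

/-- Let A be a normal subgroup of the finite group G and H a subgroup of A. Then H is pronormal in G (H and gHg⁻¹ conjugate inside ⟨H, gHg⁻¹⟩ for every g ∈ G) if and only if H is pronormal in A and G = A · N_G(H). -/
theorem result {G : Type*} [Group G] [Finite G] (A H : Subgroup G) [A.Normal] (hHA : H ≤ A) :
    Cfsg.IsPronormal H ↔ (Cfsg.IsPronormal (H.subgroupOf A) ∧ A ⊔ Subgroup.normalizer (H : Set G) = ⊤) := by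
    open Cfsg.Agent.H18 in
  have hsub : ∀ (K : Subgroup A) (g : A), (K.map (MulAut.conj g).toMonoidHom).map A.subtype =
      (K.map A.subtype).map (MulAut.conj (g : G)).toMonoidHom := by
    intro K g
    ext x
    simp only [Subgroup.mem_map]
    constructor
    · rintro ⟨_, ⟨k, hk, rfl⟩, rfl⟩
      exact ⟨k, ⟨k, hk, rfl⟩, by simp⟩
    · rintro ⟨_, ⟨k, hk, rfl⟩, rfl⟩
      exact ⟨_, ⟨k, hk, rfl⟩, by simp⟩
  have hK : (H.subgroupOf A).map A.subtype = H := by
    rw [Subgroup.subgroupOf_map_subtype, inf_of_le_left hHA]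
  have hinj : Function.Injective (Subgroup.map A.subtype) :=
    Subgroup.map_injective A.subtype_injective
  constructor
  · intro h
    constructor
    · intro g
      obtain ⟨x, hx, e⟩ := h g
      have hxsup : x ∈ ((H.subgroupOf A) ⊔ (H.subgroupOf A).map (MulAut.conj g).toMonoidHom).map A.subtype := by
        rw [Subgroup.map_sup, hK, hsub, hK]; exact hx
      obtain ⟨x', hx', rfl⟩ := hxsup
      refine ⟨x', hx', ?_⟩
      apply hinj
      rw [hsub, hsub, hK]
      exact e
    · rw [eq_top_iff]
      intro g _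
      obtain ⟨x, hx, e⟩ := h g
      have hle : H ⊔ H.map (MulAut.conj g).toMonoidHom ≤ A := by
        apply sup_le hHA
        rintro _ ⟨y, hy, rfl⟩
        exact (inferInstance : A.Normal).conj_mem y (hHA hy) g
      have hxA : x ∈ A := hle hx
      have hn : x⁻¹ * g ∈ Subgroup.normalizer (H : Set G) := by
        rw [mem_normalizer_iff_map_conj, map_conj_mul, e, map_conj_map_conj_inv]
      have : g = x * (x⁻¹ * g) := by group
      rw [this]
      exact Subgroup.mul_mem_sup hxA hn
  · rintro ⟨hp, htop⟩ g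
    have hg : g ∈ A ⊔ Subgroup.normalizer (H : Set G) := by rw [htop]; trivial
    rw [mem_sup_normal_left] at hg
    obtain ⟨a, ha, n, hn, rfl⟩ := hg
    have e0 : H.map (MulAut.conj (a * n)).toMonoidHom = H.map (MulAut.conj a).toMonoidHom := by
      rw [map_conj_mul, map_conj_eq_of_mem_normalizer hn]
    obtain ⟨x', hx', e'⟩ := hp ⟨a, ha⟩
    have e'' := congrArg (Subgroup.map A.subtype) e'
    rw [hsub, hsub, hK] at e''
    have hxsup : (x' : G) ∈ H ⊔ H.map (MulAut.conj a).toMonoidHom := by
      have : (x' : G) ∈ ((H.subgroupOf A) ⊔ (H.subgroupOf A).map (MulAut.conj (⟨a, ha⟩ : A)).toMonoidHom).map A.subtype :=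
        ⟨x', hx', rfl⟩
      rw [Subgroup.map_sup, hK, hsub, hK] at this
      exact this
    rw [e0]
    exact ⟨x', hxsup, e''⟩

end Cfsg.Agent.S3821
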