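import Cfsg.Statements.S3825
import Mathlib
import Cfsg.Agent.Lib.H01.Coprime

set_option autoImplicit false
open Cfsg

namespace Cfsg.Agent.S3825

open scoped commutatorElement


/-- Let U be a subgroup of a finite group H and w an involution of H normalizing U and commuting with exactly two elements of U, the identity and y. If V is a non-cyclic elementary abelian 2-subgroup of U containing y which is normal in U and invariant under w, then V is a Sylow 2-subgroup of U, V has order 4, and U/V is abelian. -/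
theorem result {H : Type*} [Group H] [Finite H] (U : Subgroup H) (w : H) (hw : orderOf w = 2)
    (hwU : w ∈ Subgroup.normalizer (U : Set H)) (y : H) (hy : y ≠ 1) (hyU : y ∈ U)
    (hfix : ∀ u ∈ U, w * u * w⁻¹ = u ↔ (u = 1 ∨ u = y))
    (V : Subgroup H) (hVU : V ≤ U) (hVn : (V.subgroupOf U).Normal) (hVw : ∀ v ∈ V, w * v * w⁻¹ ∈ V)
    (hVe : Cfsg.IsElementaryAbelian 2 V) (hVc : ¬ IsCyclic ↥V) (hyV : y ∈ V) :
    ¬ 2 ∣ V.relIndex U ∧ Nat.card ↥V = 4 ∧ ⁅U, U⁆ ≤ V := by
  classical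
have hconj : ∀ u ∈ U, w * u * w⁻¹ ∈ U := fun u hu => H01.conj_mem_of_mem_normalizer hwU hu
have hw2 : w * w = 1 := by rw [← sq, ← hw, pow_orderOf_eq_one]
have hwi : w⁻¹ = w := inv_eq_of_mul_eq_one_left hw2
obtain ⟨hVc', hVe'⟩ := hVe
have hVcomm : ∀ a ∈ V, ∀ b ∈ V, a * b = b * a := by
  intro a ha b hb
  have := (isMulCommutative_iff.mp hVc') ⟨a, ha⟩ ⟨b, hb⟩
  exact congrArg Subtype.val this
have hVinv : ∀ a ∈ V, a * a = 1 := fun a ha => by rw [← sq]; exact hVe' a ha
-- θ v = v * w v w⁻¹ is fixed by w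
have hθfix : ∀ v ∈ V, v * (w * v * w⁻¹) = 1 ∨ v * (w * v * w⁻¹) = y := by
  intro v hv
  have hvw := hVw v hv
  apply (hfix _ (hVU (V.mul_mem hv hvw))).mp
  have : w * (v * (w * v * w⁻¹)) * w⁻¹ = (w * v * w⁻¹) * v := by
    rw [hwi]
    calc w * (v * (w * v * w)) * w = (w * v * w) * (v * (w * w)) := by group
      _ = (w * v * w) * v := by rw [hw2, mul_one]
  rw [this]
  exact hVcomm _ hvw _ hv
have hθker : ∀ v ∈ V, v * (w * v * w⁻¹) = 1 → v = 1 ∨ v = y := by
  intro v hv h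
  apply (hfix v (hVU hv)).mp
  have h1 : w * v * w⁻¹ = v⁻¹ := eq_inv_of_mul_eq_one_right h
  rw [h1]
  exact inv_eq_of_mul_eq_one_left (hVinv v hv)
-- a nontrivial element off {1,y}
obtain ⟨v₁, hv₁V, hv₁1, hv₁y⟩ : ∃ v₁ ∈ V, v₁ ≠ 1 ∧ v₁ ≠ y := by
  by_contra hcon
  push Not at hcon
  apply hVc
  refine ⟨⟨y, hyV⟩, ?_⟩
  intro x
  by_cases hx1 : (x : H) = 1
  · exact ⟨0, by ext; simp [hx1]⟩
  · have := hcon x x.2 hx1
    exact ⟨1, by ext; simp [this]⟩
have hθv₁ : v₁ * (w * v₁ * w⁻¹) = y := by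
  rcases hθfix v₁ hv₁V with h | h
  · rcases hθker v₁ hv₁V h with h' | h'
    · exact absurd h' hv₁1
    · exact absurd h' hv₁y
  · exact h
have hθmul : ∀ a ∈ V, ∀ b ∈ V, (a * b) * (w * (a * b) * w⁻¹) =
    (a * (w * a * w⁻¹)) * (b * (w * b * w⁻¹)) := by
  intro a ha b hb
  have hbw := hVw b hb
  have haw := hVw a ha
  have e1 : w * (a * b) * w⁻¹ = (w * a * w⁻¹) * (w * b * w⁻¹) := by group
  rw [e1]
  calc a * b * ((w * a * w⁻¹) * (w * b * w⁻¹)) = a * (b * (w * a * w⁻¹)) * (w * b * w⁻¹) := by group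
    _ = a * ((w * a * w⁻¹) * b) * (w * b * w⁻¹) := by rw [hVcomm b hb _ haw]
    _ = _ := by group
have hVcard : ∀ v ∈ V, v = 1 ∨ v = y ∨ v = v₁ ∨ v = y * v₁ := by
  intro v hv
  rcases hθfix v hv with h | h
  · rcases hθker v hv h with h' | h'
    · exact Or.inl h'
    · exact Or.inr (Or.inl h')
  · have hvv₁ := V.mul_mem hv hv₁V
    have hk : (v * v₁) * (w * (v * v₁) * w⁻¹) = 1 := by
      rw [hθmul v hv v₁ hv₁V, h, hθv₁]
      exact hVinv y hyV
    have hv₁i : v₁⁻¹ = v₁ := inv_eq_of_mul_eq_one_left (hVinv v₁ hv₁V)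
    rcases hθker _ hvv₁ hk with h' | h'
    · right; right; left
      have : v = v₁⁻¹ := eq_inv_of_mul_eq_one_left h'
      rw [this, hv₁i]
    · right; right; right
      have : v = y * v₁⁻¹ := eq_mul_inv_of_mul_eq h'
      rw [this, hv₁i]
have hyv₁ : y * v₁ ≠ 1 := by
  intro h
  have : y = v₁⁻¹ := eq_inv_of_mul_eq_one_left h
  rw [inv_eq_of_mul_eq_one_left (hVinv v₁ hv₁V)] at this
  exact hv₁y this.symm
have hyv₁y : y * v₁ ≠ y := by
  intro h
  exact hv₁1 (by simpa using h)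
have hyv₁v : y * v₁ ≠ v₁ := by
  intro h
  exact hy (by simpa using h)
have hcard4 : Nat.card ↥V = 4 := by
  have hset : (V : Set H) = ↑({1, y, v₁, y * v₁} : Finset H) := by
    ext v
    simp only [SetLike.mem_coe, Finset.coe_insert, Finset.coe_singleton, Set.mem_insert_iff,
      Set.mem_singleton_iff]
    constructor
    · exact hVcard v
    · rintro (rfl | rfl | rfl | rfl)
      · exact V.one_mem
      · exact hyV
      · exact hv₁V
      · exact V.mul_mem hyV hv₁V
  have : Nat.card ↥V = Nat.card (V : Set H) := rfl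
  rw [this, hset, Nat.card_eq_card_toFinset]
  simp only [Finset.toFinset_coe]
  rw [Finset.card_insert_of_notMem, Finset.card_insert_of_notMem, Finset.card_insert_of_notMem,
    Finset.card_singleton]
  · simpa using hyv₁v.symm
  · simp only [Finset.mem_insert, Finset.mem_singleton, not_or]
    exact ⟨hv₁y.symm, hyv₁y.symm⟩
  · simp only [Finset.mem_insert, Finset.mem_singleton, not_or]
    exact ⟨hy.symm, hv₁1.symm, hyv₁.symm⟩
-- now the quotient
haveI hN : (V.subgroupOf U).Normal := hVn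
let f : ↥U →* ↥U :=
  { toFun := fun u => ⟨w * u * w⁻¹, hconj u u.2⟩
    map_one' := by ext; simp
    map_mul' := by intro a b; ext; simp only [Subgroup.coe_mul]; group }
have hfN : V.subgroupOf U ≤ (V.subgroupOf U).comap f := by
  intro v hv
  rw [Subgroup.mem_comap, Subgroup.mem_subgroupOf]
  exact hVw _ (Subgroup.mem_subgroupOf.mp hv)
let φ : ↥U ⧸ V.subgroupOf U →* ↥U ⧸ V.subgroupOf U := QuotientGroup.map _ _ f hfN
have hφmk : ∀ u : ↥U, φ (u : ↥U ⧸ V.subgroupOf U) = ((f u : ↥U) : ↥U ⧸ V.subgroupOf U) := fun u => rfl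
have hφfp : MonoidHom.FixedPointFree φ := by
  intro q hq
  induction q using QuotientGroup.induction_on with
  | H u =>
    rw [hφmk, QuotientGroup.eq] at hq
    rw [QuotientGroup.eq_one_iff, Subgroup.mem_subgroupOf]
    have h0 : ((f u)⁻¹ * u : ↥U).1 ∈ V := Subgroup.mem_subgroupOf.mp hq
    set v₀ : H := (w * (u : H) * w⁻¹)⁻¹ * u with hv₀
    have h0' : v₀ ∈ V := h0
    -- u = w u w⁻¹ * v₀
    have hu : (u : H) = (w * u * w⁻¹) * v₀ := by rw [hv₀]; group
    -- v₀ is fixed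
    have hv₀fix : w * v₀ * w⁻¹ = v₀⁻¹ := by
      have : w * v₀ * w⁻¹ = (w * (w * u * w⁻¹) * w⁻¹)⁻¹ * (w * u * w⁻¹) := by
        rw [hv₀]; simp only [mul_inv_rev, inv_inv, mul_assoc, inv_mul_cancel_left]
      rw [this, hv₀]
      have e : w * (w * (u : H) * w⁻¹) * w⁻¹ = u := by
        rw [hwi]
        calc w * (w * (u : H) * w) * w = (w * w) * u * (w * w) := by group
          _ = u := by rw [hw2]; simp
      rw [e]
      group
    have hv₀' : v₀ * (w * v₀ * w⁻¹) = 1 := by rw [hv₀fix]; simp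
    have hv₀c := hθker v₀ h0' hv₀'
    -- so u or u v₁ is fixed by w
    rcases hv₀c with h1 | h1
    · have hfixu : w * (u : H) * w⁻¹ = u := by
        rw [h1, mul_one] at hu
        exact hu.symm
      rcases (hfix u u.2).mp hfixu with h | h
      · rw [h]; exact V.one_mem
      · rw [h]; exact hyV
    · -- take u v₁
      have hfixu : w * ((u : H) * v₁) * w⁻¹ = u * v₁ := by
        have e1 : w * ((u : H) * v₁) * w⁻¹ = (w * u * w⁻¹) * (w * v₁ * w⁻¹) := by group
        rw [e1]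
        have e2 : w * v₁ * w⁻¹ = v₁⁻¹ * y := by
          rw [eq_inv_mul_iff_mul_eq]; exact hθv₁
        rw [e2]
        have hv₁i : v₁⁻¹ = v₁ := inv_eq_of_mul_eq_one_left (hVinv v₁ hv₁V)
        rw [hv₁i]
        have hu' : (u : H) * y = w * u * w⁻¹ := by
          have hy2 := hVinv y hyV
          rw [h1] at hu
          have := congrArg (· * y) hu
          simpa [mul_assoc, hy2] using this
        rw [hVcomm v₁ hv₁V y hyV, ← mul_assoc, ← hu', mul_assoc (u : H) y y, hVinv y hyV, mul_one]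
      have hmem : (u : H) * v₁ ∈ V := by
        rcases (hfix _ (U.mul_mem u.2 (hVU hv₁V))).mp hfixu with h | h
        · rw [h]; exact V.one_mem
        · rw [h]; exact hyV
      have : (u : H) = (u : H) * v₁ * v₁⁻¹ := by group
      rw [this]
      exact V.mul_mem hmem (V.inv_mem hv₁V)
have hφinv : Function.Involutive φ := by
  intro q
  induction q using QuotientGroup.induction_on with
  | H u =>
    rw [hφmk, hφmk]
    congr 1
    ext
    show w * (w * (u : H) * w⁻¹) * w⁻¹ = u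
    rw [hwi]
    calc w * (w * (u : H) * w) * w = (w * w) * u * (w * w) := by group
      _ = u := by rw [hw2]; simp
refine ⟨?_, hcard4, ?_⟩
· have hodd := hφfp.odd_card_of_involutive hφinv
  have : V.relIndex U = Nat.card (↥U ⧸ V.subgroupOf U) := by
    rw [Subgroup.relIndex, Subgroup.index]
  rw [this]
  exact hodd.not_two_dvd_nat
· rw [Subgroup.commutator_le]
  intro a ha b hb
  have hc := hφfp.commute_all_of_involutive hφinv
    ((⟨a, ha⟩ : ↥U) : ↥U ⧸ V.subgroupOf U) ((⟨b, hb⟩ : ↥U) : ↥U ⧸ V.subgroupOf U)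
  have hc' := hc.eq
  rw [← QuotientGroup.mk_mul, ← QuotientGroup.mk_mul, QuotientGroup.eq] at hc'
  have hnorm := hN.conj_mem _ hc' (⟨a, ha⟩ * ⟨b, hb⟩)
  rw [Subgroup.mem_subgroupOf] at hnorm
  simp only [Subgroup.coe_mul, Subgroup.coe_inv] at hnorm
  have e : ⁅a, b⁆ = ((a * b) * ((a * b)⁻¹ * (b * a)) * (a * b)⁻¹)⁻¹ := by
    rw [commutatorElement_def]; group
  rw [e]
  exact V.inv_mem hnorm

end Cfsg.Agent.S3825
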