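import Cfsg.Statements.S3835
import Cfsg.Agent.Lib.H12.Qd
import Cfsg.Agent.Lib.Lead.DicksonSL
import Mathlib

set_option autoImplicit false
set_option linter.style.haveILetI false
set_option linter.unusedVariables false
set_option linter.unusedSectionVars false
set_option linter.unusedSimpArgs false

open Cfsg

namespace Cfsg.Agent.S3835

open Matrix MatrixGroups
open Cfsg.Agent.H12.Qd
open Cfsg.Agent.Lead.DicksonSL (xE yE xE_pow yE_pow closure_xy xE_zero yE_zero)

/-- `p`-subgroups of the symmetric group on fewer than `p²` letters are abelian. -/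
lemma comm_of_pGroup {Ω : Type*} [Fintype Ω] {p : ℕ} [hpf : Fact p.Prime]
    (hΩ : Fintype.card Ω < p ^ 2) (P : Subgroup (Equiv.Perm Ω)) (hP : IsPGroup p P)
    (x y : Equiv.Perm Ω) (hx : x ∈ P) (hy : y ∈ P) : x * y = y * x := by
  classical
  have hp : p.Prime := hpf.out
  ext a
  let O := MulAction.orbit ↥P a
  haveI : Finite O := inferInstance
  obtain ⟨m, hm⟩ := hP.card_orbit a
  have hOle : Nat.card O ≤ p := by
    have h1 : Nat.card O ≤ Nat.card Ω := by
      apply Nat.card_le_card_of_injective (fun z : O => (z : Ω))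
      exact Subtype.val_injective
    rw [Nat.card_eq_fintype_card (α := Ω)] at h1
    rw [show Nat.card O = p ^ m from hm] at h1 ⊢
    have h2 : p ^ m < p ^ 2 := lt_of_le_of_lt h1 hΩ
    have h3 : m < 2 := (Nat.pow_lt_pow_iff_right hp.one_lt).1 h2
    calc p ^ m ≤ p ^ 1 := Nat.pow_le_pow_right hp.pos (by omega)
      _ = p := pow_one p
  let φ : ↥P →* Equiv.Perm O := MulAction.toPermHom ↥P O
  let I : Subgroup (Equiv.Perm O) := φ.range
  have hI : IsPGroup p I := hP.of_surjective φ.rangeRestrict φ.rangeRestrict_surjective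
  obtain ⟨k, hk⟩ := IsPGroup.iff_card.1 hI
  have hdvd : Nat.card I ∣ Nat.card (Equiv.Perm O) := Subgroup.card_subgroup_dvd_card I
  have hcard : Nat.card (Equiv.Perm O) = (Nat.card O).factorial := by
    haveI := Fintype.ofFinite O
    rw [Nat.card_eq_fintype_card, Fintype.card_perm, Nat.card_eq_fintype_card]
  have hk1 : k ≤ 1 := by
    by_contra hgt
    have h1 : p ^ 2 ∣ p.factorial := by
      have h2 : p ^ 2 ∣ Nat.card I := by
        rw [hk]
        exact pow_dvd_pow p (by omega)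
      exact (h2.trans hdvd).trans (hcard ▸ Nat.factorial_dvd_factorial hOle)
    have h3 : p.factorial = p * (p - 1).factorial := by
      obtain ⟨r, hr⟩ : ∃ r, p = r + 1 := ⟨p - 1, by have := hp.pos; omega⟩
      rw [hr]
      simp [Nat.factorial_succ]
    rw [h3, sq] at h1
    have h4 : p ∣ (p - 1).factorial := Nat.dvd_of_mul_dvd_mul_left hp.pos h1
    have h5 := (hp.dvd_factorial).1 h4
    have := hp.pos
    omega
  have hcyc : IsCyclic I := by
    rcases (show k = 0 ∨ k = 1 by omega) with rfl | rfl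
    · rw [pow_zero] at hk
      haveI : Subsingleton I := (Nat.card_eq_one_iff_unique.1 hk).1
      infer_instance
    · rw [pow_one] at hk
      exact isCyclic_of_prime_card hk
  have hcomm : φ ⟨x, hx⟩ * φ ⟨y, hy⟩ = φ ⟨y, hy⟩ * φ ⟨x, hx⟩ := by
    have h1 : (⟨φ ⟨x, hx⟩, ⟨_, rfl⟩⟩ : I) * ⟨φ ⟨y, hy⟩, ⟨_, rfl⟩⟩ =
        ⟨φ ⟨y, hy⟩, ⟨_, rfl⟩⟩ * ⟨φ ⟨x, hx⟩, ⟨_, rfl⟩⟩ := mul_comm' _ _
    exact congrArg Subtype.val h1
  have h2 := congrArg (fun σ : Equiv.Perm O => ((σ ⟨a, MulAction.mem_orbit_self a⟩ : O) : Ω)) hcomm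
  exact h2

/-- The lifting of abelianness of `p`-subgroups through surjections. -/
lemma lift_comm {X Y : Type*} [Group X] [Finite X] [Group Y] {p : ℕ} [hpf : Fact p.Prime]
    (π : X →* Y) (hπ : Function.Surjective π)
    (hX : ∀ Q : Subgroup X, IsPGroup p Q → ∀ x ∈ Q, ∀ y ∈ Q, x * y = y * x)
    (U : Subgroup Y) (hU : IsPGroup p U) : ∀ a ∈ U, ∀ b ∈ U, a * b = b * a := by
  classical
  intro a ha b hb
  let W : Subgroup X := U.comap π
  let f : W →* U := π.subgroupComap U
  have hf : Function.Surjective f := MonoidHom.subgroupComap_surjective_of_surjective π U hπ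
  obtain ⟨P⟩ : Nonempty (Sylow p W) := inferInstance
  have htop : (P : Subgroup W).map f = ⊤ := by
    let P₁ := P.mapSurjective hf
    have h1 : (P₁ : Subgroup U) = (P : Subgroup W).map f := P.coe_mapSurjective hf
    rw [← h1]
    exact (P₁.is_maximal' (hU.to_subgroup ⊤) le_top).symm
  have hQ : IsPGroup p ((P : Subgroup W).map W.subtype) := P.isPGroup'.map W.subtype
  obtain ⟨w₁, hw₁, e₁⟩ : (⟨a, ha⟩ : U) ∈ (P : Subgroup W).map f := by rw [htop]; trivial
  obtain ⟨w₂, hw₂, e₂⟩ : (⟨b, hb⟩ : U) ∈ (P : Subgroup W).map f := by rw [htop]; trivial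
  have hc := hX _ hQ w₁.1 ⟨w₁, hw₁, rfl⟩ w₂.1 ⟨w₂, hw₂, rfl⟩
  have h1 : π w₁.1 = a := congrArg Subtype.val e₁
  have h2 : π w₂.1 = b := congrArg Subtype.val e₂
  rw [← h1, ← h2, ← map_mul, ← map_mul, hc]

variable {p : ℕ} [hpf : Fact p.Prime]

/-- The non-abelian `p`-subgroup of `Qd(p)`. -/
def Uq (p : ℕ) [Fact p.Prime] : Subgroup (Cfsg.qdOver (ZMod p)) :=
  (Subgroup.zpowers (xE (1 : ZMod p))).comap (block : Cfsg.qdOver (ZMod p) →* SL(2, ZMod p))

lemma isPGroup_Uq : IsPGroup p (Uq p) := by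
  rintro ⟨M, hM⟩
  obtain ⟨j, hj⟩ := Subgroup.mem_zpowers_iff.1 (show block M ∈ Subgroup.zpowers (xE (1 : ZMod p)) from hM)
  have h1 : (xE (1 : ZMod p)) ^ p = 1 := by
    rw [xE_pow]
    simp [xE_zero]
  have h2 : block (M ^ p) = 1 := by
    rw [map_pow, ← hj, ← zpow_natCast, ← _root_.zpow_mul, mul_comm, _root_.zpow_mul, zpow_natCast, h1, _root_.one_zpow]
  have h3 := isPGroup_ker_block (F := ZMod p) p ⟨M ^ p, h2⟩
  obtain ⟨k, hk⟩ := h3
  refine ⟨k + 1, ?_⟩
  apply Subtype.ext
  have h4 : (M ^ p) ^ p ^ k = 1 := congrArg Subtype.val hk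
  show M ^ p ^ (k + 1) = 1
  rw [pow_succ', pow_mul]
  exact h4

lemma not_comm_Uq : ∃ a ∈ Uq p, ∃ b ∈ Uq p, a * b ≠ b * a := by
  refine ⟨sec (xE 1), ?_, transl ![0, 1], ?_, ?_⟩
  · show block (sec (xE (1 : ZMod p))) ∈ Subgroup.zpowers (xE (1 : ZMod p))
    rw [block_sec]
    exact Subgroup.mem_zpowers _
  · show block (transl ![(0 : ZMod p), 1]) ∈ Subgroup.zpowers (xE (1 : ZMod p))
    rw [show block (transl ![(0 : ZMod p), 1]) = 1 from transl_mem_ker _]
    exact Subgroup.one_mem _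
  · intro h
    have h1 := conj_transl (sec (xE (1 : ZMod p))) ![0, 1]
    rw [h, mul_assoc, mul_inv_cancel, mul_one, block_sec] at h1
    have h2 := congrArg (fun M : Cfsg.qdOver (ZMod p) => (M.1 : Matrix (Fin 3) (Fin 3) (ZMod p)) 0 2) h1
    simp [transl, xE, Matrix.mulVec, dotProduct, Fin.sum_univ_two] at h2

/-- Homomorphisms of `Qd(p)` to `±1` are trivial. -/
lemma sign_trivial (hp : p ≠ 2) (f : Cfsg.qdOver (ZMod p) →* ℤˣ) (M : Cfsg.qdOver (ZMod p)) :
    f M = 1 := by
  have hp' : p.Prime := hpf.out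
  have hodd : Odd p := hp'.odd_of_ne_two hp
  have hunit : ∀ u : ℤˣ, u ^ p = 1 → u = 1 := by
    intro u hu
    rcases Int.units_eq_one_or u with h | h
    · exact h
    · rw [h, hodd.neg_one_pow] at hu
      exact absurd hu (by decide)
  have ht : ∀ v : Fin 2 → ZMod p, f (transl v) = 1 := by
    intro v
    apply hunit
    rw [← map_pow, transl_pow]
    have : p • v = 0 := by
      ext i
      simp
    rw [this, transl_zero, map_one]
  have hs : ∀ A : SL(2, ZMod p), f (sec A) = 1 := by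
    intro A
    have hA : A ∈ Subgroup.closure ({xE 1, yE 1} : Set (SL(2, ZMod p))) := by
      rw [closure_xy p 1 one_ne_zero]
      trivial
    induction hA using Subgroup.closure_induction with
    | mem x hx =>
      apply hunit
      rw [← map_pow, ← map_pow]
      rcases hx with rfl | rfl
      · rw [xE_pow]
        simp [xE_zero]
      · rw [yE_pow]
        simp [yE_zero]
    | one => simp
    | mul x y _ _ hx hy => rw [map_mul, map_mul, hx, hy, one_mul]
    | inv x _ hx => rw [map_inv, map_inv, hx, inv_one]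
  have hdec : M = transl (trans M) * sec (block M) := by
    conv_lhs => rw [eq_mk' M]
    rw [sec_apply]
    unfold transl
    rw [mk_mul]
    simp
  rw [hdec, map_mul, ht, hs, one_mul]

/-- Let p be an odd prime and n a natural number. The alternating group of degree n has a subgroup isomorphic to Qd(p) (the natural semidirect product of an elementary abelian group of order p² by SL₂(p)) if and only if n ≥ p²; and if n < p² then Qd(p) is not even involved in it. -/
theorem result {p : ℕ} [Fact p.Prime] (hp : p ≠ 2) (n : ℕ) : ((∃ H : Subgroup (alternatingGroup (Fin n)), Nonempty (↥H ≃* ↥(Cfsg.qd p))) ↔ p ^ 2 ≤ n) ∧ (n < p ^ 2 → ¬ Cfsg.Involves ↥(Cfsg.qd p) ↥(alternatingGroup (Fin n))) := by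
  classical
  have hnot : n < p ^ 2 → ¬ Cfsg.Involves ↥(Cfsg.qd p) ↥(alternatingGroup (Fin n)) := by
    rintro hn ⟨K, R, hN, ⟨e⟩⟩
    haveI := hN
    let π : K →* Cfsg.qdOver (ZMod p) := e.toMonoidHom.comp (QuotientGroup.mk' (R.subgroupOf K))
    have hπ : Function.Surjective π :=
      e.surjective.comp (QuotientGroup.mk'_surjective _)
    let ι : K →* Equiv.Perm (Fin n) := (alternatingGroup (Fin n)).subtype.comp K.subtype
    have hι : Function.Injective ι :=
      (Subtype.val_injective).comp Subtype.val_injective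
    have hX : ∀ Q : Subgroup K, IsPGroup p Q → ∀ x ∈ Q, ∀ y ∈ Q, x * y = y * x := by
      intro Q hQ x hx y hy
      apply hι
      rw [map_mul, map_mul]
      exact comm_of_pGroup (by simpa using hn) (Q.map ι) (hQ.map ι) _ _ ⟨x, hx, rfl⟩ ⟨y, hy, rfl⟩
    obtain ⟨a, ha, b, hb, hab⟩ := not_comm_Uq (p := p)
    exact hab (lift_comm π hπ hX (Uq p) isPGroup_Uq a ha b hb)
  refine ⟨⟨?_, ?_⟩, hnot⟩
  · rintro ⟨H, ⟨e⟩⟩
    by_contra hlt
    push Not at hlt
    apply hnot hlt
    have h1 : (⊥ : Subgroup (alternatingGroup (Fin n))).subgroupOf H = ⊥ := by simp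
    haveI hnormal : ((⊥ : Subgroup (alternatingGroup (Fin n))).subgroupOf H).Normal := by
      rw [h1]
      infer_instance
    exact ⟨H, ⊥, hnormal, ⟨(QuotientGroup.quotientMulEquivOfEq h1).trans
      ((QuotientGroup.quotientBot).trans e)⟩⟩
  · intro hn
    have hcard : Fintype.card (Fin 2 → ZMod p) ≤ Fintype.card (Fin n) := by
      simpa [ZMod.card] using hn
    obtain ⟨ι⟩ := Function.Embedding.nonempty_of_card_le hcard
    let ρ : Cfsg.qdOver (ZMod p) →* Equiv.Perm (Fin n) :=
      (Equiv.Perm.viaEmbeddingHom ι).comp affHom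
    have hρ : Function.Injective ρ :=
      (Equiv.Perm.viaEmbeddingHom_injective ι).comp affHom_injective
    have hsign : ∀ M, ρ M ∈ alternatingGroup (Fin n) := by
      intro M
      rw [Equiv.Perm.mem_alternatingGroup]
      have := sign_trivial hp ((Equiv.Perm.sign : Equiv.Perm (Fin n) →* ℤˣ).comp ρ) M
      exact this
    let φ : Cfsg.qdOver (ZMod p) →* alternatingGroup (Fin n) := ρ.codRestrict _ hsign
    have hφ : Function.Injective φ := by
      intro a b h
      apply hρ
      exact congrArg Subtype.val h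
    exact ⟨φ.range, ⟨(MonoidHom.ofInjective hφ).symm⟩⟩

end Cfsg.Agent.S3835
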