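import Cfsg.Statements.S3838
import Mathlib
import Cfsg.Agent.Lib.H13.FrobFusion
import Cfsg.Agent.Lib.H01.SZ2
import Cfsg.Agent.Lib.H19.Lifts
import Cfsg.Agent.Lib.H19.CyclicSylow
import Cfsg.Agent.Lib.H18.Syl

set_option autoImplicit false
open Cfsg

namespace Cfsg.Agent.S3838


open Cfsg
open scoped Pointwise commutatorElement

universe u

theorem main_lemma {H : Type u} [Group H] [Finite H] {p : ℕ} [Fact p.Prime] (P : Sylow p H)
    (Q : Subgroup H) [hQ : Q.Normal] (hQP : Q ≤ P)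
    (hcomm : ∀ x ∈ (P : Subgroup H), ∀ y ∈ (P : Subgroup H), x * y * x⁻¹ * y⁻¹ ∈ Q)
    (hfr : ∀ M : Subgroup H, M ≤ P → (∀ x ∈ (P : Subgroup H), ∃ q ∈ Q, ∃ m ∈ M, x = q * m) →
      (P : Subgroup H) ≤ M)
    (hcent : ∀ y ∈ Subgroup.normalizer ((P : Subgroup H) : Set H), (orderOf y).Coprime p →
      y ∈ Subgroup.centralizer ((P : Subgroup H) : Set H)) :
    HasNormalPComplement p H := by
  classical
  have hpp : p.Prime := Fact.out
  let f : H →* H ⧸ Q := QuotientGroup.mk' Q
  have hf : Function.Surjective f := QuotientGroup.mk'_surjective Q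
  have hker : f.ker = Q := QuotientGroup.ker_mk' Q
  let Pb : Sylow p (H ⧸ Q) := P.mapSurjective hf
  have hPb : (Pb : Subgroup (H ⧸ Q)) = (P : Subgroup H).map f := rfl
  have hmemP : ∀ x : H, f x ∈ (Pb : Subgroup (H ⧸ Q)) → x ∈ (P : Subgroup H) := by
    intro x hx
    rw [hPb] at hx
    obtain ⟨x', hx', hxx⟩ := hx
    have h1 : x'⁻¹ * x ∈ f.ker := by
      rw [MonoidHom.mem_ker, map_mul, map_inv, hxx]
      simp
    rw [hker] at h1
    have h2 : x = x' * (x'⁻¹ * x) := by group
    rw [h2]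
    exact Subgroup.mul_mem _ hx' (hQP h1)
  have hab : ∀ a ∈ (Pb : Subgroup (H ⧸ Q)), ∀ b ∈ (Pb : Subgroup (H ⧸ Q)), a * b = b * a := by
    rintro _ ⟨a, ha, rfl⟩ _ ⟨b, hb, rfl⟩
    have h1 := hcomm a ha b hb
    rw [← hker, MonoidHom.mem_ker] at h1
    simp only [map_mul, map_inv] at h1
    have h2 : f a * f b * (f a)⁻¹ = f b := by simpa using congrArg (· * f b) h1
    have h3 : f a * f b = f b * f a := by simpa using congrArg (· * f a) h2
    exact h3
  have hNC : Subgroup.normalizer ((Pb : Subgroup (H ⧸ Q)) : Set (H ⧸ Q)) ≤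
      Subgroup.centralizer ((Pb : Subgroup (H ⧸ Q)) : Set (H ⧸ Q)) := by
    intro g hg
    obtain ⟨a, b, rfl, -, ha, hb, ha2, hb2⟩ := H19.exists_pi_decomp {p} g
    have haN : a ∈ Subgroup.normalizer ((Pb : Subgroup (H ⧸ Q)) : Set (H ⧸ Q)) :=
      (Subgroup.zpowers_le.mpr hg) ha2
    have hbN : b ∈ Subgroup.normalizer ((Pb : Subgroup (H ⧸ Q)) : Set (H ⧸ Q)) :=
      (Subgroup.zpowers_le.mpr hg) hb2
    apply Subgroup.mul_mem
    · have hpow : orderOf a = p ^ (orderOf a).primeFactorsList.length :=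
        Nat.eq_prime_pow_of_unique_prime_dvd (orderOf_pos a).ne' (fun {d} hd hda => ha d hd hda)
      have haP : a ∈ (Pb : Subgroup (H ⧸ Q)) := by
        exact H19.mem_sylow_of_mem_normalizer Pb hpow haN
      rw [Subgroup.mem_centralizer_iff]
      intro x hx
      exact hab x hx a haP
    · obtain ⟨y, hy, hyo⟩ := H19.exists_pi_lift f hf {r | r ≠ p} b
        (fun r hr hrd hrp => hb r hr hrd hrp)
      subst hy
      have hyc : (orderOf y).Coprime p := by
        rw [Nat.coprime_comm, hpp.coprime_iff_not_dvd]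
        intro hd
        exact hyo p hpp hd rfl
      have hyN : y ∈ Subgroup.normalizer ((P : Subgroup H) : Set H) := by
        apply H19.mem_normalizer_of_conj_le
        intro x hx
        apply hmemP
        rw [map_mul, map_mul, map_inv]
        exact (Subgroup.mem_normalizer_iff.mp hbN _).mp ⟨x, hx, rfl⟩
      have hyC := hcent y hyN hyc
      rw [Subgroup.mem_centralizer_iff]
      rintro _ ⟨x, hx, rfl⟩
      rw [← map_mul, ← map_mul, Subgroup.mem_centralizer_iff.mp hyC x hx]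
  obtain ⟨Rb, hRbn, hRbc⟩ := H19.burnside_complement Pb hNC
  -- the preimage
  let R : Subgroup H := Rb.comap f
  haveI hRn : R.Normal := Subgroup.Normal.comap hRbn f
  have hQR : Q ≤ R := by
    intro q hq
    show f q ∈ Rb
    have : f q = 1 := by
      rw [← MonoidHom.mem_ker, hker]
      exact hq
    rw [this]
    exact Rb.one_mem
  have hidxR : R.index = Nat.card (Pb : Subgroup (H ⧸ Q)) := by
    rw [Subgroup.index_comap_of_surjective _ hf]
    exact hRbc.symm.index_eq_card
  let t := Nat.card Rb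
  have htp : ¬ p ∣ t := by
    have h1 : t = (Pb : Subgroup (H ⧸ Q)).index := hRbc.index_eq_card.symm
    rw [h1]
    exact Pb.not_dvd_index
  have hcardPb : Nat.card (P : Subgroup H) = Nat.card Q * Nat.card (Pb : Subgroup (H ⧸ Q)) := by
    have h0 : Nat.card ((P : Subgroup H).map f) = Q.relIndex (P : Subgroup H) := by
      rw [← Subgroup.relIndex_bot_left, ← Subgroup.relIndex_comap, MonoidHom.comap_bot, hker]
    have h1 := H18.card_inf_mul_relIndex Q (P : Subgroup H)
    rw [inf_of_le_left hQP] at h1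
    rw [hPb, h0, h1]
  have hcardH : Nat.card H = t * Nat.card (P : Subgroup H) := by
    have h1 := Subgroup.card_mul_index Q
    have h2 : Q.index = Nat.card (H ⧸ Q) := rfl
    have h3 := hRbc.card_mul_card
    rw [h2, ← h3] at h1
    rw [hcardPb, ← h1]
    ring
  have hcardR : Nat.card R = Nat.card Q * t := by
    have h1 := Subgroup.card_mul_index R
    rw [hidxR] at h1
    have h2 : 0 < Nat.card (Pb : Subgroup (H ⧸ Q)) := Nat.card_pos
    apply Nat.eq_of_mul_eq_mul_right h2
    rw [h1, hcardH, hcardPb]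
    ring
  -- Schur-Zassenhaus in `R`
  let Q₁ : Subgroup R := Q.subgroupOf R
  haveI hQ₁ : Q₁.Normal := Subgroup.Normal.subgroupOf hQ R
  have hcQ₁ : Nat.card Q₁ = Nat.card Q := Nat.card_congr (Subgroup.subgroupOfEquivOfLe hQR).toEquiv
  have hQp : IsPGroup p Q := P.isPGroup'.to_le hQP
  have hQ₁p : IsPGroup p Q₁ := hQp.of_equiv (Subgroup.subgroupOfEquivOfLe hQR).symm
  have hidxQ₁ : Q₁.index = t := by
    have h1 := Subgroup.card_mul_index Q₁
    rw [hcQ₁, hcardR] at h1
    exact Nat.eq_of_mul_eq_mul_left Nat.card_pos h1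
  have hcopQ : (Nat.card Q).Coprime t := by
    obtain ⟨k, hk⟩ := IsPGroup.iff_card.mp hQp
    rw [hk]
    exact Nat.Coprime.pow_left _ ((Nat.Prime.coprime_iff_not_dvd hpp).mpr htp)
  have hcop₁ : (Nat.card Q₁).Coprime Q₁.index := by
    rw [hcQ₁, hidxQ₁]; exact hcopQ
  obtain ⟨K₁, hK₁⟩ := Subgroup.exists_right_complement'_of_coprime hcop₁
  have hcK₁ : Nat.card K₁ = t := by
    rw [← hidxQ₁]; exact hK₁.symm.index_eq_card.symm
  let K : Subgroup H := K₁.map R.subtype
  have hKR : K ≤ R := by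
    rintro _ ⟨x, -, rfl⟩
    exact x.2
  have hcK : Nat.card K = t := by
    rw [← hcK₁]
    exact Nat.card_congr (K₁.equivMapOfInjective R.subtype R.subtype_injective).symm.toEquiv
  have hsolv : Group.IsSolvable Q₁ := by
    haveI := hQ₁p.isNilpotent
    infer_instance
  -- Frattini argument
  let W : Subgroup H := Subgroup.normalizer (K : Set H)
  have hKW : K ≤ W := Subgroup.le_normalizer
  have hfrat : ∀ h : H, ∃ q ∈ Q, ∃ w ∈ W, h = q * w := by
    intro h
    let K' : Subgroup H := MulAut.conj h • K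
    have hK'R : K' ≤ R := by
      intro x hx
      rw [H01.mem_conj_smul_iff] at hx
      have h1 := hRn.conj_mem _ (hKR hx) h
      have h2 : h * (h⁻¹ * x * h) * h⁻¹ = x := by group
      rwa [h2] at h1
    have hcK' : Nat.card K' = t := by
      rw [← hcK]
      exact Nat.card_congr (K.equivSMul (MulAut.conj h)).symm.toEquiv
    let K₂ : Subgroup R := K'.subgroupOf R
    have hcK₂ : Nat.card K₂ = t := by
      rw [← hcK']
      exact Nat.card_congr (Subgroup.subgroupOfEquivOfLe hK'R).toEquiv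
    have hK₂ : Q₁.IsComplement' K₂ := by
      apply Subgroup.isComplement'_of_coprime
      · rw [hcQ₁, hcK₂, hcardR]
      · rw [hcQ₁, hcK₂]; exact hcopQ
    obtain ⟨r, hr⟩ := H01.sz_conj Q₁ hcop₁ K₁ K₂ hK₁ hK₂ (Or.inl hsolv)
    -- `r⁻¹ h` normalizes `K`
    have hmem : (r : H)⁻¹ * h ∈ W := by
      apply H19.mem_normalizer_of_conj_le
      intro x hx
      have h1 : h * x * h⁻¹ ∈ K' := by
        rw [H01.mem_conj_smul_iff]
        convert hx using 1
        group
      have h2 : (⟨h * x * h⁻¹, hK'R h1⟩ : R) ∈ K₂ := h1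
      rw [← hr, H01.mem_conj_smul_iff] at h2
      obtain ⟨z, hz, hzz⟩ : ((r⁻¹ * ⟨h * x * h⁻¹, hK'R h1⟩ * r : R) : H) ∈ K := ⟨_, h2, rfl⟩
      have h3 : (r : H)⁻¹ * h * x * ((r : H)⁻¹ * h)⁻¹ = (r : H)⁻¹ * (h * x * h⁻¹) * r := by group
      rw [h3]
      exact ⟨z, hz, hzz⟩
    -- `r = q k`
    have hprod := (Subgroup.isComplement'_def.mp hK₁).existsUnique r
    obtain ⟨⟨⟨q, hq⟩, ⟨k, hk⟩⟩, hqk, -⟩ := hprod
    have hqk' : r = q * k := hqk.symm
    refine ⟨q, hq, k * ((r : H)⁻¹ * h), ?_, ?_⟩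
    · exact W.mul_mem (hKW ⟨k, hk, rfl⟩) hmem
    · rw [hqk']
      simp
      group
  have hPW : (P : Subgroup H) ≤ W := by
    have h1 := hfr ((P : Subgroup H) ⊓ W) inf_le_left (by
      intro x hx
      obtain ⟨q, hq, w, hw, hxq⟩ := hfrat x
      refine ⟨q, hq, w, ⟨?_, hw⟩, hxq⟩
      have h2 : w = q⁻¹ * x := by rw [hxq]; group
      rw [h2]
      exact Subgroup.mul_mem _ (Subgroup.inv_mem _ (hQP hq)) hx)
    exact h1.trans inf_le_right
  have hKn : K.Normal := by
    have hW : W = ⊤ := by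
      rw [eq_top_iff]
      intro h _
      obtain ⟨q, hq, w, hw, rfl⟩ := hfrat h
      exact W.mul_mem (hPW (hQP hq)) hw
    exact Subgroup.normalizer_eq_top_iff.mp hW
  refine ⟨P, K, hKn, ?_⟩
  apply Subgroup.isComplement'_of_coprime
  · rw [hcK, hcardH]
  · rw [hcK]
    obtain ⟨k, hk⟩ := IsPGroup.iff_card.mp P.isPGroup'
    rw [hk]
    exact (Nat.Coprime.pow_left _ ((Nat.Prime.coprime_iff_not_dvd hpp).mpr htp)).symm



/-- Let G be a finite group with Sylow p-subgroup P such that N_G(P) has a normal p-complement. Then N_G(Q) has a normal p-complement for every subgroup Q with [P, P] ≤ Q ≤ Φ(P). -/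
theorem result {G : Type*} [Group G] [Finite G] {p : ℕ} [Fact p.Prime] (P : Sylow p G) (hN : Cfsg.HasNormalPComplement p ↥(Subgroup.normalizer ((P : Subgroup G) : Set G))) (Q : Subgroup G) (h1 : (commutator ↥(P : Subgroup G)).map (P : Subgroup G).subtype ≤ Q) (h2 : Q ≤ (frattini ↥(P : Subgroup G)).map (P : Subgroup G).subtype) : Cfsg.HasNormalPComplement p ↥(Subgroup.normalizer (Q : Set G)) := by
  classical
  have hpp : p.Prime := Fact.out
  -- basic inclusions
  have hQP : Q ≤ (P : Subgroup G) := by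
    intro x hx
    obtain ⟨y, -, rfl⟩ := h2 hx
    exact y.2
  have hcomm : ∀ x ∈ (P : Subgroup G), ∀ y ∈ (P : Subgroup G), x * y * x⁻¹ * y⁻¹ ∈ Q := by
    intro x hx y hy
    apply h1
    refine ⟨⁅(⟨x, hx⟩ : (P : Subgroup G)), (⟨y, hy⟩ : (P : Subgroup G))⁆, ?_, rfl⟩
    exact Subgroup.commutator_mem_commutator (Subgroup.mem_top _) (Subgroup.mem_top _)
  let H : Subgroup G := Subgroup.normalizer (Q : Set G)
  have hPH : (P : Subgroup G) ≤ H := by
    apply fun x hx => H19.mem_normalizer_of_conj_le ?_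
    intro q hq
    have h3 := hcomm x hx q (hQP hq)
    have h4 : x * q * x⁻¹ = (x * q * x⁻¹ * q⁻¹) * q := by group
    rw [h4]
    exact Q.mul_mem h3 hq
  let PH : Sylow p H := P.subtype hPH
  have hPHc : ∀ x : H, x ∈ (PH : Subgroup H) ↔ (x : G) ∈ (P : Subgroup G) := fun x => by
    rw [Sylow.coe_subtype, Subgroup.mem_subgroupOf]
  let Q' : Subgroup H := Q.subgroupOf H
  haveI hQ' : Q'.Normal := Subgroup.normal_in_normalizer
  refine main_lemma PH Q' ?_ ?_ ?_ ?_
  · intro x hx
    rw [hPHc]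
    exact hQP hx
  · intro x hx y hy
    rw [hPHc] at hx hy
    exact hcomm _ hx _ hy
  · intro M hM hgen
    -- Frattini
    let M₀ : Subgroup (P : Subgroup G) := (M.map H.subtype).subgroupOf (P : Subgroup G)
    have hsup : M₀ ⊔ frattini (P : Subgroup G) = ⊤ := by
      rw [eq_top_iff]
      intro x _
      have hxH : (x : G) ∈ H := hPH x.2
      obtain ⟨q, hq, m, hm, hqm⟩ := hgen ⟨x, hxH⟩ ((hPHc _).mpr x.2)
      have hq' : (q : G) ∈ Q := hq
      obtain ⟨y, hy, hyq⟩ := h2 hq'
      have hmP : (m : G) ∈ (P : Subgroup G) := (hPHc _).mp (hM hm)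
      have hx2 : x = (⟨m, hmP⟩ : (P : Subgroup G)) * (x⁻¹ * ⟨m, hmP⟩)⁻¹ := by group
      have hx3 : x = y * ⟨m, hmP⟩ := by
        apply Subtype.ext
        have := congrArg (fun z : H => (z : G)) hqm
        simp only [Subgroup.coe_mul] at this
        rw [Subgroup.coe_mul, this, ← hyq]
        rfl
      have hcomm2 : y * ⟨m, hmP⟩ = (⟨m, hmP⟩ : (P : Subgroup G)) * ((⟨m, hmP⟩ : (P : Subgroup G))⁻¹ * y * ⟨m, hmP⟩) := by group
      rw [hx3, hcomm2]
      apply Subgroup.mul_mem_sup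
      · exact ⟨m, hm, rfl⟩
      · have hn : (frattini (P : Subgroup G)).Normal := inferInstance
        have := hn.conj_mem y hy (⟨m, hmP⟩ : (P : Subgroup G))⁻¹
        simpa using this
    have htop : M₀ = ⊤ := frattini_nongenerating hsup
    intro x hx
    have hx' : (x : G) ∈ (P : Subgroup G) := (hPHc _).mp hx
    have h3 : (⟨x, hx'⟩ : (P : Subgroup G)) ∈ M₀ := by rw [htop]; trivial
    obtain ⟨z, hz, hzx⟩ := h3
    have : z = x := Subtype.ext hzx
    rwa [← this]
  · intro y hy hyc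
    -- `y` normalizes `P`
    let N : Subgroup G := Subgroup.normalizer ((P : Subgroup G) : Set G)
    have hyN : (y : G) ∈ N := by
      apply H19.mem_normalizer_of_conj_le
      intro x hx
      have hxH : x ∈ H := hPH hx
      have h3 := (Subgroup.mem_normalizer_iff.mp hy ⟨x, hxH⟩).mp ((hPHc _).mpr hx)
      exact (hPHc _).mp h3
    have hF := H13.frobCond_of_hasNormalPComplement hN
    let P₂ : Subgroup N := (P : Subgroup G).subgroupOf N
    have hP₂ : IsPGroup p P₂ := P.isPGroup'.of_equiv (Subgroup.subgroupOfEquivOfLe Subgroup.le_normalizer).symm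
    have hP₂N : (⟨y, hyN⟩ : N) ∈ Subgroup.normalizer (P₂ : Set N) := by
      haveI : P₂.Normal := Subgroup.normal_in_normalizer
      rw [Subgroup.normalizer_eq_top]
      trivial
    have h3 := hF P₂ hP₂ _ hP₂N (by rw [Subgroup.orderOf_mk, Subgroup.orderOf_coe]; exact hyc)
    rw [Subgroup.mem_centralizer_iff]
    intro x hx
    have hx' : (x : G) ∈ (P : Subgroup G) := (hPHc _).mp hx
    have h4 := Subgroup.mem_centralizer_iff.mp h3 ⟨x, Subgroup.le_normalizer hx'⟩ hx'
    apply Subtype.ext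
    have h5 := congrArg Subtype.val h4
    exact h5

end Cfsg.Agent.S3838
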