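import Cfsg.Statements.S3858
import Mathlib
import Cfsg.Agent.Lib.H18.AlmostSimple

set_option autoImplicit false
open Cfsg

namespace Cfsg.Agent.S3858

/-- Let G be a finite group with a normal non-abelian simple subgroup T whose centralizer is trivial (G almost simple with socle T), r a prime and R a Sylow r-subgroup of G meeting T nontrivially. Then R lies in exactly one maximal subgroup of G if and only if G has exactly one conjugacy class of maximal subgroups whose index is prime to r. -/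
theorem result {G : Type*} [Group G] [Finite G] (T : Subgroup G) [T.Normal] (hT : IsSimpleGroup T) (hna : ¬ IsMulCommutative T)
    (hC : Subgroup.centralizer (T : Set G) = ⊥) {r : ℕ} [Fact r.Prime] (R : Sylow r G) (hR0 : (R : Subgroup G) ⊓ T ≠ ⊥) :
    (∃! M : Subgroup G, IsCoatom M ∧ (R : Subgroup G) ≤ M) ↔
      ((∃ M : Subgroup G, IsCoatom M ∧ ¬ r ∣ M.index) ∧
        ∀ M₁ M₂ : Subgroup G, IsCoatom M₁ → ¬ r ∣ M₁.index → IsCoatom M₂ → ¬ r ∣ M₂.index → ∃ g : G, M₂ = M₁.map (MulAut.conj g).toMonoidHom) := by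
    classical
  constructor
  · rintro ⟨M, ⟨hM, hRM⟩, huniq⟩
    have hidx : ¬ r ∣ M.index := fun h => R.not_dvd_index (h.trans (Subgroup.index_dvd_of_le hRM))
    refine ⟨⟨M, hM, hidx⟩, ?_⟩
    intro M₁ M₂ hM₁ hr₁ hM₂ hr₂
    obtain ⟨g₁, hg₁⟩ := H18.exists_sylow_le_conj R M₁ hr₁
    obtain ⟨g₂, hg₂⟩ := H18.exists_sylow_le_conj R M₂ hr₂
    have e₁ := huniq _ ⟨H18.isCoatom_map_conj hM₁ g₁, hg₁⟩
    have e₂ := huniq _ ⟨H18.isCoatom_map_conj hM₂ g₂, hg₂⟩
    refine ⟨g₂⁻¹ * g₁, ?_⟩
    have : M₂.map (MulAut.conj g₂).toMonoidHom = M₁.map (MulAut.conj g₁).toMonoidHom := by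
      rw [e₁, e₂]
    rw [H18.map_conj_mul, ← this, ← H18.map_conj_mul, inv_mul_cancel, H18.map_conj_one]
  · rintro ⟨⟨M₀, hM₀, hr₀⟩, hconj⟩
    -- the normalizer of `R` is proper
    have hNR : Subgroup.normalizer ((R : Subgroup G) : Set G) ≠ ⊤ := by
      intro h
      have hQ : IsPGroup r ((R : Subgroup G) ⊓ T : Subgroup G) :=
        R.2.to_le inf_le_left
      apply H18.normalizer_ne_top_of_pgroup_le_simple hT hna inf_le_right hQ hR0
      have hn : (R : Subgroup G).Normal := Subgroup.normalizer_eq_top_iff.1 h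
      exact Subgroup.normalizer_eq_top_iff.2 inferInstance
    obtain ⟨M, hM, hNM⟩ : ∃ M : Subgroup G, IsCoatom M ∧ Subgroup.normalizer ((R : Subgroup G) : Set G) ≤ M := by
      obtain h | ⟨M, hM, hle⟩ := eq_top_or_exists_le_coatom (Subgroup.normalizer ((R : Subgroup G) : Set G))
      · exact absurd h hNR
      · exact ⟨M, hM, hle⟩
    have hRM : (R : Subgroup G) ≤ M := le_trans Subgroup.le_normalizer hNM
    have hrM : ¬ r ∣ M.index := fun h => R.not_dvd_index (h.trans (Subgroup.index_dvd_of_le hRM))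
    refine ⟨M, ⟨hM, hRM⟩, ?_⟩
    rintro M' ⟨hM', hRM'⟩
    have hrM' : ¬ r ∣ M'.index := fun h => R.not_dvd_index (h.trans (Subgroup.index_dvd_of_le hRM'))
    obtain ⟨g, rfl⟩ := hconj M M' hM hrM hM' hrM'
    -- `R^(g⁻¹)` and `R` lie in `M`
    have h1 : ((H18.sylowConj R g⁻¹ : Sylow r G) : Subgroup G) ≤ M := by
      rw [H18.coe_sylowConj]
      intro x hx
      obtain ⟨y, hy, rfl⟩ := hx
      have := hRM' hy
      rw [H18.mem_conj] at this
      simpa using this
    obtain ⟨m, hm, hmR⟩ := H18.exists_conj_of_sylows_le R (H18.sylowConj R g⁻¹) M hRM h1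
    rw [H18.coe_sylowConj] at hmR
    have hgm : g * m ∈ Subgroup.normalizer ((R : Subgroup G) : Set G) := by
      apply H18.mem_normalizer_of_map_conj_eq
      rw [H18.map_conj_mul, ← hmR, ← H18.map_conj_mul, mul_inv_cancel, H18.map_conj_one]
    have hgM : g ∈ M := by
      have := M.mul_mem (hNM hgm) (M.inv_mem hm)
      simpa using this
    have hMM : M.map (MulAut.conj g).toMonoidHom = M := by
      apply le_antisymm
      · rintro _ ⟨y, hy, rfl⟩
        exact M.mul_mem (M.mul_mem hgM hy) (M.inv_mem hgM)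
      · intro y hy
        rw [H18.mem_conj]
        exact M.mul_mem (M.mul_mem (M.inv_mem hgM) hy) hgM
    exact hMM.symm ▸ hMM.symm ▸ rfl

end Cfsg.Agent.S3858
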