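import Cfsg.Statements.S3859
import Mathlib
import Cfsg.Agent.Lib.H18.AlmostSimple

set_option autoImplicit false
open Cfsg

namespace Cfsg.Agent.S3859

/-- Let G be a finite group with a normal non-abelian simple subgroup T whose centralizer is trivial (G almost simple with socle T), r a prime and R a Sylow r-subgroup of G meeting T nontrivially. If R lies in exactly one maximal subgroup of G, then G/T is an r-group. -/
theorem result {G : Type*} [Group G] [Finite G] (T : Subgroup G) [T.Normal] (hT : IsSimpleGroup T) (hna : ¬ IsMulCommutative T)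
    (hC : Subgroup.centralizer (T : Set G) = ⊥) {r : ℕ} [Fact r.Prime] (R : Sylow r G) (hR0 : (R : Subgroup G) ⊓ T ≠ ⊥)
    (huniq : ∃! M : Subgroup G, IsCoatom M ∧ (R : Subgroup G) ≤ M) : IsPGroup r (G ⧸ T) := by
    classical
  obtain ⟨M, ⟨hM, hRM⟩, huniq⟩ := huniq
  by_cases hTR : T ⊔ (R : Subgroup G) = ⊤
  · intro g
    induction g using QuotientGroup.induction_on with
    | H g =>
    have hg : g ∈ (R : Subgroup G) ⊔ T := by rw [sup_comm, hTR]; trivial
    obtain ⟨x, hx, y, hy, rfl⟩ := H18.mem_sup_normal_right.1 hg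
    obtain ⟨k, hk⟩ := R.2 ⟨x, hx⟩
    refine ⟨k, ?_⟩
    have hxk : x ^ r ^ k = 1 := by simpa using congrArg Subtype.val hk
    have : ((x * y : G) : G ⧸ T) = (x : G ⧸ T) := by
      rw [QuotientGroup.eq]; simpa using hy
    rw [this, ← QuotientGroup.mk_pow, hxk]
    rfl
  · exfalso
    have hTM : T ≤ M := by
      obtain h | ⟨M', hM', hle⟩ := eq_top_or_exists_le_coatom (T ⊔ (R : Subgroup G))
      · exact absurd h hTR
      · have := huniq M' ⟨hM', le_sup_right.trans hle⟩
        rw [← this]
        exact le_sup_left.trans hle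
    have hQ : IsPGroup r ((R : Subgroup G) ⊓ T : Subgroup G) := R.2.to_le inf_le_left
    have hN := H18.normalizer_ne_top_of_pgroup_le_simple hT hna inf_le_right hQ hR0
    have hRN : (R : Subgroup G) ≤ Subgroup.normalizer (((R : Subgroup G) ⊓ T : Subgroup G) : Set G) := by
      rw [Subgroup.le_normalizer_iff]
      rintro h hh k ⟨hk1, hk2⟩
      exact ⟨(R : Subgroup G).mul_mem ((R : Subgroup G).mul_mem hh hk1) ((R : Subgroup G).inv_mem hh),
        ‹T.Normal›.conj_mem k hk2 h⟩
    obtain h | ⟨M', hM', hle⟩ := eq_top_or_exists_le_coatom (Subgroup.normalizer (((R : Subgroup G) ⊓ T : Subgroup G) : Set G))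
    · exact hN h
    · have := huniq M' ⟨hM', hRN.trans hle⟩
      rw [this] at hle
      have hf := H18.frattini_inf R T
      have : (⊤ : Subgroup G) ≤ M := by
        rw [← hf]
        exact sup_le hle hTM
      exact hM.1 (top_le_iff.1 this)

end Cfsg.Agent.S3859
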