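import Cfsg.Statements.S3861
import Mathlib
import Cfsg.Agent.Lib.H19.Normal2
import Cfsg.Agent.Lib.H18.PGroup

set_option autoImplicit false
open Cfsg

namespace Cfsg.Agent.S3861

/-- A finite group G has no non-identity element of odd order that is conjugate to its inverse if and only if the Sylow 2-subgroups of G are normal. -/
theorem result {G : Type*} [Group G] [Finite G] (P : Sylow 2 G) : (∀ x : G, x ≠ 1 → Odd (orderOf x) → ¬ IsConj x x⁻¹) ↔ (P : Subgroup G).Normal := by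
  haveI hF2 : Fact (Nat.Prime 2) := ⟨Nat.prime_two⟩
  constructor
  · intro h
    refine H19.normal_sylow_two_of_no_inverting _ G rfl ?_ P
    intro t y _ hodd hty
    by_contra hy
    exact h y hy hodd (isConj_iff.mpr ⟨t, hty⟩)
  · intro hP x hx hodd hconj
    obtain ⟨c, hc⟩ := isConj_iff.mp hconj
    obtain ⟨k, m, hm, hord⟩ := Nat.exists_eq_two_pow_mul_odd (orderOf_pos c).ne'
    have hc2 : c * c * x * (c * c)⁻¹ = x := by
      have : c * c * x * (c * c)⁻¹ = c * (c * x * c⁻¹) * c⁻¹ := by group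
      rw [this, hc]
      have h2 : c * x⁻¹ * c⁻¹ = (c * x * c⁻¹)⁻¹ := by group
      rw [h2, hc, inv_inv]
    have hodd_pow : ∀ n : ℕ, c ^ (2 * n + 1) * x * (c ^ (2 * n + 1))⁻¹ = x⁻¹ := by
      intro n
      induction n with
      | zero => simpa using hc
      | succ n ih =>
        have h3 : c ^ (2 * (n + 1) + 1) = (c * c) * c ^ (2 * n + 1) := by
          rw [← pow_two, ← pow_add]
          congr 1
          ring
        rw [h3]
        have h4 : (c * c) * c ^ (2 * n + 1) * x * ((c * c) * c ^ (2 * n + 1))⁻¹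
            = (c * c) * (c ^ (2 * n + 1) * x * (c ^ (2 * n + 1))⁻¹) * (c * c)⁻¹ := by group
        rw [h4, ih]
        have h5 : c * c * x⁻¹ * (c * c)⁻¹ = (c * c * x * (c * c)⁻¹)⁻¹ := conj_inv.symm
        rw [h5, hc2]
    obtain ⟨n, rfl⟩ := hm
    set t := c ^ (2 * n + 1) with ht
    have htx : t * x * t⁻¹ = x⁻¹ := hodd_pow n
    have ht2 : t ^ 2 ^ k = 1 := by
      rw [ht, ← pow_mul, mul_comm, ← hord, pow_orderOf_eq_one]
    have hzp : IsPGroup 2 (Subgroup.zpowers t) := by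
      apply IsPGroup.of_card_dvd_pow (n := k)
      rw [Nat.card_zpowers]
      exact orderOf_dvd_of_pow_eq_one ht2
    have htP : t ∈ (P : Subgroup G) := H18.le_of_isPGroup_of_normal_sylow P hP hzp (Subgroup.mem_zpowers t)
    have hw : x⁻¹ * x⁻¹ ∈ (P : Subgroup G) := by
      have h1 : t * x * t⁻¹ * x⁻¹ = x⁻¹ * x⁻¹ := by rw [htx]
      rw [← h1]
      have h2 : x * t⁻¹ * x⁻¹ ∈ (P : Subgroup G) := hP.conj_mem _ (Subgroup.inv_mem _ htP) x
      have h3 : t * x * t⁻¹ * x⁻¹ = t * (x * t⁻¹ * x⁻¹) := by group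
      rw [h3]
      exact Subgroup.mul_mem _ htP h2
    obtain ⟨j, hj⟩ := P.isPGroup' ⟨x⁻¹ * x⁻¹, hw⟩
    have hj2 : (x⁻¹ * x⁻¹) ^ 2 ^ j = 1 := by
      have := congrArg (fun y : (P : Subgroup G) => (y : G)) hj
      simpa using this
    have hd1 : orderOf (x⁻¹ * x⁻¹) ∣ 2 ^ j := orderOf_dvd_of_pow_eq_one hj2
    have hd2 : orderOf (x⁻¹ * x⁻¹) ∣ orderOf x := by
      apply orderOf_dvd_of_pow_eq_one
      rw [← pow_two, ← pow_mul, mul_comm, pow_mul, inv_pow, pow_orderOf_eq_one]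
      simp
    have hcop : Nat.Coprime (2 ^ j) (orderOf x) := Nat.Coprime.pow_left _ (Nat.coprime_two_left.mpr hodd)
    have h1 : orderOf (x⁻¹ * x⁻¹) = 1 := Nat.eq_one_of_dvd_coprimes hcop hd1 hd2
    have h2 : x⁻¹ * x⁻¹ = 1 := orderOf_eq_one_iff.mp h1
    have h3 : x ^ 2 = 1 := by
      have : (x⁻¹ * x⁻¹)⁻¹ = 1 := by rw [h2, inv_one]
      rw [pow_two]
      simpa using this
    have h4 : orderOf x ∣ 2 := orderOf_dvd_of_pow_eq_one h3
    have h5 : orderOf x = 1 := by
      have h6 := (Nat.dvd_prime Nat.prime_two).mp h4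
      rcases h6 with h6 | h6
      · exact h6
      · rw [h6] at hodd
        exact absurd hodd (by decide)
    exact hx (orderOf_eq_one_iff.mp h5)

end Cfsg.Agent.S3861
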