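import Cfsg.Statements.S3862
import Mathlib
import Cfsg.Agent.Lib.H13.FrobFusion
import Cfsg.Agent.Lib.H18.OddAct

set_option autoImplicit false
open Cfsg

namespace Cfsg.Agent.S3862


open Cfsg

variable {G : Type*} [Group G]

/-- The element `x = [y, w]` is real. -/
theorem real_of_structure {Q E : Subgroup G} {y w : G}
    (hy : ∀ u ∈ Q, y * u * y⁻¹ ∈ Q)
    (hc : ∀ u ∈ Q, ∀ v ∈ Q, u * v * u⁻¹ * v⁻¹ ∈ E)
    (hE1 : ∀ e ∈ E, y * e = e * y) (hE2 : ∀ e ∈ E, ∀ v ∈ Q, e * v = v * e)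
    (hE3 : ∀ e ∈ E, e ^ 2 = 1) (hsq : ∀ u ∈ Q, u ^ 2 ∈ E) (hEQ : E ≤ Q)
    (hw : w ∈ Q) {n : ℕ} (hn : Odd n) (hyn : y ^ n = 1) :
    ∃ h ∈ Q, h * (y * w * y⁻¹ * w⁻¹) * h⁻¹ = (y * w * y⁻¹ * w⁻¹)⁻¹ := by
  set x := y * w * y⁻¹ * w⁻¹ with hxdef
  have hxQ : x ∈ Q := Q.mul_mem (hy w hw) (Q.inv_mem hw)
  -- commutators
  let c : G → G → G := fun u v => u * v * u⁻¹ * v⁻¹
  have hcdef : ∀ u v, c u v = u * v * u⁻¹ * v⁻¹ := fun _ _ => rfl
  have hcE : ∀ u ∈ Q, ∀ v ∈ Q, c u v ∈ E := hc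
  have hswap : ∀ u ∈ Q, ∀ v ∈ Q, u * v = c u v * v * u := by
    intro u _ v _
    rw [hcdef]; group
  have hbil1 : ∀ a ∈ Q, ∀ b ∈ Q, ∀ d ∈ Q, c (a * b) d = c a d * c b d := by
    intro a ha b hb d hd
    have h1 : c (a * b) d = a * (c b d) * d * a⁻¹ * d⁻¹ := by
      simp only [hcdef]; group
    have he := hE2 _ (hcE b hb d hd) a ha
    calc c (a * b) d = a * c b d * d * a⁻¹ * d⁻¹ := h1
      _ = c b d * a * d * a⁻¹ * d⁻¹ := by rw [he]
      _ = c b d * c a d := by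
        rw [hcdef a d]; group
      _ = c a d * c b d := hE2 _ (hcE b hb d hd) _ (hEQ (hcE a ha d hd))
  have hbil2 : ∀ a ∈ Q, ∀ b ∈ Q, ∀ d ∈ Q, c a (b * d) = c a b * c a d := by
    intro a ha b hb d hd
    have h1 : c a (b * d) = c a b * (b * (c a d) * b⁻¹) := by
      simp only [hcdef]; group
    rw [h1, ← hE2 _ (hcE a ha d hd) b hb, mul_inv_cancel_right]
  have hconjc : ∀ a b, y * c a b * y⁻¹ = c (y * a * y⁻¹) (y * b * y⁻¹) := by
    intro a b
    simp only [hcdef]; group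
  have hyfix : ∀ e ∈ E, y * e * y⁻¹ = e := by
    intro e he
    rw [hE1 e he]; group
  -- the conjugates of `x` and `w`
  let X : ℕ → G := fun k => y ^ k * x * (y ^ k)⁻¹
  let W : ℕ → G := fun k => y ^ k * w * (y ^ k)⁻¹
  have hpowQ : ∀ k, ∀ u ∈ Q, y ^ k * u * (y ^ k)⁻¹ ∈ Q := by
    intro k
    induction k with
    | zero => intro u hu; simpa using hu
    | succ k ih =>
      intro u hu
      have : y ^ (k + 1) * u * (y ^ (k + 1))⁻¹ = y * (y ^ k * u * (y ^ k)⁻¹) * y⁻¹ := by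
        rw [pow_succ']; group
      rw [this]
      exact hy _ (ih u hu)
  have hXQ : ∀ k, X k ∈ Q := fun k => hpowQ k x hxQ
  have hWQ : ∀ k, W k ∈ Q := fun k => hpowQ k w hw
  have hXs : ∀ k, X (k + 1) = y * X k * y⁻¹ := by
    intro k
    show y ^ (k + 1) * x * (y ^ (k + 1))⁻¹ = y * (y ^ k * x * (y ^ k)⁻¹) * y⁻¹
    rw [pow_succ']; group
  have hXW : ∀ k, X k = W (k + 1) * (W k)⁻¹ := by
    intro k
    show y ^ k * (y * w * y⁻¹ * w⁻¹) * (y ^ k)⁻¹
      = (y ^ (k + 1) * w * (y ^ (k + 1))⁻¹) * (y ^ k * w * (y ^ k)⁻¹)⁻¹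
    rw [pow_succ']; group
  -- partial products
  let s : ℕ → G := fun k => Nat.rec 1 (fun k ih => ih * X k) k
  have hs0 : s 0 = 1 := rfl
  have hss : ∀ k, s (k + 1) = s k * X k := fun _ => rfl
  have hsQ : ∀ k, s k ∈ Q := by
    intro k
    induction k with
    | zero => exact Q.one_mem
    | succ k ih => rw [hss]; exact Q.mul_mem ih (hXQ k)
  -- telescoping
  have htel : ∀ k, ∃ e ∈ E, s k = W k * (W 0)⁻¹ * e := by
    intro k
    induction k with
    | zero =>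
      refine ⟨1, E.one_mem, ?_⟩
      simp [hs0]
    | succ k ih =>
      obtain ⟨e, he, hk⟩ := ih
      have ha : W k * (W 0)⁻¹ ∈ Q := Q.mul_mem (hWQ k) (Q.inv_mem (hWQ 0))
      have hinv0 : (W 0)⁻¹ ∈ Q := Q.inv_mem (hWQ 0)
      refine ⟨e * c (W k * (W 0)⁻¹) (W (k + 1)) * c (W k) (W 0)⁻¹,
        E.mul_mem (E.mul_mem he (hcE _ ha _ (hWQ _))) (hcE _ (hWQ k) _ hinv0), ?_⟩
      rw [hss, hk, hXW k]
      have h1 : W k * (W 0)⁻¹ * e * (W (k + 1) * (W k)⁻¹)
          = e * (W k * (W 0)⁻¹ * W (k + 1)) * (W k)⁻¹ := by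
        rw [show W k * (W 0)⁻¹ * e = e * (W k * (W 0)⁻¹) from (hE2 e he _ ha).symm]
        group
      rw [h1, hswap _ ha _ (hWQ (k + 1))]
      have h2 : e * (c (W k * (W 0)⁻¹) (W (k + 1)) * W (k + 1) * (W k * (W 0)⁻¹)) * (W k)⁻¹
          = e * c (W k * (W 0)⁻¹) (W (k + 1)) * W (k + 1) * (W k * (W 0)⁻¹ * (W k)⁻¹) := by group
      rw [h2]
      have h3 : W k * (W 0)⁻¹ * (W k)⁻¹ = c (W k) (W 0)⁻¹ * (W 0)⁻¹ := by
        simp only [hcdef]; group
      rw [h3]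
      have h4 := hE2 _ (hcE _ (hWQ k) _ hinv0) (W (k + 1)) (hWQ _)
      calc e * c (W k * (W 0)⁻¹) (W (k + 1)) * W (k + 1) * (c (W k) (W 0)⁻¹ * (W 0)⁻¹)
          = e * c (W k * (W 0)⁻¹) (W (k + 1)) * (W (k + 1) * c (W k) (W 0)⁻¹) * (W 0)⁻¹ := by group
        _ = e * c (W k * (W 0)⁻¹) (W (k + 1)) * (c (W k) (W 0)⁻¹ * W (k + 1)) * (W 0)⁻¹ := by rw [h4]
        _ = e * c (W k * (W 0)⁻¹) (W (k + 1)) * c (W k) (W 0)⁻¹ * (W (k + 1) * (W 0)⁻¹) := by group
        _ = W (k + 1) * (W 0)⁻¹ * (e * c (W k * (W 0)⁻¹) (W (k + 1)) * c (W k) (W 0)⁻¹) :=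
          hE2 _ (E.mul_mem (E.mul_mem he (hcE _ ha _ (hWQ _))) (hcE _ (hWQ k) _ hinv0)) _
            (Q.mul_mem (hWQ _) hinv0)
  have hWn : W n = W 0 := by
    show y ^ n * w * (y ^ n)⁻¹ = y ^ 0 * w * (y ^ 0)⁻¹
    rw [hyn]; simp
  have hsn : s n ∈ E := by
    obtain ⟨e, he, hk⟩ := htel n
    rw [hk, hWn]
    simpa using he
  -- second recursion
  let T : ℕ → G := fun k => y * s k * y⁻¹
  have hTQ : ∀ k, T k ∈ Q := fun k => hy _ (hsQ k)
  have hT0 : T 0 = 1 := by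
    show y * s 0 * y⁻¹ = 1
    rw [hs0]; group
  have hTs : ∀ k, T (k + 1) = T k * X (k + 1) := by
    intro k
    show y * s (k + 1) * y⁻¹ = y * s k * y⁻¹ * X (k + 1)
    rw [hss, hXs]; group
  have hX0 : X 0 = x := by
    show y ^ 0 * x * (y ^ 0)⁻¹ = x
    simp
  have hsT : ∀ k, s (k + 1) = x * T k := by
    intro k
    induction k with
    | zero => rw [hss, hs0, hX0, hT0]; simp
    | succ k ih => rw [hss (k + 1), ih, hTs]; group
  -- key commutator identity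
  have hB1 : ∀ k, c (X k) (s k) = c (T k) x := by
    intro k
    induction k with
    | zero =>
      rw [hs0, hT0]
      simp [hcdef]
    | succ k ih =>
      rw [hsT k, hbil2 _ (hXQ _) _ hxQ _ (hTQ k), hTs, hbil1 _ (hTQ k) _ (hXQ _) _ hxQ]
      have h1 : c (X (k + 1)) (T k) = c (T k) x := by
        rw [← ih, hXs]
        show c (y * X k * y⁻¹) (y * s k * y⁻¹) = _
        rw [← hconjc]
        exact hyfix _ (hcE _ (hXQ k) _ (hsQ k))
      rw [h1]
      exact (hE2 _ (hcE _ (hXQ _) _ hxQ) _ (hEQ (hcE _ (hTQ k) _ hxQ)))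
  -- squares
  set z := x ^ 2 with hz
  have hzE : z ∈ E := hsq x hxQ
  have hXsq : ∀ k, X k ^ 2 = z := by
    intro k
    induction k with
    | zero => rw [hX0]
    | succ k ih =>
      rw [hXs, conj_pow, ih]
      exact hyfix z hzE
  let h : ℕ → G := fun k => Nat.rec 1 (fun k ih => ih * T k) k
  have hh0 : h 0 = 1 := rfl
  have hhs : ∀ k, h (k + 1) = h k * T k := fun _ => rfl
  have hhQ : ∀ k, h k ∈ Q := by
    intro k
    induction k with
    | zero => exact Q.one_mem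
    | succ k ih => rw [hhs]; exact Q.mul_mem ih (hTQ k)
  have hB : ∀ k, s k ^ 2 = z ^ k * c (h k) x := by
    intro k
    induction k with
    | zero =>
      rw [hs0, hh0]
      simp [hcdef]
    | succ k ih =>
      have h1 : (s k * X k) ^ 2 = s k ^ 2 * X k ^ 2 * c (X k) (s k) := by
        have h2 : X k * s k = c (X k) (s k) * s k * X k := hswap _ (hXQ k) _ (hsQ k)
        have h3 : (s k * X k) ^ 2 = s k * (X k * s k) * X k := by
          rw [pow_two]; group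
        rw [h3, h2]
        have h4 := hE2 _ (hcE _ (hXQ k) _ (hsQ k)) (s k) (hsQ k)
        calc s k * (c (X k) (s k) * s k * X k) * X k
            = (s k * c (X k) (s k)) * (s k * (X k * X k)) := by group
          _ = (c (X k) (s k) * s k) * (s k * (X k * X k)) := by rw [← h4]
          _ = c (X k) (s k) * (s k ^ 2 * X k ^ 2) := by
            rw [pow_two, pow_two]; group
          _ = s k ^ 2 * X k ^ 2 * c (X k) (s k) :=
            hE2 _ (hcE _ (hXQ k) _ (hsQ k)) _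
              (Q.mul_mem (Q.pow_mem (hsQ k) 2) (Q.pow_mem (hXQ k) 2))
      rw [hss, h1, ih, hXsq, hB1, hhs, hbil1 _ (hhQ k) _ (hTQ k) _ hxQ, pow_succ]
      have h5 := hE2 _ (hcE _ (hhQ k) _ hxQ) z (hEQ hzE)
      calc z ^ k * c (h k) x * z * c (T k) x = z ^ k * (c (h k) x * z) * c (T k) x := by group
        _ = z ^ k * (z * c (h k) x) * c (T k) x := by rw [h5]
        _ = z ^ k * z * (c (h k) x * c (T k) x) := by group
  -- conclusion
  refine ⟨h n, hhQ n, ?_⟩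
  have h1 := hB n
  rw [hE3 _ hsn] at h1
  have hzn : z ^ n = z := by
    obtain ⟨m, rfl⟩ := hn
    rw [pow_succ, pow_mul, hE3 z hzE, one_pow, one_mul]
  rw [hzn] at h1
  have hz2 : z * z = 1 := by rw [← pow_two]; exact hE3 z hzE
  have h2 : c (h n) x = z := by
    have h3 : c (h n) x = z * (z * c (h n) x) := by
      rw [← mul_assoc, hz2, one_mul]
    rw [h3, ← h1, mul_one]
  have hx4 : x * x * (x * x) = 1 := by
    have := hz2
    rw [hz, pow_two] at this
    exact this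
  have h3 : h n * x * (h n)⁻¹ * x⁻¹ = x * x := by
    have : c (h n) x = h n * x * (h n)⁻¹ * x⁻¹ := rfl
    rw [← this, h2, hz, pow_two]
  have h4 : h n * x * (h n)⁻¹ = x * x * x := by
    calc h n * x * (h n)⁻¹ = (h n * x * (h n)⁻¹ * x⁻¹) * x := by group
      _ = x * x * x := by rw [h3]
  rw [h4]
  apply eq_inv_of_mul_eq_one_left
  calc x * x * x * x = x * x * (x * x) := by group
    _ = 1 := hx4



/-- If every 2-element of the finite group G that is conjugate to its inverse lies in the centre of G, then G has a normal 2-complement. -/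
theorem result {G : Type*} [Group G] [Finite G] (h : ∀ x : G, (∃ j : ℕ, orderOf x = 2 ^ j) → IsConj x x⁻¹ → x ∈ Subgroup.center G) : Cfsg.HasNormalPComplement 2 G := by
  classical
  haveI hF2 : Fact (Nat.Prime 2) := ⟨Nat.prime_two⟩
  apply H13.hasNormalPComplement_of_frobCond
  intro Q hQ y hyN hyc
  by_contra hnc
  have hyodd : Odd (orderOf y) := Nat.coprime_two_right.mp hyc
  -- a minimal subgroup
  let S : Set (Subgroup G) := {R | R ≤ Q ∧ y ∈ Subgroup.normalizer (R : Set G) ∧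
    y ∉ Subgroup.centralizer (R : Set G)}
  have hS : S.Nonempty := ⟨Q, le_rfl, hyN, hnc⟩
  obtain ⟨R, hR, hRmin⟩ := S.toFinite.exists_minimal hS
  obtain ⟨hRQ, hRN, hRc⟩ := hR
  have hRp : IsPGroup 2 R := hQ.to_le hRQ
  have hmin : ∀ R' : Subgroup G, R' < R → y ∈ Subgroup.normalizer (R' : Set G) →
      y ∈ Subgroup.centralizer (R' : Set G) := by
    intro R' hlt hN'
    by_contra hc'
    have : R' ∈ S := ⟨hlt.le.trans hRQ, hN', hc'⟩
    exact absurd (hRmin this hlt.le) (not_le_of_gt hlt)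
  obtain ⟨h1, h2, h3⟩ := H18.min_structure hRp hRN hyodd hRc hmin
  have hy1 : ∀ u ∈ R, y * u * y⁻¹ ∈ R := fun u hu => (Subgroup.mem_normalizer_iff.mp hRN u).mp hu
  -- an element moved
  have hexw : ∃ w ∈ R, y * w * y⁻¹ * w⁻¹ ≠ 1 := by
    by_contra hall
    push_neg at hall
    apply hRc
    rw [Subgroup.mem_centralizer_iff]
    intro u hu
    have h4 := hall u hu
    have h5 : y * u * y⁻¹ = u := by simpa using congrArg (· * u) h4
    have h6 : y * u = u * y := by simpa using congrArg (· * y) h5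
    exact h6.symm
  obtain ⟨w, hw, hwne⟩ := hexw
  obtain ⟨h', -, hconj⟩ := real_of_structure hy1 (fun u hu v hv => H18.comm_mem_sqSub hu hv) h1 h2 h3
    (fun u hu => H18.sq_mem_sqSub hu) (H18.sqSub_le R) hw hyodd (pow_orderOf_eq_one y)
  set x := y * w * y⁻¹ * w⁻¹ with hx
  have hxR : x ∈ R := R.mul_mem (hy1 w hw) (R.inv_mem hw)
  have hord : ∃ j : ℕ, orderOf x = 2 ^ j := by
    obtain ⟨j, hj⟩ := hRp ⟨x, hxR⟩
    have h7 : x ^ 2 ^ j = 1 := by
      have := congrArg (fun t : R => (t : G)) hj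
      simpa using this
    have h8 : orderOf x ∣ 2 ^ j := orderOf_dvd_of_pow_eq_one h7
    obtain ⟨i, -, hi⟩ := (Nat.dvd_prime_pow Nat.prime_two).mp h8
    exact ⟨i, hi⟩
  have hcen := h x hord (isConj_iff.mpr ⟨h', hconj⟩)
  have hcomm : y * x = x * y := (Subgroup.mem_center_iff.mp hcen y)
  -- but then `x = 1`
  have := H13.eq_one_of_fixed_comm (p := 2) hRp (g := y) (x := w) hyc hxR hcomm
  exact hwne this

end Cfsg.Agent.S3862
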