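import Cfsg.Statements.S3863
import Mathlib

set_option autoImplicit false
open Cfsg

namespace Cfsg.Agent.S3863

/-- Let x be an element of the finite group G that is conjugate to its inverse. Then some 2-element conjugates x to its inverse; if the conjugacy class of x has odd size then x ^ 2 = 1; and x lies in, and is conjugate to its inverse inside, every normal subgroup of odd index. -/
theorem result {G : Type*} [Group G] [Finite G] (x : G) (hx : IsConj x x⁻¹) : (∃ t : G, (∃ j : ℕ, orderOf t = 2 ^ j) ∧ t * x * t⁻¹ = x⁻¹) ∧ (Odd (Subgroup.centralizer ({x} : Set G)).index → x ^ 2 = 1) ∧ ∀ (N : Subgroup G) [N.Normal], Odd N.index → ∃ hxN : x ∈ N, IsConj (⟨x, hxN⟩ : N) (⟨x, hxN⟩ : N)⁻¹ := by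
    classical
  obtain ⟨c, hc⟩ := isConj_iff.1 hx
  have hc2 : Commute (c ^ 2) x := by
    have h1 : c * (c * x * c⁻¹) * c⁻¹ = x := by
      rw [hc]
      have : c * x⁻¹ * c⁻¹ = (c * x * c⁻¹)⁻¹ := by group
      rw [this, hc, inv_inv]
    change c ^ 2 * x = x * c ^ 2
    calc c ^ 2 * x = (c * (c * x * c⁻¹) * c⁻¹) * c ^ 2 := by
          rw [pow_two]; group
      _ = x * c ^ 2 := by rw [h1]
  -- part (a)
  have ha : ∃ t : G, (∃ j : ℕ, orderOf t = 2 ^ j) ∧ t * x * t⁻¹ = x⁻¹ := by
    obtain ⟨j, m, hm, hord⟩ := Nat.exists_eq_two_pow_mul_odd (n := orderOf c) (orderOf_pos c).ne'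
    refine ⟨c ^ m, ⟨j, ?_⟩, ?_⟩
    · have hm0 : m ≠ 0 := hm.pos.ne'
      rw [orderOf_pow' c hm0, hord, Nat.gcd_mul_left_left, Nat.mul_div_cancel _ hm.pos]
    · obtain ⟨k, rfl⟩ := hm
      have hk : Commute ((c ^ 2) ^ k) x := hc2.pow_left k
      have e : c ^ (2 * k + 1) = c * (c ^ 2) ^ k := by
        rw [← pow_mul, pow_succ, (Commute.pow_right (Commute.refl c) (2 * k)).eq]
      rw [e, mul_inv_rev, mul_assoc c, hk.eq]
      calc c * (x * (c ^ 2) ^ k) * (((c ^ 2) ^ k)⁻¹ * c⁻¹) = c * x * c⁻¹ := by group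
        _ = x⁻¹ := hc
  refine ⟨ha, ?_, ?_⟩
  · -- part (b)
    intro hodd
    set C := Subgroup.centralizer ({x} : Set G) with hC
    have hmemC : ∀ y : G, y ∈ C ↔ y * x = x * y := by
      intro y
      rw [hC, Subgroup.mem_centralizer_singleton_iff]
    have hcN : c ∈ Subgroup.normalizer (C : Set G) := by
      rw [Subgroup.mem_normalizer_iff]
      intro y
      rw [hmemC, hmemC]
      have hxc : c⁻¹ * x⁻¹ * c = x := by rw [← hc]; group
      constructor
      · intro hy
        have hy' : y * x⁻¹ = x⁻¹ * y := by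
          have := congrArg (fun z => x⁻¹ * z * x⁻¹) hy
          simpa [mul_assoc] using this.symm
        have h2 : (c * y * c⁻¹) * (c * x * c⁻¹) = (c * x * c⁻¹) * (c * y * c⁻¹) := by
          calc _ = c * (y * x) * c⁻¹ := by group
            _ = c * (x * y) * c⁻¹ := by rw [hy]
            _ = _ := by group
        rw [hc] at h2
        have := congrArg (fun z => x * z * x) h2
        simpa [mul_assoc] using this.symm
      · intro hy
        have h2 : (c * y * c⁻¹) * x⁻¹ = x⁻¹ * (c * y * c⁻¹) := by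
          have := congrArg (fun z => x⁻¹ * z * x⁻¹) hy
          simpa [mul_assoc] using this.symm
        rw [← hc] at h2
        have h3 : c * (y * x) * c⁻¹ = c * (x * y) * c⁻¹ := by
          calc _ = (c * y * c⁻¹) * (c * x * c⁻¹) := by group
            _ = (c * x * c⁻¹) * (c * y * c⁻¹) := h2
            _ = _ := by group
        simpa using h3
    set N := Subgroup.normalizer (C : Set G) with hN
    have hCN : C ≤ N := Subgroup.le_normalizer
    haveI : (C.subgroupOf N).Normal := Subgroup.normal_in_normalizer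
    set q : N ⧸ C.subgroupOf N := QuotientGroup.mk (⟨c, hcN⟩ : N) with hq
    have hq2 : q ^ 2 = 1 := by
      rw [hq, ← QuotientGroup.mk_pow, QuotientGroup.eq_one_iff, Subgroup.mem_subgroupOf]
      exact (hmemC _).2 hc2
    have h1 : orderOf q ∣ 2 := orderOf_dvd_of_pow_eq_one hq2
    have h2 : orderOf q ∣ Nat.card (N ⧸ C.subgroupOf N) := orderOf_dvd_natCard q
    have h3 : Nat.card (N ⧸ C.subgroupOf N) ∣ C.index := by
      have := Subgroup.relIndex_mul_index hCN
      exact ⟨_, this.symm⟩
    have h4 : Odd (orderOf q) := Odd.of_dvd_nat hodd (h2.trans h3)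
    have h5 : orderOf q = 1 := by
      rcases (Nat.dvd_prime Nat.prime_two).1 h1 with h | h
      · exact h
      · rw [h] at h4; exact absurd h4 (by decide)
    have hq1 : q = 1 := orderOf_eq_one_iff.1 h5
    have hcC : c ∈ C := by
      rw [hq, QuotientGroup.eq_one_iff, Subgroup.mem_subgroupOf] at hq1
      exact hq1
    have hcx := (hmemC c).1 hcC
    have : x = x⁻¹ := by rw [← hc, hcx]; group
    rw [pow_two]
    nth_rw 2 [this]
    simp
  · -- part (c)
    intro N _ hodd
    obtain ⟨t, ⟨j, htj⟩, ht⟩ := ha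
    have hqodd : ∀ g : G, ∀ k : ℕ, g ^ 2 ^ k ∈ N → g ∈ N := by
      intro g k hg
      have h1 : orderOf (g : G ⧸ N) ∣ 2 ^ k := by
        apply orderOf_dvd_of_pow_eq_one
        rw [← QuotientGroup.mk_pow, QuotientGroup.eq_one_iff]
        exact hg
      have h2 : Odd (orderOf (g : G ⧸ N)) := Odd.of_dvd_nat hodd (orderOf_dvd_natCard _)
      obtain ⟨i, _, hi⟩ := (Nat.dvd_prime_pow Nat.prime_two).1 h1
      have h3 : orderOf (g : G ⧸ N) = 1 := by
        rcases Nat.eq_zero_or_pos i with rfl | hpos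
        · simpa using hi
        · rw [hi] at h2
          exact absurd h2 (by
            rw [Nat.not_odd_iff_even]
            exact (Nat.even_pow.2 ⟨even_two, hpos.ne'⟩))
      have h4 := orderOf_eq_one_iff.1 h3
      rwa [QuotientGroup.eq_one_iff] at h4
    have htN : t ∈ N := by
      apply hqodd t j
      rw [← htj, pow_orderOf_eq_one]
      exact N.one_mem
    have hxN : x ∈ N := by
      apply hqodd x 1
      have h1 : (t * x * t⁻¹ * x⁻¹)⁻¹ ∈ N := by
        apply N.inv_mem
        have h2 : x * t⁻¹ * x⁻¹ ∈ N := ‹N.Normal›.conj_mem _ (N.inv_mem htN) x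
        have := N.mul_mem htN h2
        simpa [mul_assoc] using this
      rw [ht] at h1
      simpa [pow_two] using h1
    refine ⟨hxN, ?_⟩
    rw [isConj_iff]
    refine ⟨⟨t, htN⟩, ?_⟩
    ext
    simpa using ht

end Cfsg.Agent.S3863
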