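import Cfsg.Statements.S3866
import Mathlib
import Cfsg.Agent.Lib.H18.Basic

set_option autoImplicit false
open Cfsg

namespace Cfsg.Agent.S3866

/-- Let A be a commutative normal subgroup of the finite group G with G generated by A and an element x. Then a ↦ x a x⁻¹ a⁻¹ is a surjective homomorphism from A onto the commutator subgroup of G whose kernel is the centralizer of x in A; in particular the commutator subgroup has order equal to the index in A of that centralizer. -/
theorem result {G : Type*} [Group G] [Finite G] (A : Subgroup G) [A.Normal] (hA : IsMulCommutative A) (x : G) (hgen : A ⊔ Subgroup.zpowers x = ⊤) : (∀ a ∈ A, x * a * x⁻¹ * a⁻¹ ∈ commutator G) ∧ (∀ c ∈ commutator G, ∃ a ∈ A, x * a * x⁻¹ * a⁻¹ = c) ∧ (∀ a ∈ A, ∀ b ∈ A, x * (a * b) * x⁻¹ * (a * b)⁻¹ = (x * a * x⁻¹ * a⁻¹) * (x * b * x⁻¹ * b⁻¹)) ∧ Nat.card (commutator G) * Nat.card ↥(A ⊓ Subgroup.centralizer ({x} : Set G)) = Nat.card A := by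
    classical
  -- the map f
  have hAn : A.Normal := inferInstance
  have hcomm : ∀ a ∈ A, ∀ b ∈ A, a * b = b * a := by
    intro a ha b hb
    have := hA.is_comm.comm ⟨a, ha⟩ ⟨b, hb⟩
    simpa [Subtype.ext_iff] using this
  let f : A →* A :=
    { toFun := fun a => ⟨x * a * x⁻¹ * (a : G)⁻¹, A.mul_mem (hAn.conj_mem a a.2 x) (A.inv_mem a.2)⟩
      map_one' := by ext; simp
      map_mul' := by
        intro a b
        ext
        have h1 := hcomm _ (hAn.conj_mem b b.2 x) _ (A.inv_mem a.2)
        simp only [Subgroup.coe_mul, MulMemClass.coe_mul, mul_inv_rev]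
        calc x * (a * b) * x⁻¹ * ((b : G)⁻¹ * (a : G)⁻¹)
            = (x * a * x⁻¹) * ((x * b * x⁻¹) * (b : G)⁻¹) * (a : G)⁻¹ := by group
          _ = (x * a * x⁻¹) * ((b : G)⁻¹ * (x * b * x⁻¹)) * (a : G)⁻¹ := by
              rw [hcomm _ (hAn.conj_mem b b.2 x) _ (A.inv_mem b.2)]
          _ = (x * a * x⁻¹) * ((b : G)⁻¹ * ((x * b * x⁻¹) * (a : G)⁻¹)) := by group
          _ = (x * a * x⁻¹) * ((b : G)⁻¹ * ((a : G)⁻¹ * (x * b * x⁻¹))) := by rw [h1]
          _ = x * a * x⁻¹ * (a : G)⁻¹ * (x * b * x⁻¹ * (b : G)⁻¹) := by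
              have h2 := hcomm _ (A.inv_mem b.2) _ (A.inv_mem a.2)
              calc (x * a * x⁻¹) * ((b : G)⁻¹ * ((a : G)⁻¹ * (x * b * x⁻¹)))
                  = (x * a * x⁻¹) * (((b : G)⁻¹ * (a : G)⁻¹) * (x * b * x⁻¹)) := by group
                _ = (x * a * x⁻¹) * (((a : G)⁻¹ * (b : G)⁻¹) * (x * b * x⁻¹)) := by rw [h2]
                _ = (x * a * x⁻¹) * (a : G)⁻¹ * ((b : G)⁻¹ * (x * b * x⁻¹)) := by group
                _ = x * a * x⁻¹ * (a : G)⁻¹ * (x * b * x⁻¹ * (b : G)⁻¹) := by
                    rw [hcomm _ (A.inv_mem b.2) _ (hAn.conj_mem b b.2 x)] }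
  have hfval : ∀ a : A, ((f a : A) : G) = x * a * x⁻¹ * (a : G)⁻¹ := fun a => rfl
  -- image of f, as a subgroup of G
  let I : Subgroup G := f.range.map A.subtype
  have hI : ∀ y, y ∈ I ↔ ∃ a ∈ A, x * a * x⁻¹ * a⁻¹ = y := by
    intro y
    constructor
    · rintro ⟨_, ⟨a, rfl⟩, rfl⟩
      exact ⟨a, a.2, rfl⟩
    · rintro ⟨a, ha, rfl⟩
      exact ⟨_, ⟨⟨a, ha⟩, rfl⟩, rfl⟩
  have hIA : I ≤ A := by
    rintro _ ⟨_, ⟨a, rfl⟩, rfl⟩
    exact (f a).2
  -- elements of A and x normalize I
  have hconjA : ∀ a ∈ A, ∀ y ∈ I, a * y * a⁻¹ ∈ I := by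
    intro a ha y hy
    have : a * y * a⁻¹ = y := by
      rw [hcomm a ha y (hIA hy)]; group
    rwa [this]
  have hconjx : ∀ y ∈ I, x * y * x⁻¹ ∈ I := by
    intro y hy
    obtain ⟨a, ha, rfl⟩ := (hI y).mp hy
    refine (hI _).mpr ⟨x * a * x⁻¹, hAn.conj_mem a ha x, ?_⟩
    group
  have hle : ∀ g : G, g ∈ A ⊔ Subgroup.zpowers x → ∀ y ∈ I, g * y * g⁻¹ ∈ I := by
    have hnorm : A ⊔ Subgroup.zpowers x ≤ Subgroup.normalizer (I : Set G) := by
      have hfin : Finite G := inferInstance
      apply sup_le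
      · intro a ha
        rw [Subgroup.mem_normalizer_iff]
        intro y
        refine ⟨hconjA a ha y, fun h => ?_⟩
        have := hconjA a⁻¹ (A.inv_mem ha) _ h
        simpa [mul_assoc] using this
      · rw [Subgroup.zpowers_le]
        rw [Cfsg.Agent.H18.mem_normalizer_of_map_conj_eq_iff_le]
        rintro _ ⟨y, hy, rfl⟩
        exact hconjx y hy
    intro g hg y hy
    exact (Subgroup.mem_normalizer_iff.mp (hnorm hg) y).mp hy
  have hInormal : I.Normal := by
    constructor
    intro y hy g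
    exact hle g (by rw [hgen]; trivial) y hy
  -- commutator subgroup is inside I
  have hcommle : commutator G ≤ I := by
    rw [commutator_def, Subgroup.commutator_le]
    intro g _ h _
    -- G / I is commutative
    have key : ∀ u ∈ A ⊔ Subgroup.zpowers x, ∀ v ∈ A ⊔ Subgroup.zpowers x, u * v * u⁻¹ * v⁻¹ ∈ I := by
      let Q := G ⧸ I
      have : ∀ u : G, ∀ v : G, (QuotientGroup.mk u : Q) * QuotientGroup.mk v = QuotientGroup.mk v * QuotientGroup.mk u := by
        intro u v
        have hu : u ∈ A ⊔ Subgroup.zpowers x := by rw [hgen]; trivial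
        have hv : v ∈ A ⊔ Subgroup.zpowers x := by rw [hgen]; trivial
        rw [Cfsg.Agent.H18.mem_sup_normal_left] at hu hv
        obtain ⟨a, ha, m, hm, rfl⟩ := hu
        obtain ⟨b, hb, n, hn, rfl⟩ := hv
        obtain ⟨i, rfl⟩ := hm
        obtain ⟨j, rfl⟩ := hn
        -- x commutes with A in the quotient
        have h1 : ∀ c ∈ A, (QuotientGroup.mk x : Q) * QuotientGroup.mk c = QuotientGroup.mk c * QuotientGroup.mk x := by
          intro c hc
          have h3 : x * c * x⁻¹ * c⁻¹ ∈ I := (hI _).mpr ⟨c, hc, rfl⟩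
          have h4 : (QuotientGroup.mk (x * c * x⁻¹ * c⁻¹) : Q) = 1 := (QuotientGroup.eq_one_iff _).mpr h3
          simp only [QuotientGroup.mk_mul, QuotientGroup.mk_inv] at h4
          have h5 := congrArg (· * (QuotientGroup.mk c : Q) * QuotientGroup.mk x) h4
          simpa [mul_assoc] using h5
        have hcA : ∀ c ∈ A, ∀ d ∈ A, (QuotientGroup.mk c : Q) * QuotientGroup.mk d = QuotientGroup.mk d * QuotientGroup.mk c := by
          intro c hc d hd
          rw [← QuotientGroup.mk_mul, hcomm c hc d hd, QuotientGroup.mk_mul]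
        have h2 : ∀ (k : ℤ), ∀ c ∈ A, (QuotientGroup.mk (x ^ k) : Q) * QuotientGroup.mk c = QuotientGroup.mk c * QuotientGroup.mk (x ^ k) := by
          intro k c hc
          have hC : Commute (QuotientGroup.mk x : Q) (QuotientGroup.mk c) := h1 c hc
          have := (hC.zpow_left k)
          simpa [QuotientGroup.mk_zpow] using this.eq
        simp only [QuotientGroup.mk_mul]
        have hz : Commute (QuotientGroup.mk (x ^ i) : Q) (QuotientGroup.mk (x ^ j)) := by
          simp only [QuotientGroup.mk_zpow]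
          exact (Commute.refl _).zpow_zpow i j
        calc (QuotientGroup.mk a : Q) * QuotientGroup.mk (x ^ i) * (QuotientGroup.mk b * QuotientGroup.mk (x ^ j))
            = QuotientGroup.mk a * (QuotientGroup.mk (x ^ i) * QuotientGroup.mk b) * QuotientGroup.mk (x ^ j) := by group
          _ = QuotientGroup.mk a * (QuotientGroup.mk b * QuotientGroup.mk (x ^ i)) * QuotientGroup.mk (x ^ j) := by rw [h2 i b hb]
          _ = (QuotientGroup.mk a * QuotientGroup.mk b) * (QuotientGroup.mk (x ^ i) * QuotientGroup.mk (x ^ j)) := by group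
          _ = (QuotientGroup.mk b * QuotientGroup.mk a) * (QuotientGroup.mk (x ^ j) * QuotientGroup.mk (x ^ i)) := by rw [hcA a ha b hb, hz.eq]
          _ = QuotientGroup.mk b * (QuotientGroup.mk a * QuotientGroup.mk (x ^ j)) * QuotientGroup.mk (x ^ i) := by group
          _ = QuotientGroup.mk b * (QuotientGroup.mk (x ^ j) * QuotientGroup.mk a) * QuotientGroup.mk (x ^ i) := by rw [h2 j a ha]
          _ = QuotientGroup.mk b * QuotientGroup.mk (x ^ j) * (QuotientGroup.mk a * QuotientGroup.mk (x ^ i)) := by group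
      intro u _ v _
      rw [← QuotientGroup.eq_one_iff (N := I)]
      simp only [QuotientGroup.mk_mul, QuotientGroup.mk_inv]
      rw [this u v]
      group
    exact key g (by rw [hgen]; trivial) h (by rw [hgen]; trivial)
  have hIle : I ≤ commutator G := by
    rintro _ ⟨_, ⟨a, rfl⟩, rfl⟩
    simp only [Subgroup.subtype_apply, hfval]
    exact Subgroup.commutator_mem_commutator (Subgroup.mem_top x) (Subgroup.mem_top (a : G))
  have hIeq : I = commutator G := le_antisymm hIle hcommle
  refine ⟨?_, ?_, ?_, ?_⟩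
  · intro a ha
    exact hIle ((hI _).mpr ⟨a, ha, rfl⟩)
  · intro c hc
    exact (hI c).mp (hIeq ▸ hc)
  · intro a ha b hb
    have := congrArg Subtype.val (f.map_mul ⟨a, ha⟩ ⟨b, hb⟩)
    simpa [hfval] using this
  · -- counting
    have hker : (f.ker.map A.subtype) = A ⊓ Subgroup.centralizer ({x} : Set G) := by
      ext y
      rw [Subgroup.mem_inf]
      constructor
      · rintro ⟨a, ha, rfl⟩
        refine ⟨a.2, ?_⟩
        rw [Subgroup.mem_centralizer_singleton_iff]
        have h0 := congrArg Subtype.val (MonoidHom.mem_ker.mp ha)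
        simp only [hfval, Subgroup.coe_one, OneMemClass.coe_one] at h0
        have : x * a * x⁻¹ = a := mul_inv_eq_one.mp h0
        simp only [Subgroup.subtype_apply]
        exact (mul_inv_eq_iff_eq_mul.mp this).symm
      · rintro ⟨hy, hyc⟩
        refine ⟨⟨y, hy⟩, ?_, rfl⟩
        rw [SetLike.mem_coe, MonoidHom.mem_ker]
        ext
        rw [Subgroup.mem_centralizer_singleton_iff] at hyc
        simp only [hfval, Subgroup.coe_one, OneMemClass.coe_one]
        rw [← hyc]; group
    have h1 : Nat.card (commutator G) = Nat.card f.range := by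
      rw [← hIeq]
      exact Nat.card_congr (f.range.equivMapOfInjective A.subtype A.subtype_injective).toEquiv.symm
    have h2 : Nat.card ↥(A ⊓ Subgroup.centralizer ({x} : Set G)) = Nat.card f.ker := by
      rw [← hker]
      exact Nat.card_congr (f.ker.equivMapOfInjective A.subtype A.subtype_injective).toEquiv.symm
    rw [h1, h2, mul_comm]
    rw [Subgroup.card_mul_index f.ker |>.symm]
    congr 1
    rw [Subgroup.index_ker]

end Cfsg.Agent.S3866
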