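import Cfsg.Statements.S3867
import Mathlib
import Cfsg.Agent.Lib.H18.Syl

set_option autoImplicit false
open Cfsg

namespace Cfsg.Agent.S3867


variable {G : Type*} [Group G] [Finite G] {p : ℕ} [Fact p.Prime]

/-- `N_G(PK) = N_G(P) K` for `K` normal. -/
theorem normalizer_sup_eq (P : Sylow p G) (K : Subgroup G) [K.Normal] :
    Subgroup.normalizer (((P : Subgroup G) ⊔ K : Subgroup G) : Set G) =
      Subgroup.normalizer ((P : Subgroup G) : Set G) ⊔ K := by
  apply le_antisymm
  · intro g hg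
    have h1 : ((H18.sylowConj P g : Sylow p G) : Subgroup G) ≤ (P : Subgroup G) ⊔ K := by
      rw [H18.coe_sylowConj]
      rintro _ ⟨y, hy, rfl⟩
      exact (Subgroup.mem_normalizer_iff.1 hg y).1 ((le_sup_left : (P : Subgroup G) ≤ _) hy)
    obtain ⟨m, hm, e⟩ := H18.exists_conj_of_sylows_le P (H18.sylowConj P g) ((P : Subgroup G) ⊔ K) le_sup_left h1
    rw [H18.coe_sylowConj] at e
    rw [sup_comm] at hm
    obtain ⟨k, hk, b, hb, rfl⟩ := H18.mem_sup_normal_left.1 hm
    rw [H18.map_conj_mul, H18.map_conj_eq_of_mem_normalizer (Subgroup.le_normalizer hb)] at e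
    have hn : k⁻¹ * g ∈ Subgroup.normalizer ((P : Subgroup G) : Set G) := by
      apply H18.mem_normalizer_of_map_conj_eq
      rw [H18.map_conj_mul, e, ← H18.map_conj_mul, inv_mul_cancel, H18.map_conj_one]
    have h3 : g = k * (k⁻¹ * g) := by group
    rw [h3, sup_comm]
    exact H18.mem_sup_normal_left.2 ⟨k, hk, _, hn, rfl⟩
  · apply sup_le
    · intro g hg
      rw [H18.mem_normalizer_of_map_conj_eq_iff_le]
      rw [Subgroup.map_le_iff_le_comap]
      apply sup_le
      · intro y hy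
        exact (le_sup_left : (P : Subgroup G) ≤ _) ((Subgroup.mem_normalizer_iff.1 hg y).1 hy)
      · intro y hy
        exact (le_sup_right : K ≤ _) (‹K.Normal›.conj_mem y hy g)
    · intro k hk
      rw [H18.mem_normalizer_of_map_conj_eq_iff_le]
      rintro _ ⟨y, hy, rfl⟩
      have hk' : k ∈ (P : Subgroup G) ⊔ K := (le_sup_right : K ≤ _) hk
      exact Subgroup.mul_mem _ (Subgroup.mul_mem _ hk' hy) (Subgroup.inv_mem _ hk')

/-- The number of Sylow subgroups of a quotient. -/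
theorem card_sylow_quotient (P : Sylow p G) (K : Subgroup G) [K.Normal] :
    Nat.card (Sylow p (G ⧸ K)) = (Subgroup.normalizer ((P : Subgroup G) : Set G) ⊔ K).index := by
  classical
  have hsurj : Function.Surjective (QuotientGroup.mk' K) := QuotientGroup.mk'_surjective K
  let Q : Sylow p (G ⧸ K) := P.mapSurjective hsurj
  have hQ : (Q : Subgroup (G ⧸ K)) = (P : Subgroup G).map (QuotientGroup.mk' K) := rfl
  rw [Sylow.card_eq_index_normalizer Q, ← normalizer_sup_eq, ← Subgroup.index_comap_of_surjective _ hsurj]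
  congr 1
  ext g
  rw [Subgroup.mem_comap]
  have hcomap : ∀ x : G, (x : G ⧸ K) ∈ (Q : Subgroup (G ⧸ K)) ↔ x ∈ (P : Subgroup G) ⊔ K := by
    intro x
    rw [hQ, Subgroup.mem_map]
    constructor
    · rintro ⟨a, ha, e⟩
      have h1 : a⁻¹ * x ∈ K := QuotientGroup.eq.1 e
      have h2 : x = a * (a⁻¹ * x) := by group
      rw [h2]
      exact H18.mem_sup_normal_right.2 ⟨a, ha, _, h1, rfl⟩
    · intro hx
      obtain ⟨a, ha, b, hb, rfl⟩ := H18.mem_sup_normal_right.1 hx
      refine ⟨a, ha, ?_⟩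
      apply QuotientGroup.eq.2
      simpa using hb
  change (QuotientGroup.mk' K) g ∈ Subgroup.normalizer (((Q : Subgroup (G ⧸ K))) : Set (G ⧸ K)) ↔ _
  rw [Subgroup.mem_normalizer_iff, Subgroup.mem_normalizer_iff]
  constructor
  · intro h x
    have h1 := h (x : G ⧸ K)
    rw [hcomap] at h1
    rw [h1]
    have : (QuotientGroup.mk' K) g * (x : G ⧸ K) * ((QuotientGroup.mk' K) g)⁻¹ = ((g * x * g⁻¹ : G) : G ⧸ K) := rfl
    rw [this, hcomap]
  · intro h x
    induction x using QuotientGroup.induction_on with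
    | H x =>
    have : (QuotientGroup.mk' K) g * (x : G ⧸ K) * ((QuotientGroup.mk' K) g)⁻¹ = ((g * x * g⁻¹ : G) : G ⧸ K) := rfl
    rw [this, hcomap, hcomap]
    exact h x

/-- The intersection `PM ∩ PN = P` for `M ∩ N = 1`. -/
theorem inf_sup_sup_eq (P : Sylow p G) (M N : Subgroup G) [M.Normal] [N.Normal] (hMN : M ⊓ N = ⊥) :
    ((P : Subgroup G) ⊔ M) ⊓ ((P : Subgroup G) ⊔ N) = P := by
  have hpow : ∀ (K : Subgroup G) [K.Normal], ∀ x ∈ (P : Subgroup G) ⊔ K, ∃ k : ℕ, x ^ p ^ k ∈ K := by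
    intro K _ x hx
    obtain ⟨a, ha, b, hb, rfl⟩ := H18.mem_sup_normal_right.1 hx
    obtain ⟨k, hk⟩ := P.2 ⟨a, ha⟩
    have hak : a ^ p ^ k = 1 := by simpa using congrArg Subtype.val hk
    refine ⟨k, ?_⟩
    rw [← QuotientGroup.eq_one_iff, QuotientGroup.mk_pow]
    have h1 : ((a * b : G) : G ⧸ K) = (a : G ⧸ K) := by
      apply QuotientGroup.eq.2
      simpa using hb
    rw [h1, ← QuotientGroup.mk_pow, hak]
    rfl
  symm
  apply H18.sylow_eq_of_le _ (le_inf le_sup_left le_sup_left)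
  rintro ⟨x, hxM, hxN⟩
  obtain ⟨k, hk⟩ := hpow M x hxM
  obtain ⟨l, hl⟩ := hpow N x hxN
  refine ⟨k + l, ?_⟩
  have h1 : x ^ p ^ (k + l) ∈ M ⊓ N := by
    constructor
    · rw [pow_add, pow_mul]; exact M.pow_mem hk _
    · rw [pow_add, mul_comm, pow_mul]; exact N.pow_mem hl _
  rw [hMN, Subgroup.mem_bot] at h1
  ext
  exact h1

theorem relIndex_sup_eq (U K : Subgroup G) [K.Normal] : U.relIndex (U ⊔ K) = U.relIndex K := by
  have h1 := H18.card_sup_mul_card_inf U K
  have h2 := H18.card_inf_mul_relIndex U (U ⊔ K)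
  have h3 := H18.card_inf_mul_relIndex U K
  rw [inf_eq_left.2 le_sup_left] at h2
  rw [← h2, ← h3] at h1
  have hU : 0 < Nat.card U := Nat.card_pos
  have hI : 0 < Nat.card (U ⊓ K : Subgroup G) := Nat.card_pos
  have h4 : (Nat.card U * Nat.card (U ⊓ K : Subgroup G)) * U.relIndex (U ⊔ K) =
      (Nat.card U * Nat.card (U ⊓ K : Subgroup G)) * U.relIndex K := by
    calc _ = Nat.card U * U.relIndex (U ⊔ K) * Nat.card (U ⊓ K : Subgroup G) := by ring
      _ = Nat.card U * (Nat.card (U ⊓ K : Subgroup G) * U.relIndex K) := h1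
      _ = _ := by ring
  exact Nat.eq_of_mul_eq_mul_left (Nat.mul_pos hU hI) h4


/-- Let M and N be nontrivial normal subgroups of the finite group G with M ⊓ N trivial, and let p be a prime. Writing n(X) for the number of Sylow p-subgroups of a group X, one has n(G) · n(G/MN) = n(G/M) · n(G/N). -/
theorem result {G : Type*} [Group G] [Finite G] (p : ℕ) [Fact p.Prime] (M N : Subgroup G) [M.Normal] [N.Normal] (hM : M ≠ ⊥) (hN : N ≠ ⊥) (hMN : M ⊓ N = ⊥) : Nat.card (Sylow p G) * Nat.card (Sylow p (G ⧸ (M ⊔ N))) = Nat.card (Sylow p (G ⧸ M)) * Nat.card (Sylow p (G ⧸ N)) := by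
  classical
  obtain ⟨P⟩ : Nonempty (Sylow p G) := inferInstance
  set NP := Subgroup.normalizer ((P : Subgroup G) : Set G) with hNP
  have h0 : Nat.card (Sylow p G) = NP.index := Sylow.card_eq_index_normalizer P
  rw [card_sylow_quotient P M, card_sylow_quotient P N, card_sylow_quotient P (M ⊔ N), h0, ← hNP]
  set L := NP ⊔ N with hL
  have hT : NP ⊔ (M ⊔ N) = L ⊔ M := by
    rw [hL, sup_assoc, sup_comm N M]
  rw [hT]
  have hA := Subgroup.relIndex_mul_index (le_sup_left : NP ≤ NP ⊔ M)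
  have hB := Subgroup.relIndex_mul_index (le_sup_left : L ≤ L ⊔ M)
  rw [relIndex_sup_eq] at hA hB
  -- `L ⊓ M = NP ⊓ M`
  have hLM : L ⊓ M = NP ⊓ M := by
    apply le_antisymm
    · intro x hx
      obtain ⟨hxL, hxM⟩ := Subgroup.mem_inf.1 hx
      refine Subgroup.mem_inf.2 ⟨?_, hxM⟩
      rw [hNP, H18.mem_normalizer_of_map_conj_eq_iff_le]
      rintro _ ⟨y, hy, rfl⟩
      change x * y * x⁻¹ ∈ (P : Subgroup G)
      have h1 : x * y * x⁻¹ ∈ ((P : Subgroup G) ⊔ M) ⊓ ((P : Subgroup G) ⊔ N) := by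
        refine Subgroup.mem_inf.2 ⟨?_, ?_⟩
        · have hx' : x ∈ (P : Subgroup G) ⊔ M := (le_sup_right : M ≤ _) hxM
          exact Subgroup.mul_mem _ (Subgroup.mul_mem _ hx' ((le_sup_left : (P : Subgroup G) ≤ _) hy))
            (Subgroup.inv_mem _ hx')
        · have hx' : x ∈ Subgroup.normalizer (((P : Subgroup G) ⊔ N : Subgroup G) : Set G) := by
            rw [normalizer_sup_eq]; exact hxL
          exact (Subgroup.mem_normalizer_iff.1 hx' y).1 ((le_sup_left : (P : Subgroup G) ≤ _) hy)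
      rw [inf_sup_sup_eq P M N hMN] at h1
      exact h1
    · exact inf_le_inf_right _ le_sup_left
  have hr : L.relIndex M = NP.relIndex M := by
    rw [← Subgroup.inf_relIndex_right L M, hLM, Subgroup.inf_relIndex_right]
  rw [hr] at hB
  rw [← hA, ← hB]
  ring

end Cfsg.Agent.S3867
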