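import Cfsg.Statements.S3878
import Mathlib

set_option autoImplicit false
open Cfsg

namespace Cfsg.Agent.S3878


open Equiv Equiv.Perm MulAction
open scoped Pointwise

theorem exists_cycle (n k : ℕ) (hk : 2 ≤ k) (hkn : k ≤ n) :
    ∃ c : Perm (Fin n), c.IsCycle ∧ c.support.card = k := by
  classical
  let l : List (Fin n) := (List.finRange k).map (Fin.castLE hkn)
  have hlen : l.length = k := by simp [l]
  have hnd : l.Nodup := (List.nodup_finRange k).map (Fin.castLE_injective _)
  refine ⟨List.formPerm l, List.isCycle_formPerm hnd (by omega), ?_⟩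
  rw [List.support_formPerm_of_nodup _ hnd, List.toFinset_card_of_nodup hnd, hlen]
  intro x hx
  rw [hx] at hlen
  simp at hlen
  omega

/-- A `q`-element can be conjugated into a subgroup of index prime to `q`. -/
theorem exists_conj_mem {G : Type*} [Group G] [Finite G] {q : ℕ} [Fact q.Prime] (H : Subgroup G)
    (hnd : ¬ q ∣ H.index) {g : G} (hg : IsPGroup q (Subgroup.zpowers g)) :
    ∃ a : G, a * g * a⁻¹ ∈ H := by
  obtain ⟨x, hx⟩ := hg.nonempty_fixed_point_of_prime_not_dvd_card (G ⧸ H) hnd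
  induction x using QuotientGroup.induction_on with
  | H a =>
    refine ⟨a⁻¹, ?_⟩
    have h1 := hx ⟨g, Subgroup.mem_zpowers g⟩
    have h2 : ((g * a : G) : G ⧸ H) = (a : G ⧸ H) := h1
    rw [QuotientGroup.eq] at h2
    have h3 : (g * a)⁻¹ * a = a⁻¹ * g⁻¹ * a := by group
    rw [h3] at h2
    have h4 := H.inv_mem h2
    have h5 : (a⁻¹ * g⁻¹ * a)⁻¹ = a⁻¹ * g * a⁻¹⁻¹ := by group
    rwa [h5] at h4

/-- Conjugate cycles in `H` from the cycles with prime-power order. -/
theorem exists_cycle_mem {n q j : ℕ} [Fact q.Prime] (H : Subgroup (Perm (Fin n)))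
    (hnd : ¬ q ∣ H.index) (hj : 1 ≤ j) (hjn : q ^ j ≤ n) :
    ∃ g ∈ H, g.IsCycle ∧ g.support.card = q ^ j := by
  classical
  have hq : q.Prime := Fact.out
  have h2 : 2 ≤ q ^ j := by
    calc 2 ≤ q := hq.two_le
      _ = q ^ 1 := (pow_one q).symm
      _ ≤ q ^ j := Nat.pow_le_pow_right hq.pos hj
  obtain ⟨c, hc, hcs⟩ := exists_cycle n (q ^ j) h2 hjn
  have hord : orderOf c = q ^ j := by rw [hc.orderOf, hcs]
  have hpg : IsPGroup q (Subgroup.zpowers c) := by
    apply IsPGroup.of_card (n := j)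
    rw [Nat.card_zpowers, hord]
  obtain ⟨a, ha⟩ := exists_conj_mem H hnd hpg
  refine ⟨_, ha, hc.conj, ?_⟩
  rw [Equiv.Perm.card_support_conj, hcs]

theorem pretransitive_of_not_dvd {p a : ℕ} [Fact p.Prime] (H : Subgroup (Perm (Fin (p ^ a))))
    (hnd : ¬ p ∣ H.index) : IsPretransitive H (Fin (p ^ a)) := by
  classical
  have hp : p.Prime := Fact.out
  have key : ∀ x : Fin (p ^ a), (orbit H x) = Set.univ := by
    intro x
    set S := stabilizer (Perm (Fin (p ^ a))) x with hS
    have hSi : S.index = p ^ a := by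
      rw [hS, index_stabilizer, orbit_eq_univ, Set.ncard_univ, Nat.card_eq_fintype_card, Fintype.card_fin]
    have hHS : (stabilizer H x) = S.subgroupOf H := by
      ext h
      rfl
    have horb : (orbit H x).ncard = S.relIndex H := by
      rw [← index_stabilizer, hHS, Subgroup.relIndex]
    have h1 : (S ⊓ H).relIndex H * H.index = (S ⊓ H).index := Subgroup.relIndex_mul_index inf_le_right
    have h2 : (S ⊓ H).relIndex S * S.index = (S ⊓ H).index := Subgroup.relIndex_mul_index inf_le_left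
    rw [Subgroup.inf_relIndex_right] at h1
    have h3 : p ^ a ∣ S.relIndex H * H.index := by
      rw [h1, ← h2, hSi]
      exact Dvd.intro_left _ rfl
    have hcop : Nat.Coprime (p ^ a) H.index := Nat.Coprime.pow_left _ ((Nat.Prime.coprime_iff_not_dvd hp).mpr hnd)
    have h4 : p ^ a ∣ S.relIndex H := hcop.dvd_of_dvd_mul_right h3
    have h5 : 0 < S.relIndex H := Nat.pos_of_ne_zero (by rw [Subgroup.relIndex]; exact Subgroup.index_ne_zero_of_finite)
    have h6 := Nat.le_of_dvd h5 h4
    rw [← horb] at h6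
    rw [Set.eq_univ_iff_ncard]
    apply le_antisymm _ _
    · exact Set.ncard_le_card _
    · rw [Nat.card_eq_fintype_card, Fintype.card_fin]
      exact h6
  refine ⟨fun x y => ?_⟩
  have : y ∈ orbit H x := by rw [key x]; trivial
  exact this

theorem block_iff {α : Type*} {H : Subgroup (Perm α)} {B : Set α} (hB : IsBlock H B) {c : Perm α}
    (hc : c ∈ H) {u : α} (hu : u ∈ B) (hcu : c u ∈ B) : ∀ w, w ∈ B ↔ c w ∈ B := by
  have h1 : ((⟨c, hc⟩ : H) • B : Set α) = B := by
    apply hB.smul_eq_of_nonempty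
    exact ⟨c u, ⟨u, hu, rfl⟩, hcu⟩
  intro w
  constructor
  · intro hw
    rw [← h1]
    exact ⟨w, hw, rfl⟩
  · intro hw
    rw [← h1] at hw
    obtain ⟨v, hv, hve⟩ := hw
    have : v = w := c.injective hve
    exact this ▸ hv

/-- A block moved by a cycle, with the block smaller than the support, has size dividing the
order of the cycle. -/
theorem block_card_dvd {α : Type*} [Finite α] {H : Subgroup (Perm α)} {B : Set α} (hB : IsBlock H B)
    {g : Perm α} (hg : g ∈ H) (hgc : g.IsCycle) {y : α} (hy : y ∈ B) (hgy : g y ≠ y)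
    (hlt : B.ncard < orderOf g) : B.ncard ∣ orderOf g := by
  classical
  haveI : Fintype α := Fintype.ofFinite α
  -- B ⊆ support
  have hBS : ∀ u ∈ B, g u ≠ u := by
    intro u hu hfix
    -- g preserves B, so contains the whole orbit of y
    have hinv := block_iff hB hg hu (by rw [hfix]; exact hu)
    have hpow : ∀ i : ℕ, ∀ w, w ∈ B → (g ^ i) w ∈ B := by
      intro i
      induction i with
      | zero => intro w hw; simpa using hw
      | succ i ih =>
        intro w hw
        rw [pow_succ', Perm.coe_mul, Function.comp_apply]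
        exact (hinv _).mp (ih w hw)
    have hsub : (g.support : Set α) ⊆ B := by
      intro z hz
      have hz' : g z ≠ z := Equiv.Perm.mem_support.mp hz
      obtain ⟨i, hi⟩ := hgc.exists_pow_eq hgy hz'
      rw [← hi]
      exact hpow i y hy
    have h1 := Set.ncard_le_ncard hsub (Set.toFinite _)
    rw [Set.ncard_coe_finset, ← hgc.orderOf] at h1
    omega
  let C := Subgroup.zpowers g
  let K : Subgroup (Perm α) :=
    { carrier := {c | c ∈ C ∧ ∀ z, z ∈ B ↔ c z ∈ B}
      one_mem' := ⟨C.one_mem, fun z => by simp⟩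
      mul_mem' := by
        rintro a b ⟨ha, ha'⟩ ⟨hb, hb'⟩
        refine ⟨C.mul_mem ha hb, fun z => ?_⟩
        rw [Perm.coe_mul, Function.comp_apply, hb', ha']
      inv_mem' := by
        rintro a ⟨ha, ha'⟩
        refine ⟨C.inv_mem ha, fun z => ?_⟩
        have := ha' (a⁻¹ z)
        have h0 : a (a⁻¹ z) = z := by simp
        rw [h0] at this
        exact this.symm }
  have hK : K ≤ C := fun c hc => hc.1
  have hcard : Nat.card K = Nat.card B := by
    refine Nat.card_congr (Equiv.ofBijective (fun c : K => (⟨(c : Perm α) y, (c.2.2 y).mp hy⟩ : B)) ⟨?_, ?_⟩)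
    · intro c c' hcc
      have h1 : (c : Perm α) y = (c' : Perm α) y := congrArg Subtype.val hcc
      have h2 : (c : Perm α)⁻¹ * (c' : Perm α) ∈ C := C.mul_mem (C.inv_mem c.2.1) c'.2.1
      obtain ⟨m, hm⟩ := (mem_powers_iff_mem_zpowers).mpr h2
      have h3 : (g ^ m) y = y := by
        have hm' : g ^ m = (c : Perm α)⁻¹ * (c' : Perm α) := hm
        rw [hm', Perm.coe_mul, Function.comp_apply, ← h1]
        simp
      have h4 : g ^ m = 1 := (hgc.pow_eq_one_iff' hgy).mpr h3
      have hm' : (c : Perm α)⁻¹ * (c' : Perm α) = 1 := by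
        rw [← (show g ^ m = _ from hm), h4]
      apply Subtype.ext
      exact (inv_mul_eq_one.mp hm')
    · rintro ⟨z, hz⟩
      obtain ⟨i, hi⟩ := hgc.exists_pow_eq hgy (hBS z hz)
      have hc : g ^ i ∈ H := H.pow_mem hg i
      refine ⟨⟨g ^ i, Subgroup.npow_mem_zpowers g i, block_iff hB hc hy (by rw [hi]; exact hz)⟩, ?_⟩
      apply Subtype.ext
      exact hi
  have h1 : Nat.card K ∣ Nat.card C := Subgroup.card_dvd_of_le hK
  rw [hcard, Nat.card_zpowers] at h1
  exact h1

theorem primitive_of_hall {p q a e : ℕ} [Fact p.Prime] [Fact q.Prime] (hpq : p ≠ q)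
    (H : Subgroup (Perm (Fin (p ^ a)))) (hnd : ¬ p ∣ H.index)
    (g : Perm (Fin (p ^ a))) (hg : g ∈ H) (hgc : g.IsCycle) (hgs : g.support.card = q ^ e)
    (hle : ∀ b, b < a → p ^ b < q ^ e) : IsPreprimitive H (Fin (p ^ a)) := by
  classical
  have hp : p.Prime := Fact.out
  have hq : q.Prime := Fact.out
  haveI htr := pretransitive_of_not_dvd H hnd
  refine ⟨?_⟩
  intro B hB
  by_cases hBe : B = ∅
  · left; rw [hBe]; exact Set.subsingleton_empty
  have hBne : B.Nonempty := Set.nonempty_iff_ne_empty.mpr hBe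
  have hd := hB.ncard_dvd_card hBne
  rw [Nat.card_eq_fintype_card, Fintype.card_fin] at hd
  obtain ⟨b, hb, hbe⟩ := (Nat.dvd_prime_pow hp).mp hd
  rcases hb.lt_or_eq with hlt | rfl
  · -- small block
    by_cases hb0 : b = 0
    · left
      rw [hb0, pow_zero, Set.ncard_eq_one] at hbe
      obtain ⟨x, rfl⟩ := hbe
      exact Set.subsingleton_singleton
    · exfalso
      -- take a point of the support
      obtain ⟨y, hy⟩ : ∃ y, g y ≠ y := by
        obtain ⟨y, hy, -⟩ := hgc
        exact ⟨y, hy⟩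
      obtain ⟨x, hx⟩ := hBne
      obtain ⟨h, hh⟩ := exists_smul_eq H x y
      have hB' : IsBlock H (h • B) := hB.translate h
      have hyB' : y ∈ h • B := ⟨x, hx, hh⟩
      have hcard' : (h • B).ncard = p ^ b := by rw [Set.ncard_smul_set, hbe]
      have hord : orderOf g = q ^ e := by rw [hgc.orderOf, hgs]
      have h1 := block_card_dvd hB' hg hgc hyB' hy (by rw [hcard', hord]; exact hle b hlt)
      rw [hcard', hord] at h1
      have h2 : p ∣ q ^ e := (dvd_pow_self p hb0).trans h1
      have h3 := hp.dvd_of_dvd_pow h2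
      exact hpq ((Nat.prime_dvd_prime_iff_eq hp hq).mp h3)
  · right
    rw [Set.eq_univ_iff_ncard, hbe, Nat.card_eq_fintype_card, Fintype.card_fin]

/-- A subgroup of `Perm (Fin n)` which is primitive and contains a cycle of prime length `q`, has
order divisible by all primes at most `n - q + 1`. -/
theorem prime_dvd_card {n q r : ℕ} (hq : q.Prime) (hr : r.Prime) (H : Subgroup (Perm (Fin n)))
    (hprim : IsPreprimitive H (Fin n)) (g : Perm (Fin n)) (hg : g ∈ H) (hgc : g.IsCycle)
    (hgs : g.support.card = q) (hn : q + r ≤ n) : r ∣ Nat.card H := by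
  classical
  obtain ⟨m, hm⟩ : ∃ m, n = q + m + 1 := ⟨n - q - 1, by have := hr.two_le; omega⟩
  have hmp : IsMultiplyPreprimitive H (Fin n) (m + 2) := by
    apply hprim.isMultiplyPreprimitive (s := ((g.support : Finset (Fin n)) : Set (Fin n))ᶜ)
    · apply Nat.add_left_cancel (n := q)
      have h1 := Set.ncard_add_ncard_compl ((g.support : Finset (Fin n)) : Set (Fin n))
      rw [Set.ncard_coe_finset, hgs, Nat.card_eq_fintype_card, Fintype.card_fin] at h1
      omega
    · rw [Nat.card_eq_fintype_card, Fintype.card_fin]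
      have := hq.two_le
      omega
    · have := isPretransitive_of_isCycle_mem hgc hg
      apply IsPreprimitive.of_prime_card
      convert! hq
      rw [Nat.card_eq_fintype_card, Fintype.card_subtype, ← hgs]
      apply congr_arg
      ext x
      simp [SubMulAction.mem_ofFixingSubgroup_iff]
  have hmt : IsMultiplyPretransitive H (Fin n) (m + 2) :=
    IsMultiplyPreprimitive.isMultiplyPretransitive ..
  haveI : IsPretransitive H (Fin (m + 2) ↪ Fin n) := hmt
  have hle : m + 2 ≤ n := by have := hq.two_le; omega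
  let y : Fin (m + 2) ↪ Fin n := Fin.castLEEmb hle
  have h1 : (stabilizer H y).index = (orbit H y).ncard := index_stabilizer H y
  have h0 : orbit H y = Set.univ := Set.eq_univ_of_forall (fun z => hmt.exists_smul_eq y z)
  rw [h0, Set.ncard_univ, Nat.card_eq_fintype_card, Fintype.card_embedding_eq,
    Fintype.card_fin, Fintype.card_fin] at h1
  have h2 : Nat.card H = Nat.card (stabilizer H y) * (stabilizer H y).index :=
    (Subgroup.card_mul_index _).symm
  have h3 : r ∣ (m + 2).factorial := hr.dvd_factorial.mpr (by have := hr.two_le; omega)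
  have h4 : (m + 2).factorial ∣ n.descFactorial (m + 2) := Nat.factorial_dvd_descFactorial n (m + 2)
  rw [h2, h1]
  exact Dvd.dvd.mul_left (h3.trans h4) _

/-- No Hall subgroup in a suitable symmetric group. -/
theorem exists_no_hall {π : Set ℕ} {p q r : ℕ} (hp : p.Prime) (hq : q.Prime) (hr : r.Prime) (hpπ : p ∈ π)
    (hqπ : q ∈ π) (hrπ : r ∉ π) (hqp : q < p) : ∃ n : ℕ, ¬ IsEPiGroup π (Perm (Fin n)) := by
  classical
  haveI : Fact p.Prime := ⟨hp⟩
  haveI : Fact q.Prime := ⟨hq⟩
  set a := q + r with ha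
  refine ⟨p ^ a, ?_⟩
  rintro ⟨H, hH1, hH2⟩
  have hnp := hH2 p hp hpπ
  have hnq := hH2 q hq hqπ
  have hn : q + r ≤ p ^ a := by
    have h1 : a < 2 ^ a := Nat.lt_two_pow_self
    have h2 : 2 ^ a ≤ p ^ a := Nat.pow_le_pow_left hp.two_le a
    omega
  have hap : 1 ≤ a := by have := hq.two_le; omega
  set e := Nat.log q (p ^ a) with he
  have he1 : q ^ e ≤ p ^ a := Nat.pow_log_le_self q (by have := pow_pos hp.pos a; omega)
  have he2 : p ^ a < q ^ (e + 1) := Nat.lt_pow_succ_log_self hq.one_lt _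
  have hle : ∀ b, b < a → p ^ b < q ^ e := by
    intro b hb
    by_contra hcon
    push Not at hcon
    have h1 : q ^ (e + 1) < p ^ (b + 1) := by
      rw [pow_succ, pow_succ, mul_comm, mul_comm (p ^ b)]
      calc q * q ^ e ≤ q * p ^ b := Nat.mul_le_mul_left _ hcon
        _ < p * p ^ b := Nat.mul_lt_mul_of_pos_right hqp (pow_pos hp.pos b)
    have h2 : p ^ (b + 1) ≤ p ^ a := Nat.pow_le_pow_right hp.pos hb
    omega
  have he0 : 1 ≤ e := by
    by_contra hcon
    have he0 : e = 0 := by omega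
    have := hle 0 (by omega)
    rw [he0] at this
    simp at this
  obtain ⟨g₁, hg₁, hc₁, hs₁⟩ := exists_cycle_mem (q := q) (j := e) H hnq he0 he1
  obtain ⟨g₂, hg₂, hc₂, hs₂⟩ := exists_cycle_mem (q := q) (j := 1) H hnq le_rfl (by
    rw [pow_one]
    omega)
  rw [pow_one] at hs₂
  have hprim := primitive_of_hall hqp.ne' H hnp g₁ hg₁ hc₁ hs₁ hle
  have hdvd := prime_dvd_card hq hr H hprim g₂ hg₂ hc₂ hs₂ hn
  exact hrπ (hH1 r hr hdvd)

theorem E_of_D {π : Set ℕ} {G : Type} [Group G] [Finite G] (h : IsDPiGroup π G) : IsEPiGroup π G := by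
  classical
  have hbot : IsPiSubgroup π (⊥ : Subgroup G) := by
    intro p hp hd
    rw [Subgroup.card_bot] at hd
    exact absurd (Nat.dvd_one.mp hd) hp.one_lt.ne'
  obtain ⟨M, -, hM⟩ := (Set.toFinite {K : Subgroup G | IsPiSubgroup π K}).exists_le_maximal (a := ⊥) hbot
  refine ⟨M, hM.prop, ?_⟩
  intro p hp hpπ hd
  haveI : Fact p.Prime := ⟨hp⟩
  obtain ⟨P⟩ : Nonempty (Sylow p G) := inferInstance
  have hPπ : IsPiSubgroup π (P : Subgroup G) := by
    intro r hr hdr
    have := (IsPGroup.iff_card.mp P.isPGroup')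
    obtain ⟨k, hk⟩ := this
    rw [hk] at hdr
    have := (Nat.prime_dvd_prime_iff_eq hr hp).mp (hr.dvd_of_dvd_pow hdr)
    rw [this]
    exact hpπ
  obtain ⟨M', hPM', hM'⟩ := (Set.toFinite {K : Subgroup G | IsPiSubgroup π K}).exists_le_maximal hPπ
  obtain ⟨g, hg⟩ := h M M' hM hM'
  have h1 : M'.index = M.index := by
    rw [hg]
    exact Subgroup.index_map_of_bijective (MulAut.conj g).bijective M
  have h2 : M'.index ∣ (P : Subgroup G).index := Subgroup.index_dvd_of_le hPM'
  exact P.not_dvd_index (by rw [← h1] at hd; exact hd.trans h2)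

theorem E_of_cases {π : Set ℕ}
    (h : (∀ p q : ℕ, p.Prime → q.Prime → p ∈ π → q ∈ π → p = q) ∨ ∀ p : ℕ, p.Prime → p ∈ π)
    (G : Type) [Group G] [Finite G] : IsEPiGroup π G := by
  classical
  rcases h with h | h
  · by_cases hex : ∃ p, p.Prime ∧ p ∈ π
    · obtain ⟨p, hp, hpπ⟩ := hex
      haveI : Fact p.Prime := ⟨hp⟩
      obtain ⟨P⟩ : Nonempty (Sylow p G) := inferInstance
      refine ⟨P, ?_, ?_⟩
      · intro r hr hdr
        obtain ⟨k, hk⟩ := IsPGroup.iff_card.mp P.isPGroup'
        rw [hk] at hdr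
        have := (Nat.prime_dvd_prime_iff_eq hr hp).mp (hr.dvd_of_dvd_pow hdr)
        rw [this]
        exact hpπ
      · intro r hr hrπ
        rw [h r p hr hp hrπ hpπ]
        exact P.not_dvd_index
    · push Not at hex
      refine ⟨⊥, ?_, ?_⟩
      · intro r hr hdr
        rw [Subgroup.card_bot] at hdr
        exact absurd (Nat.dvd_one.mp hdr) hr.one_lt.ne'
      · intro r hr hrπ
        exact absurd hrπ (hex r hr)
  · refine ⟨⊤, fun r hr _ => h r hr, ?_⟩
    intro r hr _ hd
    rw [Subgroup.index_top] at hd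
    exact hr.one_lt.ne' (Nat.dvd_one.mp hd)

theorem D_of_cases {π : Set ℕ}
    (h : (∀ p q : ℕ, p.Prime → q.Prime → p ∈ π → q ∈ π → p = q) ∨ ∀ p : ℕ, p.Prime → p ∈ π)
    (G : Type) [Group G] [Finite G] : IsDPiGroup π G := by
  classical
  intro H K hH hK
  rcases h with h | h
  · by_cases hex : ∃ p, p.Prime ∧ p ∈ π
    · obtain ⟨p, hp, hpπ⟩ := hex
      haveI : Fact p.Prime := ⟨hp⟩
      have hsyl : ∀ L : Subgroup G, Maximal (IsPiSubgroup π) L → ∃ S : Sylow p G, (S : Subgroup G) = L := by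
        intro L hL
        have hLp : IsPGroup p L := by
          have h0 := Nat.eq_prime_pow_of_unique_prime_dvd (n := Nat.card L) (p := p) Nat.card_pos.ne'
            (fun {r} hr hd => h r p hr hp (hL.prop r hr hd) hpπ)
          exact IsPGroup.of_card h0
        obtain ⟨S, hS⟩ := hLp.exists_le_sylow
        refine ⟨S, ?_⟩
        have hSπ : IsPiSubgroup π (S : Subgroup G) := by
          intro r hr hdr
          obtain ⟨k, hk⟩ := IsPGroup.iff_card.mp S.isPGroup'
          rw [hk] at hdr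
          have := (Nat.prime_dvd_prime_iff_eq hr hp).mp (hr.dvd_of_dvd_pow hdr)
          rw [this]
          exact hpπ
        exact le_antisymm (hL.le_of_ge hSπ hS) hS
      obtain ⟨S₁, rfl⟩ := hsyl H hH
      obtain ⟨S₂, rfl⟩ := hsyl K hK
      obtain ⟨g, rfl⟩ := MulAction.exists_smul_eq G S₁ S₂
      refine ⟨g, ?_⟩
      rw [Sylow.coe_subgroup_smul]
      rfl
    · push Not at hex
      have hbot : ∀ L : Subgroup G, IsPiSubgroup π L → L = ⊥ := by
        intro L hL
        rw [← Subgroup.card_eq_one]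
        by_contra hne
        obtain ⟨r, hr, hd⟩ := Nat.exists_prime_and_dvd hne
        exact hex r hr (hL r hr hd)
      refine ⟨1, ?_⟩
      rw [hbot H hH.prop, hbot K hK.prop]
      simp
  · have htop : ∀ L : Subgroup G, Maximal (IsPiSubgroup π) L → L = ⊤ := by
      intro L hL
      have hT : IsPiSubgroup π (⊤ : Subgroup G) := fun r hr _ => h r hr
      exact eq_top_iff.mpr (hL.le_of_ge hT le_top)
    refine ⟨1, ?_⟩
    rw [htop H hH, htop K hK]
    simp

theorem cases_of_E {π : Set ℕ} (hE : ∀ (G : Type) [Group G] [Finite G], IsEPiGroup π G) :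
    (∀ p q : ℕ, p.Prime → q.Prime → p ∈ π → q ∈ π → p = q) ∨ ∀ p : ℕ, p.Prime → p ∈ π := by
  by_contra hcon
  push Not at hcon
  obtain ⟨⟨p, q, hp, hq, hpπ, hqπ, hpq⟩, r, hr, hrπ⟩ := hcon
  rcases lt_or_gt_of_ne hpq with hlt | hlt
  · obtain ⟨n, hn⟩ := exists_no_hall hq hp hr hqπ hpπ hrπ hlt
    exact hn (hE _)
  · obtain ⟨n, hn⟩ := exists_no_hall hp hq hr hpπ hqπ hrπ hlt
    exact hn (hE _)


/-- For a set of primes π the following are equivalent: every finite group has a Hall π-subgroup; in every finite group the maximal π-subgroups are pairwise conjugate; π contains at most one prime or contains every prime. -/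
theorem result (π : Set ℕ) :
    ((∀ (G : Type) [Group G] [Finite G], Cfsg.IsEPiGroup π G) ↔
      ((∀ p q : ℕ, p.Prime → q.Prime → p ∈ π → q ∈ π → p = q) ∨ ∀ p : ℕ, p.Prime → p ∈ π)) ∧
    ((∀ (G : Type) [Group G] [Finite G], Cfsg.IsDPiGroup π G) ↔
      ((∀ p q : ℕ, p.Prime → q.Prime → p ∈ π → q ∈ π → p = q) ∨ ∀ p : ℕ, p.Prime → p ∈ π)) := by
  refine ⟨⟨cases_of_E, fun h G _ _ => E_of_cases h G⟩, ⟨fun hD => cases_of_E (fun G _ _ => E_of_D (hD G)), fun h G _ _ => D_of_cases h G⟩⟩

end Cfsg.Agent.S3878
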