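import Cfsg.Statements.S3881
import Mathlib
import Cfsg.Agent.Lib.H18.MC

set_option autoImplicit false
open Cfsg

namespace Cfsg.Agent.S3881

/-- Let p be an odd prime and G a finite metacyclic p-group (G has a cyclic normal subgroup with cyclic quotient). Suppose G is non-abelian with |G'| = p^n. Then for 1 ≤ i ≤ n the number of elements of G whose conjugacy class has exactly p^i elements is |Z(G)| · (p^(2i) − p^(2i−2)). -/
theorem result {G : Type*} [Group G] [Finite G] {p : ℕ} [Fact p.Prime] (hp : p ≠ 2) (hG : IsPGroup p G) (hmc : Cfsg.IsMetacyclic G) (n : ℕ) (hn : n ≠ 0) (hGn : Nat.card ↥(commutator G) = p ^ n) (i : ℕ) (hi : 1 ≤ i) (hin : i ≤ n) :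
    Nat.card {g : G // (Subgroup.centralizer ({g} : Set G)).index = p ^ i} =
      Nat.card ↥(Subgroup.center G) * (p ^ (2 * i) - p ^ (2 * i - 2)) := by
  classical
  obtain ⟨D⟩ := H18.exists_mc hG hmc
  have hnn : n = D.n := by
    rw [D.card_commutator hp] at hGn
    exact (Nat.pow_right_injective (Fact.out : p.Prime).two_le hGn).symm
  subst hnn
  have hp1 : p.Prime := Fact.out
  have hiff : ∀ g : G, (Subgroup.centralizer ({g} : Set G)).index = p ^ i ↔
      g ∈ ((D.Gt (D.n - i) : Subgroup G) : Set G) \ ((D.Gt (D.n - i + 1) : Subgroup G) : Set G) := by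
    intro g
    have e1 : D.n - (D.n - i) = i := by omega
    have e2 : D.n - (D.n - i + 1) = i - 1 := by omega
    have h1 := D.class_iff hp (t := D.n - i) (by omega) g
    have h2 := D.class_iff hp (t := D.n - i + 1) (by omega) g
    rw [e1] at h1
    rw [e2] at h2
    constructor
    · intro h
      refine ⟨h1.2 h.le, fun h3 => ?_⟩
      have h4 := h2.1 h3
      rw [h] at h4
      have := (Nat.pow_le_pow_iff_right hp1.one_lt).1 h4
      omega
    · rintro ⟨h3, h4⟩
      have h5 := h1.1 h3
      have h6 : ¬ _ := fun h => h4 (h2.2 h)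
      push Not at h6
      obtain ⟨k, -, hk⟩ := (Nat.dvd_prime_pow hp1).1 (show (Subgroup.centralizer ({g} : Set G)).index ∣ p ^ (D.m + D.e) by
        rw [← D.card_eq]
        exact Subgroup.index_dvd_card _)
      rw [hk] at h5 h6 ⊢
      have h7 := (Nat.pow_le_pow_iff_right hp1.one_lt).1 h5
      have h8 := (Nat.pow_lt_pow_iff_right hp1.one_lt).1 h6
      congr 1
      omega
  have hle : ((D.Gt (D.n - i + 1) : Subgroup G) : Set G) ⊆ ((D.Gt (D.n - i) : Subgroup G) : Set G) := by
    intro g hg
    have h1 := (D.class_iff hp (t := D.n - i + 1) (by omega) g).1 hg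
    refine (D.class_iff hp (t := D.n - i) (by omega) g).2 (h1.trans ?_)
    exact Nat.pow_le_pow_right hp1.pos (by omega)
  have hcard : Nat.card {g : G // (Subgroup.centralizer ({g} : Set G)).index = p ^ i} =
      Set.ncard (((D.Gt (D.n - i) : Subgroup G) : Set G) \ ((D.Gt (D.n - i + 1) : Subgroup G) : Set G)) := by
    rw [← Nat.card_coe_set_eq]
    exact Nat.card_congr (Equiv.subtypeEquivRight hiff)
  rw [hcard, Set.ncard_diff hle (Set.toFinite _)]
  have hc1 : Set.ncard ((D.Gt (D.n - i) : Subgroup G) : Set G) = Nat.card (D.Gt (D.n - i)) :=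
    (Nat.card_coe_set_eq _).symm
  have hc2 : Set.ncard ((D.Gt (D.n - i + 1) : Subgroup G) : Set G) = Nat.card (D.Gt (D.n - i + 1)) :=
    (Nat.card_coe_set_eq _).symm
  rw [hc1, hc2, D.card_Gt hp (by omega), D.card_Gt hp (by omega), D.center_eq hp, D.card_Gt hp le_rfl,
    Nat.mul_sub, ← pow_add, ← pow_add]
  have h3 := D.n_le_m
  have h4 := D.n_le_e hp
  congr 2
  · omega
  · omega

end Cfsg.Agent.S3881
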