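import Cfsg.Statements.S3883
import Mathlib
import Cfsg.Agent.Lib.H01.Basic
import Cfsg.Agent.Lib.H18.MC2

set_option autoImplicit false
open Cfsg

namespace Cfsg.Agent.S3883

/-- Let p be an odd prime and G a finite metacyclic p-group (G has a cyclic normal subgroup with cyclic quotient). Suppose G is non-abelian. Then an element g of G lies outside the Frattini subgroup if and only if its centralizer C_G(g) is abelian. -/
theorem result {G : Type*} [Group G] [Finite G] {p : ℕ} [Fact p.Prime] (hp : p ≠ 2) (hG : IsPGroup p G) (hmc : Cfsg.IsMetacyclic G) (hna : ¬ IsMulCommutative G) (g : G) :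
    g ∉ frattini G ↔ IsMulCommutative ↥(Subgroup.centralizer ({g} : Set G)) := by
  classical
  obtain ⟨D⟩ := H18.exists_mc hG hmc
  have hpp : p.Prime := Fact.out
  have hn : D.n ≠ 0 := fun h => hna ((D.comm_iff_n hp).2 h)
  haveI hGn := D.Gt_normal 1 hp
  have hFr : frattini G = D.Gt 1 := by
    apply le_antisymm
    · have hpow : ∀ x : G, x ^ p ∈ D.Gt 1 := fun x => by
        have := D.pow_mem_Gt hp x 1
        rwa [pow_one] at this
      have hc : commutator G ≤ D.Gt 1 := by
        rw [D.commutator_eq hp]
        show Subgroup.zpowers (D.a ^ p ^ (D.s + 0)) ≤ _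
        rw [Subgroup.zpowers_le]
        have hs := D.s_pos
        have h1 : p ^ 1 ∣ p ^ (D.s + 0) := pow_dvd_pow _ (by omega)
        have := D.mem_Gt_of (t := 1) (i := p ^ (D.s + 0)) (j := 0) h1 (dvd_zero _)
        simpa using this
      exact H01.frattini_le_of_comm_pow (p := p) (D.Gt 1) hc hpow
    · apply sup_le
      · rw [Subgroup.zpowers_le, pow_one]
        exact H01.pow_mem_frattini_of_isPGroup hG _
      · rw [Subgroup.zpowers_le, pow_one]
        exact H01.pow_mem_frattini_of_isPGroup hG _
  rw [hFr, D.class_iff hp (by omega) g, D.abelian_iff_card hp]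
  set I := (Subgroup.centralizer ({g} : Set G)).index with hI
  have h1 : Nat.card (Subgroup.centralizer ({g} : Set G)) * I = p ^ (D.m + D.e) := by
    rw [← D.card_eq]
    exact Subgroup.card_mul_index _
  have h2 : p ^ D.n * (commutator G).index = p ^ (D.m + D.e) := by
    rw [← D.card_eq, ← D.card_commutator hp]
    exact Subgroup.card_mul_index _
  obtain ⟨k, -, hk⟩ := (Nat.dvd_prime_pow hpp).1 (show I ∣ p ^ (D.m + D.e) from ⟨_, by rw [mul_comm]; exact h1.symm⟩)
  have hIpos : 0 < I := by rw [hk]; exact pow_pos hpp.pos _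
  have hidx : 0 < (commutator G).index := by
    rw [D.index_commutator hp]; exact pow_pos hpp.pos _
  have e1 : ¬ I ≤ p ^ (D.n - 1) ↔ p ^ D.n ≤ I := by
    rw [hk, Nat.pow_le_pow_iff_right hpp.one_lt, Nat.pow_le_pow_iff_right hpp.one_lt]
    omega
  rw [e1]
  constructor
  · intro h
    have h3 : Nat.card (Subgroup.centralizer ({g} : Set G)) * p ^ D.n ≤ Nat.card (Subgroup.centralizer ({g} : Set G)) * I :=
      Nat.mul_le_mul_left _ h
    rw [h1, ← h2, mul_comm] at h3
    exact Nat.le_of_mul_le_mul_left h3 (pow_pos hpp.pos _)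
  · intro h
    have h3 : Nat.card (Subgroup.centralizer ({g} : Set G)) * I ≤ (commutator G).index * I :=
      Nat.mul_le_mul_right _ h
    rw [h1, ← h2, mul_comm] at h3
    exact Nat.le_of_mul_le_mul_left h3 hidx

end Cfsg.Agent.S3883
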