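import Cfsg.Statements.S3884
import Mathlib
import Cfsg.Agent.Lib.H18.MC3
import Cfsg.Agent.Lib.H18.MC2

set_option autoImplicit false
open Cfsg

namespace Cfsg.Agent.S3884


theorem exists_solve {p m : ℕ} [hp : Fact p.Prime] (S c : ℕ) (hS : ¬ p ∣ S) : ∃ x, p ^ m ∣ x * S + c := by
  haveI : NeZero (p ^ m) := ⟨pow_ne_zero _ hp.out.ne_zero⟩
  have hcop : Nat.Coprime S (p ^ m) :=
    Nat.Coprime.pow_right _ ((Nat.Prime.coprime_iff_not_dvd hp.out).2 hS).symm
  let u := ZMod.unitOfCoprime S hcop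
  refine ⟨((-(c : ZMod (p ^ m))) * ((u⁻¹ : (ZMod (p ^ m))ˣ) : ZMod (p ^ m))).val, ?_⟩
  rw [← ZMod.natCast_eq_zero_iff]
  push_cast
  rw [ZMod.natCast_zmod_val]
  have hu : ((u : (ZMod (p ^ m))ˣ) : ZMod (p ^ m)) = (S : ZMod (p ^ m)) := ZMod.coe_unitOfCoprime S hcop
  rw [← hu, mul_assoc, Units.inv_mul, mul_one]
  ring

theorem geom_form {p : ℕ} [hp : Fact p.Prime] (hp2 : p ≠ 2) {q : ℕ} (hq : 1 ≤ q) (hpq : p ∣ q - 1) (k : ℕ) :
    ∃ S', ∑ u ∈ Finset.range (p ^ k), q ^ u = p ^ k * S' ∧ ¬ p ∣ S' := by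
  have h0 : p ^ k ≠ 0 := pow_ne_zero _ hp.out.ne_zero
  have hv := H18.mc_val_geom hp2 hq hpq h0
  rw [padicValNat.prime_pow] at hv
  have hne := H18.mc_geom_ne_zero hq h0
  have hd : p ^ k ∣ ∑ u ∈ Finset.range (p ^ k), q ^ u := by
    rw [padicValNat_dvd_iff_le hne, hv]
  obtain ⟨S', hS'⟩ := hd
  refine ⟨S', hS', fun h => ?_⟩
  have h1 : p ^ (k + 1) ∣ ∑ u ∈ Finset.range (p ^ k), q ^ u := by
    rw [hS', pow_succ]
    exact Nat.mul_dvd_mul_left _ h
  have h2 := (padicValNat_dvd_iff_le hne).1 h1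
  omega



/-- Let p be an odd prime and G a finite metacyclic p-group (G has a cyclic normal subgroup with cyclic quotient). Then G is the product of two cyclic subgroups with trivial intersection: there are cyclic subgroups A and B with A ∩ B = 1 and |A| · |B| = |G|. -/
theorem result {G : Type*} [Group G] [Finite G] {p : ℕ} [Fact p.Prime] (hp : p ≠ 2) (hG : IsPGroup p G) (hmc : Cfsg.IsMetacyclic G) : ∃ A B : Subgroup G, IsCyclic ↥A ∧ IsCyclic ↥B ∧ A ⊓ B = ⊥ ∧ Nat.card ↥A * Nat.card ↥B = Nat.card G := by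
  classical
  obtain ⟨D⟩ := H18.exists_mc hG hmc
  have hpp : p.Prime := Fact.out
  have hcardG := D.card_eq
  have hr0 : 1 ≤ D.r := D.one_le_r
  have hq1 : ∀ j, 1 ≤ D.r ^ j := fun j => Nat.one_le_pow _ _ hr0
  -- normalized exponent
  obtain ⟨c₀, hc₀lt, hc₀⟩ : ∃ c₀, c₀ < p ^ D.m ∧ D.b ^ p ^ D.e = D.a ^ c₀ := by
    obtain ⟨w, hw⟩ := D.pow_mem_a (dvd_refl _)
    refine ⟨w % p ^ D.m, Nat.mod_lt _ (pow_pos hpp.pos _), ?_⟩
    rw [hw, ← D.hord, pow_mod_orderOf]
  by_cases hA : p ^ D.e ∣ c₀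
  · -- split case
    obtain ⟨c', hc'⟩ := hA
    obtain ⟨S', hS1, hS2⟩ := geom_form hp (hq1 1) (D.p_dvd_pow_sub hp 1) D.e
    obtain ⟨x, hx⟩ := exists_solve (p := p) (m := D.m) S' c' hS2
    set y := D.a ^ x * D.b ^ 1 with hy
    have hpow : ∀ t, y ^ t = D.a ^ (x * ∑ u ∈ Finset.range t, (D.r ^ 1) ^ u) * D.b ^ (1 * t) :=
      fun t => D.pow_form x 1 t
    have hy1 : y ^ p ^ D.e = 1 := by
      rw [hpow, one_mul, hc₀, ← pow_add, ← orderOf_dvd_iff_pow_eq_one, D.hord, hS1, hc']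
      have : x * (p ^ D.e * S') + p ^ D.e * c' = p ^ D.e * (x * S' + c') := by ring
      rw [this]
      exact Dvd.dvd.mul_left hx _
    have hymem : ∀ t, y ^ t ∈ Subgroup.zpowers D.a → p ^ D.e ∣ t := by
      intro t ht
      rw [hpow, one_mul] at ht
      apply (D.hbe t).1
      have h2 : D.b ^ t = (D.a ^ (x * ∑ u ∈ Finset.range t, (D.r ^ 1) ^ u))⁻¹ *
          (D.a ^ (x * ∑ u ∈ Finset.range t, (D.r ^ 1) ^ u) * D.b ^ t) := by group
      rw [h2]
      exact Subgroup.mul_mem _ (Subgroup.inv_mem _ (Subgroup.pow_mem _ (Subgroup.mem_zpowers _) _)) ht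
    have hord : orderOf y = p ^ D.e := by
      apply Nat.dvd_antisymm (orderOf_dvd_of_pow_eq_one hy1)
      apply hymem
      rw [pow_orderOf_eq_one]
      exact Subgroup.one_mem _
    refine ⟨Subgroup.zpowers D.a, Subgroup.zpowers y, inferInstance, inferInstance, ?_, ?_⟩
    · rw [eq_bot_iff]
      intro g hg
      obtain ⟨hg1, hg2⟩ := Subgroup.mem_inf.1 hg
      rw [← mem_powers_iff_mem_zpowers] at hg2
      obtain ⟨t, rfl⟩ := hg2
      obtain ⟨k, rfl⟩ := hymem t hg1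
      rw [Subgroup.mem_bot]
      show y ^ (p ^ D.e * k) = 1
      rw [pow_mul, hy1, one_pow]
    · rw [Nat.card_zpowers, Nat.card_zpowers, hord, D.hord, hcardG, pow_add]
  · -- non-split case
    have hc0 : c₀ ≠ 0 := by
      rintro rfl
      exact hA (dvd_zero _)
    set k := padicValNat p c₀ with hk
    obtain ⟨c', hc'⟩ : p ^ k ∣ c₀ := pow_padicValNat_dvd
    have hc'p : ¬ p ∣ c' := by
      intro h
      have h1 : p ^ (k + 1) ∣ c₀ := by
        rw [hc', pow_succ]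
        exact Nat.mul_dvd_mul_left _ h
      have h2 := (padicValNat_dvd_iff_le hc0).1 h1
      omega
    have hke : k < D.e := by
      by_contra h
      push Not at h
      exact hA ((pow_dvd_pow _ h).trans (pow_padicValNat_dvd))
    have hkm : k < D.m := by
      have h1 : p ^ k ≤ c₀ := Nat.le_of_dvd (Nat.pos_of_ne_zero hc0) pow_padicValNat_dvd
      exact (Nat.pow_lt_pow_iff_right hpp.one_lt).1 (lt_of_le_of_lt h1 hc₀lt)
    set j₀ := p ^ (D.e - k) with hj₀
    obtain ⟨S', hS1, hS2⟩ := geom_form hp (hq1 j₀) (D.p_dvd_pow_sub hp j₀) k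
    obtain ⟨x, hx⟩ := exists_solve (p := p) (m := D.m) S' c' hS2
    have hxp : ¬ p ∣ x := by
      intro h
      have h1 : p ∣ x * S' + c' := (dvd_pow_self p (by omega)).trans hx
      have h2 : p ∣ c' := (Nat.dvd_add_right (h.mul_right _)).1 h1
      exact hc'p h2
    set y := D.a ^ x * D.b ^ j₀ with hy
    have hpow : ∀ t, y ^ t = D.a ^ (x * ∑ u ∈ Finset.range t, (D.r ^ j₀) ^ u) * D.b ^ (j₀ * t) :=
      fun t => D.pow_form x j₀ t
    have hj : j₀ * p ^ k = p ^ D.e := by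
      rw [hj₀, ← pow_add]
      congr 1
      omega
    have hy1 : y ^ p ^ k = 1 := by
      rw [hpow, hj, hc₀, ← pow_add, ← orderOf_dvd_iff_pow_eq_one, D.hord, hS1, hc']
      have : x * (p ^ k * S') + p ^ k * c' = p ^ k * (x * S' + c') := by ring
      rw [this]
      exact Dvd.dvd.mul_left hx _
    have hymem : ∀ t, y ^ t ∈ Subgroup.zpowers D.b → p ^ k ∣ t := by
      intro t ht
      by_cases ht0 : t = 0
      · subst ht0
        simp
      rw [hpow] at ht
      have h2 : D.a ^ (x * ∑ u ∈ Finset.range t, (D.r ^ j₀) ^ u) ∈ Subgroup.zpowers D.b := by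
        have h3 := Subgroup.mul_mem _ ht (Subgroup.inv_mem _ (Subgroup.pow_mem _ (Subgroup.mem_zpowers D.b) (j₀ * t)))
        simpa using h3
      rw [← mem_powers_iff_mem_zpowers] at h2
      obtain ⟨f, hf⟩ := h2
      have hf' : D.b ^ f = D.a ^ (x * ∑ u ∈ Finset.range t, (D.r ^ j₀) ^ u) := hf
      have h3 : D.b ^ f ∈ Subgroup.zpowers D.a := by
        rw [hf']
        exact Subgroup.pow_mem _ (Subgroup.mem_zpowers _) _
      obtain ⟨f', rfl⟩ := (D.hbe f).1 h3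
      rw [pow_mul, hc₀, ← pow_mul, D.a_pow_eq_iff] at hf'
      have h4 := hf'.of_dvd (pow_dvd_pow p hkm.le)
      have h5 : p ^ k ∣ x * ∑ u ∈ Finset.range t, (D.r ^ j₀) ^ u :=
        (h4.dvd_iff (dvd_refl _)).1 (Dvd.dvd.mul_right pow_padicValNat_dvd _)
      have h6 := H18.mc_dvd_of_geom hp (hq1 j₀) (D.p_dvd_pow_sub hp j₀) ht0 h5
      have hcop : Nat.Coprime (p ^ k) x :=
        Nat.Coprime.pow_left _ ((Nat.Prime.coprime_iff_not_dvd hpp).2 hxp)
      exact hcop.dvd_of_dvd_mul_left h6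
    have hord : orderOf y = p ^ k := by
      apply Nat.dvd_antisymm (orderOf_dvd_of_pow_eq_one hy1)
      apply hymem
      rw [pow_orderOf_eq_one]
      exact Subgroup.one_mem _
    have hordb : orderOf D.b = p ^ D.e * p ^ (D.m - k) := by
      have hd : p ^ D.e ∣ orderOf D.b := by
        apply (D.hbe _).1
        rw [pow_orderOf_eq_one]
        exact Subgroup.one_mem _
      have h1 := orderOf_pow_of_dvd (pow_ne_zero D.e hpp.ne_zero) hd
      have h2 : orderOf (D.b ^ p ^ D.e) = p ^ (D.m - k) := by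
        rw [hc₀, hc', pow_mul, Nat.Coprime.orderOf_pow, H18.mc_orderOf_pow_prime_pow D.hord]
        rw [H18.mc_orderOf_pow_prime_pow D.hord]
        exact Nat.Coprime.pow_left _ ((Nat.Prime.coprime_iff_not_dvd hpp).2 hc'p)
      rw [h2] at h1
      rw [h1, Nat.mul_div_cancel' hd]
    refine ⟨Subgroup.zpowers y, Subgroup.zpowers D.b, inferInstance, inferInstance, ?_, ?_⟩
    · rw [eq_bot_iff]
      intro g hg
      obtain ⟨hg1, hg2⟩ := Subgroup.mem_inf.1 hg
      rw [← mem_powers_iff_mem_zpowers] at hg1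
      obtain ⟨t, rfl⟩ := hg1
      obtain ⟨l, rfl⟩ := hymem t hg2
      rw [Subgroup.mem_bot]
      show y ^ (p ^ k * l) = 1
      rw [pow_mul, hy1, one_pow]
    · rw [Nat.card_zpowers, Nat.card_zpowers, hord, hordb, hcardG, ← pow_add, ← pow_add]
      congr 1
      omega

end Cfsg.Agent.S3884
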