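import Cfsg.Statements.S3885
import Mathlib
import Cfsg.Agent.Lib.H18.MC3

set_option autoImplicit false
open Cfsg

namespace Cfsg.Agent.S3885

/-- Let p be an odd prime and G a finite metacyclic p-group (G has a cyclic normal subgroup with cyclic quotient). Then every abelian subgroup K of G containing the center of G is the center of its own centralizer: K = Z(C_G(K)). -/
theorem result {G : Type*} [Group G] [Finite G] {p : ℕ} [Fact p.Prime] (hp : p ≠ 2) (hG : IsPGroup p G) (hmc : Cfsg.IsMetacyclic G) (K : Subgroup G) (hK : IsMulCommutative ↥K) (hZ : Subgroup.center G ≤ K) :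
    K = Subgroup.centralizer (K : Set G) ⊓ Subgroup.centralizer (Subgroup.centralizer (K : Set G) : Set G) := by
  obtain ⟨D⟩ := H18.exists_mc hG hmc
  have h1 := D.card_mul_centralizer hp K hZ
  have hZC : Subgroup.center G ≤ Subgroup.centralizer (K : Set G) := by
    intro z hz
    rw [Subgroup.mem_centralizer_iff]
    intro g _
    exact (Subgroup.mem_center_iff.1 hz g)
  have h2 := D.card_mul_centralizer hp _ hZC
  have hKC : K ≤ Subgroup.centralizer (Subgroup.centralizer (K : Set G) : Set G) := by
    intro k hk
    rw [Subgroup.mem_centralizer_iff]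
    intro y hy
    exact ((Subgroup.mem_centralizer_iff.1 hy) k hk).symm
  have h3 : Nat.card (Subgroup.centralizer (K : Set G)) * Nat.card (Subgroup.centralizer (Subgroup.centralizer (K : Set G) : Set G))
      = Nat.card (Subgroup.centralizer (K : Set G)) * Nat.card K := by
    rw [h2, mul_comm, h1]
  have h4 := Nat.eq_of_mul_eq_mul_left Nat.card_pos h3
  have h5 := Subgroup.eq_of_le_of_card_ge hKC h4.le
  apply le_antisymm
  · refine le_inf ?_ hKC
    intro k hk
    rw [Subgroup.mem_centralizer_iff]
    intro k' hk'
    have := (isMulCommutative_iff.1 hK) ⟨k', hk'⟩ ⟨k, hk⟩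
    exact congrArg Subtype.val this
  · rw [← h5]
    exact inf_le_right

end Cfsg.Agent.S3885
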