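import Cfsg.Statements.S3886
import Mathlib
import Cfsg.Agent.Lib.H18.MC3

set_option autoImplicit false
open Cfsg

namespace Cfsg.Agent.S3886

/-- Let p be an odd prime and G a finite metacyclic p-group (G has a cyclic normal subgroup with cyclic quotient). Then the largest value of |R| · |Z(R)| over subgroups R of G is |G : G'|², and the subgroups attaining it (the centrally large subgroups) are exactly the non-abelian subgroups together with the maximal abelian subgroups of G. -/
theorem result {G : Type*} [Group G] [Finite G] {p : ℕ} [Fact p.Prime] (hp : p ≠ 2) (hG : IsPGroup p G) (hmc : Cfsg.IsMetacyclic G) : Cfsg.maxCentralProduct G = (commutator G).index ^ 2 ∧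
    ∀ R : Subgroup G, Cfsg.IsCentrallyLarge R ↔ (¬ IsMulCommutative ↥R ∨ Maximal (fun K : Subgroup G => IsMulCommutative ↥K) R) := by
  obtain ⟨D⟩ := H18.exists_mc hG hmc
  have hpp : p.Prime := Fact.out
  have habval : ∀ R : Subgroup G, IsMulCommutative R → Nat.card R * Nat.card (Subgroup.center R) = Nat.card R ^ 2 := by
    intro R hR
    have h1 : Subgroup.center R = ⊤ := by
      ext x
      simp only [Subgroup.mem_top, iff_true]
      rw [Subgroup.mem_center_iff]
      intro y
      exact (isMulCommutative_iff.1 hR) y x
    rw [h1, Subgroup.card_top, pow_two]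
  have hnonab : ∀ R : Subgroup G, ¬ IsMulCommutative R →
      Nat.card R * Nat.card (Subgroup.center R) = (commutator G).index ^ 2 := by
    intro R hR
    obtain ⟨α, β, c, D', hα, hβ, h1, h2, h3, h4, h5, h6, h7⟩ := D.exists_sub_mc hp R
    have hs := D.s_of_sub hp D' h5
    have hn' : D'.n ≠ 0 := fun h => hR ((D'.comm_iff_n hp).2 h)
    have hnd : D'.n = D.m - α - D'.s := by
      show D'.m - D'.s = _
      rw [h3]
    have hnn : D.n = D.m - D.s := rfl
    have hne := D'.n_le_e hp
    rw [D'.card_eq, D'.card_center hp, D.index_commutator hp, ← pow_add, ← pow_mul, h3, h4]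
    rw [h4] at hne
    congr 1
    omega
  have hcardpow : ∃ t, (commutator G).index = p ^ t ∧ t ≤ D.m + D.e := ⟨_, D.index_commutator hp, by omega⟩
  obtain ⟨t, ht, htle⟩ := hcardpow
  have hmax : maxCentralProduct G = (commutator G).index ^ 2 := by
    unfold maxCentralProduct
    have hbound : ∀ k ∈ {k : ℕ | ∃ R : Subgroup G, Nat.card R * Nat.card (Subgroup.center R) = k}, k ≤ (commutator G).index ^ 2 := by
      rintro k ⟨R, rfl⟩
      by_cases hR : IsMulCommutative R
      · rw [habval R hR]
        exact Nat.pow_le_pow_left ((D.abelian_iff_card hp R).1 hR) 2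
      · exact (hnonab R hR).le
    apply le_antisymm
    · exact csSup_le ⟨_, ⊤, rfl⟩ hbound
    · apply le_csSup ⟨_, hbound⟩
      have hd : p ^ t ∣ Nat.card G := by
        rw [D.card_eq]
        exact pow_dvd_pow _ htle
      obtain ⟨K, hK⟩ := Sylow.exists_subgroup_card_pow_prime p hd
      have hK' : Nat.card K = (commutator G).index := by rw [hK, ht]
      refine ⟨K, ?_⟩
      rw [habval K ((D.abelian_iff_card hp K).2 hK'.le), hK']
  refine ⟨hmax, fun R => ?_⟩
  unfold IsCentrallyLarge
  rw [hmax, D.maximal_iff_card hp]
  constructor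
  · intro h
    by_cases hR : IsMulCommutative R
    · right
      rw [habval R hR] at h
      exact Nat.pow_left_injective (n := 2) (by norm_num) h
    · exact Or.inl hR
  · rintro (h | h)
    · exact hnonab R h
    · rw [habval R ((D.abelian_iff_card hp R).2 h.le), h]

end Cfsg.Agent.S3886
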