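import Cfsg.Statements.S3887
import Mathlib
import Cfsg.Agent.Lib.H18.MC3

set_option autoImplicit false
open Cfsg

namespace Cfsg.Agent.S3887

/-- Let p be an odd prime and G a finite metacyclic p-group (G has a cyclic normal subgroup with cyclic quotient). Then a subgroup R of G maximizes |R| · |C_G(R)| over all subgroups of G if and only if R contains the center of G. -/
theorem result {G : Type*} [Group G] [Finite G] {p : ℕ} [Fact p.Prime] (hp : p ≠ 2) (hG : IsPGroup p G) (hmc : Cfsg.IsMetacyclic G) (R : Subgroup G) : Cfsg.IsCentralizerLarge R ↔ Subgroup.center G ≤ R := by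
  obtain ⟨D⟩ := H18.exists_mc hG hmc
  have hmax : maxCentralizerProduct G = p ^ (D.m + D.e + (D.m - D.n + (D.e - D.n))) := by
    unfold maxCentralizerProduct
    apply le_antisymm
    · refine csSup_le ⟨_, ⊤, rfl⟩ ?_
      rintro k ⟨R, rfl⟩
      exact (D.card_mul_centralizer_le hp R).1
    · apply le_csSup
      · refine ⟨p ^ (D.m + D.e + (D.m - D.n + (D.e - D.n))), ?_⟩
        rintro k ⟨R, rfl⟩
        exact (D.card_mul_centralizer_le hp R).1
      · exact ⟨⊤, D.card_mul_centralizer hp ⊤ le_top⟩
  unfold IsCentralizerLarge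
  rw [hmax]
  constructor
  · exact (D.card_mul_centralizer_le hp R).2
  · exact D.card_mul_centralizer hp R

end Cfsg.Agent.S3887
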