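import Cfsg.Statements.S3898
import Mathlib
import Cfsg.Agent.Lib.H01.Transfer
import Cfsg.Agent.Lib.H18.KP3
import Cfsg.Agent.Lib.H18.KP2

set_option autoImplicit false
open Cfsg

namespace Cfsg.Agent.S3898

namespace X98
open Subgroup
open Cfsg.Agent.H18
universe u
variable {G : Type u} [Group G] [Finite G]

lemma card_cent_conj {a b : G} (h : IsConj a b) :
    Nat.card (centralizer ({a} : Set G)) = Nat.card (centralizer ({b} : Set G)) := by
  obtain ⟨c, rfl⟩ := isConj_iff.1 h
  apply Nat.card_congr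
  exact
    { toFun := fun x => ⟨c * x * c⁻¹, by
        have hx := mem_centralizer_singleton_iff.1 x.2
        apply mem_centralizer_singleton_iff.2
        calc c * (x : G) * c⁻¹ * (c * a * c⁻¹) = c * ((x : G) * a) * c⁻¹ := by group
          _ = c * (a * (x : G)) * c⁻¹ := by rw [hx]
          _ = c * a * c⁻¹ * (c * (x : G) * c⁻¹) := by group⟩
      invFun := fun x => ⟨c⁻¹ * x * c, by
        have hx := mem_centralizer_singleton_iff.1 x.2
        apply mem_centralizer_singleton_iff.2
        calc c⁻¹ * (x : G) * c * a = c⁻¹ * ((x : G) * (c * a * c⁻¹)) * c := by group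
          _ = c⁻¹ * ((c * a * c⁻¹) * (x : G)) * c := by rw [hx]
          _ = a * (c⁻¹ * (x : G) * c) := by group⟩
      left_inv := fun x => by
        apply Subtype.ext
        show c⁻¹ * (c * (x : G) * c⁻¹) * c = x
        group
      right_inv := fun x => by
        apply Subtype.ext
        show c * (c⁻¹ * (x : G) * c) * c⁻¹ = x
        group }

lemma nPi_even (s : Finset ℕ) (hs : ∀ q ∈ s, q.Prime) (h2 : 2 ∈ s) (C : Subgroup G)
    (h : ¬ 2 ^ (Nat.card G).factorization 2 ∣ Nat.card C) : 2 * nPi s C ≤ nPi s G := by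
  rw [nPi_eq_mul (G := C) s h2, nPi_eq_mul (G := G) s h2]
  have hle := nPi_le_of_subgroup (s.erase 2) (fun q hq => hs q (Finset.mem_of_mem_erase hq)) C
  have ha : (Nat.card C).factorization 2 < (Nat.card G).factorization 2 := by
    by_contra hlt
    push Not at hlt
    apply h
    exact (pow_dvd_pow 2 hlt).trans (Nat.ordProj_dvd _ _)
  have hp : 2 ^ ((Nat.card C).factorization 2 + 1) ≤ 2 ^ (Nat.card G).factorization 2 :=
    Nat.pow_le_pow_right (by norm_num) ha
  calc 2 * (2 ^ (Nat.card C).factorization 2 * nPi (s.erase 2) C)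
      = 2 ^ ((Nat.card C).factorization 2 + 1) * nPi (s.erase 2) C := by ring
    _ ≤ 2 ^ (Nat.card G).factorization 2 * nPi (s.erase 2) G := Nat.mul_le_mul hp hle

/-- the weights -/
theorem weight_bound {r : ℕ} [Fact r.Prime] (s : Finset ℕ) (hrs : r ∉ s) (hs : ∀ q ∈ s, q.Prime) (h2s : 2 ∈ s)
    (R : Sylow r G) (κ τ t : ℕ) (hκ : 2 ≤ κ) (hτ : κ + 1 ≤ τ) (ht : ∀ m, t ≤ m → 2 * κ + m ≤ κ * m)
    (hF : ∀ x : (R : Subgroup G), 2 ^ (Nat.card G).factorization 2 ∣ Nat.card (centralizer ({(x : G)} : Set G)) →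
      (∃ y : (R : Subgroup G), y ≠ x ∧ clOf R y = clOf R x) →
      t ≤ Nat.card {z : (R : Subgroup G) // clOf R z = clOf R x})
    (hk : nPi (insert r s) G < 2 * Nat.card (ClS (insert r s) G)) :
    Nat.card (R : Subgroup G) < τ * Nat.card {x : (R : Subgroup G) // IsoEl R (x : G)} := by
  classical
  have hr : r.Prime := Fact.out
  haveI := Fintype.ofFinite (ClP r G)
  haveI := Fintype.ofFinite (R : Subgroup G)
  haveI := Fintype.ofFinite {x : (R : Subgroup G) // IsoEl R (x : G)}
  set B := nPi s G with hBdef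
  have hB : 0 < B := nPi_pos s hs
  let w : ClP r G → ℕ := fun c => Nat.card (ClS s (centralizer ({repCl c.1} : Set G)))
  have hsum : Nat.card (ClS (insert r s) G) ≤ ∑ c : ClP r G, w c := by
    have h1 := Nat.card_le_card_of_surjective _ (psiCl_surjective (G := G) r hr s hrs)
    refine h1.trans (le_of_eq ?_)
    rw [Nat.card_sigma]
  have hn : nPi (insert r s) G = Nat.card (R : Subgroup G) * B := by
    rw [hBdef, Sylow.card_eq_multiplicity R]
    unfold nPi
    rw [Finset.prod_insert hrs]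
  let m : ClP r G → ℕ := fun c => (Finset.univ.filter (fun x : (R : Subgroup G) => clOf R x = c)).card
  let I : ClP r G → ℕ := fun c => (Finset.univ.filter
        (fun x : {x : (R : Subgroup G) // IsoEl R (x : G)} => clOf R x.1 = c)).card
  have h1 : Nat.card (R : Subgroup G) = ∑ c : ClP r G, m c := by
    rw [Nat.card_eq_fintype_card, ← Finset.card_univ]
    exact Finset.card_eq_sum_card_fiberwise (fun x _ => Finset.mem_coe.2 (Finset.mem_univ _))
  have h2 : Nat.card {x : (R : Subgroup G) // IsoEl R (x : G)} = ∑ c : ClP r G, I c := by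
    rw [Nat.card_eq_fintype_card, ← Finset.card_univ]
    exact Finset.card_eq_sum_card_fiberwise (fun x _ => Finset.mem_coe.2 (Finset.mem_univ _))
  have per : ∀ c : ClP r G, 2 * κ * w c + B * m c ≤ κ * B * m c + τ * B * I c := by
    intro c
    obtain ⟨x, rfl⟩ := clOf_surjective R c
    have hwB : w (clOf R x) ≤ B :=
      (card_clS_le s hs _).trans (nPi_le_of_subgroup s hs _)
    have hconj : IsConj (x : G) (repCl (clOf R x).1) := by
      have := mk_repCl (clOf R x).1
      exact ConjClasses.mk_eq_mk_iff_isConj.1 this.symm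
    have hm1 : 0 < m (clOf R x) := Finset.card_pos.2 ⟨x, by simp⟩
    by_cases hu : ∃ y : (R : Subgroup G), y ≠ x ∧ clOf R y = clOf R x
    · obtain ⟨y, hyx, hy⟩ := hu
      have hm2 : 2 ≤ m (clOf R x) :=
        Finset.one_lt_card.2 ⟨y, by simp [hy], x, by simp, hyx⟩
      generalize hmd : m (clOf R x) = md at hm2 hm1 ⊢
      generalize hId : I (clOf R x) = Id
      by_cases hodd : 2 ^ (Nat.card G).factorization 2 ∣ Nat.card (centralizer ({repCl (clOf R x).1} : Set G))
      · rw [← card_cent_conj hconj] at hodd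
        have htm := hF x hodd ⟨y, hyx, hy⟩
        have h3 := ht md (by
          rw [← hmd]
          rw [Nat.card_eq_fintype_card, Fintype.card_subtype] at htm
          exact htm)
        have h4 : 2 * κ * w (clOf R x) ≤ 2 * κ * B := Nat.mul_le_mul_left _ hwB
        calc 2 * κ * w (clOf R x) + B * md ≤ 2 * κ * B + B * md := Nat.add_le_add_right h4 _
          _ = B * (2 * κ + md) := by ring
          _ ≤ B * (κ * md) := Nat.mul_le_mul_left _ h3
          _ = κ * B * md := by ring
          _ ≤ _ := Nat.le_add_right _ _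
      · have h5 : 2 * w (clOf R x) ≤ B := by
          have h6 := card_clS_le s hs (centralizer ({repCl (clOf R x).1} : Set G))
          have h7 := nPi_even s hs h2s _ hodd
          have h8 : w (clOf R x) ≤ nPi s (centralizer ({repCl (clOf R x).1} : Set G)) := h6
          omega
        have h9 : κ + md ≤ κ * md := by nlinarith
        calc 2 * κ * w (clOf R x) + B * md = κ * (2 * w (clOf R x)) + B * md := by ring
          _ ≤ κ * B + B * md := Nat.add_le_add_right (Nat.mul_le_mul_left _ h5) _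
          _ = B * (κ + md) := by ring
          _ ≤ B * (κ * md) := Nat.mul_le_mul_left _ h9
          _ = κ * B * md := by ring
          _ ≤ _ := Nat.le_add_right _ _
    · push Not at hu
      have hiso : IsoEl R (x : G) := by
        refine ⟨x.2, fun g hg => ?_⟩
        by_contra hne
        have h5 : (⟨g * x * g⁻¹, hg⟩ : (R : Subgroup G)) ≠ x := fun h => hne (congrArg Subtype.val h)
        apply hu _ h5
        rw [clOf_eq_iff]
        exact (isConj_iff.2 ⟨g, rfl⟩).symm
      have hI : 0 < I (clOf R x) := Finset.card_pos.2 ⟨⟨x, hiso⟩, by simp⟩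
      have hm : m (clOf R x) = 1 := by
        apply le_antisymm _ hm1
        rw [Finset.card_le_one]
        intro a ha b hb
        have ha' := (Finset.mem_filter.1 ha).2
        have hb' := (Finset.mem_filter.1 hb).2
        have e1 : a = x := by
          by_contra h
          exact hu a h ha'
        have e2 : b = x := by
          by_contra h
          exact hu b h hb'
        rw [e1, e2]
      rw [hm]
      generalize hId : I (clOf R x) = Id at hI ⊢
      have h4 : 2 * κ * w (clOf R x) ≤ 2 * κ * B := Nat.mul_le_mul_left _ hwB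
      have h10 : τ * B ≤ τ * B * Id := Nat.le_mul_of_pos_right _ hI
      have h11 : (2 * κ + 1) * B ≤ (κ + τ) * B := Nat.mul_le_mul_right _ (by omega)
      calc 2 * κ * w (clOf R x) + B * 1 ≤ 2 * κ * B + B * 1 := Nat.add_le_add_right h4 _
        _ = (2 * κ + 1) * B := by ring
        _ ≤ (κ + τ) * B := h11
        _ = κ * B * 1 + τ * B := by ring
        _ ≤ _ := Nat.add_le_add_left h10 _
  have hS := Finset.sum_le_sum (fun c (_ : c ∈ Finset.univ) => per c)
  rw [Finset.sum_add_distrib, Finset.sum_add_distrib] at hS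
  have e1 : ∑ c : ClP r G, 2 * κ * w c = 2 * κ * ∑ c : ClP r G, w c := by rw [Finset.mul_sum]
  have e2 : ∑ c : ClP r G, B * m c = B * Nat.card (R : Subgroup G) := by rw [h1, Finset.mul_sum]
  have e3 : ∑ c : ClP r G, κ * B * m c = κ * B * Nat.card (R : Subgroup G) := by rw [h1, Finset.mul_sum]
  have e4 : ∑ c : ClP r G, τ * B * I c = τ * B * Nat.card {x : (R : Subgroup G) // IsoEl R (x : G)} := by
    rw [h2, Finset.mul_sum]
  rw [e1, e2, e3, e4] at hS
  rw [hn] at hk
  generalize Nat.card (R : Subgroup G) = Rc at *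
  generalize Nat.card {x : (R : Subgroup G) // IsoEl R (x : G)} = Ic at *
  have h11 : Rc * B < 2 * ∑ c : ClP r G, w c := lt_of_lt_of_le hk (Nat.mul_le_mul_left _ hsum)
  generalize (∑ c : ClP r G, w c) = W at *
  have h12 : κ * (Rc * B) < κ * (2 * W) := Nat.mul_lt_mul_of_pos_left h11 (by omega)
  have h13 : B * Rc < B * (τ * Ic) := by nlinarith
  exact Nat.lt_of_mul_lt_mul_left h13

end X98

namespace X98
open Subgroup
open Cfsg.Agent.H18
universe u
variable {G : Type u} [Group G] [Finite G]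

lemma index_dvd_of_sup' (H M : Subgroup G) [M.Normal] (h : H ⊔ M = ⊤) : M.index ∣ Nat.card H := by
  let f : H →* G ⧸ M := (QuotientGroup.mk' M).comp H.subtype
  have hf : Function.Surjective f := by
    intro x
    obtain ⟨g, rfl⟩ := QuotientGroup.mk_surjective x
    have hg : g ∈ H ⊔ M := by rw [h]; trivial
    obtain ⟨a, ha, b, hb, hab⟩ := Subgroup.mem_sup_of_normal_right.1 hg
    refine ⟨⟨a, ha⟩, ?_⟩
    show ((a : G) : G ⧸ M) = (g : G ⧸ M)
    rw [← hab]
    rw [QuotientGroup.eq]
    simpa using hb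
  have := Subgroup.card_dvd_of_surjective f hf
  rwa [← Subgroup.index_eq_card] at this

lemma central_fusion' {p : ℕ} [Fact p.Prime] (P : Sylow p G)
    {a b c : G} (ha : ∀ s ∈ (P : Subgroup G), s * a * s⁻¹ = a) (hb : ∀ s ∈ (P : Subgroup G), s * b * s⁻¹ = b)
    (hc : c * a * c⁻¹ = b) :
    ∃ n ∈ Subgroup.normalizer ((P : Subgroup G) : Set G), n * a * n⁻¹ = b := by
  obtain ⟨n, hn, e⟩ := Cfsg.Agent.H01.burnside_fusion P {a} {b}
    (fun x hx => by simp [Cfsg.Agent.H01.conjImage, ha x hx])
    (fun x hx => by simp [Cfsg.Agent.H01.conjImage, hb x hx])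
    c (by simp [Cfsg.Agent.H01.conjImage, hc])
  refine ⟨n, hn, ?_⟩
  simpa [Cfsg.Agent.H01.conjImage] using e

lemma two_part {r : ℕ} [Fact r.Prime] (R : Sylow r G) {a : G} (K : Subgroup G) [K.Normal]
    (hKodd : ¬ 2 ∣ Nat.card K) (hRK : (R : Subgroup G) ≤ K) (hRa : (R : Subgroup G) ≤ centralizer ({a} : Set G))
    (v : ℕ) (hodd : 2 ^ v ∣ Nat.card (centralizer ({a} : Set G))) :
    2 ^ v ∣ Nat.card (normalizer ((R : Subgroup G) : Set G) ⊓ centralizer ({a} : Set G) : Subgroup G) := by
  classical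
  set Cy := centralizer ({a} : Set G) with hCy
  let N0 : Subgroup Cy := K.subgroupOf Cy
  haveI hN0 : N0.Normal := inferInstance
  let R1 : Sylow r Cy := R.subtype hRa
  have hR1N0 : (R1 : Subgroup Cy) ≤ N0 := fun x hx => hRK hx
  let R2 : Sylow r N0 := R1.subtype hR1N0
  have hsup := Sylow.normalizer_sup_eq_top R2
  set L := (R2 : Subgroup N0).map N0.subtype with hL
  have hidx := index_dvd_of_sup' (normalizer (L : Set Cy)) N0 hsup
  have hLm : ∀ x : Cy, x ∈ L ↔ (x : G) ∈ (R : Subgroup G) := by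
    intro x
    constructor
    · rintro ⟨y, hy, rfl⟩
      exact hy
    · intro hx
      exact ⟨⟨x, hRK hx⟩, hx, rfl⟩
  have hcard : N0.index * Nat.card N0 = Nat.card Cy := Subgroup.index_mul_card N0
  have hN0odd : ¬ 2 ∣ Nat.card N0 := by
    intro h
    apply hKodd
    refine h.trans ?_
    have e : Nat.card N0 = Nat.card (N0.map Cy.subtype) :=
      Nat.card_congr (Subgroup.equivMapOfInjective N0 _ Cy.subtype_injective).toEquiv
    rw [e]
    apply Subgroup.card_dvd_of_le
    rintro _ ⟨x, hx, rfl⟩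
    exact hx
  have h2idx : 2 ^ v ∣ N0.index := by
    rw [← hcard] at hodd
    apply Nat.Coprime.dvd_of_dvd_mul_right _ hodd
    apply Nat.Coprime.pow_left
    exact (Nat.Prime.coprime_iff_not_dvd Nat.prime_two).2 hN0odd
  have h2H := h2idx.trans hidx
  have e : Nat.card (normalizer (L : Set Cy)) = Nat.card ((normalizer (L : Set Cy)).map Cy.subtype) :=
    Nat.card_congr (Subgroup.equivMapOfInjective _ _ Cy.subtype_injective).toEquiv
  rw [e] at h2H
  refine h2H.trans (Subgroup.card_dvd_of_le ?_)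
  rintro _ ⟨x, hx, rfl⟩
  refine ⟨?_, x.2⟩
  apply Subgroup.mem_normalizer_iff.2
  intro h
  constructor
  · intro hh
    have h1 : (⟨h, hRa hh⟩ : Cy) ∈ L := (hLm _).2 hh
    have h2 := (Subgroup.mem_normalizer_iff.1 hx _).1 h1
    exact (hLm _).1 h2
  · intro hh
    have hhC : h ∈ Cy := by
      have h1 : (x : G) * h * (x : G)⁻¹ ∈ Cy := hRa hh
      have h2 : (x : G)⁻¹ * ((x : G) * h * (x : G)⁻¹) * (x : G) ∈ Cy :=
        Cy.mul_mem (Cy.mul_mem (Cy.inv_mem x.2) h1) x.2
      have e2 : (x : G)⁻¹ * ((x : G) * h * (x : G)⁻¹) * (x : G) = h := by group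
      rwa [e2] at h2
    have h3 := (Subgroup.mem_normalizer_iff.1 hx ⟨h, hhC⟩).2 ((hLm _).2 hh)
    exact (hLm _).1 h3

/-- counting the class inside `R`. -/
lemma fiber_mul {r : ℕ} [Fact r.Prime] (R : Sylow r G) (x : (R : Subgroup G))
    (hT : ∀ z : (R : Subgroup G), clOf R z = clOf R x → ∀ q ∈ (R : Subgroup G), q * (z : G) * q⁻¹ = z) :
    Nat.card {z : (R : Subgroup G) // clOf R z = clOf R x} *
      Nat.card (normalizer ((R : Subgroup G) : Set G) ⊓ centralizer ({(x : G)} : Set G) : Subgroup G) =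
      Nat.card (normalizer ((R : Subgroup G) : Set G)) := by
  classical
  set W := normalizer ((R : Subgroup G) : Set G) with hW
  letI : MulAction W G := MulAction.compHom G ((MulAut.conj : G →* MulAut G).comp W.subtype)
  have hsmul : ∀ (w : W) (g : G), w • g = (w : G) * g * (w : G)⁻¹ := fun w g => rfl
  have hcs : Nat.card (MulAction.orbit W (x : G)) * Nat.card (MulAction.stabilizer W (x : G)) = Nat.card W := by
    have h1 := Subgroup.index_mul_card (MulAction.stabilizer W (x : G))
    rw [MulAction.index_stabilizer] at h1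
    rw [Nat.card_coe_set_eq]
    exact h1
  have hO : Nat.card (MulAction.orbit W (x : G)) = Nat.card {z : (R : Subgroup G) // clOf R z = clOf R x} := by
    apply Nat.card_congr
    exact
      { toFun := fun y => ⟨⟨y.1, by
            obtain ⟨w, hw⟩ := y.2
            have hw' : (w : G) * (x : G) * (w : G)⁻¹ = y.1 := hw
            rw [← hw']
            exact (Subgroup.mem_normalizer_iff.1 w.2 _).1 x.2⟩, by
            obtain ⟨w, hw⟩ := y.2
            have hw' : (w : G) * (x : G) * (w : G)⁻¹ = y.1 := hw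
            rw [clOf_eq_iff]
            show IsConj y.1 (x : G)
            rw [← hw']
            exact (isConj_iff.2 ⟨(w : G), rfl⟩).symm⟩
        invFun := fun z => ⟨z.1.1, by
            have hz : IsConj ((z.1 : (R : Subgroup G)) : G) (x : G) := (clOf_eq_iff R _ _).1 z.2
            obtain ⟨c, hc⟩ := isConj_iff.1 hz.symm
            have hx1 := hT x rfl
            have hz1 := hT z.1 z.2
            obtain ⟨n, hn, e⟩ := central_fusion' R hx1 hz1 hc
            exact ⟨⟨n, hn⟩, e⟩⟩
        left_inv := fun y => rfl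
        right_inv := fun z => rfl }
  have hSt : Nat.card (MulAction.stabilizer W (x : G)) =
      Nat.card (W ⊓ centralizer ({(x : G)} : Set G) : Subgroup G) := by
    apply Nat.card_congr
    exact
      { toFun := fun y => ⟨y.1.1, y.1.2, by
            have h1 : ((y.1 : W) : G) * (x : G) * ((y.1 : W) : G)⁻¹ = x := y.2
            exact Subgroup.mem_centralizer_singleton_iff.2 (mul_inv_eq_iff_eq_mul.1 h1)⟩
        invFun := fun y => ⟨⟨y.1, y.2.1⟩, by
            show (y.1 : G) * (x : G) * (y.1 : G)⁻¹ = x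
            exact mul_inv_eq_iff_eq_mul.2 (Subgroup.mem_centralizer_singleton_iff.1 y.2.2)⟩
        left_inv := fun y => rfl
        right_inv := fun y => rfl }
  rw [← hO, ← hSt, hcs]

lemma fix_of_two {r : ℕ} [Fact r.Prime] (hr2 : r ≠ 2) (R : Sylow r G) {a b : G} (ha : a ∈ (R : Subgroup G))
    (hb : b ∈ (R : Subgroup G)) (hab : a ≠ b)
    (hY : ∀ z ∈ (R : Subgroup G), IsConj a z → z = a ∨ z = b) :
    ∀ q ∈ (R : Subgroup G), q * a * q⁻¹ = a := by
  intro q hq
  have hrp : r.Prime := Fact.out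
  have hconj : ∀ u : G, IsConj a u → IsConj a (q * u * q⁻¹) := fun u hu =>
    hu.trans (isConj_iff.2 ⟨q, rfl⟩)
  rcases hY (q * a * q⁻¹) (Subgroup.mul_mem _ (Subgroup.mul_mem _ hq ha) (Subgroup.inv_mem _ hq))
    (hconj a (IsConj.refl a)) with h | h
  · exact h
  exfalso
  have hab' : IsConj a b := by
    rw [← h]
    exact isConj_iff.2 ⟨q, rfl⟩
  have h2 : q * b * q⁻¹ = a := by
    rcases hY (q * b * q⁻¹) (Subgroup.mul_mem _ (Subgroup.mul_mem _ hq hb) (Subgroup.inv_mem _ hq))
      (hconj b hab') with h3 | h3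
    · exact h3
    · exfalso
      apply hab
      have h4 : q * a * q⁻¹ = q * b * q⁻¹ := by rw [h, h3]
      simpa using h4
  -- `q` has odd order
  obtain ⟨k, hk⟩ := exists_order_of_mem_sylow R hq
  have hodd : Odd (orderOf q) := by
    rw [hk]
    exact Odd.pow (hrp.odd_of_ne_two hr2)
  obtain ⟨l, hl⟩ := hodd
  have hq2 : q ^ 2 * a * (q ^ 2)⁻¹ = a := by
    calc q ^ 2 * a * (q ^ 2)⁻¹ = q * (q * a * q⁻¹) * q⁻¹ := by simp [pow_two, mul_assoc]
      _ = a := by rw [h, h2]
  have hC : q ^ 2 ∈ centralizer ({a} : Set G) :=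
    Subgroup.mem_centralizer_singleton_iff.2 (mul_inv_eq_iff_eq_mul.1 hq2)
  have hqq : q = (q ^ 2) ^ (l + 1) := by
    rw [← pow_mul]
    have e : 2 * (l + 1) = orderOf q + 1 := by omega
    rw [e, pow_succ, pow_orderOf_eq_one, one_mul]
  have hqC : q ∈ centralizer ({a} : Set G) := by
    rw [hqq]
    exact Subgroup.pow_mem _ hC _
  apply hab
  rw [← h]
  have h5 := Subgroup.mem_centralizer_singleton_iff.1 hqC
  rw [h5]
  group

end X98

namespace X98
open Subgroup
open Cfsg.Agent.H18
universe u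
variable {G : Type u} [Group G] [Finite G]

lemma fiber_ge_two {r : ℕ} [Fact r.Prime] (R : Sylow r G) (x y : (R : Subgroup G)) (hxy : y ≠ x)
    (hcl : clOf R y = clOf R x) : 2 ≤ Nat.card {z : (R : Subgroup G) // clOf R z = clOf R x} := by
  classical
  haveI := Fintype.ofFinite {z : (R : Subgroup G) // clOf R z = clOf R x}
  have h3 : ({⟨x, rfl⟩, ⟨y, hcl⟩} : Finset {z : (R : Subgroup G) // clOf R z = clOf R x}).card = 2 := by
    apply Finset.card_pair
    intro h
    exact hxy (congrArg Subtype.val h).symm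
  have h4 := Finset.card_le_univ ({⟨x, rfl⟩, ⟨y, hcl⟩} : Finset {z : (R : Subgroup G) // clOf R z = clOf R x})
  rw [Nat.card_eq_fintype_card]
  omega

lemma no_two {r : ℕ} [Fact r.Prime] (hr2 : r ≠ 2) (R : Sylow r G) (K : Subgroup G) [K.Normal]
    (hKodd : ¬ 2 ∣ Nat.card K) (hRK : (R : Subgroup G) ≤ K)
    (x y : (R : Subgroup G)) (hxy : y ≠ x) (hcl : clOf R y = clOf R x)
    (hcent : 2 ^ (Nat.card G).factorization 2 ∣ Nat.card (centralizer ({(x : G)} : Set G)))
    (hle : Nat.card {z : (R : Subgroup G) // clOf R z = clOf R x} ≤ 2) : False := by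
  classical
  have hge := fiber_ge_two R x y hxy hcl
  have heq : Nat.card {z : (R : Subgroup G) // clOf R z = clOf R x} = 2 := le_antisymm hle hge
  have hpair : ∀ z : (R : Subgroup G), clOf R z = clOf R x → z = x ∨ z = y := by
    intro z hz
    by_contra hne
    push Not at hne
    haveI := Fintype.ofFinite {z : (R : Subgroup G) // clOf R z = clOf R x}
    have h3 : ({⟨x, rfl⟩, ⟨y, hcl⟩, ⟨z, hz⟩} : Finset {z : (R : Subgroup G) // clOf R z = clOf R x}).card = 3 := by
      apply Finset.card_eq_three.2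
      refine ⟨_, _, _, ?_, ?_, ?_, rfl⟩
      · intro h; exact hxy (congrArg Subtype.val h).symm
      · intro h; exact hne.1 (congrArg Subtype.val h).symm
      · intro h; exact hne.2 (congrArg Subtype.val h).symm
    have h4 := Finset.card_le_univ ({⟨x, rfl⟩, ⟨y, hcl⟩, ⟨z, hz⟩} : Finset {z : (R : Subgroup G) // clOf R z = clOf R x})
    rw [Nat.card_eq_fintype_card] at heq
    omega
  have hne' : (x : G) ≠ (y : G) := fun h => hxy (Subtype.ext h.symm)
  have hFx : ∀ q ∈ (R : Subgroup G), q * (x : G) * q⁻¹ = x :=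
    fix_of_two hr2 R x.2 y.2 hne' (fun z hz hc => by
      rcases hpair ⟨z, hz⟩ ((clOf_eq_iff R _ _).2 hc.symm) with h | h
      · exact Or.inl (congrArg Subtype.val h)
      · exact Or.inr (congrArg Subtype.val h))
  have hFy : ∀ q ∈ (R : Subgroup G), q * (y : G) * q⁻¹ = y :=
    fix_of_two hr2 R y.2 x.2 hne'.symm (fun z hz hc => by
      have hcxy : IsConj (x : G) (y : G) := ((clOf_eq_iff R _ _).1 hcl).symm
      rcases hpair ⟨z, hz⟩ ((clOf_eq_iff R _ _).2 (hcxy.trans hc).symm) with h | h
      · exact Or.inr (congrArg Subtype.val h)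
      · exact Or.inl (congrArg Subtype.val h))
  have hT : ∀ z : (R : Subgroup G), clOf R z = clOf R x → ∀ q ∈ (R : Subgroup G), q * (z : G) * q⁻¹ = z := by
    intro z hz q hq
    rcases hpair z hz with h | h
    · rw [h]; exact hFx q hq
    · rw [h]; exact hFy q hq
  have hm := fiber_mul R x hT
  rw [heq] at hm
  have hRC : (R : Subgroup G) ≤ centralizer ({(x : G)} : Set G) := by
    intro q hq
    exact mem_centralizer_singleton_iff.2 (mul_inv_eq_iff_eq_mul.1 (hFx q hq))
  have h2p := two_part R K hKodd hRK hRC _ hcent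
  have hd : 2 ^ ((Nat.card G).factorization 2 + 1) ∣ Nat.card G := by
    refine Dvd.dvd.trans ?_ (Subgroup.card_subgroup_dvd_card (normalizer ((R : Subgroup G) : Set G)))
    rw [← hm, pow_succ, mul_comm]
    exact Nat.mul_dvd_mul_left 2 h2p
  exact Nat.pow_succ_factorization_not_dvd Nat.card_pos.ne' Nat.prime_two hd

lemma no_r {r : ℕ} [Fact r.Prime] (R : Sylow r G) (hc : IsMulCommutative (R : Subgroup G)) (x : (R : Subgroup G))
    (heq : Nat.card {z : (R : Subgroup G) // clOf R z = clOf R x} = r) : False := by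
  have hr : r.Prime := Fact.out
  have hT : ∀ z : (R : Subgroup G), ∀ q ∈ (R : Subgroup G), q * (z : G) * q⁻¹ = z := by
    intro z q hq
    have h1 := congrArg Subtype.val (hc.1.1 (⟨q, hq⟩ : (R : Subgroup G)) z)
    rw [mul_inv_eq_iff_eq_mul]
    exact h1
  have hm := fiber_mul R x (fun z _ => hT z)
  rw [heq] at hm
  have hRS : (R : Subgroup G) ≤ normalizer ((R : Subgroup G) : Set G) ⊓ centralizer ({(x : G)} : Set G) := by
    intro q hq
    refine ⟨Subgroup.le_normalizer hq, ?_⟩
    exact mem_centralizer_singleton_iff.2 (mul_inv_eq_iff_eq_mul.1 (hT x q hq))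
  have h1 := Subgroup.card_dvd_of_le hRS
  have hV : Nat.card (R : Subgroup G) = r ^ (Nat.card G).factorization r := Sylow.card_eq_multiplicity R
  have hd : r ^ ((Nat.card G).factorization r + 1) ∣ Nat.card G := by
    refine Dvd.dvd.trans ?_ (Subgroup.card_subgroup_dvd_card (normalizer ((R : Subgroup G) : Set G)))
    rw [← hm, pow_succ, mul_comm, ← hV]
    exact Nat.mul_dvd_mul_left r h1
  exact Nat.pow_succ_factorization_not_dvd Nat.card_pos.ne' hr hd

lemma comm_of_lt {r : ℕ} [Fact r.Prime] (R : Sylow r G) (hr3 : r = 3)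
    (hlt : Nat.card (R : Subgroup G) < 4 * Nat.card {x : (R : Subgroup G) // IsoEl R (x : G)}) :
    IsMulCommutative (R : Subgroup G) := by
  classical
  have hr : r.Prime := Fact.out
  let Z := Subgroup.center (R : Subgroup G)
  have hIso : Nat.card {x : (R : Subgroup G) // IsoEl R (x : G)} ≤ Nat.card Z := by
    refine Nat.card_le_card_of_injective (fun x => ⟨x.1, ?_⟩) ?_
    · rw [Subgroup.mem_center_iff]
      intro g
      have h2 := x.2.2 g (Subgroup.mul_mem _ (Subgroup.mul_mem _ g.2 x.1.2) (Subgroup.inv_mem _ g.2))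
      apply Subtype.ext
      show (g : G) * (x.1 : G) = (x.1 : G) * g
      calc (g : G) * (x.1 : G) = (g : G) * (x.1 : G) * (g : G)⁻¹ * g := by group
        _ = _ := by rw [h2]
    · intro a b hab
      have h3 := Subtype.ext_iff.1 hab
      exact Subtype.ext h3
  have hZi := Subgroup.index_mul_card Z
  have hZpos : 0 < Nat.card Z := Nat.card_pos
  have hi : Z.index < 4 := by
    by_contra hge
    push Not at hge
    have h1 : 4 * Nat.card Z ≤ Z.index * Nat.card Z := Nat.mul_le_mul_right _ hge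
    have h2 : 4 * Nat.card {x : (R : Subgroup G) // IsoEl R (x : G)} ≤ 4 * Nat.card Z :=
      Nat.mul_le_mul_left _ hIso
    omega
  have hV : Nat.card (R : Subgroup G) = r ^ (Nat.card G).factorization r := Sylow.card_eq_multiplicity R
  have hid : Z.index ∣ r ^ (Nat.card G).factorization r := by
    rw [← hV, ← hZi]
    exact Dvd.intro _ rfl
  obtain ⟨k, hk, hke⟩ := (Nat.dvd_prime_pow hr).1 hid
  have hd3 : Z.index ∣ r := by
    rw [hke]
    have h1 : k ≤ 1 := by
      by_contra h
      push Not at h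
      have h3 : r ^ 2 ≤ r ^ k := Nat.pow_le_pow_right hr.pos h
      have h9 : r ^ 2 = 9 := by rw [hr3]; norm_num
      rw [← hke, h9] at h3
      omega
    calc r ^ k ∣ r ^ 1 := pow_dvd_pow r h1
      _ = r := pow_one r
  haveI : IsCyclic ((R : Subgroup G) ⧸ Z) := isCyclic_of_card_dvd_prime hd3
  refine ⟨⟨commutative_of_cyclic_center_quotient (QuotientGroup.mk' Z) ?_⟩⟩
  rw [QuotientGroup.ker_mk']

theorem npc_of_iso {p : ℕ} [Fact p.Prime] (P : Sylow p G)
    (hlt : Nat.card (P : Subgroup G) < p * Nat.card {x : (P : Subgroup G) // IsoEl P (x : G)}) :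
    HasNormalPComplement p G ∧ IsMulCommutative (P : Subgroup G) := by
  classical
  have hp : p.Prime := Fact.out
  have hK1 : (P : Subgroup G) ⊓ Subgroup.centralizer ((P : Subgroup G) : Set G) = (P : Subgroup G) := by
    refine eq_of_card_lt_prime_mul inf_le_left P.isPGroup' (lt_of_lt_of_le hlt ?_)
    refine Nat.mul_le_mul_left _ ?_
    refine Nat.card_le_card_of_injective
      (fun x => ⟨(x.1 : G), x.1.2, ?_⟩) ?_
    · refine Subgroup.mem_centralizer_iff.2 (fun y hy => ?_)
      have h2 := x.2.2 y (Subgroup.mul_mem _ (Subgroup.mul_mem _ hy x.1.2) (Subgroup.inv_mem _ hy))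
      calc y * (x.1 : G) = y * (x.1 : G) * y⁻¹ * y := by group
        _ = (x.1 : G) * y := by rw [h2]
    · intro x y hxy
      have h3 := Subtype.ext_iff.1 hxy
      exact Subtype.ext (Subtype.ext h3)
  have hK2 : (P : Subgroup G) ⊓ Subgroup.centralizer
      ((Subgroup.normalizer ((P : Subgroup G) : Set G) : Subgroup G) : Set G) = (P : Subgroup G) := by
    refine eq_of_card_lt_prime_mul inf_le_left P.isPGroup' (lt_of_lt_of_le hlt ?_)
    refine Nat.mul_le_mul_left _ ?_
    refine Nat.card_le_card_of_injective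
      (fun x => ⟨(x.1 : G), x.1.2, ?_⟩) ?_
    · refine Subgroup.mem_centralizer_iff.2 (fun y hy => ?_)
      have h2 := x.2.2 y ((Subgroup.mem_normalizer_iff.1 hy _).1 x.1.2)
      calc y * (x.1 : G) = y * (x.1 : G) * y⁻¹ * y := by group
        _ = (x.1 : G) * y := by rw [h2]
    · intro x y hxy
      have h3 := Subtype.ext_iff.1 hxy
      exact Subtype.ext (Subtype.ext h3)
  have hcomm : IsMulCommutative (P : Subgroup G) := by
    refine ⟨⟨fun a b => Subtype.ext ?_⟩⟩
    have h1 : (a : G) ∈ (P : Subgroup G) ⊓ Subgroup.centralizer ((P : Subgroup G) : Set G) := by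
      rw [hK1]
      exact a.2
    have h2 := (Subgroup.mem_centralizer_iff.1 h1.2) b b.2
    exact h2.symm
  refine ⟨?_, hcomm⟩
  have hN : Subgroup.normalizer ((P : Subgroup G) : Set G) ≤
      Subgroup.centralizer ((P : Subgroup G) : Set G) := by
    intro g hg
    rw [Subgroup.mem_centralizer_iff]
    intro x hx
    have h1 : x ∈ (P : Subgroup G) ⊓ Subgroup.centralizer
        ((Subgroup.normalizer ((P : Subgroup G) : Set G) : Subgroup G) : Set G) := by
      rw [hK2]
      exact hx
    exact (Subgroup.mem_centralizer_iff.1 h1.2 g hg).symm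
  obtain ⟨R, hR, hc⟩ := Cfsg.Agent.H19.burnside_complement P hN
  exact ⟨P, R, hR, hc⟩

lemma sylow_le_K {r : ℕ} [Fact r.Prime] (hr2 : r ≠ 2) (K : Subgroup G) [K.Normal] (v : ℕ)
    (hKi : K.index = 2 ^ v) (R : Sylow r G) : (R : Subgroup G) ≤ K := by
  intro x hx
  have h1 : x ^ K.index ∈ K := Subgroup.pow_index_mem K x
  rw [hKi] at h1
  obtain ⟨k, hk⟩ := exists_order_of_mem_sylow R hx
  refine Cfsg.Agent.H14.mem_of_pow_mem_coprime h1 ?_
  rw [hk]
  exact Nat.Coprime.pow _ _ ((Nat.coprime_primes Nat.prime_two Fact.out).2 (Ne.symm hr2))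

theorem key_odd {r : ℕ} [Fact r.Prime] (hr2 : r ≠ 2) (π : Finset ℕ) (hπ : ∀ q ∈ π, q.Prime) (h2 : 2 ∈ π)
    (hr : r ∈ π) (K : Subgroup G) [K.Normal] (hKodd : ¬ 2 ∣ Nat.card K) (v : ℕ) (hKi : K.index = 2 ^ v)
    (hk : nPi π G < 2 * Nat.card (ClS π G)) (R : Sylow r G) :
    HasNormalPComplement r G ∧ IsMulCommutative (R : Subgroup G) := by
  classical
  have hrp : r.Prime := Fact.out
  have hr3 : 3 ≤ r := by
    have := hrp.two_le
    omega
  have hRK := sylow_le_K hr2 K v hKi R
  have hk' : nPi (insert r (π.erase r)) G < 2 * Nat.card (ClS (insert r (π.erase r)) G) := by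
    rw [Finset.insert_erase hr]
    exact hk
  have hs : ∀ q ∈ π.erase r, q.Prime := fun q hq => hπ q (Finset.mem_of_mem_erase hq)
  have h2s : 2 ∈ π.erase r := Finset.mem_erase.2 ⟨Ne.symm hr2, h2⟩
  have hb4 := weight_bound (π.erase r) (Finset.notMem_erase r π) hs h2s R 3 4 3 (by norm_num) (by norm_num)
    (fun m hm => by omega)
    (fun x hcent hex => by
      obtain ⟨y, hy, hcl⟩ := hex
      by_contra hlt
      push Not at hlt
      exact no_two hr2 R K hKodd hRK x y hy hcl hcent (by omega)) hk'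
  by_cases h3 : r = 3
  · have hc := comm_of_lt R h3 hb4
    have hb3 := weight_bound (π.erase r) (Finset.notMem_erase r π) hs h2s R 2 3 4 (by norm_num) (by norm_num)
      (fun m hm => by omega)
      (fun x hcent hex => by
        obtain ⟨y, hy, hcl⟩ := hex
        by_contra hlt
        push Not at hlt
        have hge := fiber_ge_two R x y hy hcl
        have hcases : Nat.card {z : (R : Subgroup G) // clOf R z = clOf R x} ≤ 2 ∨
            Nat.card {z : (R : Subgroup G) // clOf R z = clOf R x} = r := by omega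
        rcases hcases with h | h
        · exact no_two hr2 R K hKodd hRK x y hy hcl hcent h
        · exact no_r R hc x h) hk'
    exact npc_of_iso R (lt_of_lt_of_le hb3 (Nat.mul_le_mul_right _ hr3))
  · have hr4 : 4 ≤ r := by omega
    exact npc_of_iso R (lt_of_lt_of_le hb4 (Nat.mul_le_mul_right _ hr4))

theorem main (π : Finset ℕ) (hπ : ∀ r ∈ π, r.Prime) (h2 : 2 ∈ π)
    (hk : nPi π G < 2 * Nat.card (ClS π G)) :
    (∃ N : Subgroup G, N.Normal ∧ (∀ r : ℕ, r.Prime → r ∣ Nat.card ↥N → r ∉ π) ∧ ∀ r : ℕ, r.Prime → r ∣ N.index → r ∈ π) ∧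
      ∃ H : Subgroup G, Cfsg.IsPiHall ((↑π : Set ℕ) \ {2}) H ∧ IsMulCommutative ↥H := by
  classical
  haveI hf2 : Fact (Nat.Prime 2) := ⟨Nat.prime_two⟩
  obtain ⟨P⟩ : Nonempty (Sylow 2 G) := inferInstance
  have hc := card_clS_le_mul (G := G) π hπ h2
  have hn := nPi_eq_mul (G := G) π h2
  have hA := nPi_pos (G := G) (π.erase 2) (fun s hs => hπ s (Finset.mem_of_mem_erase hs))
  have hV : Nat.card (P : Subgroup G) = 2 ^ (Nat.card G).factorization 2 := Sylow.card_eq_multiplicity P
  obtain ⟨A, hAe⟩ : ∃ A, A = nPi (π.erase 2) G := ⟨_, rfl⟩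
  rw [← hAe] at hc hn hA
  rw [← hV] at hn
  have h1 : Nat.card (P : Subgroup G) < 2 * Nat.card (ClP 2 G) := by
    have h3 : (Nat.card (P : Subgroup G)) * A < (2 * Nat.card (ClP 2 G)) * A := by
      calc (Nat.card (P : Subgroup G)) * A = nPi π G := by rw [hn]
        _ < 2 * Nat.card (ClS π G) := hk
        _ ≤ 2 * (Nat.card (ClP 2 G) * A) := Nat.mul_le_mul_left _ hc
        _ = _ := by ring
    exact Nat.lt_of_mul_lt_mul_right h3
  obtain ⟨⟨P₀, K, hK, hcomp⟩, -⟩ := (many_two_iff hf2 P).1 h1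
  have hcomp' := Cfsg.Agent.H01.complement_of_any_sylow P₀ P hcomp
  have hKodd : ¬ 2 ∣ Nat.card K := by
    have h3 : (P : Subgroup G).index = Nat.card K := hcomp'.index_eq_card
    rw [← h3]
    exact P.not_dvd_index
  have hKi : K.index = 2 ^ (Nat.card G).factorization 2 := by
    rw [← hV]
    exact hcomp'.symm.index_eq_card
  have key : ∀ r ∈ π, ∃ N : Subgroup G, N.Normal ∧ (Nat.card N).Coprime r ∧ (∃ k, N.index = r ^ k) ∧
      (r ≠ 2 → ∀ x y : G, x * y * x⁻¹ * y⁻¹ ∈ N) := by
    intro r hr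
    have hrP := hπ r hr
    by_cases hr2 : r = 2
    · subst hr2
      refine ⟨K, hK, ?_, ⟨_, hKi⟩, fun h => absurd rfl h⟩
      exact ((Nat.Prime.coprime_iff_not_dvd Nat.prime_two).2 hKodd).symm
    · haveI : Fact r.Prime := ⟨hrP⟩
      obtain ⟨R⟩ : Nonempty (Sylow r G) := inferInstance
      haveI := hK
      obtain ⟨⟨R₀, N, hN, hcomp2⟩, hab⟩ := key_odd hr2 π hπ h2 hr K hKodd _ hKi hk R
      have hcomp2' := Cfsg.Agent.H01.complement_of_any_sylow R₀ R hcomp2
      have hV2 : Nat.card (R : Subgroup G) = r ^ (Nat.card G).factorization r := Sylow.card_eq_multiplicity R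
      refine ⟨N, hN, ?_, ⟨(Nat.card G).factorization r, ?_⟩, fun _ => comm_mem_of_complement hN hcomp2' hab⟩
      · have h3 : (R : Subgroup G).index = Nat.card N := hcomp2'.index_eq_card
        rw [← h3]
        exact ((Nat.Prime.coprime_iff_not_dvd hrP).mpr R.not_dvd_index).symm
      · rw [← hV2]
        exact hcomp2'.symm.index_eq_card
  constructor
  · obtain ⟨N, hN, h3, h4, -⟩ := exists_inter_complements (G := G)
      (fun _ => True) trivial (fun _ _ _ _ => trivial) π hπ
      (fun r hr => by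
        obtain ⟨N, a, b, c, -⟩ := key r hr
        exact ⟨N, a, b, c, trivial⟩)
    exact ⟨N, hN, h3, h4⟩
  · obtain ⟨N, hN, h3, h4, h5⟩ := exists_inter_complements (G := G)
      (fun N => ∀ x y : G, x * y * x⁻¹ * y⁻¹ ∈ N) (fun _ _ => Subgroup.mem_top _)
      (fun A B hA hB x y => Subgroup.mem_inf.2 ⟨hA x y, hB x y⟩) (π.erase 2)
      (fun s hs => hπ s (Finset.mem_of_mem_erase hs))
      (fun r hr => by
        obtain ⟨N, a, b, c, d⟩ := key r (Finset.mem_of_mem_erase hr)
        exact ⟨N, a, b, c, d (Finset.ne_of_mem_erase hr)⟩)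
    have hH := exists_hall_comm (↑(π.erase 2) : Set ℕ) hN
      (fun r hr hd hm => h3 r hr hd (Finset.mem_coe.1 hm))
      (fun r hr hd => Finset.mem_coe.2 (h4 r hr hd)) h5
    rwa [Finset.coe_erase] at hH

end X98


/-- Let π be a finite set of primes containing 2 and G a finite group. Write k_π(G) for the number of conjugacy classes of G consisting of π-elements (elements all of whose order's prime divisors lie in π) and |G|_π for the π-part of the order of G. If k_π(G) > |G|_π/2, then G has a normal π-complement (a normal subgroup of order prime to π whose index is a π-number) and an abelian Hall subgroup for the set of odd primes in π. -/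
theorem result {G : Type*} [Group G] [Finite G] (π : Finset ℕ) (hπ : ∀ r ∈ π, r.Prime) (h2 : 2 ∈ π)
    (hk : π.prod (fun r => r ^ (Nat.card G).factorization r) < 2 * Nat.card {c : ConjClasses G // ∀ x ∈ c.carrier, ∀ r : ℕ, r.Prime → r ∣ orderOf x → r ∈ π}) :
    (∃ N : Subgroup G, N.Normal ∧ (∀ r : ℕ, r.Prime → r ∣ Nat.card ↥N → r ∉ π) ∧ ∀ r : ℕ, r.Prime → r ∣ N.index → r ∈ π) ∧ ∃ H : Subgroup G, Cfsg.IsPiHall ((↑π : Set ℕ) \ {2}) H ∧ IsMulCommutative ↥H := by
  exact X98.main π hπ h2 hk

end Cfsg.Agent.S3898
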