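import Cfsg.Statements.S3899
import Mathlib
import Cfsg.Agent.Lib.H18.KP2

set_option autoImplicit false
open Cfsg

namespace Cfsg.Agent.S3899

/-- Let π be a finite non-empty set of odd primes with smallest member p and G a finite group. Write k_π(G) for the number of conjugacy classes of G consisting of π-elements (elements all of whose order's prime divisors lie in π) and |G|_π for the π-part of the order of G. If k_π(G) > (p + 1)|G|_π/(2p), then G has a normal π-complement (a normal subgroup of order prime to π whose index is a π-number) and an abelian Hall π-subgroup. -/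
theorem result {G : Type*} [Group G] [Finite G] (π : Finset ℕ) (hπ : ∀ r ∈ π, r.Prime) (h2 : 2 ∉ π) (p : ℕ) (hp : p ∈ π)
    (hmin : ∀ r ∈ π, p ≤ r) (hk : (p + 1) * π.prod (fun r => r ^ (Nat.card G).factorization r) < 2 * p * Nat.card {c : ConjClasses G // ∀ x ∈ c.carrier, ∀ r : ℕ, r.Prime → r ∣ orderOf x → r ∈ π}) :
    (∃ N : Subgroup G, N.Normal ∧ (∀ r : ℕ, r.Prime → r ∣ Nat.card ↥N → r ∉ π) ∧ ∀ r : ℕ, r.Prime → r ∣ N.index → r ∈ π) ∧ ∃ H : Subgroup G, Cfsg.IsPiHall (↑π : Set ℕ) H ∧ IsMulCommutative ↥H := by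
  classical
have hpP : p.Prime := hπ p hp
have key : ∀ r ∈ π, ∃ N : Subgroup G, N.Normal ∧ (Nat.card N).Coprime r ∧ (∃ k, N.index = r ^ k) ∧
    ∀ x y : G, x * y * x⁻¹ * y⁻¹ ∈ N := by
  intro r hr
  have hrP := hπ r hr
  haveI : Fact r.Prime := ⟨hrP⟩
  obtain ⟨R⟩ : Nonempty (Sylow r G) := inferInstance
  have hc := H18.card_clS_le_mul (G := G) π hπ hr
  have hn := H18.nPi_eq_mul (G := G) π hr
  have hA := H18.nPi_pos (G := G) (π.erase r) (fun s hs => hπ s (Finset.mem_of_mem_erase hs))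
  have hV : Nat.card (R : Subgroup G) = r ^ (Nat.card G).factorization r := Sylow.card_eq_multiplicity R
  have hk' : (p + 1) * H18.nPi π G < 2 * p * Nat.card (H18.ClS π G) := hk
  obtain ⟨A, hAe⟩ : ∃ A, A = H18.nPi (π.erase r) G := ⟨_, rfl⟩
  rw [← hAe] at hc hn hA
  rw [← hV] at hn
  have h1 : (p + 1) * Nat.card (R : Subgroup G) < 2 * p * Nat.card (H18.ClP r G) := by
    have h3 : ((p + 1) * Nat.card (R : Subgroup G)) * A < (2 * p * Nat.card (H18.ClP r G)) * A := by
      calc ((p + 1) * Nat.card (R : Subgroup G)) * A = (p + 1) * H18.nPi π G := by rw [hn]; ring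
        _ < 2 * p * Nat.card (H18.ClS π G) := hk'
        _ ≤ 2 * p * (Nat.card (H18.ClP r G) * A) := Nat.mul_le_mul_left _ hc
        _ = _ := by ring
    exact Nat.lt_of_mul_lt_mul_right h3
  have h2 : (r + 1) * Nat.card (R : Subgroup G) < 2 * r * Nat.card (H18.ClP r G) := by
    have hle := hmin r hr
    have h3 : ((r + 1) * Nat.card (R : Subgroup G)) * p < (2 * r * Nat.card (H18.ClP r G)) * p := by
      calc ((r + 1) * Nat.card (R : Subgroup G)) * p ≤ ((p + 1) * Nat.card (R : Subgroup G)) * r := by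
            have h4 : (r + 1) * p ≤ (p + 1) * r := by nlinarith
            calc ((r + 1) * Nat.card (R : Subgroup G)) * p = ((r + 1) * p) * Nat.card (R : Subgroup G) := by ring
              _ ≤ ((p + 1) * r) * Nat.card (R : Subgroup G) := Nat.mul_le_mul_right _ h4
              _ = _ := by ring
        _ < (2 * p * Nat.card (H18.ClP r G)) * r := Nat.mul_lt_mul_of_pos_right h1 hrP.pos
        _ = _ := by ring
    exact Nat.lt_of_mul_lt_mul_right h3
  obtain ⟨⟨P₀, N, hN, hcomp⟩, hab⟩ := H18.npc_of_many R h2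
  have hcomp' := H01.complement_of_any_sylow P₀ R hcomp
  refine ⟨N, hN, ?_, ?_, H18.comm_mem_of_complement hN hcomp' hab⟩
  · have h3 : (R : Subgroup G).index = Nat.card N := hcomp'.index_eq_card
    rw [← h3]
    exact ((Nat.Prime.coprime_iff_not_dvd hrP).mpr R.not_dvd_index).symm
  · refine ⟨(Nat.card G).factorization r, ?_⟩
    rw [← hV]
    exact hcomp'.symm.index_eq_card
obtain ⟨N, hN, h1, h2, h3⟩ := H18.exists_inter_complements (G := G)
  (fun N => ∀ x y : G, x * y * x⁻¹ * y⁻¹ ∈ N) (fun _ _ => Subgroup.mem_top _)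
  (fun A B hA hB x y => Subgroup.mem_inf.2 ⟨hA x y, hB x y⟩) π hπ key
refine ⟨⟨N, hN, h1, h2⟩, H18.exists_hall_comm (↑π) hN (fun r hr hd hm => h1 r hr hd (Finset.mem_coe.1 hm))
  (fun r hr hd => Finset.mem_coe.2 (h2 r hr hd)) h3⟩

end Cfsg.Agent.S3899
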