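import Cfsg.Statements.S3903
-- import your own Cfsg.Agent.* helpers here

set_option autoImplicit false
open Cfsg

namespace Cfsg.Agent.S3903

open Subgroup

lemma index_mul_card_inf' {G : Type*} [Group G] [Finite G] (A B : Subgroup G) [B.Normal]
    (h : A ⊔ B = ⊤) : A.index * Nat.card (A ⊓ B : Subgroup G) = Nat.card B := by
  have h1 : B.index = B.relIndex A := by
    have := Subgroup.relIndex_sup_right (H := A) (K := B)
    rw [h, Subgroup.relIndex_top_right] at this
    exact this
  have h2 : B.relIndex A * Nat.card (A ⊓ B : Subgroup G) = Nat.card A := by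
    have h3 : (B ⊓ A).relIndex A = B.relIndex A := Subgroup.inf_relIndex_right _ _
    rw [← h3, inf_comm, Subgroup.relIndex, mul_comm]
    have := Subgroup.card_mul_index ((A ⊓ B).subgroupOf A)
    rwa [Nat.card_congr (Subgroup.subgroupOfEquivOfLe (inf_le_left : A ⊓ B ≤ A)).toEquiv] at this
  have h4 : Nat.card G = B.index * Nat.card B := (Subgroup.index_mul_card B).symm
  have h5 : Nat.card G = A.index * Nat.card A := (Subgroup.index_mul_card A).symm
  have hj : 0 < B.index := Nat.pos_of_ne_zero (Subgroup.index_ne_zero_of_finite)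
  rw [h1] at h4 hj
  have : B.relIndex A * (A.index * Nat.card (A ⊓ B : Subgroup G)) = B.relIndex A * Nat.card B := by
    calc _ = A.index * (B.relIndex A * Nat.card (A ⊓ B : Subgroup G)) := by ring
      _ = A.index * Nat.card A := by rw [h2]
      _ = _ := by rw [← h5, h4]
  exact Nat.eq_of_mul_eq_mul_left hj this

lemma card_compl_subgroup {G : Type*} [Group G] [Finite G] (N : Subgroup G) :
    Nat.card {x : G // x ∉ N} + Nat.card N = Nat.card G := by
  classical
  haveI := Fintype.ofFinite G
  rw [Nat.card_eq_fintype_card, Nat.card_eq_fintype_card, Nat.card_eq_fintype_card,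
    add_comm]
  have := Fintype.card_subtype_compl (fun x : G => x ∈ N)
  rw [this]
  have h2 : Fintype.card {x : G // x ∈ N} ≤ Fintype.card G := Fintype.card_subtype_le _
  have h3 : Fintype.card {x : G // x ∈ N} = Fintype.card N := Fintype.card_congr (Equiv.refl _)
  omega

lemma cent_isPGroup {G : Type*} [Group G] [Finite G] (N : Subgroup G) [N.Normal]
    (h : ∀ x : G, x ∉ N → IsPrimePow (orderOf x)) {p a : ℕ} (hp : p.Prime) (ha : 0 < a)
    {x : G} (hx : x ∉ N) (hxo : orderOf x = p ^ a) :
    IsPGroup p (Subgroup.centralizer ({x} : Set G)) := by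
  haveI : Fact p.Prime := ⟨hp⟩
  apply IsPGroup.of_card
  apply Nat.eq_prime_pow_of_unique_prime_dvd (Nat.card_pos).ne'
  intro q hq hqd
  by_contra hqp
  haveI : Fact q.Prime := ⟨hq⟩
  obtain ⟨y0, hy0⟩ := exists_prime_orderOf_dvd_card' q hqd
  set y : G := (y0 : G) with hy
  have hyo : orderOf y = q := by rw [hy, Subgroup.orderOf_coe, hy0]
  have hcomm : Commute x y := by
    have := y0.2
    rw [Subgroup.mem_centralizer_iff] at this
    exact this x rfl
  have hcop : (orderOf x).Coprime (orderOf y) := by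
    rw [hxo, hyo]
    exact Nat.Coprime.pow_left _ ((Nat.coprime_primes hp hq).mpr (Ne.symm hqp))
  have hord : orderOf (x * y) = p ^ a * q := by
    rw [hcomm.orderOf_mul_eq_mul_orderOf_of_coprime hcop, hxo, hyo]
  have hz : x * y ∉ N := by
    intro hxy
    have hyN : y ∉ N := fun hy' => hx (by
      have := N.mul_mem hxy (N.inv_mem hy'); simpa using this)
    apply hyN
    have hpow : y ^ (p ^ a) ∈ N := by
      have := N.pow_mem hxy (p ^ a)
      rw [hcomm.mul_pow, ← hxo, pow_orderOf_eq_one, one_mul] at this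
      rwa [hxo] at this
    have hcop2 : (p ^ a).Coprime (orderOf y) := by
      rw [hyo]
      exact Nat.Coprime.pow_left _ ((Nat.coprime_primes hp hq).mpr (Ne.symm hqp))
    obtain ⟨m, hm⟩ := exists_pow_eq_self_of_coprime hcop2
    rw [← hm]
    exact N.pow_mem hpow m
  have hpp := h _ hz
  rw [hord, isPrimePow_nat_iff] at hpp
  obtain ⟨r, k, hr, hk, hrk⟩ := hpp
  have h1 : p ∣ r ^ k := by rw [hrk]; exact Dvd.dvd.mul_right (dvd_pow_self p ha.ne') q
  have h2 : q ∣ r ^ k := by rw [hrk]; exact Dvd.intro_left _ rfl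
  have h3 := (Nat.prime_dvd_prime_iff_eq hp hr).mp (hp.dvd_of_dvd_pow h1)
  have h4 := (Nat.prime_dvd_prime_iff_eq hq hr).mp (hq.dvd_of_dvd_pow h2)
  exact hqp (h4.trans h3.symm)

theorem main {G : Type*} [Group G] [Finite G] (N : Subgroup G) [N.Normal] (hN : N ≠ ⊤)
    (h : ∀ x : G, x ∉ N → IsPrimePow (orderOf x) ∧ IsCoatom (Subgroup.centralizer ({x} : Set G))) :
    Group.IsSolvable N := by
  classical
  have hpp : ∀ x : G, x ∉ N → IsPrimePow (orderOf x) := fun x hx => (h x hx).1
  obtain ⟨x₀, hx₀⟩ : ∃ x, x ∉ N := by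
    by_contra hcon
    push Not at hcon
    exact hN (eq_top_iff.mpr fun x _ => hcon x)
  obtain ⟨p, a, hp, ha, hpa⟩ := (isPrimePow_nat_iff _).mp (hpp x₀ hx₀)
  haveI : Fact p.Prime := ⟨hp⟩
  have hM := cent_isPGroup N hpp hp ha hx₀ hpa.symm
  -- the p-group case
  by_cases hG : IsPGroup p G
  · haveI : Group.IsNilpotent N := (IsPGroup.to_subgroup hG N).isNilpotent
    infer_instance
  by_cases hNM : N ≤ Subgroup.centralizer ({x₀} : Set G)
  · haveI : Group.IsNilpotent N := by
      have : IsPGroup p N := hM.to_le hNM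
      exact this.isNilpotent
    infer_instance
  have hSyl : ∀ L : Subgroup G, IsCoatom L → IsPGroup p L → ∃ S : Sylow p G, (S : Subgroup G) = L := by
    intro L hL hpL
    obtain ⟨S, hS⟩ := hpL.exists_le_sylow
    refine ⟨S, ?_⟩
    rcases hS.lt_or_eq with hlt | heq
    · exfalso
      have htop := hL.2 _ hlt
      apply hG
      have := S.2
      rw [htop] at this
      exact IsPGroup.of_injective this (Subgroup.topEquiv (G := G)).symm.toMonoidHom
        (Subgroup.topEquiv (G := G)).symm.injective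
    · exact heq.symm
  obtain ⟨P, hP⟩ := hSyl _ (h x₀ hx₀).2 hM
  have hPcoatom : IsCoatom (P : Subgroup G) := by rw [hP]; exact (h x₀ hx₀).2
  have hsup : (P : Subgroup G) ⊔ N = ⊤ := by
    apply hPcoatom.2
    refine lt_of_le_of_ne le_sup_left ?_
    intro heq
    apply hNM
    rw [← hP, heq]
    exact le_sup_right
  -- all elements outside N are p-elements
  have hidx : N.index ∣ Nat.card P := by
    have := Subgroup.relIndex_sup_right (H := (P : Subgroup G)) (K := N)
    rw [hsup, Subgroup.relIndex_top_right] at this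
    rw [this]
    exact Subgroup.relIndex_dvd_card _ _
  have hpelt : ∀ y : G, y ∉ N → ∃ b, 0 < b ∧ orderOf y = p ^ b := by
    intro y hy
    obtain ⟨r, b, hr, hb, hrb⟩ := (isPrimePow_nat_iff _).mp (hpp y hy)
    refine ⟨b, hb, ?_⟩
    by_cases hrp : r = p
    · rw [← hrp, hrb]
    exfalso
    apply hy
    have hP' : ∃ k, Nat.card P = p ^ k := P.2.exists_card_eq
    obtain ⟨k, hk⟩ := hP'
    obtain ⟨k', hk'⟩ := (Nat.dvd_prime_pow hp).mp (hk ▸ hidx)
    have hmem : y ^ N.index ∈ N := Subgroup.pow_index_mem N y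
    have hcop : N.index.Coprime (orderOf y) := by
      rw [hk'.2, ← hrb]
      exact Nat.Coprime.pow _ _ ((Nat.coprime_primes hp hr).mpr (Ne.symm hrp))
    obtain ⟨m, hm⟩ := exists_pow_eq_self_of_coprime hcop
    rw [← hm]
    exact N.pow_mem hmem m
  -- centralizers of outside elements are Sylow
  have hC : ∀ y : G, y ∉ N → ∃ S : Sylow p G, (S : Subgroup G) = Subgroup.centralizer ({y} : Set G) := by
    intro y hy
    obtain ⟨b, hb, hyb⟩ := hpelt y hy
    exact hSyl _ (h y hy).2 (cent_isPGroup N hpp hp hb hy hyb)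
  -- the set of central elements outside N
  let Zs : Set G := {z : G | z ∉ N ∧ ∀ w ∈ (P : Subgroup G), Commute z w}
  have hZP : ∀ z ∈ Zs, z ∈ (P : Subgroup G) := by
    intro z hz
    obtain ⟨S, hS⟩ := hC _ hz.1
    have hle : (P : Subgroup G) ≤ S := by
      rw [hS]
      intro w hw
      rw [Subgroup.mem_centralizer_iff]
      intro u hu
      rw [Set.mem_singleton_iff.mp hu]
      exact hz.2 w hw
    have hSP : (S : Subgroup G) = P := P.3 S.2 hle
    rw [← hSP, hS, Subgroup.mem_centralizer_iff]
    intro u hu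
    rw [Set.mem_singleton_iff.mp hu]
  -- surjection
  let Phi : (G ⧸ (P : Subgroup G)) × Zs → {x : G // x ∉ N} := fun c =>
    ⟨c.1.out * c.2.1 * c.1.out⁻¹, fun hmem => c.2.2.1 (by
      have := (inferInstance : N.Normal).conj_mem _ hmem (c.1.out)⁻¹
      simpa [mul_assoc] using this)⟩
  have hsurj : Function.Surjective Phi := by
    rintro ⟨x, hx⟩
    obtain ⟨S, hS⟩ := hC x hx
    obtain ⟨g, hg⟩ := MulAction.exists_smul_eq G P S
    have hconj : ∀ w ∈ (P : Subgroup G), g * w * g⁻¹ ∈ (S : Subgroup G) := by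
      intro w hw
      rw [← hg, Sylow.coe_subgroup_smul]
      have := Subgroup.smul_mem_pointwise_smul w (MulAut.conj g) (P : Subgroup G) hw
      simpa using this
    have hzmem : g⁻¹ * x * g ∈ Zs := by
      refine ⟨fun hmem => hx ?_, ?_⟩
      · have := (inferInstance : N.Normal).conj_mem _ hmem g
        simpa [mul_assoc] using this
      · intro w hw
        have h1 := hconj w hw
        rw [hS, Subgroup.mem_centralizer_iff] at h1
        have h2 := h1 x rfl
        show g⁻¹ * x * g * w = w * (g⁻¹ * x * g)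
        have h3 : x * (g * w * g⁻¹) = (g * w * g⁻¹) * x := h2
        calc g⁻¹ * x * g * w = g⁻¹ * (x * (g * w * g⁻¹)) * g := by group
          _ = g⁻¹ * ((g * w * g⁻¹) * x) * g := by rw [h3]
          _ = _ := by group
    refine ⟨⟨(g : G ⧸ (P : Subgroup G)), ⟨_, hzmem⟩⟩, ?_⟩
    apply Subtype.ext
    show ((g : G ⧸ (P : Subgroup G))).out * (g⁻¹ * x * g) * ((g : G ⧸ (P : Subgroup G))).out⁻¹ = x
    obtain ⟨u, hu⟩ := QuotientGroup.mk_out_eq_mul (P : Subgroup G) g
    rw [hu]
    have hcomm : Commute (g⁻¹ * x * g) (u : G) := hzmem.2 u u.2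
    have : (g * (u : G)) * (g⁻¹ * x * g) * (g * u)⁻¹ = x := by
      calc (g * (u : G)) * (g⁻¹ * x * g) * (g * u)⁻¹
          = g * ((u : G) * (g⁻¹ * x * g)) * ((u : G)⁻¹ * g⁻¹) := by group
        _ = g * ((g⁻¹ * x * g) * (u : G)) * ((u : G)⁻¹ * g⁻¹) := by rw [hcomm.eq]
        _ = x := by group
    exact this
  have hcard1 : Nat.card {x : G // x ∉ N} ≤ (P : Subgroup G).index * Nat.card Zs := by
    have := Nat.card_le_card_of_surjective Phi hsurj
    rwa [Nat.card_prod, ← Subgroup.index_eq_card] at this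
  -- split P
  let Bs : Set G := {y : G | y ∈ (P : Subgroup G) ∧ y ∉ N}
  have hsplit : Nat.card Bs + Nat.card ((P : Subgroup G) ⊓ N : Subgroup G) = Nat.card (P : Subgroup G) := by
    have h1 : ((P : Subgroup G) : Set G) = Bs ∪ (((P : Subgroup G) ⊓ N : Subgroup G) : Set G) := by
      ext y
      simp only [Bs, SetLike.mem_coe, Set.mem_union, Set.mem_setOf_eq, Subgroup.mem_inf]
      tauto
    have h2 : Disjoint Bs (((P : Subgroup G) ⊓ N : Subgroup G) : Set G) := by
      rw [Set.disjoint_left]
      rintro y ⟨_, hy⟩ hy2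
      exact hy hy2.2
    have h3 := Set.ncard_union_eq h2 (Set.toFinite _) (Set.toFinite _)
    rw [← h1] at h3
    simp only [← Nat.card_coe_set_eq] at h3
    exact h3.symm
  have hcardN := index_mul_card_inf' (P : Subgroup G) N hsup
  have hcardP := Subgroup.index_mul_card (P : Subgroup G)
  have hcompl := card_compl_subgroup N
  have hmpos : 0 < (P : Subgroup G).index := Nat.pos_of_ne_zero Subgroup.index_ne_zero_of_finite
  have hBZ : Nat.card Bs ≤ Nat.card Zs := by
    apply Nat.le_of_mul_le_mul_left _ hmpos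
    refine le_trans (le_of_eq ?_) hcard1
    have : (P : Subgroup G).index * Nat.card Bs + (P : Subgroup G).index * Nat.card ((P : Subgroup G) ⊓ N : Subgroup G) =
        (P : Subgroup G).index * Nat.card (P : Subgroup G) := by
      rw [← mul_add, hsplit]
    omega
  let inj : Zs → Bs := fun z => ⟨z.1, hZP _ z.2, z.2.1⟩
  have hinj : Function.Injective inj := fun a b hab => Subtype.ext (congrArg (fun c : Bs => (c : G)) hab)
  have hbij := hinj.bijective_of_nat_card_le hBZ
  have hcentral : ∀ y ∈ (P : Subgroup G), y ∉ N → ∀ w ∈ (P : Subgroup G), Commute y w := by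
    intro y hy hyN w hw
    obtain ⟨z, hz⟩ := hbij.2 ⟨y, hy, hyN⟩
    have : (z : G) = y := congrArg (fun c : Bs => (c : G)) hz
    rw [← this]
    exact z.2.2 w hw
  have hx₀P : x₀ ∈ (P : Subgroup G) := by
    rw [hP, Subgroup.mem_centralizer_iff]
    intro u hu
    rw [Set.mem_singleton_iff.mp hu]
  have hab : ∀ u ∈ (P : Subgroup G), ∀ v ∈ (P : Subgroup G), Commute u v := by
    intro u hu v hv
    by_cases huN : u ∈ N
    · have h1 : x₀ * u ∉ N := fun hh => hx₀ (by
        have := N.mul_mem hh (N.inv_mem huN); simpa using this)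
      have h2 := hcentral _ ((P : Subgroup G).mul_mem hx₀P hu) h1 v hv
      have h3 := hcentral _ hx₀P hx₀ v hv
      have h4 : x₀ * u * v = v * (x₀ * u) := h2
      have h5 : x₀ * v = v * x₀ := h3
      show u * v = v * u
      have : x₀ * (u * v) = x₀ * (v * u) := by
        calc x₀ * (u * v) = v * (x₀ * u) := by rw [← mul_assoc, h4]
          _ = x₀ * (v * u) := by rw [← mul_assoc, ← h5, mul_assoc]
      exact mul_left_cancel this
    · exact hcentral u hu huN v hv
  have hnorm : Subgroup.normalizer ((P : Subgroup G) : Set G) = P ∨ Subgroup.normalizer ((P : Subgroup G) : Set G) = ⊤ := by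
    rcases (Subgroup.le_normalizer (H := (P : Subgroup G))).lt_or_eq with hlt | heq
    · exact Or.inr (hPcoatom.2 _ hlt)
    · exact Or.inl heq.symm
  rcases hnorm with hnorm | hnorm
  · -- Burnside's normal complement
    have hPN : Subgroup.normalizer ((P : Subgroup G) : Set G) ≤ Subgroup.centralizer ((P : Subgroup G) : Set G) := by
      rw [hnorm]
      intro u hu
      rw [Subgroup.mem_centralizer_iff]
      intro v hv
      exact hab v hv u hu
    have hcompl2 : Subgroup.IsComplement' (MonoidHom.transferSylow P hPN).ker (P : Subgroup G) :=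
      MonoidHom.ker_transferSylow_isComplement' P hPN
    set K := (MonoidHom.transferSylow P hPN).ker with hK
    have hKcard : Nat.card K * Nat.card (P : Subgroup G) = Nat.card G := hcompl2.card_mul
    have hKindex : (P : Subgroup G).index = Nat.card K := by
      have := Subgroup.index_mul_card (P : Subgroup G)
      have hpos : 0 < Nat.card (P : Subgroup G) := Nat.card_pos
      exact Nat.eq_of_mul_eq_mul_right hpos (this.trans hKcard.symm)
    have hpK : ¬ p ∣ Nat.card K := by
      rw [← hKindex]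
      exact P.not_dvd_index
    -- a prime q ≠ p
    obtain ⟨q, hq, hqp, hqG⟩ : ∃ q : ℕ, q.Prime ∧ q ≠ p ∧ q ∣ Nat.card G := by
      by_contra hcon
      push Not at hcon
      apply hG
      apply IsPGroup.of_card
      apply Nat.eq_prime_pow_of_unique_prime_dvd (Nat.card_pos).ne'
      intro d hd hdG
      by_contra hne
      exact hcon d hd hne hdG
    haveI : Fact q.Prime := ⟨hq⟩
    have hqK : q ∣ Nat.card K := by
      rw [← hKcard] at hqG
      rcases (Nat.Prime.dvd_mul hq).mp hqG with h1 | h1
      · exact h1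
      · exfalso
        obtain ⟨k, hk⟩ := P.2.exists_card_eq
        rw [hk] at h1
        exact hqp ((Nat.prime_dvd_prime_iff_eq hq hp).mp (hq.dvd_of_dvd_pow h1))
    obtain ⟨Q₀⟩ : Nonempty (Sylow q K) := inferInstance
    have hKn : K.Normal := MonoidHom.normal_ker _
    set Q : Subgroup G := (Q₀ : Subgroup K).map K.subtype with hQ
    have hLsup : Subgroup.normalizer (Q : Set G) ⊔ K = ⊤ := Sylow.normalizer_sup_eq_top Q₀
    set L := Subgroup.normalizer (Q : Set G) with hL
    have hLidx : ¬ p ∣ Nat.card (G ⧸ L) := by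
      rw [← Subgroup.index_eq_card]
      intro hd
      apply hpK
      rw [← index_mul_card_inf' L K hLsup]
      exact Dvd.dvd.mul_right hd _
    obtain ⟨c, hc⟩ := P.2.nonempty_fixed_point_of_prime_not_dvd_card (G ⧸ L) hLidx
    obtain ⟨g, rfl⟩ := QuotientGroup.mk_surjective c
    have hconj : ∀ u ∈ (P : Subgroup G), g⁻¹ * u * g ∈ L := by
      intro u hu
      have := hc ⟨u, hu⟩
      have h2 : ((u * g : G) : G ⧸ L) = (g : G ⧸ L) := this
      have h3 := QuotientGroup.eq.mp h2.symm
      have h4 : g⁻¹ * (u * g) ∈ L := h3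
      simpa [mul_assoc] using h4
    -- Q₁ := g Q g⁻¹
    set Q₁ : Subgroup G := Q.map (MulAut.conj g).toMonoidHom with hQ₁
    have hmemQ₁ : ∀ w, w ∈ Q₁ ↔ g⁻¹ * w * g ∈ Q := by
      intro w
      rw [hQ₁, Subgroup.mem_map]
      constructor
      · rintro ⟨y, hy, rfl⟩
        have : g⁻¹ * ((MulAut.conj g).toMonoidHom y) * g = y := by
          simp [MulAut.conj_apply]
          group
        rw [this]; exact hy
      · intro hw
        refine ⟨_, hw, ?_⟩
        simp [MulAut.conj_apply]
        group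
    have hQ₁p : IsPGroup q Q₁ := IsPGroup.map (Q₀.2.map K.subtype) _
    have hQ₁ne : Q₁ ≠ ⊥ := by
      intro hbot
      have h1 : Q = ⊥ := (Subgroup.map_eq_bot_iff_of_injective _ (MulAut.conj g).injective).mp hbot
      have h2 : (Q₀ : Subgroup K) = ⊥ := (Subgroup.map_eq_bot_iff_of_injective _ K.subtype_injective).mp h1
      exact Q₀.ne_bot_of_dvd_card hqK h2
    have hnormQ₁ : (P : Subgroup G) ≤ Subgroup.normalizer (Q₁ : Set G) := by
      intro u hu
      have hl := hconj u hu
      rw [Subgroup.mem_normalizer_iff]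
      intro w
      rw [hmemQ₁, hmemQ₁]
      have := (Subgroup.mem_normalizer_iff.mp hl) (g⁻¹ * w * g)
      rw [this]
      have e : g⁻¹ * u * g * (g⁻¹ * w * g) * (g⁻¹ * u * g)⁻¹ = g⁻¹ * (u * w * u⁻¹) * g := by group
      rw [e]
    have hQ₁P : ¬ Q₁ ≤ (P : Subgroup G) := by
      intro hle
      have hdis := IsPGroup.disjoint_of_ne q p hqp Q₁ (P : Subgroup G) hQ₁p P.2
      exact hQ₁ne (disjoint_iff.mp hdis |> fun hh => by
        rw [inf_eq_left.mpr hle] at hh; exact hh)
    have hsup2 : (P : Subgroup G) ⊔ Q₁ = ⊤ := by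
      apply hPcoatom.2
      refine lt_of_le_of_ne le_sup_left ?_
      intro heq
      apply hQ₁P
      rw [heq]
      exact le_sup_right
    have hQ₁n : Q₁.Normal := by
      apply Subgroup.normalizer_eq_top_iff.mp
      rw [eq_top_iff, ← hsup2]
      exact sup_le hnormQ₁ Subgroup.le_normalizer
    haveI := hQ₁n
    haveI : Group.IsSolvable (G ⧸ Q₁) := by
      apply isSolvable_of_comm
      intro a b
      have hsurjP : ∀ c : G ⧸ Q₁, ∃ u ∈ (P : Subgroup G), (u : G ⧸ Q₁) = c := by
        intro c
        obtain ⟨x, rfl⟩ := QuotientGroup.mk_surjective c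
        have hx : x ∈ (P : Subgroup G) ⊔ Q₁ := by rw [hsup2]; trivial
        rw [Subgroup.mem_sup_of_normal_right] at hx
        obtain ⟨u, hu, w, hw, rfl⟩ := hx
        refine ⟨u, hu, ?_⟩
        rw [QuotientGroup.eq]
        simpa using hw
      obtain ⟨u, hu, rfl⟩ := hsurjP a
      obtain ⟨v, hv, rfl⟩ := hsurjP b
      rw [← QuotientGroup.mk_mul, ← QuotientGroup.mk_mul, (hab u hu v hv).eq]
    haveI : Group.IsNilpotent Q₁ := hQ₁p.isNilpotent
    haveI : Group.IsSolvable G := solvable_of_ker_le_range Q₁.subtype (QuotientGroup.mk' Q₁) (by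
      intro x hx
      rw [MonoidHom.mem_ker, QuotientGroup.mk'_apply, QuotientGroup.eq_one_iff] at hx
      exact ⟨⟨x, hx⟩, rfl⟩)
    infer_instance
  · -- P normal: contradiction
    haveI hPn : (P : Subgroup G).Normal := Subgroup.normalizer_eq_top_iff.mp hnorm
    exfalso
    have hall : ∀ y : G, y ∉ N → y ∈ (P : Subgroup G) := by
      intro y hy
      obtain ⟨S, hS⟩ := hC y hy
      have hSP : S = P := by
        obtain ⟨g, hg⟩ := MulAction.exists_smul_eq G P S
        rw [← hg]
        exact Sylow.smul_eq_of_normal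
      rw [← hSP, hS, Subgroup.mem_centralizer_iff]
      intro u hu
      rw [Set.mem_singleton_iff.mp hu]
    obtain ⟨v, hv⟩ : ∃ v, v ∉ (P : Subgroup G) := by
      by_contra hcon
      push Not at hcon
      exact hPcoatom.1 (eq_top_iff.mpr fun x _ => hcon x)
    have hvN : v ∈ N := by
      by_contra hvN
      exact hv (hall v hvN)
    have h1 : v * x₀ ∉ N := fun hh => hx₀ (by
      have := N.mul_mem (N.inv_mem hvN) hh; simpa using this)
    have h2 := hall _ h1
    apply hv
    have := (P : Subgroup G).mul_mem h2 ((P : Subgroup G).inv_mem hx₀P)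
    simpa using this


/-- Let N be a proper normal subgroup of the finite group G such that every element x of G outside N has prime power order and has centralizer C_G(x) a maximal subgroup of G. Then N is solvable. -/
theorem result {G : Type*} [Group G] [Finite G] (N : Subgroup G) [N.Normal] (hN : N ≠ ⊤)
    (h : ∀ x : G, x ∉ N → IsPrimePow (orderOf x) ∧ IsCoatom (Subgroup.centralizer ({x} : Set G))) : Group.IsSolvable ↥N := by
  exact (main N hN h)

end Cfsg.Agent.S3903
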