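import Cfsg.Statements.S3904
import Cfsg.Agent.Lib.H29.MaxCent3
-- import your own Cfsg.Agent.* helpers here

set_option autoImplicit false
open Cfsg

namespace Cfsg.Agent.S3904

/-- Let G be a non-abelian finite group in which the centralizer of every non-central element is a maximal subgroup. Then G/Z(G) is either an elementary abelian p-group for some prime p, or a minimal non-abelian group (non-abelian with all proper subgroups abelian) of order p^a · q for distinct primes p, q with a normal Sylow p-subgroup. -/
theorem result {G : Type*} [Group G] [Finite G] (hna : ¬ IsMulCommutative G)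
    (h : ∀ x : G, x ∉ Subgroup.center G → IsCoatom (Subgroup.centralizer ({x} : Set G))) :
    (∃ p : ℕ, p.Prime ∧ Cfsg.IsElementaryAbelian p (⊤ : Subgroup (G ⧸ Subgroup.center G))) ∨
    (¬ IsMulCommutative (G ⧸ Subgroup.center G) ∧ (∀ H : Subgroup (G ⧸ Subgroup.center G), H ≠ ⊤ → IsMulCommutative ↥H) ∧
      ∃ p q a : ℕ, p.Prime ∧ q.Prime ∧ p ≠ q ∧ Nat.card (G ⧸ Subgroup.center G) = p ^ a * q ∧
        ∀ P : Subgroup (G ⧸ Subgroup.center G), Nat.card ↥P = p ^ a → P.Normal) := by
  have hZ : ∀ x : G, x ∉ Subgroup.center G → IsCoatom (Subgroup.centralizer ({x} : Set G)) := h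
  have S : H29.MaxCent.Act (MonoidHom.id G) (MulAut.conj (G := G)) := by
    refine ⟨?_, ?_, ?_⟩
    · intro a y
      rfl
    · intro g a
      rfl
    · intro x hx
      have h2 : H29.MaxCent.St (MulAut.conj (G := G)) x = Subgroup.centralizer ({x} : Set G) := by
        ext g
        rw [H29.MaxCent.mem_St, Subgroup.mem_centralizer_singleton_iff, MulAut.conj_apply]
        constructor
        · intro e
          calc g * x = (g * x * g⁻¹) * g := by group
            _ = x * g := by rw [e]
        · intro e
          rw [e]
          group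
      rw [h2]
      exact hZ x hx
  rcases S.main with h1 | ⟨x, hx, K, s, hs, hKn, hKset, hc, hE, hQp, hFC⟩
  · exact Or.inl h1
  · right
    have hcoat : IsCoatom ((H29.MaxCent.Cn x).map (QuotientGroup.mk' (Subgroup.center G))) := by
      have hCx := hZ x hx
      have hZC : Subgroup.center G ≤ H29.MaxCent.Cn x :=
        fun z hz => H29.MaxCent.mem_Cn.2 (Subgroup.mem_center_iff.1 hz x |>.symm)
      refine ⟨hFC.2.1, ?_⟩
      intro L hL
      have h3 : H29.MaxCent.Cn x < L.comap (QuotientGroup.mk' (Subgroup.center G)) := by
        apply lt_of_le_of_ne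
        · intro t ht
          exact hL.le ⟨t, ht, rfl⟩
        · intro e
          apply hL.not_ge
          intro v hv
          obtain ⟨t, rfl⟩ := QuotientGroup.mk_surjective v
          have h4 : t ∈ L.comap (QuotientGroup.mk' (Subgroup.center G)) := hv
          rw [← e] at h4
          exact ⟨t, h4, rfl⟩
      have h4 := hCx.2 _ h3
      rw [eq_top_iff]
      intro v _
      obtain ⟨t, rfl⟩ := QuotientGroup.mk_surjective v
      have h5 : t ∈ L.comap (QuotientGroup.mk' (Subgroup.center G)) := by rw [h4]; trivial
      exact h5
    exact H29.MaxCent.frob_minimal _ K hFC hKn hKset hc hs hE hQp hcoat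

end Cfsg.Agent.S3904
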