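import Cfsg.Statements.S3905
import Cfsg.Agent.Lib.H29.MaxCent3
-- import your own Cfsg.Agent.* helpers here

set_option autoImplicit false
open Cfsg

namespace Cfsg.Agent.S3905

/-- Let N be a normal subgroup of the finite group G such that for every element x of N outside the center of N the centralizer C_G(x) is a maximal subgroup of G. Then N/Z(N) is either an elementary abelian p-group for some prime p, or a Frobenius group whose kernel is an elementary abelian normal subgroup and whose complement has prime order. -/
theorem result {G : Type*} [Group G] [Finite G] (N : Subgroup G) [N.Normal]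
    (h : ∀ x : G, x ∈ N → x ∉ Subgroup.centralizer (N : Set G) → IsCoatom (Subgroup.centralizer ({x} : Set G))) :
    (∃ p : ℕ, p.Prime ∧ Cfsg.IsElementaryAbelian p (⊤ : Subgroup (↥N ⧸ Subgroup.center ↥N))) ∨
    (∃ (Q K : Subgroup (↥N ⧸ Subgroup.center ↥N)) (p : ℕ), p.Prime ∧ Cfsg.IsFrobeniusComplement Q ∧ (Nat.card ↥Q).Prime ∧
      K.Normal ∧ (K : Set (↥N ⧸ Subgroup.center ↥N)) = Cfsg.frobeniusKernel Q ∧ Cfsg.IsElementaryAbelian p K) := by
  have S : H29.MaxCent.Act (N.subtype) (MulAut.conjNormal (H := N)) := by
    refine ⟨?_, ?_, ?_⟩
    · intro a y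
      apply Subtype.ext
      exact MulAut.conjNormal_apply (a : G) y
    · intro g a
      exact MulAut.conjNormal_apply g a
    · intro x hx
      have hx' : (x : G) ∉ Subgroup.centralizer (N : Set G) := by
        intro h
        apply hx
        rw [Subgroup.mem_center_iff]
        intro g
        apply Subtype.ext
        exact (Subgroup.mem_centralizer_iff.1 h g g.2)
      have h1 := h x x.2 hx'
      have h2 : H29.MaxCent.St (MulAut.conjNormal (H := N)) x = Subgroup.centralizer ({(x : G)} : Set G) := by
        ext g
        rw [H29.MaxCent.mem_St, Subgroup.mem_centralizer_singleton_iff]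
        constructor
        · intro e
          have e1 := congrArg Subtype.val e
          rw [MulAut.conjNormal_apply] at e1
          calc g * (x : G) = (g * (x : G) * g⁻¹) * g := by group
            _ = x * g := by rw [e1]
        · intro e
          apply Subtype.ext
          rw [MulAut.conjNormal_apply, e]
          group
      rw [h2]
      exact h1
  rcases S.main with h1 | ⟨x, hx, K, s, hs, hKn, hKset, hc, hE, hQp, hFC⟩
  · exact Or.inl h1
  · exact Or.inr ⟨_, K, s, hs, hFC, hQp, hKn, hKset, hE⟩

end Cfsg.Agent.S3905
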