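import Cfsg.Statements.S3910
import Mathlib
import Cfsg.Agent.Lib.H18.Syl
import Cfsg.Agent.Lib.H18.Nilp

set_option autoImplicit false
open Cfsg

namespace Cfsg.Agent.S3910

/-- A finite nilpotent group in which any two abelian subgroups of the same order are conjugate is cyclic. -/
theorem result {G : Type*} [Group G] [Finite G] (hB : ∀ A B : Subgroup G, IsMulCommutative ↥A → IsMulCommutative ↥B → Nat.card ↥A = Nat.card ↥B → ∃ g : G, B = A.map (MulAut.conj g).toMonoidHom) (hnil : Group.IsNilpotent G) : IsCyclic G := by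
  classical
  have hcz : ∀ z : G, IsMulCommutative (Subgroup.zpowers z) := by
    intro z
    refine ⟨⟨?_⟩⟩
    rintro ⟨a, ha⟩ ⟨b, hb⟩
    obtain ⟨i, rfl⟩ := Subgroup.mem_zpowers_iff.1 ha
    obtain ⟨j, rfl⟩ := Subgroup.mem_zpowers_iff.1 hb
    ext
    simp only [Subgroup.coe_mul]
    rw [← zpow_add, ← zpow_add, add_comm]
  -- a maximal normal abelian subgroup
  let S : Set (Subgroup G) := {N | N.Normal ∧ IsMulCommutative N}
  have hne : S.Nonempty := ⟨⊥, inferInstance, ⟨⟨fun a b => Subsingleton.elim _ _⟩⟩⟩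
  obtain ⟨A, hA⟩ := S.toFinite.exists_maximal hne
  obtain ⟨hAn, hAc⟩ := hA.prop
  have hCA : Subgroup.centralizer (A : Set G) ≤ A :=
    H18.centralizer_le_of_maximal_normal_abelian hAn hAc
      (fun B hB hBc hAB => hA.le_of_ge ⟨hB, hBc⟩ hAB)
  -- uniqueness of abelian subgroups of orders dividing `|A|`
  have hU : ∀ d, d ∣ Nat.card A → ∃ D : Subgroup G, D ≤ A ∧ ∀ y : G, orderOf y = d → Subgroup.zpowers y = D := by
    intro d hd
    obtain ⟨D, hDA, hDn, hDc⟩ := H18.exists_normal_le_card_eq hAn hAc hd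
    refine ⟨D, hDA, ?_⟩
    intro y hy
    have hDab : IsMulCommutative D := by
      refine ⟨⟨?_⟩⟩
      rintro ⟨a, ha⟩ ⟨b, hb⟩
      have := hAc.is_comm.comm ⟨a, hDA ha⟩ ⟨b, hDA hb⟩
      have h : a * b = b * a := congrArg Subtype.val this
      exact Subtype.ext h
    obtain ⟨g, hg⟩ := hB D (Subgroup.zpowers y) hDab (hcz y) (by rw [hDc, Nat.card_zpowers, hy])
    rw [hg]
    apply le_antisymm
    · rintro _ ⟨x, hx, rfl⟩
      exact hDn.conj_mem x hx g
    · intro x hx
      rw [H18.mem_conj]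
      have := hDn.conj_mem x hx g⁻¹
      simpa using this
  have hF1 : ∀ y : G, orderOf y ∣ Nat.card A → y ∈ A := by
    intro y hy
    obtain ⟨D, hDA, hD⟩ := hU _ hy
    apply hDA
    rw [← hD y rfl]
    exact Subgroup.mem_zpowers y
  have hF2 : ∀ y y' : G, orderOf y = orderOf y' → orderOf y ∣ Nat.card A →
      Subgroup.zpowers y = Subgroup.zpowers y' := by
    intro y y' h hy
    obtain ⟨D, _, hD⟩ := hU _ hy
    rw [hD y rfl, hD y' h.symm]
  -- all elements lie in `A`
  have hall : ∀ x : G, x ∈ A := by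
    intro x
    induction hn : orderOf x using Nat.strong_induction_on generalizing x with
    | _ n ih =>
    by_contra hxA
    have hn1 : n ≠ 1 := by
      intro h
      rw [h] at hn
      rw [orderOf_eq_one_iff.1 hn] at hxA
      exact hxA A.one_mem
    have hn0 : n ≠ 0 := by
      rw [← hn]; exact (orderOf_pos x).ne'
    set p := n.minFac with hp
    have hpp : p.Prime := Nat.minFac_prime hn1
    obtain ⟨k, m, hpm, hkm⟩ := Nat.exists_eq_pow_mul_and_not_dvd hn0 p hpp.ne_one
    have hk0 : k ≠ 0 := by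
      rintro rfl
      apply hpm
      have h1 : p ∣ n := Nat.minFac_dvd n
      have h2 : n = m := by simpa using hkm
      rw [← h2]; exact h1
    have hm0 : 0 < m := by
      rcases Nat.eq_zero_or_pos m with h | h
      · rw [h] at hkm; simp at hkm; omega
      · exact h
    have hpk1 : 1 < p ^ k := Nat.one_lt_pow hk0 hpp.one_lt
    have hcop : Nat.Coprime (p ^ k) m := Nat.Coprime.pow_left _ ((Nat.Prime.coprime_iff_not_dvd hpp).2 hpm)
    -- `n` is a prime power
    have hm1 : m = 1 := by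
      by_contra hm1
      have hm2 : 1 < m := by omega
      have hx1 : x ^ m ∈ A := by
        apply ih (orderOf (x ^ m)) _ (x ^ m) rfl
        rw [orderOf_pow' x hm0.ne', hn, hkm, Nat.gcd_eq_right (Dvd.intro_left _ rfl),
          Nat.mul_div_cancel _ hm0]
        nlinarith
      have hx2 : x ^ (p ^ k) ∈ A := by
        apply ih (orderOf (x ^ (p ^ k))) _ (x ^ (p ^ k)) rfl
        rw [orderOf_pow' x (by omega), hn, hkm, Nat.gcd_eq_right (Dvd.intro _ rfl),
          Nat.mul_div_cancel_left _ (by omega)]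
        nlinarith
      apply hxA
      have hb := Nat.gcd_eq_gcd_ab m (p ^ k)
      rw [Nat.Coprime.symm hcop] at hb
      have he : x = (x ^ m) ^ (Nat.gcdA m (p ^ k)) * (x ^ (p ^ k)) ^ (Nat.gcdB m (p ^ k)) := by
        rw [← zpow_natCast x m, ← zpow_natCast x (p ^ k), ← zpow_mul, ← zpow_mul, ← zpow_add]
        have : (m : ℤ) * Nat.gcdA m (p ^ k) + ((p ^ k : ℕ) : ℤ) * Nat.gcdB m (p ^ k) = 1 := by
          rw [← hb]; simp
        rw [this, zpow_one]
      rw [he]
      exact A.mul_mem (A.zpow_mem hx1 _) (A.zpow_mem hx2 _)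
    rw [hm1, mul_one] at hkm
    obtain ⟨l, rfl⟩ : ∃ l, k = l + 1 := ⟨k - 1, by omega⟩
    -- the element `c = x ^ p`
    have hcord : orderOf (x ^ p) = p ^ l := by
      rw [orderOf_pow' x hpp.ne_zero, hn, hkm, pow_succ, Nat.gcd_eq_right (Dvd.intro_left _ rfl),
        Nat.mul_div_cancel _ hpp.pos]
    have hnot : ¬ p ^ (l + 1) ∣ Nat.card A := by
      intro h
      apply hxA
      apply hF1
      rw [hn, hkm]
      exact h
    have hxcomm : ∀ a ∈ A, a * x = x * a := by
      intro a ha
      obtain ⟨s, r, hpr, hsr⟩ := Nat.exists_eq_pow_mul_and_not_dvd (orderOf_pos a).ne' p hpp.ne_one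
      have hr0 : 0 < r := by
        rcases Nat.eq_zero_or_pos r with h | h
        · rw [h, mul_zero] at hsr; exact absurd hsr (orderOf_pos a).ne'
        · exact h
      have hcop2 : Nat.Coprime (p ^ s) r := Nat.Coprime.pow_left _ ((Nat.Prime.coprime_iff_not_dvd hpp).2 hpr)
      -- the `p'`-part
      have ha2 : orderOf (a ^ (p ^ s)) = r := by
        rw [orderOf_pow' a (pow_pos hpp.pos s).ne', hsr, Nat.gcd_eq_right (Dvd.intro _ rfl),
          Nat.mul_div_cancel_left _ (pow_pos hpp.pos s)]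
      have hc2 : Commute (a ^ (p ^ s)) x := by
        apply H18.commute_of_coprime_orderOf
        rw [ha2, hn, hkm]
        exact (Nat.Coprime.pow_left (l + 1) ((Nat.Prime.coprime_iff_not_dvd hpp).2 hpr)).symm
      -- the `p`-part
      have ha1 : orderOf (a ^ r) = p ^ s := by
        rw [orderOf_pow' a hr0.ne', hsr, Nat.gcd_eq_right (Dvd.intro_left _ rfl),
          Nat.mul_div_cancel _ hr0]
      have ha1A : a ^ r ∈ A := A.pow_mem ha r
      have hdvdA : p ^ s ∣ Nat.card A := by
        rw [← ha1]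
        exact Subgroup.orderOf_dvd_natCard A ha1A
      have hsl : s ≤ l := by
        by_contra hlt
        push Not at hlt
        exact hnot ((pow_dvd_pow p hlt).trans hdvdA)
      have hdiv : p ^ s ∣ orderOf (x ^ p) := by
        rw [hcord]; exact pow_dvd_pow p hsl
      have hcne : orderOf (x ^ p) ≠ 0 := by
        rw [hcord]; exact (pow_pos hpp.pos l).ne'
      have hc' : orderOf ((x ^ p) ^ (orderOf (x ^ p) / p ^ s)) = p ^ s :=
        orderOf_pow_orderOf_div hcne hdiv
      have hzp := hF2 (a ^ r) ((x ^ p) ^ (orderOf (x ^ p) / p ^ s)) (by rw [ha1, hc']) (by rw [ha1]; exact hdvdA)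
      have hmem : a ^ r ∈ Subgroup.zpowers ((x ^ p) ^ (orderOf (x ^ p) / p ^ s)) := by
        rw [← hzp]; exact Subgroup.mem_zpowers _
      obtain ⟨i, hi⟩ := Subgroup.mem_zpowers_iff.1 hmem
      have hc1 : Commute (a ^ r) x := by
        rw [← hi]
        exact (((Commute.refl x).pow_left p).pow_left _).zpow_left i
      have hb := Nat.gcd_eq_gcd_ab r (p ^ s)
      rw [Nat.Coprime.symm hcop2] at hb
      have he : a = (a ^ r) ^ (Nat.gcdA r (p ^ s)) * (a ^ (p ^ s)) ^ (Nat.gcdB r (p ^ s)) := by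
        rw [← zpow_natCast a r, ← zpow_natCast a (p ^ s), ← zpow_mul, ← zpow_mul, ← zpow_add]
        have : (r : ℤ) * Nat.gcdA r (p ^ s) + ((p ^ s : ℕ) : ℤ) * Nat.gcdB r (p ^ s) = 1 := by
          rw [← hb]; simp
        rw [this, zpow_one]
      have hfinal : Commute a x := by
        rw [he]
        exact (hc1.zpow_left _).mul_left (hc2.zpow_left _)
      exact hfinal.eq
    exact hxA (hCA (Subgroup.mem_centralizer_iff.2 hxcomm))
  -- `G` is abelian
  have hcommG : ∀ a b : G, a * b = b * a := by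
    intro a b
    have := hAc.is_comm.comm ⟨a, hall a⟩ ⟨b, hall b⟩
    exact congrArg Subtype.val this
  have hAtop : A = ⊤ := eq_top_iff.2 (fun x _ => hall x)
  letI : CommGroup G := { (inferInstance : Group G) with mul_comm := hcommG }
  have hcardA : Nat.card A = Nat.card G := by rw [hAtop, Subgroup.card_top]
  have hexp : Monoid.exponent G ≠ 0 := Monoid.exponent_ne_zero_of_finite
  obtain ⟨g, hg⟩ := Monoid.exists_orderOf_eq_exponent (Monoid.exponent_ne_zero.1 hexp)
  rw [isCyclic_iff_exists_zpowers_eq_top]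
  refine ⟨g, eq_top_iff.2 ?_⟩
  intro y _
  have hd : orderOf y ∣ orderOf g := by rw [hg]; exact Monoid.order_dvd_exponent y
  have hgne : orderOf g ≠ 0 := (orderOf_pos g).ne'
  have h1 : orderOf (g ^ (orderOf g / orderOf y)) = orderOf y := orderOf_pow_orderOf_div hgne hd
  have h2 := hF2 y (g ^ (orderOf g / orderOf y)) h1.symm (by
    rw [hcardA]; exact orderOf_dvd_natCard y)
  have h3 : y ∈ Subgroup.zpowers (g ^ (orderOf g / orderOf y)) := by
    rw [← h2]; exact Subgroup.mem_zpowers y
  obtain ⟨i, hi⟩ := Subgroup.mem_zpowers_iff.1 h3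
  rw [← hi]
  exact Subgroup.zpow_mem _ (Subgroup.pow_mem _ (Subgroup.mem_zpowers g) _) _

end Cfsg.Agent.S3910
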