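import Cfsg.Statements.S3917
import Mathlib
import Cfsg.Agent.Lib.H18.Syl

set_option autoImplicit false
open Cfsg

namespace Cfsg.Agent.S3917

/-- Say that a group has self-centralizing non-cyclic subgroups when every non-cyclic subgroup H satisfies C_G(H) ≤ H. A finite abelian group with self-centralizing non-cyclic subgroups is cyclic or elementary abelian of order p² for a prime p. -/
theorem result {G : Type*} [CommGroup G] [Finite G] (hX : (∀ H : Subgroup G, ¬ IsCyclic ↥H → Subgroup.centralizer (H : Set G) ≤ H)) :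
    IsCyclic G ∨ ∃ p : ℕ, p.Prime ∧ Nat.card G = p ^ 2 ∧ Monoid.exponent G = p := by
    classical
  by_cases hcyc : IsCyclic G
  · exact Or.inl hcyc
  right
  have hprop : ∀ H : Subgroup G, ¬ IsCyclic H → H = ⊤ := by
    intro H hH
    have h1 := hX H hH
    rw [eq_top_iff]
    refine le_trans ?_ h1
    intro x _
    rw [Subgroup.mem_centralizer_iff]
    intro y _
    exact mul_comm y x
  let Ω : ℕ → Subgroup G := fun n => (powMonoidHom n : G →* G).ker
  have hΩ : ∀ n (a : G), a ∈ Ω n ↔ a ^ n = 1 := fun n a => by simp [Ω, MonoidHom.mem_ker]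
  -- a cyclic subgroup of exponent dividing `n` has order at most `n`
  have hcardcyc : ∀ (n : ℕ), 0 < n → ∀ H : Subgroup G, IsCyclic H → (∀ a ∈ H, a ^ n = 1) → Nat.card H ≤ n := by
    intro n hn H hH hHn
    haveI := hH
    rw [← IsCyclic.exponent_eq_card]
    apply Nat.le_of_dvd hn
    apply Monoid.exponent_dvd_of_forall_pow_eq_one
    rintro ⟨a, ha⟩
    ext
    simpa using hHn a ha
  -- some `Ω n` is large
  have hex : ∃ n, 0 < n ∧ n < Nat.card (Ω n) := by
    by_contra hcon
    push Not at hcon
    apply hcyc
    haveI := Fintype.ofFinite G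
    apply isCyclic_of_card_pow_eq_one_le
    intro n hn
    have := hcon n hn
    rw [Nat.card_eq_fintype_card (α := Ω n)] at this
    have e : (Finset.univ.filter fun a : G => a ^ n = 1).card = Fintype.card (Ω n) := by
      rw [← Fintype.card_subtype]
      exact Fintype.card_congr (Equiv.subtypeEquivRight (fun a => (hΩ n a).symm))
    rw [e]; exact this
  have hnc : ∀ n, 0 < n → n < Nat.card (Ω n) → Ω n = ⊤ := by
    intro n hn hlt
    apply hprop
    intro hc
    have := hcardcyc n hn (Ω n) hc (fun a ha => (hΩ n a).1 ha)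
    omega
  let q := Nat.find hex
  obtain ⟨hq0, hqlt⟩ : 0 < q ∧ q < Nat.card (Ω q) := Nat.find_spec hex
  have hqmin : ∀ m, m < q → 0 < m → Nat.card (Ω m) ≤ m := by
    intro m hm hm0
    have := Nat.find_min hex hm
    push Not at this
    exact this hm0
  have hq1 : q ≠ 1 := by
    intro h
    rw [h] at hqlt
    have : Ω 1 = ⊥ := by
      ext a
      simp [hΩ]
    rw [this] at hqlt
    simp at hqlt
  have hqprime : q.Prime := by
    by_contra hnp
    have h2 : 2 ≤ q := by omega
    obtain ⟨a, b, ha, hb, hab⟩ := (Nat.not_prime_iff_exists_mul_eq h2).1 hnp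
    have ha0 : 0 < a := by
      rcases Nat.eq_zero_or_pos a with h | h
      · rw [h] at hab; omega
      · exact h
    have hb0 : 0 < b := by
      rcases Nat.eq_zero_or_pos b with h | h
      · rw [h] at hab; omega
      · exact h
    have h1 := hqmin a ha ha0
    have h3 := hqmin b hb hb0
    -- power map
    let f : Ω q →* G := (powMonoidHom a : G →* G).comp (Ω q).subtype
    have hr : f.range ≤ Ω b := by
      rintro _ ⟨x, rfl⟩
      rw [hΩ]
      have := (hΩ q x).1 x.2
      change (x.1 ^ a) ^ b = 1
      rw [← pow_mul, hab, this]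
    have hrc : Nat.card f.range ≤ Nat.card (Ω b) := Subgroup.card_le_of_le hr
    have hkc : Nat.card f.ker ≤ Nat.card (Ω a) := by
      let g : f.ker → Ω a := fun x => ⟨x.1.1, by
        rw [hΩ]
        have := x.2
        rw [MonoidHom.mem_ker] at this
        exact this⟩
      apply Nat.card_le_card_of_injective g
      intro x y h
      ext
      simpa [g] using h
    have hcard : Nat.card (Ω q) = Nat.card f.ker * Nat.card f.range := by
      rw [← Subgroup.index_ker f]
      exact (Subgroup.card_mul_index f.ker).symm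
    have : Nat.card (Ω q) ≤ a * b := by
      rw [hcard]
      exact Nat.mul_le_mul (hkc.trans h1) (hrc.trans h3)
    omega
  have htop := hnc q hq0 hqlt
  have hpow : ∀ a : G, a ^ q = 1 := fun a => (hΩ q a).1 (htop ▸ Subgroup.mem_top a)
  have hcardG : q < Nat.card G := by
    rw [htop] at hqlt
    simpa using hqlt
  have hnt : Nontrivial G := by
    rw [← Finite.one_lt_card_iff_nontrivial]
    have := hqprime.one_lt
    omega
  obtain ⟨x, hx⟩ := exists_ne (1 : G)
  have hordx : orderOf x = q := by
    haveI := Fact.mk hqprime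
    exact orderOf_eq_prime (hpow x) hx
  have hexp : Monoid.exponent G = q := by
    have h1 : Monoid.exponent G ∣ q := Monoid.exponent_dvd_of_forall_pow_eq_one hpow
    rcases (Nat.dvd_prime hqprime).1 h1 with h | h
    · rw [Monoid.exp_eq_one_iff] at h
      exact absurd (Subsingleton.elim x 1) hx
    · exact h
  refine ⟨q, hqprime, ?_, hexp⟩
  obtain ⟨y, hy⟩ : ∃ y : G, y ∉ Subgroup.zpowers x := by
    by_contra h
    push Not at h
    exact hcyc (isCyclic_iff_exists_zpowers_eq_top.2 ⟨x, eq_top_iff.2 fun a _ => h a⟩)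
  have hy1 : y ≠ 1 := by
    rintro rfl
    exact hy (Subgroup.one_mem _)
  have hordy : orderOf y = q := by
    haveI := Fact.mk hqprime
    exact orderOf_eq_prime (hpow y) hy1
  set A := Subgroup.zpowers x with hA
  set B := Subgroup.zpowers y with hB
  have hcA : Nat.card A = q := by rw [hA, Nat.card_zpowers, hordx]
  have hcB : Nat.card B = q := by rw [hB, Nat.card_zpowers, hordy]
  have hsup : A ⊔ B = ⊤ := by
    apply hprop
    intro hc
    have h1 := hcardcyc q hq0 (A ⊔ B) hc (fun a _ => hpow a)
    have h2 : A = A ⊔ B := by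
      apply Subgroup.eq_of_le_of_card_ge le_sup_left
      rw [hcA]; exact h1
    apply hy
    rw [h2]
    exact (le_sup_right : B ≤ A ⊔ B) (Subgroup.mem_zpowers y)
  have hinf : Nat.card (A ⊓ B : Subgroup G) = 1 := by
    have hd : Nat.card (A ⊓ B : Subgroup G) ∣ q := by
      rw [← hcB]
      exact Subgroup.card_dvd_of_le inf_le_right
    rcases (Nat.dvd_prime hqprime).1 hd with h | h
    · exact h
    · exfalso
      have h2 : (A ⊓ B : Subgroup G) = B := by
        apply Subgroup.eq_of_le_of_card_ge inf_le_right
        rw [h, hcB]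
      apply hy
      have : y ∈ (A ⊓ B : Subgroup G) := by rw [h2]; exact Subgroup.mem_zpowers y
      exact this.1
  have hmul := H18.card_sup_mul_card_inf B A
  rw [sup_comm, hsup, Subgroup.card_top, inf_comm, hinf, hcA, hcB, mul_one] at hmul
  rw [hmul, pow_two]

end Cfsg.Agent.S3917
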