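import Cfsg.Statements.S3918
import Mathlib
import Cfsg.Agent.Lib.H06.Nilp
import Cfsg.Agent.Lib.H19.Lifts
import Cfsg.Agent.Lib.H14.Nilp
import Cfsg.Agent.Lib.H14.UniqueSub
import Cfsg.Agent.Lib.H18.Basic
import Cfsg.Agent.Lib.H18.PGroup
import Cfsg.Agent.Lib.H18.MC
import Cfsg.Agent.Lib.H18.PNormal
import Cfsg.Agent.Lib.H01.Coprime

set_option autoImplicit false
open Cfsg

namespace Cfsg.Agent.S3918


variable {G : Type*} [Group G]

theorem not_cyclic_of_exp {p : ℕ} [Fact p.Prime] (K : Subgroup G) (hK : Nat.card K = p ^ 2)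
    (hexp : ∀ a ∈ K, a ^ p = 1) : ¬ IsCyclic K := by
  intro hc
  have hp : p.Prime := Fact.out
  obtain ⟨g, hg⟩ := IsCyclic.exists_generator (α := K)
  have h1 := orderOf_eq_card_of_forall_mem_zpowers hg
  have h2 : g ^ p = 1 := Subtype.ext (by simpa using hexp g g.2)
  have h3 := orderOf_dvd_of_pow_eq_one h2
  rw [h1, hK] at h3
  have := Nat.le_of_dvd hp.pos h3
  nlinarith [hp.two_le]

theorem exp_of_not_cyclic {p : ℕ} [Fact p.Prime] (K : Subgroup G) (hK : Nat.card K = p ^ 2)
    (hc : ¬ IsCyclic K) : ∀ a ∈ K, a ^ p = 1 := by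
  intro a ha
  have hp : p.Prime := Fact.out
  haveI : Finite K := Nat.finite_of_card_ne_zero (by rw [hK]; exact pow_ne_zero _ hp.ne_zero)
  have h1 : orderOf (⟨a, ha⟩ : K) ∣ p ^ 2 := hK ▸ orderOf_dvd_natCard _
  obtain ⟨i, hi, hio⟩ := (Nat.dvd_prime_pow hp).mp h1
  have h2 : (⟨a, ha⟩ : K) ^ p = 1 := by
    interval_cases i
    · rw [pow_zero, orderOf_eq_one_iff] at hio
      rw [hio, one_pow]
    · rw [pow_one] at hio
      rw [← hio, pow_orderOf_eq_one]
    · exfalso
      exact hc (isCyclic_of_orderOf_eq_card _ (by rw [hio, hK]))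
  simpa using congrArg Subtype.val h2

theorem card_normalizer_le {p : ℕ} [Fact p.Prime] [Finite G] (hG : IsPGroup p G)
    (K : Subgroup G) (hK : Nat.card K = p ^ 2) (hc : ¬ IsCyclic K)
    (hCK : Subgroup.centralizer (K : Set G) ≤ K) :
    Nat.card (Subgroup.normalizer (K : Set G)) ≤ p ^ 3 := by
  classical
  have hp : p.Prime := Fact.out
  have hexpK := exp_of_not_cyclic K hK hc
  set N := Subgroup.normalizer (K : Set G) with hN
  have hKN : K ≤ N := Subgroup.le_normalizer
  let K' : Subgroup N := K.subgroupOf N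
  haveI hK'n : K'.Normal := Subgroup.normal_subgroupOf_of_le_normalizer le_rfl
  haveI : Group.IsNilpotent N := (hG.to_subgroup N).isNilpotent
  have hcardK' : Nat.card K' = p ^ 2 := by
    have := H18.card_subgroupOf K N
    rw [inf_eq_left.2 hKN, hK] at this
    exact this
  have hK'ne : K' ≠ ⊥ := by
    intro h
    rw [h, Subgroup.card_bot] at hcardK'
    have : 1 < p ^ 2 := Nat.one_lt_pow (by norm_num) hp.one_lt
    omega
  obtain ⟨z, hzK', hz1, hzc⟩ := H06.exists_central_of_normal hK'n hK'ne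
  have hzK : (z : G) ∈ K := Subgroup.mem_subgroupOf.mp hzK'
  have hz1' : (z : G) ≠ 1 := fun h => hz1 (Subtype.ext h)
  have hzord : orderOf (z : G) = p := orderOf_eq_prime (hexpK _ hzK) hz1'
  have hzord' : orderOf z = p := by
    rw [← Subgroup.orderOf_coe, hzord]
  let L : Subgroup N := Subgroup.zpowers z
  have hLcard : Nat.card L = p := by
    show Nat.card (Subgroup.zpowers z) = p
    rw [Nat.card_zpowers, hzord']
  have hnot : ¬ K' ≤ L := by
    intro h
    have := Subgroup.card_le_of_le h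
    rw [hcardK', hLcard] at this
    nlinarith [hp.two_le]
  obtain ⟨x, hxK', hxL, hx⟩ := H14.exists_commutator_mem hK'n hnot
  have hxK : (x : G) ∈ K := Subgroup.mem_subgroupOf.mp hxK'
  have hri := H18.mc_relIndex_centralizer_le N (x : G) (Subgroup.zpowers (z : G)) (by
    intro y hy
    have h1 := (hx ⟨y, hy⟩).2
    have h2 : (⟨y, hy⟩ : N) * x * (⟨y, hy⟩ : N)⁻¹ * x⁻¹ ∈ L := by
      have := L.inv_mem h1
      convert this using 1
      group
    obtain ⟨i, hi⟩ := Subgroup.mem_zpowers_iff.mp h2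
    refine Subgroup.mem_zpowers_iff.mpr ⟨i, ?_⟩
    have := congrArg Subtype.val hi
    simpa using this)
  rw [Nat.card_zpowers, hzord] at hri
  -- N ∩ C(x) ≤ K
  have hinf : Subgroup.centralizer ({(x : G)} : Set G) ⊓ N ≤ K := by
    rintro g ⟨hg1, hg2⟩
    apply hCK
    rw [Subgroup.mem_centralizer_iff]
    intro k hk
    -- K = ⟨z⟩ ⊔ ⟨x⟩
    set M := Subgroup.zpowers (z : G) ⊔ Subgroup.zpowers (x : G) with hM
    have hMK : M ≤ K := sup_le ((Subgroup.zpowers_le).2 hzK) ((Subgroup.zpowers_le).2 hxK)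
    have hlt : Subgroup.zpowers (z : G) < M := by
      refine lt_of_le_of_ne le_sup_left ?_
      intro h
      have hxM : (x : G) ∈ M := (le_sup_right : Subgroup.zpowers (x : G) ≤ M) (Subgroup.mem_zpowers _)
      rw [← h] at hxM
      obtain ⟨i, hi⟩ := Subgroup.mem_zpowers_iff.mp hxM
      apply hxL
      refine Subgroup.mem_zpowers_iff.mpr ⟨i, ?_⟩
      apply Subtype.ext
      simpa using hi
    have h3 := H18.card_mul_le_of_lt hG hlt
    rw [Nat.card_zpowers, hzord, ← sq, ← hK] at h3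
    have hMeq : M = K := Subgroup.eq_of_le_of_card_ge hMK h3
    have hkM : k ∈ M := hMeq ▸ hk
    have hgM : M ≤ Subgroup.centralizer ({g} : Set G) := by
      refine sup_le ?_ ?_
      · rw [Subgroup.zpowers_le, Subgroup.mem_centralizer_singleton_iff]
        have := (Subgroup.mem_center_iff.mp hzc) ⟨g, hg2⟩
        exact (congrArg Subtype.val this).symm
      · rw [Subgroup.zpowers_le, Subgroup.mem_centralizer_singleton_iff]
        have := (Subgroup.mem_centralizer_singleton_iff.mp hg1)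
        exact this.symm
    have := Subgroup.mem_centralizer_singleton_iff.mp (hgM hkM)
    exact this
  have h4 := H18.card_inf_mul_relIndex (Subgroup.centralizer ({(x : G)} : Set G)) N
  have h5 := Subgroup.card_le_of_le hinf
  rw [hK] at h5
  rw [← h4]
  calc _ ≤ p ^ 2 * p := Nat.mul_le_mul h5 hri
    _ = p ^ 3 := by ring

theorem exists_first {p : ℕ} [Fact p.Prime] [Finite G] (hp2 : p ≠ 2) (hG : IsPGroup p G)
    (hnc : ¬ IsCyclic G) : ∃ K : Subgroup G, Nat.card K = p ^ 2 ∧ ¬ IsCyclic K := by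
  classical
  have hp : p.Prime := Fact.out
  have hnu : ¬ H14.UniqueP p G := fun hu => hnc (H14.isCyclic_of_uniqueP_odd hp2 _ G rfl hG hu)
  unfold H14.UniqueP at hnu
  push Not at hnu
  obtain ⟨x₁, y₁, hx₁, hy₁, hyx⟩ := hnu
  haveI : Nontrivial G := by
    refine ⟨⟨x₁, 1, fun h => ?_⟩⟩
    rw [h, orderOf_one] at hx₁
    exact hp.one_lt.ne hx₁
  haveI : Group.IsNilpotent G := hG.isNilpotent
  obtain ⟨z₀, -, hz₀1, hz₀c⟩ := H06.exists_central_of_normal (N := (⊤ : Subgroup G)) inferInstance top_ne_bot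
  obtain ⟨s, hs⟩ := IsPGroup.iff_orderOf.mp hG z₀
  have hs0 : s ≠ 0 := by
    rintro rfl
    rw [pow_zero, orderOf_eq_one_iff] at hs
    exact hz₀1 hs
  obtain ⟨s', rfl⟩ := Nat.exists_eq_succ_of_ne_zero hs0
  set z := z₀ ^ p ^ s' with hz
  have hzord : orderOf z = p := by
    rw [hz, orderOf_pow_of_dvd (pow_ne_zero _ hp.ne_zero), hs, Nat.succ_eq_add_one, pow_succ]
    · exact Nat.mul_div_cancel_left _ (pow_pos hp.pos _)
    · rw [hs]; exact pow_dvd_pow _ (Nat.le_succ _)
  have hzc : z ∈ Subgroup.center G := Subgroup.pow_mem _ hz₀c _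
  -- an element of order p off ⟨z⟩
  obtain ⟨x, hxo, hxz⟩ : ∃ x, orderOf x = p ∧ x ∉ Subgroup.zpowers z := by
    by_contra hcon
    push Not at hcon
    have h1 := hcon x₁ hx₁
    have h2 := hcon y₁ hy₁
    have h3 : Subgroup.zpowers x₁ = Subgroup.zpowers z := by
      apply Subgroup.eq_of_le_of_card_ge ((Subgroup.zpowers_le).2 h1)
      rw [Nat.card_zpowers, Nat.card_zpowers, hzord, hx₁]
    rw [← h3] at h2
    exact hyx h2
  set Zs := Subgroup.zpowers z with hZs
  have hZc : Zs ≤ Subgroup.center G := by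
    rw [hZs, Subgroup.zpowers_le]; exact hzc
  haveI hZn : Zs.Normal := by
    constructor
    intro w hw g
    have := (Subgroup.mem_center_iff.1 (hZc hw)) g
    rw [this]
    simpa using hw
  have hcard : Nat.card (Subgroup.zpowers x ⊔ Zs : Subgroup G) = p ^ 2 := by
    have h1 := H18.card_sup_mul_card_inf (Subgroup.zpowers x) Zs
    have h2 : (Subgroup.zpowers x ⊓ Zs : Subgroup G) = ⊥ := by
      by_contra hne
      obtain ⟨⟨a, ha2, ha3⟩, ha1'⟩ := Subgroup.ne_bot_iff_exists_ne_one.mp hne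
      have ha1 : a ≠ 1 := fun h' => ha1' (Subtype.ext h')
      -- a generates ⟨x⟩
      have hao : orderOf a = p := by
        have : a ^ p = 1 := by
          obtain ⟨i, rfl⟩ := Subgroup.mem_zpowers_iff.mp ha2
          rw [← zpow_natCast, zpow_comm, zpow_natCast, ← hxo, pow_orderOf_eq_one, one_zpow]
        exact orderOf_eq_prime this ha1
      have : Subgroup.zpowers a = Subgroup.zpowers x := by
        apply Subgroup.eq_of_le_of_card_ge ((Subgroup.zpowers_le).2 ha2)
        rw [Nat.card_zpowers, Nat.card_zpowers, hao, hxo]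
      apply hxz
      have hxa : x ∈ Subgroup.zpowers a := this ▸ Subgroup.mem_zpowers x
      exact ((Subgroup.zpowers_le).2 ha3) hxa
    rw [h2, Subgroup.card_bot, mul_one, hZs, Nat.card_zpowers, Nat.card_zpowers, hzord, hxo] at h1
    rw [hZs, h1]; ring
  refine ⟨_, hcard, not_cyclic_of_exp _ hcard ?_⟩
  intro a ha
  obtain ⟨b, hb, c, hc, rfl⟩ := H18.mem_sup_normal_right.mp ha
  have hcc : Commute b c := by
    have := (Subgroup.mem_center_iff.1 (hZc hc)) b
    exact this
  rw [hcc.mul_pow]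
  have h1 : b ^ p = 1 := by
    obtain ⟨i, rfl⟩ := Subgroup.mem_zpowers_iff.mp hb
    rw [← zpow_natCast, zpow_comm, zpow_natCast, ← hxo, pow_orderOf_eq_one, one_zpow]
  have h2 : c ^ p = 1 := by
    obtain ⟨i, rfl⟩ := Subgroup.mem_zpowers_iff.mp hc
    rw [← zpow_natCast, zpow_comm, zpow_natCast, ← hzord, pow_orderOf_eq_one, one_zpow]
  rw [h1, h2, one_mul]


/-- Say that a group has self-centralizing non-cyclic subgroups when every non-cyclic subgroup H satisfies C_G(H) ≤ H. For an odd prime p, a finite non-abelian p-group has self-centralizing non-cyclic subgroups if and only if it has order p³. -/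
theorem result {G : Type*} [Group G] [Finite G] {p : ℕ} [Fact p.Prime] (hp : p ≠ 2) (hG : IsPGroup p G) (hna : ¬ IsMulCommutative G) :
    (∀ H : Subgroup G, ¬ IsCyclic ↥H → Subgroup.centralizer (H : Set G) ≤ H) ↔ Nat.card G = p ^ 3 := by
  classical
have hpp : p.Prime := Fact.out
constructor
· intro hyp
  have hGnc : ¬ IsCyclic G := fun hc => hna (IsCyclic.isMulCommutative)
  let S : Set (Subgroup G) := {K | Nat.card K = p ^ 2 ∧ ¬ IsCyclic K}
  have hSne : S.Nonempty := exists_first hp hG hGnc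
  obtain ⟨K, ⟨hK, hKc⟩, hmax⟩ := Set.exists_max_image S
    (fun K => Nat.card (Subgroup.normalizer (K : Set G))) S.toFinite hSne
  have hbound := card_normalizer_le hG K hK hKc (hyp K hKc)
  set N := Subgroup.normalizer (K : Set G) with hN
  have hKN : K ≤ N := Subgroup.le_normalizer
  by_cases hNtop : N = ⊤
  · have hcardG : Nat.card G ≤ p ^ 3 := by
      rw [hNtop, Subgroup.card_top] at hbound
      exact hbound
    obtain ⟨k, hk⟩ := IsPGroup.iff_card.mp hG
    have hk3 : k ≤ 3 := by
      rw [hk] at hcardG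
      exact (Nat.pow_le_pow_iff_right hpp.one_lt).mp hcardG
    have hk2 : ¬ k ≤ 2 := by
      intro hk2
      apply hna
      rw [isMulCommutative_iff]
      apply H18.comm_of_card_le_sq hG
      rw [hk]
      exact Nat.pow_le_pow_right hpp.pos hk2
    have : k = 3 := by omega
    rw [hk, this]
  · exfalso
    have hlt : N < ⊤ := lt_top_iff_ne_top.2 hNtop
    haveI : Group.IsNilpotent (⊤ : Subgroup G) := (hG.to_subgroup _).isNilpotent
    obtain ⟨r, -, hrN, hrN2⟩ := H19.exists_mem_normalizer_of_lt hlt inferInstance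
    set N₂ := Subgroup.normalizer (N : Set G) with hN₂
    have hNN₂ : N ≤ N₂ := Subgroup.le_normalizer
    have hNltN₂ : N < N₂ := lt_of_le_of_ne hNN₂ (fun h => hrN (h ▸ hrN2))
    have hcardlt : Nat.card N < Nat.card N₂ := by
      have := H18.card_mul_le_of_lt hG hNltN₂
      have h1 : 0 < Nat.card N := Nat.card_pos
      nlinarith [hpp.two_le]
    -- Ω
    let Ω : Subgroup G :=
      { carrier := {a | a ∈ N ∧ a ^ p = 1}
        one_mem' := ⟨N.one_mem, one_pow p⟩
        mul_mem' := by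
          rintro a b ⟨ha, ha'⟩ ⟨hb, hb'⟩
          refine ⟨N.mul_mem ha hb, ?_⟩
          have h1 : (⟨a, ha⟩ : N) ^ p = 1 := Subtype.ext (by simpa using ha')
          have h2 : (⟨b, hb⟩ : N) ^ p = 1 := Subtype.ext (by simpa using hb')
          have := H18.mul_pow_prime_of_card_le_cube hp (hG.to_subgroup N) hbound h1 h2
          simpa using congrArg Subtype.val this
        inv_mem' := by
          rintro a ⟨ha, ha'⟩
          refine ⟨N.inv_mem ha, ?_⟩
          rw [inv_pow, ha', inv_one] }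
    have hΩN : Ω ≤ N := fun a ha => ha.1
    have hKΩ : K ≤ Ω := fun a ha => ⟨hKN ha, exp_of_not_cyclic K hK hKc a ha⟩
    have hΩN₂ : Ω ≤ N₂ := hΩN.trans hNN₂
    have hAn : (Ω.subgroupOf N₂).Normal := by
      constructor
      intro a ha g
      rw [Subgroup.mem_subgroupOf] at ha ⊢
      obtain ⟨ha1, ha2⟩ := ha
      refine ⟨?_, ?_⟩
      · exact H01.conj_mem_of_mem_normalizer g.2 ha1
      · simp only [Subgroup.coe_mul, Subgroup.coe_inv]
        rw [conj_pow, ha2]; group
    have hdvd : p ^ 2 ∣ Nat.card (Ω.subgroupOf N₂) := by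
      have := H18.card_subgroupOf Ω N₂
      rw [inf_eq_left.2 hΩN₂] at this
      rw [this, ← hK]
      exact Subgroup.card_dvd_of_le hKΩ
    obtain ⟨D, hDA, hDn, hDc⟩ := H18.exists_normal_le_card_pow (hG.to_subgroup N₂) hAn hdvd
    set K' := D.map N₂.subtype with hK'
    have hK'c : Nat.card K' = p ^ 2 := by
      rw [hK', Subgroup.card_map_of_injective N₂.subtype_injective, hDc]
    have hK'Ω : K' ≤ Ω := by
      rintro _ ⟨d, hd, rfl⟩
      exact Subgroup.mem_subgroupOf.mp (hDA hd)
    have hK'nc := not_cyclic_of_exp K' hK'c (fun a ha => (hK'Ω ha).2)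
    have hle : N₂ ≤ Subgroup.normalizer (K' : Set G) := by
      intro g hg
      rw [Subgroup.mem_normalizer_iff]
      intro a
      constructor
      · rintro ⟨d, hd, rfl⟩
        refine ⟨⟨g, hg⟩ * d * (⟨g, hg⟩ : N₂)⁻¹, hDn.conj_mem d hd _, ?_⟩
        simp
      · rintro ⟨d, hd, hde⟩
        refine ⟨(⟨g, hg⟩ : N₂)⁻¹ * d * ((⟨g, hg⟩ : N₂)⁻¹)⁻¹, hDn.conj_mem d hd _, ?_⟩
        simp only [Subgroup.coe_subtype, Subgroup.coe_mul, Subgroup.coe_inv, inv_inv] at hde ⊢
        rw [hde]; group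
    have h1 := hmax K' ⟨hK'c, hK'nc⟩
    have h2 := Subgroup.card_le_of_le hle
    omega
· intro hcard
  intro H hHc x hx
  by_contra hxH
  -- H has order p²
  have hHp : IsPGroup p H := hG.to_subgroup H
  obtain ⟨k, hk⟩ := IsPGroup.iff_card.mp hHp
  have hHle : Nat.card H ∣ p ^ 3 := hcard ▸ Subgroup.card_subgroup_dvd_card H
  have hk3 : k ≤ 3 := by
    rw [hk] at hHle
    exact (Nat.pow_dvd_pow_iff_le_right hpp.one_lt).mp hHle
  have hk2 : 2 ≤ k := by
    by_contra hlt
    have : k = 0 ∨ k = 1 := by omega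
    rcases this with rfl | rfl
    · rw [pow_zero, Subgroup.card_eq_one] at hk
      apply hHc
      rw [hk]
      exact isCyclic_of_subsingleton
    · rw [pow_one] at hk
      exact hHc (isCyclic_of_prime_card hk)
  -- C(H) = G
  have hk3' : k ≠ 3 := by
    rintro rfl
    have : H = ⊤ := by
      apply Subgroup.eq_of_le_of_card_ge le_top
      rw [Subgroup.card_top, hk, hcard]
    exact hxH (this ▸ Subgroup.mem_top x)
  have hk2' : k = 2 := by omega
  rw [hk2'] at hk
  have hHab : ∀ a ∈ H, ∀ b ∈ H, a * b = b * a := by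
    intro a ha b hb
    have := isMulCommutative_iff.mp (IsPGroup.isMulCommutative_of_card_eq_prime_sq hk)
      (⟨a, ha⟩ : H) ⟨b, hb⟩
    exact congrArg Subtype.val this
  have hHC : H ≤ Subgroup.centralizer (H : Set G) := by
    intro a ha
    rw [Subgroup.mem_centralizer_iff]
    intro b hb
    exact hHab b hb a ha
  have hlt : H < Subgroup.centralizer (H : Set G) :=
    lt_of_le_of_ne hHC (fun h => hxH (h ▸ hx))
  have h1 := H18.card_mul_le_of_lt hG hlt
  have hCtop : Subgroup.centralizer (H : Set G) = ⊤ := by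
    apply Subgroup.eq_of_le_of_card_ge le_top
    rw [Subgroup.card_top, hcard]
    rw [hk] at h1
    calc p ^ 3 = p * p ^ 2 := by ring
      _ ≤ _ := h1
  have hHZ : H ≤ Subgroup.center G := by
    intro a ha
    rw [Subgroup.mem_center_iff]
    intro g
    have hg : g ∈ Subgroup.centralizer (H : Set G) := hCtop ▸ Subgroup.mem_top g
    exact (Subgroup.mem_centralizer_iff.mp hg a ha).symm
  apply hna
  -- G / Z is cyclic
  have hdvd : Nat.card (G ⧸ Subgroup.center G) ∣ p := by
    have h2 := Subgroup.card_eq_card_quotient_mul_card_subgroup (Subgroup.center G)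
    have h3 : p ^ 2 ∣ Nat.card (Subgroup.center G) := hk ▸ Subgroup.card_dvd_of_le hHZ
    obtain ⟨m, hm⟩ := h3
    rw [hm, hcard] at h2
    refine ⟨m, ?_⟩
    have h4 : p ^ 2 * p = p ^ 2 * (Nat.card (G ⧸ Subgroup.center G) * m) := by
      rw [← mul_assoc, mul_comm (p ^ 2) (Nat.card (G ⧸ Subgroup.center G)), mul_assoc]
      rw [← h2]; ring
    exact Nat.eq_of_mul_eq_mul_left (pow_pos hpp.pos 2) h4
  haveI : IsCyclic (G ⧸ Subgroup.center G) := by
    rcases (Nat.dvd_prime hpp).mp hdvd with h | h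
    · rw [Nat.card_eq_one_iff_unique] at h
      haveI := h.1
      exact isCyclic_of_subsingleton
    · exact isCyclic_of_prime_card h
  apply MonoidHom.isMulCommutative_of_isCyclic_of_ker_le_center (QuotientGroup.mk' (Subgroup.center G))
  rw [QuotientGroup.ker_mk']

end Cfsg.Agent.S3918
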