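import Cfsg.Statements.S3919
import Mathlib
import Cfsg.Agent.Lib.H19.MaxClass
import Cfsg.Agent.Lib.H14.UniqueSub
import Cfsg.Agent.Lib.H18.Basic
import Cfsg.Agent.Lib.H18.Syl
import Cfsg.Agent.Lib.H18.MaxClass2

set_option autoImplicit false
open Cfsg

namespace Cfsg.Agent.S3919


open scoped commutatorElement

theorem unique_two {C : Type*} [Group C] [Finite C] [IsCyclic C] (u v : C) (hu : orderOf u = 2)
    (hv : orderOf v = 2) : u = v := by
  classical
  haveI := Fintype.ofFinite C
  have hd : 2 ∣ Fintype.card C := hu ▸ orderOf_dvd_card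
  have h1 := IsCyclic.card_orderOf_eq_totient (α := C) hd
  have h2 : (Finset.univ.filter (fun a : C => orderOf a = 2)).card ≤ 1 := by
    rw [h1, Nat.totient_prime Nat.prime_two]
  exact Finset.card_le_one.mp h2 u (by simp [hu]) v (by simp [hv])

theorem quat_comm (N : ℕ) (i : ZMod (2 * N)) :
    ⁅QuaternionGroup.a i, (QuaternionGroup.xa 0 : QuaternionGroup N)⁆ = QuaternionGroup.a (2 * i) := by
  have hNN : ((N : ZMod (2 * N)) + N) = 0 := by
    have : ((2 * N : ℕ) : ZMod (2 * N)) = 0 := ZMod.natCast_self _
    push_cast at this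
    rw [← two_mul]
    exact this
  have h1 : (QuaternionGroup.a i : QuaternionGroup N)⁻¹ = QuaternionGroup.a (-i) := by
    apply inv_eq_of_mul_eq_one_right
    rw [QuaternionGroup.a_mul_a, add_neg_cancel, QuaternionGroup.a_zero]
  have h2 : (QuaternionGroup.xa 0 : QuaternionGroup N)⁻¹ = QuaternionGroup.xa (N : ZMod (2 * N)) := by
    apply inv_eq_of_mul_eq_one_right
    rw [QuaternionGroup.xa_mul_xa, sub_zero, hNN, QuaternionGroup.a_zero]
  rw [commutatorElement_def, h1, h2, QuaternionGroup.a_mul_xa, QuaternionGroup.xa_mul_a,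
    QuaternionGroup.xa_mul_xa, hNN]
  congr 1
  ring

theorem quat_mem_lcs (N j : ℕ) :
    (QuaternionGroup.a ((2 : ZMod (2 * N)) ^ j) : QuaternionGroup N) ∈
      (⊤ : Subgroup (QuaternionGroup N)).lowerCentralSeries j := by
  induction j with
  | zero => exact Subgroup.mem_top _
  | succ j ih =>
    have h1 := Subgroup.commutator_mem_commutator ih (Subgroup.mem_top (QuaternionGroup.xa 0 : QuaternionGroup N))
    rw [quat_comm, ← pow_succ'] at h1
    exact h1


/-- Say that a group has self-centralizing non-cyclic subgroups when every non-cyclic subgroup H satisfies C_G(H) ≤ H. A finite non-abelian 2-group G of order 2^n has self-centralizing non-cyclic subgroups if and only if G has nilpotency class n − 1 (that is, G is dihedral, semidihedral or generalized quaternion). -/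
theorem result {G : Type*} [Group G] [Finite G] (hna : ¬ IsMulCommutative G) (n : ℕ) (hG : Nat.card G = 2 ^ n) :
    (∀ H : Subgroup G, ¬ IsCyclic ↥H → Subgroup.centralizer (H : Set G) ≤ H) ↔ (⊤ : Subgroup G).lowerCentralSeries (n - 2) ≠ ⊥ := by
  classical
haveI : Fact (Nat.Prime 2) := ⟨Nat.prime_two⟩
have hGp : IsPGroup 2 G := IsPGroup.of_card hG
haveI hnil : Group.IsNilpotent G := hGp.isNilpotent
have hn3 : 3 ≤ n := by
  by_contra h
  apply hna
  rw [isMulCommutative_iff]
  intro a b
  apply H19.comm_of_card_dvd_sq (p := 2)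
  rw [hG]
  exact pow_dvd_pow 2 (by omega)
constructor
· intro hself
  haveI hGnt : Nontrivial G := by
    by_contra h
    rw [not_nontrivial_iff_subsingleton] at h
    apply hna
    rw [isMulCommutative_iff]
    intro a b
    exact Subsingleton.elim _ _
  haveI hnt : Nontrivial (Subgroup.center G) := hGp.center_nontrivial
  have hdvd : 2 ∣ Nat.card (Subgroup.center G) := by
    obtain ⟨k, hk⟩ := IsPGroup.iff_card.mp (hGp.to_subgroup (Subgroup.center G))
    have hk0 : k ≠ 0 := by
      rintro rfl
      rw [pow_zero] at hk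
      have := Finite.one_lt_card (α := Subgroup.center G)
      omega
    rw [hk]
    exact dvd_pow_self 2 hk0
  obtain ⟨z0, hz0⟩ := exists_prime_orderOf_dvd_card' 2 hdvd
  obtain ⟨z, hzC, hzo⟩ : ∃ z : G, z ∈ Subgroup.center G ∧ orderOf z = 2 :=
    ⟨z0, z0.2, by rw [Subgroup.orderOf_coe, hz0]⟩
  by_cases hex : ∃ y : G, orderOf y = 2 ∧ y ≠ z
  · obtain ⟨y, hyo, hyz⟩ := hex
    have hzn : (Subgroup.zpowers z).Normal := by
      constructor
      intro u hu g
      have hu' : u ∈ Subgroup.center G := (Subgroup.zpowers_le.mpr hzC) hu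
      have := Subgroup.mem_center_iff.mp hu' g
      rw [this, mul_inv_cancel_right]
      exact hu
    haveI := hzn
    have hinf : Subgroup.zpowers y ⊓ Subgroup.zpowers z = ⊥ := by
      have hdv : Nat.card (Subgroup.zpowers y ⊓ Subgroup.zpowers z : Subgroup G) ∣ 2 := by
        have := Subgroup.card_dvd_of_le (inf_le_right : Subgroup.zpowers y ⊓ Subgroup.zpowers z ≤ Subgroup.zpowers z)
        rwa [Nat.card_zpowers, hzo] at this
      rcases (Nat.dvd_prime Nat.prime_two).mp hdv with h1 | h2
      · exact Subgroup.card_eq_one.mp h1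
      · exfalso
        have h3 : Subgroup.zpowers y ⊓ Subgroup.zpowers z = Subgroup.zpowers y := by
          apply Subgroup.eq_of_le_of_card_ge inf_le_left
          rw [h2, Nat.card_zpowers, hyo]
        have hy : y ∈ Subgroup.zpowers z := by
          have : y ∈ Subgroup.zpowers y ⊓ Subgroup.zpowers z := by
            rw [h3]
            exact Subgroup.mem_zpowers y
          exact this.2
        obtain ⟨w, hw, -, -, hu⟩ := H18.exists_of_card_two (Subgroup.zpowers z) (by rw [Nat.card_zpowers, hzo])
        have hy1 : y ≠ 1 := by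
          rintro rfl
          rw [orderOf_one] at hyo
          omega
        have hz1 : z ≠ 1 := by
          intro h0
          rw [h0, orderOf_one] at hzo
          omega
        have e1 := (hu y hy).resolve_left hy1
        have e2 := (hu z (Subgroup.mem_zpowers z)).resolve_left hz1
        exact hyz (e1.trans e2.symm)
    set K := Subgroup.zpowers y ⊔ Subgroup.zpowers z with hK
    have hK4 : Nat.card K = 2 ^ 2 := by
      have := H18.card_sup_mul_card_inf (Subgroup.zpowers y) (Subgroup.zpowers z)
      rw [hinf, Subgroup.card_bot, mul_one, Nat.card_zpowers, Nat.card_zpowers, hyo, hzo] at this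
      rw [this]
      norm_num
    have hKexp : ∀ a ∈ K, a ^ 2 = 1 := by
      intro a ha
      obtain ⟨u, hu, v, hv, rfl⟩ := H18.mem_sup_normal_right.mp ha
      have hvC : v ∈ Subgroup.center G := (Subgroup.zpowers_le.mpr hzC) hv
      have hcm : Commute u v := Subgroup.mem_center_iff.mp hvC u
      rw [hcm.mul_pow]
      obtain ⟨i, rfl⟩ := Subgroup.mem_zpowers_iff.mp hu
      obtain ⟨j, rfl⟩ := Subgroup.mem_zpowers_iff.mp hv
      have h1 : y ^ 2 = 1 := by rw [← hyo, pow_orderOf_eq_one]
      have h2 : z ^ 2 = 1 := by rw [← hzo, pow_orderOf_eq_one]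
      rw [← zpow_natCast, ← zpow_natCast, ← zpow_mul, ← zpow_mul, mul_comm i, mul_comm j, zpow_mul,
        zpow_mul, zpow_natCast, zpow_natCast, h1, h2, one_zpow, one_zpow, one_mul]
    have hKc : ¬ IsCyclic K := by
      intro hc
      obtain ⟨g, hg⟩ := IsCyclic.exists_generator (α := K)
      have h1 := orderOf_eq_card_of_forall_mem_zpowers hg
      have h2 : g ^ 2 = 1 := Subtype.ext (by simpa using hKexp g g.2)
      have h3 := orderOf_dvd_of_pow_eq_one h2
      rw [h1, hK4] at h3
      have := Nat.le_of_dvd (by norm_num) h3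
      omega
    have hC := hself K hKc
    have hcl := H19.nilpotencyClass_of_selfCentralizing_sq (p := 2) n G hG K hK4 hC
    intro h0
    rw [Subgroup.lowerCentralSeries_eq_bot_iff_nilpotencyClass_le, hcl] at h0
    omega
  · push Not at hex
    have hu : H14.UniqueP 2 G := by
      intro a b ha hb
      rw [hex b hb, ← hex a ha]
      exact Subgroup.mem_zpowers a
    have hnc : ¬ IsCyclic G := by
      intro h
      exact hna IsCyclic.isMulCommutative
    obtain ⟨k, hk, ⟨φ⟩⟩ := H14.quaternion_of_uniqueP_two hGp hu hnc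
    haveI : NeZero (2 ^ k) := ⟨by positivity⟩
    have hcardQ : Nat.card (QuaternionGroup (2 ^ k)) = 4 * 2 ^ k := by
      rw [Nat.card_eq_fintype_card, QuaternionGroup.card]
    have hnk : n = k + 2 := by
      have h1 := Nat.card_congr φ.toEquiv
      rw [hG, hcardQ, show (4 : ℕ) * 2 ^ k = 2 ^ (k + 2) by ring] at h1
      exact Nat.pow_right_injective (le_refl 2) h1
    rw [hnk, Nat.add_sub_cancel]
    intro h0
    have h1 := Subgroup.map_lowerCentralSeries (⊤ : Subgroup G) φ.toMonoidHom k
    rw [h0, Subgroup.map_bot, Subgroup.map_top_of_surjective _ φ.surjective] at h1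
    have h2 := quat_mem_lcs (2 ^ k) k
    rw [← h1, Subgroup.mem_bot, QuaternionGroup.one_def] at h2
    have h3 := QuaternionGroup.a.inj h2
    have h4 : ((2 ^ k : ℕ) : ZMod (2 * 2 ^ k)) = 0 := by
      push_cast
      exact h3
    rw [ZMod.natCast_eq_zero_iff] at h4
    have h5 := Nat.le_of_dvd (by positivity) h4
    have h6 : 0 < 2 ^ k := by positivity
    omega
· intro hmax H hnc
  obtain ⟨a, hao⟩ := H18.exists_order_maxClass n hn3 G hG hmax
  obtain ⟨-, hc⟩ := H25.card_upperCentralSeries_of_maxClass hGp hG (by omega) hmax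
  have hZ2 : Nat.card (Subgroup.center G) = 2 := by
    have := hc 1 (by omega)
    rwa [Subgroup.upperCentralSeries_one, pow_one] at this
  obtain ⟨z, hzZ, hz1, hzz, hZu⟩ := H18.exists_of_card_two _ hZ2
  set A := Subgroup.zpowers a with hA
  have hAI : A.index = 2 := by
    have h1 := Subgroup.card_mul_index A
    rw [hG, hA, Nat.card_zpowers, hao, show n = (n - 1) + 1 by omega, pow_succ] at h1
    simp only [Nat.add_sub_cancel] at h1
    exact Nat.eq_of_mul_eq_mul_left (by positivity) h1
  have hzA : z ∈ A := by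
    by_contra hzn
    apply hna
    rw [isMulCommutative_iff]
    exact H18.comm_of_zpowers_index_two hAI hzn (Subgroup.mem_center_iff.mp hzZ a)
  have hzo : orderOf z = 2 := orderOf_eq_prime hzz hz1
  have hAuniq : ∀ w ∈ A, orderOf w = 2 → w = z := by
    intro w hw hwo
    have h1 := unique_two (C := A) ⟨w, hw⟩ ⟨z, hzA⟩ (by rw [Subgroup.orderOf_mk, hwo])
      (by rw [Subgroup.orderOf_mk, hzo])
    exact congrArg Subtype.val h1
  have hnle : ¬ H ≤ A := by
    intro hle
    exact hnc (isCyclic_of_injective (Subgroup.inclusion hle) (Subgroup.inclusion_injective hle))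
  obtain ⟨x, hxH, hxA⟩ := SetLike.not_le_iff_exists.mp hnle
  have hmul : ∀ g, g ∉ A → x⁻¹ * g ∈ A := by
    intro g hg
    rw [Subgroup.mul_mem_iff_of_index_two hAI]
    exact ⟨fun h => absurd ((Subgroup.inv_mem_iff _).mp h) hxA, fun h => absurd h hg⟩
  have hu : ∃ u ∈ H, u ∈ A ∧ u ≠ 1 := by
    by_contra hcon
    push Not at hcon
    have hle : H ≤ Subgroup.zpowers x := by
      intro y hy
      by_cases hyA : y ∈ A
      · rw [hcon y hy hyA]
        exact Subgroup.one_mem _
      · have h1 := hcon _ (H.mul_mem (H.inv_mem hxH) hy) (hmul y hyA)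
        have h2 : y = x := (inv_mul_eq_one.mp h1).symm
        rw [h2]
        exact Subgroup.mem_zpowers x
    exact hnc (isCyclic_of_injective (Subgroup.inclusion hle) (Subgroup.inclusion_injective hle))
  obtain ⟨u, huH, huA, hu1⟩ := hu
  have hzH : z ∈ H := by
    have h1 : orderOf u ∣ 2 ^ n := hG ▸ orderOf_dvd_natCard u
    obtain ⟨m, hm, hum⟩ := (Nat.dvd_prime_pow Nat.prime_two).mp h1
    have hm0 : m ≠ 0 := by
      rintro rfl
      rw [pow_zero, orderOf_eq_one_iff] at hum
      exact hu1 hum
    have h2 : 2 ∣ orderOf u := by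
      rw [hum]
      exact dvd_pow_self 2 hm0
    have h3 : orderOf (u ^ (orderOf u / 2)) = 2 :=
      orderOf_pow_orderOf_div (by rw [hum]; positivity) h2
    have h4 := hAuniq _ (A.pow_mem huA _) h3
    rw [← h4]
    exact H.pow_mem huH _
  have hcentral : ∀ b ∈ A, x * b = b * x → b ∈ Subgroup.center G := by
    intro b hb hbx
    rw [Subgroup.mem_center_iff]
    intro g
    have hcA : ∀ d ∈ A, d * b = b * d := by
      intro d hd
      obtain ⟨i, rfl⟩ := Subgroup.mem_zpowers_iff.mp hd
      obtain ⟨j, rfl⟩ := Subgroup.mem_zpowers_iff.mp hb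
      exact ((Commute.refl a).zpow_zpow i j).eq
    by_cases hg : g ∈ A
    · exact hcA g hg
    · have h1 := hmul g hg
      have h2 : Commute x b := hbx
      have h3 : Commute (x⁻¹ * g) b := hcA _ h1
      have h4 : g = x * (x⁻¹ * g) := by group
      rw [h4]
      exact (Commute.mul_left h2 h3).eq
  have hcH : ∀ b ∈ A, x * b = b * x → b ∈ H := by
    intro b hb hbx
    rcases hZu b (hcentral b hb hbx) with h | h
    · rw [h]
      exact H.one_mem
    · rw [h]
      exact hzH
  intro c hc'
  have hxc : x * c = c * x := Subgroup.mem_centralizer_iff.mp hc' x hxH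
  by_cases hcA : c ∈ A
  · exact hcH c hcA hxc
  · have h1 := hmul c hcA
    have h2 := hcH _ h1 (by
      calc x * (x⁻¹ * c) = c := by group
        _ = x⁻¹ * (x * c) := by group
        _ = x⁻¹ * (c * x) := by rw [hxc]
        _ = x⁻¹ * c * x := by group)
    have h3 : c = x * (x⁻¹ * c) := by group
    rw [h3]
    exact H.mul_mem hxH h2

end Cfsg.Agent.S3919
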