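import Cfsg.Statements.S3920
import Mathlib

set_option autoImplicit false
open Cfsg

namespace Cfsg.Agent.S3920


open DihedralGroup

theorem eq_zero_of_odd {n : ℕ} (hn : Odd n) (d : ZMod n) (h : d + d = 0) : d = 0 := by
  have hu : IsUnit (2 : ZMod n) := by
    have := (ZMod.isUnit_iff_coprime 2 n).2 (Nat.coprime_two_left.2 hn)
    simpa using this
  have h2 : (2 : ZMod n) * d = 0 := by rw [two_mul]; exact h
  exact (hu.mul_right_eq_zero).1 h2

theorem eq_half_of_two_pow (j : ℕ) (d : ZMod (2 ^ (j + 1))) (h : d + d = 0) (h0 : d ≠ 0) :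
    d = ((2 ^ j : ℕ) : ZMod (2 ^ (j + 1))) := by
  haveI : NeZero (2 ^ (j + 1)) := ⟨by positivity⟩
  have hv : ((d.val : ℕ) : ZMod (2 ^ (j + 1))) = d := ZMod.natCast_zmod_val d
  have h2 : ((2 * d.val : ℕ) : ZMod (2 ^ (j + 1))) = 0 := by
    push_cast
    rw [hv, two_mul, h]
  rw [ZMod.natCast_eq_zero_iff] at h2
  have h3 : 2 ^ j ∣ d.val := by
    have h4 : 2 * 2 ^ j ∣ 2 * d.val := by
      have e : 2 * 2 ^ j = 2 ^ (j + 1) := by rw [pow_succ, mul_comm]
      rw [e]; exact h2
    exact Nat.dvd_of_mul_dvd_mul_left (by norm_num) h4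
  obtain ⟨t, ht⟩ := h3
  have hlt : d.val < 2 ^ (j + 1) := ZMod.val_lt d
  have ht2 : t < 2 := by
    rw [ht, pow_succ] at hlt
    exact Nat.lt_of_mul_lt_mul_left hlt
  have ht0 : t ≠ 0 := by
    rintro rfl
    apply h0
    rw [← hv, ht]
    simp
  have ht1 : t = 1 := by omega
  rw [← hv, ht, ht1, mul_one]

theorem central_half {n : ℕ} (w : ZMod n) (hw : w + w = 0) (x : DihedralGroup n) :
    x * r w = r w * x := by
  have hw' : w = -w := by
    rw [eq_neg_iff_add_eq_zero]; exact hw
  cases x with
  | r i => simp [add_comm]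
  | sr i =>
    simp only [sr_mul_r, r_mul_sr]
    congr 1
    rw [sub_eq_add_neg, ← hw']


/-- Say that a group has self-centralizing non-cyclic subgroups when every non-cyclic subgroup H satisfies C_G(H) ≤ H. For n ≥ 3, the dihedral group of order 2n has self-centralizing non-cyclic subgroups if and only if n is odd or a power of 2. -/
theorem result (n : ℕ) (hn : 3 ≤ n) : (∀ H : Subgroup (DihedralGroup n), ¬ IsCyclic ↥H → Subgroup.centralizer (H : Set (DihedralGroup n)) ≤ H) ↔ (Odd n ∨ ∃ k : ℕ, n = 2 ^ k) := by
    classical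
  constructor
  · intro hX
    by_contra hne
    push Not at hne
    obtain ⟨hodd, hpow⟩ := hne
    have hn0 : n ≠ 0 := by omega
    obtain ⟨a, b, hb, hnab⟩ := Nat.exists_eq_two_pow_mul_odd hn0
    have ha : a ≠ 0 := by
      rintro rfl
      apply hodd
      simpa [hnab] using hb
    have hb1 : b ≠ 1 := by
      rintro rfl
      exact hpow a (by simpa using hnab)
    have hb3 : 3 ≤ b := by
      obtain ⟨c, rfl⟩ := hb
      omega
    obtain ⟨a', rfl⟩ : ∃ a', a = a' + 1 := ⟨a - 1, by omega⟩
    subst hnab
    let φ : ZMod (2 ^ (a' + 1) * b) →+* ZMod (2 ^ (a' + 1)) :=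
      ZMod.castHom (Dvd.intro b rfl) (ZMod (2 ^ (a' + 1)))
    let H : Subgroup (DihedralGroup (2 ^ (a' + 1) * b)) :=
      { carrier := {x | match x with
                        | r i => φ i = 0
                        | sr i => φ i = 0}
        one_mem' := by
          change φ 0 = 0
          simp
        mul_mem' := by
          rintro (x | x) (y | y) hx hy
          · change φ (x + y) = 0
            change φ x = 0 at hx
            change φ y = 0 at hy
            simp [hx, hy]
          · change φ (y - x) = 0
            change φ x = 0 at hx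
            change φ y = 0 at hy
            simp [hx, hy]
          · change φ (x + y) = 0
            change φ x = 0 at hx
            change φ y = 0 at hy
            simp [hx, hy]
          · change φ (y - x) = 0
            change φ x = 0 at hx
            change φ y = 0 at hy
            simp [hx, hy]
        inv_mem' := by
          rintro (x | x) hx
          · change φ (-x) = 0
            change φ x = 0 at hx
            simp [hx]
          · exact hx }
    have hmemr : ∀ i, r i ∈ H ↔ φ i = 0 := fun i => Iff.rfl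
    have hmemsr : ∀ i, sr i ∈ H ↔ φ i = 0 := fun i => Iff.rfl
    let c : ZMod (2 ^ (a' + 1) * b) := ((2 ^ (a' + 1) : ℕ) : ZMod (2 ^ (a' + 1) * b))
    have hc : φ c = 0 := by
      have h0 : c = ((2 ^ (a' + 1) : ℕ) : ZMod (2 ^ (a' + 1) * b)) := rfl
      rw [h0, map_natCast]
      exact ZMod.natCast_self _
    have hrc : r c ∈ H := (hmemr c).2 hc
    have hs0 : sr 0 ∈ H := (hmemsr 0).2 (by simp)
    have hnc : ¬ IsCyclic H := by
      intro hcyc
      obtain ⟨g, hg⟩ := IsCyclic.exists_generator (α := H)
      have hcomm : ∀ x y : H, x * y = y * x := by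
        intro x y
        obtain ⟨i, rfl⟩ := Subgroup.mem_zpowers_iff.1 (hg x)
        obtain ⟨j, rfl⟩ := Subgroup.mem_zpowers_iff.1 (hg y)
        rw [← zpow_add, ← zpow_add, add_comm i j]
      have h1 := hcomm ⟨r c, hrc⟩ ⟨sr 0, hs0⟩
      have h2 := congrArg Subtype.val h1
      simp only [Subgroup.coe_mul, r_mul_sr, sr_mul_r] at h2
      have h3 : c + c = 0 := by
        have h4 : (0 : ZMod (2 ^ (a' + 1) * b)) - c = 0 + c := by
          simpa using h2
        have h5 : -c = c := by simpa using h4
        rw [eq_comm, ← sub_eq_zero] at h5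
        rw [← h5]; ring
      have h6 : ((2 ^ (a' + 1) * 2 : ℕ) : ZMod (2 ^ (a' + 1) * b)) = 0 := by
        push_cast
        simp only [c] at h3
        push_cast at h3
        rw [mul_two]; exact h3
      rw [ZMod.natCast_eq_zero_iff] at h6
      have h7 : b ∣ 2 := Nat.dvd_of_mul_dvd_mul_left (by positivity) h6
      have := Nat.le_of_dvd (by norm_num) h7
      omega
    have hcen := hX H hnc
    let w : ZMod (2 ^ (a' + 1) * b) := ((2 ^ a' * b : ℕ) : ZMod (2 ^ (a' + 1) * b))
    have hw : w + w = 0 := by
      have h1 : ((2 ^ a' * b + 2 ^ a' * b : ℕ) : ZMod (2 ^ (a' + 1) * b)) = 0 := by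
        rw [ZMod.natCast_eq_zero_iff]
        exact ⟨1, by ring⟩
      rw [Nat.cast_add] at h1
      exact h1
    have hz : r w ∈ Subgroup.centralizer (H : Set (DihedralGroup (2 ^ (a' + 1) * b))) := by
      rw [Subgroup.mem_centralizer_iff]
      intro h _
      exact central_half w hw h
    have hzH := hcen hz
    rw [hmemr] at hzH
    have h8 : ((2 ^ a' * b : ℕ) : ZMod (2 ^ (a' + 1))) = 0 := by
      have : φ w = ((2 ^ a' * b : ℕ) : ZMod (2 ^ (a' + 1))) := by
        change φ ((2 ^ a' * b : ℕ) : ZMod (2 ^ (a' + 1) * b)) = _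
        rw [map_natCast]
      rw [← this]; exact hzH
    rw [ZMod.natCast_eq_zero_iff, pow_succ] at h8
    have h9 : 2 ∣ b := Nat.dvd_of_mul_dvd_mul_left (by positivity) h8
    obtain ⟨t, ht⟩ := hb
    omega
  · intro hn2 H hH x hx
    rw [Subgroup.mem_centralizer_iff] at hx
    -- `H` contains a reflection
    obtain ⟨j, hj⟩ : ∃ j, sr j ∈ H := by
      by_contra hno
      push Not at hno
      apply hH
      have hle : H ≤ Subgroup.zpowers (r 1 : DihedralGroup n) := by
        rintro (y | y) hy
        · rw [Subgroup.mem_zpowers_iff]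
          haveI : NeZero n := ⟨by omega⟩
          refine ⟨(y.val : ℤ), ?_⟩
          simp
        · exact absurd hy (hno y)
      haveI : IsCyclic (Subgroup.zpowers (r 1 : DihedralGroup n)) := inferInstance
      exact Subgroup.isCyclic_of_le hle
    -- `H` contains a non-trivial rotation
    obtain ⟨a, haH, ha0⟩ : ∃ a, r a ∈ H ∧ a ≠ 0 := by
      by_contra hno
      push Not at hno
      apply hH
      have hle : H ≤ Subgroup.zpowers (sr j : DihedralGroup n) := by
        rintro (y | y) hy
        · rw [hno y hy]
          exact Subgroup.one_mem _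
        · have h1 : sr j * sr y ∈ H := H.mul_mem hj hy
          rw [sr_mul_sr] at h1
          have h2 := hno _ h1
          have h3 : y = j := sub_eq_zero.1 h2
          rw [h3]
          exact Subgroup.mem_zpowers _
      exact Subgroup.isCyclic_of_le hle
    -- the central involution when `n` is a power of two
    have key : ∀ d : ZMod n, d + d = 0 → d ≠ 0 → r d ∈ H := by
      intro d hd hd0
      rcases hn2 with hodd | ⟨k, rfl⟩
      · exact absurd (eq_zero_of_odd hodd d hd) hd0
      · obtain ⟨i, rfl⟩ : ∃ i, k = i + 1 := by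
          rcases k with _ | i
          · simp at hn
          · exact ⟨i, rfl⟩
        have hrord : (r a : DihedralGroup (2 ^ (i + 1))) ^ (2 ^ (i + 1)) = 1 := by
          rw [r_pow]
          simp
        have hdvd : orderOf (r a : DihedralGroup (2 ^ (i + 1))) ∣ 2 ^ (i + 1) :=
          orderOf_dvd_of_pow_eq_one hrord
        obtain ⟨m, _, hm⟩ := (Nat.dvd_prime_pow Nat.prime_two).1 hdvd
        have hm0 : m ≠ 0 := by
          rintro rfl
          rw [pow_zero, orderOf_eq_one_iff] at hm
          exact ha0 (r.inj hm)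
        obtain ⟨m', rfl⟩ : ∃ m', m = m' + 1 := ⟨m - 1, by omega⟩
        have hb : (r a : DihedralGroup (2 ^ (i + 1))) ^ (2 ^ m') ≠ 1 := by
          apply pow_ne_one_of_lt_orderOf (by positivity)
          rw [hm, pow_succ]
          have : 0 < 2 ^ m' := by positivity
          omega
        have hb2 : ((r a : DihedralGroup (2 ^ (i + 1))) ^ (2 ^ m')) ^ 2 = 1 := by
          rw [← pow_mul, ← pow_succ, ← hm, pow_orderOf_eq_one]
        have hbH : (r a : DihedralGroup (2 ^ (i + 1))) ^ (2 ^ m') ∈ H := H.pow_mem haH _
        rw [r_pow] at hb hb2 hbH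
        set e : ZMod (2 ^ (i + 1)) := a * ((2 ^ m' : ℕ) : ZMod (2 ^ (i + 1))) with he
        have he0 : e ≠ 0 := by
          rintro h
          apply hb
          rw [h]; rfl
        have he2 : e + e = 0 := by
          rw [pow_two, r_mul_r] at hb2
          exact r.inj hb2
        have h1 := eq_half_of_two_pow i e he2 he0
        have h2 := eq_half_of_two_pow i d hd hd0
        rw [h2, ← h1]
        exact hbH
    cases x with
    | r i =>
      have h1 := hx _ hj
      simp only [sr_mul_r, r_mul_sr] at h1
      have h2 := sr.inj h1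
      have h3 : i + i = 0 := by
        have h4 : j + i - (j - i) = 0 := by rw [h2]; ring
        rw [← h4]; ring
      by_cases hi : i = 0
      · rw [hi]; exact H.one_mem
      · exact key i h3 hi
    | sr c =>
      have h1 := hx _ hj
      simp only [sr_mul_sr] at h1
      have h2 := r.inj h1
      have h3 : (c - j) + (c - j) = 0 := by
        have h4 : (c - j) - (j - c) = 0 := by rw [h2]; ring
        rw [← h4]; ring
      by_cases hi : c - j = 0
      · rw [sub_eq_zero.1 hi]; exact hj
      · have h5 := H.mul_mem hj (key _ h3 hi)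
        rw [sr_mul_r] at h5
        have h6 : j + (c - j) = c := by ring
        rwa [h6] at h5

end Cfsg.Agent.S3920
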