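import Cfsg.Statements.S3922
import Cfsg.Agent.Lib.H13.RT10

set_option autoImplicit false
open Cfsg

namespace Cfsg.Agent.S3922

/-- A finite group whose conjugacy classes have exactly three distinct sizes (1 and two further values) is solvable. -/
theorem result {G : Type*} [Group G] [Finite G] (n₁ n₂ : ℕ) (h12 : n₂ < n₁) (h2 : 1 < n₂)
    (h : ∀ x : G, (Subgroup.centralizer ({x} : Set G)).index = 1 ∨ (Subgroup.centralizer ({x} : Set G)).index = n₂ ∨
      (Subgroup.centralizer ({x} : Set G)).index = n₁)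
    (h₁ : ∃ x : G, (Subgroup.centralizer ({x} : Set G)).index = n₁) (h₂ : ∃ x : G, (Subgroup.centralizer ({x} : Set G)).index = n₂) :
    Group.IsSolvable G := by
  refine Cfsg.Agent.H13.RT.three_class_sizes (m := n₂) (n := n₁) h2 h12 ?_ h₂ h₁
  intro x
  rcases h x with h1 | h1 | h1
  · exact Or.inl h1
  · exact Or.inr (Or.inl h1)
  · exact Or.inr (Or.inr h1)

end Cfsg.Agent.S3922
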