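import Cfsg.Statements.S3933
import Mathlib
import Cfsg.Agent.Lib.H20.SylowNumber
import Cfsg.Agent.Lib.H18.Syl
import Cfsg.Agent.Lib.Lead.Burnside

set_option autoImplicit false
set_option linter.style.longLine false
open Cfsg

namespace Cfsg.Agent.S3933

open scoped Pointwise

universe u

section aux
variable {G : Type u} [Group G] [Finite G]

/-- factorization from coprime indices. -/
theorem exists_mul_of_coprime_index (H K : Subgroup G) (hc : H.index.Coprime K.index) (g : G) :
    ∃ h ∈ H, ∃ k ∈ K, g = h * k := by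
  classical
  have h1 : (H ⊓ K).index = H.index * K.index := by
    apply Nat.le_antisymm Subgroup.index_inf_le
    apply Nat.le_of_dvd (Nat.pos_of_ne_zero Subgroup.index_ne_zero_of_finite)
    exact hc.mul_dvd_of_dvd_of_dvd (Subgroup.index_dvd_of_le inf_le_left)
      (Subgroup.index_dvd_of_le inf_le_right)
  have h2 : (H ⊓ K).index = (H ⊓ K).relIndex H * H.index :=
    (Subgroup.relIndex_mul_index inf_le_left).symm
  have hH0 : 0 < H.index := Nat.pos_of_ne_zero Subgroup.index_ne_zero_of_finite
  have h3 : (H ⊓ K).relIndex H = K.index := by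
    apply Nat.eq_of_mul_eq_mul_right hH0
    rw [← h2, h1, mul_comm]
  -- the orbit of the base point
  let x : G ⧸ K := QuotientGroup.mk 1
  have h4 : (MulAction.stabilizer H x) = K.subgroupOf H := by
    ext h
    simp only [MulAction.mem_stabilizer_iff, Subgroup.mem_subgroupOf, x]
    show ((h : G) • (QuotientGroup.mk 1 : G ⧸ K)) = QuotientGroup.mk 1 ↔ _
    rw [MulAction.Quotient.smul_mk, QuotientGroup.eq]
    simp
  have h5 : (MulAction.orbit H x).ncard = K.index := by
    rw [← MulAction.index_stabilizer, h4]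
    have : (K.subgroupOf H).index = (H ⊓ K).relIndex H := by
      rw [inf_comm, Subgroup.inf_relIndex_right]
      rfl
    rw [this, h3]
  have h6 : MulAction.orbit H x = Set.univ := by
    apply Set.eq_of_subset_of_ncard_le (Set.subset_univ _)
    rw [Set.ncard_univ, h5]
    exact (Subgroup.index_eq_card K).symm.le
  have h7 : (QuotientGroup.mk g : G ⧸ K) ∈ MulAction.orbit H x := by rw [h6]; trivial
  obtain ⟨h, hh⟩ := h7
  have h8 : (h : G) • (QuotientGroup.mk 1 : G ⧸ K) = QuotientGroup.mk g := hh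
  rw [MulAction.Quotient.smul_mk, QuotientGroup.eq] at h8
  refine ⟨h, h.2, (h : G)⁻¹ * g, ?_, by group⟩
  simpa using h8

/-- The key step in a simple group. -/
theorem key [IsSimpleGroup G] (r s w q a b : ℕ) [Fact r.Prime] [Fact s.Prime] (hw : w.Prime) (hq : q.Prime)
    (hr0 : r ∣ Nat.card G) (hns : Nat.card (Sylow s G) = w ^ b) (hb : 0 < b)
    (hnr : Nat.card (Sylow r G) = q ^ a) (hwr : w ≠ r) (hwq : w ≠ q) : False := by
  have hrp : r.Prime := Fact.out
  let S : Sylow s G := default
  set H : Subgroup G := Subgroup.normalizer ((S : Subgroup G) : Set G) with hH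
  have hHi : H.index = w ^ b := by
    rw [← hns]
    exact (Sylow.card_eq_index_normalizer S).symm
  have hrH : ¬ r ∣ H.index := by
    rw [hHi]
    intro h1
    have := (Nat.prime_dvd_prime_iff_eq hrp hw).1 (hrp.dvd_of_dvd_pow h1)
    exact hwr this.symm
  let R : Sylow r G := default
  obtain ⟨g, hg⟩ := H18.exists_sylow_le_conj R H hrH
  -- a Sylow subgroup inside `H`
  let R₀ : Sylow r G := g⁻¹ • R
  have hR₀ : (R₀ : Subgroup G) ≤ H := by
    intro x hx
    have hx' : x ∈ (MulAut.conj g⁻¹ • (R : Subgroup G)) := by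
      rw [← Sylow.coe_subgroup_smul]
      exact hx
    rw [Subgroup.mem_pointwise_smul_iff_inv_smul_mem] at hx'
    have hx2 : g * x * g⁻¹ ∈ (R : Subgroup G) := by
      have h1 : (MulAut.conj g⁻¹)⁻¹ • x = g * x * g⁻¹ := by
        simp [MulAut.smul_def]
      rwa [h1] at hx'
    obtain ⟨m, hm, hme⟩ := hg hx2
    have h3 : x = m := by
      have h4 : g * m * g⁻¹ = g * x * g⁻¹ := by simpa using hme
      have h5 : m = x := by simpa [mul_assoc] using h4
      exact h5.symm
    rw [h3]
    exact hm
  set N : Subgroup G := Subgroup.normalizer ((R₀ : Subgroup G) : Set G) with hN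
  have hNi : N.index = q ^ a := by
    rw [← hnr]
    exact (Sylow.card_eq_index_normalizer R₀).symm
  have hcop : H.index.Coprime N.index := by
    rw [hHi, hNi]
    exact Nat.Coprime.pow _ _ ((Nat.coprime_primes hw hq).2 hwq)
  -- all conjugates of `R₀` lie in `H`
  have hconj : ∀ x ∈ (R₀ : Subgroup G), ∀ g : G, g * x * g⁻¹ ∈ H := by
    intro x hx g
    obtain ⟨h, hh, n, hn, rfl⟩ := exists_mul_of_coprime_index H N hcop g
    have h1 : n * x * n⁻¹ ∈ (R₀ : Subgroup G) := (Subgroup.mem_normalizer_iff.1 hn x).1 hx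
    have h2 := hR₀ h1
    have h3 : h * (n * x * n⁻¹) * h⁻¹ ∈ H := H.mul_mem (H.mul_mem hh h2) (H.inv_mem hh)
    convert h3 using 1
    group
  set K : Subgroup G := Subgroup.normalClosure ((R₀ : Subgroup G) : Set G) with hK
  have hKH : K ≤ H := by
    refine (Subgroup.closure_le _).2 ?_
    intro y hy
    rw [Group.mem_conjugatesOfSet_iff] at hy
    obtain ⟨x, hx, hxy⟩ := hy
    obtain ⟨c, rfl⟩ := isConj_iff.1 hxy
    exact hconj x hx c
  have hKne : K ≠ ⊥ := by
    intro h0
    have h1 : (R₀ : Subgroup G) ≤ K := Subgroup.le_normalClosure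
    rw [h0] at h1
    exact R₀.ne_bot_of_dvd_card hr0 (le_bot_iff.1 h1)
  have hKtop : K = ⊤ := by
    rcases IsSimpleGroup.eq_bot_or_eq_top_of_normal K (Subgroup.normalClosure_normal) with h0 | h0
    · exact absurd h0 hKne
    · exact h0
  have hHtop : H = ⊤ := top_le_iff.1 (hKtop ▸ hKH)
  rw [hHtop, Subgroup.index_top] at hHi
  have h5 : 1 < w ^ b := Nat.one_lt_pow hb.ne' hw.one_lt
  omega

/-- The hypothesis. -/
def Hyp (G : Type u) [Group G] : Prop :=
  ∀ (r : ℕ) [Fact r.Prime], Nat.card (Sylow r G) = 1 ∨ IsPrimePow (Nat.card (Sylow r G))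

theorem card_sylow_dvd (r : ℕ) [Fact r.Prime] : Nat.card (Sylow r G) ∣ Nat.card G := by
  rw [Sylow.card_eq_index_normalizer (default : Sylow r G)]
  exact Subgroup.index_dvd_card _

/-- Structure of the Sylow numbers in a simple group. -/
theorem sylow_shape [IsSimpleGroup G] (hnc : ¬ IsMulCommutative G) (h : Hyp G) (r : ℕ) (hr : r.Prime)
    (hd : r ∣ Nat.card G) :
    ∃ q a : ℕ, q.Prime ∧ 0 < a ∧ Nat.card (Sylow r G) = q ^ a ∧ q ≠ r ∧ q ∣ Nat.card G := by
  haveI : Fact r.Prime := ⟨hr⟩
  have hne : Nat.card (Sylow r G) ≠ 1 := by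
    intro h1
    haveI : Subsingleton (Sylow r G) := (Nat.card_eq_one_iff_unique.1 h1).1
    let P : Sylow r G := default
    have hPn : (P : Subgroup G).Normal := Sylow.normal_of_subsingleton P
    rcases IsSimpleGroup.eq_bot_or_eq_top_of_normal (P : Subgroup G) hPn with h0 | h0
    · exact P.ne_bot_of_dvd_card hd h0
    · -- a `p`-group
      have hp : IsPGroup r G := by
        intro g
        obtain ⟨k, hk⟩ := P.2 ⟨g, by rw [h0]; trivial⟩
        exact ⟨k, by simpa using congrArg Subtype.val hk⟩
      haveI : Group.IsNilpotent G := hp.isNilpotent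
      apply hnc
      have hsol : Group.IsSolvable G := inferInstance
      have := (IsSimpleGroup.comm_iff_isSolvable (G := G)).2 hsol
      exact ⟨⟨this⟩⟩
  rcases h r with h1 | h1
  · exact absurd h1 hne
  · obtain ⟨q, a, hq, ha, hqa⟩ := (isPrimePow_nat_iff _).1 h1
    refine ⟨q, a, hq, ha, hqa.symm, ?_, ?_⟩
    · rintro rfl
      have h2 : Nat.card (Sylow q G) ≡ 1 [MOD q] := card_sylow_modEq_one q G
      rw [← hqa] at h2
      have h3 : q ^ a % q = 0 := by
        exact Nat.mod_eq_zero_of_dvd (dvd_pow_self q ha.ne')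
      have h4 := h2
      unfold Nat.ModEq at h4
      rw [h3, Nat.mod_eq_of_lt hq.one_lt] at h4
      omega
    · have h5 : q ∣ Nat.card (Sylow r G) := by
        rw [← hqa]
        exact dvd_pow_self q ha.ne'
      exact h5.trans (card_sylow_dvd r)

theorem star [IsSimpleGroup G] (r s qr qs ar as : ℕ) (hr : r.Prime) (hs : s.Prime) (hqr : qr.Prime) (hqs : qs.Prime)
    (hrd : r ∣ Nat.card G) (hnr : Nat.card (Sylow r G) = qr ^ ar)
    (hns : Nat.card (Sylow s G) = qs ^ as) (has : 0 < as) : qs = r ∨ qs = qr := by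
  by_contra hcon
  push Not at hcon
  haveI : Fact r.Prime := ⟨hr⟩
  haveI : Fact s.Prime := ⟨hs⟩
  exact key r s qs qr ar as hqs hqr hrd hns has hnr hcon.1 hcon.2

/-- No counterexample is simple. -/
theorem simple_false [IsSimpleGroup G] (hnc : ¬ IsMulCommutative G) (h : Hyp G) : False := by
  have hcard : Nat.card G ≠ 1 := by
    intro h1
    have : Subsingleton G := (Nat.card_eq_one_iff_unique.1 h1).1
    exact not_subsingleton G this
  obtain ⟨s, hs, hsd⟩ := Nat.exists_prime_and_dvd hcard
  obtain ⟨w, b, hw, hb, hsn, hws, hwd⟩ := sylow_shape hnc h s hs hsd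
  -- a third prime
  have hthird : ∃ t : ℕ, t.Prime ∧ t ∣ Nat.card G ∧ t ≠ s ∧ t ≠ w := by
    by_contra hcon
    push Not at hcon
    have hne : Nat.card G ≠ 0 := Nat.card_pos.ne'
    obtain ⟨e, m, hm1, hm2⟩ := Nat.exists_eq_pow_mul_and_not_dvd hne s hs.ne_one
    have hm0 : m ≠ 0 := by
      rintro rfl
      simp at hm1
    obtain ⟨f, m', hm'1, hm'2⟩ := Nat.exists_eq_pow_mul_and_not_dvd hm0 w hw.ne_one
    have hm'3 : m' = 1 := by
      by_contra hne1
      obtain ⟨t, ht, htd⟩ := Nat.exists_prime_and_dvd hne1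
      have h1 : t ∣ Nat.card G := by
        rw [hm2, hm'2]
        exact Dvd.dvd.mul_left (Dvd.dvd.mul_left htd _) _
      by_cases hts : t = s
      · apply hm1
        rw [hm'2, ← hts]
        exact Dvd.dvd.mul_left htd _
      · have := hcon t ht h1 hts
        apply hm'1
        rw [← this]
        exact htd
    have hc : Nat.card G = s ^ e * w ^ f := by
      rw [hm2, hm'2, hm'3, mul_one]
    have hsol : Group.IsSolvable G := Lead.burnside_two_prime s w e f hs hw hc
    apply hnc
    have := (IsSimpleGroup.comm_iff_isSolvable (G := G)).2 hsol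
    exact ⟨⟨this⟩⟩
  obtain ⟨t, ht, htd, hts, htw⟩ := hthird
  obtain ⟨qt, at', hqt, hat, htn, _, _⟩ := sylow_shape hnc h t ht htd
  obtain ⟨qw, aw, hqw, haw, hwn, hqww, _⟩ := sylow_shape hnc h w hw hwd
  have h1 := star t s qt w at' b ht hs hqt hw htd htn hsn hb
  have h1' : w = qt := by
    rcases h1 with h1 | h1
    · exact absurd h1.symm htw
    · exact h1
  have h2 := star s w w qw b aw hs hw hw hqw hsd hsn hwn haw
  have h2' : qw = s := by
    rcases h2 with h2 | h2
    · exact h2
    · exact absurd h2 hqww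
  have h3 := star t w qt qw at' aw ht hw hqt hqw htd htn hwn haw
  have h3' : qw = t := by
    rcases h3 with h3 | h3
    · exact h3
    · exact absurd (h3.trans h1'.symm) hqww
  exact hts (h3'.symm.trans h2')

theorem hyp_of_dvd {H K : Type u} [Group H] [Group K] (h : Hyp H)
    (hd : ∀ (r : ℕ) [Fact r.Prime], Nat.card (Sylow r K) ∣ Nat.card (Sylow r H)) : Hyp K := by
  intro r _
  by_cases h1 : Nat.card (Sylow r K) = 1
  · exact Or.inl h1
  · right
    rcases h r with h2 | h2
    · have := hd r
      rw [h2] at this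
      exact absurd (Nat.dvd_one.1 this) h1
    · exact h2.dvd (hd r) h1

theorem main : ∀ (n : ℕ) (G : Type u) [Group G] [Finite G], Nat.card G = n → Hyp G → Group.IsSolvable G := by
  intro n
  induction n using Nat.strong_induction_on with
  | _ n ih =>
  intro G _ _ hn h
  by_cases hsub : Subsingleton G
  · infer_instance
  rw [not_subsingleton_iff_nontrivial] at hsub
  by_cases hsimple : ∀ N : Subgroup G, N.Normal → N = ⊥ ∨ N = ⊤
  · haveI : IsSimpleGroup G := ⟨hsimple⟩
    by_cases hc : IsMulCommutative G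
    · exact (IsSimpleGroup.comm_iff_isSolvable (G := G)).1 (fun a b => hc.is_comm.comm a b)
    · exact (simple_false hc h).elim
  · push Not at hsimple
    obtain ⟨N, hNn, hN1, hN2⟩ := hsimple
    haveI := hNn
    have hform : ∀ (r : ℕ) [Fact r.Prime],
        Nat.card (Sylow r (G ⧸ N)) ∣ Nat.card (Sylow r G) ∧ Nat.card (Sylow r N) ∣ Nat.card (Sylow r G) := by
      intro r _
      rw [H20.sylow_number_formula N (default : Sylow r G)]
      constructor
      · exact Dvd.dvd.mul_right (Dvd.intro _ rfl) _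
      · exact Dvd.dvd.mul_right (Dvd.intro_left _ rfl) _
    have hNlt : Nat.card N < n := by
      rw [← hn]
      have h1 : Nat.card N * N.index = Nat.card G := N.card_mul_index
      have h2 : N.index ≠ 1 := fun h3 => hN2 (Subgroup.index_eq_one.1 h3)
      have h3 : N.index ≠ 0 := Subgroup.index_ne_zero_of_finite
      have h4 : 0 < Nat.card N := Nat.card_pos
      nlinarith [Nat.lt_of_le_of_ne (Nat.pos_of_ne_zero h3) (Ne.symm (by omega : (1 : ℕ) ≠ N.index) |>.symm)]
    have hQlt : Nat.card (G ⧸ N) < n := by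
      rw [← hn]
      have h1 : Nat.card N * N.index = Nat.card G := N.card_mul_index
      have h2 : Nat.card N ≠ 1 := fun h3 => hN1 (Subgroup.eq_bot_of_card_eq N h3)
      have h3 : 0 < Nat.card N := Nat.card_pos
      have h5 : N.index = Nat.card (G ⧸ N) := Subgroup.index_eq_card N
      have h6 : 0 < N.index := Nat.pos_of_ne_zero Subgroup.index_ne_zero_of_finite
      rw [← h5]
      nlinarith [Nat.lt_of_le_of_ne h3 (Ne.symm h2)]
    haveI hs1 : Group.IsSolvable N := ih _ hNlt N rfl (hyp_of_dvd h (fun r _ => (hform r).2))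
    haveI hs2 : Group.IsSolvable (G ⧸ N) := ih _ hQlt (G ⧸ N) rfl (hyp_of_dvd h (fun r _ => (hform r).1))
    refine Group.isSolvable_of_ker_le_range N.subtype (QuotientGroup.mk' N) ?_
    rw [QuotientGroup.ker_mk', Subgroup.range_subtype]

end aux

/-- If for every prime r the number of Sylow r-subgroups of the finite group G is a prime power or 1, then G is solvable. -/
theorem result {G : Type*} [Group G] [Finite G] (h : ∀ (r : ℕ) [Fact r.Prime], Nat.card (Sylow r G) = 1 ∨ IsPrimePow (Nat.card (Sylow r G))) :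
    Group.IsSolvable G :=
  main _ G rfl h

end Cfsg.Agent.S3933
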