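import Cfsg.Statements.S3937
import Mathlib
import Cfsg.Agent.Lib.H01.Fitting
import Cfsg.Agent.Lib.H05.Comp2
import Cfsg.Agent.Lib.H18.Syl
import Cfsg.Agent.Lib.H18.Zipper

set_option autoImplicit false
open Cfsg

namespace Cfsg.Agent.S3937


open Subgroup
open scoped commutatorElement

universe u

/-- the Engel sequence -/
def eng {G : Type*} [Group G] (g x : G) : ℕ → G
  | 0 => x
  | n + 1 => eng g x n * g * (eng g x n)⁻¹ * g⁻¹

theorem foldl_eq_eng {G : Type*} [Group G] (g x : G) (n : ℕ) :
    (List.replicate n g).foldl (fun a b => a * b * a⁻¹ * b⁻¹) x = eng g x n := by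
  induction n with
  | zero => rfl
  | succ n ih =>
    rw [List.replicate_succ', List.foldl_append, ih]
    rfl

theorem eng_coe {G : Type*} [Group G] (H : Subgroup G) (g x : H) (n : ℕ) :
    ((eng g x n : H) : G) = eng (g : G) (x : G) n := by
  induction n with
  | zero => rfl
  | succ n ih =>
    simp [eng, ih]

theorem engel_subnormal {G : Type u} [Group G] [Finite G] (g : G)
    (hg : ∀ x : G, ∃ n : ℕ, eng g x n = 1) : (zpowers g).IsSubnormal := by
  classical
  induction h : Nat.card G using Nat.strong_induction_on generalizing G with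
  | _ k ih =>
  subst h
  by_contra hns
  have h2 : ∀ H : Subgroup G, zpowers g ≤ H → H ≠ ⊤ → ((zpowers g).subgroupOf H).IsSubnormal := by
    intro H hgH hHne
    have hlt : Nat.card H < Nat.card G := by
      apply Nat.lt_of_le_of_ne (Subgroup.card_le_card_group H)
      intro e
      exact hHne (Subgroup.eq_top_of_card_eq H e)
    have hgH' : g ∈ H := hgH (mem_zpowers g)
    have h3 := ih _ hlt (G := H) (⟨g, hgH'⟩ : H) (by
      intro x
      obtain ⟨n, hn⟩ := hg x
      refine ⟨n, Subtype.ext ?_⟩
      rw [eng_coe]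
      exact hn) rfl
    have e : (zpowers g).subgroupOf H = zpowers (⟨g, hgH'⟩ : H) := by
      ext ⟨y, hy⟩
      rw [Subgroup.mem_subgroupOf, Subgroup.mem_zpowers_iff, Subgroup.mem_zpowers_iff]
      constructor
      · rintro ⟨k, hk⟩
        exact ⟨k, Subtype.ext hk⟩
      · rintro ⟨k, hk⟩
        exact ⟨k, congrArg Subtype.val hk⟩
    rwa [e]
  obtain ⟨M, ⟨hM, hgM⟩, huniq⟩ := H18.zipper hns h2
  have hgM' : g ∈ M := hgM (mem_zpowers g)
  -- a conjugate outside `M`
  have hexists : ∃ x : G, x * g * x⁻¹ ∉ M := by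
    by_contra hall
    push Not at hall
    have hN : normalClosure (zpowers g : Set G) ≤ M := by
      rw [Subgroup.normalClosure, Subgroup.closure_le]
      intro y hy
      rw [Group.mem_conjugatesOfSet_iff] at hy
      obtain ⟨a, ha, hay⟩ := hy
      obtain ⟨c, hc⟩ := isConj_iff.1 hay
      obtain ⟨i, rfl⟩ := Subgroup.mem_zpowers_iff.1 ha
      rw [← hc]
      have : c * g ^ i * c⁻¹ = (c * g * c⁻¹) ^ i := by
        simp [conj_zpow]
      rw [this]
      exact zpow_mem (hall c) i
    have hNne : normalClosure (zpowers g : Set G) ≠ ⊤ := by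
      intro e
      apply hM.1
      rw [eq_top_iff, ← e]
      exact hN
    have h3 := h2 _ Subgroup.le_normalClosure hNne
    have hNn : (normalClosure (zpowers g : Set G)).Normal := inferInstance
    exact hns (h3.trans Subgroup.le_normalClosure hNn.isSubnormal)
  obtain ⟨x, hx⟩ := hexists
  -- the sequence of conjugates
  let c : ℕ → G := fun n => eng g x n * g * (eng g x n)⁻¹
  have hc : ∀ n, c (n + 1) = c n * g * (c n)⁻¹ := by
    intro n
    simp only [c, eng]
    group
  obtain ⟨n, hn⟩ := hg x
  have hcn : c n ∈ M := by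
    simp only [c, hn]
    simpa using hgM'
  have hstep : ∃ m, c m ∉ M ∧ c (m + 1) ∈ M := by
    by_contra hall
    push Not at hall
    have : ∀ m, c m ∉ M := by
      intro m
      induction m with
      | zero => exact hx
      | succ m ih => exact hall m ih
    exact this n hcn
  obtain ⟨m, hm1, hm2⟩ := hstep
  rw [hc] at hm2
  set y := c m with hy
  -- `M` conjugated
  have hM' : IsCoatom (M.map (MulAut.conj y⁻¹).toMonoidHom) := H18.isCoatom_map_conj hM _
  have hgM2 : zpowers g ≤ M.map (MulAut.conj y⁻¹).toMonoidHom := by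
    rw [Subgroup.zpowers_le, H18.mem_conj]
    simpa using hm2
  have heq := huniq _ ⟨hM', hgM2⟩
  have hyN : y ∈ normalizer (M : Set G) := by
    have h3 : y⁻¹ ∈ normalizer (M : Set G) := H18.mem_normalizer_of_map_conj_eq heq
    simpa using inv_mem h3
  have hNt : normalizer (M : Set G) = ⊤ := by
    apply hM.2
    refine lt_of_le_of_ne le_normalizer ?_
    intro e
    rw [← e] at hyN
    exact hm1 hyN
  have hMn : M.Normal := Subgroup.normalizer_eq_top_iff.1 hNt
  exact hx (hMn.conj_mem g hgM' x)

theorem engel_of_mem_fitting {G : Type*} [Group G] [Finite G] (g : G) (hg : g ∈ Cfsg.fittingSubgroup G) (x : G) :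
    ∃ n : ℕ, eng g x n = 1 := by
  haveI hFn : (Cfsg.fittingSubgroup G).Normal := H01.fitting_normal
  set F := Cfsg.fittingSubgroup G with hF
  have hFnil : Group.IsNilpotent F := H01.fitting_nilpotent
  have key : ∀ n, eng g x (n + 1) ∈ F.lowerCentralSeries n := by
    intro n
    induction n with
    | zero =>
      have : eng g x 1 = (x * g * x⁻¹) * g⁻¹ := rfl
      rw [this, Subgroup.lowerCentralSeries_zero]
      exact F.mul_mem (hFn.conj_mem g hg x) (F.inv_mem hg)
    | succ n ih =>
      have : eng g x (n + 1 + 1) = ⁅eng g x (n + 1), g⁆ := rfl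
      rw [this, Subgroup.lowerCentralSeries_succ]
      exact Subgroup.commutator_mem_commutator ih hg
  obtain ⟨c, hc⟩ := (Subgroup.isNilpotent_iff_lowerCentralSeries F).1 hFnil
  have h2 := key c
  rw [hc] at h2
  exact ⟨c + 1, (Subgroup.mem_bot).1 h2⟩

/-- Baer's characterization of the Fitting subgroup: in a finite group G, an element g lies in the Fitting subgroup if and only if g is a left Engel element, that is, for every x there is n with [x, g, g, …, g] = 1 (n entries g, [a, b] = aba⁻¹b⁻¹). -/
theorem result {G : Type*} [Group G] [Finite G] (g : G) :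
    g ∈ Cfsg.fittingSubgroup G ↔ ∀ x : G, ∃ n : ℕ, (List.replicate n g).foldl (fun a b => a * b * a⁻¹ * b⁻¹) x = 1 := by
  constructor
  · intro hg x
    obtain ⟨n, hn⟩ := engel_of_mem_fitting g hg x
    exact ⟨n, by rw [foldl_eq_eng, hn]⟩
  · intro hg
    have h1 : (zpowers g).IsSubnormal := engel_subnormal g (by
      intro x
      obtain ⟨n, hn⟩ := hg x
      exact ⟨n, by rw [← foldl_eq_eng, hn]⟩)
    have h2 : Group.IsNilpotent (zpowers g) := ⟨1, Subgroup.upperCentralSeries_one_eq_top_iff.mpr inferInstance⟩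
    exact H05.sn_nil_le_fitting h1 h2 (mem_zpowers g)

end Cfsg.Agent.S3937
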