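import Cfsg.Statements.S3939
import Mathlib
import Cfsg.Agent.Lib.H06.Nilp
import Cfsg.Agent.Lib.H18.Basic
import Cfsg.Agent.Lib.H18.Nilp

set_option autoImplicit false
open Cfsg

namespace Cfsg.Agent.S3939


open Subgroup
open scoped commutatorElement

universe u

theorem center_ne_bot_of {G : Type*} [Group G] [Finite G] (g : G) (hg : g ≠ 1)
    (h : ∀ x : G, Group.IsNilpotent (closure ({x, g} : Set G))) : center G ≠ ⊥ := by
  classical
  intro hZ
  obtain ⟨p, hp, hpd⟩ := Nat.exists_prime_and_dvd (orderOf_eq_one_iff.not.2 hg)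
  haveI := Fact.mk hp
  set g' := g ^ (orderOf g / p) with hg'
  have hord : orderOf g' = p := orderOf_pow_orderOf_div (orderOf_pos g).ne' hpd
  have hg'mem : ∀ x : G, closure ({x, g'} : Set G) ≤ closure ({x, g} : Set G) := by
    intro x
    rw [closure_le]
    rintro y (rfl | rfl)
    · exact Subgroup.subset_closure (by simp)
    · exact pow_mem (Subgroup.subset_closure (by simp)) _
  have h' : ∀ x : G, Group.IsNilpotent (closure ({x, g'} : Set G)) := by
    intro x
    haveI := h x
    exact Group.nilpotent_of_surjective (Subgroup.subgroupOfEquivOfLe (hg'mem x)).toMonoidHom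
      (Subgroup.subgroupOfEquivOfLe (hg'mem x)).surjective
  have hcomm : ∀ y : G, (orderOf y).Coprime p → y * g' = g' * y := by
    intro y hy
    haveI := h' y
    have h1 : y ∈ closure ({y, g'} : Set G) := Subgroup.subset_closure (by simp)
    have h2 : g' ∈ closure ({y, g'} : Set G) := Subgroup.subset_closure (by simp)
    have h3 := H18.commute_of_coprime_orderOf (closure ({y, g'} : Set G)) ⟨y, h1⟩ ⟨g', h2⟩ (by
      rw [Subgroup.orderOf_mk, Subgroup.orderOf_mk, hord]
      exact hy)
    exact congrArg Subtype.val h3.eq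
  let T : Set G := {y | (orderOf y).Coprime p}
  have hTconj : ∀ a : G, ∀ y ∈ T, a * y * a⁻¹ ∈ T := by
    intro a y hy
    change (orderOf (a * y * a⁻¹)).Coprime p
    rw [H18.orderOf_conj']
    exact hy
  let N : Subgroup G := closure T
  have hNn : N.Normal := by
    constructor
    intro t ht a
    induction ht using Subgroup.closure_induction with
    | mem x hx => exact Subgroup.subset_closure (hTconj a x hx)
    | one => simp
    | mul x y _ _ hx hy =>
      have : a * (x * y) * a⁻¹ = (a * x * a⁻¹) * (a * y * a⁻¹) := by group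
      rw [this]
      exact mul_mem hx hy
    | inv x _ hx =>
      have : a * x⁻¹ * a⁻¹ = (a * x * a⁻¹)⁻¹ := by group
      rw [this]
      exact inv_mem hx
  have hNc : N ≤ centralizer ({g'} : Set G) := by
    rw [closure_le]
    intro y hy
    rw [SetLike.mem_coe, Subgroup.mem_centralizer_singleton_iff]
    exact hcomm y hy
  -- `G/N` is a `p`-group
  have hpg : IsPGroup p (G ⧸ N) := by
    intro q
    obtain ⟨y, rfl⟩ := QuotientGroup.mk_surjective q
    obtain ⟨a, m, hm, hoy⟩ := Nat.exists_eq_pow_mul_and_not_dvd (orderOf_pos y).ne' p hp.ne_one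
    refine ⟨a, ?_⟩
    rw [← QuotientGroup.mk_pow, QuotientGroup.eq_one_iff]
    apply Subgroup.subset_closure
    change (orderOf (y ^ p ^ a)).Coprime p
    have : orderOf (y ^ p ^ a) = m := by
      rw [orderOf_pow_of_dvd (pow_ne_zero _ hp.ne_zero) (by rw [hoy]; exact dvd_mul_right _ _), hoy]
      exact Nat.mul_div_cancel_left _ (pow_pos hp.pos _)
    rw [this]
    exact ((Nat.Prime.coprime_iff_not_dvd hp).2 hm).symm
  obtain ⟨k, hk⟩ := IsPGroup.iff_card.1 hpg
  have hNi : N.index = p ^ k := by rw [Subgroup.index_eq_card]; exact hk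
  -- Sylow
  have hpg' : IsPGroup p (zpowers g') := by
    rw [IsPGroup.iff_card, Nat.card_zpowers, hord]
    exact ⟨1, by simp⟩
  obtain ⟨P, hP⟩ := hpg'.exists_le_sylow
  have hg'P : g' ∈ (P : Subgroup G) := hP (mem_zpowers g')
  have hPN : (P : Subgroup G) ⊔ N = ⊤ := by
    have h1 : ((P : Subgroup G) ⊔ N).index ∣ (P : Subgroup G).index :=
      Subgroup.index_dvd_of_le le_sup_left
    have h2 : ((P : Subgroup G) ⊔ N).index ∣ N.index := Subgroup.index_dvd_of_le le_sup_right
    rw [hNi, Nat.dvd_prime_pow hp] at h2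
    obtain ⟨j, _, hj⟩ := h2
    rcases j with _ | j
    · rw [pow_zero] at hj
      exact Subgroup.index_eq_one.1 hj
    · exfalso
      apply P.not_dvd_index
      rw [hj] at h1
      exact (dvd_pow_self p (Nat.succ_ne_zero j)).trans h1
  have hconjP : ∀ y : G, y * g' * y⁻¹ ∈ (P : Subgroup G) := by
    intro y
    have hy : y ∈ (P : Subgroup G) ⊔ N := by rw [hPN]; trivial
    haveI := hNn
    obtain ⟨a, ha, b, hb, rfl⟩ := H18.mem_sup_normal_right.1 hy
    have h1 : b * g' = g' * b := Subgroup.mem_centralizer_singleton_iff.1 (hNc hb)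
    have h2 : a * b * g' * (a * b)⁻¹ = a * g' * a⁻¹ := by
      calc a * b * g' * (a * b)⁻¹ = a * (b * g') * b⁻¹ * a⁻¹ := by group
        _ = a * (g' * b) * b⁻¹ * a⁻¹ := by rw [h1]
        _ = _ := by group
    rw [h2]
    exact (P : Subgroup G).mul_mem ((P : Subgroup G).mul_mem ha hg'P) ((P : Subgroup G).inv_mem ha)
  let Q : Subgroup G := normalClosure ({g'} : Set G)
  have hQn : Q.Normal := inferInstance
  have hg'Q : g' ∈ Q := Subgroup.subset_normalClosure (by simp)
  have hQP : Q ≤ (P : Subgroup G) := by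
    change closure (Group.conjugatesOfSet ({g'} : Set G)) ≤ _
    rw [closure_le]
    intro y hy
    rw [Group.mem_conjugatesOfSet_iff] at hy
    obtain ⟨a, rfl, hay⟩ := hy
    obtain ⟨c, rfl⟩ := isConj_iff.1 hay
    exact hconjP c
  have hNcen : ∀ n ∈ N, ∀ q ∈ Q, n * q = q * n := by
    have hCn : (centralizer (N : Set G)).Normal := by
      haveI := hNn
      exact Subgroup.normal_centralizer
    have h1 : Q ≤ centralizer (N : Set G) := by
      apply Subgroup.normalClosure_le_normal
      rintro _ rfl
      rw [SetLike.mem_coe, Subgroup.mem_centralizer_iff]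
      intro n hn
      exact Subgroup.mem_centralizer_singleton_iff.1 (hNc hn)
    intro n hn q hq
    exact Subgroup.mem_centralizer_iff.1 (h1 hq) n hn
  haveI hPnil : Group.IsNilpotent (P : Subgroup G) := P.isPGroup'.isNilpotent
  have hQne : Q.subgroupOf (P : Subgroup G) ≠ ⊥ := by
    intro e
    have h1 : (⟨g', hg'P⟩ : (P : Subgroup G)) ∈ Q.subgroupOf (P : Subgroup G) := hg'Q
    rw [e, Subgroup.mem_bot] at h1
    have h2 : g' = 1 := congrArg Subtype.val h1
    rw [h2, orderOf_one] at hord
    exact hp.ne_one hord.symm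
  obtain ⟨z, hzQ, hz1, hzc⟩ := H06.exists_central_of_normal (hQn.subgroupOf (P : Subgroup G)) hQne
  have hzcen : (z : G) ∈ center G := by
    rw [Subgroup.mem_center_iff]
    intro y
    have hy : y ∈ (P : Subgroup G) ⊔ N := by rw [hPN]; trivial
    haveI := hNn
    obtain ⟨a, ha, b, hb, rfl⟩ := H18.mem_sup_normal_right.1 hy
    have h1 := hNcen b hb z hzQ
    have h2 : a * (z : G) = z * a := congrArg Subtype.val (Subgroup.mem_center_iff.1 hzc ⟨a, ha⟩)
    calc a * b * (z : G) = a * ((z : G) * b) := by rw [mul_assoc, h1]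
      _ = (a * (z : G)) * b := by group
      _ = (z : G) * a * b := by rw [h2]
      _ = _ := by group
  rw [hZ, Subgroup.mem_bot] at hzcen
  exact hz1 (Subtype.ext hzcen)

theorem rev {G : Type u} [Group G] [Finite G] (g : G)
    (h : ∀ x : G, Group.IsNilpotent (closure ({x, g} : Set G))) :
    g ∈ ⨆ n : ℕ, Subgroup.upperCentralSeries G n := by
  classical
  induction hc : Nat.card G using Nat.strong_induction_on generalizing G with
  | _ k ih =>
  subst hc
  by_cases hg : g = 1
  · rw [hg]; exact one_mem _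
  have hZ := center_ne_bot_of g hg h
  have hlt : Nat.card (G ⧸ center G) < Nat.card G := by
    rw [← Subgroup.index_eq_card]
    have h1 : (center G).index * Nat.card (center G) = Nat.card G := Subgroup.index_mul_card _
    have h2 : 1 < Nat.card (center G) := by
      haveI : Nontrivial (center G) := (Subgroup.nontrivial_iff_ne_bot _).2 hZ
      exact Finite.one_lt_card
    have h3 : 0 < (center G).index := Nat.pos_of_ne_zero Subgroup.index_ne_zero_of_finite
    nlinarith
  have h1 := ih _ hlt (G := G ⧸ center G) (QuotientGroup.mk' (center G) g) (by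
    intro x
    obtain ⟨y, rfl⟩ := QuotientGroup.mk'_surjective _ x
    haveI := h y
    have e : (closure ({y, g} : Set G)).map (QuotientGroup.mk' (center G)) =
        closure ({QuotientGroup.mk' (center G) y, QuotientGroup.mk' (center G) g} : Set (G ⧸ center G)) := by
      rw [MonoidHom.map_closure, Set.image_pair]
    rw [← e]
    exact Group.nilpotent_of_surjective ((QuotientGroup.mk' (center G)).subgroupMap (closure ({y, g} : Set G)))
      ((QuotientGroup.mk' (center G)).subgroupMap_surjective _)) rfl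
  have hmono : Monotone (Subgroup.upperCentralSeries (G ⧸ center G)) := Subgroup.upperCentralSeries_mono _
  rw [Subgroup.mem_iSup_of_directed hmono.directed_le] at h1
  obtain ⟨n, hn⟩ := h1
  have h2 : g ∈ Subgroup.upperCentralSeries G n.succ := by
    rw [← Subgroup.comap_upperCentralSeries_quotient_center]
    exact hn
  exact Subgroup.mem_iSup_of_mem _ h2

theorem fwd {G : Type*} [Group G] [Finite G] (g : G) (hg : g ∈ ⨆ n : ℕ, Subgroup.upperCentralSeries G n) (x : G) :
    Group.IsNilpotent (closure ({x, g} : Set G)) := by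
  classical
  have hmono : Monotone (Subgroup.upperCentralSeries G) := Subgroup.upperCentralSeries_mono _
  rw [Subgroup.mem_iSup_of_directed hmono.directed_le] at hg
  obtain ⟨n, hn⟩ := hg
  set H := closure ({x, g} : Set G) with hH
  have hinf : ∀ m, ∀ h : H, (h : G) ∈ Subgroup.upperCentralSeries G m → h ∈ Subgroup.upperCentralSeries H m := by
    intro m
    induction m with
    | zero =>
      intro h hh
      simp only [Subgroup.upperCentralSeries_zero, Subgroup.mem_bot] at hh ⊢
      exact Subtype.ext hh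
    | succ m ih =>
      intro h hh
      rw [Subgroup.mem_upperCentralSeries_succ_iff] at hh ⊢
      intro y
      apply ih
      exact hh y
  have hxH : x ∈ H := Subgroup.subset_closure (by simp)
  have hgH : g ∈ H := Subgroup.subset_closure (by simp)
  have hg' : (⟨g, hgH⟩ : H) ∈ Subgroup.upperCentralSeries H n := hinf n _ hn
  have hNn : (Subgroup.upperCentralSeries H n).Normal := inferInstance
  have hx' : (⟨x, hxH⟩ : H) ∈ Subgroup.upperCentralSeries H (n + 1) := by
    rw [Subgroup.mem_upperCentralSeries_succ_iff]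
    rintro ⟨y, hy⟩
    induction hy using Subgroup.closure_induction with
    | mem y hy =>
      rcases hy with rfl | hy
      · have : ⁅(⟨y, hxH⟩ : H), (⟨y, hxH⟩ : H)⁆ = 1 := commutatorElement_self _
        rw [this]
        exact one_mem _
      · rw [Set.mem_singleton_iff] at hy
        subst hy
        rw [commutatorElement_def]
        exact mul_mem (hNn.conj_mem _ hg' _) (inv_mem hg')
    | one =>
      have : ⁅(⟨x, hxH⟩ : H), (⟨1, one_mem _⟩ : H)⁆ = 1 := commutatorElement_one_right _
      rw [this]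
      exact one_mem _
    | mul a b ha hb hha hhb =>
      have e : ⁅(⟨x, hxH⟩ : H), (⟨a * b, mul_mem ha hb⟩ : H)⁆ =
          ⁅(⟨x, hxH⟩ : H), (⟨a, ha⟩ : H)⁆ * ((⟨a, ha⟩ : H) * ⁅(⟨x, hxH⟩ : H), (⟨b, hb⟩ : H)⁆ * (⟨a, ha⟩ : H)⁻¹) := by
        have e2 : (⟨a * b, mul_mem ha hb⟩ : H) = (⟨a, ha⟩ : H) * (⟨b, hb⟩ : H) := rfl
        rw [e2]
        simp only [commutatorElement_def]
        group
      rw [e]
      exact mul_mem hha (hNn.conj_mem _ hhb _)
    | inv a ha hha =>
      have e : ⁅(⟨x, hxH⟩ : H), (⟨a⁻¹, inv_mem ha⟩ : H)⁆ =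
          ((⟨a, ha⟩ : H)⁻¹ * (⁅(⟨x, hxH⟩ : H), (⟨a, ha⟩ : H)⁆)⁻¹ * ((⟨a, ha⟩ : H)⁻¹)⁻¹) := by
        have e2 : (⟨a⁻¹, inv_mem ha⟩ : H) = (⟨a, ha⟩ : H)⁻¹ := rfl
        rw [e2]
        simp only [commutatorElement_def]
        group
      rw [e]
      exact hNn.conj_mem _ (inv_mem hha) _
  have hg'' : (⟨g, hgH⟩ : H) ∈ Subgroup.upperCentralSeries H (n + 1) :=
    Subgroup.upperCentralSeries_mono H (Nat.le_succ n) hg'
  refine ⟨n + 1, ?_⟩
  rw [eq_top_iff]
  rintro ⟨y, hy⟩ -
  induction hy using Subgroup.closure_induction with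
  | mem y hy =>
    rcases hy with rfl | hy
    · exact hx'
    · rw [Set.mem_singleton_iff] at hy
      subst hy
      exact hg''
  | one => exact one_mem _
  | mul a b ha hb hha hhb => exact mul_mem hha hhb
  | inv a ha hha => exact inv_mem hha


/-- In a finite group G the set of elements g such that the subgroup generated by g and x is nilpotent for every x ∈ G is exactly the hypercenter of G (the last term of the upper central series). -/
theorem result {G : Type*} [Group G] [Finite G] (g : G) :
    (∀ x : G, Group.IsNilpotent ↥(Subgroup.closure ({x, g} : Set G))) ↔ g ∈ ⨆ n : ℕ, Subgroup.upperCentralSeries G n := by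
  exact ⟨rev g, fwd g⟩

end Cfsg.Agent.S3939
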