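import Cfsg.Statements.S3941
import Mathlib
import Cfsg.Agent.Lib.H18.PGroup

set_option autoImplicit false
open Cfsg

namespace Cfsg.Agent.S3941


open Equiv Equiv.Perm

theorem conj_three {α : Type*} [DecidableEq α] (c : Perm α) (a b d : α) :
    c * (swap a b * swap b d) * c⁻¹ = swap (c a) (c b) * swap (c b) (c d) := by
  rw [Equiv.swap_apply_apply, Equiv.swap_apply_apply]
  group

theorem three_inv {α : Type*} [DecidableEq α] (a b d : α) :
    (swap a b * swap b d)⁻¹ = swap b d * swap a b := by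
  rw [mul_inv_rev, Equiv.swap_inv, Equiv.swap_inv]

/-- Three distinct points: the commutator computation in the generic case. -/
theorem x_generic {α : Type*} [DecidableEq α] {a b d e : α} (hab : a ≠ b) (hbd : b ≠ d) (hbe : b ≠ e)
    (hde : d ≠ e) (hae : a ≠ e) (had : a ≠ d) :
    swap b d * swap d e * swap b d * swap a b = swap b e * swap b a := by
  have h1 : swap b d * swap d e * swap b d = swap b e := by
    have := Equiv.swap_apply_apply (swap b d) d e
    rw [Equiv.swap_apply_right, Equiv.swap_apply_of_ne_of_ne hbe.symm hde.symm, Equiv.swap_inv] at this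
    exact this.symm ▸ rfl
  rw [h1, Equiv.swap_comm a b]

theorem x_three {α : Type*} [DecidableEq α] {a b d e : α} (hab : a ≠ b) (hbd : b ≠ d) (had : a ≠ d)
    (hae : a ≠ e) (hbe : b ≠ e) (hde : d ≠ e) :
    swap a b * swap b d * swap a d * swap e a = swap d b * swap e a := by
  have h1 : swap a b * swap b d = swap a d * swap a b := by
    have := Equiv.swap_apply_apply (swap a b) b d
    rw [Equiv.swap_apply_right, Equiv.swap_apply_of_ne_of_ne had.symm hbd.symm, Equiv.swap_inv] at this
    rw [this]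
    have h2 : swap a b * swap a b = (1 : Perm α) := Equiv.swap_mul_self a b
    calc swap a b * swap b d = swap a b * swap b d * (swap a b * swap a b) := by rw [h2, mul_one]
      _ = _ := by group
  rw [h1]
  have := Equiv.swap_apply_apply (swap a d) a b
  rw [Equiv.swap_apply_left, Equiv.swap_apply_of_ne_of_ne hab.symm hbd, Equiv.swap_inv] at this
  rw [this]

theorem disjoint_square {α : Type*} [DecidableEq α] {a b d e : α} (had : a ≠ d) (hae : a ≠ e)
    (hbd : b ≠ d) (hbe : b ≠ e) : (swap a b * swap d e) ^ 2 = 1 := by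
  have hdis : Disjoint (swap a b) (swap d e) := by
    intro x
    by_cases h1 : x = a
    · right; subst h1; exact Equiv.swap_apply_of_ne_of_ne had hae
    · by_cases h2 : x = b
      · right; subst h2; exact Equiv.swap_apply_of_ne_of_ne hbd hbe
      · left; exact Equiv.swap_apply_of_ne_of_ne h1 h2
  rw [hdis.commute.mul_pow, pow_two, pow_two, Equiv.swap_mul_self, Equiv.swap_mul_self, one_mul]


/-- Let n ≥ 5 and p an odd prime with p ≤ n, and suppose that every proper subgroup of the alternating group of degree n whose order is divisible by p has a normal Sylow p-subgroup. Then n = p. -/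
theorem result (n p : ℕ) (hn : 5 ≤ n) [Fact p.Prime] (hp : p ≠ 2) (hpn : p ≤ n)
    (h : ∀ H : Subgroup ↥(alternatingGroup (Fin n)), H ≠ ⊤ → p ∣ Nat.card ↥H → Cfsg.IsPClosed p ↥H) : n = p := by
  classical
  have hp0 := (Fact.out : p.Prime)
  by_contra hne
  have hlt : p + 1 ≤ n := by omega
  have hp3 : 3 ≤ p := by
    have := hp0.two_le
    omega
  -- notation for points of `Fin n`
  let pt : (k : ℕ) → k < n → Fin n := fun k h => ⟨k, h⟩
  let ω : Fin n := ⟨n - 1, by omega⟩
  -- the `p`-cycle
  let l : List (Fin n) := (List.finRange p).map (Fin.castLE (by omega))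
  have hl : l.Nodup := (List.nodup_finRange p).map (Fin.castLE_injective _)
  have hll : l.length = p := by simp [l]
  let c : Perm (Fin n) := l.formPerm
  have hcapp : ∀ i (hi : i < p) (hi1 : i + 1 < p), c ⟨i, by omega⟩ = ⟨i + 1, by omega⟩ := by
    intro i hi hi1
    have h1 := List.formPerm_apply_getElem l hl i (by omega)
    have hmod : (i + 1) % l.length = i + 1 := Nat.mod_eq_of_lt (by omega)
    simp only [hmod] at h1
    have h2 : l[i]'(by omega) = ⟨i, by omega⟩ := by simp [l]
    have h3 : l[i + 1]'(by omega) = ⟨i + 1, by omega⟩ := by simp [l]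
    rw [h2, h3] at h1
    exact h1
  have hcwrap : c ⟨p - 1, by omega⟩ = ⟨0, by omega⟩ := by
    have h1 := List.formPerm_apply_getElem l hl (p - 1) (by omega)
    have h2 : (p - 1 + 1) % l.length = 0 := by
      rw [hll, Nat.sub_add_cancel (by omega), Nat.mod_self]
    simp only [h2] at h1
    have h3 : l[p - 1]'(by omega) = ⟨p - 1, by omega⟩ := by simp [l]
    have h4 : l[0]'(by omega) = ⟨0, by omega⟩ := by simp [l, Fin.ext_iff]
    rw [h3, h4] at h1
    exact h1
  have hcfix : ∀ i (hi : p ≤ i) (hi' : i < n), c ⟨i, hi'⟩ = ⟨i, hi'⟩ := by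
    intro i hi hi'
    apply List.formPerm_apply_of_notMem
    intro hmem
    obtain ⟨j, _, hj⟩ := List.mem_map.1 hmem
    have h1 : (j : ℕ) = i := by simpa using congrArg Fin.val hj
    omega
  have hcpow : c ^ p = 1 := by
    have := List.formPerm_pow_length_eq_one_of_nodup l hl
    rwa [hll] at this
  have hc1 : c ≠ 1 := by
    intro h
    have h1 := hcapp 0 (by omega) (by omega)
    rw [h] at h1
    simp at h1
  have hsignc : sign c = 1 := by
    have h1 : (sign c) ^ p = 1 := by rw [← map_pow, hcpow, map_one]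
    rcases Int.units_eq_one_or (sign c) with h | h
    · exact h
    · rw [h] at h1
      have hodd : Odd p := hp0.odd_of_ne_two hp
      rw [hodd.neg_one_pow] at h1
      exact absurd h1 (by decide)
  have hcω : c ω = ω := hcfix (n - 1) (by omega) (by omega)
  -- the `3`-cycle
  have h4 : 4 ≤ n - 1 := by omega
  let i1 : Fin n := ⟨1, by omega⟩
  let i2 : Fin n := ⟨2, by omega⟩
  let i3 : Fin n := ⟨3, by omega⟩
  have h12 : i1 ≠ i2 := by simp [i1, i2, Fin.ext_iff]
  have h13 : i1 ≠ i3 := by simp [i1, i3, Fin.ext_iff]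
  have h23 : i2 ≠ i3 := by simp [i2, i3, Fin.ext_iff]
  let t : Perm (Fin n) := swap i1 i2 * swap i2 i3
  have hsignt : sign t = 1 := by
    simp only [t, map_mul, sign_swap h12, sign_swap h23]
    decide
  have htω : t ω = ω := by
    have h1 : i1 ≠ ω := by simp [i1, ω, Fin.ext_iff]; omega
    have h2 : i2 ≠ ω := by simp [i2, ω, Fin.ext_iff]; omega
    have h3 : i3 ≠ ω := by simp [i3, ω, Fin.ext_iff]; omega
    simp only [t, Perm.mul_apply]
    rw [swap_apply_of_ne_of_ne h2.symm h3.symm, swap_apply_of_ne_of_ne h1.symm h2.symm]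
  -- the stabilizer of the last point
  let A := alternatingGroup (Fin n)
  let c' : A := ⟨c, by rw [mem_alternatingGroup]; exact hsignc⟩
  let t' : A := ⟨t, by rw [mem_alternatingGroup]; exact hsignt⟩
  let H : Subgroup A :=
    { carrier := {g | (g : Perm (Fin n)) ω = ω}
      one_mem' := rfl
      mul_mem' := by
        intro a b ha hb
        change (a : Perm (Fin n)) ((b : Perm (Fin n)) ω) = ω
        rw [show (b : Perm (Fin n)) ω = ω from hb]
        exact ha
      inv_mem' := by
        intro a ha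
        change ((a : Perm (Fin n)))⁻¹ ω = ω
        rw [Equiv.Perm.inv_eq_iff_eq]
        exact (show (a : Perm (Fin n)) ω = ω from ha).symm }
  have hcH : c' ∈ H := hcω
  have htH : t' ∈ H := htω
  have hHtop : H ≠ ⊤ := by
    intro h
    -- a `3`-cycle moving the last point
    let i0 : Fin n := ⟨0, by omega⟩
    have h01 : i0 ≠ i1 := by simp [i0, i1, Fin.ext_iff]
    have h1ω : i1 ≠ ω := by simp [i1, ω, Fin.ext_iff]; omega
    have h0ω : i0 ≠ ω := by simp [i0, ω, Fin.ext_iff]; omega
    let s : Perm (Fin n) := swap i0 i1 * swap i1 ω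
    have hs : sign s = 1 := by
      simp only [s, map_mul, sign_swap h01, sign_swap h1ω]
      decide
    let s' : A := ⟨s, by rw [mem_alternatingGroup]; exact hs⟩
    have hs' : s' ∈ H := by rw [h]; trivial
    have h5 : s ω = ω := hs'
    simp only [s, Perm.mul_apply, swap_apply_right] at h5
    exact h0ω h5
  have hord : orderOf c' = p := by
    have h1 : c' ^ p = 1 := by
      ext1
      simpa [c'] using hcpow
    have h2 : c' ≠ 1 := fun h => hc1 (congrArg Subtype.val h)
    exact orderOf_eq_prime h1 h2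
  have hdvd : p ∣ Nat.card H := by
    have h1 := Subgroup.orderOf_dvd_natCard H hcH
    rwa [hord] at h1
  have hclosed := h H hHtop hdvd
  obtain ⟨P⟩ : Nonempty (Sylow p H) := inferInstance
  have hPn := hclosed P
  -- `c` lies in `P`
  have hcP : (⟨c', hcH⟩ : H) ∈ (P : Subgroup H) := by
    have h1 : IsPGroup p (Subgroup.zpowers (⟨c', hcH⟩ : H)) := by
      apply IsPGroup.of_card (n := 1)
      rw [Nat.card_zpowers, pow_one, Subgroup.orderOf_mk, hord]
    have h2 := H18.le_of_isPGroup_of_normal_sylow P hPn h1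
    exact h2 (Subgroup.mem_zpowers _)
  -- the commutator lies in `P`
  have hxP : (⟨c', hcH⟩ : H) * ⟨t', htH⟩ * (⟨c', hcH⟩ : H)⁻¹ * (⟨t', htH⟩ : H)⁻¹ ∈ (P : Subgroup H) := by
    have h1 := hPn.conj_mem _ (Subgroup.inv_mem _ hcP) ⟨t', htH⟩
    have h2 := Subgroup.mul_mem _ hcP h1
    have e : (⟨c', hcH⟩ : H) * ⟨t', htH⟩ * (⟨c', hcH⟩ : H)⁻¹ * (⟨t', htH⟩ : H)⁻¹ =
        (⟨c', hcH⟩ : H) * ((⟨t', htH⟩ : H) * (⟨c', hcH⟩ : H)⁻¹ * (⟨t', htH⟩ : H)⁻¹) := by group
    rw [e]; exact h2
  obtain ⟨k, hk⟩ := P.2 ⟨_, hxP⟩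
  have hxpow : (c * t * c⁻¹ * t⁻¹) ^ p ^ k = 1 := by
    have := congrArg (fun z => ((z : H) : A).1) (congrArg Subtype.val hk)
    simpa [c', t'] using this
  have hct : c * t * c⁻¹ * t⁻¹ = (c * t * c⁻¹) * t⁻¹ := rfl
  have hcc : c * t * c⁻¹ = swap (c i1) (c i2) * swap (c i2) (c i3) := conj_three c i1 i2 i3
  have htinv : t⁻¹ = swap i2 i3 * swap i1 i2 := three_inv i1 i2 i3
  rw [hct, hcc, htinv] at hxpow
  by_cases hp5 : 5 ≤ p
  · -- generic case: the commutator is a `3`-cycle
    let i4 : Fin n := ⟨4, by omega⟩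
    have hci1 : c i1 = i2 := hcapp 1 (by omega) (by omega)
    have hci2 : c i2 = i3 := hcapp 2 (by omega) (by omega)
    have hci3 : c i3 = i4 := hcapp 3 (by omega) (by omega)
    rw [hci1, hci2, hci3] at hxpow
    have h24 : i2 ≠ i4 := by simp [i2, i4, Fin.ext_iff]
    have h34 : i3 ≠ i4 := by simp [i3, i4, Fin.ext_iff]
    have h14 : i1 ≠ i4 := by simp [i1, i4, Fin.ext_iff]
    have e : swap i2 i3 * swap i3 i4 * (swap i2 i3 * swap i1 i2) = swap i2 i4 * swap i2 i1 := by
      rw [← mul_assoc, x_generic h12 h23 h24 h34 h14 h13]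
    rw [e] at hxpow
    have hthree : IsThreeCycle (swap i2 i4 * swap i2 i1) :=
      isThreeCycle_swap_mul_swap_same h24 h12.symm h14.symm
    have h5 : orderOf (swap i2 i4 * swap i2 i1) = 3 := hthree.orderOf
    have h6 := orderOf_dvd_of_pow_eq_one hxpow
    rw [h5] at h6
    have h7 : 3 ∣ p := Nat.Prime.dvd_of_dvd_pow Nat.prime_three h6
    have h8 := (Nat.prime_dvd_prime_iff_eq Nat.prime_three hp0).1 h7
    omega
  · -- `p = 3`
    have hp3' : p = 3 := by
      have : p ≠ 4 := by
        rintro rfl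
        exact absurd hp0 (by norm_num)
      omega
    subst hp3'
    let i0 : Fin n := ⟨0, by omega⟩
    have hci1 : c i1 = i2 := hcapp 1 (by omega) (by omega)
    have hci2 : c i2 = i0 := hcwrap
    have hci3 : c i3 = i3 := hcfix 3 (by omega) (by omega)
    rw [hci1, hci2, hci3] at hxpow
    have h02 : i2 ≠ i0 := by simp [i0, i2, Fin.ext_iff]
    have h03 : i0 ≠ i3 := by simp [i0, i3, Fin.ext_iff]
    have h01 : i1 ≠ i0 := by simp [i0, i1, Fin.ext_iff]
    have e : swap i2 i0 * swap i0 i3 * (swap i2 i3 * swap i1 i2) = swap i3 i0 * swap i1 i2 := by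
      rw [← mul_assoc]
      exact x_three h02 h03 h23 h12.symm h01.symm h13.symm
    rw [e] at hxpow
    have hsq : (swap i3 i0 * swap i1 i2) ^ 2 = 1 :=
      disjoint_square h13.symm h23.symm h01.symm h02.symm
    have hne1 : swap i3 i0 * swap i1 i2 ≠ 1 := by
      intro h
      have h1 := congrArg (fun f : Perm (Fin n) => f i1) h
      simp only [Perm.mul_apply, swap_apply_left, Perm.one_apply] at h1
      rw [swap_apply_of_ne_of_ne h23 h02] at h1
      exact h12 h1.symm
    have hord2 : orderOf (swap i3 i0 * swap i1 i2) = 2 := orderOf_eq_prime hsq hne1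
    have h6 := orderOf_dvd_of_pow_eq_one hxpow
    rw [hord2] at h6
    have h7 : 2 ∣ 3 := Nat.Prime.dvd_of_dvd_pow Nat.prime_two h6
    omega

end Cfsg.Agent.S3941
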