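import Cfsg.Statements.S3949
import Mathlib

set_option autoImplicit false
open Cfsg

namespace Cfsg.Agent.S3949

/-- Let G be a finite group and α an automorphism of G of order 2 such that the elements g·α(g)⁻¹ generate G. Let j be a positive integer such that 2^j divides the order of no element inverted by α. Then the set of values of the j-th iterate of the map c ↦ c·α(c)⁻¹ is exactly the set of elements of odd order inverted by α. -/
theorem result {G : Type*} [Group G] [Finite G] (α : MulAut G) (hα : orderOf α = 2) (hG : Subgroup.closure (Set.range (fun c : G => c * (α c)⁻¹)) = ⊤)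
    (j : ℕ) (hj : ∀ g : G, α g = g⁻¹ → ¬ 2 ^ j ∣ orderOf g) :
    Set.range ((fun c : G => c * (α c)⁻¹)^[j]) = {g : G | Odd (orderOf g) ∧ α g = g⁻¹} := by
  classical
  -- notation
  set f : G → G := fun c => c * (α c)⁻¹ with hf
  have hαα : ∀ x : G, α (α x) = x := by
    intro x
    have : α ^ 2 = 1 := by rw [← hα]; exact pow_orderOf_eq_one α
    have h2 : (α ^ 2) x = x := by rw [this]; rfl
    simpa [pow_two] using h2
  -- j ≠ 0
  have hj0 : j ≠ 0 := by
    rintro rfl
    exact hj 1 (by simp) (by simp)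
  obtain ⟨k, rfl⟩ : ∃ k, j = k + 1 := Nat.exists_eq_succ_of_ne_zero hj0
  -- f c is inverted
  have hfinv : ∀ c : G, α (f c) = (f c)⁻¹ := by
    intro c
    simp [hf, hαα]
  -- on inverted elements f is squaring
  have hfsq : ∀ g : G, α g = g⁻¹ → f g = g ^ 2 := by
    intro g hg
    simp [hf, hg, pow_two]
  -- powers of inverted elements are inverted
  have hpowinv : ∀ (g : G) (n : ℕ), α g = g⁻¹ → α (g ^ n) = (g ^ n)⁻¹ := by
    intro g n hg
    simp [map_pow, hg]
  -- iterate on inverted elements
  have hiter : ∀ (n : ℕ) (g : G), α g = g⁻¹ → f^[n] g = g ^ (2 ^ n) := by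
    intro n
    induction n with
    | zero => intro g _; simp
    | succ n ih =>
      intro g hg
      rw [Function.iterate_succ_apply', ih g hg, hfsq _ (hpowinv g _ hg), ← pow_mul, pow_succ]
  ext g
  constructor
  · rintro ⟨c, rfl⟩
    -- compute
    have hval : f^[k + 1] c = (f c) ^ (2 ^ k) := by
      rw [Function.iterate_succ_apply]
      exact hiter k (f c) (hfinv c)
    show Odd (orderOf (f^[k + 1] c)) ∧ α (f^[k + 1] c) = (f^[k + 1] c)⁻¹
    rw [hval]
    refine ⟨?_, hpowinv _ _ (hfinv c)⟩
    -- the order of a power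
    set y := f c with hy
    have hy1 : ¬ 2 ^ (k + 1) ∣ orderOf y := hj y (hfinv c)
    rw [orderOf_pow]
    have hpos : 0 < orderOf y := orderOf_pos y
    -- write order = 2^a m
    obtain ⟨a, m, hm, hn⟩ : ∃ a m : ℕ, ¬ 2 ∣ m ∧ orderOf y = 2 ^ a * m :=
      by
        have := Nat.exists_eq_two_pow_mul_odd hpos.ne'
        obtain ⟨a, m, hm, h⟩ := this
        exact ⟨a, m, hm.not_two_dvd_nat, h⟩
    have hak : a ≤ k := by
      by_contra hcon
      have hcon : k + 1 ≤ a := by omega
      apply hy1
      rw [hn]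
      exact Dvd.dvd.mul_right (pow_dvd_pow 2 hcon) m
    have hm' : Nat.Coprime (2 ^ k) m := Nat.Coprime.pow_left _ ((Nat.Prime.coprime_iff_not_dvd Nat.prime_two).2 hm)
    have hgcd : Nat.gcd (orderOf y) (2 ^ k) = 2 ^ a := by
      rw [hn, Nat.gcd_comm, Nat.Coprime.gcd_mul_right_cancel_right (n := 2 ^ a) ?_ ]
      · exact Nat.gcd_eq_right (pow_dvd_pow 2 hak)
      · exact hm'.symm
    rw [hgcd, hn, Nat.mul_div_cancel_left _ (by positivity)]
    exact Nat.odd_iff.2 (by
      have : m % 2 ≠ 0 := by
        intro h; exact hm (Nat.dvd_of_mod_eq_zero h)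
      omega)
  · rintro ⟨hodd, hinv⟩
    -- find a 2^(k+1)-th root which is a power of g
    have hcop : Nat.Coprime (2 ^ (k + 1)) (orderOf g) :=
      Nat.Coprime.pow_left _ (Nat.coprime_two_left.2 hodd)
    obtain ⟨h, hh⟩ := (powCoprime (G := Subgroup.zpowers g) (n := 2 ^ (k + 1)) (by
      rw [Nat.card_zpowers]; exact hcop.symm)).surjective ⟨g, Subgroup.mem_zpowers g⟩
    have hh' : (h : G) ^ (2 ^ (k + 1)) = g := by
      have := congrArg Subtype.val hh
      simpa using this
    have hinvh : α (h : G) = (h : G)⁻¹ := by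
      obtain ⟨n, hn⟩ := (Subgroup.mem_zpowers_iff.1 h.2)
      rw [← hn]
      simp [map_zpow, hinv]
    refine ⟨(h : G), ?_⟩
    show f^[k + 1] (h : G) = g
    rw [hiter _ _ hinvh, hh']

end Cfsg.Agent.S3949
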