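import Cfsg.Statements.S3982
import Cfsg.Agent.Lib.H19.Lifts
import Mathlib

set_option autoImplicit false
open Cfsg

namespace Cfsg.Agent.S3982

open Cfsg.Agent.H19
open scoped Pointwise

section step

variable {G : Type*} [Group G] [Finite G] (p : ℕ) [Fact p.Prime] (hp2 : p ≠ 2)
  (hC : ∀ g : G, g ≠ 1 → (∃ k : ℕ, orderOf g = p ^ k) → Odd (Nat.card ↥(Subgroup.centralizer ({g} : Set G))))

include hC in
/-- A `p`-element commuting with an involution is trivial. -/
theorem eq_one_of_commute {g t : G} (ht : orderOf t = 2) (hg : ∃ k : ℕ, orderOf g = p ^ k)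
    (hc : t * g = g * t) : g = 1 := by
  by_contra h1
  have h := hC g h1 hg
  have hm : t ∈ Subgroup.centralizer ({g} : Set G) := by
    rw [Subgroup.mem_centralizer_iff]
    intro z hz
    rw [Set.mem_singleton_iff] at hz
    rw [hz]
    exact hc.symm
  have h3 : orderOf (⟨t, hm⟩ : Subgroup.centralizer ({g} : Set G)) ∣ _ := orderOf_dvd_natCard _
  rw [Subgroup.orderOf_mk, ht] at h3
  exact (Nat.not_even_iff_odd.2 h) (even_iff_two_dvd.2 h3)

include hC in
theorem inverts {Q : Subgroup G} (hQ : IsPGroup p Q) {t : G} (ht : orderOf t = 2)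
    (htQ : t ∈ Subgroup.normalizer (Q : Set G)) (q : G) (hq : q ∈ Q) :
    t * q * t⁻¹ = q⁻¹ := by
  have htt : t * t = 1 := by rw [← pow_two, ← ht]; exact pow_orderOf_eq_one t
  have htinv : t⁻¹ = t := inv_eq_of_mul_eq_one_left htt
  have hmem : ∀ z : Q, (z : G)⁻¹ * (t * z * t⁻¹) ∈ Q := by
    intro z
    exact Q.mul_mem (Q.inv_mem z.2) ((Subgroup.mem_normalizer_iff.1 htQ z).1 z.2)
  let f : Q → Q := fun z => ⟨(z : G)⁻¹ * (t * z * t⁻¹), hmem z⟩
  have hinj : Function.Injective f := by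
    intro a b hab
    have h1 : (a : G)⁻¹ * (t * a * t⁻¹) = (b : G)⁻¹ * (t * b * t⁻¹) := congrArg Subtype.val hab
    have h2 : t * ((b : G) * (a : G)⁻¹) = ((b : G) * (a : G)⁻¹) * t := by
      have h3 : (b : G) * (a : G)⁻¹ * (t * a * t⁻¹) = t * b * t⁻¹ := by
        calc (b : G) * (a : G)⁻¹ * (t * a * t⁻¹) = (b : G) * ((a : G)⁻¹ * (t * a * t⁻¹)) := by group
          _ = (b : G) * ((b : G)⁻¹ * (t * b * t⁻¹)) := by rw [h1]
          _ = t * b * t⁻¹ := by group
      calc t * ((b : G) * (a : G)⁻¹) = (t * b * t⁻¹) * (t * (a : G)⁻¹ * t⁻¹) * t := by group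
        _ = (b : G) * (a : G)⁻¹ * (t * a * t⁻¹) * (t * (a : G)⁻¹ * t⁻¹) * t := by rw [h3]
        _ = ((b : G) * (a : G)⁻¹) * t := by group
    have h4 : (b : G) * (a : G)⁻¹ = 1 := by
      apply eq_one_of_commute p hC ht _ h2
      exact orderOf_of_mem_isPGroup hQ (Q.mul_mem b.2 (Q.inv_mem a.2))
    apply Subtype.ext
    exact (mul_inv_eq_one.1 h4).symm
  obtain ⟨z, hz⟩ := (Finite.surjective_of_injective hinj) ⟨q, hq⟩
  have hz' : (z : G)⁻¹ * (t * z * t⁻¹) = q := congrArg Subtype.val hz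
  rw [← hz', htinv]
  calc t * ((z : G)⁻¹ * (t * z * t)) * t = t * (z : G)⁻¹ * t * z * (t * t) := by group
    _ = t * (z : G)⁻¹ * t * z := by rw [htt, mul_one]
    _ = t⁻¹ * (z : G)⁻¹ * t⁻¹ * z := by rw [htinv]
    _ = ((z : G)⁻¹ * (t * z * t))⁻¹ := by group

include hC in
/-- The key step of the argument. -/
theorem step (Q M : Subgroup G) (hQ : IsPGroup p Q) (hQ1 : Q ≠ ⊥)
    (hev : Even (Nat.card ↥(Subgroup.normalizer (Q : Set G))))
    (hMp : IsPGroup p M) (hMN : M ≤ Subgroup.normalizer (Q : Set G)) (hQM : Q < M) :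
    ∃ S : Subgroup G, IsPGroup p S ∧ S ≠ ⊥ ∧ Even (Nat.card ↥(Subgroup.normalizer (S : Set G))) ∧
      Nat.card Q < Nat.card S := by
  classical
  have hp := (Fact.out : p.Prime)
  -- involution
  obtain ⟨t', ht'⟩ := exists_prime_orderOf_dvd_card' (G := Subgroup.normalizer (Q : Set G)) 2
    (even_iff_two_dvd.1 hev)
  set t : G := (t' : G) with htdef
  have ht : orderOf t = 2 := by rw [htdef, Subgroup.orderOf_coe, ht']
  have htN : t ∈ Subgroup.normalizer (Q : Set G) := t'.2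
  have htt : t * t = 1 := by rw [← pow_two, ← ht]; exact pow_orderOf_eq_one t
  have htinv : t⁻¹ = t := inv_eq_of_mul_eq_one_left htt
  have hinv := inverts p hC hQ ht htN
  set C := Subgroup.centralizer (Q : Set G) with hCdef
  set N := Subgroup.normalizer (Q : Set G) with hNdef
  -- Q abelian
  have hQab : ∀ a ∈ Q, ∀ b ∈ Q, a * b = b * a := by
    intro a ha b hb
    have h1 := hinv (a * b) (Q.mul_mem ha hb)
    have h2 : t * (a * b) * t⁻¹ = (t * a * t⁻¹) * (t * b * t⁻¹) := by group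
    rw [h2, hinv a ha, hinv b hb] at h1
    have h3 : a⁻¹ * b⁻¹ = (b * a)⁻¹ := by group
    rw [h3] at h1
    exact (inv_inj.1 h1).symm
  -- C has odd order
  obtain ⟨g₀, hg₀, hg₀1⟩ := (Subgroup.bot_or_exists_ne_one Q).resolve_left hQ1
  have hCodd : Odd (Nat.card C) := by
    have h1 := hC g₀ hg₀1 (orderOf_of_mem_isPGroup hQ hg₀)
    have h2 : C ≤ Subgroup.centralizer ({g₀} : Set G) := by
      apply Subgroup.centralizer_le
      simpa using hg₀
    exact Odd.of_dvd_nat h1 (Subgroup.card_dvd_of_le h2)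
  have hCN : C ≤ N := by
    intro e he
    apply mem_normalizer_of_conj_le
    intro q hq
    have h1 : q * e = e * q := Subgroup.mem_centralizer_iff.1 he q hq
    rw [← h1]
    simpa using hq
  have hCnorm : ∀ x ∈ N, ∀ e ∈ C, x * e * x⁻¹ ∈ C := by
    intro x hx e he
    rw [Subgroup.mem_centralizer_iff]
    intro q hq
    have h1 : x⁻¹ * q * x ∈ Q := by
      have h2 := (Subgroup.mem_normalizer_iff.1 (N.inv_mem hx) q).1 hq
      simpa using h2
    have h3 : (x⁻¹ * q * x) * e = e * (x⁻¹ * q * x) := Subgroup.mem_centralizer_iff.1 he _ h1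
    calc q * (x * e * x⁻¹) = x * ((x⁻¹ * q * x) * e) * x⁻¹ := by group
      _ = x * (e * (x⁻¹ * q * x)) * x⁻¹ := by rw [h3]
      _ = x * e * x⁻¹ * q := by group
  have hcomm : ∀ v ∈ N, v * t * v⁻¹ * t⁻¹ ∈ C := by
    intro v hv
    rw [Subgroup.mem_centralizer_iff]
    intro q hq
    have e1 : t⁻¹ * q = q⁻¹ * t⁻¹ := by
      have h1 := hinv q hq
      rw [htinv] at h1 ⊢
      rw [← h1]
      calc t * q = t * q * (t * t) := by rw [htt, mul_one]
        _ = t * q * t * t := by group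
    have hr : v⁻¹ * q⁻¹ * v ∈ Q := by
      have h2 := (Subgroup.mem_normalizer_iff.1 (N.inv_mem hv) q⁻¹).1 (Q.inv_mem hq)
      simpa using h2
    have e2 : t * (v⁻¹ * q⁻¹ * v) = (v⁻¹ * q * v) * t := by
      have h1 := hinv _ hr
      have h3 : (v⁻¹ * q⁻¹ * v)⁻¹ = v⁻¹ * q * v := by group
      rw [h3] at h1
      rw [← h1]
      group
    calc q * (v * t * v⁻¹ * t⁻¹) = v * ((v⁻¹ * q * v) * t) * v⁻¹ * t⁻¹ := by group
      _ = v * (t * (v⁻¹ * q⁻¹ * v)) * v⁻¹ * t⁻¹ := by rw [e2]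
      _ = v * t * v⁻¹ * (q⁻¹ * t⁻¹) := by group
      _ = v * t * v⁻¹ * (t⁻¹ * q) := by rw [e1]
      _ = v * t * v⁻¹ * t⁻¹ * q := by group
  -- conjugating t by v inside C
  have hcd : ∀ v ∈ N, ∃ d ∈ C, t * (d⁻¹ * v) = (d⁻¹ * v) * t := by
    intro v hv
    set c := v * t * v⁻¹ * t⁻¹ with hc
    have hcC : c ∈ C := hcomm v hv
    have hcodd : Odd (orderOf c) := by
      have h1 : orderOf (⟨c, hcC⟩ : C) ∣ Nat.card C := orderOf_dvd_natCard _
      rw [Subgroup.orderOf_mk] at h1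
      exact Odd.of_dvd_nat hCodd h1
    obtain ⟨ℓ, hℓ⟩ := hcodd
    set d := c ^ (ℓ + 1) with hd
    have hdd : d * d = c := by
      have h1 : c ^ (2 * ℓ + 1) = 1 := by rw [← hℓ]; exact pow_orderOf_eq_one c
      rw [hd, ← pow_add]
      have : ℓ + 1 + (ℓ + 1) = (2 * ℓ + 1) + 1 := by ring
      rw [this, pow_succ, h1, one_mul]
    have htc : t * c * t⁻¹ = c⁻¹ := by
      rw [hc]
      have hw : (v * t * v⁻¹) * (v * t * v⁻¹) = 1 := by
        calc (v * t * v⁻¹) * (v * t * v⁻¹) = v * (t * t) * v⁻¹ := by group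
          _ = 1 := by rw [htt]; group
      have hwinv : (v * t * v⁻¹)⁻¹ = v * t * v⁻¹ := inv_eq_of_mul_eq_one_left hw
      rw [htinv]
      calc t * (v * t * v⁻¹ * t) * t = t * (v * t * v⁻¹) * (t * t) := by group
        _ = t * (v * t * v⁻¹) := by rw [htt, mul_one]
        _ = t⁻¹ * (v * t * v⁻¹)⁻¹ := by rw [htinv, hwinv]
        _ = (v * t * v⁻¹ * t)⁻¹ := by group
    have htd : t * d * t⁻¹ = d⁻¹ := by
      rw [hd, ← conj_pow, htc, inv_pow]
    have htd' : t * d⁻¹ = d * t := by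
      have h1 : t * d⁻¹ * t⁻¹ = d := by
        have h2 : t * d⁻¹ * t⁻¹ = (t * d * t⁻¹)⁻¹ := by group
        rw [h2, htd, inv_inv]
      calc t * d⁻¹ = (t * d⁻¹ * t⁻¹) * t := by group
        _ = d * t := by rw [h1]
    refine ⟨d, C.pow_mem hcC _, ?_⟩
    have hconj : d * t * d⁻¹ = v * t * v⁻¹ := by
      calc d * t * d⁻¹ = d * (t * d⁻¹) := by group
        _ = d * (d * t) := by rw [htd']
        _ = (d * d) * t := by group
        _ = c * t := by rw [hdd]
        _ = v * t * v⁻¹ := by rw [hc]; group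
    have h5 : (d⁻¹ * v) * t * (d⁻¹ * v)⁻¹ = t := by
      calc (d⁻¹ * v) * t * (d⁻¹ * v)⁻¹ = d⁻¹ * (v * t * v⁻¹) * d := by group
        _ = d⁻¹ * (d * t * d⁻¹) * d := by rw [hconj]
        _ = t := by group
    calc t * (d⁻¹ * v) = ((d⁻¹ * v) * t * (d⁻¹ * v)⁻¹) * (d⁻¹ * v) := by rw [h5]
      _ = (d⁻¹ * v) * t := by group
  -- M ≤ C
  have hMC : M ≤ C := by
    intro v hv
    have hvN := hMN hv
    obtain ⟨d, hd, hk⟩ := hcd v hvN
    set k := d⁻¹ * v with hkdef
    have hvk : v = d * k := by rw [hkdef]; group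
    have hkN : k ∈ N := N.mul_mem (N.inv_mem (hCN hd)) hvN
    -- k is a p'-element
    obtain ⟨k₁, k₂, hk12, -, hk₁, hk₂, hk₁m, hk₂m⟩ := exists_primary_decomp p k
    have hcommt : ∀ w ∈ Subgroup.zpowers k, t * w = w * t := by
      rintro w ⟨i, rfl⟩
      have : Commute t k := hk
      exact (this.zpow_right i).eq
    have hk₁1 : k₁ = 1 := eq_one_of_commute p hC ht hk₁ (hcommt _ hk₁m)
    have hkk₂ : k = k₂ := by rw [hk12, hk₁1, one_mul]
    have hcopk : (orderOf k).Coprime p := by rw [hkk₂]; exact hk₂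
    obtain ⟨a, ha⟩ := orderOf_of_mem_isPGroup hMp hv
    have hpow : ∀ n : ℕ, ∃ e ∈ C, (d * k) ^ n = e * k ^ n := by
      intro n
      induction n with
      | zero => exact ⟨1, C.one_mem, by simp⟩
      | succ n ih =>
        obtain ⟨e, he, h1⟩ := ih
        refine ⟨e * (k ^ n * d * (k ^ n)⁻¹), C.mul_mem he (hCnorm _ (N.pow_mem hkN n) _ hd), ?_⟩
        rw [pow_succ, h1]
        rw [pow_succ]
        group
    obtain ⟨e, he, h1⟩ := hpow (p ^ a)
    rw [← hvk, ← ha, pow_orderOf_eq_one, ha] at h1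
    have hkpow : k ^ p ^ a ∈ C := by
      have : k ^ p ^ a = e⁻¹ := (inv_eq_of_mul_eq_one_right h1.symm).symm
      rw [this]
      exact C.inv_mem he
    have hkC : k ∈ C :=
      (Subgroup.zpowers_le.2 hkpow) (mem_zpowers_pow_of_coprime (Nat.Coprime.pow_right a hcopk))
    rw [hvk]
    exact C.mul_mem hd hkC
  -- Sylow of C
  have hM' : IsPGroup p (M.subgroupOf C) := hMp.comap_subtype
  obtain ⟨T, hT⟩ := hM'.exists_le_sylow
  set S : Subgroup G := (T : Subgroup C).map C.subtype with hS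
  have hScard : Nat.card S = Nat.card T := by
    rw [hS]
    exact Subgroup.card_map_of_injective C.subtype_injective
  have hMcard : Nat.card M ≤ Nat.card T := by
    have h1 : Nat.card (M.subgroupOf C) = Nat.card M :=
      Nat.card_congr (Subgroup.subgroupOfEquivOfLe hMC).toEquiv
    rw [← h1]
    exact Subgroup.card_le_of_le hT
  have hQcard : Nat.card Q < Nat.card M := by
    by_contra h
    exact hQM.ne (Subgroup.eq_of_le_of_card_ge hQM.le (not_lt.1 h))
  have hScard2 : Nat.card Q < Nat.card S := by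
    rw [hScard]; omega
  refine ⟨S, T.isPGroup'.map _, ?_, ?_, hScard2⟩
  · rintro h
    rw [h, Subgroup.card_bot] at hScard2
    have : 0 < Nat.card Q := Nat.card_pos
    omega
  -- even normalizer
  have htNC : t ∈ Subgroup.normalizer (C : Set G) :=
    mem_normalizer_of_conj_le (fun e he => hCnorm t htN e he)
  let tt : Subgroup.normalizer (C : Set G) := ⟨t, htNC⟩
  let σ : MulAut C := C.normalizerMonoidHom tt
  have hσinv : ∀ w : C, ((σ⁻¹ w : C) : G) = t⁻¹ * w * t := by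
    intro w
    have h1 : σ⁻¹ = C.normalizerMonoidHom tt⁻¹ := by
      rw [map_inv]
    rw [h1]
    show t⁻¹ * w * t⁻¹⁻¹ = t⁻¹ * w * t
    rw [inv_inv]
  obtain ⟨c₀, hc₀⟩ := MulAction.exists_smul_eq C T (σ • T)
  set u : G := t⁻¹ * c₀ with hu
  have huS : u ∈ Subgroup.normalizer (S : Set G) := by
    apply mem_normalizer_of_conj_le
    rintro _ ⟨z, hz, rfl⟩
    have h1 : c₀ * z * c₀⁻¹ ∈ ((σ • T : Sylow p C) : Subgroup C) := by
      rw [← hc₀, Sylow.coe_subgroup_smul, mem_conj_smul]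
      have e : c₀⁻¹ * (c₀ * z * c₀⁻¹) * c₀ = z := by group
      rw [e]
      exact hz
    rw [Sylow.pointwise_smul_def, Subgroup.mem_pointwise_smul_iff_inv_smul_mem, MulAut.smul_def] at h1
    refine ⟨σ⁻¹ (c₀ * z * c₀⁻¹), h1, ?_⟩
    rw [Subgroup.coe_subtype, hσinv, hu]
    simp only [Subgroup.coe_mul, Subgroup.coe_inv, mul_inv_rev, inv_inv]
    group
  have huodd : ¬ Odd (orderOf u) := by
    intro hodd
    have h1 : u ^ 2 ∈ C := by
      have : u ^ 2 = (t⁻¹ * c₀ * t) * (t⁻¹ * t⁻¹) * c₀ := by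
        rw [hu, pow_two]; group
      rw [this, htinv, htt, mul_one]
      refine C.mul_mem ?_ c₀.2
      have h2 := hCnorm t htN c₀ c₀.2
      rw [htinv] at h2
      exact h2
    have h2 : u ∈ C := (Subgroup.zpowers_le.2 h1) (mem_zpowers_sq_of_odd hodd)
    have h3 : t ∈ C := by
      have : t = c₀ * u⁻¹ := by rw [hu]; group
      rw [this]
      exact C.mul_mem c₀.2 (C.inv_mem h2)
    have h4 : orderOf (⟨t, h3⟩ : C) ∣ Nat.card C := orderOf_dvd_natCard _
    rw [Subgroup.orderOf_mk, ht] at h4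
    exact (Nat.not_even_iff_odd.2 hCodd) (even_iff_two_dvd.2 h4)
  have h5 : orderOf (⟨u, huS⟩ : Subgroup.normalizer (S : Set G)) ∣ Nat.card (Subgroup.normalizer (S : Set G)) :=
    orderOf_dvd_natCard _
  rw [Subgroup.orderOf_mk] at h5
  rw [even_iff_two_dvd]
  rw [Nat.not_odd_iff_even, even_iff_two_dvd] at huodd
  exact huodd.trans h5

end step

/-- Let p be an odd prime and G a finite group of even order divisible by p in which the centralizer of every non-identity p-element has odd order. If some nontrivial p-subgroup of G has a normalizer of even order, then the normalizer of every Sylow p-subgroup of G has even order. -/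
theorem result {G : Type*} [Group G] [Finite G] (p : ℕ) [Fact p.Prime] (hp2 : p ≠ 2) (hpG : p ∣ Nat.card G) (h2G : 2 ∣ Nat.card G) (hC : ∀ g : G, g ≠ 1 → (∃ k : ℕ, orderOf g = p ^ k) → Odd (Nat.card ↥(Subgroup.centralizer ({g} : Set G)))) (Q : Subgroup G) (hQ : IsPGroup p ↥Q) (hQ1 : Q ≠ ⊥) (hev : Even (Nat.card ↥(Subgroup.normalizer (Q : Set G)))) (P : Sylow p G) : Even (Nat.card ↥(Subgroup.normalizer ((P : Subgroup G) : Set G))) := by
  classical
  let 𝒮 : Set (Subgroup G) := {Q | IsPGroup p Q ∧ Q ≠ ⊥ ∧ Even (Nat.card ↥(Subgroup.normalizer (Q : Set G)))}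
  obtain ⟨Q₀, ⟨hQ₀p, hQ₀1, hQ₀e⟩, hQ₀max⟩ :=
    Set.exists_max_image 𝒮 (fun Q : Subgroup G => Nat.card Q) (Set.toFinite _) ⟨Q, hQ, hQ1, hev⟩
  obtain ⟨P₀, hP₀⟩ := hQ₀p.exists_le_sylow
  have hEq : Q₀ = P₀ := by
    by_contra hne
    have hlt : Q₀ < P₀ := lt_of_le_of_ne hP₀ hne
    have : Group.IsNilpotent (P₀ : Subgroup G) := P₀.isPGroup'.isNilpotent
    obtain ⟨r, hrP, hrQ, hrN⟩ := exists_mem_normalizer_of_lt hlt this
    set M := (P₀ : Subgroup G) ⊓ Subgroup.normalizer (Q₀ : Set G) with hM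
    have hMp : IsPGroup p M := P₀.isPGroup'.to_le inf_le_left
    have hQM : Q₀ < M := by
      refine lt_of_le_of_ne (le_inf hP₀ Subgroup.le_normalizer) ?_
      intro h
      apply hrQ
      rw [h]
      exact ⟨hrP, hrN⟩
    obtain ⟨S, hS1, hS2, hS3, hS4⟩ := step p hC Q₀ M hQ₀p hQ₀1 hQ₀e hMp inf_le_right hQM
    have := hQ₀max S ⟨hS1, hS2, hS3⟩
    exact absurd hS4 (not_lt.2 this)
  have hidx : (Subgroup.normalizer ((P : Subgroup G) : Set G)).index
      = (Subgroup.normalizer ((P₀ : Subgroup G) : Set G)).index :=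
    (Sylow.card_eq_index_normalizer P).symm.trans (Sylow.card_eq_index_normalizer P₀)
  have hcard : Nat.card (Subgroup.normalizer ((P : Subgroup G) : Set G))
      = Nat.card (Subgroup.normalizer ((P₀ : Subgroup G) : Set G)) := by
    have h1 := Subgroup.card_mul_index (Subgroup.normalizer ((P : Subgroup G) : Set G))
    have h2 := Subgroup.card_mul_index (Subgroup.normalizer ((P₀ : Subgroup G) : Set G))
    rw [hidx, ← h2] at h1
    exact Nat.eq_of_mul_eq_mul_right (Nat.pos_of_ne_zero Subgroup.index_ne_zero_of_finite) h1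
  rw [hcard, ← hEq]
  exact hQ₀e

end Cfsg.Agent.S3982
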