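import Cfsg.Statements.S3983
import Cfsg.Agent.Lib.H19.TI
import Mathlib

set_option autoImplicit false
open Cfsg
open scoped Pointwise

namespace Cfsg.Agent.S3983

open Cfsg.Agent.H19

/-- Let P be a Sylow p-subgroup of the finite group G that meets each conjugate g P g⁻¹ with g outside N_G(P) trivially, and let U be a subgroup of G of order divisible by p. Then a Sylow p-subgroup Q of U has the same property inside U: Q meets each conjugate u Q u⁻¹ with u ∈ U outside N_U(Q) trivially. -/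
theorem result {G : Type*} [Group G] [Finite G] (p : ℕ) [Fact p.Prime] (P : Sylow p G) (hTI : ∀ g : G, g ∉ Subgroup.normalizer ((P : Subgroup G) : Set G) → (P : Subgroup G) ⊓ (MulAut.conj g • (P : Subgroup G)) = ⊥) (U : Subgroup G) (hU : p ∣ Nat.card ↥U) (Q : Sylow p ↥U) : ∀ u : ↥U, u ∉ Subgroup.normalizer ((Q : Subgroup ↥U) : Set ↥U) → (Q : Subgroup ↥U) ⊓ (MulAut.conj u • (Q : Subgroup ↥U)) = ⊥ := by
  intro u hu
  by_contra hne
  obtain ⟨x, hx, hx1⟩ := (Subgroup.bot_or_exists_ne_one _).resolve_left hne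
  obtain ⟨hxQ, hxuQ⟩ := Subgroup.mem_inf.1 hx
  rw [mem_conj_smul] at hxuQ
  have hQ1 : IsPGroup p ((Q : Subgroup U).map U.subtype) := Q.isPGroup'.map _
  obtain ⟨P', hP'⟩ := hQ1.exists_le_sylow
  have hmem : ∀ z : U, z ∈ (Q : Subgroup U) → (z : G) ∈ (P' : Subgroup G) :=
    fun z hz => hP' ⟨z, hz, rfl⟩
  have hP'1 : (x : G) ∈ (P' : Subgroup G) := hmem x hxQ
  have hP'2 : (x : G) ∈ ((u : G) • P' : Sylow p G).toSubgroup := by
    show (x : G) ∈ (((u : G) • P' : Sylow p G) : Subgroup G)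
    rw [Sylow.coe_subgroup_smul, mem_conj_smul]
    exact hmem _ hxuQ
  have hx1' : (x : G) ≠ 1 := fun h => hx1 (Subtype.ext h)
  have heq := ti_sylow_eq P hTI P' ((u : G) • P') x hx1' hP'1 hP'2
  have hnorm : (u : G) ∈ Subgroup.normalizer ((P' : Subgroup G) : Set G) :=
    Sylow.smul_eq_iff_mem_normalizer.1 heq.symm
  -- Q = P' ∩ U
  have hQeq : (P' : Subgroup G).subgroupOf U = (Q : Subgroup U) := by
    apply Q.is_maximal' (P'.isPGroup'.comap_subtype)
    intro z hz
    exact hmem z hz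
  apply hu
  rw [← hQeq, Subgroup.mem_normalizer_iff]
  intro z
  rw [Subgroup.mem_subgroupOf, Subgroup.mem_subgroupOf]
  exact Subgroup.mem_normalizer_iff.1 hnorm z

end Cfsg.Agent.S3983
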