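import Cfsg.Statements.S3984
import Cfsg.Agent.Lib.H19.TI
import Mathlib

set_option autoImplicit false
open Cfsg
open scoped Pointwise

namespace Cfsg.Agent.S3984

open Cfsg.Agent.H19

/-- lifting lemma: a `p`-element with image in `π(P₁)` lies in a Sylow subgroup with the same image as `P₁`. -/
theorem exists_sylow_same_image {G : Type*} [Group G] [Finite G] (p : ℕ) [Fact p.Prime]
    (N : Subgroup G) [N.Normal] (P₁ : Sylow p G) (w : G) (k : ℕ) (hw : orderOf w = p ^ k)
    (hπ : (w : G ⧸ N) ∈ (P₁ : Subgroup G).map (QuotientGroup.mk' N)) :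
    ∃ P₂ : Sylow p G, w ∈ (P₂ : Subgroup G) ∧
      (P₂ : Subgroup G).map (QuotientGroup.mk' N) = (P₁ : Subgroup G).map (QuotientGroup.mk' N) := by
  classical
  set K : Subgroup G := (P₁ : Subgroup G) ⊔ N with hK
  have hwK : w ∈ K := by
    obtain ⟨a, ha, hae⟩ := hπ
    have h1 : (QuotientGroup.mk' N) (a⁻¹ * w) = 1 := by
      rw [map_mul, map_inv, hae]
      simp
    have h2 : a⁻¹ * w ∈ N := (QuotientGroup.eq_one_iff _).1 h1
    have : w = a * (a⁻¹ * w) := by group
    rw [this]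
    exact K.mul_mem (Subgroup.mem_sup_left ha) (Subgroup.mem_sup_right h2)
  have hZ : IsPGroup p (Subgroup.zpowers (⟨w, hwK⟩ : K)) := by
    apply isPGroup_zpowers_of_orderOf (k := k)
    rw [Subgroup.orderOf_mk, hw]
  obtain ⟨R, hR⟩ := hZ.exists_le_sylow
  let S : Sylow p K := P₁.subtype le_sup_left
  obtain ⟨h, hh⟩ := MulAction.exists_smul_eq K S R
  refine ⟨(h : G) • P₁, ?_, ?_⟩
  · have h1 : (⟨w, hwK⟩ : K) ∈ (R : Subgroup K) := hR (Subgroup.mem_zpowers _)
    rw [← hh, Sylow.coe_subgroup_smul, mem_conj_smul] at h1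
    rw [Sylow.coe_subgroup_smul, mem_conj_smul]
    have h2 : h⁻¹ * ⟨w, hwK⟩ * h ∈ (P₁ : Subgroup G).subgroupOf K := h1
    rw [Subgroup.mem_subgroupOf] at h2
    exact h2
  · -- image of h lies in the image of P₁
    have hhim : (QuotientGroup.mk' N) (h : G) ∈ (P₁ : Subgroup G).map (QuotientGroup.mk' N) := by
      have h3 : (P₁ : Subgroup G) ⊔ N ≤ ((P₁ : Subgroup G).map (QuotientGroup.mk' N)).comap (QuotientGroup.mk' N) := by
        apply sup_le
        · exact Subgroup.le_comap_map _ _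
        · intro z hz
          rw [Subgroup.mem_comap]
          have : (QuotientGroup.mk' N) z = 1 := (QuotientGroup.eq_one_iff _).2 hz
          rw [this]
          exact Subgroup.one_mem _
      exact h3 h.2
    apply le_antisymm
    · rintro _ ⟨z, hz, rfl⟩
      rw [SetLike.mem_coe, Sylow.coe_subgroup_smul, mem_conj_smul] at hz
      have e : (QuotientGroup.mk' N) z = (QuotientGroup.mk' N) (h : G) * (QuotientGroup.mk' N) ((h : G)⁻¹ * z * h)
          * ((QuotientGroup.mk' N) (h : G))⁻¹ := by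
        simp only [map_mul, map_inv]
        group
      rw [e]
      exact Subgroup.mul_mem _ (Subgroup.mul_mem _ hhim ⟨_, hz, rfl⟩) (Subgroup.inv_mem _ hhim)
    · rintro _ ⟨z, hz, rfl⟩
      have hmid : ((QuotientGroup.mk' N) (h : G))⁻¹ * (QuotientGroup.mk' N) z * (QuotientGroup.mk' N) (h : G)
          ∈ (P₁ : Subgroup G).map (QuotientGroup.mk' N) :=
        Subgroup.mul_mem _ (Subgroup.mul_mem _ (Subgroup.inv_mem _ hhim) ⟨z, hz, rfl⟩) hhim
      obtain ⟨z', hz', he⟩ := hmid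
      refine ⟨(h : G) * z' * (h : G)⁻¹, ?_, ?_⟩
      · rw [SetLike.mem_coe, Sylow.coe_subgroup_smul, mem_conj_smul]
        have e : (h : G)⁻¹ * ((h : G) * z' * (h : G)⁻¹) * h = z' := by group
        rw [e]
        exact hz'
      · rw [map_mul, map_mul, map_inv, he]
        group

/-- Let P be a Sylow p-subgroup of the finite group G that meets each conjugate g P g⁻¹ with g outside N_G(P) trivially, and let N be a normal subgroup of G of order prime to p. Then every Sylow p-subgroup Q of G ⧸ N meets each conjugate x Q x⁻¹ with x outside its normalizer trivially. -/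
theorem result {G : Type*} [Group G] [Finite G] (p : ℕ) [Fact p.Prime] (P : Sylow p G) (hTI : ∀ g : G, g ∉ Subgroup.normalizer ((P : Subgroup G) : Set G) → (P : Subgroup G) ⊓ (MulAut.conj g • (P : Subgroup G)) = ⊥) (N : Subgroup G) [N.Normal] (hN : (Nat.card ↥N).Coprime p) (Q : Sylow p (G ⧸ N)) : ∀ x : G ⧸ N, x ∉ Subgroup.normalizer ((Q : Subgroup (G ⧸ N)) : Set (G ⧸ N)) → (Q : Subgroup (G ⧸ N)) ⊓ (MulAut.conj x • (Q : Subgroup (G ⧸ N))) = ⊥ := by
  classical
  intro x hx
  by_contra hne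
  have hsurj : Function.Surjective (QuotientGroup.mk' N) := QuotientGroup.mk'_surjective N
  obtain ⟨P', rfl⟩ := Sylow.mapSurjective_surjective hsurj p Q
  obtain ⟨g, rfl⟩ := hsurj x
  rw [Sylow.coe_mapSurjective] at hne
  obtain ⟨y, hy, hy1⟩ := (Subgroup.bot_or_exists_ne_one _).resolve_left hne
  obtain ⟨hy2, hy3⟩ := Subgroup.mem_inf.1 hy
  -- lift y to a p-element
  have hyord : ∀ r : ℕ, r.Prime → r ∣ orderOf y → r ∈ ({p} : Set ℕ) := by
    intro r hr hr1
    have hp : IsPGroup p ((P' : Subgroup G).map (QuotientGroup.mk' N)) := P'.isPGroup'.map _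
    obtain ⟨k, hk⟩ := orderOf_of_mem_isPGroup hp hy2
    rw [hk] at hr1
    exact (Nat.prime_dvd_prime_iff_eq hr (Fact.out)).1 (hr.dvd_of_dvd_pow hr1)
  obtain ⟨w, hw, hw1⟩ := exists_pi_lift (QuotientGroup.mk' N) hsurj {p} y hyord
  subst hw
  have hword : ∃ k, orderOf w = p ^ k := by
    refine ⟨_, Nat.eq_prime_pow_of_unique_prime_dvd (orderOf_pos w).ne' (fun {d} hd hd1 => ?_)⟩
    exact hw1 d hd hd1
  obtain ⟨k, hk⟩ := hword
  have hwne : w ≠ 1 := by
    rintro rfl
    exact hy1 (map_one _)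
  -- the two Sylow subgroups
  obtain ⟨P₂, hP₂, hP₂e⟩ := exists_sylow_same_image p N P' w k hk hy2
  have hy3' : (QuotientGroup.mk' N w) ∈ ((g • P' : Sylow p G) : Subgroup G).map (QuotientGroup.mk' N) := by
    rw [mem_conj_smul] at hy3
    obtain ⟨z, hz, he⟩ := hy3
    refine ⟨g * z * g⁻¹, ?_, ?_⟩
    · rw [SetLike.mem_coe, Sylow.coe_subgroup_smul, mem_conj_smul]
      have e : g⁻¹ * (g * z * g⁻¹) * g = z := by group
      rw [e]
      exact hz
    · rw [map_mul, map_mul, map_inv, he]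
      group
  obtain ⟨P₃, hP₃, hP₃e⟩ := exists_sylow_same_image p N (g • P') w k hk hy3'
  have heq := ti_sylow_eq P hTI P₂ P₃ w hwne hP₂ hP₃
  subst heq
  apply hx
  apply mem_normalizer_of_conj_le
  intro q hq
  rw [Sylow.coe_mapSurjective] at hq ⊢
  rw [← hP₂e, hP₃e]
  obtain ⟨z, hz, rfl⟩ := hq
  refine ⟨g * z * g⁻¹, ?_, by simp⟩
  rw [SetLike.mem_coe, Sylow.coe_subgroup_smul, mem_conj_smul]
  have e : g⁻¹ * (g * z * g⁻¹) * g = z := by group
  rw [e]
  exact hz

end Cfsg.Agent.S3984
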