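import Cfsg.Statements.S3985
import Cfsg.Agent.Lib.H19.TI
import Mathlib

set_option autoImplicit false
open Cfsg
open scoped Pointwise

namespace Cfsg.Agent.S3985

open Cfsg.Agent.H19

theorem int_lemma (p n : ℕ) (hp : p.Prime) (k : ℤ) (r : ℕ) (h1 : ((p ^ n : ℕ) : ℤ) ∣ k ^ r - 1)
    (h2 : (p : ℤ) ∣ k - 1) (h3 : ¬ p ∣ r) : ((p ^ n : ℕ) : ℤ) ∣ k - 1 := by
  have hs : ∀ r : ℕ, (p : ℤ) ∣ (∑ i ∈ Finset.range r, k ^ i) - r := by
    intro r
    induction r with
    | zero => simp
    | succ r ih =>
      rw [Finset.sum_range_succ]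
      have h4 : (p : ℤ) ∣ k ^ r - 1 := h2.trans (by simpa using sub_dvd_pow_sub_pow k 1 r)
      have e : (∑ i ∈ Finset.range r, k ^ i) + k ^ r - ((r + 1 : ℕ) : ℤ)
          = ((∑ i ∈ Finset.range r, k ^ i) - r) + (k ^ r - 1) := by
        push_cast; ring
      rw [e]
      exact dvd_add ih h4
  have hcop : IsCoprime ((p ^ n : ℕ) : ℤ) (∑ i ∈ Finset.range r, k ^ i) := by
    rw [Nat.cast_pow]
    apply IsCoprime.pow_left
    have hprime : Prime (p : ℤ) := Nat.prime_iff_prime_int.1 hp
    rw [Prime.coprime_iff_not_dvd hprime]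
    intro h
    have h5 : (p : ℤ) ∣ r := by
      have := dvd_sub h (hs r)
      simpa using this
    exact h3 (Int.natCast_dvd_natCast.1 h5)
  have hgeom : (∑ i ∈ Finset.range r, k ^ i) * (k - 1) = k ^ r - 1 := geom_sum_mul k r
  rw [← hgeom] at h1
  exact hcop.dvd_of_dvd_mul_left h1

/-- Let P be a cyclic Sylow p-subgroup of the finite group G. Then P meets each conjugate g P g⁻¹ with g outside N_G(P) trivially if and only if P is weakly self-centralizing: C_G(x) = C_G(P) for every non-identity x ∈ P. -/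
theorem result {G : Type*} [Group G] [Finite G] (p : ℕ) [Fact p.Prime] (P : Sylow p G) (hcyc : IsCyclic ↥(P : Subgroup G)) : (∀ g : G, g ∉ Subgroup.normalizer ((P : Subgroup G) : Set G) → (P : Subgroup G) ⊓ (MulAut.conj g • (P : Subgroup G)) = ⊥) ↔ ∀ x : G, x ∈ (P : Subgroup G) → x ≠ 1 → Subgroup.centralizer ({x} : Set G) = Subgroup.centralizer ((P : Subgroup G) : Set G) := by
  classical
  have hp := (Fact.out : p.Prime)
  have hab : ∀ a ∈ (P : Subgroup G), ∀ b ∈ (P : Subgroup G), a * b = b * a := by
    intro a ha b hb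
    have := hcyc.isMulCommutative
    have h1 := this.is_comm.comm ⟨a, ha⟩ ⟨b, hb⟩
    exact congrArg Subtype.val h1
  constructor
  · intro hTI x hx hx1
    apply le_antisymm
    · intro g hg
      have hgx : g * x = x * g := (Subgroup.mem_centralizer_iff.1 hg x rfl).symm
      -- g normalizes P
      have hgN : g ∈ Subgroup.normalizer ((P : Subgroup G) : Set G) := by
        by_contra hno
        have h1 := hTI g hno
        have h2 : x ∈ (P : Subgroup G) ⊓ (MulAut.conj g • (P : Subgroup G)) := by
          refine Subgroup.mem_inf.2 ⟨hx, ?_⟩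
          rw [mem_conj_smul]
          have e : g⁻¹ * x * g = x := by
            rw [mul_assoc, ← hgx]; simp
          rw [e]; exact hx
        rw [h1, Subgroup.mem_bot] at h2
        exact hx1 h2
      obtain ⟨a, b, hab', -, ⟨j, hj⟩, hb, ham, hbm⟩ := exists_primary_decomp p g
      have hamN := (Subgroup.zpowers_le.2 hgN) ham
      have hbmN := (Subgroup.zpowers_le.2 hgN) hbm
      -- a ∈ P
      have haP : a ∈ (P : Subgroup G) := by
        have h1 := (isPGroup_zpowers_of_orderOf hj).inf_normalizer_sylow P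
        have h2 : a ∈ Subgroup.zpowers a ⊓ Subgroup.normalizer ((P : Subgroup G) : Set G) :=
          Subgroup.mem_inf.2 ⟨Subgroup.mem_zpowers a, hamN⟩
        have h3 : a ∈ Subgroup.zpowers a ⊓ (P : Subgroup G) := by
          rw [← h1]; exact h2
        exact (Subgroup.mem_inf.1 h3).2
      -- generator
      obtain ⟨⟨z, hzP⟩, hz⟩ := IsCyclic.exists_generator (α := (P : Subgroup G))
      have hzgen : ∀ w ∈ (P : Subgroup G), ∃ i : ℤ, z ^ i = w := by
        intro w hw
        obtain ⟨i, hi⟩ := hz ⟨w, hw⟩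
        refine ⟨i, ?_⟩
        have := congrArg Subtype.val hi
        simpa using this
      obtain ⟨n, hn⟩ := orderOf_of_mem_isPGroup P.isPGroup' hzP
      -- b z b⁻¹ = z ^ k
      obtain ⟨k, hk⟩ := hzgen _ ((Subgroup.mem_normalizer_iff.1 hbmN z).1 hzP)
      have hkpow : ∀ w : G, w ∈ (P : Subgroup G) → b * w * b⁻¹ = w ^ k := by
        intro w hw
        obtain ⟨i, rfl⟩ := hzgen w hw
        rw [← conj_zpow, ← hk, ← zpow_mul, ← zpow_mul, mul_comm]
      have hiter : ∀ i : ℕ, b ^ i * z * (b ^ i)⁻¹ = z ^ (k ^ i) := by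
        intro i
        induction i with
        | zero => simp
        | succ i ih =>
          rw [pow_succ', pow_succ']
          have e : b * b ^ i * z * (b * b ^ i)⁻¹ = b * (b ^ i * z * (b ^ i)⁻¹) * b⁻¹ := by group
          rw [e, ih, ← conj_zpow, ← hk, ← zpow_mul]
      have h1 : ((p ^ n : ℕ) : ℤ) ∣ k ^ orderOf b - 1 := by
        rw [← hn, orderOf_dvd_iff_zpow_eq_one]
        have h3 := hiter (orderOf b)
        rw [pow_orderOf_eq_one] at h3
        simp only [one_mul, inv_one, mul_one] at h3
        rw [zpow_sub, ← h3]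
        simp
      -- x = z ^ i
      obtain ⟨i, hi⟩ := hzgen x hx
      have hbx : b * x * b⁻¹ = x := by
        have hbC : b ∈ Subgroup.centralizer ({x} : Set G) :=
          (Subgroup.zpowers_le.2 hg) hbm
        have h5 := Subgroup.mem_centralizer_iff.1 hbC x rfl
        rw [← h5]; simp
      have h2 : (p : ℤ) ∣ k - 1 := by
        by_contra hno
        have hprime : Prime (p : ℤ) := Nat.prime_iff_prime_int.1 hp
        have hcop : IsCoprime ((p ^ n : ℕ) : ℤ) (k - 1) := by
          rw [Nat.cast_pow]
          exact IsCoprime.pow_left ((Prime.coprime_iff_not_dvd hprime).2 hno)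
        have h6 : ((p ^ n : ℕ) : ℤ) ∣ i * (k - 1) := by
          rw [← hn, orderOf_dvd_iff_zpow_eq_one, mul_sub, mul_one, zpow_sub, zpow_mul, hi]
          have h7 := hkpow x hx
          rw [hbx] at h7
          rw [← h7]
          simp
        have h8 : ((p ^ n : ℕ) : ℤ) ∣ i := hcop.dvd_of_dvd_mul_right h6
        rw [← hn, orderOf_dvd_iff_zpow_eq_one, hi] at h8
        exact hx1 h8
      have h3 : ¬ p ∣ orderOf b := (Nat.Prime.coprime_iff_not_dvd hp).1 hb.symm
      have h4 := int_lemma p n hp k _ h1 h2 h3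
      have hbz : b * z * b⁻¹ = z := by
        rw [← hn, orderOf_dvd_iff_zpow_eq_one, zpow_sub] at h4
        rw [← hk]
        simpa [mul_inv_eq_one] using h4
      rw [Subgroup.mem_centralizer_iff]
      intro w hw
      have hwP : w ∈ (P : Subgroup G) := hw
      rw [hab']
      have h5 : w * a = a * w := hab w hwP a haP
      have h6 : w * b = b * w := by
        obtain ⟨i, rfl⟩ := hzgen w hwP
        have h7 : Commute b z := by
          rw [Commute, SemiconjBy]
          rw [← mul_left_inj b⁻¹]
          rw [hbz]; simp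
        exact (h7.zpow_right i).eq.symm
      calc w * (a * b) = (w * a) * b := by group
        _ = (a * w) * b := by rw [h5]
        _ = a * (w * b) := by group
        _ = a * (b * w) := by rw [h6]
        _ = a * b * w := by group
    · apply Subgroup.centralizer_le
      exact Set.singleton_subset_iff.2 hx
  · intro hC g hg
    by_contra hne
    obtain ⟨x, hx, hx1⟩ := (Subgroup.bot_or_exists_ne_one _).resolve_left hne
    obtain ⟨hx2, hx3⟩ := Subgroup.mem_inf.1 hx
    rw [mem_conj_smul] at hx3
    apply hg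
    apply mem_normalizer_of_conj_le
    intro w hw
    -- g w g⁻¹ lies in C(x) = C(P)
    have h1 : g * w * g⁻¹ ∈ Subgroup.centralizer ({x} : Set G) := by
      rw [Subgroup.mem_centralizer_iff]
      intro y hy
      rw [Set.mem_singleton_iff] at hy
      rw [hy]
      have h2 := hab _ hx3 _ hw
      have e1 : x = g * (g⁻¹ * x * g) * g⁻¹ := by group
      calc x * (g * w * g⁻¹) = g * ((g⁻¹ * x * g) * w) * g⁻¹ := by group
        _ = g * (w * (g⁻¹ * x * g)) * g⁻¹ := by rw [h2]
        _ = g * w * g⁻¹ * x := by group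
    rw [hC x hx2 hx1] at h1
    -- the conjugate of P is in C(P), hence in P
    have hQ : IsPGroup p (MulAut.conj g • (P : Subgroup G) : Subgroup G) := by
      have : ((g • P : Sylow p G) : Subgroup G) = MulAut.conj g • (P : Subgroup G) :=
        Sylow.coe_subgroup_smul
      rw [← this]
      exact (g • P).isPGroup'
    have hle : (MulAut.conj g • (P : Subgroup G) : Subgroup G) ≤ Subgroup.normalizer ((P : Subgroup G) : Set G) := by
      intro y hy
      rw [mem_conj_smul] at hy
      have hyC : y ∈ Subgroup.centralizer ((P : Subgroup G) : Set G) := by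
        rw [← hC x hx2 hx1, Subgroup.mem_centralizer_iff]
        intro t ht
        rw [Set.mem_singleton_iff] at ht
        rw [ht]
        have h2 := hab _ hx3 _ hy
        calc x * y = g * ((g⁻¹ * x * g) * (g⁻¹ * y * g)) * g⁻¹ := by group
          _ = g * ((g⁻¹ * y * g) * (g⁻¹ * x * g)) * g⁻¹ := by rw [h2]
          _ = y * x := by group
      apply mem_normalizer_of_conj_le
      intro q hq
      have h3 : q * y = y * q := Subgroup.mem_centralizer_iff.1 hyC q hq
      rw [← h3]
      simpa using hq
    have h4 := hQ.inf_normalizer_sylow P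
    have h5 : g * w * g⁻¹ ∈ (MulAut.conj g • (P : Subgroup G) : Subgroup G) := by
      rw [mem_conj_smul]
      have e : g⁻¹ * (g * w * g⁻¹) * g = w := by group
      rw [e]; exact hw
    have h6 : g * w * g⁻¹ ∈ (MulAut.conj g • (P : Subgroup G) : Subgroup G) ⊓ (P : Subgroup G) := by
      rw [← h4]
      exact Subgroup.mem_inf.2 ⟨h5, hle h5⟩
    exact (Subgroup.mem_inf.1 h6).2

end Cfsg.Agent.S3985
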