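import Cfsg.Statements.S3986
import Cfsg.Agent.Lib.H19.Basic
import Mathlib

set_option autoImplicit false
open Cfsg

namespace Cfsg.Agent.S3986

open Cfsg.Agent.H19

/-- Let p be a prime and G a finite group. Then some Sylow p-subgroup of G is a direct factor of G (it is normal and has a normal complement) if and only if every element of p-power order commutes with every element whose order is a power of a prime other than p. -/
theorem result {G : Type*} [Group G] [Finite G] (p : ℕ) [Fact p.Prime] : (∃ (P : Sylow p G) (K : Subgroup G), (P : Subgroup G).Normal ∧ K.Normal ∧ (P : Subgroup G) ⊓ K = ⊥ ∧ (P : Subgroup G) ⊔ K = ⊤) ↔ ∀ x y : G, (∃ a : ℕ, orderOf x = p ^ a) → (∃ q b : ℕ, q.Prime ∧ q ≠ p ∧ orderOf y = q ^ b) → x * y = y * x := by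
  classical
  have hp : p.Prime := Fact.out
  constructor
  · rintro ⟨P, K, hPn, hKn, hinf, hsup⟩ x y ⟨a, ha⟩ ⟨q, b, hq, hqp, hb⟩
    have hx : x ∈ (P : Subgroup G) := mem_sylow_of_normal ha P hPn
    have hquot : IsPGroup p (G ⧸ K) := by
      have hsurj : Function.Surjective ((QuotientGroup.mk' K).comp (P : Subgroup G).subtype) := by
        intro g
        obtain ⟨g, rfl⟩ := QuotientGroup.mk_surjective g
        have hg : g ∈ (P : Subgroup G) ⊔ K := by rw [hsup]; exact Subgroup.mem_top g
        rw [← SetLike.mem_coe, Subgroup.mul_normal] at hg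
        obtain ⟨u, hu, v, hv, rfl⟩ := hg
        refine ⟨⟨u, hu⟩, ?_⟩
        simp only [MonoidHom.comp_apply, Subgroup.subtype_apply, QuotientGroup.mk'_apply]
        rw [QuotientGroup.eq]
        simpa using hv
      exact (P.isPGroup').of_surjective _ hsurj
    have hy : y ∈ K := by
      rw [← QuotientGroup.eq_one_iff]
      obtain ⟨c, hc⟩ := IsPGroup.iff_orderOf.1 hquot (y : G ⧸ K)
      have h1 : orderOf (y : G ⧸ K) ∣ q ^ b := by
        rw [← hb]
        exact orderOf_map_dvd (QuotientGroup.mk' K) y
      rw [hc] at h1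
      have hcop : Nat.Coprime (p ^ c) (q ^ b) :=
        Nat.Coprime.pow _ _ ((Nat.coprime_primes hp hq).2 (Ne.symm hqp))
      have h2 : p ^ c = 1 := Nat.Coprime.eq_one_of_dvd hcop h1
      rw [← orderOf_eq_one_iff, hc, h2]
    have hdis : Disjoint (P : Subgroup G) K := by
      rw [disjoint_iff]; exact hinf
    exact (Subgroup.commute_of_normal_of_disjoint _ _ hPn hKn hdis x y hx hy)
  · intro h
    obtain ⟨P⟩ : Nonempty (Sylow p G) := inferInstance
    set L : Subgroup G := Subgroup.closure {x : G | ∃ a : ℕ, orderOf x = p ^ a} with hL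
    set K0 : Subgroup G := Subgroup.closure {y : G | ∃ q k : ℕ, q.Prime ∧ q ∈ {q : ℕ | q ≠ p} ∧ orderOf y = q ^ k} with hK0
    -- all p'-elements are in K0
    have hpp' : ∀ g : G, (orderOf g).Coprime p → g ∈ K0 := by
      intro g hg
      apply mem_closure_primary
      intro q hq hqg heq
      rw [heq] at hqg
      exact (Nat.Prime.coprime_iff_not_dvd hp).1 hg.symm hqg
    -- commuting
    have h1 : ∀ y ∈ K0, ∀ x : G, (∃ a : ℕ, orderOf x = p ^ a) → x * y = y * x := by
      intro y hy x hx
      have : K0 ≤ Subgroup.centralizer {x} := by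
        rw [hK0, Subgroup.closure_le]
        rintro y ⟨q, k, hq, hqp, hyk⟩
        rw [SetLike.mem_coe, Subgroup.mem_centralizer_iff]
        rintro _ rfl
        exact h _ _ hx ⟨q, k, hq, hqp, hyk⟩
      have h2 := Subgroup.mem_centralizer_iff.1 (this hy) x rfl
      exact h2
    have h2 : ∀ y ∈ K0, ∀ x ∈ L, x * y = y * x := by
      intro y hy x hx
      have : L ≤ Subgroup.centralizer {y} := by
        rw [hL, Subgroup.closure_le]
        rintro x hx
        rw [SetLike.mem_coe, Subgroup.mem_centralizer_iff]
        intro z hz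
        have hz' : z = y := hz
        rw [hz']
        exact (h1 y hy x hx).symm
      exact (Subgroup.mem_centralizer_iff.1 (this hx) y rfl).symm
    have hPL : (P : Subgroup G) ≤ L := by
      intro x hx
      apply Subgroup.subset_closure
      exact orderOf_of_mem_isPGroup P.isPGroup' hx
    -- L / Z(L) is a p-group
    have hLZ : IsPGroup p (L ⧸ Subgroup.center L) := by
      intro lbar
      obtain ⟨l, rfl⟩ := QuotientGroup.mk_surjective lbar
      obtain ⟨a, b, hab, hc, ⟨k, hk⟩, hb, ha', hb'⟩ := exists_primary_decomp p (l : G)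
      refine ⟨k, ?_⟩
      rw [← QuotientGroup.mk_pow, QuotientGroup.eq_one_iff, Subgroup.mem_center_iff]
      intro z
      ext
      simp only [Subgroup.coe_mul, Subgroup.coe_pow]
      rw [hab, hc.mul_pow]
      have ha1 : a ^ p ^ k = 1 := by rw [← hk]; exact pow_orderOf_eq_one a
      rw [ha1, one_mul]
      have hbK : b ∈ K0 := hpp' b hb
      have := h2 b hbK (z : G) z.2
      exact (Commute.pow_right this _)
    have hLnil : Group.IsNilpotent L := by
      have := hLZ.isNilpotent
      exact Group.of_quotient_center_nilpotent this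
    have hPLn : ((P : Subgroup G).subgroupOf L).Normal := by
      have hn := Sylow.normal_of_normalizerCondition (Group.normalizerCondition_of_isNilpotent) (P.subtype hPL)
      rwa [Sylow.coe_subtype] at hn
    have hLN : L ≤ Subgroup.normalizer ((P : Subgroup G) : Set G) :=
      Subgroup.le_normalizer_of_normal_subgroupOf hPL
    have hKN : K0 ≤ Subgroup.normalizer ((P : Subgroup G) : Set G) := by
      intro y hy
      rw [Subgroup.mem_normalizer_iff]
      intro x
      constructor
      · intro hx
        have := h2 y hy x (hPL hx)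
        rw [← this, mul_assoc, mul_inv_cancel, mul_one]
        exact hx
      · intro hx
        have hx' : y * x * y⁻¹ ∈ L := hPL hx
        have h3 := h2 y hy _ hx'
        have h4 : x = y * x * y⁻¹ := by
          have h5 : y * x * y⁻¹ * y = y * x := by group
          rw [h5] at h3
          exact mul_left_cancel h3
        rw [h4]
        exact hx
    have htop : (⊤ : Subgroup G) ≤ L ⊔ K0 := by
      intro g _
      have hg : g ∈ Subgroup.closure {y : G | ∃ q k : ℕ, q.Prime ∧ q ∈ (Set.univ : Set ℕ) ∧ orderOf y = q ^ k} :=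
        mem_closure_primary _ g (fun _ _ _ => Set.mem_univ _)
      refine (Subgroup.closure_le _).2 ?_ hg
      rintro y ⟨q, k, hq, -, hyk⟩
      by_cases hqp : q = p
      · subst hqp
        exact (le_sup_left : L ≤ L ⊔ K0) (Subgroup.subset_closure ⟨k, hyk⟩)
      · exact (le_sup_right : K0 ≤ L ⊔ K0) (Subgroup.subset_closure ⟨q, k, hq, hqp, hyk⟩)
    have hPn : (P : Subgroup G).Normal := by
      rw [← Subgroup.normalizer_eq_top_iff, eq_top_iff]
      exact htop.trans (sup_le hLN hKN)
    -- complement
    have hcop : Nat.Coprime (Nat.card (P : Subgroup G)) (P : Subgroup G).index := P.card_coprime_index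
    obtain ⟨K1, hK1⟩ := Subgroup.exists_right_complement'_of_coprime hcop
    have hcardK1 : Nat.card K1 = (P : Subgroup G).index := hK1.symm.index_eq_card.symm
    have hK1p : ∀ x ∈ K1, (orderOf x).Coprime p := by
      intro x hx
      have h1 : orderOf x ∣ Nat.card K1 := Subgroup.orderOf_dvd_natCard K1 hx
      rw [hcardK1] at h1
      have h2 : ¬ p ∣ (P : Subgroup G).index := P.not_dvd_index
      exact Nat.Coprime.coprime_dvd_left h1 ((Nat.Prime.coprime_iff_not_dvd hp).2 h2).symm
    have hsup : (P : Subgroup G) ⊔ K1 = ⊤ := hK1.sup_eq_top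
    have hKnormal : K1.Normal := by
      constructor
      intro n hn g
      have hg : g ∈ K1 ⊔ (P : Subgroup G) := by rw [sup_comm, hsup]; exact Subgroup.mem_top g
      rw [← SetLike.mem_coe, Subgroup.mul_normal] at hg
      obtain ⟨k, hk, u, hu, rfl⟩ := hg
      have hnc : u * n = n * u := h2 n (hpp' n (hK1p n hn)) u (hPL hu)
      have : k * u * n * (k * u)⁻¹ = k * n * k⁻¹ := by
        calc k * u * n * (k * u)⁻¹ = k * (u * n) * u⁻¹ * k⁻¹ := by group
          _ = k * (n * u) * u⁻¹ * k⁻¹ := by rw [hnc]
          _ = k * n * k⁻¹ := by group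
      rw [this]
      exact K1.mul_mem (K1.mul_mem hk hn) (K1.inv_mem hk)
    exact ⟨P, K1, hPn, hKnormal, disjoint_iff.1 hK1.disjoint, hsup⟩

end Cfsg.Agent.S3986
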