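import Cfsg.Statements.S3987
import Cfsg.Agent.S3986
import Mathlib

set_option autoImplicit false
open Cfsg

namespace Cfsg.Agent.S3987

open Cfsg.Agent.H19

theorem index_inf_of_coprime {G : Type*} [Group G] [Finite G] (A B : Subgroup G)
    (h : Nat.Coprime A.index B.index) : (A ⊓ B).index = A.index * B.index := by
  apply le_antisymm Subgroup.index_inf_le
  have h1 : A.index ∣ (A ⊓ B).index := Subgroup.index_dvd_of_le inf_le_left
  have h2 : B.index ∣ (A ⊓ B).index := Subgroup.index_dvd_of_le inf_le_right
  apply Nat.le_of_dvd (Nat.pos_of_ne_zero (Subgroup.index_ne_zero_of_finite))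
  exact Nat.Coprime.mul_dvd_of_dvd_of_dvd h h1 h2

/-- Let p be a prime and G a finite group. Then some Sylow p-subgroup of G is a direct factor of G (normal with a normal complement) if and only if for every element x of p-power order and every element y whose order is a power of a prime other than p, the conjugacy class of x y has as many elements as the product of the sizes of the classes of x and of y. -/
theorem result {G : Type*} [Group G] [Finite G] (p : ℕ) [Fact p.Prime] : (∃ (P : Sylow p G) (K : Subgroup G), (P : Subgroup G).Normal ∧ K.Normal ∧ (P : Subgroup G) ⊓ K = ⊥ ∧ (P : Subgroup G) ⊔ K = ⊤) ↔ ∀ x y : G, (∃ a : ℕ, orderOf x = p ^ a) → (∃ q b : ℕ, q.Prime ∧ q ≠ p ∧ orderOf y = q ^ b) → (Subgroup.centralizer ({x * y} : Set G)).index = (Subgroup.centralizer ({x} : Set G)).index * (Subgroup.centralizer ({y} : Set G)).index := by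
  classical
  have hp : p.Prime := Fact.out
  constructor
  · rintro ⟨P, K, hPn, hKn, hinf, hsup⟩ x y ⟨a, ha⟩ ⟨q, b, hq, hqp, hb⟩
    have hx : x ∈ (P : Subgroup G) := mem_sylow_of_normal ha P hPn
    have hquot : IsPGroup p (G ⧸ K) := by
      have hsurj : Function.Surjective ((QuotientGroup.mk' K).comp (P : Subgroup G).subtype) := by
        intro g
        obtain ⟨g, rfl⟩ := QuotientGroup.mk_surjective g
        have hg : g ∈ (P : Subgroup G) ⊔ K := by rw [hsup]; exact Subgroup.mem_top g
        rw [← SetLike.mem_coe, Subgroup.mul_normal] at hg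
        obtain ⟨u, hu, v, hv, rfl⟩ := hg
        refine ⟨⟨u, hu⟩, ?_⟩
        simp only [MonoidHom.comp_apply, Subgroup.subtype_apply, QuotientGroup.mk'_apply]
        rw [QuotientGroup.eq]
        simpa using hv
      exact (P.isPGroup').of_surjective _ hsurj
    have hy : y ∈ K := by
      rw [← QuotientGroup.eq_one_iff]
      obtain ⟨c, hc⟩ := IsPGroup.iff_orderOf.1 hquot (y : G ⧸ K)
      have h1 : orderOf (y : G ⧸ K) ∣ q ^ b := by
        rw [← hb]
        exact orderOf_map_dvd (QuotientGroup.mk' K) y
      rw [hc] at h1
      have hcop : Nat.Coprime (p ^ c) (q ^ b) :=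
        Nat.Coprime.pow _ _ ((Nat.coprime_primes hp hq).2 (Ne.symm hqp))
      have h2 : p ^ c = 1 := Nat.Coprime.eq_one_of_dvd hcop h1
      rw [← orderOf_eq_one_iff, hc, h2]
    have hdis : Disjoint (P : Subgroup G) K := by
      rw [disjoint_iff]; exact hinf
    have hcomm := fun u v hu hv => Subgroup.commute_of_normal_of_disjoint _ _ hPn hKn hdis u v hu hv
    have hxy : Commute x y := hcomm x y hx hy
    -- centralizers
    set A := Subgroup.centralizer ({x} : Set G) with hA
    set B := Subgroup.centralizer ({y} : Set G) with hB
    have hKA : K ≤ A := by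
      intro k hk
      rw [hA, Subgroup.mem_centralizer_iff]
      intro z hz
      have hz' : z = x := hz
      rw [hz']
      exact hcomm x k hx hk
    have hPB : (P : Subgroup G) ≤ B := by
      intro u hu
      rw [hB, Subgroup.mem_centralizer_iff]
      intro z hz
      have hz' : z = y := hz
      rw [hz']
      exact (hcomm u y hu hy).symm
    have hAi : ∃ n, A.index = p ^ n := by
      obtain ⟨n, hn⟩ := IsPGroup.iff_card.1 hquot
      have hd : A.index ∣ K.index := Subgroup.index_dvd_of_le hKA
      have hK : K.index = p ^ n := by rw [Subgroup.index_eq_card]; exact hn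
      rw [hK] at hd
      obtain ⟨j, -, hj⟩ := (Nat.dvd_prime_pow hp).1 hd
      exact ⟨j, hj⟩
    have hBi : ¬ p ∣ B.index := by
      intro hd
      exact P.not_dvd_index (hd.trans (Subgroup.index_dvd_of_le hPB))
    have hcop : Nat.Coprime A.index B.index := by
      obtain ⟨n, hn⟩ := hAi
      rw [hn]
      exact Nat.Coprime.pow_left _ ((Nat.Prime.coprime_iff_not_dvd hp).2 hBi)
    have hC : Subgroup.centralizer ({x * y} : Set G) = A ⊓ B := by
      have hcopxy : Nat.Coprime (orderOf x) (orderOf y) := by
        rw [ha, hb]
        exact Nat.Coprime.pow _ _ ((Nat.coprime_primes hp hq).2 (Ne.symm hqp))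
      apply le_antisymm
      · intro g hg
        have hg' : g * (x * y) = (x * y) * g := by
          have := Subgroup.mem_centralizer_iff.1 hg (x * y) rfl
          exact this.symm
        have hcg : Commute g (x * y) := hg'
        -- x and y are powers of x*y
        obtain ⟨n, hn1, hn2⟩ : ∃ n : ℕ, n ≡ 1 [MOD orderOf x] ∧ n ≡ 0 [MOD orderOf y] := by
          let c := Nat.chineseRemainder hcopxy 1 0
          exact ⟨c, c.2.1, c.2.2⟩
        obtain ⟨m, hm1, hm2⟩ : ∃ n : ℕ, n ≡ 0 [MOD orderOf x] ∧ n ≡ 1 [MOD orderOf y] := by
          let c := Nat.chineseRemainder hcopxy 0 1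
          exact ⟨c, c.2.1, c.2.2⟩
        have e1 : (x * y) ^ n = x := by
          rw [hxy.mul_pow, (orderOf_dvd_iff_pow_eq_one.1 ((Nat.modEq_zero_iff_dvd).1 hn2)), mul_one]
          have := pow_eq_pow_iff_modEq.2 hn1
          simpa using this
        have e2 : (x * y) ^ m = y := by
          rw [hxy.mul_pow, (orderOf_dvd_iff_pow_eq_one.1 ((Nat.modEq_zero_iff_dvd).1 hm1)), one_mul]
          have := pow_eq_pow_iff_modEq.2 hm2
          simpa using this
        refine Subgroup.mem_inf.2 ⟨?_, ?_⟩
        · rw [hA, Subgroup.mem_centralizer_iff]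
          intro z hz
          have hz' : z = x := hz
          rw [hz', ← e1]
          exact (hcg.pow_right n).symm
        · rw [hB, Subgroup.mem_centralizer_iff]
          intro z hz
          have hz' : z = y := hz
          rw [hz', ← e2]
          exact (hcg.pow_right m).symm
      · rintro g ⟨hg1, hg2⟩
        rw [Subgroup.mem_centralizer_iff]
        intro z hz
        have hz' : z = x * y := hz
        rw [hz']
        have h1 := Subgroup.mem_centralizer_iff.1 hg1 x rfl
        have h2 := Subgroup.mem_centralizer_iff.1 hg2 y rfl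
        calc x * y * g = x * (y * g) := by group
          _ = x * (g * y) := by rw [h2]
          _ = (x * g) * y := by group
          _ = g * x * y := by rw [h1]
          _ = g * (x * y) := by group
    rw [hC]
    exact index_inf_of_coprime A B hcop
  · intro h
    rw [Cfsg.Agent.S3986.result]
    intro x y hx hy
    have hi := h x y hx hy
    set A := Subgroup.centralizer ({x} : Set G) with hA
    set B := Subgroup.centralizer ({y} : Set G) with hB
    set C := Subgroup.centralizer ({x * y} : Set G) with hC
    have hle : A ⊓ B ≤ C := by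
      rintro g ⟨hg1, hg2⟩
      rw [hC, Subgroup.mem_centralizer_iff]
      intro z hz
      have hz' : z = x * y := hz
      rw [hz']
      have h1 := Subgroup.mem_centralizer_iff.1 hg1 x rfl
      have h2 := Subgroup.mem_centralizer_iff.1 hg2 y rfl
      calc x * y * g = x * (y * g) := by group
        _ = x * (g * y) := by rw [h2]
        _ = (x * g) * y := by group
        _ = g * x * y := by rw [h1]
        _ = g * (x * y) := by group
    have h1 : (A ⊓ B).index ≤ C.index := by rw [hi]; exact Subgroup.index_inf_le
    have h2 : C.index ∣ (A ⊓ B).index := Subgroup.index_dvd_of_le hle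
    have h3 : C.index = (A ⊓ B).index :=
      le_antisymm (Nat.le_of_dvd (Nat.pos_of_ne_zero Subgroup.index_ne_zero_of_finite) h2) h1
    have h4 : C = A ⊓ B := by
      symm
      apply Subgroup.eq_of_le_of_card_ge hle
      have e1 := Subgroup.card_mul_index C
      have e2 := Subgroup.card_mul_index (A ⊓ B)
      rw [← h3] at e2
      have hpos : 0 < C.index := Nat.pos_of_ne_zero Subgroup.index_ne_zero_of_finite
      exact le_of_eq (Nat.eq_of_mul_eq_mul_right hpos (e1.trans e2.symm))
    have h5 : x * y ∈ C := by
      rw [hC, Subgroup.mem_centralizer_iff]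
      intro z hz
      have hz' : z = x * y := hz
      rw [hz']
    rw [h4] at h5
    have h6 := Subgroup.mem_centralizer_iff.1 h5.1 x rfl
    -- x * (x * y) = (x * y) * x
    have h7 : x * (x * y) = x * (y * x) := by rw [h6, mul_assoc]
    exact mul_left_cancel h7

end Cfsg.Agent.S3987
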