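import Cfsg.Statements.S4009
import Cfsg.Agent.Lib.H19.DerLen

set_option autoImplicit false
open Cfsg

namespace Cfsg.Agent.S4009

/-- Let P be a finite p-group of order p^n whose derived length is exactly k + 1 (the k-th derived subgroup is nontrivial and the (k+1)-st is trivial). Then n ≥ 2^k + 2k − 2. -/
theorem result {P : Type*} [Group P] [Finite P] (p : ℕ) [Fact p.Prime] (n k : ℕ) (hcard : Nat.card P = p ^ n) (hk : derivedSeries P k ≠ ⊥) (hk' : derivedSeries P (k + 1) = ⊥) : 2 ^ k + 2 * k ≤ n + 2 := by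
  
  have hP : IsPGroup p P := IsPGroup.of_card hcard
  have hell : Cfsg.Agent.H19.ell p (⊤ : Subgroup P) = n := by
    unfold Cfsg.Agent.H19.ell
    rw [Nat.card_congr Subgroup.topEquiv.toEquiv, hcard, Nat.log_pow (Fact.out : p.Prime).one_lt]
  match k, hk with
  | 0, _ => simp
  | 1, hk =>
    have h0 : ⁅(⊤ : Subgroup P), (⊤ : Subgroup P)⁆ ≠ ⊥ := hk
    have := Cfsg.Agent.H19.ell_comm_add hP ⊤ 0 le_top h0
    rw [hell] at this
    norm_num
    omega
  | i + 2, hk =>
    have hne : Cfsg.Agent.H19.Dser (⊤ : Subgroup P) (i + 2) ≠ ⊥ := by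
      rw [Cfsg.Agent.H19.Dser_top]
      exact hk
    have := Cfsg.Agent.H19.der_bound hP i ⊤ 0 0 inferInstance (by omega) (by simp) le_top hne
    rw [hell] at this
    simp only [zero_add, mul_one, mul_zero, add_zero] at this
    omega

end Cfsg.Agent.S4009
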