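import Cfsg.Statements.S4010
import Cfsg.Agent.Lib.H12.LinDL
-- import your own Cfsg.Agent.* helpers here

set_option autoImplicit false
open Cfsg

namespace Cfsg.Agent.S4010



/-- Let F be a field, n ≥ 1, and P a finite p-group (p a prime) admitting an injective homomorphism into the general linear group of degree n over F. Then the derived length of P is at most ⌊log₂ n⌋ + 1: that term of the derived series of P is trivial. -/
theorem result {P : Type*} [Group P] [Finite P] (p : ℕ) [Fact p.Prime] (hP : IsPGroup p P) (F : Type*) [Field F] (n : ℕ) (hn : 1 ≤ n) (ρ : P →* Matrix.GeneralLinearGroup (Fin n) F) (hρ : Function.Injective ρ) : derivedSeries P (Nat.log 2 n + 1) = ⊥ := by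
  classical
  rw [Subgroup.eq_bot_iff_forall]
  intro x hx
  -- generic transfer
  have transfer : ∀ (K : Type _) [Field K] [Algebra F K],
      (∀ (ρ' : P →* Module.End K (Fin n → K)), ρ' x = 1) → x = 1 := by
    intro K _ _ h
    let ρ' : P →* Module.End K (Fin n → K) :=
      { toFun := fun g => Matrix.toLin' (((ρ g : Matrix.GeneralLinearGroup (Fin n) F) : Matrix (Fin n) (Fin n) F).map (algebraMap F K))
        map_one' := by
          simp [Matrix.map_one, Matrix.toLin'_one]
          rfl
        map_mul' := by
          intro g h
          rw [map_mul, Units.val_mul, Matrix.map_mul, Matrix.toLin'_mul]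
          rfl }
    have h1 := h ρ'
    apply hρ
    rw [map_one]
    ext1
    have h2 : Matrix.toLin' (((ρ x : Matrix.GeneralLinearGroup (Fin n) F) : Matrix (Fin n) (Fin n) F).map (algebraMap F K)) = Matrix.toLin' (1 : Matrix (Fin n) (Fin n) K) := by
      rw [Matrix.toLin'_one]
      exact h1
    have h3 := Matrix.toLin'.injective h2
    ext i j
    have h4 := congrFun (congrFun h3 i) j
    simp only [Matrix.map_apply] at h4
    apply (algebraMap F K).injective
    rw [h4]
    simp only [Matrix.one_apply, Units.val_one]
    split_ifs <;> simp
  by_cases hc : (p : F) = 0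
  · haveI : CharP F p := (CharP.charP_iff_prime_eq_zero (Fact.out)).mpr hc
    apply transfer F
    intro ρ'
    apply H12.LinDL.main_charp p n (Fin n → F) (by simp) hn P hP ρ' x
    refine derivedSeries_antitone P ?_ hx
    apply Nat.clog_le_of_le_pow
    exact (Nat.lt_pow_succ_log_self (by norm_num) n).le
  · apply transfer (AlgebraicClosure F)
    intro ρ'
    have hc' : (p : AlgebraicClosure F) ≠ 0 := by
      intro h
      apply hc
      apply (algebraMap F (AlgebraicClosure F)).injective
      simpa using h
    exact H12.LinDL.main_alg p hc' n (Fin n → AlgebraicClosure F) (by simp) hn P hP ρ' x hx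

end Cfsg.Agent.S4010
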