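import Cfsg.Statements.S4013
import Mathlib

set_option autoImplicit false
open Cfsg

namespace Cfsg.Agent.S4013

/-- Let G be a finite p-group (p prime) and N < M normal subgroups of G such that for some g ∈ M ∖ N the conjugacy class of g is exactly M ∖ N. Then p = 2 and N has index 2 in M. -/
theorem result {G : Type*} [Group G] [Finite G] (p : ℕ) [Fact p.Prime] (hG : IsPGroup p G) (N M : Subgroup G) [N.Normal] [M.Normal] (hNM : N < M) (g : G) (hgM : g ∈ M) (hgN : g ∉ N) (hcl : {h : G | IsConj g h} = (M : Set G) \ (N : Set G)) : p = 2 ∧ N.relIndex M = 2 := by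
  classical
  have hp := (Fact.out : p.Prime)
  -- the class size divides |G|
  have hcl1 : ((M : Set G) \ (N : Set G)).ncard ∣ Nat.card G := by
    rw [← hcl]
    have h1 : {h : G | IsConj g h} = MulAction.orbit (ConjAct G) g := by
      ext h
      rw [Set.mem_ofPred_eq, ConjAct.mem_orbit_conjAct, isConj_comm]
    rw [h1, ← MulAction.index_stabilizer]
    have := Subgroup.index_dvd_card (MulAction.stabilizer (ConjAct G) g)
    have h3 : Nat.card (ConjAct G) = Nat.card G := Nat.card_congr ConjAct.toConjAct.symm.toEquiv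
    rwa [h3] at this
  have hcl2 : ((M : Set G) \ (N : Set G)).ncard = Nat.card M - Nat.card N := by
    rw [Set.ncard_sdiff hNM.le (Set.toFinite _), ← Nat.card_coe_set_eq, ← Nat.card_coe_set_eq]
    rfl
  have hrel : N.relIndex M * Nat.card N = Nat.card M := by
    have h1 := Subgroup.card_mul_index (N.subgroupOf M)
    have h2 : Nat.card (N.subgroupOf M) = Nat.card N :=
      Nat.card_congr (Subgroup.subgroupOfEquivOfLe hNM.le).toEquiv
    rw [h2] at h1
    rw [Subgroup.relIndex, mul_comm]
    exact h1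
  obtain ⟨n, hn⟩ := IsPGroup.iff_card.1 hG
  have hMdvd : Nat.card M ∣ p ^ n := hn ▸ Subgroup.card_subgroup_dvd_card M
  have hrdvd : N.relIndex M ∣ p ^ n := (Dvd.intro _ hrel).trans hMdvd
  obtain ⟨s, -, hs⟩ := (Nat.dvd_prime_pow hp).1 hrdvd
  have hNpos : 0 < Nat.card N := Nat.card_pos
  have hr : N.relIndex M ≠ 1 := by
    intro h1
    rw [h1, one_mul] at hrel
    have : (N : Set G) = M := Set.eq_of_subset_of_ncard_le hNM.le (by
      rw [← Nat.card_coe_set_eq, ← Nat.card_coe_set_eq]
      show Nat.card M ≤ Nat.card N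
      rw [hrel]) (Set.toFinite _)
    exact hNM.ne (SetLike.coe_injective this)
  have hs0 : s ≠ 0 := by
    rintro rfl
    apply hr
    rw [hs, pow_zero]
  have hpr : p ∣ N.relIndex M := by
    rw [hs]; exact dvd_pow_self p hs0
  have hfac : Nat.card M - Nat.card N = (N.relIndex M - 1) * Nat.card N := by
    rw [Nat.sub_mul, hrel, one_mul]
  have hdvd : (N.relIndex M - 1) ∣ p ^ n := by
    rw [← hn]
    refine Dvd.dvd.trans ?_ hcl1
    rw [hcl2, hfac]
    exact Dvd.intro _ rfl
  obtain ⟨d, -, hd⟩ := (Nat.dvd_prime_pow hp).1 hdvd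
  have hrpos : 1 ≤ N.relIndex M := Nat.pos_of_ne_zero (by rw [hs]; exact pow_ne_zero _ hp.ne_zero)
  have hd0 : d = 0 := by
    by_contra hd0
    have h1 : p ∣ N.relIndex M - 1 := by rw [hd]; exact dvd_pow_self p hd0
    have h2 : p ∣ N.relIndex M - (N.relIndex M - 1) := Nat.dvd_sub hpr h1
    have h3 : N.relIndex M - (N.relIndex M - 1) = 1 := by omega
    rw [h3] at h2
    exact hp.one_lt.ne' (Nat.dvd_one.1 h2)
  rw [hd0, pow_zero] at hd
  have hr2 : N.relIndex M = 2 := by omega
  refine ⟨?_, hr2⟩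
  rw [hr2] at hpr
  exact (Nat.prime_dvd_prime_iff_eq hp Nat.prime_two).1 hpr

end Cfsg.Agent.S4013
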