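import Cfsg.Statements.S4023
import Cfsg.Agent.Lib.H19.SameOrder

set_option autoImplicit false
open Cfsg

namespace Cfsg.Agent.S4023

open Cfsg.Agent.H19

theorem result {G : Type*} [Group G] [Finite G]
    {p : ℕ} [Fact p.Prime] (hC : ∀ H K : Subgroup G, IsPGroup p H → IsPGroup p K → Nat.card H = Nat.card K →
      ∃ g : G, K = H.map (MulAut.conj g).toMonoidHom) (P : Sylow p G) :
    IsCyclic P ∨ Cfsg.IsElementaryAbelian p (P : Subgroup G) ∨
      (p = 2 ∧ Nonempty ((P : Subgroup G) ≃* QuaternionGroup 2)) ∨
      (p ≠ 2 ∧ ¬ IsMulCommutative P ∧ Nat.card P = p ^ 3 ∧ Monoid.exponent P = p) := by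
  classical
  have hpp : p.Prime := Fact.out
  set T := ↥(P : Subgroup G) with hTdef
  have hT : IsPGroup p T := P.2
  -- subgroups of the same order are isomorphic
  have hiso : ∀ A B : Subgroup T, Nat.card A = Nat.card B → Nonempty (A ≃* B) := by
    intro A B hAB
    set H := A.map (P : Subgroup G).subtype with hH
    set K := B.map (P : Subgroup G).subtype with hK
    have eA : A ≃* H := A.equivMapOfInjective _ (P : Subgroup G).subtype_injective
    have eB : B ≃* K := B.equivMapOfInjective _ (P : Subgroup G).subtype_injective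
    have hHp : IsPGroup p H := (hT.to_subgroup A).map _
    have hKp : IsPGroup p K := (hT.to_subgroup B).map _
    have hcard : Nat.card H = Nat.card K := by
      rw [Nat.card_congr eA.toEquiv.symm, Nat.card_congr eB.toEquiv.symm, hAB]
    obtain ⟨g, hg⟩ := hC H K hHp hKp hcard
    have e : H ≃* K := (H.equivMapOfInjective _ (MulAut.conj g).injective).trans
      (MulEquiv.subgroupCongr hg.symm)
    exact ⟨eA.trans (e.trans eB.symm)⟩
  by_cases h4 : ∃ x : T, orderOf x = p ^ 2
  · obtain ⟨x, hx⟩ := h4
    have hcyc2 : ∀ A : Subgroup T, Nat.card A = p ^ 2 → IsCyclic A := by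
      intro A hA
      obtain ⟨e⟩ := hiso (Subgroup.zpowers x) A (by rw [Nat.card_zpowers, hx, hA])
      exact isCyclic_of_surjective _ e.surjective
    haveI : Nontrivial T := by
      by_contra hcon
      rw [not_nontrivial_iff_subsingleton] at hcon
      have h1 : x = 1 := Subsingleton.elim _ _
      rw [h1, orderOf_one] at hx
      have : p ^ 2 ≠ 1 := (Nat.one_lt_pow (by norm_num) hpp.one_lt).ne'
      exact this hx.symm
    -- a central element of order `p`
    obtain ⟨z, hzc, hzo⟩ : ∃ z ∈ Subgroup.center T, orderOf z = p := by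
      haveI := hT.center_nontrivial
      obtain ⟨j, hj⟩ := (hT.to_subgroup (Subgroup.center T)).exists_card_eq
      have h1 : p ∣ Nat.card (Subgroup.center T) := by
        rw [hj]
        have hj0 : j ≠ 0 := by
          rintro rfl
          rw [pow_zero] at hj
          exact (Finite.one_lt_card (α := Subgroup.center T)).ne' hj
        exact dvd_pow_self p hj0
      obtain ⟨z, hz⟩ := exists_prime_orderOf_dvd_card' p h1
      exact ⟨z.1, z.2, by rw [Subgroup.orderOf_coe]; exact hz⟩
    set U := Subgroup.zpowers z with hU
    have hUcard : Nat.card U = p := by rw [hU, Nat.card_zpowers, hzo]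
    have hUle : U ≤ Subgroup.center T := by rw [hU, Subgroup.zpowers_le]; exact hzc
    have hcZ : ∀ u ∈ U, ∀ g : T, g * u = u * g := fun u hu g =>
      Subgroup.mem_center_iff.1 (hUle hu) g
    haveI hUn : U.Normal := by
      constructor
      intro u hu g
      rw [hcZ u hu g, mul_inv_cancel_right]
      exact hu
    have hUall : ∀ y : T, y ^ p = 1 → y ∈ U := by
      intro y hy
      by_contra hyU
      have hyN : y ∈ Subgroup.normalizer (U : Set T) := by
        rw [Subgroup.normalizer_eq_top U]; trivial
      have h1 := card_sup_zpowers hyN hyU hy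
      rw [hUcard, ← pow_two] at h1
      have h2 := hcyc2 _ h1
      obtain ⟨g, hg1, hg2⟩ := exists_gen_of_isCyclic h2
      rw [h1] at hg2
      have hgmem : g ∈ U ⊔ Subgroup.zpowers y := by
        rw [hg1]; exact Subgroup.mem_zpowers g
      obtain ⟨u, hu, w, hw, rfl⟩ := Subgroup.mem_sup_of_normal_left.1 hgmem
      have hup : u ^ p = 1 := by
        have := pow_card_eq_one' (x := (⟨u, hu⟩ : U))
        rw [hUcard] at this
        exact congrArg Subtype.val this
      have hwp : w ^ p = 1 := by
        obtain ⟨k, rfl⟩ := hw
        show (y ^ k) ^ p = 1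
        rw [← zpow_natCast, ← zpow_mul, mul_comm, zpow_mul, zpow_natCast, hy, one_zpow]
      have hcomm : Commute u w := (hcZ u hu w).symm
      have h3 : (u * w) ^ p = 1 := by
        rw [hcomm.mul_pow, hup, hwp, one_mul]
      have h4 := orderOf_dvd_of_pow_eq_one h3
      rw [hg2, pow_two] at h4
      have := Nat.le_of_dvd hpp.pos h4
      nlinarith [hpp.two_le]
    have huniq : ∀ H K : Subgroup T, Nat.card H = p ^ 1 → Nat.card K = p ^ 1 → H = K := by
      have h1 : ∀ H : Subgroup T, Nat.card H = p ^ 1 → H = U := by
        intro H hH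
        apply Subgroup.eq_of_le_of_card_ge
        · intro h hh
          apply hUall
          have := pow_card_eq_one' (x := (⟨h, hh⟩ : H))
          rw [hH, pow_one] at this
          exact congrArg Subtype.val this
        · rw [hH, hUcard, pow_one]
      intro H K hH hK
      rw [h1 H hH, h1 K hK]
    obtain ⟨m, hm⟩ := hT.exists_card_eq
    have hm2 : 1 < m := by
      have h1 : p ^ 2 ∣ p ^ m := by
        rw [← hm, ← hx]; exact orderOf_dvd_natCard x
      have := (Nat.pow_dvd_pow_iff_le_right hpp.one_lt).1 h1
      omega
    by_cases hp2 : p = 2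
    · subst hp2
      by_cases hcyc : IsCyclic T
      · exact Or.inl hcyc
      · right; right; left
        refine ⟨rfl, ?_⟩
        have hUI : UI T := by
          intro y y' hy hy' hy1 hy1'
          have h1 := hUall y hy
          have h2 := hUall y' hy'
          obtain ⟨a, -, ha⟩ := (Nat.card_eq_two_iff' (1 : U)).1 hUcard
          have h3 : (⟨y, h1⟩ : U) = a := ha _ (fun h => hy1 (congrArg Subtype.val h))
          have h4 : (⟨y', h2⟩ : U) = a := ha _ (fun h => hy1' (congrArg Subtype.val h))
          exact congrArg Subtype.val (h3.trans h4.symm)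
        exact quaternion_of_sameOrder hT hiso hUI (x₄ := x) (by rw [hx]; norm_num) hcyc
    · exact Or.inl (isCyclic_of_unique_subgroup (s := 1) (le_refl 1) (Or.inl hp2) m T hm hm2 huniq)
  · push_neg at h4
    have hexp : ∀ x : T, x ^ p = 1 := by
      intro x
      obtain ⟨k, hk⟩ := IsPGroup.iff_orderOf.1 hT x
      by_cases hk2 : 2 ≤ k
      · exfalso
        obtain ⟨r, rfl⟩ := Nat.exists_eq_add_of_le hk2
        apply h4 (x ^ p ^ r)
        rw [orderOf_pow_of_dvd (pow_pos hpp.pos r).ne' (by rw [hk]; exact pow_dvd_pow p (by omega)), hk]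
        rw [add_comm, pow_add]
        exact Nat.mul_div_cancel_left _ (pow_pos hpp.pos r)
      · apply orderOf_dvd_iff_pow_eq_one.1
        rw [hk]
        have : p ^ k ∣ p ^ 1 := pow_dvd_pow p (by omega)
        simpa using this
    by_cases hcomm : ∀ a b : T, a * b = b * a
    · right; left
      refine ⟨⟨⟨fun a b => hcomm a b⟩⟩, ?_⟩
      intro a ha
      exact congrArg Subtype.val (hexp ⟨a, ha⟩)
    · right; right; right
      have hp2 : p ≠ 2 := by
        rintro rfl
        apply hcomm
        intro a b
        have h1 : (a * b) ^ 2 = 1 := hexp _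
        have h2 := hexp a
        have h3 := hexp b
        rw [pow_two] at h1 h2 h3
        calc a * b = a * (a * b * (a * b)) * b := by rw [h1]; group
          _ = (a * a) * (b * a) * (b * b) := by group
          _ = b * a := by rw [h2, h3]; group
      refine ⟨hp2, ?_, card_of_exp_p hT hexp hcomm hiso, ?_⟩
      · intro h
        apply hcomm
        intro a b
        exact h.is_comm.comm a b
      · haveI : Nontrivial T := by
          by_contra hcon
          rw [not_nontrivial_iff_subsingleton] at hcon
          exact hcomm (fun a b => Subsingleton.elim _ _)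
        rw [Monoid.exponent_eq_prime_iff hpp]
        intro g hg
        exact orderOf_eq_prime (hexp g) hg

end Cfsg.Agent.S4023
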