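import Cfsg.Agent.S4023
import Cfsg.Agent.Lib.H19.TwoCyclic
import Cfsg.Agent.Lib.H18.Syl
import Cfsg.Agent.Lib.H18.Basic
import Cfsg.Agent.Lib.H03.PSolv
import Cfsg.Agent.Lib.H15.PConstr
import Cfsg.Agent.Lib.H06.Layer2
import Cfsg.Agent.Lib.H13.KeyChar2
import Cfsg.Agent.Lib.H08.PCoreL

set_option autoImplicit false
open Cfsg

namespace Cfsg.Agent.S4024

open Cfsg.Agent.H19

section
variable {G : Type*} [Group G] [Finite G] {p : ℕ} [Fact p.Prime]

theorem cyc_or_le (hp : p ≠ 2)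
    (hC : ∀ H K : Subgroup G, IsPGroup p H → IsPGroup p K → Nat.card H = Nat.card K →
      ∃ g : G, K = H.map (MulAut.conj g).toMonoidHom) (P : Sylow p G)
    (K : Subgroup G) [hKn : K.Normal] (hdiv : p ∣ Nat.card K) :
    (P : Subgroup G) ≤ K ∨ IsCyclic P := by
  classical
  have hpp : p.Prime := Fact.out
  set A := (P : Subgroup G) ⊓ K with hA
  have hAP : A ≤ (P : Subgroup G) := inf_le_left
  have hAp : IsPGroup p A := P.2.to_le hAP
  obtain ⟨t, ht⟩ := IsPGroup.iff_card.mp hAp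
  obtain ⟨m, hm⟩ := IsPGroup.iff_card.mp P.2
  -- the subgroup `A` is non-trivial
  have hAne : A ≠ ⊥ := by
    have h1 := Sylow.ne_bot_of_dvd_card (H18.sylowOfNormal P K) hdiv
    intro h0
    apply h1
    have h2 := H18.map_sylowOfNormal P K
    rw [← hA, h0] at h2
    exact (Subgroup.map_eq_bot_iff_of_injective _ K.subtype_injective).mp h2
  have ht1 : 1 ≤ t := by
    rcases Nat.eq_zero_or_pos t with h0 | h0
    · exfalso
      apply hAne
      rw [h0, pow_zero] at ht
      exact Subgroup.eq_bot_of_card_eq _ ht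
    · exact h0
  -- uniqueness
  have huq : ∀ B : Subgroup G, B ≤ (P : Subgroup G) → Nat.card B = p ^ t → B = A := by
    intro B hB hcard
    have hBp : IsPGroup p B := P.2.to_le hB
    obtain ⟨g, hg⟩ := hC A B hAp hBp (by rw [ht, hcard])
    have hBK : B ≤ K := by
      rw [hg]
      rintro _ ⟨a, ha, rfl⟩
      exact hKn.conj_mem a (Subgroup.mem_inf.mp ha).2 g
    have hBA : B ≤ A := le_inf hB hBK
    exact Subgroup.eq_of_le_of_card_ge hBA (by rw [ht, hcard])
  by_cases htm : t < m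
  · right
    apply isCyclic_of_unique_subgroup (p := p) (s := t) ht1 (Or.inl hp) m _ hm htm
    intro B C hB hC'
    have eB : Nat.card (B.map (P : Subgroup G).subtype) = p ^ t := by
      rw [Nat.card_congr (B.equivMapOfInjective _ (P : Subgroup G).subtype_injective).symm.toEquiv]
      exact hB
    have eC : Nat.card (C.map (P : Subgroup G).subtype) = p ^ t := by
      rw [Nat.card_congr (C.equivMapOfInjective _ (P : Subgroup G).subtype_injective).symm.toEquiv]
      exact hC'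
    have h1 := huq _ (Subgroup.map_subtype_le B) eB
    have h2 := huq _ (Subgroup.map_subtype_le C) eC
    exact Subgroup.map_injective (P : Subgroup G).subtype_injective (h1.trans h2.symm)
  · left
    have hle : m ≤ t := not_lt.mp htm
    have hAeq : A = (P : Subgroup G) := by
      apply Subgroup.eq_of_le_of_card_ge hAP
      rw [ht, hm]
      exact Nat.pow_le_pow_right hpp.pos hle
    rw [← hAeq]
    exact inf_le_right

end

theorem result {G : Type*} [Group G] [Finite G]
    {p : ℕ} [Fact p.Prime] (hp : p ≠ 2) (hC : ∀ H K : Subgroup G, IsPGroup p H → IsPGroup p K → Nat.card H = Nat.card K →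
      ∃ g : G, K = H.map (MulAut.conj g).toMonoidHom) (P : Sylow p G)
    (H : Subgroup G) [H.Normal] (hsolv : Cfsg.IsPSolvable p H) (hdiv : p ∣ Nat.card H) :
    IsMulCommutative P ∧ ((P : Subgroup G) ≤ H ∨ IsCyclic P) := by
  classical
  have hpp : p.Prime := Fact.out
  have h2 := cyc_or_le hp hC P H hdiv
  refine ⟨?_, h2⟩
  by_cases hcyc : IsCyclic P
  · exact hcyc.commutative
  rcases Cfsg.Agent.S4023.result hC P with h | h | h | h
  · exact absurd h hcyc
  · exact h.1
  · exact absurd h.1 hp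
  obtain ⟨-, hna, hcard, hexp⟩ := h
  exfalso
  apply hna
  have hPH : (P : Subgroup G) ≤ H := h2.resolve_right hcyc
  -- the two characteristic sections
  have hHnorm : Subgroup.normalizer (H : Set G) = ⊤ := Subgroup.normalizer_eq_top_iff.mpr inferInstance
  let C₀ : Subgroup H := pPrimeCore p H
  let C₁ : Subgroup H := pPrimePCore p H
  haveI hC0c : C₀.Characteristic := Cfsg.Agent.H06.pPrimeCore_characteristic H p
  haveI hC1c : C₁.Characteristic := by
    rw [Subgroup.characteristic_iff_map_le]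
    rintro φ _ ⟨x, hx, rfl⟩
    exact Cfsg.Agent.H15.map_pPrimePCore_mem φ hx
  set L : Subgroup G := C₀.map H.subtype with hL
  set K : Subgroup G := C₁.map H.subtype with hK
  haveI hLn : L.Normal := by
    rw [← Subgroup.normalizer_eq_top_iff, eq_top_iff, ← hHnorm]
    exact Cfsg.Agent.H13.normalizer_le_normalizer_map_of_characteristic H C₀
  haveI hKn : K.Normal := by
    rw [← Subgroup.normalizer_eq_top_iff, eq_top_iff, ← hHnorm]
    exact Cfsg.Agent.H13.normalizer_le_normalizer_map_of_characteristic H C₁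
  have hLcop : (Nat.card L).Coprime p := by
    have h0 : (Nat.card C₀).Coprime p := Cfsg.Agent.H06.coprime_card_pPrimeCore p
    rwa [hL, Nat.card_congr (C₀.equivMapOfInjective _ H.subtype_injective).symm.toEquiv]
  -- `pCore` of the quotient
  haveI : C₀.Normal := inferInstance
  have hQs : IsPSolvable p (H ⧸ C₀) :=
    Cfsg.Agent.H03.isPSolvable_of_surjective (QuotientGroup.mk'_surjective C₀) hsolv
  have hne : (⊤ : Subgroup (H ⧸ C₀)) ≠ ⊥ := by
    intro h0
    have h1 : C₀ = ⊤ := by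
      have h3 : (QuotientGroup.mk' C₀).ker = ⊤ := by
        rw [eq_top_iff]
        intro x _
        rw [MonoidHom.mem_ker]
        have : (QuotientGroup.mk' C₀) x ∈ (⊤ : Subgroup (H ⧸ C₀)) := trivial
        rw [h0] at this
        exact this
      rwa [QuotientGroup.ker_mk'] at h3
    have h0c : (Nat.card C₀).Coprime p := Cfsg.Agent.H06.coprime_card_pPrimeCore p
    rw [h1, Subgroup.card_top] at h0c
    exact (Nat.Prime.coprime_iff_not_dvd hpp).mp h0c.symm hdiv
  obtain ⟨M, -, hMn, hMne, hM⟩ := Cfsg.Agent.H03.exists_normal_le_of_isPSolvable hQs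
    Subgroup.normal_top hne
  have hMp : IsPGroup p M := by
    rcases hM with h | h
    · exact h
    · exfalso
      apply hMne
      have h1 : M ≤ pPrimeCore p (H ⧸ C₀) := le_sSup ⟨hMn, h⟩
      have h3 : pPrimeCore p (H ⧸ C₀) = ⊥ := Cfsg.Agent.H08.pPrimeCore_quotient_eq_bot p
      rw [h3] at h1
      exact le_bot_iff.mp h1
  have hMle : M ≤ pCore p (H ⧸ C₀) := le_sSup ⟨hMn, hMp⟩
  have hcoreP : IsPGroup p (pCore p (H ⧸ C₀)) := Cfsg.Agent.H01.pCore_isPGroup p
  have hcorene : pCore p (H ⧸ C₀) ≠ ⊥ := by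
    intro h0
    rw [h0] at hMle
    exact hMne (le_bot_iff.mp hMle)
  obtain ⟨a, ha⟩ := IsPGroup.iff_card.mp hcoreP
  have ha1 : a ≠ 0 := by
    intro h0
    rw [h0, pow_zero] at ha
    exact hcorene (Subgroup.eq_bot_of_card_eq _ ha)
  have hKcard : Nat.card K = Nat.card L * p ^ a := by
    have e1 : Nat.card K = Nat.card C₁ :=
      (Nat.card_congr (C₁.equivMapOfInjective _ H.subtype_injective).toEquiv).symm
    have e2 : Nat.card L = Nat.card C₀ :=
      (Nat.card_congr (C₀.equivMapOfInjective _ H.subtype_injective).toEquiv).symm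
    rw [e1, e2, ← ha]
    exact QuotientGroup.card_preimage_mk C₀ (pCore p (H ⧸ C₀) : Set (H ⧸ C₀))
  have hpK : p ∣ Nat.card K := by
    rw [hKcard]
    exact Dvd.dvd.mul_left (dvd_pow_self p ha1) _
  have hPK : (P : Subgroup G) ≤ K := (cyc_or_le hp hC P K hpK).resolve_right hcyc
  -- `K = L P`
  have hinf : (P : Subgroup G) ⊓ L = ⊥ := by
    rw [inf_comm]
    exact Cfsg.Agent.H03.inf_eq_bot_of_pgroup hLcop P.2
  have hKLP : K ≤ (P : Subgroup G) ⊔ L := by
    have h1 := H18.card_sup_mul_card_inf (P : Subgroup G) L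
    rw [hinf, Subgroup.card_bot, mul_one] at h1
    have h3 : p ^ a ∣ Nat.card (P : Subgroup G) := by
      exact Sylow.pow_dvd_card_of_pow_dvd_card P
        (Dvd.dvd.trans (Dvd.intro_left _ hKcard.symm) (Subgroup.card_subgroup_dvd_card K))
    have hle : (P : Subgroup G) ⊔ L ≤ K := sup_le hPK (by
      rw [hL, hK]
      exact Subgroup.map_mono (Cfsg.Agent.H06.pPrimeCore_le_pPrimePCore p H))
    have : Nat.card K ≤ Nat.card ((P : Subgroup G) ⊔ L : Subgroup G) := by
      rw [h1, hKcard, mul_comm]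
      exact Nat.mul_le_mul_right _ (Nat.le_of_dvd Nat.card_pos h3)
    exact (Subgroup.eq_of_le_of_card_ge hle this).ge
  -- a central element of order `p`
  haveI : Fact p.Prime := ⟨hpp⟩
  have hT : IsPGroup p (P : Subgroup G) := P.2
  haveI : Nontrivial (P : Subgroup G) := by
    rw [← Finite.one_lt_card_iff_nontrivial, hcard]
    exact Nat.one_lt_pow (by norm_num) hpp.one_lt
  have hZ := hT.center_nontrivial
  obtain ⟨⟨z₀, hz₀⟩, hz₀ne⟩ := exists_ne (1 : Subgroup.center (P : Subgroup G))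
  have horder : ∀ y : (P : Subgroup G), y ≠ 1 → orderOf y = p := by
    intro y hy
    have h1 : orderOf y ∣ p := by
      have h9 := Monoid.order_dvd_exponent y
      rwa [hexp] at h9
    rcases (Nat.dvd_prime hpp).mp h1 with h3 | h3
    · exact absurd (orderOf_eq_one_iff.mp h3) hy
    · exact h3
  have hz₀1 : z₀ ≠ 1 := fun h => hz₀ne (Subtype.ext h)
  set z : G := (z₀ : G) with hz
  have hzP : z ∈ (P : Subgroup G) := z₀.2
  have hzord : orderOf z = p := by
    rw [hz, Subgroup.orderOf_coe]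
    exact horder _ hz₀1
  have hzcen : ∀ v ∈ (P : Subgroup G), ∀ k : ℤ, z ^ k * v = v * z ^ k := by
    intro v hv k
    have h1 : ∀ w : (P : Subgroup G), w * z₀ = z₀ * w := Subgroup.mem_center_iff.mp hz₀
    have h3 : (⟨v, hv⟩ : (P : Subgroup G)) * z₀ = z₀ * ⟨v, hv⟩ := h1 ⟨v, hv⟩
    have h4 : v * z = z * v := congrArg Subtype.val h3
    exact ((Commute.zpow_left (h4.symm : Commute z v) k))
  -- every element is central
  refine ⟨⟨?_⟩⟩
  rintro ⟨x, hx⟩ ⟨u, hu⟩
  apply Subtype.ext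
  show x * u = u * x
  by_cases hx1 : x = 1
  · rw [hx1, one_mul, mul_one]
  have hxord : orderOf x = p := by
    have h0 : (⟨x, hx⟩ : (P : Subgroup G)) ≠ 1 := fun h => hx1 (congrArg Subtype.val h)
    have := horder _ h0
    rwa [Subgroup.orderOf_mk] at this
  have hcz : Nat.card (Subgroup.zpowers z) = p := by rw [Nat.card_zpowers, hzord]
  have hcx : Nat.card (Subgroup.zpowers x) = p := by rw [Nat.card_zpowers, hxord]
  have hzP' : IsPGroup p (Subgroup.zpowers z) := IsPGroup.of_card (n := 1) (by rw [hcz, pow_one])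
  have hxP' : IsPGroup p (Subgroup.zpowers x) := IsPGroup.of_card (n := 1) (by rw [hcx, pow_one])
  obtain ⟨g, hg⟩ := hC _ _ hzP' hxP' (by rw [hcz, hcx])
  have hxm : x ∈ (Subgroup.zpowers z).map (MulAut.conj g).toMonoidHom := by
    rw [← hg]
    exact Subgroup.mem_zpowers x
  obtain ⟨_, ⟨k, rfl⟩, hk⟩ := hxm
  have hxeq : x = g * z ^ k * g⁻¹ := hk.symm
  -- `[x,u] ∈ L`
  have hy : g⁻¹ * u * g ∈ K := by
    have := hKn.conj_mem u (hPK hu) g⁻¹
    simpa using this
  obtain ⟨v, hv, l, hl, hvl⟩ := H18.mem_sup_normal_right.mp (hKLP hy)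
  have hcomm : x * u * x⁻¹ * u⁻¹ ∈ L := by
    -- `y = v l`
    have hu' : u = g * (v * l) * g⁻¹ := by rw [hvl]; group
    have hc1 : z ^ k * (v * l) * (z ^ k)⁻¹ * (v * l)⁻¹ = v * (z ^ k * l * (z ^ k)⁻¹ * l⁻¹) * v⁻¹ := by
      have := hzcen v hv k
      calc z ^ k * (v * l) * (z ^ k)⁻¹ * (v * l)⁻¹
          = (z ^ k * v) * l * (z ^ k)⁻¹ * (l⁻¹ * v⁻¹) := by group
        _ = (v * z ^ k) * l * (z ^ k)⁻¹ * (l⁻¹ * v⁻¹) := by rw [this]
        _ = _ := by group
    have hc2 : z ^ k * l * (z ^ k)⁻¹ * l⁻¹ ∈ L :=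
      L.mul_mem (hLn.conj_mem l hl (z ^ k)) (L.inv_mem hl)
    have hc3 : x * u * x⁻¹ * u⁻¹ = g * (z ^ k * (v * l) * (z ^ k)⁻¹ * (v * l)⁻¹) * g⁻¹ := by
      rw [hxeq]
      conv_lhs => rw [hu']
      group
    rw [hc3, hc1]
    exact hLn.conj_mem _ (hLn.conj_mem _ hc2 v) g
  have hcommP : x * u * x⁻¹ * u⁻¹ ∈ (P : Subgroup G) :=
    Subgroup.mul_mem _ (Subgroup.mul_mem _ (Subgroup.mul_mem _ hx hu) (Subgroup.inv_mem _ hx))
      (Subgroup.inv_mem _ hu)
  have hbot : x * u * x⁻¹ * u⁻¹ ∈ (P : Subgroup G) ⊓ L := Subgroup.mem_inf.mpr ⟨hcommP, hcomm⟩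
  rw [hinf, Subgroup.mem_bot] at hbot
  have : x * u * x⁻¹ = u := by
    rw [mul_inv_eq_one] at hbot
    exact hbot
  rw [mul_inv_eq_iff_eq_mul] at this
  exact this

end Cfsg.Agent.S4024
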