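import Cfsg.Statements.S4027
import Cfsg.Agent.Lib.H19.Normal2
import Mathlib

set_option autoImplicit false
open Cfsg

namespace Cfsg.Agent.S4027

open Cfsg.Agent.H19

/-- Let G be a finite group in which every element x of odd order satisfies N_G(⟨x⟩) = C_G(x). Then the Sylow 2-subgroups of G are normal. -/
theorem result {G : Type*} [Group G] [Finite G]
    (hirr : ∀ x : G, (∀ r : ℕ, r.Prime → r ∣ orderOf x → r ≠ 2) →
      Subgroup.normalizer ((Subgroup.zpowers x : Subgroup G) : Set G) ≤ Subgroup.centralizer {x}) (P : Sylow 2 G) :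
    (P : Subgroup G).Normal := by
  refine normal_sylow_two_of_no_inverting _ G rfl ?_ P
  intro t y _ hy hinv
  have h1 : ∀ r : ℕ, r.Prime → r ∣ orderOf y → r ≠ 2 := by
    rintro r hr hr1 rfl
    exact (Nat.not_even_iff_odd.2 hy) (even_iff_two_dvd.2 hr1)
  have h2 : t ∈ Subgroup.normalizer ((Subgroup.zpowers y : Subgroup G) : Set G) := by
    apply mem_normalizer_zpowers_of_conj_mem
    rw [hinv]
    exact Subgroup.inv_mem _ (Subgroup.mem_zpowers y)
  have h3 := Subgroup.mem_centralizer_iff.1 (hirr y h1 h2) y rfl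
  have h4 : t * y * t⁻¹ = y := by
    rw [← h3]; simp
  rw [h4] at hinv
  have h5 : y ^ 2 = 1 := by
    rw [pow_two]
    nth_rw 2 [hinv]
    simp
  have h6 : orderOf y ∣ 2 := orderOf_dvd_of_pow_eq_one h5
  have h7 : orderOf y = 1 := by
    have h8 := Nat.le_of_dvd (by norm_num) h6
    obtain ⟨m, hm⟩ := hy
    omega
  exact orderOf_eq_one_iff.1 h7

end Cfsg.Agent.S4027
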