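import Cfsg.Statements.S4028
import Cfsg.Agent.Lib.H19.Lifts
import Mathlib

set_option autoImplicit false
open Cfsg

namespace Cfsg.Agent.S4028

open Cfsg.Agent.H19
open scoped Pointwise

/-- Let G be a finite group with Sylow 2-subgroup P. Then N_G(⟨x⟩) = C_G(x) holds for every 2-element x of G if and only if N_P(⟨y⟩) = C_P(y) holds for every y ∈ P (computed inside P). -/
theorem result {G : Type*} [Group G] [Finite G] (P : Sylow 2 G) :
    (∀ x : G, (∀ r : ℕ, r.Prime → r ∣ orderOf x → r = 2) →
      Subgroup.normalizer ((Subgroup.zpowers x : Subgroup G) : Set G) ≤ Subgroup.centralizer {x}) ↔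
    (∀ y : ↥(P : Subgroup G), Subgroup.normalizer ((Subgroup.zpowers y : Subgroup ↥(P : Subgroup G)) : Set ↥(P : Subgroup G)) ≤
        Subgroup.centralizer {y}) := by
  classical
  have h2 : Nat.Prime 2 := Nat.prime_two
  have hFact : Fact (Nat.Prime 2) := ⟨h2⟩
  constructor
  · intro h y z hz
    have hy2 : ∀ r : ℕ, r.Prime → r ∣ orderOf (y : G) → r = 2 := by
      intro r hr hr1
      obtain ⟨k, hk⟩ := orderOf_of_mem_isPGroup P.isPGroup' y.2
      rw [hk] at hr1
      exact (Nat.prime_dvd_prime_iff_eq hr h2).1 (hr.dvd_of_dvd_pow hr1)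
    have hz1 : (z : G) * y * (z : G)⁻¹ ∈ Subgroup.zpowers (y : G) := by
      have := (Subgroup.mem_normalizer_iff.1 hz y).1 (Subgroup.mem_zpowers _)
      obtain ⟨k, hk⟩ := this
      refine ⟨k, ?_⟩
      have := congrArg Subtype.val hk
      simpa using this
    have hc := h _ hy2 (mem_normalizer_zpowers_of_conj_mem hz1)
    rw [Subgroup.mem_centralizer_iff] at hc ⊢
    intro w hw
    rw [Set.mem_singleton_iff] at hw
    subst hw
    apply Subtype.ext
    exact hc _ rfl
  · intro h x hx
    set A := Subgroup.zpowers x with hA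
    set N := Subgroup.normalizer (A : Set G) with hN
    -- x is a 2-element
    have hxord : ∃ k, orderOf x = 2 ^ k := by
      exact ⟨_, Nat.eq_prime_pow_of_unique_prime_dvd (orderOf_pos x).ne' (fun {d} hd hd1 => hx d hd hd1)⟩
    obtain ⟨a, ha⟩ := hxord
    have hA2 : IsPGroup 2 A := isPGroup_zpowers_of_orderOf ha
    -- Sylow of N
    obtain ⟨T⟩ := (inferInstance : Nonempty (Sylow 2 N))
    have hAT : A.subgroupOf N ≤ (T : Subgroup N) := by
      have hn : (A.subgroupOf N).Normal := Subgroup.normal_in_normalizer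
      have hp : IsPGroup 2 (A.subgroupOf N) := by
        have : IsPGroup 2 (A.subgroupOf N) := hA2.comap_subtype
        exact this
      exact hp.le_sylow_of_normal T
    have hxN : x ∈ N := Subgroup.le_normalizer (Subgroup.mem_zpowers x)
    have hxT : (⟨x, hxN⟩ : N) ∈ (T : Subgroup N) := hAT (by
      rw [Subgroup.mem_subgroupOf]; exact Subgroup.mem_zpowers x)
    -- T' is a 2-subgroup of G
    have hT' : IsPGroup 2 ((T : Subgroup N).map N.subtype) := T.isPGroup'.map _
    obtain ⟨Q, hQ⟩ := hT'.exists_le_sylow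
    obtain ⟨c, hc⟩ := MulAction.exists_smul_eq G Q P
    have hcP : ∀ t : N, t ∈ (T : Subgroup N) → c * (t : G) * c⁻¹ ∈ (P : Subgroup G) := by
      intro t ht
      have h1 : (t : G) ∈ (Q : Subgroup G) := hQ ⟨t, ht, rfl⟩
      rw [← hc, Sylow.coe_subgroup_smul, mem_conj_smul]
      simpa [mul_assoc] using h1
    -- T centralizes x
    have hTc : ∀ t : N, t ∈ (T : Subgroup N) → (t : G) * x = x * t := by
      intro t ht
      set y : (P : Subgroup G) := ⟨c * x * c⁻¹, hcP _ hxT⟩ with hy
      set s : (P : Subgroup G) := ⟨c * t * c⁻¹, hcP _ ht⟩ with hs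
      have h1 : s * y * s⁻¹ ∈ Subgroup.zpowers y := by
        have h3 : (t : G) * x * (t : G)⁻¹ ∈ A := (Subgroup.mem_normalizer_iff.1 t.2 x).1 (Subgroup.mem_zpowers x)
        obtain ⟨k, hk⟩ := h3
        refine ⟨k, ?_⟩
        apply Subtype.ext
        have hk' : x ^ k = (t : G) * x * (t : G)⁻¹ := hk
        show (c * x * c⁻¹) ^ k = (c * t * c⁻¹) * (c * x * c⁻¹) * (c * t * c⁻¹)⁻¹
        rw [conj_zpow, hk']
        group
      have h4 := h y (mem_normalizer_zpowers_of_conj_mem h1)
      rw [Subgroup.mem_centralizer_iff] at h4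
      have h5 := h4 y rfl
      have h6 : (y : G) * s = s * y := congrArg Subtype.val h5
      simp only [hy, hs] at h6
      have h7 : c * (x * t) * c⁻¹ = c * (t * x) * c⁻¹ := by
        calc c * (x * t) * c⁻¹ = c * x * c⁻¹ * (c * t * c⁻¹) := by group
          _ = c * t * c⁻¹ * (c * x * c⁻¹) := h6
          _ = c * (t * x) * c⁻¹ := by group
      have h8 : x * t = t * x := mul_left_cancel (mul_right_cancel h7)
      exact h8.symm
    -- the action on A
    have : IsCyclic A := Subgroup.isCyclic_zpowers x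
    let φ : N →* MulAut A := A.normalizerMonoidHom
    have hTker : (T : Subgroup N) ≤ φ.ker := by
      intro t ht
      rw [MonoidHom.mem_ker]
      have hcomm := hTc t ht
      ext w
      obtain ⟨w, k, rfl⟩ := w
      show (t : G) * x ^ k * (t : G)⁻¹ = x ^ k
      have hC : Commute (t : G) x := hcomm
      rw [(hC.zpow_right k).eq]
      simp
    have hidx : φ.ker.index ∣ (T : Subgroup N).index := Subgroup.index_dvd_of_le hTker
    have hodd : ¬ 2 ∣ (T : Subgroup N).index := T.not_dvd_index
    have hcard : φ.ker.index ∣ Nat.card (MulAut A) := by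
      rw [Subgroup.index_ker]
      exact Subgroup.card_subgroup_dvd_card _
    have hcardA : Nat.card (MulAut A) = Nat.totient (Nat.card A) := IsCyclic.card_mulAut A
    have h1 : φ.ker.index = 1 := by
      have h3 : Nat.card A = 2 ^ a := by rw [Nat.card_zpowers, ha]
      rw [hcardA, h3] at hcard
      by_cases ha0 : a = 0
      · subst ha0
        simpa using hcard
      · rw [Nat.totient_prime_pow h2 (Nat.pos_of_ne_zero ha0)] at hcard
        simp only [Nat.add_one_sub_one, pow_one, mul_one] at hcard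
        obtain ⟨j, -, hj⟩ := (Nat.dvd_prime_pow h2).1 hcard
        by_cases hj0 : j = 0
        · rw [hj, hj0, pow_zero]
        · exfalso
          apply hodd
          refine Dvd.dvd.trans ?_ hidx
          rw [hj]
          exact dvd_pow_self 2 hj0
    rw [Subgroup.index_eq_one] at h1
    intro g hg
    have h3 : (⟨g, hg⟩ : N) ∈ φ.ker := by rw [h1]; exact Subgroup.mem_top _
    rw [MonoidHom.mem_ker] at h3
    rw [Subgroup.mem_centralizer_iff]
    intro w hw
    rw [Set.mem_singleton_iff] at hw
    rw [hw]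
    have h4 := DFunLike.congr_fun h3 ⟨x, Subgroup.mem_zpowers x⟩
    have h5 : g * x * g⁻¹ = x := congrArg Subtype.val h4
    rw [← mul_left_inj g⁻¹]
    rw [mul_assoc, mul_inv_cancel, mul_one]
    exact h5.symm

end Cfsg.Agent.S4028
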