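import Cfsg.Statements.S4029
import Cfsg.Agent.Lib.H23.RealOrbits
import Cfsg.Agent.Lib.H01.Basic

set_option autoImplicit false
open Cfsg

namespace Cfsg.Agent.S4029

/-- Let P be a finite 2-group in which N_P(⟨y⟩) = C_P(y) for every y ∈ P. If s is the number of conjugacy classes of involutions of P, then #(P/Φ(P)) ≤ s + 1; in particular the subgroup generated by the involutions of P has order at least #(P/Φ(P)). -/
theorem result {P : Type*} [Group P] [Finite P] (hP : IsPGroup 2 P)
    (hirr : ∀ y : P, Subgroup.normalizer ((Subgroup.zpowers y : Subgroup P) : Set P) ≤ Subgroup.centralizer {y}) :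
    Nat.card (P ⧸ frattini P) ≤ Nat.card {c : ConjClasses P // ∃ y : P, ConjClasses.mk y = c ∧ orderOf y = 2} + 1 ∧
    Nat.card (P ⧸ frattini P) ≤ Nat.card (Subgroup.closure {y : P | orderOf y = 2}) := by
  
  classical
  haveI : Fintype P := Fintype.ofFinite P
  haveI : Fact (Nat.Prime 2) := ⟨Nat.prime_two⟩
  let A := P ⧸ frattini P
  haveI : Fintype A := Fintype.ofFinite A
  have hsq : ∀ a : A, a * a = 1 := by
    intro a
    induction a using QuotientGroup.induction_on with
    | H x =>
      rw [← QuotientGroup.mk_mul, QuotientGroup.eq_one_iff]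
      have := Cfsg.Agent.H01.pow_mem_frattini_of_isPGroup hP x
      rwa [pow_two] at this
  have hcomm : ∀ a b : A, a * b = b * a := by
    intro a b
    have h1 := hsq (a * b)
    have h2 : a * b * (a * b) = 1 := h1
    calc a * b = a * (a * b * (a * b)) * b := by rw [h2]; simp
      _ = (a * a) * b * a * (b * b) := by group
      _ = b * a := by rw [hsq, hsq]; simp
  have hcardA : Nat.card (Cfsg.IrrCharacter A) = Nat.card A := by
    rw [Cfsg.Agent.H21.card_irr_eq_card_conjClasses]
    apply Nat.card_congr
    symm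
    refine Equiv.ofBijective ConjClasses.mk ⟨?_, ?_⟩
    · intro a b h
      obtain ⟨c, hc⟩ := isConj_iff.1 (ConjClasses.mk_eq_mk_iff_isConj.1 h)
      rw [← hc, hcomm c a]
      simp
    · intro c
      obtain ⟨a, rfl⟩ := ConjClasses.mk_surjective c
      exact ⟨a, rfl⟩
  -- the inflation is injective into the real irreducibles
  let π : P →* A := QuotientGroup.mk' (frattini P)
  have hπ : Function.Surjective π := QuotientGroup.mk'_surjective _
  let infl : Cfsg.IrrCharacter A → {χ : Cfsg.IrrCharacter P // ∀ g, (starRingEnd ℂ) (χ.1 (MulEquiv.refl P g)) = χ.1 g} :=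
    fun χ => ⟨⟨χ.1 ∘ π, Cfsg.Agent.H21.isIrrCharacter_comp_of_surjective π hπ χ.2⟩, by
      intro g
      have h1 := Cfsg.Agent.H21.isCharacter_inv (Cfsg.Agent.H21.isCharacter_of_irr χ.2) (π g)
      have h2 : (π g)⁻¹ = π g := by
        have := hsq (π g)
        exact inv_eq_of_mul_eq_one_left this
      rw [h2] at h1
      exact h1.symm⟩
  have hinfl : Function.Injective infl := by
    intro χ ψ h
    apply Subtype.ext
    funext a
    obtain ⟨x, rfl⟩ := hπ a
    have h1 := congrArg (fun z => z.1.1 x) h
    exact h1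
  have h1 : Nat.card A ≤ Nat.card {χ : Cfsg.IrrCharacter P // ∀ g, (starRingEnd ℂ) (χ.1 (MulEquiv.refl P g)) = χ.1 g} := by
    rw [← hcardA]
    exact Nat.card_le_card_of_injective infl hinfl
  have h2 := Cfsg.Agent.H23.brauer_perm_twist (MulEquiv.refl P)
  rw [h2] at h1
  -- real classes are classes of elements of order at most 2
  have hreal : ∀ r : P, IsConj r⁻¹ r → r * r = 1 := by
    intro r hr
    obtain ⟨c, hc⟩ := isConj_iff.1 hr
    have hc' : c * r * c⁻¹ = r⁻¹ := by
      have : c * r⁻¹ * c⁻¹ = r := hc
      have h3 := congrArg (fun z => z⁻¹) this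
      simpa [mul_assoc] using h3
    have hn : c ∈ Subgroup.normalizer ((Subgroup.zpowers r : Subgroup P) : Set P) := by
      apply Subgroup.mem_normalizer_fintype
      intro n hn
      obtain ⟨k, rfl⟩ := Subgroup.mem_zpowers_iff.1 hn
      rw [SetLike.mem_coe, ← conj_zpow, hc']
      exact Subgroup.zpow_mem _ (Subgroup.inv_mem _ (Subgroup.mem_zpowers r)) k
    have h3 := hirr r hn
    rw [Subgroup.mem_centralizer_singleton_iff] at h3
    have h4 : r⁻¹ = r := by
      rw [← hc', h3]
      simp
    exact inv_eq_iff_mul_eq_one.1 h4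
  let S := {c : ConjClasses P // ∃ y : P, ConjClasses.mk y = c ∧ orderOf y = 2}
  have hS : ∀ (C : ConjClasses P), (∀ r, ConjClasses.mk r = C → IsConj (MulEquiv.refl P r)⁻¹ r) →
      C ≠ ConjClasses.mk 1 → ∃ y : P, ConjClasses.mk y = C ∧ orderOf y = 2 := by
    intro C hC h1C
    obtain ⟨y, rfl⟩ := ConjClasses.mk_surjective C
    refine ⟨y, rfl, ?_⟩
    have hy := hreal y (hC y rfl)
    have hy1 : y ≠ 1 := by
      rintro rfl
      exact h1C rfl
    exact orderOf_eq_prime (by rwa [pow_two]) hy1
  have h3 : Nat.card {C : ConjClasses P // ∀ r, ConjClasses.mk r = C → IsConj (MulEquiv.refl P r)⁻¹ r}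
      ≤ Nat.card (Option S) := by
    refine Nat.card_le_card_of_injective (fun C =>
      if h : C.1 = ConjClasses.mk 1 then none else some ⟨C.1, hS C.1 C.2 h⟩) ?_
    intro C D hCD
    apply Subtype.ext
    by_cases hC : C.1 = ConjClasses.mk 1 <;> by_cases hD : D.1 = ConjClasses.mk 1
    · rw [hC, hD]
    · simp [hC, hD] at hCD
    · simp [hC, hD] at hCD
    · simp only [dif_neg hC, dif_neg hD] at hCD
      have h6 := Option.some.inj hCD
      exact congrArg (fun z : S => z.1) h6
  rw [Finite.card_option] at h3
  have h4 : Nat.card (Option S) ≤ Nat.card (Subgroup.closure {y : P | orderOf y = 2}) := by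
    refine Nat.card_le_card_of_injective (fun o => match o with
      | none => 1
      | some c => ⟨c.2.choose, Subgroup.subset_closure c.2.choose_spec.2⟩) ?_
    rintro (_ | c) (_ | d) hcd
    · rfl
    · exfalso
      have h5 := congrArg Subtype.val hcd
      have h6 : (1 : P) = d.2.choose := h5
      have h7 := d.2.choose_spec.2
      rw [← h6, orderOf_one] at h7
      omega
    · exfalso
      have h5 := congrArg Subtype.val hcd
      have h6 : c.2.choose = (1 : P) := h5
      have h7 := c.2.choose_spec.2
      rw [h6, orderOf_one] at h7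
      omega
    · have h5 := congrArg Subtype.val hcd
      have h6 : c.2.choose = d.2.choose := h5
      have h7 := c.2.choose_spec.1
      have h8 := d.2.choose_spec.1
      rw [h6, h8] at h7
      congr 1
      exact Subtype.ext h7.symm
  rw [Finite.card_option] at h4
  exact ⟨h1.trans h3, (h1.trans h3).trans h4⟩

end Cfsg.Agent.S4029
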