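import Cfsg.Statements.S4032
import Cfsg.Agent.Lib.H19.Lifts
import Cfsg.Agent.Lib.H06.CoprimeCoset
import Mathlib

set_option autoImplicit false
open Cfsg

namespace Cfsg.Agent.S4032

open Cfsg.Agent.H19

/-- Let π be a set of primes and G a finite group in which N_G(⟨x⟩) = C_G(x) for every π-element x. If N is a normal subgroup of G whose order is divisible by no prime of π, then G/N has the same property: N_{G/N}(⟨y⟩) = C_{G/N}(y) for every π-element y of G/N. -/
theorem result {G : Type*} [Group G] [Finite G] (π : Set ℕ)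
    (hirr : ∀ x : G, (∀ r : ℕ, r.Prime → r ∣ orderOf x → r ∈ π) →
      Subgroup.normalizer ((Subgroup.zpowers x : Subgroup G) : Set G) ≤ Subgroup.centralizer {x})
    (N : Subgroup G) [N.Normal] (hN : ∀ r : ℕ, r.Prime → r ∣ Nat.card N → r ∉ π) :
    ∀ y : G ⧸ N, (∀ r : ℕ, r.Prime → r ∣ orderOf y → r ∈ π) →
      Subgroup.normalizer ((Subgroup.zpowers y : Subgroup (G ⧸ N)) : Set (G ⧸ N)) ≤ Subgroup.centralizer {y} := by
  classical
  intro y hy z hz
  let f : G →* G ⧸ N := QuotientGroup.mk' N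
  have hf : Function.Surjective f := QuotientGroup.mk'_surjective N
  obtain ⟨x, rfl, hx⟩ := exists_pi_lift f hf π y hy
  obtain ⟨w, rfl⟩ := hf z
  have hker : ∀ v : G, f v = 1 ↔ v ∈ N := fun v => QuotientGroup.eq_one_iff v
  -- a π-element in N is trivial; orders are preserved
  have hord : ∀ a : G, (∀ r : ℕ, r.Prime → r ∣ orderOf a → r ∈ π) → orderOf (f a) = orderOf a := by
    intro a ha
    apply Nat.dvd_antisymm (orderOf_map_dvd f a)
    have h1 : a ^ orderOf (f a) ∈ N := by
      rw [← hker, map_pow, pow_orderOf_eq_one]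
    have h2 : orderOf (a ^ orderOf (f a)) ∣ Nat.card N := by
      have := orderOf_dvd_natCard (⟨_, h1⟩ : N)
      rwa [Subgroup.orderOf_mk] at this
    have h3 : orderOf (a ^ orderOf (f a)) = 1 := by
      by_contra h4
      obtain ⟨r, hr, hr1⟩ := Nat.exists_prime_and_dvd h4
      refine hN r hr (hr1.trans h2) (ha r hr (hr1.trans ?_))
      exact orderOf_dvd_of_mem_zpowers (Subgroup.npow_mem_zpowers a _)
    rw [orderOf_eq_one_iff] at h3
    exact orderOf_dvd_of_pow_eq_one h3
  -- conj in the quotient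
  have hz1 : f (w * x * w⁻¹) ∈ Subgroup.zpowers (f x) := by
    have := (Subgroup.mem_normalizer_iff.1 hz (f x)).1 (Subgroup.mem_zpowers _)
    simpa using this
  obtain ⟨k, hk⟩ := hz1
  simp only at hk
  -- g := x ^ k
  set g := x ^ k with hg
  set u := w * x * w⁻¹ with hu
  have hordu : orderOf u = orderOf x := by
    exact (SemiconjBy.orderOf_eq w (x := x) (y := u) (by simp [SemiconjBy, hu])).symm
  have hfg : f g = f u := by
    rw [hg, map_zpow]; exact hk
  have hgπ : ∀ r : ℕ, r.Prime → r ∣ orderOf g → r ∈ π := by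
    intro r hr hr1
    exact hx r hr (hr1.trans (orderOf_dvd_of_mem_zpowers ⟨k, rfl⟩))
  have huπ : ∀ r : ℕ, r.Prime → r ∣ orderOf u → r ∈ π := by
    rw [hordu]; exact hx
  have hordg : orderOf g = orderOf x := by
    rw [← hord g hgπ, hfg, hord u huπ, hordu]
  have hcop : (orderOf g).Coprime (Nat.card N) := by
    apply Nat.Coprime.symm
    apply Nat.coprime_of_dvd
    intro r hr h1 h2
    exact hN r hr h1 (hgπ r hr h2)
  have hgN : ∀ v ∈ N, g * v * g⁻¹ ∈ N := fun v hv => (inferInstance : N.Normal).conj_mem v hv g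
  have hh : u * g⁻¹ ∈ N := by
    rw [← hker, map_mul, map_inv, hfg, mul_inv_cancel]
  have hpow : ((u * g⁻¹) * g) ^ orderOf g = 1 := by
    rw [inv_mul_cancel_right, hordg, ← hordu, pow_orderOf_eq_one]
  obtain ⟨n, hn, hconj⟩ := Cfsg.Agent.H06.exists_conj_eq_of_pow_eq_one hgN hcop hh hpow
  rw [inv_mul_cancel_right] at hconj
  -- n w normalizes ⟨x⟩
  have hnorm : n * w ∈ Subgroup.normalizer ((Subgroup.zpowers x : Subgroup G) : Set G) := by
    apply mem_normalizer_zpowers_of_conj_mem
    have e : n * w * x * (n * w)⁻¹ = n * u * n⁻¹ := by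
      rw [hu]; group
    rw [e, hconj, hg]
    exact ⟨k, rfl⟩
  have hc := hirr x hx hnorm
  rw [Subgroup.mem_centralizer_iff] at hc ⊢
  intro h hh
  rw [Set.mem_singleton_iff] at hh
  subst hh
  have hc' := hc x rfl
  have h1 : f (n * w) = f w := by
    rw [map_mul, (hker n).2 hn, one_mul]
  rw [← h1, ← map_mul, ← map_mul, hc']

end Cfsg.Agent.S4032
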