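import Cfsg.Statements.S4033
import Cfsg.Agent.Lib.H13.RT11

set_option autoImplicit false
open Cfsg

namespace Cfsg.Agent.S4033

/-- Let G be a finite group and p a prime, and suppose the conjugacy classes of p-regular elements of G (elements of order prime to p) have exactly two distinct sizes. Then either G has an abelian p-complement (an abelian subgroup of order prime to p and p-power index), or there are a prime q ≠ p, a Sylow p-subgroup P, a Sylow q-subgroup Q and a central subgroup A such that PQ is a normal subgroup of order #P·#Q and G is the internal direct product PQ × A. -/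
theorem result {G : Type*} [Group G] [Finite G] {p : ℕ} (hp : p.Prime)
    (h2 : Set.ncard (Set.range fun x : {x : G // (orderOf x).Coprime p} => (ConjClasses.mk (x : G)).carrier.ncard) = 2) :
    (∃ H : Subgroup G, IsMulCommutative H ∧ ¬ p ∣ Nat.card H ∧ ∃ k : ℕ, H.index = p ^ k) ∨
    (∃ (q : ℕ) (_ : Fact q.Prime) (P : Sylow p G) (Q : Sylow q G) (A : Subgroup G), q ≠ p ∧
        A ≤ Subgroup.center G ∧ Nat.card ↥((P : Subgroup G) ⊔ (Q : Subgroup G)) = Nat.card P * Nat.card Q ∧
        ((P : Subgroup G) ⊔ (Q : Subgroup G)).Normal ∧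
        ((P : Subgroup G) ⊔ (Q : Subgroup G)) ⊓ A = ⊥ ∧ ((P : Subgroup G) ⊔ (Q : Subgroup G)) ⊔ A = ⊤) := by
  classical
  haveI hpf : Fact p.Prime := ⟨hp⟩
  have hf : ∀ x : G, (ConjClasses.mk x).carrier.ncard = (Subgroup.centralizer ({x} : Set G)).index :=
    Cfsg.Agent.H19.ncard_class_eq_index
  obtain ⟨c₁, c₂, hne, hset⟩ := Set.ncard_eq_two.mp h2
  have hmem : ∀ x : G, (orderOf x).Coprime p → (Subgroup.centralizer ({x} : Set G)).index ∈ ({c₁, c₂} : Set ℕ) := by
    intro x hx
    rw [← hset, ← hf]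
    exact ⟨⟨x, hx⟩, rfl⟩
  have hone : (1 : ℕ) ∈ ({c₁, c₂} : Set ℕ) := by
    have h1 := hmem 1 (by simp)
    have h3 : (Subgroup.centralizer ({(1 : G)} : Set G)).index = 1 := by simp
    rwa [h3] at h1
  obtain ⟨k, hk1, hk⟩ : ∃ k : ℕ, k ≠ 1 ∧ ({c₁, c₂} : Set ℕ) = {1, k} := by
    rcases hone with h1 | h1
    · obtain rfl : c₁ = 1 := h1.symm
      exact ⟨c₂, hne.symm, rfl⟩
    · obtain rfl : c₂ = 1 := (Set.mem_singleton_iff.mp h1).symm
      exact ⟨c₁, hne, Set.pair_comm _ _⟩
  have hcl : Cfsg.Agent.H13.RT.Cl p k G := by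
    intro x hx
    have h1 := hmem x hx
    rw [hk] at h1
    exact h1
  by_cases hs : ∃ s : ℕ, s.Prime ∧ s ≠ p ∧ s ∣ k
  · obtain ⟨s, hsp, hsr, hsk⟩ := hs
    haveI hsf : Fact s.Prime := ⟨hsp⟩
    right
    have hc : ∀ x : G, (orderOf x).Coprime p → (orderOf x).Coprime s → x ∈ Subgroup.center G := by
      intro x h1 h3
      rw [Subgroup.mem_center_iff]
      intro g
      refine Cfsg.Agent.H13.RT.central_of_pp (C := ⊤) (fun t => t ≠ p ∧ t ≠ s) ?_ x trivial ?_ g trivial
      · rintro t e ht ⟨h4, h5⟩ v _ hv g _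
        exact Subgroup.mem_center_iff.mp (Cfsg.Agent.H13.RT.inner_central hcl hp hsp hsr hsk ht h4 h5 hv) g
      · intro t ht htd
        constructor
        · rintro rfl
          exact ht.one_lt.ne' (Nat.Coprime.eq_one_of_dvd h1.symm htd)
        · rintro rfl
          exact ht.one_lt.ne' (Nat.Coprime.eq_one_of_dvd h3.symm htd)
    obtain ⟨P, Q, A, h1, h3, h4, h5, h6⟩ := Cfsg.Agent.H13.RT.direct_of_central (p := p) (s := s) hsr hc
    exact ⟨s, hsf, P, Q, A, hsr, h1, h3, h4, h5, h6⟩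
  · left
    obtain ⟨H, h1, h3, h4⟩ := Cfsg.Agent.H13.RT.abelian_complement_of_regular (G := G) hp (by
      intro x hx
      rcases hcl x hx with h1 | h1
      · exact ⟨0, by simpa using h1⟩
      · have h0 : k ≠ 0 := by
          rw [← h1]
          exact Subgroup.FiniteIndex.index_ne_zero
        refine ⟨_, h1.trans (Nat.eq_prime_pow_of_unique_prime_dvd h0 ?_)⟩
        intro d hd hdk
        by_contra hne'
        exact hs ⟨d, hd, hne', hdk⟩)
    exact ⟨H, ⟨⟨fun a b => Subtype.ext (h1 a a.2 b b.2)⟩⟩, h3, h4⟩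

end Cfsg.Agent.S4033
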