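import Cfsg.Statements.S4036
import Mathlib

set_option autoImplicit false
open Cfsg

namespace Cfsg.Agent.S4036

/-- Let P be a finite abelian p-group and K a group of automorphisms of P (a subgroup of Aut P) whose order is divisible by p. If all non-identity elements of K have the same fixed-point subgroup on P, then K has no non-trivial normal subgroup of order prime to p. -/
theorem result {P : Type*} [CommGroup P] [Finite P] {p : ℕ}
    [Fact p.Prime] (hP : IsPGroup p P) (K : Subgroup (MulAut P)) (hK : p ∣ Nat.card K)
    (hfix : ∀ x y : MulAut P, x ∈ K → y ∈ K → x ≠ 1 → y ≠ 1 → ∀ v : P, x v = v ↔ y v = v) :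
    ∀ N : Subgroup ↥K, N.Normal → ¬ p ∣ Nat.card N → N = ⊥ := by
  intro N hN hpN
  by_contra hNbot
  classical
  have : Fintype N := Fintype.ofFinite _
  have hp := (Fact.out : p.Prime)
  obtain ⟨n₀, hn₀, hn₀1⟩ := (Subgroup.bot_or_exists_ne_one N).resolve_left hNbot
  have hn₀1' : ((n₀ : K) : MulAut P) ≠ 1 := by
    intro h
    apply hn₀1
    apply Subtype.ext
    exact h
  -- norm map
  let e : P →* P :=
    { toFun := fun v => ∏ n : N, ((n : K) : MulAut P) v
      map_one' := by simp
      map_mul' := fun v w => by
        simp only [map_mul]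
        exact Finset.prod_mul_distrib }
  have he : ∀ v, e v = ∏ n : N, ((n : K) : MulAut P) v := fun _ => rfl
  -- (2) fixed by N
  have he2 : ∀ (m : N) (v : P), ((m : K) : MulAut P) (e v) = e v := by
    intro m v
    rw [he, map_prod]
    refine Fintype.prod_equiv (Equiv.mulLeft m) _ _ ?_
    intro n
    simp
  -- (3) equivariance
  have he3 : ∀ (k : K) (v : P), e ((k : MulAut P) v) = (k : MulAut P) (e v) := by
    intro k v
    rw [he, he, map_prod]
    let τ : N ≃ N :=
      { toFun := fun n => ⟨k⁻¹ * n * k, by
          have := hN.conj_mem n n.2 k⁻¹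
          simpa using this⟩
        invFun := fun n => ⟨k * n * k⁻¹, hN.conj_mem n n.2 k⟩
        left_inv := fun n => by
          apply Subtype.ext
          simp [mul_assoc]
        right_inv := fun n => by
          apply Subtype.ext
          simp [mul_assoc] }
    refine Fintype.prod_equiv τ _ _ ?_
    intro n
    simp [τ]
  -- (4)
  have hcop : Nat.Coprime (Nat.card N) p := ((Nat.Prime.coprime_iff_not_dvd hp).2 hpN).symm
  have hF : ∀ v : P, ((n₀ : K) : MulAut P) v = v → e v = 1 → v = 1 := by
    intro v hv hev
    have h1 : ∀ n : N, ((n : K) : MulAut P) v = v := by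
      intro n
      by_cases hn1 : ((n : K) : MulAut P) = 1
      · rw [hn1]; rfl
      · exact (hfix _ _ (n : K).2 (n₀ : K).2 hn1 hn₀1' v).2 hv
    have h2 : e v = v ^ Nat.card N := by
      rw [he, Nat.card_eq_fintype_card, ← Finset.card_univ, ← Finset.prod_const]
      exact Finset.prod_congr rfl (fun n _ => h1 n)
    rw [h2] at hev
    have h3 : orderOf v ∣ Nat.card N := orderOf_dvd_of_pow_eq_one hev
    obtain ⟨k, hk⟩ := (IsPGroup.iff_orderOf.1 hP) v
    rw [hk] at h3
    have h4 : k = 0 := by
      by_contra hk0
      exact hpN ((dvd_pow_self p hk0).trans h3)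
    rw [h4, pow_zero, orderOf_eq_one_iff] at hk
    exact hk
  -- element x of order p
  obtain ⟨x, hx⟩ := exists_prime_orderOf_dvd_card' (G := K) p hK
  have hx1 : (x : MulAut P) ≠ 1 := by
    intro h
    have : x = 1 := Subtype.ext h
    rw [this, orderOf_one] at hx
    exact hp.one_lt.ne hx
  -- e is injective
  have hinj : Function.Injective e := by
    rw [injective_iff_map_eq_one]
    by_contra hcon
    have hA : ∃ a, e a = 1 ∧ a ≠ 1 := by
      by_contra hno
      apply hcon
      intro a ha
      by_contra ha1
      exact hno ⟨a, ha, ha1⟩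
    -- the kernel is a nontrivial p-group
    let Z := Subgroup.zpowers x
    have hZ : IsPGroup p Z := by
      rw [IsPGroup.iff_card, Nat.card_zpowers, hx]
      exact ⟨1, (pow_one p).symm⟩
    let A' : SubMulAction Z P :=
      { carrier := {v | e v = 1}
        smul_mem' := by
          rintro ⟨z, hz⟩ v hv
          have hv' : e v = 1 := hv
          show e (((z : K) : MulAut P) v) = 1
          rw [he3, hv', map_one] }
    have hA'card : p ∣ Nat.card A' := by
      have h1 : Nat.card A' = Nat.card e.ker := rfl
      rw [h1]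
      have h2 : IsPGroup p e.ker := hP.to_subgroup _
      obtain ⟨a, ha, ha1⟩ := hA
      obtain ⟨n, hn⟩ := IsPGroup.iff_card.1 h2
      rw [hn]
      apply dvd_pow_self
      rintro rfl
      rw [pow_zero] at hn
      have := (Nat.card_eq_one_iff_unique.1 hn).1
      have h3 : (⟨a, ha⟩ : e.ker) = 1 := Subsingleton.elim _ _
      exact ha1 (congrArg Subtype.val h3)
    have h1fix : (⟨1, by show e 1 = 1; simp⟩ : A') ∈ MulAction.fixedPoints Z A' := by
      intro z
      apply Subtype.ext
      show ((z : K) : MulAut P) 1 = 1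
      simp
    obtain ⟨b, hb, hb1⟩ := IsPGroup.exists_fixed_point_of_prime_dvd_card_of_fixed_point hZ A' hA'card h1fix
    have hxb : (x : MulAut P) (b : P) = b := by
      have := hb ⟨x, Subgroup.mem_zpowers x⟩
      exact congrArg Subtype.val this
    have hb0 : ((n₀ : K) : MulAut P) (b : P) = b :=
      (hfix _ _ x.2 (n₀ : K).2 hx1 hn₀1' _).1 hxb
    have : (b : P) = 1 := hF _ hb0 b.2
    apply hb1
    apply Subtype.ext
    exact this.symm
  have hsurj : Function.Surjective e := Finite.surjective_of_injective hinj
  apply hn₀1'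
  ext v
  obtain ⟨w, rfl⟩ := hsurj v
  exact he2 ⟨n₀, hn₀⟩ w

end Cfsg.Agent.S4036
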