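import Cfsg.Statements.S4037
import Cfsg.Agent.Lib.H19.Kazarin
import Cfsg.Agent.Lib.H19.FrobCount

set_option autoImplicit false
open Cfsg

namespace Cfsg.Agent.S4037

/-- If an element x of a finite group G has a conjugacy class of prime-power size, then the normal closure of x in G (the subgroup generated by the conjugacy class of x) is solvable. -/
theorem result {G : Type*} [Group G] [Finite G]
    (x : G) {p : ℕ} (hp : p.Prime) (k : ℕ) (hx : (ConjClasses.mk x).carrier.ncard = p ^ k) :
    Group.IsSolvable ↥(Subgroup.normalClosure ({x} : Set G)) := by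
  
  refine Cfsg.Agent.H19.kazarin x hp (k := k) ?_
  have h1 := Cfsg.Agent.H19.card_class_mul_card_centralizer x
  have h2 := (Subgroup.centralizer ({x} : Set G)).card_mul_index
  rw [hx] at h1
  have h3 : 0 < Nat.card (Subgroup.centralizer ({x} : Set G)) := Nat.card_pos
  have h4 : Nat.card (Subgroup.centralizer ({x} : Set G)) * (Subgroup.centralizer ({x} : Set G)).index =
      Nat.card (Subgroup.centralizer ({x} : Set G)) * p ^ k := by
    rw [h2, ← h1]; ring
  exact Nat.eq_of_mul_eq_mul_left h3 h4

end Cfsg.Agent.S4037
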