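import Cfsg.Statements.S4039
import Mathlib
import Cfsg.Agent.Lib.H15.ZStarMain
import Cfsg.Agent.Lib.H19.MaxNil

set_option autoImplicit false
open Cfsg

namespace Cfsg.Agent.S4039


set_option linter.unusedSectionVars false
set_option linter.style.haveILetI false

universe u

section aux
variable {G : Type u} [Group G] [Finite G]

/-- A Sylow subgroup of a nilpotent core-free maximal subgroup is Sylow in `G` with normalizer `M`. -/
theorem sylow_of_coatom {M : Subgroup G} (hM : IsCoatom M) (hnil : Group.IsNilpotent M)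
    (hcore : ∀ D : Subgroup G, D ≤ M → D.Normal → D = ⊥)
    (p : ℕ) [hpp : Fact p.Prime] (hpM : p ∣ Nat.card M) :
    ∃ P : Sylow p G, (P : Subgroup G) ≤ M ∧
      Subgroup.normalizer ((P : Subgroup G) : Set G) = M ∧ (P : Subgroup G) ≠ ⊥ := by
  classical
  obtain ⟨S⟩ : Nonempty (Sylow p M) := inferInstance
  haveI hSn : (S : Subgroup M).Normal :=
    Sylow.normal_of_normalizerCondition (fun H h => Group.normalizerCondition_of_isNilpotent H h) S
  set T : Subgroup G := (S : Subgroup M).map M.subtype with hT
  have hTM : T ≤ M := Subgroup.map_subtype_le _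
  have hcardT : Nat.card T = p ^ (Nat.card M).factorization p := by
    have h1 : Nat.card T = Nat.card S :=
      (Nat.card_congr (Subgroup.equivMapOfInjective (S : Subgroup M) _ M.subtype_injective).toEquiv).symm
    rw [h1]
    exact S.card_eq_multiplicity
  have hMne : Nat.card M ≠ 0 := Nat.card_pos.ne'
  have hT1 : T ≠ ⊥ := by
    intro h
    rw [h, Subgroup.card_bot] at hcardT
    have h2 : 1 ≤ (Nat.card M).factorization p :=
      (hpp.out.dvd_iff_one_le_factorization hMne).mp hpM
    have h3 : 1 < p ^ (Nat.card M).factorization p := Nat.one_lt_pow (by omega) hpp.out.one_lt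
    omega
  have hTN : M ≤ Subgroup.normalizer (T : Set G) := by
    intro m hm
    rw [Subgroup.mem_normalizer_iff]
    intro x
    constructor
    · rintro ⟨s, hs, rfl⟩
      exact ⟨⟨m, hm⟩ * s * ⟨m, hm⟩⁻¹, hSn.conj_mem s hs ⟨m, hm⟩, rfl⟩
    · intro hx
      obtain ⟨s, hs, hs2⟩ := hx
      refine ⟨⟨m, hm⟩⁻¹ * s * (⟨m, hm⟩⁻¹)⁻¹, hSn.conj_mem s hs _, ?_⟩
      have h3 : (s : G) = m * x * m⁻¹ := hs2
      show (m⁻¹ * (s : G) * m⁻¹⁻¹) = x
      rw [h3]
      group
  have hNT := H19.normalizer_eq_of_coatom hM hcore hT1 hTM hTN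
  have hTp : IsPGroup p T := (S.isPGroup').map _
  obtain ⟨P, hP⟩ := hTp.exists_le_sylow
  have hPT : (P : Subgroup G) = T := by
    by_contra hne
    haveI : Group.IsNilpotent (P : Subgroup G) := P.isPGroup'.isNilpotent
    have hlt : T.subgroupOf P < ⊤ := by
      refine lt_top_iff_ne_top.mpr ?_
      intro htop
      apply hne
      apply le_antisymm _ hP
      exact Subgroup.subgroupOf_eq_top.mp htop
    have hgrow := Group.normalizerCondition_of_isNilpotent _ hlt
    obtain ⟨x, hx1, hx2⟩ := SetLike.exists_of_lt hgrow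
    have hxN : (x : G) ∈ Subgroup.normalizer (T : Set G) := by
      rw [Subgroup.mem_normalizer_iff]
      intro t
      rw [Subgroup.mem_normalizer_iff] at hx1
      constructor
      · intro ht
        have := (hx1 ⟨t, hP ht⟩).mp ht
        exact this
      · intro ht
        have hmem : (x : G) * t * (x : G)⁻¹ ∈ (P : Subgroup G) := hP ht
        have htP : t ∈ (P : Subgroup G) := by
          have : t = (x : G)⁻¹ * ((x : G) * t * (x : G)⁻¹) * x := by group
          rw [this]
          exact Subgroup.mul_mem _ (Subgroup.mul_mem _ (Subgroup.inv_mem _ x.2) hmem) x.2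
        exact (hx1 ⟨t, htP⟩).mpr ht
    rw [hNT] at hxN
    apply hx2
    show (x : G) ∈ T
    obtain ⟨k, hk⟩ := P.isPGroup' x
    have hk' : ((⟨x, hxN⟩ : M)) ^ p ^ k = 1 := by
      apply Subtype.ext
      simpa using congrArg Subtype.val hk
    obtain ⟨j, -, hj⟩ := (Nat.dvd_prime_pow hpp.out).mp (orderOf_dvd_of_pow_eq_one hk')
    have := H19.mem_sylow_of_normal hj S hSn
    exact ⟨_, this, rfl⟩
  refine ⟨P, ?_, ?_, ?_⟩
  · rw [hPT]; exact hTM
  · rw [hPT]; exact hNT
  · rw [hPT]; exact hT1

theorem mem_smul_sylow {H : Type*} [Group H] {p : ℕ} (y : H) (Q : Sylow p H) (a : H) :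
    a ∈ ((y • Q : Sylow p H) : Subgroup H) ↔ y⁻¹ * a * y ∈ (Q : Subgroup H) := by
  rw [Sylow.smul_def, Sylow.pointwise_smul_def, Subgroup.mem_pointwise_smul_iff_inv_smul_mem, MulAut.smul_def,
    MulAut.conj_inv_apply]

/-- A conjugate of a `p`-subgroup of `Y` lies in a Sylow subgroup `Q ≤ Y` via an element of `Y`. -/
theorem exists_conj_le {p : ℕ} [Fact p.Prime] {Y : Subgroup G} {Q : Sylow p G} (hQ : (Q : Subgroup G) ≤ Y)
    {X : Subgroup G} (hX : IsPGroup p X) (hXY : X ≤ Y) :
    ∃ y ∈ Y, ∀ x ∈ X, y⁻¹ * x * y ∈ (Q : Subgroup G) := by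
  have hX' : IsPGroup p (X.subgroupOf Y) :=
    hX.of_injective ((Subgroup.inclusion (Subgroup.subgroupOf_map_subtype X Y ▸ inf_le_left : (X.subgroupOf Y).map Y.subtype ≤ X)).comp
      ((X.subgroupOf Y).equivMapOfInjective Y.subtype Y.subtype_injective).toMonoidHom)
      (by
        intro a b hab
        have := congrArg (fun u => ((u : X) : G)) hab
        exact Subtype.ext (Subtype.ext (by simpa using this)))
  obtain ⟨R, hR⟩ := hX'.exists_le_sylow
  let Q' : Sylow p Y := Q.subtype hQ
  obtain ⟨y, hy⟩ := MulAction.exists_smul_eq Y Q' R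
  refine ⟨y, y.2, fun x hx => ?_⟩
  have h1 : (⟨x, hXY hx⟩ : Y) ∈ (R : Subgroup Y) := hR (by simpa [Subgroup.mem_subgroupOf] using hx)
  rw [← hy, mem_smul_sylow] at h1
  have h3 : y⁻¹ * (⟨x, hXY hx⟩ : Y) * y ∈ (Q : Subgroup G).subgroupOf Y := by
    have : ((Q' : Subgroup Y)) = (Q : Subgroup G).subgroupOf Y := rfl
    rw [← this]
    exact h1
  exact (Subgroup.mem_subgroupOf).mp h3

end aux

theorem main : ∀ (n : ℕ) (G : Type u) [Group G] [Finite G],
    Nat.card G = n → ∀ M : Subgroup G, IsCoatom M → Group.IsNilpotent M →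
      Group.nilpotencyClass M ≤ 2 → Group.IsSolvable G := by
  classical
  intro n
  induction n using Nat.strong_induction_on with
  | _ n ih =>
  intro G _ _ hG M hM hnil hcl
  by_cases hcore : ∃ D : Subgroup G, D ≤ M ∧ D.Normal ∧ D ≠ ⊥
  · obtain ⟨D, hDM, hDn, hD⟩ := hcore
    haveI := hDn
    have hcard : Nat.card (G ⧸ D) < n := by
      rw [← hG]
      have h1 : Nat.card G = Nat.card (G ⧸ D) * Nat.card D :=
        Subgroup.card_eq_card_quotient_mul_card_subgroup D
      have h2 : 1 < Nat.card D := by
        haveI : Nontrivial D := (Subgroup.nontrivial_iff_ne_bot _).mpr hD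
        exact Finite.one_lt_card
      rw [h1]
      exact lt_mul_of_one_lt_right Nat.card_pos h2
    let f : M →* (M.map (QuotientGroup.mk' D)) := (QuotientGroup.mk' D).subgroupMap M
    have hf : Function.Surjective f := MonoidHom.subgroupMap_surjective _ _
    have hq := ih _ hcard (G ⧸ D) rfl (M.map (QuotientGroup.mk' D)) (H01.isCoatom_map_mk hDM hM)
      (Group.nilpotent_of_surjective f hf) ((Group.nilpotencyClass_le_of_surjective f hf).trans hcl)
    haveI : Group.IsSolvable M := inferInstance
    haveI : Group.IsSolvable D := Group.isSolvable_of_isSolvable_injective (Subgroup.inclusion_injective hDM)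
    exact Group.isSolvable_of_ker_le_range D.subtype (QuotientGroup.mk' D) (by simp)
  · push Not at hcore
    have hcore' : ∀ D : Subgroup G, D ≤ M → D.Normal → D = ⊥ := by
      intro D h1 h2
      exact hcore D h1 h2
    haveI hMsolv : Group.IsSolvable M := inferInstance
    by_cases hsolv : ∃ S : Subgroup G, S.Normal ∧ S ≠ ⊥ ∧ Group.IsSolvable S
    · obtain ⟨S, hSn, hS1, hSs⟩ := hsolv
      haveI := hSn
      have hsup : M ⊔ S = ⊤ := by
        apply hM.2
        refine lt_of_le_of_ne le_sup_left ?_
        intro h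
        exact hS1 (hcore' S (h ▸ le_sup_right) hSn)
      have hq : Group.IsSolvable (G ⧸ S) := by
        let f : M →* G ⧸ S := (QuotientGroup.mk' S).comp M.subtype
        apply Group.isSolvable_of_surjective (f := f)
        intro y
        obtain ⟨g, rfl⟩ := QuotientGroup.mk_surjective y
        have hg : g ∈ M ⊔ S := by rw [hsup]; trivial
        obtain ⟨m, hm, s, hs, rfl⟩ := Subgroup.mem_sup_of_normal_right.mp hg
        refine ⟨⟨m, hm⟩, ?_⟩
        show ((m : G) : G ⧸ S) = ((m * s : G) : G ⧸ S)
        rw [QuotientGroup.eq]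
        simpa using hs
      exact Group.isSolvable_of_ker_le_range S.subtype (QuotientGroup.mk' S) (by simp)
    push Not at hsolv
    by_cases hodd : Odd (Nat.card M)
    · exact H19.isSolvable_of_coatom_nilpotent_odd _ G rfl M hM hnil hodd
    exfalso
    haveI : Fact (Nat.Prime 2) := ⟨Nat.prime_two⟩
    have h2M : 2 ∣ Nat.card M := by
      rw [← even_iff_two_dvd]
      exact Nat.not_odd_iff_even.mp hodd
    obtain ⟨T, hTM, hNT, hT1⟩ := sylow_of_coatom hM hnil hcore' 2 h2M
    -- 2-subgroups of `M` lie in `T`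
    have hF1 : ∀ X : Subgroup G, IsPGroup 2 X → X ≤ M → X ≤ (T : Subgroup G) := by
      intro X hX hXM
      have h := hX.inf_normalizer_sylow T
      intro x hx
      have h4 : x ∈ X ⊓ (Subgroup.normalizer ((T : Subgroup G) : Set G)) := ⟨hx, by rw [hNT]; exact hXM hx⟩
      exact ((SetLike.ext_iff.mp h x).mp h4).2
    have hF1' : ∀ x : G, x ∈ M → ∀ k : ℕ, x ^ 2 ^ k = 1 → x ∈ (T : Subgroup G) := by
      intro x hx k hk
      have hX : IsPGroup 2 (Subgroup.zpowers x) := by
        obtain ⟨j, -, hj⟩ := (Nat.dvd_prime_pow Nat.prime_two).mp (orderOf_dvd_of_pow_eq_one hk)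
        exact H19.isPGroup_zpowers_of_orderOf hj
      exact hF1 _ hX ((Subgroup.zpowers_le).mpr hx) (Subgroup.mem_zpowers x)
    -- decomposition of elements of `M`
    have hF2 : ∀ m ∈ M, ∃ x ∈ (T : Subgroup G), ∃ y : G, m = x * y ∧ ∀ t ∈ (T : Subgroup G), y * t = t * y := by
      intro m hm
      obtain ⟨a, b, hb, hab⟩ := Nat.exists_eq_two_pow_mul_odd (orderOf_pos m).ne'
      have hcop : Nat.Coprime (2 ^ a) b := Nat.Coprime.pow_left a (Nat.coprime_two_left.mpr hb)
      have hbez : (2 ^ a : ℤ) * Nat.gcdA (2 ^ a) b + b * Nat.gcdB (2 ^ a) b = 1 := by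
        have := Nat.gcd_eq_gcd_ab (2 ^ a) b
        rw [hcop] at this
        push_cast at this
        linarith
      set x : G := m ^ ((b : ℤ) * Nat.gcdB (2 ^ a) b) with hx
      set y : G := m ^ (((2 : ℤ) ^ a) * Nat.gcdA (2 ^ a) b) with hy
      have hord : m ^ ((2 : ℤ) ^ a * (b : ℤ)) = 1 := by
        have : m ^ orderOf m = 1 := pow_orderOf_eq_one m
        rw [hab] at this
        have e : ((2 : ℤ) ^ a * (b : ℤ)) = ((2 ^ a * b : ℕ) : ℤ) := by push_cast; ring
        rw [e, zpow_natCast]
        exact this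
      have hxp : x ^ 2 ^ a = 1 := by
        rw [hx, ← zpow_natCast, ← zpow_mul]
        have e : (b : ℤ) * Nat.gcdB (2 ^ a) b * ((2 ^ a : ℕ) : ℤ) = ((2 : ℤ) ^ a * (b : ℤ)) * Nat.gcdB (2 ^ a) b := by
          push_cast; ring
        rw [e, zpow_mul, hord, one_zpow]
      have hyp : y ^ b = 1 := by
        rw [hy, ← zpow_natCast, ← zpow_mul]
        have e : (2 : ℤ) ^ a * Nat.gcdA (2 ^ a) b * (b : ℤ) = ((2 : ℤ) ^ a * (b : ℤ)) * Nat.gcdA (2 ^ a) b := by
          ring
        rw [e, zpow_mul, hord, one_zpow]
      have hxM : x ∈ M := Subgroup.zpow_mem _ hm _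
      have hyM : y ∈ M := Subgroup.zpow_mem _ hm _
      refine ⟨x, hF1' x hxM a hxp, y, ?_, ?_⟩
      · rw [hx, hy, ← zpow_add]
        have e : (b : ℤ) * Nat.gcdB (2 ^ a) b + (2 : ℤ) ^ a * Nat.gcdA (2 ^ a) b = 1 := by
          push_cast at hbez
          linarith
        rw [e, zpow_one]
      · intro t ht
        have htM := hTM ht
        obtain ⟨k, hk⟩ := T.isPGroup' ⟨t, ht⟩
        have hk' : t ^ 2 ^ k = 1 := by simpa using congrArg Subtype.val hk
        have h1 : orderOf (⟨y, hyM⟩ : M) ∣ b := by
          apply orderOf_dvd_of_pow_eq_one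
          apply Subtype.ext
          simpa using hyp
        have h2 : orderOf (⟨t, htM⟩ : M) ∣ 2 ^ k := by
          apply orderOf_dvd_of_pow_eq_one
          apply Subtype.ext
          simpa using hk'
        have hc : (orderOf (⟨y, hyM⟩ : M)).Coprime (orderOf (⟨t, htM⟩ : M)) :=
          Nat.Coprime.coprime_dvd_left h1 (Nat.Coprime.coprime_dvd_right h2
            (Nat.Coprime.pow_right k (Nat.coprime_two_right.mpr hb)))
        have := H08.nilpotent_coprime_commute hc
        simpa using congrArg Subtype.val this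
    -- commutators
    have hF5 : ∀ a ∈ M, ∀ b ∈ M, ∀ c ∈ M, (a * b * a⁻¹ * b⁻¹) * c = c * (a * b * a⁻¹ * b⁻¹) := by
      intro a ha b hb c hc
      have h1 : Subgroup.upperCentralSeries M 2 = ⊤ :=
        Subgroup.upperCentralSeries_eq_top_iff_nilpotencyClass_le.mpr hcl
      have h2 : (⟨a, ha⟩ : M) ∈ Subgroup.upperCentralSeries M 2 := by rw [h1]; trivial
      have h3 := Subgroup.mem_upperCentralSeries_succ_iff.mp h2 ⟨b, hb⟩
      have h4 := Subgroup.mem_upperCentralSeries_succ_iff.mp h3 ⟨c, hc⟩
      rw [Subgroup.upperCentralSeries_zero, Subgroup.mem_bot] at h4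
      have h5 := commutatorElement_eq_one_iff_mul_comm.mp h4
      have h6 := congrArg Subtype.val h5
      simpa [commutatorElement_def] using h6
    -- a central involution
    haveI : Nontrivial (T : Subgroup G) := (Subgroup.nontrivial_iff_ne_bot _).mpr hT1
    have hZnt : Nontrivial (Subgroup.center (T : Subgroup G)) := T.isPGroup'.center_nontrivial
    have hZp : IsPGroup 2 (Subgroup.center (T : Subgroup G)) := T.isPGroup'.to_subgroup _
    obtain ⟨j, hj⟩ := (IsPGroup.iff_card).mp hZp
    have h2Z : 2 ∣ Nat.card (Subgroup.center (T : Subgroup G)) := by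
      rw [hj]
      have : j ≠ 0 := by
        rintro rfl
        have : 1 < Nat.card (Subgroup.center (T : Subgroup G)) := Finite.one_lt_card
        omega
      exact dvd_pow_self 2 this
    obtain ⟨z₀, hz₀⟩ := exists_prime_orderOf_dvd_card' 2 h2Z
    set z : G := ((z₀ : (T : Subgroup G)) : G) with hzdef
    have hzord : orderOf z = 2 := by
      rw [hzdef, Subgroup.orderOf_coe, Subgroup.orderOf_coe, hz₀]
    have hzT : z ∈ (T : Subgroup G) := (z₀ : (T : Subgroup G)).2
    have hzc : ∀ t ∈ (T : Subgroup G), t * z = z * t := by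
      intro t ht
      have := (Subgroup.mem_center_iff.mp z₀.2) ⟨t, ht⟩
      simpa using congrArg Subtype.val this
    have hz1 : z ≠ 1 := by
      intro h
      rw [h, orderOf_one] at hzord
      omega
    have hzM : ∀ m ∈ M, m * z = z * m := by
      intro m hm
      obtain ⟨x, hx, y, rfl, hy⟩ := hF2 m hm
      rw [mul_assoc, hy z hzT, ← mul_assoc, hzc x hx, mul_assoc]
    have hCz : Subgroup.centralizer ({z} : Set G) = M := by
      have hle : M ≤ Subgroup.centralizer ({z} : Set G) := by
        intro m hm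
        rw [Subgroup.mem_centralizer_singleton_iff]
        exact (hzM m hm).symm ▸ rfl
      rcases hM.le_iff.mp hle with h | h
      · exfalso
        have hzn : (Subgroup.zpowers z).Normal := by
          refine ⟨fun a ha g => ?_⟩
          have hg : g ∈ Subgroup.centralizer ({z} : Set G) := by rw [h]; trivial
          rw [Subgroup.mem_centralizer_singleton_iff] at hg
          obtain ⟨k, rfl⟩ := Subgroup.mem_zpowers_iff.mp ha
          have hc : Commute g z := hg
          have : g * z ^ k * g⁻¹ = z ^ k := by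
            rw [(hc.zpow_right k).eq, mul_assoc, mul_inv_cancel, mul_one]
          rw [this]
          exact Subgroup.zpow_mem_zpowers z k
        have := hcore' (Subgroup.zpowers z) ((Subgroup.zpowers_le).mpr (hTM hzT)) hzn
        exact hz1 (Subgroup.zpowers_eq_bot.mp this)
      · exact h
    have hCzM : ∀ a : G, a * z = z * a → a ∈ M := by
      intro a ha
      rw [← hCz, Subgroup.mem_centralizer_singleton_iff]
      exact ha.symm ▸ rfl
    -- uniqueness of the Sylow subgroup containing `z`
    have hU : ∀ Q : Sylow 2 G, z ∈ (Q : Subgroup G) → Q = T := by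
      by_contra hcon
      push Not at hcon
      obtain ⟨Q₀, hQ₀, hQ₀T⟩ := hcon
      let S : Type u := { Q : Sylow 2 G // z ∈ (Q : Subgroup G) ∧ Q ≠ T }
      haveI : Nonempty S := ⟨⟨Q₀, hQ₀, hQ₀T⟩⟩
      haveI : Finite S := inferInstance
      obtain ⟨⟨Q, hzQ, hQT⟩, hmax⟩ := Finite.exists_max (fun Q : S => Nat.card ((T : Subgroup G) ⊓ (Q.1 : Subgroup G) : Subgroup G))
      set D : Subgroup G := (T : Subgroup G) ⊓ (Q : Subgroup G) with hD
      have hzD : z ∈ D := ⟨hzT, hzQ⟩
      have hD1 : D ≠ ⊥ := by
        intro h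
        rw [h] at hzD
        exact hz1 (Subgroup.mem_bot.mp hzD)
      have hDT : D ≤ (T : Subgroup G) := inf_le_left
      have hDQ : D ≤ (Q : Subgroup G) := inf_le_right
      have hDM : D ≤ M := hDT.trans hTM
      have hDne : D ≠ (T : Subgroup G) := by
        intro h
        apply hQT
        have hle : (T : Subgroup G) ≤ (Q : Subgroup G) := h ▸ hDQ
        exact (Sylow.ext (Subgroup.eq_of_le_of_card_ge hle (by
          rw [T.card_eq_multiplicity, Q.card_eq_multiplicity]))).symm
      -- `Q = gTg⁻¹`
      obtain ⟨g, hg⟩ := MulAction.exists_smul_eq G T Q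
      have hQmem : ∀ a : G, a ∈ (Q : Subgroup G) → g⁻¹ * a * g ∈ M := by
        intro a ha
        rw [← hg, mem_smul_sylow] at ha
        exact hTM ha
      -- centre of `Q` inside `D`
      have hZQ : ∀ a ∈ (Q : Subgroup G), (∀ b ∈ (Q : Subgroup G), a * b = b * a) → a ∈ D := by
        intro a ha hab
        have h1 : a ∈ M := hCzM a (hab z hzQ)
        obtain ⟨k, hk⟩ := Q.isPGroup' ⟨a, ha⟩
        have hk' : a ^ 2 ^ k = 1 := by simpa using congrArg Subtype.val hk
        exact ⟨hF1' a h1 k hk', ha⟩
      -- commutators of `Q` are central in `Q`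
      have hQc : ∀ a ∈ (Q : Subgroup G), ∀ b ∈ (Q : Subgroup G), ∀ c ∈ (Q : Subgroup G),
          (a * b * a⁻¹ * b⁻¹) * c = c * (a * b * a⁻¹ * b⁻¹) := by
        intro a ha b hb c hc
        have h := hF5 _ (hQmem a ha) _ (hQmem b hb) _ (hQmem c hc)
        have h2 : g⁻¹ * (a * b * a⁻¹ * b⁻¹) * c * g = g⁻¹ * c * (a * b * a⁻¹ * b⁻¹) * g := by
          calc g⁻¹ * (a * b * a⁻¹ * b⁻¹) * c * g
              = (g⁻¹ * a * g * (g⁻¹ * b * g) * (g⁻¹ * a * g)⁻¹ * (g⁻¹ * b * g)⁻¹) * (g⁻¹ * c * g) := by group
            _ = (g⁻¹ * c * g) * (g⁻¹ * a * g * (g⁻¹ * b * g) * (g⁻¹ * a * g)⁻¹ * (g⁻¹ * b * g)⁻¹) := h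
            _ = g⁻¹ * c * (a * b * a⁻¹ * b⁻¹) * g := by group
        have h3 : g⁻¹ * ((a * b * a⁻¹ * b⁻¹) * c) * g = g⁻¹ * (c * (a * b * a⁻¹ * b⁻¹)) * g := by
          simpa [mul_assoc] using h2
        exact mul_left_cancel (mul_right_cancel h3)
      have hQN : (Q : Subgroup G) ≤ Subgroup.normalizer (D : Set G) := by
        have key : ∀ q ∈ (Q : Subgroup G), ∀ d ∈ D, q * d * q⁻¹ ∈ D := by
          intro q hq d hd
          have h1 : q * d * q⁻¹ * d⁻¹ ∈ D := by
            apply hZQ
            · exact Subgroup.mul_mem _ (Subgroup.mul_mem _ (Subgroup.mul_mem _ hq (hDQ hd)) (Subgroup.inv_mem _ hq)) (Subgroup.inv_mem _ (hDQ hd))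
            · intro b hb
              exact hQc q hq d (hDQ hd) b hb
          have e : q * d * q⁻¹ = (q * d * q⁻¹ * d⁻¹) * d := by group
          rw [e]
          exact Subgroup.mul_mem _ h1 hd
        intro q hq
        rw [Subgroup.mem_normalizer_iff]
        intro d
        constructor
        · intro hd
          exact key q hq d hd
        · intro hd
          have := key q⁻¹ (Subgroup.inv_mem _ hq) _ hd
          simpa [mul_assoc] using this
      -- growth in `T`
      have hgrow : ∃ x ∈ (T : Subgroup G), x ∉ D ∧ x ∈ Subgroup.normalizer (D : Set G) := by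
        haveI : Group.IsNilpotent (T : Subgroup G) := T.isPGroup'.isNilpotent
        have hlt : D.subgroupOf (T : Subgroup G) < ⊤ := by
          refine lt_top_iff_ne_top.mpr ?_
          intro htop
          apply hDne
          apply le_antisymm hDT
          exact Subgroup.subgroupOf_eq_top.mp htop
        have hg2 := Group.normalizerCondition_of_isNilpotent _ hlt
        obtain ⟨x, hx1, hx2⟩ := SetLike.exists_of_lt hg2
        refine ⟨x, x.2, hx2, ?_⟩
        rw [Subgroup.mem_normalizer_iff]
        intro t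
        rw [Subgroup.mem_normalizer_iff] at hx1
        constructor
        · intro ht
          exact (hx1 ⟨t, hDT ht⟩).mp ht
        · intro ht
          have hmem : (x : G) * t * (x : G)⁻¹ ∈ (T : Subgroup G) := hDT ht
          have htP : t ∈ (T : Subgroup G) := by
            have : t = (x : G)⁻¹ * ((x : G) * t * (x : G)⁻¹) * x := by group
            rw [this]
            exact Subgroup.mul_mem _ (Subgroup.mul_mem _ (Subgroup.inv_mem _ x.2) hmem) x.2
          exact (hx1 ⟨t, htP⟩).mpr ht
      obtain ⟨x₀, hx₀T, hx₀D, hx₀N⟩ := hgrow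
      set Y : Subgroup G := Subgroup.normalizer (D : Set G) with hY
      set X : Subgroup G := (T : Subgroup G) ⊓ Y with hX
      have hXp : IsPGroup 2 X := T.isPGroup'.to_le inf_le_left
      obtain ⟨y, hyY, hy⟩ := exists_conj_le (Y := Y) (Q := Q) hQN hXp inf_le_right
      -- the conjugated Sylow subgroup
      let Q₁ : Sylow 2 G := y • Q
      have hQ₁mem : ∀ a : G, a ∈ (Q₁ : Subgroup G) ↔ y⁻¹ * a * y ∈ (Q : Subgroup G) :=
        fun a => mem_smul_sylow y Q a
      have hDY : ∀ d ∈ D, y⁻¹ * d * y ∈ D := by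
        intro d hd
        have h1 := (Subgroup.mem_normalizer_iff.mp hyY (y⁻¹ * d * y)).mpr (by
          have e : y * (y⁻¹ * d * y) * y⁻¹ = d := by group
          rw [e]
          exact hd)
        exact h1
      have hzQ₁ : z ∈ (Q₁ : Subgroup G) := (hQ₁mem z).mpr (hDQ (hDY z hzD))
      have hXle : X ≤ (T : Subgroup G) ⊓ (Q₁ : Subgroup G) := fun a ha =>
        ⟨ha.1, (hQ₁mem a).mpr (hy a ha)⟩
      have hDX : D < X := by
        refine lt_of_le_of_ne (fun d hd => ⟨hd.1, Subgroup.le_normalizer hd⟩) ?_
        intro h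
        apply hx₀D
        rw [h]
        exact ⟨hx₀T, hx₀N⟩
      have hcardlt : Nat.card D < Nat.card ((T : Subgroup G) ⊓ (Q₁ : Subgroup G) : Subgroup G) :=
        lt_of_lt_of_le (lt_of_le_of_ne (Subgroup.card_le_of_le hDX.le)
          (fun h => (ne_of_lt hDX) (Subgroup.eq_of_le_of_card_ge hDX.le h.ge))) (Subgroup.card_le_of_le hXle)
      have hQ₁T : Q₁ = T := by
        by_contra hne
        have := hmax ⟨Q₁, hzQ₁, hne⟩
        simp only at this
        omega
      -- so `T ≤ Y`
      have hTY : (T : Subgroup G) ≤ Y := by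
        intro t ht
        have h1 : t ∈ (Q₁ : Subgroup G) := by rw [hQ₁T]; exact ht
        have h2 := (hQ₁mem t).mp h1
        have h3 : y⁻¹ * t * y ∈ Y := hQN h2
        have e : t = y * (y⁻¹ * t * y) * y⁻¹ := by group
        rw [e]
        exact Subgroup.mul_mem _ (Subgroup.mul_mem _ hyY h3) (Subgroup.inv_mem _ hyY)
      have hMY : M ≤ Y := by
        intro m hm
        obtain ⟨x, hx, u, rfl, hu⟩ := hF2 m hm
        have hu' : u ∈ Y := by
          rw [hY, Subgroup.mem_normalizer_iff]
          intro d
          constructor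
          · intro hd
            have : u * d * u⁻¹ = d := by
              rw [hu d (hDT hd), mul_assoc, mul_inv_cancel, mul_one]
            rw [this]
            exact hd
          · intro hd
            have e1 := hu _ (hDT hd)
            have : u * d * u⁻¹ = d := by
              apply mul_left_cancel (a := u)
              rw [e1]
              group
            rw [this] at hd
            exact hd
        exact Subgroup.mul_mem _ (hTY hx) hu'
      rcases hM.le_iff.mp hMY with h | h
      · have hDn : D.Normal := Subgroup.normalizer_eq_top_iff.mp h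
        exact hD1 (hcore' D hDM hDn)
      · apply hQT
        have hQM : (Q : Subgroup G) ≤ M := h ▸ hQN
        have hQT' : (Q : Subgroup G) ≤ (T : Subgroup G) := hF1 _ Q.isPGroup' hQM
        exact Sylow.ext (Subgroup.eq_of_le_of_card_ge hQT' (by
          rw [T.card_eq_multiplicity, Q.card_eq_multiplicity]))
    -- `z` is isolated
    have hiso : IsIsolatedInvolution z := by
      refine ⟨hzord, fun g hc => ?_⟩
      set w := g * z * g⁻¹ with hw
      have hwM : w ∈ M := hCzM w hc.symm.eq
      have hwo : w ^ 2 ^ 1 = 1 := by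
        rw [hw, conj_pow, pow_one, ← hzord, pow_orderOf_eq_one, mul_one, mul_inv_cancel]
      have hwT : w ∈ (T : Subgroup G) := hF1' w hwM 1 hwo
      let Q₁ : Sylow 2 G := g⁻¹ • T
      have hQ₁mem : ∀ a : G, a ∈ (Q₁ : Subgroup G) ↔ g * a * g⁻¹ ∈ (T : Subgroup G) := by
        intro a
        have := mem_smul_sylow g⁻¹ T a
        simpa using this
      have hQ₁ : Q₁ = T := hU Q₁ ((hQ₁mem z).mpr hwT)
      have hgN : g ∈ M := by
        rw [← hNT, Subgroup.mem_normalizer_iff]
        intro t
        have := hQ₁mem t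
        rw [hQ₁] at this
        exact this
      rw [hw, hzM g hgN, mul_assoc, mul_inv_cancel, mul_one]
    have hZ := H15.zstar_theorem G z hiso
    -- The odd core
    by_cases hO : oddCore G = ⊥
    · have hcen : ∀ g : G, g * z = z * g := by
        intro g
        have h1 := hZ g
        rw [hO, Subgroup.mem_bot] at h1
        have h2 : z * g * z⁻¹ = g := mul_inv_eq_one.mp h1
        exact (mul_inv_eq_iff_eq_mul.mp h2).symm
      have : M = ⊤ := by
        rw [eq_top_iff]
        intro g _
        exact hCzM g (hcen g)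
      exact hM.1 this
    · -- minimal normal subgroup inside `O(G)`
      let 𝒮 : Set (Subgroup G) := { N | N.Normal ∧ N ≠ ⊥ ∧ N ≤ oddCore G }
      have h𝒮 : 𝒮.Nonempty := ⟨oddCore G, inferInstance, hO, le_rfl⟩
      obtain ⟨N, hN⟩ := (Set.toFinite 𝒮).exists_minimal h𝒮
      obtain ⟨⟨hNn, hN1, hNO⟩, hNmin⟩ := hN
      haveI := hNn
      have hNodd : Nat.Coprime (Nat.card N) 2 := by
        have h1 := H15.card_oddCore_coprime (G := G)
        exact Nat.Coprime.coprime_dvd_left (Subgroup.card_dvd_of_le hNO) h1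
      have hcop : (Nat.card M).Coprime (Nat.card N) := by
        apply Nat.Coprime.symm
        apply Nat.coprime_of_dvd
        intro p hp hd1 hd2
        haveI : Fact p.Prime := ⟨hp⟩
        have hp2 : p ≠ 2 := by
          rintro rfl
          have := Nat.Coprime.eq_one_of_dvd (hNodd.symm) hd1
          omega
        obtain ⟨K, hKn, hKp, hKi⟩ := H19.exists_npc_of_coatom hM hnil hcore' p hp2 hd2
        haveI := hKn
        have hinf : N ⊓ K = ⊥ ∨ N ≤ K := by
          by_cases h : N ⊓ K = ⊥
          · exact Or.inl h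
          · right
            have hle : N ⊓ K ≤ N := inf_le_left
            have hm : N ⊓ K ∈ 𝒮 := ⟨Subgroup.normal_inf_normal N K, h, hle.trans hNO⟩
            have h3 := hNmin hm hle
            exact h3.trans inf_le_right
        rcases hinf with h | h
        · -- `N` is a `p`-group
          have hNp : IsPGroup p N := by
            have hrel : K.relIndex N ∣ K.index := Subgroup.relIndex_dvd_index_of_normal K N
            have hc : K.relIndex N = Nat.card N := by
              have h1 := Subgroup.inf_relIndex_right K N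
              have h2 : (K ⊓ N).relIndex N = Nat.card N := by
                rw [inf_comm, h]
                simp [Subgroup.relIndex_bot_left]
              rw [← h2]
              exact h1.symm
            rw [hc, hKi] at hrel
            obtain ⟨j, -, hj⟩ := (Nat.dvd_prime_pow hp).mp hrel
            exact IsPGroup.of_card hj
          haveI : Group.IsNilpotent N := hNp.isNilpotent
          exact hsolv N hNn hN1 inferInstance
        · exact hKp (hd1.trans (Subgroup.card_dvd_of_le h))
      have hNc : Nat.card N ≠ 1 := fun h => hN1 ((Subgroup.card_eq_one).mp h)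
      obtain ⟨r, hr, hrd⟩ := Nat.exists_prime_and_dvd hNc
      haveI : Fact r.Prime := ⟨hr⟩
      have hMN : M ≤ Subgroup.normalizer (N : Set G) := by
        rw [Subgroup.normalizer_eq_top_iff.mpr hNn]
        exact le_top
      obtain ⟨R, hR⟩ := H01.exists_invariant_sylow hMN hcop (Or.inl inferInstance) r
      set R' : Subgroup G := (R : Subgroup N).map N.subtype with hR'
      have hR'N : R' ≤ N := Subgroup.map_subtype_le _
      have hR'1 : R' ≠ ⊥ := by
        intro h
        have h1 : (R : Subgroup N) = ⊥ := by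
          rwa [hR', Subgroup.map_eq_bot_iff_of_injective _ N.subtype_injective] at h
        have h2 := R.card_eq_multiplicity
        rw [h1, Subgroup.card_bot] at h2
        have h3 : 1 ≤ (Nat.card N).factorization r :=
          (hr.dvd_iff_one_le_factorization Nat.card_pos.ne').mp hrd
        have h4 : 1 < r ^ (Nat.card N).factorization r := Nat.one_lt_pow (by omega) hr.one_lt
        omega
      have hdisj : ¬ R' ≤ M := by
        intro hle
        apply hR'1
        rw [eq_bot_iff]
        intro x hx
        have h1 : orderOf (⟨x, hle hx⟩ : M) ∣ Nat.card M := orderOf_dvd_natCard _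
        have h2 : orderOf (⟨x, hR'N hx⟩ : N) ∣ Nat.card N := orderOf_dvd_natCard _
        rw [Subgroup.orderOf_mk] at h1 h2
        have h3 := Nat.eq_one_of_dvd_coprimes hcop h1 h2
        exact Subgroup.mem_bot.mpr (orderOf_eq_one_iff.mp h3)
      have hsup : M ⊔ R' = ⊤ := by
        apply hM.2
        refine lt_of_le_of_ne le_sup_left ?_
        intro h
        exact hdisj (h ▸ le_sup_right)
      have hRnorm : R'.Normal := by
        rw [← Subgroup.normalizer_eq_top_iff, eq_top_iff, ← hsup]
        exact sup_le hR Subgroup.le_normalizer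
      have hRp : IsPGroup r R' := (R.isPGroup').map _
      haveI : Group.IsNilpotent R' := hRp.isNilpotent
      exact hsolv R' hRnorm hR'1 inferInstance


/-- A finite group possessing a maximal subgroup that is nilpotent of class at most 2 is solvable. -/
theorem result {G : Type*} [Group G] [Finite G]
    (M : Subgroup G) (hmax : IsCoatom M) (hnil : Group.IsNilpotent M) (hcl : Group.nilpotencyClass ↥M ≤ 2) :
    Group.IsSolvable G := by
  exact main _ G rfl M hmax hnil hcl

end Cfsg.Agent.S4039
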