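import Cfsg.Statements.S4043
import Cfsg.Agent.Lib.H19.AbelianSylow
import Cfsg.Agent.Lib.H01.SZ2
import Cfsg.Agent.Lib.H15.Modular
import Cfsg.Agent.Lib.H18.Syl

set_option autoImplicit false
set_option linter.style.haveILetI false
open Cfsg

namespace Cfsg.Agent.S4043

open Cfsg.Agent.H19
open scoped Pointwise

variable {G : Type*} [Group G]

lemma norm_conj (R : Subgroup G) (n x : G) :
    x ∈ Subgroup.normalizer ((R.map (MulAut.conj n).toMonoidHom : Subgroup G) : Set G) ↔
      n⁻¹ * x * n ∈ Subgroup.normalizer (R : Set G) := by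
  rw [Subgroup.mem_normalizer_iff, Subgroup.mem_normalizer_iff]
  constructor
  · intro h t
    have h1 := h (n * t * n⁻¹)
    rw [mem_map_conj, mem_map_conj] at h1
    have e1 : n⁻¹ * (n * t * n⁻¹) * n = t := by group
    have e2 : n⁻¹ * (x * (n * t * n⁻¹) * x⁻¹) * n = n⁻¹ * x * n * t * (n⁻¹ * x * n)⁻¹ := by group
    rw [e1, e2] at h1
    exact h1
  · intro h t
    rw [mem_map_conj, mem_map_conj]
    have h1 := h (n⁻¹ * t * n)
    have e2 : n⁻¹ * (x * t * x⁻¹) * n = n⁻¹ * x * n * (n⁻¹ * t * n) * (n⁻¹ * x * n)⁻¹ := by group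
    rw [e2]
    exact h1

section

variable [Finite G] {p : ℕ} [hp : Fact p.Prime] (N : Subgroup G) [N.Normal] (hN : IsPGroup p N)
  (A : Subgroup G) (hA : A.IsComplement' N) (P : Sylow p A) (R₀ : Subgroup A) [hR₀n : R₀.Normal]
  (hc : R₀.IsComplement' (P : Subgroup A))

include hc in
lemma decomp {a : G} (ha : a ∈ A) :
    ∃ r ∈ R₀.map A.subtype, ∃ s ∈ (P : Subgroup A).map A.subtype, a = r * s := by
  obtain ⟨⟨r, s⟩, hrs⟩ := hc.2 ⟨a, ha⟩
  refine ⟨((r : A) : G), ⟨r, r.2, rfl⟩, ((s : A) : G), ⟨s, s.2, rfl⟩, ?_⟩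
  have := congrArg Subtype.val hrs
  exact this.symm

omit hp [N.Normal] in
lemma conj_R {a r : G} (ha : a ∈ A) (hr : r ∈ R₀.map A.subtype) :
    a * r * a⁻¹ ∈ R₀.map A.subtype := by
  obtain ⟨r', hr', rfl⟩ := hr
  exact ⟨⟨a, ha⟩ * r' * ⟨a, ha⟩⁻¹, hR₀n.conj_mem _ hr' _, rfl⟩

include hN hc hA in
/-- The normalizer of the complement is `A`. -/
lemma normalizer_eq
    (hC : ∀ n : G, n ∈ N → (∀ a : G, a ∈ A → a * n * a⁻¹ = n) → n = 1) :
    Subgroup.normalizer ((R₀.map A.subtype : Subgroup G) : Set G) = A := by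
  classical
  set R : Subgroup G := R₀.map A.subtype with hR
  have hAR : A ≤ Subgroup.normalizer (R : Set G) := by
    intro a ha
    apply mem_normalizer_of_conj_le
    intro r hr
    exact conj_R A R₀ ha hr
  set S : Subgroup G := (P : Subgroup A).map A.subtype with hS
  have hSA : S ≤ A := Subgroup.map_subtype_le _
  have hSp : IsPGroup p S := P.2.map A.subtype
  set C : Subgroup G := N ⊓ Subgroup.centralizer (R : Set G) with hCdef
  have hCp : IsPGroup p C := hN.to_le inf_le_left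
  have hCbot : C = ⊥ := by
    by_contra hne
    have hSC : S ≤ Subgroup.normalizer (C : Set G) := by
      intro s hs
      apply mem_normalizer_of_conj_le
      rintro x ⟨hxN, hxC⟩
      refine ⟨(inferInstance : N.Normal).conj_mem _ hxN s, Subgroup.mem_centralizer_iff.2 ?_⟩
      intro r hr
      have h1 : s⁻¹ * r * s ∈ R := by
        have := conj_R A R₀ (A.inv_mem (hSA hs)) hr
        rw [inv_inv] at this
        exact this
      have h2 := Subgroup.mem_centralizer_iff.1 hxC _ h1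
      calc r * (s * x * s⁻¹) = s * ((s⁻¹ * r * s) * x) * s⁻¹ := by group
        _ = s * (x * (s⁻¹ * r * s)) * s⁻¹ := by rw [h2]
        _ = s * x * s⁻¹ * r := by group
    have hmod := card_modEq_inf_centralizer hSp hSC
    obtain ⟨k, hk⟩ := IsPGroup.iff_card.mp hCp
    have hk0 : k ≠ 0 := by
      rintro rfl
      rw [pow_zero] at hk
      exact hne (Subgroup.card_eq_one.mp hk)
    have hd : p ∣ Nat.card (C ⊓ Subgroup.centralizer (S : Set G) : Subgroup G) := by
      have h1 : p ∣ Nat.card C := by rw [hk]; exact dvd_pow_self p hk0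
      exact (Nat.modEq_zero_iff_dvd.mp (hmod.symm.trans (Nat.modEq_zero_iff_dvd.mpr h1)))
    have hne2 : (C ⊓ Subgroup.centralizer (S : Set G) : Subgroup G) ≠ ⊥ := by
      intro hb
      rw [hb, Subgroup.card_bot, Nat.dvd_one] at hd
      exact hp.out.one_lt.ne' hd
    obtain ⟨c, hc1⟩ := Subgroup.ne_bot_iff_exists_ne_one.mp hne2
    apply hc1
    apply Subtype.ext
    apply hC _ c.2.1.1
    intro a ha
    obtain ⟨r, hr, s, hs, rfl⟩ := decomp A P R₀ hc ha
    have h1 : r * (c : G) = c * r := Subgroup.mem_centralizer_iff.1 c.2.1.2 r hr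
    have h2 : s * (c : G) = c * s := Subgroup.mem_centralizer_iff.1 c.2.2 s hs
    calc r * s * (c : G) * (r * s)⁻¹ = r * (s * c) * s⁻¹ * r⁻¹ := by group
      _ = r * c * s * s⁻¹ * r⁻¹ := by rw [h2]; group
      _ = c * r * s * s⁻¹ * r⁻¹ := by rw [h1]
      _ = c := by group
  apply le_antisymm _ hAR
  intro g hg
  obtain ⟨⟨a, n⟩, han⟩ := hA.2 g
  have hge : g = (a : G) * n := han.symm
  have hnN : (n : G) ∈ Subgroup.normalizer (R : Set G) := by
    have e : (n : G) = (a : G)⁻¹ * g := by rw [hge]; group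
    rw [e]
    exact Subgroup.mul_mem _ (Subgroup.inv_mem _ (hAR a.2)) hg
  have hRp : Nat.Coprime (Nat.card R) (Nat.card N) := by
    have h1 : Nat.card R = Nat.card R₀ :=
      Nat.card_congr (R₀.equivMapOfInjective A.subtype A.subtype_injective).toEquiv.symm
    have h3 : (P : Subgroup A).index = Nat.card R₀ := hc.index_eq_card
    obtain ⟨k, hk⟩ := IsPGroup.iff_card.mp hN
    rw [hk, h1, ← h3]
    exact Nat.Coprime.pow_right k ((Nat.Prime.coprime_iff_not_dvd hp.out).2 P.not_dvd_index).symm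
  have hinf : R ⊓ N = ⊥ := Subgroup.inf_eq_bot_of_coprime hRp
  have hnC : (n : G) ∈ C := by
    refine ⟨n.2, Subgroup.mem_centralizer_iff.2 ?_⟩
    intro r hr
    set y : G := (n : G) * r * (n : G)⁻¹ * r⁻¹ with hy
    have h1 : y ∈ R := R.mul_mem ((Subgroup.mem_normalizer_iff.1 hnN r).1 hr) (R.inv_mem hr)
    have h2 : y ∈ N := by
      have e : y = (n : G) * (r * (n : G)⁻¹ * r⁻¹) := by rw [hy]; group
      rw [e]
      exact N.mul_mem n.2 ((inferInstance : N.Normal).conj_mem _ (N.inv_mem n.2) r)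
    have h3 : y ∈ R ⊓ N := ⟨h1, h2⟩
    rw [hinf, Subgroup.mem_bot] at h3
    rw [hy, mul_inv_eq_one, mul_inv_eq_iff_eq_mul] at h3
    exact h3.symm
  rw [hCbot, Subgroup.mem_bot] at hnC
  rw [hge, hnC, mul_one]
  exact a.2

include hc hA in
/-- `p'`-elements lie in `R N`. -/
lemma mem_sup_of_coprime {y : G} (hy : (orderOf y).Coprime p) :
    ∃ r ∈ R₀.map A.subtype, ∃ n ∈ N, y = r * n := by
  classical
  obtain ⟨⟨a, n⟩, han⟩ := hA.2 y
  have hye : y = (a : G) * n := han.symm
  set m := orderOf y with hm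
  have h1 : (a : G) ^ m ∈ N := by
    rw [← QuotientGroup.eq_one_iff]
    have h2 : ((a : G) : G ⧸ N) = (y : G ⧸ N) := by
      rw [hye, QuotientGroup.mk_mul, (QuotientGroup.eq_one_iff (n : G)).2 n.2, mul_one]
    rw [QuotientGroup.mk_pow, h2, ← QuotientGroup.mk_pow, hm, pow_orderOf_eq_one]
    rfl
  have h3 : (a : G) ^ m ∈ A := A.pow_mem a.2 m
  have h4 : a ^ m = 1 := by
    have := Subgroup.disjoint_def.1 hA.disjoint h3 h1
    exact Subtype.ext (by simpa using this)
  have h5 : a ∈ R₀ := by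
    have h6 : a ^ R₀.index ∈ R₀ := Subgroup.pow_index_mem R₀ a
    have h7 : a ^ m ∈ R₀ := by rw [h4]; exact R₀.one_mem
    refine H15.mem_of_pow_mem_of_pow_mem h6 h7 ?_
    have h8 : R₀.index = Nat.card P := hc.symm.index_eq_card
    obtain ⟨k, hk⟩ := IsPGroup.iff_card.mp P.2
    have h9 : R₀.index = p ^ k := h8.trans hk
    rw [h9]
    exact (Nat.Coprime.pow_right k hy).symm
  exact ⟨a, ⟨a, h5, rfl⟩, n, n.2, hye⟩

end

/-- Let G be a finite group that is the semidirect product of a normal p-subgroup N by a subgroup A, and also of N by a subgroup A₁, where p is a prime and A and A₁ both have normal p-complements. If C_N(A) = C_N(A₁) = 1, then A₁ is conjugate to A by an element of N. -/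
theorem result {G : Type*} [Group G] [Finite G] {p : ℕ}
    [Fact p.Prime] (N : Subgroup G) [N.Normal] (hN : IsPGroup p N) (A A₁ : Subgroup G)
    (hA : A.IsComplement' N) (hA₁ : A₁.IsComplement' N)
    (hAp : Cfsg.HasNormalPComplement p A) (hA₁p : Cfsg.HasNormalPComplement p A₁)
    (hC : ∀ n : G, n ∈ N → (∀ a : G, a ∈ A → a * n * a⁻¹ = n) → n = 1)
    (hC₁ : ∀ n : G, n ∈ N → (∀ a : G, a ∈ A₁ → a * n * a⁻¹ = n) → n = 1) :
    ∃ n : G, n ∈ N ∧ A₁ = A.map (MulAut.conj n).toMonoidHom := by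
  classical
  have hp : p.Prime := Fact.out
  obtain ⟨P, R₀, hR₀n, hc⟩ := hAp
  obtain ⟨P₁, R₁₀, hR₁₀n, hc₁⟩ := hA₁p
  haveI := hR₀n
  haveI := hR₁₀n
  have hnorm := normalizer_eq N hN A hA P R₀ hc hC
  have hnorm₁ := normalizer_eq N hN A₁ hA₁ P₁ R₁₀ hc₁ hC₁
  set R : Subgroup G := R₀.map A.subtype with hR
  set R₁ : Subgroup G := R₁₀.map A₁.subtype with hR₁
  have hRcard : Nat.card R = Nat.card R₀ :=
    Nat.card_congr (R₀.equivMapOfInjective A.subtype A.subtype_injective).toEquiv.symm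
  have hR₁card : Nat.card R₁ = Nat.card R₁₀ :=
    Nat.card_congr (R₁₀.equivMapOfInjective A₁.subtype A₁.subtype_injective).toEquiv.symm
  have hAcard : Nat.card A = Nat.card A₁ := by
    have h1 := hA.card_mul_card
    have h2 := hA₁.card_mul_card
    rw [← h2] at h1
    exact Nat.eq_of_mul_eq_mul_right Nat.card_pos h1
  have hPcard : Nat.card (P : Subgroup A) = Nat.card (P₁ : Subgroup A₁) := by
    rw [P.card_eq_multiplicity, P₁.card_eq_multiplicity, hAcard]
  have hcard : Nat.card R = Nat.card R₁ := by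
    rw [hRcard, hR₁card]
    have h1 := hc.card_mul_card
    have h2 := hc₁.card_mul_card
    rw [hAcard, ← h2, hPcard] at h1
    exact Nat.eq_of_mul_eq_mul_right Nat.card_pos h1
  have hRN : Nat.Coprime (Nat.card R) (Nat.card N) := by
    have h3 : (P : Subgroup A).index = Nat.card R₀ := hc.index_eq_card
    obtain ⟨k, hk⟩ := IsPGroup.iff_card.mp hN
    rw [hk, hRcard, ← h3]
    exact Nat.Coprime.pow_right k ((Nat.Prime.coprime_iff_not_dvd hp).2 P.not_dvd_index).symm
  have hinf : R ⊓ N = ⊥ := Subgroup.inf_eq_bot_of_coprime hRN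
  set E : Subgroup G := N ⊔ R with hE
  have hNE : N ≤ E := le_sup_left
  have hRE : R ≤ E := le_sup_right
  have hR₁E : R₁ ≤ E := by
    intro y hy
    have hyc : (orderOf y).Coprime p := by
      have h1 : orderOf y ∣ Nat.card R₁ := Subgroup.orderOf_dvd_natCard R₁ hy
      have h3 : (P₁ : Subgroup A₁).index = Nat.card R₁₀ := hc₁.index_eq_card
      have h4 : Nat.Coprime (Nat.card R₁) p := by
        rw [hR₁card, ← h3]
        exact ((Nat.Prime.coprime_iff_not_dvd hp).2 P₁.not_dvd_index).symm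
      exact Nat.Coprime.coprime_dvd_left h1 h4
    obtain ⟨r, hr, n, hn, rfl⟩ := mem_sup_of_coprime N A hA P R₀ hc hyc
    exact E.mul_mem (hRE hr) (hNE hn)
  have hEcard : Nat.card E = Nat.card N * Nat.card R := by
    have h1 := H18.card_sup_mul_card_inf R N
    rw [hinf, Subgroup.card_bot, mul_one, sup_comm] at h1
    rw [h1, mul_comm]
  -- inside E
  set N' : Subgroup E := N.subgroupOf E with hN'
  haveI : N'.Normal := Subgroup.normal_subgroupOf
  set R' : Subgroup E := R.subgroupOf E with hR'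
  set R₁' : Subgroup E := R₁.subgroupOf E with hR₁'
  have hN'card : Nat.card N' = Nat.card N := Nat.card_congr (Subgroup.subgroupOfEquivOfLe hNE).toEquiv
  have hR'card : Nat.card R' = Nat.card R := Nat.card_congr (Subgroup.subgroupOfEquivOfLe hRE).toEquiv
  have hR₁'card : Nat.card R₁' = Nat.card R₁ := Nat.card_congr (Subgroup.subgroupOfEquivOfLe hR₁E).toEquiv
  have hcop1 : Nat.Coprime (Nat.card N') (Nat.card R') := by
    rw [hN'card, hR'card]; exact hRN.symm
  have hcop2 : Nat.Coprime (Nat.card N') (Nat.card R₁') := by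
    rw [hN'card, hR₁'card, ← hcard]; exact hRN.symm
  have hcomp1 : N'.IsComplement' R' :=
    Subgroup.isComplement'_of_coprime (by rw [hN'card, hR'card, hEcard]) hcop1
  have hcomp2 : N'.IsComplement' R₁' :=
    Subgroup.isComplement'_of_coprime (by rw [hN'card, hR₁'card, ← hcard, hEcard]) hcop2
  have hidx : N'.index = Nat.card R' := hcomp1.symm.index_eq_card
  have hsolv : Group.IsSolvable N' := by
    have hN'p : IsPGroup p N' := by
      obtain ⟨k, hk⟩ := IsPGroup.iff_card.mp hN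
      exact IsPGroup.of_card (n := k) (by rw [hN'card, hk])
    haveI := hN'p.isNilpotent
    infer_instance
  obtain ⟨e, he⟩ := H01.sz_conj N' (by rw [hidx]; exact hcop1) R' R₁' hcomp1 hcomp2 (Or.inl hsolv)
  -- R₁ = e R e⁻¹
  have hconj : ∀ r ∈ R, (e : G) * r * (e : G)⁻¹ ∈ R₁ := by
    intro r hr
    have h1 : (⟨r, hRE hr⟩ : E) ∈ R' := hr
    have h2 : MulAut.conj e • (⟨r, hRE hr⟩ : E) ∈ MulAut.conj e • R' :=
      Subgroup.smul_mem_pointwise_smul _ _ _ h1
    rw [he] at h2
    exact h2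
  obtain ⟨n₀, hn₀, r₀, hr₀, he0⟩ := Subgroup.mem_sup_of_normal_left.1 e.2
  have hR₁eq : R₁ = R.map (MulAut.conj n₀).toMonoidHom := by
    symm
    apply Subgroup.eq_of_le_of_card_ge
    · rintro _ ⟨r, hr, rfl⟩
      have h1 : r₀⁻¹ * r * r₀ ∈ R := by
        have := conj_R A R₀ (A.inv_mem (Subgroup.map_subtype_le R₀ hr₀)) hr
        rw [inv_inv] at this
        exact this
      have h2 := hconj _ h1
      have e1 : (e : G) * (r₀⁻¹ * r * r₀) * (e : G)⁻¹ = n₀ * r * n₀⁻¹ := by
        rw [← he0]; group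
      rw [e1] at h2
      exact h2
    · rw [← hcard]
      have : Nat.card (R.map (MulAut.conj n₀).toMonoidHom) = Nat.card R :=
        Nat.card_congr (R.equivMapOfInjective _ (MulEquiv.injective _)).toEquiv.symm
      rw [this]
  refine ⟨n₀, hn₀, ?_⟩
  ext x
  rw [mem_map_conj]
  rw [← hnorm₁, hR₁eq, norm_conj, hnorm]

end Cfsg.Agent.S4043
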