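import Cfsg.Statements.S4049
import Cfsg.Agent.Lib.H19.Normal2
import Mathlib

set_option autoImplicit false
open Cfsg

namespace Cfsg.Agent.S4049

open Cfsg.Agent.H19

/-- Let G be a finite group such that N_G(H)/C_G(H) has odd order for every nontrivial subgroup H of odd order. Then the Sylow 2-subgroups of G are normal. -/
theorem result {G : Type*} [Group G] [Finite G]
    (hhom : ∀ H : Subgroup G, H ≠ ⊥ → ¬ 2 ∣ Nat.card ↥H →
        ¬ 2 ∣ (Subgroup.centralizer (H : Set G)).relIndex (Subgroup.normalizer (H : Set G))) (P : Sylow 2 G) :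
    (P : Subgroup G).Normal := by
  classical
  refine normal_sylow_two_of_no_inverting _ G rfl ?_ P
  rintro t y ⟨k, hk⟩ hy hinv
  by_contra hy1
  set H := Subgroup.zpowers y with hH
  have h1 : H ≠ ⊥ := by
    intro h
    apply hy1
    have : y ∈ H := Subgroup.mem_zpowers y
    rw [h, Subgroup.mem_bot] at this
    exact this
  have h2 : ¬ 2 ∣ Nat.card H := by
    rw [hH, Nat.card_zpowers]
    intro h
    exact (Nat.not_even_iff_odd.2 hy) (even_iff_two_dvd.2 h)
  apply hhom H h1 h2
  -- t gives an element of even order in N / C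
  have htN : t ∈ Subgroup.normalizer (H : Set G) := by
    apply mem_normalizer_zpowers_of_conj_mem
    rw [hinv]
    exact Subgroup.inv_mem _ (Subgroup.mem_zpowers y)
  set N := Subgroup.normalizer (H : Set G) with hN
  set C := Subgroup.centralizer (H : Set G) with hC
  let C' : Subgroup N := C.subgroupOf N
  have hC'n : C'.Normal := by
    constructor
    intro c hc x
    rw [Subgroup.mem_subgroupOf] at hc ⊢
    rw [hC, Subgroup.mem_centralizer_iff] at hc ⊢
    intro h hh
    have hh' : h ∈ H := hh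
    have h3 : (x : G)⁻¹ * h * x ∈ H := by
      have := (Subgroup.mem_normalizer_iff.1 (N.inv_mem x.2) h).1 hh'
      simpa using this
    have h4 := hc _ h3
    show h * ((x : G) * c * (x : G)⁻¹) = (x : G) * c * (x : G)⁻¹ * h
    calc h * ((x : G) * c * (x : G)⁻¹) = x * (((x : G)⁻¹ * h * x) * c) * (x : G)⁻¹ := by group
      _ = x * (c * ((x : G)⁻¹ * h * x)) * (x : G)⁻¹ := by rw [h4]
      _ = (x : G) * c * (x : G)⁻¹ * h := by group
  let tt : N := ⟨t, htN⟩
  have hne : ((tt : N) : N ⧸ C') ≠ 1 := by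
    intro h
    rw [QuotientGroup.eq_one_iff, Subgroup.mem_subgroupOf, hC, Subgroup.mem_centralizer_iff] at h
    have h3 := h y (Subgroup.mem_zpowers y)
    have h4 : t * y * t⁻¹ = y := by
      rw [← show y * t = t * y from h3]; simp
    rw [h4] at hinv
    have h5 : y ^ 2 = 1 := by
      rw [pow_two]
      nth_rw 2 [hinv]
      simp
    have h6 : orderOf y ∣ 2 := orderOf_dvd_of_pow_eq_one h5
    have h7 : orderOf y = 1 := by
      have h8 := Nat.le_of_dvd (by norm_num) h6
      obtain ⟨m, hm⟩ := hy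
      omega
    exact hy1 (orderOf_eq_one_iff.1 h7)
  have hord : orderOf ((tt : N) : N ⧸ C') ∣ 2 ^ k := by
    apply orderOf_dvd_of_pow_eq_one
    rw [← QuotientGroup.mk_pow]
    have : tt ^ 2 ^ k = 1 := by
      apply Subtype.ext
      show t ^ 2 ^ k = 1
      rw [← hk]; exact pow_orderOf_eq_one t
    rw [this]
    rfl
  obtain ⟨j, -, hj⟩ := (Nat.dvd_prime_pow Nat.prime_two).1 hord
  have hj0 : j ≠ 0 := by
    rintro rfl
    rw [pow_zero, orderOf_eq_one_iff] at hj
    exact hne hj
  have h8 : orderOf ((tt : N) : N ⧸ C') ∣ Nat.card (N ⧸ C') := orderOf_dvd_natCard _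
  have h9 : (2 : ℕ) ∣ Nat.card (N ⧸ C') := by
    refine Dvd.dvd.trans ?_ h8
    rw [hj]
    exact dvd_pow_self 2 hj0
  exact h9

end Cfsg.Agent.S4049
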