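import Cfsg.Statements.S4050
import Cfsg.Agent.Lib.H19.PiSep

set_option autoImplicit false
set_option linter.style.haveILetI false
open Cfsg

namespace Cfsg.Agent.S4050

open Cfsg.Agent.H19

lemma step {G : Type*} [Group G] [Finite G] (π : Set ℕ)
    (hhom' : ∀ H : Subgroup G, H ≠ ⊥ → (∀ p : ℕ, p.Prime → p ∣ Nat.card H → p ∉ π) →
        ∀ x ∈ Subgroup.normalizer (H : Set G), IsPiElt π x → x ∈ Subgroup.centralizer (H : Set G))
    (A B : Subgroup G) (hBA : B ≤ A) [B.Normal]
    (ih : ∃ W : Subgroup B, ∀ x : B, x ∈ W ↔ IsPiElt π x)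
    (hfac : (∀ q : ℕ, q.Prime → q ∣ B.relIndex A → q ∈ π) ∨
        (∀ q : ℕ, q.Prime → q ∣ B.relIndex A → q ∉ π)) :
    ∃ W : Subgroup A, ∀ x : A, x ∈ W ↔ IsPiElt π x := by
  obtain ⟨W, hW⟩ := ih
  set K : Subgroup A := B.subgroupOf A with hK
  haveI : K.Normal := Subgroup.normal_subgroupOf
  apply exists_subgroup_pi_elements π (hom_subgroup hhom' A) K
  · -- π-elements of K
    refine ⟨W.comap (Subgroup.subgroupOfEquivOfLe hBA).toMonoidHom, ?_⟩
    intro x
    rw [Subgroup.mem_comap, hW]
    have h1 : orderOf ((Subgroup.subgroupOfEquivOfLe hBA).toMonoidHom x) = orderOf x :=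
      orderOf_injective _ (MulEquiv.injective _) x
    unfold IsPiElt
    rw [h1]
  · -- π-elements of the quotient
    have hcard : Nat.card (A ⧸ K) = B.relIndex A := rfl
    rcases hfac with h1 | h1
    · refine ⟨⊤, ?_⟩
      intro x
      simp only [Subgroup.mem_top, true_iff]
      intro p hp hd
      exact h1 p hp (hcard ▸ hd.trans (orderOf_dvd_natCard x))
    · refine ⟨⊥, ?_⟩
      intro x
      rw [Subgroup.mem_bot]
      constructor
      · rintro rfl
        exact isPiElt_one
      · intro hx
        by_contra hne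
        have h2 : orderOf x ≠ 1 := fun h3 => hne (orderOf_eq_one_iff.mp h3)
        obtain ⟨r, hr, hrd⟩ := Nat.exists_prime_and_dvd h2
        exact h1 r hr (hcard ▸ hrd.trans (orderOf_dvd_natCard x)) (hx r hr hrd)

/-- Let π be a set of primes and G a finite group. The π-elements of G (elements whose order is divisible only by primes of π) form a subgroup if and only if G is π-separable (it has a chain of normal subgroups from 1 to G with each successive index divisible only by primes in π or only by primes outside π) and N_G(H)/C_G(H) is a π'-group for every nontrivial π'-subgroup H of G. -/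
theorem result {G : Type*} [Group G] [Finite G] (π : Set ℕ)
    (hπ : ∀ p ∈ π, p.Prime) :
    (∃ K : Subgroup G, ∀ x : G, x ∈ K ↔ ∀ p : ℕ, p.Prime → p ∣ orderOf x → p ∈ π) ↔
    ((∃ (n : ℕ) (H : Fin (n + 1) → Subgroup G), H 0 = ⊥ ∧ H (Fin.last n) = ⊤ ∧ Monotone H ∧ (∀ i, (H i).Normal) ∧
      ∀ i : Fin n, (∀ q : ℕ, q.Prime → q ∣ (H i.castSucc).relIndex (H i.succ) → q ∈ π) ∨
        (∀ q : ℕ, q.Prime → q ∣ (H i.castSucc).relIndex (H i.succ) → q ∉ π)) ∧
     (∀ H : Subgroup G, H ≠ ⊥ → (∀ p : ℕ, p.Prime → p ∣ Nat.card ↥H → p ∉ π) →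
        ∀ p : ℕ, p.Prime → p ∣ (Subgroup.centralizer (H : Set G)).relIndex (Subgroup.normalizer (H : Set G)) → p ∉ π)) := by
  classical
  constructor
  · rintro ⟨W, hW⟩
    have hWn : W.Normal := normal_of_pi hW
    refine ⟨?_, fun H _ hH => relIndex_of_subgroup_pi hW hWn H hH⟩
    refine ⟨2, ![⊥, W, ⊤], rfl, rfl, ?_, ?_, ?_⟩
    · rw [Fin.monotone_iff_le_succ]
      intro i
      fin_cases i
      · exact bot_le
      · exact le_top
    · intro i
      fin_cases i
      · show (⊥ : Subgroup G).Normal
        infer_instance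
      · exact hWn
      · show (⊤ : Subgroup G).Normal
        infer_instance
    · intro i
      fin_cases i
      · left
        intro q hq hd
        have hd' : q ∣ Nat.card W := by
          have : (⊥ : Subgroup G).relIndex W = Nat.card W := Subgroup.relIndex_bot_left W
          exact this ▸ hd
        haveI := Fact.mk hq
        obtain ⟨z, hz⟩ := exists_prime_orderOf_dvd_card' q hd'
        have h1 := (hW z.1).1 z.2
        apply h1 q hq
        rw [Subgroup.orderOf_coe, hz]
      · right
        intro q hq hd hqπ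
        have hd' : q ∣ Nat.card (G ⧸ W) := by
          have hd2 : q ∣ W.relIndex ⊤ := hd
          rw [Subgroup.relIndex_top_right] at hd2
          exact hd2
        haveI := Fact.mk hq
        obtain ⟨y, hy⟩ := exists_prime_orderOf_dvd_card' q hd'
        obtain ⟨x, hxy, hxpi⟩ := exists_pi_lift (QuotientGroup.mk' W) (QuotientGroup.mk'_surjective W) π y
          (by
            intro r hr hrd
            rw [hy] at hrd
            rw [(Nat.prime_dvd_prime_iff_eq hr hq).1 hrd]
            exact hqπ)
        have hxW : x ∈ W := (hW x).2 hxpi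
        have h1 : y = 1 := by
          rw [← hxy]
          exact (QuotientGroup.eq_one_iff x).2 hxW
        rw [h1, orderOf_one] at hy
        exact hq.one_lt.ne hy
  · rintro ⟨⟨n, H, h0, hlast, hmono, hnorm, hfac⟩, hhom⟩
    have hhom' : ∀ H : Subgroup G, H ≠ ⊥ → (∀ p : ℕ, p.Prime → p ∣ Nat.card H → p ∉ π) →
        ∀ x ∈ Subgroup.normalizer (H : Set G), IsPiElt π x → x ∈ Subgroup.centralizer (H : Set G) :=
      fun H hH hp _ hx hpi => mem_centralizer_of_relIndex H (hhom H hH hp) hx hpi
    have key : ∀ i : Fin (n + 1), ∃ W : Subgroup (H i), ∀ x : H i, x ∈ W ↔ IsPiElt π x := by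
      intro i
      induction i using Fin.induction with
      | zero =>
        refine ⟨⊥, ?_⟩
        intro x
        have hx : (x : G) = 1 := by
          have h1 : H 0 ≤ ⊥ := h0.le
          exact Subgroup.mem_bot.1 (h1 x.2)
        have hx1 : x = 1 := Subtype.ext hx
        rw [hx1]
        simp only [Subgroup.one_mem, true_iff]
        exact isPiElt_one
      | succ i ih =>
        haveI := hnorm i.castSucc
        exact step π hhom' (H i.succ) (H i.castSucc) (hmono (Fin.castSucc_le_succ i)) ih (hfac i)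
    obtain ⟨W, hW⟩ := key (Fin.last n)
    refine ⟨W.map (H (Fin.last n)).subtype, ?_⟩
    intro x
    have hx : x ∈ H (Fin.last n) := by rw [hlast]; exact Subgroup.mem_top x
    constructor
    · rintro ⟨y, hy, rfl⟩
      exact isPiElt_coe.2 ((hW y).1 hy)
    · intro h
      exact ⟨⟨x, hx⟩, (hW _).2 (isPiElt_coe.1 h), rfl⟩

end Cfsg.Agent.S4050
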