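import Cfsg.Statements.S4056
import Cfsg.Agent.Lib.H01.Basic
import Mathlib

set_option autoImplicit false
open Cfsg

namespace Cfsg.Agent.S4056

open scoped commutatorElement

/-- In a finite 2-group of nilpotency class at most 2 and exponent dividing 4, the Frattini subgroup lies in the centre and is elementary abelian. -/
theorem result {P : Type*} [Group P] [Finite P] (hP : IsPGroup 2 P)
    (hcl : Group.nilpotencyClass P ≤ 2) (hexp : Monoid.exponent P ∣ 4) :
    frattini P ≤ Subgroup.center P ∧ Cfsg.IsElementaryAbelian 2 (frattini P) := by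
  classical
  have hF : Fact (Nat.Prime 2) := ⟨Nat.prime_two⟩
  have hnil : Group.IsNilpotent P := hP.isNilpotent
  have h4 : ∀ x : P, x ^ 4 = 1 := fun x => by
    obtain ⟨k, hk⟩ := hexp
    rw [hk, pow_mul, Monoid.pow_exponent_eq_one, one_pow]
  have htop : Subgroup.upperCentralSeries P 2 = ⊤ := Subgroup.upperCentralSeries_eq_top_iff_nilpotencyClass_le.2 hcl
  have hcent : ∀ x y : P, ⁅x, y⁆ ∈ Subgroup.center P := by
    intro x y
    have h1 : x ∈ Subgroup.upperCentralSeries P 2 := by rw [htop]; exact Subgroup.mem_top x
    have h2 := Subgroup.mem_upperCentralSeries_succ_iff.1 h1 y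
    rwa [Subgroup.upperCentralSeries_one] at h2
  -- key computation
  have hsqc : ∀ x y : P, ⁅y, x⁆ ^ 2 = 1 := by
    intro x y
    set c := ⁅y, x⁆ with hc
    have hcz : ∀ u : P, u * c = c * u := fun u => Subgroup.mem_center_iff.1 (hcent y x) u
    have hyx : y * x = c * (x * y) := by
      rw [hc, commutatorElement_def]; group
    have h1 : (x * y) * (x * y) = c * (x * x) * (y * y) := by
      calc (x * y) * (x * y) = x * (y * x) * y := by group
        _ = x * (c * (x * y)) * y := by rw [hyx]
        _ = (x * c) * x * y * y := by group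
        _ = c * (x * x) * (y * y) := by rw [hcz x]; group
    have h2 : (y * y) * x = c * c * (x * (y * y)) := by
      calc (y * y) * x = y * (y * x) := by group
        _ = y * (c * (x * y)) := by rw [hyx]
        _ = (y * c) * x * y := by group
        _ = c * (y * x) * y := by rw [hcz y]; group
        _ = c * (c * (x * y)) * y := by rw [hyx]
        _ = c * c * (x * (y * y)) := by group
    have h3 : (y * y) * (x * x) = c * c * c * c * ((x * x) * (y * y)) := by
      calc (y * y) * (x * x) = ((y * y) * x) * x := by group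
        _ = c * c * (x * (y * y)) * x := by rw [h2]
        _ = c * c * x * ((y * y) * x) := by group
        _ = c * c * x * (c * c * (x * (y * y))) := by rw [h2]
        _ = c * c * (x * c) * c * (x * (y * y)) := by group
        _ = c * c * (c * x) * c * (x * (y * y)) := by rw [hcz x]
        _ = c * c * c * (x * c) * (x * (y * y)) := by group
        _ = c * c * c * (c * x) * (x * (y * y)) := by rw [hcz x]
        _ = c * c * c * c * ((x * x) * (y * y)) := by group
    have hC : ∀ u : P, Commute u c := hcz
    have hc4 : Commute (x * x) (c * c * c * c) :=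
      (((hC _).mul_right (hC _)).mul_right (hC _)).mul_right (hC _)
    have h5 : (x * y) ^ 4 = c ^ 6 * x ^ 4 * y ^ 4 := by
      have e1 : (x * y) ^ 4 = ((x * y) * (x * y)) * ((x * y) * (x * y)) := by
        rw [show (4 : ℕ) = 2 * 2 from rfl, pow_mul, pow_two, pow_two]
      rw [e1, h1]
      calc c * (x * x) * (y * y) * (c * (x * x) * (y * y))
          = c * ((x * x) * (y * y) * c) * (x * x) * (y * y) := by group
        _ = c * (c * ((x * x) * (y * y))) * (x * x) * (y * y) := by rw [hcz ((x * x) * (y * y))]
        _ = c * c * (x * x) * ((y * y) * (x * x)) * (y * y) := by group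
        _ = c * c * (x * x) * (c * c * c * c * ((x * x) * (y * y))) * (y * y) := by rw [h3]
        _ = c * c * ((x * x) * (c * c * c * c)) * (x * x) * (y * y) * (y * y) := by group
        _ = c * c * ((c * c * c * c) * (x * x)) * (x * x) * (y * y) * (y * y) := by rw [hc4.eq]
        _ = c ^ 6 * x ^ 4 * y ^ 4 := by
            simp only [pow_succ, pow_zero, one_mul, mul_assoc]
    rw [h4, h4, h4, mul_one, mul_one] at h5
    have h6 : c ^ 6 = 1 := h5.symm
    have h7 : c ^ 4 = 1 := h4 c
    calc c ^ 2 = c ^ 6 * (c ^ 4)⁻¹ := by group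
      _ = 1 := by rw [h6, h7]; simp
  -- squares are central
  have hsq : ∀ x : P, x ^ 2 ∈ Subgroup.center P := by
    intro x
    rw [Subgroup.mem_center_iff]
    intro y
    set c := ⁅y, x⁆ with hc
    have hcz : ∀ u : P, u * c = c * u := fun u => Subgroup.mem_center_iff.1 (hcent y x) u
    have hyx : y * x = c * (x * y) := by
      rw [hc, commutatorElement_def]; group
    have hc2 : c * c = 1 := by rw [← pow_two]; exact hsqc x y
    calc y * x ^ 2 = (y * x) * x := by rw [pow_two]; group
      _ = c * (x * y) * x := by rw [hyx]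
      _ = c * x * (y * x) := by group
      _ = c * x * (c * (x * y)) := by rw [hyx]
      _ = c * (x * c) * (x * y) := by group
      _ = c * (c * x) * (x * y) := by rw [hcz x]
      _ = (c * c) * (x * x) * y := by group
      _ = x ^ 2 * y := by rw [hc2, pow_two, one_mul]
  -- the subgroup
  let N : Subgroup P :=
    { carrier := {z | z ∈ Subgroup.center P ∧ z ^ 2 = 1}
      one_mem' := ⟨Subgroup.one_mem _, one_pow 2⟩
      mul_mem' := by
        rintro a b ⟨ha, ha'⟩ ⟨hb, hb'⟩
        refine ⟨Subgroup.mul_mem _ ha hb, ?_⟩
        have hC : Commute a b := Subgroup.mem_center_iff.1 ha b |>.symm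
        rw [hC.mul_pow, ha', hb', one_mul]
      inv_mem' := by
        rintro a ⟨ha, ha'⟩
        exact ⟨Subgroup.inv_mem _ ha, by rw [inv_pow, ha', inv_one]⟩ }
  have hNn : N.Normal := by
    constructor
    rintro z ⟨hz, hz'⟩ g
    have : g * z * g⁻¹ = z := by
      rw [(Subgroup.mem_center_iff.1 hz g)]; simp
    rw [this]
    exact ⟨hz, hz'⟩
  have hcomm : commutator P ≤ N := by
    rw [commutator_def, Subgroup.commutator_le]
    intro a _ b _
    exact ⟨hcent a b, hsqc b a⟩
  have hpow : ∀ x : P, x ^ 2 ∈ N := by
    intro x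
    refine ⟨hsq x, ?_⟩
    rw [← pow_mul]
    exact h4 x
  have hle := Cfsg.Agent.H01.frattini_le_of_comm_pow (p := 2) N hcomm hpow
  refine ⟨fun x hx => (hle hx).1, ?_, fun a ha => (hle ha).2⟩
  constructor
  constructor
  intro a b
  apply Subtype.ext
  exact (Subgroup.mem_center_iff.1 (hle a.2).1 b).symm

end Cfsg.Agent.S4056
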