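-- Number of solutions of x² = 1 in a 2-group of large rank.
import Cfsg.Statements.S4058
import Cfsg.Agent.Lib.H23.FS
import Cfsg.Agent.Lib.H22.Degree
import Cfsg.Agent.Lib.H10.CharGen
import Cfsg.Agent.Lib.H20.BurnsideBasis
import Mathlib

set_option autoImplicit false
set_option linter.unusedSimpArgs false
set_option linter.unusedVariables false
set_option linter.unusedSectionVars false
set_option linter.style.haveILetI false
set_option warn.classDefReducibility false
open Cfsg

namespace Cfsg.Agent.S4058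

open Cfsg.Agent.H21 Cfsg.Agent.H23 Cfsg.Agent.H22
open scoped ComplexConjugate

/-- A sum over a finite `A`-set of an invariant function is divisible by `m` as soon as
each orbit contributes a multiple of `m`. -/
theorem orbit_dvd {A X : Type*} [Group A] [MulAction A X] [Fintype X] (F : X → ℤ)
    (hF : ∀ (a : A) (x : X), F (a • x) = F x) (m : ℤ)
    (h : ∀ x : X, m ∣ (Nat.card (MulAction.orbit A x) : ℤ) * F x) : m ∣ ∑ x, F x := by
  classical
  rw [Finset.sum_partition (MulAction.orbitRel A X)]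
  refine Finset.dvd_sum fun xbar hx => ?_
  obtain ⟨x, -, rfl⟩ := Finset.mem_image.1 hx
  have h1 : ∀ y ∈ Finset.univ.filter (fun y => (⟦y⟧ : Quotient (MulAction.orbitRel A X)) = ⟦x⟧),
      F y = F x := by
    intro y hy
    have hy' := (Finset.mem_filter.1 hy).2
    have hy2 : y ∈ MulAction.orbit A x := Quotient.exact hy'
    obtain ⟨a, rfl⟩ := hy2
    exact hF a x
  rw [Finset.sum_congr rfl h1, Finset.sum_const, nsmul_eq_mul]
  have h2 : (Finset.univ.filter (fun y => (⟦y⟧ : Quotient (MulAction.orbitRel A X)) = ⟦x⟧)).card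
      = Nat.card (MulAction.orbit A x) := by
    rw [Nat.card_eq_fintype_card, Fintype.card_subtype]
    congr 1
    ext y
    simp only [Finset.mem_filter, Finset.mem_univ, true_and]
    exact ⟨fun hy => Quotient.exact hy, fun hy => Quotient.sound hy⟩
  rw [h2]
  exact h x

section Main

variable {G : Type*} [Group G] [Fintype G] [Fintype (IrrCharacter G)]

/-- The values of a homomorphism from the Frattini quotient. -/
noncomputable def tl (l : (G ⧸ frattini G) →* ℂˣ) (g : G) : ℂ :=
  ((l (g : G ⧸ frattini G) : ℂˣ) : ℂ)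

theorem tl_mul (l : (G ⧸ frattini G) →* ℂˣ) (g h : G) : tl l (g * h) = tl l g * tl l h := by
  simp [tl, QuotientGroup.mk_mul]

theorem tl_one (l : (G ⧸ frattini G) →* ℂˣ) : tl l (1 : G) = 1 := by
  simp [tl]

theorem tl_sq (hG : IsPGroup 2 G) (l : (G ⧸ frattini G) →* ℂˣ) (g : G) : tl l (g * g) = 1 := by
  haveI : Fact (Nat.Prime 2) := ⟨Nat.prime_two⟩
  have h : ((g * g : G) : G ⧸ frattini G) = 1 := by
    have := Cfsg.Agent.H20.frattini_quotient_exp hG (g : G ⧸ frattini G)
    rw [pow_two] at this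
    exact this
  simp [tl, h]

theorem tl_sq' (hG : IsPGroup 2 G) (l : (G ⧸ frattini G) →* ℂˣ) (g : G) : tl l g * tl l g = 1 := by
  rw [← tl_mul, tl_sq hG]

theorem tl_conj (hG : IsPGroup 2 G) (l : (G ⧸ frattini G) →* ℂˣ) (g : G) : conj (tl l g) = tl l g := by
  have h := tl_sq' hG l g
  have h2 : tl l g = 1 ∨ tl l g = -1 := by
    have : (tl l g - 1) * (tl l g + 1) = 0 := by linear_combination h
    rcases mul_eq_zero.1 this with h3 | h3
    · left; linear_combination h3
    · right; linear_combination h3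
  rcases h2 with h2 | h2 <;> rw [h2] <;> simp

theorem tl_inj {l l' : (G ⧸ frattini G) →* ℂˣ} (h : tl l = tl l') : l = l' := by
  ext q
  exact congrFun h q

theorem tl_irr (l : (G ⧸ frattini G) →* ℂˣ) : IsIrrCharacter G (tl l) :=
  Cfsg.Agent.H10.isIrrCharacter_of_mul (tl l) (tl_mul l) (tl_one l)

theorem tw_irr (hG : IsPGroup 2 G) (l : (G ⧸ frattini G) →* ℂˣ) (χ : IrrCharacter G) :
    IsIrrCharacter G (fun g => tl l g * χ.1 g) := by
  apply isIrrCharacter_of_inner_self_eq_one
    (isCharacter_mul (isCharacter_of_irr (tl_irr l)) (isCharacter_of_irr χ.2))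
  have h := classInner_self_irr χ
  unfold classInner at h ⊢
  rw [← h]
  congr 1
  refine Finset.sum_congr rfl fun g _ => ?_
  simp only [Pi.mul_apply, map_mul, tl_conj hG]
  linear_combination (χ.1 g * conj (χ.1 g)) * tl_sq' hG l g

/-- The twisting action of the dual of the Frattini quotient on irreducible characters. -/
noncomputable def twAct (hG : IsPGroup 2 G) :
    MulAction ((G ⧸ frattini G) →* ℂˣ) (IrrCharacter G) where
  smul l χ := ⟨fun g => tl l g * χ.1 g, tw_irr hG l χ⟩
  one_smul χ := by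
    apply Subtype.ext
    funext g
    show tl 1 g * χ.1 g = χ.1 g
    simp [tl]
  mul_smul l l' χ := by
    apply Subtype.ext
    funext g
    show tl (l * l') g * χ.1 g = tl l g * (tl l' g * χ.1 g)
    simp [tl, mul_assoc]

/-- The stabiliser bound. -/
theorem stab_le (hG : IsPGroup 2 G) (χ : IrrCharacter G)
    (E : Finset ((G ⧸ frattini G) →* ℂˣ)) (hE : ∀ l ∈ E, ∀ g, tl l g * χ.1 g = χ.1 g) :
    E.card ≤ (charDegree χ.1) ^ 2 := by
  classical
  set f : G → ℂ := fun g => χ.1 g * conj (χ.1 g) with hf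
  have hχ := isCharacter_of_irr χ.2
  have hfc : IsCharacter G f := isCharacter_mul hχ (isCharacter_conjFun hχ)
  have hcl : IsClassFunction G f := isClassFunction_of_isCharacter hfc
  have hexp := congrFun (classFunction_expansion f hcl) 1
  simp only [Finset.sum_apply, Pi.smul_apply, smul_eq_mul] at hexp
  choose m hm using fun ψ : IrrCharacter G => classInner_isNat hfc ψ
  have h1 : f 1 = ((charDegree χ.1) ^ 2 : ℕ) := by
    simp only [hf]
    rw [one_eq_charDegree hχ]
    simp [sq]
  have hdeg : ∀ ψ : IrrCharacter G, ψ.1 1 = (charDegree ψ.1 : ℂ) := fun ψ =>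
    one_eq_charDegree (isCharacter_of_irr ψ.2)
  have h2 : (charDegree χ.1) ^ 2 = ∑ ψ : IrrCharacter G, m ψ * charDegree ψ.1 := by
    have : (((charDegree χ.1) ^ 2 : ℕ) : ℂ) = ((∑ ψ : IrrCharacter G, m ψ * charDegree ψ.1 : ℕ) : ℂ) := by
      rw [← h1, hexp]
      push_cast
      refine Finset.sum_congr rfl fun ψ _ => ?_
      rw [hm ψ, hdeg ψ]
    exact_mod_cast this
  let ψ' : ((G ⧸ frattini G) →* ℂˣ) → IrrCharacter G := fun l => ⟨tl l, tl_irr l⟩
  have hinj : Function.Injective ψ' := by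
    intro l l' h
    exact tl_inj (congrArg Subtype.val h)
  have hm1 : ∀ l ∈ E, m (ψ' l) = 1 := by
    intro l hl
    have h3 : classInner f (ψ' l).1 = 1 := by
      have h := classInner_self_irr χ
      unfold classInner at h ⊢
      rw [← h]
      congr 1
      refine Finset.sum_congr rfl fun g _ => ?_
      show χ.1 g * conj (χ.1 g) * conj (tl l g) = χ.1 g * conj (χ.1 g)
      have h4 := hE l hl g
      calc χ.1 g * conj (χ.1 g) * conj (tl l g) = χ.1 g * conj (tl l g * χ.1 g) := by
            rw [map_mul]; ring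
        _ = χ.1 g * conj (χ.1 g) := by rw [h4]
    rw [hm] at h3
    exact_mod_cast h3
  calc E.card = (E.image ψ').card := (Finset.card_image_of_injective _ hinj).symm
    _ = ∑ ψ ∈ E.image ψ', 1 := by simp
    _ ≤ ∑ ψ ∈ E.image ψ', m ψ * charDegree ψ.1 := by
        refine Finset.sum_le_sum fun ψ hψ => ?_
        obtain ⟨l, hl, rfl⟩ := Finset.mem_image.1 hψ
        rw [hm1 l hl, one_mul]
        exact irr_charDegree_pos (ψ' l).2
    _ ≤ ∑ ψ : IrrCharacter G, m ψ * charDegree ψ.1 :=
        Finset.sum_le_sum_of_subset (Finset.subset_univ _)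
    _ = _ := h2.symm

theorem card_dual (hG : IsPGroup 2 G) :
    Nat.card ((G ⧸ frattini G) →* ℂˣ) = Nat.card (G ⧸ frattini G) := by
  haveI : Fact (Nat.Prime 2) := ⟨Nat.prime_two⟩
  letI : CommGroup (G ⧸ frattini G) :=
    { (inferInstance : Group (G ⧸ frattini G)) with
      mul_comm := Cfsg.Agent.H20.frattini_quotient_comm hG }
  exact CommGroup.card_monoidHom_of_hasEnoughRootsOfUnity (G ⧸ frattini G) ℂ

theorem main (hG : IsPGroup 2 G) (k : ℕ) (hgen : 2 ^ (2 * k + 1) ≤ Nat.card (G ⧸ frattini G)) :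
    2 ^ (k + 1) ∣ Nat.card {x : G // x ^ 2 = 1} := by
  classical
  haveI : Fact (Nat.Prime 2) := ⟨Nat.prime_two⟩
  letI := twAct (G := G) hG
  -- the dual group
  have hcardA := card_dual hG
  have hQp : IsPGroup 2 (G ⧸ frattini G) := hG.to_quotient _
  obtain ⟨d, hd⟩ := IsPGroup.iff_card.1 hQp
  have hAfin : Finite ((G ⧸ frattini G) →* ℂˣ) := by
    apply Nat.finite_of_card_ne_zero
    rw [hcardA, hd]
    positivity
  haveI : Fintype ((G ⧸ frattini G) →* ℂˣ) := Fintype.ofFinite _
  have hdk : 2 * k + 1 ≤ d := by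
    rw [hd] at hgen
    exact (Nat.pow_le_pow_iff_right (by norm_num)).1 hgen
  -- the integer valued function
  have hint : ∀ χ : IrrCharacter G, ∃ n : ℤ, fsInd χ.1 = (n : ℂ) := by
    intro χ
    obtain ⟨s, t, -, h⟩ := fs_nat (isCharacter_of_irr χ.2)
    exact ⟨(s : ℤ) - t, by rw [h]; push_cast; ring⟩
  choose ν hν using hint
  have hinv_fs : ∀ (l : (G ⧸ frattini G) →* ℂˣ) (χ : IrrCharacter G), ν (l • χ) = ν χ := by
    intro l χ
    have h1 : fsInd (l • χ).1 = fsInd χ.1 := by
      unfold fsInd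
      congr 1
      refine Finset.sum_congr rfl fun g _ => ?_
      show tl l (g * g) * χ.1 (g * g) = χ.1 (g * g)
      rw [tl_sq hG, one_mul]
    rw [hν, hν] at h1
    exact_mod_cast h1
  have hdeg_inv : ∀ (l : (G ⧸ frattini G) →* ℂˣ) (χ : IrrCharacter G),
      charDegree (l • χ).1 = charDegree χ.1 := by
    intro l χ
    have h1 : (l • χ).1 1 = χ.1 1 := by
      show tl l 1 * χ.1 1 = χ.1 1
      rw [tl_one, one_mul]
    rw [one_eq_charDegree (isCharacter_of_irr (l • χ).2),
      one_eq_charDegree (isCharacter_of_irr χ.2)] at h1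
    exact_mod_cast h1
  let F : IrrCharacter G → ℤ := fun χ => ν χ * charDegree χ.1
  have hF : ∀ (l : (G ⧸ frattini G) →* ℂˣ) (χ : IrrCharacter G), F (l • χ) = F χ := by
    intro l χ
    show ν (l • χ) * charDegree (l • χ).1 = ν χ * charDegree χ.1
    rw [hinv_fs, hdeg_inv]
  -- the count
  have hN : (Nat.card {x : G // x ^ 2 = 1} : ℤ) = ∑ χ, F χ := by
    have h := sum_fsInd_mul (G := G) 1
    have h2 : sqrtCount (1 : G) = (Nat.card {x : G // x ^ 2 = 1} : ℂ) := by
      unfold sqrtCount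
      rw [Nat.card_eq_fintype_card, Fintype.card_subtype, Finset.sum_ite]
      simp [sq]
    rw [h2] at h
    have h3 : ((∑ χ, F χ : ℤ) : ℂ) = (Nat.card {x : G // x ^ 2 = 1} : ℂ) := by
      rw [← h]
      push_cast
      refine Finset.sum_congr rfl fun χ _ => ?_
      show ((ν χ * (charDegree χ.1 : ℤ) : ℤ) : ℂ) = _
      push_cast
      rw [hν, one_eq_charDegree (isCharacter_of_irr χ.2)]
    exact_mod_cast h3.symm
  have hfinal : ((2 : ℤ) ^ (k + 1)) ∣ ∑ χ, F χ := by
    refine orbit_dvd F hF _ fun χ => ?_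
    -- sizes
    obtain ⟨a, ha⟩ := (Nat.dvd_prime_pow Nat.prime_two).1
      (show charDegree χ.1 ∣ 2 ^ (Nat.log 2 (Nat.card G)) from by
        obtain ⟨n, hn⟩ := IsPGroup.iff_card.1 hG
        have h := charDegree_dvd_card χ
        rw [hn] at h ⊢
        rw [Nat.log_pow (by norm_num)]
        exact h)
    have hdega : charDegree χ.1 = 2 ^ a := ha.2
    have horb := MulAction.card_orbit_mul_card_stabilizer_eq_card_group
      ((G ⧸ frattini G) →* ℂˣ) χ
    simp only [← Nat.card_eq_fintype_card] at horb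
    rw [hcardA, hd] at horb
    obtain ⟨o, -, ho⟩ := (Nat.dvd_prime_pow Nat.prime_two).1 (Dvd.intro _ horb)
    obtain ⟨s, -, hs⟩ := (Nat.dvd_prime_pow Nat.prime_two).1 (Dvd.intro_left _ horb)
    rw [ho, hs, ← pow_add] at horb
    have hod : o + s = d := Nat.pow_right_injective (le_refl 2) horb
    have hstab : Nat.card (MulAction.stabilizer ((G ⧸ frattini G) →* ℂˣ) χ) ≤ (charDegree χ.1) ^ 2 := by
      have := stab_le hG χ (Finset.univ.filter (fun l => l ∈ MulAction.stabilizer ((G ⧸ frattini G) →* ℂˣ) χ))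
        (by
          intro l hl g
          have h1 : l • χ = χ := (Finset.mem_filter.1 hl).2
          exact congrFun (congrArg Subtype.val h1) g)
      rw [Nat.card_eq_fintype_card, Fintype.card_subtype]
      exact this
    rw [hs, hdega, ← pow_mul] at hstab
    have hs2 : s ≤ a * 2 := (Nat.pow_le_pow_iff_right (by norm_num)).1 hstab
    have hoa : k + 1 ≤ o + a := by omega
    rw [ho]
    show ((2 : ℤ) ^ (k + 1)) ∣ ((2 ^ o : ℕ) : ℤ) * (ν χ * (charDegree χ.1 : ℤ))
    rw [hdega]
    push_cast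
    have e : (2 : ℤ) ^ o * (ν χ * 2 ^ a) = 2 ^ (o + a) * ν χ := by rw [pow_add]; ring
    rw [e]
    exact Dvd.dvd.mul_right (pow_dvd_pow 2 hoa) _
  have : ((2 ^ (k + 1) : ℕ) : ℤ) ∣ (Nat.card {x : G // x ^ 2 = 1} : ℤ) := by
    rw [hN]; push_cast; exact hfinal
  exact_mod_cast this

end Main

/-- Let G be a finite 2-group with #(G/Φ(G)) ≥ 2^(2k+1). Then the number of elements x of G with x² = 1 is divisible by 2^(k+1). -/
theorem result {G : Type*} [Group G] [Finite G] (hG : IsPGroup 2 G) (k : ℕ)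
    (hgen : 2 ^ (2 * k + 1) ≤ Nat.card (G ⧸ frattini G)) :
    2 ^ (k + 1) ∣ Nat.card {x : G // x ^ 2 = 1} := by
  haveI := Fintype.ofFinite G
  haveI := Fintype.ofFinite (IrrCharacter G)
  exact main hG k hgen

end Cfsg.Agent.S4058
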