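import Cfsg.Statements.S4066
import Cfsg.Agent.Lib.H19.TI
import Mathlib

set_option autoImplicit false
open Cfsg

namespace Cfsg.Agent.S4066

open Cfsg.Agent.H19

/-- Let G be a finite group in which the centralizer of every element meets each of its conjugates by elements outside its normalizer trivially. Then any two distinct Sylow p-subgroups of G, for any prime p, intersect trivially. -/
theorem result {G : Type*} [Group G] [Finite G] (hTI : ∀ x : G, Cfsg.IsTISubset (Subgroup.centralizer ({x} : Set G) : Set G))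
    {p : ℕ} [Fact p.Prime] (P Q : Sylow p G) (hPQ : P ≠ Q) : (P : Subgroup G) ⊓ (Q : Subgroup G) = ⊥ := by
  classical
  by_contra hne
  -- Lemma A
  have hA : ∀ a b : G, a ≠ 1 → a * b = b * a →
      Subgroup.centralizer ({a} : Set G) ≤ Subgroup.normalizer ((Subgroup.centralizer ({b} : Set G) : Subgroup G) : Set G) := by
    intro a b ha hab g hg
    by_contra hno
    apply ha
    apply hTI b g hno a
    · -- a ∈ C(b)
      rw [SetLike.mem_coe, Subgroup.mem_centralizer_iff]
      intro y hy
      rw [Set.mem_singleton_iff] at hy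
      rw [hy]; exact hab.symm
    · have h1 : a * g = g * a := Subgroup.mem_centralizer_iff.1 hg a rfl
      rw [← h1]
      simp only [mul_inv_cancel_right, SetLike.mem_coe]
      rw [Subgroup.mem_centralizer_iff]
      intro y hy
      rw [Set.mem_singleton_iff] at hy
      rw [hy]; exact hab.symm
  have hmemC : ∀ a b : G, a * b = b * a → a ∈ Subgroup.centralizer ({b} : Set G) := by
    intro a b hab
    rw [Subgroup.mem_centralizer_iff]
    intro y hy
    rw [Set.mem_singleton_iff] at hy
    rw [hy]; exact hab.symm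
  obtain ⟨w, hw, hw1⟩ := (Subgroup.bot_or_exists_ne_one _).resolve_left hne
  obtain ⟨hwP, hwQ⟩ := Subgroup.mem_inf.1 hw
  -- central elements
  have hcentral : ∀ R : Sylow p G, w ∈ (R : Subgroup G) →
      ∃ z : G, z ≠ 1 ∧ z ∈ (R : Subgroup G) ∧ ∀ r ∈ (R : Subgroup G), r * z = z * r := by
    intro R hwR
    have : Nontrivial (R : Subgroup G) := by
      refine (Subgroup.nontrivial_iff_ne_bot _).2 ?_
      intro h
      rw [h, Subgroup.mem_bot] at hwR
      exact hw1 hwR
    have hZnt := R.isPGroup'.center_nontrivial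
    obtain ⟨z, hz⟩ := exists_ne (1 : Subgroup.center (R : Subgroup G))
    refine ⟨((z : (R : Subgroup G)) : G), ?_, (z : (R : Subgroup G)).2, ?_⟩
    · intro h
      apply hz
      exact Subtype.ext (Subtype.ext h)
    · intro r hr
      have h1 := (Subgroup.mem_center_iff.1 z.2) ⟨r, hr⟩
      exact congrArg Subtype.val h1
  obtain ⟨z, hz1, hzP, hzc⟩ := hcentral P hwP
  obtain ⟨z', hz'1, hz'Q, hz'c⟩ := hcentral Q hwQ
  set L := Subgroup.centralizer ({z} : Set G) with hL
  have hPL : (P : Subgroup G) ≤ L := fun r hr => hmemC r z (hzc r hr)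
  -- z' ∈ C(z)
  have h1 : z' ∈ L := by
    apply mem_of_mem_normalizer_of_sylow_le P L hPL z' _ (Classical.choose_spec (orderOf_of_mem_isPGroup Q.isPGroup' hz'Q))
    apply hA w z hw1 (hzc w hwP)
    apply hmemC
    exact (hz'c w hwQ).symm
  have hQL : (Q : Subgroup G) ≤ L := by
    intro q hq
    apply mem_of_mem_normalizer_of_sylow_le P L hPL q _ (Classical.choose_spec (orderOf_of_mem_isPGroup Q.isPGroup' hq))
    apply hA z' z hz'1 (Subgroup.mem_centralizer_iff.1 h1 z rfl).symm
    exact hmemC q z' (hz'c q hq)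
  -- inside L
  have hconj : ∀ q : L, q ≠ 1 → ∀ g : L, (g * q * g⁻¹) * q = q * (g * q * g⁻¹) := by
    intro q hq g
    have hq' : (q : G) ≠ 1 := fun h => hq (Subtype.ext h)
    have hcz : z * (q : G) = (q : G) * z := by
      have := Subgroup.mem_centralizer_iff.1 q.2 z rfl
      exact this
    -- C(z) normalizes C(q)
    have hn := (hA z q hz1 hcz) g.2
    have hgq : (q : G) ∈ Subgroup.centralizer ({(q : G)} : Set G) := hmemC _ _ rfl
    have hmem := (Subgroup.mem_normalizer_iff.1 hn q).1 hgq
    have h2 := Subgroup.mem_centralizer_iff.1 hmem q rfl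
    apply Subtype.ext
    show ((g : G) * q * (g : G)⁻¹) * q = q * ((g : G) * q * (g : G)⁻¹)
    exact h2.symm
  have hall : ∀ q ∈ (Q : Subgroup G), q ∈ (P : Subgroup G) := by
    intro q hq
    by_cases hq1 : q = 1
    · rw [hq1]; exact Subgroup.one_mem _
    let P' : Sylow p L := P.subtype hPL
    obtain ⟨k, hk⟩ := orderOf_of_mem_isPGroup Q.isPGroup' hq
    have h2 := mem_sylow_of_commute_conj (⟨q, hQL hq⟩ : L) k (by rw [Subgroup.orderOf_mk, hk])
      (hconj _ (fun h => hq1 (congrArg Subtype.val h))) P'
    exact h2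
  apply hPQ
  apply Sylow.ext
  apply Q.is_maximal' P.isPGroup' 
  exact hall

end Cfsg.Agent.S4066
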