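import Cfsg.Statements.S4072
import Cfsg.Agent.Lib.H19.SelfNorm2

set_option autoImplicit false
open Cfsg

namespace Cfsg.Agent.S4072

/-- A finite group in which every non-abelian subgroup is self-normalizing is solvable or simple. -/
theorem result {G : Type*} [Group G] [Finite G] (hS : ∀ H : Subgroup G, ¬ IsMulCommutative H → Subgroup.normalizer (H : Set G) = H) :
    Group.IsSolvable G ∨ IsSimpleGroup G := by
  
  exact H19.SelfNorm.solvable_or_simple hS

end Cfsg.Agent.S4072
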