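import Cfsg.Statements.S4074
import Cfsg.Agent.Lib.H19.Lifts
import Mathlib

set_option autoImplicit false
open Cfsg

namespace Cfsg.Agent.S4074

open DihedralGroup

/-- A noncommutative subgroup contains a reflection. -/
theorem exists_sr_of_not_comm {n : ℕ} (H : Subgroup (DihedralGroup n)) (hH : ¬ IsMulCommutative H) :
    ∃ a : ZMod n, sr a ∈ H := by
  by_contra hno
  apply hH
  have hr : ∀ x : H, ∃ i : ZMod n, (x : DihedralGroup n) = r i := by
    rintro ⟨x, hx⟩
    cases x with
    | r i => exact ⟨i, rfl⟩
    | sr i => exact absurd ⟨i, hx⟩ hno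
  refine ⟨⟨fun a b => ?_⟩⟩
  obtain ⟨i, hi⟩ := hr a
  obtain ⟨j, hj⟩ := hr b
  apply Subtype.ext
  show (a : DihedralGroup n) * b = b * a
  rw [hi, hj, r_mul_r, r_mul_r, add_comm]

/-- Rotations normalizing a subgroup with a reflection: `r (2t) ∈ H`. -/
theorem r_two_mem {n : ℕ} (H : Subgroup (DihedralGroup n)) (a t : ZMod n) (ha : sr a ∈ H)
    (ht : r t ∈ Subgroup.normalizer (H : Set (DihedralGroup n))) : r (2 * t) ∈ H := by
  have h1 := (Subgroup.mem_normalizer_iff.1 ht (sr a)).1 ha
  have h2 : r t * sr a * (r t)⁻¹ = sr (a - t - t) := by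
    rw [inv_r, r_mul_sr, sr_mul_r]
    congr 1
    ring
  rw [h2] at h1
  have h3 := H.mul_mem h1 ha
  rw [sr_mul_sr] at h3
  have h4 : a - (a - t - t) = 2 * t := by ring
  rwa [h4] at h3

/-- Reduction from arbitrary elements to rotations. -/
theorem self_norm_of_rot {n : ℕ} (H : Subgroup (DihedralGroup n)) (a : ZMod n) (ha : sr a ∈ H)
    (hrot : ∀ t : ZMod n, r t ∈ Subgroup.normalizer (H : Set (DihedralGroup n)) → r t ∈ H) :
    Subgroup.normalizer (H : Set (DihedralGroup n)) = H := by
  apply le_antisymm
  · intro g hg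
    cases g with
    | r t => exact hrot t hg
    | sr j =>
      have h1 : sr j * sr a ∈ Subgroup.normalizer (H : Set (DihedralGroup n)) :=
        Subgroup.mul_mem _ hg (Subgroup.le_normalizer ha)
      rw [sr_mul_sr] at h1
      have h2 := hrot _ h1
      have h3 := H.mul_mem h2 (H.inv_mem ha)
      rw [inv_sr, r_mul_sr] at h3
      have h4 : a - (a - j) = j := by ring
      rwa [h4] at h3
  · exact Subgroup.le_normalizer

/-- The subgroup of even rotations and even reflections. -/
def evenSub (n : ℕ) : Subgroup (DihedralGroup n) where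
  carrier := {g | match g with
    | r i => ∃ k : ZMod n, i = 2 * k
    | sr i => ∃ k : ZMod n, i = 2 * k}
  one_mem' := ⟨0, by simp⟩
  mul_mem' := by
    rintro g h hg hh
    cases g with
    | r i =>
      cases h with
      | r j =>
        obtain ⟨k, rfl⟩ := hg
        obtain ⟨l, rfl⟩ := hh
        exact ⟨k + l, by ring⟩
      | sr j =>
        obtain ⟨k, rfl⟩ := hg
        obtain ⟨l, rfl⟩ := hh
        exact ⟨l - k, by ring⟩
    | sr i =>
      cases h with
      | r j =>
        obtain ⟨k, rfl⟩ := hg
        obtain ⟨l, rfl⟩ := hh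
        exact ⟨k + l, by ring⟩
      | sr j =>
        obtain ⟨k, rfl⟩ := hg
        obtain ⟨l, rfl⟩ := hh
        exact ⟨l - k, by ring⟩
  inv_mem' := by
    rintro g hg
    cases g with
    | r i =>
      obtain ⟨k, rfl⟩ := hg
      exact ⟨-k, by ring⟩
    | sr i => exact hg

/-- For `n > 2`, every non-abelian subgroup of the dihedral group of order `2n` is self-normalizing if and only if `n = 4` or `n` is odd. -/
theorem result (n : ℕ) (hn : 2 < n) :
    (∀ H : Subgroup (DihedralGroup n), ¬ IsMulCommutative H → Subgroup.normalizer (H : Set (DihedralGroup n)) = H) ↔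
    (n = 4 ∨ Odd n) := by
  classical
  have : NeZero n := ⟨by omega⟩
  constructor
  · intro h
    by_contra hcon
    have hn4 : n ≠ 4 := fun h4 => hcon (Or.inl h4)
    have heven : Even n := by
      rw [← Nat.not_odd_iff_even]
      exact fun h1 => hcon (Or.inr h1)
    obtain ⟨m, hm⟩ := heven
    have hn6 : 6 ≤ n := by omega
    have hnc : ¬ IsMulCommutative (evenSub n) := by
      intro hc
      have h1 : r (2 : ZMod n) ∈ evenSub n := ⟨1, by ring⟩
      have h2 : sr (0 : ZMod n) ∈ evenSub n := ⟨0, by ring⟩
      have h3 := hc.is_comm.comm ⟨_, h1⟩ ⟨_, h2⟩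
      have h4 : r (2 : ZMod n) * sr 0 = sr 0 * r 2 := congrArg Subtype.val h3
      rw [r_mul_sr, sr_mul_r] at h4
      have h5 : (0 : ZMod n) - 2 = 0 + 2 := by
        injection h4
      have h6 : ((4 : ℕ) : ZMod n) = 0 := by
        push_cast
        linear_combination -h5
      rw [ZMod.natCast_eq_zero_iff] at h6
      have := Nat.le_of_dvd (by norm_num) h6
      omega
    have hN := h _ hnc
    have hr1 : r (1 : ZMod n) ∈ Subgroup.normalizer ((evenSub n : Subgroup _) : Set (DihedralGroup n)) := by
      apply Cfsg.Agent.H19.mem_normalizer_of_conj_le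
      intro g hg
      cases g with
      | r i =>
        have e : r (1 : ZMod n) * r i * (r 1)⁻¹ = r i := by
          rw [inv_r, r_mul_r, r_mul_r]
          congr 1
          ring
        rw [e]
        exact hg
      | sr i =>
        have e : r (1 : ZMod n) * sr i * (r 1)⁻¹ = sr (i - 1 - 1) := by
          rw [inv_r, r_mul_sr, sr_mul_r]
          congr 1
          ring
        rw [e]
        obtain ⟨k, rfl⟩ := hg
        exact ⟨k - 1, by ring⟩
    rw [hN] at hr1
    obtain ⟨k, hk⟩ := hr1
    -- 1 = 2 k in ZMod n with n even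
    have hdvd : (2 : ℕ) ∣ n := ⟨m, by omega⟩
    have h7 := congrArg (ZMod.castHom hdvd (ZMod 2)) hk
    simp only [map_mul, map_one, map_ofNat] at h7
    revert h7
    generalize (ZMod.castHom hdvd (ZMod 2)) k = w
    revert w
    decide
  · rintro (rfl | hodd) H hH
    · -- n = 4
      have hcard : Nat.card (DihedralGroup 4) = 2 ^ 3 := by
        rw [DihedralGroup.nat_card]; norm_num
      have hdvd : Nat.card H ∣ 2 ^ 3 := hcard ▸ Subgroup.card_subgroup_dvd_card H
      obtain ⟨k, hk3, hk⟩ := (Nat.dvd_prime_pow Nat.prime_two).1 hdvd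
      have hF : Fact (Nat.Prime 2) := ⟨Nat.prime_two⟩
      have htop : H = ⊤ := by
        by_contra hne
        apply hH
        have hk2 : k ≤ 2 := by
          by_contra hk2
          have hk3' : k = 3 := by omega
          apply hne
          apply Subgroup.eq_top_of_card_eq
          rw [hk, hcard, hk3']
        interval_cases k
        · have : Subsingleton H := (Nat.card_eq_one_iff_unique.1 (by simpa using hk)).1
          exact ⟨⟨fun a b => Subsingleton.elim _ _⟩⟩
        · have : IsCyclic H := isCyclic_of_prime_card (p := 2) (by simpa using hk)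
          exact IsCyclic.isMulCommutative
        · exact IsPGroup.isMulCommutative_of_card_eq_prime_sq (p := 2) hk
      rw [htop]
      exact top_le_iff.1 Subgroup.le_normalizer
    · obtain ⟨a, ha⟩ := exists_sr_of_not_comm H hH
      refine self_norm_of_rot H a ha ?_
      intro t ht
      have h1 := r_two_mem H a t ha ht
      obtain ⟨m, hm⟩ := hodd
      have h2 := H.pow_mem h1 (m + 1)
      rw [r_pow] at h2
      have h3 : (2 * t * ((m + 1 : ℕ) : ZMod n)) = t := by
        have h4 : ((2 * m + 1 : ℕ) : ZMod n) = 0 := by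
          rw [← hm]; exact ZMod.natCast_self n
        push_cast at h4 ⊢
        linear_combination t * h4
      rwa [h3] at h2

end Cfsg.Agent.S4074
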