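import Cfsg.Statements.S4075
import Mathlib

set_option autoImplicit false
open Cfsg

namespace Cfsg.Agent.S4075

/-- Let G be a finite nilpotent group. Every non-abelian subgroup of G is self-normalizing if and only if G is abelian or G is a minimal non-abelian p-group for some prime p (non-abelian of prime-power order with every proper subgroup abelian). -/
theorem result {G : Type*} [Group G] [Finite G]
    [Group.IsNilpotent G] :
    (∀ H : Subgroup G, ¬ IsMulCommutative H → Subgroup.normalizer (H : Set G) = H) ↔
    (IsMulCommutative G ∨ (IsPrimePow (Nat.card G) ∧ ¬ IsMulCommutative G ∧ ∀ H : Subgroup G, H ≠ ⊤ → IsMulCommutative H)) := by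
  classical
  constructor
  · intro h
    by_cases hcomm : IsMulCommutative G
    · exact Or.inl hcomm
    right
    have hprop : ∀ H : Subgroup G, H ≠ ⊤ → IsMulCommutative H := by
      intro H hH
      by_contra hnc
      have hlt : H < ⊤ := lt_top_iff_ne_top.2 hH
      have h1 := Group.normalizerCondition_of_isNilpotent (G := G) H hlt
      rw [h H hnc] at h1
      exact lt_irrefl _ h1
    refine ⟨?_, hcomm, hprop⟩
    -- a prime power
    by_contra hnotpp
    apply hcomm
    have hall : ∀ (p : ℕ) (_ : Fact p.Prime) (P : Sylow p G), IsMulCommutative (P : Subgroup G) := by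
      intro p hp P
      apply hprop
      intro htop
      apply hnotpp
      have hcard : Nat.card G = Nat.card (P : Subgroup G) := by
        rw [htop]; exact (Subgroup.card_top).symm
      obtain ⟨k, hk⟩ := IsPGroup.iff_card.1 P.isPGroup'
      rw [hcard, hk]
      have hk0 : k ≠ 0 := by
        rintro rfl
        rw [pow_zero] at hk
        apply hcomm
        have hG1 : Nat.card G = 1 := by rw [hcard, hk]
        have : Subsingleton G := (Nat.card_eq_one_iff_unique.1 hG1).1
        exact ⟨⟨fun a b => Subsingleton.elim _ _⟩⟩
      exact ⟨p, k, hp.out.prime, Nat.pos_of_ne_zero hk0, rfl⟩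
    obtain ⟨e⟩ := (Group.isNilpotent_of_finite_tfae (G := G)).out 0 4 rfl rfl |>.1 inferInstance
    refine ⟨⟨fun a b => ?_⟩⟩
    apply e.symm.injective
    rw [map_mul, map_mul]
    funext p P
    have : Fact (p : ℕ).Prime := ⟨Nat.prime_of_mem_primeFactors p.2⟩
    have h2 := (hall p this P).is_comm.comm (e.symm a p P) (e.symm b p P)
    exact h2
  · rintro (hc | ⟨-, -, hp⟩) H hH
    · exfalso
      apply hH
      refine ⟨⟨fun a b => ?_⟩⟩
      apply Subtype.ext
      exact hc.is_comm.comm (a : G) b
    · have htop : H = ⊤ := by
        by_contra hne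
        exact hH (hp H hne)
      rw [htop]
      exact top_le_iff.1 Subgroup.le_normalizer

end Cfsg.Agent.S4075
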