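import Cfsg.Statements.S4080

set_option autoImplicit false
open Cfsg

namespace Cfsg.Agent.S4080

variable {R : Type*} [CommRing R]

/-- matrix action on pairs -/
def act4080 (M : Matrix (Fin 2) (Fin 2) R) (v : R × R) : R × R :=
  (M 0 0 * v.1 + M 0 1 * v.2, M 1 0 * v.1 + M 1 1 * v.2)

lemma act4080_mul (M M' : Matrix (Fin 2) (Fin 2) R) (v : R × R) :
    act4080 (M * M') v = act4080 M (act4080 M' v) := by
  ext <;> simp [act4080, Matrix.mul_apply, Fin.sum_univ_two] <;> ring

lemma act4080_one (v : R × R) : act4080 (1 : Matrix (Fin 2) (Fin 2) R) v = v := by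
  ext <;> simp [act4080]

lemma mat_eq_of_act4080 (M M' : Matrix (Fin 2) (Fin 2) R)
    (h : ∀ v, act4080 M v = act4080 M' v) : M = M' := by
  have h1 := h (1, 0)
  have h2 := h (0, 1)
  simp only [act4080, mul_one, mul_zero, add_zero, zero_add, Prod.mk.injEq] at h1 h2
  ext i j
  fin_cases i <;> fin_cases j
  · exact h1.1
  · exact h2.1
  · exact h1.2
  · exact h2.2

lemma sq_eq_zero_of_nilpotent {F : Type*} [Field F] (N : Matrix (Fin 2) (Fin 2) F)
    (hN : IsNilpotent N) : N * N = 0 := by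
  have h1 : N.trace = 0 := (Matrix.isNilpotent_trace_of_isNilpotent hN).eq_zero
  have h2 : N.det = 0 := by
    obtain ⟨k, hk⟩ := hN
    have h3 := Matrix.det_pow N k
    rw [hk] at h3
    have h4 : (0 : Matrix (Fin 2) (Fin 2) F).det = 0 := Matrix.det_zero
    rw [h4] at h3
    exact eq_zero_of_pow_eq_zero h3.symm
  rw [Matrix.trace_fin_two] at h1
  rw [Matrix.det_fin_two] at h2
  ext i j
  fin_cases i <;> fin_cases j <;>
    simp [Matrix.mul_apply, Fin.sum_univ_two]
  · linear_combination (N 0 0) * h1 - h2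
  · linear_combination (N 0 1) * h1
  · linear_combination (N 1 0) * h1
  · linear_combination (N 1 1) * h1 - h2

end Cfsg.Agent.S4080

namespace Cfsg.Agent.S4080

variable {p : ℕ} [Fact p.Prime]

lemma exists_mul_of_cast_eq_zero (y : ZMod (p ^ 2)) (hy : ZMod.castHom (dvd_pow_self p two_ne_zero) (ZMod p) y = 0) :
    ∃ z : ZMod (p ^ 2), y = (p : ZMod (p ^ 2)) * z := by
  haveI : NeZero (p ^ 2) := ⟨pow_ne_zero _ (Fact.out : p.Prime).ne_zero⟩
  have h : ((y.val : ℕ) : ZMod p) = 0 := by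
    have := hy
    rw [ZMod.castHom_apply, ZMod.cast_eq_val] at this
    exact this
  rw [ZMod.natCast_eq_zero_iff] at h
  obtain ⟨k, hk⟩ := h
  refine ⟨(k : ZMod (p ^ 2)), ?_⟩
  have := ZMod.natCast_zmod_val y
  rw [← this, hk]
  push_cast
  rfl

lemma exists_mul_of_p_mul_eq_zero (y : ZMod (p ^ 2)) (hy : (p : ZMod (p ^ 2)) * y = 0) :
    ∃ z : ZMod (p ^ 2), y = (p : ZMod (p ^ 2)) * z := by
  haveI : NeZero (p ^ 2) := ⟨pow_ne_zero _ (Fact.out : p.Prime).ne_zero⟩
  have hp0 := (Fact.out : p.Prime).pos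
  have h : ((p * y.val : ℕ) : ZMod (p ^ 2)) = 0 := by
    push_cast
    rw [ZMod.natCast_zmod_val]
    exact hy
  rw [ZMod.natCast_eq_zero_iff] at h
  have h' : p * p ∣ p * y.val := by rw [← pow_two]; exact h
  have h2 : p ∣ y.val := Nat.dvd_of_mul_dvd_mul_left hp0 h'
  obtain ⟨k, hk⟩ := h2
  refine ⟨(k : ZMod (p ^ 2)), ?_⟩
  have := ZMod.natCast_zmod_val y
  rw [← this, hk]
  push_cast
  rfl

lemma p_mul_p : (p : ZMod (p ^ 2)) * (p : ZMod (p ^ 2)) = 0 := by
  have : ((p * p : ℕ) : ZMod (p ^ 2)) = 0 := (ZMod.natCast_eq_zero_iff _ _).2 (by rw [pow_two])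
  rw [Nat.cast_mul] at this
  exact this

/-- Key algebraic statement. -/
lemma key (hp : 3 < p) (A : Matrix (Fin 2) (Fin 2) (ZMod (p ^ 2))) (hA : A ^ p = 1) :
    (p : ZMod (p ^ 2)) • (A - 1) = 0 := by
  set φ : ZMod (p ^ 2) →+* ZMod p := ZMod.castHom (dvd_pow_self p two_ne_zero) (ZMod p) with hφ
  set N := A - 1 with hN
  have hA' : A = 1 + N := by rw [hN]; abel
  -- reduction
  set Nb : Matrix (Fin 2) (Fin 2) (ZMod p) := N.map φ with hNb
  have hNbnil : IsNilpotent Nb := by
    refine ⟨p, ?_⟩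
    have h1 : Nb = A.map φ - 1 := by
      rw [hNb, hN]
      ext i j
      simp [Matrix.map_apply, Matrix.sub_apply, Matrix.one_apply]
    rw [h1, sub_pow_expChar_of_commute p (Commute.one_right _), one_pow, sub_eq_zero]
    have : (A.map φ) ^ p = (A ^ p).map φ := by
      have := map_pow (RingHom.mapMatrix φ : Matrix (Fin 2) (Fin 2) _ →+* _) A p
      simpa using this.symm
    rw [this, hA]
    ext i j
    simp [Matrix.one_apply]
  have hNb2 := sq_eq_zero_of_nilpotent Nb hNbnil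
  -- N*N = p • M
  have hex : ∃ M : Matrix (Fin 2) (Fin 2) (ZMod (p ^ 2)), N * N = (p : ZMod (p ^ 2)) • M := by
    have hent : ∀ i j, ∃ z, (N * N) i j = (p : ZMod (p ^ 2)) * z := by
      intro i j
      apply exists_mul_of_cast_eq_zero
      have : (Nb * Nb) i j = 0 := by rw [hNb2]; rfl
      rw [← this, hNb]
      rw [Matrix.mul_apply, Matrix.mul_apply, map_sum]
      simp [Matrix.map_apply, map_mul]
      rfl
    choose z hz using hent
    refine ⟨Matrix.of z, ?_⟩
    ext i j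
    rw [hz]
    simp
  obtain ⟨M, hM⟩ := hex
  -- p • N² = 0
  have hpN2 : (p : ZMod (p ^ 2)) • (N * N) = 0 := by
    rw [hM, smul_smul, p_mul_p, zero_smul]
  have hN4 : N ^ 4 = 0 := by
    have : N ^ 4 = (N * N) * (N * N) := by
      rw [show (4 : ℕ) = 2 + 2 from rfl, pow_add, pow_two N]
    rw [this]
    rw [hM, smul_mul_assoc, mul_smul_comm, smul_smul, p_mul_p, zero_smul]
  -- binomial
  have hbin : (N + 1) ^ p = ∑ m ∈ Finset.range (p + 1), N ^ m * 1 ^ (p - m) * (p.choose m : Matrix (Fin 2) (Fin 2) (ZMod (p ^ 2))) :=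
    (Commute.one_right N).add_pow p
  have hsum : ∑ m ∈ Finset.range (p + 1), N ^ m * 1 ^ (p - m) * (p.choose m : Matrix (Fin 2) (Fin 2) (ZMod (p ^ 2))) =
      ∑ m ∈ ({0, 1} : Finset ℕ), N ^ m * 1 ^ (p - m) * (p.choose m : Matrix (Fin 2) (Fin 2) (ZMod (p ^ 2))) := by
    symm
    apply Finset.sum_subset
    · intro m hm
      simp only [Finset.mem_insert, Finset.mem_singleton] at hm
      simp only [Finset.mem_range]
      omega
    · intro m hm hm'
      simp only [Finset.mem_insert, Finset.mem_singleton, not_or] at hm'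
      simp only [Finset.mem_range] at hm
      have hm2 : 2 ≤ m := by omega
      rcases Nat.lt_or_ge m p with hlt | hge
      · have hd : p ∣ p.choose m :=
          (Fact.out : p.Prime).dvd_choose_self (by omega) hlt
        obtain ⟨c, hc⟩ := hd
        obtain ⟨k, rfl⟩ : ∃ k, m = k + 2 := ⟨m - 2, by omega⟩
        rw [hc, one_pow, mul_one]
        have : N ^ (k + 2) * (((p * c : ℕ) : Matrix (Fin 2) (Fin 2) (ZMod (p ^ 2)))) =
            (N ^ k * (c : ZMod (p^2)) • ((p : ZMod (p ^ 2)) • (N * N))) := by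
          have e1 : ((p * c : ℕ) : Matrix (Fin 2) (Fin 2) (ZMod (p ^ 2))) = ((p * c : ℕ) : ZMod (p^2)) • 1 := by
            rw [← Nat.smul_one_eq_cast, ← Nat.smul_one_eq_cast (R := ZMod (p^2)), smul_assoc, one_smul]
          rw [e1, pow_add, pow_two N, mul_smul_comm, mul_one, mul_smul_comm, mul_smul_comm, smul_smul, Nat.cast_mul, mul_comm]
        rw [this, hpN2]
        simp
      · have hmp : m = p := by omega
        subst hmp
        obtain ⟨k, rfl⟩ : ∃ k, m = k + 4 := ⟨m - 4, by omega⟩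
        rw [pow_add, hN4]
        simp
  have hone : (N + 1) ^ p = 1 := by
    rw [add_comm, ← hA', hA]
  rw [hsum] at hbin
  rw [hone, Finset.sum_pair (by norm_num)] at hbin
  simp only [pow_zero, one_pow, mul_one, Nat.choose_zero_right, Nat.cast_one, pow_one, Nat.choose_one_right] at hbin
  have e2 : (p : ZMod (p ^ 2)) • N = N * (p : Matrix (Fin 2) (Fin 2) (ZMod (p ^ 2))) := by
    have e1 : ((p : ℕ) : Matrix (Fin 2) (Fin 2) (ZMod (p ^ 2))) = ((p : ℕ) : ZMod (p^2)) • 1 := by
      rw [← Nat.smul_one_eq_cast, ← Nat.smul_one_eq_cast (R := ZMod (p^2)), smul_assoc, one_smul]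
    rw [e1, mul_smul_comm, mul_one]
  rw [e2]
  have : (1 : Matrix (Fin 2) (Fin 2) (ZMod (p ^ 2))) + N * (p : Matrix (Fin 2) (Fin 2) (ZMod (p ^ 2))) = 1 + 0 := by
    rw [add_zero]; exact hbin.symm
  exact add_left_cancel this

/-- Recover a matrix from an additive map. -/
lemma exists_matrix (a : MulAut (Multiplicative (ZMod (p ^ 2) × ZMod (p ^ 2)))) :
    ∃ A : Matrix (Fin 2) (Fin 2) (ZMod (p ^ 2)), ∀ v : ZMod (p ^ 2) × ZMod (p ^ 2),
      (a (Multiplicative.ofAdd v)).toAdd = act4080 A v := by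
  haveI : NeZero (p ^ 2) := ⟨pow_ne_zero _ (Fact.out : p.Prime).ne_zero⟩
  let f : ZMod (p ^ 2) × ZMod (p ^ 2) →+ ZMod (p ^ 2) × ZMod (p ^ 2) :=
    AddMonoidHom.toMultiplicative.symm a.toMonoidHom
  have hf : ∀ v, (a (Multiplicative.ofAdd v)).toAdd = f v := fun v => rfl
  refine ⟨!![(f (1, 0)).1, (f (0, 1)).1; (f (1, 0)).2, (f (0, 1)).2], ?_⟩
  intro v
  rw [hf]
  have hv : v = v.1.val • ((1 : ZMod (p ^ 2)), (0 : ZMod (p ^ 2))) + v.2.val • ((0 : ZMod (p ^ 2)), (1 : ZMod (p ^ 2))) := by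
    ext <;> simp
  have h2 : f v = v.1.val • f (1, 0) + v.2.val • f (0, 1) := by
    conv_lhs => rw [hv]
    rw [map_add, map_nsmul, map_nsmul]
  rw [h2]
  ext
  · simp [act4080]; ring
  · simp [act4080]; ring

/-- Let p > 3 be a prime and L the direct product of two cyclic groups of order p². Every automorphism of L of order p fixes every element of order p of L. -/
theorem result {p : ℕ} [Fact p.Prime] (hp : 3 < p)
    (a : MulAut (Multiplicative (ZMod (p ^ 2) × ZMod (p ^ 2)))) (ha : orderOf a = p)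
    (x : Multiplicative (ZMod (p ^ 2) × ZMod (p ^ 2))) (hx : orderOf x = p) : a x = x := by
  obtain ⟨A, hA⟩ := exists_matrix a
  have hpow : ∀ k : ℕ, ∀ v, ((a ^ k) (Multiplicative.ofAdd v)).toAdd = act4080 (A ^ k) v := by
    intro k
    induction k with
    | zero => intro v; simp [act4080_one]
    | succ k ih =>
      intro v
      rw [pow_succ a k, MulAut.mul_apply, pow_succ A k, act4080_mul, ← hA v, ← ih]
      rfl
  have hAp : A ^ p = 1 := by
    apply mat_eq_of_act4080
    intro v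
    rw [← hpow, act4080_one]
    have : a ^ p = 1 := orderOf_dvd_iff_pow_eq_one.1 (dvd_of_eq ha)
    rw [this]
    rfl
  have hk := key hp A hAp
  -- x = p y
  have hxp : x ^ p = 1 := orderOf_dvd_iff_pow_eq_one.1 (dvd_of_eq hx)
  set v := x.toAdd with hv
  have hv0 : p • v = 0 := by
    have : (x ^ p).toAdd = p • v := rfl
    rw [← this, hxp]; rfl
  have h1 : (p : ZMod (p ^ 2)) * v.1 = 0 := by
    have := congrArg Prod.fst hv0
    simpa [nsmul_eq_mul] using this
  have h2 : (p : ZMod (p ^ 2)) * v.2 = 0 := by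
    have := congrArg Prod.snd hv0
    simpa [nsmul_eq_mul] using this
  obtain ⟨y1, hy1⟩ := exists_mul_of_p_mul_eq_zero v.1 h1
  obtain ⟨y2, hy2⟩ := exists_mul_of_p_mul_eq_zero v.2 h2
  have hxeq : x = Multiplicative.ofAdd v := rfl
  rw [hxeq]
  apply Multiplicative.toAdd.injective
  rw [hA v]
  have hent : ∀ i j, (p : ZMod (p ^ 2)) * (A i j - (1 : Matrix (Fin 2) (Fin 2) (ZMod (p ^ 2))) i j) = 0 := by
    intro i j
    have := congrFun (congrFun hk i) j
    simpa using this
  have e00 := hent 0 0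
  have e01 := hent 0 1
  have e10 := hent 1 0
  have e11 := hent 1 1
  simp only [Matrix.one_apply_eq, ne_eq, zero_ne_one, not_false_eq_true, Matrix.one_apply_ne, one_ne_zero, sub_zero] at e00 e01 e10 e11
  ext
  · show A 0 0 * v.1 + A 0 1 * v.2 = v.1
    rw [hy1, hy2]
    linear_combination y1 * e00 + y2 * e01
  · show A 1 0 * v.1 + A 1 1 * v.2 = v.2
    rw [hy1, hy2]
    linear_combination y1 * e10 + y2 * e11

end Cfsg.Agent.S4080
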