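import Cfsg.Statements.S4084
import Mathlib

set_option autoImplicit false
open Cfsg

namespace Cfsg.Agent.S4084

/-- The double centralizer of `x`. -/
def dc {G : Type*} [Group G] (x : G) : Subgroup G :=
  Subgroup.centralizer (Subgroup.centralizer ({x} : Set G) : Set G)

theorem mem_dc {G : Type*} [Group G] (x y : G) :
    y ∈ dc x ↔ ∀ w : G, Commute w x → Commute w y := by
  unfold dc
  rw [Subgroup.mem_centralizer_iff]
  constructor
  · intro h w hw
    have h1 : w ∈ Subgroup.centralizer ({x} : Set G) := by
      rw [Subgroup.mem_centralizer_iff]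
      intro z hz
      rw [Set.mem_singleton_iff] at hz
      rw [hz]
      exact hw.eq.symm
    exact h w h1
  · intro h w hw
    apply h
    have := Subgroup.mem_centralizer_iff.1 hw x rfl
    exact this.symm

theorem dc_comm {G : Type*} [Group G] (x a b : G) (ha : a ∈ dc x) (hb : b ∈ dc x) : Commute a b := by
  rw [mem_dc] at ha hb
  have h1 : Commute b x := (hb x (Commute.refl x)).symm
  exact (ha b h1).symm

theorem exists_iff {G : Type*} [Group G] [Finite G] {p q : ℕ} (hp : p.Prime) (hq : q.Prime) (hpq : p ≠ q) :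
    (∃ g : G, orderOf g = p * q) ↔ ∃ x : G, p * q ∣ Nat.card (dc x) := by
  constructor
  · rintro ⟨g, hg⟩
    refine ⟨g, ?_⟩
    have hgm : g ∈ dc g := by
      rw [mem_dc]
      exact fun w hw => hw
    rw [← hg, ← Subgroup.orderOf_mk g hgm]
    exact orderOf_dvd_natCard _
  · rintro ⟨x, hx⟩
    have : Fact p.Prime := ⟨hp⟩
    have : Fact q.Prime := ⟨hq⟩
    obtain ⟨a, ha⟩ := exists_prime_orderOf_dvd_card' (G := dc x) p ((Dvd.intro _ rfl).trans hx)
    obtain ⟨b, hb⟩ := exists_prime_orderOf_dvd_card' (G := dc x) q ((Dvd.intro_left _ rfl).trans hx)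
    refine ⟨(a : G) * b, ?_⟩
    have hc : Commute (a : G) b := dc_comm x a b a.2 b.2
    rw [hc.orderOf_mul_eq_mul_orderOf_of_coprime, Subgroup.orderOf_coe, Subgroup.orderOf_coe, ha, hb]
    rw [Subgroup.orderOf_coe, Subgroup.orderOf_coe, ha, hb]
    exact (Nat.coprime_primes hp hq).2 hpq

/-- Let G and H be finite groups whose commuting graphs are isomorphic: there is a bijection e : G → H with x, y commuting exactly when e(x), e(y) commute. Then G and H have the same prime graph: for distinct primes p, q, G has an element of order pq if and only if H does (and #G = #H, so the prime divisors agree). -/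
theorem result {G H : Type*} [Group G] [Finite G] [Group H] [Finite H] (e : G ≃ H)
    (he : ∀ x y : G, Commute x y ↔ Commute (e x) (e y))
    {p q : ℕ} (hp : p.Prime) (hq : q.Prime) (hpq : p ≠ q) :
    (∃ g : G, orderOf g = p * q) ↔ (∃ h : H, orderOf h = p * q) := by
  rw [exists_iff hp hq hpq, exists_iff hp hq hpq]
  have hcard : ∀ x : G, Nat.card (dc x) = Nat.card (dc (e x)) := by
    intro x
    apply Nat.card_congr
    refine e.subtypeEquiv ?_
    intro y
    rw [mem_dc, mem_dc]
    constructor
    · intro h w hw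
      obtain ⟨w', rfl⟩ := e.surjective w
      exact (he _ _).1 (h w' ((he _ _).2 hw))
    · intro h w hw
      exact (he _ _).2 (h (e w) ((he _ _).1 hw))
  constructor
  · rintro ⟨x, hx⟩
    exact ⟨e x, hcard x ▸ hx⟩
  · rintro ⟨y, hy⟩
    obtain ⟨x, rfl⟩ := e.surjective y
    exact ⟨x, (hcard x).symm ▸ hy⟩

end Cfsg.Agent.S4084
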