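import Cfsg.Statements.S4086
import Mathlib

set_option autoImplicit false
open Cfsg

namespace Cfsg.Agent.S4086

theorem mem_zpowers_of_pow_eq_one {C : Type*} [Group C] [Finite C] [IsCyclic C] (x y : C)
    (h : x ^ orderOf y = 1) : x ∈ Subgroup.zpowers y := by
  classical
  have : Fintype C := Fintype.ofFinite C
  set n := orderOf y with hn
  have hnpos : 0 < n := orderOf_pos y
  have h1 := IsCyclic.card_pow_eq_one_le (α := C) hnpos
  let S : Set C := {z | z ^ n = 1}
  have hsub : ((Subgroup.zpowers y : Subgroup C) : Set C) ⊆ S := by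
    rintro _ ⟨k, rfl⟩
    show (y ^ k) ^ n = 1
    rw [← zpow_natCast, ← zpow_mul, mul_comm, zpow_mul, zpow_natCast, hn, pow_orderOf_eq_one]
    simp
  have hScard : S.ncard ≤ n := by
    have e : S = ↑(Finset.univ.filter (fun z : C => z ^ n = 1)) := by
      ext z; simp [S]
    rw [e, Set.ncard_coe_finset]
    exact h1
  have hcard : ((Subgroup.zpowers y : Subgroup C) : Set C).ncard = n := by
    rw [← Nat.card_coe_set_eq]
    exact Nat.card_zpowers y
  have heq := Set.eq_of_subset_of_ncard_le hsub (by rw [hcard]; exact hScard) (Set.toFinite _)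
  have hxS : x ∈ S := h
  rw [← heq] at hxS
  exact hxS

/-- For a finite group G the following are equivalent: every non-identity element has prime-power order; whenever two elements generate a cyclic subgroup, one of them is a power of the other (the enhanced power graph of G coincides with its power graph). -/
theorem result {G : Type*} [Group G] [Finite G] :
    (∀ g : G, g ≠ 1 → IsPrimePow (orderOf g)) ↔
    (∀ x y : G, IsCyclic ↥(Subgroup.closure ({x, y} : Set G)) → (x ∈ Subgroup.zpowers y ∨ y ∈ Subgroup.zpowers x)) := by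
  classical
  constructor
  · intro h x y hcyc
    set D := Subgroup.closure ({x, y} : Set G) with hD
    have hxD : x ∈ D := Subgroup.subset_closure (by simp)
    have hyD : y ∈ D := Subgroup.subset_closure (by simp)
    let x' : D := ⟨x, hxD⟩
    let y' : D := ⟨y, hyD⟩
    have hcoe : ∀ (u v : D), u ∈ Subgroup.zpowers v → (u : G) ∈ Subgroup.zpowers (v : G) := by
      rintro u v ⟨k, rfl⟩
      exact ⟨k, by simp⟩
    -- generator
    obtain ⟨g, hg⟩ := IsCyclic.exists_generator (α := D)
    by_cases hg1 : (g : G) = 1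
    · left
      have hg1' : g = 1 := Subtype.ext hg1
      obtain ⟨k, hk⟩ := hg x'
      have hx1 : x' = 1 := by
        rw [← hk, hg1']; simp
      have : x = 1 := congrArg Subtype.val hx1
      rw [this]; exact Subgroup.one_mem _
    obtain ⟨p, k, hp, -, hpk⟩ := h _ hg1
    have hp' := hp.nat_prime
    have hord : ∀ u : D, ∃ j, orderOf u = p ^ j := by
      intro u
      have h1 : orderOf u ∣ orderOf g := orderOf_dvd_of_mem_zpowers (hg u)
      rw [Subgroup.orderOf_coe] at hpk
      rw [← hpk] at h1
      obtain ⟨j, -, hj⟩ := (Nat.dvd_prime_pow hp').1 h1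
      exact ⟨j, hj⟩
    obtain ⟨a, ha⟩ := hord x'
    obtain ⟨b, hb⟩ := hord y'
    rcases le_total a b with hab | hab
    · left
      apply hcoe x' y'
      apply mem_zpowers_of_pow_eq_one
      rw [hb]
      obtain ⟨c, rfl⟩ := Nat.exists_eq_add_of_le hab
      rw [pow_add, pow_mul, ← ha, pow_orderOf_eq_one, one_pow]
    · right
      apply hcoe y' x'
      apply mem_zpowers_of_pow_eq_one
      rw [ha]
      obtain ⟨c, rfl⟩ := Nat.exists_eq_add_of_le hab
      rw [pow_add, pow_mul, ← hb, pow_orderOf_eq_one, one_pow]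
  · intro h g hg
    rw [isPrimePow_iff_unique_prime_dvd]
    have hn1 : orderOf g ≠ 1 := by
      rwa [Ne, orderOf_eq_one_iff]
    obtain ⟨p, hp, hpd⟩ := Nat.exists_prime_and_dvd hn1
    refine ⟨p, ⟨hp, hpd⟩, ?_⟩
    rintro q ⟨hq, hqd⟩
    by_contra hqp
    -- elements of order p and q
    have hord : ∀ r : ℕ, r.Prime → r ∣ orderOf g → orderOf (g ^ (orderOf g / r)) = r := by
      intro r hr hrd
      rw [orderOf_pow_of_dvd (Nat.div_ne_zero_iff.2 ⟨hr.ne_zero, Nat.le_of_dvd (orderOf_pos g) hrd⟩ |> fun h => h) (Nat.div_dvd_of_dvd hrd)]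
      exact Nat.div_div_self hrd (orderOf_pos g).ne'
    set x := g ^ (orderOf g / p) with hx
    set y := g ^ (orderOf g / q) with hy
    have hDle : Subgroup.closure ({x, y} : Set G) ≤ Subgroup.zpowers g := by
      rw [Subgroup.closure_le]
      intro z hz
      rcases hz with rfl | rfl
      · exact Subgroup.npow_mem_zpowers g _
      · exact Subgroup.npow_mem_zpowers g _
    have hcyc : IsCyclic (Subgroup.closure ({x, y} : Set G)) :=
      isCyclic_of_injective (Subgroup.inclusion hDle) (Subgroup.inclusion_injective hDle)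
    rcases h x y hcyc with h1 | h1
    · have h2 := orderOf_dvd_of_mem_zpowers h1
      rw [hx, hy, hord p hp hpd, hord q hq hqd] at h2
      exact hqp ((Nat.prime_dvd_prime_iff_eq hp hq).1 h2).symm
    · have h2 := orderOf_dvd_of_mem_zpowers h1
      rw [hx, hy, hord p hp hpd, hord q hq hqd] at h2
      exact hqp ((Nat.prime_dvd_prime_iff_eq hq hp).1 h2)

end Cfsg.Agent.S4086
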