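import Cfsg.Statements.S4088
import Cfsg.Agent.Lib.H19.Subnorm3

set_option autoImplicit false
open Cfsg

namespace Cfsg.Agent.S4088

/-- Let G be a finite group, p a prime dividing the order of G, H a p-subgroup of G and P a Sylow p-subgroup of G. Call the subnormalizer of H the set of elements g of G such that H is subnormal in the subgroup generated by H and g. Then the number of elements of the subnormalizer of H equals the number of Sylow p-subgroups of G containing H times the order of N_G(P), and also equals the number of conjugates of H contained in P times the order of N_G(H). -/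
theorem result {G : Type*} [Group G] [Finite G] (p : ℕ) [Fact p.Prime]
    (hp : p ∣ Nat.card G) (H : Subgroup G) (hH : IsPGroup p H) (P : Sylow p G) :
    Nat.card {g : G // ((H).subgroupOf (H ⊔ Subgroup.zpowers g)).IsSubnormal} =
        Nat.card {Q : Sylow p G // H ≤ (Q : Subgroup G)} * Nat.card (Subgroup.normalizer ((P : Subgroup G) : Set G)) ∧
    Nat.card {g : G // ((H).subgroupOf (H ⊔ Subgroup.zpowers g)).IsSubnormal} =
        Nat.card {K : Subgroup G // K ≤ (P : Subgroup G) ∧ ∃ g : G, K = H.map (MulAut.conj g).toMonoidHom} *
          Nat.card (Subgroup.normalizer (H : Set G)) := by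
  
  classical
  have h0 : Nat.card {g : G // ((H).subgroupOf (H ⊔ Subgroup.zpowers g)).IsSubnormal} =
      Nat.card {g : G // Cfsg.Agent.H19.Sn p H g} := by
    apply Nat.card_congr
    apply Equiv.subtypeEquivRight
    intro g
    exact Cfsg.Agent.H19.subnormal_iff_exists H hH g
  have hmain := Cfsg.Agent.H19.count_main p _ G rfl H hH
  unfold Cfsg.Agent.H19.CountStmt at hmain
  have hn : Nat.card (Sylow p G) = (Subgroup.normalizer ((P : Subgroup G) : Set G)).index :=
    P.card_eq_index_normalizer
  have hc := (Subgroup.normalizer ((P : Subgroup G) : Set G)).card_mul_index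
  have hpos : 0 < Nat.card (Sylow p G) := Nat.card_pos
  have h1 : Nat.card {g : G // Cfsg.Agent.H19.Sn p H g} =
      Nat.card {Q : Sylow p G // H ≤ (Q : Subgroup G)} *
        Nat.card (Subgroup.normalizer ((P : Subgroup G) : Set G)) := by
    have h2 : Nat.card {g : G // Cfsg.Agent.H19.Sn p H g} * Nat.card (Sylow p G) =
        Nat.card {Q : Sylow p G // H ≤ (Q : Subgroup G)} * Nat.card G := by
      exact_mod_cast hmain
    rw [← hc, ← hn] at h2
    apply Nat.eq_of_mul_eq_mul_right hpos
    rw [h2]
    ring
  rw [h0]
  refine ⟨h1, ?_⟩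
  rw [h1, ← Cfsg.Agent.H19.card_conj_in_sylow H P, Cfsg.Agent.H19.card_conj_in_sylow' H P]

end Cfsg.Agent.S4088
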