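import Cfsg.Statements.S4089
import Cfsg.Agent.Lib.H19.Subnorm

set_option autoImplicit false
open Cfsg

namespace Cfsg.Agent.S4089

/-- Let G be a finite group, p a prime and H a p-subgroup of G. Then the set of elements g of G such that H is subnormal in the subgroup generated by H and g is the union of the normalizers N_G(R) over the subgroups R of G containing H with R = O_p(N_G(R)); and this set does not change when H is replaced by the intersection of all Sylow p-subgroups of G containing H. -/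
theorem result {G : Type*} [Group G] [Finite G] (p : ℕ) [Fact p.Prime]
    (H : Subgroup G) (hH : IsPGroup p H) :
    {g : G | ((H).subgroupOf (H ⊔ Subgroup.zpowers g)).IsSubnormal} =
      {g : G | ∃ R : Subgroup G, H ≤ R ∧ (Cfsg.pCore p (Subgroup.normalizer (R : Set G))).map (Subgroup.normalizer (R : Set G)).subtype = R ∧ g ∈ Subgroup.normalizer (R : Set G)} ∧
    ∀ g : G, (((H).subgroupOf (H ⊔ Subgroup.zpowers g)).IsSubnormal ↔
      (((sInf {K : Subgroup G | ∃ Q : Sylow p G, H ≤ (Q : Subgroup G) ∧ K = (Q : Subgroup G)})).subgroupOf ((sInf {K : Subgroup G | ∃ Q : Sylow p G, H ≤ (Q : Subgroup G) ∧ K = (Q : Subgroup G)}) ⊔ Subgroup.zpowers g)).IsSubnormal) := by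
  
  classical
  constructor
  · ext g
    simp only [Set.mem_setOf_eq]
    constructor
    · intro hg
      exact Cfsg.Agent.H19.exists_pCore_fixed H g ((Cfsg.Agent.H19.subnormal_iff_exists H hH g).mp hg)
    · rintro ⟨R, hHR, hR, hg⟩
      refine (Cfsg.Agent.H19.subnormal_iff_exists H hH g).mpr ⟨R, ?_, hHR, hg⟩
      rw [← hR]
      exact (Cfsg.Agent.H01.pCore_isPGroup (G := Subgroup.normalizer (R : Set G)) p).map _
  · intro g
    set I : Subgroup G := sInf {K : Subgroup G | ∃ Q : Sylow p G, H ≤ (Q : Subgroup G) ∧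
      K = (Q : Subgroup G)} with hI
    have hIp : IsPGroup p I := Cfsg.Agent.H19.sInf_sylow_isPGroup H hH
    have hHI : H ≤ I := by
      rw [hI]
      apply le_sInf
      rintro K ⟨Q, hQ, rfl⟩
      exact hQ
    rw [Cfsg.Agent.H19.subnormal_iff_exists H hH g, Cfsg.Agent.H19.subnormal_iff_exists I hIp g]
    constructor
    · rintro ⟨R, hR, hHR, hg⟩
      refine ⟨sInf {K : Subgroup G | ∃ Q : Sylow p G, R ≤ (Q : Subgroup G) ∧
        K = (Q : Subgroup G)}, Cfsg.Agent.H19.sInf_sylow_isPGroup R hR, ?_,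
        Cfsg.Agent.H19.mem_normalizer_sInf_sylow R g hg⟩
      rw [hI]
      apply le_sInf
      rintro K ⟨Q, hQ, rfl⟩
      exact sInf_le ⟨Q, le_trans hHR hQ, rfl⟩
    · rintro ⟨R, hR, hIR, hg⟩
      exact ⟨R, hR, le_trans hHI hIR, hg⟩

end Cfsg.Agent.S4089
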