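import Cfsg.Statements.S4090
import Cfsg.Agent.Lib.H19.Subnorm4

set_option autoImplicit false
open scoped BigOperators
open Cfsg

namespace Cfsg.Agent.S4090

/-- Let G be a finite p-solvable group, H a p-subgroup of G and P a Sylow p-subgroup, and fix a chain of normal subgroups 1 = M₀ ≤ M₁ ≤ ⋯ ≤ Mₙ = G of G each of whose factors is a p-group or a p'-group. Then the number of elements g of G such that H is subnormal in the subgroup generated by H and g equals the order of P times the product, over the factors Mᵢ₊₁/Mᵢ of order prime to p, of the order of the centralizer of H in Mᵢ₊₁/Mᵢ (counted as the number of u ∈ Mᵢ₊₁ with [h, u] ∈ Mᵢ for all h ∈ H, divided by the order of Mᵢ). -/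
theorem result {G : Type*} [Group G] [Finite G] (p : ℕ) [Fact p.Prime]
    (hG : Cfsg.IsPSolvable p G) (H : Subgroup G) (hH : IsPGroup p H) (P : Sylow p G)
    (n : ℕ) (M : Fin (n + 1) → Subgroup G) (h0 : M 0 = ⊥) (hn : M (Fin.last n) = ⊤) (hmono : Monotone M)
    (hnormal : ∀ i, (M i).Normal)
    (hfac : ∀ i : Fin n, (∃ m : ℕ, (M i.castSucc).relIndex (M i.succ) = p ^ m) ∨ ((M i.castSucc).relIndex (M i.succ)).Coprime p) :
    Nat.card {g : G // ((H).subgroupOf (H ⊔ Subgroup.zpowers g)).IsSubnormal} =
      Nat.card (P : Subgroup G) *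
        ∏ i : Fin n, (if ((M i.castSucc).relIndex (M i.succ)).Coprime p then
          Nat.card {u : G // u ∈ M i.succ ∧ ∀ h ∈ H, h * u * h⁻¹ * u⁻¹ ∈ M i.castSucc} / Nat.card (M i.castSucc)
          else 1) := by
  
  classical
  have hS0 : Nat.card {g : G // ((H).subgroupOf (H ⊔ Subgroup.zpowers g)).IsSubnormal} =
      Nat.card {g : G // Cfsg.Agent.H19.Sn p H g} := by
    apply Nat.card_congr
    apply Equiv.subtypeEquivRight
    intro g
    exact Cfsg.Agent.H19.subnormal_iff_exists H hH g
  have hmain := Cfsg.Agent.H19.count_main p _ G rfl H hH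
  unfold Cfsg.Agent.H19.CountStmt at hmain
  have hNP : Nat.card (Sylow p G) = (Subgroup.normalizer ((P : Subgroup G) : Set G)).index :=
    P.card_eq_index_normalizer
  have hc := (Subgroup.normalizer ((P : Subgroup G) : Set G)).card_mul_index
  have hpos : 0 < Nat.card (Sylow p G) := Nat.card_pos
  have h1 : Nat.card {g : G // Cfsg.Agent.H19.Sn p H g} =
      Nat.card {Q : Sylow p G // H ≤ (Q : Subgroup G)} *
        Nat.card (Subgroup.normalizer ((P : Subgroup G) : Set G)) := by
    have h2 : Nat.card {g : G // Cfsg.Agent.H19.Sn p H g} * Nat.card (Sylow p G) =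
        Nat.card {Q : Sylow p G // H ≤ (Q : Subgroup G)} * Nat.card G := by
      exact_mod_cast hmain
    rw [← hc, ← hNP] at h2
    apply Nat.eq_of_mul_eq_mul_right hpos
    rw [h2]
    ring
  rw [hS0, h1, ← Cfsg.Agent.H19.card_conj_in_sylow H P]
  obtain ⟨a, A, hA, hcard, hcount⟩ := Cfsg.Agent.H19.chain_count P H hH n M hmono hnormal hfac
  rw [h0, hn] at hcount hcard
  have hbot : Nat.card (⊥ : Subgroup G) = 1 := Nat.card_unique
  have htop : Nat.card (⊤ : Subgroup G) = Nat.card G := Nat.card_congr Subgroup.topEquiv.toEquiv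
  rw [hbot, htop, one_mul] at hcard
  have hc0 : Cfsg.Agent.H19.cCount P H ⊥ =
      Nat.card {x : G // H.map (MulAut.conj x).toMonoidHom ≤ (P : Subgroup G)} := by
    unfold Cfsg.Agent.H19.cCount
    rw [sup_bot_eq]
  have hcl : Cfsg.Agent.H19.cCount P H ⊤ = Nat.card G := by
    unfold Cfsg.Agent.H19.cCount
    rw [sup_top_eq]
    simp [Nat.card_congr (Equiv.subtypeUnivEquiv (fun _ => le_top))]
  rw [hc0, hcl] at hcount
  have hPcard : Nat.card (P : Subgroup G) = p ^ a := by
    rw [P.card_eq_multiplicity, hcard]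
    congr 1
    have hp' := (Fact.out : p.Prime)
    have hA0 : A ≠ 0 := by
      rintro rfl
      rw [Nat.coprime_zero_left] at hA
      exact hp'.one_lt.ne' hA
    rw [Nat.factorization_mul (pow_ne_zero _ hp'.ne_zero) hA0]
    simp only [Finsupp.coe_add, Pi.add_apply]
    rw [hp'.factorization_pow, Nat.factorization_eq_zero_of_not_dvd
      (fun h => hp'.one_lt.ne' (Nat.Coprime.eq_one_of_dvd hA.symm h))]
    simp
  rw [hPcard]
  have hApos : 0 < A := by
    rcases Nat.eq_zero_or_pos A with rfl | h
    · rw [Nat.coprime_zero_left] at hA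
      exact absurd hA (Fact.out : p.Prime).one_lt.ne'
    · exact h
  apply Nat.eq_of_mul_eq_mul_right hApos
  rw [hcount, hcard]
  ring

end Cfsg.Agent.S4090
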