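import Cfsg.Statements.S4092
import Cfsg.Agent.Lib.H19.Lifts

set_option autoImplicit false
open Cfsg

namespace Cfsg.Agent.S4092

open Cfsg.Agent.H19

theorem result {G : Type*} [Group G] [Finite G] (p : ℕ) [Fact p.Prime]
    (P : Sylow p G) (hP : ¬ (P : Subgroup G).Normal) :
    p * Nat.card (P : Subgroup G) ≤ Nat.card {g : G // ∃ k : ℕ, orderOf g = p ^ k} := by
  classical
  haveI := Fintype.ofFinite G
  have hpp : p.Prime := Fact.out
  have hcardS : ∀ R : Sylow p G, Nat.card (R : Subgroup G) = Nat.card (P : Subgroup G) :=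
    fun R => Nat.card_congr (Sylow.equiv R P).toEquiv
  -- two distinct Sylows
  have hex : ∃ z : Sylow p G × Sylow p G, z.1 ≠ z.2 := by
    by_contra hcon
    push_neg at hcon
    haveI : Subsingleton (Sylow p G) := ⟨fun a b => hcon (a, b)⟩
    exact hP P.normal_of_subsingleton
  haveI : Nonempty {z : Sylow p G × Sylow p G // z.1 ≠ z.2} := by
    obtain ⟨z, hz⟩ := hex
    exact ⟨⟨z, hz⟩⟩
  obtain ⟨⟨⟨A, B⟩, hAB⟩, hz⟩ := Finite.exists_max
    (fun z : {z : Sylow p G × Sylow p G // z.1 ≠ z.2} =>
      Nat.card ((z.1.1 : Subgroup G) ⊓ (z.1.2 : Subgroup G) : Subgroup G))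
  have hAB' : A ≠ B := hAB
  set D : Subgroup G := (A : Subgroup G) ⊓ (B : Subgroup G) with hD
  have hmax : ∀ R R' : Sylow p G, R ≠ R' →
      Nat.card ((R : Subgroup G) ⊓ (R' : Subgroup G) : Subgroup G) ≤ Nat.card D :=
    fun R R' h => hz ⟨(R, R'), h⟩
  have hle_eq : ∀ R R' : Sylow p G, (R : Subgroup G) ≤ R' → R = R' := by
    intro R R' h
    apply Sylow.ext
    exact Subgroup.eq_of_le_of_card_ge h (by rw [hcardS R, hcardS R'])
  have hDA : D < (A : Subgroup G) := by
    refine lt_of_le_of_ne inf_le_left ?_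
    intro h
    apply hAB'
    apply hle_eq
    rw [← h]; exact inf_le_right
  have hDB : D < (B : Subgroup G) := by
    refine lt_of_le_of_ne inf_le_right ?_
    intro h
    apply hAB'.symm
    apply hle_eq
    rw [← h]; exact inf_le_left
  obtain ⟨x, hxA, hxD, hxL⟩ := exists_mem_normalizer_of_lt hDA A.2.isNilpotent
  obtain ⟨y, hyB, hyD, hyL⟩ := exists_mem_normalizer_of_lt hDB B.2.isNilpotent
  set L : Subgroup G := Subgroup.normalizer (D : Set G) with hL
  have hDL : D ≤ L := Subgroup.le_normalizer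
  have hDp : IsPGroup p D := A.2.to_le hDA.le
  haveI hD'n : (D.subgroupOf L).Normal := by
    constructor
    rintro ⟨d, hd⟩ hd2 ⟨g, hg⟩
    exact (Subgroup.mem_normalizer_iff.1 hg d).1 hd2
  have hD'p : IsPGroup p (D.subgroupOf L) := hDp.comap_of_injective L.subtype L.subtype_injective
  -- the map on Sylows
  have hφ : ∀ S : Sylow p L, ∃ R : Sylow p G, (S : Subgroup L).map L.subtype ≤ R :=
    fun S => (S.2.map L.subtype).exists_le_sylow
  choose φ hφ using hφ
  have hDφ : ∀ S : Sylow p L, D ≤ (φ S : Subgroup G) := by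
    intro S d hd
    have h1 : IsPGroup p ((S : Subgroup L) ⊔ D.subgroupOf L : Subgroup L) :=
      S.2.to_sup_of_normal_right hD'p
    have h2 : (S : Subgroup L) ⊔ D.subgroupOf L = S := S.3 h1 le_sup_left
    have h3 : (⟨d, hDL hd⟩ : L) ∈ (S : Subgroup L) := by
      rw [← h2]; exact Subgroup.mem_sup_right hd
    exact hφ S ⟨_, h3, rfl⟩
  have hφinj : Function.Injective φ := by
    intro S S' h
    have hRp : IsPGroup p ((φ S : Subgroup G).subgroupOf L) :=
      (φ S).2.comap_of_injective L.subtype L.subtype_injective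
    have h1 : (S : Subgroup L) ≤ (φ S : Subgroup G).subgroupOf L := by
      intro s hs
      exact hφ S ⟨s, hs, rfl⟩
    have h2 : (S' : Subgroup L) ≤ (φ S : Subgroup G).subgroupOf L := by
      intro s hs
      rw [h]
      exact hφ S' ⟨s, hs, rfl⟩
    apply Sylow.ext
    rw [← S.3 hRp h1, ← S'.3 hRp h2]
  -- more than one Sylow subgroup in `L`
  have hnot1 : Nat.card (Sylow p L) ≠ 1 := by
    intro h1
    haveI : Subsingleton (Sylow p L) := (Nat.card_eq_one_iff_unique.1 h1).1
    obtain ⟨S₁, hS₁⟩ := (A.2.comap_of_injective L.subtype L.subtype_injective).exists_le_sylow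
    obtain ⟨S₂, hS₂⟩ := (B.2.comap_of_injective L.subtype L.subtype_injective).exists_le_sylow
    have hS : S₁ = S₂ := Subsingleton.elim _ _
    set R := φ S₁ with hR
    have hxR : x ∈ (R : Subgroup G) := hφ S₁ ⟨⟨x, hxL⟩, hS₁ hxA, rfl⟩
    have hyR : y ∈ (R : Subgroup G) := by
      rw [hR, hS]
      exact hφ S₂ ⟨⟨y, hyL⟩, hS₂ hyB, rfl⟩
    have hRA : R = A := by
      by_contra hne
      have h2 := hmax R A hne
      have h3 : D ≤ (R : Subgroup G) ⊓ (A : Subgroup G) := le_inf (hDφ S₁) inf_le_left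
      have h4 : D = (R : Subgroup G) ⊓ (A : Subgroup G) := Subgroup.eq_of_le_of_card_ge h3 h2
      apply hxD
      rw [h4]
      exact ⟨hxR, hxA⟩
    have hRB : R = B := by
      by_contra hne
      have h2 := hmax R B hne
      have h3 : D ≤ (R : Subgroup G) ⊓ (B : Subgroup G) := le_inf (hDφ S₁) inf_le_right
      have h4 : D = (R : Subgroup G) ⊓ (B : Subgroup G) := Subgroup.eq_of_le_of_card_ge h3 h2
      apply hyD
      rw [h4]
      exact ⟨hyR, hyB⟩
    exact hAB' (hRA.symm.trans hRB)
  have hk : p + 1 ≤ Nat.card (Sylow p L) := by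
    have h1 := card_sylow_modEq_one p L
    have h2 : 1 ≤ Nat.card (Sylow p L) := Nat.card_pos
    have h3 : p ∣ Nat.card (Sylow p L) - 1 := (Nat.modEq_iff_dvd' h2).1 h1.symm
    have h4 : 0 < Nat.card (Sylow p L) - 1 := by omega
    have h5 := Nat.le_of_dvd h4 h3
    omega
  -- counting
  set s := Nat.card (P : Subgroup G) with hs
  set d := Nat.card D with hd
  have hpd : p * d ≤ s := by
    obtain ⟨a, ha⟩ := A.2.exists_card_eq
    have h1 : d ∣ p ^ a := by rw [← ha]; exact Subgroup.card_dvd_of_le hDA.le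
    obtain ⟨b, hb, hb2⟩ := (Nat.dvd_prime_pow hpp).1 h1
    have h2 : d < p ^ a := by
      rw [← ha]
      exact lt_of_le_of_ne (Subgroup.card_le_of_le hDA.le)
        (fun h => hDA.ne (Subgroup.eq_of_le_of_card_ge hDA.le h.ge))
    rw [hb2] at h2 ⊢
    have h3 : b < a := (Nat.pow_lt_pow_iff_right hpp.one_lt).1 h2
    rw [← hcardS A, ha, ← pow_succ']
    exact Nat.pow_le_pow_right hpp.pos h3
  let AR : Sylow p G → Finset G := fun R => Finset.univ.filter (fun x => x ∈ (R : Subgroup G) ∧ x ∉ D)
  let DF : Finset G := Finset.univ.filter (fun x => x ∈ D)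
  have hDFcard : DF.card = d := by
    rw [hd, Nat.card_eq_fintype_card, Fintype.card_subtype]
  have hAR : ∀ S : Sylow p L, (AR (φ S)).card + d = s := by
    intro S
    have h1 : Nat.card (φ S : Subgroup G) = s := hcardS _
    rw [Nat.card_eq_fintype_card, Fintype.card_subtype] at h1
    rw [← h1, ← hDFcard, ← Finset.card_union_of_disjoint]
    · congr 1
      ext x
      simp only [AR, DF, Finset.mem_union, Finset.mem_filter, Finset.mem_univ, true_and]
      constructor
      · rintro (h | h)
        · exact h.1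
        · exact hDφ S h
      · intro h
        by_cases hx : x ∈ D
        · exact Or.inr hx
        · exact Or.inl ⟨h, hx⟩
    · rw [Finset.disjoint_left]
      intro x hx hx2
      simp only [AR, DF, Finset.mem_filter, Finset.mem_univ, true_and] at hx hx2
      exact hx.2 hx2
  let U : Finset G := (Finset.univ : Finset (Sylow p L)).biUnion (fun S => AR (φ S))
  have hUcard : U.card = Nat.card (Sylow p L) * (s - d) := by
    rw [Finset.card_biUnion]
    · have h1 : ∀ S ∈ (Finset.univ : Finset (Sylow p L)), (AR (φ S)).card = s - d := by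
        intro S _
        have := hAR S
        omega
      rw [Finset.sum_congr rfl h1, Finset.sum_const, smul_eq_mul, Finset.card_univ,
        Nat.card_eq_fintype_card]
    · intro S _ S' _ hne
      rw [Function.onFun, Finset.disjoint_left]
      intro x hx hx2
      simp only [AR, Finset.mem_filter, Finset.mem_univ, true_and] at hx hx2
      have hne' : φ S ≠ φ S' := fun h => hne (hφinj h)
      have h2 := hmax _ _ hne'
      have h3 : D ≤ (φ S : Subgroup G) ⊓ (φ S' : Subgroup G) := le_inf (hDφ S) (hDφ S')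
      have h4 : D = (φ S : Subgroup G) ⊓ (φ S' : Subgroup G) := Subgroup.eq_of_le_of_card_ge h3 h2
      apply hx.2
      rw [h4]
      exact ⟨hx.1, hx2.1⟩
  have hdisj : Disjoint U DF := by
    rw [Finset.disjoint_left]
    intro x hx hx2
    obtain ⟨S, -, hS⟩ := Finset.mem_biUnion.1 hx
    simp only [AR, DF, Finset.mem_filter, Finset.mem_univ, true_and] at hS hx2
    exact hS.2 hx2
  have hsub : U ∪ DF ⊆ Finset.univ.filter (fun g : G => ∃ k : ℕ, orderOf g = p ^ k) := by
    intro g hg
    rw [Finset.mem_filter]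
    refine ⟨Finset.mem_univ _, ?_⟩
    rcases Finset.mem_union.1 hg with h | h
    · obtain ⟨S, -, hS⟩ := Finset.mem_biUnion.1 h
      simp only [AR, Finset.mem_filter, Finset.mem_univ, true_and] at hS
      exact orderOf_of_mem_isPGroup (φ S).2 hS.1
    · simp only [DF, Finset.mem_filter, Finset.mem_univ, true_and] at h
      exact orderOf_of_mem_isPGroup hDp h
  rw [Nat.card_eq_fintype_card, Fintype.card_subtype]
  refine le_trans ?_ (Finset.card_le_card hsub)
  rw [Finset.card_union_of_disjoint hdisj, hUcard, hDFcard]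
  have hds : d ≤ s := le_trans (Nat.le_mul_of_pos_left d hpp.pos) hpd
  obtain ⟨e, he⟩ := Nat.exists_eq_add_of_le hds
  rw [he] at hpd ⊢
  have h5 : d + e - d = e := by omega
  rw [h5]
  have h6 : (p + 1) * e ≤ Nat.card (Sylow p L) * e := Nat.mul_le_mul_right _ hk
  nlinarith

end Cfsg.Agent.S4092
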