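import Cfsg.Statements.S4093
import Cfsg.Agent.Lib.H19.Lifts
import Cfsg.Agent.Lib.H06.CoprimeCoset
import Cfsg.Agent.Lib.H18.Syl
import Mathlib

set_option autoImplicit false
open Cfsg
open scoped BigOperators

namespace Cfsg.Agent.S4093

open Cfsg.Agent.H19

/-- Orbit-stabilizer for conjugation by a subgroup. -/
theorem card_conj_orbit {G : Type*} [Group G] [Finite G] (N : Subgroup G) (x : G) :
    Nat.card {g : G // ∃ n ∈ N, n * x * n⁻¹ = g} * Nat.card ↥(N ⊓ Subgroup.centralizer ({x} : Set G))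
      = Nat.card N := by
  classical
  let _ : MulAction N G := MulAction.compHom G ((MulAut.conj (G := G)).comp N.subtype)
  have hact : ∀ (n : N) (g : G), n • g = (n : G) * g * (n : G)⁻¹ := fun n g => rfl
  have h1 : MulAction.stabilizer N x = (Subgroup.centralizer ({x} : Set G)).subgroupOf N := by
    ext n
    rw [MulAction.mem_stabilizer_iff, hact, Subgroup.mem_subgroupOf, Subgroup.mem_centralizer_iff]
    constructor
    · intro h z hz
      rw [Set.mem_singleton_iff] at hz
      rw [hz]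
      calc x * (n : G) = ((n : G) * x * (n : G)⁻¹) * n := by rw [h]
        _ = (n : G) * x := by group
    · intro h
      have h2 := h x rfl
      rw [← h2]
      simp
  have h2 := MulAction.index_stabilizer N x
  have h3 : Nat.card {g : G // ∃ n ∈ N, n * x * n⁻¹ = g} = (MulAction.orbit N x).ncard := by
    rw [← Nat.card_coe_set_eq]
    apply Nat.card_congr
    refine Equiv.subtypeEquivRight ?_
    intro g
    constructor
    · rintro ⟨n, hn, rfl⟩
      exact ⟨⟨n, hn⟩, rfl⟩
    · rintro ⟨n, rfl⟩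
      exact ⟨n, n.2, rfl⟩
  rw [h3, ← h2, h1]
  have h4 := Subgroup.card_mul_index ((Subgroup.centralizer ({x} : Set G)).subgroupOf N)
  rw [Cfsg.Agent.H18.card_subgroupOf, inf_comm] at h4
  rw [mul_comm]
  exact h4

/-- Let G be a finite group with a normal subgroup N complementing a Sylow p-subgroup P (a normal p-complement). Then the number of elements of G of p-power order equals the sum over x ∈ P of the index of C_N(x) in N. -/
theorem result {G : Type*} [Group G] [Finite G] (p : ℕ) [Fact p.Prime]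
    (P : Sylow p G) (N : Subgroup G) [N.Normal] (hNP : N.IsComplement' (P : Subgroup G)) :
    Nat.card {g : G // ∃ k : ℕ, orderOf g = p ^ k} =
      ∑ᶠ x : (P : Subgroup G), Nat.card N / Nat.card ↥(N ⊓ Subgroup.centralizer ({(x : G)} : Set G)) := by
  classical
  have hp := (Fact.out : p.Prime)
  have hNn : N.Normal := inferInstance
  have : Fintype (P : Subgroup G) := Fintype.ofFinite _
  have hcopN : ¬ p ∣ Nat.card N := by
    rw [← hNP.index_eq_card]
    exact P.not_dvd_index
  -- disjointness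
  have hdisj : ∀ y ∈ N, y ∈ (P : Subgroup G) → y = 1 := by
    intro y hy1 hy2
    exact Subgroup.disjoint_def.1 hNP.disjoint hy1 hy2
  -- decomposition
  have hdec : ∀ g : G, ∃ n ∈ N, ∃ x ∈ (P : Subgroup G), g = n * x := by
    intro g
    have hg : g ∈ N ⊔ (P : Subgroup G) := by rw [hNP.sup_eq_top]; exact Subgroup.mem_top g
    rw [← SetLike.mem_coe, Subgroup.normal_mul] at hg
    obtain ⟨n, hn, x, hx, rfl⟩ := hg
    exact ⟨n, hn, x, hx, rfl⟩
  -- orders preserved modulo N
  let π : G →* G ⧸ N := QuotientGroup.mk' N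
  have hker : ∀ v : G, π v = 1 ↔ v ∈ N := fun v => QuotientGroup.eq_one_iff v
  have hord : ∀ a : G, (∃ k, orderOf a = p ^ k) → orderOf (π a) = orderOf a := by
    rintro a ⟨k, hk⟩
    apply Nat.dvd_antisymm (orderOf_map_dvd π a)
    have h1 : a ^ orderOf (π a) ∈ N := by
      rw [← hker, map_pow, pow_orderOf_eq_one]
    have h2 : orderOf (a ^ orderOf (π a)) ∣ Nat.card N := by
      have := orderOf_dvd_natCard (⟨_, h1⟩ : N)
      rwa [Subgroup.orderOf_mk] at this
    have h3 : orderOf (a ^ orderOf (π a)) ∣ p ^ k := by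
      rw [← hk]
      exact orderOf_dvd_of_mem_zpowers (Subgroup.npow_mem_zpowers a _)
    obtain ⟨j, -, hj⟩ := (Nat.dvd_prime_pow hp).1 h3
    have h4 : orderOf (a ^ orderOf (π a)) = 1 := by
      rw [hj] at h2 ⊢
      by_cases hj0 : j = 0
      · rw [hj0, pow_zero]
      · exact absurd ((dvd_pow_self p hj0).trans h2) hcopN
    rw [orderOf_eq_one_iff] at h4
    exact orderOf_dvd_of_pow_eq_one h4
  -- key bijection
  let Y : ↥(P : Subgroup G) → Type _ := fun x => {g : G // ∃ n ∈ N, n * (x : G) * n⁻¹ = g}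
  have hYp : ∀ (x : ↥(P : Subgroup G)) (y : Y x), ∃ k : ℕ, orderOf (y : G) = p ^ k := by
    rintro x ⟨y, n, hn, rfl⟩
    obtain ⟨k, hk⟩ := orderOf_of_mem_isPGroup P.isPGroup' x.2
    refine ⟨k, ?_⟩
    rw [← hk]
    exact (SemiconjBy.orderOf_eq n (x := (x : G)) (y := n * x * n⁻¹) (by simp [SemiconjBy])).symm
  let Φ : (Σ x : ↥(P : Subgroup G), Y x) → {g : G // ∃ k : ℕ, orderOf g = p ^ k} :=
    fun z => ⟨z.2.1, hYp z.1 z.2⟩
  have hΦinj : Function.Injective Φ := by
    rintro ⟨x, ⟨g, n, hn, rfl⟩⟩ ⟨y, ⟨g', m, hm, hg'⟩⟩ h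
    have h1 : n * (x : G) * n⁻¹ = g' := congrArg Subtype.val h
    subst hg'
    have h2 : π (x : G) = π (y : G) := by
      have h3 := congrArg π h1
      simp only [map_mul, map_inv] at h3
      rw [(hker n).2 hn, (hker m).2 hm] at h3
      simpa using h3
    have h4 : (x : G)⁻¹ * y ∈ N := by
      rw [← hker, map_mul, map_inv, h2]
      simp
    have h5 := hdisj _ h4 (Subgroup.mul_mem _ (Subgroup.inv_mem _ x.2) y.2)
    have h6 : (x : G) = y := inv_mul_eq_one.1 h5
    have h7 : x = y := Subtype.ext h6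
    subst h7
    congr 1
    exact Subtype.ext h1
  have hΦsurj : Function.Surjective Φ := by
    rintro ⟨g, k, hk⟩
    obtain ⟨n, hn, x, hx, rfl⟩ := hdec g
    obtain ⟨j, hj⟩ := orderOf_of_mem_isPGroup P.isPGroup' hx
    have hx' : x ∈ P := hx
    have hgN : ∀ v ∈ N, x * v * x⁻¹ ∈ N := fun v hv => hNn.conj_mem v hv x
    have hcop : (orderOf x).Coprime (Nat.card N) := by
      rw [hj]
      exact Nat.Coprime.pow_left _ ((Nat.Prime.coprime_iff_not_dvd hp).2 hcopN)
    have hpow : (n * x) ^ orderOf x = 1 := by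
      have h1 : orderOf (n * x) = orderOf x := by
        rw [← hord (n * x) ⟨k, hk⟩, ← hord x ⟨j, hj⟩, map_mul, (hker n).2 hn, one_mul]
      rw [← h1]
      exact pow_orderOf_eq_one _
    obtain ⟨a, ha, he⟩ := Cfsg.Agent.H06.exists_conj_eq_of_pow_eq_one hgN hcop hn hpow
    refine ⟨⟨⟨x, hx⟩, ⟨n * x, a⁻¹, N.inv_mem ha, ?_⟩⟩, rfl⟩
    show a⁻¹ * x * a⁻¹⁻¹ = n * x
    calc a⁻¹ * x * a⁻¹⁻¹ = a⁻¹ * (a * (n * x) * a⁻¹) * a := by rw [he, inv_inv]
      _ = n * x := by group
  have heq := Nat.card_congr (Equiv.ofBijective Φ ⟨hΦinj, hΦsurj⟩)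
  rw [← heq, Nat.card_sigma, finsum_eq_sum_of_fintype]
  refine Finset.sum_congr rfl ?_
  intro x _
  have h1 := card_conj_orbit N (x : G)
  have hpos : 0 < Nat.card ↥(N ⊓ Subgroup.centralizer ({(x : G)} : Set G)) := Nat.card_pos
  exact (Nat.div_eq_of_eq_mul_left hpos h1.symm).symm

end Cfsg.Agent.S4093
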