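import Cfsg.Statements.S4106
import Cfsg.Agent.Lib.H19.PiClasses

set_option autoImplicit false
open Cfsg

namespace Cfsg.Agent.S4106

open Cfsg.Agent.H19

theorem result {G : Type*} [Group G] [Finite G]
    (π : Set ℕ) (hπ : ∀ q ∈ π, q.Prime)
    (m : ℕ) (hm : m ∣ Nat.card G) (hmπ : ∀ q : ℕ, q.Prime → q ∣ m → q ∈ π)
    (hm' : ∀ q ∈ π, ¬ q ∣ Nat.card G / m) :
    Nat.card {C : ConjClasses G // ∀ q : ℕ, q.Prime → (∃ g : G, ConjClasses.mk g = C ∧ q ∣ orderOf g) → q ∈ π} ≤ m := by
  classical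
  have hG0 : Nat.card G ≠ 0 := Nat.card_pos.ne'
  have hm0 : m ≠ 0 := ne_zero_of_dvd_ne_zero hG0 hm
  obtain ⟨d, hd⟩ := hm
  have hd0 : d ≠ 0 := by
    rintro rfl
    simp at hd
    exact hG0 hd
  have hdiv : Nat.card G / m = d := by
    rw [hd]
    exact Nat.mul_div_cancel_left d (Nat.pos_of_ne_zero hm0)
  set S : Finset ℕ := m.primeFactors with hS
  have hSp : ∀ q ∈ S, q.Prime := fun q hq => Nat.prime_of_mem_primeFactors hq
  have h1 := card_piCl_le S hSp G
  -- classes
  have h2 : Nat.card {C : ConjClasses G // ∀ q : ℕ, q.Prime → (∃ g : G, ConjClasses.mk g = C ∧ q ∣ orderOf g) → q ∈ π} ≤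
      Nat.card (PiCl (S : Set ℕ) G) := by
    apply Nat.card_le_card_of_injective
      (fun C => (⟨C.1, fun q hq hg => ?_⟩ : PiCl (S : Set ℕ) G))
    · intro C D h
      have h' : C.1 = D.1 := congrArg (fun E : PiCl (S : Set ℕ) G => E.1) h
      exact Subtype.ext h'
    · have hqπ := C.2 q hq hg
      obtain ⟨g, -, hgd⟩ := hg
      have hqG : q ∣ Nat.card G := hgd.trans (orderOf_dvd_natCard g)
      have hqd : ¬ q ∣ d := by
        have := hm' q hqπ
        rwa [hdiv] at this
      have hqm : q ∣ m := by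
        rw [hd] at hqG
        exact (hq.dvd_mul.mp hqG).resolve_right hqd
      simp only [hS, Finset.mem_coe, Nat.mem_primeFactors]
      exact ⟨hq, hqm, hm0⟩
  refine h2.trans (h1.trans ?_)
  -- product
  have h3 : ∀ q ∈ S, q ^ (Nat.card G).factorization q = q ^ m.factorization q := by
    intro q hq
    have hqp : q.Prime := hSp q hq
    have hqm : q ∣ m := Nat.dvd_of_mem_primeFactors hq
    have hqd : ¬ q ∣ d := by
      have hqπ := hmπ q hqp hqm
      have := hm' q hqπ
      rwa [hdiv] at this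
    rw [hd, Nat.factorization_mul hm0 hd0]
    simp [Nat.factorization_eq_zero_of_not_dvd hqd]
  rw [Finset.prod_congr rfl h3, hS]
  exact (Nat.factorization_prod_pow_eq_self hm0).le

end Cfsg.Agent.S4106
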