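import Cfsg.Statements.S4108
import Cfsg.Agent.Lib.H19.Lifts
import Cfsg.Agent.Lib.H06.CoprimeCoset
import Mathlib

set_option autoImplicit false
open Cfsg
open scoped Pointwise

namespace Cfsg.Agent.S4108

open Cfsg.Agent.H19

/-- Let G be a finite group, p a prime and N a proper non-trivial normal p-subgroup such that for every x outside N all elements of the coset xN have the same order as x. Then every non-trivial subgroup H of G of order prime to p acts fixed-point-freely on N: NH is a Frobenius group with complement H and kernel N. -/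
theorem result {G : Type*} [Group G] [Finite G] (N : Subgroup G) [N.Normal] (hN1 : N ≠ ⊥) (hN2 : N ≠ ⊤)
    (heq : ∀ x : G, x ∉ N → ∀ n ∈ N, orderOf (x * n) = orderOf x)
    (p : ℕ) [Fact p.Prime] (hNp : IsPGroup p N) :
    ∀ H : Subgroup G, H ≠ ⊥ → (Nat.card H).Coprime p →
      Cfsg.IsFrobeniusComplement (H.subgroupOf (N ⊔ H)) ∧ Cfsg.frobeniusKernel (H.subgroupOf (N ⊔ H)) = (N.subgroupOf (N ⊔ H) : Set ↥(N ⊔ H)) := by
  classical
  intro H hH hcop
  have hp := (Fact.out : p.Prime)
  have hNn : N.Normal := inferInstance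
  -- orders in H are prime to p
  have hordH : ∀ y ∈ H, (orderOf y).Coprime p := by
    intro y hy
    have h1 : orderOf y ∣ Nat.card H := by
      have := orderOf_dvd_natCard (⟨y, hy⟩ : H)
      rwa [Subgroup.orderOf_mk] at this
    exact Nat.Coprime.coprime_dvd_left h1 hcop
  -- F1
  have hF1 : ∀ y ∈ H, y ∈ N → y = 1 := by
    intro y hy hyN
    obtain ⟨k, hk⟩ := orderOf_of_mem_isPGroup hNp hyN
    have h1 := hordH y hy
    rw [hk] at h1
    have h2 : k = 0 := by
      by_contra hk0
      have h3 : p ∣ p ^ k := dvd_pow_self p hk0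
      have := Nat.Coprime.eq_one_of_dvd h1.symm h3
      exact hp.one_lt.ne' this
    rw [h2, pow_zero, orderOf_eq_one_iff] at hk
    exact hk
  -- F2
  have hF2 : ∀ y ∈ H, y ≠ 1 → ∀ n ∈ N, n * y = y * n → n = 1 := by
    intro y hy hy1 n hn hc
    by_contra hn1
    have hyN : y ∉ N := fun h => hy1 (hF1 y hy h)
    have h1 := heq y hyN n hn
    obtain ⟨k, hk⟩ := orderOf_of_mem_isPGroup hNp hn
    have hC : Commute y n := hc.symm
    have hcop2 : (orderOf y).Coprime (orderOf n) := by
      rw [hk]; exact Nat.Coprime.pow_right _ (hordH y hy)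
    rw [hC.orderOf_mul_eq_mul_orderOf_of_coprime hcop2] at h1
    have h2 : orderOf n = 1 := by
      have hpos : 0 < orderOf y := orderOf_pos y
      exact Nat.eq_of_mul_eq_mul_left hpos (by rw [h1, mul_one])
    exact hn1 (orderOf_eq_one_iff.1 h2)
  -- F3
  have hF3 : ∀ g ∈ N ⊔ H, ∃ h ∈ H, ∃ n ∈ N, g = h * n := by
    intro g hg
    rw [sup_comm, ← SetLike.mem_coe, Subgroup.mul_normal] at hg
    obtain ⟨h, hh, n, hn, rfl⟩ := hg
    exact ⟨h, hh, n, hn, rfl⟩
  have hHK : H ≤ N ⊔ H := le_sup_right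
  have hNK : N ≤ N ⊔ H := le_sup_left
  refine ⟨⟨?_, ?_, ?_⟩, ?_⟩
  · intro h
    apply hH
    rw [eq_bot_iff]
    intro y hy
    have h1 : (⟨y, hHK hy⟩ : ↥(N ⊔ H)) ∈ H.subgroupOf (N ⊔ H) := by
      rw [Subgroup.mem_subgroupOf]; exact hy
    rw [h, Subgroup.mem_bot] at h1
    exact congrArg Subtype.val h1
  · intro h
    apply hN1
    rw [eq_bot_iff]
    intro n hn
    have h1 : (⟨n, hNK hn⟩ : ↥(N ⊔ H)) ∈ H.subgroupOf (N ⊔ H) := by
      rw [h]; exact Subgroup.mem_top _
    rw [Subgroup.mem_subgroupOf] at h1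
    exact hF1 n h1 hn
  · intro g hg
    rw [eq_bot_iff]
    intro x hx
    obtain ⟨hx1, hx2⟩ := Subgroup.mem_inf.1 hx
    rw [mem_conj_smul, Subgroup.mem_subgroupOf] at hx2
    rw [Subgroup.mem_subgroupOf] at hx1
    have hx2' : (g : G)⁻¹ * x * g ∈ H := hx2
    rw [Subgroup.mem_bot]
    apply Subtype.ext
    show (x : G) = 1
    by_contra hx3
    obtain ⟨h, hh, n, hn, hgeq⟩ := hF3 g g.2
    set w := h⁻¹ * x * h with hw
    have hwH : w ∈ H := H.mul_mem (H.mul_mem (H.inv_mem hh) hx1) hh
    have hz : n⁻¹ * w * n ∈ H := by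
      have e : (g : G)⁻¹ * x * g = n⁻¹ * w * n := by
        rw [hgeq, hw]; group
      rwa [← e]
    have h1 : w⁻¹ * (n⁻¹ * w * n) ∈ H := H.mul_mem (H.inv_mem hwH) hz
    have h2 : w⁻¹ * (n⁻¹ * w * n) ∈ N := by
      have h3 : w⁻¹ * n⁻¹ * w ∈ N := by
        have := hNn.conj_mem n⁻¹ (N.inv_mem hn) w⁻¹
        simpa using this
      have e : w⁻¹ * (n⁻¹ * w * n) = (w⁻¹ * n⁻¹ * w) * n := by group
      rw [e]
      exact N.mul_mem h3 hn
    have h4 := hF1 _ h1 h2
    have h5 : n⁻¹ * w * n = w := by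
      rw [← mul_right_inj w⁻¹]
      simpa using h4
    have hw1 : w ≠ 1 := by
      intro h6
      apply hx3
      have : (x : G) = h * w * h⁻¹ := by rw [hw]; group
      rw [this, h6]; simp
    have h7 : n * w = w * n := by
      calc n * w = n * (n⁻¹ * w * n) := by rw [h5]
        _ = w * n := by group
    have h8 := hF2 w hwH hw1 n hn h7
    apply hg
    rw [Subgroup.mem_subgroupOf, hgeq, h8, mul_one]
    exact hh
  · ext x
    constructor
    · rintro (rfl | hx)
      · exact Subgroup.one_mem _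
      · obtain ⟨h, hh, n, hn, hxeq⟩ := hF3 x x.2
        by_cases hh1 : h = 1
        · rw [SetLike.mem_coe, Subgroup.mem_subgroupOf, hxeq, hh1, one_mul]
          exact hn
        · exfalso
          -- x is N-conjugate to h
          have hg : ∀ z ∈ N, h * z * h⁻¹ ∈ N := fun z hz => hNn.conj_mem z hz h
          have hcop3 : (orderOf h).Coprime (Nat.card N) := by
            obtain ⟨k, hk⟩ := IsPGroup.iff_card.1 hNp
            rw [hk]
            exact Nat.Coprime.pow_right _ (hordH h hh)
          have hn' : h * n * h⁻¹ ∈ N := hg n hn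
          obtain ⟨a, ha, c, hc, hch, he⟩ := Cfsg.Agent.H06.exists_conj_mul_eq hg hcop3 hn'
          have hc1 := hF2 h hh hh1 c hc hch
          have he' : a * (x : G) * a⁻¹ = h := by
            rw [hc1, one_mul] at he
            have e : h * n * h⁻¹ * h = h * n := by group
            rw [e] at he
            rw [hxeq]
            exact he
          apply hx ⟨a⁻¹, hNK (N.inv_mem ha)⟩
          rw [mem_conj_smul, Subgroup.mem_subgroupOf]
          show ((a : G)⁻¹)⁻¹ * x * (a : G)⁻¹ ∈ H
          rw [inv_inv, he']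
          exact hh
    · intro hx
      by_cases hx1 : x = 1
      · exact Or.inl hx1
      · right
        intro g hg
        rw [mem_conj_smul, Subgroup.mem_subgroupOf] at hg
        have hx' : (x : G) ∈ N := hx
        have h1 : (g : G)⁻¹ * x * g ∈ N := by
          have := hNn.conj_mem x hx' (g : G)⁻¹
          simpa using this
        have h2 : (g : G)⁻¹ * x * g = 1 := hF1 _ hg h1
        apply hx1
        apply Subtype.ext
        show (x : G) = 1
        have : (x : G) = g * ((g : G)⁻¹ * x * g) * (g : G)⁻¹ := by group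
        rw [this, h2]
        simp

end Cfsg.Agent.S4108
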