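import Cfsg.Statements.S4112
import Cfsg.Agent.Lib.H19.Supplement
import Cfsg.Agent.Lib.H19.Lifts
import Cfsg.Agent.Lib.H06.Nilp
import Cfsg.Agent.Lib.H15.Modular

set_option autoImplicit false
open Cfsg

namespace Cfsg.Agent.S4112

/-- Let G be a finite group and M ≤ N non-trivial proper normal subgroups such that for every g outside N the conjugacy class of g is a union of cosets of M (equivalently gm is conjugate to g for every m ∈ M). Then (1) and (2) below are equivalent, and they imply (3): (1) every g outside N acts fixed-point-freely on M, that is C_G(x) ≤ N for every x ∈ M, x ≠ 1; (2) the index of N in G is coprime to the order of M; (3) there is a subgroup H of G with HN = G and H ∩ M = 1. -/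
theorem result {G : Type*} [Group G] [Finite G] (N M : Subgroup G) [N.Normal] [M.Normal] (hMN : M ≤ N) (hM1 : M ≠ ⊥) (hN2 : N ≠ ⊤)
    (hcam : ∀ g : G, g ∉ N → ∀ m ∈ M, ∃ x : G, x * g * x⁻¹ = g * m) :
    ((∀ x ∈ M, x ≠ 1 → Subgroup.centralizer ({x} : Set G) ≤ N) ↔ N.index.Coprime (Nat.card M)) ∧
    ((∀ x ∈ M, x ≠ 1 → Subgroup.centralizer ({x} : Set G) ≤ N) → ∃ H : Subgroup G, H ⊔ N = ⊤ ∧ H ⊓ M = ⊥) := by
  classical
  have hAB : (∀ x ∈ M, x ≠ 1 → Subgroup.centralizer ({x} : Set G) ≤ N) → N.index.Coprime (Nat.card M) := by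
    intro h1
    by_contra hne
    obtain ⟨q, hq, hqN, hqM⟩ := Nat.Prime.not_coprime_iff_dvd.mp hne
    haveI := Fact.mk hq
    let Q : Sylow q G := default
    have hQidx : ¬ q ∣ (Q : Subgroup G).index := Q.not_dvd_index
    have hQN : ¬ (Q : Subgroup G) ≤ N := fun hle =>
      hQidx (hqN.trans (Subgroup.index_dvd_of_le hle))
    obtain ⟨g, hgQ, hgN⟩ := Set.not_subset.mp hQN
    have hrel : ¬ q ∣ (Q : Subgroup G).relIndex M := fun h =>
      hQidx (h.trans (H18.relIndex_dvd_index_of_normal_right _ _))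
    have hcardinf : q ∣ Nat.card ((Q : Subgroup G) ⊓ M : Subgroup G) := by
      have := H18.card_inf_mul_relIndex (Q : Subgroup G) M
      rw [← this] at hqM
      exact ((Nat.Prime.dvd_mul hq).1 hqM).resolve_right hrel
    have hnb : M.subgroupOf (Q : Subgroup G) ≠ ⊥ := by
      intro hbot
      have h2 : Nat.card (M.subgroupOf (Q : Subgroup G)) = 1 := by rw [hbot]; exact Nat.card_unique
      rw [H18.card_subgroupOf, inf_comm, ] at h2
      rw [h2] at hcardinf
      exact hq.one_lt.ne' (Nat.dvd_one.mp hcardinf)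
    haveI : Group.IsNilpotent (Q : Subgroup G) := Q.2.isNilpotent
    obtain ⟨y, hyM, hy1, hyZ⟩ := H06.exists_central_of_normal (Subgroup.normal_subgroupOf) hnb
    have hy1' : (y : G) ≠ 1 := fun h => hy1 (Subtype.ext h)
    refine hgN (h1 y.1 hyM hy1' ?_)
    rw [Subgroup.mem_centralizer_iff]
    intro t ht
    rw [Set.mem_singleton_iff] at ht
    subst ht
    have := (Subgroup.mem_center_iff.mp hyZ) ⟨g, hgQ⟩
    exact (congrArg Subtype.val this).symm
  refine ⟨⟨hAB, ?_⟩, ?_⟩
  · intro hc x hx hx1 g hg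
    by_contra hgN
    rw [Subgroup.mem_centralizer_iff] at hg
    have hgx : g * x = x * g := (hg x (Set.mem_singleton x)).symm
    obtain ⟨a, b, hab, hcomm, hπa, hπb, haz, hbz⟩ := Cfsg.Agent.H19.exists_pi_decomp {r : ℕ | r ∣ Nat.card M} g
    have haN : a ∈ N := by
      have h1 : a ^ N.index ∈ N := Subgroup.pow_index_mem N a
      have h2 : a ^ orderOf a ∈ N := by rw [pow_orderOf_eq_one]; exact N.one_mem
      refine Cfsg.Agent.H15.mem_of_pow_mem_of_pow_mem h1 h2 ?_
      apply Nat.Coprime.symm
      apply Nat.coprime_of_dvd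
      intro r hr hr1 hr2
      have : r ∣ Nat.card M := hπa r hr hr1
      exact hr.one_lt.ne' (Nat.dvd_one.mp (hc ▸ Nat.dvd_gcd hr2 this))
    have hbN : b ∉ N := by
      intro hbN
      apply hgN
      rw [hab]
      exact N.mul_mem haN hbN
    have hbx : Commute b x := by
      obtain ⟨i, hi⟩ := hbz
      have hgx' : Commute g x := hgx
      have := hgx'.zpow_left i
      simp only at hi
      rwa [hi] at this
    obtain ⟨y, hy⟩ := hcam b hbN x hx
    have hord : orderOf (b * x) = orderOf b := by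
      rw [← hy]
      have : y * b * y⁻¹ = (MulAut.conj y).toMonoidHom b := rfl
      rw [this]
      exact orderOf_injective _ (MulEquiv.injective _) b
    have hcop : Nat.Coprime (orderOf b) (orderOf x) := by
      apply Nat.coprime_of_dvd
      intro r hr hr1 hr2
      exact hπb r hr hr1 (hr2.trans (Subgroup.orderOf_dvd_natCard M hx))
    have h2 := hbx.orderOf_mul_eq_mul_orderOf_of_coprime hcop
    rw [hord] at h2
    have hpos : 0 < orderOf b := orderOf_pos b
    have h3 : orderOf x = 1 := by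
      have : orderOf b * orderOf x = orderOf b * 1 := by rw [← h2, mul_one]
      exact Nat.eq_of_mul_eq_mul_left hpos this
    exact hx1 (orderOf_eq_one_iff.mp h3)
  · intro h1
    have hc := hAB h1
    obtain ⟨H, hH, hmin⟩ := Cfsg.Agent.H19.exists_minimal_supplement N
    refine ⟨H, hH, ?_⟩
    by_contra hne
    have hcard : Nat.card (H ⊓ M : Subgroup G) ≠ 1 := by
      intro h
      exact hne (Subgroup.card_eq_one.mp h)
    obtain ⟨q, hq, hqd⟩ := Nat.exists_prime_and_dvd hcard
    have hle : H ⊓ M ≤ H ⊓ N := inf_le_inf_left _ hMN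
    have hd1 : Nat.card (H ⊓ M : Subgroup G) ∣ Nat.card (H ⊓ N : Subgroup G) :=
      Subgroup.card_dvd_of_le hle
    have hqN := Cfsg.Agent.H19.prime_dvd_index_of_minimal_supplement N H hH hmin hq (hqd.trans hd1)
    have hqM : q ∣ Nat.card M := hqd.trans (Subgroup.card_dvd_of_le inf_le_right)
    exact hq.one_lt.ne' (Nat.dvd_one.mp (hc ▸ Nat.dvd_gcd hqN hqM))

end Cfsg.Agent.S4112
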