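import Cfsg.Statements.S4115
import Cfsg.Agent.Lib.H19.WielandtI

set_option autoImplicit false
universe u
open Cfsg

namespace Cfsg.Agent.S4115

/-- Let G be a finite group and H a subgroup that meets each of its conjugates by elements outside N_G(H) trivially and whose order is coprime to its index in N_G(H). Then H has a normal complement in N_G(H) if and only if H has a normal complement in G. Moreover, if H is not normal in G and has a normal complement in N_G(H), then H is isomorphic to a Frobenius complement of some finite Frobenius group. -/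
theorem result {G : Type u} [Group G] [Finite G] (H : Subgroup G)
    (hTI : Cfsg.IsTISubset (H : Set G)) (hHall : (Nat.card H).Coprime (H.subgroupOf (Subgroup.normalizer (H : Set G))).index) :
    ((∃ K : Subgroup (Subgroup.normalizer (H : Set G)), K.Normal ∧ K.IsComplement' (H.subgroupOf (Subgroup.normalizer (H : Set G)))) ↔
      (∃ N : Subgroup G, N.Normal ∧ N.IsComplement' H)) ∧
    (¬ H.Normal → (∃ K : Subgroup (Subgroup.normalizer (H : Set G)), K.Normal ∧ K.IsComplement' (H.subgroupOf (Subgroup.normalizer (H : Set G)))) →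
      ∃ (F : Type u) (_ : Group F) (_ : Finite F) (C : Subgroup F), Cfsg.IsFrobeniusComplement C ∧ Nonempty (H ≃* C)) := by
  
  classical
  set N := Subgroup.normalizer (H : Set G) with hNdef
  have hHN : H ≤ N := Subgroup.le_normalizer
  have setup : ∀ K₀ : Subgroup N, K₀.Normal → K₀.IsComplement' (H.subgroupOf N) →
      Cfsg.Agent.H19.WielG.Setup H (K₀.map N.subtype) := by
    intro K₀ hK₀ hc
    have hcardH : Nat.card (H.subgroupOf N) = Nat.card H :=
      Nat.card_congr (Subgroup.subgroupOfEquivOfLe hHN).toEquiv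
    have hcardK : Nat.card (K₀.map N.subtype) = Nat.card K₀ :=
      Subgroup.card_map_of_injective N.subtype_injective
    refine ⟨hTI, Subgroup.map_subtype_le _, ?_, ?_, ?_, ?_, ?_⟩
    · rintro n hn _ ⟨k, hk, rfl⟩
      refine ⟨⟨n, hn⟩ * k * ⟨n, hn⟩⁻¹, hK₀.conj_mem k hk _, ?_⟩
      simp
    · rw [hcardK, ← hc.index_eq_card]
      exact hHall.symm
    · rintro _ ⟨k, hk, rfl⟩ hx
      have h1 : k ∈ H.subgroupOf N := hx
      have h2 := Subgroup.disjoint_def.1 hc.disjoint hk h1
      simp [h2]
    · intro x hx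
      have h1 : (⟨x, hx⟩ : N) ∈ K₀ ⊔ H.subgroupOf N := by
        rw [hc.sup_eq_top]; trivial
      obtain ⟨k, hk, h, hh, hkh⟩ := Subgroup.mem_sup_of_normal_left.1 h1
      refine ⟨k, ⟨k, hk, rfl⟩, h, hh, ?_⟩
      have := congrArg Subtype.val hkh
      simpa using this.symm
    · rw [hcardK, ← hcardH]
      exact hc.card_mul
  refine ⟨⟨?_, ?_⟩, ?_⟩
  · rintro ⟨K₀, hK₀, hc⟩
    obtain ⟨M, hMn, _, hMc, _⟩ := (setup K₀ hK₀ hc).exists_M
    exact ⟨M, hMn, hMc⟩
  · rintro ⟨M, hMn, hMc⟩
    refine ⟨M.subgroupOf N, inferInstance, ?_⟩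
    apply Subgroup.isComplement'_of_disjoint_and_mul_eq_univ
    · rw [Subgroup.disjoint_def]
      intro x h1 h2
      have := Subgroup.disjoint_def.1 hMc.disjoint h1 h2
      exact Subtype.ext this
    · rw [Set.eq_univ_iff_forall]
      intro x
      have h1 : (x : G) ∈ M ⊔ H := by
        rw [hMc.sup_eq_top]; trivial
      obtain ⟨m, hm, h, hh, hmh⟩ := Subgroup.mem_sup_of_normal_left.1 h1
      have hmN : m ∈ N := by
        have : m = (x : G) * h⁻¹ := by rw [← hmh]; group
        rw [this]
        exact N.mul_mem x.2 (N.inv_mem (hHN hh))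
      refine Set.mem_mul.2 ⟨⟨m, hmN⟩, hm, ⟨h, hHN hh⟩, hh, ?_⟩
      exact Subtype.ext hmh
  · rintro hnn ⟨K₀, hK₀, hc⟩
    exact (setup K₀ hK₀ hc).exists_frob hnn

end Cfsg.Agent.S4115
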