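import Cfsg.Statements.S4116
import Cfsg.Agent.Lib.H19.Partition
import Cfsg.Agent.Lib.H19.Lifts
import Cfsg.Agent.Lib.H18.Syl
import Mathlib

set_option autoImplicit false
open Cfsg
open scoped Pointwise

namespace Cfsg.Agent.S4116

open Cfsg.Agent.H19

section

variable {G : Type*} [Group G] [Finite G] (H : Subgroup G)

/-- `π`-elements normalizing a Hall subgroup lie in it. -/
theorem mem_of_normalizes (hHall : (Nat.card H).Coprime H.index) (c : G)
    (hc : ∀ q : ℕ, q.Prime → q ∣ orderOf c → q ∣ Nat.card H)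
    (hN : c ∈ Subgroup.normalizer (H : Set G)) : c ∈ H := by
  classical
  set N := Subgroup.normalizer (H : Set G) with hNdef
  let H' : Subgroup N := H.subgroupOf N
  have hH'n : H'.Normal := Subgroup.normal_in_normalizer
  let cc : N := ⟨c, hN⟩
  have hord : orderOf ((cc : N) : N ⧸ H') ∣ Nat.card (N ⧸ H') := orderOf_dvd_natCard _
  have hrel : Nat.card (N ⧸ H') ∣ H.index := by
    have h1 : H.relIndex N * N.index = H.index := Subgroup.relIndex_mul_index Subgroup.le_normalizer
    have h2 : Nat.card (N ⧸ H') = H.relIndex N := rfl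
    rw [h2]
    exact Dvd.intro _ h1
  have hord2 : orderOf ((cc : N) : N ⧸ H') ∣ orderOf c := by
    apply orderOf_dvd_of_pow_eq_one
    rw [← QuotientGroup.mk_pow]
    have : cc ^ orderOf c = 1 := by
      apply Subtype.ext
      show c ^ orderOf c = 1
      exact pow_orderOf_eq_one c
    rw [this]
    rfl
  have hone : orderOf ((cc : N) : N ⧸ H') = 1 := by
    by_contra hne
    obtain ⟨q, hq, hqd⟩ := Nat.exists_prime_and_dvd hne
    have h1 := hc q hq (hqd.trans hord2)
    have h2 := hqd.trans (hord.trans hrel)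
    exact hq.one_lt.ne' (Nat.Coprime.eq_one_of_dvd (Nat.Coprime.coprime_dvd_left h1 hHall) h2)
  rw [orderOf_eq_one_iff, QuotientGroup.eq_one_iff, Subgroup.mem_subgroupOf] at hone
  exact hone

/-- Every `π`-element is conjugate into `H`. -/
theorem exists_conj_mem (hHall : (Nat.card H).Coprime H.index) (hTI : Cfsg.IsTISubset (H : Set G))
    (x : G) (hx : ∀ q : ℕ, q.Prime → q ∣ orderOf x → q ∣ Nat.card H) :
    ∃ g : G, g⁻¹ * x * g ∈ H := by
  classical
  by_cases hx1 : x = 1
  · exact ⟨1, by simp [hx1, H.one_mem]⟩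
  have hn1 : orderOf x ≠ 1 := by rwa [Ne, orderOf_eq_one_iff]
  obtain ⟨q, hq, hqd⟩ := Nat.exists_prime_and_dvd hn1
  have : Fact q.Prime := ⟨hq⟩
  obtain ⟨a, b, hab, hcomm, ⟨k, hk⟩, hb, ham, hbm⟩ := exists_primary_decomp q x
  have ha1 : a ≠ 1 := by
    rintro rfl
    rw [one_mul] at hab
    rw [hab] at hqd
    exact (Nat.Prime.coprime_iff_not_dvd hq).1 hb.symm hqd
  -- conjugate a into H
  obtain ⟨S, hS⟩ := exists_sylow_of_orderOf hk
  have hqH : q ∣ Nat.card H := hx q hq hqd
  have hqidx : ¬ q ∣ H.index := by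
    intro h
    exact hq.one_lt.ne' (Nat.Coprime.eq_one_of_dvd (Nat.Coprime.coprime_dvd_left hqH hHall) h)
  obtain ⟨g, hg⟩ := Cfsg.Agent.H18.exists_sylow_le_conj S H hqidx
  have hay : g⁻¹ * a * g ∈ H := mem_map_conj.1 (hg hS)
  refine ⟨g, ?_⟩
  set c := g⁻¹ * b * g with hc
  have hcN : c ∈ Subgroup.normalizer (H : Set G) := by
    by_contra hno
    apply ha1
    have h1 := hTI c hno (g⁻¹ * a * g) hay (by
      have e : c * (g⁻¹ * a * g) * c⁻¹ = g⁻¹ * (b * a * b⁻¹) * g := by
        rw [hc]; group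
      rw [e]
      have e2 : b * a * b⁻¹ = a := by
        rw [← hcomm.eq]; simp
      rw [e2]
      exact hay)
    have : a = g * (g⁻¹ * a * g) * g⁻¹ := by group
    rw [this, h1]; simp
  have hcH : c ∈ H := by
    apply mem_of_normalizes H hHall c _ hcN
    intro r hr hr1
    have h1 : orderOf c = orderOf b := by
      have := SemiconjBy.orderOf_eq g⁻¹ (x := b) (y := c) (by simp [SemiconjBy, hc, mul_assoc])
      exact this.symm
    rw [h1] at hr1
    exact hx r hr (hr1.trans (orderOf_dvd_of_mem_zpowers hbm))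
  have e : g⁻¹ * x * g = (g⁻¹ * a * g) * c := by
    rw [hab, hc]; group
  rw [e]
  exact H.mul_mem hay hcH

end

/-- Let G be a finite group with a subgroup H whose order is coprime to its index (a Hall subgroup) and which meets each of its conjugates by elements outside N_G(H) trivially. Then every subgroup of G whose order is divisible only by primes dividing the order of H lies in a conjugate of H. -/
theorem result {G : Type*} [Group G] [Finite G] (H : Subgroup G)
    (hHall : (Nat.card H).Coprime H.index) (hTI : Cfsg.IsTISubset (H : Set G))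
    (K : Subgroup G) (hK : ∀ q : ℕ, q.Prime → q ∣ Nat.card K → q ∣ Nat.card H) :
    ∃ g : G, K ≤ H.map (MulAut.conj g).toMonoidHom := by
  classical
  by_cases hKt : Nontrivial K
  swap
  · refine ⟨1, ?_⟩
    intro x hx
    rw [not_nontrivial_iff_subsingleton] at hKt
    have h1 : (⟨x, hx⟩ : K) = 1 := Subsingleton.elim _ _
    have h2 : x = 1 := congrArg Subtype.val h1
    rw [h2]
    exact Subgroup.one_mem _
  -- π-elements of K
  have hπ : ∀ z : K, ∀ q : ℕ, q.Prime → q ∣ orderOf (z : G) → q ∣ Nat.card H := by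
    intro z q hq h
    apply hK q hq
    rw [Subgroup.orderOf_coe] at h
    exact h.trans (orderOf_dvd_natCard z)
  let Lg : G → Subgroup K := fun g => (H.map (MulAut.conj g).toMonoidHom).subgroupOf K
  have hLg : ∀ (g : G) (z : K), z ∈ Lg g ↔ g⁻¹ * z * g ∈ H := by
    intro g z
    rw [Subgroup.mem_subgroupOf, mem_map_conj]
  let 𝓟 : Set (Subgroup K) := {L | L ≠ ⊥ ∧ ∃ g, L = Lg g}
  have hconj : ∀ (g : G) (c : K), MulAut.conj c • Lg g = Lg ((c : G) * g) := by
    intro g c
    ext z
    rw [mem_conj_smul, hLg, hLg]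
    have e : ((c : G) * g)⁻¹ * z * ((c : G) * g) = g⁻¹ * ((c⁻¹ * z * c : K) : G) * g := by
      simp only [Subgroup.coe_mul, Subgroup.coe_inv]
      group
    rw [e]
  have h2aux : ∀ (g₁ g₂ : G) (y : K), y ≠ 1 → y ∈ Lg g₁ → y ∈ Lg g₂ →
      g₂⁻¹ * g₁ ∈ Subgroup.normalizer (H : Set G) := by
    intro g₁ g₂ y hy hy1 hy2
    rw [hLg] at hy1 hy2
    by_contra hno
    apply hy
    have h1 := hTI _ hno _ hy1 (by
      have e : g₂⁻¹ * g₁ * (g₁⁻¹ * (y : G) * g₁) * (g₂⁻¹ * g₁)⁻¹ = g₂⁻¹ * y * g₂ := by group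
      rw [e]; exact hy2)
    apply Subtype.ext
    show (y : G) = 1
    have : (y : G) = g₁ * (g₁⁻¹ * y * g₁) * g₁⁻¹ := by group
    rw [this, h1]; simp
  have hP : (⊤ : Subgroup K) ∈ 𝓟 := by
    apply top_mem_of_partition 𝓟
    · exact fun L hL => hL.1
    · rintro L ⟨hL, g, rfl⟩ c
      refine ⟨?_, (c : G) * g, hconj g c⟩
      intro h
      apply hL
      have := congrArg (fun M => MulAut.conj c⁻¹ • M) h
      simpa [smul_smul, ← map_mul] using this
    · rintro L ⟨hL, g₁, rfl⟩ L' ⟨hL', g₂, rfl⟩ y hy hy1 hy2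
      have hn := h2aux g₁ g₂ y hy hy1 hy2
      ext z
      rw [hLg, hLg]
      have e : g₂⁻¹ * g₁ * (g₁⁻¹ * (z : G) * g₁) * (g₂⁻¹ * g₁)⁻¹ = g₂⁻¹ * z * g₂ := by group
      rw [← e]
      exact Subgroup.mem_normalizer_iff.1 hn _
    · rintro L ⟨hL, g, rfl⟩ c hc
      obtain ⟨y, hy, hy1⟩ := (Subgroup.bot_or_exists_ne_one _).resolve_left hL
      have h1 : c * y * c⁻¹ ∈ Lg g := by
        rw [← hc, mem_conj_smul]
        simpa [mul_assoc] using hy
      have hy' := (hLg g y).1 hy
      have h1' := (hLg g _).1 h1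
      rw [hLg]
      have hdN : g⁻¹ * c * g ∈ Subgroup.normalizer (H : Set G) := by
        by_contra hno
        apply hy1
        have h3 := hTI _ hno _ hy' (by
          have e : g⁻¹ * c * g * (g⁻¹ * (y : G) * g) * (g⁻¹ * c * g)⁻¹ = g⁻¹ * ((c * y * c⁻¹ : K) : G) * g := by
            simp only [Subgroup.coe_mul, Subgroup.coe_inv]
            group
          rw [e]; exact h1')
        apply Subtype.ext
        show (y : G) = 1
        have : (y : G) = g * (g⁻¹ * y * g) * g⁻¹ := by group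
        rw [this, h3]; simp
      apply mem_of_normalizes H hHall _ _ hdN
      intro q hq hq1
      apply hπ c q hq
      have h5 : orderOf (g⁻¹ * (c : G) * g) = orderOf (c : G) := by
        have := SemiconjBy.orderOf_eq g⁻¹ (x := (c : G)) (y := g⁻¹ * (c : G) * g)
          (by simp [SemiconjBy, mul_assoc])
        exact this.symm
      rwa [h5] at hq1
    · intro x hx
      obtain ⟨g, hg⟩ := exists_conj_mem H hHall hTI (x : G) (hπ x)
      refine ⟨Lg g, ⟨?_, g, rfl⟩, (hLg g x).2 hg⟩
      intro h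
      have h1 : x ∈ Lg g := (hLg g x).2 hg
      rw [h, Subgroup.mem_bot] at h1
      exact hx h1
  obtain ⟨-, g, hg⟩ := hP
  refine ⟨g, ?_⟩
  intro x hx
  have h1 : (⟨x, hx⟩ : K) ∈ Lg g := by
    rw [← hg]; exact Subgroup.mem_top _
  exact h1

end Cfsg.Agent.S4116
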