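import Cfsg.Statements.S4117
import Cfsg.Agent.Lib.H19.ZCoprime2
import Cfsg.Agent.Lib.H18.Syl

set_option autoImplicit false
open Cfsg

namespace Cfsg.Agent.S4117

open Cfsg.Agent.H19
open scoped commutatorElement

theorem result {G A : Type*} [Group G] [Finite G] [Group A] [Finite A]
    [MulDistribMulAction A G] (hcop : (Nat.card A).Coprime (Nat.card G))
    (hcyc : ∀ (p : ℕ) [Fact p.Prime] (P : Sylow p G), IsCyclic (P : Subgroup G)) :
    (Nat.card (MulAction.fixedPoints A G : Set G)).Coprime (Nat.card G / Nat.card (MulAction.fixedPoints A G : Set G)) ∧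
    IsCyclic (Subgroup.closure {y : G | ∃ (a : A) (g : G), y = g⁻¹ * a • g}) ∧
    (Subgroup.closure {y : G | ∃ (a : A) (g : G), y = g⁻¹ * a • g}).Normal ∧
    (Subgroup.closure {y : G | ∃ (a : A) (g : G), y = g⁻¹ * a • g} : Set G) ∩ MulAction.fixedPoints A G = {1} ∧
    Subgroup.closure {y : G | ∃ (a : A) (g : G), y = g⁻¹ * a • g} ⊔ Subgroup.closure (MulAction.fixedPoints A G) = ⊤ := by
  classical
  let φ : A →* MulAut G := MulDistribMulAction.toMulAut A G
  let ι : G →* (G ⋊[φ] A) := SemidirectProduct.inl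
  let κ : A →* (G ⋊[φ] A) := SemidirectProduct.inr
  haveI : Finite (G ⋊[φ] A) := Finite.of_equiv _ (SemidirectProduct.equivProd (φ := φ)).symm
  have hι : Function.Injective ι := SemidirectProduct.inl_injective
  have hκ : Function.Injective κ := SemidirectProduct.inr_injective
  have hconj : ∀ (a : A) (g : G), κ a * ι g * (κ a)⁻¹ = ι (a • g) := by
    intro a g
    have := (SemidirectProduct.inl_aut (φ := φ) a g).symm
    simpa [ι, κ, φ, map_inv] using this
  set X : Subgroup (G ⋊[φ] A) := ι.range with hX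
  set A' : Subgroup (G ⋊[φ] A) := κ.range with hA'
  have hAX : A' ≤ Subgroup.normalizer (X : Set (G ⋊[φ] A)) := by
    rintro _ ⟨a, rfl⟩
    apply mem_normalizer_of_conj_le
    rintro _ ⟨g, rfl⟩
    exact ⟨a • g, (hconj a g).symm⟩
  have hcX : Nat.card X = Nat.card G := Nat.card_congr (MonoidHom.ofInjective hι).toEquiv.symm
  have hcA' : Nat.card A' = Nat.card A := Nat.card_congr (MonoidHom.ofInjective hκ).toEquiv.symm
  have hcop' : (Nat.card A').Coprime (Nat.card X) := by rw [hcX, hcA']; exact hcop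
  have hCycP : CycP X := by
    intro p hp Q hQ hQp
    haveI := Fact.mk hp
    have hQ' : IsPGroup p (Q.comap ι) := hQp.comap_of_injective _ hι
    obtain ⟨P, hP⟩ := hQ'.exists_le_sylow
    haveI := hcyc p P
    haveI : IsCyclic (Q.comap ι) := Subgroup.isCyclic_of_le hP
    have e : (Q.comap ι).map ι = Q := Subgroup.map_comap_eq_self (by rw [← hX]; exact hQ)
    rw [← e]
    exact isCyclic_of_surjective _ (Subgroup.equivMapOfInjective (Q.comap ι) ι hι).surjective
  obtain ⟨h1, h2, h3, h4⟩ := commutator_structure hAX hcop' hCycP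
  set S : Set G := {y : G | ∃ (a : A) (g : G), y = g⁻¹ * a • g} with hS
  set L : Subgroup G := Subgroup.closure S with hL
  have hcomm : ∀ (g : G) (a : A), ⁅ι g⁻¹, κ a⁆ = ι (g⁻¹ * a • g) := by
    intro g a
    rw [commutatorElement_def, map_mul, ← hconj, map_inv]
    group
  have hLmap : (⁅X, A'⁆ : Subgroup (G ⋊[φ] A)) = L.map ι := by
    apply le_antisymm
    · rw [Subgroup.commutator_le]
      rintro _ ⟨g, rfl⟩ _ ⟨a, rfl⟩
      have := hcomm g⁻¹ a
      rw [inv_inv] at this
      rw [this]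
      exact ⟨_, Subgroup.subset_closure ⟨a, g⁻¹, rfl⟩, by rw [inv_inv]⟩
    · rw [Subgroup.map_le_iff_le_comap, hL, Subgroup.closure_le]
      rintro _ ⟨a, g, rfl⟩
      change ι (g⁻¹ * a • g) ∈ (⁅X, A'⁆ : Subgroup (G ⋊[φ] A))
      rw [← hcomm]
      exact Subgroup.commutator_mem_commutator ⟨_, rfl⟩ ⟨a, rfl⟩
  let F : Subgroup G := FixedPoints.subgroup A G
  have hFmem : ∀ g : G, g ∈ F ↔ ∀ a : A, a • g = g := fun g => Iff.rfl
  have hFmap : (X ⊓ Subgroup.centralizer (A' : Set (G ⋊[φ] A))) = F.map ι := by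
    apply le_antisymm
    · rintro _ ⟨⟨g, rfl⟩, hg⟩
      refine ⟨g, ?_, rfl⟩
      change g ∈ F
      rw [hFmem]
      intro a
      apply hι
      rw [← hconj]
      have := Subgroup.mem_centralizer_iff.1 hg (κ a) ⟨a, rfl⟩
      rw [this, mul_inv_cancel_right]
    · rintro _ ⟨g, hg, rfl⟩
      refine ⟨⟨g, rfl⟩, ?_⟩
      change ι g ∈ Subgroup.centralizer (A' : Set (G ⋊[φ] A))
      rw [Subgroup.mem_centralizer_iff]
      rintro _ ⟨a, rfl⟩
      have := hconj a g
      rw [(hFmem g).1 (show g ∈ F from hg) a] at this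
      exact mul_inv_eq_iff_eq_mul.1 this
  rw [hLmap] at h1 h2 h3 h4
  rw [hFmap] at h3 h4
  have hLF : L ⊓ F = ⊥ := by
    rw [eq_bot_iff]
    rintro x ⟨hxL, hxF⟩
    have h5 : ι x ∈ L.map ι ⊓ Subgroup.centralizer (A' : Set (G ⋊[φ] A)) := by
      refine ⟨⟨x, hxL, rfl⟩, ?_⟩
      have : ι x ∈ X ⊓ Subgroup.centralizer (A' : Set (G ⋊[φ] A)) := by
        rw [hFmap]; exact ⟨x, hxF, rfl⟩
      exact this.2
    rw [h2, Subgroup.mem_bot] at h5
    rw [Subgroup.mem_bot]
    exact hι (by rw [h5, map_one])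
  have hLFtop : L ⊔ F = ⊤ := by
    apply Subgroup.map_injective hι
    rw [Subgroup.map_sup, h4, hX, MonoidHom.range_eq_map]
  have hLnormal : L.Normal := by
    constructor
    intro y hy g
    have h5 : ι y ∈ (⁅X, A'⁆ : Subgroup (G ⋊[φ] A)) := by
      rw [hLmap]; exact ⟨y, hy, rfl⟩
    have h6 := normalizes_commutator (X := X) (A := A') (x := ι g) ⟨g, rfl⟩
    have h7 := (Subgroup.mem_normalizer_iff.1 h6 _).1 h5
    rw [hLmap] at h7
    obtain ⟨z, hz, hzy⟩ := h7
    have : z = g * y * g⁻¹ := hι (by rw [hzy, map_mul, map_mul, map_inv])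
    rw [← this]; exact hz
  have hcL : Nat.card (L.map ι) = Nat.card L :=
    Nat.card_congr (Subgroup.equivMapOfInjective L ι hι).toEquiv.symm
  have hcF : Nat.card (F.map ι) = Nat.card F :=
    Nat.card_congr (Subgroup.equivMapOfInjective F ι hι).toEquiv.symm
  have hcFp : Nat.card (MulAction.fixedPoints A G : Set G) = Nat.card F := rfl
  have hprod : Nat.card G = Nat.card L * Nat.card F := by
    have := H18.card_sup_mul_card_inf F L
    rw [sup_comm, hLFtop, inf_comm, hLF] at this
    simp only [Subgroup.card_top, Subgroup.card_bot, mul_one] at this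
    rw [this, mul_comm]
  have hdiv : Nat.card G / Nat.card F = Nat.card L := by
    rw [hprod]
    exact Nat.mul_div_cancel _ Nat.card_pos
  refine ⟨?_, ?_, hLnormal, ?_, ?_⟩
  · rw [hcFp, hdiv]
    rw [hcL, hcF] at h3
    exact h3.symm
  · exact isCyclic_of_surjective _ (Subgroup.equivMapOfInjective L ι hι).symm.surjective
  · ext x
    simp only [Set.mem_inter_iff, Set.mem_singleton_iff]
    constructor
    · rintro ⟨h5, h6⟩
      have : x ∈ L ⊓ F := ⟨h5, h6⟩
      rw [hLF] at this
      exact this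
    · rintro rfl
      exact ⟨L.one_mem, F.one_mem⟩
  · have : Subgroup.closure (MulAction.fixedPoints A G) = F := Subgroup.closure_eq F
    rw [this]; exact hLFtop

end Cfsg.Agent.S4117
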