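import Cfsg.Statements.S4126
import Cfsg.Agent.Lib.H19.OmegaFusion

set_option autoImplicit false
open Cfsg

namespace Cfsg.Agent.S4126

open Cfsg.Agent.H19 Cfsg.Agent.H13

theorem result {G : Type*} [Group G] [Finite G] (p : ℕ) [Fact p.Prime]
    (h : ∀ x : G, (orderOf x = p ∨ (p = 2 ∧ orderOf x = 4)) → ∃ a : ℕ, (Subgroup.centralizer ({x} : Set G)).index = p ^ a) :
    Cfsg.HasNormalPComplement p G := by
  have hpp : p.Prime := Fact.out
  apply hasNormalPComplement_of_frobCond
  intro Q hQ g hgN hgc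
  obtain ⟨T, hQT⟩ := hQ.exists_le_sylow
  apply centralizes_of_fusion (T := (T : Subgroup G)) T.isPGroup' hQT hgN hgc
  intro x hxQ hx y
  by_cases hx1 : x = 1
  · refine ⟨1, Subgroup.one_mem _, ?_⟩
    subst hx1; simp
  have hord : orderOf x = p ∨ (p = 2 ∧ orderOf x = 4) := by
    rcases hx with hx | ⟨hp2, hx⟩
    · exact Or.inl (orderOf_eq_prime hx hx1)
    · subst hp2
      by_cases hx2 : x ^ 2 = 1
      · exact Or.inl (orderOf_eq_prime hx2 hx1)
      · right
        refine ⟨rfl, ?_⟩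
        have := orderOf_eq_prime_pow (p := 2) (n := 1) (x := x) (by simpa using hx2) (by simpa using hx)
        simpa using this
  obtain ⟨a, ha⟩ := h x hord
  obtain ⟨t, ht, c, hc, rfl⟩ := exists_sylow_mul_of_index_pow T (Subgroup.centralizer ({x} : Set G)) ha y
  refine ⟨t, ht, ?_⟩
  have hc2 : c * x = x * c := (Subgroup.mem_centralizer_iff.1 hc x rfl).symm
  have : t * c * x * (t * c)⁻¹ = t * (c * x) * c⁻¹ * t⁻¹ := by group
  rw [this, hc2]; group

end Cfsg.Agent.S4126
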