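import Cfsg.Statements.S4130
import Mathlib
import Cfsg.Agent.Lib.H18.Sq7

set_option autoImplicit false
open Cfsg

namespace Cfsg.Agent.S4130

open scoped commutatorElement


/-- Let G be a finite group all of whose conjugacy class sizes are square-free. Then G is supersolvable, G/F(G) and the derived subgroup G′ are cyclic of square-free order (F(G) the Fitting subgroup, which is normal), F(G) has nilpotency class at most 2, and G is metabelian. -/
theorem result {G : Type*} [Group G] [Finite G]
    (h : ∀ x : G, Squarefree (Subgroup.centralizer ({x} : Set G)).index) :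
    Cfsg.IsSupersolvable G ∧ (Cfsg.fittingSubgroup G).Normal ∧
    (∀ _h : (Cfsg.fittingSubgroup G).Normal, IsCyclic (G ⧸ Cfsg.fittingSubgroup G) ∧ Squarefree (Cfsg.fittingSubgroup G).index) ∧
    IsCyclic (commutator G) ∧ Squarefree (Nat.card (commutator G)) ∧
    Subgroup.upperCentralSeries ↥(Cfsg.fittingSubgroup G) 2 = ⊤ ∧ commutator ↥(commutator G) = ⊥ := by
  classical
have hSq : H18.SqCl G := h
have hcm : ∀ a b : G, a * b * a⁻¹ * b⁻¹ ∈ commutator G := fun a b => by
  rw [_root_.commutator_def]
  exact Subgroup.commutator_mem_commutator (Subgroup.mem_top a) (Subgroup.mem_top b)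
have hXsf := H18.squarefree_card_commutator hSq
have hSS := H18.isSupersolvable_of_sqCl hSq
haveI hXnil : Group.IsNilpotent (commutator G) := H02.commutator_isNilpotent hSS
haveI : IsZGroup (commutator G) := IsZGroup.of_squarefree hXsf
haveI hXcyc : IsCyclic (commutator G) := inferInstance
have hFn : (Cfsg.fittingSubgroup G).Normal := H01.fitting_normal
have hXn : (commutator G).Normal := inferInstance
have hXF : commutator G ≤ Cfsg.fittingSubgroup G := H01.le_fitting hXn hXnil
obtain ⟨c, hc⟩ := IsCyclic.exists_generator (α := commutator G)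
-- the centralizer of the derived subgroup is nilpotent
have hYn : (Subgroup.centralizer ((commutator G : Subgroup G) : Set G)).Normal := H01.centralizer_normal hXn
have hYnil : Group.IsNilpotent (Subgroup.centralizer ((commutator G : Subgroup G) : Set G)) := by
  refine ⟨2, ?_⟩
  rw [eq_top_iff]
  intro y _
  rw [Subgroup.mem_upperCentralSeries_succ_iff]
  intro u
  rw [Subgroup.upperCentralSeries_one, Subgroup.mem_center_iff]
  intro v
  apply Subtype.ext
  have h1 : ((y : G) * u * (y : G)⁻¹ * (u : G)⁻¹) ∈ commutator G := hcm _ _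
  exact (Subgroup.mem_centralizer_iff.1 v.2 _ h1).symm
have hYF := H01.le_fitting hYn hYnil
have hcY : Subgroup.centralizer ({(c : G)} : Set G) ≤
    Subgroup.centralizer ((commutator G : Subgroup G) : Set G) := by
  intro g hg
  rw [Subgroup.mem_centralizer_iff]
  intro x hx
  obtain ⟨k, hk⟩ := hc ⟨x, hx⟩
  have h1 : x = (c : G) ^ k := by
    have := congrArg Subtype.val hk
    simpa using this.symm
  have h2 : Commute g (c : G) := Subgroup.mem_centralizer_singleton_iff.1 hg
  rw [h1]
  exact ((h2.zpow_right k).eq).symm
have hidx : Squarefree (Cfsg.fittingSubgroup G).index :=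
  (hSq c).squarefree_of_dvd (Subgroup.index_dvd_of_le (hcY.trans hYF))
have hquot : ∀ _h : (Cfsg.fittingSubgroup G).Normal,
    IsCyclic (G ⧸ Cfsg.fittingSubgroup G) ∧ Squarefree (Cfsg.fittingSubgroup G).index := by
  intro _h
  refine ⟨?_, hidx⟩
  have hcomm : IsMulCommutative (G ⧸ Cfsg.fittingSubgroup G) :=
    Subgroup.Normal.quotient_commutative_iff_commutator_le.2 hXF
  haveI : IsZGroup (G ⧸ Cfsg.fittingSubgroup G) := IsZGroup.of_squarefree hidx
  haveI : Group.IsNilpotent (G ⧸ Cfsg.fittingSubgroup G) := by
    refine ⟨1, ?_⟩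
    rw [Subgroup.upperCentralSeries_one, eq_top_iff]
    intro x _
    rw [Subgroup.mem_center_iff]
    intro g
    exact hcomm.is_comm.comm g x
  infer_instance
have hFnil : Group.IsNilpotent (Cfsg.fittingSubgroup G) := H01.fitting_nilpotent
have hFcomm : Squarefree (Nat.card (commutator (Cfsg.fittingSubgroup G))) := by
  refine hXsf.squarefree_of_dvd ?_
  have h1 : Nat.card (commutator (Cfsg.fittingSubgroup G)) =
      Nat.card ((commutator (Cfsg.fittingSubgroup G)).map (Cfsg.fittingSubgroup G).subtype) :=
    Nat.card_congr ((commutator (Cfsg.fittingSubgroup G)).equivMapOfInjective _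
      (Cfsg.fittingSubgroup G).subtype_injective).toEquiv
  rw [h1]
  refine Subgroup.card_dvd_of_le ?_
  rw [Subgroup.map_subtype_commutator, _root_.commutator_def]
  exact Subgroup.commutator_mono le_top le_top
have hF2 : Subgroup.upperCentralSeries (Cfsg.fittingSubgroup G) 2 = ⊤ := by
  rw [eq_top_iff]
  intro x _
  rw [Subgroup.mem_upperCentralSeries_succ_iff]
  intro y
  rw [Subgroup.upperCentralSeries_one]
  refine H18.central_of_squarefree (commutator (Cfsg.fittingSubgroup G)) hFcomm ?_
  rw [_root_.commutator_def]
  exact Subgroup.commutator_mem_commutator (Subgroup.mem_top _) (Subgroup.mem_top _)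
have hXX : commutator (commutator G) = ⊥ := by
  refine (commutator_eq_bot_iff_center_eq_top _).2 ?_
  rw [eq_top_iff]
  intro x _
  rw [Subgroup.mem_center_iff]
  intro g
  exact (IsCyclic.commGroup (α := commutator G)).mul_comm g x
exact ⟨hSS, hFn, hquot, hXcyc, hXsf, hF2, hXX⟩

end Cfsg.Agent.S4130
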