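import Cfsg.Statements.S4135
import Cfsg.Agent.Lib.H06.TC3

set_option autoImplicit false
open Cfsg

namespace Cfsg.Agent.S4135

/-- Let G be a finite group, r a prime and R a Sylow r-subgroup of G that is not central, N a normal subgroup of G containing R, and m a natural number such that every element of N has a conjugacy class in G of size 1 or m. Then N is nilpotent. -/
theorem result {G : Type*} [Group G] [Finite G] (r : ℕ) [Fact r.Prime]
    (R : Sylow r G) (hR : ¬ (R : Subgroup G) ≤ Subgroup.center G) (N : Subgroup G) [N.Normal] (hRN : (R : Subgroup G) ≤ N)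
    (m : ℕ) (h : ∀ x ∈ N, (Subgroup.centralizer ({x} : Set G)).index = 1 ∨ (Subgroup.centralizer ({x} : Set G)).index = m) : Group.IsNilpotent N := by
  classical
  have hC : ∀ y ∈ N, (orderOf y).Coprime r → ∀ x ∈ N, x * y = y * x := by
    by_cases hrm : r ∣ m
    · -- the case `r ∣ m`
      have hC0 : ∀ (s : ℕ) (_ : s.Prime), s ≠ r → ∀ y ∈ N, ∀ k : ℕ, y ^ (s ^ k) = 1 →
          ∀ x ∈ N, x * y = y * x := by
        intro s hs hsr y hy k hk x hx
        haveI : Fact s.Prime := ⟨hs⟩
        by_cases hsm : s ∣ m
        · by_cases hyZ : y ∈ Subgroup.center G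
          · exact Subgroup.mem_center_iff.mp hyZ x
          · exact (Cfsg.Agent.H06.tc_machine hsr.symm N m h hrm hsm R hRN hR hy hyZ hk).elim
        · exact (Cfsg.Agent.H06.tc_central_of_not_dvd N m h hsm hy hk hx).symm
      have hind : ∀ (n : ℕ) (y : G), orderOf y = n → y ∈ N → n.Coprime r →
          ∀ x ∈ N, x * y = y * x := by
        intro n
        induction n using Nat.strong_induction_on with
        | _ n ih =>
          intro y hyn hyN hco x hx
          by_cases hn1 : n = 1
          · rw [hn1, orderOf_eq_one_iff] at hyn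
            rw [hyn, mul_one, one_mul]
          · have hs := Nat.minFac_prime hn1
            haveI : Fact n.minFac.Prime := ⟨hs⟩
            have hsd : n.minFac ∣ n := Nat.minFac_dvd n
            have hsr : n.minFac ≠ r := by
              intro h1
              have h2 : n.minFac ∣ n.gcd r := Nat.dvd_gcd hsd (by rw [h1])
              rw [hco.gcd_eq_one] at h2
              exact hs.one_lt.ne' (Nat.dvd_one.mp h2)
            obtain ⟨a, b, k, ha, hb, hab, hak, hbco⟩ := Cfsg.Agent.H06.tc_decomp y n.minFac
            have hle : Subgroup.zpowers y ≤ N := by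
              rw [Subgroup.zpowers_le]
              exact hyN
            have hbd : orderOf b ∣ n := hyn ▸ orderOf_dvd_of_mem_zpowers hb
            have hblt : orderOf b < n := by
              refine lt_of_le_of_ne (Nat.le_of_dvd (hyn ▸ orderOf_pos y) hbd) ?_
              intro h1
              rw [h1] at hbco
              have h2 := Nat.dvd_gcd hsd (dvd_refl _)
              rw [hbco.gcd_eq_one] at h2
              exact hs.one_lt.ne' (Nat.dvd_one.mp h2)
            have h1 := hC0 n.minFac hs hsr a (hle ha) k hak x hx
            have h2 := ih (orderOf b) hblt b rfl (hle hb)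
              (Nat.Coprime.coprime_dvd_left hbd hco) x hx
            rw [← hab]
            calc x * (a * b) = (x * a) * b := by group
              _ = (a * x) * b := by rw [h1]
              _ = a * (x * b) := by group
              _ = a * (b * x) := by rw [h2]
              _ = (a * b) * x := by group
      exact fun y hy hco => hind _ y rfl hy hco
    · -- the case `r ∤ m`
      intro y hy hco x hx
      obtain ⟨u, huR, huZ⟩ := Set.not_subset.mp hR
      obtain ⟨ku, hku⟩ : ∃ k, u ^ (r ^ k) = 1 := by
        obtain ⟨k, hk⟩ := R.isPGroup' ⟨u, huR⟩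
        exact ⟨k, congrArg Subtype.val hk⟩
      have huN := hRN huR
      by_cases hyZ : y ∈ Subgroup.center G
      · exact Subgroup.mem_center_iff.mp hyZ x
      · have h1 := Cfsg.Agent.H06.tc_central_of_not_dvd N m h hrm huN hku hy
        have hcouy : (orderOf u).Coprime (orderOf y) :=
          Nat.Coprime.coprime_dvd_left (orderOf_dvd_of_pow_eq_one hku)
            (Nat.Coprime.pow_left _ hco.symm)
        have h2 := Cfsg.Agent.H06.tc_B1 N m h huN hy huZ hyZ h1 hcouy
        have h3 : x ∈ Subgroup.centralizer ({u} : Set G) :=
          Subgroup.mem_centralizer_singleton_iff.mpr (Cfsg.Agent.H06.tc_central_of_not_dvd N m h hrm huN hku hx).symm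
        have h2' : Subgroup.centralizer ({u} : Set G) = Subgroup.centralizer ({y} : Set G) := h2
        have h4 : x ∈ Subgroup.centralizer ({y} : Set G) := h2' ▸ h3
        exact Subgroup.mem_centralizer_singleton_iff.mp h4
  -- `N / Z(N)` is an `r`-group
  let Z' : Subgroup N := Subgroup.center N
  let f : N →* N ⧸ Z' := QuotientGroup.mk' Z'
  have hp : IsPGroup r (N ⧸ Z') := by
    intro q
    induction q using QuotientGroup.induction_on with
    | H x =>
      obtain ⟨a, b, k, _, _, hab, hak, hbco⟩ := Cfsg.Agent.H06.tc_decomp x r
      refine ⟨k, ?_⟩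
      have hbZ : b ∈ Z' := by
        rw [Subgroup.mem_center_iff]
        intro g
        apply Subtype.ext
        have h1 := hC (b : G) b.2 (by rwa [Subgroup.orderOf_coe]) g g.2
        exact h1
      have h2 : ((b : N) : N ⧸ Z') = 1 := (QuotientGroup.eq_one_iff b).mpr hbZ
      have h3 : ((x : N) : N ⧸ Z') = ((a : N) : N ⧸ Z') := by
        rw [← hab, QuotientGroup.mk_mul, h2, mul_one]
      rw [h3, ← QuotientGroup.mk_pow, hak]
      rfl
  haveI hnil : Group.IsNilpotent (N ⧸ Z') := hp.isNilpotent
  refine Subgroup.isNilpotent_of_ker_le_center f ?_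
  intro x hx
  have h1 : ((x : N) : N ⧸ Z') = 1 := hx
  exact (QuotientGroup.eq_one_iff x).mp h1

end Cfsg.Agent.S4135
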