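import Cfsg.Statements.S4138
import Mathlib
import Cfsg.Agent.Lib.H08.CC5
-- import your own Cfsg.Agent.* helpers here

set_option autoImplicit false
open Cfsg

namespace Cfsg.Agent.S4138

open Cfsg.Agent.H08.CC in
/-- the final assembly -/
theorem assemble {G : Type*} [Group G] [Finite G] (m n : ℕ) (hmn : n < m) (hn : 1 < n)
    (hcop : m.Coprime n) (htop : ∀ z : G, (cz z).index ≤ m)
    (hsecond : ∀ z : G, (cz z).index < m → (cz z).index ≤ n)
    (x y : G) (hx : (cz x).index = n) (hy : (cz y).index = m) :
    IsMulCommutative (cz x) ∧ IsMulCommutative (cz y) ∧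
    Cfsg.IsFrobeniusComplement ((cz y).map (QuotientGroup.mk' (Subgroup.center G))) ∧
    Cfsg.frobeniusKernel ((cz y).map (QuotientGroup.mk' (Subgroup.center G))) =
      ((cz x).map (QuotientGroup.mk' (Subgroup.center G)) : Set (G ⧸ Subgroup.center G)) := by
  have hc : ((cz x).index).Coprime m := by rw [hx]; exact hcop.symm
  obtain ⟨z, hz, τ, hτ, hrep⟩ := sg_central htop hy hc
  have hzc : ∀ w, w * z = z * w := Subgroup.mem_center_iff.1 hz
  have hcz : cz x = cz τ := by
    ext w
    rw [mem_cz, mem_cz, hrep]
    constructor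
    · intro h
      have h1 : z * (w * τ) = z * (τ * w) := by
        calc z * (w * τ) = (z * w) * τ := by group
          _ = (w * z) * τ := by rw [hzc]
          _ = w * (z * τ) := by group
          _ = z * τ * w := h
          _ = z * (τ * w) := by group
      exact mul_left_cancel h1
    · intro h
      calc w * (z * τ) = (w * z) * τ := by group
        _ = (z * w) * τ := by rw [hzc]
        _ = z * (w * τ) := by group
        _ = z * (τ * w) := by rw [h]
        _ = z * τ * w := by group
  have X : Setup m n (sg x) τ :=
    { hmn := hmn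
      hn := hn
      hcop := hcop
      top := htop
      dich := by
        intro w
        by_cases h : (cz w).index < m
        · exact Or.inr (hsecond w h)
        · exact Or.inl (le_antisymm (htop w) (not_lt.1 h))
      cS := sg_comm htop hy hc
      dS := sg_card_dvd htop hy hc
      aS := fun w hw _ _ h1 h2 => sg_act htop hc hw h1 h2
      hs := hτ
      is := by rw [← hcz]; exact hx
      gen := by
        intro u hu
        apply (Subgroup.closure_le _).2
        rintro _ ⟨a', ha, rfl⟩
        obtain ⟨g, rfl⟩ := isConj_iff.1 ha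
        have h1 : x⁻¹ * (g * x * g⁻¹) = τ⁻¹ * (g * τ * g⁻¹) := by
          have h2 : g * z = z * g := hzc g
          have h3 : g * x * g⁻¹ = z * (g * τ * g⁻¹) := by
            rw [hrep]
            calc g * (z * τ) * g⁻¹ = (g * z) * τ * g⁻¹ := by group
              _ = (z * g) * τ * g⁻¹ := by rw [h2]
              _ = _ := by group
          rw [h3, hrep]; group
        rw [SetLike.mem_coe, h1]
        have h4 := hu 1
        have h5 : (1 : G) * τ * (1 : G)⁻¹ = τ := by group
        rw [h5] at h4
        exact (cz u).mul_mem ((cz u).inv_mem h4) (hu g)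
      ey := ⟨y, hy⟩ }
  have hM : cz x = MM (sg x) := hcz.trans X.cz_eq_M
  have hyM : y ∉ MM (sg x) := by
    intro h
    have hMa : MM (sg x) ≤ cz y := fun b hb => mem_cz.2 (X.M_comm b hb y h)
    have h1 : (cz y).index ∣ n := by
      rw [← X.index_M]; exact Subgroup.index_dvd_of_le hMa
    rw [hy] at h1
    have h2 := Nat.le_of_dvd (by omega) h1
    omega
  obtain ⟨h1, h2⟩ := X.frob hy
  refine ⟨?_, ?_, h1, ?_⟩
  · rw [hM]
    exact ⟨⟨fun a b => Subtype.ext (X.M_comm a a.2 b b.2)⟩⟩
  · exact ⟨⟨fun a b => Subtype.ext (X.cz_comm hyM a a.2 b b.2)⟩⟩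
  · rw [hM]; exact h2


/-- Let G be a finite group whose two largest conjugacy class sizes m > n > 1 are coprime, and let x, y ∈ G have classes of sizes n and m respectively. Then C_G(x) and C_G(y) are abelian, and G/Z(G) is a Frobenius group with kernel C_G(x)/Z(G) and complement C_G(y)/Z(G). -/
theorem result {G : Type*} [Group G] [Finite G] (m n : ℕ) (hmn : n < m) (hn : 1 < n)
    (hcop : m.Coprime n) (htop : ∀ z : G, (Subgroup.centralizer ({z} : Set G)).index ≤ m) (hsecond : ∀ z : G, (Subgroup.centralizer ({z} : Set G)).index < m → (Subgroup.centralizer ({z} : Set G)).index ≤ n)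
    (x y : G) (hx : (Subgroup.centralizer ({x} : Set G)).index = n) (hy : (Subgroup.centralizer ({y} : Set G)).index = m) :
    IsMulCommutative (Subgroup.centralizer ({x} : Set G)) ∧ IsMulCommutative (Subgroup.centralizer ({y} : Set G)) ∧
    Cfsg.IsFrobeniusComplement ((Subgroup.centralizer ({y} : Set G)).map (QuotientGroup.mk' (Subgroup.center G))) ∧
    Cfsg.frobeniusKernel ((Subgroup.centralizer ({y} : Set G)).map (QuotientGroup.mk' (Subgroup.center G))) =
      ((Subgroup.centralizer ({x} : Set G)).map (QuotientGroup.mk' (Subgroup.center G)) : Set (G ⧸ Subgroup.center G)) := by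
  exact assemble m n hmn hn hcop htop hsecond x y hx hy

end Cfsg.Agent.S4138
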