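import Cfsg.Statements.S4142
import Mathlib

set_option autoImplicit false
open Cfsg

namespace Cfsg.Agent.S4142

/-- Let G be a finite group and N a normal subgroup. Then the conjugacy class of every element g outside N is a union of cosets of N (gn is conjugate to g for all n ∈ N) if and only if for every g outside N the centralizer of g in G has the same order as the centralizer of gN in G/N. -/
theorem result {G : Type*} [Group G] [Finite G] (N : Subgroup G) [N.Normal] :
    (∀ g : G, g ∉ N → ∀ n ∈ N, ∃ x : G, x * g * x⁻¹ = g * n) ↔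
      ∀ g : G, g ∉ N → Nat.card (Subgroup.centralizer ({g} : Set G)) =
        Nat.card (Subgroup.centralizer ({(QuotientGroup.mk g : G ⧸ N)} : Set (G ⧸ N))) := by
  classical
  suffices H : ∀ g : G, (∀ n ∈ N, ∃ x : G, x * g * x⁻¹ = g * n) ↔
      Nat.card (Subgroup.centralizer ({g} : Set G)) =
        Nat.card (Subgroup.centralizer ({(QuotientGroup.mk g : G ⧸ N)} : Set (G ⧸ N))) by
    exact forall_congr' fun g => imp_congr_right fun _ => H g
  intro g
  let π : G →* G ⧸ N := QuotientGroup.mk' N
  have hπ : Function.Surjective π := QuotientGroup.mk'_surjective N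
  set Cbar := Subgroup.centralizer ({(QuotientGroup.mk g : G ⧸ N)} : Set (G ⧸ N)) with hCbar
  set C := Subgroup.centralizer ({g} : Set G) with hC
  set L := Cbar.comap π with hL
  have hmemL : ∀ x : G, x ∈ L ↔ g⁻¹ * (x * g * x⁻¹) ∈ N := by
    intro x
    rw [hL, Subgroup.mem_comap, hCbar, Subgroup.mem_centralizer_iff]
    constructor
    · intro h
      have h1 := h (QuotientGroup.mk g) rfl
      rw [← QuotientGroup.eq_one_iff]
      have e : ((g⁻¹ * (x * g * x⁻¹) : G) : G ⧸ N)
          = (π g)⁻¹ * (π x * π g * (π x)⁻¹) := rfl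
      rw [e]
      have h2 : π g * π x = π x * π g := h1
      rw [← h2]
      simp
    · intro h z hz
      rw [Set.mem_singleton_iff] at hz
      rw [hz]
      rw [← QuotientGroup.eq_one_iff] at h
      have e : ((g⁻¹ * (x * g * x⁻¹) : G) : G ⧸ N)
          = (π g)⁻¹ * (π x * π g * (π x)⁻¹) := rfl
      rw [e] at h
      have h3 : π x * π g * (π x)⁻¹ = π g := by
        have := mul_eq_one_iff_eq_inv.1 h
        exact (inv_inj.1 this).symm
      show π g * π x = π x * π g
      rw [← mul_left_inj (π x)⁻¹]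
      rw [h3]
      simp
  have hCL : C ≤ L := by
    intro x hx
    rw [hmemL]
    have h1 : g * x = x * g := Subgroup.mem_centralizer_iff.1 hx g rfl
    rw [← h1]
    simp
  -- card L
  have hcardL : Nat.card L = Nat.card Cbar * Nat.card N := by
    have h1 : L.index = Cbar.index := Subgroup.index_comap_of_surjective _ hπ
    have h2 := Subgroup.card_mul_index L
    have h3 := Subgroup.card_mul_index Cbar
    have h4 : Nat.card G = Nat.card (G ⧸ N) * Nat.card N := Subgroup.card_eq_card_quotient_mul_card_subgroup N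
    rw [h1] at h2
    have h5 : 0 < Cbar.index := Nat.pos_of_ne_zero Subgroup.index_ne_zero_of_finite
    apply Nat.eq_of_mul_eq_mul_right h5
    rw [h2, h4, ← h3]
    ring
  -- quotient of L by C
  let C' : Subgroup L := C.subgroupOf L
  have hcardQ : Nat.card (L ⧸ C') * Nat.card C = Nat.card L := by
    have h1 := Subgroup.card_mul_index C'
    have h2 : Nat.card C' = Nat.card C :=
      Nat.card_congr (Subgroup.subgroupOfEquivOfLe hCL).toEquiv
    rw [h2] at h1
    rw [mul_comm]
    exact h1
  have hφmem : ∀ x : L, g⁻¹ * ((x : G) * g * (x : G)⁻¹) ∈ N := fun x => (hmemL x).1 x.2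
  let φ : L → N := fun x => ⟨g⁻¹ * ((x : G) * g * (x : G)⁻¹), hφmem x⟩
  have hφeq : ∀ x y : L, φ x = φ y ↔ y⁻¹ * x ∈ C' := by
    intro x y
    constructor
    · intro h
      have h1 : g⁻¹ * ((x : G) * g * (x : G)⁻¹) = g⁻¹ * ((y : G) * g * (y : G)⁻¹) :=
        congrArg Subtype.val h
      have h2 := mul_left_cancel h1
      rw [Subgroup.mem_subgroupOf, hC, Subgroup.mem_centralizer_iff]
      intro z hz
      rw [Set.mem_singleton_iff] at hz
      rw [hz]
      show g * ((y : G)⁻¹ * x) = (y : G)⁻¹ * x * g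
      have h3 : (x : G) * g = (y : G) * g * (y : G)⁻¹ * x := by
        rw [← h2]; group
      rw [mul_assoc (y : G)⁻¹, h3]
      group
    · intro h
      rw [Subgroup.mem_subgroupOf, hC, Subgroup.mem_centralizer_iff] at h
      have h1 := h g rfl
      have h1' : g * ((y : G)⁻¹ * x) = (y : G)⁻¹ * x * g := h1
      apply Subtype.ext
      show g⁻¹ * ((x : G) * g * (x : G)⁻¹) = g⁻¹ * ((y : G) * g * (y : G)⁻¹)
      congr 1
      have h3 : (x : G) * g = (y : G) * g * (y : G)⁻¹ * x := by
        have : (y : G) * (g * ((y : G)⁻¹ * x)) = (y : G) * ((y : G)⁻¹ * x * g) := by rw [h1']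
        calc (x : G) * g = (y : G) * ((y : G)⁻¹ * x * g) := by group
          _ = (y : G) * (g * ((y : G)⁻¹ * x)) := by rw [this]
          _ = (y : G) * g * (y : G)⁻¹ * x := by group
      rw [h3]
      group
  let ψ : L ⧸ C' → N := fun q => φ q.out
  have hψinj : Function.Injective ψ := by
    intro q q' h
    have h1 := (hφeq _ _).1 h
    rw [← QuotientGroup.out_eq' q, ← QuotientGroup.out_eq' q']
    apply Eq.symm
    rw [QuotientGroup.eq]
    exact h1
  have hCpos : 0 < Nat.card C := Nat.card_pos
  have hNpos : 0 < Nat.card N := Nat.card_pos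
  have hψsurj : ∀ x : L, ∃ q : L ⧸ C', ψ q = φ x := by
    intro x
    refine ⟨(x : L ⧸ C'), ?_⟩
    apply (hφeq _ _).2
    have h2 : ((x : L ⧸ C').out : L ⧸ C') = x := QuotientGroup.out_eq' _
    rw [QuotientGroup.eq] at h2
    have := C'.inv_mem h2
    convert this using 1
    group
  constructor
  · intro hall
    have hsurj : Function.Surjective ψ := by
      intro n
      obtain ⟨x, hx⟩ := hall n n.2
      have hxL : x ∈ L := by
        rw [hmemL, hx]
        simp
      obtain ⟨q, hq⟩ := hψsurj ⟨x, hxL⟩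
      refine ⟨q, ?_⟩
      rw [hq]
      apply Subtype.ext
      show g⁻¹ * (x * g * x⁻¹) = n
      rw [hx]; simp
    have h1 : Nat.card (L ⧸ C') = Nat.card N := Nat.card_congr (Equiv.ofBijective ψ ⟨hψinj, hsurj⟩)
    rw [h1, hcardL, mul_comm] at hcardQ
    exact Nat.eq_of_mul_eq_mul_right hNpos hcardQ
  · intro heq n hn
    have h1 : Nat.card (L ⧸ C') = Nat.card N := by
      rw [hcardL, ← heq, mul_comm (Nat.card C)] at hcardQ
      exact Nat.eq_of_mul_eq_mul_right hCpos hcardQ
    have hbij : Function.Bijective ψ := hψinj.bijective_of_nat_card_le h1.ge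
    obtain ⟨q, hq⟩ := hbij.2 ⟨n, hn⟩
    refine ⟨(q.out : L), ?_⟩
    have h2 : g⁻¹ * (((q.out : L) : G) * g * ((q.out : L) : G)⁻¹) = n := congrArg Subtype.val hq
    rw [← h2]
    simp

end Cfsg.Agent.S4142
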