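import Cfsg.Statements.S4143
import Cfsg.Agent.Lib.H19.MaxClass

set_option autoImplicit false
set_option linter.style.haveILetI false
open Cfsg

namespace Cfsg.Agent.S4143

open Cfsg.Agent.H19

/-- Let X be a finite p-group of order p^n containing a non-abelian subgroup B of order p³ with C_X(B) ≤ B. Then X has nilpotency class n − 1 (maximal class). -/
theorem result {X : Type*} [Group X] [Finite X] {p : ℕ} [Fact p.Prime] (n : ℕ) (hX : Nat.card X = p ^ n)
    (B : Subgroup X) (hB : Nat.card B = p ^ 3) (hBna : ¬ IsMulCommutative B) (hC : Subgroup.centralizer (B : Set X) ≤ B) :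
    Group.nilpotencyClass X = n - 1 := by
  classical
  have hp' : p.Prime := Fact.out
  have hpg : IsPGroup p X := IsPGroup.of_card hX
  haveI : Group.IsNilpotent X := hpg.isNilpotent
  have h3n : 3 ≤ n := by
    have h1 : Nat.card B ∣ Nat.card X := Subgroup.card_subgroup_dvd_card B
    rw [hB, hX] at h1
    exact (Nat.pow_dvd_pow_iff_le_right hp'.one_lt).1 h1
  have hpk : 1 < p ^ n := Nat.one_lt_pow (by omega) hp'.one_lt
  haveI hnt : Nontrivial X := Finite.one_lt_card_iff_nontrivial.mp (by rw [hX]; exact hpk)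
  obtain ⟨a₁, ha₁, a₂, ha₂, hne⟩ : ∃ a₁ ∈ B, ∃ a₂ ∈ B, a₁ * a₂ ≠ a₂ * a₁ := by
    by_contra hcon
    push Not at hcon
    exact hBna ⟨⟨fun a b => Subtype.ext (hcon a a.2 b b.2)⟩⟩
  set C : Subgroup X := Subgroup.centralizer (B : Set X) with hCdef
  set Z : Subgroup X := Subgroup.center X with hZ
  have hZC : Z ≤ C := by
    intro x hx
    refine Subgroup.mem_centralizer_iff.2 ?_
    intro t _
    exact Subgroup.mem_center_iff.1 hx t
  -- subgroups containing a₁ a₂
  have hgen : ∀ D : Subgroup X, D ≤ B → a₁ ∈ D → a₂ ∈ D → D = B := by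
    intro D hDB h1 h2
    apply Subgroup.eq_of_le_of_card_ge hDB
    have hd : Nat.card D ∣ p ^ 3 := hB ▸ Subgroup.card_dvd_of_le hDB
    obtain ⟨k, hk, hk2⟩ := (Nat.dvd_prime_pow hp').1 hd
    by_cases hk3 : k = 3
    · rw [hB, hk2, hk3]
    · exfalso
      have hk4 : k ≤ 2 := by omega
      have hdvd : Nat.card D ∣ p ^ 2 := by
        rw [hk2]
        exact pow_dvd_pow _ hk4
      have := comm_of_card_dvd_sq (p := p) (H := D) hdvd ⟨a₁, h1⟩ ⟨a₂, h2⟩
      exact hne (congrArg Subtype.val this)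
  -- the centralizer is small
  have hCcard : Nat.card C ≤ p := by
    set D : Subgroup X := B ⊓ Subgroup.centralizer ({a₁} : Set X) with hD
    have hDB : D ≤ B := inf_le_left
    have hDa₂ : a₂ ∉ D := by
      rintro ⟨-, h⟩
      exact hne (Subgroup.mem_centralizer_iff.1 h a₁ (Set.mem_singleton a₁))
    have hDcard : Nat.card D ∣ p ^ 2 := by
      have hd : Nat.card D ∣ p ^ 3 := hB ▸ Subgroup.card_dvd_of_le hDB
      obtain ⟨k, hk, hk2⟩ := (Nat.dvd_prime_pow hp').1 hd
      by_cases hk3 : k = 3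
      · exfalso
        have : D = B := by
          apply Subgroup.eq_of_le_of_card_ge hDB
          rw [hB, hk2, hk3]
        exact hDa₂ (this ▸ ha₂)
      · rw [hk2]
        exact pow_dvd_pow _ (by omega)
    have hCD : C ≤ D := by
      intro x hx
      refine ⟨hC hx, Subgroup.mem_centralizer_iff.2 ?_⟩
      intro t ht
      rw [Set.mem_singleton_iff] at ht
      rw [ht]
      exact (Subgroup.mem_centralizer_iff.1 hx a₁ ha₁)
    have hCne : C ≠ D := by
      intro h
      have ha₁D : a₁ ∈ D := ⟨ha₁, Subgroup.mem_centralizer_iff.2 (fun t ht => by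
        rw [Set.mem_singleton_iff] at ht; rw [ht])⟩
      rw [← h] at ha₁D
      have := Subgroup.mem_centralizer_iff.1 ha₁D a₂ ha₂
      exact hne this.symm
    have hCd : Nat.card C ∣ p ^ 2 := (Subgroup.card_dvd_of_le hCD).trans hDcard
    obtain ⟨k, hk, hk2⟩ := (Nat.dvd_prime_pow hp').1 hCd
    by_cases hk3 : k = 2
    · exfalso
      apply hCne
      apply Subgroup.eq_of_le_of_card_ge hCD
      rw [hk2, hk3]
      exact Nat.le_of_dvd (pow_pos hp'.pos 2) hDcard
    · rw [hk2]
      calc p ^ k ≤ p ^ 1 := Nat.pow_le_pow_right hp'.pos (by omega)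
        _ = p := pow_one p
  haveI hZnt : Nontrivial Z := hpg.center_nontrivial
  have hZcard : Nat.card Z = p := by
    obtain ⟨j, hj⟩ := IsPGroup.iff_card.mp (hpg.to_subgroup Z)
    have hj0 : j ≠ 0 := by
      rintro rfl
      rw [pow_zero] at hj
      haveI := (Nat.card_eq_one_iff_unique.mp hj).1
      exact not_subsingleton Z inferInstance
    have h1 : p ≤ Nat.card Z := by rw [hj]; exact Nat.le_self_pow hj0 p
    have h2 : Nat.card Z ≤ Nat.card C :=
      Nat.card_le_card_of_injective (Subgroup.inclusion hZC) (Subgroup.inclusion_injective hZC)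
    omega
  have hZB : Z ≤ B := hZC.trans hC
  set π := QuotientGroup.mk' Z with hπ
  have hπs : Function.Surjective π := QuotientGroup.mk'_surjective Z
  have hBb : Nat.card (B.map π) = p ^ 2 := by
    have h1 := card_map_mk_mul_card hZB
    rw [hB, hZcard, pow_succ p 2] at h1
    exact Nat.eq_of_mul_eq_mul_right hp'.pos h1
  have hQcard : Nat.card (X ⧸ Z) = p ^ (n - 1) := by
    have h1 := Subgroup.card_eq_card_quotient_mul_card_subgroup Z
    obtain ⟨n', rfl⟩ : ∃ n', n = n' + 1 := ⟨n - 1, by omega⟩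
    rw [hX, hZcard, pow_succ] at h1
    rw [Nat.add_sub_cancel]
    exact (Nat.eq_of_mul_eq_mul_right hp'.pos h1).symm
  set T : Subgroup X := (Subgroup.centralizer ((B.map π) : Set (X ⧸ Z))).comap π with hT
  have hcomm : ∀ g ∈ T, ∀ b ∈ B, g * b * g⁻¹ * b⁻¹ ∈ Z := by
    intro g hg b hb
    have h2 : π g ∈ Subgroup.centralizer ((B.map π) : Set (X ⧸ Z)) := hg
    have h3 := Subgroup.mem_centralizer_iff.1 h2 (π b) ⟨b, hb, rfl⟩
    have h4 : π (g * b * g⁻¹ * b⁻¹) = 1 := by
      rw [map_mul, map_mul, map_mul, map_inv, map_inv, ← h3]; group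
    exact (QuotientGroup.eq_one_iff _).1 h4
  have hBT : B ≤ T := by
    intro b hb
    show π b ∈ Subgroup.centralizer ((B.map π) : Set (X ⧸ Z))
    refine Subgroup.mem_centralizer_iff.2 ?_
    rintro _ ⟨c, hc, rfl⟩
    have := comm_of_card_dvd_sq (p := p) (H := B.map π) (dvd_of_eq hBb)
      ⟨π b, b, hb, rfl⟩ ⟨π c, c, hc, rfl⟩
    exact (congrArg Subtype.val this).symm
  have hTcard : Nat.card T ≤ p ^ 3 := by
    have h1 := card_le_mul_inf_centralizer T Z a₁ (fun g hg => hcomm g hg a₁ ha₁)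
    set T₁ : Subgroup X := T ⊓ Subgroup.centralizer ({a₁} : Set X) with hT₁
    have h2 := card_le_mul_inf_centralizer T₁ Z a₂ (fun g hg => hcomm g hg.1 a₂ ha₂)
    set T₂ : Subgroup X := T₁ ⊓ Subgroup.centralizer ({a₂} : Set X) with hT₂
    have h3 : T₂ ≤ C := by
      rintro g ⟨⟨-, hg1⟩, hg2⟩
      have h4 : B ⊓ Subgroup.centralizer ({g} : Set X) = B := by
        apply hgen _ inf_le_left
        · refine ⟨ha₁, Subgroup.mem_centralizer_iff.2 ?_⟩
          intro t ht
          rw [Set.mem_singleton_iff] at ht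
          rw [ht]
          exact (Subgroup.mem_centralizer_iff.1 hg1 a₁ (Set.mem_singleton _)).symm
        · refine ⟨ha₂, Subgroup.mem_centralizer_iff.2 ?_⟩
          intro t ht
          rw [Set.mem_singleton_iff] at ht
          rw [ht]
          exact (Subgroup.mem_centralizer_iff.1 hg2 a₂ (Set.mem_singleton _)).symm
      refine Subgroup.mem_centralizer_iff.2 ?_
      intro b hb
      have h5 : b ∈ B ⊓ Subgroup.centralizer ({g} : Set X) := by rw [h4]; exact hb
      exact (Subgroup.mem_centralizer_iff.1 h5.2 g (Set.mem_singleton _)).symm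
    have h4 : Nat.card T₂ ≤ Nat.card C :=
      Nat.card_le_card_of_injective (Subgroup.inclusion h3) (Subgroup.inclusion_injective h3)
    rw [hZcard] at h1 h2
    calc Nat.card T ≤ p * Nat.card T₁ := h1
      _ ≤ p * (p * Nat.card T₂) := Nat.mul_le_mul_left _ h2
      _ ≤ p * (p * p) := Nat.mul_le_mul_left _ (Nat.mul_le_mul_left _ (h4.trans hCcard))
      _ = p ^ 3 := by ring
  have hTB : T = B := by
    symm
    apply Subgroup.eq_of_le_of_card_ge hBT
    rw [hB]; exact hTcard
  have hself : Subgroup.centralizer ((B.map π) : Set (X ⧸ Z)) ≤ B.map π := by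
    intro x hx
    obtain ⟨y, rfl⟩ := hπs x
    have : y ∈ T := hx
    rw [hTB] at this
    exact ⟨y, this, rfl⟩
  have hIH := nilpotencyClass_of_selfCentralizing_sq (p := p) (n - 1) (X ⧸ Z) hQcard (B.map π) hBb hself
  have h3 : Group.nilpotencyClass X = Group.nilpotencyClass (X ⧸ Z) + 1 :=
    Group.nilpotencyClass_eq_quotient_center_plus_one (G := X)
  rw [h3, hIH]
  omega

end Cfsg.Agent.S4143
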