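import Cfsg.Statements.S4145
import Cfsg.Agent.Lib.H19.CyclicSylow

set_option autoImplicit false
set_option linter.style.haveILetI false
open Cfsg

namespace Cfsg.Agent.S4145

open Cfsg.Agent.H19 Cfsg.Agent.H18

lemma mem_sup_aux {G : Type*} [Group G] {A B : Subgroup G}
    (hAB : A ≤ Subgroup.normalizer (B : Set G)) {x : G} (hx : x ∈ A ⊔ B) :
    ∃ a ∈ A, ∃ b ∈ B, x = a * b := by
  rw [Subgroup.sup_eq_closure] at hx
  induction hx using Subgroup.closure_induction with
  | mem x hx =>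
    rcases hx with hx | hx
    · exact ⟨x, hx, 1, B.one_mem, by simp⟩
    · exact ⟨1, A.one_mem, x, hx, by simp⟩
  | one => exact ⟨1, A.one_mem, 1, B.one_mem, by simp⟩
  | mul x y _ _ hx hy =>
    obtain ⟨a, ha, b, hb, rfl⟩ := hx
    obtain ⟨a', ha', b', hb', rfl⟩ := hy
    refine ⟨a * a', A.mul_mem ha ha', a'⁻¹ * b * a' * b', ?_, by group⟩
    refine B.mul_mem ?_ hb'
    have h1 : a'⁻¹ ∈ Subgroup.normalizer (B : Set G) := Subgroup.inv_mem _ (hAB ha')
    have h2 := (Subgroup.mem_normalizer_iff.1 h1 b).1 hb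
    simpa using h2
  | inv x _ hx =>
    obtain ⟨a, ha, b, hb, rfl⟩ := hx
    refine ⟨a⁻¹, A.inv_mem ha, a * b⁻¹ * a⁻¹, ?_, by group⟩
    exact (Subgroup.mem_normalizer_iff.1 (hAB ha) b⁻¹).1 (B.inv_mem hb)

/-- Let G be a finite group with a cyclic Sylow p-subgroup and H a normal subgroup such that p divides both the order of H and the index of H. Then H has a normal p-complement and G is p-solvable. -/
theorem result {G : Type*} [Group G] [Finite G] (p : ℕ) [Fact p.Prime]
    (P : Sylow p G) (hP : IsCyclic (P : Subgroup G)) (H : Subgroup G) [H.Normal] (h1 : p ∣ Nat.card H) (h2 : p ∣ H.index) :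
    Cfsg.HasNormalPComplement p H ∧ Cfsg.IsPSolvable p G := by
  classical
  have hp : p.Prime := Fact.out
  obtain ⟨⟨u, huP⟩, hgen⟩ := hP.exists_generator
  have hu : ∀ x ∈ (P : Subgroup G), ∃ i : ℤ, u ^ i = x := by
    intro x hx
    obtain ⟨i, hi⟩ := hgen ⟨x, hx⟩
    exact ⟨i, congrArg Subtype.val hi⟩
  have hun : ∀ x ∈ (P : Subgroup G), ∃ i : ℕ, u ^ i = x := by
    intro x hx
    obtain ⟨i, hi⟩ := hu x hx
    have : x ∈ Submonoid.powers u := by
      rw [mem_powers_iff_mem_zpowers]; exact ⟨i, hi⟩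
    obtain ⟨n, hn⟩ := this
    exact ⟨n, hn⟩
  have hcomm : ∀ x ∈ (P : Subgroup G), ∀ y ∈ (P : Subgroup G), Commute x y := by
    intro x hx y hy
    obtain ⟨i, rfl⟩ := hu x hx
    obtain ⟨j, rfl⟩ := hu y hy
    exact ((Commute.refl u).zpow_left i).zpow_right j
  have huord : ∃ e, orderOf u = p ^ e := by
    obtain ⟨e, he⟩ := P.2 ⟨u, huP⟩
    have he' : u ^ p ^ e = 1 := by
      have := congrArg Subtype.val he
      simpa using this
    obtain ⟨f, -, hf⟩ := (Nat.dvd_prime_pow hp).1 (orderOf_dvd_of_pow_eq_one he')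
    exact ⟨f, hf⟩
  have hPH : ¬ (P : Subgroup G) ≤ H := fun hle =>
    P.not_dvd_index (h2.trans (Subgroup.index_dvd_of_le hle))
  have hQ : ∀ x ∈ (P : Subgroup G), x ∈ H → x ∈ Subgroup.zpowers (u ^ p) := by
    intro x hxP hxH
    obtain ⟨i, rfl⟩ := hun x hxP
    by_cases hdvd : p ∣ i
    · obtain ⟨c, rfl⟩ := hdvd
      exact ⟨c, by simp [pow_mul]⟩
    · exfalso
      apply hPH
      have hcop : (orderOf u).Coprime i := by
        obtain ⟨e, he⟩ := huord
        rw [he]
        exact Nat.Coprime.pow_left e ((Nat.Prime.coprime_iff_not_dvd hp).2 hdvd)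
      have h3 : u ∈ Subgroup.zpowers (u ^ i) := mem_zpowers_pow_of_coprime hcop
      have h4 : Subgroup.zpowers (u ^ i) ≤ H := by rwa [Subgroup.zpowers_le]
      have h5 : u ∈ H := h4 h3
      intro x hx
      obtain ⟨j, rfl⟩ := hu x hx
      exact H.zpow_mem h5 j
  -- (a)
  have ha : ∀ w ∈ Subgroup.normalizer ((P : Subgroup G) : Set G), w ∈ H → Commute w u := by
    intro w hwN hwH
    apply commute_of_coset_cyclic P huP hu hwN
    apply hQ
    · exact (P : Subgroup G).mul_mem ((P : Subgroup G).inv_mem huP) ((Subgroup.mem_normalizer_iff.1 hwN u).1 huP)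
    · have e1 : u⁻¹ * (w * u * w⁻¹) = (u⁻¹ * w * u) * w⁻¹ := by group
      rw [e1]
      refine H.mul_mem ?_ (H.inv_mem hwH)
      have := (inferInstance : H.Normal).conj_mem w hwH u⁻¹
      simpa using this
  -- (b)
  set Q : Subgroup G := (P : Subgroup G) ⊓ H with hQdef
  have hb : ∀ x ∈ H, x ∈ Subgroup.normalizer (Q : Set G) → ∀ q ∈ Q, Commute x q := by
    intro x hxH hxN
    set C : Subgroup G := H ⊓ Subgroup.centralizer (Q : Set G) with hC
    have hxC : ∀ y ∈ C, x * y * x⁻¹ ∈ C := by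
      rintro y ⟨hyH, hyC⟩
      refine ⟨(inferInstance : H.Normal).conj_mem y hyH x, ?_⟩
      refine Subgroup.mem_centralizer_iff.2 ?_
      intro q hq
      have h3 : x⁻¹ * q * x ∈ Q := by
        have h4 := (Subgroup.mem_normalizer_iff.1 (Subgroup.inv_mem _ hxN) q).1 hq
        simpa using h4
      have h5 := Subgroup.mem_centralizer_iff.1 hyC _ h3
      calc q * (x * y * x⁻¹) = x * ((x⁻¹ * q * x) * y) * x⁻¹ := by group
        _ = x * (y * (x⁻¹ * q * x)) * x⁻¹ := by rw [h5]
        _ = x * y * x⁻¹ * q := by group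
    have hPC : (P : Subgroup G) ≤ Subgroup.normalizer (C : Set G) := by
      intro g hg
      apply mem_normalizer_of_conj_le
      rintro y ⟨hyH, hyC⟩
      refine ⟨(inferInstance : H.Normal).conj_mem y hyH g, ?_⟩
      refine Subgroup.mem_centralizer_iff.2 ?_
      intro q hq
      have hqP : q ∈ (P : Subgroup G) := hq.1
      have h5 := Subgroup.mem_centralizer_iff.1 hyC q hq
      have h6 : g * q = q * g := hcomm g hg q hqP
      have h7 : g⁻¹ * q = q * g⁻¹ := by
        rw [inv_mul_eq_iff_eq_mul, ← mul_assoc, h6, mul_assoc, mul_inv_cancel, mul_one]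
      calc q * (g * y * g⁻¹) = g * q * y * g⁻¹ := by rw [h6]; group
        _ = g * (q * y) * g⁻¹ := by group
        _ = g * (y * q) * g⁻¹ := by rw [h5]
        _ = g * y * (q * g⁻¹) := by group
        _ = g * y * (g⁻¹ * q) := by rw [h7]
        _ = g * y * g⁻¹ * q := by group
    set M : Subgroup G := (P : Subgroup G) ⊔ C with hM
    have hPM : (P : Subgroup G) ≤ M := le_sup_left
    have hCM : C ≤ M := le_sup_right
    have hxPM : ((x • P : Sylow p G) : Subgroup G) ≤ M := by
      rw [Sylow.coe_subgroup_smul]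
      rintro _ ⟨g, hg, rfl⟩
      have hgP : g ∈ (P : Subgroup G) := hg
      show x * g * x⁻¹ ∈ M
      have e1 : x * g * x⁻¹ = (x * g * x⁻¹ * g⁻¹) * g := by group
      rw [e1]
      refine M.mul_mem (hCM ⟨?_, ?_⟩) (hPM hgP)
      · have e2 : x * g * x⁻¹ * g⁻¹ = x * (g * x⁻¹ * g⁻¹) := by group
        rw [e2]
        exact H.mul_mem hxH ((inferInstance : H.Normal).conj_mem _ (H.inv_mem hxH) g)
      · refine Subgroup.mem_centralizer_iff.2 ?_
        intro q hq
        have h3 : x⁻¹ * q * x ∈ Q := by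
          have h4 := (Subgroup.mem_normalizer_iff.1 (Subgroup.inv_mem _ hxN) q).1 hq
          simpa using h4
        have h6 : g * (x⁻¹ * q * x) = (x⁻¹ * q * x) * g := hcomm g hgP _ h3.1
        have h7 : g * q = q * g := hcomm g hgP q hq.1
        have h8 : g⁻¹ * q = q * g⁻¹ := by
          rw [inv_mul_eq_iff_eq_mul, ← mul_assoc, h7, mul_assoc, mul_inv_cancel, mul_one]
        calc q * (x * g * x⁻¹ * g⁻¹) = x * ((x⁻¹ * q * x) * g) * x⁻¹ * g⁻¹ := by group
          _ = x * (g * (x⁻¹ * q * x)) * x⁻¹ * g⁻¹ := by rw [h6]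
          _ = x * g * x⁻¹ * (q * g⁻¹) := by group
          _ = x * g * x⁻¹ * (g⁻¹ * q) := by rw [h8]
          _ = x * g * x⁻¹ * g⁻¹ * q := by group
    obtain ⟨m, hmM, hm⟩ := exists_conj_of_sylows_le P (x • P) M hPM hxPM
    obtain ⟨g', hg', c', hc', hdec⟩ := mem_sup_aux hPC (M.inv_mem hmM)
    -- m = c'⁻¹ g'⁻¹
    have hmeq : m = c'⁻¹ * g'⁻¹ := by
      have : m = (m⁻¹)⁻¹ := by group
      rw [this, hdec]; group
    set w : G := c' * x with hw
    have hwH : w ∈ H := H.mul_mem hc'.1 hxH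
    have hwN : w ∈ Subgroup.normalizer ((P : Subgroup G) : Set G) := by
      apply mem_normalizer_of_conj_le
      intro g hg
      have h3 : x * g * x⁻¹ ∈ ((P : Subgroup G).map (MulAut.conj m).toMonoidHom) := by
        rw [← hm, Sylow.coe_subgroup_smul]
        exact ⟨g, hg, rfl⟩
      obtain ⟨t, ht, hte⟩ := h3
      have hte' : m * t * m⁻¹ = x * g * x⁻¹ := hte
      have e3 : w * g * w⁻¹ = g'⁻¹ * t * g' := by
        rw [hw]
        calc c' * x * g * (c' * x)⁻¹ = c' * (x * g * x⁻¹) * c'⁻¹ := by group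
          _ = c' * (m * t * m⁻¹) * c'⁻¹ := by rw [hte']
          _ = g'⁻¹ * t * g' := by rw [hmeq]; group
      rw [e3]
      have h4 : t ∈ (P : Subgroup G) := ht
      exact (P : Subgroup G).mul_mem ((P : Subgroup G).mul_mem ((P : Subgroup G).inv_mem hg') h4) hg'
    have hwu := ha w hwN hwH
    intro q hq
    obtain ⟨j, rfl⟩ := hu q hq.1
    have h9 : Commute w (u ^ j) := hwu.zpow_right j
    have h10 : c' * (u ^ j) = (u ^ j) * c' := by
      exact ((Subgroup.mem_centralizer_iff.1 hc'.2) _ hq).symm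
    have h11 : x = c'⁻¹ * w := by rw [hw]; group
    rw [h11]
    have h12 : c'⁻¹ * (u ^ j) = (u ^ j) * c'⁻¹ := by
      rw [inv_mul_eq_iff_eq_mul, ← mul_assoc, h10, mul_assoc, mul_inv_cancel, mul_one]
    show c'⁻¹ * w * u ^ j = u ^ j * (c'⁻¹ * w)
    calc c'⁻¹ * w * u ^ j = c'⁻¹ * (w * u ^ j) := by group
      _ = c'⁻¹ * (u ^ j * w) := by rw [h9.eq]
      _ = (c'⁻¹ * u ^ j) * w := by group
      _ = (u ^ j * c'⁻¹) * w := by rw [h12]
      _ = u ^ j * (c'⁻¹ * w) := by group
  -- (c)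
  set S : Sylow p H := sylowOfNormal P H with hS
  have hScoe : (S : Subgroup H) = (P : Subgroup G).subgroupOf H := coe_sylowOfNormal P H
  have hSmem : ∀ t : H, t ∈ (S : Subgroup H) → (t : G) ∈ (P : Subgroup G) := by
    intro t ht
    rw [hScoe] at ht
    exact ht
  have hSN : Subgroup.normalizer ((S : Subgroup H) : Set H) ≤ Subgroup.centralizer ((S : Subgroup H) : Set H) := by
    intro y hy
    rw [hScoe] at hy ⊢
    have hyQ : (y : G) ∈ Subgroup.normalizer (Q : Set G) := by
      apply mem_normalizer_of_conj_le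
      rintro q ⟨hqP, hqH⟩
      refine ⟨?_, (inferInstance : H.Normal).conj_mem q hqH y⟩
      have h3 := (Subgroup.mem_normalizer_iff.1 hy ⟨q, hqH⟩).1 (by exact hqP)
      exact h3
    refine Subgroup.mem_centralizer_iff.2 ?_
    intro s hs
    have hs' : (s : G) ∈ Q := ⟨hs, s.2⟩
    have := hb y y.2 hyQ s hs'
    exact Subtype.ext this.eq.symm
  obtain ⟨R₁, hR₁n, hR₁c⟩ := burnside_complement S hSN
  refine ⟨⟨S, R₁, hR₁n, hR₁c⟩, ?_⟩
  -- (d)
  haveI := hR₁n
  have hfacts := normal_complement_facts H S R₁ hR₁c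
  set K : Subgroup G := R₁.map H.subtype with hK
  haveI hKn : K.Normal := hfacts.1
  have hKP : ∀ x ∈ K, x ∈ (P : Subgroup G) → x = 1 := by
    rintro _ ⟨z, hz, rfl⟩ hzP
    have hzS : z ∈ (S : Subgroup H) := by rw [hScoe]; exact hzP
    have := Subgroup.disjoint_def.1 hR₁c.disjoint hz hzS
    rw [this]; rfl
  -- (e)
  haveI hHK : (H.map (QuotientGroup.mk' K)).Normal :=
    Subgroup.Normal.map inferInstance _ (QuotientGroup.mk'_surjective K)
  set A : Subgroup G := (Subgroup.centralizer ((H.map (QuotientGroup.mk' K)) : Set (G ⧸ K))).comap (QuotientGroup.mk' K) with hA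
  haveI hAn : A.Normal := by
    haveI : (Subgroup.centralizer ((H.map (QuotientGroup.mk' K)) : Set (G ⧸ K))).Normal :=
      Subgroup.normal_centralizer
    exact Subgroup.Normal.comap inferInstance _
  have hPA : (P : Subgroup G) ≤ A := by
    intro g hg
    rw [hA, Subgroup.mem_comap, Subgroup.mem_centralizer_iff]
    rintro _ ⟨h, hh, rfl⟩
    obtain ⟨⟨r, s⟩, hrs⟩ := hR₁c.2 ⟨h, hh⟩
    have hh2 : h = (r : H) * (s : H) := by
      have := congrArg Subtype.val hrs
      exact this.symm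
    have hrK : ((r : H) : G) ∈ K := ⟨r, r.2, rfl⟩
    have hr1 : QuotientGroup.mk' K ((r : H) : G) = 1 := (QuotientGroup.eq_one_iff _).2 hrK
    have hsP : ((s : H) : G) ∈ (P : Subgroup G) := hSmem _ s.2
    rw [hh2]
    show QuotientGroup.mk' K (((r : H) : G) * ((s : H) : G)) * QuotientGroup.mk' K g = QuotientGroup.mk' K g * QuotientGroup.mk' K (((r : H) : G) * ((s : H) : G))
    rw [map_mul, hr1, one_mul, ← map_mul, ← map_mul, (hcomm _ hsP _ hg).eq]
  -- nontrivial element
  have hex : ∃ q ∈ Q, q ≠ 1 := by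
    have hcard : Nat.card (S : Subgroup H) ≠ 1 := by
      intro h3
      have h4 := Subgroup.card_mul_index (S : Subgroup H)
      rw [h3, one_mul] at h4
      rw [← h4] at h1
      exact S.not_dvd_index h1
    have hne : (S : Subgroup H) ≠ ⊥ := fun h => hcard (by rw [h]; exact Nat.card_unique)
    obtain ⟨s, hs⟩ := (Subgroup.ne_bot_iff_exists_ne_one.mp hne)
    have h3 : ((s : H) : G) ∈ (P : Subgroup G) := hSmem _ s.2
    refine ⟨((s : H) : G), ⟨h3, (s : H).2⟩, ?_⟩
    intro h4
    apply hs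
    exact Subtype.ext (Subtype.ext h4)
  obtain ⟨q, hqQ, hq1⟩ := hex
  -- (f)
  set T : Sylow p A := sylowOfNormal P A with hT
  have hTcoe : (T : Subgroup A) = (P : Subgroup G).subgroupOf A := coe_sylowOfNormal P A
  have hTN : Subgroup.normalizer ((T : Subgroup A) : Set A) ≤ Subgroup.centralizer ((T : Subgroup A) : Set A) := by
    intro y hy
    rw [hTcoe] at hy ⊢
    have hyP : (y : G) ∈ Subgroup.normalizer ((P : Subgroup G) : Set G) := by
      apply mem_normalizer_of_conj_le
      intro g hg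
      have h3 := (Subgroup.mem_normalizer_iff.1 hy ⟨g, hPA hg⟩).1 (by exact hg)
      exact h3
    have hyq : Commute (y : G) q := by
      have h3 : QuotientGroup.mk' K (y : G) ∈ Subgroup.centralizer ((H.map (QuotientGroup.mk' K)) : Set (G ⧸ K)) := y.2
      rw [Subgroup.mem_centralizer_iff] at h3
      have h4 := h3 (QuotientGroup.mk' K q) ⟨q, hqQ.2, rfl⟩
      have h5 : QuotientGroup.mk' K ((y : G) * q * (y : G)⁻¹ * q⁻¹) = 1 := by
        rw [map_mul, map_mul, map_mul, map_inv, map_inv, ← h4]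
        group
      have h6 : (y : G) * q * (y : G)⁻¹ * q⁻¹ ∈ K := (QuotientGroup.eq_one_iff _).1 h5
      have h7 : (y : G) * q * (y : G)⁻¹ * q⁻¹ ∈ (P : Subgroup G) :=
        (P : Subgroup G).mul_mem ((Subgroup.mem_normalizer_iff.1 hyP q).1 hqQ.1) ((P : Subgroup G).inv_mem hqQ.1)
      have h8 := hKP _ h6 h7
      show (y : G) * q = q * (y : G)
      rw [mul_inv_eq_one, mul_inv_eq_iff_eq_mul] at h8
      exact h8
    have hyu := commute_of_commute_mem P huP hu hyP hqQ.1 hq1 hyq
    refine Subgroup.mem_centralizer_iff.2 ?_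
    intro s hs
    have hs' : (s : G) ∈ (P : Subgroup G) := hs
    obtain ⟨j, hj⟩ := hu s hs'
    apply Subtype.ext
    show (s : G) * y = y * s
    rw [← hj]
    exact (hyu.zpow_right j).eq.symm
  obtain ⟨R₂, hR₂n, hR₂c⟩ := burnside_complement T hTN
  haveI := hR₂n
  obtain ⟨hRn, hRcop, k, hk⟩ := normal_complement_facts A T R₂ hR₂c
  haveI := hRn
  refine isPSolvable_of_normal_chain (R₂.map A.subtype) A (Subgroup.map_subtype_le _) ?_ ?_ (k := k) ?_
  · have : Nat.card (R₂.map A.subtype) = Nat.card R₂ :=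
      Nat.card_congr (R₂.equivMapOfInjective A.subtype A.subtype_injective).toEquiv.symm
    rw [this]; exact hRcop
  · have h3 : A.index ∣ (P : Subgroup G).index := Subgroup.index_dvd_of_le hPA
    have h4 : Nat.Coprime (P : Subgroup G).index p :=
      ((Nat.Prime.coprime_iff_not_dvd hp).2 P.not_dvd_index).symm
    exact Nat.Coprime.coprime_dvd_left h3 h4
  · have : (R₂.map A.subtype).relIndex A = R₂.index := by
      rw [Subgroup.relIndex, Subgroup.subgroupOf]
      rw [Subgroup.comap_map_eq_self_of_injective A.subtype_injective]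
    rw [this, hk]

end Cfsg.Agent.S4145
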