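import Cfsg.Statements.S4151
import Cfsg.Agent.Lib.H19.ZCoprime2
import Cfsg.Agent.Lib.H14.CoprimeGen
import Cfsg.Agent.Lib.H14.UniqueSub
import Cfsg.Agent.Lib.H13.CycOdd
import Cfsg.Agent.Lib.H01.Hall

set_option autoImplicit false
set_option linter.unusedSectionVars false
set_option linter.style.haveILetI false
set_option linter.unusedSimpArgs false
open Cfsg

namespace Cfsg.Agent.S4151

section
variable {G : Type*} [Group G]

theorem ti_mem {H : Subgroup G} (hTI : IsTISubset (H : Set G)) {t x : G} (hx : x ∈ H)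
    (hx1 : x ≠ 1) (h : t * x * t⁻¹ ∈ H) : t ∈ Subgroup.normalizer (H : Set G) := by
  by_contra hn
  exact hx1 (hTI t hn x hx h)

variable [Finite G]

theorem relIndex_mul_card' {A B : Subgroup G} (h : A ≤ B) :
    A.relIndex B * Nat.card A = Nat.card B := by
  have h1 := (A.subgroupOf B).card_mul_index
  have h2 : Nat.card (A.subgroupOf B) = Nat.card A :=
    Nat.card_congr (Subgroup.subgroupOfEquivOfLe h).toEquiv
  rw [h2] at h1
  rw [Subgroup.relIndex, mul_comm]
  exact h1

theorem mem_of_coprime_index {H : Subgroup G}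
    (hHall : (Nat.card H).Coprime (H.subgroupOf (Subgroup.normalizer (H : Set G))).index)
    {y : G} (hy : y ∈ Subgroup.normalizer (H : Set G)) (hyo : orderOf y ∣ Nat.card H) : y ∈ H := by
  haveI : (H.subgroupOf (Subgroup.normalizer (H : Set G))).Normal := Subgroup.normal_in_normalizer
  let y' : Subgroup.normalizer (H : Set G) := ⟨y, hy⟩
  have ho : orderOf y' = orderOf y := Subgroup.orderOf_mk _ _
  have hc : ((H.subgroupOf (Subgroup.normalizer (H : Set G))).index).Coprime (orderOf y') := by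
    rw [ho]
    exact (Nat.Coprime.coprime_dvd_left hyo hHall).symm
  obtain ⟨m, hm⟩ := exists_pow_eq_self_of_coprime hc
  have h1 := Subgroup.pow_index_mem (H.subgroupOf (Subgroup.normalizer (H : Set G))) y'
  have h2 := (H.subgroupOf (Subgroup.normalizer (H : Set G))).pow_mem h1 m
  rw [hm] at h2
  exact Subgroup.mem_subgroupOf.1 h2

theorem coprime_index_normalizer {H : Subgroup G} (hTI : IsTISubset (H : Set G))
    (hHall : (Nat.card H).Coprime (H.subgroupOf (Subgroup.normalizer (H : Set G))).index) :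
    (Nat.card H).Coprime (Subgroup.normalizer (H : Set G)).index := by
  classical
  refine Nat.Coprime.symm (Nat.coprime_of_dvd ?_)
  intro r hr hrI hrH
  haveI : Fact r.Prime := ⟨hr⟩
  obtain ⟨x₀, hx₀⟩ := exists_prime_orderOf_dvd_card' r hrH
  have hHN : H ≤ Subgroup.normalizer (H : Set G) := Subgroup.le_normalizer
  have hxH : (x₀ : G) ∈ H := x₀.2
  have hxo : orderOf (x₀ : G) = r := by rw [Subgroup.orderOf_coe]; exact hx₀
  have hx1 : (x₀ : G) ≠ 1 := by
    intro h
    rw [h, orderOf_one] at hxo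
    exact hr.one_lt.ne hxo
  have hP : IsPGroup r (Subgroup.zpowers (x₀ : G)) := by
    apply IsPGroup.of_card (n := 1)
    rw [Nat.card_zpowers, hxo, pow_one]
  have hPH : Subgroup.zpowers (x₀ : G) ≤ H := (Subgroup.zpowers_le).2 hxH
  have key := hP.card_modEq_card_fixedPoints (G ⧸ Subgroup.normalizer (H : Set G))
  have hfix : MulAction.fixedPoints (Subgroup.zpowers (x₀ : G)) (G ⧸ Subgroup.normalizer (H : Set G)) =
      {((1 : G) : G ⧸ Subgroup.normalizer (H : Set G))} := by
    ext q
    induction q using QuotientGroup.induction_on with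
    | H g =>
      simp only [MulAction.mem_fixedPoints, Set.mem_singleton_iff]
      constructor
      · intro h
        have h1 := h ⟨(x₀ : G), Subgroup.mem_zpowers _⟩
        have h2 : (((x₀ : G) * g : G) : G ⧸ Subgroup.normalizer (H : Set G)) = (g : G ⧸ Subgroup.normalizer (H : Set G)) := h1
        rw [QuotientGroup.eq] at h2
        have h3 : g⁻¹ * (x₀ : G) * g ∈ Subgroup.normalizer (H : Set G) := by
          have e : (((x₀ : G) * g)⁻¹ * g)⁻¹ = g⁻¹ * (x₀ : G) * g := by group
          rw [← e]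
          exact Subgroup.inv_mem _ h2
        have h4 : g⁻¹ * (x₀ : G) * g ∈ H := by
          apply mem_of_coprime_index hHall h3
          have e : g⁻¹ * (x₀ : G) * g = MulAut.conj g⁻¹ (x₀ : G) := by
            simp [MulAut.conj_apply]
          rw [e, MulEquiv.orderOf_eq, hxo]
          exact hrH
        have h5 : g⁻¹ ∈ Subgroup.normalizer (H : Set G) :=
          ti_mem hTI hxH hx1 (by simpa using h4)
        have h6 : g ∈ Subgroup.normalizer (H : Set G) := by
          simpa using Subgroup.inv_mem _ h5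
        rw [QuotientGroup.eq]
        simpa using h6
      · intro h p
        rw [h]
        have hp : (p : G) ∈ Subgroup.normalizer (H : Set G) := hHN (hPH p.2)
        show (((p : G) * 1 : G) : G ⧸ Subgroup.normalizer (H : Set G)) = _
        rw [QuotientGroup.eq]
        simpa using hp
  have hcard : Nat.card (MulAction.fixedPoints (Subgroup.zpowers (x₀ : G)) (G ⧸ Subgroup.normalizer (H : Set G))) = 1 := by
    rw [hfix]
    simp
  rw [hcard] at key
  have h7 : Nat.card (G ⧸ Subgroup.normalizer (H : Set G)) = (Subgroup.normalizer (H : Set G)).index := rfl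
  rw [h7] at key
  have h8 : (Subgroup.normalizer (H : Set G)).index % r = 1 % r := key
  rw [Nat.mod_eq_zero_of_dvd hrI, Nat.mod_eq_of_lt hr.one_lt] at h8
  exact absurd h8 (by norm_num)

theorem exists_section {n : ℕ} (M : Fin (n + 1) → Subgroup G) (m : ℕ) (h0 : M 0 = ⊥)
    (hlast : M (Fin.last n) = ⊤) (hmono : Monotone M) (hnorm : ∀ i, (M i).Normal)
    (hfac : ∀ i : Fin n, (∀ q : ℕ, q.Prime → q ∣ (M i.castSucc).relIndex (M i.succ) → q ∣ m) ∨
      ((M i.castSucc).relIndex (M i.succ)).Coprime m)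
    (hG : ¬ (Nat.card G).Coprime m) :
    ∃ O L : Subgroup G, O.Normal ∧ L.Normal ∧ O ≤ L ∧ (Nat.card O).Coprime m ∧
      O.relIndex L ≠ 1 ∧ ∀ q : ℕ, q.Prime → q ∣ O.relIndex L → q ∣ m := by
  have key : ∀ i : Fin (n + 1), (Nat.card (M i)).Coprime m ∨
      ∃ O L : Subgroup G, O.Normal ∧ L.Normal ∧ O ≤ L ∧ (Nat.card O).Coprime m ∧
        O.relIndex L ≠ 1 ∧ ∀ q : ℕ, q.Prime → q ∣ O.relIndex L → q ∣ m := by
    intro i
    induction i using Fin.induction with
    | zero => left; rw [h0]; simp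
    | succ i ih =>
      rcases ih with ih | ih
      · have hle : M i.castSucc ≤ M i.succ := hmono (Fin.castSucc_lt_succ).le
        rcases hfac i with h | h
        · by_cases h1 : (M i.castSucc).relIndex (M i.succ) = 1
          · left
            have := Subgroup.relIndex_eq_one.1 h1
            exact Nat.Coprime.coprime_dvd_left (Subgroup.card_dvd_of_le this) ih
          · right
            exact ⟨_, _, hnorm _, hnorm _, hle, ih, h1, h⟩
        · left
          rw [← relIndex_mul_card' hle]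
          exact Nat.Coprime.mul_left h ih
      · exact Or.inr ih
  rcases key (Fin.last n) with h | h
  · rw [hlast, Subgroup.card_top] at h
    exact absurd h hG
  · exact h

theorem exists_O {H : Subgroup G} (hTI : IsTISubset (H : Set G))
    (hidx : (Nat.card H).Coprime H.index)
    {O L : Subgroup G} [hO : O.Normal] [hL : L.Normal] (hOL : O ≤ L) (hne : O.relIndex L ≠ 1)
    (hq : ∀ q : ℕ, q.Prime → q ∣ O.relIndex L → q ∣ Nat.card H) :
    O ⊔ Subgroup.normalizer (H : Set G) = ⊤ := by
  classical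
  have hHN : H ≤ Subgroup.normalizer (H : Set G) := Subgroup.le_normalizer
  have hA : H.relIndex L ∣ H.index := by
    have h1 := H01.card_sup_mul_card_inf H L
    have h2 := relIndex_mul_card' (le_sup_left : H ≤ H ⊔ L)
    have h3 := relIndex_mul_card' (inf_le_right : H ⊓ L ≤ L)
    rw [Subgroup.inf_relIndex_right] at h3
    have hpos1 : 0 < Nat.card H := Nat.card_pos
    have hpos2 : 0 < Nat.card (H ⊓ L : Subgroup G) := Nat.card_pos
    have h4 : H.relIndex (H ⊔ L) = H.relIndex L := by
      apply Nat.eq_of_mul_eq_mul_right (Nat.mul_pos hpos1 hpos2)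
      calc H.relIndex (H ⊔ L) * (Nat.card H * Nat.card (H ⊓ L : Subgroup G))
          = (H.relIndex (H ⊔ L) * Nat.card H) * Nat.card (H ⊓ L : Subgroup G) := by ring
        _ = Nat.card H * Nat.card L := by rw [h2, h1]
        _ = Nat.card H * (H.relIndex L * Nat.card (H ⊓ L : Subgroup G)) := by rw [h3]
        _ = H.relIndex L * (Nat.card H * Nat.card (H ⊓ L : Subgroup G)) := by ring
    rw [← h4, ← Subgroup.relIndex_mul_index (le_sup_left : H ≤ H ⊔ L)]
    exact dvd_mul_right _ _
  have hcopA : (H.relIndex L).Coprime (Nat.card H) :=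
    Nat.Coprime.coprime_dvd_left hA hidx.symm
  obtain ⟨r, hr, hrd⟩ := Nat.exists_prime_and_dvd hne
  haveI : Fact r.Prime := ⟨hr⟩
  have hrH := hq r hr hrd
  have hrL : r ∣ Nat.card L := hrd.trans (Subgroup.relIndex_dvd_card _ _)
  have hrA : ¬ r ∣ H.relIndex L := fun h =>
    hr.one_lt.ne' (Nat.eq_one_of_dvd_coprimes hcopA h hrH)
  let A : Subgroup L := H.subgroupOf L
  obtain ⟨T⟩ : Nonempty (Sylow r A) := inferInstance
  let T' : Subgroup L := (T : Subgroup A).map A.subtype
  have hT'p : IsPGroup r T' := T.2.map _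
  have hT'i : ¬ r ∣ T'.index := by
    rw [Subgroup.index_map_subtype]
    intro h
    rcases (Nat.Prime.dvd_mul hr).1 h with h | h
    · exact T.not_dvd_index h
    · exact hrA h
  let P : Sylow r L := hT'p.toSylow hT'i
  have hP : (P : Subgroup L) = T' := hT'p.toSylow_coe hT'i
  have hfr := Sylow.normalizer_sup_eq_top P
  have hPne := P.ne_bot_of_dvd_card hrL
  obtain ⟨a₀, ha₀⟩ := Subgroup.ne_bot_iff_exists_ne_one.1 hPne
  obtain ⟨x₀, hx₀, hx₀1⟩ : ∃ x₀ : L, x₀ ∈ (P : Subgroup L) ∧ x₀ ≠ 1 :=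
    ⟨a₀.1, a₀.2, fun h => ha₀ (Subtype.ext h)⟩
  have hRH : ∀ z ∈ ((P : Subgroup L).map L.subtype), z ∈ H := by
    rintro _ ⟨z, hz, rfl⟩
    have hz' : z ∈ T' := by rw [← hP]; exact hz
    obtain ⟨a, -, rfl⟩ := hz'
    exact Subgroup.mem_subgroupOf.1 a.2
  have hxR : (x₀ : G) ∈ ((P : Subgroup L).map L.subtype) := ⟨x₀, hx₀, rfl⟩
  have hx1 : (x₀ : G) ≠ 1 := fun h => hx₀1 (Subtype.ext h)
  have hle : Subgroup.normalizer ((P.map L.subtype : Subgroup G) : Set G) ≤ Subgroup.normalizer (H : Set G) := by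
    intro t ht
    exact ti_mem hTI (hRH _ hxR) hx1 (hRH _ ((Subgroup.mem_normalizer_iff.1 ht _).1 hxR))
  have hsup1 : Subgroup.normalizer (H : Set G) ⊔ L = ⊤ := by
    rw [eq_top_iff, ← hfr]
    exact sup_le_sup_right hle _
  have hLO : L ≤ O ⊔ (H ⊓ L) := by
    apply Subgroup.relIndex_eq_one.1
    by_contra h
    obtain ⟨q, hqp, hqd⟩ := Nat.exists_prime_and_dvd h
    have h1 : q ∣ O.relIndex L := hqd.trans (Subgroup.relIndex_dvd_of_le_left L le_sup_left)
    have h2 : q ∣ H.relIndex L := by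
      have := hqd.trans (Subgroup.relIndex_dvd_of_le_left L (le_sup_right : H ⊓ L ≤ O ⊔ (H ⊓ L)))
      rwa [Subgroup.inf_relIndex_right] at this
    exact hqp.one_lt.ne' (Nat.eq_one_of_dvd_coprimes hcopA h2 (hq q hqp h1))
  rw [eq_top_iff, ← hsup1]
  exact sup_le le_sup_right (hLO.trans (sup_le le_sup_left
    ((inf_le_left.trans hHN).trans le_sup_right)))

theorem no_rank_two {H O : Subgroup G} [hO : O.Normal] (hTI : IsTISubset (H : Set G))
    (hnn : ¬ H.Normal) (hcop : (Nat.card O).Coprime (Nat.card H))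
    (hsup : O ⊔ Subgroup.normalizer (H : Set G) = ⊤) {p : ℕ} [hpp : Fact p.Prime] {x y : G}
    (hx : x ∈ H) (hy : y ∈ H) (hxy : Commute x y) (hxp : x ^ p = 1) (hyp : y ^ p = 1)
    (hx1 : x ≠ 1) (hyx : y ∉ Subgroup.zpowers x) : False := by
  have hxo : orderOf x = p := orderOf_eq_prime hxp hx1
  have hpH : p ∣ Nat.card H := by
    rw [← hxo]
    have := orderOf_dvd_natCard (⟨x, hx⟩ : H)
    rwa [Subgroup.orderOf_mk] at this
  have hpO : ¬ p ∣ Nat.card O := fun h =>
    hpp.out.one_lt.ne' (Nat.eq_one_of_dvd_coprimes hcop h hpH)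
  have hn : Subgroup.normalizer (O : Set G) = ⊤ := Subgroup.normalizer_eq_top O
  have h1 : O ≤ H14.cgen p x y O :=
    H14.le_cgen hxy hxp hyp _ O rfl (by rw [hn]; trivial) (by rw [hn]; trivial) hpO
  have he : ∀ a b : ℕ, ¬ (p ∣ a ∧ p ∣ b) → x ^ a * y ^ b ≠ 1 := by
    intro a b hab h
    by_cases hb : p ∣ b
    · have hyb : y ^ b = 1 := orderOf_dvd_iff_pow_eq_one.1 ((orderOf_dvd_of_pow_eq_one hyp).trans hb)
      rw [hyb, mul_one] at h
      have : p ∣ a := by rw [← hxo]; exact orderOf_dvd_of_pow_eq_one h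
      exact hab ⟨this, hb⟩
    · have hc : b.Coprime (orderOf y) :=
        Nat.Coprime.coprime_dvd_right (orderOf_dvd_of_pow_eq_one hyp)
          ((Nat.Prime.coprime_iff_not_dvd hpp.out).2 hb).symm
      obtain ⟨m, hm⟩ := exists_pow_eq_self_of_coprime hc
      apply hyx
      rw [← hm]
      apply Subgroup.pow_mem
      have e : y ^ b = (x ^ a)⁻¹ := eq_inv_of_mul_eq_one_right h
      rw [e]
      exact Subgroup.inv_mem _ (Subgroup.pow_mem _ (Subgroup.mem_zpowers x) _)
  have h2 : H14.cgen p x y O ≤ Subgroup.normalizer (H : Set G) := by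
    rw [H14.cgen, Subgroup.closure_le]
    rintro v ⟨-, a, b, hab, hc⟩
    have heH : x ^ a * y ^ b ∈ H := H.mul_mem (H.pow_mem hx a) (H.pow_mem hy b)
    refine ti_mem hTI heH (he a b hab) ?_
    have e : v * (x ^ a * y ^ b) * v⁻¹ = x ^ a * y ^ b := by
      rw [hc.eq]; group
    rw [e]
    exact heH
  have h3 : Subgroup.normalizer (H : Set G) = ⊤ := by
    rw [← hsup]
    exact (sup_eq_right.2 (h1.trans h2)).symm
  exact hnn (Subgroup.normalizer_eq_top_iff.1 h3)

theorem no_rank_two' {H O : Subgroup G} [hO : O.Normal] (hTI : IsTISubset (H : Set G))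
    (hnn : ¬ H.Normal) (hcop : (Nat.card O).Coprime (Nat.card H))
    (hsup : O ⊔ Subgroup.normalizer (H : Set G) = ⊤) {p : ℕ} [hpp : Fact p.Prime]
    {X : Type*} [Group X] (f : X →* G) (hf : Function.Injective f) (hfH : ∀ z, f z ∈ H) {x y : X}
    (hxy : x * y = y * x) (hxp : x ^ p = 1) (hyp : y ^ p = 1)
    (hx1 : x ≠ 1) (hyx : y ∉ Subgroup.zpowers x) : False := by
  refine no_rank_two (x := f x) (y := f y) (p := p) hTI hnn hcop hsup (hfH x) (hfH y) ?_ ?_ ?_ ?_ ?_
  · show f x * f y = f y * f x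
    rw [← map_mul, ← map_mul, hxy]
  · rw [← map_pow, hxp, map_one]
  · rw [← map_pow, hyp, map_one]
  · intro h
    exact hx1 (hf (by rw [h, map_one]))
  · rintro ⟨k, hk⟩
    apply hyx
    refine ⟨k, hf ?_⟩
    simpa using hk

theorem cycP_H {H O : Subgroup G} [hO : O.Normal] (hTI : IsTISubset (H : Set G))
    (hnn : ¬ H.Normal) (hcop : (Nat.card O).Coprime (Nat.card H))
    (hsup : O ⊔ Subgroup.normalizer (H : Set G) = ⊤)
    (h2 : ∀ P : Sylow 2 H, IsMulCommutative (P : Subgroup H)) : H19.CycP H := by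
  intro p hp Q₁ hQ₁ hpg
  haveI : Fact p.Prime := ⟨hp⟩
  by_cases hp2 : p = 2
  · subst hp2
    have hcomm : ∀ a b : Q₁, a * b = b * a := by
      intro a b
      have h3 : IsPGroup 2 (Q₁.subgroupOf H) :=
        IsPGroup.of_injective hpg (Subgroup.subgroupOfEquivOfLe hQ₁).toMonoidHom
          (Subgroup.subgroupOfEquivOfLe hQ₁).injective
      obtain ⟨S, hS⟩ := h3.exists_le_sylow
      have ha : (⟨a.1, hQ₁ a.2⟩ : H) ∈ (S : Subgroup H) := hS (Subgroup.mem_subgroupOf.2 a.2)
      have hb : (⟨b.1, hQ₁ b.2⟩ : H) ∈ (S : Subgroup H) := hS (Subgroup.mem_subgroupOf.2 b.2)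
      have h4 := (h2 S).is_comm.comm ⟨_, ha⟩ ⟨_, hb⟩
      exact Subtype.ext (congrArg (fun z : (S : Subgroup H) => ((z : H) : G)) h4)
    apply H14.isCyclic_of_comm_uniqueP hpg hcomm
    intro x y hx hy
    by_contra hyx
    refine no_rank_two' (p := 2) hTI hnn hcop hsup Q₁.subtype Q₁.subtype_injective (fun z => hQ₁ z.2) (hcomm x y) ?_ ?_ ?_ hyx
    · rw [← hx]; exact pow_orderOf_eq_one x
    · rw [← hy]; exact pow_orderOf_eq_one y
    · intro h
      rw [h, orderOf_one] at hx
      omega
  · apply H13.isCyclic_of_pRankLE_one hp2 hpg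
    intro A hAc hAe
    by_contra hlt
    rw [pow_one, not_le] at hlt
    have hA1 : 1 < Nat.card A := hp.one_lt.trans hlt
    haveI : Nontrivial A := Finite.one_lt_card_iff_nontrivial.1 hA1
    obtain ⟨x, hx⟩ := exists_ne (1 : A)
    have hxo : orderOf x = p := orderOf_eq_prime (Subtype.ext (by simpa using hAe _ x.2)) hx
    have hnot : ¬ ∀ y : A, y ∈ Subgroup.zpowers x := by
      intro hall
      have : Subgroup.zpowers x = ⊤ := (Subgroup.eq_top_iff' _).2 hall
      have h5 : Nat.card A = p := by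
        rw [← hxo, ← Nat.card_zpowers, this, Subgroup.card_top]
      omega
    push Not at hnot
    obtain ⟨y, hy⟩ := hnot
    refine no_rank_two' (p := p) hTI hnn hcop hsup (Q₁.subtype.comp A.subtype)
      (Q₁.subtype_injective.comp A.subtype_injective) (fun z => hQ₁ z.1.2) (hAc.is_comm.comm x y) ?_ ?_ hx hy
    · exact Subtype.ext (by simpa using hAe _ x.2)
    · exact Subtype.ext (by simpa using hAe _ y.2)

theorem mem_normalizer_sup {g : G} {A B : Subgroup G} (hA : g ∈ Subgroup.normalizer (A : Set G))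
    (hB : g ∈ Subgroup.normalizer (B : Set G)) :
    g ∈ Subgroup.normalizer ((A ⊔ B : Subgroup G) : Set G) := by
  rw [H01.mem_normalizer_iff_smul] at hA hB ⊢
  rw [Subgroup.smul_sup, hA, hB]

end

/-- Let G be a finite group and H a non-normal subgroup meeting each of its conjugates by elements outside N_G(H) trivially, with the order of H coprime to its index in N_G(H), such that G is π-separable for π the set of primes dividing the order of H (G has a chain of normal subgroups from 1 to G each of whose factors has order divisible only by primes dividing the order of H or coprime to it). Suppose a Sylow 2-subgroup of H is abelian and Q is a complement of H in N_G(H). Then C_H(Q), the subgroup of elements of H commuting with Q, has order coprime to its index in G and has a normal complement in G. -/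
theorem result {G : Type*} [Group G] [Finite G] (H : Subgroup G)
    (hTI : Cfsg.IsTISubset (H : Set G)) (hnn : ¬ H.Normal)
    (hHall : (Nat.card H).Coprime (H.subgroupOf (Subgroup.normalizer (H : Set G))).index)
    (hsep : ∃ (n : ℕ) (M : Fin (n + 1) → Subgroup G), M 0 = ⊥ ∧ M (Fin.last n) = ⊤ ∧ Monotone M ∧ (∀ i, (M i).Normal) ∧
      ∀ i : Fin n, (∀ q : ℕ, q.Prime → q ∣ (M i.castSucc).relIndex (M i.succ) → q ∣ Nat.card H) ∨
        ((M i.castSucc).relIndex (M i.succ)).Coprime (Nat.card H))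
    (h2 : ∀ P : Sylow 2 H, IsMulCommutative (P : Subgroup H))
    (Q : Subgroup G) (hQ : Q ≤ Subgroup.normalizer (H : Set G)) (hQH : Q ⊓ H = ⊥) (hQH' : Q ⊔ H = Subgroup.normalizer (H : Set G)) :
    (Nat.card ↥(H ⊓ Subgroup.centralizer (Q : Set G))).Coprime (H ⊓ Subgroup.centralizer (Q : Set G)).index ∧
    ∃ N : Subgroup G, N.Normal ∧ N.IsComplement' (H ⊓ Subgroup.centralizer (Q : Set G)) := by
  classical
  obtain ⟨n, M, h0, hlast, hmono, hnorm, hfac⟩ := hsep
  have hidxN := coprime_index_normalizer hTI hHall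
  have hidx : (Nat.card H).Coprime H.index := by
    rw [← Subgroup.relIndex_mul_index (Subgroup.le_normalizer : H ≤ Subgroup.normalizer (H : Set G))]
    exact Nat.Coprime.mul_right hHall hidxN
  have hnc : ¬ (Nat.card G).Coprime (Nat.card H) := by
    intro h
    have h1 : Nat.card H = 1 :=
      Nat.eq_one_of_dvd_coprimes h (Subgroup.card_subgroup_dvd_card H) (dvd_refl _)
    apply hnn
    rw [Subgroup.eq_bot_of_card_eq H h1]
    infer_instance
  obtain ⟨O, L, hO, hL, hOL, hOcop, hne, hq⟩ := exists_section M _ h0 hlast hmono hnorm hfac hnc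
  have hsup : O ⊔ Subgroup.normalizer (H : Set G) = ⊤ := exists_O hTI hidx hOL hne hq
  have hcyc : H19.CycP H := cycP_H hTI hnn hOcop hsup h2
  -- Q is coprime to H
  have hQcop : (Nat.card Q).Coprime (Nat.card H) := by
    refine Nat.coprime_of_dvd ?_
    intro r hr hrQ hrH
    haveI : Fact r.Prime := ⟨hr⟩
    obtain ⟨x₀, hx₀⟩ := exists_prime_orderOf_dvd_card' r hrQ
    have hxo : orderOf (x₀ : G) = r := by rw [Subgroup.orderOf_coe]; exact hx₀
    have hx : (x₀ : G) ∈ H := mem_of_coprime_index hHall (hQ x₀.2) (by rw [hxo]; exact hrH)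
    have hx' : (x₀ : G) ∈ Q ⊓ H := ⟨x₀.2, hx⟩
    rw [hQH, Subgroup.mem_bot] at hx'
    rw [hx', orderOf_one] at hxo
    exact hr.one_lt.ne hxo
  obtain ⟨-, -, hWD, hWD'⟩ := H19.commutator_structure hQ hQcop hcyc
  have hWH : (⁅H, Q⁆ : Subgroup G) ≤ H := le_sup_left.trans_eq hWD'
  have hDH : H ⊓ Subgroup.centralizer (Q : Set G) ≤ H := inf_le_left
  have hcD : ∀ k : ℕ, k.Coprime (Nat.card H) →
      k.Coprime (Nat.card ↥(H ⊓ Subgroup.centralizer (Q : Set G))) := fun k hk =>
    Nat.Coprime.coprime_dvd_right (Subgroup.card_dvd_of_le hDH) hk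
  have hQW : Q ≤ Subgroup.normalizer ((⁅H, Q⁆ : Subgroup G) : Set G) := fun a ha =>
    H01.mem_normalizer_commutator (hQ ha) (Subgroup.le_normalizer ha)
  have hQWcop : (Nat.card (⁅H, Q⁆ : Subgroup G)).Coprime (Nat.card Q) :=
    (Nat.Coprime.coprime_dvd_right (Subgroup.card_dvd_of_le hWH) hQcop).symm
  have hcard1 := H01.card_sup_of_le_normalizer hQW hQWcop
  have hcard2 := H01.card_sup_mul_card_inf ((⁅H, Q⁆ : Subgroup G) ⊔ Q) O
  have hNdvd : Nat.card (((⁅H, Q⁆ : Subgroup G) ⊔ Q) ⊔ O : Subgroup G) ∣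
      (Nat.card (⁅H, Q⁆ : Subgroup G) * Nat.card Q) * Nat.card O := by
    rw [hcard1, ← hcard2]
    exact dvd_mul_right _ _
  have hNcop : (Nat.card (((⁅H, Q⁆ : Subgroup G) ⊔ Q) ⊔ O : Subgroup G)).Coprime
      (Nat.card ↥(H ⊓ Subgroup.centralizer (Q : Set G))) :=
    Nat.Coprime.coprime_dvd_left hNdvd
      (Nat.Coprime.mul_left (Nat.Coprime.mul_left hWD (hcD _ hQcop)) (hcD _ hOcop))
  have hsup2 : (((⁅H, Q⁆ : Subgroup G) ⊔ Q) ⊔ O) ⊔ (H ⊓ Subgroup.centralizer (Q : Set G)) = ⊤ := by
    rw [eq_top_iff, ← hsup]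
    refine sup_le (le_sup_right.trans le_sup_left) ?_
    rw [← hQH']
    refine sup_le ((le_sup_right.trans le_sup_left).trans le_sup_left) ?_
    conv_lhs => rw [← hWD']
    exact sup_le ((le_sup_left.trans le_sup_left).trans le_sup_left) le_sup_right
  have hNnormal : (((⁅H, Q⁆ : Subgroup G) ⊔ Q) ⊔ O).Normal := by
    apply Subgroup.normalizer_eq_top_iff.1
    rw [eq_top_iff, ← hsup2]
    refine sup_le Subgroup.le_normalizer ?_
    rintro d ⟨hdH, hdC⟩
    have hdQ : d ∈ Subgroup.normalizer (Q : Set G) := by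
      rw [Subgroup.mem_normalizer_iff]
      intro h
      constructor
      · intro hh
        have hc : h * d = d * h := Subgroup.mem_centralizer_iff.1 hdC h hh
        have e : d * h * d⁻¹ = h := by rw [← hc]; group
        rw [e]
        exact hh
      · intro hh
        have hc : (d * h * d⁻¹) * d = d * (d * h * d⁻¹) := Subgroup.mem_centralizer_iff.1 hdC _ hh
        have e : d * h * d⁻¹ = h := by
          have : d * h = d * (d * h * d⁻¹) := by
            rw [← hc]; group
          exact (mul_left_cancel this).symm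
        rw [← e]
        exact hh
    refine mem_normalizer_sup (mem_normalizer_sup
      (H01.mem_normalizer_commutator (Subgroup.le_normalizer hdH) hdQ) hdQ) ?_
    rw [Subgroup.normalizer_eq_top O]
    trivial
  have hcompl : (((⁅H, Q⁆ : Subgroup G) ⊔ Q) ⊔ O).IsComplement'
      (H ⊓ Subgroup.centralizer (Q : Set G)) := by
    apply Subgroup.isComplement'_of_disjoint_and_mul_eq_univ
    · rw [disjoint_iff]
      apply Subgroup.eq_bot_of_card_eq
      exact Nat.eq_one_of_dvd_coprimes hNcop (Subgroup.card_dvd_of_le inf_le_left)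
        (Subgroup.card_dvd_of_le inf_le_right)
    · rw [← Subgroup.normal_mul, hsup2]
      rfl
  refine ⟨?_, _, hNnormal, hcompl⟩
  rw [hcompl.index_eq_card]
  exact hNcop.symm

end Cfsg.Agent.S4151
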