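import Cfsg.Statements.S4153
import Cfsg.Agent.Lib.H19.Lifts
import Cfsg.Agent.Lib.H18.Syl
import Mathlib

set_option autoImplicit false
open Cfsg

namespace Cfsg.Agent.S4153

open Cfsg.Agent.H19

/-- Let G be a finite group, p a prime, N a normal subgroup, P a Sylow p-subgroup of G and P̄ a Sylow p-subgroup of G/N. Count the elements of p-power order, the identity included. Then (number of such elements of G/N)/#P̄ ≤ (number of such elements of G)/#P, stated as a cross-multiplied inequality, with equality when N is central. -/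
theorem result {G : Type*} [Group G] [Finite G] (p : ℕ) [Fact p.Prime] (N : Subgroup G) [N.Normal]
    (P : Sylow p G) (Pbar : Sylow p (G ⧸ N)) :
    Nat.card {g : (G ⧸ N) // ∃ k : ℕ, orderOf g = p ^ k} * Nat.card (P : Subgroup G) ≤ Nat.card {g : G // ∃ k : ℕ, orderOf g = p ^ k} * Nat.card (Pbar : Subgroup (G ⧸ N)) ∧
    (N ≤ Subgroup.center G → Nat.card {g : (G ⧸ N) // ∃ k : ℕ, orderOf g = p ^ k} * Nat.card (P : Subgroup G) = Nat.card {g : G // ∃ k : ℕ, orderOf g = p ^ k} * Nat.card (Pbar : Subgroup (G ⧸ N))) := by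
  classical
  have hp := (Fact.out : p.Prime)
  let π : G →* G ⧸ N := QuotientGroup.mk' N
  have hπ : Function.Surjective π := QuotientGroup.mk'_surjective N
  have hker : ∀ v : G, π v = 1 ↔ v ∈ N := fun v => QuotientGroup.eq_one_iff v
  -- the map on p-elements
  have hmapp : ∀ g : G, (∃ k : ℕ, orderOf g = p ^ k) → ∃ k : ℕ, orderOf (π g) = p ^ k := by
    rintro g ⟨k, hk⟩
    have h1 : orderOf (π g) ∣ p ^ k := hk ▸ orderOf_map_dvd π g
    obtain ⟨j, -, hj⟩ := (Nat.dvd_prime_pow hp).1 h1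
    exact ⟨j, hj⟩
  let AG := {g : G // ∃ k : ℕ, orderOf g = p ^ k}
  let AQ := {g : (G ⧸ N) // ∃ k : ℕ, orderOf g = p ^ k}
  have : Fintype AQ := Fintype.ofFinite _
  let f : AG → AQ := fun g => ⟨π g, hmapp g g.2⟩
  -- Sylow of N
  obtain ⟨Q₀⟩ := (inferInstance : Nonempty (Sylow p N))
  set ℓ := Nat.card (Q₀ : Subgroup N) with hℓ
  have hℓpos : 0 < ℓ := Nat.card_pos
  -- lifts
  have hlift : ∀ y : AQ, ∃ x : G, π x = y ∧ ∃ k : ℕ, orderOf x = p ^ k := by
    intro y
    obtain ⟨k, hk⟩ := y.2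
    have hyord : ∀ r : ℕ, r.Prime → r ∣ orderOf (y : G ⧸ N) → r ∈ ({p} : Set ℕ) := by
      intro r hr hr1
      rw [hk] at hr1
      exact (Nat.prime_dvd_prime_iff_eq hr hp).1 (hr.dvd_of_dvd_pow hr1)
    obtain ⟨x, hx, hx1⟩ := exists_pi_lift π hπ {p} _ hyord
    refine ⟨x, hx, ?_⟩
    exact ⟨_, Nat.eq_prime_pow_of_unique_prime_dvd (orderOf_pos x).ne' (fun {d} hd hd1 => hx1 d hd hd1)⟩
  -- lower bound for fibers
  have hfib : ∀ y : AQ, ℓ ≤ Nat.card {g : AG // f g = y} := by
    intro y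
    obtain ⟨x, hx, ⟨k, hk⟩⟩ := hlift y
    obtain ⟨T, hT⟩ := exists_sylow_of_orderOf hk
    let S₁ : Sylow p N := Cfsg.Agent.H18.sylowOfNormal T N
    have hS₁ : Nat.card (S₁ : Subgroup N) = ℓ := by
      rw [hℓ, Sylow.card_eq_multiplicity, Sylow.card_eq_multiplicity]
    rw [← hS₁]
    refine Nat.card_le_card_of_injective (β := {g : AG // f g = y}) (fun r => ⟨⟨x * ((r : N) : G), ?_⟩, ?_⟩) ?_
    · have hr : ((r : N) : G) ∈ (T : Subgroup G) := r.2
      exact orderOf_of_mem_isPGroup T.isPGroup' (Subgroup.mul_mem _ hT hr)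
    · apply Subtype.ext
      show π (x * ((r : N) : G)) = y
      rw [map_mul, hx, (hker _).2 (r : N).2, mul_one]
    · intro r r' h
      have h1 : x * ((r : N) : G) = x * ((r' : N) : G) := congrArg (fun z => ((z : {g : AG // f g = y}) : AG).1) h
      exact Subtype.ext (Subtype.ext (mul_left_cancel h1))
  have hsum : Nat.card AG = ∑ y : AQ, Nat.card {g : AG // f g = y} := by
    rw [← Nat.card_sigma]
    exact Nat.card_congr (Equiv.sigmaFiberEquiv f).symm
  -- card of P
  have hP : Nat.card (P : Subgroup G) = Nat.card (Pbar : Subgroup (G ⧸ N)) * ℓ := by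
    rw [hℓ, Sylow.card_eq_multiplicity, Sylow.card_eq_multiplicity, Sylow.card_eq_multiplicity, ← pow_add]
    congr 1
    rw [Subgroup.card_eq_card_quotient_mul_card_subgroup N, Nat.factorization_mul Nat.card_pos.ne' Nat.card_pos.ne']
    rfl
  have hlow : Nat.card AQ * ℓ ≤ Nat.card AG := by
    rw [hsum, Nat.card_eq_fintype_card, ← smul_eq_mul, ← Finset.card_univ]
    exact Finset.card_nsmul_le_sum _ _ _ (fun y _ => hfib y)
  constructor
  · rw [hP]
    calc Nat.card AQ * (Nat.card (Pbar : Subgroup (G ⧸ N)) * ℓ)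
        = (Nat.card AQ * ℓ) * Nat.card (Pbar : Subgroup (G ⧸ N)) := by ring
      _ ≤ Nat.card AG * Nat.card (Pbar : Subgroup (G ⧸ N)) := Nat.mul_le_mul_right _ hlow
  · intro hNc
    have hQ₀n : (Q₀ : Subgroup N).Normal := by
      constructor
      intro n hn g
      have h1 : (g : G) * n = n * g := Subgroup.mem_center_iff.1 (hNc n.2) g
      have h2 : g * n * g⁻¹ = n := by
        apply Subtype.ext
        show (g : G) * n * (g : G)⁻¹ = n
        rw [h1]; simp
      rw [h2]
      exact hn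
    have hfib2 : ∀ y : AQ, Nat.card {g : AG // f g = y} ≤ ℓ := by
      intro y
      obtain ⟨x, hx, ⟨k, hk⟩⟩ := hlift y
      have hmem : ∀ g : {g : AG // f g = y}, x⁻¹ * ((g : AG) : G) ∈ N := by
        intro g
        rw [← hker, map_mul, map_inv, hx]
        have h1 : π ((g : AG) : G) = y := congrArg Subtype.val g.2
        rw [h1]; simp
      have hpel : ∀ g : {g : AG // f g = y},
          (⟨x⁻¹ * ((g : AG) : G), hmem g⟩ : N) ∈ (Q₀ : Subgroup N) := by
        intro g
        obtain ⟨a, ha⟩ := (g : AG).2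
        have hcent : Commute x⁻¹ ((g : AG) : G) := by
          have h1 := Subgroup.mem_center_iff.1 (hNc (hmem g)) x⁻¹
          have h2 : x⁻¹ * (x⁻¹ * ((g : AG) : G)) = x⁻¹ * (((g : AG) : G) * x⁻¹) := by
            rw [← mul_assoc x⁻¹ ((g : AG) : G)]
            exact h1
          exact mul_left_cancel h2
        have h1 : (x⁻¹ * ((g : AG) : G)) ^ (p ^ (k + a)) = 1 := by
          rw [hcent.mul_pow, inv_pow, pow_add p k a, pow_mul, ← hk, pow_orderOf_eq_one, one_pow,
            inv_one, one_mul, mul_comm, pow_mul, ← ha, pow_orderOf_eq_one, one_pow]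
        have h2 : orderOf (⟨x⁻¹ * ((g : AG) : G), hmem g⟩ : N) ∣ p ^ (k + a) := by
          rw [Subgroup.orderOf_mk]
          exact orderOf_dvd_of_pow_eq_one h1
        obtain ⟨j, -, hj⟩ := (Nat.dvd_prime_pow hp).1 h2
        exact mem_sylow_of_normal hj Q₀ hQ₀n
      refine Nat.card_le_card_of_injective (β := (Q₀ : Subgroup N))
        (fun g => ⟨⟨x⁻¹ * ((g : AG) : G), hmem g⟩, hpel g⟩) ?_
      intro g g' h
      have h1 : x⁻¹ * ((g : AG) : G) = x⁻¹ * ((g' : AG) : G) :=
        congrArg (fun z : (Q₀ : Subgroup N) => ((z : N) : G)) h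
      exact Subtype.ext (Subtype.ext (mul_left_cancel h1))
    have hsum2 : Nat.card AG = Nat.card AQ * ℓ := by
      rw [hsum, Nat.card_eq_fintype_card, ← smul_eq_mul, ← Finset.card_univ, ← Finset.sum_const]
      exact Finset.sum_congr rfl (fun y _ => le_antisymm (hfib2 y) (hfib y))
    rw [hP]
    show Nat.card AQ * _ = Nat.card AG * _
    rw [hsum2]
    ring

end Cfsg.Agent.S4153
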