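import Cfsg.Statements.S4154
import Mathlib

set_option autoImplicit false
open Cfsg

namespace Cfsg.Agent.S4154

/-- Let G be a finite group and α an automorphism of G such that every element of G is the product of an element fixed by α and an element of the form g⁻¹α(g). If N is a normal α-invariant subgroup, then the automorphism ᾱ induced on G/N has the same property, and every coset fixed by ᾱ contains an element fixed by α (so the fixed points of ᾱ are the images of the fixed points of α). -/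
theorem result {G : Type*} [Group G] [Finite G] (α : MulAut G)
    (hccp : ∀ x : G, ∃ c g : G, α c = c ∧ x = c * (g⁻¹ * α g))
    (N : Subgroup G) [N.Normal] (hN : ∀ n ∈ N, α n ∈ N) :
    (∀ x : G, ∃ c g : G, c⁻¹ * α c ∈ N ∧ x⁻¹ * (c * (g⁻¹ * α g)) ∈ N) ∧
    (∀ x : G, x⁻¹ * α x ∈ N → ∃ c : G, α c = c ∧ c⁻¹ * x ∈ N) := by
  classical
  refine ⟨?_, ?_⟩
  · intro x
    obtain ⟨c, g, hc, hx⟩ := hccp x
    refine ⟨c, g, ?_, ?_⟩
    · rw [hc]; simpa using N.one_mem
    · rw [← hx]; simpa using N.one_mem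
  have hNn : N.Normal := inferInstance
  let π : G →* G ⧸ N := QuotientGroup.mk' N
  have hπ : Function.Surjective π := QuotientGroup.mk'_surjective N
  have hker : ∀ v : G, π v = 1 ↔ v ∈ N := fun v => QuotientGroup.eq_one_iff v
  let S : Subgroup G :=
    { carrier := {x | x⁻¹ * α x ∈ N}
      one_mem' := by
        show (1 : G)⁻¹ * α 1 ∈ N
        simpa using N.one_mem
      mul_mem' := by
        rintro a b ha hb
        show (a * b)⁻¹ * α (a * b) ∈ N
        have h1 : b⁻¹ * (a⁻¹ * α a) * b ∈ N := by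
          have := hNn.conj_mem _ ha b⁻¹
          simpa using this
        have e : (a * b)⁻¹ * α (a * b) = (b⁻¹ * (a⁻¹ * α a) * b) * (b⁻¹ * α b) := by
          rw [map_mul]; group
        rw [e]
        exact N.mul_mem h1 hb
      inv_mem' := by
        rintro a ha
        show a⁻¹⁻¹ * α a⁻¹ ∈ N
        have h1 := hNn.conj_mem _ (N.inv_mem ha) a
        have e : a⁻¹⁻¹ * α a⁻¹ = a * (a⁻¹ * α a)⁻¹ * a⁻¹ := by
          rw [map_inv]; group
        rw [e]
        exact h1 }
  have hmemS : ∀ x : G, x ∈ S ↔ x⁻¹ * α x ∈ N := fun x => Iff.rfl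
  let C : Subgroup G :=
    { carrier := {c | α c = c}
      one_mem' := map_one α
      mul_mem' := by
        rintro a b ha hb
        show α (a * b) = a * b
        rw [map_mul, ha, hb]
      inv_mem' := by
        rintro a ha
        show α a⁻¹ = a⁻¹
        rw [map_inv, ha] }
  have hCS : C ≤ S := by
    intro c hc
    rw [hmemS]
    have hc' : α c = c := hc
    rw [hc']
    simpa using N.one_mem
  have hNS : N ≤ S := by
    intro n hn
    rw [hmemS]
    exact N.mul_mem (N.inv_mem hn) (hN n hn)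
  -- theta
  let θ : G → G ⧸ N := fun g => π (g⁻¹ * α g)
  have hθ : ∀ (s g : G), s ∈ S → θ (s * g) = θ g := by
    intro s g hs
    show π ((s * g)⁻¹ * α (s * g)) = π (g⁻¹ * α g)
    have e : (s * g)⁻¹ * α (s * g) = (g⁻¹ * (s⁻¹ * α s) * g) * (g⁻¹ * α g) := by
      rw [map_mul]; group
    rw [e, map_mul]
    have h1 : g⁻¹ * (s⁻¹ * α s) * g ∈ N := by
      have := hNn.conj_mem _ hs g⁻¹
      simpa using this
    rw [(hker _).2 h1, one_mul]
  let Cbar : Subgroup (G ⧸ N) := C.map π
  let Sbar : Subgroup (G ⧸ N) := S.map π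
  have hle : Cbar ≤ Sbar := Subgroup.map_mono hCS
  let ψ : G ⧸ S → G ⧸ N := fun q => θ (q.out)⁻¹
  have hψ : ∀ g : G, ψ ((g⁻¹ : G) : G ⧸ S) = θ g := by
    intro g
    show θ ((g⁻¹ : G) : G ⧸ S).out⁻¹ = θ g
    have h1 : (((g⁻¹ : G) : G ⧸ S).out : G ⧸ S) = (g⁻¹ : G) := QuotientGroup.out_eq' _
    rw [QuotientGroup.eq] at h1
    have h2 := S.inv_mem h1
    have e : ((g⁻¹ : G) : G ⧸ S).out⁻¹ = ((((g⁻¹ : G) : G ⧸ S).out)⁻¹ * g⁻¹)⁻¹⁻¹ * g := by group
    rw [e]
    apply hθ
    simpa using h1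
  -- surjectivity
  let μ : Cbar × (G ⧸ S) → G ⧸ N := fun p => (p.1 : G ⧸ N) * ψ p.2
  have hμ : Function.Surjective μ := by
    intro y
    obtain ⟨x, rfl⟩ := hπ y
    obtain ⟨c, g, hc, hx⟩ := hccp x
    refine ⟨(⟨π c, ⟨c, hc, rfl⟩⟩, ((g⁻¹ : G) : G ⧸ S)), ?_⟩
    show π c * ψ _ = π x
    rw [hψ, hx, map_mul]
  have hcard : Nat.card (G ⧸ N) ≤ Nat.card Cbar * S.index := by
    have h1 := Nat.card_le_card_of_surjective μ hμ
    rw [Nat.card_prod] at h1
    exact h1
  -- index of Sbar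
  have hScomap : S = Sbar.comap π := by
    rw [Subgroup.comap_map_eq, QuotientGroup.ker_mk']
    exact (sup_eq_left.2 hNS).symm
  have hidx : S.index = Sbar.index := by
    rw [hScomap]
    exact Subgroup.index_comap_of_surjective _ hπ
  have hSbar : Nat.card Sbar * Sbar.index = Nat.card (G ⧸ N) := Subgroup.card_mul_index Sbar
  have hposidx : 0 < Sbar.index := Nat.pos_of_ne_zero Subgroup.index_ne_zero_of_finite
  have hcard2 : Nat.card Sbar ≤ Nat.card Cbar := by
    rw [← hSbar, hidx] at hcard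
    exact Nat.le_of_mul_le_mul_right hcard hposidx
  have heq : Cbar = Sbar := Subgroup.eq_of_le_of_card_ge hle hcard2
  intro x hx
  have h1 : π x ∈ Sbar := ⟨x, hx, rfl⟩
  rw [← heq] at h1
  obtain ⟨c, hc, hce⟩ := h1
  refine ⟨c, hc, ?_⟩
  rw [← hker, map_mul, map_inv, hce]
  simp

end Cfsg.Agent.S4154
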