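import Cfsg.Statements.S4163
import Cfsg.Agent.Lib.H19.SmallClass

set_option autoImplicit false
open Cfsg

namespace Cfsg.Agent.S4163

/-- Let G be a finite group with a normal abelian subgroup A satisfying C_G(A) = A. Suppose some conjugacy class of G has size greater than 1, let m be the smallest such size, and let M be the subgroup generated by the elements whose class has size 1 or m. Then M is nilpotent of class at most 3. -/
theorem result {G : Type*} [Group G] [Finite G]
    (A : Subgroup G) [A.Normal] (hA : IsMulCommutative A) (hCA : Subgroup.centralizer (A : Set G) = A)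
    (m : ℕ) (hm1 : 1 < m) (hm : ∃ x : G, (Subgroup.centralizer ({x} : Set G)).index = m) (hmin : ∀ x : G, 1 < (Subgroup.centralizer ({x} : Set G)).index → m ≤ (Subgroup.centralizer ({x} : Set G)).index) :
    Subgroup.upperCentralSeries ↥(Subgroup.closure {x : G | (Subgroup.centralizer ({x} : Set G)).index = 1 ∨ (Subgroup.centralizer ({x} : Set G)).index = m}) 3 = ⊤ := by
  
  classical
  set S : Set G := {x : G | (Subgroup.centralizer ({x} : Set G)).index = 1 ∨
    (Subgroup.centralizer ({x} : Set G)).index = m} with hS
  have hgen : ∀ x ∈ S, ∀ a ∈ A, x * a * x⁻¹ * a⁻¹ ∈ Subgroup.center G := by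
    intro x hx a ha
    rcases hx with h1 | h1
    · have hx' : x ∈ Subgroup.center G := by
        rw [Subgroup.mem_center_iff]
        intro g
        have : g ∈ Subgroup.centralizer ({x} : Set G) := by
          rw [Subgroup.index_eq_one.mp h1]; trivial
        exact (Subgroup.mem_centralizer_singleton_iff).mp this
      have := Subgroup.mem_center_iff.mp hx' a
      have e : x * a * x⁻¹ * a⁻¹ = 1 := by rw [← this]; group
      rw [e]; exact Subgroup.one_mem _
    · exact Cfsg.Agent.H19.comm_mem_center_of_minimal A hA m hmin x h1 a ha
  have hcl := Cfsg.Agent.H19.comm_center_closure A S hgen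
  apply Cfsg.Agent.H19.upperCentralSeries_three_eq_top
  intro u v w t
  apply Subtype.ext
  have := Cfsg.Agent.H19.triple_comm_eq_one A hCA (u : G) v w t (hcl _ u.2) (hcl _ v.2) (hcl _ w.2)
  simpa using this

end Cfsg.Agent.S4163
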