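import Cfsg.Statements.S4168
import Mathlib

set_option autoImplicit false
open Cfsg

namespace Cfsg.Agent.S4168

open scoped commutatorElement

/-- Let L be a finite quasisimple group (perfect with L/Z(L) simple). Then every prime dividing the order of the centre Z(L) also divides the order of L/Z(L). -/
theorem result {L : Type*} [Group L] [Finite L] (hL : Cfsg.IsQuasisimple L)
    (p : ℕ) (hp : p.Prime) (hdiv : p ∣ Nat.card (Subgroup.center L)) : p ∣ (Subgroup.center L).index := by
  classical
  have hperf := hL.1
  have : Fact p.Prime := ⟨hp⟩
  obtain ⟨z, hz⟩ := exists_prime_orderOf_dvd_card' (G := Subgroup.center L) p hdiv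
  let φ := MonoidHom.transferCenterPow L
  have hker : commutator L ≤ φ.ker := by
    rw [commutator_def, Subgroup.commutator_le]
    intro a _ b _
    rw [MonoidHom.mem_ker, commutatorElement_def, map_mul, map_mul, map_mul, map_inv, map_inv]
    have h : φ a * φ b = φ b * φ a :=
      Subtype.ext (Subgroup.mem_center_iff.1 (φ a).2 (φ b : L)).symm
    rw [h]
    group
  have htop : φ.ker = ⊤ := by
    rw [eq_top_iff]
    rw [show commutator L = ⊤ from hperf.commutator_eq_top] at hker
    exact hker
  have h1 : φ (z : L) = 1 := by
    have : (z : L) ∈ φ.ker := by rw [htop]; exact Subgroup.mem_top _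
    exact this
  have h2 : (z : L) ^ (Subgroup.center L).index = 1 := by
    have := congrArg Subtype.val h1
    rwa [MonoidHom.transferCenterPow_apply] at this
  have h3 : orderOf (z : L) ∣ (Subgroup.center L).index := orderOf_dvd_of_pow_eq_one h2
  rw [Subgroup.orderOf_coe, hz] at h3
  exact h3

end Cfsg.Agent.S4168
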