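import Cfsg.Statements.S4169
import Cfsg.Agent.Lib.H19.SmallClass
import Cfsg.Agent.Lib.H14.Nilp

set_option autoImplicit false
open Cfsg

namespace Cfsg.Agent.S4169

/-- Let P be a finite p-group whose conjugacy classes have exactly two sizes (1 and one other value). Then P has nilpotency class at most 3. -/
theorem result {P : Type*} [Group P] [Finite P] {p : ℕ} [Fact p.Prime] (hP : IsPGroup p P)
    (m : ℕ) (hm : 1 < m) (h : ∀ x : P, (Subgroup.centralizer ({x} : Set P)).index = 1 ∨ (Subgroup.centralizer ({x} : Set P)).index = m) :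
    upperCentralSeries P 3 = ⊤ := by
  
  classical
  haveI : Group.IsNilpotent P := hP.isNilpotent
  obtain ⟨A, hAn, hAab, hAc⟩ := Cfsg.Agent.H14.exists_normal_abelian_selfCentralizing (G := P)
  haveI := hAn
  have hCA : Subgroup.centralizer (A : Set P) = A := by
    apply le_antisymm hAc
    intro a ha
    rw [Subgroup.mem_centralizer_iff]
    intro b hb
    have := hAab.is_comm.comm ⟨b, hb⟩ ⟨a, ha⟩
    exact congrArg Subtype.val this
  have hmin : ∀ x : P, 1 < (Subgroup.centralizer ({x} : Set P)).index →
      m ≤ (Subgroup.centralizer ({x} : Set P)).index := by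
    intro x hx
    rcases h x with h1 | h1
    · omega
    · omega
  have hgen : ∀ x : P, ∀ a ∈ A, x * a * x⁻¹ * a⁻¹ ∈ Subgroup.center P := by
    intro x a ha
    rcases h x with h1 | h1
    · have hx' : x ∈ Subgroup.center P := by
        rw [Subgroup.mem_center_iff]
        intro g
        have : g ∈ Subgroup.centralizer ({x} : Set P) := by
          rw [Subgroup.index_eq_one.mp h1]; trivial
        exact (Subgroup.mem_centralizer_singleton_iff).mp this
      have := Subgroup.mem_center_iff.mp hx' a
      have e : x * a * x⁻¹ * a⁻¹ = 1 := by rw [← this]; group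
      rw [e]; exact Subgroup.one_mem _
    · exact Cfsg.Agent.H19.comm_mem_center_of_minimal A hAab m hmin x h1 a ha
  apply Cfsg.Agent.H19.upperCentralSeries_three_eq_top
  intro u v w t
  exact Cfsg.Agent.H19.triple_comm_eq_one A hCA u v w t (hgen u) (hgen v) (hgen w)

end Cfsg.Agent.S4169
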