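import Cfsg.Statements.S4170
import Mathlib
-- import your own Cfsg.Agent.* helpers here

set_option autoImplicit false
open scoped Pointwise
open Cfsg

namespace Cfsg.Agent.S4170


theorem key {Γ Ω : Type*} [Group Γ] [Finite Γ] [MulAction Γ Ω] [Finite Ω] (p : ℕ) [Fact p.Prime] (P : Sylow p Γ)
    (hF : {ω : Ω | ∀ x ∈ (P : Subgroup Γ), x • ω = ω}.Nonempty) (γ : Ω) (hγ : γ ∉ {ω : Ω | ∀ x ∈ (P : Subgroup Γ), x • ω = ω})
    (S : Subgroup Γ) (hS : S ≤ MulAction.stabilizer Γ {ω : Ω | ∀ x ∈ (P : Subgroup Γ), x • ω = ω})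
    (hS2 : S ≤ MulAction.stabilizer Γ ({γ} : Set Ω)) : p ∣ S.index := by
  classical
  set F : Set Ω := {ω : Ω | ∀ x ∈ (P : Subgroup Γ), x • ω = ω} with hFdef
  by_contra hnd
  have hnd' : ¬ p ∣ Nat.card (Γ ⧸ S) := hnd
  haveI : Finite (Γ ⧸ S) := inferInstance
  obtain ⟨q, hq⟩ := P.isPGroup'.nonempty_fixed_point_of_prime_not_dvd_card (Γ ⧸ S) hnd'
  induction q using QuotientGroup.induction_on with
  | H g =>
    have hfix : ∀ x ∈ (P : Subgroup Γ), g⁻¹ * x * g ∈ S := by
      intro x hx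
      have h1 := hq ⟨x, hx⟩
      have h2 : x • (g : Γ ⧸ S) = (g : Γ ⧸ S) := h1
      rw [MulAction.Quotient.smul_coe, QuotientGroup.eq] at h2
      have := S.inv_mem h2
      simpa [mul_assoc] using this
    let P' : Sylow p Γ := g⁻¹ • P
    have hmemP' : ∀ y ∈ (P' : Subgroup Γ), g * y * g⁻¹ ∈ (P : Subgroup Γ) := by
      intro y hy
      have h1 : y ∈ (MulAut.conj g⁻¹ • (P : Subgroup Γ)) := hy
      rw [Subgroup.mem_pointwise_smul_iff_inv_smul_mem] at h1
      simpa using h1
    have hP'S : (P' : Subgroup Γ) ≤ S := by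
      intro y hy
      have := hfix _ (hmemP' y hy)
      have e : g⁻¹ * (g * y * g⁻¹) * g = y := by group
      rwa [e] at this
    have hFs : ∀ n ∈ MulAction.stabilizer Γ F, ∀ f ∈ F, n • f ∈ F := by
      intro n hn f hf
      have h1 : n • F = F := hn
      rw [← h1]
      exact Set.smul_mem_smul_set hf
    have hPN : (P : Subgroup Γ) ≤ MulAction.stabilizer Γ F := by
      intro x hx
      rw [MulAction.mem_stabilizer_iff]
      ext ω
      rw [Set.mem_smul_set_iff_inv_smul_mem]
      constructor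
      · intro h
        have h2 := h x hx
        have h3 : x⁻¹ • ω = ω := by
          have := hx
          have h5 : x⁻¹ • ω ∈ F := h
          have h6 := h5 x hx
          rw [smul_inv_smul] at h6
          rw [← h6]
        rwa [h3] at h
      · intro h y hy
        have h2 := (P : Subgroup Γ).inv_mem hx
        have h3 : x⁻¹ • ω = ω := h _ h2
        rw [h3]
        exact h y hy
    have hP'N : (P' : Subgroup Γ) ≤ MulAction.stabilizer Γ F := hP'S.trans hS
    obtain ⟨n, hn⟩ := MulAction.exists_smul_eq (MulAction.stabilizer Γ F) (P.subtype hPN) (P'.subtype hP'N)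
    -- P' fixes F pointwise
    have hP'fix : ∀ y ∈ (P' : Subgroup Γ), ∀ f ∈ F, y • f = f := by
      intro y hy f hf
      have h1 : (⟨y, hP'N hy⟩ : MulAction.stabilizer Γ F) ∈ ((P'.subtype hP'N : Sylow p _) : Subgroup _) :=
        Subgroup.mem_subgroupOf.2 hy
      rw [← hn] at h1
      have h2 : (⟨y, hP'N hy⟩ : MulAction.stabilizer Γ F) ∈
          (MulAut.conj n • ((P.subtype hPN : Sylow p _) : Subgroup _)) := h1
      rw [Subgroup.mem_pointwise_smul_iff_inv_smul_mem] at h2
      have h3 : ((n : Γ)⁻¹ * y * (n : Γ)) ∈ (P : Subgroup Γ) := by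
        have := Subgroup.mem_subgroupOf.1 h2
        simpa using this
      have h4 : (n : Γ)⁻¹ • f ∈ F := hFs _ ((MulAction.stabilizer Γ F).inv_mem n.2) f hf
      have h5 := h4 _ h3
      have h6 : y • f = (n : Γ) • (((n : Γ)⁻¹ * y * (n : Γ)) • ((n : Γ)⁻¹ • f)) := by
        simp [mul_smul]
      rw [h6, h5, smul_inv_smul]
    have hγ' : ∀ y ∈ (P' : Subgroup Γ), y • γ = γ := by
      intro y hy
      have h1 : y • ({γ} : Set Ω) = {γ} := hS2 (hP'S hy)
      rw [Set.smul_set_singleton] at h1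
      exact Set.singleton_eq_singleton_iff.1 h1
    -- count the fixed points
    have hsub : insert γ F ⊆ (fun ω => g⁻¹ • ω) '' F := by
      intro ω hω
      refine ⟨g • ω, ?_, by simp⟩
      intro x hx
      have hy : g⁻¹ * x * g ∈ (P' : Subgroup Γ) := by
        have h1 : g⁻¹ * x * g ∈ (MulAut.conj g⁻¹ • (P : Subgroup Γ)) := by
          rw [Subgroup.mem_pointwise_smul_iff_inv_smul_mem]
          simpa [mul_assoc] using hx
        exact h1
      have h3 : (g⁻¹ * x * g) • ω = ω := by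
        rcases hω with rfl | hω
        · exact hγ' _ hy
        · exact hP'fix _ hy _ hω
      have h4 : x • g • ω = g • ((g⁻¹ * x * g) • ω) := by
        simp [mul_smul]
      rw [h4, h3]
    have hinj : Function.Injective (fun ω : Ω => g⁻¹ • ω) := MulAction.injective g⁻¹
    have h7 := Set.ncard_le_ncard hsub (Set.toFinite _)
    rw [Set.ncard_image_of_injective _ hinj, Set.ncard_insert_of_notMem hγ (Set.toFinite _)] at h7
    omega

theorem key2 {Γ Ω : Type*} [Group Γ] [Finite Γ] [MulAction Γ Ω] [Finite Ω] (p : ℕ) [Fact p.Prime] (P : Sylow p Γ)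
    (hF : ¬ {ω : Ω | ∀ x ∈ (P : Subgroup Γ), x • ω = ω}.Nonempty) (α : Ω)
    (S : Subgroup Γ) (hS : S ≤ MulAction.stabilizer Γ ({α} : Set Ω)) : p ∣ S.index := by
  by_contra hnd
  have hnd' : ¬ p ∣ Nat.card (Γ ⧸ S) := hnd
  haveI : Finite (Γ ⧸ S) := inferInstance
  obtain ⟨q, hq⟩ := P.isPGroup'.nonempty_fixed_point_of_prime_not_dvd_card (Γ ⧸ S) hnd'
  induction q using QuotientGroup.induction_on with
  | H g =>
    apply hF
    refine ⟨g • α, ?_⟩
    intro x hx
    have h1 := hq ⟨x, hx⟩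
    have h2 : x • (g : Γ ⧸ S) = (g : Γ ⧸ S) := h1
    rw [MulAction.Quotient.smul_coe, QuotientGroup.eq] at h2
    have h3 : g⁻¹ * x * g ∈ S := by
      have := S.inv_mem h2
      simpa [mul_assoc] using this
    have h4 : (g⁻¹ * x * g) • ({α} : Set Ω) = {α} := hS h3
    rw [Set.smul_set_singleton] at h4
    have h5 := Set.singleton_eq_singleton_iff.1 h4
    have h6 : x • g • α = g • ((g⁻¹ * x * g) • α) := by
      simp [mul_smul]
    rw [h6, h5]



/-- Let p be an odd prime and G a nontrivial group of permutations of a finite set Ω that is generated by its elements of p-power order. Then Ω has two disjoint nonempty subsets Δ₁ and Δ₂ such that the index in G of the subgroup of elements mapping Δ₁ onto Δ₁ and Δ₂ onto Δ₂ (and hence also the complement of their union onto itself) is divisible by p. -/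
theorem result {Ω : Type*} [Fintype Ω] (p : ℕ) [Fact p.Prime] (hp : p ≠ 2) (G : Subgroup (Equiv.Perm Ω)) (hG : G ≠ ⊥) (hgen : Subgroup.closure {g : G | ∃ k : ℕ, orderOf g = p ^ k} = ⊤) :
    ∃ Δ₁ Δ₂ : Set Ω, Δ₁.Nonempty ∧ Δ₂.Nonempty ∧ Disjoint Δ₁ Δ₂ ∧ p ∣ (MulAction.stabilizer G Δ₁ ⊓ MulAction.stabilizer G Δ₂).index := by
  classical
  haveI : Finite G := inferInstance
  obtain ⟨P⟩ : Nonempty (Sylow p G) := inferInstance
  -- two points
  have hnt : ∃ g : Equiv.Perm Ω, g ∈ G ∧ g ≠ 1 := by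
    by_contra hcon
    push Not at hcon
    apply hG
    rw [eq_bot_iff]
    intro g hg
    exact hcon g hg
  obtain ⟨g₀, hg₀, hg₀1⟩ := hnt
  obtain ⟨α, hα⟩ : ∃ α, g₀ α ≠ α := by
    by_contra hcon
    push Not at hcon
    exact hg₀1 (Equiv.ext hcon)
  -- P is nontrivial
  have hPne : ∃ x ∈ (P : Subgroup G), x ≠ 1 := by
    by_contra hcon
    push Not at hcon
    have hPb : (P : Subgroup G) = ⊥ := by
      rw [eq_bot_iff]
      intro x hx
      exact hcon x hx
    have hndv : ¬ p ∣ Nat.card G := by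
      intro hd
      obtain ⟨x, hx⟩ := exists_prime_orderOf_dvd_card' p hd
      obtain ⟨Q, hQ⟩ := (IsPGroup.of_card (p := p) (n := 1) (G := Subgroup.zpowers x) (by rw [Nat.card_zpowers, hx, pow_one])).exists_le_sylow
      obtain ⟨c, hc⟩ := MulAction.exists_smul_eq G Q P
      have hx' : MulAut.conj c x ∈ (P : Subgroup G) := by
        rw [← hc]
        exact Subgroup.smul_mem_pointwise_smul _ _ _ (hQ (Subgroup.mem_zpowers x))
      have h1 := hcon _ hx'
      have h2 : x = 1 := by
        simpa using h1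
      rw [h2, orderOf_one] at hx
      exact (Fact.out : p.Prime).one_lt.ne hx
    have htop : (⊤ : Subgroup G) ≤ ⊥ := by
      rw [← hgen, Subgroup.closure_le]
      rintro x ⟨k, hk⟩
      rcases Nat.eq_zero_or_pos k with rfl | hkp
      · rw [pow_zero, orderOf_eq_one_iff] at hk
        simp [hk]
      · exfalso
        apply hndv
        have h1 : orderOf x ∣ Nat.card G := orderOf_dvd_natCard x
        rw [hk] at h1
        exact (dvd_pow_self p hkp.ne').trans h1
    have h3 := htop (Subgroup.mem_top (⟨g₀, hg₀⟩ : G))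
    apply hg₀1
    have h4 : (⟨g₀, hg₀⟩ : G) = 1 := h3
    exact congrArg Subtype.val h4
  by_cases hF : {ω : Ω | ∀ x ∈ (P : Subgroup G), x • ω = ω}.Nonempty
  · obtain ⟨x, hx, hx1⟩ := hPne
    obtain ⟨γ, hγ⟩ : ∃ γ, (x : Equiv.Perm Ω) γ ≠ γ := by
      by_contra hcon
      push Not at hcon
      exact hx1 (Subtype.ext (Equiv.ext hcon))
    have hγF : γ ∉ {ω : Ω | ∀ x ∈ (P : Subgroup G), x • ω = ω} := fun h => hγ (h x hx)
    refine ⟨{ω : Ω | ∀ x ∈ (P : Subgroup G), x • ω = ω}, {γ}, hF, Set.singleton_nonempty γ, ?_, ?_⟩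
    · rw [Set.disjoint_singleton_right]
      exact hγF
    · exact key p P hF γ hγF _ inf_le_left inf_le_right
  · refine ⟨{α}, {g₀ α}, Set.singleton_nonempty _, Set.singleton_nonempty _, ?_, ?_⟩
    · rw [Set.disjoint_singleton]
      exact hα.symm
    · exact key2 p P hF α _ inf_le_left

end Cfsg.Agent.S4170
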