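import Cfsg.Statements.S4172
import Cfsg.Agent.Lib.H19.F172d

set_option autoImplicit false
open Cfsg

namespace Cfsg.Agent.S4172

/-- Let p be a prime and G a finite group with a non-commutative Sylow p-subgroup P whose Frattini subgroup has index p² in P (P is generated by two elements). Suppose G has no nontrivial normal subgroup of order prime to p and the Frattini subgroup of P contains no nontrivial normal subgroup of G. Then the generalized Fitting subgroup F*(G) is the unique minimal normal subgroup of G, the image of P in G/F*(G) is cyclic, and if F*(G) is not commutative then P permutes the components of G transitively by conjugation. -/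
theorem result {G : Type*} [Group G] [Finite G] (p : ℕ) [Fact p.Prime] (P : Sylow p G) (hna : ¬ IsMulCommutative (P : Subgroup G)) (hgen : (frattini ↥(P : Subgroup G)).index = p ^ 2) (hcore : Cfsg.pPrimeCore p G = ⊥) (hfrat : ((frattini ↥(P : Subgroup G)).map (P : Subgroup G).subtype).normalCore = ⊥) [hFn : (Cfsg.generalizedFittingSubgroup G).Normal] :
    (Cfsg.generalizedFittingSubgroup G ≠ ⊥ ∧ ∀ K : Subgroup G, K.Normal → K ≠ ⊥ → Cfsg.generalizedFittingSubgroup G ≤ K) ∧
      IsCyclic ↥((P : Subgroup G).map (QuotientGroup.mk' (Cfsg.generalizedFittingSubgroup G))) ∧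
      (¬ IsMulCommutative (Cfsg.generalizedFittingSubgroup G) → ∀ K L : Subgroup G, Cfsg.IsComponent K → Cfsg.IsComponent L → ∃ x ∈ (P : Subgroup G), L = K.map (MulAut.conj x).toMonoidHom) := by
  
  classical
  have h : Cfsg.Agent.H19.F172.Hyps P := ⟨hna, hgen, hcore, hfrat⟩
  obtain ⟨N, hNn, hN1, hNmin⟩ := Cfsg.Agent.H19.F172.exists_min h
  have hFN : Cfsg.generalizedFittingSubgroup G = N := by
    by_cases hF : Cfsg.fittingSubgroup G = ⊥
    · obtain ⟨h1, -⟩ := Cfsg.Agent.H19.F172.lay_case h N hNn hN1 hNmin hF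
      rw [Cfsg.generalizedFittingSubgroup, hF, sup_bot_eq, h1]
    · obtain ⟨h1, -, h3⟩ := Cfsg.Agent.H19.F172.fit_case h N hNn hN1 hNmin hF
      rw [Cfsg.generalizedFittingSubgroup, h3, bot_sup_eq, h1]
  refine ⟨⟨hFN ▸ hN1, fun K hK hK1 => hFN ▸ hNmin K hK hK1⟩, ?_, ?_⟩
  · obtain ⟨u, -, hdec⟩ := Cfsg.Agent.H19.F172.exists_decomp h N hNn hN1
    refine ⟨⟨⟨QuotientGroup.mk' (Cfsg.generalizedFittingSubgroup G) (u : G), ⟨u, u.2, rfl⟩⟩, ?_⟩⟩
    rintro ⟨_, x, hx, rfl⟩
    obtain ⟨n, hn, k, hk⟩ := hdec x hx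
    refine ⟨k, ?_⟩
    apply Subtype.ext
    have h1 : QuotientGroup.mk' (Cfsg.generalizedFittingSubgroup G) n = 1 := by
      rw [QuotientGroup.mk'_apply, QuotientGroup.eq_one_iff, hFN]
      exact hn
    simp only [SubgroupClass.coe_zpow]
    rw [hk, map_mul, map_zpow, h1, one_mul]
  · intro hnc K L hK hL
    have hF : Cfsg.fittingSubgroup G = ⊥ := by
      by_contra hF
      obtain ⟨h1, h2, h3⟩ := Cfsg.Agent.H19.F172.fit_case h N hNn hN1 hNmin hF
      apply hnc
      rw [hFN]
      exact ⟨⟨fun a b => Subtype.ext (h2 a a.2 b b.2)⟩⟩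
    obtain ⟨-, h2⟩ := Cfsg.Agent.H19.F172.lay_case h N hNn hN1 hNmin hF
    exact Cfsg.Agent.H19.F172.transitive h h2 K L hK hL

end Cfsg.Agent.S4172
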