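import Cfsg.Statements.S4177
import Mathlib

set_option autoImplicit false
open Cfsg

namespace Cfsg.Agent.S4177

variable {k V H : Type*} [Field k] [AddCommGroup V] [Module k V] [Group H] [Finite H]

/-- The stabilizer of a vector. -/
def stab (ρ : Representation k H V) (v : V) : Subgroup H where
  carrier := {h | ρ h v = v}
  one_mem' := by
    show ρ 1 v = v
    simp
  mul_mem' := by
    rintro a b ha hb
    show ρ (a * b) v = v
    have ha' : ρ a v = v := ha
    have hb' : ρ b v = v := hb
    rw [map_mul, Module.End.mul_apply, hb', ha']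
  inv_mem' := by
    rintro a ha
    show ρ a⁻¹ v = v
    have ha' : ρ a v = v := ha
    calc ρ a⁻¹ v = ρ a⁻¹ (ρ a v) := by rw [ha']
      _ = ρ (a⁻¹ * a) v := by rw [map_mul, Module.End.mul_apply]
      _ = v := by simp

theorem mem_stab (ρ : Representation k H V) (v : V) (h : H) : h ∈ stab ρ v ↔ ρ h v = v := Iff.rfl

/-- The orbit of a vector has the size of the index of its stabilizer. -/
theorem card_orbit (ρ : Representation k H V) (v : V) :
    Nat.card {u : V | ∃ h : H, ρ h v = u} = (stab ρ v).index := by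
  letI : MulAction H V := MulAction.compHom V ρ
  have h1 : (MulAction.stabilizer H v) = stab ρ v := rfl
  rw [← h1, MulAction.index_stabilizer, ← Nat.card_coe_set_eq]
  rfl

theorem index_inf_of_coprime {G : Type*} [Group G] [Finite G] (A B : Subgroup G)
    (h : Nat.Coprime A.index B.index) : (A ⊓ B).index = A.index * B.index := by
  apply le_antisymm Subgroup.index_inf_le
  have h1 : A.index ∣ (A ⊓ B).index := Subgroup.index_dvd_of_le inf_le_left
  have h2 : B.index ∣ (A ⊓ B).index := Subgroup.index_dvd_of_le inf_le_right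
  apply Nat.le_of_dvd (Nat.pos_of_ne_zero (Subgroup.index_ne_zero_of_finite))
  exact Nat.Coprime.mul_dvd_of_dvd_of_dvd h h1 h2

/-- Transitivity from coprimality of indices: `S A = H`. -/
theorem exists_mem_of_coprime {G : Type*} [Group G] [Finite G] (A S : Subgroup G)
    (h : Nat.Coprime A.index S.index) (g : G) : ∃ s ∈ S, ∃ t ∈ A, g = s * t := by
  classical
  have h1 := index_inf_of_coprime A S h
  have h2 : (A ⊓ S).relIndex S * S.index = (A ⊓ S).index :=
    Subgroup.relIndex_mul_index inf_le_right
  have hSpos : 0 < S.index := Nat.pos_of_ne_zero Subgroup.index_ne_zero_of_finite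
  have h3 : A.relIndex S = A.index := by
    rw [h1, Subgroup.inf_relIndex_right] at h2
    exact Nat.eq_of_mul_eq_mul_right hSpos h2
  -- the map S / (A ∩ S) → G / A is injective, and the cardinalities agree
  let A' : Subgroup S := A.subgroupOf S
  let φ : S ⧸ A' → G ⧸ A := fun q => (((q.out : S) : G) : G ⧸ A)
  have hinj : Function.Injective φ := by
    intro q q' he
    have h4 : (((q.out : S) : G) : G ⧸ A) = (((q'.out : S) : G) : G ⧸ A) := he
    rw [QuotientGroup.eq] at h4
    rw [← QuotientGroup.out_eq' q, ← QuotientGroup.out_eq' q', QuotientGroup.eq]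
    rw [Subgroup.mem_subgroupOf]
    simpa using h4
  have hcard : Nat.card (G ⧸ A) ≤ Nat.card (S ⧸ A') := by
    show A.index ≤ A.relIndex S
    rw [h3]
  have hbij : Function.Bijective φ := hinj.bijective_of_nat_card_le hcard
  obtain ⟨q, hq⟩ := hbij.2 (g : G ⧸ A)
  have h4 : (((q.out : S) : G) : G ⧸ A) = (g : G ⧸ A) := hq
  rw [QuotientGroup.eq] at h4
  refine ⟨(q.out : S), (q.out : S).2, ((q.out : S) : G)⁻¹ * g, h4, ?_⟩
  group

/-- Let k be a field whose characteristic does not divide the order of the finite group H (for instance a field of characteristic zero), and ρ a k-linear representation of H on V. Let a be a vector whose H-orbit spans V. Then the space of H-fixed vectors has dimension at most 1, and every vector b whose H-orbit has size coprime to the size of the orbit of a is fixed by H. -/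
theorem result {k V H : Type*} [Field k] [AddCommGroup V] [Module k V] [Group H] [Finite H]
    (hchar : ¬ ringChar k ∣ Nat.card H) (ρ : Representation k H V) (a : V)
    (hspan : Submodule.span k {u : V | ∃ h : H, ρ h a = u} = ⊤) :
    Module.finrank k ρ.invariants ≤ 1 ∧
    ∀ b : V, (Nat.card {u : V | ∃ h : H, ρ h a = u}).Coprime (Nat.card {u : V | ∃ h : H, ρ h b = u}) → ∀ h : H, ρ h b = b := by
  classical
  have : Fintype H := Fintype.ofFinite H
  have hne : ∀ n : ℕ, n ∣ Nat.card H → (n : k) ≠ 0 := by
    intro n hn h0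
    rw [CharP.cast_eq_zero_iff k (ringChar k)] at h0
    exact hchar (h0.trans hn)
  -- general sum over a subgroup
  have hsumT : ∀ (S : Subgroup H) (v : V), (∀ h : H, ∃ s ∈ S, ρ h a = ρ s a) →
      ∃ c : k, (∑ s : S, ρ (s : H) v) = c • (∑ s : S, ρ (s : H) a) := by
    intro S v hS
    have hv : v ∈ Submodule.span k {u : V | ∃ h : H, ρ h a = u} := by
      rw [hspan]; exact Submodule.mem_top
    induction hv using Submodule.span_induction with
    | mem u hu =>
      obtain ⟨h, rfl⟩ := hu
      obtain ⟨s₀, hs₀, he⟩ := hS h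
      refine ⟨1, ?_⟩
      rw [one_smul, he]
      refine Fintype.sum_equiv (Equiv.mulRight (⟨s₀, hs₀⟩ : S)) _ _ ?_
      intro s
      simp [map_mul, Module.End.mul_apply]
    | zero => exact ⟨0, by simp⟩
    | add x y _ _ hx hy =>
      obtain ⟨c, hc⟩ := hx
      obtain ⟨d, hd⟩ := hy
      refine ⟨c + d, ?_⟩
      simp only [map_add, Finset.sum_add_distrib]
      rw [hc, hd, add_smul]
    | smul c x _ hx =>
      obtain ⟨d, hd⟩ := hx
      refine ⟨c * d, ?_⟩
      simp only [map_smul, ← Finset.smul_sum]
      rw [hd, mul_smul]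
  -- inverses act
  have hinvact : ∀ (g : H) (x : V), ρ g⁻¹ (ρ g x) = x := by
    intro g x
    rw [← Module.End.mul_apply, ← map_mul]
    simp
  have hinvact' : ∀ (g : H) (x : V), ρ g (ρ g⁻¹ x) = x := by
    intro g x
    rw [← Module.End.mul_apply, ← map_mul]
    simp
  -- fixed vectors under the sum
  have hfixsum : ∀ (S : Subgroup H) (v : V), (∀ s ∈ S, ρ s v = v) →
      (∑ s : S, ρ (s : H) v) = (Nat.card S : k) • v := by
    intro S v hv
    rw [Finset.sum_congr rfl (fun (s : S) _ => hv s s.2), Finset.sum_const, Finset.card_univ,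
      Nat.card_eq_fintype_card, Nat.cast_smul_eq_nsmul]
  constructor
  · -- dimension at most one
    set E := ∑ s : (⊤ : Subgroup H), ρ (s : H) a with hE
    have hEinv : E ∈ ρ.invariants := by
      rw [Representation.mem_invariants]
      intro g
      rw [hE, map_sum]
      refine Fintype.sum_equiv (Equiv.mulLeft (⟨g, Subgroup.mem_top g⟩ : (⊤ : Subgroup H))) _ _ ?_
      intro s
      simp [map_mul, Module.End.mul_apply]
    apply finrank_le_one (⟨E, hEinv⟩ : ρ.invariants)
    rintro ⟨w, hw⟩
    rw [Representation.mem_invariants] at hw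
    obtain ⟨c, hc⟩ := hsumT ⊤ w (fun h => ⟨h, Subgroup.mem_top h, rfl⟩)
    rw [hfixsum ⊤ w (fun s _ => hw s)] at hc
    have hcard : ((Nat.card (⊤ : Subgroup H) : ℕ) : k) ≠ 0 :=
      hne _ (Subgroup.card_subgroup_dvd_card _)
    refine ⟨((Nat.card (⊤ : Subgroup H) : ℕ) : k)⁻¹ * c, ?_⟩
    apply Subtype.ext
    show (((Nat.card (⊤ : Subgroup H) : ℕ) : k)⁻¹ * c) • E = w
    rw [mul_smul, ← hc, smul_smul, inv_mul_cancel₀ hcard, one_smul]
  · intro b hcop h
    rw [card_orbit, card_orbit] at hcop
    set S := stab ρ b with hS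
    set A := stab ρ a with hA
    have htrans : ∀ h : H, ∃ s ∈ S, ρ h a = ρ s a := by
      intro h
      obtain ⟨s, hs, t, ht, rfl⟩ := exists_mem_of_coprime A S hcop h
      refine ⟨s, hs, ?_⟩
      have ht' : ρ t a = a := ht
      rw [map_mul, Module.End.mul_apply, ht']
    obtain ⟨c, hc⟩ := hsumT S b htrans
    rw [hfixsum S b (fun s hs => hs)] at hc
    -- the orbit sum
    let O : Finset V := Finset.univ.image (fun h : H => ρ h a)
    have hO : ∀ u, u ∈ O ↔ ∃ h : H, ρ h a = u := by
      intro u
      simp [O]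
    set w := ∑ u ∈ O, u with hw
    have hwinv : ∀ g : H, ρ g w = w := by
      intro g
      rw [hw, map_sum]
      let e : V ≃ V :=
        { toFun := ρ g
          invFun := ρ g⁻¹
          left_inv := hinvact g
          right_inv := hinvact' g }
      refine Finset.sum_equiv e ?_ (fun _ _ => rfl)
      intro u
      show u ∈ O ↔ ρ g u ∈ O
      rw [hO, hO]
      constructor
      · rintro ⟨h, rfl⟩
        refine ⟨g * h, ?_⟩
        rw [map_mul, Module.End.mul_apply]
      · rintro ⟨h, hh⟩
        refine ⟨g⁻¹ * h, ?_⟩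
        rw [map_mul, Module.End.mul_apply, hh, hinvact]
    -- T(a) = c₀ w
    let c₀ : ℕ := (Finset.univ.filter (fun s : S => ρ (s : H) a = a)).card
    have hTa : (∑ s : S, ρ (s : H) a) = c₀ • w := by
      have hmaps : ∀ s ∈ (Finset.univ : Finset S), ρ (s : H) a ∈ O :=
        fun s _ => (hO _).2 ⟨s, rfl⟩
      rw [← Finset.sum_fiberwise_of_maps_to hmaps, hw, Finset.smul_sum]
      refine Finset.sum_congr rfl ?_
      intro u hu
      have h1 : (∑ s ∈ Finset.univ.filter (fun s : S => ρ (s : H) a = u), ρ (s : H) a)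
          = (Finset.univ.filter (fun s : S => ρ (s : H) a = u)).card • u := by
        rw [Finset.sum_congr rfl (fun s hs => (Finset.mem_filter.1 hs).2), Finset.sum_const]
      rw [h1]
      congr 1
      obtain ⟨h₀, rfl⟩ := (hO _).1 hu
      obtain ⟨s₀, hs₀, he⟩ := htrans h₀
      rw [he]
      symm
      refine Finset.card_equiv (Equiv.mulLeft (⟨s₀, hs₀⟩ : S)) ?_
      intro s
      simp only [Finset.mem_filter, Finset.mem_univ, true_and, Equiv.coe_mulLeft, Subgroup.coe_mul,
        map_mul, Module.End.mul_apply]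
      constructor
      · intro hs
        rw [hs]
      · intro hs
        have h2 := congrArg (ρ s₀⁻¹) hs
        rwa [hinvact, hinvact] at h2
    rw [hTa] at hc
    have hcard : ((Nat.card S : ℕ) : k) ≠ 0 := hne _ (Subgroup.card_subgroup_dvd_card _)
    have hb : b = (((Nat.card S : ℕ) : k)⁻¹ * c * (c₀ : k)) • w := by
      rw [mul_smul, mul_smul, Nat.cast_smul_eq_nsmul, ← hc, smul_smul, inv_mul_cancel₀ hcard, one_smul]
    rw [hb, map_smul, hwinv]

end Cfsg.Agent.S4177
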