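import Cfsg.Statements.S4178

set_option autoImplicit false
open Cfsg

namespace Cfsg.Agent.S4178

/-- Let F be a finite field with q elements, V a non-zero finite-dimensional F-space of dimension d, H a group of invertible linear maps of V, and R the subgroup of H generated by the elements of H that fix some non-zero vector (have eigenvalue 1). Then the index of R in H is at most q^d − 1; and if H leaves invariant some proper non-zero subspace, the index is at most q^(d/2) − 1. -/
theorem result {F V : Type*} [Field F] [Fintype F] [AddCommGroup V] [Module F V] [FiniteDimensional F V] [Nontrivial V]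
    (H : Subgroup (V ≃ₗ[F] V)) :
    (Subgroup.closure {h : ↥H | ∃ v : V, v ≠ 0 ∧ (h : V ≃ₗ[F] V) v = v}).index ≤ Fintype.card F ^ Module.finrank F V - 1 ∧
    ((∃ W : Submodule F V, W ≠ ⊥ ∧ W ≠ ⊤ ∧ ∀ h ∈ H, ∀ w ∈ W, h w ∈ W) →
      ((Subgroup.closure {h : ↥H | ∃ v : V, v ≠ 0 ∧ (h : V ≃ₗ[F] V) v = v}).index : ℝ) ≤ Real.sqrt ((Fintype.card F : ℝ) ^ Module.finrank F V) - 1) := by
  
  classical
  haveI : Finite V := Module.finite_of_finite F
  haveI : Fintype V := Fintype.ofFinite V
  set q := Fintype.card F with hq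
  set d := Module.finrank F V with hd
  set R := Subgroup.closure {h : ↥H | ∃ v : V, v ≠ 0 ∧ (h : V ≃ₗ[F] V) v = v} with hR
  have hq1 : 1 < q := Fintype.one_lt_card
  have hmemR : ∀ h : ↥H, (∃ v : V, v ≠ 0 ∧ (h : V ≃ₗ[F] V) v = v) → h ∈ R :=
    fun h hh => Subgroup.subset_closure hh
  have hcardV : Nat.card V = q ^ d := by
    rw [Nat.card_eq_fintype_card]
    exact Module.card_eq_pow_finrank
  -- general bound from an invariant subspace `W` (possibly zero)
  have key : ∀ W : Submodule F V, (∀ h ∈ H, ∀ w ∈ W, h w ∈ W) → W ≠ ⊤ →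
      R.index + 1 ≤ q ^ Module.finrank F (V ⧸ W) := by
    intro W hW hWt
    obtain ⟨v, hv⟩ : ∃ v : V, v ∉ W := by
      by_contra hno
      push Not at hno
      exact hWt (eq_top_iff.mpr fun x _ => hno x)
    haveI : Finite (V ⧸ W) := inferInstance
    haveI : Fintype (V ⧸ W) := Fintype.ofFinite _
    have hcardQ : Nat.card (V ⧸ W) = q ^ Module.finrank F (V ⧸ W) := by
      rw [Nat.card_eq_fintype_card]
      exact Module.card_eq_pow_finrank
    have hinvW : ∀ h : ↥H, ∀ x : V, (h : V ≃ₗ[F] V) x ∈ W → x ∈ W := by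
      intro h x hx
      have h1 := hW _ (h⁻¹).2 _ hx
      have h2 : ((h⁻¹ : ↥H) : V ≃ₗ[F] V) ((h : V ≃ₗ[F] V) x) = x := by
        have : ((h⁻¹ * h : ↥H) : V ≃ₗ[F] V) x = x := by simp
        exact this
      rwa [h2] at h1
    -- the stabilizer of `v + W` is in `R`
    have hfix : ∀ h : ↥H, (h : V ≃ₗ[F] V) v - v ∈ W → h ∈ R := by
      intro h hh
      apply hmemR
      by_contra hno
      push Not at hno
      -- `h - 1` is injective
      let T : V →ₗ[F] V := (h : V ≃ₗ[F] V).toLinearMap - LinearMap.id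
      have hTinj : Function.Injective T := by
        rw [← LinearMap.ker_eq_bot, LinearMap.ker_eq_bot']
        intro x hx
        by_contra hx0
        apply hno x hx0
        have : (h : V ≃ₗ[F] V) x - x = 0 := hx
        exact sub_eq_zero.mp this
      -- it restricts to a bijection of `W`
      let TW : W →ₗ[F] W := T.restrict (fun w hw => W.sub_mem (hW _ h.2 w hw) hw)
      have hTWinj : Function.Injective TW := by
        intro a b hab
        apply Subtype.ext
        apply hTinj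
        exact congrArg Subtype.val hab
      have hTWsurj : Function.Surjective TW := Finite.injective_iff_surjective.mp hTWinj
      obtain ⟨w, hw⟩ := hTWsurj ⟨(h : V ≃ₗ[F] V) v - v, hh⟩
      have h3 : T (w : V) = T v := congrArg Subtype.val hw
      have h4 := hTinj h3
      exact hv (h4 ▸ w.2)
    -- the injection
    let f : (↥H ⧸ R) → {x : V ⧸ W // x ≠ 0} := fun c =>
      ⟨W.mkQ (((Quotient.out c : ↥H) : V ≃ₗ[F] V) v), by
        intro h0
        have h1 : ((Quotient.out c : ↥H) : V ≃ₗ[F] V) v ∈ W := by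
          have := (Submodule.Quotient.mk_eq_zero W).mp h0
          exact this
        exact hv (hinvW _ _ h1)⟩
    have hf : Function.Injective f := by
      intro c₁ c₂ hc
      have h1 : W.mkQ (((Quotient.out c₁ : ↥H) : V ≃ₗ[F] V) v) =
          W.mkQ (((Quotient.out c₂ : ↥H) : V ≃ₗ[F] V) v) := congrArg Subtype.val hc
      have h2 : ((Quotient.out c₁ : ↥H) : V ≃ₗ[F] V) v - ((Quotient.out c₂ : ↥H) : V ≃ₗ[F] V) v ∈ W :=
        (Submodule.Quotient.eq W).mp h1
      set g₁ := (Quotient.out c₁ : ↥H) with hg₁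
      set g₂ := (Quotient.out c₂ : ↥H) with hg₂
      have h3 : ((g₂⁻¹ * g₁ : ↥H) : V ≃ₗ[F] V) v - v ∈ W := by
        have h4 := hW _ (g₂⁻¹).2 _ h2
        have h5 : ((g₂⁻¹ : ↥H) : V ≃ₗ[F] V) ((g₁ : V ≃ₗ[F] V) v - (g₂ : V ≃ₗ[F] V) v) =
            ((g₂⁻¹ * g₁ : ↥H) : V ≃ₗ[F] V) v - v := by
          rw [map_sub]
          congr 1
          have : ((g₂⁻¹ * g₂ : ↥H) : V ≃ₗ[F] V) v = v := by simp
          exact this
        rwa [h5] at h4
      have h6 := hfix _ h3
      have h7 : (g₁ : ↥H ⧸ R) = (g₂ : ↥H ⧸ R) := (QuotientGroup.eq (s := R)).mpr h6 |>.symm ▸ rfl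
      rw [hg₁, hg₂] at h7
      simpa using h7
    haveI : Finite (↥H ⧸ R) := Finite.of_injective f hf
    have h1 : Nat.card (↥H ⧸ R) ≤ Nat.card {x : V ⧸ W // x ≠ 0} := Nat.card_le_card_of_injective f hf
    have h2 : Nat.card {x : V ⧸ W // x ≠ 0} + 1 = Nat.card (V ⧸ W) := by
      rw [Nat.card_eq_fintype_card, Nat.card_eq_fintype_card, Fintype.card_subtype_compl,
        Fintype.card_subtype_eq]
      have : 1 ≤ Fintype.card (V ⧸ W) := Fintype.card_pos
      omega
    have h3 : R.index = Nat.card (↥H ⧸ R) := rfl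
    omega
  have hbot : Module.finrank F (V ⧸ (⊥ : Submodule F V)) = d := by
    rw [hd]
    exact LinearEquiv.finrank_eq (Submodule.quotEquivOfEqBot ⊥ rfl)
  have hfirst := key ⊥ (fun h _ w hw => by
    rw [Submodule.mem_bot] at hw ⊢
    rw [hw, map_zero]) bot_ne_top
  rw [hbot] at hfirst
  refine ⟨by omega, ?_⟩
  rintro ⟨W, hW0, hWt, hWinv⟩
  have hsecond := key W hWinv hWt
  have hsum : Module.finrank F (V ⧸ W) + Module.finrank F W = d := Submodule.finrank_quotient_add_finrank W
  have hWpos : 0 < Module.finrank F W := Module.finrank_pos_iff.mpr (Submodule.nontrivial_iff_ne_bot.mpr hW0)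
  -- the invariant subspace itself
  have hWbound : R.index + 1 ≤ q ^ Module.finrank F W := by
    obtain ⟨v, hvW, hv⟩ := (Submodule.ne_bot_iff W).mp hW0
    haveI : Fintype W := Fintype.ofFinite W
    have hcardW : Nat.card W = q ^ Module.finrank F W := by
      rw [Nat.card_eq_fintype_card]
      exact Module.card_eq_pow_finrank
    have hfix : ∀ h : ↥H, (h : V ≃ₗ[F] V) v - v = 0 → h ∈ R := by
      intro h hh
      exact hmemR h ⟨v, hv, sub_eq_zero.mp hh⟩
    let f : (↥H ⧸ R) → {x : W // x ≠ 0} := fun c =>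
      ⟨⟨((Quotient.out c : ↥H) : V ≃ₗ[F] V) v, hWinv _ (Quotient.out c : ↥H).2 v hvW⟩, by
        intro h0
        have h1 : ((Quotient.out c : ↥H) : V ≃ₗ[F] V) v = 0 := congrArg Subtype.val h0
        exact hv ((LinearEquiv.map_eq_zero_iff _).mp h1)⟩
    have hf : Function.Injective f := by
      intro c₁ c₂ hc
      have h1 : ((Quotient.out c₁ : ↥H) : V ≃ₗ[F] V) v = ((Quotient.out c₂ : ↥H) : V ≃ₗ[F] V) v :=
        congrArg (fun x : {x : W // x ≠ 0} => ((x : W) : V)) hc
      set g₁ := (Quotient.out c₁ : ↥H) with hg₁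
      set g₂ := (Quotient.out c₂ : ↥H) with hg₂
      have h3 : ((g₂⁻¹ * g₁ : ↥H) : V ≃ₗ[F] V) v - v = 0 := by
        have h5 : ((g₂⁻¹ * g₁ : ↥H) : V ≃ₗ[F] V) v = ((g₂⁻¹ : ↥H) : V ≃ₗ[F] V) ((g₁ : V ≃ₗ[F] V) v) := rfl
        rw [h5, h1]
        have : ((g₂⁻¹ * g₂ : ↥H) : V ≃ₗ[F] V) v = v := by simp
        rw [sub_eq_zero]
        exact this
      have h6 := hfix _ h3
      have h7 : (g₁ : ↥H ⧸ R) = (g₂ : ↥H ⧸ R) := (QuotientGroup.eq (s := R)).mpr h6 |>.symm ▸ rfl
      rw [hg₁, hg₂] at h7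
      simpa using h7
    have h1 : Nat.card (↥H ⧸ R) ≤ Nat.card {x : W // x ≠ 0} := Nat.card_le_card_of_injective f hf
    have h2 : Nat.card {x : W // x ≠ 0} + 1 = Nat.card W := by
      rw [Nat.card_eq_fintype_card, Nat.card_eq_fintype_card, Fintype.card_subtype_compl,
        Fintype.card_subtype_eq]
      have : 1 ≤ Fintype.card W := Fintype.card_pos
      omega
    have h3 : R.index = Nat.card (↥H ⧸ R) := rfl
    omega
  -- combine
  have hmin : (R.index + 1) ^ 2 ≤ q ^ d := by
    rw [← hsum, pow_add, pow_two]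
    exact Nat.mul_le_mul hsecond hWbound
  have hreal : ((R.index : ℝ) + 1) ^ 2 ≤ (q : ℝ) ^ d := by
    exact_mod_cast hmin
  have hsq : (R.index : ℝ) + 1 ≤ Real.sqrt ((q : ℝ) ^ d) :=
    Real.le_sqrt_of_sq_le hreal
  linarith

end Cfsg.Agent.S4178
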