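import Cfsg.Statements.S4186
import Mathlib

set_option autoImplicit false
open Cfsg

namespace Cfsg.Agent.S4186

/-- Let T and X be subgroups of a group with T a finite 2-group normalizing X but not centralizing it. Then some element of T inverts some non-identity element of X under conjugation. -/
theorem result {G : Type*} [Group G] (T X : Subgroup G) [Finite ↥T] (hT : IsPGroup 2 ↥T) (hTN : T ≤ Subgroup.normalizer (X : Set G)) (hTC : ¬ T ≤ Subgroup.centralizer (X : Set G)) : ∃ t ∈ T, ∃ x ∈ X, x ≠ 1 ∧ t * x * t⁻¹ = x⁻¹ := by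
  classical
  obtain ⟨g, hgT, hgC⟩ := SetLike.not_le_iff_exists.1 hTC
  -- minimal power in the centralizer
  have hex : ∃ k : ℕ, g ^ (2 ^ k) ∈ Subgroup.centralizer (X : Set G) := by
    obtain ⟨k, hk⟩ := hT ⟨g, hgT⟩
    refine ⟨k, ?_⟩
    have : g ^ (2 ^ k) = 1 := congrArg Subtype.val hk
    rw [this]
    exact Subgroup.one_mem _
  have hj := Nat.find_spec hex
  have hj0 : Nat.find hex ≠ 0 := by
    intro h
    rw [h, pow_zero, pow_one] at hj
    exact hgC hj
  obtain ⟨m, hm⟩ := Nat.exists_eq_succ_of_ne_zero hj0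
  have hmin : g ^ (2 ^ m) ∉ Subgroup.centralizer (X : Set G) := Nat.find_min hex (by omega)
  rw [hm] at hj
  set t := g ^ (2 ^ m) with ht
  have htT : t ∈ T := T.pow_mem hgT _
  have hsq : t * t ∈ Subgroup.centralizer (X : Set G) := by
    have e : t * t = g ^ (2 ^ (m + 1)) := by
      rw [ht, ← pow_add]
      congr 1
      rw [pow_succ]; ring
    rw [e]
    exact hj
  -- x not fixed by t
  have hx : ∃ x ∈ X, t * x * t⁻¹ ≠ x := by
    by_contra hno
    apply hmin
    rw [Subgroup.mem_centralizer_iff]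
    intro x hx
    by_contra hne
    apply hno
    refine ⟨x, hx, ?_⟩
    intro h
    apply hne
    calc x * t = (t * x * t⁻¹) * t := by rw [h]
      _ = t * x := by group
  obtain ⟨x, hxX, hxt⟩ := hx
  have htX : t * x * t⁻¹ ∈ X := (Subgroup.mem_normalizer_iff.1 (hTN htT) x).1 hxX
  refine ⟨t, htT, x⁻¹ * (t * x * t⁻¹), X.mul_mem (X.inv_mem hxX) htX, ?_, ?_⟩
  · intro h
    apply hxt
    exact (inv_mul_eq_one.1 h).symm
  · have h1 : (t * t) * x = x * (t * t) := (Subgroup.mem_centralizer_iff.1 hsq x hxX).symm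
    have h2 : t * (t * x * t⁻¹) * t⁻¹ = x := by
      calc t * (t * x * t⁻¹) * t⁻¹ = ((t * t) * x) * (t * t)⁻¹ := by group
        _ = x * (t * t) * (t * t)⁻¹ := by rw [h1]
        _ = x := by group
    calc t * (x⁻¹ * (t * x * t⁻¹)) * t⁻¹ = (t * x⁻¹ * t⁻¹) * (t * (t * x * t⁻¹) * t⁻¹) := by group
      _ = (t * x⁻¹ * t⁻¹) * x := by rw [h2]
      _ = (x⁻¹ * (t * x * t⁻¹))⁻¹ := by group

end Cfsg.Agent.S4186
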