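import Cfsg.Statements.S4188
import Cfsg.Agent.Lib.H19.FrBound2

set_option autoImplicit false
open Cfsg

namespace Cfsg.Agent.S4188

/-- Let G be a finite group that is the semidirect product of a normal abelian subgroup N of odd order by a 2-subgroup P, and suppose N is the unique minimal normal subgroup of G. Then the index of the Frattini subgroup of P in P is at most #N − 1. -/
theorem result {G : Type*} [Group G] [Finite G] (N P : Subgroup G) (hN : N.Normal) (hNab : IsMulCommutative ↥N) (hNodd : Odd (Nat.card ↥N)) (hP : IsPGroup 2 ↥P) (hdisj : N ⊓ P = ⊥) (hprod : N ⊔ P = ⊤) (hmin : N ≠ ⊥ ∧ ∀ M : Subgroup G, M.Normal → M ≠ ⊥ → N ≤ M) : (frattini ↥P).index ≤ Nat.card ↥N - 1 := by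
  
  classical
  letI instN : CommGroup N := { (inferInstance : Group N) with mul_comm := fun a b => hNab.is_comm.comm a b }
  haveI := hN
  let ρ : P →* MulAut N := (MulAut.conjNormal (H := N)).comp P.subtype
  have hρ : Function.Injective ρ := by
    rw [injective_iff_map_eq_one]
    intro a ha
    have hc : ∀ x ∈ N, (a : G) * x * (a : G)⁻¹ = x := by
      intro x hx
      have := congrArg (fun f : MulAut N => ((f ⟨x, hx⟩ : N) : G)) ha
      exact this
    let K : Subgroup G :=
      { carrier := {b | b ∈ P ∧ ∀ x ∈ N, b * x * b⁻¹ = x}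
        one_mem' := ⟨P.one_mem, by simp⟩
        mul_mem' := by
          rintro b c ⟨hb, hb'⟩ ⟨hc, hc'⟩
          refine ⟨P.mul_mem hb hc, fun x hx => ?_⟩
          have : b * c * x * (b * c)⁻¹ = b * (c * x * c⁻¹) * b⁻¹ := by group
          rw [this, hc' x hx, hb' x hx]
        inv_mem' := by
          rintro b ⟨hb, hb'⟩
          refine ⟨P.inv_mem hb, fun x hx => ?_⟩
          have h1 := hb' x hx
          calc b⁻¹ * x * b⁻¹⁻¹ = b⁻¹ * (b * x * b⁻¹) * b := by rw [h1]; group
            _ = x := by group }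
    have hKn : K.Normal := by
      constructor
      rintro b ⟨hbP, hb⟩ g
      have hg : g ∈ N ⊔ P := by rw [hprod]; exact Subgroup.mem_top g
      obtain ⟨n, hn, p, hp, rfl⟩ := Subgroup.mem_sup_of_normal_left.mp hg
      have hb2 : ∀ x ∈ N, (p * b * p⁻¹) * x * (p * b * p⁻¹)⁻¹ = x := by
        intro x hx
        have h1 : p⁻¹ * x * p ∈ N := by
          have := hN.conj_mem x hx p⁻¹
          simpa using this
        have h2 := hb _ h1
        calc (p * b * p⁻¹) * x * (p * b * p⁻¹)⁻¹ = p * (b * (p⁻¹ * x * p) * b⁻¹) * p⁻¹ := by group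
          _ = x := by rw [h2]; group
      have hb3 : n * p * b * (n * p)⁻¹ = p * b * p⁻¹ := by
        have h1 := hb2 n⁻¹ (N.inv_mem hn)
        have h2 : (p * b * p⁻¹) * n⁻¹ = n⁻¹ * (p * b * p⁻¹) := by
          calc (p * b * p⁻¹) * n⁻¹ = ((p * b * p⁻¹) * n⁻¹ * (p * b * p⁻¹)⁻¹) * (p * b * p⁻¹) := by group
            _ = n⁻¹ * (p * b * p⁻¹) := by rw [h1]
        calc n * p * b * (n * p)⁻¹ = n * ((p * b * p⁻¹) * n⁻¹) := by group
          _ = n * (n⁻¹ * (p * b * p⁻¹)) := by rw [h2]
          _ = p * b * p⁻¹ := by group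
      rw [hb3]
      exact ⟨P.mul_mem (P.mul_mem hp hbP) (P.inv_mem hp), hb2⟩
    by_contra hne
    have hKne : K ≠ ⊥ := by
      intro h
      have : (a : G) ∈ K := ⟨a.2, hc⟩
      rw [h, Subgroup.mem_bot] at this
      exact hne (Subtype.ext this)
    have hNK := hmin.2 K hKn hKne
    have hNP : N ≤ P := fun x hx => (hNK hx).1
    have : N = ⊥ := by
      rw [← inf_eq_left.mpr hNP, hdisj]
    exact hmin.1 this
  have h1 := Cfsg.Agent.H19.claimT (Nat.card N) N P hNodd rfl hP ρ hρ
  have h3 : 3 ≤ Nat.card N := by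
    have h2 := (Subgroup.one_lt_card_iff_ne_bot _).mpr hmin.1
    obtain ⟨k, hk⟩ := hNodd
    omega
  exact h1.trans (Cfsg.Agent.H19.hB_le_sub h3)

end Cfsg.Agent.S4188
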