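import Cfsg.Statements.S4189
import Cfsg.Agent.Lib.H19.AutFrattini
import Cfsg.Agent.Lib.H19.SameOrder
import Cfsg.Agent.Lib.H01.Basic

set_option autoImplicit false
open Cfsg

namespace Cfsg.Agent.S4189

open Cfsg.Agent.H19
open scoped commutatorElement


theorem four_cases {V : Type*} [Group V] [Finite V] (h4 : Nat.card V = 4)
    (hsq : ∀ x : V, x ^ 2 = 1) {A B : V} (hA : A ≠ 1) (hB : B ≠ 1) (hAB : A ≠ B) (x : V) :
    x = 1 ∨ x = A ∨ x = B ∨ x = A * B := by
  classical
  haveI := Fintype.ofFinite V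
  have h1 : A * B ≠ 1 := by
    intro h
    apply hAB
    have h2 : B * B = 1 := by rw [← pow_two]; exact hsq B
    calc A = A * (B * B) := by rw [h2, mul_one]
      _ = (A * B) * B := by rw [mul_assoc]
      _ = B := by rw [h, one_mul]
  have h2 : A * B ≠ A := fun h => hB (mul_eq_left.mp h)
  have h3 : A * B ≠ B := fun h => hA (mul_eq_right.mp h)
  let S : Finset V := {1, A, B, A * B}
  have hS : S.card = 4 := by
    simp only [S]
    rw [Finset.card_insert_of_notMem, Finset.card_insert_of_notMem, Finset.card_insert_of_notMem,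
      Finset.card_singleton]
    · simp only [Finset.mem_singleton]
      exact h3.symm
    · simp only [Finset.mem_insert, Finset.mem_singleton, not_or]
      exact ⟨hAB, h2.symm⟩
    · simp only [Finset.mem_insert, Finset.mem_singleton, not_or]
      exact ⟨hA.symm, hB.symm, h1.symm⟩
  have hu : S = Finset.univ := Finset.eq_univ_of_card S (by rw [hS, ← Nat.card_eq_fintype_card, h4])
  have hx : x ∈ S := hu ▸ Finset.mem_univ x
  simpa [S] using hx

section
variable {X : Type*} [Group X]

theorem commutator_le_zpowers {α β : X} (hgen : Subgroup.closure ({α, β} : Set X) = ⊤)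
    (hζ : α * β * α⁻¹ * β⁻¹ ∈ Subgroup.center X) :
    commutator X ≤ Subgroup.zpowers (α * β * α⁻¹ * β⁻¹) := by
  set ζ := α * β * α⁻¹ * β⁻¹ with hζdef
  set S := Subgroup.zpowers ζ with hS
  have hSc : S ≤ Subgroup.center X := by
    rw [hS, Subgroup.zpowers_le]
    exact hζ
  haveI hSn : S.Normal := by
    constructor
    intro n hn g
    have h1 := Subgroup.mem_center_iff.mp (hSc hn) g
    rw [h1, mul_inv_cancel_right]
    exact hn
  let π := QuotientGroup.mk' S
  have hπ : Function.Surjective π := QuotientGroup.mk'_surjective S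
  have hgen' : Subgroup.closure ({π α, π β} : Set (X ⧸ S)) = ⊤ := by
    have h1 := MonoidHom.map_closure π ({α, β} : Set X)
    rw [hgen, Subgroup.map_top_of_surjective π hπ, Set.image_pair] at h1
    exact h1.symm
  have hcomm : π α * π β = π β * π α := by
    have h1 : π ζ = 1 := (QuotientGroup.eq_one_iff ζ).mpr (Subgroup.mem_zpowers ζ)
    rw [hζdef, map_mul, map_mul, map_mul, map_inv, map_inv] at h1
    have h2 := mul_inv_eq_one.mp h1
    rw [mul_inv_eq_iff_eq_mul] at h2
    exact h2
  have hall : ∀ y z : X ⧸ S, y * z = z * y := by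
    have hk : ∀ x ∈ ({π α, π β} : Set (X ⧸ S)), ∀ y ∈ ({π α, π β} : Set (X ⧸ S)), x * y = y * x := by
      intro x hx y hy
      rcases hx with rfl | rfl <;> rcases hy with rfl | rfl
      · rfl
      · exact hcomm
      · exact hcomm.symm
      · rfl
    intro y z
    have hy : y ∈ Subgroup.closure ({π α, π β} : Set (X ⧸ S)) := hgen' ▸ Subgroup.mem_top y
    have hz : z ∈ Subgroup.closure ({π α, π β} : Set (X ⧸ S)) := hgen' ▸ Subgroup.mem_top z
    letI := Subgroup.closureCommGroupOfComm hk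
    have := mul_comm (⟨y, hy⟩ : Subgroup.closure ({π α, π β} : Set (X ⧸ S))) ⟨z, hz⟩
    exact congrArg Subtype.val this
  rw [commutator_def, Subgroup.commutator_le]
  intro x _ y _
  rw [← QuotientGroup.eq_one_iff, commutatorElement_def]
  show π (x * y * x⁻¹ * y⁻¹) = 1
  rw [map_mul, map_mul, map_mul, map_inv, map_inv, hall (π x) (π y), mul_assoc, mul_assoc]
  simp

theorem key_sq (ψ : X ≃* X) {α β f : X} (hgen : Subgroup.closure ({α, β} : Set X) = ⊤)
    (hcen : commutator X ≤ Subgroup.center X) (hsq : ∀ x : X, x ^ 2 ∈ commutator X)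
    (h1 : ψ α = β) (h2 : ψ β = α * β * f) (hf : f ∈ commutator X) :
    (α * β * α⁻¹ * β⁻¹) ^ 2 = 1 ∧ α ^ 2 = α * β * α⁻¹ * β⁻¹ ∧ β ^ 2 = α * β * α⁻¹ * β⁻¹ := by
  set ζ := α * β * α⁻¹ * β⁻¹ with hζdef
  have hcomm : ∀ x y : X, x * y * x⁻¹ * y⁻¹ ∈ commutator X := by
    intro x y
    have : ⁅x, y⁆ ∈ commutator X := by
      rw [commutator_def]
      exact Subgroup.commutator_mem_commutator (Subgroup.mem_top x) (Subgroup.mem_top y)
    rwa [commutatorElement_def] at this
  have hζF : ζ ∈ commutator X := hcomm α β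
  have hζc : ∀ g : X, g * ζ = ζ * g := Subgroup.mem_center_iff.mp (hcen hζF)
  have hle := commutator_le_zpowers hgen (hcen hζF)
  have hcent : ∀ u ∈ commutator X, ∀ g : X, g * u = u * g := fun u hu =>
    Subgroup.mem_center_iff.mp (hcen hu)
  -- `ζ² = 1`
  have hζ2 : ζ ^ 2 = 1 := by
    have e1 : α * β * α⁻¹ = ζ * β := by rw [hζdef]; group
    have e2 : α ^ 2 * β * (α ^ 2)⁻¹ = β := by
      rw [← hcent _ (hsq α) β, mul_inv_cancel_right]
    have e3 : α ^ 2 * β * (α ^ 2)⁻¹ = ζ ^ 2 * β := by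
      calc α ^ 2 * β * (α ^ 2)⁻¹ = α * (α * β * α⁻¹) * α⁻¹ := by
            simp only [pow_two, mul_inv_rev, mul_assoc]
        _ = α * (ζ * β) * α⁻¹ := by rw [e1]
        _ = (α * ζ) * β * α⁻¹ := by simp only [mul_assoc]
        _ = (ζ * α) * β * α⁻¹ := by rw [hζc α]
        _ = ζ * (α * β * α⁻¹) := by simp only [mul_assoc]
        _ = ζ * (ζ * β) := by rw [e1]
        _ = ζ ^ 2 * β := by simp only [pow_two, mul_assoc]
    rw [e3] at e2
    exact mul_eq_right.mp e2
  -- elements of the commutator subgroup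
  have hdich : ∀ u ∈ commutator X, u = 1 ∨ u = ζ := by
    intro u hu
    obtain ⟨k, hk⟩ := Subgroup.mem_zpowers_iff.mp (hle hu)
    rw [← hk]
    rcases Int.even_or_odd' k with ⟨m, rfl | rfl⟩
    · left
      rw [zpow_mul, zpow_two, ← pow_two, hζ2, one_zpow]
    · right
      rw [zpow_add, zpow_mul, zpow_two, ← pow_two, hζ2, one_zpow, one_mul, zpow_one]
  have hψζ : ψ ζ = ζ := by
    have h3 : ψ ζ ∈ commutator X := by
      rw [hζdef, map_mul, map_mul, map_mul, map_inv, map_inv]
      exact hcomm _ _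
    rcases hdich _ h3 with h4 | h4
    · have h5 : ζ = 1 := by
        apply ψ.injective
        rw [h4, map_one]
      rw [h5, map_one]
    · exact h4
  have hψsq : ψ (α ^ 2) = α ^ 2 := by
    rcases hdich _ (hsq α) with h4 | h4 <;> rw [h4]
    · exact map_one ψ
    · exact hψζ
  have hβ2 : β ^ 2 = α ^ 2 := by
    rw [← h1, ← map_pow, hψsq]
  have hf2 : f ^ 2 = 1 := by
    rcases hdich f hf with h4 | h4 <;> rw [h4]
    · exact one_pow 2
    · exact hζ2
  have hζinv : ζ⁻¹ = ζ := by
    have : ζ * ζ = 1 := by rw [← pow_two]; exact hζ2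
    exact inv_eq_of_mul_eq_one_left this
  have hβα : β * α = ζ * (α * β) := by
    have e : ζ * (β * α) = α * β := by rw [hζdef]; group
    calc β * α = ζ⁻¹ * (ζ * (β * α)) := by group
      _ = ζ⁻¹ * (α * β) := by rw [e]
      _ = ζ * (α * β) := by rw [hζinv]
  -- compute `(ψ β)²`
  have h6 : (ψ β) ^ 2 = α ^ 2 := by
    rw [← map_pow, hβ2, hψsq]
  have h7 : (ψ β) ^ 2 = ζ * α ^ 2 * β ^ 2 := by
    rw [h2]
    calc (α * β * f) ^ 2 = (α * β * f) * (α * β * f) := pow_two _
      _ = α * β * (f * (α * β)) * f := by simp only [mul_assoc]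
      _ = α * β * ((α * β) * f) * f := by rw [← hcent f hf (α * β)]
      _ = α * (β * α) * β * (f * f) := by simp only [mul_assoc]
      _ = α * (ζ * (α * β)) * β * (f * f) := by rw [hβα]
      _ = α * (ζ * (α * β)) * β := by rw [← pow_two f, hf2, mul_one]
      _ = (α * ζ) * α * β * β := by simp only [mul_assoc]
      _ = (ζ * α) * α * β * β := by rw [hζc α]
      _ = ζ * α ^ 2 * β ^ 2 := by simp only [pow_two, mul_assoc]
  rw [h6, hβ2] at h7
  have h8 : α ^ 2 = ζ := by
    -- `α² = ζ α² α²`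
    have h9 : α ^ 2 * 1 = α ^ 2 * (ζ * α ^ 2) := by
      rw [mul_one]
      calc α ^ 2 = ζ * α ^ 2 * α ^ 2 := h7
        _ = (ζ * α ^ 2) * α ^ 2 := rfl
        _ = α ^ 2 * (ζ * α ^ 2) := by
          rw [← hcent _ (hsq α) (ζ * α ^ 2)]
    have h10 : 1 = ζ * α ^ 2 := mul_left_cancel h9
    calc α ^ 2 = ζ⁻¹ * (ζ * α ^ 2) := by group
      _ = ζ⁻¹ := by rw [← h10, mul_one]
      _ = ζ := hζinv
  exact ⟨hζ2, h8, by rw [hβ2, h8]⟩

theorem step_comm {N : Subgroup X} [N.Normal] {a b c : X}
    (hgen : Subgroup.closure ({a, b} : Set X) = ⊤) (hc : c = a * b * a⁻¹ * b⁻¹)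
    (ha : a ^ 2 * c⁻¹ ∈ N) (hb : b ^ 2 * c⁻¹ ∈ N) : ⁅commutator X, (⊤ : Subgroup X)⁆ ≤ ⁅N, (⊤ : Subgroup X)⁆ := by
  set M : Subgroup X := ⁅N, (⊤ : Subgroup X)⁆ with hM
  haveI hMn : M.Normal := Subgroup.commutator_normal N ⊤
  have key : ∀ g : X, g ^ 2 * c⁻¹ ∈ N → g * c * g⁻¹ * c⁻¹ ∈ M := by
    intro g hg
    have h1 : ⁅g, (g ^ 2 * c⁻¹)⁻¹⁆ ∈ M := by
      have h2 : ⁅(g ^ 2 * c⁻¹)⁻¹, g⁆ ∈ M :=
        Subgroup.commutator_mem_commutator (N.inv_mem hg) (Subgroup.mem_top g)
      have h3 := M.inv_mem h2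
      rwa [commutatorElement_inv] at h3
    have h2 : ⁅g, (g ^ 2 * c⁻¹)⁻¹⁆ = g * c * g⁻¹ * c⁻¹ := by
      rw [commutatorElement_def]
      group
    rwa [h2] at h1
  let π := QuotientGroup.mk' M
  have hπ : Function.Surjective π := QuotientGroup.mk'_surjective M
  have hgen' : Subgroup.closure ({π a, π b} : Set (X ⧸ M)) = ⊤ := by
    have h1 := MonoidHom.map_closure π ({a, b} : Set X)
    rw [hgen, Subgroup.map_top_of_surjective π hπ, Set.image_pair] at h1
    exact h1.symm
  have hcom : ∀ g : X, g ^ 2 * c⁻¹ ∈ N → π g * π c = π c * π g := by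
    intro g hg
    have h1 : π (g * c * g⁻¹ * c⁻¹) = 1 := (QuotientGroup.eq_one_iff _).mpr (key g hg)
    rw [map_mul, map_mul, map_mul, map_inv, map_inv] at h1
    have h2 := mul_inv_eq_one.mp h1
    rw [mul_inv_eq_iff_eq_mul] at h2
    exact h2
  have hζ : π a * π b * (π a)⁻¹ * (π b)⁻¹ ∈ Subgroup.center (X ⧸ M) := by
    have h1 : π a * π b * (π a)⁻¹ * (π b)⁻¹ = π c := by
      rw [hc, map_mul, map_mul, map_mul, map_inv, map_inv]
    rw [h1]
    have h2 : Subgroup.closure ({π a, π b} : Set (X ⧸ M)) ≤ Subgroup.centralizer {π c} := by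
      rw [Subgroup.closure_le]
      rintro x (rfl | rfl)
      · exact Subgroup.mem_centralizer_singleton_iff.mpr (hcom a ha)
      · exact Subgroup.mem_centralizer_singleton_iff.mpr (hcom b hb)
    rw [hgen'] at h2
    rw [Subgroup.mem_center_iff]
    intro g
    exact Subgroup.mem_centralizer_singleton_iff.mp (h2 (Subgroup.mem_top g))
  have hle := commutator_le_zpowers hgen' hζ
  have hcen : commutator (X ⧸ M) ≤ Subgroup.center (X ⧸ M) := by
    refine hle.trans ?_
    rw [Subgroup.zpowers_le]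
    exact hζ
  rw [Subgroup.commutator_le]
  intro u hu g _
  rw [← QuotientGroup.eq_one_iff, commutatorElement_def]
  have hu' : π u ∈ commutator (X ⧸ M) := by
    rw [commutator_def] at hu ⊢
    have h1 := Subgroup.mem_map_of_mem π hu
    rw [Subgroup.map_commutator, Subgroup.map_top_of_surjective π hπ] at h1
    exact h1
  have h2 := Subgroup.mem_center_iff.mp (hcen hu') (π g)
  show π (u * g * u⁻¹ * g⁻¹) = 1
  rw [map_mul, map_mul, map_mul, map_inv, map_inv, ← h2, mul_assoc, mul_assoc]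
  simp

theorem final_quat [Finite X] (hna : ¬ IsMulCommutative X) (h4 : (commutator X).index = 4) {a b c : X}
    (hgen : Subgroup.closure ({a, b} : Set X) = ⊤) (hc : c = a * b * a⁻¹ * b⁻¹)
    (hcen : commutator X ≤ Subgroup.center X)
    (h1 : c ^ 2 = 1) (h2 : a ^ 2 = c) (h3 : b ^ 2 = c) : Nonempty (X ≃* QuaternionGroup 2) := by
  have hcm : c ∈ commutator X := by
    have : ⁅a, b⁆ ∈ commutator X := by
      rw [commutator_def]
      exact Subgroup.commutator_mem_commutator (Subgroup.mem_top a) (Subgroup.mem_top b)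
    rwa [commutatorElement_def, ← hc] at this
  have hle : commutator X ≤ Subgroup.zpowers c := by
    rw [hc]
    apply commutator_le_zpowers hgen
    rw [← hc]
    exact hcen hcm
  have hc1 : c ≠ 1 := by
    intro hc1
    apply hna
    rw [hc1, Subgroup.zpowers_one_eq_bot, le_bot_iff, commutator_eq_bot_iff_center_eq_top] at hle
    constructor
    constructor
    intro x y
    have hx : x ∈ Subgroup.center X := hle ▸ Subgroup.mem_top x
    exact (Subgroup.mem_center_iff.mp hx y).symm
  -- the commutator subgroup has order two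
  have hcard2 : Nat.card (commutator X) = 2 := by
    have hz : Nat.card (Subgroup.zpowers c) = 2 := by
      rw [Nat.card_zpowers]
      exact orderOf_eq_prime h1 hc1
    have hle2 : Subgroup.zpowers c ≤ commutator X := by
      rw [Subgroup.zpowers_le]
      exact hcm
    rw [← hz, le_antisymm hle hle2]
  have hcardX : Nat.card X = 8 := by
    have := Subgroup.card_mul_index (commutator X)
    rw [hcard2, h4] at this
    omega
  have ha4 : orderOf a = 4 := by
    haveI : Fact (Nat.Prime 2) := ⟨Nat.prime_two⟩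
    have e : orderOf a = 2 ^ (1 + 1) := by
      apply orderOf_eq_prime_pow
      · show ¬ a ^ 2 ^ 1 = 1
        rw [pow_one, h2]
        exact hc1
      · show a ^ 2 ^ (1 + 1) = 1
        rw [show (2 : ℕ) ^ (1 + 1) = 2 * 2 by norm_num, pow_mul, h2, h1]
    rw [e]
    norm_num
  have hrel : b * a * b⁻¹ = a⁻¹ := by
    have e : b * a⁻¹ * b⁻¹ = a := by
      have h5 : a⁻¹ * (a * b * a⁻¹ * b⁻¹) = a⁻¹ * a ^ 2 := by rw [← hc, h2]
      simpa [pow_two, mul_assoc] using h5
    have h6 : b * a * b⁻¹ = (b * a⁻¹ * b⁻¹)⁻¹ := by group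
    rw [h6, e]
  have hbnot : b ∉ Subgroup.zpowers a := by
    intro hb
    obtain ⟨k, hk⟩ := Subgroup.mem_zpowers_iff.mp hb
    apply hc1
    rw [hc, ← hk]
    have : a * a ^ k = a ^ k * a := (Commute.refl a).zpow_right k
    rw [this]
    simp
  exact Cfsg.Agent.H19.quaternion_iso hcardX ha4 (h3.trans h2.symm) hrel hbnot

end

theorem result {P : Type*} [Group P] [Finite P] (hP : IsPGroup 2 P) (hna : ¬ IsMulCommutative P) (h4 : (commutator P).index = 4) (haut : ¬ IsPGroup 2 (MulAut P)) : Nonempty (P ≃* QuaternionGroup 2) := by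
  classical
  haveI : Fact (Nat.Prime 2) := ⟨Nat.prime_two⟩
  haveI : Finite (MulAut P) := by
    have : Function.Injective (fun f : MulAut P => (f : P → P)) := by
      intro f g hfg
      exact MulEquiv.ext (fun x => congrFun hfg x)
    exact Finite.of_injective _ this
  obtain ⟨t, ht⟩ := IsPGroup.iff_card.mp hP
  -- an automorphism of odd order
  obtain ⟨ψ, hψ1, hψodd⟩ : ∃ ψ : MulAut P, ψ ≠ 1 ∧ Odd (orderOf ψ) := by
    unfold IsPGroup at haut
    push Not at haut
    obtain ⟨φ, hφ⟩ := haut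
    obtain ⟨e, m, hm, hn⟩ := Nat.exists_eq_two_pow_mul_odd (orderOf_pos φ).ne'
    refine ⟨φ ^ 2 ^ e, hφ e, ?_⟩
    rw [orderOf_pow_of_dvd (by positivity) ⟨m, hn⟩, hn, Nat.mul_div_cancel_left _ (by positivity)]
    exact hm
  have hcopψ : ∀ φ : MulAut P, Odd (orderOf φ) → (orderOf φ).Coprime (Nat.card P) := by
    intro φ hφ
    rw [ht]
    exact Nat.Coprime.pow_right _ (Nat.coprime_two_right.mpr hφ)
  set F := frattini P with hF
  haveI hFn : F.Normal := inferInstance
  have hFchar : ∀ (φ : MulAut P) (x : P), φ x ∈ F ↔ x ∈ F := by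
    intro φ x
    have h := (Subgroup.characteristic_iff_comap_eq.mp (inferInstance : F.Characteristic)) φ
    constructor
    · intro hx
      rw [← h]
      exact hx
    · intro hx
      rw [← h] at hx
      exact hx
  obtain ⟨a, ha⟩ : ∃ a : P, ψ a * a⁻¹ ∉ F := by
    by_contra hall
    push Not at hall
    exact hψ1 (aut_eq_one_of_frattini ψ (hcopψ ψ hψodd) hall)
  have hCmF : commutator P ≤ F := Cfsg.Agent.H01.commutator_le_frattini_of_isPGroup hP
  have hFidx : F.index = 4 := by
    have hdvd : F.index ∣ 4 := by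
      rw [← h4]
      exact Subgroup.index_dvd_of_le hCmF
    have hne2 : F.index ≠ 2 := by
      intro h2
      apply ha
      rw [Subgroup.mul_mem_iff_of_index_two h2, inv_mem_iff]
      exact hFchar ψ a
    have hne1 : F.index ≠ 1 := by
      intro h1
      apply ha
      rw [Subgroup.index_eq_one.mp h1]
      exact Subgroup.mem_top _
    have : F.index ∈ Nat.divisors 4 := Nat.mem_divisors.mpr ⟨hdvd, by norm_num⟩
    have h44 : Nat.divisors 4 = {1, 2, 4} := by decide
    rw [h44] at this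
    simp only [Finset.mem_insert, Finset.mem_singleton] at this
    omega
  have hFCm : commutator P = F := by
    apply Subgroup.eq_of_le_of_card_ge hCmF
    have h1 := Subgroup.card_mul_index (commutator P)
    have h2 := Subgroup.card_mul_index F
    rw [h4] at h1
    rw [hFidx] at h2
    omega
  -- the two generators
  set b := ψ a with hb
  have haF : a ∉ F := by
    intro haF
    apply ha
    exact F.mul_mem ((hFchar ψ a).mpr haF) (F.inv_mem haF)
  have hbF : b ∉ F := fun h => haF ((hFchar ψ a).mp h)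
  have hbaF : b * a⁻¹ ∉ F := ha
  let π := QuotientGroup.mk' F
  have hπ : Function.Surjective π := QuotientGroup.mk'_surjective F
  have hπ1 : ∀ x, π x = 1 ↔ x ∈ F := fun x => QuotientGroup.eq_one_iff x
  have hcardV : Nat.card (P ⧸ F) = 4 := hFidx
  have hsqV : ∀ v : P ⧸ F, v ^ 2 = 1 := by
    intro v
    obtain ⟨x, rfl⟩ := hπ v
    rw [← map_pow, hπ1]
    exact Cfsg.Agent.H01.pow_mem_frattini_of_isPGroup hP x
  have hA : π a ≠ 1 := fun h => haF ((hπ1 a).mp h)
  have hB : π b ≠ 1 := fun h => hbF ((hπ1 b).mp h)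
  have hAB : π a ≠ π b := by
    intro h
    apply hbaF
    rw [← hπ1, map_mul, map_inv, ← h, mul_inv_cancel]
  have hcases := four_cases hcardV hsqV hA hB hAB
  -- the map induced on the quotient
  have hmapF : F.map ψ.toMonoidHom = F := by
    ext x
    constructor
    · rintro ⟨y, hy, rfl⟩
      exact (hFchar ψ y).mpr hy
    · intro hx
      refine ⟨ψ.symm x, ?_, by simp⟩
      apply (hFchar ψ _).mp
      simpa using hx
  let Ψ : (P ⧸ F) ≃* (P ⧸ F) := QuotientGroup.congr F F ψ hmapF
  have hΨ : ∀ x, Ψ (π x) = π (ψ x) := fun x => rfl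
  have hψb : π (ψ b) = π a * π b := by
    rcases hcases (π (ψ b)) with h | h | h | h
    · exact absurd ((hFchar ψ b).mp ((hπ1 _).mp h)) hbF
    · exfalso
      have hΨ2 : ∀ v : P ⧸ F, Ψ (Ψ v) = v := by
        have e1 : Ψ (π a) = π b := hΨ a
        have e2 : Ψ (π b) = π a := by rw [hΨ, h]
        intro v
        rcases hcases v with rfl | rfl | rfl | rfl
        · simp
        · rw [e1, e2]
        · rw [e2, e1]
        · rw [map_mul, map_mul, e1, e2, e1]
      have hψ2 : ψ * ψ = 1 := by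
        apply aut_eq_one_of_frattini
        · apply hcopψ
          rw [← pow_two]
          have h3 : orderOf (ψ ^ 2) ∣ orderOf ψ := orderOf_pow_dvd 2
          exact hψodd.of_dvd_nat h3
        · intro x
          rw [← hF, ← hπ1, map_mul, map_inv, mul_inv_eq_one]
          show π (ψ (ψ x)) = π x
          rw [← hΨ, ← hΨ]
          exact hΨ2 _
      have h3 : orderOf ψ ∣ 2 := orderOf_dvd_of_pow_eq_one (by rw [pow_two]; exact hψ2)
      have h4' : orderOf ψ = 1 := by
        have h5 := (Nat.dvd_prime Nat.prime_two).mp h3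
        rcases h5 with h5 | h5
        · exact h5
        · rw [h5] at hψodd
          exact absurd hψodd (by decide)
      exact hψ1 (orderOf_eq_one_iff.mp h4')
    · exfalso
      have h5 : Ψ (π b) = Ψ (π a) := by rw [hΨ, hΨ, h]
      exact hAB (Ψ.injective h5).symm
    · exact h
  obtain ⟨f, hfF, hf⟩ : ∃ f ∈ F, ψ b = a * b * f := by
    refine ⟨(a * b)⁻¹ * ψ b, ?_, by group⟩
    rw [← hπ1, map_mul, map_inv, map_mul, hψb, inv_mul_cancel]
  have hgen : Subgroup.closure ({a, b} : Set P) = ⊤ := by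
    by_contra hne
    obtain ⟨M, hM, hle⟩ := (eq_top_or_exists_le_coatom (Subgroup.closure ({a, b} : Set P))).resolve_left hne
    have haM : a ∈ M := hle (Subgroup.subset_closure (by simp))
    have hbM : b ∈ M := hle (Subgroup.subset_closure (by simp))
    have hFM : ∀ x ∈ F, x ∈ M := fun x hx => Cfsg.Agent.H01.mem_frattini_iff.mp hx M hM
    apply hM.1
    rw [eq_top_iff]
    intro x _
    have hx : ∃ y ∈ M, π x = π y := by
      rcases hcases (π x) with h | h | h | h
      · exact ⟨1, M.one_mem, by simpa using h⟩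
      · exact ⟨a, haM, h⟩
      · exact ⟨b, hbM, h⟩
      · exact ⟨a * b, M.mul_mem haM hbM, by rw [h, map_mul]⟩
    obtain ⟨y, hy, hxy⟩ := hx
    have h5 : x * y⁻¹ ∈ F := by
      rw [← hπ1, map_mul, map_inv, hxy, mul_inv_cancel]
    have h6 := M.mul_mem (hFM _ h5) hy
    simpa using h6
  set c := a * b * a⁻¹ * b⁻¹ with hc
  -- first application of `key_sq`, in the quotient by the third term of the lower central series
  set N : Subgroup P := ⁅commutator P, (⊤ : Subgroup P)⁆ with hN
  haveI hNn : N.Normal := Subgroup.commutator_normal _ _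
  haveI hNc : N.Characteristic := by
    rw [hN]
    infer_instance
  have hsqP : ∀ x : P, x ^ 2 ∈ commutator P := by
    intro x
    rw [hFCm]
    exact Cfsg.Agent.H01.pow_mem_frattini_of_isPGroup hP x
  have hN1 : a ^ 2 * c⁻¹ ∈ N ∧ b ^ 2 * c⁻¹ ∈ N := by
    let ρ := QuotientGroup.mk' N
    have hρ : Function.Surjective ρ := QuotientGroup.mk'_surjective N
    have hρ1 : ∀ x, ρ x = 1 ↔ x ∈ N := fun x => QuotientGroup.eq_one_iff x
    have hmapN : N.map ψ.toMonoidHom = N := by
      ext x
      have h6 := (Subgroup.characteristic_iff_comap_eq.mp hNc) ψ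
      constructor
      · rintro ⟨y, hy, rfl⟩
        rw [← h6] at hy
        exact hy
      · intro hx
        refine ⟨ψ.symm x, ?_, by simp⟩
        rw [← h6]
        show ψ (ψ.symm x) ∈ N
        simpa using hx
    let Ψ' : (P ⧸ N) ≃* (P ⧸ N) := QuotientGroup.congr N N ψ hmapN
    have hΨ' : ∀ x, Ψ' (ρ x) = ρ (ψ x) := fun x => rfl
    have hgen' : Subgroup.closure ({ρ a, ρ b} : Set (P ⧸ N)) = ⊤ := by
      have h1 := MonoidHom.map_closure ρ ({a, b} : Set P)
      rw [hgen, Subgroup.map_top_of_surjective ρ hρ, Set.image_pair] at h1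
      exact h1.symm
    have hmem : ∀ u ∈ commutator P, ρ u ∈ commutator (P ⧸ N) := by
      intro u hu
      rw [commutator_def] at hu ⊢
      have h1 := Subgroup.mem_map_of_mem ρ hu
      rw [Subgroup.map_commutator, Subgroup.map_top_of_surjective ρ hρ] at h1
      exact h1
    have hcen : commutator (P ⧸ N) ≤ Subgroup.center (P ⧸ N) := by
      rw [commutator_def, Subgroup.commutator_le]
      intro u _ v _
      obtain ⟨x, rfl⟩ := hρ u
      obtain ⟨y, rfl⟩ := hρ v
      rw [← map_commutatorElement, Subgroup.mem_center_iff]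
      intro g
      obtain ⟨h, rfl⟩ := hρ g
      have hw : ⁅x, y⁆ ∈ commutator P := by
        rw [commutator_def]
        exact Subgroup.commutator_mem_commutator (Subgroup.mem_top x) (Subgroup.mem_top y)
      have h5 : ⁅⁅x, y⁆, h⁆ ∈ N := Subgroup.commutator_mem_commutator hw (Subgroup.mem_top h)
      have h6 := (hρ1 _).mpr h5
      rw [map_commutatorElement, commutatorElement_eq_one_iff_commute] at h6
      exact h6.symm.eq
    have hsqX : ∀ x : P ⧸ N, x ^ 2 ∈ commutator (P ⧸ N) := by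
      intro x
      obtain ⟨y, rfl⟩ := hρ x
      rw [← map_pow]
      exact hmem _ (hsqP y)
    have h1' : Ψ' (ρ a) = ρ b := hΨ' a
    have h2' : Ψ' (ρ b) = ρ a * ρ b * ρ f := by
      rw [hΨ', hf, map_mul, map_mul]
    have hf' : ρ f ∈ commutator (P ⧸ N) := hmem _ (hFCm ▸ hfF)
    obtain ⟨_, e2, e3⟩ := key_sq Ψ' hgen' hcen hsqX h1' h2' hf'
    have ec : ρ a * ρ b * (ρ a)⁻¹ * (ρ b)⁻¹ = ρ c := by
      rw [hc, map_mul, map_mul, map_mul, map_inv, map_inv]
    rw [ec] at e2 e3
    constructor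
    · rw [← hρ1, map_mul, map_pow, map_inv, e2, mul_inv_cancel]
    · rw [← hρ1, map_mul, map_pow, map_inv, e3, mul_inv_cancel]
  have hNself : N ≤ ⁅N, (⊤ : Subgroup P)⁆ := step_comm hgen hc hN1.1 hN1.2
  have hNbot : N = ⊥ := by
    have hlcs : ∀ k : ℕ, N ≤ (⊤ : Subgroup P).lowerCentralSeries (k + 2) := by
      intro k
      induction k with
      | zero =>
        show N ≤ ⁅(⊤ : Subgroup P).lowerCentralSeries 1, ⊤⁆
        rw [Subgroup.top_lowerCentralSeries_one]
      | succ k ih =>
        refine hNself.trans ?_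
        exact Subgroup.commutator_mono ih le_rfl
    haveI : Group.IsNilpotent P := hP.isNilpotent
    obtain ⟨n, hn⟩ := nilpotent_iff_lowerCentralSeries.mp (inferInstance : Group.IsNilpotent P)
    rw [eq_bot_iff, ← hn]
    exact (hlcs n).trans (Subgroup.lowerCentralSeries_antitone _ (by omega))
  have hcenP : commutator P ≤ Subgroup.center P := by
    have h5 := (Subgroup.commutator_eq_bot_iff_le_centralizer (H₁ := commutator P) (H₂ := ⊤)).mp hNbot
    rwa [Subgroup.coe_top, Subgroup.centralizer_univ] at h5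
  obtain ⟨e1, e2, e3⟩ := key_sq ψ hgen hcenP hsqP rfl hf (hFCm ▸ hfF)
  exact final_quat hna h4 hgen hc hcenP e1 e2 e3

end Cfsg.Agent.S4189
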