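import Cfsg.Statements.S4195

set_option autoImplicit false
open Cfsg

namespace Cfsg.Agent.S4195

/-- Let x be a non-identity element of a finite group G whose centralizer contains a Sylow 2-subgroup of G. If x is conjugate to its inverse, then x has order 2. -/
theorem result {G : Type*} [Group G] [Finite G] (x : G) (hx : x ≠ 1) (P : Sylow 2 G) (hP : (P : Subgroup G) ≤ Subgroup.centralizer ({x} : Set G)) (hreal : IsConj x x⁻¹) : orderOf x = 2 := by
  have : Fact (Nat.Prime 2) := ⟨Nat.prime_two⟩
  have hsq : x ^ 2 = 1 := by
    by_contra hsq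
    have hne : x ≠ x⁻¹ := by
      intro h
      apply hsq
      rw [pow_two]
      nth_rewrite 1 [h]
      exact inv_mul_cancel x
    obtain ⟨g, hg⟩ := isConj_iff.mp hreal
    -- the subgroup stabilizing {x, x⁻¹}
    let N : Subgroup G :=
      { carrier := {y | y * x * y⁻¹ = x ∨ y * x * y⁻¹ = x⁻¹}
        one_mem' := by simp
        mul_mem' := by
          intro a b ha hb
          have e : a * b * x * (a * b)⁻¹ = a * (b * x * b⁻¹) * a⁻¹ := by group
          have e2 : a * x⁻¹ * a⁻¹ = (a * x * a⁻¹)⁻¹ := by group
          simp only [Set.mem_ofPred_eq] at ha hb ⊢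
          rw [e]
          rcases hb with hb | hb <;> rw [hb]
          · exact ha
          · rw [e2]
            rcases ha with ha | ha <;> rw [ha]
            · right; rfl
            · left; simp
        inv_mem' := by
          intro a ha
          simp only [Set.mem_ofPred_eq] at ha ⊢
          rcases ha with ha | ha
          · left
            nth_rewrite 1 [← ha]
            group
          · right
            have : x = a * x⁻¹ * a⁻¹ := by
              have e2 : a * x⁻¹ * a⁻¹ = (a * x * a⁻¹)⁻¹ := by group
              rw [e2, ha, inv_inv]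
            rw [inv_inv]
            nth_rewrite 1 [this]
            group }
    let C : Subgroup G := Subgroup.centralizer ({x} : Set G)
    have hmemC : ∀ y, y ∈ C ↔ y * x * y⁻¹ = x := by
      intro y
      rw [Subgroup.mem_centralizer_singleton_iff, mul_inv_eq_iff_eq_mul]
    have hCN : C ≤ N := fun y hy => Or.inl ((hmemC y).mp hy)
    have hgN : g ∈ N := Or.inr hg
    have hidx : (C.subgroupOf N).index = 2 := by
      rw [Subgroup.index_eq_two_iff]
      refine ⟨⟨g, hgN⟩, ?_⟩
      rintro ⟨b, hb⟩
      simp only [Subgroup.mem_subgroupOf, MulMemClass.coe_mul]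
      rw [hmemC, hmemC]
      have e : b * g * x * (b * g)⁻¹ = b * x⁻¹ * b⁻¹ := by
        rw [← hg]; group
      have e2 : b * x⁻¹ * b⁻¹ = (b * x * b⁻¹)⁻¹ := by group
      rw [e, e2]
      rcases hb with hb | hb
      · right
        refine ⟨hb, fun h => hne ?_⟩
        rw [hb] at h
        exact h.symm
      · left
        refine ⟨by rw [hb, inv_inv], fun h => hne ?_⟩
        rw [hb] at h
        exact h.symm
    have h2 : C.relIndex N ∣ C.index := Subgroup.relIndex_dvd_index_of_le hCN
    have h3 : C.index ∣ (P : Subgroup G).index := Subgroup.index_dvd_of_le hP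
    have h4 : ¬ 2 ∣ (P : Subgroup G).index := P.not_dvd_index
    apply h4
    refine dvd_trans ?_ h3
    refine dvd_trans ?_ h2
    rw [Subgroup.relIndex, hidx]
  exact orderOf_eq_prime hsq hx

end Cfsg.Agent.S4195
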