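import Cfsg.Statements.S4196
import Cfsg.Agent.S4195

set_option autoImplicit false
open Cfsg
open scoped Pointwise

namespace Cfsg.Agent.S4196

theorem sylow_conj {G : Type*} [Group G] [Finite G] {p : ℕ} [Fact p.Prime] (P Q : Sylow p G) :
    ∃ g : G, ∀ x, x ∈ (Q : Subgroup G) ↔ g⁻¹ * x * g ∈ (P : Subgroup G) := by
  obtain ⟨g, hg⟩ := MulAction.exists_smul_eq G P Q
  refine ⟨g, fun x => ?_⟩
  rw [← hg, Sylow.coe_subgroup_smul, Subgroup.mem_pointwise_smul_iff_inv_smul_mem]
  simp [MulAut.smul_def]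

/-- A finite group G has elementary abelian Sylow 2-subgroups (commutative with every element squaring to the identity) if and only if every 2-element of G has a Sylow 2-subgroup in its centralizer and is conjugate to its inverse. -/
theorem result {G : Type*} [Group G] [Finite G] (P : Sylow 2 G) :
    (IsMulCommutative (P : Subgroup G) ∧ ∀ x ∈ (P : Subgroup G), x ^ 2 = 1) ↔
      ∀ x : G, (∃ k : ℕ, orderOf x = 2 ^ k) → (∃ Q : Sylow 2 G, (Q : Subgroup G) ≤ Subgroup.centralizer ({x} : Set G)) ∧ IsConj x x⁻¹ := by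
  have : Fact (Nat.Prime 2) := ⟨Nat.prime_two⟩
  constructor
  · rintro ⟨hcomm, hexp⟩ x ⟨k, hk⟩
    have hzp : IsPGroup 2 (Subgroup.zpowers x) := by
      rw [IsPGroup.iff_card]
      exact ⟨k, by rw [Nat.card_zpowers, hk]⟩
    obtain ⟨Q, hQ⟩ := hzp.exists_le_sylow
    have hxQ : x ∈ (Q : Subgroup G) := hQ (Subgroup.mem_zpowers x)
    obtain ⟨g, hg⟩ := sylow_conj P Q
    have hc : ∀ a ∈ (P : Subgroup G), ∀ b ∈ (P : Subgroup G), a * b = b * a := by
      intro a ha b hb
      have := hcomm.is_comm.comm (⟨a, ha⟩ : (P : Subgroup G)) ⟨b, hb⟩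
      exact congrArg Subtype.val this
    refine ⟨⟨Q, ?_⟩, ?_⟩
    · intro y hy
      rw [Subgroup.mem_centralizer_singleton_iff]
      have h1 := hc _ ((hg x).mp hxQ) _ ((hg y).mp hy)
      have : (g⁻¹ * x * g) * (g⁻¹ * y * g) = g⁻¹ * (x * y) * g := by group
      rw [this] at h1
      have h2 : (g⁻¹ * y * g) * (g⁻¹ * x * g) = g⁻¹ * (y * x) * g := by group
      rw [h2] at h1
      simpa using h1.symm
    · have h1 := hexp _ ((hg x).mp hxQ)
      have h2 : (g⁻¹ * x * g) ^ 2 = g⁻¹ * x ^ 2 * g := by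
        rw [pow_two, pow_two]; group
      rw [h2] at h1
      have h3 : x ^ 2 = 1 := by
        have : x ^ 2 = g * (g⁻¹ * x ^ 2 * g) * g⁻¹ := by group
        rw [this, h1]; simp
      have h4 : x⁻¹ = x := by
        rw [inv_eq_iff_mul_eq_one, ← pow_two]; exact h3
      rw [h4]
  · intro h
    have hsq : ∀ x ∈ (P : Subgroup G), x ^ 2 = 1 := by
      intro x hx
      by_cases hx1 : x = 1
      · simp [hx1]
      obtain ⟨n, hn⟩ := P.isPGroup' ⟨x, hx⟩
      have hn' : x ^ 2 ^ n = 1 := by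
        have := congrArg (fun z : (P : Subgroup G) => (z : G)) hn
        simpa using this
      have hk : ∃ k, orderOf x = 2 ^ k := by
        obtain ⟨k, _, hk⟩ := (Nat.dvd_prime_pow Nat.prime_two).mp (orderOf_dvd_of_pow_eq_one hn')
        exact ⟨k, hk⟩
      obtain ⟨⟨Q, hQ⟩, hreal⟩ := h x hk
      have := S4195.result x hx1 Q hQ hreal
      rw [← this]
      exact pow_orderOf_eq_one x
    refine ⟨⟨⟨?_⟩⟩, hsq⟩
    rintro ⟨a, ha⟩ ⟨b, hb⟩
    apply Subtype.ext
    show a * b = b * a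
    have h1 := hsq _ (P.mul_mem hb ha)
    have h2 := hsq _ ha
    have h3 := hsq _ hb
    rw [pow_two] at h1 h2 h3
    calc a * b = a * b * (b * a * (b * a)) := by rw [h1]; simp
      _ = a * (b * b) * a * (b * a) := by group
      _ = b * a := by rw [h3, mul_one, h2, one_mul]

end Cfsg.Agent.S4196
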