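import Cfsg.Statements.S4250
import Cfsg.Agent.Lib.H20.TameFusion

set_option autoImplicit false
open Cfsg

namespace Cfsg.Agent.S4250

open scoped commutatorElement
open Cfsg.Agent.H09 Cfsg.Agent.H20

/-- Let P be a Sylow p-subgroup of a finite group G. Call an intersection H = P ∩ Q with a Sylow p-subgroup Q tame when N_P(H) and N_Q(H) are Sylow p-subgroups of N_G(H). Then P ∩ G′ is generated by [P, N_G(P)] together with the commutator subgroups [P ∩ Q, ⟨x⟩] for all tame intersections P ∩ Q and all p-elements x of N_G(P ∩ Q). -/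
theorem result {G : Type*} [Group G] [Finite G] (p : ℕ) [Fact p.Prime] (P : Sylow p G) :
    (P : Subgroup G) ⊓ commutator G =
      ⁅(P : Subgroup G), Subgroup.normalizer ((P : Subgroup G) : Set G)⁆ ⊔
        ⨆ (Q : Sylow p G) (_ : (¬ p ∣ ((P : Subgroup G) ⊓ Subgroup.normalizer (((P : Subgroup G) ⊓ (Q : Subgroup G) : Subgroup G) : Set G)).relIndex (Subgroup.normalizer (((P : Subgroup G) ⊓ (Q : Subgroup G) : Subgroup G) : Set G)) ∧ ¬ p ∣ ((Q : Subgroup G) ⊓ Subgroup.normalizer (((P : Subgroup G) ⊓ (Q : Subgroup G) : Subgroup G) : Set G)).relIndex (Subgroup.normalizer (((P : Subgroup G) ⊓ (Q : Subgroup G) : Subgroup G) : Set G))))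
          (x : G) (_ : x ∈ Subgroup.normalizer (((P : Subgroup G) ⊓ (Q : Subgroup G) : Subgroup G) : Set G) ∧ ∃ k : ℕ, orderOf x = p ^ k),
          ⁅(P : Subgroup G) ⊓ (Q : Subgroup G), Subgroup.zpowers x⁆ := by
  classical
  set D : Subgroup G := ⁅(P : Subgroup G), Subgroup.normalizer ((P : Subgroup G) : Set G)⁆ ⊔
        ⨆ (Q : Sylow p G) (_ : (¬ p ∣ ((P : Subgroup G) ⊓ Subgroup.normalizer (((P : Subgroup G) ⊓ (Q : Subgroup G) : Subgroup G) : Set G)).relIndex (Subgroup.normalizer (((P : Subgroup G) ⊓ (Q : Subgroup G) : Subgroup G) : Set G)) ∧ ¬ p ∣ ((Q : Subgroup G) ⊓ Subgroup.normalizer (((P : Subgroup G) ⊓ (Q : Subgroup G) : Subgroup G) : Set G)).relIndex (Subgroup.normalizer (((P : Subgroup G) ⊓ (Q : Subgroup G) : Subgroup G) : Set G))))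
          (x : G) (_ : x ∈ Subgroup.normalizer (((P : Subgroup G) ⊓ (Q : Subgroup G) : Subgroup G) : Set G) ∧ ∃ k : ℕ, orderOf x = p ^ k),
          ⁅(P : Subgroup G) ⊓ (Q : Subgroup G), Subgroup.zpowers x⁆ with hD
  -- commutators with a normalizing subgroup
  have hcomm_le : ∀ {H W : Subgroup G}, W ≤ Subgroup.normalizer (H : Set G) → ⁅H, W⁆ ≤ H := by
    intro H W hW
    rw [Subgroup.commutator_le]
    intro a ha c hc
    rw [commutatorElement_def]
    have h1 : c * a⁻¹ * c⁻¹ ∈ H := (Subgroup.mem_normalizer_iff.1 (hW hc) a⁻¹).1 (H.inv_mem ha)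
    have e : a * c * a⁻¹ * c⁻¹ = a * (c * a⁻¹ * c⁻¹) := by group
    rw [e]
    exact H.mul_mem ha h1
  have hzp : ∀ {H : Subgroup G} {x : G}, x ∈ Subgroup.normalizer (H : Set G) →
      Subgroup.zpowers x ≤ Subgroup.normalizer (H : Set G) := by
    intro H x hx
    exact (Subgroup.zpowers_le).2 hx
  have hDP : D ≤ (P : Subgroup G) := by
    refine sup_le (hcomm_le le_rfl) ?_
    refine iSup_le fun Q => iSup_le fun hQ => iSup_le fun x => iSup_le fun hx => ?_
    exact (hcomm_le (hzp hx.1)).trans inf_le_left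
  have hgen : ∀ {H : Subgroup G} {W : Subgroup G}, ⁅H, W⁆ ≤ D → ∀ a ∈ H, ∀ c ∈ W,
      a⁻¹ * (c * a * c⁻¹) ∈ D := by
    intro H W h a ha c hc
    have h1 := h (Subgroup.commutator_mem_commutator (H.inv_mem ha) hc)
    rw [commutatorElement_def] at h1
    convert h1 using 1
    group
  apply le_antisymm
  · have hfoc := focal_sub (p := p) (H := (⊤ : Subgroup G)) (R := (P : Subgroup G)) (D := D) le_top
      P.isPGroup' (by rw [Subgroup.relIndex_top_right]; exact P.not_dvd_index) hDP (by
        intro b hb z _ hzb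
        refine tame_control_set P (focalCtl_sys D) ?_ ?_ {b} z
          (Set.singleton_subset_iff.2 hb) ?_ b rfl
        · intro g hg a ha
          exact hgen (le_sup_left : _ ≤ D) a ha g hg
        · intro Q hne htame x hx hk a ha
          have h1 : ⁅(P : Subgroup G) ⊓ (Q : Subgroup G), Subgroup.zpowers x⁆ ≤ D := by
            refine le_trans ?_ (le_sup_right)
            exact le_iSup₂_of_le Q htame (le_iSup₂_of_le x ⟨hx, hk⟩ le_rfl)
          exact hgen h1 a ha x (Subgroup.mem_zpowers x)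
        · rintro _ ⟨_, rfl, rfl⟩
          exact hzb)
    exact hfoc
  · apply sup_le
    · exact le_inf (hcomm_le le_rfl) (Subgroup.commutator_mono le_top le_top)
    · refine iSup_le fun Q => iSup_le fun hQ => iSup_le fun x => iSup_le fun hx => ?_
      exact le_inf ((hcomm_le (hzp hx.1)).trans inf_le_left)
        (Subgroup.commutator_mono le_top le_top)

end Cfsg.Agent.S4250
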