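import Cfsg.Statements.S4216
import Cfsg.Agent.S4250

set_option autoImplicit false
open Cfsg

namespace Cfsg.Agent.S4216

open scoped commutatorElement
open Cfsg.Agent.H09 Cfsg.Agent.H20

/-- Grün's first Theorem: if `P` is a Sylow `p`-subgroup of the finite group `G`, then `P ∩ G'` is the subgroup generated by `P ∩ N_G(P)'` together with the subgroups `P ∩ z P' z⁻¹` for all `z ∈ G`, where `'` denotes the derived subgroup and `N_G(P)` the normalizer of `P`. -/
theorem result {G : Type*} [Group G] [Finite G] {p : ℕ} [Fact p.Prime] (P : Sylow p G) : (P : Subgroup G) ⊓ commutator G = ((P : Subgroup G) ⊓ ⁅Subgroup.normalizer ((P : Subgroup G) : Set G), Subgroup.normalizer ((P : Subgroup G) : Set G)⁆) ⊔ ⨆ z : G, (P : Subgroup G) ⊓ (⁅(P : Subgroup G), (P : Subgroup G)⁆).map (MulAut.conj z).toMonoidHom := by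
  classical
  have hcomm_le : ∀ {H W : Subgroup G}, W ≤ Subgroup.normalizer (H : Set G) → ⁅H, W⁆ ≤ H := by
    intro H W hW
    rw [Subgroup.commutator_le]
    intro a ha c hc
    rw [commutatorElement_def]
    have h1 : c * a⁻¹ * c⁻¹ ∈ H := (Subgroup.mem_normalizer_iff.1 (hW hc) a⁻¹).1 (H.inv_mem ha)
    have e : a * c * a⁻¹ * c⁻¹ = a * (c * a⁻¹ * c⁻¹) := by group
    rw [e]
    exact H.mul_mem ha h1
  apply le_antisymm
  · rw [Cfsg.Agent.S4250.result p P]
    apply sup_le
    · refine le_trans (le_inf (hcomm_le le_rfl) ?_) le_sup_left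
      exact Subgroup.commutator_mono Subgroup.le_normalizer le_rfl
    · refine iSup_le fun Q => iSup_le fun hQ => iSup_le fun x => iSup_le fun hx => ?_
      set H : Subgroup G := (P : Subgroup G) ⊓ (Q : Subgroup G) with hH
      set X : Subgroup G := Subgroup.normalizer (H : Set G) with hX
      have hxX : Subgroup.zpowers x ≤ X := (Subgroup.zpowers_le).2 hx.1
      have hxp : IsPGroup p (Subgroup.zpowers x) := by
        obtain ⟨k, hk⟩ := hx.2
        apply IsPGroup.of_card (n := k)
        rw [Nat.card_zpowers, hk]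
      obtain ⟨w, hwX, hw⟩ := exists_conj_le_of_not_dvd_relIndex (p := p)
        (inf_le_right : (P : Subgroup G) ⊓ X ≤ X) (P.isPGroup'.to_le inf_le_left) hQ.1 hxX hxp
      refine le_trans ?_ (le_sup_of_le_right (le_iSup _ w⁻¹))
      rw [Subgroup.commutator_le]
      intro a ha c hc
      refine Subgroup.mem_inf.2 ⟨?_, ?_⟩
      · exact (hcomm_le hxX (Subgroup.commutator_mem_commutator ha hc)).1
      · rw [mem_map_conj, inv_inv]
        have h1 : w * a * w⁻¹ ∈ H := (Subgroup.mem_normalizer_iff.1 hwX a).1 ha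
        have h2 : w * c * w⁻¹ ∈ (P : Subgroup G) ⊓ X :=
          (map_conj_le_iff.1 hw) c hc
        have h3 := Subgroup.commutator_mem_commutator
          (show w * a * w⁻¹ ∈ (P : Subgroup G) from h1.1) h2.1
        have e : ⁅w * a * w⁻¹, w * c * w⁻¹⁆ = w * ⁅a, c⁆ * w⁻¹ := by
          simp only [commutatorElement_def]
          group
        rwa [e] at h3
  · apply sup_le
    · exact inf_le_inf_left _ (Subgroup.commutator_mono le_top le_top)
    · refine iSup_le fun z => inf_le_inf_left _ ?_
      rintro _ ⟨y, hy, rfl⟩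
      have h1 : y ∈ commutator G := Subgroup.commutator_mono le_top le_top hy
      exact (inferInstance : (commutator G).Normal).conj_mem y h1 z

end Cfsg.Agent.S4216
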