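import Cfsg.Statements.S4230

set_option autoImplicit false
open Cfsg

namespace Cfsg.Agent.S4230

/-- Let p be an odd prime, q a natural number not divisible by p, and e the multiplicative order of q modulo p. For a natural number f, p divides the value at q of the f-th cyclotomic polynomial if and only if f = e·p^j for some j ≥ 0. -/
theorem result (p q f : ℕ) (hp : p.Prime) (hp2 : p ≠ 2) (hpq : ¬ p ∣ q) :
    ((p : ℤ) ∣ (Polynomial.cyclotomic f ℤ).eval (q : ℤ)) ↔ ∃ j : ℕ, f = orderOf (q : ZMod p) * p ^ j := by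
  have := Fact.mk hp
  have hq0 : (q : ZMod p) ≠ 0 := by
    rwa [Ne, ZMod.natCast_eq_zero_iff]
  have hepos : 0 < orderOf (q : ZMod p) := by
    refine orderOf_pos_iff.mpr ?_
    rw [isOfFinOrder_iff_pow_eq_one]
    exact ⟨p - 1, Nat.sub_pos_of_lt hp.one_lt, ZMod.pow_card_sub_one_eq_one hq0⟩
  have hepdvd : orderOf (q : ZMod p) ∣ p - 1 := orderOf_dvd_of_pow_eq_one (ZMod.pow_card_sub_one_eq_one hq0)
  have hene : ¬ p ∣ orderOf (q : ZMod p) := by
    intro h
    have := Nat.le_of_dvd (Nat.sub_pos_of_lt hp.one_lt) (h.trans hepdvd)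
    have := hp.one_lt
    omega
  have key : ((p : ℤ) ∣ (Polynomial.cyclotomic f ℤ).eval (q : ℤ)) ↔
      (Polynomial.cyclotomic f (ZMod p)).IsRoot (q : ZMod p) := by
    rw [← ZMod.intCast_zmod_eq_zero_iff_dvd, Polynomial.IsRoot.def,
      ← Polynomial.map_cyclotomic f (Int.castRingHom (ZMod p))]
    have hqq : (q : ZMod p) = Int.castRingHom (ZMod p) (q : ℤ) := by simp
    rw [Polynomial.eval_map, hqq, Polynomial.eval₂_hom]
    simp
  rw [key]
  by_cases hf : f = 0
  · subst hf
    simp only [Polynomial.cyclotomic_zero, Polynomial.IsRoot.def, Polynomial.eval_one, one_ne_zero,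
      false_iff]
    rintro ⟨j, hj⟩
    have : 0 < orderOf (q : ZMod p) * p ^ j := Nat.mul_pos hepos (pow_pos hp.pos _)
    omega
  obtain ⟨k, m, hm, rfl⟩ := Nat.exists_eq_pow_mul_and_not_dvd hf p hp.ne_one
  have hm0 : NeZero ((m : ℕ) : ZMod p) := ⟨by rwa [Ne, ZMod.natCast_eq_zero_iff]⟩
  rw [Polynomial.isRoot_cyclotomic_prime_pow_mul_iff_of_charP]
  constructor
  · intro h
    refine ⟨k, ?_⟩
    rw [← h.eq_orderOf, mul_comm]
  · rintro ⟨j, hj⟩
    -- uniqueness of decomposition
    have hcop1 : Nat.Coprime m p := ((Nat.Prime.coprime_iff_not_dvd hp).mpr hm).symm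
    have hcop2 : Nat.Coprime (orderOf (q : ZMod p)) p := ((Nat.Prime.coprime_iff_not_dvd hp).mpr hene).symm
    have h1 : m ∣ orderOf (q : ZMod p) := by
      have : m ∣ orderOf (q : ZMod p) * p ^ j := hj ▸ Dvd.intro_left (p ^ k) rfl
      exact (Nat.Coprime.pow_right j hcop1).dvd_of_dvd_mul_right this
    have h2 : orderOf (q : ZMod p) ∣ m := by
      have : orderOf (q : ZMod p) ∣ p ^ k * m := hj ▸ Dvd.intro _ rfl
      exact (Nat.Coprime.pow_right k hcop2).dvd_of_dvd_mul_left this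
    have h3 := Nat.dvd_antisymm h1 h2
    rw [h3]
    exact IsPrimitiveRoot.orderOf _

end Cfsg.Agent.S4230
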