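import Cfsg.Statements.S4234
import Cfsg.Agent.Lib.H20.P213b
import Mathlib

set_option autoImplicit false
set_option linter.unusedVariables false
set_option linter.style.haveILetI false
open Cfsg

namespace Cfsg.Agent.S4234

open Cfsg.Agent.H20.P213 Cfsg.Agent.H11.SL2X

/-- the property -/
def NP (X : Type*) [Group X] : Prop :=
  ∀ H : Subgroup X, ¬ H.Normal → IsCoatom (Subgroup.normalizer (H : Set X))

/-- transport along an isomorphism -/
lemma np_of_equiv {X Y : Type*} [Group X] [Group Y] (e : X ≃* Y) (h : NP Y) : NP X := by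
  intro H hH
  have h1 : ¬ (H.map e.toMonoidHom).Normal := by
    intro hn
    apply hH
    have h2 := hn.comap e.toMonoidHom
    rwa [Subgroup.comap_map_eq_self_of_injective e.injective] at h2
  have h3 := h _ h1
  rw [← Subgroup.map_equiv_normalizer_eq H e] at h3
  exact ((MulEquiv.mapSubgroup e).isCoatom_iff _).1 h3

/-- comap of a coatom along a surjection -/
lemma isCoatom_comap {X Y : Type*} [Group X] [Group Y] {f : X →* Y} (hf : Function.Surjective f)
    {M : Subgroup Y} (hM : IsCoatom M) : IsCoatom (M.comap f) := by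
  refine ⟨?_, ?_⟩
  · intro h
    apply hM.1
    have h2 := Subgroup.map_comap_eq_self_of_surjective hf M
    rw [← h2, h, ← MonoidHom.range_eq_map, MonoidHom.range_eq_top.2 hf]
  · intro L hL
    have hker : f.ker ≤ L := by
      refine le_trans ?_ hL.le
      exact Subgroup.ker_le_comap f M
    have hle : M ≤ L.map f := by
      have h2 := Subgroup.map_comap_eq_self_of_surjective hf M
      rw [← h2]
      exact Subgroup.map_mono hL.le
    rcases eq_or_lt_of_le hle with h3 | h3
    · exfalso
      apply hL.not_ge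
      rw [h3, Subgroup.comap_map_eq_self hker]
    · have h4 := hM.2 _ h3
      have h5 := Subgroup.comap_map_eq_self hker
      rw [h4] at h5
      rw [← h5]
      simp

/-- `SL₂(13)` -/
theorem np_sl : NP (SL2 (ZMod 13)) := by
  intro H hH
  have hfin : Finite (SL2 (ZMod 13)) := inferInstance
  set π : SL2 (ZMod 13) →* G13 := QuotientGroup.mk' _ with hπ
  have hsurj : Function.Surjective π := QuotientGroup.mk'_surjective _
  have hpr : ∀ g, π g = pr g := fun g => rfl
  -- the image is not normal
  have hnn : ¬ (H.map π).Normal := by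
    intro hn
    apply hH
    rcases hn.eq_bot_or_eq_top with h0 | h0
    · -- H central
      have hle : H ≤ Subgroup.center (SL2 (ZMod 13)) := by
        intro u hu
        have h1 : π u = 1 := by
          have : π u ∈ H.map π := ⟨u, hu, rfl⟩
          rw [h0] at this
          exact this
        exact (QuotientGroup.eq_one_iff u).1 h1
      constructor
      intro n hnH g
      have h2 := Subgroup.mem_center_iff.1 (hle hnH) g
      rw [h2]
      simpa using hnH
    · constructor
      intro n hnH g
      have h1 : π g ∈ H.map π := by rw [h0]; trivial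
      obtain ⟨h', hh', hhg⟩ := h1
      have h2 : h'⁻¹ * g ∈ Subgroup.center (SL2 (ZMod 13)) := by
        apply (QuotientGroup.eq_one_iff _).1
        show π (h'⁻¹ * g) = 1
        rw [map_mul, map_inv, hhg, inv_mul_cancel]
      have h3 : g = h' * (h'⁻¹ * g) := by group
      have h4 := Subgroup.mem_center_iff.1 h2 n
      have h5 : g * n * g⁻¹ = h' * n * h'⁻¹ := by
        calc g * n * g⁻¹ = h' * ((h'⁻¹ * g) * n) * (h'⁻¹ * g)⁻¹ * h'⁻¹ := by group
          _ = h' * (n * (h'⁻¹ * g)) * (h'⁻¹ * g)⁻¹ * h'⁻¹ := by rw [← h4]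
          _ = _ := by group
      rw [h5]
      exact H.mul_mem (H.mul_mem hh' hnH) (H.inv_mem hh')
  have hco := psl_main (H.map π) hnn
  have heq : Subgroup.normalizer (H : Set (SL2 (ZMod 13))) =
      (Subgroup.normalizer ((H.map π : Subgroup G13) : Set G13)).comap π := by
    apply le_antisymm
    · rw [← Subgroup.map_le_iff_le_comap]
      exact Subgroup.le_normalizer_map π
    · intro g hg
      apply Cfsg.Agent.H20.mem_normalizer_of_conj_le
      intro h hh
      have h1 : π (g * h * g⁻¹) ∈ H.map π := by
        have h2 : π g ∈ Subgroup.normalizer ((H.map π : Subgroup G13) : Set G13) := hg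
        have h3 := (Subgroup.mem_normalizer_iff.1 h2 (π h)).1 ⟨h, hh, rfl⟩
        rw [map_mul, map_mul, map_inv]
        exact h3
      obtain ⟨h', hh', hhg⟩ := h1
      have h2 : pr (h'⁻¹ * (g * h * g⁻¹)) = 1 := by
        show π (h'⁻¹ * (g * h * g⁻¹)) = 1
        rw [map_mul, map_inv, hhg, inv_mul_cancel]
      have h3 : g * h * g⁻¹ = h' * (h'⁻¹ * (g * h * g⁻¹)) := by group
      rcases pr_eq_one_cases h2 with h4 | h4
      · rw [h3, h4, mul_one]
        exact hh'
      · by_cases hm : mS ∈ H
        · rw [h3, h4]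
          exact H.mul_mem hh' hm
        · exfalso
          -- H has odd order
          have hodd : ¬ 2 ∣ Nat.card H := by
            intro hd
            obtain ⟨y, hy⟩ := exists_prime_orderOf_dvd_card' 2 hd
            have hy2 : (y : SL2 (ZMod 13)) ^ 2 = 1 := by
              have := pow_orderOf_eq_one y
              rw [hy] at this
              exact_mod_cast congrArg Subtype.val this
            have hpr1 : pr (y : SL2 (ZMod 13)) ^ 2 = 1 := by
              show pr ((y : SL2 (ZMod 13)) ^ 2) = 1
              rw [hy2]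
              rfl
            have hscal : ¬ Cfsg.Agent.H11.SL2T.NS ((y : SL2 (ZMod 13)) : M2 (ZMod 13)) := by
              rintro hNS
              exact hNS (Cfsg.Agent.H11.SL2T.scalar_of_sq_eq_one (by decide +kernel : (2 : ZMod 13) ≠ 0) hy2)
            obtain ⟨s, hs⟩ := Cfsg.Agent.H11.SL2T.not_ns_iff.1 hscal
            rcases r_cases s.2 with h6 | h6
            · have h7 : (y : SL2 (ZMod 13)) = 1 := by
                rw [hs]
                apply Subtype.ext
                rw [Cfsg.Agent.H11.SL2T.sc_val, h6]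
                simp
              have h8 : y = 1 := Subtype.ext h7
              rw [h8, orderOf_one] at hy
              omega
            · have h7 : (y : SL2 (ZMod 13)) = mS := by
                rw [hs]
                apply Subtype.ext
                rw [Cfsg.Agent.H11.SL2T.sc_val, h6]
                decide +kernel
              apply hm
              rw [← h7]
              exact y.2
          -- power argument
          set n := Nat.card H with hn
          have hn1 : (g * h * g⁻¹) ^ n = 1 := by
            rw [conj_pow]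
            have : (⟨h, hh⟩ : H) ^ n = 1 := pow_card_eq_one'
            have h5 : h ^ n = 1 := by
              have h6 := congrArg Subtype.val this
              simpa using h6
            rw [h5]
            group
          have hn2 : h' ^ n = 1 := by
            have : (⟨h', hh'⟩ : H) ^ n = 1 := pow_card_eq_one'
            have h6 := congrArg Subtype.val this
            simpa using h6
          have hmc : Commute h' mS := by
            apply Subgroup.mem_center_iff.1 _ h'
            apply (QuotientGroup.eq_one_iff _).1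
            exact pr_mS
          rw [h3, h4, hmc.mul_pow, hn2, one_mul] at hn1
          obtain ⟨c, hc⟩ : ∃ c, n = 2 * c + 1 := ⟨n / 2, by omega⟩
          rw [hc, pow_succ, pow_mul, show mS ^ 2 = 1 by decide +kernel, one_pow, one_mul] at hn1
          exact absurd hn1 (by decide +kernel)
  rw [heq]
  exact isCoatom_comap hsurj hco

/-- products with a coprime abelian group -/
theorem np_prod {K S : Type*} [Group K] [CommGroup S] [Finite K] [Finite S]
    (hKS : (Nat.card K).Coprime (Nat.card S)) (hmain : NP K) : NP (K × S) := by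
  intro H hH
  set H₁ : Subgroup K := H.map (MonoidHom.fst K S) with hH₁
  set H₂ : Subgroup S := H.map (MonoidHom.snd K S) with hH₂
  -- coprime decomposition
  set u := Nat.chineseRemainder hKS 1 0 with hu
  set v := Nat.chineseRemainder hKS 0 1 with hv
  have hu1 : (u : ℕ) ≡ 1 [MOD Nat.card K] := u.2.1
  have hu2 : (u : ℕ) ≡ 0 [MOD Nat.card S] := u.2.2
  have hv1 : (v : ℕ) ≡ 0 [MOD Nat.card K] := v.2.1
  have hv2 : (v : ℕ) ≡ 1 [MOD Nat.card S] := v.2.2
  have ha1 : ∀ a : K, a ^ (u : ℕ) = a := by
    intro a
    have h1 : a ^ (u : ℕ) = a ^ 1 := pow_eq_pow_iff_modEq.2 (hu1.of_dvd (orderOf_dvd_natCard a))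
    rwa [pow_one] at h1
  have ha0 : ∀ a : K, a ^ (v : ℕ) = 1 := by
    intro a
    have h1 : a ^ (v : ℕ) = a ^ 0 := pow_eq_pow_iff_modEq.2 (hv1.of_dvd (orderOf_dvd_natCard a))
    rwa [pow_zero] at h1
  have hb1 : ∀ a : S, a ^ (v : ℕ) = a := by
    intro a
    have h1 : a ^ (v : ℕ) = a ^ 1 := pow_eq_pow_iff_modEq.2 (hv2.of_dvd (orderOf_dvd_natCard a))
    rwa [pow_one] at h1
  have hb0 : ∀ a : S, a ^ (u : ℕ) = 1 := by
    intro a
    have h1 : a ^ (u : ℕ) = a ^ 0 := pow_eq_pow_iff_modEq.2 (hu2.of_dvd (orderOf_dvd_natCard a))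
    rwa [pow_zero] at h1
  have hleft : ∀ a s, (a, s) ∈ H → (a, (1 : S)) ∈ H := by
    intro a s h
    have h1 := H.pow_mem h (u : ℕ)
    rw [Prod.pow_mk, ha1, hb0] at h1
    exact h1
  have hright : ∀ a s, (a, s) ∈ H → ((1 : K), s) ∈ H := by
    intro a s h
    have h1 := H.pow_mem h (v : ℕ)
    rw [Prod.pow_mk, ha0, hb1] at h1
    exact h1
  have hmem : ∀ a s, (a, s) ∈ H ↔ a ∈ H₁ ∧ s ∈ H₂ := by
    intro a s
    constructor
    · intro h
      exact ⟨⟨(a, s), h, rfl⟩, ⟨(a, s), h, rfl⟩⟩
    · rintro ⟨⟨⟨a', s'⟩, h1, rfl⟩, ⟨⟨a'', s''⟩, h2, rfl⟩⟩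
      have h3 := hleft _ _ h1
      have h4 := hright _ _ h2
      have h5 := H.mul_mem h3 h4
      simpa using h5
  have hmem1 : ∀ a, a ∈ H₁ ↔ (a, (1 : S)) ∈ H := by
    intro a
    rw [hmem]
    exact ⟨fun h => ⟨h, H₂.one_mem⟩, fun h => h.1⟩
  have hn1 : ¬ H₁.Normal := by
    intro hn
    apply hH
    constructor
    rintro ⟨a, s⟩ h ⟨g, t⟩
    rw [hmem] at h
    have h1 : (g, t) * (a, s) * (g, t)⁻¹ = (g * a * g⁻¹, s) := by
      simp [mul_comm t s]
    rw [h1, hmem]
    exact ⟨hn.conj_mem _ h.1 g, h.2⟩
  have hco := hmain H₁ hn1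
  set M := Subgroup.normalizer (H₁ : Set K) with hM
  have hN : Subgroup.normalizer (H : Set (K × S)) = M.prod ⊤ := by
    ext ⟨g, t⟩
    rw [Subgroup.mem_prod, Subgroup.mem_normalizer_iff]
    constructor
    · intro h
      refine ⟨?_, trivial⟩
      show g ∈ M
      rw [hM, Subgroup.mem_normalizer_iff]
      intro a
      rw [hmem1, hmem1]
      have h1 := h (a, 1)
      have h2 : (g, t) * (a, (1 : S)) * (g, t)⁻¹ = (g * a * g⁻¹, (1 : S)) := by
        simp
      rw [h2] at h1
      exact h1
    · rintro ⟨h, -⟩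
      rintro ⟨a, s⟩
      have h1 : (g, t) * (a, s) * (g, t)⁻¹ = (g * a * g⁻¹, s) := by
        simp [mul_comm t s]
      rw [h1, hmem, hmem]
      have h3 : g ∈ Subgroup.normalizer (H₁ : Set K) := h
      have h2 := Subgroup.mem_normalizer_iff.1 h3 a
      rw [h2]
  rw [hN]
  refine ⟨?_, ?_⟩
  · intro h
    apply hco.1
    rw [eq_top_iff]
    intro a _
    have : (a, (1 : S)) ∈ M.prod (⊤ : Subgroup S) := by rw [h]; trivial
    exact this.1
  · intro L hL
    have hS : ∀ a s, (a, s) ∈ L → ∀ s', (a, s') ∈ L := by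
      intro a s h s'
      have h1 : ((1 : K), s⁻¹ * s') ∈ L := hL.le ⟨M.one_mem, trivial⟩
      have h2 := L.mul_mem h h1
      simpa using h2
    have hle : M ≤ L.map (MonoidHom.fst K S) := by
      intro a ha
      exact ⟨(a, 1), hL.le ⟨ha, trivial⟩, rfl⟩
    rcases eq_or_lt_of_le hle with h3 | h3
    · exfalso
      apply hL.not_ge
      rintro ⟨a, s⟩ h
      refine ⟨?_, trivial⟩
      show a ∈ M
      rw [h3]
      exact ⟨(a, s), h, rfl⟩
    · have h4 := hco.2 _ h3
      rw [eq_top_iff]
      rintro ⟨a, s⟩ -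
      have h5 : a ∈ L.map (MonoidHom.fst K S) := by rw [h4]; trivial
      obtain ⟨⟨a', s'⟩, h6, rfl⟩ := h5
      exact hS _ _ h6 s

/-- Let K be isomorphic to PSL(2, 13) or to SL(2, 13) and let S be a finite abelian group of order coprime to the order of K. Then in the direct product K × S every subgroup that is not normal has a normalizer that is a maximal subgroup. -/
theorem result {K S : Type*} [Group K] [CommGroup S] [Finite K] [Finite S]
    (hK : Nonempty (K ≃* Matrix.ProjectiveSpecialLinearGroup (Fin 2) (ZMod 13)) ∨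
      Nonempty (K ≃* Matrix.SpecialLinearGroup (Fin 2) (ZMod 13)))
    (hKS : (Nat.card K).Coprime (Nat.card S)) (H : Subgroup (K × S)) (hH : ¬ H.Normal) :
    IsCoatom (Subgroup.normalizer (H : Set (K × S))) := by
  have hNK : NP K := by
    rcases hK with ⟨⟨e⟩⟩ | ⟨⟨e⟩⟩
    · exact np_of_equiv e psl_main
    · exact np_of_equiv e np_sl
  exact np_prod hKS hNK H hH

end Cfsg.Agent.S4234
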