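import Cfsg.Statements.S4237
import Cfsg.Agent.Lib.H20.SubCount
import Mathlib

set_option autoImplicit false
set_option linter.unusedVariables false
set_option linter.style.haveILetI false
open Cfsg

namespace Cfsg.Agent.S4237

open Cfsg.Agent.H19 Cfsg.Agent.H20.SubCount
open scoped Pointwise

variable {G : Type*} [Group G] [Finite G]

/-- Subgroups of order `p ^ a` contained in a fixed `K`. -/
private lemma card_below (K : Subgroup G) (n : ℕ) :
    Nat.card {Q : Subgroup G // Nat.card Q = n ∧ Q ≤ K} = Nat.card {Q : Subgroup K // Nat.card Q = n} := by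
  apply Nat.card_congr
  refine ⟨fun Q => ⟨Q.1.subgroupOf K, ?_⟩, fun Q => ⟨Q.1.map K.subtype, ?_, ?_⟩, ?_, ?_⟩
  · have h1 : Nat.card (Q.1.subgroupOf K) = Nat.card Q.1 :=
      Nat.card_congr (Subgroup.subgroupOfEquivOfLe Q.2.2).toEquiv
    rw [h1]; exact Q.2.1
  · rw [Subgroup.card_map_of_injective K.subtype_injective]
    exact Q.2
  · exact Subgroup.map_subtype_le _
  · intro Q
    apply Subtype.ext
    exact Subgroup.map_subgroupOf_eq_of_le Q.2.2
  · intro Q
    apply Subtype.ext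
    exact Subgroup.comap_map_eq_self_of_injective K.subtype_injective _

private lemma pairs_formula {p a : ℕ} [hpf : Fact p.Prime] :
    ∃ E : ℕ, Nat.card {x : Subgroup G × Subgroup G // Nat.card x.1 = p ^ (a + 1) ∧
        Nat.card x.2 = p ^ a ∧ x.2 ≤ x.1} =
      Nat.card {K : Subgroup G // Nat.card K = p ^ (a + 1)} +
        p * Nat.card {K : Subgroup G // Nat.card K = p ^ (a + 1) ∧ ¬ IsCyclic K} + p ^ 2 * E := by
  classical
  have hp : p.Prime := hpf.out
  let T := {K : Subgroup G // Nat.card K = p ^ (a + 1)}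
  haveI : Fintype T := Fintype.ofFinite _
  let mm : T → ℕ := fun K => Nat.card {Q : Subgroup G // Nat.card Q = p ^ a ∧ Q ≤ K.1}
  have hm : ∀ K : T, ∃ e : ℕ, mm K = 1 + (if IsCyclic K.1 then 0 else p + p ^ 2 * e) := by
    intro K
    have hc : mm K = Nat.card {Q : Subgroup K.1 // Nat.card Q = p ^ a} := card_below K.1 _
    by_cases hcyc : IsCyclic K.1
    · refine ⟨0, ?_⟩
      rw [if_pos hcyc, hc, add_zero]
      haveI := hcyc
      refine card_subgroups_cyclic (Z := K.1) ?_ (Or.inr ⟨p, a, hp, rfl⟩)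
      rw [K.2]
      exact pow_dvd_pow p (Nat.le_succ a)
    · obtain ⟨e, he⟩ := card_index_p_noncyclic (R := K.1) (p := p) a K.2 hcyc
      refine ⟨e, ?_⟩
      rw [if_neg hcyc, hc, he]
      ring
  choose e he using hm
  let e1 : {x : Subgroup G × Subgroup G // Nat.card x.1 = p ^ (a + 1) ∧ Nat.card x.2 = p ^ a ∧ x.2 ≤ x.1}
      ≃ Σ K : T, {Q : Subgroup G // Nat.card Q = p ^ a ∧ Q ≤ K.1} :=
    { toFun := fun x => ⟨⟨x.1.1, x.2.1⟩, ⟨x.1.2, x.2.2⟩⟩
      invFun := fun y => ⟨(y.1.1, y.2.1), y.1.2, y.2.2⟩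
      left_inv := fun x => rfl
      right_inv := fun y => rfl }
  rw [Nat.card_congr e1, Nat.card_sigma]
  have h1 : ∑ K : T, Nat.card {Q : Subgroup G // Nat.card Q = p ^ a ∧ Q ≤ K.1} =
      ∑ K : T, (1 + (if IsCyclic K.1 then 0 else p + p ^ 2 * e K)) :=
    Finset.sum_congr rfl (fun K _ => he K)
  rw [h1, Finset.sum_add_distrib]
  simp only [Finset.sum_const, Finset.card_univ, smul_eq_mul, mul_one]
  rw [Finset.sum_ite]
  simp only [Finset.sum_const_zero, zero_add, Finset.sum_add_distrib, Finset.sum_const, smul_eq_mul]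
  refine ⟨∑ x ∈ Finset.univ.filter (fun K : T => ¬ IsCyclic K.1), e x, ?_⟩
  have h2 : Nat.card {K : Subgroup G // Nat.card K = p ^ (a + 1) ∧ ¬ IsCyclic K} =
      (Finset.univ.filter (fun K : T => ¬ IsCyclic K.1)).card := by
    rw [← Fintype.card_subtype, ← Nat.card_eq_fintype_card]
    apply Nat.card_congr
    exact ⟨fun K => ⟨⟨K.1, K.2.1⟩, K.2.2⟩, fun K => ⟨K.1.1, K.1.2, K.2⟩, fun K => rfl, fun K => rfl⟩
  rw [h2, ← Finset.mul_sum, Nat.card_eq_fintype_card (α := T)]
  ring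

/-- Cyclic subgroups modulo `p`: only those inside the Sylow subgroup count. -/
private lemma cyclic_mod {p s : ℕ} [hpf : Fact p.Prime] (P : Sylow p G) :
    Nat.card {A : Subgroup G // Nat.card A = p ^ s ∧ IsCyclic A} ≡
      Nat.card {A : Subgroup G // A ≤ P ∧ IsCyclic A ∧ Nat.card A = p ^ s} [MOD p] := by
  classical
  have hp : p.Prime := hpf.out
  haveI : Fintype (Subgroup G) := Fintype.ofFinite _
  let Y := {A : Subgroup G // Nat.card A = p ^ s ∧ IsCyclic A ∧ ¬ A ≤ P}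
  have hconjmem : ∀ (g : (P : Subgroup G)) (A : Subgroup G) (x : G),
      x ∈ (MulAut.conj (g : G) • A : Subgroup G) ↔ (g : G)⁻¹ * x * g ∈ A := by
    intro g A x
    rw [Subgroup.mem_pointwise_smul_iff_inv_smul_mem]
    have h2 : (MulAut.conj (g : G))⁻¹ • x = (g : G)⁻¹ * x * g := by
      simp [MulAut.smul_def, MulAut.conj_symm_apply]
    rw [h2]
  have hnotle : ∀ (g : (P : Subgroup G)) (A : Subgroup G), ¬ A ≤ P →
      ¬ (MulAut.conj (g : G) • A : Subgroup G) ≤ P := by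
    intro g A hA hle
    apply hA
    intro x hx
    have h1 : (g : G) * x * (g : G)⁻¹ ∈ (MulAut.conj (g : G) • A : Subgroup G) := by
      rw [hconjmem]
      have : (g : G)⁻¹ * ((g : G) * x * (g : G)⁻¹) * g = x := by group
      rw [this]
      exact hx
    have h2 := hle h1
    have h3 : (g : G)⁻¹ * ((g : G) * x * (g : G)⁻¹) * g = x := by group
    rw [← h3]
    exact (P : Subgroup G).mul_mem ((P : Subgroup G).mul_mem ((P : Subgroup G).inv_mem g.2) h2) g.2
  letI act : MulAction (P : Subgroup G) Y :=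
    { smul := fun g A => ⟨MulAut.conj (g : G) • A.1, by
        rw [conj_smul_card]; exact A.2.1, conj_smul_cyclic _ _ A.2.2.1, hnotle g A.1 A.2.2.2⟩
      one_smul := fun A => by
        apply Subtype.ext
        show MulAut.conj ((1 : (P : Subgroup G)) : G) • A.1 = A.1
        simp
      mul_smul := fun g h A => by
        apply Subtype.ext
        show MulAut.conj (((g * h : (P : Subgroup G))) : G) • A.1 =
          MulAut.conj (g : G) • (MulAut.conj (h : G) • A.1)
        rw [Subgroup.coe_mul, map_mul, mul_smul] }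
  have hfix : IsEmpty (MulAction.fixedPoints (P : Subgroup G) Y) := by
    constructor
    rintro ⟨A, hA⟩
    apply A.2.2.2
    have hAp : IsPGroup p A.1 := IsPGroup.of_card A.2.1
    have hnorm : (P : Subgroup G) ≤ Subgroup.normalizer (A.1 : Set G) := by
      intro g hg
      have h1 := hA ⟨g, hg⟩
      have h2 : MulAut.conj g • A.1 = A.1 := congrArg Subtype.val h1
      rw [Subgroup.mem_normalizer_iff]
      intro x
      have h3 := hconjmem ⟨g, hg⟩ A.1 (g * x * g⁻¹)
      have h4 : g⁻¹ * (g * x * g⁻¹) * g = x := by group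
      simp only [h4] at h3
      constructor
      · intro hx
        have h5 := h3.2 hx
        have h6 : MulAut.conj (((⟨g, hg⟩ : (P : Subgroup G))) : G) • A.1 = A.1 := h2
        rwa [h6] at h5
      · intro hx
        have h6 : MulAut.conj (((⟨g, hg⟩ : (P : Subgroup G))) : G) • A.1 = A.1 := h2
        rw [h6] at h3
        exact h3.1 hx
    have h1 : IsPGroup p ((P : Subgroup G) ⊔ A.1 : Subgroup G) :=
      IsPGroup.to_sup_of_normal_right' P.isPGroup' hAp hnorm
    have h2 := P.is_maximal' h1 le_sup_left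
    have h3 : A.1 ≤ (P : Subgroup G) ⊔ A.1 := le_sup_right
    rw [h2] at h3
    exact h3
  have hY : Nat.card Y ≡ 0 [MOD p] := by
    have h1 := P.isPGroup'.card_modEq_card_fixedPoints Y
    have h2 : Nat.card (MulAction.fixedPoints (P : Subgroup G) Y) = 0 := Nat.card_of_isEmpty
    rwa [h2] at h1
  have hsplit : Nat.card {A : Subgroup G // Nat.card A = p ^ s ∧ IsCyclic A} =
      Nat.card {A : Subgroup G // A ≤ P ∧ IsCyclic A ∧ Nat.card A = p ^ s} + Nat.card Y := by
    rw [← Nat.card_sum]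
    apply Nat.card_congr
    refine ⟨fun A => if h : A.1 ≤ P then Sum.inl ⟨A.1, h, A.2.2, A.2.1⟩
        else Sum.inr ⟨A.1, A.2.1, A.2.2, h⟩,
      fun x => match x with
        | Sum.inl B => ⟨B.1, B.2.2.2, B.2.2.1⟩
        | Sum.inr B => ⟨B.1, B.2.1, B.2.2.1⟩, ?_, ?_⟩
    · intro A
      by_cases h : A.1 ≤ P
      · simp [h]
      · simp [h]
    · rintro (B | B)
      · simp [B.2.1]
      · simp [B.2.2.2]
  rw [hsplit]
  have := Nat.ModEq.add_left (Nat.card {A : Subgroup G // A ≤ P ∧ IsCyclic A ∧ Nat.card A = p ^ s}) hY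
  simpa using this

private lemma cyclic_sylow_one {p s : ℕ} [hpf : Fact p.Prime] (P : Sylow p G)
    (hcyc : IsCyclic (P : Subgroup G)) (hd : p ^ s ∣ Nat.card G) :
    Nat.card {A : Subgroup G // A ≤ P ∧ IsCyclic A ∧ Nat.card A = p ^ s} = 1 := by
  have hp : p.Prime := hpf.out
  have h1 : Nat.card {A : Subgroup G // A ≤ P ∧ IsCyclic A ∧ Nat.card A = p ^ s} =
      Nat.card {Q : Subgroup G // Nat.card Q = p ^ s ∧ Q ≤ (P : Subgroup G)} := by
    apply Nat.card_congr
    refine ⟨fun A => ⟨A.1, A.2.2.2, A.2.1⟩, fun Q => ⟨Q.1, Q.2.2, ?_, Q.2.1⟩, fun A => rfl, fun Q => rfl⟩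
    haveI := hcyc
    have h2 : IsCyclic (Q.1.subgroupOf (P : Subgroup G)) := inferInstance
    exact isCyclic_of_surjective (Subgroup.subgroupOfEquivOfLe Q.2.2).toMonoidHom
      (Subgroup.subgroupOfEquivOfLe Q.2.2).surjective
  rw [h1, card_below]
  haveI := hcyc
  exact card_subgroups_cyclic (Z := (P : Subgroup G)) (Sylow.pow_dvd_card_of_pow_dvd_card P hd)
    (Or.inr ⟨p, s, hp, rfl⟩)

private lemma lucas_xi {p W : ℕ} (hp : p.Prime) (hW : 0 < W) : (p * W - 1).choose (p - 1) ≡ 1 [MOD p] := by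
  haveI := Fact.mk hp
  have h1 := Choose.choose_modEq_choose_mod_mul_choose_div_nat (p := p) (n := p * W - 1) (k := p - 1)
  have hpos := hp.pos
  obtain ⟨W', rfl⟩ : ∃ W', W = W' + 1 := ⟨W - 1, by omega⟩
  have h2 : p * (W' + 1) - 1 = p * W' + (p - 1) := by
    rw [mul_add, mul_one]
    omega
  rw [h2] at h1 ⊢
  have h3 : (p * W' + (p - 1)) % p = p - 1 := by
    rw [Nat.mul_add_mod, Nat.mod_eq_of_lt (by omega)]
  have h4 : (p - 1) % p = p - 1 := Nat.mod_eq_of_lt (by omega)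
  have h5 : (p - 1) / p = 0 := Nat.div_eq_of_lt (by omega)
  rw [h3, h4, h5, Nat.choose_self, Nat.choose_zero_right, one_mul] at h1
  exact h1

private lemma two_case {s n : ℕ} (h : s ≡ 1 + 2 * n [MOD 2 ^ 2]) :
    s ≡ 1 [MOD 2 ^ 2] ∨ s ≡ 1 + 2 [MOD 2 ^ 2] := by
  have h' : s % 4 = (1 + 2 * n) % 4 := h
  have : s % 4 = 1 % 4 ∨ s % 4 = (1 + 2) % 4 := by omega
  exact this

private lemma key_arith {p C' s1 n E s0 Ξ R R' t u : ℕ} (hp : 0 < p)
    (hR : C' + (s1 + p * n + p ^ 2 * E) = s1 + s0 * Ξ + p ^ 2 * R)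
    (hR' : C' + 1 = 1 + 1 * Ξ + p ^ 2 * R') (ht : s0 = 1 + p * t) (hu : Ξ = 1 + p * u) :
    n + p * (R' + E) = t + p * (t * u + R) := by
  apply Nat.eq_of_mul_eq_mul_left hp
  subst ht hu
  zify at hR hR' ⊢
  linear_combination hR - hR'

set_option maxHeartbeats 1000000 in
/-- Let G be a finite group, p a prime and a a natural number such that p^(a+1) divides the order of G. Then the number of subgroups of G of order p^a is congruent to 1 or to 1 + p modulo p². -/
theorem result {G : Type*} [Group G] [Finite G] (p a : ℕ) (hp : p.Prime) (hdvd : p ^ (a + 1) ∣ Nat.card G) :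
    Nat.card {H : Subgroup G // Nat.card H = p ^ a} ≡ 1 [MOD p ^ 2] ∨
      Nat.card {H : Subgroup G // Nat.card H = p ^ a} ≡ 1 + p [MOD p ^ 2] := by
  classical
  haveI := Fact.mk hp
  obtain ⟨W, hW⟩ := hdvd
  have hWpos : 0 < W := by
    rcases Nat.eq_zero_or_pos W with h | h
    · rw [h, mul_zero] at hW
      exact absurd hW Nat.card_pos.ne'
    · exact h
  have hN0 : Nat.card G ≠ 0 := Nat.card_pos.ne'
  set N := Nat.card G with hN
  haveI : NeZero N := ⟨hN0⟩
  let Z := Multiplicative (ZMod N)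
  have hZ : Nat.card Z = N := by
    rw [Nat.card_eq_fintype_card, Fintype.card_multiplicative, ZMod.card]
  obtain ⟨R, hR⟩ := master (G := G) hp (hN ▸ hW)
  obtain ⟨R', hR'⟩ := master (G := Z) hp (hZ.trans hW)
  have hs1Z : Nat.card {K : Subgroup Z // Nat.card K = p ^ (a + 1)} = 1 :=
    card_subgroups_cyclic (Z := Z) (by rw [hZ, hW]; exact Dvd.intro _ rfl) (Or.inr ⟨p, a + 1, hp, rfl⟩)
  have hs0Z : Nat.card {K : Subgroup Z // Nat.card K = p ^ a} = 1 :=
    card_subgroups_cyclic (Z := Z) (by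
      rw [hZ, hW, pow_succ]; exact Dvd.intro _ (by rw [mul_assoc])) (Or.inr ⟨p, a, hp, rfl⟩)
  have hpairsZ : Nat.card {x : Subgroup Z × Subgroup Z // Nat.card x.1 = p ^ (a + 1) ∧
      Nat.card x.2 = p ^ a ∧ x.2 ≤ x.1} = 1 := by
    obtain ⟨hK1, ⟨K₀⟩⟩ := Nat.card_eq_one_iff_unique.1 hs1Z
    obtain ⟨hQ1, ⟨Q₀⟩⟩ := Nat.card_eq_one_iff_unique.1 hs0Z
    obtain ⟨K₁, hK₁, hle⟩ := Sylow.exists_subgroup_card_pow_prime_le p (G := Z) (n := a) (m := a + 1)
      (by rw [hZ, hW]; exact Dvd.intro _ rfl) Q₀.1 Q₀.2 (Nat.le_succ a)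
    have hK₁₀ : K₁ = K₀.1 := congrArg Subtype.val (hK1.elim ⟨K₁, hK₁⟩ K₀)
    rw [Nat.card_eq_one_iff_unique]
    refine ⟨⟨fun x y => ?_⟩, ⟨⟨(K₀.1, Q₀.1), K₀.2, Q₀.2, hK₁₀ ▸ hle⟩⟩⟩
    apply Subtype.ext
    apply Prod.ext
    · exact congrArg Subtype.val (hK1.elim ⟨x.1.1, x.2.1⟩ ⟨y.1.1, y.2.1⟩)
    · exact congrArg Subtype.val (hQ1.elim ⟨x.1.2, x.2.2.1⟩ ⟨y.1.2, y.2.2.1⟩)
  rw [hs1Z, hs0Z, hpairsZ, hZ] at hR'
  obtain ⟨E, hE⟩ := pairs_formula (G := G) (p := p) (a := a)
  set s1 := Nat.card {K : Subgroup G // Nat.card K = p ^ (a + 1)} with hs1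
  set s0 := Nat.card {K : Subgroup G // Nat.card K = p ^ a} with hs0
  set n := Nat.card {K : Subgroup G // Nat.card K = p ^ (a + 1) ∧ ¬ IsCyclic K} with hn
  set Ξ := (p * W - 1).choose (p - 1) with hΞ
  set C' := (N - 1).choose (p ^ (a + 1) - 1) with hC'
  rw [hE] at hR
  have hpos := hp.two_le
  have hs0mod : s0 ≡ 1 [MOD p] := card_subgroups_modEq hp (by
    rw [← hN, hW, pow_succ]; exact Dvd.intro _ (by rw [mul_assoc]))
  have hs1mod : s1 ≡ 1 [MOD p] := card_subgroups_modEq hp (by rw [← hN, hW]; exact Dvd.intro _ rfl)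
  have hΞmod : Ξ ≡ 1 [MOD p] := lucas_xi hp hWpos
  have hone : 1 % p = 1 := Nat.mod_eq_of_lt (by omega)
  obtain ⟨t, ht⟩ : ∃ t, s0 = 1 + p * t := by
    have h1 : s0 % p = 1 := by rw [hs0mod, hone]
    exact ⟨s0 / p, by have := Nat.div_add_mod s0 p; omega⟩
  obtain ⟨u, hu⟩ : ∃ u, Ξ = 1 + p * u := by
    have h1 : Ξ % p = 1 := by rw [hΞmod, hone]
    exact ⟨Ξ / p, by have := Nat.div_add_mod Ξ p; omega⟩
  -- the key congruence
  have hkey : n + p * (R' + E) = t + p * (t * u + R) := by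
    exact key_arith hp.pos hR hR' ht hu
  have hnt : n ≡ t [MOD p] := by
    have h1 : n + p * (R' + E) ≡ n [MOD p] := by
      simp [Nat.ModEq]
    have h2 : t + p * (t * u + R) ≡ t [MOD p] := by
      simp [Nat.ModEq]
    rw [hkey] at h1
    exact h1.symm.trans h2
  have hmain : s0 ≡ 1 + p * n [MOD p ^ 2] := by
    rw [ht, pow_two]
    exact Nat.ModEq.add_left 1 (Nat.ModEq.mul_left' p hnt.symm)
  by_cases hp2 : p = 2
  · subst hp2
    exact two_case hmain
  by_cases ha : a = 0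
  · left
    subst ha
    have h1 : s0 = 1 := by
      rw [hs0, Nat.card_eq_one_iff_unique]
      refine ⟨⟨fun x y => ?_⟩, ⟨⟨⊥, by simp⟩⟩⟩
      apply Subtype.ext
      have hx : Nat.card x.1 = 1 := by simpa using x.2
      have hy : Nat.card y.1 = 1 := by simpa using y.2
      rw [Subgroup.eq_bot_of_card_eq _ hx, Subgroup.eq_bot_of_card_eq _ hy]
    rw [h1]
  obtain ⟨P⟩ : Nonempty (Sylow p G) := inferInstance
  have hs : 1 < a + 1 := by omega
  have hcP := cyclic_mod (G := G) (p := p) (s := a + 1) P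
  set c := Nat.card {A : Subgroup G // Nat.card A = p ^ (a + 1) ∧ IsCyclic A} with hc
  have hcn : c + n = s1 := by
    rw [hc, hn, hs1, ← Nat.card_sum]
    apply Nat.card_congr
    refine ⟨fun x => match x with
        | Sum.inl B => ⟨B.1, B.2.1⟩
        | Sum.inr B => ⟨B.1, B.2.1⟩,
      fun A => if h : IsCyclic A.1 then Sum.inl ⟨A.1, A.2, h⟩ else Sum.inr ⟨A.1, A.2, h⟩, ?_, ?_⟩
    · rintro (B | B)
      · simp [B.2.2]
      · simp [B.2.2]
    · intro A
      by_cases h : IsCyclic A.1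
      · simp [h]
      · simp [h]
  by_cases hPc : IsCyclic (P : Subgroup G)
  · left
    have h1 := cyclic_sylow_one (G := G) (p := p) (s := a + 1) P hPc (by
      rw [← hN, hW]; exact Dvd.intro _ rfl)
    rw [h1] at hcP
    have h2 : n ≡ 0 [MOD p] := by
      have h3 : c + n ≡ 1 + 0 [MOD p] := by rw [hcn, add_zero]; exact hs1mod
      exact Nat.ModEq.add_left_cancel hcP h3
    refine hmain.trans ?_
    have h3 := Nat.ModEq.add_left 1 (Nat.ModEq.mul_left' p h2)
    rw [pow_two]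
    simpa using h3
  · right
    have h1 := prime_dvd_card_cyclic (G := G) (p := p) (s := a + 1) hp2 P hPc hs
    have h0 : Nat.card {A : Subgroup G // A ≤ P ∧ IsCyclic A ∧ Nat.card A = p ^ (a + 1)} ≡ 0 [MOD p] :=
      (Nat.modEq_zero_iff_dvd).2 h1
    have hc0 := hcP.trans h0
    have h2 : n ≡ 1 [MOD p] := by
      have h3 : c + n ≡ 0 + 1 [MOD p] := by rw [hcn, zero_add]; exact hs1mod
      exact Nat.ModEq.add_left_cancel hc0 h3
    refine hmain.trans ?_
    have h3 := Nat.ModEq.add_left 1 (Nat.ModEq.mul_left' p h2)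
    rw [pow_two]
    simpa using h3

end Cfsg.Agent.S4237
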