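import Cfsg.Statements.S4238
import Cfsg.Agent.Lib.H20.SectionExp
import Cfsg.Agent.Lib.H05.PComp

set_option autoImplicit false
open Cfsg

namespace Cfsg.Agent.S4238

theorem pgroup_exists_order {K : Type*} [Group K] [Finite K] {p : ℕ} [Fact p.Prime]
    (hK : IsPGroup p K) : ∃ k : K, orderOf k = Monoid.exponent K := by
  classical
  have hp : p.Prime := Fact.out
  have hfin : (Set.range (fun x : K => orderOf x)).Finite := Set.finite_range _
  obtain ⟨n, hn⟩ := hfin.exists_maximal (Set.range_nonempty _)
  obtain ⟨⟨k, rfl⟩, hmax⟩ := hn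
  refine ⟨k, ?_⟩
  obtain ⟨a, ha⟩ := (IsPGroup.iff_orderOf.1 hK) k
  apply Nat.dvd_antisymm (Monoid.order_dvd_exponent k)
  apply Monoid.exponent_dvd_of_forall_pow_eq_one
  intro x
  obtain ⟨b, hb⟩ := (IsPGroup.iff_orderOf.1 hK) x
  rw [ha]
  have hle : orderOf x ≤ orderOf k := by
    rcases le_total (orderOf x) (orderOf k) with h | h
    · exact h
    · exact hmax ⟨x, rfl⟩ h
  rw [ha, hb] at hle
  have hba : b ≤ a := (Nat.pow_le_pow_iff_right hp.one_lt).1 hle
  have : orderOf x ∣ p ^ a := by
    rw [hb]; exact pow_dvd_pow p hba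
  exact orderOf_dvd_iff_pow_eq_one.1 this

/-- Let G be a finite group and p a prime. Then G has a normal p-complement if and only if every section K = H/N of G (N a normal subgroup of a subgroup H) whose largest normal subgroup of order prime to p is trivial contains an element whose order equals the exponent of K. -/
theorem result {G : Type*} [Group G] [Finite G] (p : ℕ) [Fact p.Prime] :
    Cfsg.HasNormalPComplement p G ↔
      ∀ (H : Subgroup G) (N : Subgroup H) [N.Normal], Cfsg.pPrimeCore p (H ⧸ N) = ⊥ →
        ∃ k : H ⧸ N, orderOf k = Monoid.exponent (H ⧸ N) := by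
  classical
  have hp : p.Prime := Fact.out
  constructor
  · rintro ⟨P, R, hR, hc⟩ H N _ hcore
    have hRc : (Nat.card R).Coprime p := by
      rw [Nat.coprime_comm, Nat.Prime.coprime_iff_not_dvd hp]
      intro hd
      have hSyl := P.not_dvd_index
      have h1 : (P : Subgroup G).index = Nat.card R := hc.index_eq_card
      exact hSyl (h1 ▸ hd)
    -- the quotient of `G` by `R` is a `p`-group
    have hq : IsPGroup p (G ⧸ R) := by
      obtain ⟨j, hj⟩ := IsPGroup.iff_card.mp P.2
      apply IsPGroup.of_card (n := j)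
      rw [← hj]
      exact hc.symm.index_eq_card
    let π : H →* H ⧸ N := QuotientGroup.mk' N
    have hπs : Function.Surjective π := QuotientGroup.mk'_surjective N
    let Y : Subgroup (H ⧸ N) := (R.subgroupOf H).map π
    have hYn : Y.Normal := Subgroup.Normal.map inferInstance π hπs
    have hYc : (Nat.card Y).Coprime p := by
      have h1 : Nat.card Y ∣ Nat.card (R.subgroupOf H) :=
        Subgroup.card_map_dvd _ _ 
      have h2 : Nat.card (R.subgroupOf H) ∣ Nat.card R := by
        have : (R.subgroupOf H).map H.subtype ≤ R := by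
          rintro _ ⟨y, hy, rfl⟩
          exact hy
        have h3 := Subgroup.card_dvd_of_le this
        rwa [Subgroup.card_map_of_injective H.subtype_injective] at h3
      exact Nat.Coprime.coprime_dvd_left (h1.trans h2) hRc
    have hY1 : Y = ⊥ := by
      have := H05.le_pp hYn hYc
      rw [hcore] at this
      exact le_bot_iff.1 this
    apply pgroup_exists_order (p := p)
    intro x
    obtain ⟨h, rfl⟩ := hπs x
    obtain ⟨s, hs⟩ := hq (QuotientGroup.mk (h : G))
    refine ⟨s, ?_⟩
    have h1 : (h : G) ^ (p ^ s) ∈ R := by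
      have : ((QuotientGroup.mk ((h : G) ^ (p ^ s))) : G ⧸ R) = 1 := by
        rw [QuotientGroup.mk_pow]; exact hs
      exact (QuotientGroup.eq_one_iff _).1 this
    have h2 : π (h ^ (p ^ s)) ∈ Y := by
      refine ⟨h ^ (p ^ s), ?_, rfl⟩
      rw [SetLike.mem_coe, Subgroup.mem_subgroupOf]
      simpa using h1
    rw [hY1, Subgroup.mem_bot, map_pow] at h2
    exact h2
  · intro hS
    by_contra hcon
    have h1 : ¬ H13.FrobCond p G := fun hF => hcon (H13.hasNormalPComplement_of_frobCond hF)
    obtain ⟨Q, N₀, g, B⟩ := H20.exists_badPair h1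
    obtain ⟨H, N, hN, hcore, hno⟩ := H20.section_of_badPair B
    obtain ⟨k, hk⟩ := hS H N hcore
    exact hno k hk

end Cfsg.Agent.S4238
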