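import Cfsg.Statements.S4242
import Cfsg.Agent.Lib.H13.FrobFusion
import Cfsg.Agent.Lib.H08.NilCoprime
import Cfsg.Agent.Lib.H01.Coprime3
import Cfsg.Agent.Lib.H01.Fitting
import Cfsg.Agent.Lib.H18.Syl

set_option autoImplicit false
set_option linter.unusedVariables false
set_option linter.style.haveILetI false
open Cfsg

namespace Cfsg.Agent.S4242

variable {G : Type*} [Group G] [Finite G]

theorem nil_of_le {X M : Subgroup G} (h : X ≤ M) (hM : Group.IsNilpotent M) : Group.IsNilpotent X :=
  Group.nilpotent_of_mulEquiv (Subgroup.subgroupOfEquivOfLe h)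

theorem card_sup_le {A B : Subgroup G} (h : A ≤ Subgroup.normalizer (B : Set G)) :
    Nat.card (A ⊔ B : Subgroup G) ≤ Nat.card A * Nat.card B := by
  have hc := Subgroup.coe_mul_of_left_le_normalizer_right A B h
  let f : A × B → (A ⊔ B : Subgroup G) := fun x =>
    ⟨x.1 * x.2, Subgroup.mul_mem _ (Subgroup.mem_sup_left x.1.2) (Subgroup.mem_sup_right x.2.2)⟩
  have hf : Function.Surjective f := by
    rintro ⟨y, hy⟩
    have h2 : y ∈ ((A ⊔ B : Subgroup G) : Set G) := hy
    rw [hc] at h2
    obtain ⟨a, ha, b, hb, rfl⟩ := Set.mem_mul.1 h2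
    exact ⟨(⟨a, ha⟩, ⟨b, hb⟩), rfl⟩
  calc _ ≤ Nat.card (A × B) := Nat.card_le_card_of_surjective f hf
    _ = _ := Nat.card_prod _ _

theorem nil_sup {A B : Subgroup G} (hA : Group.IsNilpotent A) (hB : Group.IsNilpotent B)
    (hc : ∀ a ∈ A, ∀ b ∈ B, a * b = b * a) : Group.IsNilpotent (A ⊔ B : Subgroup G) := by
  let φ : A × B →* G := A.subtype.noncommCoprod B.subtype (fun a b => hc a a.2 b b.2)
  have hr : φ.range = A ⊔ B := by
    have := MonoidHom.noncommCoprod_range (f := A.subtype) (g := B.subtype) (fun a b => hc a a.2 b b.2)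
    simpa [φ] using this
  have hs : Function.Surjective (φ.rangeRestrict) := φ.rangeRestrict_surjective
  have h1 : Group.IsNilpotent φ.range := Group.nilpotent_of_surjective _ hs
  rw [hr] at h1
  exact h1

theorem commute_of_coprime_in {X : Subgroup G} (hX : Group.IsNilpotent X) {a b : G} (ha : a ∈ X) (hb : b ∈ X)
    (hab : (orderOf a).Coprime (orderOf b)) : a * b = b * a := by
  have h1 := @Cfsg.Agent.H08.nilpotent_coprime_commute X _ _ hX ⟨a, ha⟩ ⟨b, hb⟩
    (by simpa [Subgroup.orderOf_mk] using hab)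
  exact congrArg Subtype.val h1

theorem prime_dvd_card_of_ne_bot {p : ℕ} (hp : p.Prime) {V : Subgroup G} (hV : IsPGroup p V) (hne : V ≠ ⊥) :
    p ∣ Nat.card V := by
  haveI : Fact p.Prime := ⟨hp⟩
  obtain ⟨k, hk⟩ := IsPGroup.iff_card.1 hV
  rcases Nat.eq_zero_or_pos k with rfl | hk0
  · exact absurd ((Subgroup.card_eq_one).1 (by simpa using hk)) hne
  · rw [hk]; exact dvd_pow_self p hk0.ne'

theorem forward {p : ℕ} (hp : p.Prime) (hpG : p ∣ Nat.card G)
    (h : ∀ M : Subgroup G, IsCoatom M → p ∣ Nat.card M → Group.IsNilpotent M)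
    (hnil : ¬ Group.IsNilpotent G) (hmin : ¬ Cfsg.IsMinimalNonNilpotent G) :
    ∃ Z K : Subgroup G, Z.Normal ∧ K.Normal ∧ Z ⊓ K = ⊥ ∧ Z ⊔ K = ⊤ ∧ Nat.card Z = p ∧
          Cfsg.IsMinimalNonNilpotent K ∧ ¬ p ∣ Nat.card K := by
  haveI : Fact p.Prime := ⟨hp⟩
  have hstar : ∀ X : Subgroup G, X ≠ ⊤ → p ∣ Nat.card X → Group.IsNilpotent X := by
    intro X hX hpX
    rcases eq_top_or_exists_le_coatom X with e | ⟨M, hM, hXM⟩
    · exact absurd e hX
    · exact nil_of_le hXM (h M hM (hpX.trans (Subgroup.card_dvd_of_le hXM)))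
  obtain ⟨M₀, hM₀, hM₀nn⟩ : ∃ M : Subgroup G, IsCoatom M ∧ ¬ Group.IsNilpotent M := by
    have h1 : ∃ H : Subgroup G, H ≠ ⊤ ∧ ¬ Group.IsNilpotent H := by
      by_contra hcon
      push Not at hcon
      exact hmin ⟨hnil, hcon⟩
    obtain ⟨H, hH, hHn⟩ := h1
    rcases eq_top_or_exists_le_coatom H with e | ⟨M, hM, hXM⟩
    · exact absurd e hH
    · exact ⟨M, hM, fun hn => hHn (nil_of_le hXM hn)⟩
  have hpM₀ : ¬ p ∣ Nat.card M₀ := fun hd => hM₀nn (h M₀ hM₀ hd)
  have hcopM : ∀ x ∈ M₀, (orderOf x).Coprime p := by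
    intro x hx
    have h1 : orderOf x ∣ Nat.card M₀ := by
      have := orderOf_dvd_natCard (⟨x, hx⟩ : M₀)
      simpa [Subgroup.orderOf_mk] using this
    exact ((Nat.Prime.coprime_iff_not_dvd hp).2 (fun hd => hpM₀ hd)).symm.coprime_dvd_left h1 |>.symm.symm
  -- normal p-subgroup
  have hA : ∃ V : Subgroup G, V.Normal ∧ IsPGroup p V ∧ V ≠ ⊥ := by
    by_contra hno
    push Not at hno
    have hF : Cfsg.Agent.H13.FrobCond p G := by
      intro Q hQ g hg hgc
      by_cases hQb : Q = ⊥
      · subst hQb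
        rw [Subgroup.mem_centralizer_iff]
        intro q hq
        have : q = 1 := by simpa using hq
        simp [this]
      have hNtop : Subgroup.normalizer (Q : Set G) ≠ ⊤ := fun e =>
        hQb (hno Q (Subgroup.normalizer_eq_top_iff.1 e) hQ)
      have hpN : p ∣ Nat.card (Subgroup.normalizer (Q : Set G)) :=
        (prime_dvd_card_of_ne_bot hp hQ hQb).trans (Subgroup.card_dvd_of_le Subgroup.le_normalizer)
      have hN := hstar _ hNtop hpN
      rw [Subgroup.mem_centralizer_iff]
      intro q hq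
      have hqord : ∃ k, orderOf q = p ^ k := by
        obtain ⟨k, hk⟩ := hQ ⟨q, hq⟩
        have hk' : q ^ p ^ k = 1 := by simpa using congrArg Subtype.val hk
        obtain ⟨j, _, hj⟩ := (Nat.dvd_prime_pow hp).1 (orderOf_dvd_of_pow_eq_one hk')
        exact ⟨j, hj⟩
      obtain ⟨k, hk⟩ := hqord
      have hco : (orderOf q).Coprime (orderOf g) := by
        rw [hk]; exact (hgc.symm.pow_left k)
      exact commute_of_coprime_in hN (Subgroup.le_normalizer hq) hg hco
    obtain ⟨P, R, hRn, hRP⟩ := Cfsg.Agent.H13.hasNormalPComplement_of_frobCond hF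
    have hcard : Nat.card R * Nat.card P = Nat.card G := hRP.card_mul_card
    obtain ⟨k, hk⟩ := IsPGroup.iff_card.1 P.isPGroup'
    have hPne : (P : Subgroup G) ≠ ⊥ := by
      intro e
      have h1 : Nat.card (P : Subgroup G) = 1 := by rw [e]; simp
      rw [h1, mul_one] at hcard
      have h2 : R = ⊤ := Subgroup.eq_top_of_card_eq R hcard
      have h3 : IsCoatom M₀ := hM₀
      have : ¬ p ∣ Nat.card G := by
        intro hd
        have h4 := (Sylow.card_eq_multiplicity P)
        rw [h1] at h4
        have : (Nat.card G).factorization p ≥ 1 :=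
          (hp.dvd_iff_one_le_factorization (Nat.card_pos.ne')).1 hd
        have h5 := Nat.pos_of_ne_zero (Nat.factorization_eq_zero_iff _ _ |>.not.2 (by
          push Not; exact ⟨hp, hd, Nat.card_pos.ne'⟩))
        have h6 : 1 = p ^ (Nat.card G).factorization p := h4
        have : 1 < p ^ (Nat.card G).factorization p := Nat.one_lt_pow (by omega) hp.one_lt
        omega
      exact this hpG
    have hk0 : k ≠ 0 := by
      rintro rfl
      exact hPne (Subgroup.card_eq_one.1 (by simpa using hk))
    have hindex : R.index = p ^ k := by rw [hRP.symm.index_eq_card, hk]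
    have hM₀R : M₀ ≤ R := by
      intro x hx
      have hcx := hcopM x hx
      obtain ⟨m, hm⟩ := exists_pow_eq_self_of_coprime (n := p ^ k) (x := x) (by
        rw [Nat.coprime_comm]; exact Nat.Coprime.pow_left k hcx.symm |>.symm.symm |>.symm)
      have h1 : x ^ p ^ k ∈ R := by
        rw [← hindex]; exact Subgroup.pow_index_mem R x
      rw [← hm]
      exact Subgroup.pow_mem _ h1 m
    have hRtop : R ≠ ⊤ := by
      rintro rfl
      have h1 : Nat.card (⊤ : Subgroup G) = Nat.card G := Subgroup.card_top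
      rw [h1] at hcard
      have h2 : Nat.card (P : Subgroup G) = 1 := by
        have h3 : 0 < Nat.card G := Nat.card_pos
        nlinarith
      exact hPne (Subgroup.card_eq_one.1 h2)
    have hMR : M₀ = R := by
      by_contra hne
      exact hRtop (hM₀.2 R (lt_of_le_of_ne hM₀R hne))
    subst hMR
    have hPN : (P : Subgroup G) ≤ Subgroup.normalizer (M₀ : Set G) := by
      rw [Subgroup.normalizer_eq_top_iff.2 hRn]; exact le_top
    have hcopPR : (Nat.card (P : Subgroup G)).Coprime (Nat.card M₀) := by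
      rw [hk]; exact Nat.Coprime.pow_left k ((Nat.Prime.coprime_iff_not_dvd hp).2 hpM₀)
    have hsolP : Group.IsSolvable (P : Subgroup G) := by
      haveI := P.isPGroup'.isNilpotent
      infer_instance
    have hkey : ∀ (r : ℕ) [Fact r.Prime], ∃ S : Sylow r M₀,
        ∀ x ∈ (P : Subgroup G), ∀ y ∈ (S : Subgroup M₀), x * (y : G) = y * x := by
      intro r _
      obtain ⟨S, hS⟩ := Cfsg.Agent.H01.exists_invariant_sylow (A := (P : Subgroup G)) (K := M₀) hPN hcopPR
        (Or.inl hsolP) r
      refine ⟨S, ?_⟩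
      set S' : Subgroup G := (S : Subgroup M₀).map M₀.subtype with hS'
      have hS'le : S' ≤ M₀ := by
        rintro _ ⟨y, _, rfl⟩; exact y.2
      have hS'card : Nat.card S' = Nat.card (S : Subgroup M₀) :=
        Nat.card_congr (Subgroup.equivMapOfInjective _ _ M₀.subtype_injective).toEquiv.symm
      have hS'lt : Nat.card S' < Nat.card M₀ := by
        rw [hS'card]
        have hne : (S : Subgroup M₀) ≠ ⊤ := by
          intro e
          have h1 : IsPGroup r (S : Subgroup M₀) := S.isPGroup'
          rw [e] at h1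
          have h2 : IsPGroup r M₀ := (IsPGroup.to_le (H := ⊤) h1 |> fun _ => by
            intro g
            obtain ⟨k, hk⟩ := h1 ⟨g, Subgroup.mem_top g⟩
            exact ⟨k, by simpa using congrArg Subtype.val hk⟩)
          exact hM₀nn h2.isNilpotent
        have h3 : Nat.card (S : Subgroup M₀) ≠ Nat.card M₀ := fun e => hne (Subgroup.eq_top_of_card_eq _ e)
        exact lt_of_le_of_ne (Subgroup.card_le_card_group _) h3
      have hcd : Nat.card ((P : Subgroup G) ⊔ S' : Subgroup G) ≤ Nat.card (P : Subgroup G) * Nat.card S' :=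
        card_sup_le hS
      have hPpos : 0 < Nat.card (P : Subgroup G) := Nat.card_pos
      have hlt : Nat.card ((P : Subgroup G) ⊔ S' : Subgroup G) < Nat.card G := by
        calc _ ≤ _ := hcd
          _ < Nat.card (P : Subgroup G) * Nat.card M₀ := Nat.mul_lt_mul_of_pos_left hS'lt hPpos
          _ = Nat.card G := by rw [mul_comm]; exact hcard
      have hne : ((P : Subgroup G) ⊔ S') ≠ ⊤ := by
        intro e
        rw [e, Subgroup.card_top] at hlt
        exact lt_irrefl _ hlt
      have hpd : p ∣ Nat.card ((P : Subgroup G) ⊔ S' : Subgroup G) :=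
        (prime_dvd_card_of_ne_bot hp P.isPGroup' hPne).trans (Subgroup.card_dvd_of_le le_sup_left)
      have hN := hstar _ hne hpd
      intro x hx y hy
      have hyS : (y : G) ∈ S' := ⟨y, hy, rfl⟩
      refine commute_of_coprime_in hN (Subgroup.mem_sup_left hx) (Subgroup.mem_sup_right hyS) ?_
      have h1 : orderOf (y : G) ∣ Nat.card M₀ := by
        have := orderOf_dvd_natCard y
        simpa [Subgroup.orderOf_coe] using this
      have h2 : orderOf x ∣ Nat.card (P : Subgroup G) := by
        have := orderOf_dvd_natCard (⟨x, hx⟩ : (P : Subgroup G))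
        simpa [Subgroup.orderOf_mk] using this
      exact Nat.Coprime.coprime_dvd_left h2 (Nat.Coprime.coprime_dvd_right h1 hcopPR)
    have hcen : ∀ x ∈ (P : Subgroup G), ∀ y ∈ M₀, x * y = y * x := by
      intro x hx y hy
      let C : Subgroup M₀ := (Subgroup.centralizer ({x} : Set G)).subgroupOf M₀
      have hC : C = ⊤ := by
        apply Cfsg.Agent.H01.eq_top_of_forall_sylow_le
        intro r hr
        obtain ⟨S, hS⟩ := hkey r
        refine ⟨S, ?_⟩
        intro z hz
        rw [Subgroup.mem_subgroupOf, Subgroup.mem_centralizer_singleton_iff]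
        exact (hS x hx z hz).symm
      have hyC : (⟨y, hy⟩ : M₀) ∈ C := by rw [hC]; exact Subgroup.mem_top _
      rw [Subgroup.mem_subgroupOf, Subgroup.mem_centralizer_singleton_iff] at hyC
      exact hyC.symm
    -- P normal
    have hPnormal : (P : Subgroup G).Normal := by
      have h1 : M₀ ⊔ (P : Subgroup G) = ⊤ := by
        have h2 := hRP.sup_eq_top
        exact h2
      apply Subgroup.normalizer_eq_top_iff.1
      rw [eq_top_iff, ← h1]
      apply sup_le _ Subgroup.le_normalizer
      intro y hy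
      rw [Subgroup.mem_normalizer_iff]
      intro u
      constructor
      · intro hu
        have h3 : y * u * y⁻¹ = u := by rw [← hcen u hu y hy]; group
        rw [h3]; exact hu
      · intro hu
        have h3 : y * u * y⁻¹ * y = y * u := by group
        have h4 := hcen _ hu y hy
        have h5 : u = y * u * y⁻¹ := by
          have h6 : y⁻¹ * (y * u * y⁻¹) * y = u := by group
          have h7 : y * u * y⁻¹ * y⁻¹⁻¹ * y⁻¹ = y * u * y⁻¹ := by group
          have h8 := hcen _ hu y⁻¹ (inv_mem hy)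
          calc u = y⁻¹ * (y * u * y⁻¹) * y⁻¹⁻¹ := by group
            _ = (y * u * y⁻¹) * y⁻¹ * y⁻¹⁻¹ := by rw [← h8]
            _ = _ := by group
        rw [h5]; exact hu
    exact hPne (hno _ hPnormal P.isPGroup')
  obtain ⟨V, hVn, hVp, hVne⟩ := hA
  have hpV : p ∣ Nat.card V := prime_dvd_card_of_ne_bot hp hVp hVne
  have hVM : ¬ V ≤ M₀ := fun hle => hpM₀ (hpV.trans (Subgroup.card_dvd_of_le hle))
  have hsup : M₀ ⊔ V = ⊤ := by
    apply hM₀.2
    exact lt_of_le_of_ne le_sup_left (fun e => hVM (e ▸ le_sup_right))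
  obtain ⟨k, hk⟩ := IsPGroup.iff_card.1 hVp
  have hcopVM : (Nat.card V).Coprime (Nat.card M₀) := by
    rw [hk]; exact Nat.Coprime.pow_left k ((Nat.Prime.coprime_iff_not_dvd hp).2 hpM₀)
  have hinf : V ⊓ M₀ = ⊥ := disjoint_iff.1 (Subgroup.disjoint_of_coprime_natCard hcopVM)
  have hcard : Nat.card G = Nat.card M₀ * Nat.card V := by
    have h1 := Cfsg.Agent.H18.card_sup_mul_card_inf M₀ V
    rw [hsup, inf_comm, hinf, Subgroup.card_top, Subgroup.card_bot, mul_one] at h1
    exact h1
  have hVpos : 0 < Nat.card V := Nat.card_pos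
  have hMpos : 0 < Nat.card M₀ := Nat.card_pos
  -- proper subgroups of M₀
  have hsmall : ∀ L : Subgroup G, L ≤ M₀ → L ≠ M₀ → Group.IsNilpotent (L ⊔ V : Subgroup G) := by
    intro L hL hne
    have hLV : L ≤ Subgroup.normalizer (V : Set G) := by
      rw [Subgroup.normalizer_eq_top_iff.2 hVn]; exact le_top
    have h1 := card_sup_le hLV
    have h2 : Nat.card L < Nat.card M₀ :=
      lt_of_le_of_ne (Nat.le_of_dvd hMpos (Subgroup.card_dvd_of_le hL))
        (fun e => hne (Subgroup.eq_of_le_of_card_ge hL (le_of_eq e.symm)))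
    have h3 : Nat.card (L ⊔ V : Subgroup G) < Nat.card G := by
      rw [hcard]
      exact lt_of_le_of_lt h1 (Nat.mul_lt_mul_of_pos_right h2 hVpos)
    apply hstar
    · intro e
      rw [e, Subgroup.card_top] at h3
      exact lt_irrefl _ h3
    · exact hpV.trans (Subgroup.card_dvd_of_le le_sup_right)
  have hcen : ∀ x ∈ M₀, ∀ v ∈ V, x * v = v * x := by
    intro x hx v hv
    have hne : Subgroup.zpowers x ≠ M₀ := by
      intro e
      apply hM₀nn
      have : IsCyclic M₀ := by
        refine ⟨⟨⟨x, hx⟩, ?_⟩⟩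
        rintro ⟨y, hy⟩
        rw [← e] at hy
        obtain ⟨n, rfl⟩ := Subgroup.mem_zpowers_iff.1 hy
        exact ⟨n, by ext; simp⟩
      letI := IsCyclic.commGroup (α := M₀)
      exact CommGroup.isNilpotent
    have hN := hsmall _ (by
      rw [Subgroup.zpowers_le]; exact hx) hne
    refine commute_of_coprime_in hN (Subgroup.mem_sup_left (Subgroup.mem_zpowers x)) (Subgroup.mem_sup_right hv) ?_
    have h2 : orderOf v ∣ Nat.card V := by
      have := orderOf_dvd_natCard (⟨v, hv⟩ : V)
      simpa [Subgroup.orderOf_mk] using this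
    have h1 : orderOf x ∣ Nat.card M₀ := by
      have := orderOf_dvd_natCard (⟨x, hx⟩ : M₀)
      simpa [Subgroup.orderOf_mk] using this
    exact Nat.Coprime.coprime_dvd_left h1 (Nat.Coprime.coprime_dvd_right h2 hcopVM.symm)
  have hcardV : Nat.card V = p := by
    by_contra hne
    obtain ⟨y, hy⟩ := exists_prime_orderOf_dvd_card' (G := V) p hpV
    have hyo : orderOf (y : G) = p := by rw [Subgroup.orderOf_coe]; exact hy
    have hW : Nat.card (Subgroup.zpowers (y : G)) = p := by rw [Nat.card_zpowers, hyo]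
    have hMW : M₀ ≤ Subgroup.normalizer (Subgroup.zpowers (y : G) : Set G) := by
      intro x hx
      apply Subgroup.mem_normalizer_iff.2
      intro u
      have hcu : ∀ n : ℤ, x * (y : G) ^ n * x⁻¹ = (y : G) ^ n := by
        intro n
        have hc : Commute x ((y : G) ^ n) := Commute.zpow_right (hcen x hx y y.2) n
        rw [hc.eq]; group
      constructor
      · rintro ⟨n, rfl⟩
        exact ⟨n, by simp only [hcu]⟩
      · rintro ⟨n, hn⟩
        refine ⟨n, ?_⟩
        have h1 := hcu n
        simp only at hn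
        rw [← h1] at hn
        simpa using hn
    have h1 := card_sup_le hMW
    rw [hW] at h1
    have hp2 : p < Nat.card V := by
      exact lt_of_le_of_ne (Nat.le_of_dvd hVpos hpV) (Ne.symm hne)
    have h3 : Nat.card (M₀ ⊔ Subgroup.zpowers (y : G) : Subgroup G) < Nat.card G := by
      rw [hcard]
      exact lt_of_le_of_lt h1 (Nat.mul_lt_mul_of_pos_left hp2 hMpos)
    have h4 : M₀ ⊔ Subgroup.zpowers (y : G) ≠ ⊤ := by
      intro e
      rw [e, Subgroup.card_top] at h3
      exact lt_irrefl _ h3
    have h5 : p ∣ Nat.card (M₀ ⊔ Subgroup.zpowers (y : G) : Subgroup G) := by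
      rw [← hW]; exact Subgroup.card_dvd_of_le le_sup_right
    exact hM₀nn (nil_of_le le_sup_left (hstar _ h4 h5))
  refine ⟨V, M₀, hVn, ?_, hinf, by rw [sup_comm]; exact hsup, hcardV, ⟨hM₀nn, ?_⟩, hpM₀⟩
  · apply Subgroup.normalizer_eq_top_iff.1
    rw [eq_top_iff, ← hsup]
    apply sup_le Subgroup.le_normalizer
    intro v hv
    apply Subgroup.mem_normalizer_iff.2
    intro u
    constructor
    · intro hu
      have h3 : v * u * v⁻¹ = u := by rw [← hcen u hu v hv]; group
      rw [h3]; exact hu
    · intro hu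
      have h8 := hcen _ hu v⁻¹ (inv_mem hv)
      have h5 : u = v * u * v⁻¹ := by
        calc u = v⁻¹ * (v * u * v⁻¹) * v := by group
          _ = (v * u * v⁻¹) * v⁻¹ * v := by rw [← h8]
          _ = _ := by group
      rw [h5]; exact hu
  · intro H hH
    let L : Subgroup G := H.map M₀.subtype
    have hL : L ≤ M₀ := by rintro _ ⟨y, _, rfl⟩; exact y.2
    have hLne : L ≠ M₀ := by
      intro e
      apply hH
      rw [eq_top_iff]
      intro y _
      have hy : (y : G) ∈ L := by rw [e]; exact y.2
      obtain ⟨z, hz, hzy⟩ := hy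
      have : z = y := Subtype.ext hzy
      rwa [← this]
    have h1 : Group.IsNilpotent L := nil_of_le le_sup_left (hsmall L hL hLne)
    exact Group.nilpotent_of_mulEquiv (Subgroup.equivMapOfInjective H M₀.subtype M₀.subtype_injective).symm

theorem result {G : Type*} [Group G] [Finite G] (p : ℕ) (hp : p.Prime) (hpG : p ∣ Nat.card G) :
    (∀ M : Subgroup G, IsCoatom M → p ∣ Nat.card M → Group.IsNilpotent M) ↔
      (Group.IsNilpotent G ∨ Cfsg.IsMinimalNonNilpotent G ∨
        ∃ Z K : Subgroup G, Z.Normal ∧ K.Normal ∧ Z ⊓ K = ⊥ ∧ Z ⊔ K = ⊤ ∧ Nat.card Z = p ∧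
          Cfsg.IsMinimalNonNilpotent K ∧ ¬ p ∣ Nat.card K) := by
  constructor
  · intro h
    by_cases h1 : Group.IsNilpotent G
    · exact Or.inl h1
    by_cases h2 : Cfsg.IsMinimalNonNilpotent G
    · exact Or.inr (Or.inl h2)
    exact Or.inr (Or.inr (forward hp hpG h h1 h2))
  · rintro (h1 | h2 | ⟨Z, K, hZ, hK, hinf, hsup, hcZ, hKmin, hpK⟩) M hM hpM
    · infer_instance
    · exact h2.2 M hM.1
    · haveI : Fact p.Prime := ⟨hp⟩
      have hcG : Nat.card G = Nat.card K * Nat.card Z := by
        have h1 := Cfsg.Agent.H18.card_sup_mul_card_inf K Z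
        rw [sup_comm, hsup, inf_comm, hinf, Subgroup.card_top, Subgroup.card_bot, mul_one] at h1
        exact h1
      have hZM : Z ≤ M := by
        by_contra hne
        have hsupM : M ⊔ Z = ⊤ := hM.2 _ (lt_of_le_of_ne le_sup_left (fun e => hne (e ▸ le_sup_right)))
        have hinfM : M ⊓ Z = ⊥ := by
          have hd : Nat.card (M ⊓ Z : Subgroup G) ∣ p := by
            rw [← hcZ]; exact Subgroup.card_dvd_of_le inf_le_right
          rcases (Nat.dvd_prime hp).1 hd with h1 | h1
          · exact Subgroup.card_eq_one.1 h1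
          · exfalso
            apply hne
            have : M ⊓ Z = Z := Subgroup.eq_of_le_of_card_ge inf_le_right (by rw [h1, hcZ])
            exact inf_eq_right.1 this
        have h1 := Cfsg.Agent.H18.card_sup_mul_card_inf M Z
        rw [hsupM, hinfM, Subgroup.card_top, Subgroup.card_bot, mul_one, hcG] at h1
        have h2 : Nat.card K = Nat.card M :=
          Nat.eq_of_mul_eq_mul_right (by rw [hcZ]; exact hp.pos) h1
        exact hpK (h2 ▸ hpM)
      let L : Subgroup G := M ⊓ K
      have hM_eq : Z ⊔ L = M := by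
        apply le_antisymm (sup_le hZM inf_le_left)
        intro m hm
        have hm' : m ∈ ((Z ⊔ K : Subgroup G) : Set G) := by rw [hsup]; trivial
        rw [Subgroup.normal_mul] at hm'
        obtain ⟨z, hz, k, hk, rfl⟩ := Set.mem_mul.1 hm'
        have hkM : k ∈ M := by
          have : k = z⁻¹ * (z * k) := by group
          rw [this]
          exact M.mul_mem (M.inv_mem (hZM hz)) hm
        exact Subgroup.mul_mem _ (Subgroup.mem_sup_left hz) (Subgroup.mem_sup_right ⟨hkM, hk⟩)
      have hKM : ¬ K ≤ M := by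
        intro hle
        apply hM.1
        rw [eq_top_iff, ← hsup]
        exact sup_le hZM hle
      have hLnil : Group.IsNilpotent L := by
        have h1 : L.subgroupOf K ≠ ⊤ := by
          intro e
          apply hKM
          intro k hk
          have : (⟨k, hk⟩ : K) ∈ L.subgroupOf K := by rw [e]; trivial
          exact (Subgroup.mem_subgroupOf.1 this).1
        have h2 := hKmin.2 _ h1
        exact Group.nilpotent_of_mulEquiv (Subgroup.subgroupOfEquivOfLe (inf_le_right : L ≤ K))
      have hZnil : Group.IsNilpotent Z := (IsPGroup.of_card (n := 1) (by rw [hcZ, pow_one])).isNilpotent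
      have h3 : Group.IsNilpotent (Z ⊔ L : Subgroup G) := nil_sup hZnil hLnil (by
        intro a ha b hb
        have hdis : Disjoint Z K := disjoint_iff.2 hinf
        exact (Subgroup.commute_of_normal_of_disjoint Z K hZ hK hdis a b ha hb.2))
      rw [hM_eq] at h3
      exact h3

end Cfsg.Agent.S4242
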