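import Cfsg.Statements.S4263
import Cfsg.Agent.Lib.H01.Fitting

set_option autoImplicit false
open Cfsg

namespace Cfsg.Agent.S4263

theorem pow_index_mem_nil {N : Type*} [Group N] [Finite N] [hN : Group.IsNilpotent N] (n : ℕ) :
    ∀ (D : Subgroup N), D.index = n → ∀ y : N, y ^ D.index ∈ D := by
  induction n using Nat.strong_induction_on with
  | _ n ih =>
    intro D hD y
    by_cases htop : D = ⊤
    · simp [htop]
    have hlt : D < Subgroup.normalizer (D : Set N) :=
      (Group.normalizerCondition_of_isNilpotent (G := N)) D (lt_top_iff_ne_top.mpr htop)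
    set E := Subgroup.normalizer (D : Set N) with hE
    have hmul : E.index * D.relIndex E = D.index := by
      rw [mul_comm]
      exact Subgroup.relIndex_mul_index hlt.le
    have hipos : D.index ≠ 0 := Subgroup.index_ne_zero_of_finite
    have hrel : 1 < D.relIndex E := by
      have h0 : D.relIndex E ≠ 0 := by
        intro h; rw [h, mul_zero] at hmul; exact hipos hmul.symm
      have h1 : D.relIndex E ≠ 1 := by
        intro h
        rw [Subgroup.relIndex_eq_one] at h
        exact hlt.not_ge h
      omega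
    have hElt : E.index < n := by
      rw [← hD, ← hmul]
      have : 0 < E.index := Nat.pos_of_ne_zero Subgroup.index_ne_zero_of_finite
      nlinarith
    have h1 : y ^ E.index ∈ E := ih _ hElt E rfl y
    have hnorm : (D.subgroupOf E).Normal := Subgroup.normal_subgroupOf_of_le_normalizer le_rfl
    have h2 := Subgroup.pow_index_mem (D.subgroupOf E) (⟨y ^ E.index, h1⟩ : E)
    rw [Subgroup.mem_subgroupOf] at h2
    have h3 : (y ^ E.index) ^ (D.relIndex E) ∈ D := by
      simpa [Subgroup.relIndex] using h2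
    rw [← hmul, pow_mul]
    exact h3

theorem relIndex_dvd_of_right_normal {G : Type*} [Group G] [Finite G] (H F : Subgroup G)
    [F.Normal] : H.relIndex F ∣ H.index := by
  have h1 : (H ⊓ F).relIndex H = F.relIndex (H ⊔ F) := by
    rw [Subgroup.relIndex_sup_right, Subgroup.inf_relIndex_left]
  have hc1 : Nat.card (H ⊔ F : Subgroup G) = Nat.card F * F.relIndex (H ⊔ F) := by
    rw [← Subgroup.relIndex_bot_left, ← Subgroup.relIndex_bot_left,
      Subgroup.relIndex_mul_relIndex _ _ _ bot_le le_sup_right]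
  have hc2 : Nat.card (H ⊔ F : Subgroup G) = Nat.card H * H.relIndex (H ⊔ F) := by
    rw [← Subgroup.relIndex_bot_left, ← Subgroup.relIndex_bot_left,
      Subgroup.relIndex_mul_relIndex _ _ _ bot_le le_sup_left]
  have hc3 : Nat.card H = Nat.card (H ⊓ F : Subgroup G) * (H ⊓ F).relIndex H := by
    rw [← Subgroup.relIndex_bot_left, ← Subgroup.relIndex_bot_left,
      Subgroup.relIndex_mul_relIndex _ _ _ bot_le inf_le_left]
  have hc4 : Nat.card F = Nat.card (H ⊓ F : Subgroup G) * H.relIndex F := by
    rw [← Subgroup.inf_relIndex_right, ← Subgroup.relIndex_bot_left, ← Subgroup.relIndex_bot_left,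
      Subgroup.relIndex_mul_relIndex _ _ _ bot_le inf_le_right]
  have hr : (H ⊓ F).relIndex H ≠ 0 := by
    intro h0
    rw [h0, mul_zero] at hc3
    exact Nat.card_pos.ne' hc3
  have hx : H.relIndex (H ⊔ F) = H.relIndex F := by
    have hc : Nat.card (H ⊓ F : Subgroup G) ≠ 0 := Nat.card_pos.ne'
    have : Nat.card (H ⊓ F : Subgroup G) * (H ⊓ F).relIndex H * H.relIndex (H ⊔ F) =
        Nat.card (H ⊓ F : Subgroup G) * H.relIndex F * (H ⊓ F).relIndex H := by
      rw [← hc3, ← hc2, hc1, hc4, h1]
    have h3 : Nat.card (H ⊓ F : Subgroup G) * (H ⊓ F).relIndex H * H.relIndex (H ⊔ F) =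
      Nat.card (H ⊓ F : Subgroup G) * (H ⊓ F).relIndex H * H.relIndex F := by
      rw [this]; ring
    exact Nat.eq_of_mul_eq_mul_left (Nat.mul_pos Nat.card_pos (Nat.pos_of_ne_zero hr)) h3
  rw [← hx]
  exact Subgroup.relIndex_dvd_index_of_le le_sup_left

theorem pow_rel (G : Type*) [Group G] [Finite G] (x : G) (hx : x ∈ fittingSubgroup G)
    (H : Subgroup G) : x ^ H.index ∈ H := by
  have hnil : Group.IsNilpotent (fittingSubgroup G) := H01.fitting_nilpotent
  have hn : (fittingSubgroup G).Normal := H01.fitting_normal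
  have h1 := pow_index_mem_nil _ (H.subgroupOf (fittingSubgroup G)) rfl
    (⟨x, hx⟩ : fittingSubgroup G)
  rw [Subgroup.mem_subgroupOf] at h1
  have h2 : x ^ (H.relIndex (fittingSubgroup G)) ∈ H := by
    simpa [Subgroup.relIndex] using h1
  have h3 : H.relIndex (fittingSubgroup G) ∣ H.index :=
    relIndex_dvd_of_right_normal H (fittingSubgroup G)
  obtain ⟨k, hk⟩ := h3
  rw [hk, pow_mul]
  exact H.pow_mem h2 k

theorem mem_of_forall (G : Type*) [Group G] [Finite G] (x : G)
    (h : ∀ H : Subgroup G, x ^ H.index ∈ H) : x ∈ fittingSubgroup G := by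
  -- work inside the cyclic subgroup generated by x
  let C : Subgroup G := Subgroup.zpowers x
  let K : Subgroup C := (fittingSubgroup G).comap C.subtype
  have hK : K = ⊤ := by
    apply H01.eq_top_of_forall_sylow_le
    intro p hp
    obtain ⟨P⟩ : Nonempty (Sylow p C) := inferInstance
    refine ⟨P, ?_⟩
    intro y hy
    show (y : G) ∈ fittingSubgroup G
    apply H01.pCore_le_fitting p
    rw [H01.pCore_eq_iInf_sylow, Subgroup.mem_iInf]
    intro Q
    -- y is a power of x
    obtain ⟨k, hk⟩ := Subgroup.mem_zpowers_iff.mp y.2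
    have hidx : Nat.Coprime Q.index p :=
      ((Fact.out : p.Prime).coprime_iff_not_dvd.mpr Q.not_dvd_index).symm
    -- y has p-power order
    have hyp : ∃ n : ℕ, (y : G) ^ (p ^ n) = 1 := by
      obtain ⟨n, hn⟩ := (P.isPGroup' ⟨y, hy⟩)
      refine ⟨n, ?_⟩
      have := congrArg (fun z : P => ((z : C) : G)) hn
      simpa using this
    obtain ⟨n, hn⟩ := hyp
    have h1 : (y : G) ^ (Q.index) ∈ (Q : Subgroup G) := by
      have := (Q : Subgroup G).zpow_mem (h Q) k
      rw [← hk, ← zpow_natCast, ← zpow_mul, mul_comm, zpow_mul, zpow_natCast]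
      exact this
    have hcop : Nat.Coprime Q.index (p ^ n) := hidx.pow_right n
    have := Nat.Coprime.symm hcop
    -- Bezout
    have hb := Nat.gcd_eq_gcd_ab Q.index (p ^ n)
    rw [hcop] at hb
    have h4 : (y : G) = ((y : G) ^ Q.index) ^ (Nat.gcdA Q.index (p ^ n)) := by
      have : (y : G) ^ ((Q.index : ℤ) * Nat.gcdA Q.index (p ^ n) + (p ^ n : ℕ) * Nat.gcdB Q.index (p ^ n)) = (y : G) := by
        rw [← hb]; simp
      rw [zpow_add, zpow_mul, zpow_mul, zpow_natCast, zpow_natCast, hn] at this
      simpa using this.symm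
    rw [h4]
    exact (Q : Subgroup G).zpow_mem h1 _
  have : (⟨x, Subgroup.mem_zpowers x⟩ : C) ∈ K := hK ▸ trivial
  exact this

/-- Let G be a finite group. An element x lies in the Fitting subgroup F(G) if and only if, for every subgroup H of G, the power x^[G : H] lies in H. -/
theorem result {G : Type*} [Group G] [Finite G] (x : G) :
    x ∈ Cfsg.fittingSubgroup G ↔ ∀ H : Subgroup G, x ^ H.index ∈ H :=
  ⟨fun hx H => pow_rel G x hx H, fun h => mem_of_forall G x h⟩

end Cfsg.Agent.S4263
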