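import Cfsg.Statements.S4249
import Cfsg.Agent.Lib.H20.Split4
import Cfsg.Agent.Lib.H13.Large

set_option autoImplicit false
set_option linter.style.haveILetI false
set_option linter.unusedVariables false
open Cfsg

namespace Cfsg.Agent.S4249

open Subgroup

/-- Conjugation action on a subgroup as a homomorphism. -/
def normHom {G : Type*} [Group G] (V T : Subgroup G) (hT : T ≤ normalizer (V : Set G)) : T →* MulAut V where
  toFun t := Cfsg.Agent.H20.normConj V t (hT t.2)
  map_one' := by
    ext v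
    show (1 : G) * (v : G) * (1 : G)⁻¹ = v
    group
  map_mul' a b := by
    ext v
    show ((a : G) * b) * (v : G) * ((a : G) * b)⁻¹ = a * (b * (v : G) * (b : G)⁻¹) * (a : G)⁻¹
    group

theorem normHom_apply {G : Type*} [Group G] (V T : Subgroup G) (hT : T ≤ normalizer (V : Set G))
    (t : T) (v : V) : ((normHom V T hT t v : V) : G) = t * v * (t : G)⁻¹ := rfl

/-- Let G be a finite group and p a prime such that G is not a p-group, and suppose the Hughes subgroup H_p(G), generated by all elements g with g^p ≠ 1, is a proper subgroup. Then H_p(G) is nilpotent and has index p in G. -/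
theorem result {G : Type*} [Group G] [Finite G] (p : ℕ) (hp : p.Prime) (hG : ¬ IsPGroup p G)
    (hH : Subgroup.closure {g : G | g ^ p ≠ 1} ≠ ⊤) :
    Group.IsNilpotent (Subgroup.closure {g : G | g ^ p ≠ 1}) ∧ (Subgroup.closure {g : G | g ^ p ≠ 1}).index = p := by
  classical
  haveI : Fact p.Prime := ⟨hp⟩
  set H : Subgroup G := Subgroup.closure {g : G | g ^ p ≠ 1} with hHdef
  haveI hHn : H.Normal := by
    constructor
    intro n hn g
    have hle : H ≤ H.comap (MulAut.conj g).toMonoidHom := by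
      rw [hHdef, Subgroup.closure_le]
      intro s hs
      apply Subgroup.subset_closure
      show (g * s * g⁻¹) ^ p ≠ 1
      rw [conj_pow]
      intro h
      apply hs
      have : s ^ p = g⁻¹ * (g * s ^ p * g⁻¹) * g := by group
      rw [this, h]
      group
    exact hle hn
  have hs : ∀ g, g ∉ H → g ^ p = 1 := by
    intro g hg
    by_contra hne
    exact hg (Subgroup.subset_closure hne)
  have hx : ∃ x, x ∉ H := by
    by_contra hall
    push Not at hall
    exact hH ((Subgroup.eq_top_iff' H).mpr hall)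
  refine ⟨Cfsg.Agent.H20.kegel hp H hx hs, ?_⟩
  -- a prime different from `p`
  have hc0 : Nat.card G ≠ 0 := Nat.card_pos.ne'
  obtain ⟨q, hq, hqG, hqp⟩ : ∃ q : ℕ, q.Prime ∧ q ∣ Nat.card G ∧ q ≠ p := by
    by_contra hall
    push Not at hall
    apply hG
    apply IsPGroup.of_card (n := (Nat.card G).primeFactorsList.length)
    apply Nat.eq_prime_pow_of_unique_prime_dvd hc0
    intro d hd hdd
    exact hall d hd hdd
  haveI : Fact q.Prime := ⟨hq⟩
  obtain ⟨Q⟩ : Nonempty (Sylow q G) := inferInstance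
  have hQH : (Q : Subgroup G) ≤ H := by
    intro c hc
    by_cases hc1 : c = 1
    · rw [hc1]; exact H.one_mem
    apply Subgroup.subset_closure
    show c ^ p ≠ 1
    intro h
    obtain ⟨k, hk⟩ := Q.isPGroup' ⟨c, hc⟩
    have hk' : c ^ q ^ k = 1 := congrArg Subtype.val hk
    have hcop : Nat.Coprime (q ^ k) p :=
      Nat.Coprime.pow_left _ ((Nat.coprime_primes hq hp).mpr hqp)
    have := Nat.eq_one_of_dvd_coprimes hcop (orderOf_dvd_of_pow_eq_one hk')
      (orderOf_dvd_of_pow_eq_one h)
    exact hc1 (orderOf_eq_one_iff.mp this)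
  have hQb : (Q : Subgroup G) ≠ ⊥ := by
    intro h
    have h1 := Q.card_eq_multiplicity
    rw [h, Subgroup.card_bot] at h1
    have h2 : 1 ≤ (Nat.card G).factorization q := (hq.dvd_iff_one_le_factorization hc0).mp hqG
    have h3 : 1 < q ^ (Nat.card G).factorization q := Nat.one_lt_pow (by omega) hq.one_lt
    omega
  set N : Subgroup G := normalizer ((Q : Subgroup G) : Set G) with hN
  have hfr : N ⊔ H = ⊤ := Sylow.normalizer_sup_eq_top' Q hQH
  -- the quotient
  let f : N →* G ⧸ H := (QuotientGroup.mk' H).comp N.subtype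
  have hf : Function.Surjective f := by
    intro y
    obtain ⟨g, rfl⟩ := QuotientGroup.mk'_surjective H y
    have hg : g ∈ N ⊔ H := by rw [hfr]; trivial
    rw [← SetLike.mem_coe, Subgroup.mul_normal] at hg
    obtain ⟨n, hn, h, hh, rfl⟩ := hg
    refine ⟨⟨n, hn⟩, ?_⟩
    show (QuotientGroup.mk' H) n = (QuotientGroup.mk' H) (n * h)
    have h1 : (QuotientGroup.mk' H) h = 1 := (QuotientGroup.eq_one_iff h).mpr hh
    rw [map_mul, h1, mul_one]
  have hquot : IsPGroup p (G ⧸ H) := by
    intro y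
    obtain ⟨g, rfl⟩ := QuotientGroup.mk'_surjective H y
    refine ⟨1, ?_⟩
    rw [pow_one, ← map_pow]
    by_cases hgH : g ∈ H
    · exact (QuotientGroup.eq_one_iff _).mpr (H.pow_mem hgH p)
    · rw [hs g hgH, map_one]
  obtain ⟨P₁⟩ : Nonempty (Sylow p N) := inferInstance
  let P₂ : Sylow p (G ⧸ H) := P₁.mapSurjective hf
  have hP₂ : (P₂ : Subgroup (G ⧸ H)) = ⊤ :=
    (P₂.is_maximal' (Q := ⊤) (hquot.to_subgroup _) le_top).symm
  set T : Subgroup G := (P₁ : Subgroup N).map N.subtype with hT
  have hTp : IsPGroup p T := P₁.isPGroup'.map _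
  have hTN : T ≤ N := Subgroup.map_subtype_le _
  have hTH : T ⊔ H = ⊤ := by
    rw [eq_top_iff]
    intro g _
    have h1 : (QuotientGroup.mk' H) g ∈ (P₂ : Subgroup (G ⧸ H)) := by rw [hP₂]; trivial
    obtain ⟨t, ht, hte⟩ := h1
    have h2 : f t = (t : G) := rfl
    have h3 : ((t : G) : G ⧸ H) = g := hte
    have h4 : (t : G)⁻¹ * g ∈ H := QuotientGroup.eq.mp h3
    have h5 : g = (t : G) * ((t : G)⁻¹ * g) := by group
    rw [h5]
    exact Subgroup.mul_mem_sup ⟨t, ht, rfl⟩ h4
  -- `V`
  set V : Subgroup G := (Q : Subgroup G) ⊓ centralizer ((Q : Subgroup G) : Set G) with hV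
  have hVb : V ≠ ⊥ := Cfsg.Agent.H13.center_ne_bot_of_pgroup Q.isPGroup' hQb
  have hVab : ∀ a b : V, a * b = b * a := by
    intro a b
    apply Subtype.ext
    exact (Subgroup.mem_centralizer_iff.mp b.2.2 _ a.2.1)
  have hTV : T ≤ normalizer (V : Set G) := by
    intro t ht
    have htN : t ∈ N := hTN ht
    apply Cfsg.Agent.H20.mem_normalizer_of_conj_le
    intro y hy
    have hq1 : t * y * t⁻¹ ∈ (Q : Subgroup G) := (mem_normalizer_iff.mp htN y).mp hy.1
    refine ⟨hq1, ?_⟩
    show t * y * t⁻¹ ∈ centralizer ((Q : Subgroup G) : Set G)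
    rw [Subgroup.mem_centralizer_iff]
    intro w hw
    have hw' : t⁻¹ * w * t ∈ (Q : Subgroup G) := by
      have := (mem_normalizer_iff.mp (inv_mem htN) w).mp hw
      simpa using this
    have h1 := Subgroup.mem_centralizer_iff.mp hy.2 _ hw'
    calc w * (t * y * t⁻¹) = t * ((t⁻¹ * w * t) * y) * t⁻¹ := by group
      _ = t * (y * (t⁻¹ * w * t)) * t⁻¹ := by rw [h1]
      _ = (t * y * t⁻¹) * w := by group
  have hVcard : (Nat.card V).Coprime p := by
    have h1 : IsPGroup q V := Q.isPGroup'.to_le inf_le_left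
    obtain ⟨a, ha⟩ := IsPGroup.iff_card.mp h1
    rw [ha]
    exact Nat.Coprime.pow_left _ ((Nat.coprime_primes hq hp).mpr hqp)
  haveI hVnt : Nontrivial V := (Subgroup.nontrivial_iff_ne_bot V).2 hVb
  let ρ : T →* MulAut V := normHom V T hTV
  let D : Subgroup T := H.subgroupOf T
  haveI : D.Normal := Subgroup.Normal.subgroupOf inferInstance _
  have hnotle : ¬ T ≤ H := by
    intro hle
    apply hH
    rw [← hTH, sup_of_le_right hle]
  obtain ⟨u, huT, huH⟩ := SetLike.not_le_iff_exists.mp hnotle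
  have hu : (⟨u, huT⟩ : T) ∉ D := huH
  have hst : ∀ y : T, y ∉ D → y ^ p = 1 ∧ ∀ v, ρ y v = v → v = 1 := by
    intro y hy
    have hyH : (y : G) ∉ H := hy
    refine ⟨Subtype.ext (hs _ hyH), ?_⟩
    intro v hv
    have h1 : (y : G) * v * (y : G)⁻¹ = v := congrArg Subtype.val hv
    have h2 : (y : G) * v = v * y := by
      calc (y : G) * v = (y : G) * v * (y : G)⁻¹ * y := by group
        _ = v * y := by rw [h1]
    have h3 : (orderOf (v : G)).Coprime p := by
      rw [Subgroup.orderOf_coe]
      exact Nat.Coprime.coprime_dvd_left (orderOf_dvd_natCard v) hVcard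
    exact Subtype.ext (Cfsg.Agent.H20.split_comm_eq_one hs hyH (hQH v.2.1) h2 h3)
  have hidx := Cfsg.Agent.H20.D_index hVab hTp hVcard hVnt ρ D _ hu hst
  have h1 : D.index = H.relIndex T := rfl
  have h2 : H.relIndex T = H.index := by
    rw [← Subgroup.relIndex_sup_right T H, hTH, Subgroup.relIndex_top_right]
  rw [← h2, ← h1, hidx]

end Cfsg.Agent.S4249
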