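import Cfsg.Statements.S4251
import Cfsg.Agent.Lib.H20.TameFusion
import Cfsg.Agent.Lib.H13.FrobFusion

set_option autoImplicit false
set_option linter.unusedSectionVars false
open Cfsg

namespace Cfsg.Agent.S4251

open Cfsg.Agent.H09 Cfsg.Agent.H20

variable {G : Type*} [Group G] [Finite G] {p : ℕ} [Fact p.Prime]

/-- Conjugation by an element of `N(H)` agrees with conjugation by an element of `S`. -/
theorem exists_mem_conj_of_pgroup {S H : Subgroup G}
    (hSi : ¬ p ∣ (S ⊓ Subgroup.normalizer (H : Set G)).relIndex (Subgroup.normalizer (H : Set G)))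
    [((Subgroup.centralizer (H : Set G)).subgroupOf (Subgroup.normalizer (H : Set G))).Normal]
    (hq : IsPGroup p (Subgroup.normalizer (H : Set G) ⧸
      (Subgroup.centralizer (H : Set G)).subgroupOf (Subgroup.normalizer (H : Set G))))
    {g : G} (hg : g ∈ Subgroup.normalizer (H : Set G)) :
    ∃ w ∈ S, ∀ a ∈ H, g * a * g⁻¹ = w * a * w⁻¹ := by
  have hp : p.Prime := Fact.out
  set X : Subgroup G := Subgroup.normalizer (H : Set G) with hX
  set C : Subgroup X := (Subgroup.centralizer (H : Set G)).subgroupOf X with hC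
  let π : X →* X ⧸ C := QuotientGroup.mk' C
  have hπs : Function.Surjective π := QuotientGroup.mk'_surjective C
  set R : Subgroup X := (S ⊓ X).subgroupOf X with hR
  have hi1 : (R.map π).index ∣ R.index := Subgroup.index_map_dvd R hπs
  obtain ⟨k, hk⟩ := hq.index (R.map π)
  have hk0 : k = 0 := by
    by_contra hk0
    apply hSi
    have h1 : p ∣ (R.map π).index := by
      rw [hk]
      exact dvd_pow_self p hk0
    exact h1.trans hi1
  rw [hk0, pow_zero, Subgroup.index_eq_one] at hk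
  have hmem : π ⟨g, hg⟩ ∈ R.map π := by rw [hk]; exact Subgroup.mem_top _
  obtain ⟨r, hr, hre⟩ := hmem
  have hrS : (r : G) ∈ S := (Subgroup.mem_subgroupOf.1 hr).1
  refine ⟨r, hrS, fun a ha => ?_⟩
  have h1 : r⁻¹ * ⟨g, hg⟩ ∈ C := by
    rw [← QuotientGroup.eq]
    exact hre
  have h2 : ((r : G)⁻¹ * g) ∈ Subgroup.centralizer (H : Set G) := Subgroup.mem_subgroupOf.1 h1
  have h3 := (Subgroup.mem_centralizer_iff.1 h2) a ha
  -- `a * (r⁻¹ g) = (r⁻¹ g) * a`
  have h4 : g * a = r * a * (r : G)⁻¹ * g := by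
    calc g * a = r * ((r : G)⁻¹ * g * a) := by group
      _ = r * (a * ((r : G)⁻¹ * g)) := by rw [h3]
      _ = _ := by group
  calc g * a * g⁻¹ = (r * a * (r : G)⁻¹ * g) * g⁻¹ := by rw [h4]
    _ = _ := by group

/-- The control relation. -/
def PCtl (P : Subgroup G) (A : Set G) (g : G) : Prop :=
  ∃ w ∈ P, ∀ a ∈ A, g * a * g⁻¹ = w * a * w⁻¹

theorem pCtl_sys (P : Subgroup G) : CtlSys (PCtl P) where
  triv := by
    intro A g hA
    refine ⟨1, P.one_mem, fun a ha => ?_⟩
    have : a = 1 := hA ha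
    simp [this]
  res := by
    rintro A B g hBA ⟨w, hw, h⟩
    exact ⟨w, hw, fun a ha => h a (hBA ha)⟩
  comp := by
    rintro A g h ⟨w, hw, h1⟩ ⟨w', hw', h2⟩
    refine ⟨w' * w, P.mul_mem hw' hw, fun a ha => ?_⟩
    have h3 := h2 _ (conj_mem_cjs (g := g) ha)
    have h4 := h1 a ha
    calc h * g * a * (h * g)⁻¹ = h * (g * a * g⁻¹) * h⁻¹ := by group
      _ = w' * (g * a * g⁻¹) * w'⁻¹ := h3
      _ = w' * (w * a * w⁻¹) * w'⁻¹ := by rw [h4]
      _ = _ := by group
  inv := by
    rintro A g ⟨w, hw, h1⟩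
    refine ⟨w⁻¹, P.inv_mem hw, ?_⟩
    rintro _ ⟨a, ha, rfl⟩
    have h4 := h1 a ha
    calc g⁻¹ * (g * a * g⁻¹) * g⁻¹⁻¹ = a := by group
      _ = w⁻¹ * (w * a * w⁻¹) * w⁻¹⁻¹ := by group
      _ = w⁻¹ * (g * a * g⁻¹) * w⁻¹⁻¹ := by rw [h4]

/-- Let P be a Sylow p-subgroup of a finite group G. Call an intersection H = P ∩ Q with a Sylow p-subgroup Q tame when N_P(H) and N_Q(H) are Sylow p-subgroups of N_G(H). If N_G(H)/C_G(H) is a p-group for every nontrivial tame intersection H = P ∩ Q, then G has a normal p-complement. -/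
theorem result {G : Type*} [Group G] [Finite G] (p : ℕ) [Fact p.Prime] (P : Sylow p G)
    (h : ∀ Q : Sylow p G, (P : Subgroup G) ⊓ (Q : Subgroup G) ≠ ⊥ → (¬ p ∣ ((P : Subgroup G) ⊓ Subgroup.normalizer (((P : Subgroup G) ⊓ (Q : Subgroup G) : Subgroup G) : Set G)).relIndex (Subgroup.normalizer (((P : Subgroup G) ⊓ (Q : Subgroup G) : Subgroup G) : Set G)) ∧ ¬ p ∣ ((Q : Subgroup G) ⊓ Subgroup.normalizer (((P : Subgroup G) ⊓ (Q : Subgroup G) : Subgroup G) : Set G)).relIndex (Subgroup.normalizer (((P : Subgroup G) ⊓ (Q : Subgroup G) : Subgroup G) : Set G))) →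
      IsPGroup p (Subgroup.normalizer (((P : Subgroup G) ⊓ (Q : Subgroup G) : Subgroup G) : Set G) ⧸
        (Subgroup.centralizer (((P : Subgroup G) ⊓ (Q : Subgroup G) : Subgroup G) : Set G)).subgroupOf
          (Subgroup.normalizer (((P : Subgroup G) ⊓ (Q : Subgroup G) : Subgroup G) : Set G)))) :
    Cfsg.HasNormalPComplement p G := by
  classical
  have hp : p.Prime := Fact.out
  have hP0 : ¬ p ∣ ((P : Subgroup G) ⊓ Subgroup.normalizer ((P : Subgroup G) : Set G)).relIndex
      (Subgroup.normalizer ((P : Subgroup G) : Set G)) := by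
    rw [inf_eq_left.2 Subgroup.le_normalizer]
    exact fun hd => P.not_dvd_index
      (hd.trans (Dvd.intro _ (Subgroup.relIndex_mul_index Subgroup.le_normalizer)))
  have hcontrol : ∀ (A : Set G) (g : G), A ⊆ (P : Subgroup G) →
      cjs g A ⊆ (P : Subgroup G) → PCtl (P : Subgroup G) A g := by
    refine tame_control_set P (pCtl_sys (P : Subgroup G)) ?_ ?_
    · intro g hg
      by_cases hP : (P : Subgroup G) = ⊥
      · apply (pCtl_sys (P : Subgroup G)).triv
        rw [hP]
        intro x hx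
        simpa using hx
      · have hne : (P : Subgroup G) ⊓ (P : Subgroup G) ≠ ⊥ := by rwa [inf_idem]
        have hq := h P hne (by rw [inf_idem]; exact ⟨hP0, hP0⟩)
        have hg' : g ∈ Subgroup.normalizer (((P : Subgroup G) ⊓ (P : Subgroup G) : Subgroup G) : Set G) := by
          rwa [inf_idem]
        have hSi : ¬ p ∣ ((P : Subgroup G) ⊓ Subgroup.normalizer (((P : Subgroup G) ⊓ (P : Subgroup G) : Subgroup G) : Set G)).relIndex (Subgroup.normalizer (((P : Subgroup G) ⊓ (P : Subgroup G) : Subgroup G) : Set G)) := by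
          rw [inf_idem]; exact hP0
        obtain ⟨w, hw, h1⟩ := exists_mem_conj_of_pgroup hSi hq hg'
        refine ⟨w, hw, fun a ha => h1 a ?_⟩
        rw [inf_idem]
        exact ha
    · intro Q hne htame x hx _
      have hq := h Q hne htame
      obtain ⟨w, hw, h1⟩ := exists_mem_conj_of_pgroup htame.1 hq hx
      exact ⟨w, hw, h1⟩
  apply H13.hasNormalPComplement_of_frobCond (p := p)
  intro Q₀ hQ₀ g₀ hg₀ hc₀
  -- conjugate into `P`
  obtain ⟨y, -, hy⟩ := exists_conj_le_of_not_dvd_relIndex (p := p) (N := ⊤) (R := (P : Subgroup G))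
    (Q := Q₀) le_top P.isPGroup' (by rw [Subgroup.relIndex_top_right]; exact P.not_dvd_index) le_top hQ₀
  set A : Subgroup G := Q₀.map (MulAut.conj y).toMonoidHom with hA
  set g : G := y * g₀ * y⁻¹ with hg
  have hgN : g ∈ Subgroup.normalizer (A : Set G) := by
    rw [hA, normalizer_map_conj]
    exact conj_mem_map y hg₀
  have hord : (orderOf g).Coprime p := by
    have e : g = (MulAut.conj y) g₀ := by simp [hg]
    rw [e, MulEquiv.orderOf_eq]
    exact hc₀
  obtain ⟨w, hwP, hw⟩ := hcontrol (A : Set G) g hy (by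
    rw [cjs_coe_of_mem_normalizer hgN]
    exact hy)
  -- powers
  have hpow : ∀ n : ℕ, ∀ a ∈ A, g ^ n * a * (g ^ n)⁻¹ = w ^ n * a * (w ^ n)⁻¹ := by
    intro n
    induction n with
    | zero => intro a _; simp
    | succ n ih =>
      intro a ha
      have h1 : g * a * g⁻¹ ∈ A := (Subgroup.mem_normalizer_iff.1 hgN a).1 ha
      have h2 := ih _ h1
      have h3 := hw a ha
      calc g ^ (n + 1) * a * (g ^ (n + 1))⁻¹ = g ^ n * (g * a * g⁻¹) * (g ^ n)⁻¹ := by
            rw [pow_succ]; group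
        _ = w ^ n * (g * a * g⁻¹) * (w ^ n)⁻¹ := h2
        _ = w ^ n * (w * a * w⁻¹) * (w ^ n)⁻¹ := by rw [h3]
        _ = _ := by rw [pow_succ]; group
  obtain ⟨j, hj⟩ := (IsPGroup.iff_orderOf.1 P.isPGroup') ⟨w, hwP⟩
  have hwj : w ^ (p ^ j) = 1 := by
    have h1 : orderOf w = p ^ j := by
      rw [← hj, Subgroup.orderOf_mk]
    rw [← h1, pow_orderOf_eq_one]
  -- an exponent `n` with `n ≡ 1` mod the order of `g` and divisible by `p ^ j`
  have hcop : (orderOf g).Coprime (p ^ j) := hord.pow_right j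
  obtain ⟨k, hk1, hk2⟩ := Nat.chineseRemainder hcop 1 0
  have hgk : g ^ k = g := by
    have := (pow_eq_pow_iff_modEq (x := g) (n := k) (m := 1)).2 hk1
    simpa using this
  have hwk : w ^ k = 1 := by
    obtain ⟨c, rfl⟩ := (Nat.modEq_zero_iff_dvd.1 hk2)
    rw [pow_mul, hwj, one_pow]
  have hfix : ∀ a ∈ A, g * a * g⁻¹ = a := by
    intro a ha
    have := hpow k a ha
    rw [hgk, hwk] at this
    simpa using this
  rw [Subgroup.mem_centralizer_iff]
  intro q hq
  have h1 := hfix (y * q * y⁻¹) (conj_mem_map y hq)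
  have h2 : y * (g₀ * q * g₀⁻¹) * y⁻¹ = y * q * y⁻¹ := by
    rw [← h1, hg]
    group
  have h3 : g₀ * q * g₀⁻¹ = q := by
    have := mul_left_cancel (mul_right_cancel h2)
    exact this
  calc q * g₀ = (g₀ * q * g₀⁻¹) * g₀ := by rw [h3]
    _ = g₀ * q := by group

end Cfsg.Agent.S4251
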