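import Cfsg.Statements.S4252

set_option autoImplicit false
open Cfsg
open scoped Pointwise

namespace Cfsg.Agent.S4252

theorem mem_conj_stab {G Ω : Type*} [Group G] [MulAction G Ω] (α : Ω) (g x : G) :
    x ∈ (MulAut.conj g • MulAction.stabilizer G α : Subgroup G) ↔ x • (g • α) = g • α := by
  rw [Subgroup.mem_pointwise_smul_iff_inv_smul_mem, MulAction.mem_stabilizer_iff, MulAut.smul_def,
    ← map_inv, MulAut.conj_apply]
  constructor
  · intro h
    have := congrArg (fun w => g • w) h
    simpa [mul_smul] using this
  · intro h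
    have := congrArg (fun w => g⁻¹ • w) h
    simpa [mul_smul] using this

/-- Let a finite group G act on a finite set Ω with more than one point, transitively but not regularly, so that no non-identity element of G fixes two distinct points. Then the stabilizer H of any point is a Frobenius complement in G (nontrivial, proper, meeting its other conjugates trivially), and the Frobenius kernel of G with respect to H (the identity together with the elements lying in no conjugate of H) is exactly the set consisting of the identity and the elements fixing no point. -/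
theorem result {G Ω : Type*} [Group G] [Finite G] [Fintype Ω] [MulAction G Ω] (hΩ : 1 < Fintype.card Ω)
    (htrans : ∀ α β : Ω, ∃ g : G, g • α = β) (hnreg : ∃ g : G, g ≠ 1 ∧ ∃ α : Ω, g • α = α)
    (hfix : ∀ g : G, g ≠ 1 → ∀ α β : Ω, g • α = α → g • β = β → α = β) (α : Ω) :
    Cfsg.IsFrobeniusComplement (MulAction.stabilizer G α) ∧
      Cfsg.frobeniusKernel (MulAction.stabilizer G α) = {g : G | g = 1 ∨ ∀ ω : Ω, g • ω ≠ ω} := by
  refine ⟨⟨?_, ?_, ?_⟩, ?_⟩
  · obtain ⟨g, hg, β, hβ⟩ := hnreg
    obtain ⟨u, hu⟩ := htrans β α
    intro hbot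
    have : u * g * u⁻¹ ∈ MulAction.stabilizer G α := by
      rw [MulAction.mem_stabilizer_iff]
      rw [← hu]
      simp [mul_smul, hβ]
    rw [hbot, Subgroup.mem_bot] at this
    apply hg
    have e : g = u⁻¹ * (u * g * u⁻¹) * u := by group
    rw [e, this]; simp
  · intro htop
    obtain ⟨β, hβ⟩ := Fintype.exists_ne_of_one_lt_card hΩ α
    obtain ⟨u, hu⟩ := htrans α β
    have : u ∈ MulAction.stabilizer G α := htop ▸ Subgroup.mem_top u
    rw [MulAction.mem_stabilizer_iff, hu] at this
    exact hβ this
  · intro g hg
    rw [eq_bot_iff]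
    rintro x ⟨hx1, hx2⟩
    rw [Subgroup.mem_bot]
    by_contra hx
    have hx2' := (mem_conj_stab α g x).mp hx2
    have := hfix x hx α (g • α) hx1 hx2'
    exact hg (by rw [MulAction.mem_stabilizer_iff]; exact this.symm)
  · ext x
    show (x = 1 ∨ ∀ g : G, x ∉ (MulAut.conj g • MulAction.stabilizer G α : Subgroup G)) ↔
      (x = 1 ∨ ∀ ω : Ω, x • ω ≠ ω)
    refine or_congr_right ?_
    constructor
    · intro h ω hω
      obtain ⟨u, hu⟩ := htrans α ω
      exact h u ((mem_conj_stab α u x).mpr (by rw [hu]; exact hω))
    · intro h u hu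
      exact h _ ((mem_conj_stab α u x).mp hu)

end Cfsg.Agent.S4252
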