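import Cfsg.Statements.S4253

set_option autoImplicit false
open Cfsg
open scoped Pointwise

namespace Cfsg.Agent.S4253

/-- Let H be a Frobenius complement in a finite group G (a nontrivial proper subgroup meeting each conjugate gHg⁻¹ with g outside H trivially). Then in the action of G on the left cosets of H by left multiplication, no non-identity element of G fixes two distinct cosets. -/
theorem result {G : Type*} [Group G] [Finite G] (H : Subgroup G) (hH : Cfsg.IsFrobeniusComplement H)
    (g : G) (hg : g ≠ 1) (a b : G ⧸ H) (ha : g • a = a) (hb : g • b = b) : a = b := by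
  obtain ⟨hne, htop, hfr⟩ := hH
  induction a using QuotientGroup.induction_on with
  | H a =>
  induction b using QuotientGroup.induction_on with
  | H b =>
  have h1 : a⁻¹ * g * a ∈ H := by
    have : ((g * a : G) : G ⧸ H) = (a : G ⧸ H) := ha
    have := QuotientGroup.eq.mp this.symm
    simpa [mul_assoc] using this
  have h2 : b⁻¹ * g * b ∈ H := by
    have : ((g * b : G) : G ⧸ H) = (b : G ⧸ H) := hb
    have := QuotientGroup.eq.mp this.symm
    simpa [mul_assoc] using this
  by_contra hab
  have hnot : a⁻¹ * b ∉ H := fun h => hab (QuotientGroup.eq.mpr h)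
  have := hfr _ hnot
  have hmem : a⁻¹ * g * a ∈ H ⊓ (MulAut.conj (a⁻¹ * b) • H) := by
    refine ⟨h1, ?_⟩
    show _ ∈ MulAut.conj (a⁻¹ * b) • H
    rw [Subgroup.mem_pointwise_smul_iff_inv_smul_mem]
    have e : (MulAut.conj (a⁻¹ * b))⁻¹ • (a⁻¹ * g * a) = b⁻¹ * g * b := by
      rw [MulAut.smul_def, ← map_inv, MulAut.conj_apply]
      group
    rw [e]
    exact h2
  rw [this, Subgroup.mem_bot] at hmem
  apply hg
  have : g = a * (a⁻¹ * g * a) * a⁻¹ := by group
  rw [this, hmem]
  simp

end Cfsg.Agent.S4253
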