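import Cfsg.Statements.S4260

set_option autoImplicit false
open Cfsg

namespace Cfsg.Agent.S4260

/-- Let H be a Hall subgroup of a finite group G (the order of H is coprime to its index) such that x^[G : H] lies in H for every x in G. Then H is normal in G. -/
theorem result {G : Type*} [Group G] [Finite G] (H : Subgroup G) (hHall : (Nat.card H).Coprime H.index)
    (hexp : ∀ x : G, x ^ H.index ∈ H) : H.Normal := by
  refine ⟨fun x hx g => ?_⟩
  set y := g * x * g⁻¹ with hy
  have hord : orderOf y = orderOf x := by
    exact orderOf_injective (MulAut.conj g).toMonoidHom (MulAut.conj g).injective x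
  have hdvd : orderOf x ∣ Nat.card H := by
    have := orderOf_dvd_natCard (⟨x, hx⟩ : H)
    rwa [Subgroup.orderOf_mk] at this
  have hcop : Nat.Coprime H.index (orderOf y) := by
    rw [hord]
    exact (Nat.Coprime.coprime_dvd_left hdvd hHall).symm
  have hb := Nat.gcd_eq_gcd_ab H.index (orderOf y)
  rw [hcop] at hb
  have h1 : y ^ ((H.index : ℤ) * Nat.gcdA H.index (orderOf y) + (orderOf y) * Nat.gcdB H.index (orderOf y)) = y := by
    rw [← hb]; simp
  rw [zpow_add, zpow_mul, zpow_mul, zpow_natCast, zpow_natCast, pow_orderOf_eq_one] at h1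
  simp only [one_zpow, mul_one] at h1
  rw [← h1]
  exact H.zpow_mem (hexp y) _

end Cfsg.Agent.S4260
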