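import Cfsg.Statements.S4261
import Cfsg.Agent.Lib.H20.Basic
import Cfsg.Agent.Lib.H01.Basic

set_option autoImplicit false
open Cfsg

namespace Cfsg.Agent.S4261

variable {G : Type*} [Group G]

theorem reduced [Finite G] (hG : Group.IsSolvable G) (M : Subgroup G) (hM : IsCoatom M)
    (hcore : M.normalCore = ⊥) (hexp : ∀ x : G, x ^ M.index ∈ M) : M.Normal := by
  have hnt : Nontrivial G := by
    by_contra h
    rw [not_nontrivial_iff_subsingleton] at h
    exact hM.1 (Subsingleton.elim _ _)
  obtain ⟨A, hA, hAne, hAmin⟩ := H01.exists_minimal_normal (G := G)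
  -- A is abelian
  have hAc : ⁅A, A⁆ = ⊥ := by
    rcases hAmin ⁅A, A⁆ inferInstance (Subgroup.commutator_le_self A) with h | h
    · exact h
    · exact absurd h (Group.IsSolvable.commutator_lt_of_ne_bot hAne).ne
  have hcomm : ∀ u ∈ A, ∀ v ∈ A, u * v = v * u := by
    intro u hu v hv
    have := (Subgroup.commutator_eq_bot_iff_le_centralizer.mp hAc) hu
    exact ((Subgroup.mem_centralizer_iff.mp this) v hv).symm
  -- A has exponent p
  have hAcard : 1 < Nat.card A := by
    have : Nontrivial A := (Subgroup.nontrivial_iff_ne_bot A).mpr hAne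
    exact Finite.one_lt_card
  obtain ⟨p, hp, hpd⟩ := Nat.exists_prime_and_dvd hAcard.ne'
  have := Fact.mk hp
  obtain ⟨y₀, hy₀⟩ := exists_prime_orderOf_dvd_card' (G := A) p hpd
  let T : Subgroup G :=
    { carrier := {z | z ∈ A ∧ z ^ p = 1}
      one_mem' := ⟨A.one_mem, one_pow _⟩
      mul_mem' := fun {a b} ha hb => ⟨A.mul_mem ha.1 hb.1, by
        have hc : Commute a b := hcomm a ha.1 b hb.1
        rw [hc.mul_pow, ha.2, hb.2, one_mul]⟩
      inv_mem' := fun {a} ha => ⟨A.inv_mem ha.1, by rw [inv_pow, ha.2, inv_one]⟩ }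
  have hTn : T.Normal := ⟨fun z hz g => ⟨hA.conj_mem z hz.1 g, by
    rw [conj_pow, hz.2]; simp⟩⟩
  have hTA : T = A := by
    rcases hAmin T hTn (fun z hz => hz.1) with h | h
    · exfalso
      have hy : (y₀ : G) ∈ T := ⟨y₀.2, by
        have := pow_orderOf_eq_one y₀
        rw [hy₀] at this
        exact congrArg Subtype.val this⟩
      rw [h, Subgroup.mem_bot] at hy
      have h1 : y₀ = 1 := Subtype.ext hy
      rw [h1, orderOf_one] at hy₀
      exact hp.one_lt.ne hy₀
    · exact h
  have hAexp : ∀ a ∈ A, a ^ p = 1 := fun a ha => by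
    have : a ∈ T := hTA ▸ ha
    exact this.2
  have hAp : IsPGroup p A := fun a => ⟨1, by
    apply Subtype.ext
    simpa using hAexp a a.2⟩
  -- A is not contained in M
  have hAM : ¬ A ≤ M := by
    intro hle
    have : A ≤ M.normalCore := Subgroup.normal_le_normalCore.mpr hle
    rw [hcore] at this
    exact hAne (le_bot_iff.mp this)
  have hsup : M ⊔ A = ⊤ := by
    apply hM.2
    refine lt_of_le_of_ne le_sup_left ?_
    intro h
    exact hAM (h ▸ le_sup_right)
  have hdecomp : ∀ g : G, ∃ m ∈ M, ∃ a ∈ A, m * a = g := by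
    intro g
    have : g ∈ M ⊔ A := hsup ▸ Subgroup.mem_top g
    exact Subgroup.mem_sup_of_normal_right.mp this
  -- A ∩ M is trivial
  have hinf : A ⊓ M = ⊥ := by
    have hn : (A ⊓ M).Normal := by
      refine ⟨fun z hz g => ?_⟩
      obtain ⟨m, hm, a, ha, rfl⟩ := hdecomp g
      have e : m * a * z * (m * a)⁻¹ = m * (a * z * a⁻¹) * m⁻¹ := by group
      have e2 : a * z * a⁻¹ = z := by
        rw [hcomm a ha z hz.1]; simp
      rw [e, e2]
      exact ⟨hA.conj_mem z hz.1 m, M.mul_mem (M.mul_mem hm hz.2) (M.inv_mem hm)⟩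
    rcases hAmin _ hn inf_le_left with h | h
    · exact h
    · exact absurd (inf_eq_left.mp h) hAM
  -- the index
  have hindex : M.index = Nat.card A := by
    have h1 := H20.relIndex_sup_of_normal M A
    rw [hsup, Subgroup.relIndex_top_right] at h1
    rw [h1, ← Subgroup.inf_relIndex_right, inf_comm, hinf, Subgroup.relIndex_bot_left]
  -- powers centralize A
  have hcent : ∀ y ∈ M, ∀ a ∈ A, y ^ M.index * a = a * y ^ M.index := by
    intro y hy a ha
    have h1 : (a * y) ^ M.index * (y ^ M.index)⁻¹ ∈ A := by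
      have : ((a * y) ^ M.index * (y ^ M.index)⁻¹ : G) ∈ (QuotientGroup.mk' A).ker := by
        rw [MonoidHom.mem_ker, map_mul, map_inv, map_pow, map_pow, map_mul]
        have ha' : QuotientGroup.mk' A a = 1 := by
          rw [← MonoidHom.mem_ker, QuotientGroup.ker_mk']; exact ha
        rw [ha', one_mul, mul_inv_cancel]
      rwa [QuotientGroup.ker_mk'] at this
    have h2 : (a * y) ^ M.index * (y ^ M.index)⁻¹ ∈ M :=
      M.mul_mem (hexp _) (M.inv_mem (M.pow_mem hy _))
    have h3 : (a * y) ^ M.index * (y ^ M.index)⁻¹ ∈ A ⊓ M := ⟨h1, h2⟩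
    rw [hinf, Subgroup.mem_bot] at h3
    have h4 : (a * y) ^ M.index = y ^ M.index := mul_inv_eq_one.mp h3
    have h5 : y ^ M.index * (a * y) = (a * y) * y ^ M.index := by
      rw [← h4]
      exact (Commute.pow_self _ _)
    have h6 : y ^ M.index * a * y = a * y ^ M.index * y := by
      rw [mul_assoc, h5, mul_assoc, mul_assoc, (Commute.pow_self y M.index).eq]
    exact mul_right_cancel h6
  -- the centralizer inside M is trivial
  have hD : ∀ y ∈ M, y ^ M.index = 1 := by
    let D : Subgroup G := Subgroup.centralizer (A : Set G) ⊓ M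
    have hDn : D.Normal := by
      refine ⟨fun d hd g => ?_⟩
      obtain ⟨m, hm, a, ha, rfl⟩ := hdecomp g
      have hda : ∀ v ∈ A, d * v = v * d := fun v hv =>
        ((Subgroup.mem_centralizer_iff.mp hd.1) v hv).symm
      have e : m * a * d * (m * a)⁻¹ = m * d * m⁻¹ := by
        have : a * d = d * a := (hda a ha).symm
        calc m * a * d * (m * a)⁻¹ = m * (a * d) * a⁻¹ * m⁻¹ := by group
          _ = m * d * m⁻¹ := by rw [this]; group
      rw [e]
      refine ⟨?_, M.mul_mem (M.mul_mem hm hd.2) (M.inv_mem hm)⟩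
      refine Subgroup.mem_centralizer_iff.mpr ?_
      intro v hv
      have hv' : m⁻¹ * v * m ∈ A := by
        have := hA.conj_mem v hv m⁻¹
        simpa using this
      have := hda _ hv'
      calc v * (m * d * m⁻¹) = m * ((m⁻¹ * v * m) * d) * m⁻¹ := by group
        _ = m * (d * (m⁻¹ * v * m)) * m⁻¹ := by rw [this]
        _ = m * d * m⁻¹ * v := by group
    have hDle : D ≤ M.normalCore := Subgroup.normal_le_normalCore.mpr inf_le_right
    rw [hcore] at hDle
    intro y hy
    have hyD : y ^ M.index ∈ D := by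
      refine ⟨?_, M.pow_mem hy _⟩
      refine Subgroup.mem_centralizer_iff.mpr ?_
      intro a ha
      exact (hcent y hy a ha).symm
    exact Subgroup.mem_bot.mp (hDle hyD)
  -- so everything is a p-group
  have hAcardp : ∃ n, Nat.card A = p ^ n := IsPGroup.iff_card.mp hAp
  obtain ⟨n, hn⟩ := hAcardp
  have hMp : IsPGroup p M := by
    intro y
    refine ⟨n, Subtype.ext ?_⟩
    have := hD y y.2
    rw [hindex, hn] at this
    simpa using this
  obtain ⟨b, hb⟩ := IsPGroup.iff_card.mp hMp
  have hGp : IsPGroup p G := by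
    rw [IsPGroup.iff_card]
    refine ⟨b + n, ?_⟩
    rw [← Subgroup.card_mul_index M, hb, hindex, hn, pow_add]
  exact (H01.isCoatom_normal_index hGp hM).1

/-- Let M be a maximal subgroup of a finite solvable group G such that x^[G : M] lies in M for every x in G. Then M is normal in G. -/
theorem result {G : Type*} [Group G] [Finite G] (hG : Group.IsSolvable G) (M : Subgroup G) (hM : IsCoatom M)
    (hexp : ∀ x : G, x ^ M.index ∈ M) : M.Normal := by
  set N := M.normalCore with hN
  have hNM : N ≤ M := Subgroup.normalCore_le M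
  have hsurj : Function.Surjective (QuotientGroup.mk' N) := QuotientGroup.mk'_surjective N
  have hcm : (M.map (QuotientGroup.mk' N)).comap (QuotientGroup.mk' N) = M := by
    rw [Subgroup.comap_map_eq, QuotientGroup.ker_mk']
    exact sup_eq_left.mpr hNM
  have hidx : (M.map (QuotientGroup.mk' N)).index = M.index := by
    rw [Subgroup.index_map, QuotientGroup.ker_mk', sup_eq_left.mpr hNM,
      MonoidHom.range_eq_top.mpr hsurj, Subgroup.index_top, mul_one]
  have hcore : (M.map (QuotientGroup.mk' N)).normalCore = ⊥ := by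
    set T := (M.map (QuotientGroup.mk' N)).normalCore with hT
    have hc : T.comap (QuotientGroup.mk' N) ≤ N := by
      have h3 : T.comap (QuotientGroup.mk' N) ≤ M :=
        (Subgroup.comap_mono (Subgroup.normalCore_le _)).trans hcm.le
      exact Subgroup.normal_le_normalCore.mpr h3
    rw [eq_bot_iff, ← Subgroup.map_comap_eq_self_of_surjective hsurj T]
    rintro _ ⟨x, hx, rfl⟩
    have := hc hx
    have h2 : (QuotientGroup.mk' N) x = 1 := by
      rw [← MonoidHom.mem_ker, QuotientGroup.ker_mk']; exact this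
    rw [h2]; exact Subgroup.one_mem _
  have hsolvQ : Group.IsSolvable (G ⧸ N) := inferInstance
  have hn := reduced hsolvQ (M.map (QuotientGroup.mk' N)) (H20.isCoatom_map_mk M N hNM hM) hcore (by
    intro x
    obtain ⟨g, rfl⟩ := hsurj x
    rw [hidx, ← map_pow]
    exact Subgroup.mem_map_of_mem _ (hexp g))
  rw [← hcm]
  exact hn.comap _

end Cfsg.Agent.S4261
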