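import Cfsg.Statements.S4262
import Cfsg.Agent.Lib.H01.Frobenius
import Cfsg.Agent.Lib.H20.Basic
import Cfsg.Agent.Lib.H20.Frob

set_option autoImplicit false
open Cfsg

namespace Cfsg.Agent.S4262

open Subgroup Cfsg.Agent.H20
open scoped Pointwise

universe u

section
variable {G : Type u} [Group G]

/-- centralizer of an element -/
abbrev C (x : G) : Subgroup G := centralizer ({x} : Set G)

theorem mem_C {x g : G} : g ∈ C x ↔ g * x = x * g := mem_centralizer_singleton_iff

theorem mem_C_comm {x g : G} : g ∈ C x ↔ x ∈ C g := by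
  rw [mem_C, mem_C]; exact eq_comm

theorem C_eq_top_iff (x : G) : C x = ⊤ ↔ x ∈ center G := by
  rw [eq_top_iff]; constructor
  · intro h; rw [mem_center_iff]; intro g; exact mem_C.mp (h (mem_top g))
  · intro h g _; rw [mem_C]; exact ((mem_center_iff.mp h) g)

/-- hypothesis -/
def Hyp (G : Type u) [Group G] : Prop := ∀ g : G, g ∉ center G → IsCoatom (C g)

theorem quot_hyp (h : Hyp G) (N : Subgroup G) [N.Normal] : Hyp (G ⧸ N) := by
  intro xb hxb
  obtain ⟨x, rfl⟩ := QuotientGroup.mk_surjective xb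
  have hx : x ∉ center G := fun hc => hxb (by
    rw [mem_center_iff]; intro g
    obtain ⟨g, rfl⟩ := QuotientGroup.mk_surjective g
    rw [← QuotientGroup.mk_mul, ← QuotientGroup.mk_mul, (mem_center_iff.mp hc) g])
  have hcx := h x hx
  have hle : (C x).map (QuotientGroup.mk' N) ≤ C (x : G ⧸ N) := by
    rintro _ ⟨u, hu, rfl⟩
    rw [mem_C]
    show (u : G ⧸ N) * x = x * u
    rw [← QuotientGroup.mk_mul, ← QuotientGroup.mk_mul, mem_C.mp hu]
  have hne : C (x : G ⧸ N) ≠ ⊤ := fun ht => hxb ((C_eq_top_iff _).mp ht)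
  by_cases hN : N ≤ C x
  · have hco := isCoatom_map_mk (C x) N hN hcx
    rcases hco.le_iff.mp hle with h1 | h1
    · exact absurd h1 hne
    · rw [h1]; exact hco
  · exfalso; apply hne
    have hsup : C x ⊔ N = ⊤ :=
      hcx.2 _ (lt_of_le_of_ne le_sup_left (fun he => hN (he ▸ le_sup_right)))
    have h2 : (C x).map (QuotientGroup.mk' N) = ⊤ := by
      have h3 : (C x ⊔ N).map (QuotientGroup.mk' N) = ⊤ := by
        rw [hsup, map_top_of_surjective _ (QuotientGroup.mk'_surjective N)]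
      rw [Subgroup.map_sup, QuotientGroup.map_mk'_self, sup_bot_eq] at h3
      exact h3
    exact top_le_iff.mp (h2 ▸ hle)

theorem mem_of_pow_mem_coprime (H : Subgroup G) {x : G} {a b : ℕ} (ha : x ^ a ∈ H) (hb : x ^ b ∈ H)
    (hc : a.Coprime b) : x ∈ H := by
  have h1 : ((Nat.gcd a b : ℕ) : ℤ) = a * Nat.gcdA a b + b * Nat.gcdB a b := Nat.gcd_eq_gcd_ab a b
  have h2 : (Nat.gcd a b : ℕ) = 1 := hc
  rw [h2] at h1
  have h3 : x = (x ^ a) ^ (Nat.gcdA a b) * (x ^ b) ^ (Nat.gcdB a b) := by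
    rw [← zpow_natCast x a, ← zpow_natCast x b, ← zpow_mul, ← zpow_mul, ← zpow_add, ← h1]
    simp
  rw [h3]
  exact H.mul_mem (H.zpow_mem ha _) (H.zpow_mem hb _)

variable (hC : ∀ x : G, x ≠ 1 → IsCoatom (C x))
include hC

theorem C_eq_of_le {x y : G} (hy : y ≠ 1) (hx : x ≠ 1) (h : C x ≤ C y) : C y = C x := by
  rcases (hC x hx).le_iff.mp h with h1 | h1
  · exact absurd h1 (hC y hy).1
  · exact h1

theorem C_eq_of_coprime {a b : G} (ha : a ≠ 1) (hb : b ≠ 1) (hab : Commute a b)
    (hc : (orderOf a).Coprime (orderOf b)) : C a = C b := by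
  have hprod : a * b ≠ 1 := by
    intro h
    have h0 : a = b⁻¹ := eq_inv_of_mul_eq_one_left h
    have h2 : orderOf a = orderOf b := by rw [h0, orderOf_inv]
    rw [h2, Nat.coprime_self] at hc
    exact hb (orderOf_eq_one_iff.mp hc)
  have key : ∀ {a b : G}, Commute a b → (orderOf a).Coprime (orderOf b) → C (a * b) ≤ C a := by
    intro a b hab hc g hg
    rw [mem_C_comm] at hg ⊢
    have h1 : (a * b) ^ (orderOf b) ∈ C g := pow_mem hg _
    rw [hab.mul_pow, pow_orderOf_eq_one, mul_one] at h1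
    obtain ⟨t, ht⟩ := exists_pow_eq_self_of_coprime hc.symm
    rw [← ht]; exact pow_mem h1 t
  have h1 := C_eq_of_le hC ha hprod (key hab hc)
  have h2 : C (a * b) ≤ C b := by rw [hab.eq]; exact key hab.symm hc.symm
  have h3 := C_eq_of_le hC hb hprod h2
  rw [h1, h3]

theorem dichotomy [Finite G] {x : G} (hx : x ≠ 1) :
    (∀ a ∈ C x, ∀ b ∈ C x, a * b = b * a) ∨ ∃ p : ℕ, p.Prime ∧ IsPGroup p (C x) := by
  classical
  have hord : orderOf x ≠ 1 := by rwa [Ne, orderOf_eq_one_iff]
  obtain ⟨p, hp, hpd⟩ := Nat.exists_prime_and_dvd hord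
  haveI := Fact.mk hp
  have hpos := orderOf_pos x
  let u := x ^ (orderOf x / p)
  have hu : orderOf u = p := orderOf_pow_orderOf_div hpos.ne' hpd
  have hu1 : u ≠ 1 := by
    intro h; rw [h, orderOf_one] at hu; exact hp.one_lt.ne hu
  have hCu : C u = C x := by
    apply C_eq_of_le hC hu1 hx
    intro g hg; rw [mem_C_comm] at hg ⊢; exact pow_mem hg _
  by_cases hpg : IsPGroup p (C x)
  · exact Or.inr ⟨p, hp, hpg⟩
  left
  have hex : ∃ q : ℕ, q.Prime ∧ q ≠ p ∧ q ∣ Nat.card (C x) := by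
    by_contra hcon
    push Not at hcon
    apply hpg
    rw [IsPGroup.iff_card]
    refine ⟨_, Nat.eq_prime_pow_of_unique_prime_dvd Nat.card_pos.ne' (fun {d} hd hdvd => ?_)⟩
    by_contra hne
    exact hcon d hd hne hdvd
  obtain ⟨q, hq, hqp, hqd⟩ := hex
  haveI := Fact.mk hq
  obtain ⟨y, hy⟩ := exists_prime_orderOf_dvd_card' q hqd
  have hy' : orderOf (y : G) = q := by rw [Subgroup.orderOf_coe, hy]
  have hy1 : (y : G) ≠ 1 := by
    intro h; rw [h, orderOf_one] at hy'; exact hq.one_lt.ne hy'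
  have hCy : C (y : G) = C x := by
    have hyu : (y : G) ∈ C u := by rw [hCu]; exact y.2
    exact (C_eq_of_coprime hC hy1 hu1 (mem_C.mp hyu) (by
      rw [hy', hu]; exact (Nat.coprime_primes hq hp).mpr hqp)).trans hCu
  have key : ∀ t : G, t ≠ 1 → C t = C x → ∀ w ∈ C x, (orderOf w).Coprime (orderOf t) →
      ∀ g ∈ C x, w ∈ C g := by
    intro t ht htC w hw hc g hg
    by_cases hw1 : w = 1
    · rw [hw1]; exact one_mem _
    have hwc : Commute w t := mem_C.mp (htC ▸ hw)
    have h1 : C w = C t := C_eq_of_coprime hC hw1 ht hwc hc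
    rw [← mem_C_comm, h1, htC]; exact hg
  intro a ha b hb
  obtain ⟨k, m, hm, ham⟩ := Nat.exists_eq_pow_mul_and_not_dvd (orderOf_pos a).ne' q hq.ne_one
  have h1 : a ^ m ∈ C b := by
    refine key u hu1 hCu (a ^ m) (pow_mem ha _) ?_ b hb
    rw [hu]
    have hd : orderOf (a ^ m) ∣ q ^ k := by
      apply orderOf_dvd_of_pow_eq_one
      rw [← pow_mul, mul_comm, ← ham, pow_orderOf_eq_one]
    exact Nat.Coprime.coprime_dvd_left hd
      (Nat.Coprime.pow_left k ((Nat.coprime_primes hq hp).mpr hqp))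
  have h2 : a ^ (q ^ k) ∈ C b := by
    refine key (y : G) hy1 hCy (a ^ (q ^ k)) (pow_mem ha _) ?_ b hb
    rw [hy']
    have hd : orderOf (a ^ (q ^ k)) ∣ m := by
      apply orderOf_dvd_of_pow_eq_one
      rw [← pow_mul, ← ham, pow_orderOf_eq_one]
    exact Nat.Coprime.coprime_dvd_left hd ((Nat.Prime.coprime_iff_not_dvd hq).mpr hm).symm
  have h3 : a ∈ C b := mem_of_pow_mem_coprime (C b) h1 h2
    (Nat.Coprime.pow_right k ((Nat.Prime.coprime_iff_not_dvd hq).mpr hm).symm)
  exact mem_C.mp h3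

theorem caseA [Finite G] (IH : ∀ (N : Subgroup G) [N.Normal], N ≠ ⊥ → Group.IsSolvable (G ⧸ N)) {x : G}
    (hx : x ≠ 1) (hab : ∀ a ∈ C x, ∀ b ∈ C x, a * b = b * a) : Group.IsSolvable G := by
  classical
  set M := C x with hM
  have hxM : x ∈ M := mem_C.mpr rfl
  have hTI : ∀ y ∈ M, y ≠ 1 → C y = M := by
    intro y hy hy1
    apply C_eq_of_le hC hy1 hx
    intro g hg
    exact mem_C.mpr (hab g hg y hy)
  have hMbot : M ≠ ⊥ := fun h => hx (by rw [h] at hxM; exact mem_bot.mp hxM)
  have hMtop : M ≠ ⊤ := (hC x hx).1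
  by_cases hn : M.Normal
  · haveI := hn
    haveI : Group.IsSolvable M := Group.isSolvable_of_comm (fun a b => Subtype.ext (hab _ a.2 _ b.2))
    haveI := IH M hMbot
    exact Group.isSolvable_of_ker_le_range M.subtype (QuotientGroup.mk' M) (by simp)
  have hTI' : ∀ g : G, ∀ y ∈ MulAut.conj g • M, y ≠ 1 → C y = MulAut.conj g • M := by
    intro g y hy hy1
    rw [mem_conj_smul_iff] at hy
    have h1 : g⁻¹ * y * g ≠ 1 := by
      intro h
      apply hy1
      have : y = g * (g⁻¹ * y * g) * g⁻¹ := by group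
      rw [this, h]; group
    have h2 := hTI _ hy h1
    ext u
    rw [mem_conj_smul_iff, ← h2, mem_C, mem_C]
    constructor
    · intro h
      calc g⁻¹ * u * g * (g⁻¹ * y * g) = g⁻¹ * (u * y) * g := by group
        _ = g⁻¹ * (y * u) * g := by rw [h]
        _ = _ := by group
    · intro h
      have h3 : g⁻¹ * (u * y) * g = g⁻¹ * (y * u) * g := by
        calc g⁻¹ * (u * y) * g = g⁻¹ * u * g * (g⁻¹ * y * g) := by group
          _ = g⁻¹ * y * g * (g⁻¹ * u * g) := h
          _ = _ := by group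
      exact mul_left_cancel (mul_right_cancel h3)
  have hnorm : normalizer (M : Set G) = M := by
    have h1 : M ≤ normalizer (M : Set G) := Subgroup.le_normalizer
    rcases (hC x hx).le_iff.mp h1 with h2 | h2
    · exact absurd (normalizer_eq_top_iff.mp h2) hn
    · exact h2
  have hFrob : IsFrobeniusComplement M := by
    refine ⟨hMbot, hMtop, fun g hg => ?_⟩
    rw [eq_bot_iff]
    rintro y ⟨hy1, hy2⟩
    rw [mem_bot]
    by_contra hy
    have h1 := hTI y hy1 hy
    have h2 := hTI' g y hy2 hy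
    apply hg
    rw [← hnorm]
    refine mem_normalizer_of_conj_le _ _ (fun v hv => ?_)
    have h3 : g * v * g⁻¹ ∈ MulAut.conj g • M := by
      rw [mem_conj_smul_iff]
      simpa [mul_assoc] using hv
    rw [← h2, h1] at h3
    exact h3
  obtain ⟨K, hKs, hKn, hcompl⟩ := Cfsg.Agent.H01.frobenius_theorem M hFrob
  have hKmem : ∀ k, k ∈ K ↔ k = 1 ∨ ∀ g : G, k ∉ MulAut.conj g • M := by
    intro k
    rw [← SetLike.mem_coe, hKs]
    rfl
  have hKtop : K ≠ ⊤ := by
    intro h
    have h1 : x ∈ K := h ▸ mem_top x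
    rcases (hKmem x).mp h1 with h2 | h2
    · exact hx h2
    · apply h2 1
      rw [mem_conj_smul_iff]
      simpa using hxM
  have hKbot : K ≠ ⊥ := by
    intro h
    apply hMtop
    have h1 := hcompl.sup_eq_top
    rw [h, bot_sup_eq] at h1
    exact h1
  have hKcomm : ∀ k ∈ K, k ≠ 1 → ∀ k' ∈ K, k' ∈ C k := by
    intro k hk hk1 k' hk'
    have hle : C k ≤ K := by
      intro w hw
      by_contra hwK
      rw [hKmem] at hwK
      push Not at hwK
      obtain ⟨hw1, g, hwg⟩ := hwK
      have h1 : C w = MulAut.conj g • M := hTI' g w hwg hw1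
      have h2 : k ∈ C w := mem_C_comm.mp hw
      rw [h1] at h2
      rcases (hKmem k).mp hk with h3 | h3
      · exact hk1 h3
      · exact h3 g h2
    rcases (hC k hk1).le_iff.mp hle with h | h
    · exact absurd h hKtop
    · rw [← h]; exact hk'
  haveI : Group.IsSolvable K := Group.isSolvable_of_comm (fun a b => by
    apply Subtype.ext
    by_cases ha : (a : G) = 1
    · simp [ha]
    · exact (mem_C.mp (hKcomm a a.2 ha b b.2)).symm)
  haveI := IH K hKbot
  exact Group.isSolvable_of_ker_le_range K.subtype (QuotientGroup.mk' K) (by simp)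

end

theorem card_center_mul_sq_le {H : Type*} [Group H] [Finite H] {p : ℕ} [hp : Fact p.Prime]
    (hH : IsPGroup p H) (hnc : ¬ ∀ a b : H, a * b = b * a) :
    Nat.card (center H) * p ^ 2 ≤ Nat.card H := by
  obtain ⟨k, hk⟩ := hH.index (center H)
  have h1 := Subgroup.card_mul_index (center H)
  rw [hk] at h1
  have hk2 : 2 ≤ k := by
    by_contra hlt
    have hk' : k = 0 ∨ k = 1 := by omega
    rcases hk' with rfl | rfl
    · rw [pow_zero, Subgroup.index_eq_one] at hk
      apply hnc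
      intro a b
      have : a ∈ center H := hk ▸ mem_top a
      exact (mem_center_iff.mp this b).symm
    · rw [pow_one] at hk
      haveI : IsCyclic (H ⧸ center H) := isCyclic_of_prime_card (p := p) (by
        rw [← hk]; rfl)
      apply hnc
      have hcomm := (QuotientGroup.mk' (center H)).isMulCommutative_of_isCyclic_of_ker_le_center (by simp)
      exact hcomm.is_comm.comm
  rw [← h1]
  apply Nat.mul_le_mul_left
  exact Nat.pow_le_pow_right hp.out.pos hk2

theorem sum_sq_le (N : ℕ) (hN : 1 ≤ N) :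
    ∑ n ∈ Finset.Icc 2 N, (1 : ℚ) / (n : ℚ) ^ 2 ≤ 1 - 1 / (N : ℚ) := by
  induction N, hN using Nat.le_induction with
  | base => simp
  | succ n hn ih =>
    rw [Finset.sum_Icc_succ_top (by omega)]
    have hn0 : (0 : ℚ) < n := by exact_mod_cast hn
    have h1 : (1 : ℚ) / ((n + 1 : ℕ) : ℚ) ^ 2 ≤ 1 / n - 1 / ((n + 1 : ℕ) : ℚ) := by
      push_cast
      rw [div_sub_div _ _ hn0.ne' (by positivity), div_le_div_iff₀ (by positivity) (by positivity)]
      nlinarith
    linarith

section count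

variable {G : Type u} [Group G] [Finite G]

/-- the center of a Sylow subgroup, inside `G`. -/
def B {p : ℕ} (Q : Sylow p G) : Subgroup G := (center (Q : Subgroup G)).map (Q : Subgroup G).subtype

theorem card_B {p : ℕ} (Q : Sylow p G) : Nat.card (B Q) = Nat.card (center (Q : Subgroup G)) :=
  (Nat.card_congr ((center (Q : Subgroup G)).equivMapOfInjective _ Subtype.val_injective).toEquiv).symm

/-- per prime count -/
theorem card_primary_le (p : ℕ) [hp : Fact p.Prime]
    (hnc : ∀ Q : Sylow p G, ¬ ∀ a b : (Q : Subgroup G), a * b = b * a) (A : Finset G)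
    (hA : ∀ x ∈ A, x ≠ 1 ∧ ∃ Q : Sylow p G, x ∈ B Q) :
    (A.card : ℚ) + 1 ≤ (Nat.card G : ℚ) / (p : ℚ) ^ 2 := by
  classical
  haveI := Fintype.ofFinite G
  haveI : Fintype (Sylow p G) := Fintype.ofFinite _
  let BB : Sylow p G → Finset G := fun Q => (Finset.univ.filter (fun x => x ∈ B Q)).erase 1
  have hsub : A ⊆ Finset.univ.biUnion BB := by
    intro x hx
    obtain ⟨hx1, Q, hQ⟩ := hA x hx
    rw [Finset.mem_biUnion]
    exact ⟨Q, Finset.mem_univ _, Finset.mem_erase.mpr ⟨hx1, Finset.mem_filter.mpr ⟨Finset.mem_univ _, hQ⟩⟩⟩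
  have h1 : (A.card : ℚ) ≤ ∑ Q : Sylow p G, ((BB Q).card : ℚ) := by
    have := (Finset.card_le_card hsub).trans Finset.card_biUnion_le
    exact_mod_cast this
  obtain ⟨P⟩ : Nonempty (Sylow p G) := inferInstance
  have hcardQ : ∀ Q : Sylow p G, Nat.card (Q : Subgroup G) = Nat.card (P : Subgroup G) := fun Q =>
    Nat.card_congr (Sylow.equiv Q P).toEquiv
  have hp2 : (0 : ℚ) < (p : ℚ) ^ 2 := by
    have : (0 : ℚ) < p := by exact_mod_cast hp.out.pos
    positivity
  have h2 : ∀ Q : Sylow p G, ((BB Q).card : ℚ) ≤ (Nat.card (P : Subgroup G) : ℚ) / (p : ℚ) ^ 2 - 1 := by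
    intro Q
    have h3 : (Finset.univ.filter (fun x => x ∈ B Q)).card = Nat.card (B Q) := by
      rw [Nat.card_eq_fintype_card, Fintype.card_subtype]
    have h4 : (BB Q).card + 1 = Nat.card (B Q) := by
      rw [← h3]
      exact Finset.card_erase_add_one (Finset.mem_filter.mpr ⟨Finset.mem_univ _, one_mem _⟩)
    have h5 := card_center_mul_sq_le Q.isPGroup' (hnc Q)
    rw [← card_B, hcardQ Q, ← h4] at h5
    rw [le_sub_iff_add_le, le_div_iff₀ hp2]
    exact_mod_cast h5
  have h6 : (∑ Q : Sylow p G, ((BB Q).card : ℚ)) ≤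
      (Fintype.card (Sylow p G) : ℚ) * ((Nat.card (P : Subgroup G) : ℚ) / (p : ℚ) ^ 2 - 1) := by
    calc _ ≤ ∑ _Q : Sylow p G, ((Nat.card (P : Subgroup G) : ℚ) / (p : ℚ) ^ 2 - 1) :=
          Finset.sum_le_sum (fun Q _ => h2 Q)
      _ = _ := by rw [Finset.sum_const, Finset.card_univ, nsmul_eq_mul]
  have h7 : Fintype.card (Sylow p G) * Nat.card (P : Subgroup G) ≤ Nat.card G := by
    rw [← Nat.card_eq_fintype_card, Sylow.card_eq_index_normalizer P]
    have h8 := (Subgroup.card_mul_index (normalizer ((P : Subgroup G) : Set G)))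
    rw [← h8, mul_comm]
    apply Nat.mul_le_mul_right
    exact Nat.card_le_card_of_injective _ (Subgroup.inclusion_injective Subgroup.le_normalizer)
  have h9 : (1 : ℚ) ≤ Fintype.card (Sylow p G) := by
    exact_mod_cast Fintype.card_pos
  have h10 : (Fintype.card (Sylow p G) : ℚ) * (Nat.card (P : Subgroup G) : ℚ) ≤ Nat.card G := by
    exact_mod_cast h7
  have h11 : (Fintype.card (Sylow p G) : ℚ) * ((Nat.card (P : Subgroup G) : ℚ) / (p : ℚ) ^ 2 - 1) ≤
      (Nat.card G : ℚ) / (p : ℚ) ^ 2 - 1 := by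
    have : (Fintype.card (Sylow p G) : ℚ) * (Nat.card (P : Subgroup G) : ℚ) / (p : ℚ) ^ 2 ≤
        (Nat.card G : ℚ) / (p : ℚ) ^ 2 := by
      exact div_le_div_of_nonneg_right h10 hp2.le
    have h12 : (Fintype.card (Sylow p G) : ℚ) * ((Nat.card (P : Subgroup G) : ℚ) / (p : ℚ) ^ 2 - 1) =
       (Fintype.card (Sylow p G) : ℚ) * (Nat.card (P : Subgroup G) : ℚ) / (p : ℚ) ^ 2 -
          (Fintype.card (Sylow p G) : ℚ) := by ring
    rw [h12]
    linarith
  linarith

theorem caseB [Nontrivial G] (hZ : center G = ⊥) (hC : ∀ x : G, x ≠ 1 → IsCoatom (C x))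
    (hA : ∀ x : G, x ≠ 1 → ¬ ∀ a ∈ C x, ∀ b ∈ C x, a * b = b * a) : False := by
  classical
  haveI := Fintype.ofFinite G
  have hpg : ∀ x : G, x ≠ 1 → ∃ p : ℕ, p.Prime ∧ IsPGroup p (C x) := by
    intro x hx
    rcases dichotomy hC hx with h | h
    · exact absurd h (hA x hx)
    · exact h
  have hcover : ∀ x : G, x ≠ 1 → ∃ p : ℕ, p.Prime ∧ ∃ Q : Sylow p G, (Q : Subgroup G) = C x := by
    intro x hx
    obtain ⟨p, hp, hpx⟩ := hpg x hx
    haveI := Fact.mk hp
    obtain ⟨Q, hQ⟩ := hpx.exists_le_sylow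
    rcases (hC x hx).le_iff.mp hQ with h | h
    · exfalso
      have hG : IsPGroup p G := by
        intro g
        have hg : g ∈ (Q : Subgroup G) := h ▸ mem_top g
        obtain ⟨k, hk⟩ := Q.isPGroup' ⟨g, hg⟩
        exact ⟨k, congrArg Subtype.val hk⟩
      have := hG.center_nontrivial
      rw [hZ] at this
      exact not_nontrivial_iff_subsingleton.mpr (inferInstance : Subsingleton (⊥ : Subgroup G)) this
    · exact ⟨p, hp, Q, h⟩
  have hcover' : ∀ x : G, x ≠ 1 → ∃ p : ℕ, p.Prime ∧ ∃ Q : Sylow p G, x ∈ B Q := by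
    intro x hx
    obtain ⟨p, hp, Q, hQ⟩ := hcover x hx
    refine ⟨p, hp, Q, ?_⟩
    have hxQ : x ∈ (Q : Subgroup G) := hQ ▸ (mem_C.mpr rfl)
    refine ⟨⟨x, hxQ⟩, ?_, rfl⟩
    rw [SetLike.mem_coe, mem_center_iff]
    intro g
    apply Subtype.ext
    have : (g : G) ∈ C x := hQ ▸ g.2
    exact mem_C.mp this
  have hnc : ∀ p : ℕ, p.Prime → p ∣ Nat.card G → ∀ Q : Sylow p G,
      ¬ ∀ a b : (Q : Subgroup G), a * b = b * a := by
    intro p hp hpd Q
    haveI := Fact.mk hp
    have hQbot : (Q : Subgroup G) ≠ ⊥ := Q.ne_bot_of_dvd_card hpd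
    haveI : Nontrivial (Q : Subgroup G) := (Subgroup.nontrivial_iff_ne_bot _).mpr hQbot
    have := Q.isPGroup'.center_nontrivial
    obtain ⟨z, hz⟩ := exists_ne (1 : center (Q : Subgroup G))
    have hz1 : ((z : (Q : Subgroup G)) : G) ≠ 1 := by
      intro h
      apply hz
      apply Subtype.ext
      apply Subtype.ext
      exact h
    obtain ⟨r, hr, hrg⟩ := hpg _ hz1
    haveI := Fact.mk hr
    have hle : (Q : Subgroup G) ≤ C ((z : (Q : Subgroup G)) : G) := by
      intro u hu
      have h1 := (mem_center_iff.mp z.2) ⟨u, hu⟩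
      rw [mem_C]
      exact (congrArg Subtype.val h1)
    have hrp : r = p := by
      by_contra hne
      have hdisj := IsPGroup.disjoint_of_ne r p hne _ _ hrg Q.isPGroup'
      have hbot : (Q : Subgroup G) ≤ ⊥ := by
        have := hdisj hle le_rfl
        exact this
      exact hQbot (le_bot_iff.mp hbot)
    subst hrp
    have heq : C ((z : (Q : Subgroup G)) : G) = (Q : Subgroup G) := Q.is_maximal' hrg hle
    intro hcomm
    apply hA _ hz1
    intro a ha b hb
    rw [heq] at ha hb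
    exact congrArg Subtype.val (hcomm ⟨a, ha⟩ ⟨b, hb⟩)
  -- the count
  let N := Nat.card G
  have hN2 : 1 < N := Finite.one_lt_card
  let AA : ℕ → Finset G := fun p => Finset.univ.filter (fun x => x ≠ 1 ∧ ∃ Q : Sylow p G, x ∈ B Q)
  have hAA : ∀ p ∈ N.primeFactors, ((AA p).card : ℚ) + 1 ≤ (N : ℚ) / (p : ℚ) ^ 2 := by
    intro p hp
    have hp' := Nat.prime_of_mem_primeFactors hp
    haveI := Fact.mk hp'
    refine card_primary_le p (hnc p hp' (Nat.dvd_of_mem_primeFactors hp)) _ ?_
    intro x hx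
    exact (Finset.mem_filter.mp hx).2
  have hsub : Finset.univ.erase (1 : G) ⊆ N.primeFactors.biUnion AA := by
    intro x hx
    have hx1 := (Finset.mem_erase.mp hx).1
    obtain ⟨p, hp, Q, hQ⟩ := hcover' x hx1
    rw [Finset.mem_biUnion]
    refine ⟨p, ?_, Finset.mem_filter.mpr ⟨Finset.mem_univ _, hx1, Q, hQ⟩⟩
    rw [Nat.mem_primeFactors]
    refine ⟨hp, ?_, by omega⟩
    haveI := Fact.mk hp
    -- x ∈ B Q, so Q ≠ ⊥
    by_contra hnd
    have h0 : Nat.card (Q : Subgroup G) = 1 := by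
      obtain ⟨k, hk⟩ := IsPGroup.iff_card.mp Q.isPGroup'
      have h1 : Nat.card (Q : Subgroup G) ∣ Nat.card G := Subgroup.card_subgroup_dvd_card _
      rw [hk] at h1 ⊢
      rcases k with _ | k
      · simp
      · exact absurd (dvd_trans (dvd_pow_self p (Nat.succ_ne_zero k)) h1) hnd
    obtain ⟨q, -, hq⟩ := hQ
    apply hx1
    rw [← hq]
    have : q = 1 := by
      have h2 : Subsingleton (Q : Subgroup G) := (Nat.card_eq_one_iff_unique.mp h0).1
      have h3 : Subsingleton (center (Q : Subgroup G)) := inferInstance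
      exact Subsingleton.elim _ _
    rw [this]; rfl
  have h1 : ((N : ℚ) - 1) ≤ ∑ p ∈ N.primeFactors, ((AA p).card : ℚ) := by
    have h2 := (Finset.card_le_card hsub).trans Finset.card_biUnion_le
    rw [Finset.card_erase_of_mem (Finset.mem_univ _), Finset.card_univ, ← Nat.card_eq_fintype_card] at h2
    have h3 : (((N - 1 : ℕ)) : ℚ) ≤ ∑ p ∈ N.primeFactors, ((AA p).card : ℚ) := by
      exact_mod_cast h2
    rwa [Nat.cast_sub (by omega), Nat.cast_one] at h3
  have h2 : ∑ p ∈ N.primeFactors, (((AA p).card : ℚ) + 1) ≤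
      ∑ p ∈ N.primeFactors, (N : ℚ) * (1 / (p : ℚ) ^ 2) := by
    refine Finset.sum_le_sum (fun p hp => ?_)
    have := hAA p hp
    rw [mul_one_div]
    exact this
  have h3 : ∑ p ∈ N.primeFactors, (1 : ℚ) / (p : ℚ) ^ 2 ≤ 1 - 1 / (N : ℚ) := by
    refine le_trans ?_ (sum_sq_le N (by omega))
    apply Finset.sum_le_sum_of_subset_of_nonneg
    · intro p hp
      rw [Finset.mem_Icc]
      exact ⟨(Nat.prime_of_mem_primeFactors hp).two_le,
        Nat.le_of_dvd (by omega) (Nat.dvd_of_mem_primeFactors hp)⟩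
    · intro i _ _; positivity
  have hN0 : (0 : ℚ) < N := by exact_mod_cast (by omega : 0 < N)
  rw [Finset.sum_add_distrib, ← Finset.mul_sum] at h2
  have h4 : (N : ℚ) * ∑ p ∈ N.primeFactors, (1 : ℚ) / (p : ℚ) ^ 2 ≤ N - 1 := by
    have := mul_le_mul_of_nonneg_left h3 hN0.le
    have h5 : (N : ℚ) * (1 - 1 / (N : ℚ)) = N - 1 := by field_simp
    linarith
  simp only [Finset.sum_const, nsmul_eq_mul, mul_one] at h2
  have h5 : (0 : ℚ) < N.primeFactors.card := by
    have : 0 < N.primeFactors.card := Finset.card_pos.mpr (Nat.nonempty_primeFactors.mpr hN2)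
    exact_mod_cast this
  linarith

end count

theorem step {G : Type u} [Group G] [Finite G]
    (IH : ∀ (N : Subgroup G) [N.Normal], N ≠ ⊥ → Group.IsSolvable (G ⧸ N)) (h : Hyp G) : Group.IsSolvable G := by
  classical
  by_cases hZ : center G = ⊥
  · by_cases hnt : Subsingleton G
    · infer_instance
    haveI : Nontrivial G := not_subsingleton_iff_nontrivial.mp hnt
    have hC : ∀ x : G, x ≠ 1 → IsCoatom (C x) := by
      intro x hx
      apply h
      rw [hZ, mem_bot]
      exact hx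
    by_cases hA : ∃ x : G, x ≠ 1 ∧ ∀ a ∈ C x, ∀ b ∈ C x, a * b = b * a
    · obtain ⟨x, hx, hab⟩ := hA
      exact caseA hC IH hx hab
    · exfalso
      push Not at hA
      refine caseB hZ hC (fun x hx hcon => ?_)
      obtain ⟨a, ha, b, hb, hne⟩ := hA x hx
      exact hne (hcon a ha b hb)
  · haveI := IH (center G) hZ
    haveI : Group.IsSolvable (center G) := Group.isSolvable_of_comm (fun a b => Subtype.ext (mem_center_iff.mp a.2 (b : G)).symm)
    exact Group.isSolvable_of_ker_le_range (center G).subtype (QuotientGroup.mk' (center G)) (by simp)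

theorem main : ∀ (n : ℕ) (G : Type u) [Group G] [Finite G], Nat.card G = n → Hyp G → Group.IsSolvable G := by
  intro n
  induction n using Nat.strong_induction_on with
  | _ n ih =>
    intro G _ _ hn h
    refine step (fun N _ hN => ?_) h
    refine ih _ ?_ (G ⧸ N) rfl (quot_hyp h N)
    rw [← hn]
    have h1 := Subgroup.card_mul_index N
    have h2 : 1 < Nat.card N := by
      rw [Subgroup.one_lt_card_iff_ne_bot]; exact hN
    have h3 : Nat.card (G ⧸ N) = N.index := rfl
    have h4 : 0 < N.index := Nat.pos_of_ne_zero Subgroup.index_ne_zero_of_finite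
    rw [h3]
    nlinarith

/-- Let G be a finite group in which the centralizer of every non-central element is a maximal subgroup of G. Then G is solvable. -/
theorem result {G : Type*} [Group G] [Finite G]
    (h : ∀ g : G, g ∉ Subgroup.center G → IsCoatom (Subgroup.centralizer ({g} : Set G))) :
    Group.IsSolvable G := by
  exact main _ G rfl h

end Cfsg.Agent.S4262
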