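import Mathlib
import Cfsg.Agent.Lib.H20.Basic
import Cfsg.Statements.S4269

set_option autoImplicit false
open Pointwise
open Cfsg

namespace Cfsg.Agent.S4269

open scoped commutatorElement

variable {G : Type*} [Group G]

theorem conj_eq_of_inv_mul_mem {H : Subgroup G} {a b : G} (h : a⁻¹ * b ∈ Subgroup.normalizer (H : Set G)) :
    H.map (MulAut.conj b).toMonoidHom = H.map (MulAut.conj a).toMonoidHom := by
  have h2 := Cfsg.Agent.H20.map_eq_of_mem_normalizer H _ h
  have e : b = a * (a⁻¹ * b) := by group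
  rw [e]
  ext x
  simp only [Subgroup.mem_map] at h2 ⊢
  constructor
  · rintro ⟨y, hy, rfl⟩
    have : (MulAut.conj (a⁻¹ * b)).toMonoidHom y ∈ H.map (MulAut.conj (a⁻¹ * b)).toMonoidHom :=
      ⟨y, hy, rfl⟩
    rw [h2] at this
    exact ⟨_, this, by simp [mul_assoc]⟩
  · rintro ⟨y, hy, rfl⟩
    rw [← h2] at hy
    obtain ⟨z, hz, rfl⟩ := hy
    exact ⟨z, hz, by simp [mul_assoc]⟩

theorem inv_mul_mem_of_conj_eq {H : Subgroup G} {a b : G}
    (h : H.map (MulAut.conj b).toMonoidHom = H.map (MulAut.conj a).toMonoidHom) :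
    a⁻¹ * b ∈ Subgroup.normalizer (H : Set G) := by
  apply Cfsg.Agent.H20.mem_normalizer_of_map_eq
  ext x
  constructor
  · rintro ⟨y, hy, rfl⟩
    have : (MulAut.conj b).toMonoidHom y ∈ H.map (MulAut.conj b).toMonoidHom := ⟨y, hy, rfl⟩
    rw [h] at this
    obtain ⟨z, hz, e⟩ := this
    have e' : a * z * a⁻¹ = b * y * b⁻¹ := e
    have : (MulAut.conj (a⁻¹ * b)).toMonoidHom y = z := by
      show (a⁻¹ * b) * y * (a⁻¹ * b)⁻¹ = z
      have : z = a⁻¹ * (b * y * b⁻¹) * a := by rw [← e']; group
      rw [this]; group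
    rw [this]
    exact hz
  · intro hx
    have : (MulAut.conj a).toMonoidHom x ∈ H.map (MulAut.conj a).toMonoidHom := ⟨x, hx, rfl⟩
    rw [← h] at this
    obtain ⟨z, hz, e⟩ := this
    have e' : b * z * b⁻¹ = a * x * a⁻¹ := e
    refine ⟨z, hz, ?_⟩
    show (a⁻¹ * b) * z * (a⁻¹ * b)⁻¹ = x
    have : x = a⁻¹ * (b * z * b⁻¹) * a := by rw [e']; group
    rw [this]; group

/-- Let G be a finite group, V an abelian normal subgroup and H a subgroup with HV = G. Then H is pronormal in G (H and gHg⁻¹ are conjugate inside the subgroup they generate, for every g) if and only if every H-invariant subgroup U of V satisfies U = N_U(H)·[H, U], that is, U is the join of U ∩ N_G(H) and the commutator subgroup [H, U]. -/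
theorem result {G : Type*} [Group G] [Finite G]
    (V : Subgroup G) [V.Normal] (hV : IsMulCommutative ↥V) (H : Subgroup G) (hHV : H ⊔ V = ⊤) :
    Cfsg.IsPronormal H ↔
      ∀ U : Subgroup G, U ≤ V → (∀ h ∈ H, U.map (MulAut.conj h).toMonoidHom = U) →
        U = (U ⊓ Subgroup.normalizer (H : Set G)) ⊔ ⁅H, U⁆ := by
  classical
  have hVc : ∀ a ∈ V, ∀ b ∈ V, a * b = b * a := by
    intro a ha b hb
    have := hV.is_comm.comm ⟨a, ha⟩ ⟨b, hb⟩
    exact congrArg Subtype.val this
  constructor
  · intro hP U hUV hUinv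
    have hcomm_le : ⁅H, U⁆ ≤ U := by
      rw [Subgroup.commutator_le]
      intro h hh u hu
      have : h * u * h⁻¹ ∈ U := by
        have h1 : (MulAut.conj h).toMonoidHom u ∈ U.map (MulAut.conj h).toMonoidHom := ⟨u, hu, rfl⟩
        rw [hUinv h hh] at h1
        exact h1
      rw [commutatorElement_def]
      exact U.mul_mem this (U.inv_mem hu)
    apply le_antisymm
    · intro u hu
      obtain ⟨x, hxJ, hx⟩ := hP u
      -- `H` normalizes `[H,U]`
      have hnorm : H ≤ Subgroup.normalizer ((⁅H, U⁆ : Subgroup G) : Set G) := by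
        intro h hh
        apply Cfsg.Agent.H20.mem_normalizer_of_map_eq
        rw [Subgroup.map_commutator, hUinv h hh]
        congr 1
        ext y
        constructor
        · rintro ⟨z, hz, rfl⟩
          exact H.mul_mem (H.mul_mem hh hz) (H.inv_mem hh)
        · intro hy
          exact ⟨h⁻¹ * y * h, H.mul_mem (H.mul_mem (H.inv_mem hh) hy) hh, by
            show h * (h⁻¹ * y * h) * h⁻¹ = y
            group⟩
      have hJle : H ⊔ H.map (MulAut.conj u).toMonoidHom ≤ ⁅H, U⁆ ⊔ H := by
        apply sup_le le_sup_right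
        rintro _ ⟨h, hh, rfl⟩
        have e : (MulAut.conj u).toMonoidHom h = ⁅u, h⁆ * h := by
          show u * h * u⁻¹ = ⁅u, h⁆ * h
          rw [commutatorElement_def]; group
        rw [e]
        refine Subgroup.mul_mem _ (Subgroup.mem_sup_left ?_) (Subgroup.mem_sup_right hh)
        rw [Subgroup.commutator_comm]
        exact Subgroup.commutator_mem_commutator hu hh
      have hxJ2 := hJle hxJ
      rw [← SetLike.mem_coe, Subgroup.coe_mul_of_right_le_normalizer_left _ _ hnorm] at hxJ2
      obtain ⟨w, hw, h', hh', rfl⟩ := hxJ2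
      simp only at hx
      have hx2 : H.map (MulAut.conj u).toMonoidHom = H.map (MulAut.conj w).toMonoidHom := by
        rw [hx]
        apply conj_eq_of_inv_mul_mem
        have : w⁻¹ * (w * h') = h' := by group
        rw [this]
        exact Subgroup.le_normalizer hh'
      have hmem := inv_mul_mem_of_conj_eq hx2
      have e : u = w * (w⁻¹ * u) := by group
      rw [e]
      have hwU : w ∈ U := hcomm_le hw
      refine Subgroup.mul_mem _ (Subgroup.mem_sup_right hw) (Subgroup.mem_sup_left ⟨?_, hmem⟩)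
      exact U.mul_mem (U.inv_mem hwU) hu
    · exact sup_le inf_le_left hcomm_le
  · intro hU g
    have hg : g ∈ V ⊔ H := by rw [sup_comm, hHV]; trivial
    rw [← SetLike.mem_coe, Subgroup.normal_mul] at hg
    obtain ⟨v, hv, h₀, hh₀, rfl⟩ := hg
    simp only
    have hconj1 : H.map (MulAut.conj (v * h₀)).toMonoidHom = H.map (MulAut.conj v).toMonoidHom := by
      apply conj_eq_of_inv_mul_mem
      have : v⁻¹ * (v * h₀) = h₀ := by group
      rw [this]
      exact Subgroup.le_normalizer hh₀
    rw [hconj1]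
    let U : Subgroup G := Subgroup.closure (Set.range fun h : H => (h : G) * v * (h : G)⁻¹)
    have hUV : U ≤ V := by
      rw [Subgroup.closure_le]
      rintro _ ⟨h, rfl⟩
      exact Subgroup.Normal.conj_mem inferInstance v hv h
    have hvU : v ∈ U := by
      apply Subgroup.subset_closure
      exact ⟨1, by simp⟩
    have hUinv : ∀ h ∈ H, U.map (MulAut.conj h).toMonoidHom = U := by
      have key : ∀ h ∈ H, U.map (MulAut.conj h).toMonoidHom ≤ U := by
        intro h hh
        rw [Subgroup.map_le_iff_le_comap, Subgroup.closure_le]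
        rintro _ ⟨h', rfl⟩
        apply Subgroup.subset_closure
        refine ⟨⟨h, hh⟩ * h', ?_⟩
        show (h * (h' : G)) * v * (h * (h' : G))⁻¹ = h * ((h' : G) * v * (h' : G)⁻¹) * h⁻¹
        group
      intro h hh
      apply le_antisymm (key h hh)
      intro u hu
      refine ⟨h⁻¹ * u * h, ?_, by show h * (h⁻¹ * u * h) * h⁻¹ = u; group⟩
      have := key h⁻¹ (H.inv_mem hh) ⟨u, hu, rfl⟩
      have e : (MulAut.conj h⁻¹).toMonoidHom u = h⁻¹ * u * h := by
        show h⁻¹ * u * h⁻¹⁻¹ = _
        rw [inv_inv]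
      rwa [e] at this
    have hdecomp := hU U hUV hUinv
    have hcomm_le : ⁅H, U⁆ ≤ U := by
      rw [Subgroup.commutator_le]
      intro h hh u hu
      have : h * u * h⁻¹ ∈ U := by
        have h1 : (MulAut.conj h).toMonoidHom u ∈ U.map (MulAut.conj h).toMonoidHom := ⟨u, hu, rfl⟩
        rw [hUinv h hh] at h1
        exact h1
      rw [commutatorElement_def]
      exact U.mul_mem this (U.inv_mem hu)
    have hcomm : ⁅H, U⁆ ≤ H ⊔ H.map (MulAut.conj v).toMonoidHom := by
      rw [Subgroup.commutator_le]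
      intro h hh u hu
      set J := H ⊔ H.map (MulAut.conj v).toMonoidHom with hJ
      have hHJ : ∀ z ∈ H, z ∈ J := fun z hz => Subgroup.mem_sup_left hz
      have hH2J : ∀ z ∈ H, v * z * v⁻¹ ∈ J := fun z hz =>
        Subgroup.mem_sup_right ⟨z, hz, rfl⟩
      induction hu using Subgroup.closure_induction with
      | mem x hx =>
        obtain ⟨h', rfl⟩ := hx
        simp only
        have hh' : (h' : G) ∈ H := h'.2
        set k : G := (h' : G)⁻¹ * h * h' with hk
        have hkH : k ∈ H := H.mul_mem (H.mul_mem (H.inv_mem hh') hh) hh'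
        have e : ⁅h, (h' : G) * v * (h' : G)⁻¹⁆ = (h' : G) * (k * (v * k⁻¹ * v⁻¹)) * (h' : G)⁻¹ := by
          rw [commutatorElement_def, hk]; group
        rw [e]
        exact J.mul_mem (J.mul_mem (hHJ _ hh') (J.mul_mem (hHJ _ hkH) (hH2J _ (H.inv_mem hkH))))
          (hHJ _ (H.inv_mem hh'))
      | one => simp
      | mul x y hx hy ihx ihy =>
        have hxV := hUV hx
        have hyV := hUV hy
        have hyV' : h * y * h⁻¹ ∈ V := Subgroup.Normal.conj_mem inferInstance y hyV h
        have e : ⁅h, x * y⁆ = ⁅h, x⁆ * ⁅h, y⁆ := by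
          simp only [commutatorElement_def]
          have h1 : x⁻¹ * (h * y * h⁻¹) = (h * y * h⁻¹) * x⁻¹ :=
            hVc _ (V.inv_mem hxV) _ hyV'
          have h2 : x⁻¹ * y⁻¹ = y⁻¹ * x⁻¹ := hVc _ (V.inv_mem hxV) _ (V.inv_mem hyV)
          calc h * (x * y) * h⁻¹ * (x * y)⁻¹
              = h * x * h⁻¹ * (h * y * h⁻¹) * (y⁻¹ * x⁻¹) := by group
            _ = h * x * h⁻¹ * ((h * y * h⁻¹) * (x⁻¹ * y⁻¹)) := by rw [h2]; group
            _ = h * x * h⁻¹ * (((h * y * h⁻¹) * x⁻¹) * y⁻¹) := by group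
            _ = h * x * h⁻¹ * ((x⁻¹ * (h * y * h⁻¹)) * y⁻¹) := by rw [h1]
            _ = h * x * h⁻¹ * x⁻¹ * (h * y * h⁻¹ * y⁻¹) := by group
        rw [e]
        exact J.mul_mem ihx ihy
      | inv x hx ihx =>
        have hxV := hUV hx
        have hxV' : h * x⁻¹ * h⁻¹ ∈ V := Subgroup.Normal.conj_mem inferInstance _ (V.inv_mem hxV) h
        have e : ⁅h, x⁻¹⁆ = ⁅h, x⁆⁻¹ := by
          simp only [commutatorElement_def]
          have h1 := hVc _ hxV' _ hxV
          calc h * x⁻¹ * h⁻¹ * x⁻¹⁻¹ = (h * x⁻¹ * h⁻¹) * x := by group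
            _ = x * (h * x⁻¹ * h⁻¹) := h1
            _ = _ := by group
        rw [e]
        exact J.inv_mem ihx
    have hnorm : (U ⊓ Subgroup.normalizer (H : Set G)) ≤
        Subgroup.normalizer ((⁅H, U⁆ : Subgroup G) : Set G) := by
      intro n hn
      apply Cfsg.Agent.H20.mem_normalizer_of_conj_le
      intro c hc
      have hnV : n ∈ V := hUV hn.1
      have hcV : c ∈ V := hUV (hcomm_le hc)
      have : n * c * n⁻¹ = c := by
        rw [hVc n hnV c hcV]; group
      rw [this]
      exact hc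
    have hv2 : v ∈ ((⁅H, U⁆ ⊔ (U ⊓ Subgroup.normalizer (H : Set G)) : Subgroup G) : Set G) := by
      rw [sup_comm, ← hdecomp]
      exact hvU
    rw [Subgroup.coe_mul_of_right_le_normalizer_left _ _ hnorm] at hv2
    obtain ⟨w, hw, n, hn, rfl⟩ := hv2
    simp only at *
    have hconj2 : H.map (MulAut.conj (w * n)).toMonoidHom = H.map (MulAut.conj w).toMonoidHom := by
      apply conj_eq_of_inv_mul_mem
      have : w⁻¹ * (w * n) = n := by group
      rw [this]
      exact hn.2
    refine ⟨w, ?_, hconj2⟩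
    exact hcomm hw

end Cfsg.Agent.S4269
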