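import Cfsg.Statements.S4274
import Mathlib
import Cfsg.Agent.S2490

set_option autoImplicit false
open Cfsg

namespace Cfsg.Agent.S4274

namespace X19
open Subgroup
open Cfsg.Agent.S2490.X (sign_invol bt sign_triv comm_of_prime norm_dvd comm_of_coprime_aut free_dvd
  conj_free_dvd card_syl edge_of_commute le_zpowers_of_prime index_dvd_of_sup)

section
variable {N : Type*} [Group N] [Finite N]

lemma fix_eq' {p : ℕ} [Fact p.Prime] (Q P : Sylow p N) (h : ∀ q ∈ (Q : Subgroup N), q • P = P) :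
    P = Q := by
  have hm : P ∈ MulAction.fixedPoints (Q : Subgroup N) (Sylow p N) := fun q => h q q.2
  have hle := (IsPGroup.sylow_mem_fixedPoints_iff Q.2).1 hm
  exact Sylow.ext (Q.3 P.2 hle)

lemma act_comm' {p : ℕ} [Fact p.Prime] (Q : Sylow p N) (x : N)
    (hx : ∀ q ∈ (Q : Subgroup N), q * x = x * q) : x • Q = Q := by
  apply Sylow.smul_eq_iff_mem_normalizer.2
  apply Subgroup.centralizer_le_normalizer
  exact Subgroup.mem_centralizer_iff.2 hx

noncomputable abbrev aa {p : ℕ} (Q : Sylow p N) : ℕ := Nat.card (normalizer ((Q : Subgroup N) : Set N))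
noncomputable abbrev bb {p : ℕ} (Q : Sylow p N) : ℕ := Nat.card (centralizer ((Q : Subgroup N) : Set N))

lemma syl_data [IsSimpleGroup N] (hnc : ∃ a b : N, a * b ≠ b * a) {p B : ℕ} [Fact p.Prime]
    (hB : ¬ p ^ 2 ∣ B) (hd : Nat.card N ∣ B) (hp : p ∣ Nat.card N) (Q : Sylow p N) :
    Nat.card (Q : Subgroup N) = p ∧ Nat.card (Sylow p N) * aa Q = Nat.card N ∧
    Nat.card (Sylow p N) % p = 1 ∧ Nat.card (Sylow p N) ≠ 1 ∧ bb Q ∣ aa Q ∧
    aa Q ∣ (p - 1) * bb Q ∧ aa Q ≠ bb Q ∧ p ∣ bb Q := by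
  have hpp : p.Prime := Fact.out
  have hQ := card_syl hB hd hp Q
  have hQcomm : ∀ x ∈ (Q : Subgroup N), ∀ y ∈ (Q : Subgroup N), x * y = y * x :=
    fun x hx y hy => comm_of_prime _ hpp hQ hx hy
  have hidx := Q.card_eq_index_normalizer
  refine ⟨hQ, ?_, ?_, ?_, ?_, ?_, ?_, ?_⟩
  · rw [hidx]; exact Subgroup.index_mul_card _
  · have := card_sylow_modEq_one p N
    have h1 : Nat.card (Sylow p N) % p = 1 % p := this
    rwa [Nat.mod_eq_of_lt hpp.one_lt] at h1
  · intro h1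
    have hs : Subsingleton (Sylow p N) := (Nat.card_eq_one_iff_unique.1 h1).1
    have htop : normalizer ((Q : Subgroup N) : Set N) = ⊤ := by
      rw [eq_top_iff]
      intro g _
      exact Sylow.smul_eq_iff_mem_normalizer.1 (Subsingleton.elim _ _)
    have hQn : (Q : Subgroup N).Normal := Subgroup.normalizer_eq_top_iff.1 htop
    rcases hQn.eq_bot_or_eq_top with h | h
    · rw [h] at hQ; simp at hQ; exact hpp.one_lt.ne hQ
    · obtain ⟨a, b, hab⟩ := hnc
      exact hab (hQcomm a (by rw [h]; trivial) b (by rw [h]; trivial))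
  · exact Subgroup.card_dvd_of_le (Subgroup.centralizer_le_normalizer _)
  · exact norm_dvd (Q : Subgroup N) hpp hQ
  · intro hab
    have heq : centralizer ((Q : Subgroup N) : Set N) = normalizer ((Q : Subgroup N) : Set N) :=
      Subgroup.eq_of_le_of_card_ge (Subgroup.centralizer_le_normalizer _) hab.le
    exact bt hnc Q hp (le_of_eq heq.symm)
  · have hle : (Q : Subgroup N) ≤ centralizer ((Q : Subgroup N) : Set N) := fun x hx =>
      Subgroup.mem_centralizer_iff.2 (fun q hq => hQcomm q hq x hx)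
    have := Subgroup.card_dvd_of_le hle
    rwa [hQ] at this

lemma syl_faith [IsSimpleGroup N] {p : ℕ} [Fact p.Prime] (hn1 : Nat.card (Sylow p N) ≠ 1) :
    ∀ g : N, (∀ P : Sylow p N, g • P = P) → g = 1 := by
  intro g hg
  by_contra hg1
  have hK : (MulAction.toPermHom N (Sylow p N)).ker.Normal := inferInstance
  rcases hK.eq_bot_or_eq_top with h | h
  · apply hg1
    have : g ∈ (MulAction.toPermHom N (Sylow p N)).ker := by
      rw [MonoidHom.mem_ker]
      ext1 P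
      exact hg P
    rw [h] at this
    exact this
  · apply hn1
    rw [Nat.card_eq_one_iff_unique]
    obtain ⟨Q⟩ := (inferInstance : Nonempty (Sylow p N))
    refine ⟨⟨fun P P' => ?_⟩, ⟨Q⟩⟩
    obtain ⟨x, hx⟩ := MulAction.exists_smul_eq N P P'
    have hx' : x ∈ (MulAction.toPermHom N (Sylow p N)).ker := by rw [h]; trivial
    rw [MonoidHom.mem_ker] at hx'
    have := congrArg (fun τ : Equiv.Perm (Sylow p N) => τ P) hx'
    have e : x • P = P := this
    rw [← hx, e]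

lemma syl_deg [IsSimpleGroup N] {p r : ℕ} [Fact p.Prime] (hn1 : Nat.card (Sylow p N) ≠ 1)
    (hr : r.Prime) (hrd : r ∣ Nat.card N) : r ≤ Nat.card (Sylow p N) := by
  classical
  haveI : Fintype (Sylow p N) := Fintype.ofFinite _
  have hinj : Function.Injective (MulAction.toPermHom N (Sylow p N)) := by
    rw [injective_iff_map_eq_one]
    intro g hg
    apply syl_faith hn1
    intro P
    exact congrArg (fun τ : Equiv.Perm (Sylow p N) => τ P) hg
  have hdv : Nat.card N ∣ Nat.card (Equiv.Perm (Sylow p N)) :=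
    Subgroup.card_dvd_of_injective _ hinj
  rw [Nat.card_eq_fintype_card (α := Equiv.Perm (Sylow p N)), Fintype.card_perm,
    ← Nat.card_eq_fintype_card] at hdv
  exact (Nat.Prime.dvd_factorial hr).1 (hrd.trans hdv)

lemma prime_175560 {p : ℕ} (hp : p.Prime) (h : p ∣ 175560) :
    p = 2 ∨ p = 3 ∨ p = 5 ∨ p = 7 ∨ p = 11 ∨ p = 19 := by
  have : 175560 = 2 ^ 3 * 3 * 5 * 7 * 11 * 19 := by norm_num
  rw [this] at h
  simp only [Nat.Prime.dvd_mul hp] at h
  rcases h with ((((h | h) | h) | h) | h) | h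
  · left; exact (Nat.prime_dvd_prime_iff_eq hp (by norm_num)).1 (hp.dvd_of_dvd_pow h)
  · right; left; exact (Nat.prime_dvd_prime_iff_eq hp (by norm_num)).1 h
  · right; right; left; exact (Nat.prime_dvd_prime_iff_eq hp (by norm_num)).1 h
  · right; right; right; left; exact (Nat.prime_dvd_prime_iff_eq hp (by norm_num)).1 h
  · right; right; right; right; left; exact (Nat.prime_dvd_prime_iff_eq hp (by norm_num)).1 h
  · right; right; right; right; right; exact (Nat.prime_dvd_prime_iff_eq hp (by norm_num)).1 h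

lemma four_dvd [IsSimpleGroup N] (hnc : ∃ a b : N, a * b ≠ b * a) (hd : Nat.card N ∣ 175560) :
    4 ∣ Nat.card N := by
  by_contra h4
  have hne1 : Nat.card N ≠ 1 := by
    intro h
    obtain ⟨a, b, hab⟩ := hnc
    haveI := (Nat.card_eq_one_iff_unique.1 h).1
    exact hab (Subsingleton.elim _ _)
  set p := (Nat.card N).minFac with hpdef
  have hpp : p.Prime := Nat.minFac_prime hne1
  haveI : Fact p.Prime := ⟨hpp⟩
  have hpd : p ∣ Nat.card N := Nat.minFac_dvd _
  have hp2 : ¬ p ^ 2 ∣ Nat.card N := by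
    intro h
    have hp6 := prime_175560 hpp (hpd.trans hd)
    rcases hp6 with h' | h' | h' | h' | h' | h' <;> rw [h'] at h
    · exact h4 h
    all_goals
      have := h.trans hd
      norm_num at this
  obtain ⟨P⟩ := (inferInstance : Nonempty (Sylow p N))
  have hP := card_syl hp2 dvd_rfl hpd P
  haveI hc : IsCyclic (P : Subgroup N) := isCyclic_of_prime_card hP
  exact bt hnc P hpd (IsCyclic.normalizer_le_centralizer (G := N) rfl hc)

lemma edge_q {p q : ℕ} [Fact p.Prime] (Qp : Sylow p N) (hp : Nat.card (Qp : Subgroup N) = p)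
    (hq : q.Prime) (hqd : q ∣ aa Qp) (hco : Nat.Coprime q (p - 1)) : q ∣ bb Qp := by
  have hpp : p.Prime := Fact.out
  haveI : Fact q.Prime := ⟨hq⟩
  obtain ⟨x, hx⟩ := exists_prime_orderOf_dvd_card' (G := normalizer ((Qp : Subgroup N) : Set N)) q hqd
  have hxc := comm_of_coprime_aut (Qp : Subgroup N) hpp hp (x : N) x.2
    (by rw [Subgroup.orderOf_coe, hx]; exact hco)
  have hm : (x : N) ∈ centralizer ((Qp : Subgroup N) : Set N) := Subgroup.mem_centralizer_iff.2 hxc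
  have := orderOf_dvd_natCard (⟨(x : N), hm⟩ : centralizer ((Qp : Subgroup N) : Set N))
  rwa [Subgroup.orderOf_mk, Subgroup.orderOf_coe, hx] at this

lemma edge_transfer {p q : ℕ} [Fact p.Prime] [Fact q.Prime] (Qp : Sylow p N) (Qq : Sylow q N)
    (hp : Nat.card (Qp : Subgroup N) = p) (hq : Nat.card (Qq : Subgroup N) = q)
    (hb : q ∣ bb Qp) : p ∣ bb Qq := by
  have hpp : p.Prime := Fact.out
  have hqp : q.Prime := Fact.out
  obtain ⟨x0, hx0⟩ := exists_prime_orderOf_dvd_card' (G := centralizer ((Qp : Subgroup N) : Set N)) q hb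
  set x : N := (x0 : N) with hxdef
  have hxo : orderOf x = q := by rw [hxdef, Subgroup.orderOf_coe]; exact hx0
  have hxp : IsPGroup q (Subgroup.zpowers x) := by
    apply IsPGroup.of_card (n := 1)
    rw [Nat.card_zpowers, pow_one, hxo]
  obtain ⟨Q', hQ'⟩ := hxp.exists_le_sylow
  obtain ⟨g, hg⟩ := MulAction.exists_smul_eq N Q' Qq
  have hx1 : x ≠ 1 := by
    intro h
    rw [h, orderOf_one] at hxo
    exact hqp.one_lt.ne hxo
  have hx2 : x ^ q = 1 := by rw [← hxo]; exact pow_orderOf_eq_one x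
  -- `g x g⁻¹` generates `Qq`
  have hmem : g * x * g⁻¹ ∈ (Qq : Subgroup N) := by
    rw [← hg, Sylow.coe_subgroup_smul]
    exact ⟨x, hQ' (Subgroup.mem_zpowers x), rfl⟩
  have hne : g * x * g⁻¹ ≠ 1 := by
    intro h
    apply hx1
    have : g * x = g := by rwa [mul_inv_eq_one] at h
    simpa using this
  have hle := le_zpowers_of_prime (Qq : Subgroup N) hqp hq hmem hne
  obtain ⟨z, hzP, hz1⟩ : ∃ z ∈ (Qp : Subgroup N), z ≠ 1 := by
    apply (Subgroup.bot_or_exists_ne_one _).resolve_left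
    intro h
    rw [h] at hp
    simp at hp
    exact hpp.one_lt.ne hp
  have hzo : orderOf z = p := by
    have h1 := orderOf_dvd_natCard (⟨z, hzP⟩ : (Qp : Subgroup N))
    rw [hp, Subgroup.orderOf_mk] at h1
    exact ((Nat.dvd_prime hpp).1 h1).resolve_left (fun h => hz1 (orderOf_eq_one_iff.1 h))
  have hcomm : z * x = x * z := Subgroup.mem_centralizer_iff.1 x0.2 z hzP
  set y := g * z * g⁻¹ with hy
  have hyc : y ∈ centralizer ((Qq : Subgroup N) : Set N) := by
    rw [Subgroup.mem_centralizer_iff]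
    intro w hw
    have hst : Subgroup.zpowers (g * x * g⁻¹) ≤ Subgroup.centralizer {y} := by
      rw [Subgroup.zpowers_le]
      apply Subgroup.mem_centralizer_singleton_iff.2
      rw [hy]
      calc g * x * g⁻¹ * (g * z * g⁻¹) = g * (x * z) * g⁻¹ := by group
        _ = g * (z * x) * g⁻¹ := by rw [hcomm]
        _ = g * z * g⁻¹ * (g * x * g⁻¹) := by group
    exact Subgroup.mem_centralizer_singleton_iff.1 (hst (hle hw))
  have hyo : orderOf y = p := by
    rw [← hzo, hy]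
    have := MulEquiv.orderOf_eq (MulAut.conj g) z
    rw [← this]
    rfl
  have := orderOf_dvd_natCard (⟨y, hyc⟩ : centralizer ((Qq : Subgroup N) : Set N))
  rwa [Subgroup.orderOf_mk, hyo] at this

lemma exists_K {p : ℕ} [Fact p.Prime] (Q : Sylow p N) (hQ : Nat.card (Q : Subgroup N) = p)
    (hp2 : ¬ p ^ 2 ∣ bb Q) (hpb : p ∣ bb Q) :
    ∃ K : Subgroup N, K ≤ centralizer ((Q : Subgroup N) : Set N) ∧ Nat.card K * p = bb Q ∧
      Nat.Coprime (Nat.card K) p := by
  have hpp : p.Prime := Fact.out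
  set C := centralizer ((Q : Subgroup N) : Set N) with hC
  have hQcomm : ∀ x ∈ (Q : Subgroup N), ∀ y ∈ (Q : Subgroup N), x * y = y * x :=
    fun x hx y hy => comm_of_prime _ hpp hQ hx hy
  have hQC : (Q : Subgroup N) ≤ C := fun x hx =>
    Subgroup.mem_centralizer_iff.2 (fun q hq => hQcomm q hq x hx)
  let Q0 : Subgroup C := (Q : Subgroup N).subgroupOf C
  have hQ0n : Q0.Normal := by
    constructor
    intro n hn g
    have hn' : (n : N) ∈ (Q : Subgroup N) := hn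
    show ((g * n * g⁻¹ : C) : N) ∈ (Q : Subgroup N)
    have : ((g * n * g⁻¹ : C) : N) = (n : N) := by
      have h1 : (n : N) * (g : N) = (g : N) * (n : N) := Subgroup.mem_centralizer_iff.1 g.2 n hn'
      simp only [Subgroup.coe_mul, Subgroup.coe_inv]
      rw [← h1]; group
    rw [this]; exact hn'
  have hQ0c : Nat.card Q0 = p :=
    (Nat.card_congr (Subgroup.subgroupOfEquivOfLe hQC).toEquiv).trans hQ
  have hidx : Q0.index * p = bb Q := by
    have := Subgroup.index_mul_card Q0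
    rw [hQ0c] at this
    exact this
  have hco : Nat.Coprime (Nat.card Q0) Q0.index := by
    rw [hQ0c]
    apply (Nat.Prime.coprime_iff_not_dvd hpp).2
    intro h
    apply hp2
    rw [← hidx, pow_two]
    exact mul_dvd_mul_right h p
  obtain ⟨H, hH⟩ := Subgroup.exists_right_complement'_of_coprime hco
  have hHc : Nat.card H * p = bb Q := by
    have := hH.card_mul_card
    rw [hQ0c, mul_comm] at this
    exact this
  refine ⟨H.map C.subtype, Subgroup.map_subtype_le H, ?_, ?_⟩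
  · rw [← hHc]
    congr 1
    exact (Nat.card_congr (Subgroup.equivMapOfInjective H _ C.subtype_injective).toEquiv).symm
  · have e : Nat.card (H.map C.subtype) = Nat.card H :=
      (Nat.card_congr (Subgroup.equivMapOfInjective H _ C.subtype_injective).toEquiv).symm
    rw [e]
    apply Nat.Coprime.symm
    apply (Nat.Prime.coprime_iff_not_dvd hpp).2
    intro h
    apply hp2
    rw [← hHc, pow_two]
    exact mul_dvd_mul_right h p

/-- the elements whose order is divisible by `p` and divides `p * k`. -/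
abbrev DD (N : Type*) [Group N] (p k : ℕ) : Type _ := {g : N // p ∣ orderOf g ∧ orderOf g ∣ p * k}

lemma count_mixed {p : ℕ} [Fact p.Prime] (Q : Sylow p N) (hQ : Nat.card (Q : Subgroup N) = p)
    (K : Subgroup N) (hK : K ≤ centralizer ((Q : Subgroup N) : Set N))
    (hco : Nat.Coprime (Nat.card K) p) :
    Nat.card (Sylow p N) * (p - 1) * Nat.card K ≤ Nat.card (DD N p (Nat.card K)) := by
  classical
  have hpp : p.Prime := Fact.out
  choose u hu using fun Q' : Sylow p N => MulAction.exists_smul_eq N Q Q'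
  let X := {x : (Q : Subgroup N) // x ≠ 1}
  have hXc : Nat.card X = p - 1 := by
    haveI : Fintype ↥(Q : Subgroup N) := Fintype.ofFinite _
    have h1 := Set.card_ne_eq (1 : ↥(Q : Subgroup N))
    rw [Nat.card_eq_fintype_card]
    refine h1.trans ?_
    rw [← Nat.card_eq_fintype_card, hQ]
  -- orders
  have hxord : ∀ x : X, orderOf ((x.1 : N)) = p := by
    intro x
    have h1 := orderOf_dvd_natCard x.1
    rw [hQ] at h1
    have h2 : orderOf x.1 = p :=
      ((Nat.dvd_prime hpp).1 h1).resolve_left (fun h => x.2 (orderOf_eq_one_iff.1 h))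
    rwa [Subgroup.orderOf_coe] 
  have hwK : ∀ w : K, orderOf (w : N) ∣ Nat.card K := by
    intro w
    rw [Subgroup.orderOf_coe]
    exact orderOf_dvd_natCard w
  have hcomm : ∀ (x : X) (w : K), Commute ((x.1 : N)) (w : N) := by
    intro x w
    exact Subgroup.mem_centralizer_iff.1 (hK w.2) x.1 x.1.2
  have hord : ∀ (x : X) (w : K), orderOf ((x.1 : N) * (w : N)) = p * orderOf (w : N) := by
    intro x w
    rw [(hcomm x w).orderOf_mul_eq_mul_orderOf_of_coprime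
      (by
        rw [hxord x]
        exact (Nat.Coprime.coprime_dvd_left (hwK w) hco).symm), hxord x]
  have hconj : ∀ (g y : N), orderOf (g * y * g⁻¹) = orderOf y := by
    intro g y
    have := MulEquiv.orderOf_eq (MulAut.conj g) y
    rw [← this]; rfl
  let φ : Sylow p N × X × K → DD N p (Nat.card K) := fun t =>
    ⟨u t.1 * ((t.2.1.1 : N) * (t.2.2 : N)) * (u t.1)⁻¹, by
      rw [hconj, hord]
      exact ⟨Dvd.intro _ rfl, mul_dvd_mul_left p (hwK t.2.2)⟩⟩
  have hinj : Function.Injective φ := by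
    rintro ⟨Q1, x1, w1⟩ ⟨Q2, x2, w2⟩ h
    have h0 : u Q1 * ((x1.1 : N) * (w1 : N)) * (u Q1)⁻¹ = u Q2 * ((x2.1 : N) * (w2 : N)) * (u Q2)⁻¹ :=
      congrArg Subtype.val h
    -- a number `t ≡ 1 mod p`, `t ≡ 0 mod |K|`
    obtain ⟨t, ht1, ht2⟩ : ∃ t : ℕ, t % p = 1 ∧ Nat.card K ∣ t := by
      have hpk : p ≠ 1 := hpp.ne_one
      obtain ⟨m, hm⟩ := Nat.exists_mul_mod_eq_one_of_coprime hco hpp.one_lt
      exact ⟨Nat.card K * m, hm.2, Dvd.intro _ rfl⟩
    have hx_pow : ∀ x : X, ((x.1 : N)) ^ t = (x.1 : N) := by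
      intro x
      have hp1 : ((x.1 : N)) ^ p = 1 := by
        have := pow_orderOf_eq_one (x.1 : N)
        rwa [hxord x] at this
      conv_lhs => rw [← Nat.div_add_mod t p, ht1, pow_add, pow_mul, hp1, one_pow, one_mul, pow_one]
    have hw_pow : ∀ w : K, ((w : N)) ^ t = 1 := by
      intro w
      exact orderOf_dvd_iff_pow_eq_one.1 ((hwK w).trans ht2)
    have hpow : ∀ (Q' : Sylow p N) (x : X) (w : K),
        (u Q' * ((x.1 : N) * (w : N)) * (u Q')⁻¹) ^ t = u Q' * (x.1 : N) * (u Q')⁻¹ := by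
      intro Q' x w
      rw [conj_pow, (hcomm x w).mul_pow, hx_pow, hw_pow, mul_one]
    have h1 : u Q1 * (x1.1 : N) * (u Q1)⁻¹ = u Q2 * (x2.1 : N) * (u Q2)⁻¹ := by
      rw [← hpow Q1 x1 w1, ← hpow Q2 x2 w2, h0]
    have hmemQ : ∀ (Q' : Sylow p N) (x : X), u Q' * (x.1 : N) * (u Q')⁻¹ ∈ (Q' : Subgroup N) := by
      intro Q' x
      have h1 : u Q' * (x.1 : N) * (u Q')⁻¹ ∈ ((u Q' • Q : Sylow p N) : Subgroup N) := by
        rw [Sylow.coe_subgroup_smul]
        exact ⟨(x.1 : N), x.1.2, rfl⟩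
      rwa [hu Q'] at h1
    have hQeq : Q1 = Q2 := by
      have hne : u Q1 * (x1.1 : N) * (u Q1)⁻¹ ≠ 1 := by
        intro h
        have hx1 : (x1.1 : N) = 1 := by
          have : u Q1 * (x1.1 : N) = u Q1 := by rwa [mul_inv_eq_one] at h
          simpa using this
        exact x1.2 (Subtype.ext hx1)
      have hc1 : Nat.card (Q1 : Subgroup N) = p :=
        (Q1.card_eq_multiplicity.trans Q.card_eq_multiplicity.symm).trans hQ
      have hle := le_zpowers_of_prime (Q1 : Subgroup N) hpp hc1 (hmemQ Q1 x1) hne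
      have hle2 : (Q1 : Subgroup N) ≤ (Q2 : Subgroup N) := by
        apply hle.trans
        rw [Subgroup.zpowers_le, h1]
        exact hmemQ Q2 x2
      exact Sylow.ext (Q1.3 Q2.2 hle2).symm
    subst hQeq
    have hx : (x1.1 : N) = (x2.1 : N) := by
      have := h1
      simpa using this
    have hw : (w1 : N) = (w2 : N) := by
      have := h0
      rw [hx] at this
      simpa using this
    have e1 : x1 = x2 := Subtype.ext (Subtype.ext hx)
    have e2 : w1 = w2 := Subtype.ext hw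
    rw [e1, e2]
  have := Nat.card_le_card_of_injective φ hinj
  rw [Nat.card_prod, Nat.card_prod, hXc] at this
  calc Nat.card (Sylow p N) * (p - 1) * Nat.card K = Nat.card (Sylow p N) * ((p - 1) * Nat.card K) := by ring
    _ ≤ _ := this

/-- disjoint sets. -/
lemma add_card (A B : N → Prop) (hd : ∀ g, A g → ¬ B g) :
    Nat.card {g // A g} + Nat.card {g // B g} ≤ Nat.card {g // A g ∨ B g} := by
  classical
  let f : {g // A g} ⊕ {g // B g} → {g // A g ∨ B g} := fun t =>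
    match t with
    | Sum.inl a => ⟨a.1, Or.inl a.2⟩
    | Sum.inr b => ⟨b.1, Or.inr b.2⟩
  have hf : Function.Injective f := by
    rintro (a | b) (a' | b') h
    · have h' := congrArg Subtype.val h
      have : a.1 = a'.1 := h'
      rw [Subtype.ext this]
    · have : a.1 = b'.1 := congrArg Subtype.val h
      exact absurd (this ▸ b'.2) (hd _ a.2)
    · have : b.1 = a'.1 := congrArg Subtype.val h
      exact absurd (this ▸ b.2) (hd _ a'.2)
    · have h' := congrArg Subtype.val h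
      have : b.1 = b'.1 := h'
      rw [Subtype.ext this]
  have := Nat.card_le_card_of_injective f hf
  rwa [Nat.card_sum] at this

lemma sum3 {p1 k1 p2 k2 p3 k3 : ℕ} (h12 : ¬ p1 ∣ p2 * k2) (h13 : ¬ p1 ∣ p3 * k3) (h23 : ¬ p2 ∣ p3 * k3) :
    Nat.card (DD N p1 k1) + Nat.card (DD N p2 k2) + Nat.card (DD N p3 k3) ≤ Nat.card N := by
  classical
  have h1 := add_card (N := N) (fun g => p1 ∣ orderOf g ∧ orderOf g ∣ p1 * k1)
    (fun g => p2 ∣ orderOf g ∧ orderOf g ∣ p2 * k2) (fun g hg hg' => h12 (hg.1.trans hg'.2))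
  have h2 := add_card (N := N) (fun g => (p1 ∣ orderOf g ∧ orderOf g ∣ p1 * k1) ∨ (p2 ∣ orderOf g ∧ orderOf g ∣ p2 * k2))
    (fun g => p3 ∣ orderOf g ∧ orderOf g ∣ p3 * k3) (by
      rintro g (hg | hg) hg'
      · exact h13 (hg.1.trans hg'.2)
      · exact h23 (hg.1.trans hg'.2))
  have h3 : Nat.card {g : N // ((p1 ∣ orderOf g ∧ orderOf g ∣ p1 * k1) ∨ (p2 ∣ orderOf g ∧ orderOf g ∣ p2 * k2)) ∨ (p3 ∣ orderOf g ∧ orderOf g ∣ p3 * k3)} ≤ Nat.card N :=
    Finite.card_subtype_le _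
  have h4 : Nat.card (DD N p1 k1) + Nat.card (DD N p2 k2) + Nat.card (DD N p3 k3) ≤ Nat.card {g : N // ((p1 ∣ orderOf g ∧ orderOf g ∣ p1 * k1) ∨ (p2 ∣ orderOf g ∧ orderOf g ∣ p2 * k2)) ∨ (p3 ∣ orderOf g ∧ orderOf g ∣ p3 * k3)} := by
    exact le_trans (Nat.add_le_add_right h1 _) h2
  exact h4.trans h3
end
end X19


namespace X19
open Subgroup
open Cfsg.Agent.S2490.X (sign_invol bt sign_triv comm_of_prime norm_dvd comm_of_coprime_aut free_dvd
  conj_free_dvd card_syl edge_of_commute le_zpowers_of_prime index_dvd_of_sup)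

local instance f19 : Fact (Nat.Prime 19) := ⟨by norm_num⟩
local instance f11 : Fact (Nat.Prime 11) := ⟨by norm_num⟩
local instance f7 : Fact (Nat.Prime 7) := ⟨by norm_num⟩
local instance f5 : Fact (Nat.Prime 5) := ⟨by norm_num⟩

section
variable {α : Type*} [Fintype α] [DecidableEq α]

lemma sign_four' (σ : Equiv.Perm α) (h4 : σ ^ 4 = 1) (a : α) (ha : σ a = a)
    (hfix : ∀ x, (σ ^ 2) x = x → x = a) (k : ℕ) (hcard : Fintype.card α = 4 * k + 1) (hk : Odd k) :
    Equiv.Perm.sign σ = -1 := by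
  have hall : ∀ m ∈ σ.cycleType, m = 4 := by
    intro m hm
    have h2 := Equiv.Perm.two_le_of_mem_cycleType hm
    have hd : m ∣ 4 := (Equiv.Perm.dvd_of_mem_cycleType hm).trans (orderOf_dvd_of_pow_eq_one h4)
    have hle := Nat.le_of_dvd (by norm_num) hd
    interval_cases m
    · exfalso
      rw [Equiv.Perm.cycleType_def, Multiset.mem_map] at hm
      obtain ⟨c, hc, hcs⟩ := hm
      have hc' : c ∈ σ.cycleFactorsFinset := hc
      have hcyc := Equiv.Perm.mem_cycleFactorsFinset_iff.1 hc'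
      obtain ⟨x, hx⟩ : c.support.Nonempty := by
        rw [← Finset.card_pos]
        simp only [Function.comp] at hcs
        omega
      have hcc : c x ≠ x := Equiv.Perm.mem_support.1 hx
      have hcx : c x ∈ c.support := Equiv.Perm.apply_mem_support.2 hx
      have hσx : ∀ y ∈ c.support, σ y = c y := fun y hy => (hcyc.2 y hy).symm
      have ho : orderOf c = 2 := by
        rw [hcyc.1.orderOf]
        simpa [Function.comp] using hcs
      have hc2 : c ^ 2 = 1 := by rw [← ho]; exact pow_orderOf_eq_one c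
      have h1 : (σ ^ 2) x = x := by
        have : (c ^ 2) x = x := by rw [hc2]; rfl
        rw [pow_two] at this ⊢
        simp only [Equiv.Perm.mul_apply] at this ⊢
        rw [hσx x hx, hσx _ hcx]; exact this
      have h2' : (σ ^ 2) (c x) = c x := by
        have : (c ^ 2) (c x) = c x := by rw [hc2]; rfl
        rw [pow_two] at this ⊢
        simp only [Equiv.Perm.mul_apply] at this ⊢
        rw [hσx _ hcx, hσx _ (Equiv.Perm.apply_mem_support.2 hcx)]; exact this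
      exact hcc ((hfix _ h2').trans (hfix _ h1).symm)
    · exfalso; omega
    · rfl
  have hrep : σ.cycleType = Multiset.replicate (Multiset.card σ.cycleType) 4 :=
    Multiset.eq_replicate.2 ⟨rfl, hall⟩
  have hsupp : σ.support = Finset.univ.erase a := by
    ext x
    simp only [Equiv.Perm.mem_support, Finset.mem_erase, Finset.mem_univ, and_true]
    constructor
    · intro hx hxa; exact hx (hxa ▸ ha)
    · intro hx hσ
      apply hx; apply hfix
      rw [pow_two, Equiv.Perm.mul_apply, hσ, hσ]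
  have hs : σ.support.card = 4 * k := by
    rw [hsupp, Finset.card_erase_of_mem (Finset.mem_univ a), Finset.card_univ, hcard]
    omega
  have hsum : σ.cycleType.sum = 4 * k := by rw [Equiv.Perm.sum_cycleType, hs]
  have hcardc : Multiset.card σ.cycleType = k := by
    rw [hrep] at hsum
    simp at hsum
    rw [hrep]; simp; omega
  rw [Equiv.Perm.sign_of_cycleType, hsum, hcardc]
  have : 4 * k + k = 5 * k := by ring
  rw [this, pow_mul]
  have h5 : ((-1 : ℤˣ)) ^ 5 = -1 := by decide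
  rw [h5, hk.neg_one_pow]
end

section
variable {N : Type*} [Group N] [Finite N]

lemma fix_data [IsSimpleGroup N] (hnc : ∃ a b : N, a * b ≠ b * a) {p : ℕ} [Fact p.Prime] (Q : Sylow p N)
    (hn1 : Nat.card (Sylow p N) ≠ 1)
    (r : N) (hr1 : r ≠ 1) (hr2 : r ^ 2 = 1) (hrc : ∀ q ∈ (Q : Subgroup N), q * r = r * q) :
    Nat.card {P : Sylow p N // r • P = P} % p = 1 ∧
    Nat.card {P : Sylow p N // r • P = P} < Nat.card (Sylow p N) ∧
    2 ∣ (Nat.card (Sylow p N) - Nat.card {P : Sylow p N // r • P = P}) ∧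
    Even ((Nat.card (Sylow p N) - Nat.card {P : Sylow p N // r • P = P}) / 2) := by
  classical
  have hpp : p.Prime := Fact.out
  have hfaith := syl_faith hn1
  haveI : Fintype (Sylow p N) := Fintype.ofFinite _
  let S : SubMulAction (Q : Subgroup N) (Sylow p N) :=
    { carrier := {P | r • P = P}
      smul_mem' := by
        intro q P hP
        show r • (q • P) = q • P
        have : r • (q • P) = q • (r • P) := by
          show r • ((q : N) • P) = (q : N) • (r • P)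
          rw [smul_smul, smul_smul, hrc q q.2]
        rw [this, hP] }
  have hmod := IsPGroup.card_modEq_card_fixedPoints Q.2 S
  have hQS : Q ∈ S := act_comm' Q r hrc
  have hfp : Nat.card (MulAction.fixedPoints (Q : Subgroup N) S) = 1 := by
    rw [Nat.card_eq_one_iff_unique]
    constructor
    · constructor
      rintro ⟨⟨P, hP⟩, hPf⟩ ⟨⟨P', hP'⟩, hPf'⟩
      have e1 : P = Q := fix_eq' Q P (fun q hq => congrArg Subtype.val (hPf ⟨q, hq⟩))
      have e2 : P' = Q := fix_eq' Q P' (fun q hq => congrArg Subtype.val (hPf' ⟨q, hq⟩))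
      apply Subtype.ext; apply Subtype.ext; simp [e1, e2]
    · refine ⟨⟨⟨Q, hQS⟩, ?_⟩⟩
      intro q
      apply Subtype.ext
      exact Sylow.smul_eq_iff_mem_normalizer.2 (Subgroup.le_normalizer q.2)
  rw [hfp] at hmod
  have hScard : Nat.card S = Nat.card {P : Sylow p N // r • P = P} := rfl
  rw [hScard] at hmod
  let σ : Equiv.Perm (Sylow p N) := MulAction.toPermHom N (Sylow p N) r
  have hσ2 : σ ^ 2 = 1 := by
    show (MulAction.toPermHom N (Sylow p N) r) ^ 2 = 1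
    rw [← map_pow, hr2, map_one]
  obtain ⟨hd, hs⟩ := sign_invol σ hσ2
  have hst : Equiv.Perm.sign σ = 1 :=
    sign_triv hnc ((Equiv.Perm.sign).comp (MulAction.toPermHom N (Sylow p N))) r
  rw [hst] at hs
  have hev : Even (σ.support.card / 2) := by
    by_contra hodd
    rw [Nat.not_even_iff_odd] at hodd
    rw [hodd.neg_one_pow] at hs
    exact absurd hs (by decide)
  have hFcard : Nat.card {P : Sylow p N // r • P = P} =
      (Finset.univ.filter (fun P : Sylow p N => r • P = P)).card := by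
    rw [Nat.card_eq_fintype_card, ← Fintype.card_subtype]
  have hsupp : σ.support = Finset.univ.filter (fun P : Sylow p N => ¬ r • P = P) := by
    ext P
    simp only [Equiv.Perm.mem_support, Finset.mem_filter, Finset.mem_univ, true_and]
    rfl
  have hsum : σ.support.card + Nat.card {P : Sylow p N // r • P = P} = Nat.card (Sylow p N) := by
    rw [hFcard, hsupp, add_comm, Finset.card_filter_add_card_filter_not, Finset.card_univ,
      Nat.card_eq_fintype_card]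
  have hne : 0 < σ.support.card := by
    rw [Finset.card_pos]
    by_contra h
    rw [Finset.not_nonempty_iff_eq_empty, Equiv.Perm.support_eq_empty_iff] at h
    apply hr1
    apply hfaith
    intro P
    have := congrArg (fun τ : Equiv.Perm (Sylow p N) => τ P) h
    exact this
  have hm : Nat.card {P : Sylow p N // r • P = P} % p = 1 % p := hmod
  rw [Nat.mod_eq_of_lt hpp.one_lt] at hm
  have e : Nat.card (Sylow p N) - Nat.card {P : Sylow p N // r • P = P} = σ.support.card := by omega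
  refine ⟨hm, by omega, ?_, ?_⟩
  · rw [e]; exact hd
  · rw [e]; exact hev

/-- if `F = 1` the fixed point is unique -/
lemma fix_unique {p : ℕ} [Fact p.Prime] (Q : Sylow p N) (r : N) (hrc : r • Q = Q)
    (h : Nat.card {P : Sylow p N // r • P = P} = 1) : ∀ P : Sylow p N, r • P = P → P = Q := by
  intro P hP
  have hu : Subsingleton {P : Sylow p N // r • P = P} := (Nat.card_eq_one_iff_unique.1 h).1
  exact congrArg Subtype.val (hu.elim ⟨P, hP⟩ ⟨Q, hrc⟩)

/-- `n = 20` -/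
lemma L20 [IsSimpleGroup N] (hnc : ∃ a b : N, a * b ≠ b * a) (Q : Sylow 19 N)
    (hQ : Nat.card (Q : Subgroup N) = 19)
    (hn : Nat.card (Sylow 19 N) = 20) (hfaith : ∀ g : N, (∀ P : Sylow 19 N, g • P = P) → g = 1) :
    ∃ e, aa Q = 19 * e ∧ e ∣ 18 ∧ ¬ 2 ∣ e ∧ e ≠ 1 := by
  classical
  haveI : Fintype (Sylow 19 N) := Fintype.ofFinite _
  haveI : Fintype ↥(Q : Subgroup N) := Fintype.ofFinite _
  have hQcomm : ∀ x ∈ (Q : Subgroup N), ∀ y ∈ (Q : Subgroup N), x * y = y * x :=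
    fun x hx y hy => comm_of_prime _ (by norm_num) hQ hx hy
  haveI : Nontrivial (Sylow 19 N) := Finite.one_lt_card_iff_nontrivial.1 (by rw [hn]; norm_num)
  obtain ⟨P', hP'⟩ := exists_ne Q
  have hfree : ∀ q ∈ (Q : Subgroup N), q • P' = P' → q = 1 := by
    intro q hq hqP
    by_contra hq1
    have hle := le_zpowers_of_prime (Q : Subgroup N) (by norm_num) hQ hq hq1
    have hst : Subgroup.zpowers q ≤ MulAction.stabilizer N P' := Subgroup.zpowers_le.2 hqP
    exact hP' (fix_eq' Q P' (fun x hx => hst (hle hx)))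
  let ι : ↥(Q : Subgroup N) → Sylow 19 N := fun q => (q : N) • P'
  have hinj : Function.Injective ι := by
    intro a b hab
    have h1 : ((b : N)⁻¹ * (a : N)) • P' = P' := by
      rw [← smul_smul]
      have : (a : N) • P' = (b : N) • P' := hab
      rw [this, smul_smul, inv_mul_cancel, one_smul]
    have h2 := hfree _ ((Q : Subgroup N).mul_mem ((Q : Subgroup N).inv_mem b.2) a.2) h1
    apply Subtype.ext
    have : (a : N) = (b : N) := by
      rw [inv_mul_eq_one] at h2; exact h2.symm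
    exact this
  have hne : ∀ q ∈ (Q : Subgroup N), q • P' ≠ Q := by
    intro q hq h
    apply hP'
    have : q⁻¹ • Q = Q := Sylow.smul_eq_iff_mem_normalizer.2
      (Subgroup.le_normalizer ((Q : Subgroup N).inv_mem hq))
    rw [← this, ← h, smul_smul, inv_mul_cancel, one_smul]
  have himg : Finset.univ.image ι = Finset.univ.erase Q := by
    apply Finset.eq_of_subset_of_card_le
    · intro x hx
      obtain ⟨q, -, rfl⟩ := Finset.mem_image.1 hx
      exact Finset.mem_erase.2 ⟨hne q q.2, Finset.mem_univ _⟩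
    · rw [Finset.card_image_of_injective _ hinj, Finset.card_univ, ← Nat.card_eq_fintype_card, hQ,
        Finset.card_erase_of_mem (Finset.mem_univ Q), Finset.card_univ, ← Nat.card_eq_fintype_card, hn]
  have htrans : ∀ P'' : Sylow 19 N, P'' ≠ Q → ∃ q ∈ (Q : Subgroup N), q • P' = P'' := by
    intro P'' h
    have : P'' ∈ Finset.univ.image ι := by rw [himg]; exact Finset.mem_erase.2 ⟨h, Finset.mem_univ _⟩
    obtain ⟨q, -, hq⟩ := Finset.mem_image.1 this
    exact ⟨q, q.2, hq⟩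
  have hC : ∀ x : N, (∀ q ∈ (Q : Subgroup N), q * x = x * q) → x ∈ (Q : Subgroup N) := by
    intro x hx
    have hxQ := act_comm' Q x hx
    have hxP : x • P' ≠ Q := by
      intro h
      apply hP'
      have : x⁻¹ • Q = Q := by
        conv_lhs => rw [← hxQ]
        rw [smul_smul, inv_mul_cancel, one_smul]
      rw [← this, ← h, smul_smul, inv_mul_cancel, one_smul]
    obtain ⟨q, hq, hqP⟩ := htrans _ hxP
    have hy : q⁻¹ * x = 1 := by
      apply hfaith
      intro P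
      by_cases hPQ : P = Q
      · subst hPQ
        rw [← smul_smul, hxQ]
        exact Sylow.smul_eq_iff_mem_normalizer.2 (Subgroup.le_normalizer ((P : Subgroup N).inv_mem hq))
      · obtain ⟨q', hq', rfl⟩ := htrans P hPQ
        rw [smul_smul]
        have : q⁻¹ * x * q' = q' * (q⁻¹ * x) := by
          calc q⁻¹ * x * q' = q⁻¹ * (x * q') := by group
            _ = q⁻¹ * (q' * x) := by rw [hx q' hq']
            _ = (q⁻¹ * q') * x := by group
            _ = (q' * q⁻¹) * x := by rw [hQcomm _ ((Q : Subgroup N).inv_mem hq) _ hq']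
            _ = _ := by group
        have h5 : (q⁻¹ * x) • P' = P' := by
          rw [← smul_smul, ← hqP, smul_smul, inv_mul_cancel, one_smul]
        rw [this, mul_smul, h5]
    rw [inv_mul_eq_one] at hy
    rw [← hy]; exact hq
  have hCQ : bb Q = 19 := by
    have : centralizer ((Q : Subgroup N) : Set N) = (Q : Subgroup N) := by
      apply le_antisymm
      · intro x hx
        exact hC x (fun q hq => Subgroup.mem_centralizer_iff.1 hx q hq)
      · intro x hx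
        exact Subgroup.mem_centralizer_iff.2 (fun q hq => hQcomm q hq x hx)
    show Nat.card (centralizer ((Q : Subgroup N) : Set N)) = 19
    rw [this, hQ]
  have hnd := norm_dvd (Q : Subgroup N) (by norm_num : Nat.Prime 19) hQ
  change aa Q ∣ (19 - 1) * bb Q at hnd
  rw [hCQ] at hnd
  have h19 : 19 ∣ aa Q := by
    have := Subgroup.card_dvd_of_le (Subgroup.le_normalizer (H := (Q : Subgroup N)))
    rwa [hQ] at this
  obtain ⟨e, he⟩ := h19
  rw [he] at hnd
  have hed : e ∣ 18 := by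
    have : 19 * e ∣ 19 * 18 := by simpa [mul_comm] using hnd
    exact Nat.dvd_of_mul_dvd_mul_left (by norm_num) this
  refine ⟨e, he, hed, ?_, ?_⟩
  · intro h2
    have h2' : 2 ∣ aa Q := by
      rw [he]; exact Dvd.dvd.mul_left h2 _
    obtain ⟨x, hx⟩ := exists_prime_orderOf_dvd_card' (G := normalizer ((Q : Subgroup N) : Set N)) 2 h2'
    set t : N := (x : N) with ht
    have htN : t ∈ normalizer ((Q : Subgroup N) : Set N) := x.2
    have hto : orderOf t = 2 := by rw [ht, Subgroup.orderOf_coe]; exact hx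
    have ht2 : t ^ 2 = 1 := by rw [← hto]; exact pow_orderOf_eq_one t
    have htinv : t⁻¹ = t := by rw [inv_eq_iff_mul_eq_one, ← pow_two]; exact ht2
    have ht1 : t ≠ 1 := by
      intro h; rw [h, orderOf_one] at hto; omega
    have htQ : t ∉ (Q : Subgroup N) := by
      intro h
      have := orderOf_dvd_natCard (⟨t, h⟩ : (Q : Subgroup N))
      rw [hQ, Subgroup.orderOf_mk, hto] at this
      omega
    have hnc' : ¬ ∀ q ∈ (Q : Subgroup N), q * t = t * q := fun h => htQ (hC t h)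
    have hinv : ∀ x ∈ (Q : Subgroup N), t * x * t⁻¹ = x⁻¹ := by
      intro z hz
      have hzt : t * z * t⁻¹ ∈ (Q : Subgroup N) := (Subgroup.mem_normalizer_iff.1 htN z).1 hz
      set y := z * (t * z * t⁻¹) with hy
      have hyQ : y ∈ (Q : Subgroup N) := (Q : Subgroup N).mul_mem hz hzt
      have hyt : y * t = t * y := by
        have : t * y * t⁻¹ = y := by
          rw [hy]
          calc t * (z * (t * z * t⁻¹)) * t⁻¹ = (t * z * t⁻¹) * (t * t * z * (t⁻¹ * t⁻¹)) := by group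
            _ = (t * z * t⁻¹) * z := by
                have e1 : t * t = 1 := by rw [← pow_two]; exact ht2
                have e2 : t⁻¹ * t⁻¹ = 1 := by rw [htinv]; exact e1
                rw [e1, e2]; simp
            _ = z * (t * z * t⁻¹) := hQcomm _ hzt _ hz
        exact (mul_inv_eq_iff_eq_mul.1 this).symm
      by_cases hy1 : y = 1
      · rw [hy] at hy1
        exact eq_inv_of_mul_eq_one_right hy1
      · exfalso
        apply hnc'
        have hle := le_zpowers_of_prime (Q : Subgroup N) (by norm_num) hQ hyQ hy1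
        have hst : Subgroup.zpowers y ≤ Subgroup.centralizer {t} := by
          rw [Subgroup.zpowers_le]
          exact Subgroup.mem_centralizer_singleton_iff.2 hyt
        intro q hq
        have := hst (hle hq)
        exact Subgroup.mem_centralizer_singleton_iff.1 this
    have htQfix : t • Q = Q := Sylow.smul_eq_iff_mem_normalizer.2 htN
    have htP : t • P' ≠ Q := by
      intro h
      apply hP'
      have : t • t • P' = t • Q := by rw [h]
      rw [smul_smul, ← pow_two, ht2, one_smul, htQfix] at this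
      exact this
    obtain ⟨q0, hq0, hq0P⟩ := htrans _ htP
    have hq019 : q0 ^ 19 = 1 := by
      have := pow_card_eq_one' (x := (⟨q0, hq0⟩ : (Q : Subgroup N)))
      rw [hQ] at this
      simpa [Subtype.ext_iff] using this
    set q1 := q0 ^ 10 with hq1
    have hq1Q : q1 ∈ (Q : Subgroup N) := (Q : Subgroup N).pow_mem hq0 10
    have hq1sq : q1 * q1 = q0 := by
      rw [hq1, ← pow_add]
      have : q0 ^ (10 + 10) = q0 ^ 19 * q0 := by rw [← pow_succ]
      rw [this, hq019, one_mul]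
    have hmove : ∀ q ∈ (Q : Subgroup N), t • (q • P') = (q⁻¹ * q0) • P' := by
      intro q hq
      rw [smul_smul]
      have : t * q = (t * q * t⁻¹) * t := by group
      rw [this, hinv q hq, ← smul_smul, ← smul_smul, ← hq0P, smul_smul]
    have hfix1 : t • (q1 • P') = q1 • P' := by
      rw [hmove q1 hq1Q]
      congr 1
      rw [← hq1sq]; group
    have huniq : ∀ P'' : Sylow 19 N, t • P'' = P'' → P'' = Q ∨ P'' = q1 • P' := by
      intro P'' hP''
      by_cases hPQ : P'' = Q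
      · exact Or.inl hPQ
      · right
        obtain ⟨q, hq, rfl⟩ := htrans P'' hPQ
        rw [hmove q hq] at hP''
        have h1 : (q⁻¹ * (q⁻¹ * q0)) • P' = P' := by
          rw [← smul_smul, hP'', smul_smul, inv_mul_cancel, one_smul]
        have h2 := hfree _ ((Q : Subgroup N).mul_mem ((Q : Subgroup N).inv_mem hq)
          ((Q : Subgroup N).mul_mem ((Q : Subgroup N).inv_mem hq) hq0)) h1
        have h3 : q0 = q * q := by
          have : q⁻¹ * (q⁻¹ * q0) = (q * q)⁻¹ * q0 := by group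
          rw [this, inv_mul_eq_one] at h2
          exact h2.symm
        have hq19 : q ^ 19 = 1 := by
          have := pow_card_eq_one' (x := (⟨q, hq⟩ : (Q : Subgroup N)))
          rw [hQ] at this
          simpa [Subtype.ext_iff] using this
        have h4 : q1 = q := by
          rw [hq1, h3, ← pow_two, ← pow_mul]
          have : q ^ (2 * 10) = q ^ 19 * q := by rw [← pow_succ]
          rw [this, hq19, one_mul]
        rw [h4]
    let σ : Equiv.Perm (Sylow 19 N) := MulAction.toPermHom N (Sylow 19 N) t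
    have hσ2 : σ ^ 2 = 1 := by
      show (MulAction.toPermHom N (Sylow 19 N) t) ^ 2 = 1
      rw [← map_pow, ht2, map_one]
    obtain ⟨hd, hs⟩ := sign_invol σ hσ2
    have hst : Equiv.Perm.sign σ = 1 :=
      sign_triv hnc ((Equiv.Perm.sign).comp (MulAction.toPermHom N (Sylow 19 N))) t
    have hP1 : q1 • P' ≠ Q := hne q1 hq1Q
    have hsupp : σ.support = (Finset.univ.erase Q).erase (q1 • P') := by
      ext P
      simp only [Equiv.Perm.mem_support, Finset.mem_erase, Finset.mem_univ, and_true]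
      constructor
      · intro hP
        constructor
        · intro h; apply hP; rw [h]; exact hfix1
        · intro h; apply hP; rw [h]; exact htQfix
      · rintro ⟨h1, h2⟩ h3
        rcases huniq P h3 with h | h
        · exact h2 h
        · exact h1 h
    have hc : σ.support.card = 18 := by
      rw [hsupp, Finset.card_erase_of_mem (Finset.mem_erase.2 ⟨hP1, Finset.mem_univ _⟩),
        Finset.card_erase_of_mem (Finset.mem_univ Q), Finset.card_univ, ← Nat.card_eq_fintype_card, hn]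
    rw [hc, hst] at hs
    exact absurd hs (by decide)
  · rintro rfl
    have hp19 : 19 ∣ Nat.card N := by
      have := Subgroup.card_subgroup_dvd_card (Q : Subgroup N)
      rwa [hQ] at this
    apply bt hnc Q hp19
    have heq : normalizer ((Q : Subgroup N) : Set N) = (Q : Subgroup N) := by
      symm
      apply Subgroup.eq_of_le_of_card_ge Subgroup.le_normalizer
      show aa Q ≤ _
      rw [he, hQ]
    intro g hg
    have hg' : g ∈ (Q : Subgroup N) := by rw [← heq]; exact hg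
    exact Subgroup.mem_centralizer_iff.2 (fun q hq => hQcomm q hq g hg')
end
end X19


namespace X19
open Subgroup
open Cfsg.Agent.S2490.X (sign_invol bt sign_triv comm_of_prime norm_dvd comm_of_coprime_aut free_dvd
  conj_free_dvd card_syl edge_of_commute le_zpowers_of_prime index_dvd_of_sup)

attribute [local instance] f19 f11 f7 f5

structure SD (p q D n a b : ℕ) : Prop where
  na : n * a = D
  m : n % p = 1
  ne : n ≠ 1
  deg : 19 ≤ n
  ba : b ∣ a
  ab : a ∣ q * b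
  abne : a ≠ b
  pb : p ∣ b


set_option maxRecDepth 100000

lemma dv_step {L L' : List ℕ} {p m x : ℕ} (hp : p.Prime) (hL : ∀ y, y ∣ m → y ∈ L)
    (hsub : ∀ y ∈ L, y ∈ L' ∧ p * y ∈ L') (h : x ∣ p * m) : x ∈ L' := by
  obtain ⟨u, v, hu, hv, rfl⟩ := Nat.dvd_mul.1 h
  rcases (Nat.dvd_prime hp).1 hu with rfl | rfl
  · simpa using (hsub v (hL v hv)).1
  · exact (hsub v (hL v hv)).2

lemma dvl_1 : ∀ x : ℕ, x ∣ 1 → x ∈ [1] := by
  intro x hx
  simp [Nat.dvd_one.1 hx]

lemma dvl_2 : ∀ x : ℕ, x ∣ 2 → x ∈ [1, 2] :=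
  fun x h => dv_step (p := 2) (m := 1) (by norm_num) dvl_1 (by decide) (show x ∣ 2 * 1 from h)

lemma dvl_3 : ∀ x : ℕ, x ∣ 3 → x ∈ [1, 3] :=
  fun x h => dv_step (p := 3) (m := 1) (by norm_num) dvl_1 (by decide) (show x ∣ 3 * 1 from h)

lemma dvl_4 : ∀ x : ℕ, x ∣ 4 → x ∈ [1, 2, 4] :=
  fun x h => dv_step (p := 2) (m := 2) (by norm_num) dvl_2 (by decide) (show x ∣ 2 * 2 from h)

lemma dvl_5 : ∀ x : ℕ, x ∣ 5 → x ∈ [1, 5] :=
  fun x h => dv_step (p := 5) (m := 1) (by norm_num) dvl_1 (by decide) (show x ∣ 5 * 1 from h)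

lemma dvl_6 : ∀ x : ℕ, x ∣ 6 → x ∈ [1, 2, 3, 6] :=
  fun x h => dv_step (p := 3) (m := 2) (by norm_num) dvl_2 (by decide) (show x ∣ 3 * 2 from h)

lemma dvl_7 : ∀ x : ℕ, x ∣ 7 → x ∈ [1, 7] :=
  fun x h => dv_step (p := 7) (m := 1) (by norm_num) dvl_1 (by decide) (show x ∣ 7 * 1 from h)

lemma dvl_8 : ∀ x : ℕ, x ∣ 8 → x ∈ [1, 2, 4, 8] :=
  fun x h => dv_step (p := 2) (m := 4) (by norm_num) dvl_4 (by decide) (show x ∣ 2 * 4 from h)

lemma dvl_10 : ∀ x : ℕ, x ∣ 10 → x ∈ [1, 2, 5, 10] :=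
  fun x h => dv_step (p := 5) (m := 2) (by norm_num) dvl_2 (by decide) (show x ∣ 5 * 2 from h)

lemma dvl_11 : ∀ x : ℕ, x ∣ 11 → x ∈ [1, 11] :=
  fun x h => dv_step (p := 11) (m := 1) (by norm_num) dvl_1 (by decide) (show x ∣ 11 * 1 from h)

lemma dvl_12 : ∀ x : ℕ, x ∣ 12 → x ∈ [1, 2, 3, 4, 6, 12] :=
  fun x h => dv_step (p := 3) (m := 4) (by norm_num) dvl_4 (by decide) (show x ∣ 3 * 4 from h)

lemma dvl_14 : ∀ x : ℕ, x ∣ 14 → x ∈ [1, 2, 7, 14] :=
  fun x h => dv_step (p := 7) (m := 2) (by norm_num) dvl_2 (by decide) (show x ∣ 7 * 2 from h)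

lemma dvl_15 : ∀ x : ℕ, x ∣ 15 → x ∈ [1, 3, 5, 15] :=
  fun x h => dv_step (p := 5) (m := 3) (by norm_num) dvl_3 (by decide) (show x ∣ 5 * 3 from h)

lemma dvl_19 : ∀ x : ℕ, x ∣ 19 → x ∈ [1, 19] :=
  fun x h => dv_step (p := 19) (m := 1) (by norm_num) dvl_1 (by decide) (show x ∣ 19 * 1 from h)

lemma dvl_20 : ∀ x : ℕ, x ∣ 20 → x ∈ [1, 2, 4, 5, 10, 20] :=
  fun x h => dv_step (p := 5) (m := 4) (by norm_num) dvl_4 (by decide) (show x ∣ 5 * 4 from h)

lemma dvl_21 : ∀ x : ℕ, x ∣ 21 → x ∈ [1, 3, 7, 21] :=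
  fun x h => dv_step (p := 7) (m := 3) (by norm_num) dvl_3 (by decide) (show x ∣ 7 * 3 from h)

lemma dvl_22 : ∀ x : ℕ, x ∣ 22 → x ∈ [1, 2, 11, 22] :=
  fun x h => dv_step (p := 11) (m := 2) (by norm_num) dvl_2 (by decide) (show x ∣ 11 * 2 from h)

lemma dvl_24 : ∀ x : ℕ, x ∣ 24 → x ∈ [1, 2, 3, 4, 6, 8, 12, 24] :=
  fun x h => dv_step (p := 3) (m := 8) (by norm_num) dvl_8 (by decide) (show x ∣ 3 * 8 from h)

lemma dvl_28 : ∀ x : ℕ, x ∣ 28 → x ∈ [1, 2, 4, 7, 14, 28] :=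
  fun x h => dv_step (p := 7) (m := 4) (by norm_num) dvl_4 (by decide) (show x ∣ 7 * 4 from h)

lemma dvl_30 : ∀ x : ℕ, x ∣ 30 → x ∈ [1, 2, 3, 5, 6, 10, 15, 30] :=
  fun x h => dv_step (p := 5) (m := 6) (by norm_num) dvl_6 (by decide) (show x ∣ 5 * 6 from h)

lemma dvl_33 : ∀ x : ℕ, x ∣ 33 → x ∈ [1, 3, 11, 33] :=
  fun x h => dv_step (p := 11) (m := 3) (by norm_num) dvl_3 (by decide) (show x ∣ 11 * 3 from h)

lemma dvl_38 : ∀ x : ℕ, x ∣ 38 → x ∈ [1, 2, 19, 38] :=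
  fun x h => dv_step (p := 19) (m := 2) (by norm_num) dvl_2 (by decide) (show x ∣ 19 * 2 from h)

lemma dvl_40 : ∀ x : ℕ, x ∣ 40 → x ∈ [1, 2, 4, 5, 8, 10, 20, 40] :=
  fun x h => dv_step (p := 5) (m := 8) (by norm_num) dvl_8 (by decide) (show x ∣ 5 * 8 from h)

lemma dvl_42 : ∀ x : ℕ, x ∣ 42 → x ∈ [1, 2, 3, 6, 7, 14, 21, 42] :=
  fun x h => dv_step (p := 7) (m := 6) (by norm_num) dvl_6 (by decide) (show x ∣ 7 * 6 from h)

lemma dvl_44 : ∀ x : ℕ, x ∣ 44 → x ∈ [1, 2, 4, 11, 22, 44] :=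
  fun x h => dv_step (p := 11) (m := 4) (by norm_num) dvl_4 (by decide) (show x ∣ 11 * 4 from h)

lemma dvl_55 : ∀ x : ℕ, x ∣ 55 → x ∈ [1, 5, 11, 55] :=
  fun x h => dv_step (p := 11) (m := 5) (by norm_num) dvl_5 (by decide) (show x ∣ 11 * 5 from h)

lemma dvl_56 : ∀ x : ℕ, x ∣ 56 → x ∈ [1, 2, 4, 7, 8, 14, 28, 56] :=
  fun x h => dv_step (p := 7) (m := 8) (by norm_num) dvl_8 (by decide) (show x ∣ 7 * 8 from h)

lemma dvl_57 : ∀ x : ℕ, x ∣ 57 → x ∈ [1, 3, 19, 57] :=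
  fun x h => dv_step (p := 19) (m := 3) (by norm_num) dvl_3 (by decide) (show x ∣ 19 * 3 from h)

lemma dvl_60 : ∀ x : ℕ, x ∣ 60 → x ∈ [1, 2, 3, 4, 5, 6, 10, 12, 15, 20, 30, 60] :=
  fun x h => dv_step (p := 5) (m := 12) (by norm_num) dvl_12 (by decide) (show x ∣ 5 * 12 from h)

lemma dvl_66 : ∀ x : ℕ, x ∣ 66 → x ∈ [1, 2, 3, 6, 11, 22, 33, 66] :=
  fun x h => dv_step (p := 11) (m := 6) (by norm_num) dvl_6 (by decide) (show x ∣ 11 * 6 from h)

lemma dvl_70 : ∀ x : ℕ, x ∣ 70 → x ∈ [1, 2, 5, 7, 10, 14, 35, 70] :=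
  fun x h => dv_step (p := 7) (m := 10) (by norm_num) dvl_10 (by decide) (show x ∣ 7 * 10 from h)

lemma dvl_76 : ∀ x : ℕ, x ∣ 76 → x ∈ [1, 2, 4, 19, 38, 76] :=
  fun x h => dv_step (p := 19) (m := 4) (by norm_num) dvl_4 (by decide) (show x ∣ 19 * 4 from h)

lemma dvl_77 : ∀ x : ℕ, x ∣ 77 → x ∈ [1, 7, 11, 77] :=
  fun x h => dv_step (p := 11) (m := 7) (by norm_num) dvl_7 (by decide) (show x ∣ 11 * 7 from h)

lemma dvl_84 : ∀ x : ℕ, x ∣ 84 → x ∈ [1, 2, 3, 4, 6, 7, 12, 14, 21, 28, 42, 84] :=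
  fun x h => dv_step (p := 7) (m := 12) (by norm_num) dvl_12 (by decide) (show x ∣ 7 * 12 from h)

lemma dvl_88 : ∀ x : ℕ, x ∣ 88 → x ∈ [1, 2, 4, 8, 11, 22, 44, 88] :=
  fun x h => dv_step (p := 11) (m := 8) (by norm_num) dvl_8 (by decide) (show x ∣ 11 * 8 from h)

lemma dvl_95 : ∀ x : ℕ, x ∣ 95 → x ∈ [1, 5, 19, 95] :=
  fun x h => dv_step (p := 19) (m := 5) (by norm_num) dvl_5 (by decide) (show x ∣ 19 * 5 from h)

lemma dvl_105 : ∀ x : ℕ, x ∣ 105 → x ∈ [1, 3, 5, 7, 15, 21, 35, 105] :=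
  fun x h => dv_step (p := 7) (m := 15) (by norm_num) dvl_15 (by decide) (show x ∣ 7 * 15 from h)

lemma dvl_114 : ∀ x : ℕ, x ∣ 114 → x ∈ [1, 2, 3, 6, 19, 38, 57, 114] :=
  fun x h => dv_step (p := 19) (m := 6) (by norm_num) dvl_6 (by decide) (show x ∣ 19 * 6 from h)

lemma dvl_120 : ∀ x : ℕ, x ∣ 120 → x ∈ [1, 2, 3, 4, 5, 6, 8, 10, 12, 15, 20, 24, 30, 40, 60, 120] :=
  fun x h => dv_step (p := 5) (m := 24) (by norm_num) dvl_24 (by decide) (show x ∣ 5 * 24 from h)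

lemma dvl_132 : ∀ x : ℕ, x ∣ 132 → x ∈ [1, 2, 3, 4, 6, 11, 12, 22, 33, 44, 66, 132] :=
  fun x h => dv_step (p := 11) (m := 12) (by norm_num) dvl_12 (by decide) (show x ∣ 11 * 12 from h)

lemma dvl_133 : ∀ x : ℕ, x ∣ 133 → x ∈ [1, 7, 19, 133] :=
  fun x h => dv_step (p := 19) (m := 7) (by norm_num) dvl_7 (by decide) (show x ∣ 19 * 7 from h)

lemma dvl_140 : ∀ x : ℕ, x ∣ 140 → x ∈ [1, 2, 4, 5, 7, 10, 14, 20, 28, 35, 70, 140] :=
  fun x h => dv_step (p := 7) (m := 20) (by norm_num) dvl_20 (by decide) (show x ∣ 7 * 20 from h)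

lemma dvl_152 : ∀ x : ℕ, x ∣ 152 → x ∈ [1, 2, 4, 8, 19, 38, 76, 152] :=
  fun x h => dv_step (p := 19) (m := 8) (by norm_num) dvl_8 (by decide) (show x ∣ 19 * 8 from h)

lemma dvl_154 : ∀ x : ℕ, x ∣ 154 → x ∈ [1, 2, 7, 11, 14, 22, 77, 154] :=
  fun x h => dv_step (p := 11) (m := 14) (by norm_num) dvl_14 (by decide) (show x ∣ 11 * 14 from h)

lemma dvl_168 : ∀ x : ℕ, x ∣ 168 → x ∈ [1, 2, 3, 4, 6, 7, 8, 12, 14, 21, 24, 28, 42, 56, 84, 168] :=
  fun x h => dv_step (p := 7) (m := 24) (by norm_num) dvl_24 (by decide) (show x ∣ 7 * 24 from h)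

lemma dvl_209 : ∀ x : ℕ, x ∣ 209 → x ∈ [1, 11, 19, 209] :=
  fun x h => dv_step (p := 19) (m := 11) (by norm_num) dvl_11 (by decide) (show x ∣ 19 * 11 from h)

lemma dvl_210 : ∀ x : ℕ, x ∣ 210 → x ∈ [1, 2, 3, 5, 6, 7, 10, 14, 15, 21, 30, 35, 42, 70, 105, 210] :=
  fun x h => dv_step (p := 7) (m := 30) (by norm_num) dvl_30 (by decide) (show x ∣ 7 * 30 from h)

lemma dvl_220 : ∀ x : ℕ, x ∣ 220 → x ∈ [1, 2, 4, 5, 10, 11, 20, 22, 44, 55, 110, 220] :=
  fun x h => dv_step (p := 11) (m := 20) (by norm_num) dvl_20 (by decide) (show x ∣ 11 * 20 from h)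

lemma dvl_228 : ∀ x : ℕ, x ∣ 228 → x ∈ [1, 2, 3, 4, 6, 12, 19, 38, 57, 76, 114, 228] :=
  fun x h => dv_step (p := 19) (m := 12) (by norm_num) dvl_12 (by decide) (show x ∣ 19 * 12 from h)

lemma dvl_231 : ∀ x : ℕ, x ∣ 231 → x ∈ [1, 3, 7, 11, 21, 33, 77, 231] :=
  fun x h => dv_step (p := 11) (m := 21) (by norm_num) dvl_21 (by decide) (show x ∣ 11 * 21 from h)

lemma dvl_264 : ∀ x : ℕ, x ∣ 264 → x ∈ [1, 2, 3, 4, 6, 8, 11, 12, 22, 24, 33, 44, 66, 88, 132, 264] :=
  fun x h => dv_step (p := 11) (m := 24) (by norm_num) dvl_24 (by decide) (show x ∣ 11 * 24 from h)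

lemma dvl_266 : ∀ x : ℕ, x ∣ 266 → x ∈ [1, 2, 7, 14, 19, 38, 133, 266] :=
  fun x h => dv_step (p := 19) (m := 14) (by norm_num) dvl_14 (by decide) (show x ∣ 19 * 14 from h)

lemma dvl_280 : ∀ x : ℕ, x ∣ 280 → x ∈ [1, 2, 4, 5, 7, 8, 10, 14, 20, 28, 35, 40, 56, 70, 140, 280] :=
  fun x h => dv_step (p := 7) (m := 40) (by norm_num) dvl_40 (by decide) (show x ∣ 7 * 40 from h)

lemma dvl_308 : ∀ x : ℕ, x ∣ 308 → x ∈ [1, 2, 4, 7, 11, 14, 22, 28, 44, 77, 154, 308] :=
  fun x h => dv_step (p := 11) (m := 28) (by norm_num) dvl_28 (by decide) (show x ∣ 11 * 28 from h)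

lemma dvl_330 : ∀ x : ℕ, x ∣ 330 → x ∈ [1, 2, 3, 5, 6, 10, 11, 15, 22, 30, 33, 55, 66, 110, 165, 330] :=
  fun x h => dv_step (p := 11) (m := 30) (by norm_num) dvl_30 (by decide) (show x ∣ 11 * 30 from h)

lemma dvl_380 : ∀ x : ℕ, x ∣ 380 → x ∈ [1, 2, 4, 5, 10, 19, 20, 38, 76, 95, 190, 380] :=
  fun x h => dv_step (p := 19) (m := 20) (by norm_num) dvl_20 (by decide) (show x ∣ 19 * 20 from h)

lemma dvl_399 : ∀ x : ℕ, x ∣ 399 → x ∈ [1, 3, 7, 19, 21, 57, 133, 399] :=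
  fun x h => dv_step (p := 19) (m := 21) (by norm_num) dvl_21 (by decide) (show x ∣ 19 * 21 from h)

lemma dvl_418 : ∀ x : ℕ, x ∣ 418 → x ∈ [1, 2, 11, 19, 22, 38, 209, 418] :=
  fun x h => dv_step (p := 19) (m := 22) (by norm_num) dvl_22 (by decide) (show x ∣ 19 * 22 from h)

lemma dvl_420 : ∀ x : ℕ, x ∣ 420 → x ∈ [1, 2, 3, 4, 5, 6, 7, 10, 12, 14, 15, 20, 21, 28, 30, 35, 42, 60, 70, 84, 105, 140, 210, 420] :=
  fun x h => dv_step (p := 7) (m := 60) (by norm_num) dvl_60 (by decide) (show x ∣ 7 * 60 from h)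

lemma dvl_440 : ∀ x : ℕ, x ∣ 440 → x ∈ [1, 2, 4, 5, 8, 10, 11, 20, 22, 40, 44, 55, 88, 110, 220, 440] :=
  fun x h => dv_step (p := 11) (m := 40) (by norm_num) dvl_40 (by decide) (show x ∣ 11 * 40 from h)

lemma dvl_456 : ∀ x : ℕ, x ∣ 456 → x ∈ [1, 2, 3, 4, 6, 8, 12, 19, 24, 38, 57, 76, 114, 152, 228, 456] :=
  fun x h => dv_step (p := 19) (m := 24) (by norm_num) dvl_24 (by decide) (show x ∣ 19 * 24 from h)

lemma dvl_462 : ∀ x : ℕ, x ∣ 462 → x ∈ [1, 2, 3, 6, 7, 11, 14, 21, 22, 33, 42, 66, 77, 154, 231, 462] :=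
  fun x h => dv_step (p := 11) (m := 42) (by norm_num) dvl_42 (by decide) (show x ∣ 11 * 42 from h)

lemma dvl_532 : ∀ x : ℕ, x ∣ 532 → x ∈ [1, 2, 4, 7, 14, 19, 28, 38, 76, 133, 266, 532] :=
  fun x h => dv_step (p := 19) (m := 28) (by norm_num) dvl_28 (by decide) (show x ∣ 19 * 28 from h)

lemma dvl_616 : ∀ x : ℕ, x ∣ 616 → x ∈ [1, 2, 4, 7, 8, 11, 14, 22, 28, 44, 56, 77, 88, 154, 308, 616] :=
  fun x h => dv_step (p := 11) (m := 56) (by norm_num) dvl_56 (by decide) (show x ∣ 11 * 56 from h)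

lemma dvl_627 : ∀ x : ℕ, x ∣ 627 → x ∈ [1, 3, 11, 19, 33, 57, 209, 627] :=
  fun x h => dv_step (p := 19) (m := 33) (by norm_num) dvl_33 (by decide) (show x ∣ 19 * 33 from h)

lemma dvl_660 : ∀ x : ℕ, x ∣ 660 → x ∈ [1, 2, 3, 4, 5, 6, 10, 11, 12, 15, 20, 22, 30, 33, 44, 55, 60, 66, 110, 132, 165, 220, 330, 660] :=
  fun x h => dv_step (p := 11) (m := 60) (by norm_num) dvl_60 (by decide) (show x ∣ 11 * 60 from h)

lemma dvl_760 : ∀ x : ℕ, x ∣ 760 → x ∈ [1, 2, 4, 5, 8, 10, 19, 20, 38, 40, 76, 95, 152, 190, 380, 760] :=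
  fun x h => dv_step (p := 19) (m := 40) (by norm_num) dvl_40 (by decide) (show x ∣ 19 * 40 from h)

lemma dvl_770 : ∀ x : ℕ, x ∣ 770 → x ∈ [1, 2, 5, 7, 10, 11, 14, 22, 35, 55, 70, 77, 110, 154, 385, 770] :=
  fun x h => dv_step (p := 11) (m := 70) (by norm_num) dvl_70 (by decide) (show x ∣ 11 * 70 from h)

lemma dvl_798 : ∀ x : ℕ, x ∣ 798 → x ∈ [1, 2, 3, 6, 7, 14, 19, 21, 38, 42, 57, 114, 133, 266, 399, 798] :=
  fun x h => dv_step (p := 19) (m := 42) (by norm_num) dvl_42 (by decide) (show x ∣ 19 * 42 from h)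

lemma dvl_836 : ∀ x : ℕ, x ∣ 836 → x ∈ [1, 2, 4, 11, 19, 22, 38, 44, 76, 209, 418, 836] :=
  fun x h => dv_step (p := 19) (m := 44) (by norm_num) dvl_44 (by decide) (show x ∣ 19 * 44 from h)

lemma dvl_840 : ∀ x : ℕ, x ∣ 840 → x ∈ [1, 2, 3, 4, 5, 6, 7, 8, 10, 12, 14, 15, 20, 21, 24, 28, 30, 35, 40, 42, 56, 60, 70, 84, 105, 120, 140, 168, 210, 280, 420, 840] :=
  fun x h => dv_step (p := 7) (m := 120) (by norm_num) dvl_120 (by decide) (show x ∣ 7 * 120 from h)

lemma dvl_924 : ∀ x : ℕ, x ∣ 924 → x ∈ [1, 2, 3, 4, 6, 7, 11, 12, 14, 21, 22, 28, 33, 42, 44, 66, 77, 84, 132, 154, 231, 308, 462, 924] :=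
  fun x h => dv_step (p := 11) (m := 84) (by norm_num) dvl_84 (by decide) (show x ∣ 11 * 84 from h)

lemma dvl_1045 : ∀ x : ℕ, x ∣ 1045 → x ∈ [1, 5, 11, 19, 55, 95, 209, 1045] :=
  fun x h => dv_step (p := 19) (m := 55) (by norm_num) dvl_55 (by decide) (show x ∣ 19 * 55 from h)

lemma dvl_1064 : ∀ x : ℕ, x ∣ 1064 → x ∈ [1, 2, 4, 7, 8, 14, 19, 28, 38, 56, 76, 133, 152, 266, 532, 1064] :=
  fun x h => dv_step (p := 19) (m := 56) (by norm_num) dvl_56 (by decide) (show x ∣ 19 * 56 from h)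

lemma dvl_1140 : ∀ x : ℕ, x ∣ 1140 → x ∈ [1, 2, 3, 4, 5, 6, 10, 12, 15, 19, 20, 30, 38, 57, 60, 76, 95, 114, 190, 228, 285, 380, 570, 1140] :=
  fun x h => dv_step (p := 19) (m := 60) (by norm_num) dvl_60 (by decide) (show x ∣ 19 * 60 from h)

lemma dvl_1155 : ∀ x : ℕ, x ∣ 1155 → x ∈ [1, 3, 5, 7, 11, 15, 21, 33, 35, 55, 77, 105, 165, 231, 385, 1155] :=
  fun x h => dv_step (p := 11) (m := 105) (by norm_num) dvl_105 (by decide) (show x ∣ 11 * 105 from h)

lemma dvl_1254 : ∀ x : ℕ, x ∣ 1254 → x ∈ [1, 2, 3, 6, 11, 19, 22, 33, 38, 57, 66, 114, 209, 418, 627, 1254] :=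
  fun x h => dv_step (p := 19) (m := 66) (by norm_num) dvl_66 (by decide) (show x ∣ 19 * 66 from h)

lemma dvl_1320 : ∀ x : ℕ, x ∣ 1320 → x ∈ [1, 2, 3, 4, 5, 6, 8, 10, 11, 12, 15, 20, 22, 24, 30, 33, 40, 44, 55, 60, 66, 88, 110, 120, 132, 165, 220, 264, 330, 440, 660, 1320] :=
  fun x h => dv_step (p := 11) (m := 120) (by norm_num) dvl_120 (by decide) (show x ∣ 11 * 120 from h)

lemma dvl_1330 : ∀ x : ℕ, x ∣ 1330 → x ∈ [1, 2, 5, 7, 10, 14, 19, 35, 38, 70, 95, 133, 190, 266, 665, 1330] :=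
  fun x h => dv_step (p := 19) (m := 70) (by norm_num) dvl_70 (by decide) (show x ∣ 19 * 70 from h)

lemma dvl_1463 : ∀ x : ℕ, x ∣ 1463 → x ∈ [1, 7, 11, 19, 77, 133, 209, 1463] :=
  fun x h => dv_step (p := 19) (m := 77) (by norm_num) dvl_77 (by decide) (show x ∣ 19 * 77 from h)

lemma dvl_1540 : ∀ x : ℕ, x ∣ 1540 → x ∈ [1, 2, 4, 5, 7, 10, 11, 14, 20, 22, 28, 35, 44, 55, 70, 77, 110, 140, 154, 220, 308, 385, 770, 1540] :=
  fun x h => dv_step (p := 11) (m := 140) (by norm_num) dvl_140 (by decide) (show x ∣ 11 * 140 from h)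

lemma dvl_1596 : ∀ x : ℕ, x ∣ 1596 → x ∈ [1, 2, 3, 4, 6, 7, 12, 14, 19, 21, 28, 38, 42, 57, 76, 84, 114, 133, 228, 266, 399, 532, 798, 1596] :=
  fun x h => dv_step (p := 19) (m := 84) (by norm_num) dvl_84 (by decide) (show x ∣ 19 * 84 from h)

lemma dvl_1672 : ∀ x : ℕ, x ∣ 1672 → x ∈ [1, 2, 4, 8, 11, 19, 22, 38, 44, 76, 88, 152, 209, 418, 836, 1672] :=
  fun x h => dv_step (p := 19) (m := 88) (by norm_num) dvl_88 (by decide) (show x ∣ 19 * 88 from h)

lemma dvl_1848 : ∀ x : ℕ, x ∣ 1848 → x ∈ [1, 2, 3, 4, 6, 7, 8, 11, 12, 14, 21, 22, 24, 28, 33, 42, 44, 56, 66, 77, 84, 88, 132, 154, 168, 231, 264, 308, 462, 616, 924, 1848] :=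
  fun x h => dv_step (p := 11) (m := 168) (by norm_num) dvl_168 (by decide) (show x ∣ 11 * 168 from h)

lemma dvl_2280 : ∀ x : ℕ, x ∣ 2280 → x ∈ [1, 2, 3, 4, 5, 6, 8, 10, 12, 15, 19, 20, 24, 30, 38, 40, 57, 60, 76, 95, 114, 120, 152, 190, 228, 285, 380, 456, 570, 760, 1140, 2280] :=
  fun x h => dv_step (p := 19) (m := 120) (by norm_num) dvl_120 (by decide) (show x ∣ 19 * 120 from h)

lemma dvl_2508 : ∀ x : ℕ, x ∣ 2508 → x ∈ [1, 2, 3, 4, 6, 11, 12, 19, 22, 33, 38, 44, 57, 66, 76, 114, 132, 209, 228, 418, 627, 836, 1254, 2508] :=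
  fun x h => dv_step (p := 19) (m := 132) (by norm_num) dvl_132 (by decide) (show x ∣ 19 * 132 from h)

lemma dvl_2660 : ∀ x : ℕ, x ∣ 2660 → x ∈ [1, 2, 4, 5, 7, 10, 14, 19, 20, 28, 35, 38, 70, 76, 95, 133, 140, 190, 266, 380, 532, 665, 1330, 2660] :=
  fun x h => dv_step (p := 19) (m := 140) (by norm_num) dvl_140 (by decide) (show x ∣ 19 * 140 from h)

lemma dvl_2926 : ∀ x : ℕ, x ∣ 2926 → x ∈ [1, 2, 7, 11, 14, 19, 22, 38, 77, 133, 154, 209, 266, 418, 1463, 2926] :=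
  fun x h => dv_step (p := 19) (m := 154) (by norm_num) dvl_154 (by decide) (show x ∣ 19 * 154 from h)

lemma dvl_3080 : ∀ x : ℕ, x ∣ 3080 → x ∈ [1, 2, 4, 5, 7, 8, 10, 11, 14, 20, 22, 28, 35, 40, 44, 55, 56, 70, 77, 88, 110, 140, 154, 220, 280, 308, 385, 440, 616, 770, 1540, 3080] :=
  fun x h => dv_step (p := 11) (m := 280) (by norm_num) dvl_280 (by decide) (show x ∣ 11 * 280 from h)

lemma dvl_3192 : ∀ x : ℕ, x ∣ 3192 → x ∈ [1, 2, 3, 4, 6, 7, 8, 12, 14, 19, 21, 24, 28, 38, 42, 56, 57, 76, 84, 114, 133, 152, 168, 228, 266, 399, 456, 532, 798, 1064, 1596, 3192] :=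
  fun x h => dv_step (p := 19) (m := 168) (by norm_num) dvl_168 (by decide) (show x ∣ 19 * 168 from h)

lemma dvl_3990 : ∀ x : ℕ, x ∣ 3990 → x ∈ [1, 2, 3, 5, 6, 7, 10, 14, 15, 19, 21, 30, 35, 38, 42, 57, 70, 95, 105, 114, 133, 190, 210, 266, 285, 399, 570, 665, 798, 1330, 1995, 3990] :=
  fun x h => dv_step (p := 19) (m := 210) (by norm_num) dvl_210 (by decide) (show x ∣ 19 * 210 from h)

lemma dvl_4180 : ∀ x : ℕ, x ∣ 4180 → x ∈ [1, 2, 4, 5, 10, 11, 19, 20, 22, 38, 44, 55, 76, 95, 110, 190, 209, 220, 380, 418, 836, 1045, 2090, 4180] :=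
  fun x h => dv_step (p := 19) (m := 220) (by norm_num) dvl_220 (by decide) (show x ∣ 19 * 220 from h)

lemma dvl_4389 : ∀ x : ℕ, x ∣ 4389 → x ∈ [1, 3, 7, 11, 19, 21, 33, 57, 77, 133, 209, 231, 399, 627, 1463, 4389] :=
  fun x h => dv_step (p := 19) (m := 231) (by norm_num) dvl_231 (by decide) (show x ∣ 19 * 231 from h)

lemma dvl_4620 : ∀ x : ℕ, x ∣ 4620 → x ∈ [1, 2, 3, 4, 5, 6, 7, 10, 11, 12, 14, 15, 20, 21, 22, 28, 30, 33, 35, 42, 44, 55, 60, 66, 70, 77, 84, 105, 110, 132, 140, 154, 165, 210, 220, 231, 308, 330, 385, 420, 462, 660, 770, 924, 1155, 1540, 2310, 4620] :=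
  fun x h => dv_step (p := 11) (m := 420) (by norm_num) dvl_420 (by decide) (show x ∣ 11 * 420 from h)

lemma dvl_5016 : ∀ x : ℕ, x ∣ 5016 → x ∈ [1, 2, 3, 4, 6, 8, 11, 12, 19, 22, 24, 33, 38, 44, 57, 66, 76, 88, 114, 132, 152, 209, 228, 264, 418, 456, 627, 836, 1254, 1672, 2508, 5016] :=
  fun x h => dv_step (p := 19) (m := 264) (by norm_num) dvl_264 (by decide) (show x ∣ 19 * 264 from h)

lemma dvl_5320 : ∀ x : ℕ, x ∣ 5320 → x ∈ [1, 2, 4, 5, 7, 8, 10, 14, 19, 20, 28, 35, 38, 40, 56, 70, 76, 95, 133, 140, 152, 190, 266, 280, 380, 532, 665, 760, 1064, 1330, 2660, 5320] :=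
  fun x h => dv_step (p := 19) (m := 280) (by norm_num) dvl_280 (by decide) (show x ∣ 19 * 280 from h)

lemma dvl_5852 : ∀ x : ℕ, x ∣ 5852 → x ∈ [1, 2, 4, 7, 11, 14, 19, 22, 28, 38, 44, 76, 77, 133, 154, 209, 266, 308, 418, 532, 836, 1463, 2926, 5852] :=
  fun x h => dv_step (p := 19) (m := 308) (by norm_num) dvl_308 (by decide) (show x ∣ 19 * 308 from h)

lemma dvl_7980 : ∀ x : ℕ, x ∣ 7980 → x ∈ [1, 2, 3, 4, 5, 6, 7, 10, 12, 14, 15, 19, 20, 21, 28, 30, 35, 38, 42, 57, 60, 70, 76, 84, 95, 105, 114, 133, 140, 190, 210, 228, 266, 285, 380, 399, 420, 532, 570, 665, 798, 1140, 1330, 1596, 1995, 2660, 3990, 7980] :=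
  fun x h => dv_step (p := 19) (m := 420) (by norm_num) dvl_420 (by decide) (show x ∣ 19 * 420 from h)

lemma dvl_8360 : ∀ x : ℕ, x ∣ 8360 → x ∈ [1, 2, 4, 5, 8, 10, 11, 19, 20, 22, 38, 40, 44, 55, 76, 88, 95, 110, 152, 190, 209, 220, 380, 418, 440, 760, 836, 1045, 1672, 2090, 4180, 8360] :=
  fun x h => dv_step (p := 19) (m := 440) (by norm_num) dvl_440 (by decide) (show x ∣ 19 * 440 from h)

lemma dvl_9240 : ∀ x : ℕ, x ∣ 9240 → x ∈ [1, 2, 3, 4, 5, 6, 7, 8, 10, 11, 12, 14, 15, 20, 21, 22, 24, 28, 30, 33, 35, 40, 42, 44, 55, 56, 60, 66, 70, 77, 84, 88, 105, 110, 120, 132, 140, 154, 165, 168, 210, 220, 231, 264, 280, 308, 330, 385, 420, 440, 462, 616, 660, 770, 840, 924, 1155, 1320, 1540, 1848, 2310, 3080, 4620, 9240] :=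
  fun x h => dv_step (p := 11) (m := 840) (by norm_num) dvl_840 (by decide) (show x ∣ 11 * 840 from h)

lemma dvl_11704 : ∀ x : ℕ, x ∣ 11704 → x ∈ [1, 2, 4, 7, 8, 11, 14, 19, 22, 28, 38, 44, 56, 76, 77, 88, 133, 152, 154, 209, 266, 308, 418, 532, 616, 836, 1064, 1463, 1672, 2926, 5852, 11704] :=
  fun x h => dv_step (p := 19) (m := 616) (by norm_num) dvl_616 (by decide) (show x ∣ 19 * 616 from h)

lemma dvl_12540 : ∀ x : ℕ, x ∣ 12540 → x ∈ [1, 2, 3, 4, 5, 6, 10, 11, 12, 15, 19, 20, 22, 30, 33, 38, 44, 55, 57, 60, 66, 76, 95, 110, 114, 132, 165, 190, 209, 220, 228, 285, 330, 380, 418, 570, 627, 660, 836, 1045, 1140, 1254, 2090, 2508, 3135, 4180, 6270, 12540] :=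
  fun x h => dv_step (p := 19) (m := 660) (by norm_num) dvl_660 (by decide) (show x ∣ 19 * 660 from h)

lemma dvl_15960 : ∀ x : ℕ, x ∣ 15960 → x ∈ [1, 2, 3, 4, 5, 6, 7, 8, 10, 12, 14, 15, 19, 20, 21, 24, 28, 30, 35, 38, 40, 42, 56, 57, 60, 70, 76, 84, 95, 105, 114, 120, 133, 140, 152, 168, 190, 210, 228, 266, 280, 285, 380, 399, 420, 456, 532, 570, 665, 760, 798, 840, 1064, 1140, 1330, 1596, 1995, 2280, 2660, 3192, 3990, 5320, 7980, 15960] :=
  fun x h => dv_step (p := 19) (m := 840) (by norm_num) dvl_840 (by decide) (show x ∣ 19 * 840 from h)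

lemma dvl_17556 : ∀ x : ℕ, x ∣ 17556 → x ∈ [1, 2, 3, 4, 6, 7, 11, 12, 14, 19, 21, 22, 28, 33, 38, 42, 44, 57, 66, 76, 77, 84, 114, 132, 133, 154, 209, 228, 231, 266, 308, 399, 418, 462, 532, 627, 798, 836, 924, 1254, 1463, 1596, 2508, 2926, 4389, 5852, 8778, 17556] :=
  fun x h => dv_step (p := 19) (m := 924) (by norm_num) dvl_924 (by decide) (show x ∣ 19 * 924 from h)

lemma dvl_25080 : ∀ x : ℕ, x ∣ 25080 → x ∈ [1, 2, 3, 4, 5, 6, 8, 10, 11, 12, 15, 19, 20, 22, 24, 30, 33, 38, 40, 44, 55, 57, 60, 66, 76, 88, 95, 110, 114, 120, 132, 152, 165, 190, 209, 220, 228, 264, 285, 330, 380, 418, 440, 456, 570, 627, 660, 760, 836, 1045, 1140, 1254, 1320, 1672, 2090, 2280, 2508, 3135, 4180, 5016, 6270, 8360, 12540, 25080] :=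
  fun x h => dv_step (p := 19) (m := 1320) (by norm_num) dvl_1320 (by decide) (show x ∣ 19 * 1320 from h)

lemma dvl_29260 : ∀ x : ℕ, x ∣ 29260 → x ∈ [1, 2, 4, 5, 7, 10, 11, 14, 19, 20, 22, 28, 35, 38, 44, 55, 70, 76, 77, 95, 110, 133, 140, 154, 190, 209, 220, 266, 308, 380, 385, 418, 532, 665, 770, 836, 1045, 1330, 1463, 1540, 2090, 2660, 2926, 4180, 5852, 7315, 14630, 29260] :=
  fun x h => dv_step (p := 19) (m := 1540) (by norm_num) dvl_1540 (by decide) (show x ∣ 19 * 1540 from h)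

lemma dvl_35112 : ∀ x : ℕ, x ∣ 35112 → x ∈ [1, 2, 3, 4, 6, 7, 8, 11, 12, 14, 19, 21, 22, 24, 28, 33, 38, 42, 44, 56, 57, 66, 76, 77, 84, 88, 114, 132, 133, 152, 154, 168, 209, 228, 231, 264, 266, 308, 399, 418, 456, 462, 532, 616, 627, 798, 836, 924, 1064, 1254, 1463, 1596, 1672, 1848, 2508, 2926, 3192, 4389, 5016, 5852, 8778, 11704, 17556, 35112] :=
  fun x h => dv_step (p := 19) (m := 1848) (by norm_num) dvl_1848 (by decide) (show x ∣ 19 * 1848 from h)

lemma dvl_58520 : ∀ x : ℕ, x ∣ 58520 → x ∈ [1, 2, 4, 5, 7, 8, 10, 11, 14, 19, 20, 22, 28, 35, 38, 40, 44, 55, 56, 70, 76, 77, 88, 95, 110, 133, 140, 152, 154, 190, 209, 220, 266, 280, 308, 380, 385, 418, 440, 532, 616, 665, 760, 770, 836, 1045, 1064, 1330, 1463, 1540, 1672, 2090, 2660, 2926, 3080, 4180, 5320, 5852, 7315, 8360, 11704, 14630, 29260, 58520] :=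
  fun x h => dv_step (p := 19) (m := 3080) (by norm_num) dvl_3080 (by decide) (show x ∣ 19 * 3080 from h)

lemma dvl_87780 : ∀ x : ℕ, x ∣ 87780 → x ∈ [1, 2, 3, 4, 5, 6, 7, 10, 11, 12, 14, 15, 19, 20, 21, 22, 28, 30, 33, 35, 38, 42, 44, 55, 57, 60, 66, 70, 76, 77, 84, 95, 105, 110, 114, 132, 133, 140, 154, 165, 190, 209, 210, 220, 228, 231, 266, 285, 308, 330, 380, 385, 399, 418, 420, 462, 532, 570, 627, 660, 665, 770, 798, 836, 924, 1045, 1140, 1155, 1254, 1330, 1463, 1540, 1596, 1995, 2090, 2310, 2508, 2660, 2926, 3135, 3990, 4180, 4389, 4620, 5852, 6270, 7315, 7980, 8778, 12540, 14630, 17556, 21945, 29260, 43890, 87780] :=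
  fun x h => dv_step (p := 19) (m := 4620) (by norm_num) dvl_4620 (by decide) (show x ∣ 19 * 4620 from h)

lemma dvl_175560 : ∀ x : ℕ, x ∣ 175560 → x ∈ [1, 2, 3, 4, 5, 6, 7, 8, 10, 11, 12, 14, 15, 19, 20, 21, 22, 24, 28, 30, 33, 35, 38, 40, 42, 44, 55, 56, 57, 60, 66, 70, 76, 77, 84, 88, 95, 105, 110, 114, 120, 132, 133, 140, 152, 154, 165, 168, 190, 209, 210, 220, 228, 231, 264, 266, 280, 285, 308, 330, 380, 385, 399, 418, 420, 440, 456, 462, 532, 570, 616, 627, 660, 665, 760, 770, 798, 836, 840, 924, 1045, 1064, 1140, 1155, 1254, 1320, 1330, 1463, 1540, 1596, 1672, 1848, 1995, 2090, 2280, 2310, 2508, 2660, 2926, 3080, 3135, 3192, 3990, 4180, 4389, 4620, 5016, 5320, 5852, 6270, 7315, 7980, 8360, 8778, 9240, 11704, 12540, 14630, 15960, 17556, 21945, 25080, 29260, 35112, 43890, 58520, 87780, 175560] :=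
  fun x h => dv_step (p := 19) (m := 9240) (by norm_num) dvl_9240 (by decide) (show x ∣ 19 * 9240 from h)

lemma opt_19_76 {n a b : ℕ} (h : SD 19 18 76 n a b) :
    False := by
  obtain ⟨h1, h2, h3, h4, h5, h6, h7, h8⟩ := h
  have hm := dvl_76 n ⟨a, h1.symm⟩
  have hn : False := (by decide : ∀ n ∈ [1, 2, 4, 19, 38, 76], n % 19 = 1 → n ≠ 1 → 19 ≤ n → False) n hm h2 h3 h4
  exact hn.elim

lemma opt_19_152 {n a b : ℕ} (h : SD 19 18 152 n a b) :
    False := by
  obtain ⟨h1, h2, h3, h4, h5, h6, h7, h8⟩ := h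
  have hm := dvl_152 n ⟨a, h1.symm⟩
  have hn : False := (by decide : ∀ n ∈ [1, 2, 4, 8, 19, 38, 76, 152], n % 19 = 1 → n ≠ 1 → 19 ≤ n → False) n hm h2 h3 h4
  exact hn.elim

lemma opt_19_228 {n a b : ℕ} (h : SD 19 18 228 n a b) :
    False := by
  obtain ⟨h1, h2, h3, h4, h5, h6, h7, h8⟩ := h
  have hm := dvl_228 n ⟨a, h1.symm⟩
  have hn : False := (by decide : ∀ n ∈ [1, 2, 3, 4, 6, 12, 19, 38, 57, 76, 114, 228], n % 19 = 1 → n ≠ 1 → 19 ≤ n → False) n hm h2 h3 h4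
  exact hn.elim

lemma opt_19_380 {n a b : ℕ} (h : SD 19 18 380 n a b) :
    False := by
  obtain ⟨h1, h2, h3, h4, h5, h6, h7, h8⟩ := h
  have hm := dvl_380 n ⟨a, h1.symm⟩
  have hn : n = 20 := (by decide : ∀ n ∈ [1, 2, 4, 5, 10, 19, 20, 38, 76, 95, 190, 380], n % 19 = 1 → n ≠ 1 → 19 ≤ n → n = 20) n hm h2 h3 h4
  clear hm
  rcases hn with rfl
  · have ha : a = 19 := by omega
    subst ha
    have hb := dvl_19 b h5
    have hb' : False := (by decide : ∀ b ∈ [1, 19], 19 ∣ 18 * b → 19 ≠ b → 19 ∣ b → False) b hb h6 h7 h8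
    exact hb'.elim

lemma opt_19_456 {n a b : ℕ} (h : SD 19 18 456 n a b) :
    False := by
  obtain ⟨h1, h2, h3, h4, h5, h6, h7, h8⟩ := h
  have hm := dvl_456 n ⟨a, h1.symm⟩
  have hn : False := (by decide : ∀ n ∈ [1, 2, 3, 4, 6, 8, 12, 19, 24, 38, 57, 76, 114, 152, 228, 456], n % 19 = 1 → n ≠ 1 → 19 ≤ n → False) n hm h2 h3 h4
  exact hn.elim

lemma opt_19_532 {n a b : ℕ} (h : SD 19 18 532 n a b) :
    False := by
  obtain ⟨h1, h2, h3, h4, h5, h6, h7, h8⟩ := h
  have hm := dvl_532 n ⟨a, h1.symm⟩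
  have hn : False := (by decide : ∀ n ∈ [1, 2, 4, 7, 14, 19, 28, 38, 76, 133, 266, 532], n % 19 = 1 → n ≠ 1 → 19 ≤ n → False) n hm h2 h3 h4
  exact hn.elim

lemma opt_19_760 {n a b : ℕ} (h : SD 19 18 760 n a b) :
    (n = 20 ∧ a = 38 ∧ b = 19) := by
  obtain ⟨h1, h2, h3, h4, h5, h6, h7, h8⟩ := h
  have hm := dvl_760 n ⟨a, h1.symm⟩
  have hn : n = 20 := (by decide : ∀ n ∈ [1, 2, 4, 5, 8, 10, 19, 20, 38, 40, 76, 95, 152, 190, 380, 760], n % 19 = 1 → n ≠ 1 → 19 ≤ n → n = 20) n hm h2 h3 h4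
  clear hm
  rcases hn with rfl
  · have ha : a = 38 := by omega
    subst ha
    have hb := dvl_38 b h5
    have hb' : b = 19 := (by decide : ∀ b ∈ [1, 2, 19, 38], 38 ∣ 18 * b → 38 ≠ b → 19 ∣ b → b = 19) b hb h6 h7 h8
    clear hb h1 h2 h3 h4 h5 h6 h7 h8
    rcases hb' with rfl <;> simp

lemma opt_19_836 {n a b : ℕ} (h : SD 19 18 836 n a b) :
    False := by
  obtain ⟨h1, h2, h3, h4, h5, h6, h7, h8⟩ := h
  have hm := dvl_836 n ⟨a, h1.symm⟩
  have hn : False := (by decide : ∀ n ∈ [1, 2, 4, 11, 19, 22, 38, 44, 76, 209, 418, 836], n % 19 = 1 → n ≠ 1 → 19 ≤ n → False) n hm h2 h3 h4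
  exact hn.elim

lemma opt_19_1064 {n a b : ℕ} (h : SD 19 18 1064 n a b) :
    False := by
  obtain ⟨h1, h2, h3, h4, h5, h6, h7, h8⟩ := h
  have hm := dvl_1064 n ⟨a, h1.symm⟩
  have hn : False := (by decide : ∀ n ∈ [1, 2, 4, 7, 8, 14, 19, 28, 38, 56, 76, 133, 152, 266, 532, 1064], n % 19 = 1 → n ≠ 1 → 19 ≤ n → False) n hm h2 h3 h4
  exact hn.elim

lemma opt_19_1140 {n a b : ℕ} (h : SD 19 18 1140 n a b) :
    (n = 20 ∧ a = 57 ∧ b = 19) := by
  obtain ⟨h1, h2, h3, h4, h5, h6, h7, h8⟩ := h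
  have hm := dvl_1140 n ⟨a, h1.symm⟩
  have hn : n = 20 := (by decide : ∀ n ∈ [1, 2, 3, 4, 5, 6, 10, 12, 15, 19, 20, 30, 38, 57, 60, 76, 95, 114, 190, 228, 285, 380, 570, 1140], n % 19 = 1 → n ≠ 1 → 19 ≤ n → n = 20) n hm h2 h3 h4
  clear hm
  rcases hn with rfl
  · have ha : a = 57 := by omega
    subst ha
    have hb := dvl_57 b h5
    have hb' : b = 19 := (by decide : ∀ b ∈ [1, 3, 19, 57], 57 ∣ 18 * b → 57 ≠ b → 19 ∣ b → b = 19) b hb h6 h7 h8
    clear hb h1 h2 h3 h4 h5 h6 h7 h8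
    rcases hb' with rfl <;> simp

lemma opt_19_1596 {n a b : ℕ} (h : SD 19 18 1596 n a b) :
    False := by
  obtain ⟨h1, h2, h3, h4, h5, h6, h7, h8⟩ := h
  have hm := dvl_1596 n ⟨a, h1.symm⟩
  have hn : False := (by decide : ∀ n ∈ [1, 2, 3, 4, 6, 7, 12, 14, 19, 21, 28, 38, 42, 57, 76, 84, 114, 133, 228, 266, 399, 532, 798, 1596], n % 19 = 1 → n ≠ 1 → 19 ≤ n → False) n hm h2 h3 h4
  exact hn.elim

lemma opt_19_1672 {n a b : ℕ} (h : SD 19 18 1672 n a b) :
    False := by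
  obtain ⟨h1, h2, h3, h4, h5, h6, h7, h8⟩ := h
  have hm := dvl_1672 n ⟨a, h1.symm⟩
  have hn : False := (by decide : ∀ n ∈ [1, 2, 4, 8, 11, 19, 22, 38, 44, 76, 88, 152, 209, 418, 836, 1672], n % 19 = 1 → n ≠ 1 → 19 ≤ n → False) n hm h2 h3 h4
  exact hn.elim

lemma opt_19_2280 {n a b : ℕ} (h : SD 19 18 2280 n a b) :
    (n = 20 ∧ a = 114 ∧ b = 19) ∨ (n = 20 ∧ a = 114 ∧ b = 38) ∨ (n = 20 ∧ a = 114 ∧ b = 57) := by
  obtain ⟨h1, h2, h3, h4, h5, h6, h7, h8⟩ := h
  have hm := dvl_2280 n ⟨a, h1.symm⟩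
  have hn : n = 20 := (by decide : ∀ n ∈ [1, 2, 3, 4, 5, 6, 8, 10, 12, 15, 19, 20, 24, 30, 38, 40, 57, 60, 76, 95, 114, 120, 152, 190, 228, 285, 380, 456, 570, 760, 1140, 2280], n % 19 = 1 → n ≠ 1 → 19 ≤ n → n = 20) n hm h2 h3 h4
  clear hm
  rcases hn with rfl
  · have ha : a = 114 := by omega
    subst ha
    have hb := dvl_114 b h5
    have hb' : b = 19 ∨ b = 38 ∨ b = 57 := (by decide : ∀ b ∈ [1, 2, 3, 6, 19, 38, 57, 114], 114 ∣ 18 * b → 114 ≠ b → 19 ∣ b → b = 19 ∨ b = 38 ∨ b = 57) b hb h6 h7 h8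
    clear hb h1 h2 h3 h4 h5 h6 h7 h8
    rcases hb' with rfl | rfl | rfl <;> simp

lemma opt_19_2508 {n a b : ℕ} (h : SD 19 18 2508 n a b) :
    False := by
  obtain ⟨h1, h2, h3, h4, h5, h6, h7, h8⟩ := h
  have hm := dvl_2508 n ⟨a, h1.symm⟩
  have hn : False := (by decide : ∀ n ∈ [1, 2, 3, 4, 6, 11, 12, 19, 22, 33, 38, 44, 57, 66, 76, 114, 132, 209, 228, 418, 627, 836, 1254, 2508], n % 19 = 1 → n ≠ 1 → 19 ≤ n → False) n hm h2 h3 h4
  exact hn.elim

lemma opt_19_2660 {n a b : ℕ} (h : SD 19 18 2660 n a b) :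
    False := by
  obtain ⟨h1, h2, h3, h4, h5, h6, h7, h8⟩ := h
  have hm := dvl_2660 n ⟨a, h1.symm⟩
  have hn : n = 20 := (by decide : ∀ n ∈ [1, 2, 4, 5, 7, 10, 14, 19, 20, 28, 35, 38, 70, 76, 95, 133, 140, 190, 266, 380, 532, 665, 1330, 2660], n % 19 = 1 → n ≠ 1 → 19 ≤ n → n = 20) n hm h2 h3 h4
  clear hm
  rcases hn with rfl
  · have ha : a = 133 := by omega
    subst ha
    have hb := dvl_133 b h5
    have hb' : False := (by decide : ∀ b ∈ [1, 7, 19, 133], 133 ∣ 18 * b → 133 ≠ b → 19 ∣ b → False) b hb h6 h7 h8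
    exact hb'.elim

lemma opt_19_3192 {n a b : ℕ} (h : SD 19 18 3192 n a b) :
    False := by
  obtain ⟨h1, h2, h3, h4, h5, h6, h7, h8⟩ := h
  have hm := dvl_3192 n ⟨a, h1.symm⟩
  have hn : False := (by decide : ∀ n ∈ [1, 2, 3, 4, 6, 7, 8, 12, 14, 19, 21, 24, 28, 38, 42, 56, 57, 76, 84, 114, 133, 152, 168, 228, 266, 399, 456, 532, 798, 1064, 1596, 3192], n % 19 = 1 → n ≠ 1 → 19 ≤ n → False) n hm h2 h3 h4
  exact hn.elim

lemma opt_19_4180 {n a b : ℕ} (h : SD 19 18 4180 n a b) :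
    False := by
  obtain ⟨h1, h2, h3, h4, h5, h6, h7, h8⟩ := h
  have hm := dvl_4180 n ⟨a, h1.symm⟩
  have hn : n = 20 := (by decide : ∀ n ∈ [1, 2, 4, 5, 10, 11, 19, 20, 22, 38, 44, 55, 76, 95, 110, 190, 209, 220, 380, 418, 836, 1045, 2090, 4180], n % 19 = 1 → n ≠ 1 → 19 ≤ n → n = 20) n hm h2 h3 h4
  clear hm
  rcases hn with rfl
  · have ha : a = 209 := by omega
    subst ha
    have hb := dvl_209 b h5
    have hb' : False := (by decide : ∀ b ∈ [1, 11, 19, 209], 209 ∣ 18 * b → 209 ≠ b → 19 ∣ b → False) b hb h6 h7 h8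
    exact hb'.elim

lemma opt_19_5016 {n a b : ℕ} (h : SD 19 18 5016 n a b) :
    False := by
  obtain ⟨h1, h2, h3, h4, h5, h6, h7, h8⟩ := h
  have hm := dvl_5016 n ⟨a, h1.symm⟩
  have hn : False := (by decide : ∀ n ∈ [1, 2, 3, 4, 6, 8, 11, 12, 19, 22, 24, 33, 38, 44, 57, 66, 76, 88, 114, 132, 152, 209, 228, 264, 418, 456, 627, 836, 1254, 1672, 2508, 5016], n % 19 = 1 → n ≠ 1 → 19 ≤ n → False) n hm h2 h3 h4
  exact hn.elim

lemma opt_19_5320 {n a b : ℕ} (h : SD 19 18 5320 n a b) :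
    (n = 20 ∧ a = 266 ∧ b = 133) := by
  obtain ⟨h1, h2, h3, h4, h5, h6, h7, h8⟩ := h
  have hm := dvl_5320 n ⟨a, h1.symm⟩
  have hn : n = 20 := (by decide : ∀ n ∈ [1, 2, 4, 5, 7, 8, 10, 14, 19, 20, 28, 35, 38, 40, 56, 70, 76, 95, 133, 140, 152, 190, 266, 280, 380, 532, 665, 760, 1064, 1330, 2660, 5320], n % 19 = 1 → n ≠ 1 → 19 ≤ n → n = 20) n hm h2 h3 h4
  clear hm
  rcases hn with rfl
  · have ha : a = 266 := by omega
    subst ha
    have hb := dvl_266 b h5
    have hb' : b = 133 := (by decide : ∀ b ∈ [1, 2, 7, 14, 19, 38, 133, 266], 266 ∣ 18 * b → 266 ≠ b → 19 ∣ b → b = 133) b hb h6 h7 h8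
    clear hb h1 h2 h3 h4 h5 h6 h7 h8
    rcases hb' with rfl <;> simp

lemma opt_19_5852 {n a b : ℕ} (h : SD 19 18 5852 n a b) :
    (n = 77 ∧ a = 76 ∧ b = 38) := by
  obtain ⟨h1, h2, h3, h4, h5, h6, h7, h8⟩ := h
  have hm := dvl_5852 n ⟨a, h1.symm⟩
  have hn : n = 77 := (by decide : ∀ n ∈ [1, 2, 4, 7, 11, 14, 19, 22, 28, 38, 44, 76, 77, 133, 154, 209, 266, 308, 418, 532, 836, 1463, 2926, 5852], n % 19 = 1 → n ≠ 1 → 19 ≤ n → n = 77) n hm h2 h3 h4
  clear hm
  rcases hn with rfl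
  · have ha : a = 76 := by omega
    subst ha
    have hb := dvl_76 b h5
    have hb' : b = 38 := (by decide : ∀ b ∈ [1, 2, 4, 19, 38, 76], 76 ∣ 18 * b → 76 ≠ b → 19 ∣ b → b = 38) b hb h6 h7 h8
    clear hb h1 h2 h3 h4 h5 h6 h7 h8
    rcases hb' with rfl <;> simp

lemma opt_19_7980 {n a b : ℕ} (h : SD 19 18 7980 n a b) :
    (n = 20 ∧ a = 399 ∧ b = 133) ∨ (n = 210 ∧ a = 38 ∧ b = 19) := by
  obtain ⟨h1, h2, h3, h4, h5, h6, h7, h8⟩ := h
  have hm := dvl_7980 n ⟨a, h1.symm⟩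
  have hn : n = 20 ∨ n = 210 := (by decide : ∀ n ∈ [1, 2, 3, 4, 5, 6, 7, 10, 12, 14, 15, 19, 20, 21, 28, 30, 35, 38, 42, 57, 60, 70, 76, 84, 95, 105, 114, 133, 140, 190, 210, 228, 266, 285, 380, 399, 420, 532, 570, 665, 798, 1140, 1330, 1596, 1995, 2660, 3990, 7980], n % 19 = 1 → n ≠ 1 → 19 ≤ n → n = 20 ∨ n = 210) n hm h2 h3 h4
  clear hm
  rcases hn with rfl | rfl
  · have ha : a = 399 := by omega
    subst ha
    have hb := dvl_399 b h5
    have hb' : b = 133 := (by decide : ∀ b ∈ [1, 3, 7, 19, 21, 57, 133, 399], 399 ∣ 18 * b → 399 ≠ b → 19 ∣ b → b = 133) b hb h6 h7 h8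
    clear hb h1 h2 h3 h4 h5 h6 h7 h8
    rcases hb' with rfl <;> simp
  · have ha : a = 38 := by omega
    subst ha
    have hb := dvl_38 b h5
    have hb' : b = 19 := (by decide : ∀ b ∈ [1, 2, 19, 38], 38 ∣ 18 * b → 38 ≠ b → 19 ∣ b → b = 19) b hb h6 h7 h8
    clear hb h1 h2 h3 h4 h5 h6 h7 h8
    rcases hb' with rfl <;> simp

lemma opt_19_8360 {n a b : ℕ} (h : SD 19 18 8360 n a b) :
    (n = 20 ∧ a = 418 ∧ b = 209) := by
  obtain ⟨h1, h2, h3, h4, h5, h6, h7, h8⟩ := h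
  have hm := dvl_8360 n ⟨a, h1.symm⟩
  have hn : n = 20 := (by decide : ∀ n ∈ [1, 2, 4, 5, 8, 10, 11, 19, 20, 22, 38, 40, 44, 55, 76, 88, 95, 110, 152, 190, 209, 220, 380, 418, 440, 760, 836, 1045, 1672, 2090, 4180, 8360], n % 19 = 1 → n ≠ 1 → 19 ≤ n → n = 20) n hm h2 h3 h4
  clear hm
  rcases hn with rfl
  · have ha : a = 418 := by omega
    subst ha
    have hb := dvl_418 b h5
    have hb' : b = 209 := (by decide : ∀ b ∈ [1, 2, 11, 19, 22, 38, 209, 418], 418 ∣ 18 * b → 418 ≠ b → 19 ∣ b → b = 209) b hb h6 h7 h8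
    clear hb h1 h2 h3 h4 h5 h6 h7 h8
    rcases hb' with rfl <;> simp

lemma opt_19_11704 {n a b : ℕ} (h : SD 19 18 11704 n a b) :
    (n = 77 ∧ a = 152 ∧ b = 76) := by
  obtain ⟨h1, h2, h3, h4, h5, h6, h7, h8⟩ := h
  have hm := dvl_11704 n ⟨a, h1.symm⟩
  have hn : n = 77 := (by decide : ∀ n ∈ [1, 2, 4, 7, 8, 11, 14, 19, 22, 28, 38, 44, 56, 76, 77, 88, 133, 152, 154, 209, 266, 308, 418, 532, 616, 836, 1064, 1463, 1672, 2926, 5852, 11704], n % 19 = 1 → n ≠ 1 → 19 ≤ n → n = 77) n hm h2 h3 h4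
  clear hm
  rcases hn with rfl
  · have ha : a = 152 := by omega
    subst ha
    have hb := dvl_152 b h5
    have hb' : b = 76 := (by decide : ∀ b ∈ [1, 2, 4, 8, 19, 38, 76, 152], 152 ∣ 18 * b → 152 ≠ b → 19 ∣ b → b = 76) b hb h6 h7 h8
    clear hb h1 h2 h3 h4 h5 h6 h7 h8
    rcases hb' with rfl <;> simp

lemma opt_19_12540 {n a b : ℕ} (h : SD 19 18 12540 n a b) :
    (n = 20 ∧ a = 627 ∧ b = 209) := by
  obtain ⟨h1, h2, h3, h4, h5, h6, h7, h8⟩ := h
  have hm := dvl_12540 n ⟨a, h1.symm⟩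
  have hn : n = 20 := (by decide : ∀ n ∈ [1, 2, 3, 4, 5, 6, 10, 11, 12, 15, 19, 20, 22, 30, 33, 38, 44, 55, 57, 60, 66, 76, 95, 110, 114, 132, 165, 190, 209, 220, 228, 285, 330, 380, 418, 570, 627, 660, 836, 1045, 1140, 1254, 2090, 2508, 3135, 4180, 6270, 12540], n % 19 = 1 → n ≠ 1 → 19 ≤ n → n = 20) n hm h2 h3 h4
  clear hm
  rcases hn with rfl
  · have ha : a = 627 := by omega
    subst ha
    have hb := dvl_627 b h5
    have hb' : b = 209 := (by decide : ∀ b ∈ [1, 3, 11, 19, 33, 57, 209, 627], 627 ∣ 18 * b → 627 ≠ b → 19 ∣ b → b = 209) b hb h6 h7 h8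
    clear hb h1 h2 h3 h4 h5 h6 h7 h8
    rcases hb' with rfl <;> simp

lemma opt_19_15960 {n a b : ℕ} (h : SD 19 18 15960 n a b) :
    (n = 20 ∧ a = 798 ∧ b = 133) ∨ (n = 20 ∧ a = 798 ∧ b = 266) ∨ (n = 20 ∧ a = 798 ∧ b = 399) ∨ (n = 210 ∧ a = 76 ∧ b = 38) := by
  obtain ⟨h1, h2, h3, h4, h5, h6, h7, h8⟩ := h
  have hm := dvl_15960 n ⟨a, h1.symm⟩
  have hn : n = 20 ∨ n = 210 := (by decide : ∀ n ∈ [1, 2, 3, 4, 5, 6, 7, 8, 10, 12, 14, 15, 19, 20, 21, 24, 28, 30, 35, 38, 40, 42, 56, 57, 60, 70, 76, 84, 95, 105, 114, 120, 133, 140, 152, 168, 190, 210, 228, 266, 280, 285, 380, 399, 420, 456, 532, 570, 665, 760, 798, 840, 1064, 1140, 1330, 1596, 1995, 2280, 2660, 3192, 3990, 5320, 7980, 15960], n % 19 = 1 → n ≠ 1 → 19 ≤ n → n = 20 ∨ n = 210) n hm h2 h3 h4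
  clear hm
  rcases hn with rfl | rfl
  · have ha : a = 798 := by omega
    subst ha
    have hb := dvl_798 b h5
    have hb' : b = 133 ∨ b = 266 ∨ b = 399 := (by decide : ∀ b ∈ [1, 2, 3, 6, 7, 14, 19, 21, 38, 42, 57, 114, 133, 266, 399, 798], 798 ∣ 18 * b → 798 ≠ b → 19 ∣ b → b = 133 ∨ b = 266 ∨ b = 399) b hb h6 h7 h8
    clear hb h1 h2 h3 h4 h5 h6 h7 h8
    rcases hb' with rfl | rfl | rfl <;> simp
  · have ha : a = 76 := by omega
    subst ha
    have hb := dvl_76 b h5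
    have hb' : b = 38 := (by decide : ∀ b ∈ [1, 2, 4, 19, 38, 76], 76 ∣ 18 * b → 76 ≠ b → 19 ∣ b → b = 38) b hb h6 h7 h8
    clear hb h1 h2 h3 h4 h5 h6 h7 h8
    rcases hb' with rfl <;> simp

lemma opt_19_17556 {n a b : ℕ} (h : SD 19 18 17556 n a b) :
    (n = 77 ∧ a = 228 ∧ b = 38) ∨ (n = 77 ∧ a = 228 ∧ b = 76) ∨ (n = 77 ∧ a = 228 ∧ b = 114) := by
  obtain ⟨h1, h2, h3, h4, h5, h6, h7, h8⟩ := h
  have hm := dvl_17556 n ⟨a, h1.symm⟩
  have hn : n = 77 := (by decide : ∀ n ∈ [1, 2, 3, 4, 6, 7, 11, 12, 14, 19, 21, 22, 28, 33, 38, 42, 44, 57, 66, 76, 77, 84, 114, 132, 133, 154, 209, 228, 231, 266, 308, 399, 418, 462, 532, 627, 798, 836, 924, 1254, 1463, 1596, 2508, 2926, 4389, 5852, 8778, 17556], n % 19 = 1 → n ≠ 1 → 19 ≤ n → n = 77) n hm h2 h3 h4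
  clear hm
  rcases hn with rfl
  · have ha : a = 228 := by omega
    subst ha
    have hb := dvl_228 b h5
    have hb' : b = 38 ∨ b = 76 ∨ b = 114 := (by decide : ∀ b ∈ [1, 2, 3, 4, 6, 12, 19, 38, 57, 76, 114, 228], 228 ∣ 18 * b → 228 ≠ b → 19 ∣ b → b = 38 ∨ b = 76 ∨ b = 114) b hb h6 h7 h8
    clear hb h1 h2 h3 h4 h5 h6 h7 h8
    rcases hb' with rfl | rfl | rfl <;> simp

lemma opt_19_25080 {n a b : ℕ} (h : SD 19 18 25080 n a b) :
    (n = 20 ∧ a = 1254 ∧ b = 209) ∨ (n = 20 ∧ a = 1254 ∧ b = 418) ∨ (n = 20 ∧ a = 1254 ∧ b = 627) := by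
  obtain ⟨h1, h2, h3, h4, h5, h6, h7, h8⟩ := h
  have hm := dvl_25080 n ⟨a, h1.symm⟩
  have hn : n = 20 := (by decide : ∀ n ∈ [1, 2, 3, 4, 5, 6, 8, 10, 11, 12, 15, 19, 20, 22, 24, 30, 33, 38, 40, 44, 55, 57, 60, 66, 76, 88, 95, 110, 114, 120, 132, 152, 165, 190, 209, 220, 228, 264, 285, 330, 380, 418, 440, 456, 570, 627, 660, 760, 836, 1045, 1140, 1254, 1320, 1672, 2090, 2280, 2508, 3135, 4180, 5016, 6270, 8360, 12540, 25080], n % 19 = 1 → n ≠ 1 → 19 ≤ n → n = 20) n hm h2 h3 h4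
  clear hm
  rcases hn with rfl
  · have ha : a = 1254 := by omega
    subst ha
    have hb := dvl_1254 b h5
    have hb' : b = 209 ∨ b = 418 ∨ b = 627 := (by decide : ∀ b ∈ [1, 2, 3, 6, 11, 19, 22, 33, 38, 57, 66, 114, 209, 418, 627, 1254], 1254 ∣ 18 * b → 1254 ≠ b → 19 ∣ b → b = 209 ∨ b = 418 ∨ b = 627) b hb h6 h7 h8
    clear hb h1 h2 h3 h4 h5 h6 h7 h8
    rcases hb' with rfl | rfl | rfl <;> simp

lemma opt_19_29260 {n a b : ℕ} (h : SD 19 18 29260 n a b) :
    (n = 77 ∧ a = 380 ∧ b = 190) := by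
  obtain ⟨h1, h2, h3, h4, h5, h6, h7, h8⟩ := h
  have hm := dvl_29260 n ⟨a, h1.symm⟩
  have hn : n = 20 ∨ n = 77 ∨ n = 1540 := (by decide : ∀ n ∈ [1, 2, 4, 5, 7, 10, 11, 14, 19, 20, 22, 28, 35, 38, 44, 55, 70, 76, 77, 95, 110, 133, 140, 154, 190, 209, 220, 266, 308, 380, 385, 418, 532, 665, 770, 836, 1045, 1330, 1463, 1540, 2090, 2660, 2926, 4180, 5852, 7315, 14630, 29260], n % 19 = 1 → n ≠ 1 → 19 ≤ n → n = 20 ∨ n = 77 ∨ n = 1540) n hm h2 h3 h4
  clear hm
  rcases hn with rfl | rfl | rfl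
  · have ha : a = 1463 := by omega
    subst ha
    have hb := dvl_1463 b h5
    have hb' : False := (by decide : ∀ b ∈ [1, 7, 11, 19, 77, 133, 209, 1463], 1463 ∣ 18 * b → 1463 ≠ b → 19 ∣ b → False) b hb h6 h7 h8
    exact hb'.elim
  · have ha : a = 380 := by omega
    subst ha
    have hb := dvl_380 b h5
    have hb' : b = 190 := (by decide : ∀ b ∈ [1, 2, 4, 5, 10, 19, 20, 38, 76, 95, 190, 380], 380 ∣ 18 * b → 380 ≠ b → 19 ∣ b → b = 190) b hb h6 h7 h8
    clear hb h1 h2 h3 h4 h5 h6 h7 h8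
    rcases hb' with rfl <;> simp
  · have ha : a = 19 := by omega
    subst ha
    have hb := dvl_19 b h5
    have hb' : False := (by decide : ∀ b ∈ [1, 19], 19 ∣ 18 * b → 19 ≠ b → 19 ∣ b → False) b hb h6 h7 h8
    exact hb'.elim

lemma opt_19_35112 {n a b : ℕ} (h : SD 19 18 35112 n a b) :
    (n = 77 ∧ a = 456 ∧ b = 76) ∨ (n = 77 ∧ a = 456 ∧ b = 152) ∨ (n = 77 ∧ a = 456 ∧ b = 228) := by
  obtain ⟨h1, h2, h3, h4, h5, h6, h7, h8⟩ := h
  have hm := dvl_35112 n ⟨a, h1.symm⟩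
  have hn : n = 77 := (by decide : ∀ n ∈ [1, 2, 3, 4, 6, 7, 8, 11, 12, 14, 19, 21, 22, 24, 28, 33, 38, 42, 44, 56, 57, 66, 76, 77, 84, 88, 114, 132, 133, 152, 154, 168, 209, 228, 231, 264, 266, 308, 399, 418, 456, 462, 532, 616, 627, 798, 836, 924, 1064, 1254, 1463, 1596, 1672, 1848, 2508, 2926, 3192, 4389, 5016, 5852, 8778, 11704, 17556, 35112], n % 19 = 1 → n ≠ 1 → 19 ≤ n → n = 77) n hm h2 h3 h4
  clear hm
  rcases hn with rfl
  · have ha : a = 456 := by omega
    subst ha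
    have hb := dvl_456 b h5
    have hb' : b = 76 ∨ b = 152 ∨ b = 228 := (by decide : ∀ b ∈ [1, 2, 3, 4, 6, 8, 12, 19, 24, 38, 57, 76, 114, 152, 228, 456], 456 ∣ 18 * b → 456 ≠ b → 19 ∣ b → b = 76 ∨ b = 152 ∨ b = 228) b hb h6 h7 h8
    clear hb h1 h2 h3 h4 h5 h6 h7 h8
    rcases hb' with rfl | rfl | rfl <;> simp

lemma opt_19_58520 {n a b : ℕ} (h : SD 19 18 58520 n a b) :
    (n = 20 ∧ a = 2926 ∧ b = 1463) ∨ (n = 77 ∧ a = 760 ∧ b = 380) ∨ (n = 1540 ∧ a = 38 ∧ b = 19) := by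
  obtain ⟨h1, h2, h3, h4, h5, h6, h7, h8⟩ := h
  have hm := dvl_58520 n ⟨a, h1.symm⟩
  have hn : n = 20 ∨ n = 77 ∨ n = 1540 := (by decide : ∀ n ∈ [1, 2, 4, 5, 7, 8, 10, 11, 14, 19, 20, 22, 28, 35, 38, 40, 44, 55, 56, 70, 76, 77, 88, 95, 110, 133, 140, 152, 154, 190, 209, 220, 266, 280, 308, 380, 385, 418, 440, 532, 616, 665, 760, 770, 836, 1045, 1064, 1330, 1463, 1540, 1672, 2090, 2660, 2926, 3080, 4180, 5320, 5852, 7315, 8360, 11704, 14630, 29260, 58520], n % 19 = 1 → n ≠ 1 → 19 ≤ n → n = 20 ∨ n = 77 ∨ n = 1540) n hm h2 h3 h4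
  clear hm
  rcases hn with rfl | rfl | rfl
  · have ha : a = 2926 := by omega
    subst ha
    have hb := dvl_2926 b h5
    have hb' : b = 1463 := (by decide : ∀ b ∈ [1, 2, 7, 11, 14, 19, 22, 38, 77, 133, 154, 209, 266, 418, 1463, 2926], 2926 ∣ 18 * b → 2926 ≠ b → 19 ∣ b → b = 1463) b hb h6 h7 h8
    clear hb h1 h2 h3 h4 h5 h6 h7 h8
    rcases hb' with rfl <;> simp
  · have ha : a = 760 := by omega
    subst ha
    have hb := dvl_760 b h5
    have hb' : b = 380 := (by decide : ∀ b ∈ [1, 2, 4, 5, 8, 10, 19, 20, 38, 40, 76, 95, 152, 190, 380, 760], 760 ∣ 18 * b → 760 ≠ b → 19 ∣ b → b = 380) b hb h6 h7 h8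
    clear hb h1 h2 h3 h4 h5 h6 h7 h8
    rcases hb' with rfl <;> simp
  · have ha : a = 38 := by omega
    subst ha
    have hb := dvl_38 b h5
    have hb' : b = 19 := (by decide : ∀ b ∈ [1, 2, 19, 38], 38 ∣ 18 * b → 38 ≠ b → 19 ∣ b → b = 19) b hb h6 h7 h8
    clear hb h1 h2 h3 h4 h5 h6 h7 h8
    rcases hb' with rfl <;> simp

lemma opt_19_87780 {n a b : ℕ} (h : SD 19 18 87780 n a b) :
    (n = 20 ∧ a = 4389 ∧ b = 1463) ∨ (n = 77 ∧ a = 1140 ∧ b = 190) ∨ (n = 77 ∧ a = 1140 ∧ b = 380) ∨ (n = 77 ∧ a = 1140 ∧ b = 570) ∨ (n = 210 ∧ a = 418 ∧ b = 209) ∨ (n = 1540 ∧ a = 57 ∧ b = 19) := by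
  obtain ⟨h1, h2, h3, h4, h5, h6, h7, h8⟩ := h
  have hm := dvl_87780 n ⟨a, h1.symm⟩
  have hn : n = 20 ∨ n = 77 ∨ n = 210 ∨ n = 1540 := (by decide : ∀ n ∈ [1, 2, 3, 4, 5, 6, 7, 10, 11, 12, 14, 15, 19, 20, 21, 22, 28, 30, 33, 35, 38, 42, 44, 55, 57, 60, 66, 70, 76, 77, 84, 95, 105, 110, 114, 132, 133, 140, 154, 165, 190, 209, 210, 220, 228, 231, 266, 285, 308, 330, 380, 385, 399, 418, 420, 462, 532, 570, 627, 660, 665, 770, 798, 836, 924, 1045, 1140, 1155, 1254, 1330, 1463, 1540, 1596, 1995, 2090, 2310, 2508, 2660, 2926, 3135, 3990, 4180, 4389, 4620, 5852, 6270, 7315, 7980, 8778, 12540, 14630, 17556, 21945, 29260, 43890, 87780], n % 19 = 1 → n ≠ 1 → 19 ≤ n → n = 20 ∨ n = 77 ∨ n = 210 ∨ n = 1540) n hm h2 h3 h4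
  clear hm
  rcases hn with rfl | rfl | rfl | rfl
  · have ha : a = 4389 := by omega
    subst ha
    have hb := dvl_4389 b h5
    have hb' : b = 1463 := (by decide : ∀ b ∈ [1, 3, 7, 11, 19, 21, 33, 57, 77, 133, 209, 231, 399, 627, 1463, 4389], 4389 ∣ 18 * b → 4389 ≠ b → 19 ∣ b → b = 1463) b hb h6 h7 h8
    clear hb h1 h2 h3 h4 h5 h6 h7 h8
    rcases hb' with rfl <;> simp
  · have ha : a = 1140 := by omega
    subst ha
    have hb := dvl_1140 b h5
    have hb' : b = 190 ∨ b = 380 ∨ b = 570 := (by decide : ∀ b ∈ [1, 2, 3, 4, 5, 6, 10, 12, 15, 19, 20, 30, 38, 57, 60, 76, 95, 114, 190, 228, 285, 380, 570, 1140], 1140 ∣ 18 * b → 1140 ≠ b → 19 ∣ b → b = 190 ∨ b = 380 ∨ b = 570) b hb h6 h7 h8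
    clear hb h1 h2 h3 h4 h5 h6 h7 h8
    rcases hb' with rfl | rfl | rfl <;> simp
  · have ha : a = 418 := by omega
    subst ha
    have hb := dvl_418 b h5
    have hb' : b = 209 := (by decide : ∀ b ∈ [1, 2, 11, 19, 22, 38, 209, 418], 418 ∣ 18 * b → 418 ≠ b → 19 ∣ b → b = 209) b hb h6 h7 h8
    clear hb h1 h2 h3 h4 h5 h6 h7 h8
    rcases hb' with rfl <;> simp
  · have ha : a = 57 := by omega
    subst ha
    have hb := dvl_57 b h5
    have hb' : b = 19 := (by decide : ∀ b ∈ [1, 3, 19, 57], 57 ∣ 18 * b → 57 ≠ b → 19 ∣ b → b = 19) b hb h6 h7 h8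
    clear hb h1 h2 h3 h4 h5 h6 h7 h8
    rcases hb' with rfl <;> simp

lemma opt_5_1140 {n a b : ℕ} (h : SD 5 4 1140 n a b) :
    False := by
  obtain ⟨h1, h2, h3, h4, h5, h6, h7, h8⟩ := h
  have hm := dvl_1140 n ⟨a, h1.symm⟩
  have hn : n = 76 := (by decide : ∀ n ∈ [1, 2, 3, 4, 5, 6, 10, 12, 15, 19, 20, 30, 38, 57, 60, 76, 95, 114, 190, 228, 285, 380, 570, 1140], n % 5 = 1 → n ≠ 1 → 19 ≤ n → n = 76) n hm h2 h3 h4
  clear hm
  rcases hn with rfl
  · have ha : a = 15 := by omega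
    subst ha
    have hb := dvl_15 b h5
    have hb' : False := (by decide : ∀ b ∈ [1, 3, 5, 15], 15 ∣ 4 * b → 15 ≠ b → 5 ∣ b → False) b hb h6 h7 h8
    exact hb'.elim

lemma opt_5_7980 {n a b : ℕ} (h : SD 5 4 7980 n a b) :
    (n = 21 ∧ a = 380 ∧ b = 95) ∨ (n = 21 ∧ a = 380 ∧ b = 190) ∨ (n = 266 ∧ a = 30 ∧ b = 15) := by
  obtain ⟨h1, h2, h3, h4, h5, h6, h7, h8⟩ := h
  have hm := dvl_7980 n ⟨a, h1.symm⟩
  have hn : n = 21 ∨ n = 76 ∨ n = 266 ∨ n = 1596 := (by decide : ∀ n ∈ [1, 2, 3, 4, 5, 6, 7, 10, 12, 14, 15, 19, 20, 21, 28, 30, 35, 38, 42, 57, 60, 70, 76, 84, 95, 105, 114, 133, 140, 190, 210, 228, 266, 285, 380, 399, 420, 532, 570, 665, 798, 1140, 1330, 1596, 1995, 2660, 3990, 7980], n % 5 = 1 → n ≠ 1 → 19 ≤ n → n = 21 ∨ n = 76 ∨ n = 266 ∨ n = 1596) n hm h2 h3 h4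
  clear hm
  rcases hn with rfl | rfl | rfl | rfl
  · have ha : a = 380 := by omega
    subst ha
    have hb := dvl_380 b h5
    have hb' : b = 95 ∨ b = 190 := (by decide : ∀ b ∈ [1, 2, 4, 5, 10, 19, 20, 38, 76, 95, 190, 380], 380 ∣ 4 * b → 380 ≠ b → 5 ∣ b → b = 95 ∨ b = 190) b hb h6 h7 h8
    clear hb h1 h2 h3 h4 h5 h6 h7 h8
    rcases hb' with rfl | rfl <;> simp
  · have ha : a = 105 := by omega
    subst ha
    have hb := dvl_105 b h5
    have hb' : False := (by decide : ∀ b ∈ [1, 3, 5, 7, 15, 21, 35, 105], 105 ∣ 4 * b → 105 ≠ b → 5 ∣ b → False) b hb h6 h7 h8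
    exact hb'.elim
  · have ha : a = 30 := by omega
    subst ha
    have hb := dvl_30 b h5
    have hb' : b = 15 := (by decide : ∀ b ∈ [1, 2, 3, 5, 6, 10, 15, 30], 30 ∣ 4 * b → 30 ≠ b → 5 ∣ b → b = 15) b hb h6 h7 h8
    clear hb h1 h2 h3 h4 h5 h6 h7 h8
    rcases hb' with rfl <;> simp
  · have ha : a = 5 := by omega
    subst ha
    have hb := dvl_5 b h5
    have hb' : False := (by decide : ∀ b ∈ [1, 5], 5 ∣ 4 * b → 5 ≠ b → 5 ∣ b → False) b hb h6 h7 h8
    exact hb'.elim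

lemma opt_5_58520 {n a b : ℕ} (h : SD 5 4 58520 n a b) :
    (n = 76 ∧ a = 770 ∧ b = 385) ∨ (n = 266 ∧ a = 220 ∧ b = 55) ∨ (n = 266 ∧ a = 220 ∧ b = 110) ∨ (n = 836 ∧ a = 70 ∧ b = 35) ∨ (n = 2926 ∧ a = 20 ∧ b = 5) ∨ (n = 2926 ∧ a = 20 ∧ b = 10) := by
  obtain ⟨h1, h2, h3, h4, h5, h6, h7, h8⟩ := h
  have hm := dvl_58520 n ⟨a, h1.symm⟩
  have hn : n = 56 ∨ n = 76 ∨ n = 266 ∨ n = 616 ∨ n = 836 ∨ n = 2926 := (by decide : ∀ n ∈ [1, 2, 4, 5, 7, 8, 10, 11, 14, 19, 20, 22, 28, 35, 38, 40, 44, 55, 56, 70, 76, 77, 88, 95, 110, 133, 140, 152, 154, 190, 209, 220, 266, 280, 308, 380, 385, 418, 440, 532, 616, 665, 760, 770, 836, 1045, 1064, 1330, 1463, 1540, 1672, 2090, 2660, 2926, 3080, 4180, 5320, 5852, 7315, 8360, 11704, 14630, 29260, 58520], n % 5 = 1 → n ≠ 1 → 19 ≤ n → n = 56 ∨ n = 76 ∨ n = 266 ∨ n = 616 ∨ n = 836 ∨ n = 2926) n hm h2 h3 h4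
  clear hm
  rcases hn with rfl | rfl | rfl | rfl | rfl | rfl
  · have ha : a = 1045 := by omega
    subst ha
    have hb := dvl_1045 b h5
    have hb' : False := (by decide : ∀ b ∈ [1, 5, 11, 19, 55, 95, 209, 1045], 1045 ∣ 4 * b → 1045 ≠ b → 5 ∣ b → False) b hb h6 h7 h8
    exact hb'.elim
  · have ha : a = 770 := by omega
    subst ha
    have hb := dvl_770 b h5
    have hb' : b = 385 := (by decide : ∀ b ∈ [1, 2, 5, 7, 10, 11, 14, 22, 35, 55, 70, 77, 110, 154, 385, 770], 770 ∣ 4 * b → 770 ≠ b → 5 ∣ b → b = 385) b hb h6 h7 h8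
    clear hb h1 h2 h3 h4 h5 h6 h7 h8
    rcases hb' with rfl <;> simp
  · have ha : a = 220 := by omega
    subst ha
    have hb := dvl_220 b h5
    have hb' : b = 55 ∨ b = 110 := (by decide : ∀ b ∈ [1, 2, 4, 5, 10, 11, 20, 22, 44, 55, 110, 220], 220 ∣ 4 * b → 220 ≠ b → 5 ∣ b → b = 55 ∨ b = 110) b hb h6 h7 h8
    clear hb h1 h2 h3 h4 h5 h6 h7 h8
    rcases hb' with rfl | rfl <;> simp
  · have ha : a = 95 := by omega
    subst ha
    have hb := dvl_95 b h5
    have hb' : False := (by decide : ∀ b ∈ [1, 5, 19, 95], 95 ∣ 4 * b → 95 ≠ b → 5 ∣ b → False) b hb h6 h7 h8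
    exact hb'.elim
  · have ha : a = 70 := by omega
    subst ha
    have hb := dvl_70 b h5
    have hb' : b = 35 := (by decide : ∀ b ∈ [1, 2, 5, 7, 10, 14, 35, 70], 70 ∣ 4 * b → 70 ≠ b → 5 ∣ b → b = 35) b hb h6 h7 h8
    clear hb h1 h2 h3 h4 h5 h6 h7 h8
    rcases hb' with rfl <;> simp
  · have ha : a = 20 := by omega
    subst ha
    have hb := dvl_20 b h5
    have hb' : b = 5 ∨ b = 10 := (by decide : ∀ b ∈ [1, 2, 4, 5, 10, 20], 20 ∣ 4 * b → 20 ≠ b → 5 ∣ b → b = 5 ∨ b = 10) b hb h6 h7 h8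
    clear hb h1 h2 h3 h4 h5 h6 h7 h8
    rcases hb' with rfl | rfl <;> simp

lemma opt_5_87780 {n a b : ℕ} (h : SD 5 4 87780 n a b) :
    (n = 21 ∧ a = 4180 ∧ b = 1045) ∨ (n = 21 ∧ a = 4180 ∧ b = 2090) ∨ (n = 66 ∧ a = 1330 ∧ b = 665) ∨ (n = 231 ∧ a = 380 ∧ b = 95) ∨ (n = 231 ∧ a = 380 ∧ b = 190) ∨ (n = 266 ∧ a = 330 ∧ b = 165) ∨ (n = 2926 ∧ a = 30 ∧ b = 15) := by
  obtain ⟨h1, h2, h3, h4, h5, h6, h7, h8⟩ := h
  have hm := dvl_87780 n ⟨a, h1.symm⟩
  have hn : n = 21 ∨ n = 66 ∨ n = 76 ∨ n = 231 ∨ n = 266 ∨ n = 836 ∨ n = 1596 ∨ n = 2926 ∨ n = 17556 := (by decide : ∀ n ∈ [1, 2, 3, 4, 5, 6, 7, 10, 11, 12, 14, 15, 19, 20, 21, 22, 28, 30, 33, 35, 38, 42, 44, 55, 57, 60, 66, 70, 76, 77, 84, 95, 105, 110, 114, 132, 133, 140, 154, 165, 190, 209, 210, 220, 228, 231, 266, 285, 308, 330, 380, 385, 399, 418, 420, 462, 532, 570, 627, 660, 665, 770, 798, 836, 924, 1045, 1140, 1155, 1254, 1330, 1463, 1540, 1596, 1995, 2090, 2310, 2508, 2660,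 2926, 3135, 3990, 4180, 4389, 4620, 5852, 6270, 7315, 7980, 8778, 12540, 14630, 17556, 21945, 29260, 43890, 87780], n % 5 = 1 → n ≠ 1 → 19 ≤ n → n = 21 ∨ n = 66 ∨ n = 76 ∨ n = 231 ∨ n = 266 ∨ n = 836 ∨ n = 1596 ∨ n = 2926 ∨ n = 17556) n hm h2 h3 h4
  clear hm
  rcases hn with rfl | rfl | rfl | rfl | rfl | rfl | rfl | rfl | rfl
  · have ha : a = 4180 := by omega
    subst ha
    have hb := dvl_4180 b h5
    have hb' : b = 1045 ∨ b = 2090 := (by decide : ∀ b ∈ [1, 2, 4, 5, 10, 11, 19, 20, 22, 38, 44, 55, 76, 95, 110, 190, 209, 220, 380, 418, 836, 1045, 2090, 4180], 4180 ∣ 4 * b → 4180 ≠ b → 5 ∣ b → b = 1045 ∨ b = 2090) b hb h6 h7 h8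
    clear hb h1 h2 h3 h4 h5 h6 h7 h8
    rcases hb' with rfl | rfl <;> simp
  · have ha : a = 1330 := by omega
    subst ha
    have hb := dvl_1330 b h5
    have hb' : b = 665 := (by decide : ∀ b ∈ [1, 2, 5, 7, 10, 14, 19, 35, 38, 70, 95, 133, 190, 266, 665, 1330], 1330 ∣ 4 * b → 1330 ≠ b → 5 ∣ b → b = 665) b hb h6 h7 h8
    clear hb h1 h2 h3 h4 h5 h6 h7 h8
    rcases hb' with rfl <;> simp
  · have ha : a = 1155 := by omega
    subst ha
    have hb := dvl_1155 b h5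
    have hb' : False := (by decide : ∀ b ∈ [1, 3, 5, 7, 11, 15, 21, 33, 35, 55, 77, 105, 165, 231, 385, 1155], 1155 ∣ 4 * b → 1155 ≠ b → 5 ∣ b → False) b hb h6 h7 h8
    exact hb'.elim
  · have ha : a = 380 := by omega
    subst ha
    have hb := dvl_380 b h5
    have hb' : b = 95 ∨ b = 190 := (by decide : ∀ b ∈ [1, 2, 4, 5, 10, 19, 20, 38, 76, 95, 190, 380], 380 ∣ 4 * b → 380 ≠ b → 5 ∣ b → b = 95 ∨ b = 190) b hb h6 h7 h8
    clear hb h1 h2 h3 h4 h5 h6 h7 h8
    rcases hb' with rfl | rfl <;> simp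
  · have ha : a = 330 := by omega
    subst ha
    have hb := dvl_330 b h5
    have hb' : b = 165 := (by decide : ∀ b ∈ [1, 2, 3, 5, 6, 10, 11, 15, 22, 30, 33, 55, 66, 110, 165, 330], 330 ∣ 4 * b → 330 ≠ b → 5 ∣ b → b = 165) b hb h6 h7 h8
    clear hb h1 h2 h3 h4 h5 h6 h7 h8
    rcases hb' with rfl <;> simp
  · have ha : a = 105 := by omega
    subst ha
    have hb := dvl_105 b h5
    have hb' : False := (by decide : ∀ b ∈ [1, 3, 5, 7, 15, 21, 35, 105], 105 ∣ 4 * b → 105 ≠ b → 5 ∣ b → False) b hb h6 h7 h8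
    exact hb'.elim
  · have ha : a = 55 := by omega
    subst ha
    have hb := dvl_55 b h5
    have hb' : False := (by decide : ∀ b ∈ [1, 5, 11, 55], 55 ∣ 4 * b → 55 ≠ b → 5 ∣ b → False) b hb h6 h7 h8
    exact hb'.elim
  · have ha : a = 30 := by omega
    subst ha
    have hb := dvl_30 b h5
    have hb' : b = 15 := (by decide : ∀ b ∈ [1, 2, 3, 5, 6, 10, 15, 30], 30 ∣ 4 * b → 30 ≠ b → 5 ∣ b → b = 15) b hb h6 h7 h8
    clear hb h1 h2 h3 h4 h5 h6 h7 h8
    rcases hb' with rfl <;> simp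
  · have ha : a = 5 := by omega
    subst ha
    have hb := dvl_5 b h5
    have hb' : False := (by decide : ∀ b ∈ [1, 5], 5 ∣ 4 * b → 5 ≠ b → 5 ∣ b → False) b hb h6 h7 h8
    exact hb'.elim

lemma opt_7_5852 {n a b : ℕ} (h : SD 7 6 5852 n a b) :
    (n = 22 ∧ a = 266 ∧ b = 133) := by
  obtain ⟨h1, h2, h3, h4, h5, h6, h7, h8⟩ := h
  have hm := dvl_5852 n ⟨a, h1.symm⟩
  have hn : n = 22 := (by decide : ∀ n ∈ [1, 2, 4, 7, 11, 14, 19, 22, 28, 38, 44, 76, 77, 133, 154, 209, 266, 308, 418, 532, 836, 1463, 2926, 5852], n % 7 = 1 → n ≠ 1 → 19 ≤ n → n = 22) n hm h2 h3 h4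
  clear hm
  rcases hn with rfl
  · have ha : a = 266 := by omega
    subst ha
    have hb := dvl_266 b h5
    have hb' : b = 133 := (by decide : ∀ b ∈ [1, 2, 7, 14, 19, 38, 133, 266], 266 ∣ 6 * b → 266 ≠ b → 7 ∣ b → b = 133) b hb h6 h7 h8
    clear hb h1 h2 h3 h4 h5 h6 h7 h8
    rcases hb' with rfl <;> simp

lemma opt_7_11704 {n a b : ℕ} (h : SD 7 6 11704 n a b) :
    (n = 22 ∧ a = 532 ∧ b = 266) := by
  obtain ⟨h1, h2, h3, h4, h5, h6, h7, h8⟩ := h
  have hm := dvl_11704 n ⟨a, h1.symm⟩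
  have hn : n = 22 := (by decide : ∀ n ∈ [1, 2, 4, 7, 8, 11, 14, 19, 22, 28, 38, 44, 56, 76, 77, 88, 133, 152, 154, 209, 266, 308, 418, 532, 616, 836, 1064, 1463, 1672, 2926, 5852, 11704], n % 7 = 1 → n ≠ 1 → 19 ≤ n → n = 22) n hm h2 h3 h4
  clear hm
  rcases hn with rfl
  · have ha : a = 532 := by omega
    subst ha
    have hb := dvl_532 b h5
    have hb' : b = 266 := (by decide : ∀ b ∈ [1, 2, 4, 7, 14, 19, 28, 38, 76, 133, 266, 532], 532 ∣ 6 * b → 532 ≠ b → 7 ∣ b → b = 266) b hb h6 h7 h8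
    clear hb h1 h2 h3 h4 h5 h6 h7 h8
    rcases hb' with rfl <;> simp

lemma opt_7_7980 {n a b : ℕ} (h : SD 7 6 7980 n a b) :
    (n = 57 ∧ a = 140 ∧ b = 70) ∨ (n = 190 ∧ a = 42 ∧ b = 7) ∨ (n = 190 ∧ a = 42 ∧ b = 14) ∨ (n = 190 ∧ a = 42 ∧ b = 21) := by
  obtain ⟨h1, h2, h3, h4, h5, h6, h7, h8⟩ := h
  have hm := dvl_7980 n ⟨a, h1.symm⟩
  have hn : n = 57 ∨ n = 190 := (by decide : ∀ n ∈ [1, 2, 3, 4, 5, 6, 7, 10, 12, 14, 15, 19, 20, 21, 28, 30, 35, 38, 42, 57, 60, 70, 76, 84, 95, 105, 114, 133, 140, 190, 210, 228, 266, 285, 380, 399, 420, 532, 570, 665, 798, 1140, 1330, 1596, 1995, 2660, 3990, 7980], n % 7 = 1 → n ≠ 1 → 19 ≤ n → n = 57 ∨ n = 190) n hm h2 h3 h4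
  clear hm
  rcases hn with rfl | rfl
  · have ha : a = 140 := by omega
    subst ha
    have hb := dvl_140 b h5
    have hb' : b = 70 := (by decide : ∀ b ∈ [1, 2, 4, 5, 7, 10, 14, 20, 28, 35, 70, 140], 140 ∣ 6 * b → 140 ≠ b → 7 ∣ b → b = 70) b hb h6 h7 h8
    clear hb h1 h2 h3 h4 h5 h6 h7 h8
    rcases hb' with rfl <;> simp
  · have ha : a = 42 := by omega
    subst ha
    have hb := dvl_42 b h5
    have hb' : b = 7 ∨ b = 14 ∨ b = 21 := (by decide : ∀ b ∈ [1, 2, 3, 6, 7, 14, 21, 42], 42 ∣ 6 * b → 42 ≠ b → 7 ∣ b → b = 7 ∨ b = 14 ∨ b = 21) b hb h6 h7 h8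
    clear hb h1 h2 h3 h4 h5 h6 h7 h8
    rcases hb' with rfl | rfl | rfl <;> simp

lemma opt_7_17556 {n a b : ℕ} (h : SD 7 6 17556 n a b) :
    (n = 22 ∧ a = 798 ∧ b = 133) ∨ (n = 22 ∧ a = 798 ∧ b = 266) ∨ (n = 22 ∧ a = 798 ∧ b = 399) ∨ (n = 57 ∧ a = 308 ∧ b = 154) ∨ (n = 1254 ∧ a = 14 ∧ b = 7) := by
  obtain ⟨h1, h2, h3, h4, h5, h6, h7, h8⟩ := h
  have hm := dvl_17556 n ⟨a, h1.symm⟩
  have hn : n = 22 ∨ n = 57 ∨ n = 1254 := (by decide : ∀ n ∈ [1, 2, 3, 4, 6, 7, 11, 12, 14, 19, 21, 22, 28, 33, 38, 42, 44, 57, 66, 76, 77, 84, 114, 132, 133, 154, 209, 228, 231, 266, 308, 399, 418, 462, 532, 627, 798, 836, 924, 1254, 1463, 1596, 2508, 2926, 4389, 5852, 8778, 17556], n % 7 = 1 → n ≠ 1 → 19 ≤ n → n = 22 ∨ n = 57 ∨ n = 1254) n hm h2 h3 h4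
  clear hm
  rcases hn with rfl | rfl | rfl
  · have ha : a = 798 := by omega
    subst ha
    have hb := dvl_798 b h5
    have hb' : b = 133 ∨ b = 266 ∨ b = 399 := (by decide : ∀ b ∈ [1, 2, 3, 6, 7, 14, 19, 21, 38, 42, 57, 114, 133, 266, 399, 798], 798 ∣ 6 * b → 798 ≠ b → 7 ∣ b → b = 133 ∨ b = 266 ∨ b = 399) b hb h6 h7 h8
    clear hb h1 h2 h3 h4 h5 h6 h7 h8
    rcases hb' with rfl | rfl | rfl <;> simp
  · have ha : a = 308 := by omega
    subst ha
    have hb := dvl_308 b h5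
    have hb' : b = 154 := (by decide : ∀ b ∈ [1, 2, 4, 7, 11, 14, 22, 28, 44, 77, 154, 308], 308 ∣ 6 * b → 308 ≠ b → 7 ∣ b → b = 154) b hb h6 h7 h8
    clear hb h1 h2 h3 h4 h5 h6 h7 h8
    rcases hb' with rfl <;> simp
  · have ha : a = 14 := by omega
    subst ha
    have hb := dvl_14 b h5
    have hb' : b = 7 := (by decide : ∀ b ∈ [1, 2, 7, 14], 14 ∣ 6 * b → 14 ≠ b → 7 ∣ b → b = 7) b hb h6 h7 h8
    clear hb h1 h2 h3 h4 h5 h6 h7 h8
    rcases hb' with rfl <;> simp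

lemma opt_7_29260 {n a b : ℕ} (h : SD 7 6 29260 n a b) :
    (n = 22 ∧ a = 1330 ∧ b = 665) ∨ (n = 190 ∧ a = 154 ∧ b = 77) := by
  obtain ⟨h1, h2, h3, h4, h5, h6, h7, h8⟩ := h
  have hm := dvl_29260 n ⟨a, h1.symm⟩
  have hn : n = 22 ∨ n = 190 ∨ n = 4180 := (by decide : ∀ n ∈ [1, 2, 4, 5, 7, 10, 11, 14, 19, 20, 22, 28, 35, 38, 44, 55, 70, 76, 77, 95, 110, 133, 140, 154, 190, 209, 220, 266, 308, 380, 385, 418, 532, 665, 770, 836, 1045, 1330, 1463, 1540, 2090, 2660, 2926, 4180, 5852, 7315, 14630, 29260], n % 7 = 1 → n ≠ 1 → 19 ≤ n → n = 22 ∨ n = 190 ∨ n = 4180) n hm h2 h3 h4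
  clear hm
  rcases hn with rfl | rfl | rfl
  · have ha : a = 1330 := by omega
    subst ha
    have hb := dvl_1330 b h5
    have hb' : b = 665 := (by decide : ∀ b ∈ [1, 2, 5, 7, 10, 14, 19, 35, 38, 70, 95, 133, 190, 266, 665, 1330], 1330 ∣ 6 * b → 1330 ≠ b → 7 ∣ b → b = 665) b hb h6 h7 h8
    clear hb h1 h2 h3 h4 h5 h6 h7 h8
    rcases hb' with rfl <;> simp
  · have ha : a = 154 := by omega
    subst ha
    have hb := dvl_154 b h5
    have hb' : b = 77 := (by decide : ∀ b ∈ [1, 2, 7, 11, 14, 22, 77, 154], 154 ∣ 6 * b → 154 ≠ b → 7 ∣ b → b = 77) b hb h6 h7 h8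
    clear hb h1 h2 h3 h4 h5 h6 h7 h8
    rcases hb' with rfl <;> simp
  · have ha : a = 7 := by omega
    subst ha
    have hb := dvl_7 b h5
    have hb' : False := (by decide : ∀ b ∈ [1, 7], 7 ∣ 6 * b → 7 ≠ b → 7 ∣ b → False) b hb h6 h7 h8
    exact hb'.elim

lemma opt_7_35112 {n a b : ℕ} (h : SD 7 6 35112 n a b) :
    (n = 22 ∧ a = 1596 ∧ b = 266) ∨ (n = 22 ∧ a = 1596 ∧ b = 532) ∨ (n = 22 ∧ a = 1596 ∧ b = 798) ∨ (n = 57 ∧ a = 616 ∧ b = 308) ∨ (n = 1254 ∧ a = 28 ∧ b = 14) := by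
  obtain ⟨h1, h2, h3, h4, h5, h6, h7, h8⟩ := h
  have hm := dvl_35112 n ⟨a, h1.symm⟩
  have hn : n = 22 ∨ n = 57 ∨ n = 456 ∨ n = 1254 := (by decide : ∀ n ∈ [1, 2, 3, 4, 6, 7, 8, 11, 12, 14, 19, 21, 22, 24, 28, 33, 38, 42, 44, 56, 57, 66, 76, 77, 84, 88, 114, 132, 133, 152, 154, 168, 209, 228, 231, 264, 266, 308, 399, 418, 456, 462, 532, 616, 627, 798, 836, 924, 1064, 1254, 1463, 1596, 1672, 1848, 2508, 2926, 3192, 4389, 5016, 5852, 8778, 11704, 17556, 35112], n % 7 = 1 → n ≠ 1 → 19 ≤ n → n = 22 ∨ n = 57 ∨ n = 456 ∨ n = 1254) n hm h2 h3 h4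
  clear hm
  rcases hn with rfl | rfl | rfl | rfl
  · have ha : a = 1596 := by omega
    subst ha
    have hb := dvl_1596 b h5
    have hb' : b = 266 ∨ b = 532 ∨ b = 798 := (by decide : ∀ b ∈ [1, 2, 3, 4, 6, 7, 12, 14, 19, 21, 28, 38, 42, 57, 76, 84, 114, 133, 228, 266, 399, 532, 798, 1596], 1596 ∣ 6 * b → 1596 ≠ b → 7 ∣ b → b = 266 ∨ b = 532 ∨ b = 798) b hb h6 h7 h8
    clear hb h1 h2 h3 h4 h5 h6 h7 h8
    rcases hb' with rfl | rfl | rfl <;> simp
  · have ha : a = 616 := by omega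
    subst ha
    have hb := dvl_616 b h5
    have hb' : b = 308 := (by decide : ∀ b ∈ [1, 2, 4, 7, 8, 11, 14, 22, 28, 44, 56, 77, 88, 154, 308, 616], 616 ∣ 6 * b → 616 ≠ b → 7 ∣ b → b = 308) b hb h6 h7 h8
    clear hb h1 h2 h3 h4 h5 h6 h7 h8
    rcases hb' with rfl <;> simp
  · have ha : a = 77 := by omega
    subst ha
    have hb := dvl_77 b h5
    have hb' : False := (by decide : ∀ b ∈ [1, 7, 11, 77], 77 ∣ 6 * b → 77 ≠ b → 7 ∣ b → False) b hb h6 h7 h8
    exact hb'.elim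
  · have ha : a = 28 := by omega
    subst ha
    have hb := dvl_28 b h5
    have hb' : b = 14 := (by decide : ∀ b ∈ [1, 2, 4, 7, 14, 28], 28 ∣ 6 * b → 28 ≠ b → 7 ∣ b → b = 14) b hb h6 h7 h8
    clear hb h1 h2 h3 h4 h5 h6 h7 h8
    rcases hb' with rfl <;> simp

lemma opt_7_58520 {n a b : ℕ} (h : SD 7 6 58520 n a b) :
    (n = 22 ∧ a = 2660 ∧ b = 1330) ∨ (n = 190 ∧ a = 308 ∧ b = 154) ∨ (n = 4180 ∧ a = 14 ∧ b = 7) := by
  obtain ⟨h1, h2, h3, h4, h5, h6, h7, h8⟩ := h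
  have hm := dvl_58520 n ⟨a, h1.symm⟩
  have hn : n = 22 ∨ n = 190 ∨ n = 4180 := (by decide : ∀ n ∈ [1, 2, 4, 5, 7, 8, 10, 11, 14, 19, 20, 22, 28, 35, 38, 40, 44, 55, 56, 70, 76, 77, 88, 95, 110, 133, 140, 152, 154, 190, 209, 220, 266, 280, 308, 380, 385, 418, 440, 532, 616, 665, 760, 770, 836, 1045, 1064, 1330, 1463, 1540, 1672, 2090, 2660, 2926, 3080, 4180, 5320, 5852, 7315, 8360, 11704, 14630, 29260, 58520], n % 7 = 1 → n ≠ 1 → 19 ≤ n → n = 22 ∨ n = 190 ∨ n = 4180) n hm h2 h3 h4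
  clear hm
  rcases hn with rfl | rfl | rfl
  · have ha : a = 2660 := by omega
    subst ha
    have hb := dvl_2660 b h5
    have hb' : b = 1330 := (by decide : ∀ b ∈ [1, 2, 4, 5, 7, 10, 14, 19, 20, 28, 35, 38, 70, 76, 95, 133, 140, 190, 266, 380, 532, 665, 1330, 2660], 2660 ∣ 6 * b → 2660 ≠ b → 7 ∣ b → b = 1330) b hb h6 h7 h8
    clear hb h1 h2 h3 h4 h5 h6 h7 h8
    rcases hb' with rfl <;> simp
  · have ha : a = 308 := by omega
    subst ha
    have hb := dvl_308 b h5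
    have hb' : b = 154 := (by decide : ∀ b ∈ [1, 2, 4, 7, 11, 14, 22, 28, 44, 77, 154, 308], 308 ∣ 6 * b → 308 ≠ b → 7 ∣ b → b = 154) b hb h6 h7 h8
    clear hb h1 h2 h3 h4 h5 h6 h7 h8
    rcases hb' with rfl <;> simp
  · have ha : a = 14 := by omega
    subst ha
    have hb := dvl_14 b h5
    have hb' : b = 7 := (by decide : ∀ b ∈ [1, 2, 7, 14], 14 ∣ 6 * b → 14 ≠ b → 7 ∣ b → b = 7) b hb h6 h7 h8
    clear hb h1 h2 h3 h4 h5 h6 h7 h8
    rcases hb' with rfl <;> simp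

lemma opt_7_87780 {n a b : ℕ} (h : SD 7 6 87780 n a b) :
    (n = 22 ∧ a = 3990 ∧ b = 665) ∨ (n = 22 ∧ a = 3990 ∧ b = 1330) ∨ (n = 22 ∧ a = 3990 ∧ b = 1995) ∨ (n = 57 ∧ a = 1540 ∧ b = 770) ∨ (n = 190 ∧ a = 462 ∧ b = 77) ∨ (n = 190 ∧ a = 462 ∧ b = 154) ∨ (n = 190 ∧ a = 462 ∧ b = 231) ∨ (n = 330 ∧ a = 266 ∧ b = 133) ∨ (n = 1254 ∧ a = 70 ∧ b = 35) ∨ (n = 4180 ∧ a = 21 ∧ b = 7) := by
  obtain ⟨h1, h2, h3, h4, h5, h6, h7, h8⟩ := h
  have hm := dvl_87780 n ⟨a, h1.symm⟩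
  have hn : n = 22 ∨ n = 57 ∨ n = 190 ∨ n = 330 ∨ n = 1254 ∨ n = 4180 := (by decide : ∀ n ∈ [1, 2, 3, 4, 5, 6, 7, 10, 11, 12, 14, 15, 19, 20, 21, 22, 28, 30, 33, 35, 38, 42, 44, 55, 57, 60, 66, 70, 76, 77, 84, 95, 105, 110, 114, 132, 133, 140, 154, 165, 190, 209, 210, 220, 228, 231, 266, 285, 308, 330, 380, 385, 399, 418, 420, 462, 532, 570, 627, 660, 665, 770, 798, 836, 924, 1045, 1140, 1155, 1254, 1330, 1463, 1540, 1596, 1995, 2090, 2310, 2508, 2660, 2926, 3135, 3990, 4180, 4389, 4620, 5852, 6270, 7315, 7980, 8778, 12540, 14630, 17556, 21945, 29260, 43890, 87780], n % 7 = 1 → n ≠ 1 → 19 ≤ n → n = 22 ∨ n = 57 ∨ n = 190 ∨ n = 330 ∨ n = 1254 ∨ n = 4180) n hm h2 h3 h4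
  clear hm
  rcases hn with rfl | rfl | rfl | rfl | rfl | rfl
  · have ha : a = 3990 := by omega
    subst ha
    have hb := dvl_3990 b h5
    have hb' : b = 665 ∨ b = 1330 ∨ b = 1995 := (by decide : ∀ b ∈ [1, 2, 3, 5, 6, 7, 10, 14, 15, 19, 21, 30, 35, 38, 42, 57, 70, 95, 105, 114, 133, 190, 210, 266, 285, 399, 570, 665, 798, 1330, 1995, 3990], 3990 ∣ 6 * b → 3990 ≠ b → 7 ∣ b → b = 665 ∨ b = 1330 ∨ b = 1995) b hb h6 h7 h8
    clear hb h1 h2 h3 h4 h5 h6 h7 h8
    rcases hb' with rfl | rfl | rfl <;> simp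
  · have ha : a = 1540 := by omega
    subst ha
    have hb := dvl_1540 b h5
    have hb' : b = 770 := (by decide : ∀ b ∈ [1, 2, 4, 5, 7, 10, 11, 14, 20, 22, 28, 35, 44, 55, 70, 77, 110, 140, 154, 220, 308, 385, 770, 1540], 1540 ∣ 6 * b → 1540 ≠ b → 7 ∣ b → b = 770) b hb h6 h7 h8
    clear hb h1 h2 h3 h4 h5 h6 h7 h8
    rcases hb' with rfl <;> simp
  · have ha : a = 462 := by omega
    subst ha
    have hb := dvl_462 b h5
    have hb' : b = 77 ∨ b = 154 ∨ b = 231 := (by decide : ∀ b ∈ [1, 2, 3, 6, 7, 11, 14, 21, 22, 33, 42, 66, 77, 154, 231, 462], 462 ∣ 6 * b → 462 ≠ b → 7 ∣ b → b = 77 ∨ b = 154 ∨ b = 231) b hb h6 h7 h8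
    clear hb h1 h2 h3 h4 h5 h6 h7 h8
    rcases hb' with rfl | rfl | rfl <;> simp
  · have ha : a = 266 := by omega
    subst ha
    have hb := dvl_266 b h5
    have hb' : b = 133 := (by decide : ∀ b ∈ [1, 2, 7, 14, 19, 38, 133, 266], 266 ∣ 6 * b → 266 ≠ b → 7 ∣ b → b = 133) b hb h6 h7 h8
    clear hb h1 h2 h3 h4 h5 h6 h7 h8
    rcases hb' with rfl <;> simp
  · have ha : a = 70 := by omega
    subst ha
    have hb := dvl_70 b h5
    have hb' : b = 35 := (by decide : ∀ b ∈ [1, 2, 5, 7, 10, 14, 35, 70], 70 ∣ 6 * b → 70 ≠ b → 7 ∣ b → b = 35) b hb h6 h7 h8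
    clear hb h1 h2 h3 h4 h5 h6 h7 h8
    rcases hb' with rfl <;> simp
  · have ha : a = 21 := by omega
    subst ha
    have hb := dvl_21 b h5
    have hb' : b = 7 := (by decide : ∀ b ∈ [1, 3, 7, 21], 21 ∣ 6 * b → 21 ≠ b → 7 ∣ b → b = 7) b hb h6 h7 h8
    clear hb h1 h2 h3 h4 h5 h6 h7 h8
    rcases hb' with rfl <;> simp

lemma opt_11_17556 {n a b : ℕ} (h : SD 11 10 17556 n a b) :
    (n = 133 ∧ a = 132 ∧ b = 66) := by
  obtain ⟨h1, h2, h3, h4, h5, h6, h7, h8⟩ := h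
  have hm := dvl_17556 n ⟨a, h1.symm⟩
  have hn : n = 133 ∨ n = 1596 := (by decide : ∀ n ∈ [1, 2, 3, 4, 6, 7, 11, 12, 14, 19, 21, 22, 28, 33, 38, 42, 44, 57, 66, 76, 77, 84, 114, 132, 133, 154, 209, 228, 231, 266, 308, 399, 418, 462, 532, 627, 798, 836, 924, 1254, 1463, 1596, 2508, 2926, 4389, 5852, 8778, 17556], n % 11 = 1 → n ≠ 1 → 19 ≤ n → n = 133 ∨ n = 1596) n hm h2 h3 h4
  clear hm
  rcases hn with rfl | rfl
  · have ha : a = 132 := by omega
    subst ha
    have hb := dvl_132 b h5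
    have hb' : b = 66 := (by decide : ∀ b ∈ [1, 2, 3, 4, 6, 11, 12, 22, 33, 44, 66, 132], 132 ∣ 10 * b → 132 ≠ b → 11 ∣ b → b = 66) b hb h6 h7 h8
    clear hb h1 h2 h3 h4 h5 h6 h7 h8
    rcases hb' with rfl <;> simp
  · have ha : a = 11 := by omega
    subst ha
    have hb := dvl_11 b h5
    have hb' : False := (by decide : ∀ b ∈ [1, 11], 11 ∣ 10 * b → 11 ≠ b → 11 ∣ b → False) b hb h6 h7 h8
    exact hb'.elim

lemma opt_11_29260 {n a b : ℕ} (h : SD 11 10 29260 n a b) :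
    (n = 133 ∧ a = 220 ∧ b = 22) ∨ (n = 133 ∧ a = 220 ∧ b = 44) ∨ (n = 133 ∧ a = 220 ∧ b = 110) := by
  obtain ⟨h1, h2, h3, h4, h5, h6, h7, h8⟩ := h
  have hm := dvl_29260 n ⟨a, h1.symm⟩
  have hn : n = 133 := (by decide : ∀ n ∈ [1, 2, 4, 5, 7, 10, 11, 14, 19, 20, 22, 28, 35, 38, 44, 55, 70, 76, 77, 95, 110, 133, 140, 154, 190, 209, 220, 266, 308, 380, 385, 418, 532, 665, 770, 836, 1045, 1330, 1463, 1540, 2090, 2660, 2926, 4180, 5852, 7315, 14630, 29260], n % 11 = 1 → n ≠ 1 → 19 ≤ n → n = 133) n hm h2 h3 h4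
  clear hm
  rcases hn with rfl
  · have ha : a = 220 := by omega
    subst ha
    have hb := dvl_220 b h5
    have hb' : b = 22 ∨ b = 44 ∨ b = 110 := (by decide : ∀ b ∈ [1, 2, 4, 5, 10, 11, 20, 22, 44, 55, 110, 220], 220 ∣ 10 * b → 220 ≠ b → 11 ∣ b → b = 22 ∨ b = 44 ∨ b = 110) b hb h6 h7 h8
    clear hb h1 h2 h3 h4 h5 h6 h7 h8
    rcases hb' with rfl | rfl | rfl <;> simp

lemma opt_11_35112 {n a b : ℕ} (h : SD 11 10 35112 n a b) :
    (n = 133 ∧ a = 264 ∧ b = 132) ∨ (n = 1596 ∧ a = 22 ∧ b = 11) := by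
  obtain ⟨h1, h2, h3, h4, h5, h6, h7, h8⟩ := h
  have hm := dvl_35112 n ⟨a, h1.symm⟩
  have hn : n = 56 ∨ n = 133 ∨ n = 1596 := (by decide : ∀ n ∈ [1, 2, 3, 4, 6, 7, 8, 11, 12, 14, 19, 21, 22, 24, 28, 33, 38, 42, 44, 56, 57, 66, 76, 77, 84, 88, 114, 132, 133, 152, 154, 168, 209, 228, 231, 264, 266, 308, 399, 418, 456, 462, 532, 616, 627, 798, 836, 924, 1064, 1254, 1463, 1596, 1672, 1848, 2508, 2926, 3192, 4389, 5016, 5852, 8778, 11704, 17556, 35112], n % 11 = 1 → n ≠ 1 → 19 ≤ n → n = 56 ∨ n = 133 ∨ n = 1596) n hm h2 h3 h4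
  clear hm
  rcases hn with rfl | rfl | rfl
  · have ha : a = 627 := by omega
    subst ha
    have hb := dvl_627 b h5
    have hb' : False := (by decide : ∀ b ∈ [1, 3, 11, 19, 33, 57, 209, 627], 627 ∣ 10 * b → 627 ≠ b → 11 ∣ b → False) b hb h6 h7 h8
    exact hb'.elim
  · have ha : a = 264 := by omega
    subst ha
    have hb := dvl_264 b h5
    have hb' : b = 132 := (by decide : ∀ b ∈ [1, 2, 3, 4, 6, 8, 11, 12, 22, 24, 33, 44, 66, 88, 132, 264], 264 ∣ 10 * b → 264 ≠ b → 11 ∣ b → b = 132) b hb h6 h7 h8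
    clear hb h1 h2 h3 h4 h5 h6 h7 h8
    rcases hb' with rfl <;> simp
  · have ha : a = 22 := by omega
    subst ha
    have hb := dvl_22 b h5
    have hb' : b = 11 := (by decide : ∀ b ∈ [1, 2, 11, 22], 22 ∣ 10 * b → 22 ≠ b → 11 ∣ b → b = 11) b hb h6 h7 h8
    clear hb h1 h2 h3 h4 h5 h6 h7 h8
    rcases hb' with rfl <;> simp

lemma opt_11_58520 {n a b : ℕ} (h : SD 11 10 58520 n a b) :
    (n = 56 ∧ a = 1045 ∧ b = 209) ∨ (n = 133 ∧ a = 440 ∧ b = 44) ∨ (n = 133 ∧ a = 440 ∧ b = 88) ∨ (n = 133 ∧ a = 440 ∧ b = 220) := by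
  obtain ⟨h1, h2, h3, h4, h5, h6, h7, h8⟩ := h
  have hm := dvl_58520 n ⟨a, h1.symm⟩
  have hn : n = 56 ∨ n = 133 ∨ n = 760 := (by decide : ∀ n ∈ [1, 2, 4, 5, 7, 8, 10, 11, 14, 19, 20, 22, 28, 35, 38, 40, 44, 55, 56, 70, 76, 77, 88, 95, 110, 133, 140, 152, 154, 190, 209, 220, 266, 280, 308, 380, 385, 418, 440, 532, 616, 665, 760, 770, 836, 1045, 1064, 1330, 1463, 1540, 1672, 2090, 2660, 2926, 3080, 4180, 5320, 5852, 7315, 8360, 11704, 14630, 29260, 58520], n % 11 = 1 → n ≠ 1 → 19 ≤ n → n = 56 ∨ n = 133 ∨ n = 760) n hm h2 h3 h4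
  clear hm
  rcases hn with rfl | rfl | rfl
  · have ha : a = 1045 := by omega
    subst ha
    have hb := dvl_1045 b h5
    have hb' : b = 209 := (by decide : ∀ b ∈ [1, 5, 11, 19, 55, 95, 209, 1045], 1045 ∣ 10 * b → 1045 ≠ b → 11 ∣ b → b = 209) b hb h6 h7 h8
    clear hb h1 h2 h3 h4 h5 h6 h7 h8
    rcases hb' with rfl <;> simp
  · have ha : a = 440 := by omega
    subst ha
    have hb := dvl_440 b h5
    have hb' : b = 44 ∨ b = 88 ∨ b = 220 := (by decide : ∀ b ∈ [1, 2, 4, 5, 8, 10, 11, 20, 22, 40, 44, 55, 88, 110, 220, 440], 440 ∣ 10 * b → 440 ≠ b → 11 ∣ b → b = 44 ∨ b = 88 ∨ b = 220) b hb h6 h7 h8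
    clear hb h1 h2 h3 h4 h5 h6 h7 h8
    rcases hb' with rfl | rfl | rfl <;> simp
  · have ha : a = 77 := by omega
    subst ha
    have hb := dvl_77 b h5
    have hb' : False := (by decide : ∀ b ∈ [1, 7, 11, 77], 77 ∣ 10 * b → 77 ≠ b → 11 ∣ b → False) b hb h6 h7 h8
    exact hb'.elim

lemma opt_11_87780 {n a b : ℕ} (h : SD 11 10 87780 n a b) :
    (n = 133 ∧ a = 660 ∧ b = 66) ∨ (n = 133 ∧ a = 660 ∧ b = 132) ∨ (n = 133 ∧ a = 660 ∧ b = 330) ∨ (n = 210 ∧ a = 418 ∧ b = 209) ∨ (n = 1596 ∧ a = 55 ∧ b = 11) := by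
  obtain ⟨h1, h2, h3, h4, h5, h6, h7, h8⟩ := h
  have hm := dvl_87780 n ⟨a, h1.symm⟩
  have hn : n = 133 ∨ n = 210 ∨ n = 1596 := (by decide : ∀ n ∈ [1, 2, 3, 4, 5, 6, 7, 10, 11, 12, 14, 15, 19, 20, 21, 22, 28, 30, 33, 35, 38, 42, 44, 55, 57, 60, 66, 70, 76, 77, 84, 95, 105, 110, 114, 132, 133, 140, 154, 165, 190, 209, 210, 220, 228, 231, 266, 285, 308, 330, 380, 385, 399, 418, 420, 462, 532, 570, 627, 660, 665, 770, 798, 836, 924, 1045, 1140, 1155, 1254, 1330, 1463, 1540, 1596, 1995, 2090, 2310, 2508, 2660, 2926, 3135, 3990, 4180, 4389, 4620, 5852, 6270, 7315, 7980, 8778, 12540, 14630, 17556, 21945, 29260, 43890, 87780], n % 11 = 1 → n ≠ 1 → 19 ≤ n → n = 133 ∨ n = 210 ∨ n = 1596) n hm h2 h3 h4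
  clear hm
  rcases hn with rfl | rfl | rfl
  · have ha : a = 660 := by omega
    subst ha
    have hb := dvl_660 b h5
    have hb' : b = 66 ∨ b = 132 ∨ b = 330 := (by decide : ∀ b ∈ [1, 2, 3, 4, 5, 6, 10, 11, 12, 15, 20, 22, 30, 33, 44, 55, 60, 66, 110, 132, 165, 220, 330, 660], 660 ∣ 10 * b → 660 ≠ b → 11 ∣ b → b = 66 ∨ b = 132 ∨ b = 330) b hb h6 h7 h8
    clear hb h1 h2 h3 h4 h5 h6 h7 h8
    rcases hb' with rfl | rfl | rfl <;> simp
  · have ha : a = 418 := by omega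
    subst ha
    have hb := dvl_418 b h5
    have hb' : b = 209 := (by decide : ∀ b ∈ [1, 2, 11, 19, 22, 38, 209, 418], 418 ∣ 10 * b → 418 ≠ b → 11 ∣ b → b = 209) b hb h6 h7 h8
    clear hb h1 h2 h3 h4 h5 h6 h7 h8
    rcases hb' with rfl <;> simp
  · have ha : a = 55 := by omega
    subst ha
    have hb := dvl_55 b h5
    have hb' : b = 11 := (by decide : ∀ b ∈ [1, 5, 11, 55], 55 ∣ 10 * b → 55 ≠ b → 11 ∣ b → b = 11) b hb h6 h7 h8
    clear hb h1 h2 h3 h4 h5 h6 h7 h8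
    rcases hb' with rfl <;> simp


section
variable {N : Type*} [Group N] [Finite N]

lemma sd_get [IsSimpleGroup N] (hnc : ∃ a b : N, a * b ≠ b * a) {p q : ℕ} [Fact p.Prime] (hq : q + 1 = p)
    (hB : ¬ p ^ 2 ∣ 175560) (hd : Nat.card N ∣ 175560) (h19 : 19 ∣ Nat.card N) (hp : p ∣ Nat.card N)
    (Q : Sylow p N) :
    SD p q (Nat.card N) (Nat.card (Sylow p N)) (aa Q) (bb Q) ∧ Nat.card (Q : Subgroup N) = p := by
  obtain ⟨h0, h1, h2, h3, h4, h5, h6, h7⟩ := syl_data hnc hB hd hp Q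
  have hq' : p - 1 = q := by omega
  rw [hq'] at h5
  exact ⟨⟨h1, h2, h3, syl_deg h3 (by norm_num) h19, h4, h5, h6, h7⟩, h0⟩

lemma no_norm {p q : ℕ} [Fact p.Prime] [Fact q.Prime] (Qp : Sylow p N) (Qq : Sylow q N)
    (hp : Nat.card (Qp : Subgroup N) = p) (hq : Nat.card (Qq : Subgroup N) = q)
    (hco : Nat.Coprime p (q - 1)) (h : ¬ q ∣ aa Qp) : ¬ p ∣ aa Qq := by
  intro hd
  have h1 := edge_q Qq hq Fact.out hd hco
  have h2 := edge_transfer Qq Qp hq hp h1
  exact h (h2.trans (Subgroup.card_dvd_of_le (Subgroup.centralizer_le_normalizer _)))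

lemma cnt {p q : ℕ} [Fact p.Prime] (hq : q + 1 = p) (Q : Sylow p N) (hQ : Nat.card (Q : Subgroup N) = p) {k : ℕ}
    (hb : bb Q = p * k) (hk : ¬ p ∣ k) : Nat.card (Sylow p N) * q * k ≤ Nat.card (DD N p k) := by
  have hpp : p.Prime := Fact.out
  have hq' : p - 1 = q := by omega
  obtain ⟨K, hK, hKc, hco⟩ := exists_K Q hQ
    (by
      rw [hb, pow_two]
      intro h
      exact hk (Nat.dvd_of_mul_dvd_mul_left hpp.pos h))
    (by rw [hb]; exact Dvd.intro _ rfl)
  have hKk : Nat.card K = k := by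
    have : Nat.card K * p = k * p := by rw [hKc, hb, mul_comm]
    exact Nat.eq_of_mul_eq_mul_right hpp.pos this
  have := count_mixed Q hQ K hK hco
  rw [hKk, hq'] at this
  exact this

lemma cnt1 {p q : ℕ} [Fact p.Prime] (hq : q + 1 = p) (Q : Sylow p N) (hQ : Nat.card (Q : Subgroup N) = p) :
    Nat.card (Sylow p N) * q ≤ Nat.card (DD N p 1) := by
  have hq' : p - 1 = q := by omega
  have := count_mixed Q hQ (⊥ : Subgroup N) bot_le (by simp)
  simp only [Subgroup.card_bot, mul_one] at this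
  rw [hq'] at this
  exact this

lemma sum4 {p1 k1 p2 k2 p3 k3 p4 k4 : ℕ} (h12 : ¬ p1 ∣ p2 * k2) (h13 : ¬ p1 ∣ p3 * k3) (h14 : ¬ p1 ∣ p4 * k4)
    (h23 : ¬ p2 ∣ p3 * k3) (h24 : ¬ p2 ∣ p4 * k4) (h34 : ¬ p3 ∣ p4 * k4) :
    Nat.card (DD N p1 k1) + Nat.card (DD N p2 k2) + Nat.card (DD N p3 k3) + Nat.card (DD N p4 k4) ≤ Nat.card N := by
  classical
  have h1 := add_card (N := N) (fun g => p1 ∣ orderOf g ∧ orderOf g ∣ p1 * k1)
    (fun g => p2 ∣ orderOf g ∧ orderOf g ∣ p2 * k2) (fun g hg hg' => h12 (hg.1.trans hg'.2))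
  have h2 := add_card (N := N) (fun g => (p1 ∣ orderOf g ∧ orderOf g ∣ p1 * k1) ∨ (p2 ∣ orderOf g ∧ orderOf g ∣ p2 * k2))
    (fun g => p3 ∣ orderOf g ∧ orderOf g ∣ p3 * k3) (by
      rintro g (hg | hg) hg'
      · exact h13 (hg.1.trans hg'.2)
      · exact h23 (hg.1.trans hg'.2))
  have h2b := add_card (N := N) (fun g => ((p1 ∣ orderOf g ∧ orderOf g ∣ p1 * k1) ∨ (p2 ∣ orderOf g ∧ orderOf g ∣ p2 * k2)) ∨ (p3 ∣ orderOf g ∧ orderOf g ∣ p3 * k3))
    (fun g => p4 ∣ orderOf g ∧ orderOf g ∣ p4 * k4) (by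
      rintro g ((hg | hg) | hg) hg'
      · exact h14 (hg.1.trans hg'.2)
      · exact h24 (hg.1.trans hg'.2)
      · exact h34 (hg.1.trans hg'.2))
  have h3 : Nat.card {g : N // (((p1 ∣ orderOf g ∧ orderOf g ∣ p1 * k1) ∨ (p2 ∣ orderOf g ∧ orderOf g ∣ p2 * k2)) ∨ (p3 ∣ orderOf g ∧ orderOf g ∣ p3 * k3)) ∨ (p4 ∣ orderOf g ∧ orderOf g ∣ p4 * k4)} ≤ Nat.card N :=
    Finite.card_subtype_le _
  have e1 : Nat.card (DD N p1 k1) + Nat.card (DD N p2 k2) ≤ _ := h1
  have e2 : _ + Nat.card (DD N p3 k3) ≤ _ := h2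
  have e3 : _ + Nat.card (DD N p4 k4) ≤ _ := h2b
  omega

lemma n20 [IsSimpleGroup N] (hnc : ∃ a b : N, a * b ≠ b * a) (Q : Sylow 19 N)
    (hQ : Nat.card (Q : Subgroup N) = 19) (hn : Nat.card (Sylow 19 N) = 20) : aa Q = 57 ∨ aa Q = 171 := by
  obtain ⟨e, he, h1, h2, h3⟩ := L20 hnc Q hQ hn (syl_faith (by omega))
  have hm : e ∈ Nat.divisors 18 := Nat.mem_divisors.2 ⟨h1, by norm_num⟩
  simp only [Nat.divisors_ofNat, Finset.mem_insert, Finset.mem_singleton] at hm
  omega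

lemma fin3 {D p1 k1 p2 k2 p3 k3 x1 x2 x3 : ℕ} (hD : Nat.card N = D) (h12 : ¬ p1 ∣ p2 * k2)
    (h13 : ¬ p1 ∣ p3 * k3) (h23 : ¬ p2 ∣ p3 * k3)
    (t1 : x1 ≤ Nat.card (DD N p1 k1)) (t2 : x2 ≤ Nat.card (DD N p2 k2)) (t3 : x3 ≤ Nat.card (DD N p3 k3))
    (hlt : D < x1 + x2 + x3) : False := by
  have := sum3 (N := N) (k1 := k1) h12 h13 h23
  omega

lemma fin4 {D p1 k1 p2 k2 p3 k3 p4 k4 x1 x2 x3 x4 : ℕ} (hD : Nat.card N = D) (h12 : ¬ p1 ∣ p2 * k2)
    (h13 : ¬ p1 ∣ p3 * k3) (h14 : ¬ p1 ∣ p4 * k4) (h23 : ¬ p2 ∣ p3 * k3) (h24 : ¬ p2 ∣ p4 * k4)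
    (h34 : ¬ p3 ∣ p4 * k4)
    (t1 : x1 ≤ Nat.card (DD N p1 k1)) (t2 : x2 ≤ Nat.card (DD N p2 k2)) (t3 : x3 ≤ Nat.card (DD N p3 k3))
    (t4 : x4 ≤ Nat.card (DD N p4 k4))
    (hlt : D < x1 + x2 + x3 + x4) : False := by
  have := sum4 (N := N) (k1 := k1) h12 h13 h14 h23 h24 h34
  omega


lemma hSyl5 [IsSimpleGroup N] (hnc : ∃ a b : N, a * b ≠ b * a) (hD : Nat.card N = 87780) (Q : Sylow 19 N)
    (hQ : Nat.card (Q : Subgroup N) = 19) (hn : Nat.card (Sylow 19 N) = 77) (ha : aa Q = 1140) (hb : bb Q = 380) :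
    False := by
  classical
  have hd : Nat.card N ∣ 175560 := by rw [hD]; norm_num
  have h19 : 19 ∣ Nat.card N := by rw [hD]; norm_num
  set C := centralizer ((Q : Subgroup N) : Set N) with hC
  have hCc : Nat.card C = 380 := hb
  have hQcomm : ∀ x ∈ (Q : Subgroup N), ∀ y ∈ (Q : Subgroup N), x * y = y * x :=
    fun x hx y hy => comm_of_prime _ (by norm_num) hQ hx hy
  have hQC : (Q : Subgroup N) ≤ C := fun x hx =>
    Subgroup.mem_centralizer_iff.2 (fun q hq => hQcomm q hq x hx)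
  obtain ⟨S0⟩ := (inferInstance : Nonempty (Sylow 5 C))
  have hS0c : Nat.card (S0 : Subgroup C) = 5 :=
    card_syl (B := 380) (by norm_num) (by rw [hCc]) (by rw [hCc]; norm_num) S0
  have huniq : Nat.card (Sylow 5 C) = 1 := by
    have h1 : 5 ∣ Nat.card (normalizer ((S0 : Subgroup C) : Set C)) := by
      have := Subgroup.card_dvd_of_le (Subgroup.le_normalizer (H := (S0 : Subgroup C)))
      rwa [hS0c] at this
    have h2 : 19 ∣ Nat.card (normalizer ((S0 : Subgroup C) : Set C)) := by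
      have hle : (Q : Subgroup N).subgroupOf C ≤ normalizer ((S0 : Subgroup C) : Set C) := by
        intro x hx
        apply Subgroup.mem_normalizer_iff.2
        intro y
        have hx' : (x : N) ∈ (Q : Subgroup N) := hx
        have e : x * y * x⁻¹ = y := by
          apply Subtype.ext
          have h1 : (x : N) * (y : N) = (y : N) * (x : N) := Subgroup.mem_centralizer_iff.1 y.2 x hx'
          simp only [Subgroup.coe_mul, Subgroup.coe_inv]
          rw [h1]; group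
        rw [e]
      have h3 := Subgroup.card_dvd_of_le hle
      have hc : Nat.card ((Q : Subgroup N).subgroupOf C) = 19 :=
        (Nat.card_congr (Subgroup.subgroupOfEquivOfLe hQC).toEquiv).trans hQ
      rwa [hc] at h3
    have h3 : Nat.card (Sylow 5 C) * Nat.card (normalizer ((S0 : Subgroup C) : Set C)) = 380 := by
      rw [S0.card_eq_index_normalizer, ← hCc]
      exact Subgroup.index_mul_card _
    have h4 : Nat.card (Sylow 5 C) % 5 = 1 := by
      have := card_sylow_modEq_one 5 C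
      exact this
    have h95 : 95 ∣ Nat.card (normalizer ((S0 : Subgroup C) : Set C)) := by omega
    obtain ⟨k, hk⟩ := h95
    rw [hk] at h3
    have h5 : Nat.card (Sylow 5 C) ∣ 4 := ⟨k, by nlinarith⟩
    have hm := dvl_4 _ h5
    simp only [List.mem_cons, List.not_mem_nil, or_false] at hm
    omega
  have hus : Subsingleton (Sylow 5 C) := (Nat.card_eq_one_iff_unique.1 huniq).1
  have hmem : ∀ y : C, y ^ 5 = 1 → y ∈ (S0 : Subgroup C) := by
    intro y hy
    by_cases hy1 : y = 1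
    · rw [hy1]; exact one_mem _
    · have ho : orderOf y = 5 := orderOf_eq_prime hy hy1
      have hyp : IsPGroup 5 (Subgroup.zpowers y) := by
        apply IsPGroup.of_card (n := 1)
        rw [Nat.card_zpowers, pow_one, ho]
      obtain ⟨P1, hP1⟩ := hyp.exists_le_sylow
      rw [Subsingleton.elim P1 S0] at hP1
      exact hP1 (Subgroup.mem_zpowers y)
  let Y : Subgroup N := (S0 : Subgroup C).map C.subtype
  have hYc : Nat.card Y = 5 := by
    rw [← hS0c]
    exact (Nat.card_congr (Subgroup.equivMapOfInjective (S0 : Subgroup C) _ C.subtype_injective).toEquiv).symm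
  have hY5 : ∀ x ∈ Y, x ^ 5 = 1 := by
    intro x hx
    have := pow_card_eq_one' (x := (⟨x, hx⟩ : Y))
    rw [hYc] at this
    simpa [Subtype.ext_iff] using this
  have hYC : ∀ x ∈ Y, x ∈ C := by
    rintro x ⟨s, _, rfl⟩
    exact s.2
  have hfwd : ∀ g ∈ normalizer ((Q : Subgroup N) : Set N), ∀ x ∈ Y, g * x * g⁻¹ ∈ Y := by
    intro g hg x hx
    have hgi : g⁻¹ ∈ normalizer ((Q : Subgroup N) : Set N) := inv_mem hg
    have hxC := hYC x hx
    have hc : g * x * g⁻¹ ∈ C := by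
      apply Subgroup.mem_centralizer_iff.2
      intro q hq
      have hq' : g⁻¹ * q * g⁻¹⁻¹ ∈ (Q : Subgroup N) := (Subgroup.mem_normalizer_iff.1 hgi q).1 hq
      have h1 := Subgroup.mem_centralizer_iff.1 hxC _ hq'
      calc q * (g * x * g⁻¹) = g * ((g⁻¹ * q * g⁻¹⁻¹) * x) * g⁻¹ := by group
        _ = g * (x * (g⁻¹ * q * g⁻¹⁻¹)) * g⁻¹ := by rw [h1]
        _ = g * x * g⁻¹ * q := by group
    have hp : (⟨g * x * g⁻¹, hc⟩ : C) ^ 5 = 1 := by
      apply Subtype.ext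
      show (g * x * g⁻¹) ^ 5 = 1
      rw [conj_pow, hY5 x hx, mul_one, mul_inv_cancel]
    exact ⟨_, hmem _ hp, rfl⟩
  have hYp : IsPGroup 5 Y := IsPGroup.of_card (n := 1) (by rw [hYc]; norm_num)
  obtain ⟨Q5, hQ5⟩ := hYp.exists_le_sylow
  obtain ⟨s5, c5⟩ := sd_get (q := 4) hnc (by norm_num) (by norm_num) hd h19 (by rw [hD]; norm_num) Q5
  rw [hD] at s5
  have hQ5Y : (Q5 : Subgroup N) = Y := by
    symm
    apply Subgroup.eq_of_le_of_card_ge hQ5
    rw [c5, hYc]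
  have hle : normalizer ((Q : Subgroup N) : Set N) ≤ normalizer ((Q5 : Subgroup N) : Set N) := by
    intro g hg
    rw [hQ5Y]
    apply Subgroup.mem_normalizer_iff.2
    intro x
    constructor
    · exact hfwd g hg x
    · intro h
      have := hfwd g⁻¹ (inv_mem hg) _ h
      have e : g⁻¹ * (g * x * g⁻¹) * g⁻¹⁻¹ = x := by group
      rwa [e] at this
  have hdv : 1140 ∣ aa Q5 := by
    have := Subgroup.card_dvd_of_le hle
    rw [← ha]
    exact this
  have o5 := opt_5_87780 s5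
  have : aa Q5 = 4180 ∨ aa Q5 = 1330 ∨ aa Q5 = 380 ∨ aa Q5 = 330 ∨ aa Q5 = 30 := by omega
  clear o5
  omega


lemma card4 {K : Type*} [Group K] [Finite K] {B : ℕ} (hd : Nat.card K ∣ B) (h4 : 4 ∣ Nat.card K) (hB : ¬ 8 ∣ B)
    (T : Sylow 2 K) : Nat.card (T : Subgroup K) = 4 := by
  obtain ⟨m, hm⟩ := IsPGroup.iff_card.1 T.2
  have h1 : 2 ^ 2 ∣ Nat.card (T : Subgroup K) := T.pow_dvd_card_of_pow_dvd_card (by simpa using h4)
  rw [hm] at h1
  have hm2 : 2 ≤ m := (Nat.pow_dvd_pow_iff_le_right (by norm_num)).1 h1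
  have hm3 : m < 3 := by
    by_contra hlt
    have h8 : 2 ^ 3 ∣ 2 ^ m := pow_dvd_pow 2 (by omega)
    have h9 : 2 ^ m ∣ Nat.card K := by rw [← hm]; exact Subgroup.card_subgroup_dvd_card _
    exact hB ((h8.trans h9).trans hd)
  have : m = 2 := by omega
  rw [hm, this]; norm_num

lemma cent_conj {p : ℕ} [Fact p.Prime] (Q : Sylow p N) {g x : N} (hg : g ∈ normalizer ((Q : Subgroup N) : Set N))
    (hx : x ∈ centralizer ((Q : Subgroup N) : Set N)) : g * x * g⁻¹ ∈ centralizer ((Q : Subgroup N) : Set N) := by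
  have hgi : g⁻¹ ∈ normalizer ((Q : Subgroup N) : Set N) := inv_mem hg
  apply Subgroup.mem_centralizer_iff.2
  intro q hq
  have hq' : g⁻¹ * q * g⁻¹⁻¹ ∈ (Q : Subgroup N) := (Subgroup.mem_normalizer_iff.1 hgi q).1 hq
  have h1 := Subgroup.mem_centralizer_iff.1 hx _ hq'
  calc q * (g * x * g⁻¹) = g * ((g⁻¹ * q * g⁻¹⁻¹) * x) * g⁻¹ := by group
    _ = g * (x * (g⁻¹ * q * g⁻¹⁻¹)) * g⁻¹ := by rw [h1]
    _ = g * x * g⁻¹ * q := by group

lemma hV4 [IsSimpleGroup N] (hnc : ∃ a b : N, a * b ≠ b * a) (hD : Nat.card N = 87780) (Q : Sylow 19 N)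
    (hQ : Nat.card (Q : Subgroup N) = 19) (hn : Nat.card (Sylow 19 N) = 77) (ha : aa Q = 1140)
    (hb : bb Q = 190 ∨ bb Q = 570) : False := by
  classical
  set C := centralizer ((Q : Subgroup N) : Set N) with hC
  set W := normalizer ((Q : Subgroup N) : Set N) with hW
  have hCW : C ≤ W := Subgroup.centralizer_le_normalizer _
  have hWc : Nat.card W = 1140 := ha
  have hCc : Nat.card C = 190 ∨ Nat.card C = 570 := hb
  have h2C : 2 ∣ Nat.card C := by
    rcases hCc with h | h <;> rw [h] <;> norm_num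
  have h4C : ¬ 4 ∣ Nat.card C := by
    rcases hCc with h | h <;> rw [h] <;> norm_num
  obtain ⟨r0, hr0⟩ := exists_prime_orderOf_dvd_card' (G := C) 2 h2C
  set r : N := (r0 : N) with hrdef
  have hro : orderOf r = 2 := by rw [hrdef, Subgroup.orderOf_coe]; exact hr0
  have hr2 : r ^ 2 = 1 := by rw [← hro]; exact pow_orderOf_eq_one r
  have hr1 : r ≠ 1 := by
    intro h
    rw [h, orderOf_one] at hro
    omega
  have hrC : r ∈ C := r0.2
  have hrW : r ∈ W := hCW hrC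
  have hrc : ∀ q ∈ (Q : Subgroup N), q * r = r * q := fun q hq => Subgroup.mem_centralizer_iff.1 hrC q hq
  obtain ⟨f1, f2, f3, f4⟩ := fix_data hnc Q (by rw [hn]; norm_num) r hr1 hr2 hrc
  rw [hn] at f2 f3 f4
  have hF1 : Nat.card {P : Sylow 19 N // r • P = P} = 1 := by
    rw [Nat.even_iff] at f4
    omega
  have hfix := fix_unique Q r (act_comm' Q r hrc) hF1
  -- Sylow 2 subgroup of W containing r
  let r1 : W := ⟨r, hrW⟩
  have hr1p : IsPGroup 2 (Subgroup.zpowers r1) := by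
    apply IsPGroup.of_card (n := 1)
    rw [Nat.card_zpowers, pow_one, Subgroup.orderOf_mk, hro]
  obtain ⟨T', hT'⟩ := hr1p.exists_le_sylow
  have hT'c : Nat.card (T' : Subgroup W) = 4 :=
    card4 (B := 1140) (by rw [hWc]) (by rw [hWc]; norm_num) (by norm_num) T'
  let T0 : Subgroup N := (T' : Subgroup W).map W.subtype
  have hT0c : Nat.card T0 = 4 := by
    rw [← hT'c]
    exact (Nat.card_congr (Subgroup.equivMapOfInjective (T' : Subgroup W) _ W.subtype_injective).toEquiv).symm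
  have hT0p : IsPGroup 2 T0 := IsPGroup.of_card (n := 2) (by rw [hT0c]; norm_num)
  obtain ⟨T, hTle⟩ := hT0p.exists_le_sylow
  have hTc : Nat.card (T : Subgroup N) = 4 :=
    card4 (B := 87780) (by rw [hD]) (by rw [hD]; norm_num) (by norm_num) T
  have hTeq : (T : Subgroup N) = T0 := (Subgroup.eq_of_le_of_card_ge hTle (by rw [hTc, hT0c])).symm
  have hTW : (T : Subgroup N) ≤ W := by
    rw [hTeq]
    exact Subgroup.map_subtype_le _
  have hrT : r ∈ (T : Subgroup N) := by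
    rw [hTeq]
    exact ⟨r1, hT' (Subgroup.mem_zpowers r1), rfl⟩
  have h2N : 2 ∣ Nat.card N := by rw [hD]; norm_num
  -- no element of order 4
  have hexp : ∀ x ∈ (T : Subgroup N), x ^ 2 = 1 := by
    intro x hx
    have hd := orderOf_dvd_natCard (⟨x, hx⟩ : (T : Subgroup N))
    rw [hTc, Subgroup.orderOf_mk] at hd
    have hm := dvl_4 _ hd
    simp only [List.mem_cons, List.not_mem_nil, or_false] at hm
    rcases hm with h | h | h
    · rw [orderOf_eq_one_iff.1 h, one_pow]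
    · rw [← h]; exact pow_orderOf_eq_one x
    · exfalso
      have hc : IsCyclic (T : Subgroup N) := isCyclic_of_orderOf_eq_card (⟨x, hx⟩ : (T : Subgroup N))
        (by rw [hTc, Subgroup.orderOf_mk, h])
      have hmf : (Nat.card N).minFac = 2 := by rw [hD]; norm_num
      exact bt hnc T h2N (IsCyclic.normalizer_le_centralizer (G := N) hmf hc)
  have hinv : ∀ x ∈ (T : Subgroup N), x * x = 1 := fun x hx => by rw [← pow_two]; exact hexp x hx
  have hTcomm : ∀ x ∈ (T : Subgroup N), ∀ y ∈ (T : Subgroup N), x * y = y * x := by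
    intro x hx y hy
    have h1 := hinv (x * y) ((T : Subgroup N).mul_mem hx hy)
    have hxi : x⁻¹ = x := inv_eq_of_mul_eq_one_left (hinv x hx)
    have hyi : y⁻¹ = y := inv_eq_of_mul_eq_one_left (hinv y hy)
    have h2 : (x * y)⁻¹ = x * y := inv_eq_of_mul_eq_one_left h1
    rw [mul_inv_rev, hxi, hyi] at h2
    exact h2.symm
  -- R = T ⊓ C has order 2
  let R : Subgroup N := (T : Subgroup N) ⊓ C
  have hrR : r ∈ R := ⟨hrT, hrC⟩
  have hRc : Nat.card R = 2 := by
    have h1 : Nat.card R ∣ 4 := by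
      rw [← hTc]
      exact Subgroup.card_dvd_of_le inf_le_left
    have h2 : Nat.card R ∣ Nat.card C := Subgroup.card_dvd_of_le inf_le_right
    have h3 : 2 ∣ Nat.card R := by
      have := orderOf_dvd_natCard (⟨r, hrR⟩ : R)
      rwa [Subgroup.orderOf_mk, hro] at this
    have hm := dvl_4 _ h1
    simp only [List.mem_cons, List.not_mem_nil, or_false] at hm
    rcases hm with h | h | h
    · rw [h] at h3; norm_num at h3
    · exact h
    · rw [h] at h2; exact absurd h2 h4C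
  have hRuniq : ∀ x ∈ R, x ≠ 1 → x = r := by
    intro x hx hx1
    obtain ⟨y, hy, huniq⟩ := (Nat.card_eq_two_iff' (1 : R)).1 hRc
    have e1 := huniq ⟨x, hx⟩ (fun h => hx1 (congrArg Subtype.val h))
    have e2 := huniq ⟨r, hrR⟩ (fun h => hr1 (congrArg Subtype.val h))
    have e3 : (⟨x, hx⟩ : R) = ⟨r, hrR⟩ := e1.trans e2.symm
    exact congrArg Subtype.val e3
  have hNW : normalizer ((T : Subgroup N) : Set N) ≤ W := by
    intro g hg
    have h1 : g * r * g⁻¹ ∈ (T : Subgroup N) := (Subgroup.mem_normalizer_iff.1 hg r).1 hrT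
    have h2 : g * r * g⁻¹ ∈ W := hTW h1
    have h3 : (g * r * g⁻¹) • Q = Q := Sylow.smul_eq_iff_mem_normalizer.2 h2
    have h4 : r • (g⁻¹ • Q) = g⁻¹ • Q := by
      have h5 : g⁻¹ • ((g * r * g⁻¹) • Q) = g⁻¹ • Q := by rw [h3]
      rw [smul_smul] at h5
      rw [smul_smul]
      have e : r * g⁻¹ = g⁻¹ * (g * r * g⁻¹) := by group
      rw [e]; exact h5
    have h5 := hfix _ h4
    have h6 : g⁻¹ ∈ W := Sylow.smul_eq_iff_mem_normalizer.1 h5
    simpa using inv_mem h6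
  have hrfix : ∀ g ∈ normalizer ((T : Subgroup N) : Set N), g * r * g⁻¹ = r := by
    intro g hg
    have h1 : g * r * g⁻¹ ∈ (T : Subgroup N) := (Subgroup.mem_normalizer_iff.1 hg r).1 hrT
    have h2 : g * r * g⁻¹ ∈ C := cent_conj Q (hNW hg) hrC
    apply hRuniq _ ⟨h1, h2⟩
    intro h
    apply hr1
    have h3 : g * r = g := by rwa [mul_inv_eq_one] at h
    simpa using h3
  let R0 : Subgroup (T : Subgroup N) := R.subgroupOf (T : Subgroup N)
  have hR0c : Nat.card R0 = 2 :=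
    (Nat.card_congr (Subgroup.subgroupOfEquivOfLe (inf_le_left : R ≤ (T : Subgroup N))).toEquiv).trans hRc
  have hidx : R0.index = 2 := by
    have := Subgroup.index_mul_card R0
    rw [hR0c, hTc] at this
    omega
  have hcoset : ∀ x ∈ (T : Subgroup N), ∀ y ∈ (T : Subgroup N), x ∉ R → y ∉ R → x * y ∈ R := by
    intro x hx y hy hxR hyR
    have := (Subgroup.mul_mem_iff_of_index_two hidx (a := ⟨x, hx⟩) (b := ⟨y, hy⟩)).2
      (iff_of_false hxR hyR)
    exact this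
  have key : normalizer ((T : Subgroup N) : Set N) ≤ centralizer ((T : Subgroup N) : Set N) := by
    intro g hg
    apply Subgroup.mem_centralizer_iff.2
    intro t ht
    suffices h : g * t * g⁻¹ = t from (mul_inv_eq_iff_eq_mul.1 h).symm
    by_contra hne
    have ht' : g * t * g⁻¹ ∈ (T : Subgroup N) := (Subgroup.mem_normalizer_iff.1 hg t).1 ht
    have htR : t ∉ R := by
      intro h
      by_cases h1 : t = 1
      · apply hne
        rw [h1]; group
      · have h2 := hRuniq t h h1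
        apply hne
        rw [h2]; exact hrfix g hg
    have ht'R : g * t * g⁻¹ ∉ R := by
      rintro ⟨h1, h2⟩
      have h3 := cent_conj Q (inv_mem (hNW hg)) h2
      have e : g⁻¹ * (g * t * g⁻¹) * g⁻¹⁻¹ = t := by group
      rw [e] at h3
      exact htR ⟨ht, h3⟩
    have hm := hcoset t ht _ ht' htR ht'R
    have hti : t * t = 1 := hinv t ht
    have h1ne : t * (g * t * g⁻¹) ≠ 1 := by
      intro h
      apply hne
      calc g * t * g⁻¹ = (t * t) * (g * t * g⁻¹) := by rw [hti, one_mul]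
        _ = t * (t * (g * t * g⁻¹)) := by rw [mul_assoc]
        _ = t := by rw [h, mul_one]
    have hrel := hRuniq _ hm h1ne
    have hgt : g * t * g⁻¹ = t * r := by
      calc g * t * g⁻¹ = (t * t) * (g * t * g⁻¹) := by rw [hti, one_mul]
        _ = t * (t * (g * t * g⁻¹)) := by rw [mul_assoc]
        _ = t * r := by rw [hrel]
    have hgr := hrfix g hg
    have hg2 : g * (t * r) * g⁻¹ = t := by
      calc g * (t * r) * g⁻¹ = (g * t * g⁻¹) * (g * r * g⁻¹) := by group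
        _ = t * r * r := by rw [hgt, hgr]
        _ = t := by rw [mul_assoc, ← pow_two, hr2, mul_one]
    have hodd : ∀ k : ℕ, g ^ (2 * k + 1) * t * (g ^ (2 * k + 1))⁻¹ = t * r := by
      intro k
      induction k with
      | zero => simpa using hgt
      | succ k ih =>
        have e2 : g ^ (2 * (k + 1) + 1) = g * (g * g ^ (2 * k + 1)) := by
          rw [show 2 * (k + 1) + 1 = 1 + (1 + (2 * k + 1)) by ring, pow_add, pow_add, pow_one]
        rw [e2]
        generalize g ^ (2 * k + 1) = h at ih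
        calc g * (g * h) * t * (g * (g * h))⁻¹ = g * (g * (h * t * h⁻¹) * g⁻¹) * g⁻¹ := by group
          _ = t * r := by rw [ih, hg2, hgt]
    obtain ⟨a, m, hm', hord⟩ := Nat.exists_eq_two_pow_mul_odd (orderOf_pos g).ne'
    obtain ⟨k, rfl⟩ := hm'
    have hup : (g ^ (2 * k + 1)) ^ (2 ^ a) = 1 := by
      rw [← pow_mul, mul_comm, ← hord, pow_orderOf_eq_one]
    have huN : g ^ (2 * k + 1) ∈ normalizer ((T : Subgroup N) : Set N) := pow_mem hg _
    obtain ⟨j, -, hj⟩ := (Nat.dvd_prime_pow Nat.prime_two).1 (orderOf_dvd_of_pow_eq_one hup)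
    have hup' : IsPGroup 2 (Subgroup.zpowers (g ^ (2 * k + 1))) :=
      IsPGroup.of_card (n := j) (by rw [Nat.card_zpowers, hj])
    have hu : g ^ (2 * k + 1) ∈ (T : Subgroup N) := by
      have h5 := IsPGroup.inf_normalizer_sylow hup' T
      have h1 : g ^ (2 * k + 1) ∈ Subgroup.zpowers (g ^ (2 * k + 1)) ⊓ normalizer ((T : Subgroup N) : Set N) :=
        ⟨Subgroup.mem_zpowers _, huN⟩
      exact (h5.le h1).2
    have h6 := hodd k
    rw [hTcomm _ hu t ht, mul_inv_cancel_right] at h6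
    apply hr1
    simpa using h6.symm
  exact bt hnc T h2N key


lemma h15960 [IsSimpleGroup N] (hnc : ∃ a b : N, a * b ≠ b * a) (hD : Nat.card N = 15960) (Q : Sylow 19 N)
    (hQ : Nat.card (Q : Subgroup N) = 19) (hn : Nat.card (Sylow 19 N) = 210) (ha : aa Q = 76) (hb : bb Q = 38) :
    False := by
  classical
  set C := centralizer ((Q : Subgroup N) : Set N) with hC
  set W := normalizer ((Q : Subgroup N) : Set N) with hW
  have hCW : C ≤ W := Subgroup.centralizer_le_normalizer _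
  have hWc : Nat.card W = 76 := ha
  have hCc : Nat.card C = 38 := hb
  have hQcomm : ∀ x ∈ (Q : Subgroup N), ∀ y ∈ (Q : Subgroup N), x * y = y * x :=
    fun x hx y hy => comm_of_prime _ (by norm_num) hQ hx hy
  have hQC : (Q : Subgroup N) ≤ C := fun x hx =>
    Subgroup.mem_centralizer_iff.2 (fun q hq => hQcomm q hq x hx)
  obtain ⟨r0, hr0⟩ := exists_prime_orderOf_dvd_card' (G := C) 2 (by rw [hCc]; norm_num)
  set r : N := (r0 : N) with hrdef
  have hro : orderOf r = 2 := by rw [hrdef, Subgroup.orderOf_coe]; exact hr0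
  have hr2 : r ^ 2 = 1 := by rw [← hro]; exact pow_orderOf_eq_one r
  have hr1 : r ≠ 1 := by
    intro h
    rw [h, orderOf_one] at hro
    omega
  have hrC : r ∈ C := r0.2
  have hrc : ∀ q ∈ (Q : Subgroup N), q * r = r * q := fun q hq => Subgroup.mem_centralizer_iff.1 hrC q hq
  have hQinv : ∀ s ∈ (Q : Subgroup N), s ^ 2 = 1 → s = 1 := by
    intro s hs hs2
    have h19 : s ^ 19 = 1 := by
      have := pow_card_eq_one' (x := (⟨s, hs⟩ : (Q : Subgroup N)))
      rw [hQ] at this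
      simpa [Subtype.ext_iff] using this
    exact orderOf_eq_one_iff.1 (Nat.eq_one_of_dvd_coprimes (by norm_num : Nat.Coprime 19 2)
      (orderOf_dvd_of_pow_eq_one h19) (orderOf_dvd_of_pow_eq_one hs2))
  let Q0 : Subgroup C := (Q : Subgroup N).subgroupOf C
  have hQ0c : Nat.card Q0 = 19 :=
    (Nat.card_congr (Subgroup.subgroupOfEquivOfLe hQC).toEquiv).trans hQ
  have hidx : Q0.index = 2 := by
    have := Subgroup.index_mul_card Q0
    rw [hQ0c, hCc] at this
    omega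
  have huniq : ∀ x ∈ C, x ^ 2 = 1 → x ≠ 1 → x = r := by
    intro x hx hx2 hx1
    have hxQ : x ∉ (Q : Subgroup N) := fun h => hx1 (hQinv x h hx2)
    have hrQ : r ∉ (Q : Subgroup N) := fun h => hr1 (hQinv r h hr2)
    have hs : x * r ∈ (Q : Subgroup N) :=
      (Subgroup.mul_mem_iff_of_index_two hidx (a := ⟨x, hx⟩) (b := ⟨r, hrC⟩)).2 (iff_of_false hxQ hrQ)
    have hcomm : (x * r) * x = x * (x * r) := Subgroup.mem_centralizer_iff.1 hx _ hs
    have hxx : x * x = 1 := by rw [← pow_two]; exact hx2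
    have hrr : r * r = 1 := by rw [← pow_two]; exact hr2
    have hs2 : (x * r) ^ 2 = 1 := by
      rw [pow_two]
      calc x * r * (x * r) = (x * r * x) * r := by group
        _ = (x * (x * r)) * r := by rw [hcomm]
        _ = (x * x) * (r * r) := by group
        _ = 1 := by rw [hxx, hrr, one_mul]
    have hs1 := hQinv _ hs hs2
    have hri : r⁻¹ = r := inv_eq_of_mul_eq_one_left hrr
    rw [← hri]
    exact eq_inv_of_mul_eq_one_left hs1
  have hrW : ∀ g ∈ W, g * r * g⁻¹ = r := by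
    intro g hg
    apply huniq _ (cent_conj Q hg hrC)
    · rw [conj_pow, hr2, mul_one, mul_inv_cancel]
    · intro h
      apply hr1
      have h3 : g * r = g := by rwa [mul_inv_eq_one] at h
      simpa using h3
  -- the centralizer of `r`
  set H := centralizer ({r} : Set N) with hH
  have hWH : W ≤ H := fun g hg =>
    Subgroup.mem_centralizer_singleton_iff.2 (mul_inv_eq_iff_eq_mul.1 (hrW g hg))
  have hQH : (Q : Subgroup N) ≤ H := fun q hq =>
    Subgroup.mem_centralizer_singleton_iff.2 (hrc q hq)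
  let S : Sylow 19 H := Q.subtype hQH
  have hScoe : (S : Subgroup H) = (Q : Subgroup N).subgroupOf H := rfl
  have hSn : normalizer ((S : Subgroup H) : Set H) = W.subgroupOf H := by
    ext x
    rw [Subgroup.mem_subgroupOf]
    constructor
    · intro hx
      apply Subgroup.mem_normalizer_iff.2
      intro y
      have hx' := Subgroup.mem_normalizer_iff.1 hx
      constructor
      · intro hy
        exact (hx' ⟨y, hQH hy⟩).1 hy
      · intro hy
        have hyH : y ∈ H := by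
          have h1 : (x : N) * y * (x : N)⁻¹ ∈ H := hQH hy
          have h2 : (x : N)⁻¹ * ((x : N) * y * (x : N)⁻¹) * (x : N) ∈ H :=
            H.mul_mem (H.mul_mem (H.inv_mem x.2) h1) x.2
          have e : (x : N)⁻¹ * ((x : N) * y * (x : N)⁻¹) * (x : N) = y := by group
          rwa [e] at h2
        exact (hx' ⟨y, hyH⟩).2 hy
    · intro hx
      apply Subgroup.mem_normalizer_iff.2
      intro y
      exact Subgroup.mem_normalizer_iff.1 hx (y : N)
  have hNc : Nat.card (normalizer ((S : Subgroup H) : Set H)) = 76 := by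
    rw [hSn]
    exact (Nat.card_congr (Subgroup.subgroupOfEquivOfLe hWH).toEquiv).trans hWc
  have hx1 : Nat.card (Sylow 19 H) % 19 = 1 := by
    have := card_sylow_modEq_one 19 H
    exact this
  have hx2 : Nat.card (Sylow 19 H) * 76 = Nat.card H := by
    rw [← hNc, S.card_eq_index_normalizer]
    exact Subgroup.index_mul_card _
  have hHd : Nat.card H ∣ 15960 := by
    rw [← hD]; exact Subgroup.card_subgroup_dvd_card _
  have hx3 : Nat.card (Sylow 19 H) ∣ 210 := by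
    rw [← hx2] at hHd
    have : Nat.card (Sylow 19 H) * 76 ∣ 210 * 76 := by simpa using hHd
    exact Nat.dvd_of_mul_dvd_mul_right (by norm_num) this
  have hm := dvl_210 _ hx3
  simp only [List.mem_cons, List.not_mem_nil, or_false] at hm
  have hx4 : Nat.card (Sylow 19 H) = 1 ∨ Nat.card (Sylow 19 H) = 210 := by omega
  clear hm
  have hHW : H ≤ W := by
    rcases hx4 with h | h
    · rw [h] at hx2
      have : W = H := Subgroup.eq_of_le_of_card_ge hWH (by rw [hWc]; omega)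
      exact this.ge
    · exfalso
      rw [h] at hx2
      have hHtop : H = ⊤ := Subgroup.eq_top_of_card_eq _ (by rw [hD]; omega)
      have hrcen : r ∈ Subgroup.center N := Subgroup.mem_center_iff.2 (fun g => by
        have hg : g ∈ H := by rw [hHtop]; trivial
        exact Subgroup.mem_centralizer_singleton_iff.1 hg)
      have hcn : (Subgroup.center N).Normal := inferInstance
      rcases hcn.eq_bot_or_eq_top with h' | h'
      · rw [h'] at hrcen
        exact hr1 hrcen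
      · obtain ⟨a, b, hab⟩ := hnc
        have hac : a ∈ Subgroup.center N := by rw [h']; trivial
        exact hab (Subgroup.mem_center_iff.1 hac b).symm
  obtain ⟨f1, f2, f3, f4⟩ := fix_data hnc Q (by rw [hn]; norm_num) r hr1 hr2 hrc
  rw [hn] at f2 f3 f4
  rw [Nat.even_iff] at f4
  have hF : 40 ≤ Nat.card {P : Sylow 19 N // r • P = P} := by omega
  choose u hu using fun P : Sylow 19 N => MulAction.exists_smul_eq N Q P
  have hback : ∀ P : Sylow 19 N, (u P)⁻¹ • P = Q := by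
    intro P
    have e : (u P)⁻¹ • (u P • Q) = Q := by rw [smul_smul, inv_mul_cancel, one_smul]
    rwa [hu P] at e
  let A := {P : Sylow 19 N // r • P = P ∧ P ≠ Q}
  let f : A → N := fun P => u P.1 * r * (u P.1)⁻¹
  have hfW : ∀ P : A, f P ∈ W := by
    intro P
    apply hHW
    have h1 : (u P.1)⁻¹ * r * u P.1 ∈ W := by
      apply Sylow.smul_eq_iff_mem_normalizer.1
      rw [mul_smul, mul_smul, hu P.1, P.2.1, hback]
    have h2 := mul_inv_eq_iff_eq_mul.1 (hrW _ h1)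
    apply Subgroup.mem_centralizer_singleton_iff.2
    show u P.1 * r * (u P.1)⁻¹ * r = r * (u P.1 * r * (u P.1)⁻¹)
    calc u P.1 * r * (u P.1)⁻¹ * r = u P.1 * (r * ((u P.1)⁻¹ * r * u P.1)) * (u P.1)⁻¹ := by group
      _ = u P.1 * (((u P.1)⁻¹ * r * u P.1) * r) * (u P.1)⁻¹ := by rw [h2]
      _ = r * (u P.1 * r * (u P.1)⁻¹) := by group
  have hfC : ∀ P : A, f P ∉ C := by
    intro P hc
    have h1 : f P = r := by
      apply huniq _ hc
      · show (u P.1 * r * (u P.1)⁻¹) ^ 2 = 1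
        rw [conj_pow, hr2, mul_one, mul_inv_cancel]
      · intro h
        apply hr1
        have h' : u P.1 * r * (u P.1)⁻¹ = 1 := h
        have h3 : u P.1 * r = u P.1 := by rwa [mul_inv_eq_one] at h'
        simpa using h3
    have h2 : u P.1 ∈ H := Subgroup.mem_centralizer_singleton_iff.2 (mul_inv_eq_iff_eq_mul.1 h1)
    have h4 : u P.1 • Q = Q := Sylow.smul_eq_iff_mem_normalizer.2 (hHW h2)
    rw [hu] at h4
    exact P.2.2 h4
  have hfinj : Function.Injective f := by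
    intro P1 P2 h
    have h' : u P1.1 * r * (u P1.1)⁻¹ = u P2.1 * r * (u P2.1)⁻¹ := h
    have hv : (u P2.1)⁻¹ * u P1.1 ∈ H := by
      apply Subgroup.mem_centralizer_singleton_iff.2
      calc (u P2.1)⁻¹ * u P1.1 * r = (u P2.1)⁻¹ * (u P1.1 * r * (u P1.1)⁻¹) * u P1.1 := by group
        _ = (u P2.1)⁻¹ * (u P2.1 * r * (u P2.1)⁻¹) * u P1.1 := by rw [h']
        _ = r * ((u P2.1)⁻¹ * u P1.1) := by group
    have h4 : ((u P2.1)⁻¹ * u P1.1) • Q = Q := Sylow.smul_eq_iff_mem_normalizer.2 (hHW hv)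
    rw [mul_smul, hu P1.1] at h4
    have h5 : u P2.1 • ((u P2.1)⁻¹ • P1.1) = u P2.1 • Q := by rw [h4]
    rw [smul_smul, mul_inv_cancel, one_smul, hu P2.1] at h5
    exact Subtype.ext h5
  let φ : A ⊕ C → W := fun t =>
    match t with
    | Sum.inl P => ⟨f P, hfW P⟩
    | Sum.inr c => ⟨c, hCW c.2⟩
  have hφ : Function.Injective φ := by
    rintro (a | b) (a' | b') h
    · have h' : f a = f a' := congrArg Subtype.val h
      rw [hfinj h']
    · have h' : f a = (b' : N) := congrArg Subtype.val h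
      exact absurd (h' ▸ b'.2) (hfC a)
    · have h' : (b : N) = f a' := congrArg Subtype.val h
      exact absurd (h' ▸ b.2) (hfC a')
    · have h' : (b : N) = (b' : N) := congrArg (fun x : W => (x : N)) h
      rw [Subtype.ext h']
  have hc1 := Nat.card_le_card_of_injective φ hφ
  rw [Nat.card_sum, hCc, hWc] at hc1
  let ψ : {P : Sylow 19 N // r • P = P} → A ⊕ Unit := fun P =>
    if h : P.1 = Q then Sum.inr () else Sum.inl ⟨P.1, P.2, h⟩
  have hψ : Function.Injective ψ := by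
    intro P1 P2 h
    by_cases h1 : P1.1 = Q <;> by_cases h2 : P2.1 = Q
    · exact Subtype.ext (h1.trans h2.symm)
    · simp [ψ, h1, h2] at h
    · simp [ψ, h1, h2] at h
    · simp only [ψ, dif_neg h1, dif_neg h2, Sum.inl.injEq, Subtype.mk.injEq] at h
      have h' : P1.1 = P2.1 := congrArg (fun x : A => x.1) h
      exact Subtype.ext h'
  have hc2 := Nat.card_le_card_of_injective ψ hψ
  rw [Nat.card_sum] at hc2
  have hu1 : Nat.card Unit = 1 := Nat.card_unique
  omega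


lemma c76 [IsSimpleGroup N] (hnc : ∃ a b : N, a * b ≠ b * a) (hD : Nat.card N = 76) : False := by
  have hd : Nat.card N ∣ 175560 := by rw [hD]; norm_num
  have h19 : 19 ∣ Nat.card N := by rw [hD]; norm_num
  obtain ⟨Q19⟩ := (inferInstance : Nonempty (Sylow 19 N))
  obtain ⟨s19, c19⟩ := sd_get (q := 18) hnc (by norm_num) (by norm_num) hd h19 h19 Q19
  rw [hD] at s19
  exact opt_19_76 s19

lemma c152 [IsSimpleGroup N] (hnc : ∃ a b : N, a * b ≠ b * a) (hD : Nat.card N = 152) : False := by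
  have hd : Nat.card N ∣ 175560 := by rw [hD]; norm_num
  have h19 : 19 ∣ Nat.card N := by rw [hD]; norm_num
  obtain ⟨Q19⟩ := (inferInstance : Nonempty (Sylow 19 N))
  obtain ⟨s19, c19⟩ := sd_get (q := 18) hnc (by norm_num) (by norm_num) hd h19 h19 Q19
  rw [hD] at s19
  exact opt_19_152 s19

lemma c228 [IsSimpleGroup N] (hnc : ∃ a b : N, a * b ≠ b * a) (hD : Nat.card N = 228) : False := by
  have hd : Nat.card N ∣ 175560 := by rw [hD]; norm_num
  have h19 : 19 ∣ Nat.card N := by rw [hD]; norm_num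
  obtain ⟨Q19⟩ := (inferInstance : Nonempty (Sylow 19 N))
  obtain ⟨s19, c19⟩ := sd_get (q := 18) hnc (by norm_num) (by norm_num) hd h19 h19 Q19
  rw [hD] at s19
  exact opt_19_228 s19

lemma c380 [IsSimpleGroup N] (hnc : ∃ a b : N, a * b ≠ b * a) (hD : Nat.card N = 380) : False := by
  have hd : Nat.card N ∣ 175560 := by rw [hD]; norm_num
  have h19 : 19 ∣ Nat.card N := by rw [hD]; norm_num
  obtain ⟨Q19⟩ := (inferInstance : Nonempty (Sylow 19 N))
  obtain ⟨s19, c19⟩ := sd_get (q := 18) hnc (by norm_num) (by norm_num) hd h19 h19 Q19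
  rw [hD] at s19
  exact opt_19_380 s19

lemma c456 [IsSimpleGroup N] (hnc : ∃ a b : N, a * b ≠ b * a) (hD : Nat.card N = 456) : False := by
  have hd : Nat.card N ∣ 175560 := by rw [hD]; norm_num
  have h19 : 19 ∣ Nat.card N := by rw [hD]; norm_num
  obtain ⟨Q19⟩ := (inferInstance : Nonempty (Sylow 19 N))
  obtain ⟨s19, c19⟩ := sd_get (q := 18) hnc (by norm_num) (by norm_num) hd h19 h19 Q19
  rw [hD] at s19
  exact opt_19_456 s19

lemma c532 [IsSimpleGroup N] (hnc : ∃ a b : N, a * b ≠ b * a) (hD : Nat.card N = 532) : False := by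
  have hd : Nat.card N ∣ 175560 := by rw [hD]; norm_num
  have h19 : 19 ∣ Nat.card N := by rw [hD]; norm_num
  obtain ⟨Q19⟩ := (inferInstance : Nonempty (Sylow 19 N))
  obtain ⟨s19, c19⟩ := sd_get (q := 18) hnc (by norm_num) (by norm_num) hd h19 h19 Q19
  rw [hD] at s19
  exact opt_19_532 s19

lemma c836 [IsSimpleGroup N] (hnc : ∃ a b : N, a * b ≠ b * a) (hD : Nat.card N = 836) : False := by
  have hd : Nat.card N ∣ 175560 := by rw [hD]; norm_num
  have h19 : 19 ∣ Nat.card N := by rw [hD]; norm_num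
  obtain ⟨Q19⟩ := (inferInstance : Nonempty (Sylow 19 N))
  obtain ⟨s19, c19⟩ := sd_get (q := 18) hnc (by norm_num) (by norm_num) hd h19 h19 Q19
  rw [hD] at s19
  exact opt_19_836 s19

lemma c1064 [IsSimpleGroup N] (hnc : ∃ a b : N, a * b ≠ b * a) (hD : Nat.card N = 1064) : False := by
  have hd : Nat.card N ∣ 175560 := by rw [hD]; norm_num
  have h19 : 19 ∣ Nat.card N := by rw [hD]; norm_num
  obtain ⟨Q19⟩ := (inferInstance : Nonempty (Sylow 19 N))
  obtain ⟨s19, c19⟩ := sd_get (q := 18) hnc (by norm_num) (by norm_num) hd h19 h19 Q19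
  rw [hD] at s19
  exact opt_19_1064 s19

lemma c1596 [IsSimpleGroup N] (hnc : ∃ a b : N, a * b ≠ b * a) (hD : Nat.card N = 1596) : False := by
  have hd : Nat.card N ∣ 175560 := by rw [hD]; norm_num
  have h19 : 19 ∣ Nat.card N := by rw [hD]; norm_num
  obtain ⟨Q19⟩ := (inferInstance : Nonempty (Sylow 19 N))
  obtain ⟨s19, c19⟩ := sd_get (q := 18) hnc (by norm_num) (by norm_num) hd h19 h19 Q19
  rw [hD] at s19
  exact opt_19_1596 s19

lemma c1672 [IsSimpleGroup N] (hnc : ∃ a b : N, a * b ≠ b * a) (hD : Nat.card N = 1672) : False := by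
  have hd : Nat.card N ∣ 175560 := by rw [hD]; norm_num
  have h19 : 19 ∣ Nat.card N := by rw [hD]; norm_num
  obtain ⟨Q19⟩ := (inferInstance : Nonempty (Sylow 19 N))
  obtain ⟨s19, c19⟩ := sd_get (q := 18) hnc (by norm_num) (by norm_num) hd h19 h19 Q19
  rw [hD] at s19
  exact opt_19_1672 s19

lemma c2508 [IsSimpleGroup N] (hnc : ∃ a b : N, a * b ≠ b * a) (hD : Nat.card N = 2508) : False := by
  have hd : Nat.card N ∣ 175560 := by rw [hD]; norm_num
  have h19 : 19 ∣ Nat.card N := by rw [hD]; norm_num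
  obtain ⟨Q19⟩ := (inferInstance : Nonempty (Sylow 19 N))
  obtain ⟨s19, c19⟩ := sd_get (q := 18) hnc (by norm_num) (by norm_num) hd h19 h19 Q19
  rw [hD] at s19
  exact opt_19_2508 s19

lemma c2660 [IsSimpleGroup N] (hnc : ∃ a b : N, a * b ≠ b * a) (hD : Nat.card N = 2660) : False := by
  have hd : Nat.card N ∣ 175560 := by rw [hD]; norm_num
  have h19 : 19 ∣ Nat.card N := by rw [hD]; norm_num
  obtain ⟨Q19⟩ := (inferInstance : Nonempty (Sylow 19 N))
  obtain ⟨s19, c19⟩ := sd_get (q := 18) hnc (by norm_num) (by norm_num) hd h19 h19 Q19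
  rw [hD] at s19
  exact opt_19_2660 s19

lemma c3192 [IsSimpleGroup N] (hnc : ∃ a b : N, a * b ≠ b * a) (hD : Nat.card N = 3192) : False := by
  have hd : Nat.card N ∣ 175560 := by rw [hD]; norm_num
  have h19 : 19 ∣ Nat.card N := by rw [hD]; norm_num
  obtain ⟨Q19⟩ := (inferInstance : Nonempty (Sylow 19 N))
  obtain ⟨s19, c19⟩ := sd_get (q := 18) hnc (by norm_num) (by norm_num) hd h19 h19 Q19
  rw [hD] at s19
  exact opt_19_3192 s19

lemma c4180 [IsSimpleGroup N] (hnc : ∃ a b : N, a * b ≠ b * a) (hD : Nat.card N = 4180) : False := by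
  have hd : Nat.card N ∣ 175560 := by rw [hD]; norm_num
  have h19 : 19 ∣ Nat.card N := by rw [hD]; norm_num
  obtain ⟨Q19⟩ := (inferInstance : Nonempty (Sylow 19 N))
  obtain ⟨s19, c19⟩ := sd_get (q := 18) hnc (by norm_num) (by norm_num) hd h19 h19 Q19
  rw [hD] at s19
  exact opt_19_4180 s19

lemma c5016 [IsSimpleGroup N] (hnc : ∃ a b : N, a * b ≠ b * a) (hD : Nat.card N = 5016) : False := by
  have hd : Nat.card N ∣ 175560 := by rw [hD]; norm_num
  have h19 : 19 ∣ Nat.card N := by rw [hD]; norm_num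
  obtain ⟨Q19⟩ := (inferInstance : Nonempty (Sylow 19 N))
  obtain ⟨s19, c19⟩ := sd_get (q := 18) hnc (by norm_num) (by norm_num) hd h19 h19 Q19
  rw [hD] at s19
  exact opt_19_5016 s19

lemma c760 [IsSimpleGroup N] (hnc : ∃ a b : N, a * b ≠ b * a) (hD : Nat.card N = 760) : False := by
  have hd : Nat.card N ∣ 175560 := by rw [hD]; norm_num
  have h19 : 19 ∣ Nat.card N := by rw [hD]; norm_num
  obtain ⟨Q19⟩ := (inferInstance : Nonempty (Sylow 19 N))
  obtain ⟨s19, c19⟩ := sd_get (q := 18) hnc (by norm_num) (by norm_num) hd h19 h19 Q19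
  rw [hD] at s19
  have h20 := n20 hnc Q19 c19
  have o := opt_19_760 s19
  have ha : aa Q19 = 38 := by omega
  have hn : Nat.card (Sylow 19 N) = 20 := by omega
  have := h20 hn
  omega

lemma c2280 [IsSimpleGroup N] (hnc : ∃ a b : N, a * b ≠ b * a) (hD : Nat.card N = 2280) : False := by
  have hd : Nat.card N ∣ 175560 := by rw [hD]; norm_num
  have h19 : 19 ∣ Nat.card N := by rw [hD]; norm_num
  obtain ⟨Q19⟩ := (inferInstance : Nonempty (Sylow 19 N))
  obtain ⟨s19, c19⟩ := sd_get (q := 18) hnc (by norm_num) (by norm_num) hd h19 h19 Q19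
  rw [hD] at s19
  have h20 := n20 hnc Q19 c19
  have o := opt_19_2280 s19
  have ha : aa Q19 = 114 := by omega
  have hn : Nat.card (Sylow 19 N) = 20 := by omega
  have := h20 hn
  omega

lemma c5320 [IsSimpleGroup N] (hnc : ∃ a b : N, a * b ≠ b * a) (hD : Nat.card N = 5320) : False := by
  have hd : Nat.card N ∣ 175560 := by rw [hD]; norm_num
  have h19 : 19 ∣ Nat.card N := by rw [hD]; norm_num
  obtain ⟨Q19⟩ := (inferInstance : Nonempty (Sylow 19 N))
  obtain ⟨s19, c19⟩ := sd_get (q := 18) hnc (by norm_num) (by norm_num) hd h19 h19 Q19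
  rw [hD] at s19
  have h20 := n20 hnc Q19 c19
  have o := opt_19_5320 s19
  have ha : aa Q19 = 266 := by omega
  have hn : Nat.card (Sylow 19 N) = 20 := by omega
  have := h20 hn
  omega

lemma c8360 [IsSimpleGroup N] (hnc : ∃ a b : N, a * b ≠ b * a) (hD : Nat.card N = 8360) : False := by
  have hd : Nat.card N ∣ 175560 := by rw [hD]; norm_num
  have h19 : 19 ∣ Nat.card N := by rw [hD]; norm_num
  obtain ⟨Q19⟩ := (inferInstance : Nonempty (Sylow 19 N))
  obtain ⟨s19, c19⟩ := sd_get (q := 18) hnc (by norm_num) (by norm_num) hd h19 h19 Q19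
  rw [hD] at s19
  have h20 := n20 hnc Q19 c19
  have o := opt_19_8360 s19
  have ha : aa Q19 = 418 := by omega
  have hn : Nat.card (Sylow 19 N) = 20 := by omega
  have := h20 hn
  omega

lemma c12540 [IsSimpleGroup N] (hnc : ∃ a b : N, a * b ≠ b * a) (hD : Nat.card N = 12540) : False := by
  have hd : Nat.card N ∣ 175560 := by rw [hD]; norm_num
  have h19 : 19 ∣ Nat.card N := by rw [hD]; norm_num
  obtain ⟨Q19⟩ := (inferInstance : Nonempty (Sylow 19 N))
  obtain ⟨s19, c19⟩ := sd_get (q := 18) hnc (by norm_num) (by norm_num) hd h19 h19 Q19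
  rw [hD] at s19
  have h20 := n20 hnc Q19 c19
  have o := opt_19_12540 s19
  have ha : aa Q19 = 627 := by omega
  have hn : Nat.card (Sylow 19 N) = 20 := by omega
  have := h20 hn
  omega

lemma c25080 [IsSimpleGroup N] (hnc : ∃ a b : N, a * b ≠ b * a) (hD : Nat.card N = 25080) : False := by
  have hd : Nat.card N ∣ 175560 := by rw [hD]; norm_num
  have h19 : 19 ∣ Nat.card N := by rw [hD]; norm_num
  obtain ⟨Q19⟩ := (inferInstance : Nonempty (Sylow 19 N))
  obtain ⟨s19, c19⟩ := sd_get (q := 18) hnc (by norm_num) (by norm_num) hd h19 h19 Q19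
  rw [hD] at s19
  have h20 := n20 hnc Q19 c19
  have o := opt_19_25080 s19
  have ha : aa Q19 = 1254 := by omega
  have hn : Nat.card (Sylow 19 N) = 20 := by omega
  have := h20 hn
  omega

lemma c1140 [IsSimpleGroup N] (hnc : ∃ a b : N, a * b ≠ b * a) (hD : Nat.card N = 1140) : False := by
  have hd : Nat.card N ∣ 175560 := by rw [hD]; norm_num
  have h19 : 19 ∣ Nat.card N := by rw [hD]; norm_num
  obtain ⟨Q19⟩ := (inferInstance : Nonempty (Sylow 19 N))
  obtain ⟨s19, c19⟩ := sd_get (q := 18) hnc (by norm_num) (by norm_num) hd h19 h19 Q19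
  rw [hD] at s19
  obtain ⟨Q5⟩ := (inferInstance : Nonempty (Sylow 5 N))
  obtain ⟨s5, c5⟩ := sd_get (q := 4) hnc (by norm_num) (by norm_num) hd h19 (by rw [hD]; norm_num) Q5
  rw [hD] at s5
  exact opt_5_1140 s5

set_option maxHeartbeats 4000000 in
lemma c5852 [IsSimpleGroup N] (hnc : ∃ a b : N, a * b ≠ b * a) (hD : Nat.card N = 5852) : False := by
  have hd : Nat.card N ∣ 175560 := by rw [hD]; norm_num
  have h19 : 19 ∣ Nat.card N := by rw [hD]; norm_num
  obtain ⟨Q19⟩ := (inferInstance : Nonempty (Sylow 19 N))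
  obtain ⟨s19, c19⟩ := sd_get (q := 18) hnc (by norm_num) (by norm_num) hd h19 h19 Q19
  rw [hD] at s19
  obtain ⟨Q7⟩ := (inferInstance : Nonempty (Sylow 7 N))
  obtain ⟨s7, c7⟩ := sd_get (q := 6) hnc (by norm_num) (by norm_num) hd h19 (by rw [hD]; norm_num) Q7
  rw [hD] at s7
  rcases opt_19_5852 s19 with ⟨n19, a19, b19⟩
  rcases opt_7_5852 s7 with ⟨n7, a7, b7⟩
  exact no_norm Q19 Q7 c19 c7 (by norm_num) (by rw [a19]; norm_num) (by rw [a7]; norm_num)

set_option maxHeartbeats 4000000 in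
lemma c11704 [IsSimpleGroup N] (hnc : ∃ a b : N, a * b ≠ b * a) (hD : Nat.card N = 11704) : False := by
  have hd : Nat.card N ∣ 175560 := by rw [hD]; norm_num
  have h19 : 19 ∣ Nat.card N := by rw [hD]; norm_num
  obtain ⟨Q19⟩ := (inferInstance : Nonempty (Sylow 19 N))
  obtain ⟨s19, c19⟩ := sd_get (q := 18) hnc (by norm_num) (by norm_num) hd h19 h19 Q19
  rw [hD] at s19
  obtain ⟨Q7⟩ := (inferInstance : Nonempty (Sylow 7 N))
  obtain ⟨s7, c7⟩ := sd_get (q := 6) hnc (by norm_num) (by norm_num) hd h19 (by rw [hD]; norm_num) Q7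
  rw [hD] at s7
  rcases opt_19_11704 s19 with ⟨n19, a19, b19⟩
  rcases opt_7_11704 s7 with ⟨n7, a7, b7⟩
  exact no_norm Q19 Q7 c19 c7 (by norm_num) (by rw [a19]; norm_num) (by rw [a7]; norm_num)

set_option maxHeartbeats 4000000 in
lemma c29260 [IsSimpleGroup N] (hnc : ∃ a b : N, a * b ≠ b * a) (hD : Nat.card N = 29260) : False := by
  have hd : Nat.card N ∣ 175560 := by rw [hD]; norm_num
  have h19 : 19 ∣ Nat.card N := by rw [hD]; norm_num
  obtain ⟨Q19⟩ := (inferInstance : Nonempty (Sylow 19 N))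
  obtain ⟨s19, c19⟩ := sd_get (q := 18) hnc (by norm_num) (by norm_num) hd h19 h19 Q19
  rw [hD] at s19
  obtain ⟨Q7⟩ := (inferInstance : Nonempty (Sylow 7 N))
  obtain ⟨s7, c7⟩ := sd_get (q := 6) hnc (by norm_num) (by norm_num) hd h19 (by rw [hD]; norm_num) Q7
  rw [hD] at s7
  obtain ⟨Q11⟩ := (inferInstance : Nonempty (Sylow 11 N))
  obtain ⟨s11, c11⟩ := sd_get (q := 10) hnc (by norm_num) (by norm_num) hd h19 (by rw [hD]; norm_num) Q11
  rw [hD] at s11
  rcases opt_19_29260 s19 with ⟨n19, a19, b19⟩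
  have h11 : aa Q11 = 220 := by
    have o := opt_11_29260 s11
    omega
  have h7 := opt_7_29260 s7
  have a7 : aa Q7 = 1330 ∨ aa Q7 = 154 := by omega
  rcases a7 with a7 | a7
  · exact no_norm Q19 Q7 c19 c7 (by norm_num) (by rw [a19]; norm_num) (by rw [a7]; norm_num)
  · exact no_norm Q11 Q7 c11 c7 (by norm_num) (by rw [h11]; norm_num) (by rw [a7]; norm_num)

set_option maxHeartbeats 4000000 in
lemma c17556 [IsSimpleGroup N] (hnc : ∃ a b : N, a * b ≠ b * a) (hD : Nat.card N = 17556) : False := by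
  have hd : Nat.card N ∣ 175560 := by rw [hD]; norm_num
  have h19 : 19 ∣ Nat.card N := by rw [hD]; norm_num
  obtain ⟨Q19⟩ := (inferInstance : Nonempty (Sylow 19 N))
  obtain ⟨s19, c19⟩ := sd_get (q := 18) hnc (by norm_num) (by norm_num) hd h19 h19 Q19
  rw [hD] at s19
  obtain ⟨Q7⟩ := (inferInstance : Nonempty (Sylow 7 N))
  obtain ⟨s7, c7⟩ := sd_get (q := 6) hnc (by norm_num) (by norm_num) hd h19 (by rw [hD]; norm_num) Q7
  rw [hD] at s7
  obtain ⟨Q11⟩ := (inferInstance : Nonempty (Sylow 11 N))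
  obtain ⟨s11, c11⟩ := sd_get (q := 10) hnc (by norm_num) (by norm_num) hd h19 (by rw [hD]; norm_num) Q11
  rw [hD] at s11
  rcases opt_11_17556 s11 with ⟨n11, a11, b11⟩
  obtain ⟨n19, a19, b19⟩ : Nat.card (Sylow 19 N) = 77 ∧ aa Q19 = 228 ∧ (bb Q19 = 38 ∨ bb Q19 = 76 ∨ bb Q19 = 114) := by
    have o := opt_19_17556 s19
    omega
  have h7 := opt_7_17556 s7
  have a7 : aa Q7 = 798 ∨ aa Q7 = 308 ∨ (Nat.card (Sylow 7 N) = 1254) := by omega
  rcases a7 with a7 | a7 | n7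
  · exact no_norm Q19 Q7 c19 c7 (by norm_num) (by rw [a19]; norm_num) (by rw [a7]; norm_num)
  · exact no_norm Q11 Q7 c11 c7 (by norm_num) (by rw [a11]; norm_num) (by rw [a7]; norm_num)
  · rcases b19 with b19 | b19 | b19
    · have t0 := cnt (q := 18) (by norm_num) Q19 c19 (k := 2) (b19.trans (by norm_num)) (by norm_num); rw [n19] at t0; have t1 := cnt (q := 10) (by norm_num) Q11 c11 (k := 6) (b11.trans (by norm_num)) (by norm_num); rw [n11] at t1; have t2 := cnt1 (q := 6) (by norm_num) Q7 c7; rw [n7] at t2; exact fin3 hD (by norm_num) (by norm_num) (by norm_num) t0 t1 t2 (by norm_num)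
    · have t0 := cnt (q := 18) (by norm_num) Q19 c19 (k := 4) (b19.trans (by norm_num)) (by norm_num); rw [n19] at t0; have t1 := cnt (q := 10) (by norm_num) Q11 c11 (k := 6) (b11.trans (by norm_num)) (by norm_num); rw [n11] at t1; have t2 := cnt1 (q := 6) (by norm_num) Q7 c7; rw [n7] at t2; exact fin3 hD (by norm_num) (by norm_num) (by norm_num) t0 t1 t2 (by norm_num)
    · have t0 := cnt (q := 18) (by norm_num) Q19 c19 (k := 6) (b19.trans (by norm_num)) (by norm_num); rw [n19] at t0; have t1 := cnt (q := 10) (by norm_num) Q11 c11 (k := 6) (b11.trans (by norm_num)) (by norm_num); rw [n11] at t1; have t2 := cnt1 (q := 6) (by norm_num) Q7 c7; rw [n7] at t2; exact fin3 hD (by norm_num) (by norm_num) (by norm_num) t0 t1 t2 (by norm_num)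

set_option maxHeartbeats 4000000 in
lemma c35112 [IsSimpleGroup N] (hnc : ∃ a b : N, a * b ≠ b * a) (hD : Nat.card N = 35112) : False := by
  have hd : Nat.card N ∣ 175560 := by rw [hD]; norm_num
  have h19 : 19 ∣ Nat.card N := by rw [hD]; norm_num
  obtain ⟨Q19⟩ := (inferInstance : Nonempty (Sylow 19 N))
  obtain ⟨s19, c19⟩ := sd_get (q := 18) hnc (by norm_num) (by norm_num) hd h19 h19 Q19
  rw [hD] at s19
  obtain ⟨Q7⟩ := (inferInstance : Nonempty (Sylow 7 N))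
  obtain ⟨s7, c7⟩ := sd_get (q := 6) hnc (by norm_num) (by norm_num) hd h19 (by rw [hD]; norm_num) Q7
  rw [hD] at s7
  obtain ⟨Q11⟩ := (inferInstance : Nonempty (Sylow 11 N))
  obtain ⟨s11, c11⟩ := sd_get (q := 10) hnc (by norm_num) (by norm_num) hd h19 (by rw [hD]; norm_num) Q11
  rw [hD] at s11
  obtain ⟨n19, a19, b19⟩ : Nat.card (Sylow 19 N) = 77 ∧ aa Q19 = 456 ∧ (bb Q19 = 76 ∨ bb Q19 = 152 ∨ bb Q19 = 228) := by
    have o := opt_19_35112 s19
    omega
  have o11 := opt_11_35112 s11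
  have a11 : ¬ 7 ∣ aa Q11 := by
    have : aa Q11 = 264 ∨ aa Q11 = 22 := by omega
    rcases this with h | h <;> rw [h] <;> norm_num
  have h7 := opt_7_35112 s7
  have a7 : aa Q7 = 1596 ∨ aa Q7 = 616 ∨ (Nat.card (Sylow 7 N) = 1254 ∧ bb Q7 = 14) := by omega
  rcases a7 with a7 | a7 | ⟨n7, b7⟩
  · exact no_norm Q19 Q7 c19 c7 (by norm_num) (by rw [a19]; norm_num) (by rw [a7]; norm_num)
  · exact no_norm Q11 Q7 c11 c7 (by norm_num) a11 (by rw [a7]; norm_num)
  · rcases o11 with ⟨n11, -, b11⟩ | ⟨n11, -, b11⟩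
    · rcases b19 with b19 | b19 | b19
      · have t0 := cnt (q := 18) (by norm_num) Q19 c19 (k := 4) (b19.trans (by norm_num)) (by norm_num); rw [n19] at t0; have t1 := cnt (q := 10) (by norm_num) Q11 c11 (k := 12) (b11.trans (by norm_num)) (by norm_num); rw [n11] at t1; have t2 := cnt (q := 6) (by norm_num) Q7 c7 (k := 2) (b7.trans (by norm_num)) (by norm_num); rw [n7] at t2; exact fin3 hD (by norm_num) (by norm_num) (by norm_num) t0 t1 t2 (by norm_num)
      · have t0 := cnt (q := 18) (by norm_num) Q19 c19 (k := 8) (b19.trans (by norm_num)) (by norm_num); rw [n19] at t0; have t1 := cnt (q := 10) (by norm_num) Q11 c11 (k := 12) (b11.trans (by norm_num)) (by norm_num); rw [n11] at t1; have t2 := cnt (q := 6) (by norm_num) Q7 c7 (k := 2) (b7.trans (by norm_num)) (by norm_num); rw [n7] at t2; exact fin3 hD (by norm_num) (by norm_num) (by norm_num) t0 t1 t2 (by norm_num)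
      · have t0 := cnt (q := 18) (by norm_num) Q19 c19 (k := 12) (b19.trans (by norm_num)) (by norm_num); rw [n19] at t0; have t1 := cnt (q := 10) (by norm_num) Q11 c11 (k := 12) (b11.trans (by norm_num)) (by norm_num); rw [n11] at t1; have t2 := cnt (q := 6) (by norm_num) Q7 c7 (k := 2) (b7.trans (by norm_num)) (by norm_num); rw [n7] at t2; exact fin3 hD (by norm_num) (by norm_num) (by norm_num) t0 t1 t2 (by norm_num)
    · rcases b19 with b19 | b19 | b19
      · have t0 := cnt (q := 18) (by norm_num) Q19 c19 (k := 4) (b19.trans (by norm_num)) (by norm_num); rw [n19] at t0; have t1 := cnt1 (q := 10) (by norm_num) Q11 c11; rw [n11] at t1; have t2 := cnt (q := 6) (by norm_num) Q7 c7 (k := 2) (b7.trans (by norm_num)) (by norm_num); rw [n7] at t2; exact fin3 hD (by norm_num) (by norm_num) (by norm_num) t0 t1 t2 (by norm_num)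
      · have t0 := cnt (q := 18) (by norm_num) Q19 c19 (k := 8) (b19.trans (by norm_num)) (by norm_num); rw [n19] at t0; have t1 := cnt1 (q := 10) (by norm_num) Q11 c11; rw [n11] at t1; have t2 := cnt (q := 6) (by norm_num) Q7 c7 (k := 2) (b7.trans (by norm_num)) (by norm_num); rw [n7] at t2; exact fin3 hD (by norm_num) (by norm_num) (by norm_num) t0 t1 t2 (by norm_num)
      · have t0 := cnt (q := 18) (by norm_num) Q19 c19 (k := 12) (b19.trans (by norm_num)) (by norm_num); rw [n19] at t0; have t1 := cnt1 (q := 10) (by norm_num) Q11 c11; rw [n11] at t1; have t2 := cnt (q := 6) (by norm_num) Q7 c7 (k := 2) (b7.trans (by norm_num)) (by norm_num); rw [n7] at t2; exact fin3 hD (by norm_num) (by norm_num) (by norm_num) t0 t1 t2 (by norm_num)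

set_option maxHeartbeats 4000000 in
lemma c7980 [IsSimpleGroup N] (hnc : ∃ a b : N, a * b ≠ b * a) (hD : Nat.card N = 7980) : False := by
  have hd : Nat.card N ∣ 175560 := by rw [hD]; norm_num
  have h19 : 19 ∣ Nat.card N := by rw [hD]; norm_num
  obtain ⟨Q19⟩ := (inferInstance : Nonempty (Sylow 19 N))
  obtain ⟨s19, c19⟩ := sd_get (q := 18) hnc (by norm_num) (by norm_num) hd h19 h19 Q19
  rw [hD] at s19
  obtain ⟨Q7⟩ := (inferInstance : Nonempty (Sylow 7 N))
  obtain ⟨s7, c7⟩ := sd_get (q := 6) hnc (by norm_num) (by norm_num) hd h19 (by rw [hD]; norm_num) Q7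
  rw [hD] at s7
  obtain ⟨Q5⟩ := (inferInstance : Nonempty (Sylow 5 N))
  obtain ⟨s5, c5⟩ := sd_get (q := 4) hnc (by norm_num) (by norm_num) hd h19 (by rw [hD]; norm_num) Q5
  rw [hD] at s5
  have h20 := n20 hnc Q19 c19
  obtain ⟨n19, a19, b19⟩ : Nat.card (Sylow 19 N) = 210 ∧ aa Q19 = 38 ∧ bb Q19 = 19 := by
    have o := opt_19_7980 s19
    have : Nat.card (Sylow 19 N) ≠ 20 := by
      intro h
      have := h20 h
      omega
    omega
  have a5 : aa Q5 = 380 ∨ (Nat.card (Sylow 5 N) = 266 ∧ aa Q5 = 30 ∧ bb Q5 = 15) := by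
    have o5 := opt_5_7980 s5
    omega
  rcases a5 with a5 | ⟨n5, a5, b5⟩
  · exact no_norm Q19 Q5 c19 c5 (by norm_num) (by rw [a19]; norm_num) (by rw [a5]; norm_num)
  · have a7 : aa Q7 = 140 ∨ Nat.card (Sylow 7 N) = 190 := by
      have o7 := opt_7_7980 s7
      omega
    rcases a7 with a7 | n7
    · exact no_norm Q5 Q7 c5 c7 (by norm_num) (by rw [a5]; norm_num) (by rw [a7]; norm_num)
    · have t0 := cnt1 (q := 18) (by norm_num) Q19 c19; rw [n19] at t0; have t1 := cnt1 (q := 6) (by norm_num) Q7 c7; rw [n7] at t1; have t2 := cnt (q := 4) (by norm_num) Q5 c5 (k := 3) (b5.trans (by norm_num)) (by norm_num); rw [n5] at t2; exact fin3 hD (by norm_num) (by norm_num) (by norm_num) t0 t1 t2 (by norm_num)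

set_option maxHeartbeats 4000000 in
lemma c58520 [IsSimpleGroup N] (hnc : ∃ a b : N, a * b ≠ b * a) (hD : Nat.card N = 58520) : False := by
  have hd : Nat.card N ∣ 175560 := by rw [hD]; norm_num
  have h19 : 19 ∣ Nat.card N := by rw [hD]; norm_num
  obtain ⟨Q19⟩ := (inferInstance : Nonempty (Sylow 19 N))
  obtain ⟨s19, c19⟩ := sd_get (q := 18) hnc (by norm_num) (by norm_num) hd h19 h19 Q19
  rw [hD] at s19
  obtain ⟨Q7⟩ := (inferInstance : Nonempty (Sylow 7 N))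
  obtain ⟨s7, c7⟩ := sd_get (q := 6) hnc (by norm_num) (by norm_num) hd h19 (by rw [hD]; norm_num) Q7
  rw [hD] at s7
  obtain ⟨Q5⟩ := (inferInstance : Nonempty (Sylow 5 N))
  obtain ⟨s5, c5⟩ := sd_get (q := 4) hnc (by norm_num) (by norm_num) hd h19 (by rw [hD]; norm_num) Q5
  rw [hD] at s5
  obtain ⟨Q11⟩ := (inferInstance : Nonempty (Sylow 11 N))
  obtain ⟨s11, c11⟩ := sd_get (q := 10) hnc (by norm_num) (by norm_num) hd h19 (by rw [hD]; norm_num) Q11
  rw [hD] at s11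
  have h20 := n20 hnc Q19 c19
  have hr : bb Q19 = 380 ∨ (Nat.card (Sylow 19 N) = 1540 ∧ aa Q19 = 38 ∧ bb Q19 = 19) := by
    have o := opt_19_58520 s19
    have : Nat.card (Sylow 19 N) ≠ 20 := by
      intro h
      have := h20 h
      omega
    omega
  rcases hr with b19 | ⟨n19, a19, b19⟩
  · have h := edge_transfer Q19 Q5 c19 c5 (by rw [b19]; norm_num)
    have hb5 : bb Q5 = 385 ∨ bb Q5 = 55 ∨ bb Q5 = 110 ∨ bb Q5 = 35 ∨ bb Q5 = 5 ∨ bb Q5 = 10 := by
      have o5 := opt_5_58520 s5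
      omega
    rcases hb5 with e | e | e | e | e | e <;> rw [e] at h <;> norm_num at h
  · have a11 : aa Q11 = 1045 ∨ (Nat.card (Sylow 11 N) = 133 ∧ aa Q11 = 440 ∧ (bb Q11 = 44 ∨ bb Q11 = 88 ∨ bb Q11 = 220)) := by
      have o11 := opt_11_58520 s11
      omega
    rcases a11 with a11 | ⟨n11, a11, b11⟩
    · exact no_norm Q19 Q11 c19 c11 (by norm_num) (by rw [a19]; norm_num) (by rw [a11]; norm_num)
    · have a7 : aa Q7 = 2660 ∨ aa Q7 = 308 ∨ (Nat.card (Sylow 7 N) = 4180 ∧ aa Q7 = 14) := by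
        have o7 := opt_7_58520 s7
        omega
      rcases a7 with a7 | a7 | ⟨n7, a7⟩
      · exact no_norm Q19 Q7 c19 c7 (by norm_num) (by rw [a19]; norm_num) (by rw [a7]; norm_num)
      · exact no_norm Q11 Q7 c11 c7 (by norm_num) (by rw [a11]; norm_num) (by rw [a7]; norm_num)
      · have a5 : aa Q5 = 770 ∨ aa Q5 = 70 ∨ (Nat.card (Sylow 5 N) = 266 ∨ Nat.card (Sylow 5 N) = 2926) := by
          have o5 := opt_5_58520 s5
          omega
        rcases a5 with a5 | a5 | n5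
        · exact no_norm Q7 Q5 c7 c5 (by norm_num) (by rw [a7]; norm_num) (by rw [a5]; norm_num)
        · exact no_norm Q7 Q5 c7 c5 (by norm_num) (by rw [a7]; norm_num) (by rw [a5]; norm_num)
        · have t5 : 1064 ≤ Nat.card (DD N 5 1) := by
            have t := cnt1 (q := 4) (by norm_num) Q5 c5
            omega
          rcases b11 with b11 | b11 | b11
          · have t0 := cnt1 (q := 18) (by norm_num) Q19 c19; rw [n19] at t0; have t1 := cnt1 (q := 6) (by norm_num) Q7 c7; rw [n7] at t1; have t2 := cnt (q := 10) (by norm_num) Q11 c11 (k := 4) (b11.trans (by norm_num)) (by norm_num); rw [n11] at t2; exact fin4 hD (by norm_num) (by norm_num) (by norm_num) (by norm_num) (by norm_num) (by norm_num) t0 t1 t2 t5 (by norm_num)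
          · have t0 := cnt1 (q := 18) (by norm_num) Q19 c19; rw [n19] at t0; have t1 := cnt1 (q := 6) (by norm_num) Q7 c7; rw [n7] at t1; have t2 := cnt (q := 10) (by norm_num) Q11 c11 (k := 8) (b11.trans (by norm_num)) (by norm_num); rw [n11] at t2; exact fin4 hD (by norm_num) (by norm_num) (by norm_num) (by norm_num) (by norm_num) (by norm_num) t0 t1 t2 t5 (by norm_num)
          · have t0 := cnt1 (q := 18) (by norm_num) Q19 c19; rw [n19] at t0; have t1 := cnt1 (q := 6) (by norm_num) Q7 c7; rw [n7] at t1; have t2 := cnt (q := 10) (by norm_num) Q11 c11 (k := 20) (b11.trans (by norm_num)) (by norm_num); rw [n11] at t2; exact fin4 hD (by norm_num) (by norm_num) (by norm_num) (by norm_num) (by norm_num) (by norm_num) t0 t1 t2 t5 (by norm_num)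

set_option maxHeartbeats 4000000 in
lemma c87780 [IsSimpleGroup N] (hnc : ∃ a b : N, a * b ≠ b * a) (hD : Nat.card N = 87780) : False := by
  have hd : Nat.card N ∣ 175560 := by rw [hD]; norm_num
  have h19 : 19 ∣ Nat.card N := by rw [hD]; norm_num
  obtain ⟨Q19⟩ := (inferInstance : Nonempty (Sylow 19 N))
  obtain ⟨s19, c19⟩ := sd_get (q := 18) hnc (by norm_num) (by norm_num) hd h19 h19 Q19
  rw [hD] at s19
  obtain ⟨Q7⟩ := (inferInstance : Nonempty (Sylow 7 N))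
  obtain ⟨s7, c7⟩ := sd_get (q := 6) hnc (by norm_num) (by norm_num) hd h19 (by rw [hD]; norm_num) Q7
  rw [hD] at s7
  obtain ⟨Q5⟩ := (inferInstance : Nonempty (Sylow 5 N))
  obtain ⟨s5, c5⟩ := sd_get (q := 4) hnc (by norm_num) (by norm_num) hd h19 (by rw [hD]; norm_num) Q5
  rw [hD] at s5
  obtain ⟨Q11⟩ := (inferInstance : Nonempty (Sylow 11 N))
  obtain ⟨s11, c11⟩ := sd_get (q := 10) hnc (by norm_num) (by norm_num) hd h19 (by rw [hD]; norm_num) Q11
  rw [hD] at s11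
  have h20 := n20 hnc Q19 c19
  have hr : (Nat.card (Sylow 19 N) = 77 ∧ aa Q19 = 1140 ∧ (bb Q19 = 380 ∨ bb Q19 = 190 ∨ bb Q19 = 570)) ∨ (Nat.card (Sylow 19 N) = 210 ∧ aa Q19 = 418 ∧ bb Q19 = 209) ∨ (Nat.card (Sylow 19 N) = 1540 ∧ aa Q19 = 57 ∧ bb Q19 = 19) := by
    have o := opt_19_87780 s19
    have : Nat.card (Sylow 19 N) ≠ 20 := by
      intro h
      have := h20 h
      omega
    omega
  rcases hr with ⟨n19, a19, b19 | b19⟩ | ⟨n19, a19, b19⟩ | ⟨n19, a19, b19⟩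
  · exact hSyl5 hnc hD Q19 c19 n19 a19 b19
  · exact hV4 hnc hD Q19 c19 n19 a19 b19
  · -- n = 210
    have h := edge_transfer Q19 Q11 c19 c11 (by rw [b19]; norm_num)
    have a11 : aa Q11 = 418 := by
      have o11 := opt_11_87780 s11
      have hb11 : bb Q11 = 66 ∨ bb Q11 = 132 ∨ bb Q11 = 330 ∨ (bb Q11 = 209 ∧ aa Q11 = 418) ∨ bb Q11 = 11 := by omega
      clear o11
      rcases hb11 with e | e | e | ⟨-, e⟩ | e
      · rw [e] at h; norm_num at h
      · rw [e] at h; norm_num at h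
      · rw [e] at h; norm_num at h
      · exact e
      · rw [e] at h; norm_num at h
    have a5 : aa Q5 = 4180 ∨ aa Q5 = 1330 ∨ aa Q5 = 380 ∨ aa Q5 = 330 ∨ (Nat.card (Sylow 5 N) = 2926 ∧ aa Q5 = 30 ∧ bb Q5 = 15) := by
      have o5 := opt_5_87780 s5
      omega
    rcases a5 with a5 | a5 | a5 | a5 | ⟨n5, a5, b5⟩
    · exact no_norm Q19 Q5 c19 c5 (by norm_num) (by rw [a19]; norm_num) (by rw [a5]; norm_num)
    · exact no_norm Q19 Q5 c19 c5 (by norm_num) (by rw [a19]; norm_num) (by rw [a5]; norm_num)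
    · exact no_norm Q19 Q5 c19 c5 (by norm_num) (by rw [a19]; norm_num) (by rw [a5]; norm_num)
    · exact no_norm Q11 Q5 c11 c5 (by norm_num) (by rw [a11]; norm_num) (by rw [a5]; norm_num)
    · have a7 : aa Q7 = 3990 ∨ aa Q7 = 1540 ∨ aa Q7 = 462 ∨ aa Q7 = 266 ∨ aa Q7 = 70 ∨ (Nat.card (Sylow 7 N) = 4180 ∧ aa Q7 = 21) := by
        have o7 := opt_7_87780 s7
        omega
      rcases a7 with a7 | a7 | a7 | a7 | a7 | ⟨n7, a7⟩
      · exact no_norm Q19 Q7 c19 c7 (by norm_num) (by rw [a19]; norm_num) (by rw [a7]; norm_num)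
      · exact no_norm Q11 Q7 c11 c7 (by norm_num) (by rw [a11]; norm_num) (by rw [a7]; norm_num)
      · exact no_norm Q11 Q7 c11 c7 (by norm_num) (by rw [a11]; norm_num) (by rw [a7]; norm_num)
      · exact no_norm Q19 Q7 c19 c7 (by norm_num) (by rw [a19]; norm_num) (by rw [a7]; norm_num)
      · exact no_norm Q5 Q7 c5 c7 (by norm_num) (by rw [a5]; norm_num) (by rw [a7]; norm_num)
      · have t0 := cnt (q := 18) (by norm_num) Q19 c19 (k := 11) (b19.trans (by norm_num)) (by norm_num); rw [n19] at t0; have t1 := cnt1 (q := 6) (by norm_num) Q7 c7; rw [n7] at t1; have t2 := cnt (q := 4) (by norm_num) Q5 c5 (k := 3) (b5.trans (by norm_num)) (by norm_num); rw [n5] at t2; exact fin3 hD (by norm_num) (by norm_num) (by norm_num) t0 t1 t2 (by norm_num)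
  · -- n = 1540
    have a5 : aa Q5 = 4180 ∨ aa Q5 = 1330 ∨ aa Q5 = 380 ∨ (Nat.card (Sylow 5 N) = 266 ∧ aa Q5 = 330 ∧ bb Q5 = 165) ∨ (Nat.card (Sylow 5 N) = 2926 ∧ aa Q5 = 30 ∧ bb Q5 = 15) := by
      have o5 := opt_5_87780 s5
      omega
    have a11 : aa Q11 = 418 ∨ aa Q11 = 660 ∨ aa Q11 = 55 := by
      have o11 := opt_11_87780 s11
      omega
    have h7a : ¬ 7 ∣ aa Q11 := by
      have h : ¬ 19 ∣ aa Q11 := no_norm Q19 Q11 c19 c11 (by norm_num) (by rw [a19]; norm_num)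
      rcases a11 with e | e | e
      · exact absurd (by rw [e]; norm_num) h
      · rw [e]; norm_num
      · rw [e]; norm_num
    rcases a5 with a5 | a5 | a5 | ⟨n5, a5, b5⟩ | ⟨n5, a5, b5⟩
    · exact no_norm Q19 Q5 c19 c5 (by norm_num) (by rw [a19]; norm_num) (by rw [a5]; norm_num)
    · exact no_norm Q19 Q5 c19 c5 (by norm_num) (by rw [a19]; norm_num) (by rw [a5]; norm_num)
    · exact no_norm Q19 Q5 c19 c5 (by norm_num) (by rw [a19]; norm_num) (by rw [a5]; norm_num)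
    · have a7 : aa Q7 = 3990 ∨ aa Q7 = 1540 ∨ aa Q7 = 462 ∨ aa Q7 = 266 ∨ aa Q7 = 70 ∨ (Nat.card (Sylow 7 N) = 4180 ∧ aa Q7 = 21) := by
        have o7 := opt_7_87780 s7
        omega
      rcases a7 with a7 | a7 | a7 | a7 | a7 | ⟨n7, a7⟩
      · exact no_norm Q19 Q7 c19 c7 (by norm_num) (by rw [a19]; norm_num) (by rw [a7]; norm_num)
      · exact no_norm Q11 Q7 c11 c7 (by norm_num) h7a (by rw [a7]; norm_num)
      · exact no_norm Q11 Q7 c11 c7 (by norm_num) h7a (by rw [a7]; norm_num)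
      · exact no_norm Q19 Q7 c19 c7 (by norm_num) (by rw [a19]; norm_num) (by rw [a7]; norm_num)
      · exact no_norm Q5 Q7 c5 c7 (by norm_num) (by rw [a5]; norm_num) (by rw [a7]; norm_num)
      · have t0 := cnt1 (q := 18) (by norm_num) Q19 c19; rw [n19] at t0; have t1 := cnt1 (q := 6) (by norm_num) Q7 c7; rw [n7] at t1; have t2 := cnt (q := 4) (by norm_num) Q5 c5 (k := 33) (b5.trans (by norm_num)) (by norm_num); rw [n5] at t2; exact fin3 hD (by norm_num) (by norm_num) (by norm_num) t0 t1 t2 (by norm_num)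
    · have a7 : aa Q7 = 3990 ∨ aa Q7 = 1540 ∨ aa Q7 = 462 ∨ aa Q7 = 266 ∨ aa Q7 = 70 ∨ (Nat.card (Sylow 7 N) = 4180 ∧ aa Q7 = 21) := by
        have o7 := opt_7_87780 s7
        omega
      rcases a7 with a7 | a7 | a7 | a7 | a7 | ⟨n7, a7⟩
      · exact no_norm Q19 Q7 c19 c7 (by norm_num) (by rw [a19]; norm_num) (by rw [a7]; norm_num)
      · exact no_norm Q11 Q7 c11 c7 (by norm_num) h7a (by rw [a7]; norm_num)
      · exact no_norm Q11 Q7 c11 c7 (by norm_num) h7a (by rw [a7]; norm_num)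
      · exact no_norm Q19 Q7 c19 c7 (by norm_num) (by rw [a19]; norm_num) (by rw [a7]; norm_num)
      · exact no_norm Q5 Q7 c5 c7 (by norm_num) (by rw [a5]; norm_num) (by rw [a7]; norm_num)
      · have t0 := cnt1 (q := 18) (by norm_num) Q19 c19; rw [n19] at t0; have t1 := cnt1 (q := 6) (by norm_num) Q7 c7; rw [n7] at t1; have t2 := cnt (q := 4) (by norm_num) Q5 c5 (k := 3) (b5.trans (by norm_num)) (by norm_num); rw [n5] at t2; exact fin3 hD (by norm_num) (by norm_num) (by norm_num) t0 t1 t2 (by norm_num)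

set_option maxHeartbeats 4000000 in
lemma c15960 [IsSimpleGroup N] (hnc : ∃ a b : N, a * b ≠ b * a) (hD : Nat.card N = 15960) : False := by
  have hd : Nat.card N ∣ 175560 := by rw [hD]; norm_num
  have h19 : 19 ∣ Nat.card N := by rw [hD]; norm_num
  obtain ⟨Q19⟩ := (inferInstance : Nonempty (Sylow 19 N))
  obtain ⟨s19, c19⟩ := sd_get (q := 18) hnc (by norm_num) (by norm_num) hd h19 h19 Q19
  rw [hD] at s19
  have h20 := n20 hnc Q19 c19
  have o := opt_19_15960 s19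
  have : Nat.card (Sylow 19 N) ≠ 20 := by
    intro h
    have := h20 h
    omega
  have hr : Nat.card (Sylow 19 N) = 210 ∧ aa Q19 = 76 ∧ bb Q19 = 38 := by omega
  exact h15960 hnc hD Q19 c19 hr.1 hr.2.1 hr.2.2

set_option maxHeartbeats 4000000 in
theorem T19 [IsSimpleGroup N] (hnc : ∃ a b : N, a * b ≠ b * a) (hd : Nat.card N ∣ 175560)
    (h19 : 19 ∣ Nat.card N) (hne : Nat.card N ≠ 175560) : False := by
  have h4 := four_dvd hnc hd
  have hm := dvl_175560 _ hd
  have hc : Nat.card N ∈ [76, 152, 228, 380, 456, 532, 760, 836, 1064, 1140, 1596, 1672, 2280, 2508, 2660, 3192, 4180, 5016, 5320, 5852, 7980, 8360, 11704, 12540, 15960, 17556, 25080, 29260, 35112, 58520, 87780] :=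
    (by decide : ∀ x ∈ [1, 2, 3, 4, 5, 6, 7, 8, 10, 11, 12, 14, 15, 19, 20, 21, 22, 24, 28, 30, 33, 35, 38, 40, 42, 44, 55, 56, 57, 60, 66, 70, 76, 77, 84, 88, 95, 105, 110, 114, 120, 132, 133, 140, 152, 154, 165, 168, 190, 209, 210, 220, 228, 231, 264, 266, 280, 285, 308, 330, 380, 385, 399, 418, 420, 440, 456, 462, 532, 570, 616, 627, 660, 665, 760, 770, 798, 836, 840, 924, 1045, 1064, 1140, 1155, 1254, 1320, 1330, 1463, 1540, 1596, 1672, 1848, 1995, 2090, 2280, 2310, 2508, 2660, 2926, 3080, 3135, 3192, 3990, 4180, 4389, 4620, 5016, 5320, 5852, 6270, 7315, 7980, 8360, 8778, 9240, 11704, 12540, 14630, 15960, 17556, 21945, 25080, 29260, 35112, 43890, 58520, 87780, 175560], 4 ∣ x → 19 ∣ x → x ≠ 175560 → x ∈ [76, 152, 228, 380, 456, 532, 760, 836, 1064, 1140, 1596, 1672, 2280, 2508, 2660, 3192, 4180, 5016, 5320, 5852, 7980, 8360, 11704, 12540, 15960, 17556, 25080, 29260, 35112, 58520, 87780]) _ hm h4 h19 hne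
  simp only [List.mem_cons, List.not_mem_nil, or_false] at hc
  rcases hc with h | h | h | h | h | h | h | h | h | h | h | h | h | h | h | h | h | h | h | h | h | h | h | h | h | h | h | h | h | h | h
  · exact c76 hnc h
  · exact c152 hnc h
  · exact c228 hnc h
  · exact c380 hnc h
  · exact c456 hnc h
  · exact c532 hnc h
  · exact c760 hnc h
  · exact c836 hnc h
  · exact c1064 hnc h
  · exact c1140 hnc h
  · exact c1596 hnc h
  · exact c1672 hnc h
  · exact c2280 hnc h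
  · exact c2508 hnc h
  · exact c2660 hnc h
  · exact c3192 hnc h
  · exact c4180 hnc h
  · exact c5016 hnc h
  · exact c5320 hnc h
  · exact c5852 hnc h
  · exact c7980 hnc h
  · exact c8360 hnc h
  · exact c11704 hnc h
  · exact c12540 hnc h
  · exact c15960 hnc h
  · exact c17556 hnc h
  · exact c25080 hnc h
  · exact c29260 hnc h
  · exact c35112 hnc h
  · exact c58520 hnc h
  · exact c87780 hnc h

end
end X19


namespace X19
open Subgroup
open Cfsg.Agent.S2490.X (sign_invol bt sign_triv comm_of_prime norm_dvd comm_of_coprime_aut free_dvd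
  conj_free_dvd card_syl edge_of_commute le_zpowers_of_prime index_dvd_of_sup)

attribute [local instance] f19 f11 f7 f5
open scoped Pointwise

lemma prime9240 {p : ℕ} (hp : p.Prime) (h : p ∣ 9240) :
    p = 2 ∨ p = 3 ∨ p = 5 ∨ p = 7 ∨ p = 11 := by
  have : 9240 = 2 ^ 3 * 3 * 5 * 7 * 11 := by norm_num
  rw [this] at h
  simp only [Nat.Prime.dvd_mul hp] at h
  rcases h with (((h | h) | h) | h) | h
  · left; exact (Nat.prime_dvd_prime_iff_eq hp (by norm_num)).1 (hp.dvd_of_dvd_pow h)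
  · right; left; exact (Nat.prime_dvd_prime_iff_eq hp (by norm_num)).1 h
  · right; right; left; exact (Nat.prime_dvd_prime_iff_eq hp (by norm_num)).1 h
  · right; right; right; left; exact (Nat.prime_dvd_prime_iff_eq hp (by norm_num)).1 h
  · right; right; right; right; exact (Nat.prime_dvd_prime_iff_eq hp (by norm_num)).1 h

lemma coprime_fix19 {Q U : Type*} [Group Q] [Group U] [Finite Q] [Finite U]
    [MulDistribMulAction Q U] (hQ : Nat.card Q = 19) (hU : Nat.card U ∣ 9240) :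
    ∀ (q : Q) (u : U), q • u = u := by
  classical
  have hQp : IsPGroup 19 Q := IsPGroup.of_card (n := 1) (by simpa using hQ)
  let F : Subgroup U :=
    { carrier := {u | ∀ q : Q, q • u = u}
      mul_mem' := by
        intro a b ha hb q
        rw [smul_mul', ha q, hb q]
      one_mem' := by
        intro q
        rw [smul_one]
      inv_mem' := by
        intro a ha q
        rw [smul_inv', ha q] }
  have hF : ∀ (p : ℕ), p.Prime → p ∣ Nat.card U → p ^ (Nat.card U).factorization p ∣ Nat.card F := by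
    intro p hp hpU
    haveI : Fact p.Prime := ⟨hp⟩
    have hp3 := prime9240 hp (hpU.trans hU)
    -- an invariant Sylow
    have hnd : ¬ 19 ∣ Nat.card (Sylow p U) := by
      intro h
      obtain ⟨P⟩ := (inferInstance : Nonempty (Sylow p U))
      have h1 := P.card_eq_index_normalizer
      have h2 : (normalizer ((P : Subgroup U) : Set U)).index ∣ Nat.card U := Subgroup.index_dvd_card _
      rw [h1] at h
      have := (h.trans h2).trans hU
      norm_num at this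
    obtain ⟨P, hP⟩ := hQp.nonempty_fixed_point_of_prime_not_dvd_card (Sylow p U) hnd
    have hP' : ∀ (q : Q), ∀ x ∈ (P : Subgroup U), q • x ∈ (P : Subgroup U) := by
      intro q x hx
      have h1 : q • P = P := hP q
      have h2 : q • x ∈ q • (P : Subgroup U) := Subgroup.smul_mem_pointwise_smul x q _ hx
      rw [← Sylow.pointwise_smul_def, h1] at h2
      exact h2
    let S : SubMulAction Q U := { carrier := (P : Subgroup U), smul_mem' := fun q x hx => hP' q x hx }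
    have hmod := hQp.card_modEq_card_fixedPoints S
    -- fixed points form `F ⊓ P`
    have hfp : Nat.card (MulAction.fixedPoints Q S) = Nat.card (F ⊓ (P : Subgroup U) : Subgroup U) := by
      apply Nat.card_congr
      exact
        { toFun := fun x => ⟨x.1.1, ⟨fun q => congrArg Subtype.val (x.2 q), x.1.2⟩⟩
          invFun := fun x => ⟨⟨x.1, x.2.2⟩, fun q => Subtype.ext (x.2.1 q)⟩
          left_inv := fun x => rfl
          right_inv := fun x => rfl }
    have hcS : Nat.card S = Nat.card (P : Subgroup U) := rfl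
    rw [hfp, hcS] at hmod
    obtain ⟨m, hm⟩ := IsPGroup.iff_card.1 P.2
    have hle : (F ⊓ (P : Subgroup U) : Subgroup U) ≤ (P : Subgroup U) := inf_le_right
    have hdv := Subgroup.card_dvd_of_le hle
    rw [hm] at hdv hmod
    obtain ⟨j, hj, hj2⟩ := (Nat.dvd_prime_pow hp).1 hdv
    rw [hj2] at hmod
    have hPU : p ^ m ∣ 9240 := by
      rw [← hm]; exact (Subgroup.card_subgroup_dvd_card _).trans hU
    have hjm : j = m := by
      have hmod' : p ^ m % 19 = p ^ j % 19 := hmod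
      rcases hp3 with rfl | rfl | rfl | rfl | rfl
      · have hm4 : m ≤ 3 := by
          by_contra hlt
          have : 2 ^ 4 ∣ 2 ^ m := pow_dvd_pow 2 (by omega)
          have := this.trans hPU
          norm_num at this
        interval_cases m <;> interval_cases j <;> first | rfl | (exfalso; revert hmod'; norm_num)
      · have hm2 : m ≤ 1 := by
          by_contra hlt
          have : 3 ^ 2 ∣ 3 ^ m := pow_dvd_pow 3 (by omega)
          have := this.trans hPU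
          norm_num at this
        interval_cases m <;> interval_cases j <;> first | rfl | (exfalso; revert hmod'; norm_num)
      · have hm1 : m ≤ 1 := by
          by_contra hlt
          have : 5 ^ 2 ∣ 5 ^ m := pow_dvd_pow 5 (by omega)
          have := this.trans hPU
          norm_num at this
        interval_cases m <;> interval_cases j <;> first | rfl | (exfalso; revert hmod'; norm_num)
      · have hm1 : m ≤ 1 := by
          by_contra hlt
          have : 7 ^ 2 ∣ 7 ^ m := pow_dvd_pow 7 (by omega)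
          have := this.trans hPU
          norm_num at this
        interval_cases m <;> interval_cases j <;> first | rfl | (exfalso; revert hmod'; norm_num)
      · have hm1 : m ≤ 1 := by
          by_contra hlt
          have : 11 ^ 2 ∣ 11 ^ m := pow_dvd_pow 11 (by omega)
          have := this.trans hPU
          norm_num at this
        interval_cases m <;> interval_cases j <;> first | rfl | (exfalso; revert hmod'; norm_num)
    have hPF : (P : Subgroup U) ≤ F := by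
      have : (F ⊓ (P : Subgroup U) : Subgroup U) = (P : Subgroup U) :=
        Subgroup.eq_of_le_of_card_ge hle (by rw [hm, hj2, hjm])
      rw [← this]; exact inf_le_left
    have h1 := Subgroup.card_dvd_of_le hPF
    have h2 := P.card_eq_multiplicity
    rwa [h2] at h1
  have hdvd : Nat.card U ∣ Nat.card F := by
    apply (Nat.factorization_prime_le_iff_dvd Nat.card_pos.ne' Nat.card_pos.ne').1
    intro p hp
    by_cases hpU : p ∣ Nat.card U
    · exact (hp.pow_dvd_iff_le_factorization Nat.card_pos.ne').1 (hF p hp hpU)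
    · rw [Nat.factorization_eq_zero_of_not_dvd hpU]; exact Nat.zero_le _
  have htop : F = ⊤ := by
    apply Subgroup.eq_top_of_card_eq
    exact Nat.dvd_antisymm (Subgroup.card_subgroup_dvd_card _) hdvd
  intro q u
  have : u ∈ F := by rw [htop]; trivial
  exact this q

lemma Qcentral19 {G : Type*} [Group G] [Finite G] (Q U : Subgroup G) (hQ : Nat.card Q = 19)
    (hN : Q ≤ normalizer (U : Set G)) (hU : Nat.card U ∣ 9240) :
    ∀ q ∈ Q, ∀ u ∈ U, q * u = u * q := by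
  letI : MulDistribMulAction Q U :=
    MulDistribMulAction.compHom U (U.normalizerMonoidHom.comp (Subgroup.inclusion hN))
  intro q hq u hu
  have h := coprime_fix19 (Q := Q) (U := U) hQ hU ⟨q, hq⟩ ⟨u, hu⟩
  have h' : q * u * q⁻¹ = u := congrArg Subtype.val h
  exact mul_inv_eq_iff_eq_mul.1 h'

section fin
variable {G : Type*} [Group G] [Finite G]

lemma normal_of_ab (hord : Nat.card G = 175560) (M : Subgroup G) (hMn : M.Normal)
    (hminle : ∀ M' : Subgroup G, M'.Normal → 19 ∣ Nat.card M' → M' ≤ M → M' = M)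
    (hcomm : ∀ x ∈ M, ∀ y ∈ M, x * y = y * x) (h19 : 19 ∣ Nat.card M) :
    ∀ P : Sylow 19 G, (P : Subgroup G).Normal := by
  classical
  let E : Subgroup G :=
    { carrier := {x | x ∈ M ∧ x ^ 19 = 1}
      mul_mem' := by
        rintro a b ⟨ha, ha'⟩ ⟨hb, hb'⟩
        refine ⟨M.mul_mem ha hb, ?_⟩
        have hc : Commute a b := hcomm a ha b hb
        rw [hc.mul_pow, ha', hb', one_mul]
      one_mem' := ⟨M.one_mem, one_pow _⟩
      inv_mem' := by
        rintro a ⟨ha, ha'⟩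
        exact ⟨M.inv_mem ha, by rw [inv_pow, ha', inv_one]⟩ }
  have hEn : E.Normal := by
    constructor
    rintro a ⟨ha, ha'⟩ g
    exact ⟨hMn.conj_mem a ha g, by rw [conj_pow, ha', mul_one, mul_inv_cancel]⟩
  obtain ⟨z0, hz0⟩ := exists_prime_orderOf_dvd_card' (G := M) 19 h19
  have hzE : (z0 : G) ∈ E := by
    refine ⟨z0.2, ?_⟩
    have := pow_orderOf_eq_one z0
    rw [hz0] at this
    simpa [Subtype.ext_iff] using this
  have hE19 : 19 ∣ Nat.card E := by
    have := orderOf_dvd_natCard (⟨(z0 : G), hzE⟩ : E)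
    rwa [Subgroup.orderOf_mk, Subgroup.orderOf_coe, hz0] at this
  have hEM : E = M := hminle E hEn hE19 (fun x hx => hx.1)
  have hMp : IsPGroup 19 M := by
    intro x
    have : (x : G) ∈ E := by rw [hEM]; exact x.2
    refine ⟨1, ?_⟩
    apply Subtype.ext
    simpa using this.2
  obtain ⟨k, hk⟩ := IsPGroup.iff_card.1 hMp
  have hMd : Nat.card M ∣ 175560 := by
    rw [← hord]; exact Subgroup.card_subgroup_dvd_card _
  have hk1 : k = 1 := by
    rw [hk] at hMd h19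
    have hk0 : k ≠ 0 := by
      rintro rfl
      norm_num at h19
    have hk2 : k < 2 := by
      by_contra hlt
      have : 19 ^ 2 ∣ 19 ^ k := pow_dvd_pow 19 (by omega)
      have := this.trans hMd
      norm_num at this
    omega
  have hMc : Nat.card M = 19 := by rw [hk, hk1]; norm_num
  obtain ⟨P0, hP0⟩ := hMp.exists_le_sylow
  have hP0c : Nat.card (P0 : Subgroup G) = 19 :=
    card_syl (B := 175560) (by norm_num) (by rw [hord]) (by rw [hord]; norm_num) P0
  have hP0eq : (P0 : Subgroup G) = M := by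
    symm
    apply Subgroup.eq_of_le_of_card_ge hP0
    rw [hP0c, hMc]
  have hn : (P0 : Subgroup G).Normal := by rw [hP0eq]; exact hMn
  letI := Sylow.unique_of_normal P0 hn
  intro P
  rw [Subsingleton.elim P P0]
  exact hn

theorem main19 (hord : Nat.card G = 175560) :
    IsSimpleGroup G ∨ ∀ P : Sylow 19 G, (P : Subgroup G).Normal := by
  classical
  let S : Set (Subgroup G) := {M | M.Normal ∧ 19 ∣ Nat.card M}
  have hS : S.Nonempty := ⟨⊤, ⟨inferInstance, by rw [Subgroup.card_top, hord]; norm_num⟩⟩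
  obtain ⟨M, ⟨hMn, hM19⟩, hmin⟩ := Set.exists_min_image S (fun M => Nat.card M) (Set.toFinite S) hS
  haveI := hMn
  have hminle : ∀ M' : Subgroup G, M'.Normal → 19 ∣ Nat.card M' → M' ≤ M → M' = M := by
    intro M' h1 h2 h3
    exact Subgroup.eq_of_le_of_card_ge h3 (hmin M' ⟨h1, h2⟩)
  by_cases hMab : ∀ x ∈ M, ∀ y ∈ M, x * y = y * x
  · right
    exact normal_of_ab hord M hMn hminle hMab hM19
  left
  have hclos : ∀ z ∈ M, orderOf z = 19 → normalClosure ({z} : Set G) = M := by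
    intro z hz ho
    apply hminle _ inferInstance
    · rw [← ho]
      have hz' : z ∈ normalClosure ({z} : Set G) := subset_normalClosure (Set.mem_singleton z)
      have := orderOf_dvd_natCard (⟨z, hz'⟩ : normalClosure ({z} : Set G))
      rwa [Subgroup.orderOf_mk] at this
    · exact normalClosure_le_normal (by simpa using hz)
  have hMd : Nat.card M ∣ 175560 := by
    rw [← hord]; exact Subgroup.card_subgroup_dvd_card _
  obtain ⟨z0, hz0⟩ := exists_prime_orderOf_dvd_card' (G := M) 19 hM19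
  have hz0M : (z0 : G) ∈ M := z0.2
  have hz0o : orderOf (z0 : G) = 19 := by rw [Subgroup.orderOf_coe, hz0]
  have hMnc : ∃ a b : M, a * b ≠ b * a := by
    by_contra hcontra
    push Not at hcontra
    apply hMab
    intro x hx y hy
    exact congrArg Subtype.val (hcontra ⟨x, hx⟩ ⟨y, hy⟩)
  set ZG := M ⊓ centralizer (M : Set G) with hZG
  have hZGn : ZG.Normal := inferInstance
  have hZ19 : ¬ 19 ∣ Nat.card ZG := by
    intro h
    have := hminle ZG hZGn h inf_le_left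
    apply hMab
    intro x hx y hy
    have hy' : y ∈ ZG := by rw [this]; exact hy
    exact Subgroup.mem_centralizer_iff.1 hy'.2 x hx
  have hMs : ∀ H : Subgroup M, H.Normal → H = ⊤ ∨ H.map M.subtype ≤ ZG := by
    intro H hH
    by_cases h11H : 19 ∣ Nat.card H
    · left
      -- every Sylow 19 of `M` lies in `H`
      obtain ⟨w, hw⟩ := exists_prime_orderOf_dvd_card' (G := H) 19 h11H
      have hwo : orderOf ((w : M) : G) = 19 := by
        rw [Subgroup.orderOf_coe, Subgroup.orderOf_coe, hw]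
      have hwp : IsPGroup 19 (Subgroup.zpowers (w : M)) := by
        apply IsPGroup.of_card (n := 1)
        rw [Nat.card_zpowers, pow_one, Subgroup.orderOf_coe, hw]
      obtain ⟨P0, hP0⟩ := hwp.exists_le_sylow
      have hP0c : Nat.card (P0 : Subgroup M) = 19 := card_syl (B := 175560) (by norm_num) hMd hM19 P0
      have hP0eq : (P0 : Subgroup M) = Subgroup.zpowers (w : M) := by
        symm
        apply Subgroup.eq_of_le_of_card_ge hP0
        rw [hP0c, Nat.card_zpowers, Subgroup.orderOf_coe, hw]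
      have hP0H : (P0 : Subgroup M) ≤ H := by
        rw [hP0eq, Subgroup.zpowers_le]
        exact w.2
      have hallS : ∀ y : M, orderOf y = 19 → y ∈ H := by
        intro y hy
        have hyp : IsPGroup 19 (Subgroup.zpowers y) := by
          apply IsPGroup.of_card (n := 1)
          rw [Nat.card_zpowers, pow_one, hy]
        obtain ⟨P1, hP1⟩ := hyp.exists_le_sylow
        obtain ⟨m, hm⟩ := MulAction.exists_smul_eq M P0 P1
        have hy1 : y ∈ (P1 : Subgroup M) := hP1 (Subgroup.mem_zpowers y)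
        rw [← hm] at hy1
        have hy2 : m⁻¹ * y * m ∈ (P0 : Subgroup M) := by
          rw [Sylow.coe_subgroup_smul] at hy1
          obtain ⟨a, ha, rfl⟩ := hy1
          change m⁻¹ * (m * a * m⁻¹) * m ∈ (P0 : Subgroup M)
          have e : m⁻¹ * (m * a * m⁻¹) * m = a := by group
          rw [e]; exact ha
        have hy3 := hH.conj_mem _ (hP0H hy2) m
        have e : m * (m⁻¹ * y * m) * m⁻¹ = y := by group
        rwa [e] at hy3
      rw [eq_top_iff]
      have hclo := hclos _ ((w : M).2) hwo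
      rintro x -
      have hxc : (x : G) ∈ normalClosure ({((w : M) : G)} : Set G) := by rw [hclo]; exact x.2
      let U : Subgroup G := H.map M.subtype
      have hcl : normalClosure ({((w : M) : G)} : Set G) ≤ U := by
        apply Subgroup.closure_le _ |>.2
        intro y hy
        obtain ⟨a, ha, hconj⟩ := Group.mem_conjugatesOfSet_iff.1 hy
        rw [Set.mem_singleton_iff] at ha
        subst ha
        obtain ⟨c, rfl⟩ := isConj_iff.1 hconj
        have hmem : c * ((w : M) : G) * c⁻¹ ∈ M := hMn.conj_mem _ (w : M).2 c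
        have ho : orderOf (⟨c * ((w : M) : G) * c⁻¹, hmem⟩ : M) = 19 := by
          rw [Subgroup.orderOf_mk]
          have := MulEquiv.orderOf_eq (MulAut.conj c) ((w : M) : G)
          rw [← hwo, ← this]
          rfl
        exact ⟨_, hallS _ ho, rfl⟩
      obtain ⟨x', hx', hxx⟩ := hcl hxc
      have : x' = x := Subtype.ext hxx
      rwa [← this]
    · right
      -- `H` has order coprime to 19
      let U : Subgroup G := H.map M.subtype
      have hUc : Nat.card U = Nat.card H :=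
        (Nat.card_congr (Subgroup.equivMapOfInjective H _ M.subtype_injective).toEquiv).symm
      have hU720 : Nat.card U ∣ 9240 := by
        have h1 : Nat.card U ∣ 175560 := by
          rw [← hord]; exact Subgroup.card_subgroup_dvd_card _
        have hco : Nat.Coprime (Nat.card U) 19 := by
          apply Nat.Coprime.symm
          apply (Nat.Prime.coprime_iff_not_dvd (by norm_num)).2
          rwa [hUc]
        have h2 : Nat.card U ∣ 9240 * 19 := by simpa using h1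
        exact hco.dvd_of_dvd_mul_right h2
      have hUnorm : (U.subgroupOf M).Normal := by
        have : U.subgroupOf M = H := Subgroup.comap_map_eq_self_of_injective M.subtype_injective H
        rw [this]; exact hH
      have hMN : M ≤ normalizer (U : Set G) :=
        Subgroup.le_normalizer_of_normal_subgroupOf (Subgroup.map_subtype_le H)
      have hcen : ∀ y : M, orderOf y = 19 → ∀ u ∈ U, (y : G) * u = u * y := by
        intro y hy u hu
        have hc : Nat.card (Subgroup.zpowers (y : G)) = 19 := by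
          rw [Nat.card_zpowers, Subgroup.orderOf_coe, hy]
        have hN : Subgroup.zpowers (y : G) ≤ normalizer (U : Set G) := by
          rw [Subgroup.zpowers_le]
          exact hMN y.2
        exact Qcentral19 (Subgroup.zpowers (y : G)) U hc hN hU720 _ (Subgroup.mem_zpowers _) u hu
      have hMC : normalClosure ({(z0 : G)} : Set G) ≤ centralizer (U : Set G) := by
        apply Subgroup.closure_le _ |>.2
        intro y hy
        obtain ⟨a, ha, hconj⟩ := Group.mem_conjugatesOfSet_iff.1 hy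
        rw [Set.mem_singleton_iff] at ha
        subst ha
        obtain ⟨c, rfl⟩ := isConj_iff.1 hconj
        have hmem : c * (z0 : G) * c⁻¹ ∈ M := hMn.conj_mem _ z0.2 c
        have ho : orderOf (⟨c * (z0 : G) * c⁻¹, hmem⟩ : M) = 19 := by
          rw [Subgroup.orderOf_mk]
          have := MulEquiv.orderOf_eq (MulAut.conj c) (z0 : G)
          rw [← hz0o, ← this]
          rfl
        apply Subgroup.mem_centralizer_iff.2
        intro u hu
        exact (hcen _ ho u hu).symm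
      rw [hclos _ hz0M hz0o] at hMC
      intro u hu
      refine ⟨Subgroup.map_subtype_le H hu, ?_⟩
      apply Subgroup.mem_centralizer_iff.2
      intro m hm
      exact (Subgroup.mem_centralizer_iff.1 (hMC hm) u hu).symm
  -- the quotient by the centre of `M`
  let Z0 : Subgroup M := Subgroup.center M
  have hZ0G : ∀ x : M, (x : G) ∈ ZG → x ∈ Z0 := by
    intro x hx
    apply Subgroup.mem_center_iff.2
    intro g
    apply Subtype.ext
    exact Subgroup.mem_centralizer_iff.1 hx.2 g g.2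
  have hZ0card : Nat.card Z0 = Nat.card ZG := by
    apply Nat.card_congr
    exact
      { toFun := fun x => ⟨(x.1 : G), ⟨x.1.2, by
          apply Subgroup.mem_centralizer_iff.2
          intro m hm
          exact congrArg Subtype.val (Subgroup.mem_center_iff.1 x.2 ⟨m, hm⟩)⟩⟩
        invFun := fun x => ⟨⟨x.1, x.2.1⟩, hZ0G ⟨x.1, x.2.1⟩ x.2⟩
        left_inv := fun x => rfl
        right_inv := fun x => rfl }
  obtain ⟨a0, b0, hab0⟩ := hMnc
  have ha0 : a0 ∉ Z0 := by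
    intro h
    exact hab0 (by
      have := Subgroup.mem_center_iff.1 h b0
      exact this.symm)
  haveI hSnt : Nontrivial (M ⧸ Z0) := ⟨⟨(a0 : M ⧸ Z0), 1, by
    intro h
    exact ha0 ((QuotientGroup.eq_one_iff a0).1 h)⟩⟩
  haveI hSs : IsSimpleGroup (M ⧸ Z0) := by
    refine ⟨?_⟩
    intro N' hN'
    let H : Subgroup M := N'.comap (QuotientGroup.mk' Z0)
    have hHn : H.Normal := inferInstance
    rcases hMs H hHn with h | h
    · right
      rw [eq_top_iff]
      intro x _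
      obtain ⟨g, rfl⟩ := QuotientGroup.mk_surjective x
      have : g ∈ H := by rw [h]; trivial
      exact this
    · left
      rw [eq_bot_iff]
      intro x hx
      obtain ⟨g, rfl⟩ := QuotientGroup.mk_surjective x
      have hg : g ∈ H := hx
      have hg' : (g : G) ∈ ZG := h ⟨g, hg, rfl⟩
      exact (QuotientGroup.eq_one_iff g).2 (hZ0G g hg')
  have hSnc : ∃ a b : M ⧸ Z0, a * b ≠ b * a := by
    by_contra hc
    push Not at hc
    obtain ⟨x, hx⟩ := exists_ne (1 : M ⧸ Z0)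
    have hzn : (Subgroup.zpowers x).Normal := by
      constructor
      intro n hn g
      rw [hc g n]
      simpa using hn
    have hztop : Subgroup.zpowers x = ⊤ := by
      rcases hzn.eq_bot_or_eq_top with h | h
      · exact absurd (Subgroup.zpowers_eq_bot.1 h) hx
      · exact h
    haveI : IsCyclic (M ⧸ Z0) := ⟨⟨x, fun y => by
      have : y ∈ Subgroup.zpowers x := by rw [hztop]; trivial
      exact this⟩⟩
    apply hab0
    exact commutative_of_cyclic_center_quotient (QuotientGroup.mk' Z0)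
      (by
        intro y hy
        rw [MonoidHom.mem_ker] at hy
        exact (QuotientGroup.eq_one_iff y).1 hy) a0 b0
  have hcard : Nat.card (M ⧸ Z0) * Nat.card Z0 = Nat.card M := by
    have := Subgroup.index_mul_card Z0
    rwa [Subgroup.index_eq_card] at this
  have h19S : 19 ∣ Nat.card (M ⧸ Z0) := by
    have h1 : 19 ∣ Nat.card (M ⧸ Z0) * Nat.card Z0 := by rw [hcard]; exact hM19
    rcases (Nat.Prime.dvd_mul (by norm_num)).1 h1 with h | h
    · exact h
    · rw [hZ0card] at h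
      exact absurd h hZ19
  have hdS : Nat.card (M ⧸ Z0) ∣ 175560 := (Dvd.intro _ hcard).trans hMd
  by_cases hS175560 : Nat.card (M ⧸ Z0) = 175560
  · have hMc : Nat.card M = 175560 := by
      apply Nat.dvd_antisymm hMd
      rw [← hS175560, ← hcard]
      exact Dvd.intro _ rfl
    have hZ1 : Nat.card Z0 = 1 := by
      rw [hMc, hS175560] at hcard
      omega
    have htop : M = ⊤ := Subgroup.eq_top_of_card_eq _ (by rw [hMc, hord])
    haveI : Nontrivial M := ⟨⟨z0, 1, by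
      intro h
      rw [h, orderOf_one] at hz0
      omega⟩⟩
    haveI hMsim : IsSimpleGroup M := by
      refine ⟨?_⟩
      intro H hH
      rcases hMs H hH with h | h
      · exact Or.inr h
      · left
        rw [eq_bot_iff]
        intro x hx
        have h1 : (x : G) ∈ ZG := h ⟨x, hx, rfl⟩
        have h2 := hZ0G x h1
        have hs : Subsingleton Z0 := (Nat.card_eq_one_iff_unique.1 hZ1).1
        have h3 : (⟨x, h2⟩ : Z0) = 1 := Subsingleton.elim _ _
        exact congrArg Subtype.val h3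
    haveI : Nontrivial G := by
      apply Finite.one_lt_card_iff_nontrivial.1
      rw [hord]; norm_num
    exact IsSimpleGroup.isSimpleGroup_of_surjective M.subtype (by
      intro g
      exact ⟨⟨g, by rw [htop]; trivial⟩, rfl⟩)
  · exact (T19 hSnc hdS h19S hS175560).elim
end fin
end X19



/-- A finite group of order 175560 = 2³·3·5·7·11·19 is either simple or has a normal Sylow 19-subgroup. -/
theorem result {G : Type*} [Group G] [Finite G] (hG : Nat.card G = 175560) : IsSimpleGroup G ∨ ∀ P : Sylow 19 G, (P : Subgroup G).Normal := by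
  exact X19.main19 hG

end Cfsg.Agent.S4274
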