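import Cfsg.Statements.S4292
import Cfsg.Agent.Lib.H12.FpfLift6
-- import your own Cfsg.Agent.* helpers here

set_option autoImplicit false
open Cfsg

namespace Cfsg.Agent.S4292



/-- Let A and B be nontrivial finite groups. Then the direct product A × B occurs as a Frobenius complement if and only if A and B both occur as Frobenius complements and the orders of A and B are coprime. -/
theorem result {A B : Type*} [Group A] [Finite A] [Nontrivial A] [Group B] [Finite B] [Nontrivial B] :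
    (∃ (L : Type) (_ : Group L) (_ : Finite L) (H : Subgroup L), Cfsg.IsFrobeniusComplement H ∧ Nonempty ((A × B) ≃* H)) ↔
    ((∃ (L : Type) (_ : Group L) (_ : Finite L) (H : Subgroup L), Cfsg.IsFrobeniusComplement H ∧ Nonempty (A ≃* H)) ∧
     (∃ (L : Type) (_ : Group L) (_ : Finite L) (H : Subgroup L), Cfsg.IsFrobeniusComplement H ∧ Nonempty (B ≃* H)) ∧
     (Nat.card A).Coprime (Nat.card B)) := by
  classical
  constructor
  · rintro ⟨L, _, _, H, hH, ⟨e⟩⟩
    have hco := H12.FpfLift.coprime_factors hH e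
    let r : (A × B) →* L := H.subtype.comp e.toMonoidHom
    have hr : Function.Injective r := fun x y hxy => e.injective (Subtype.ext hxy)
    have hrH : ∀ x, r x ∈ H := fun x => (e x).2
    let iA : A →* L := r.comp (MonoidHom.inl A B)
    let iB : B →* L := r.comp (MonoidHom.inr A B)
    have hiA : Function.Injective iA := hr.comp (fun x y h => congrArg Prod.fst h)
    have hiB : Function.Injective iB := hr.comp (fun x y h => congrArg Prod.snd h)
    have hA0 : iA.range ≠ ⊥ := by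
      obtain ⟨a, ha⟩ := exists_ne (1 : A)
      intro h0
      have h1 : iA a ∈ iA.range := ⟨a, rfl⟩
      rw [h0, Subgroup.mem_bot] at h1
      exact ha (hiA (h1.trans (map_one iA).symm))
    have hB0 : iB.range ≠ ⊥ := by
      obtain ⟨a, ha⟩ := exists_ne (1 : B)
      intro h0
      have h1 : iB a ∈ iB.range := ⟨a, rfl⟩
      rw [h0, Subgroup.mem_bot] at h1
      exact ha (hiB (h1.trans (map_one iB).symm))
    have hleA : iA.range ≤ H := by
      rintro _ ⟨a, rfl⟩
      exact hrH _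
    have hleB : iB.range ≤ H := by
      rintro _ ⟨a, rfl⟩
      exact hrH _
    obtain ⟨L₁, h₁, h₂, K₁, hK₁, ⟨e₁⟩⟩ := H12.FpfLift.sub_complement hH hleA hA0
    obtain ⟨L₂, h₃, h₄, K₂, hK₂, ⟨e₂⟩⟩ := H12.FpfLift.sub_complement hH hleB hB0
    exact ⟨⟨L₁, h₁, h₂, K₁, hK₁, ⟨(MonoidHom.ofInjective hiA).trans e₁⟩⟩,
      ⟨L₂, h₃, h₄, K₂, hK₂, ⟨(MonoidHom.ofInjective hiB).trans e₂⟩⟩, hco⟩
  · rintro ⟨⟨L₁, _, _, H₁, hH₁, ⟨e₁⟩⟩, ⟨L₂, _, _, H₂, hH₂, ⟨e₂⟩⟩, hco⟩
    haveI : Nontrivial H₁ := e₁.symm.toEquiv.nontrivial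
    haveI : Nontrivial H₂ := e₂.symm.toEquiv.nontrivial
    obtain ⟨n, hn, hA⟩ := H12.FpfLift.exists_fpf_algClosure hH₁ (MulEquiv.refl H₁)
    obtain ⟨m, hm, hB⟩ := H12.FpfLift.exists_fpf_algClosure hH₂ (MulEquiv.refl H₂)
    have hco' : (Nat.card H₁).Coprime (Nat.card H₂) := by
      rw [← Nat.card_congr e₁.toEquiv, ← Nat.card_congr e₂.toEquiv]
      exact hco
    obtain ⟨L, hL, hLf, K, hK, ⟨e⟩⟩ := H12.FpfLift.tensor_complement hco' hn hm hA hB
    exact ⟨L, hL, hLf, K, hK, ⟨(MulEquiv.prodCongr e₁ e₂).trans e.symm⟩⟩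

end Cfsg.Agent.S4292
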