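import Cfsg.Statements.S4331
import Cfsg.Agent.Lib.H01.Fitting
import Cfsg.Agent.Lib.H05.Comp5
import Cfsg.Agent.Lib.Lead.Burnside

set_option autoImplicit false
open Cfsg

namespace Cfsg.Agent.S4331

/-- The multiplication in the semidihedral group of order `16`. -/
def hmul (h l : Fin 8 × Fin 2) : Fin 8 × Fin 2 :=
  (h.1 + (if h.2 = 0 then l.1 else 3 * l.1), h.2 + l.2)

/-- Inverses in the semidihedral group of order `16`. -/
def hinv (h : Fin 8 × Fin 2) : Fin 8 × Fin 2 :=
  (-(if h.2 = 0 then h.1 else 3 * h.1), h.2)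

/-- Multiplication by `1 + i` on the field of order `9`. -/
def zt (v : Fin 3 × Fin 3) : Fin 3 × Fin 3 := (v.1 - v.2, v.1 + v.2)

/-- The action of the semidihedral group on the field of order `9`. -/
def rho (h : Fin 8 × Fin 2) (v : Fin 3 × Fin 3) : Fin 3 × Fin 3 :=
  zt^[h.1.val] (if h.2 = 0 then v else (v.1, -v.2))

theorem hmul_assoc : ∀ a b c, hmul (hmul a b) c = hmul a (hmul b c) := by decide +kernel
theorem hone_mul : ∀ a, hmul (0, 0) a = a := by decide +kernel
theorem hinv_mul : ∀ a, hmul (hinv a) a = (0, 0) := by decide +kernel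
theorem rho_add : ∀ h v w, rho h (v + w) = rho h v + rho h w := by decide +kernel
theorem rho_mul : ∀ h l v, rho (hmul h l) v = rho h (rho l v) := by decide +kernel
theorem rho_one : ∀ v, rho (0, 0) v = v := by decide +kernel
theorem rho_zero : ∀ h, rho h 0 = 0 := by decide +kernel
theorem rho_neg : ∀ h v, rho h (-v) = -rho h v := by decide +kernel

/-- The group `3² : SD₁₆` of order `144`. -/
def GG : Type := (Fin 3 × Fin 3) × (Fin 8 × Fin 2)

instance : Fintype GG := inferInstanceAs (Fintype ((Fin 3 × Fin 3) × (Fin 8 × Fin 2)))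
instance : DecidableEq GG := inferInstanceAs (DecidableEq ((Fin 3 × Fin 3) × (Fin 8 × Fin 2)))
instance : Mul GG := ⟨fun g g' => (g.1 + rho g.2 g'.1, hmul g.2 g'.2)⟩
instance : One GG := ⟨(0, (0, 0))⟩
instance : Inv GG := ⟨fun g => (-rho (hinv g.2) g.1, hinv g.2)⟩

theorem mul_def (g g' : GG) : g * g' = (g.1 + rho g.2 g'.1, hmul g.2 g'.2) := rfl
theorem one_def : (1 : GG) = (0, (0, 0)) := rfl
theorem inv_def (g : GG) : g⁻¹ = (-rho (hinv g.2) g.1, hinv g.2) := rfl

instance : Group GG := Group.ofLeftAxioms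
  (by
    intro a b c
    rw [mul_def, mul_def, mul_def, mul_def]
    show ((a.1 + rho a.2 b.1) + rho (hmul a.2 b.2) c.1, hmul (hmul a.2 b.2) c.2) =
      (a.1 + rho a.2 (b.1 + rho b.2 c.1), hmul a.2 (hmul b.2 c.2))
    rw [hmul_assoc, rho_add, rho_mul, add_assoc])
  (by
    intro a
    rw [mul_def, one_def]
    show (0 + rho (0, 0) a.1, hmul (0, 0) a.2) = a
    rw [rho_one, hone_mul, zero_add]
    rfl)
  (by
    intro a
    rw [mul_def, inv_def, one_def]
    show (-rho (hinv a.2) a.1 + rho (hinv a.2) a.1, hmul (hinv a.2) a.2) = _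
    rw [hinv_mul, neg_add_cancel])

/-- The involution. -/
def aa : GG := ((0, 0), (0, 1))

/-- A translation. -/
def vv : GG := ((0, 1), (0, 0))

theorem key : ∀ c : GG, ∃ x : GG, (x * c * x⁻¹) * aa = aa * (x * c * x⁻¹) ∨ (x * c * x⁻¹).1 = 0 := by
  decide +kernel

theorem hpow16 : ∀ g : GG, g.1 = 0 → g ^ 16 = 1 := by decide +kernel

/-- The complement of the translations. -/
def H₁ : Subgroup GG where
  carrier := {g | g.1 = 0}
  one_mem' := rfl
  mul_mem' := by
    intro a b ha hb
    have ha' : a.1 = 0 := ha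
    have hb' : b.1 = 0 := hb
    show (a * b).1 = 0
    rw [mul_def]
    show a.1 + rho a.2 b.1 = 0
    rw [ha', hb', rho_zero, add_zero]
  inv_mem' := by
    intro a ha
    have ha' : a.1 = 0 := ha
    show (a⁻¹).1 = 0
    rw [inv_def]
    show -rho (hinv a.2) a.1 = 0
    rw [ha', rho_zero, neg_zero]

theorem H₁_p : IsPGroup 2 H₁ := by
  rintro ⟨g, hg⟩
  refine ⟨4, Subtype.ext ?_⟩
  exact hpow16 g hg

/-- There is a finite solvable group G with a subgroup A of order 2 such that every conjugacy class of G contains an element g for which A is subnormal in the subgroup generated by A and g, and yet A is not contained in O_2(G). (So the corresponding criteria for odd primes fail at the prime 2, even for solvable groups.) -/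
theorem result :
    ∃ (G : Type) (_ : Group G) (_ : Finite G) (A : Subgroup G), Group.IsSolvable G ∧ Nat.card A = 2 ∧
      (∀ c : G, ∃ g : G, IsConj c g ∧ (A.subgroupOf (A ⊔ Subgroup.zpowers g)).IsSubnormal) ∧
      ¬ A ≤ Cfsg.pCore 2 G := by
  classical
  haveI : Fact (Nat.Prime 2) := ⟨Nat.prime_two⟩
  refine ⟨GG, inferInstance, inferInstance, Subgroup.zpowers aa, ?_, ?_, ?_, ?_⟩
  · apply Cfsg.Agent.Lead.burnside_two_prime 2 3 4 2 Nat.prime_two Nat.prime_three
    rw [Nat.card_eq_fintype_card]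
    decide +kernel
  · rw [Nat.card_zpowers]
    exact orderOf_eq_prime (by decide +kernel) (by decide +kernel)
  · intro c
    obtain ⟨x, hx⟩ := key c
    refine ⟨x * c * x⁻¹, isConj_iff.2 ⟨x, rfl⟩, ?_⟩
    set g := x * c * x⁻¹ with hg
    rcases hx with hc | hv
    · -- commuting case
      apply Subgroup.Normal.isSubnormal
      have hJC : Subgroup.zpowers aa ⊔ Subgroup.zpowers g ≤
          Subgroup.centralizer (Subgroup.zpowers aa : Set GG) := by
        have hcm : Commute g aa := hc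
        apply sup_le
        · rintro _ ⟨k, rfl⟩
          rw [Subgroup.mem_centralizer_iff]
          rintro _ ⟨l, rfl⟩
          exact ((Commute.refl aa).zpow_zpow l k).eq
        · rintro _ ⟨k, rfl⟩
          rw [Subgroup.mem_centralizer_iff]
          rintro _ ⟨l, rfl⟩
          exact (hcm.symm.zpow_zpow l k).eq
      constructor
      intro n hn j
      rw [Subgroup.mem_subgroupOf] at hn ⊢
      have h1 := (Subgroup.mem_centralizer_iff.1 (hJC j.2)) _ hn
      have e : (((j * n * j⁻¹ : (Subgroup.zpowers aa ⊔ Subgroup.zpowers g : Subgroup GG))) : GG) = n := by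
        show (j : GG) * n * (j : GG)⁻¹ = n
        rw [← h1]
        group
      rw [e]
      exact hn
    · -- the `2`-group case
      have haH : aa ∈ H₁ := rfl
      have hgH : g ∈ H₁ := hv
      have hJ : Subgroup.zpowers aa ⊔ Subgroup.zpowers g ≤ H₁ :=
        sup_le ((Subgroup.zpowers_le).2 haH) ((Subgroup.zpowers_le).2 hgH)
      have hJp : IsPGroup 2 (Subgroup.zpowers aa ⊔ Subgroup.zpowers g : Subgroup GG) :=
        H₁_p.to_le hJ
      exact Cfsg.Agent.H05.nil_subnormal hJp.isNilpotent _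
  · intro hle
    have hOn : (pCore 2 GG).Normal := Cfsg.Agent.H01.pCore_normal 2
    have hOp : IsPGroup 2 (pCore 2 GG) := Cfsg.Agent.H01.pCore_isPGroup 2
    have ha : aa ∈ pCore 2 GG := hle (Subgroup.mem_zpowers aa)
    have hx : aa * vv * aa⁻¹ * vv⁻¹ ∈ pCore 2 GG := by
      have h1 := hOn.conj_mem aa⁻¹ ((pCore 2 GG).inv_mem ha) vv
      have e : aa * vv * aa⁻¹ * vv⁻¹ = aa * (vv * aa⁻¹ * vv⁻¹) := by group
      rw [e]
      exact (pCore 2 GG).mul_mem ha h1
    obtain ⟨k, hk⟩ := hOp ⟨_, hx⟩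
    have h1 : (aa * vv * aa⁻¹ * vv⁻¹) ^ 2 ^ k = 1 := by simpa using congrArg Subtype.val hk
    have h2 : (aa * vv * aa⁻¹ * vv⁻¹) ^ 3 = 1 := by decide +kernel
    have h3 : orderOf (aa * vv * aa⁻¹ * vv⁻¹) ∣ 2 ^ k := orderOf_dvd_of_pow_eq_one h1
    have h4 : orderOf (aa * vv * aa⁻¹ * vv⁻¹) ∣ 3 := orderOf_dvd_of_pow_eq_one h2
    have h5 : orderOf (aa * vv * aa⁻¹ * vv⁻¹) = 1 :=
      Nat.Coprime.eq_one_of_dvd (Nat.Coprime.coprime_dvd_left h3 (Nat.Coprime.pow_left k (by norm_num))) h4
    have h6 := orderOf_eq_one_iff.1 h5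
    exact absurd h6 (by decide +kernel)

end Cfsg.Agent.S4331
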