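import Cfsg.Statements.S4332
import Cfsg.Agent.Lib.H01.Fitting

set_option autoImplicit false
set_option linter.unusedSimpArgs false
set_option linter.style.haveILetI false
open Cfsg
open scoped Pointwise

namespace Cfsg.Agent.S4332

open Equiv Equiv.Perm

/-- A triple of points moved into itself or off itself. -/
theorem exists_triple (c : Perm (Fin 8)) : ∃ a b d : Fin 8, a ≠ b ∧ a ≠ d ∧ b ≠ d ∧
    ((c a = a ∧ c b = b ∧ c d = d) ∨ (b = c a ∧ d = c b ∧ c d = a) ∨
      (c a ≠ a ∧ c a ≠ b ∧ c a ≠ d ∧ c b ≠ a ∧ c b ≠ b ∧ c b ≠ d ∧ c d ≠ a ∧ c d ≠ b ∧ c d ≠ d)) := by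
  classical
  set F : Finset (Fin 8) := Finset.univ.filter (fun x => c x = x) with hF
  set M : Finset (Fin 8) := Finset.univ.filter (fun x => ¬ c x = x) with hM
  have hcard : F.card + M.card = 8 := by
    have := Finset.card_filter_add_card_filter_not (s := (Finset.univ : Finset (Fin 8))) (fun x => c x = x)
    simpa using this
  have hMm : ∀ x, x ∈ M ↔ c x ≠ x := by simp [hM]
  have hFm : ∀ x, x ∈ F ↔ c x = x := by simp [hF]
  by_cases hf3 : 2 < F.card
  · obtain ⟨a, ha, b, hb, d, hd, hab, had, hbd⟩ := Finset.two_lt_card.1 hf3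
    exact ⟨a, b, d, hab, had, hbd, Or.inl ⟨(hFm a).1 ha, (hFm b).1 hb, (hFm d).1 hd⟩⟩
  have hM6 : 6 ≤ M.card := by omega
  by_cases h3 : ∃ x, c x ≠ x ∧ c (c (c x)) = x
  · obtain ⟨x, hx, hx3⟩ := h3
    refine ⟨x, c x, c (c x), hx.symm, ?_, fun h => hx (c.injective h.symm), Or.inr (Or.inl ⟨rfl, rfl, hx3⟩)⟩
    intro h
    rw [← h] at hx3
    exact hx hx3
  push Not at h3
  by_cases h4 : ∃ x, c x ≠ x ∧ c (c x) ≠ x
  · obtain ⟨x, hx, hx2⟩ := h4
    have hlt : ({c⁻¹ x, x, c x, c (c x), c (c (c x))} : Finset (Fin 8)).card < M.card :=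
      lt_of_le_of_lt Finset.card_le_five (by omega)
    obtain ⟨z, hzM, hz⟩ := Finset.exists_mem_notMem_of_card_lt_card hlt
    simp only [Finset.mem_insert, Finset.mem_singleton, not_or] at hz
    obtain ⟨hz1, hz2, hz3, hz4, hz5⟩ := hz
    have hzm := (hMm z).1 hzM
    refine ⟨x, c (c x), z, hx2.symm, Ne.symm hz2, Ne.symm hz4, Or.inr (Or.inr ?_)⟩
    refine ⟨hx, fun h => hx (c.injective h).symm, Ne.symm hz3, h3 x hx, fun h => ?_, Ne.symm hz5, ?_,
      fun h => hz3 (c.injective h), hzm⟩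
    · have h1 : c (c x) = c x := c.injective h
      exact hx (c.injective h1)
    · intro h
      apply hz1
      rw [← h]
      simp
  push Not at h4
  have hne : M.Nonempty := by
    rw [← Finset.card_pos]
    omega
  obtain ⟨x, hxM⟩ := hne
  have hx := (hMm x).1 hxM
  have hlt : ({x, c x} : Finset (Fin 8)).card < M.card :=
    lt_of_le_of_lt Finset.card_le_two (by omega)
  obtain ⟨y, hyM, hy⟩ := Finset.exists_mem_notMem_of_card_lt_card hlt
  simp only [Finset.mem_insert, Finset.mem_singleton, not_or] at hy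
  obtain ⟨hy1, hy2⟩ := hy
  have hym := (hMm y).1 hyM
  have hlt2 : ({x, c x, y, c y} : Finset (Fin 8)).card < M.card :=
    lt_of_le_of_lt Finset.card_le_four (by omega)
  obtain ⟨z, hzM, hz⟩ := Finset.exists_mem_notMem_of_card_lt_card hlt2
  simp only [Finset.mem_insert, Finset.mem_singleton, not_or] at hz
  obtain ⟨hz1, hz2, hz3, hz4⟩ := hz
  have hzm := (hMm z).1 hzM
  have hxx := h4 x hx
  have hyy := h4 y hym
  refine ⟨x, y, z, Ne.symm hy1, Ne.symm hz1, Ne.symm hz3, Or.inr (Or.inr ?_)⟩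
  refine ⟨hx, Ne.symm hy2, Ne.symm hz2, ?_, hym, Ne.symm hz4, ?_, ?_, hzm⟩
  · intro h
    apply hy2
    apply c.injective
    rw [h, hxx]
  · intro h
    apply hz2
    apply c.injective
    rw [h, hxx]
  · intro h
    apply hz4
    apply c.injective
    rw [h, hyy]

theorem swap_mul_swap_eq {α : Type*} [DecidableEq α] {a b d : α} (had : a ≠ d) (hbd : b ≠ d) :
    swap b d * swap b a = swap a b * swap a d := by
  have h := swap_mul_swap_mul_swap (x := d) (y := a) (z := b) had.symm hbd.symm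
  rw [← h, swap_comm b a, mul_assoc, swap_mul_self, mul_one, swap_comm d a]

theorem subn {G : Type*} [Group G] (σ g : G) (hc : Commute (g * σ * g⁻¹) σ) :
    ((Subgroup.zpowers σ).subgroupOf (Subgroup.zpowers σ ⊔ MulAut.conj g • Subgroup.zpowers σ)).IsSubnormal := by
  set J := Subgroup.zpowers σ ⊔ MulAut.conj g • Subgroup.zpowers σ with hJ
  have hJC : J ≤ Subgroup.centralizer (Subgroup.zpowers σ : Set G) := by
    apply sup_le
    · rintro _ ⟨k, rfl⟩
      rw [Subgroup.mem_centralizer_iff]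
      rintro _ ⟨l, rfl⟩
      exact ((Commute.refl σ).zpow_zpow l k).eq
    · rintro _ ⟨_, ⟨k, rfl⟩, rfl⟩
      rw [Subgroup.mem_centralizer_iff]
      rintro _ ⟨l, rfl⟩
      have h1 : MulDistribMulAction.toMonoidEnd (MulAut G) G (MulAut.conj g) (σ ^ k) = (g * σ * g⁻¹) ^ k := by
        show (MulAut.conj g) (σ ^ k) = _
        rw [map_zpow, MulAut.conj_apply]
      show σ ^ l * MulDistribMulAction.toMonoidEnd (MulAut G) G (MulAut.conj g) (σ ^ k) =
        MulDistribMulAction.toMonoidEnd (MulAut G) G (MulAut.conj g) (σ ^ k) * σ ^ l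
      rw [h1]
      exact (hc.symm.zpow_zpow l k).eq
  apply Subgroup.Normal.isSubnormal
  constructor
  intro n hn j
  rw [Subgroup.mem_subgroupOf] at hn ⊢
  have h1 := (Subgroup.mem_centralizer_iff.1 (hJC j.2)) _ hn
  have e : (((j * n * j⁻¹ : J)) : G) = n := by
    show (j : G) * n * (j : G)⁻¹ = n
    rw [← h1]
    group
  rw [e]
  exact hn

theorem pCore_eq_bot : pCore 3 (Perm (Fin 8)) = ⊥ := by
  classical
  haveI : Fact (Nat.Prime 3) := ⟨Nat.prime_three⟩
  have hNn : (pCore 3 (Perm (Fin 8))).Normal := Cfsg.Agent.H01.pCore_normal 3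
  have hNp : IsPGroup 3 (pCore 3 (Perm (Fin 8))) := Cfsg.Agent.H01.pCore_isPGroup 3
  set N := pCore 3 (Perm (Fin 8)) with hN
  have hNA : N ≤ alternatingGroup (Fin 8) := by
    intro x hx
    rw [mem_alternatingGroup]
    obtain ⟨k, hk⟩ := hNp ⟨x, hx⟩
    have h1 : x ^ 3 ^ k = 1 := by simpa using congrArg Subtype.val hk
    have h2 : (sign x) ^ 3 ^ k = 1 := by rw [← map_pow, h1, map_one]
    rcases Int.units_eq_one_or (sign x) with h3 | h3
    · exact h3
    · rw [h3] at h2
      have h4 : Odd (3 ^ k) := Odd.pow (by decide)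
      rw [h4.neg_one_pow] at h2
      exact absurd h2 (by decide)
  haveI hs : IsSimpleGroup (alternatingGroup (Fin 8)) :=
    alternatingGroup.isSimpleGroup (by simp)
  have hn : (N.subgroupOf (alternatingGroup (Fin 8))).Normal := Subgroup.Normal.subgroupOf hNn _
  rcases hn.eq_bot_or_eq_top with h | h
  · rw [eq_bot_iff]
    intro x hx
    have h1 : (⟨x, hNA hx⟩ : alternatingGroup (Fin 8)) ∈ N.subgroupOf (alternatingGroup (Fin 8)) :=
      Subgroup.mem_subgroupOf.2 hx
    rw [h, Subgroup.mem_bot] at h1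
    exact Subgroup.mem_bot.2 (congrArg Subtype.val h1)
  · exfalso
    have hle : alternatingGroup (Fin 8) ≤ N := Subgroup.subgroupOf_eq_top.1 h
    set t : Perm (Fin 8) := swap 0 1 * swap 2 3 with ht
    have htA : t ∈ alternatingGroup (Fin 8) := by
      rw [mem_alternatingGroup]
      decide
    obtain ⟨k, hk⟩ := hNp ⟨t, hle htA⟩
    have h1 : t ^ 3 ^ k = 1 := by simpa using congrArg Subtype.val hk
    have h2 : t ^ 2 = 1 := by decide
    have h3 : orderOf t ∣ 3 ^ k := orderOf_dvd_of_pow_eq_one h1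
    have h4 : orderOf t ∣ 2 := orderOf_dvd_of_pow_eq_one h2
    have h5 : orderOf t = 1 :=
      Nat.Coprime.eq_one_of_dvd (Nat.Coprime.coprime_dvd_left h3 (Nat.Coprime.pow_left k (by norm_num))) h4
    have h6 : t = 1 := orderOf_eq_one_iff.1 h5
    exact absurd h6 (by decide)

/-- In the symmetric group of degree 8, let A be the subgroup generated by a 3-cycle. Then every conjugacy class contains an element g for which A is subnormal in the subgroup generated by A and its conjugate by g, although O_3 of the symmetric group of degree 8 is trivial. -/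
theorem result
    (σ : Equiv.Perm (Fin 8)) (hσ : σ.IsThreeCycle) :
    (∀ c : Equiv.Perm (Fin 8), ∃ g : Equiv.Perm (Fin 8), IsConj c g ∧
      ((Subgroup.zpowers σ).subgroupOf (Subgroup.zpowers σ ⊔ MulAut.conj g • Subgroup.zpowers σ)).IsSubnormal) ∧
    Cfsg.pCore 3 (Equiv.Perm (Fin 8)) = ⊥ := by
  refine ⟨fun c => ?_, pCore_eq_bot⟩
  obtain ⟨a, b, d, hab, had, hbd, hcase⟩ := exists_triple c
  set σ' : Perm (Fin 8) := swap a b * swap a d with hσ'
  have h3 : σ'.IsThreeCycle := isThreeCycle_swap_mul_swap_same hab had hbd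
  obtain ⟨h, hh⟩ := isConj_iff.1 (isConj_of_cycleType_eq (h3.cycleType.trans hσ.cycleType.symm))
  have hconj : c * σ' * c⁻¹ = swap (c a) (c b) * swap (c a) (c d) := by
    rw [swap_apply_apply, swap_apply_apply, hσ']
    group
  have hτ : Commute (c * σ' * c⁻¹) σ' := by
    rw [hconj]
    rcases hcase with ⟨h1, h2, h4⟩ | ⟨h1, h2, h4⟩ | ⟨h1, h2, h4, h5, h6, h7, h8, h9, h10⟩
    · rw [h1, h2, h4]
    · have e : swap (c a) (c b) * swap (c a) (c d) = σ' := by
        rw [← h1, ← h2, h4, hσ']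
        exact swap_mul_swap_eq had hbd
      rw [e]
    · apply Disjoint.commute
      have hinj1 : c a ≠ c b := fun e => hab (c.injective e)
      have hinj2 : c a ≠ c d := fun e => had (c.injective e)
      apply Disjoint.mul_left
      · apply Disjoint.mul_right <;> apply disjoint_swap_swap <;> simp [*, Ne.symm, hab, had, hbd]
      · apply Disjoint.mul_right <;> apply disjoint_swap_swap <;> simp [*, Ne.symm, hab, had, hbd]
  refine ⟨h * c * h⁻¹, isConj_iff.2 ⟨h, rfl⟩, ?_⟩
  apply subn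
  rw [← hh]
  have e1 : h * c * h⁻¹ * (h * σ' * h⁻¹) * (h * c * h⁻¹)⁻¹ = h * (c * σ' * c⁻¹) * h⁻¹ := by group
  rw [e1]
  exact (Commute.conj_iff h).2 hτ

end Cfsg.Agent.S4332
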