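import Mathlib
import Cfsg.Agent.Lib.H18.Zipper
import Cfsg.Statements.S4333

set_option autoImplicit false
open Pointwise
open Cfsg

namespace Cfsg.Agent.S4333

universe u

theorem sn_restrict {G : Type*} [Group G] {X Y H : Subgroup G} (hX : X ≤ Y) (hY : Y ≤ H)
    (h : (X.subgroupOf Y).IsSubnormal) :
    ((X.subgroupOf H).subgroupOf (Y.subgroupOf H)).IsSubnormal := by
  let f : Y →* (Y.subgroupOf H) := (Subgroup.subgroupOfEquivOfLe hY).symm.toMonoidHom
  have hf : Function.Surjective f := (Subgroup.subgroupOfEquivOfLe hY).symm.surjective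
  have h1 := h.map hf
  have e : (X.subgroupOf Y).map f = (X.subgroupOf H).subgroupOf (Y.subgroupOf H) := by
    ext ⟨⟨y, hyH⟩, hyY⟩
    constructor
    · rintro ⟨⟨w, hw⟩, hw2, e⟩
      have e2 := congrArg (fun z : Y.subgroupOf H => ((z : H) : G)) e
      have e3 : w = y := e2
      subst e3
      exact hw2
    · intro hx
      have hyY' : y ∈ Y := hyY
      refine ⟨⟨y, hyY'⟩, hx, ?_⟩
      apply Subtype.ext
      apply Subtype.ext
      rfl
  rwa [e] at h1

theorem smul_coatom {G : Type*} [Group G] {M : Subgroup G} (hM : IsCoatom M) (c : MulAut G) :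
    IsCoatom (c • M) := by
  constructor
  · intro h
    apply hM.1
    have : c⁻¹ • (c • M) = c⁻¹ • (⊤ : Subgroup G) := by rw [h]
    rw [inv_smul_smul] at this
    rw [this, eq_top_iff]
    intro x _
    rw [Subgroup.mem_pointwise_smul_iff_inv_smul_mem]
    trivial
  · intro K hK
    have h1 : M < c⁻¹ • K := by
      refine lt_of_le_of_ne ?_ ?_
      · have := (Subgroup.pointwise_smul_le_pointwise_smul_iff (a := c⁻¹)).2 hK.le
        rwa [inv_smul_smul] at this
      · intro e
        apply hK.ne
        rw [e, smul_inv_smul]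
    have h2 := hM.2 _ h1
    have : c • (c⁻¹ • K) = c • (⊤ : Subgroup G) := by rw [h2]
    rw [smul_inv_smul] at this
    rw [this, eq_top_iff]
    intro x _
    rw [Subgroup.mem_pointwise_smul_iff_inv_smul_mem]
    trivial

theorem aux (n : ℕ) : ∀ (G : Type u) [Group G] [Finite G] (A : Subgroup G), Nat.card G = n →
    (∀ a ∈ A, ∀ g : G, (A.subgroupOf (A ⊔ MulAut.conj (g⁻¹ * a * g) • A)).IsSubnormal) →
    A.IsSubnormal := by
  induction n using Nat.strong_induction_on with
  | _ n ih =>
  intro G _ _ A hn h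
  by_contra hA
  have hproper : ∀ H : Subgroup G, A ≤ H → H ≠ ⊤ → (A.subgroupOf H).IsSubnormal := by
    intro H hAH hHne
    have hcard : Nat.card H < n := by
      rw [← hn]
      exact lt_of_le_of_ne (Subgroup.card_le_card_group H) (mt (Subgroup.eq_top_of_card_eq H) hHne)
    apply ih _ hcard H _ rfl
    intro a ha g₀
    have hamem : (a : G) ∈ A := ha
    have hg := h (a : G) hamem (g₀ : G)
    set h₀ : H := g₀⁻¹ * a * g₀ with hh₀
    have hh₀G : (h₀ : G) = (g₀ : G)⁻¹ * (a : G) * (g₀ : G) := rfl
    rw [← hh₀G] at hg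
    have hJ : A ⊔ MulAut.conj (h₀ : G) • A ≤ H := by
      apply sup_le hAH
      rintro _ ⟨a, ha, rfl⟩
      have : (MulAut.conj (h₀ : G)) a = h₀ * a * (h₀ : G)⁻¹ := rfl
      show (MulAut.conj (h₀ : G)) a ∈ H
      rw [this]
      exact H.mul_mem (H.mul_mem h₀.2 (hAH ha)) (H.inv_mem h₀.2)
    have h2 := sn_restrict le_sup_left hJ hg
    have e : (A ⊔ MulAut.conj (h₀ : G) • A).subgroupOf H =
        A.subgroupOf H ⊔ MulAut.conj h₀ • A.subgroupOf H := by
      rw [Cfsg.Agent.H18.sup_subgroupOf_of_le hAH ((le_sup_right : MulAut.conj (h₀ : G) • A ≤ _).trans hJ)]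
      congr 1
      ext x
      rw [Subgroup.mem_subgroupOf, Subgroup.mem_pointwise_smul_iff_inv_smul_mem,
        Subgroup.mem_pointwise_smul_iff_inv_smul_mem, Subgroup.mem_subgroupOf]
      have : (((MulAut.conj h₀)⁻¹ • x : H) : G) = (MulAut.conj (h₀ : G))⁻¹ • (x : G) := by
        simp [MulAut.smul_def, MulAut.conj_apply, map_inv]
      rw [this]
    rwa [e] at h2
  obtain ⟨M, ⟨hM, hAM⟩, huniq⟩ := Cfsg.Agent.H18.zipper hA hproper
  have hx : ∀ a ∈ A, ∀ g : G, MulAut.conj (g⁻¹ * a * g) • M = M := by
    intro a ha g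
    set x := g⁻¹ * a * g with hxdef
    have hne : A ⊔ MulAut.conj x • A ≠ ⊤ := by
      intro htop
      apply hA
      have h1 := h a ha g
      rw [← hxdef] at h1
      exact Subgroup.IsSubnormal.trans le_sup_left h1 (by rw [htop]; exact Subgroup.IsSubnormal.top)
    obtain ⟨M', hM', hJ⟩ := (eq_top_or_exists_le_coatom _).resolve_left hne
    have h2 := huniq M' ⟨hM', le_sup_left.trans hJ⟩
    rw [h2] at hJ
    have h3 : MulAut.conj x • A ≤ M := le_sup_right.trans hJ
    have h4 : A ≤ (MulAut.conj x)⁻¹ • M := by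
      have := (Subgroup.pointwise_smul_le_pointwise_smul_iff (a := (MulAut.conj x)⁻¹)).2 h3
      rwa [inv_smul_smul] at this
    have h5 := huniq _ ⟨smul_coatom hM _, h4⟩
    have : MulAut.conj x • ((MulAut.conj x)⁻¹ • M) = MulAut.conj x • M := by rw [h5]
    rw [smul_inv_smul] at this
    exact this.symm
  -- normal closure normalizes M
  let N : Subgroup G := Subgroup.normalClosure (A : Set G)
  have hAN : A ≤ N := Subgroup.le_normalClosure
  haveI hNn : N.Normal := Subgroup.normalClosure_normal
  have hNM : N ≤ Subgroup.normalizer (M : Set G) := by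
    apply (Subgroup.closure_le _).mpr
    intro y hy
    obtain ⟨a, ha, hc⟩ := Group.mem_conjugatesOfSet_iff.mp hy
    obtain ⟨g, rfl⟩ := isConj_iff.mp hc
    have h1 := hx a ha g⁻¹
    simp only [inv_inv] at h1
    have h2 : (g * a * g⁻¹) ∈ Subgroup.normalizer (M : Set G) := by
      rw [Subgroup.mem_normalizer_iff]
      intro z
      constructor
      · intro hz
        have : (MulAut.conj (g * a * g⁻¹)) z ∈ MulAut.conj (g * a * g⁻¹) • M :=
          ⟨z, hz, rfl⟩
        rw [h1] at this
        exact this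
      · intro hz
        rw [← h1] at hz
        obtain ⟨w, hw, e⟩ := hz
        have e2 : (MulAut.conj (g * a * g⁻¹)) w = (g * a * g⁻¹) * z * (g * a * g⁻¹)⁻¹ := e
        rw [MulAut.conj_apply] at e2
        have : w = z := by
          have := mul_left_cancel (mul_right_cancel e2)
          exact this
        rwa [← this]
    exact h2
  by_cases hN : N = ⊤
  · have hMn : M.Normal := by
      rw [← Subgroup.normalizer_eq_top_iff]
      rw [eq_top_iff, ← hN]
      exact hNM
    have h4 := hproper M hAM hM.1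
    exact hA (Subgroup.IsSubnormal.trans hAM h4 (Subgroup.Normal.isSubnormal inferInstance))
  · have h4 := hproper N hAN hN
    exact hA (Subgroup.IsSubnormal.trans hAN h4 (Subgroup.Normal.isSubnormal inferInstance))

/-- Let A be a subgroup of a finite group G. If A is subnormal in the subgroup generated by A and its conjugate by g⁻¹ a g, for every a ∈ A and every g ∈ G, then A is subnormal in G. (A sharpening of Wielandt's subnormality criterion: only conjugates of A by conjugates of elements of A are needed.) -/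
theorem result {G : Type*} [Group G] [Finite G]
    (A : Subgroup G)
    (h : ∀ a ∈ A, ∀ g : G, (A.subgroupOf (A ⊔ MulAut.conj (g⁻¹ * a * g) • A)).IsSubnormal) :
    A.IsSubnormal :=
  aux _ G A rfl h

end Cfsg.Agent.S4333
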