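import Cfsg.Statements.S4334
import Cfsg.Agent.Lib.H13.FrobFusion
import Cfsg.Agent.Lib.H08.NilCoprime
import Mathlib

set_option autoImplicit false
set_option linter.unusedVariables false
set_option linter.style.haveILetI false
open Cfsg

namespace Cfsg.Agent.S4334

variable {G : Type*} [Group G] [Finite G]

private abbrev cj (g : G) (H : Subgroup G) : Subgroup G := H.map (MulAut.conj g).toMonoidHom

omit [Finite G] in
private lemma mem_cj {g x : G} {H : Subgroup G} : x ∈ cj g H ↔ g⁻¹ * x * g ∈ H := by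
  constructor
  · rintro ⟨y, hy, rfl⟩
    have : g⁻¹ * ((MulAut.conj g).toMonoidHom y) * g = y := by
      simp [MulAut.conj_apply]
      group
    rw [this]
    exact hy
  · intro h
    refine ⟨_, h, ?_⟩
    simp [MulAut.conj_apply]
    group

omit [Finite G] in
private lemma card_cj (g : G) (H : Subgroup G) : Nat.card (cj g H) = Nat.card H :=
  Subgroup.card_map_of_injective (MulAut.conj g).injective

private lemma index_cj (g : G) (H : Subgroup G) : (cj g H).index = H.index := by
  have h1 := Subgroup.card_mul_index (cj g H)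
  have h2 := Subgroup.card_mul_index H
  rw [card_cj] at h1
  rw [← h2] at h1
  exact Nat.eq_of_mul_eq_mul_left Nat.card_pos h1

private lemma isPi_cj {τ : Set ℕ} {H : Subgroup G} (h : IsPiSubgroup τ H) (g : G) :
    IsPiSubgroup τ (cj g H) := by
  intro r hr hd
  rw [card_cj] at hd
  exact h r hr hd

private lemma card_sup_dvd (A B : Subgroup G) (h : ∀ a ∈ A, ∀ b ∈ B, a * b = b * a) :
    Nat.card (A ⊔ B : Subgroup G) ∣ Nat.card A * Nat.card B := by
  have hc : ∀ (a : A) (b : B), Commute (A.subtype a) (B.subtype b) := fun a b => h a a.2 b b.2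
  have hr := MonoidHom.noncommCoprod_range (f := A.subtype) (g := B.subtype) hc
  rw [Subgroup.range_subtype, Subgroup.range_subtype] at hr
  rw [← hr, ← Nat.card_prod]
  exact Subgroup.card_range_dvd _

private lemma index_dvd_sup (A B : Subgroup G) (h : ∀ a ∈ A, ∀ b ∈ B, a * b = b * a) :
    A.index ∣ (A ⊔ B : Subgroup G).index * Nat.card B := by
  obtain ⟨c, hc⟩ := card_sup_dvd A B h
  have h1 := Subgroup.index_mul_card A
  have h2 := Subgroup.index_mul_card (A ⊔ B)
  refine ⟨c, ?_⟩
  have hpos : 0 < Nat.card A := Nat.card_pos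
  apply Nat.eq_of_mul_eq_mul_right hpos
  calc (A ⊔ B).index * Nat.card B * Nat.card A = (A ⊔ B).index * (Nat.card A * Nat.card B) := by ring
    _ = (A ⊔ B).index * (Nat.card (A ⊔ B : Subgroup G) * c) := by rw [hc]
    _ = ((A ⊔ B).index * Nat.card (A ⊔ B : Subgroup G)) * c := by ring
    _ = (A.index * Nat.card A) * c := by rw [h2, h1]
    _ = A.index * c * Nat.card A := by ring

/-- A subgroup centralized by `W` and normalized by `x`: `x` centralizes when the primes of its order
avoid the index of `W`. -/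
private lemma automizer_lemma (R W : Subgroup G) (hW : W ≤ Subgroup.centralizer (R : Set G)) {x : G}
    (hx : x ∈ Subgroup.normalizer (R : Set G))
    (hr : ∀ r : ℕ, r.Prime → r ∣ orderOf x → ¬ r ∣ W.index) :
    x ∈ Subgroup.centralizer (R : Set G) := by
  by_contra hcon
  let N : Subgroup G := Subgroup.normalizer (R : Set G)
  let f := R.normalizerMonoidHom
  let xh : N := ⟨x, hx⟩
  have hne : f xh ≠ 1 := by
    intro h
    have h1 : xh ∈ f.ker := h
    rw [Subgroup.normalizerMonoidHom_ker] at h1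
    exact hcon h1
  have hord : orderOf (f xh) ≠ 1 := fun h => hne (orderOf_eq_one_iff.1 h)
  obtain ⟨r, hrp, hrd⟩ := Nat.exists_prime_and_dvd hord
  have h1 : r ∣ orderOf x := by
    have h2 : orderOf (f xh) ∣ orderOf xh := orderOf_map_dvd f xh
    have h3 : orderOf xh = orderOf x := Subgroup.orderOf_mk x hx
    rw [← h3]
    exact hrd.trans h2
  apply hr r hrp h1
  have h4 : orderOf (f xh) ∣ Nat.card f.range := by
    have h5 : orderOf (⟨f xh, ⟨xh, rfl⟩⟩ : f.range) = orderOf (f xh) := Subgroup.orderOf_mk _ _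
    rw [← h5]
    exact orderOf_dvd_natCard _
  rw [← Subgroup.index_ker, Subgroup.normalizerMonoidHom_ker] at h4
  have hCN : Subgroup.centralizer (R : Set G) ≤ N := Subgroup.centralizer_le_normalizer _
  have h6 : (Subgroup.centralizer (R : Set G)).relIndex N ∣ W.index := by
    have h7 := Subgroup.relIndex_mul_index hW
    have h8 := Subgroup.relIndex_mul_index hCN
    rw [← h7, ← h8]
    exact Dvd.dvd.mul_left (Dvd.intro _ rfl) _
  exact (hrd.trans h4).trans h6

private lemma maximal_of_hall {τ : Set ℕ} {T : Subgroup G} (hT : IsPiSubgroup τ T)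
    (hidx : ∀ r : ℕ, r.Prime → r ∈ τ → ¬ r ∣ T.index) : Maximal (IsPiSubgroup τ) T := by
  refine ⟨hT, fun A hA hTA => ?_⟩
  by_contra hcon
  have hne : T.relIndex A ≠ 1 := by
    intro h
    have h1 : A ≤ T := Subgroup.relIndex_eq_one.1 h
    exact hcon h1
  obtain ⟨r, hr, hrd⟩ := Nat.exists_prime_and_dvd hne
  have h1 : r ∣ Nat.card A := hrd.trans (Subgroup.relIndex_dvd_card T A)
  apply hidx r hr (hA r hr h1)
  exact hrd.trans (Subgroup.relIndex_dvd_index_of_le hTA)

private lemma exists_conj_of_dpi {τ : Set ℕ} {T : Subgroup G} (hmax : Maximal (IsPiSubgroup τ) T)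
    (hD : IsDPiGroup τ G) {K : Subgroup G} (hK : IsPiSubgroup τ K) : ∃ g : G, K ≤ cj g T := by
  have hfin : ({X : Subgroup G | IsPiSubgroup τ X}).Finite := Set.toFinite _
  obtain ⟨A, hKA, hA⟩ := hfin.exists_le_maximal hK
  obtain ⟨g, hg⟩ := hD T A hmax hA
  refine ⟨g, hKA.trans (le_of_eq hg)⟩

private lemma dpi_of_conj {π : Set ℕ} {H : Subgroup G} (hH : IsPiSubgroup π H)
    (hall : ∀ U : Subgroup G, IsPiSubgroup π U → ∃ g : G, U ≤ cj g H) : IsDPiGroup π G := by
  intro A B hA hB
  obtain ⟨g, hg⟩ := hall A hA.prop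
  obtain ⟨g', hg'⟩ := hall B hB.prop
  have h1 : A = cj g H := le_antisymm hg (hA.le_of_ge (isPi_cj hH g) hg)
  have h2 : B = cj g' H := le_antisymm hg' (hB.le_of_ge (isPi_cj hH g') hg')
  refine ⟨g' * g⁻¹, ?_⟩
  rw [h1, h2]
  ext x
  change x ∈ cj g' H ↔ x ∈ cj (g' * g⁻¹) (cj g H)
  rw [mem_cj, mem_cj, mem_cj]
  have : g⁻¹ * ((g' * g⁻¹)⁻¹ * x * (g' * g⁻¹)) * g = g'⁻¹ * x * g' := by group
  rw [this]

/-- One prime step. -/
private theorem step {p : ℕ} [Fact p.Prime] {τ : Set ℕ} (hpτ : p ∉ τ) (P T : Subgroup G)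
    (hP : IsPGroup p P) (hT : IsPiSubgroup τ T) (hc : ∀ a ∈ P, ∀ b ∈ T, a * b = b * a)
    (hX : ∀ r : ℕ, r.Prime → (r = p ∨ r ∈ τ) → ¬ r ∣ (P ⊔ T : Subgroup G).index)
    (hD : IsDPiGroup τ G)
    (U : Subgroup G) (hU : ∀ r : ℕ, r.Prime → r ∣ Nat.card U → r = p ∨ r ∈ τ) :
    ∃ w : G, U ≤ cj w (P ⊔ T) := by
  have hpp : p.Prime := Fact.out
  have hcardP : ∀ r : ℕ, r.Prime → r ∣ Nat.card P → r = p := by
    intro r hr hd
    obtain ⟨n, hn⟩ := IsPGroup.iff_card.1 hP
    rw [hn] at hd
    exact (Nat.prime_dvd_prime_iff_eq hr hpp).1 (hr.dvd_of_dvd_pow hd)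
  have hPidx : ¬ p ∣ P.index := by
    intro hd
    have h1 := hd.trans (index_dvd_sup P T hc)
    rcases (Nat.Prime.dvd_mul hpp).1 h1 with h2 | h2
    · exact hX p hpp (Or.inl rfl) h2
    · exact hpτ (hT p hpp h2)
  have hc' : ∀ a ∈ T, ∀ b ∈ P, a * b = b * a := fun a ha b hb => (hc b hb a ha).symm
  have hTidx : ∀ r : ℕ, r.Prime → r ∈ τ → ¬ r ∣ T.index := by
    intro r hr hrτ hd
    have h1 := hd.trans (index_dvd_sup T P hc')
    rw [sup_comm] at h1
    rcases (Nat.Prime.dvd_mul hr).1 h1 with h2 | h2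
    · exact hX r hr (Or.inr hrτ) h2
    · have := hcardP r hr h2
      exact hpτ (this ▸ hrτ)
  have hTmax := maximal_of_hall hT hTidx
  -- Sylow conjugates
  have hPconj : ∀ Q : Subgroup G, IsPGroup p Q → ∃ g : G, Q ≤ cj g P := by
    intro Q hQ
    obtain ⟨S, hS⟩ := hQ.exists_le_sylow
    obtain ⟨g, hg⟩ := MulAction.exists_smul_eq G (hP.toSylow hPidx) S
    refine ⟨g, fun x hx => ?_⟩
    have h1 : x ∈ (S : Subgroup G) := hS hx
    rw [← hg, Sylow.coe_subgroup_smul, Subgroup.mem_pointwise_smul_iff_inv_smul_mem] at h1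
    rw [mem_cj]
    have h2 : (MulAut.conj g)⁻¹ • x = g⁻¹ * x * g := by
      simp [MulAut.smul_def, MulAut.conj_symm_apply]
    rw [h2] at h1
    exact h1
  have hcjc : ∀ g : G, ∀ a ∈ cj g P, ∀ b ∈ cj g T, a * b = b * a := by
    intro g a ha b hb
    rw [mem_cj] at ha hb
    have h1 := hc _ ha _ hb
    have h2 : g⁻¹ * a * g * (g⁻¹ * b * g) = g⁻¹ * (a * b) * g := by group
    have h3 : g⁻¹ * b * g * (g⁻¹ * a * g) = g⁻¹ * (b * a) * g := by group
    rw [h2, h3] at h1
    have h4 := mul_right_cancel h1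
    exact mul_left_cancel h4
  have hkey1 : ∀ Q : Subgroup G, IsPGroup p Q → ∀ x ∈ Subgroup.normalizer (Q : Set G),
      (∀ r : ℕ, r.Prime → r ∣ orderOf x → r ∈ τ) → x ∈ Subgroup.centralizer (Q : Set G) := by
    intro Q hQ x hx hord
    obtain ⟨g, hg⟩ := hPconj Q hQ
    refine automizer_lemma Q (cj g T) ?_ hx ?_
    · intro a ha
      rw [Subgroup.mem_centralizer_iff]
      intro y hy
      exact hcjc g y (hg hy) a ha
    · intro r hr hd
      rw [index_cj]
      exact hTidx r hr (hord r hr hd)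
  have hkey2 : ∀ K : Subgroup G, IsPiSubgroup τ K → ∀ x ∈ Subgroup.normalizer (K : Set G),
      (∀ r : ℕ, r.Prime → r ∣ orderOf x → r = p) → x ∈ Subgroup.centralizer (K : Set G) := by
    intro K hK x hx hord
    obtain ⟨g, hg⟩ := exists_conj_of_dpi hTmax hD hK
    refine automizer_lemma K (cj g P) ?_ hx ?_
    · intro a ha
      rw [Subgroup.mem_centralizer_iff]
      intro y hy
      exact (hcjc g a ha y (hg hy)).symm
    · intro r hr hd
      rw [index_cj, hord r hr hd]
      exact hPidx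
  -- Frobenius on U
  have hF : H13.FrobCond p U := by
    intro Q hQ y hy hcop
    have hQ0 : IsPGroup p (Q.map U.subtype) := hQ.map _
    have hmem : ((y : U) : G) ∈ Subgroup.normalizer ((Q.map U.subtype : Subgroup G) : Set G) := by
      rw [Subgroup.mem_normalizer_iff]
      intro z
      constructor
      · rintro ⟨z', hz', rfl⟩
        refine ⟨y * z' * y⁻¹, (Subgroup.mem_normalizer_iff.1 hy z').1 hz', ?_⟩
        simp
      · rintro ⟨z', hz', hz''⟩
        have hzU : z ∈ U := by
          have h1 : z = (y : G)⁻¹ * z' * y := by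
            have h2 : (U.subtype z' : G) = y * z * (y : G)⁻¹ := hz''
            have h3 : (z' : G) = y * z * (y : G)⁻¹ := h2
            rw [h3]; group
          rw [h1]
          exact U.mul_mem (U.mul_mem (U.inv_mem y.2) z'.2) y.2
        refine ⟨⟨z, hzU⟩, (Subgroup.mem_normalizer_iff.1 hy ⟨z, hzU⟩).2 ?_, rfl⟩
        have : y * ⟨z, hzU⟩ * y⁻¹ = z' := Subtype.ext (by simpa using hz''.symm)
        rw [this]
        exact hz'
    have hcen := hkey1 _ hQ0 _ hmem (by
      intro r hr hd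
      have h1 : r ∣ Nat.card U := by
        have h2 : orderOf ((y : U) : G) = orderOf y := Subgroup.orderOf_coe y
        rw [h2] at hd
        exact hd.trans (orderOf_dvd_natCard y)
      rcases hU r hr h1 with h2 | h2
      · exfalso
        rw [h2] at hd
        have h3 : orderOf ((y : U) : G) = orderOf y := Subgroup.orderOf_coe y
        rw [h3] at hd
        have := Nat.Coprime.eq_one_of_dvd hcop.symm hd
        exact hpp.one_lt.ne' this
      · exact h2)
    rw [Subgroup.mem_centralizer_iff] at hcen ⊢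
    intro q hq
    have h1 := hcen q ⟨q, hq, rfl⟩
    exact Subtype.ext h1
  obtain ⟨QU, L, hLn, hcomp⟩ := H13.hasNormalPComplement_of_frobCond hF
  let L₀ : Subgroup G := L.map U.subtype
  let Q₀ : Subgroup G := (QU : Subgroup U).map U.subtype
  have hcardL₀ : Nat.card L₀ = Nat.card L :=
    Subgroup.card_map_of_injective U.subtype_injective
  have hpL : ¬ p ∣ Nat.card L := by
    have h1 : (QU : Subgroup U).index = Nat.card L := hcomp.index_eq_card
    rw [← h1]
    exact QU.not_dvd_index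
  have hL₀τ : IsPiSubgroup τ L₀ := by
    intro r hr hd
    rw [hcardL₀] at hd
    rcases hU r hr (hd.trans (Subgroup.card_subgroup_dvd_card L)) with h | h
    · exact absurd (h ▸ hd) hpL
    · exact h
  have hQ₀p : IsPGroup p Q₀ := QU.isPGroup'.map _
  have hQ₀C : Q₀ ≤ Subgroup.centralizer (L₀ : Set G) := by
    intro q hq
    apply hkey2 L₀ hL₀τ q
    · obtain ⟨q', hq', rfl⟩ := hq
      rw [Subgroup.mem_normalizer_iff]
      intro z
      constructor
      · rintro ⟨z', hz', rfl⟩
        exact ⟨q' * z' * q'⁻¹, hLn.conj_mem z' hz' q', by simp⟩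
      · rintro ⟨z', hz', hz''⟩
        have hzU : z ∈ U := by
          have h1 : z = (q' : G)⁻¹ * z' * q' := by
            have h3 : (z' : G) = q' * z * (q' : G)⁻¹ := hz''
            rw [h3]; group
          rw [h1]
          exact U.mul_mem (U.mul_mem (U.inv_mem q'.2) z'.2) q'.2
        refine ⟨⟨z, hzU⟩, ?_, rfl⟩
        have : q'⁻¹ * z' * q'⁻¹⁻¹ = ⟨z, hzU⟩ := Subtype.ext (by
          have h3 : (z' : G) = q' * z * (q' : G)⁻¹ := hz''
          simp [h3]
          group)
        rw [← this]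
        exact hLn.conj_mem z' hz' q'⁻¹
    · intro r hr hd
      obtain ⟨k, hk⟩ := (IsPGroup.iff_orderOf.1 hQ₀p) ⟨q, hq⟩
      have h3 : orderOf q = p ^ k := by rw [← Subgroup.orderOf_mk q hq]; exact hk
      rw [h3] at hd
      exact (Nat.prime_dvd_prime_iff_eq hr hpp).1 (hr.dvd_of_dvd_pow hd)
  obtain ⟨g, hg⟩ := exists_conj_of_dpi hTmax hD hL₀τ
  let C : Subgroup G := Subgroup.centralizer (L₀ : Set G)
  have hPgC : cj g P ≤ C := by
    intro a ha
    rw [Subgroup.mem_centralizer_iff]
    intro y hy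
    exact (hcjc g a ha y (hg hy)).symm
  have hPgp : IsPGroup p (cj g P) := hP.map _
  have hPgidx : ¬ p ∣ (cj g P).index := by rw [index_cj]; exact hPidx
  let S₀ : Sylow p G := hPgp.toSylow hPgidx
  let S₀C : Sylow p C := S₀.subtype hPgC
  have hQ₀'p : IsPGroup p (Q₀.subgroupOf C) := hQ₀p.comap_subtype
  obtain ⟨S₁, hS₁⟩ := hQ₀'p.exists_le_sylow
  obtain ⟨h, hh⟩ := MulAction.exists_smul_eq C S₀C S₁
  have hQ₀h : ∀ q ∈ Q₀, (h : G)⁻¹ * q * h ∈ cj g P := by
    intro q hq
    have h1 : (⟨q, hQ₀C hq⟩ : C) ∈ (S₁ : Subgroup C) := hS₁ (by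
      rw [Subgroup.mem_subgroupOf]; exact hq)
    rw [← hh, Sylow.coe_subgroup_smul, Subgroup.mem_pointwise_smul_iff_inv_smul_mem] at h1
    have h2 : (MulAut.conj h)⁻¹ • (⟨q, hQ₀C hq⟩ : C) = h⁻¹ * ⟨q, hQ₀C hq⟩ * h := by
      simp [MulAut.smul_def, MulAut.conj_symm_apply]
    rw [h2] at h1
    have h3 : (h⁻¹ * ⟨q, hQ₀C hq⟩ * h : C) ∈ ((S₀ : Subgroup G).subgroupOf C) := h1
    rw [Subgroup.mem_subgroupOf] at h3
    have h4 : (((h⁻¹ * ⟨q, hQ₀C hq⟩ * h : C)) : G) ∈ cj g P := h3
    have e : (((h⁻¹ * ⟨q, hQ₀C hq⟩ * h : C)) : G) = (h : G)⁻¹ * q * h := by simp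
    rw [← e]
    exact h4
  refine ⟨h * g, ?_⟩
  have hLX : L₀ ≤ cj (h * g) (P ⊔ T) := by
    intro l hl
    rw [mem_cj]
    have h1 : (h : G)⁻¹ * l * h = l := by
      have h2 := Subgroup.mem_centralizer_iff.1 h.2 l hl
      rw [mul_assoc, h2]; group
    have h2 : (h * g : G)⁻¹ * l * (h * g) = g⁻¹ * ((h : G)⁻¹ * l * h) * g := by group
    rw [h2, h1]
    exact (le_sup_right : T ≤ P ⊔ T) (mem_cj.1 (hg hl))
  have hQX : Q₀ ≤ cj (h * g) (P ⊔ T) := by
    intro q hq
    rw [mem_cj]
    have h2 : (h * g : G)⁻¹ * q * (h * g) = g⁻¹ * ((h : G)⁻¹ * q * h) * g := by group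
    rw [h2]
    exact (le_sup_left : P ≤ P ⊔ T) (mem_cj.1 (hQ₀h q hq))
  intro u hu
  have h1 : (⟨u, hu⟩ : U) ∈ L ⊔ (QU : Subgroup U) := by
    rw [hcomp.sup_eq_top]; trivial
  haveI := hLn
  obtain ⟨l, hl, q, hq, hlq⟩ := Subgroup.mem_sup_of_normal_left.1 h1
  have h2 : u = (l : G) * (q : G) := by
    have := congrArg Subtype.val hlq
    simpa using this.symm
  rw [h2]
  exact Subgroup.mul_mem _ (hLX ⟨l, hl, rfl⟩) (hQX ⟨q, hq, rfl⟩)

/-- Splitting a nilpotent subgroup at a prime. -/
private lemma split_nilpotent (S : Subgroup G) (hS : Group.IsNilpotent S) {p : ℕ} [Fact p.Prime]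
    (hd : p ∣ Nat.card S) :
    ∃ P S₁ : Subgroup G, IsPGroup p P ∧ ¬ p ∣ Nat.card S₁ ∧ Nat.card S₁ < Nat.card S ∧
      P ⊔ S₁ = S ∧ (∀ a ∈ P, ∀ b ∈ S₁, a * b = b * a) ∧ Group.IsNilpotent S₁ ∧
      Nat.card S₁ ∣ Nat.card S := by
  have hpp : p.Prime := Fact.out
  obtain ⟨P⟩ : Nonempty (Sylow p S) := inferInstance
  haveI hPn : (P : Subgroup S).Normal :=
    Group.isNilpotent_of_finite_tfae.out 0 3 rfl rfl |>.mp hS p inferInstance P
  have hcop : Nat.Coprime (Nat.card (P : Subgroup S)) (P : Subgroup S).index := P.card_coprime_index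
  obtain ⟨K, hK⟩ := Subgroup.exists_right_complement'_of_coprime hcop
  have hKcard : Nat.card K = (P : Subgroup S).index := hK.symm.index_eq_card.symm
  have hpK : ¬ p ∣ Nat.card K := by
    rw [hKcard]; exact P.not_dvd_index
  have hcardmul : Nat.card (P : Subgroup S) * Nat.card K = Nat.card S := hK.card_mul
  have hcoprime : Nat.Coprime (Nat.card (P : Subgroup S)) (Nat.card K) := by
    rw [hKcard]; exact hcop
  have hpP : p ∣ Nat.card (P : Subgroup S) := by
    rw [← hcardmul] at hd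
    rcases (Nat.Prime.dvd_mul hpp).1 hd with h | h
    · exact h
    · exact absurd h hpK
  have hPcard : 1 < Nat.card (P : Subgroup S) := by
    have := Nat.le_of_dvd Nat.card_pos hpP
    have := hpp.one_lt
    omega
  refine ⟨(P : Subgroup S).map S.subtype, K.map S.subtype, P.isPGroup'.map _, ?_, ?_, ?_, ?_, ?_, ?_⟩
  · rw [Subgroup.card_map_of_injective S.subtype_injective]
    exact hpK
  · rw [Subgroup.card_map_of_injective S.subtype_injective, ← hcardmul]
    have h1 : 0 < Nat.card K := Nat.card_pos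
    nlinarith
  · rw [← Subgroup.map_sup, hK.sup_eq_top, ← MonoidHom.range_eq_map, Subgroup.range_subtype]
  · rintro _ ⟨a, ha, rfl⟩ _ ⟨b, hb, rfl⟩
    have h1 : orderOf a ∣ Nat.card (P : Subgroup S) := by
      rw [← Subgroup.orderOf_mk a ha]
      exact orderOf_dvd_natCard _
    have h2 : orderOf b ∣ Nat.card K := by
      rw [← Subgroup.orderOf_mk b hb]
      exact orderOf_dvd_natCard _
    have h3 := H08.nilpotent_coprime_commute (Nat.Coprime.coprime_dvd_left h1
      (Nat.Coprime.coprime_dvd_right h2 hcoprime))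
    exact congrArg Subtype.val h3
  · exact nilpotent_of_mulEquiv (K.equivMapOfInjective S.subtype S.subtype_injective)
  · rw [Subgroup.card_map_of_injective S.subtype_injective, ← hcardmul]
    exact Dvd.intro_left _ rfl

private theorem iter (π : Set ℕ) (H : Subgroup G) (hH : IsPiHall π H) :
    ∀ (n : ℕ) (S T : Subgroup G) (τ : Set ℕ), Nat.card S = n → Group.IsNilpotent S →
      IsPiSubgroup τ T → (∀ r : ℕ, r.Prime → r ∣ Nat.card S → r ∉ τ) → (∀ r ∈ τ, r ∈ π) →
      S ⊔ T = H → (∀ a ∈ S, ∀ b ∈ T, a * b = b * a) → IsDPiGroup τ G →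
      ∀ U : Subgroup G, IsPiSubgroup π U → ∃ g : G, U ≤ cj g H := by
  intro n
  induction n using Nat.strong_induction_on with
  | _ n ih =>
    intro S T τ hn hS hT hSτ hτπ hST hc hD U hU
    have hHidx : ∀ r : ℕ, r.Prime → r ∈ π → ¬ r ∣ H.index := hH.2
    by_cases hS1 : Nat.card S = 1
    · -- base case
      have hbot : S = ⊥ := Subgroup.eq_bot_of_card_eq S hS1
      have hTH : T = H := by rw [← hST, hbot, bot_sup_eq]
      subst hTH
      have hTmax := maximal_of_hall hT (fun r hr hrτ => hHidx r hr (hτπ r hrτ))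
      refine exists_conj_of_dpi hTmax hD ?_
      intro r hr hd
      have h1 : r ∈ π := hU r hr hd
      have h2 : r ∣ T.index * Nat.card T := by
        rw [Subgroup.index_mul_card]
        exact hd.trans (Subgroup.card_subgroup_dvd_card U)
      rcases (Nat.Prime.dvd_mul hr).1 h2 with h3 | h3
      · exact absurd h3 (hHidx r hr h1)
      · exact hT r hr h3
    · obtain ⟨p, hp, hpd⟩ := Nat.exists_prime_and_dvd hS1
      haveI := Fact.mk hp
      obtain ⟨P, S₁, hP, hpS₁, hlt, hsup, hcPS, hnil, hdvd⟩ := split_nilpotent S hS hpd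
      have hPS : P ≤ S := hsup ▸ le_sup_left
      have hS₁S : S₁ ≤ S := hsup ▸ le_sup_right
      have hpτ : p ∉ τ := hSτ p hp hpd
      have hcardP : ∀ r : ℕ, r.Prime → r ∣ Nat.card P → r = p := by
        intro r hr hd
        obtain ⟨n, hn⟩ := IsPGroup.iff_card.1 hP
        rw [hn] at hd
        exact (Nat.prime_dvd_prime_iff_eq hr hp).1 (hr.dvd_of_dvd_pow hd)
      have hcPT : ∀ a ∈ P, ∀ b ∈ T, a * b = b * a := fun a ha b hb => hc a (hPS ha) b hb
      have hS₁X : ∀ a ∈ (P ⊔ T : Subgroup G), ∀ b ∈ S₁, a * b = b * a := by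
        intro a ha b hb
        have hle : (P ⊔ T : Subgroup G) ≤ Subgroup.centralizer ({b} : Set G) := by
          apply sup_le
          · intro x hx
            rw [Subgroup.mem_centralizer_singleton_iff]
            exact hcPS x hx b hb
          · intro x hx
            rw [Subgroup.mem_centralizer_singleton_iff]
            exact (hc b (hS₁S hb) x hx).symm
        exact Subgroup.mem_centralizer_singleton_iff.1 (hle ha)
      have hHeq : (P ⊔ T) ⊔ S₁ = H := by
        rw [← hST, ← hsup]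
        rw [sup_assoc, sup_comm T S₁, ← sup_assoc]
      have hXidx : ∀ r : ℕ, r.Prime → (r = p ∨ r ∈ τ) → ¬ r ∣ (P ⊔ T : Subgroup G).index := by
        intro r hr hrr hd
        have h1 := hd.trans (index_dvd_sup (P ⊔ T) S₁ hS₁X)
        rw [hHeq] at h1
        have hrπ : r ∈ π := by
          rcases hrr with rfl | h
          · apply hH.1 r hr
            refine hpd.trans (Subgroup.card_dvd_of_le ?_)
            rw [← hST]
            exact le_sup_left
          · exact hτπ r h
        rcases (Nat.Prime.dvd_mul hr).1 h1 with h2 | h2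
        · exact hHidx r hr hrπ h2
        · rcases hrr with rfl | h
          · exact hpS₁ h2
          · exact hSτ r hr (h2.trans hdvd) h
      have hXpi : IsPiSubgroup (insert p τ) (P ⊔ T) := by
        intro r hr hd
        have h1 := hd.trans (card_sup_dvd P T hcPT)
        rcases (Nat.Prime.dvd_mul hr).1 h1 with h2 | h2
        · left; exact hcardP r hr h2
        · right; exact hT r hr h2
      have hD₁ : IsDPiGroup (insert p τ) G := by
        refine dpi_of_conj hXpi (fun V hV => ?_)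
        exact step hpτ P T hP hT hcPT hXidx hD V (fun r hr hd => hV r hr hd)
      refine ih (Nat.card S₁) (hn ▸ hlt) S₁ (P ⊔ T) (insert p τ) rfl hnil hXpi ?_ ?_ ?_ ?_ hD₁ U hU
      · intro r hr hd hmem
        rcases hmem with rfl | h
        · exact hpS₁ hd
        · exact hSτ r hr (hd.trans hdvd) h
      · intro r hr
        rcases hr with rfl | h
        · apply hH.1 r hp
          refine hpd.trans (Subgroup.card_dvd_of_le ?_)
          rw [← hST]
          exact le_sup_left
        · exact hτπ r h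
      · rw [sup_comm]; exact hHeq
      · intro a ha b hb
        exact (hS₁X b hb a ha).symm

/-- Let σ and τ be disjoint sets of primes with union π. Suppose a finite group G has a Hall π-subgroup H which is the direct product of a nilpotent σ-subgroup and a τ-subgroup (two elementwise-commuting subgroups generating H), and that the maximal τ-subgroups of G are pairwise conjugate. Then the maximal π-subgroups of G are pairwise conjugate. -/
theorem result {G : Type*} [Group G] [Finite G]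
    (σ τ π : Set ℕ) (hπ : π = σ ∪ τ) (hd : Disjoint σ τ) (H Hs Ht : Subgroup G) (hH : Cfsg.IsPiHall π H)
    (hs : Cfsg.IsPiSubgroup σ Hs) (ht : Cfsg.IsPiSubgroup τ Ht) (hsn : Group.IsNilpotent Hs)
    (hjoin : Hs ⊔ Ht = H) (hcomm : ∀ a ∈ Hs, ∀ b ∈ Ht, a * b = b * a) (hD : Cfsg.IsDPiGroup τ G) :
    Cfsg.IsDPiGroup π G := by
  refine dpi_of_conj (H := H) hH.1 (fun U hU => ?_)
  refine iter π H hH _ Hs Ht τ rfl hsn ht ?_ ?_ hjoin hcomm hD U hU
  · intro r hr hdvd hτ
    exact Set.disjoint_left.1 hd (hs r hr hdvd) hτ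
  · intro r hr
    rw [hπ]
    exact Or.inr hr

end Cfsg.Agent.S4334
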