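import Cfsg.Statements.S4337
import Cfsg.Agent.Lib.Lead.Burnside

set_option autoImplicit false
open Cfsg

namespace Cfsg.Agent.S4337

open Subgroup

variable {α : Type} [Fintype α] [DecidableEq α]

theorem perm_solvable (T : Finset α) (hT : T.card ≤ 4) : Group.IsSolvable (Equiv.Perm T) := by
  have hc : Nat.card (Equiv.Perm T) = (T.card).factorial := by
    rw [Nat.card_eq_fintype_card, Fintype.card_perm, Fintype.card_coe]
  have key : ∃ a b : ℕ, (T.card).factorial = 2 ^ a * 3 ^ b := by
    generalize T.card = k at hT
    interval_cases k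
    · exact ⟨0, 0, by decide⟩
    · exact ⟨0, 0, by decide⟩
    · exact ⟨1, 0, by decide⟩
    · exact ⟨1, 1, by decide⟩
    · exact ⟨3, 1, by decide⟩
  obtain ⟨a, b, hab⟩ := key
  exact Cfsg.Agent.Lead.burnside_two_prime 2 3 a b (by norm_num) (by norm_num) (hc.trans hab)

/-- permutations fixing the complement of `T` -/
def fixC (T : Finset α) : Subgroup (Equiv.Perm α) where
  carrier := {σ | ∀ x, x ∉ T → σ x = x}
  mul_mem' := by
    intro σ τ hσ hτ x hx
    simp only [Equiv.Perm.coe_mul, Function.comp_apply]
    rw [hτ x hx, hσ x hx]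
  one_mem' := fun x _ => rfl
  inv_mem' := by
    intro σ hσ x hx
    rw [Equiv.Perm.inv_eq_iff_eq]
    exact (hσ x hx).symm

theorem mem_fixC {T : Finset α} {σ : Equiv.Perm α} : σ ∈ fixC T ↔ ∀ x, x ∉ T → σ x = x := Iff.rfl

theorem fixC_iff (T : Finset α) (σ : fixC T) (x : α) : (σ : Equiv.Perm α) x ∈ T ↔ x ∈ T := by
  constructor
  · intro h
    by_contra hx
    rw [σ.2 x hx] at h
    exact hx h
  · intro h
    by_contra hx
    have h1 := σ.2 _ hx
    have h2 := (σ : Equiv.Perm α).injective h1
    rw [h2] at hx
    exact hx h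

/-- restriction to `T` -/
def resT (T : Finset α) : fixC T →* Equiv.Perm T where
  toFun σ := (σ : Equiv.Perm α).subtypePerm (fun x => by
    exact fixC_iff T σ x)
  map_one' := by ext x; rfl
  map_mul' := by intro σ τ; ext x; rfl

theorem resT_inj (T : Finset α) : Function.Injective (resT T) := by
  intro σ τ h
  apply Subtype.ext
  ext x
  by_cases hx : x ∈ T
  · have := congrArg (fun f : Equiv.Perm T => ((f ⟨x, hx⟩ : T) : α)) h
    simpa [resT] using this
  · rw [σ.2 x hx, τ.2 x hx]

theorem fixC_solvable (T : Finset α) (hT : T.card ≤ 4) : Group.IsSolvable (fixC T) := by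
  haveI := perm_solvable T hT
  exact Group.isSolvable_of_isSolvable_injective (resT_inj T)

theorem mem_fixC_of_support {T : Finset α} {σ : Equiv.Perm α} (h : σ.support ⊆ T) : σ ∈ fixC T := by
  intro x hx
  by_contra hne
  exact hx (h (Equiv.Perm.mem_support.mpr hne))

theorem closure_pair_solvable (a b : Equiv.Perm α) (h : (a.support ∪ b.support).card ≤ 4) :
    Group.IsSolvable (closure ({a, b} : Set (Equiv.Perm α))) := by
  haveI := fixC_solvable _ h
  have hle : closure ({a, b} : Set (Equiv.Perm α)) ≤ fixC (a.support ∪ b.support) := by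
    rw [closure_le]
    rintro x (rfl | rfl)
    · exact mem_fixC_of_support Finset.subset_union_left
    · exact mem_fixC_of_support Finset.subset_union_right
  exact Group.isSolvable_of_isSolvable_injective (Subgroup.inclusion_injective hle)

theorem closure_triple_solvable (a b c : Equiv.Perm α) (h : (a.support ∪ b.support ∪ c.support).card ≤ 4) :
    Group.IsSolvable (closure ({a, b, c} : Set (Equiv.Perm α))) := by
  haveI := fixC_solvable _ h
  have hle : closure ({a, b, c} : Set (Equiv.Perm α)) ≤ fixC (a.support ∪ b.support ∪ c.support) := by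
    rw [closure_le]
    rintro x (rfl | rfl | rfl)
    · exact mem_fixC_of_support (Finset.subset_union_left.trans Finset.subset_union_left)
    · exact mem_fixC_of_support (Finset.subset_union_right.trans Finset.subset_union_left)
    · exact mem_fixC_of_support Finset.subset_union_right
  exact Group.isSolvable_of_isSolvable_injective (Subgroup.inclusion_injective hle)

theorem core (a b c : Equiv.Perm α) (hab : (a.support ∪ b.support).card ≤ 4)
    (hca : Commute a c) (hcb : Commute b c) :
    Group.IsSolvable (closure ({a, b, c} : Set (Equiv.Perm α))) := by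
  classical
  let L := closure ({a, b} : Set (Equiv.Perm α))
  haveI hL : Group.IsSolvable L := closure_pair_solvable a b hab
  haveI hZ : Group.IsSolvable (zpowers c) :=
    Group.isSolvable_of_comm (fun x y => (inferInstance : IsMulCommutative (zpowers c)).is_comm.comm x y)
  have hcomm : ∀ (m : L) (n : zpowers c), Commute (L.subtype m) ((zpowers c).subtype n) := by
    intro m n
    obtain ⟨m, hm⟩ := m
    obtain ⟨n, k, rfl⟩ := n
    apply Commute.zpow_right
    show Commute m c
    have h1 : L ≤ centralizer ({c} : Set (Equiv.Perm α)) := by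
      rw [show L = closure ({a, b} : Set (Equiv.Perm α)) from rfl, closure_le]
      rintro x (rfl | rfl)
      · exact mem_centralizer_singleton_iff.mpr hca.eq
      · exact mem_centralizer_singleton_iff.mpr hcb.eq
    exact mem_centralizer_singleton_iff.mp (h1 hm)
  let f : L × zpowers c →* Equiv.Perm α := MonoidHom.noncommCoprod L.subtype (zpowers c).subtype hcomm
  haveI : Group.IsSolvable f.range := by
    exact Group.isSolvable_of_surjective f.rangeRestrict_surjective
  have hle : closure ({a, b, c} : Set (Equiv.Perm α)) ≤ f.range := by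
    rw [closure_le]
    rintro x (rfl | rfl | rfl)
    · exact ⟨(⟨x, subset_closure (by simp)⟩, 1), by simp [f]⟩
    · exact ⟨(⟨x, subset_closure (by simp)⟩, 1), by simp [f]⟩
    · exact ⟨(1, ⟨x, mem_zpowers x⟩), by simp [f]⟩
  exact Group.isSolvable_of_isSolvable_injective (Subgroup.inclusion_injective hle)

theorem disj_aux (A B C : Finset α) (hA : A.card = 2) (hB : B.card = 2) (hC : C.card = 2)
    (hcard : 4 < (A ∪ B ∪ C).card) (hAB : (A ∩ B).Nonempty) : Disjoint C A ∧ Disjoint C B ∧ (A ∪ B).card ≤ 4 := by
  have h1 := Finset.card_union_add_card_inter A B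
  have h2 : 0 < (A ∩ B).card := Finset.card_pos.mpr hAB
  have h3 := Finset.card_union_add_card_inter (A ∪ B) C
  have h4 : (A ∪ B).card ≤ 3 := by omega
  have h5 : ((A ∪ B) ∩ C).card = 0 := by omega
  rw [Finset.card_eq_zero] at h5
  have h6 : Disjoint (A ∪ B) C := Finset.disjoint_iff_inter_eq_empty.mpr h5
  rw [Finset.disjoint_union_left] at h6
  exact ⟨h6.1.symm, h6.2.symm, by omega⟩

/-- In a finite symmetric group, any three transpositions generate a solvable subgroup. -/
theorem result (n : ℕ) (a b c : Equiv.Perm (Fin n))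
    (ha : a.IsSwap) (hb : b.IsSwap) (hc : c.IsSwap) :
    Group.IsSolvable (Subgroup.closure ({a, b, c} : Set (Equiv.Perm (Fin n)))) := by
  classical
  by_cases hT : (a.support ∪ b.support ∪ c.support).card ≤ 4
  · exact closure_triple_solvable a b c hT
  push Not at hT
  have hA := Equiv.Perm.card_support_eq_two.mpr ha
  have hB := Equiv.Perm.card_support_eq_two.mpr hb
  have hC := Equiv.Perm.card_support_eq_two.mpr hc
  have hcomm : ∀ x y : Equiv.Perm (Fin n), Disjoint x.support y.support → Commute x y := fun x y h =>
    (Equiv.Perm.disjoint_iff_disjoint_support.mpr h).commute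
  by_cases h1 : (a.support ∩ b.support).Nonempty
  · obtain ⟨h2, h3, h4⟩ := disj_aux _ _ _ hA hB hC hT h1
    exact core a b c h4 (hcomm _ _ h2.symm) (hcomm _ _ h3.symm)
  by_cases h2 : (a.support ∩ c.support).Nonempty
  · have hT' : 4 < (a.support ∪ c.support ∪ b.support).card := by
      rwa [Finset.union_right_comm]
    obtain ⟨h3, h4, h5⟩ := disj_aux _ _ _ hA hC hB hT' h2
    have h6 := core a c b h5 (hcomm _ _ h3.symm) (hcomm _ _ h4.symm)
    rwa [show ({a, c, b} : Set (Equiv.Perm (Fin n))) = {a, b, c} by
      rw [Set.pair_comm c b]] at h6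
  by_cases h3 : (b.support ∩ c.support).Nonempty
  · have hT' : 4 < (b.support ∪ c.support ∪ a.support).card := by
      rw [Finset.union_comm (b.support ∪ c.support), ← Finset.union_assoc]
      exact hT
    obtain ⟨h4, h5, h6⟩ := disj_aux _ _ _ hB hC hA hT' h3
    have h7 := core b c a h6 (hcomm _ _ h4.symm) (hcomm _ _ h5.symm)
    rwa [show ({b, c, a} : Set (Equiv.Perm (Fin n))) = {a, b, c} by
      ext x; simp only [Set.mem_insert_iff, Set.mem_singleton_iff]; tauto
      ] at h7
  -- all disjoint
  rw [Finset.not_nonempty_iff_eq_empty] at h1 h2 h3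
  have h4 : Disjoint a.support c.support := Finset.disjoint_iff_inter_eq_empty.mpr h2
  have h5 : Disjoint b.support c.support := Finset.disjoint_iff_inter_eq_empty.mpr h3
  have h6 : (a.support ∪ b.support).card ≤ 4 := by
    have := Finset.card_union_le a.support b.support
    omega
  exact core a b c h6 (hcomm _ _ h4) (hcomm _ _ h5)

end Cfsg.Agent.S4337
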