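import Cfsg.Statements.S4341
import Cfsg.Agent.Lib.H20.SylowNumber

set_option autoImplicit false
open Cfsg

namespace Cfsg.Agent.S4341

theorem result {G : Type*} [Group G] [Finite G]
    (p : ℕ) [Fact p.Prime] (K : Subgroup G) [K.Normal] (P : Sylow p G) (N : Subgroup G)
    (hN : N = ((P : Subgroup G) ⊔ K) ⊓ Subgroup.normalizer (((P : Subgroup G) ⊓ K : Subgroup G) : Set G))
    [hn : (((P : Subgroup G) ⊓ K).subgroupOf N).Normal] :
    Nat.card (Sylow p G) =
      Nat.card (Sylow p (G ⧸ K)) * Nat.card (Sylow p K) * Nat.card (Sylow p (N ⧸ ((P : Subgroup G) ⊓ K).subgroupOf N)) := by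
  subst hN
  rw [H20.sylow_number_formula K P]
  congr 1
  have hPN : (P : Subgroup G) ≤ ((P : Subgroup G) ⊔ K) ⊓ Subgroup.normalizer (((P : Subgroup G) ⊓ K : Subgroup G) : Set G) := by
    refine le_inf le_sup_left ?_
    intro x hx
    apply H20.mem_normalizer_of_conj_le
    intro y hy
    exact ⟨(P : Subgroup G).mul_mem ((P : Subgroup G).mul_mem hx hy.1) ((P : Subgroup G).inv_mem hx),
      ‹K.Normal›.conj_mem y hy.2 x⟩
  refine (H20.card_sylow_quot_of_le _ (P.subtype hPN) ?_).symm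
  rw [Sylow.coe_subtype]
  intro x hx
  rw [Subgroup.mem_subgroupOf] at hx ⊢
  exact hx.1

end Cfsg.Agent.S4341
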