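import Cfsg.Statements.S4342

set_option autoImplicit false
open Cfsg

namespace Cfsg.Agent.S4342

variable {G : Type*} [Group G] [Finite G] (p : ℕ) [Fact p.Prime]

omit [Finite G] in
/-- Sylow subgroups of `G` are contained in a normal subgroup of index prime to `p`. -/
theorem sylow_le (H : Subgroup G) [H.Normal] (hp : ¬ p ∣ H.index) (P : Sylow p G) :
    (P : Subgroup G) ≤ H := by
  have hP : IsPGroup p ((P : Subgroup G).map (QuotientGroup.mk' H)) := P.isPGroup'.map _
  rw [← QuotientGroup.ker_mk' H, ← Subgroup.map_eq_bot_iff]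
  exact Subgroup.eq_bot_of_card_eq _ (by
    rcases hP.card_eq_or_dvd with h | h
    · exact h
    · exact absurd (h.trans ((Subgroup.card_subgroup_dvd_card _).trans (by rfl))) hp)

/-- Number of Sylow subgroups of a normal subgroup of index prime to `p`. -/
theorem card_sylow_normal (H : Subgroup G) [H.Normal] (hp : ¬ p ∣ H.index) :
    Nat.card (Sylow p H) = Nat.card (Sylow p G) := by
  symm
  refine Nat.card_eq_of_bijective (fun P : Sylow p G => P.subtype (sylow_le p H hp P)) ⟨?_, ?_⟩
  · intro P Q hPQ
    have h1 := congrArg (fun R : Sylow p H => (R : Subgroup H)) hPQ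
    simp only [Sylow.coe_subtype] at h1
    apply Sylow.ext
    have h2 := congrArg (fun R : Subgroup H => R.map H.subtype) h1
    simp only [Subgroup.map_subgroupOf_eq_of_le (sylow_le p H hp _)] at h2
    exact h2
  · intro Q
    have hQ : IsPGroup p ((Q : Subgroup H).map H.subtype) := Q.isPGroup'.map _
    obtain ⟨R, hR⟩ := hQ.exists_le_sylow
    refine ⟨R, ?_⟩
    apply Sylow.ext
    refine Q.3 (R.subtype (sylow_le p H hp R)).isPGroup' ?_
    rw [Sylow.coe_subtype]
    intro y hy
    rw [Subgroup.mem_subgroupOf]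
    exact hR ⟨y, hy, rfl⟩

/-- Number of Sylow subgroups modulo a central subgroup. -/
theorem card_sylow_quot_center (K : Type*) [Group K] [Finite K] :
    Nat.card (Sylow p (K ⧸ Subgroup.center K)) = Nat.card (Sylow p K) := by
  symm
  have hf : Function.Surjective (QuotientGroup.mk' (Subgroup.center K)) :=
    QuotientGroup.mk'_surjective _
  refine Nat.card_eq_of_bijective (fun P : Sylow p K => P.mapSurjective hf) ⟨?_, Sylow.mapSurjective_surjective hf p⟩
  have key : ∀ P Q : Sylow p K, P.mapSurjective hf = Q.mapSurjective hf → (P : Subgroup K) ≤ Q := by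
    intro P Q hPQ x hx
    have h1 : (x : K ⧸ Subgroup.center K) ∈ ((Q.mapSurjective hf : Sylow p _) : Subgroup _) := by
      rw [← hPQ, Sylow.coe_mapSurjective]
      exact ⟨x, hx, rfl⟩
    rw [Sylow.coe_mapSurjective] at h1
    obtain ⟨q, hq, hqx⟩ := h1
    have hz : q⁻¹ * x ∈ Subgroup.center K := QuotientGroup.eq.mp hqx
    set z := q⁻¹ * x with hzdef
    have hxq : x = q * z := by rw [hzdef]; group
    have hcomm : Commute q⁻¹ x := by
      have h2 : Commute q z := (Subgroup.mem_center_iff.mp hz q)
      have h3 : Commute q x := by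
        rw [hxq]; exact (Commute.refl q).mul_right h2
      exact h3.inv_left
    obtain ⟨a, ha⟩ := P.isPGroup' ⟨x, hx⟩
    obtain ⟨b, hb⟩ := Q.isPGroup' ⟨q, hq⟩
    have ha' : x ^ p ^ a = 1 := congrArg Subtype.val ha
    have hb' : q ^ p ^ b = 1 := congrArg Subtype.val hb
    have hzpow : z ^ p ^ (a + b) = 1 := by
      rw [hzdef, hcomm.mul_pow, inv_pow, pow_add, pow_mul', hb', one_pow, pow_mul, ha', one_pow]
      simp
    have hzn : (Subgroup.zpowers z).Normal := by
      refine ⟨fun w hw g => ?_⟩
      have : g * w * g⁻¹ = w := by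
        have hwc : w ∈ Subgroup.center K := (Subgroup.zpowers_le.mpr hz) hw
        have := (Subgroup.mem_center_iff.mp hwc g)
        rw [this]; simp
      rw [this]; exact hw
    have hzp : IsPGroup p (Subgroup.zpowers z) := by
      rw [IsPGroup.iff_card, Nat.card_zpowers]
      obtain ⟨j, _, hj⟩ := (Nat.dvd_prime_pow Fact.out).mp (orderOf_dvd_of_pow_eq_one hzpow)
      exact ⟨j, hj⟩
    have hzQ : z ∈ (Q : Subgroup K) := hzp.le_sylow_of_normal Q (Subgroup.mem_zpowers z)
    rw [hxq]
    exact Q.mul_mem hq hzQ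
  intro P Q hPQ
  have hle := key P Q hPQ
  exact (Sylow.ext (P.3 Q.isPGroup' hle)).symm

/-- Let H be a normal subgroup of a finite group G and p a prime not dividing the index of H. Then the number of Sylow p-subgroups of H/Z(H) equals the number of Sylow p-subgroups of G. -/
theorem result {G : Type*} [Group G] [Finite G]
    (p : ℕ) [Fact p.Prime] (H : Subgroup G) [H.Normal] (hp : ¬ p ∣ H.index) :
    Nat.card (Sylow p (H ⧸ Subgroup.center H)) = Nat.card (Sylow p G) := by
  rw [card_sylow_quot_center, card_sylow_normal p H hp]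

end Cfsg.Agent.S4342
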