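import Cfsg.Statements.S4343
import Cfsg.Agent.Lib.H20.TwoPOne
import Cfsg.Agent.Lib.H18.Syl
import Cfsg.Agent.Lib.H01.Fitting

set_option autoImplicit false
set_option linter.style.haveILetI false
set_option linter.unusedSectionVars false
open Cfsg

namespace Cfsg.Agent.S4343

open Cfsg.Agent.H20 Subgroup

variable {S : Type*} [Group S] [Finite S] {p : ℕ} [Fact p.Prime]

theorem relIndex_eq (hn : Nat.card (Sylow p S) < p ^ 2) (Q R : Sylow p S) (hne : Q ≠ R) :
    (R : Subgroup S).relIndex (Q : Subgroup S) = p := by
  have hp : p.Prime := Fact.out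
  have h1 := card_orbit_sylow Q R
  obtain ⟨j, hj⟩ := Q.isPGroup'.index ((R : Subgroup S).subgroupOf (Q : Subgroup S))
  have hj' : (R : Subgroup S).relIndex (Q : Subgroup S) = p ^ j := hj
  have hj0 : j ≠ 0 := by
    rintro rfl
    rw [pow_zero, Subgroup.relIndex_eq_one] at hj'
    apply hne
    exact Sylow.ext (Q.is_maximal' R.isPGroup' hj').symm
  have hle : (MulAction.orbit (Q : Subgroup S) R).ncard ≤ Nat.card (Sylow p S) := by
    rw [← Set.ncard_univ]
    exact Set.ncard_le_ncard (Set.subset_univ _) (Set.toFinite _)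
  rw [h1, hj'] at hle
  have hj2 : j < 2 := (Nat.pow_lt_pow_iff_right hp.one_lt).1 (lt_of_le_of_lt hle hn)
  have : j = 1 := by omega
  rw [hj', this, pow_one]

theorem card_inf (hn : Nat.card (Sylow p S) < p ^ 2) (Q R : Sylow p S) (hne : Q ≠ R) :
    Nat.card ((R : Subgroup S) ⊓ (Q : Subgroup S) : Subgroup S) * p = Nat.card (Q : Subgroup S) := by
  have h1 := Cfsg.Agent.H18.card_inf_mul_relIndex (R : Subgroup S) (Q : Subgroup S)
  rwa [relIndex_eq hn Q R hne] at h1

/-- The intersection with a Sylow subgroup, having index `p`, is normalized. -/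
theorem inf_normal (hn : Nat.card (Sylow p S) < p ^ 2) (Q R : Sylow p S) (hne : Q ≠ R)
    {u x : S} (hu : u ∈ (Q : Subgroup S)) (hx : x ∈ (Q : Subgroup S) ⊓ (R : Subgroup S)) :
    u * x * u⁻¹ ∈ (Q : Subgroup S) ⊓ (R : Subgroup S) := by
  have hp : p.Prime := Fact.out
  have h1 := relIndex_eq hn Q R hne
  have hQp : IsPGroup p (Q : Subgroup S) := Q.isPGroup'
  have hnormal : ((R : Subgroup S).subgroupOf (Q : Subgroup S)).Normal := by
    obtain ⟨k, hk⟩ := IsPGroup.iff_card.1 hQp
    apply Subgroup.normal_of_index_eq_minFac_card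
    have h2 : ((R : Subgroup S).subgroupOf (Q : Subgroup S)).index = p := h1
    have h3 : k ≠ 0 := by
      rintro rfl
      have := Subgroup.index_dvd_card ((R : Subgroup S).subgroupOf (Q : Subgroup S))
      rw [hk, pow_zero, h2] at this
      exact hp.one_lt.ne' (Nat.dvd_one.1 this)
    rw [h2, hk, Nat.Prime.pow_minFac hp h3]
  have h4 := hnormal.conj_mem ⟨x, hx.1⟩ (Subgroup.mem_subgroupOf.2 hx.2) ⟨u, hu⟩
  rw [Subgroup.mem_subgroupOf] at h4
  exact ⟨(Q : Subgroup S).mul_mem ((Q : Subgroup S).mul_mem hu hx.1) ((Q : Subgroup S).inv_mem hu), h4⟩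

/-- Let S be a finite non-abelian simple group and p a prime dividing its order. If S has fewer than p² Sylow p-subgroups, then its Sylow p-subgroups have order p. -/
theorem result {S : Type*} [Group S] [Finite S]
    [IsSimpleGroup S] (hS : ¬ IsMulCommutative S) (p : ℕ) [Fact p.Prime] (hp : p ∣ Nat.card S)
    (hn : Nat.card (Sylow p S) < p ^ 2) (P : Sylow p S) : Nat.card P = p := by
  classical
  have hpp : p.Prime := Fact.out
  letI : Fintype (Sylow p S) := Fintype.ofFinite _
  have hnotp : ¬ IsPGroup p S :=
    simple_not_pgroup inferInstance (fun hall => hS ⟨⟨fun a b => hall a b⟩⟩) p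
  -- a second Sylow subgroup
  obtain ⟨Q, hQ⟩ : ∃ Q : Sylow p S, Q ≠ P := by
    by_contra hall
    push Not at hall
    have hPn : (P : Subgroup S).Normal := by
      refine ⟨fun x hx g => ?_⟩
      have h1 := hall (g • P)
      have h2 : g * x * g⁻¹ ∈ ((g • P : Sylow p S) : Subgroup S) := by
        rw [mem_sylow_smul]
        simpa [mul_assoc] using hx
      rwa [h1] at h2
    rcases hPn.eq_bot_or_eq_top with h | h
    · exact (P.ne_bot_of_dvd_card hp) h
    · apply hnotp
      have h1 := P.isPGroup'
      rw [h] at h1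
      intro g
      obtain ⟨k, hk⟩ := h1 ⟨g, Subgroup.mem_top g⟩
      exact ⟨k, by simpa using congrArg Subtype.val hk⟩
  set D : Subgroup S := (P : Subgroup S) ⊓ (Q : Subgroup S) with hD
  have hcardD : Nat.card D * p = Nat.card (P : Subgroup S) := by
    have := card_inf hn P Q hQ.symm
    rwa [inf_comm] at this
  have hallcard : ∀ X : Sylow p S, Nat.card (X : Subgroup S) = Nat.card (P : Subgroup S) := fun X =>
    X.card_eq_multiplicity.trans P.card_eq_multiplicity.symm
  -- all Sylow subgroups contain `D`
  have hall : ∀ R : Sylow p S, D ≤ (R : Subgroup S) := by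
    by_contra hcon
    push Not at hcon
    obtain ⟨R, hR⟩ := hcon
    set L : Finset (Sylow p S) := Finset.univ.filter (fun X => D ≤ (X : Subgroup S)) with hL
    have hLmem : ∀ X, X ∈ L ↔ D ≤ (X : Subgroup S) := by simp [hL]
    have hLR : ∀ X ∈ L, X ≠ R := by
      rintro X hX rfl
      exact hR ((hLmem _).1 hX)
    -- intersections of members of `L`
    have hLinter : ∀ X ∈ L, ∀ Y ∈ L, X ≠ Y →
        (X : Subgroup S) ⊓ (Y : Subgroup S) = D := by
      intro X hX Y hY hne
      symm
      apply Subgroup.eq_of_le_of_card_ge (le_inf ((hLmem _).1 hX) ((hLmem _).1 hY))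
      have h1 := card_inf hn Y X hne.symm
      rw [hallcard Y, ← hcardD] at h1
      exact (Nat.eq_of_mul_eq_mul_right hpp.pos h1).le
    let f : Sylow p S → Subgroup S := fun X => (R : Subgroup S) ⊓ (X : Subgroup S)
    have hfinj : Set.InjOn f (L : Set (Sylow p S)) := by
      intro X hX Y hY hXY
      by_contra hne
      have hXR := hLR X hX
      have h1 := hLinter X hX Y hY hne
      have h2 : f X ≤ D := by
        rw [← h1]
        refine le_inf inf_le_right ?_
        show f X ≤ _
        rw [hXY]
        exact inf_le_right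
      have h3 : f X = D := by
        apply Subgroup.eq_of_le_of_card_ge h2
        have h4 := card_inf hn R X hXR.symm
        have h5 : Nat.card ((X : Subgroup S) ⊓ (R : Subgroup S) : Subgroup S) = Nat.card (f X) := by
          show _ = Nat.card ((R : Subgroup S) ⊓ (X : Subgroup S) : Subgroup S)
          rw [inf_comm]
        rw [h5, hallcard R, ← hcardD] at h4
        exact (Nat.eq_of_mul_eq_mul_right hpp.pos h4).ge
      apply hR
      rw [← h3]
      exact inf_le_left
    -- `L` is large
    have hLcard : p + 1 ≤ L.card := by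
      have hPL : P ∈ L := (hLmem _).2 inf_le_left
      have horb : MulAction.orbit (P : Subgroup S) Q ⊆ ((L.erase P : Finset (Sylow p S)) : Set (Sylow p S)) := by
        rintro _ ⟨u, rfl⟩
        rw [Finset.mem_coe, Finset.mem_erase]
        constructor
        · intro h
          apply hQ
          have h2 : (u : S)⁻¹ • ((u : S) • Q) = (u : S)⁻¹ • P := by
            rw [show ((u : S) • Q) = P from h]
          rw [inv_smul_smul] at h2
          rw [h2]
          exact smul_self_of_mem ((P : Subgroup S).inv_mem u.2)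
        · apply (hLmem _).2
          intro d hd
          show d ∈ (((u : S) • Q : Sylow p S) : Subgroup S)
          rw [mem_sylow_smul]
          have h3 := inf_normal hn P Q hQ.symm ((P : Subgroup S).inv_mem u.2) hd
          simp only [inv_inv] at h3
          exact h3.2
      have h4 := Set.ncard_le_ncard horb (Finset.finite_toSet _)
      rw [card_orbit_sylow, relIndex_eq hn P Q hQ.symm, Set.ncard_coe_finset, Finset.card_erase_of_mem hPL] at h4
      have : 0 < L.card := Finset.card_pos.2 ⟨P, hPL⟩
      omega
    -- the fibres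
    set T : Finset (Subgroup S) := L.image f with hT
    have hTcard : T.card = L.card := Finset.card_image_of_injOn hfinj
    let F : Subgroup S → Finset (Sylow p S) := fun t => Finset.univ.filter (fun X => X ≠ R ∧ f X = t)
    have hFcard : ∀ t ∈ T, p ≤ (F t).card := by
      intro t ht
      obtain ⟨X, hX, rfl⟩ := Finset.mem_image.1 ht
      have hXR := hLR X hX
      have horb : MulAction.orbit (R : Subgroup S) X ⊆ ((F (f X) : Finset (Sylow p S)) : Set (Sylow p S)) := by
        rintro _ ⟨u, rfl⟩
        simp only [F, Finset.coe_filter, Finset.mem_univ, true_and, Set.mem_ofPred_eq]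
        have hu' : ∀ v : (R : Subgroup S), (v : S) • X ≠ R := by
          intro v h
          apply hXR
          have h2 : (v : S)⁻¹ • ((v : S) • X) = (v : S)⁻¹ • R := by rw [h]
          rw [inv_smul_smul] at h2
          rw [h2]
          exact smul_self_of_mem ((R : Subgroup S).inv_mem v.2)
        refine ⟨hu' u, ?_⟩
        have hsub : ∀ v : (R : Subgroup S), f ((v : S) • X) ≤ f X := by
          intro v y hy
          refine ⟨hy.1, ?_⟩
          have h5 : (v : S)⁻¹ * y * v ∈ (X : Subgroup S) := (mem_sylow_smul _ _ _).1 hy.2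
          have h6 : (v : S)⁻¹ * y * v ∈ (R : Subgroup S) ⊓ (X : Subgroup S) :=
            ⟨(R : Subgroup S).mul_mem ((R : Subgroup S).mul_mem ((R : Subgroup S).inv_mem v.2) hy.1) v.2, h5⟩
          have h7 := inf_normal hn R X hXR.symm v.2 h6
          have e : (v : S) * ((v : S)⁻¹ * y * v) * (v : S)⁻¹ = y := by group
          rw [e] at h7
          exact h7.2
        apply le_antisymm (hsub u)
        have h8 := hsub (u⁻¹)
        intro y hy
        refine ⟨hy.1, ?_⟩
        show y ∈ (((u : S) • X : Sylow p S) : Subgroup S)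
        rw [mem_sylow_smul]
        have h6 : (u : S)⁻¹ * y * u ∈ (R : Subgroup S) ⊓ (X : Subgroup S) := by
          have h7 := inf_normal hn R X hXR.symm ((R : Subgroup S).inv_mem u.2) hy
          simpa using h7
        exact h6.2
      have h4 := Set.ncard_le_ncard horb (Finset.finite_toSet _)
      rwa [card_orbit_sylow, relIndex_eq hn R X hXR.symm, Set.ncard_coe_finset] at h4
    have hdisj : (T : Set (Subgroup S)).PairwiseDisjoint F := by
      intro t _ t' _ hne
      rw [Function.onFun, Finset.disjoint_left]
      intro X hX hX'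
      simp only [F, Finset.mem_filter, Finset.mem_univ, true_and] at hX hX'
      exact hne (hX.2.symm.trans hX'.2)
    have hbi := Finset.card_biUnion hdisj
    have hsum : T.card * p ≤ ∑ t ∈ T, (F t).card := by
      rw [← smul_eq_mul]
      exact Finset.card_nsmul_le_sum _ _ _ hFcard
    have hle : (T.biUnion F).card ≤ Nat.card (Sylow p S) := by
      rw [Nat.card_eq_fintype_card]
      exact Finset.card_le_univ _
    have : (p + 1) * p ≤ Nat.card (Sylow p S) := by
      calc (p + 1) * p ≤ T.card * p := Nat.mul_le_mul_right _ (by rw [hTcard]; exact hLcard)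
        _ ≤ ∑ t ∈ T, (F t).card := hsum
        _ = (T.biUnion F).card := hbi.symm
        _ ≤ _ := hle
    nlinarith
  -- `D` lies in `O_p(S)`
  have hDO : D ≤ pCore p S := by
    rw [Cfsg.Agent.H01.pCore_eq_iInf_sylow]
    exact le_iInf hall
  have hOn : (pCore p S).Normal := Cfsg.Agent.H01.pCore_normal p
  have hO : pCore p S = ⊥ := by
    rcases hOn.eq_bot_or_eq_top with h | h
    · exact h
    · exfalso
      apply hnotp
      have h1 : IsPGroup p (pCore p S) := Cfsg.Agent.H01.pCore_isPGroup p
      rw [h] at h1
      intro g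
      obtain ⟨k, hk⟩ := h1 ⟨g, Subgroup.mem_top g⟩
      exact ⟨k, by simpa using congrArg Subtype.val hk⟩
  rw [hO] at hDO
  have hD1 : D = ⊥ := le_bot_iff.1 hDO
  rw [hD1, Subgroup.card_bot, one_mul] at hcardD
  exact hcardD.symm

end Cfsg.Agent.S4343
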