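import Cfsg.Statements.S4344

set_option autoImplicit false
open Cfsg

namespace Cfsg.Agent.S4344

/-- Let S be a finite non-abelian simple group, M a maximal subgroup of S and C a cyclic normal subgroup of M. If a Sylow p-subgroup P of S (for a prime p dividing the order of S) is contained in C, then the number of Sylow p-subgroups of S equals the index of M. -/
theorem result {S : Type*} [Group S] [Finite S]
    [IsSimpleGroup S] (hS : ¬ IsMulCommutative S) (p : ℕ) [Fact p.Prime] (hp : p ∣ Nat.card S)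
    (M : Subgroup S) (hM : IsCoatom M) (C : Subgroup S) (hCM : C ≤ M) (hCn : (C.subgroupOf M).Normal)
    (hC : IsCyclic C) (P : Sylow p S) (hP : (P : Subgroup S) ≤ C) :
    Nat.card (Sylow p S) = M.index := by
  have hcommC : ∀ a b : C, a * b = b * a := fun a b => (IsCyclic.commGroup (α := C)).mul_comm a b
  -- p-elements of `C` lie in `P`
  have hmemP : ∀ y ∈ C, (∃ k : ℕ, y ^ (p ^ k) = 1) → y ∈ (P : Subgroup S) := by
    intro y hy ⟨k, hk⟩
    let P₁ : Sylow p C := P.subtype hP
    have hz : IsPGroup p (Subgroup.zpowers (⟨y, hy⟩ : C)) := by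
      rw [IsPGroup.iff_card, Nat.card_zpowers]
      have : orderOf (⟨y, hy⟩ : C) ∣ p ^ k := by
        apply orderOf_dvd_of_pow_eq_one
        exact Subtype.ext hk
      obtain ⟨j, _, hj⟩ := (Nat.dvd_prime_pow Fact.out).mp this
      exact ⟨j, hj⟩
    have : (Subgroup.zpowers (⟨y, hy⟩ : C)).Normal := ⟨fun x hx g => by
      rw [hcommC g x, mul_assoc, mul_inv_cancel, mul_one]; exact hx⟩
    have hle := hz.le_sylow_of_normal P₁
    have h1 : (⟨y, hy⟩ : C) ∈ (P₁ : Subgroup C) := hle (Subgroup.mem_zpowers _)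
    have h2 : (P₁ : Subgroup C) = (P : Subgroup S).subgroupOf C := Sylow.coe_subtype P hP
    rw [h2, Subgroup.mem_subgroupOf] at h1
    exact h1
  have hconj : ∀ m ∈ M, ∀ y ∈ (P : Subgroup S), m * y * m⁻¹ ∈ (P : Subgroup S) := by
    intro m hm y hy
    apply hmemP
    · have h1 := hCn.conj_mem (⟨y, hCM (hP hy)⟩ : M)
        (by rw [Subgroup.mem_subgroupOf]; exact hP hy) (⟨m, hm⟩ : M)
      rw [Subgroup.mem_subgroupOf] at h1
      exact h1
    · obtain ⟨n, hn⟩ := P.isPGroup' ⟨y, hy⟩
      refine ⟨n, ?_⟩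
      have hn' : y ^ p ^ n = 1 := congrArg Subtype.val hn
      rw [conj_pow, hn']
      simp
  have hMN : M ≤ Subgroup.normalizer (((P : Subgroup S)) : Set S) := by
    intro m hm
    rw [Subgroup.mem_normalizer_iff]
    intro y
    refine ⟨hconj m hm y, fun h => ?_⟩
    have := hconj m⁻¹ (M.inv_mem hm) _ h
    simpa [mul_assoc] using this
  have hne : Subgroup.normalizer (((P : Subgroup S)) : Set S) ≠ ⊤ := by
    intro htop
    have hPn : (P : Subgroup S).Normal := Subgroup.normalizer_eq_top_iff.mp htop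
    rcases hPn.eq_bot_or_eq_top with h | h
    · exact P.ne_bot_of_dvd_card hp h
    · apply hS
      have hCtop : C = ⊤ := top_le_iff.mp (h ▸ hP)
      refine ⟨⟨fun a b => ?_⟩⟩
      have := hcommC ⟨a, hCtop ▸ Subgroup.mem_top a⟩ ⟨b, hCtop ▸ Subgroup.mem_top b⟩
      exact congrArg Subtype.val this
  have heq : Subgroup.normalizer (((P : Subgroup S)) : Set S) = M := ((hM.le_iff.mp hMN).resolve_left hne)
  exact (Sylow.card_eq_index_normalizer P).trans (congrArg Subgroup.index heq)

end Cfsg.Agent.S4344
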