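import Cfsg.Statements.S4345
import Cfsg.Agent.Lib.H20.SylowNumber

set_option autoImplicit false
open Cfsg

namespace Cfsg.Agent.S4345

theorem result {G : Type*} [Group G] [Finite G]
    (hG : Group.IsSolvable G) (p ℓ : ℕ) [Fact p.Prime] (hℓ : ℓ.Prime) :
    ℓ ^ (Nat.card (Sylow p G)).factorization ℓ ≡ 1 [MOD p] := by
  have hp : p.Prime := Fact.out
  have key := H20.sylow_number_induction p (fun X _ => Group.IsSolvable X)
    (fun X _ H hX => by
      have := hX
      exact Group.isSolvable_of_isSolvable_injective (Subgroup.subtype_injective H))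
    (fun X _ N _ hX => by
      have := hX
      exact Group.isSolvable_of_surjective (QuotientGroup.mk'_surjective N))
    (fun n => n ≠ 0 ∧ ∀ ℓ : ℕ, ℓ.Prime → ℓ ^ n.factorization ℓ ≡ 1 [MOD p])
    ⟨one_ne_zero, by simp [Nat.ModEq]⟩ ?_ ?_ ?_ _ G rfl hG
  · exact key.2 ℓ hℓ
  · rintro a b ⟨ha, h1⟩ ⟨hb, h2⟩
    refine ⟨mul_ne_zero ha hb, fun ℓ hℓ => ?_⟩
    rw [Nat.factorization_mul ha hb, Finsupp.add_apply, pow_add]
    simpa using (h1 ℓ hℓ).mul (h2 ℓ hℓ)
  · intro q e hq he
    refine ⟨pow_ne_zero _ hq.ne_zero, fun ℓ hℓ => ?_⟩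
    rw [Nat.Prime.factorization_pow hq, Finsupp.single_apply]
    split_ifs with h
    · rw [← h]; exact he
    · simp [Nat.ModEq]
  · intro S _ _ hS hsol
    have hcomm : ∀ a b : S, a * b = b * a := IsSimpleGroup.comm_iff_isSolvable.mpr hsol
    have hcard : Nat.card (Sylow p S) = 1 := by
      let P : Sylow p S := default
      have hn : (P : Subgroup S).Normal := ⟨fun x hx g => by
        have : g * x * g⁻¹ = x := by rw [hcomm g x]; group
        rw [this]; exact hx⟩
      have : Unique (Sylow p S) := Sylow.unique_of_normal P hn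
      exact Nat.card_unique
    rw [hcard]
    exact ⟨one_ne_zero, by simp [Nat.ModEq]⟩

end Cfsg.Agent.S4345
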