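import Cfsg.Statements.S4354
import Cfsg.Agent.Lib.H20.Basic

set_option autoImplicit false
open Cfsg

namespace Cfsg.Agent.S4354

open Subgroup Cfsg.Agent.H20

theorem exists_sylow_le_of_not_dvd_index {G : Type*} [Group G] [Finite G] {p : ℕ} [Fact p.Prime]
    (H : Subgroup G) (hH : ¬ p ∣ H.index) : ∃ Q : Sylow p G, (Q : Subgroup G) ≤ H := by
  obtain ⟨P⟩ : Nonempty (Sylow p G) := inferInstance
  obtain ⟨⟨a⟩, ha⟩ := P.isPGroup'.nonempty_fixed_point_of_prime_not_dvd_card (G ⧸ H) (by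
    simpa [Subgroup.index] using hH)
  refine ⟨a⁻¹ • P, fun y hy => ?_⟩
  have hy' : a * y * a⁻¹ ∈ (P : Subgroup G) := by
    rw [Sylow.coe_subgroup_smul, Subgroup.mem_pointwise_smul_iff_inv_smul_mem] at hy
    simpa [MulAut.smul_def, mul_assoc] using hy
  have h1 := ha ⟨a * y * a⁻¹, hy'⟩
  have h2 : ((a * y * a⁻¹ * a : G) : G ⧸ H) = (a : G ⧸ H) := h1
  have h3 := QuotientGroup.eq.mp h2
  have : (a * y * a⁻¹ * a)⁻¹ * a = y⁻¹ := by group
  rw [this] at h3
  simpa using H.inv_mem h3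

theorem lift_ppow {G : Type*} [Group G] [Finite G] {p : ℕ} [Fact p.Prime] (N : Subgroup G) [N.Normal]
    (x : G ⧸ N) (hx : ∃ k : ℕ, orderOf x = p ^ k) :
    ∃ z : G, (∃ k : ℕ, orderOf z = p ^ k) ∧ (z : G ⧸ N) = x := by
  obtain ⟨k, hk⟩ := hx
  obtain ⟨y, rfl⟩ := QuotientGroup.mk_surjective x
  have hp : p.Prime := Fact.out
  have hne : orderOf y ≠ 0 := (orderOf_pos y).ne'
  obtain ⟨a, m, hm, hy⟩ := Nat.exists_eq_pow_mul_and_not_dvd hne p hp.ne_one
  have hcop : m.Coprime (orderOf (y : G ⧸ N)) := by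
    rw [hk]
    exact Nat.Coprime.pow_right _ ((Nat.Prime.coprime_iff_not_dvd hp).mpr hm).symm
  obtain ⟨t, ht⟩ := exists_pow_eq_self_of_coprime hcop
  refine ⟨(y ^ m) ^ t, ?_, ?_⟩
  · have h1 : ((y ^ m) ^ t) ^ (p ^ a) = 1 := by
      rw [← pow_mul, ← pow_mul]
      have : m * (t * p ^ a) = orderOf y * t := by rw [hy]; ring
      rw [this, pow_mul, pow_orderOf_eq_one, one_pow]
    have h2 := orderOf_dvd_of_pow_eq_one h1
    obtain ⟨b, -, hb⟩ := (Nat.dvd_prime_pow hp).mp h2
    exact ⟨b, hb⟩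
  · simpa using ht

/-- The map to the quotient: index of a centralizer does not grow. -/
theorem index_centralizer_quot_dvd {G : Type*} [Group G] [Finite G] (N : Subgroup G) [N.Normal] (z : G) :
    (Subgroup.centralizer ({(z : G ⧸ N)} : Set (G ⧸ N))).index ∣
      (Subgroup.centralizer ({z} : Set G)).index := by
  have hsurj : Function.Surjective (QuotientGroup.mk' N) := QuotientGroup.mk'_surjective N
  have h1 := Subgroup.index_map_dvd (Subgroup.centralizer ({z} : Set G)) hsurj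
  refine dvd_trans (Subgroup.index_dvd_of_le ?_) h1
  rintro _ ⟨u, hu, rfl⟩
  refine Subgroup.mem_centralizer_iff.mpr ?_
  intro v hv
  rw [Set.mem_singleton_iff] at hv
  subst hv
  have hu' := Subgroup.mem_centralizer_iff.mp hu z (Set.mem_singleton z)
  show (z : G ⧸ N) * (u : G ⧸ N) = (u : G ⧸ N) * (z : G ⧸ N)
  rw [← QuotientGroup.mk_mul, ← QuotientGroup.mk_mul, hu']

theorem index_centralizer_sub_dvd {G : Type*} [Group G] [Finite G] (N : Subgroup G) [N.Normal] (x : N) :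
    (Subgroup.centralizer ({x} : Set N)).index ∣
      (Subgroup.centralizer ({(x : G)} : Set G)).index := by
  have h1 : Subgroup.centralizer ({x} : Set N) =
      (Subgroup.centralizer ({(x : G)} : Set G)).subgroupOf N := by
    ext u
    rw [Subgroup.mem_subgroupOf, Subgroup.mem_centralizer_singleton_iff,
      Subgroup.mem_centralizer_singleton_iff]
    constructor
    · intro h
      exact congrArg Subtype.val h
    · intro h
      exact Subtype.ext h
  rw [h1]
  exact relIndex_dvd_index_of_right_normal _ N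

theorem comm_of_sylows_comm {G : Type*} [Group G] [Finite G] {p : ℕ} [Fact p.Prime]
    (h : ∀ P : Sylow p G, IsMulCommutative P) (A : Subgroup G) (hA : IsPGroup p A) {a b : G}
    (ha : a ∈ A) (hb : b ∈ A) : a * b = b * a := by
  obtain ⟨Q, hQ⟩ := hA.exists_le_sylow
  have h1 : (⟨a, hQ ha⟩ : Q) * ⟨b, hQ hb⟩ = ⟨b, hQ hb⟩ * ⟨a, hQ ha⟩ :=
    (h Q).is_comm.comm _ _
  exact congrArg Subtype.val h1

/-- Main step: with all `p`-elements of `p'`-class, and all Sylows of a normal subgroup and its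
quotient abelian, the Sylows are abelian. -/
theorem sylow_comm {G : Type*} [Group G] [Finite G] {p : ℕ} [Fact p.Prime]
    (hcl : ∀ x : G, (∃ k : ℕ, orderOf x = p ^ k) → ¬ p ∣ (Subgroup.centralizer ({x} : Set G)).index)
    (N : Subgroup G) [N.Normal]
    (hN : ∀ P : Sylow p N, IsMulCommutative P)
    (hQ : ∀ P : Sylow p (G ⧸ N), IsMulCommutative P)
    (P : Sylow p G) : IsMulCommutative P := by
  have hP : IsPGroup p (P : Subgroup G) := P.isPGroup'
  -- commutation modulo N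
  have hcomm_quot : ∀ a ∈ (P : Subgroup G), ∀ b ∈ (P : Subgroup G),
      (a : G ⧸ N) * (b : G ⧸ N) = (b : G ⧸ N) * (a : G ⧸ N) := by
    intro a ha b hb
    have hpq : IsPGroup p ((P : Subgroup G).map (QuotientGroup.mk' N)) := hP.map _
    exact comm_of_sylows_comm hQ _ hpq ⟨a, ha, rfl⟩ ⟨b, hb, rfl⟩
  -- commutation inside `P ⊓ N`
  have hcomm_N : ∀ a ∈ (P : Subgroup G), a ∈ N → ∀ b ∈ (P : Subgroup G), b ∈ N → a * b = b * a := by
    intro a ha haN b hb hbN
    have hpq : IsPGroup p ((P : Subgroup G).subgroupOf N) :=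
      hP.comap_of_injective N.subtype Subtype.val_injective
    have := comm_of_sylows_comm hN _ hpq (a := ⟨a, haN⟩) (b := ⟨b, hbN⟩)
      (Subgroup.mem_subgroupOf.mpr ha) (Subgroup.mem_subgroupOf.mpr hb)
    exact congrArg Subtype.val this
  -- each element of P is central times an element of P ⊓ N
  have hdec : ∀ x ∈ (P : Subgroup G), ∃ y ∈ (P : Subgroup G),
      (∀ u ∈ (P : Subgroup G), y * u = u * y) ∧ x⁻¹ * y ∈ N := by
    intro x hx
    have hord : ∃ k : ℕ, orderOf x = p ^ k := by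
      obtain ⟨k, hk⟩ := (IsPGroup.iff_orderOf.mp hP) ⟨x, hx⟩
      exact ⟨k, by rw [← hk, Subgroup.orderOf_mk]⟩
    obtain ⟨Q, hQle⟩ := exists_sylow_le_of_not_dvd_index _ (hcl x hord)
    let C : Subgroup G := (Subgroup.centralizer ({(x : G ⧸ N)} : Set (G ⧸ N))).comap (QuotientGroup.mk' N)
    have hmemC : ∀ g : G, g ∈ C ↔ (g : G ⧸ N) * (x : G ⧸ N) = (x : G ⧸ N) * (g : G ⧸ N) := by
      intro g
      show (g : G ⧸ N) ∈ Subgroup.centralizer ({(x : G ⧸ N)} : Set (G ⧸ N)) ↔ _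
      rw [Subgroup.mem_centralizer_singleton_iff]
    have hPC : (P : Subgroup G) ≤ C := fun u hu => (hmemC u).mpr (hcomm_quot u hu x hx)
    have hQC : (Q : Subgroup G) ≤ C := by
      intro u hu
      rw [hmemC, ← QuotientGroup.mk_mul, ← QuotientGroup.mk_mul]
      have := Subgroup.mem_centralizer_singleton_iff.mp (hQle hu)
      rw [this]
    obtain ⟨c, hc⟩ := MulAction.exists_smul_eq C (Q.subtype hQC) (P.subtype hPC)
    have hc' : (c : G) • Q = P := by
      apply Sylow.ext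
      have h1 : ((c • (Q.subtype hQC) : Sylow p C) : Subgroup C) = (P.subtype hPC : Sylow p C) := by
        rw [hc]
      ext u
      constructor
      · intro hu
        have hu1 : (c : G)⁻¹ * u * c ∈ (Q : Subgroup G) := by
          rw [Sylow.coe_subgroup_smul, Subgroup.mem_pointwise_smul_iff_inv_smul_mem] at hu
          simpa [MulAut.smul_def, mul_assoc] using hu
        have hu2 : u ∈ C := by
          have := C.mul_mem (C.mul_mem c.2 (hQC hu1)) (C.inv_mem c.2)
          simpa [mul_assoc] using this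
        have : (⟨u, hu2⟩ : C) ∈ ((P.subtype hPC : Sylow p C) : Subgroup C) := by
          rw [← h1, Sylow.coe_subgroup_smul, Subgroup.mem_pointwise_smul_iff_inv_smul_mem]
          simp only [MulAut.smul_def, map_inv, MulAut.conj_inv_apply]
          rw [Sylow.coe_subtype, Subgroup.mem_subgroupOf]
          exact hu1
        rw [Sylow.coe_subtype, Subgroup.mem_subgroupOf] at this
        exact this
      · intro hu
        have hu2 : (⟨u, hPC hu⟩ : C) ∈ ((P.subtype hPC : Sylow p C) : Subgroup C) := by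
          rw [Sylow.coe_subtype, Subgroup.mem_subgroupOf]
          exact hu
        rw [← h1, Sylow.coe_subgroup_smul, Subgroup.mem_pointwise_smul_iff_inv_smul_mem] at hu2
        simp only [MulAut.smul_def, map_inv, MulAut.conj_inv_apply] at hu2
        rw [Sylow.coe_subtype, Subgroup.mem_subgroupOf] at hu2
        rw [Sylow.coe_subgroup_smul, Subgroup.mem_pointwise_smul_iff_inv_smul_mem]
        simpa [MulAut.smul_def, mul_assoc] using hu2
    -- the element y
    let y : G := c * x * (c : G)⁻¹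
    have hycomm : ∀ u ∈ (P : Subgroup G), y * u = u * y := by
      intro u hu
      rw [← hc'] at hu
      have hu1 : (c : G)⁻¹ * u * c ∈ (Q : Subgroup G) := by
        rw [Sylow.coe_subgroup_smul, Subgroup.mem_pointwise_smul_iff_inv_smul_mem] at hu
        simpa [MulAut.smul_def, mul_assoc] using hu
      have h2 := Subgroup.mem_centralizer_singleton_iff.mp (hQle hu1)
      have h3 : x * ((c : G)⁻¹ * u * c) = ((c : G)⁻¹ * u * c) * x := h2.symm
      calc y * u = c * (x * ((c : G)⁻¹ * u * c)) * (c : G)⁻¹ := by simp only [y]; group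
        _ = c * (((c : G)⁻¹ * u * c) * x) * (c : G)⁻¹ := by rw [h3]
        _ = u * y := by simp only [y]; group
    have hyP : y ∈ (P : Subgroup G) := by
      have hordy : IsPGroup p (Subgroup.zpowers y) := by
        obtain ⟨k, hk⟩ := hord
        rw [IsPGroup.iff_card]
        refine ⟨k, ?_⟩
        rw [Nat.card_zpowers, ← hk]
        exact (MulAut.conj (c : G)).orderOf_eq x
      have h4 := hordy.inf_normalizer_sylow P
      have h5 : y ∈ Subgroup.zpowers y ⊓ Subgroup.normalizer ((P : Subgroup G) : Set G) := by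
        refine ⟨Subgroup.mem_zpowers y, mem_normalizer_of_conj_le _ _ ?_⟩
        intro u hu
        have : y * u * y⁻¹ = u := by
          rw [hycomm u hu]; group
        rw [this]; exact hu
      have h6 : y ∈ Subgroup.zpowers y ⊓ (P : Subgroup G) := by
        rw [← h4]; exact h5
      exact h6.2
    refine ⟨y, hyP, hycomm, ?_⟩
    rw [← QuotientGroup.eq]
    have := (hmemC c).mp c.2
    simp only [y, QuotientGroup.mk_mul, QuotientGroup.mk_inv]
    rw [this]; group
  refine ⟨⟨fun a b => ?_⟩⟩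
  obtain ⟨a, ha⟩ := a
  obtain ⟨b, hb⟩ := b
  apply Subtype.ext
  show a * b = b * a
  obtain ⟨y, hy, hyc, hyN⟩ := hdec a ha
  obtain ⟨z, hz, hzc, hzN⟩ := hdec b hb
  have hm1 : a⁻¹ * y ∈ (P : Subgroup G) := (P : Subgroup G).mul_mem ((P : Subgroup G).inv_mem ha) hy
  have hm2 : b⁻¹ * z ∈ (P : Subgroup G) := (P : Subgroup G).mul_mem ((P : Subgroup G).inv_mem hb) hz
  -- a = y * m⁻¹, b = z * n⁻¹
  have hmm := hcomm_N _ hm1 hyN _ hm2 hzN
  set m := a⁻¹ * y with hm
  set n := b⁻¹ * z with hn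
  have ha' : a = y * m⁻¹ := by simp [hm]
  have hb' : b = z * n⁻¹ := by simp [hn]
  have hmnc : m⁻¹ * n⁻¹ = n⁻¹ * m⁻¹ := by
    rw [← mul_inv_rev, ← mul_inv_rev, hmm]
  have hmP : m⁻¹ ∈ (P : Subgroup G) := (P : Subgroup G).inv_mem hm1
  have hnP : n⁻¹ ∈ (P : Subgroup G) := (P : Subgroup G).inv_mem hm2
  rw [ha', hb']
  calc y * m⁻¹ * (z * n⁻¹) = y * (m⁻¹ * z) * n⁻¹ := by group
    _ = y * (z * m⁻¹) * n⁻¹ := by rw [← hzc _ hmP]
    _ = (y * z) * (m⁻¹ * n⁻¹) := by group
    _ = (z * y) * (n⁻¹ * m⁻¹) := by rw [hyc _ hz, hmnc]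
    _ = z * (y * n⁻¹) * m⁻¹ := by group
    _ = z * (n⁻¹ * y) * m⁻¹ := by rw [hyc _ hnP]
    _ = z * n⁻¹ * (y * m⁻¹) := by group

theorem result {G : Type*} [Group G] [Finite G]
    (p : ℕ) [Fact p.Prime] (h : ((∃ P : Sylow p G, ¬ IsMulCommutative P) ∧ ∀ x : G, (∃ k : ℕ, orderOf x = p ^ k) → ¬ p ∣ (Subgroup.centralizer ({x} : Set G)).index))
    (hmin : ∀ (N : Subgroup G) [N.Normal], N ≠ ⊥ → N ≠ ⊤ →
      ¬ ((∃ P : Sylow p N, ¬ IsMulCommutative P) ∧ ∀ x : N, (∃ k : ℕ, orderOf x = p ^ k) → ¬ p ∣ (Subgroup.centralizer ({x} : Set N)).index) ∧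
      ¬ ((∃ P : Sylow p (G ⧸ N), ¬ IsMulCommutative P) ∧ ∀ x : (G ⧸ N), (∃ k : ℕ, orderOf x = p ^ k) → ¬ p ∣ (Subgroup.centralizer ({x} : Set (G ⧸ N))).index)) :
    IsSimpleGroup G := by
  classical
  obtain ⟨⟨P, hP⟩, hcl⟩ := h
  haveI : Nontrivial G := by
    by_contra hnt
    rw [not_nontrivial_iff_subsingleton] at hnt
    exact hP ⟨⟨fun a b => Subsingleton.elim _ _⟩⟩
  refine ⟨fun N hNn => ?_⟩
  by_contra hcon
  push Not at hcon
  obtain ⟨hbot, htop⟩ := hcon
  obtain ⟨h1, h2⟩ := hmin N hbot htop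
  have hN : ∀ W : Sylow p N, IsMulCommutative W := by
    intro W
    by_contra hW
    refine h1 ⟨⟨W, hW⟩, fun x hx hdvd => ?_⟩
    have hx' : ∃ k : ℕ, orderOf (x : G) = p ^ k := by
      obtain ⟨k, hk⟩ := hx
      exact ⟨k, by rw [Subgroup.orderOf_coe, hk]⟩
    exact hcl x hx' (dvd_trans hdvd (index_centralizer_sub_dvd N x))
  have hQ : ∀ W : Sylow p (G ⧸ N), IsMulCommutative W := by
    intro W
    by_contra hW
    refine h2 ⟨⟨W, hW⟩, fun x hx hdvd => ?_⟩
    obtain ⟨z, hz, rfl⟩ := lift_ppow N x hx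
    exact hcl z hz (dvd_trans hdvd (index_centralizer_quot_dvd N z))
  exact hP (sylow_comm hcl N hN hQ P)

end Cfsg.Agent.S4354
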