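import Cfsg.Statements.S4364
import Mathlib
import Cfsg.Agent.Lib.H01.Fitting
import Cfsg.Agent.Lib.H01.Solv2
import Cfsg.Agent.Lib.H07.FStar
import Cfsg.Agent.Lib.H06.CNSolv
import Cfsg.Agent.Lib.H18.KP2
import Cfsg.Agent.Lib.H19.Kazarin

set_option autoImplicit false
open Cfsg

namespace Cfsg.Agent.S4364


set_option linter.unusedSectionVars false

theorem conj_comm_of_core_bot {Q : Type*} [Group Q] [Finite Q] {p : ℕ} [Fact p.Prime]
    (hO : Cfsg.pCore p Q = ⊥) (x : Q) {b : ℕ}
    (hb : (Subgroup.centralizer ({x} : Set Q)).index = p ^ b) (g h : Q) :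
    Commute (g * x * g⁻¹) (h * x * h⁻¹) := by
  classical
  have hp : p.Prime := Fact.out
  haveI hKs := H19.kazarin x hp hb
  set K := Subgroup.normalClosure ({x} : Set Q) with hK
  set F0 := Cfsg.fittingSubgroup Q with hF0
  have hF0n : F0.Normal := H01.fitting_normal
  have hF0nil : Group.IsNilpotent F0 := H01.fitting_nilpotent
  -- `F0` is a `p'`-group
  have hnd : ¬ p ∣ Nat.card F0 := by
    intro hd
    obtain ⟨P⟩ : Nonempty (Sylow p F0) := inferInstance
    have hPn : (P : Subgroup F0).Normal := inferInstance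
    have hchar : (P : Subgroup F0).Characteristic := Sylow.characteristic_of_normal P hPn
    have hPnormal : ((P : Subgroup F0).map F0.subtype).Normal := inferInstance
    have hP' : IsPGroup p ((P : Subgroup F0).map F0.subtype) := P.isPGroup'.map _
    have h1 : ((P : Subgroup F0).map F0.subtype) ≤ Cfsg.pCore p Q := H01.le_pCore hPnormal hP'
    rw [hO] at h1
    have h2 : (P : Subgroup F0) = ⊥ := by
      rw [eq_bot_iff]
      intro y hy
      have := h1 (Subgroup.mem_map_of_mem _ hy)
      rw [Subgroup.mem_bot] at this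
      rw [Subgroup.mem_bot]
      exact Subtype.ext this
    have h3 := P.card_eq_multiplicity
    rw [h2, Subgroup.card_bot] at h3
    have h4 : Nat.factorization (Nat.card F0) p ≠ 0 := by
      have := (hp.dvd_iff_one_le_factorization Nat.card_pos.ne').1 hd
      omega
    have h5 : p ^ (Nat.card F0).factorization p ≠ 1 := by
      exact (Nat.one_lt_pow h4 hp.one_lt).ne'
    exact h5 h3.symm
  -- `F0` centralizes `x`
  set C := Subgroup.centralizer ({x} : Set Q) with hC
  have hd1 : C.relIndex F0 ∣ p ^ b := by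
    have h1 : (C ⊓ F0).index ∣ C.index * F0.index := H18.index_inf_dvd C F0
    have h2 : (C ⊓ F0).relIndex F0 * F0.index = (C ⊓ F0).index :=
      Subgroup.relIndex_mul_index inf_le_right
    have h3 : (C ⊓ F0).relIndex F0 = C.relIndex F0 := Subgroup.inf_relIndex_right C F0
    rw [← h2, h3] at h1
    rw [← hb]
    exact Nat.dvd_of_mul_dvd_mul_right (Nat.pos_of_ne_zero Subgroup.index_ne_zero_of_finite) h1
  have hd2 : C.relIndex F0 ∣ Nat.card F0 := Subgroup.relIndex_dvd_card C F0
  have hd3 : C.relIndex F0 = 1 := by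
    obtain ⟨k, hk, hk2⟩ := (Nat.dvd_prime_pow hp).1 hd1
    rcases Nat.eq_zero_or_pos k with rfl | hk0
    · simpa using hk2
    · exfalso
      apply hnd
      rw [hk2] at hd2
      exact (dvd_pow_self p hk0.ne').trans hd2
  have hF0C : F0 ≤ C := Subgroup.relIndex_eq_one.1 hd3
  have hcen : ∀ t ∈ F0, ∀ g : Q, Commute t (g * x * g⁻¹) := by
    intro t ht g
    have h1 : g⁻¹ * t * g⁻¹⁻¹ ∈ F0 := hF0n.conj_mem t ht g⁻¹
    have h2 : g⁻¹ * t * g⁻¹⁻¹ ∈ C := hF0C h1
    rw [hC, Subgroup.mem_centralizer_singleton_iff] at h2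
    show t * (g * x * g⁻¹) = g * x * g⁻¹ * t
    calc t * (g * x * g⁻¹) = g * ((g⁻¹ * t * g) * x) * g⁻¹ := by group
      _ = g * (x * (g⁻¹ * t * g)) * g⁻¹ := by
          congr 2
          have : g⁻¹ * t * g⁻¹⁻¹ = g⁻¹ * t * g := by simp
          rw [this] at h2
          exact h2
      _ = g * x * g⁻¹ * t := by group
  -- `K` centralizes `F0`
  let CF : Subgroup Q := Subgroup.centralizer (F0 : Set Q)
  have hCFn : CF.Normal := by
    refine ⟨fun n hn g t ht => ?_⟩
    have h1 : g⁻¹ * t * g⁻¹⁻¹ ∈ F0 := hF0n.conj_mem t ht g⁻¹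
    have h2 := Subgroup.mem_centralizer_iff.1 hn _ h1
    have : t * (g * n * g⁻¹) = g * ((g⁻¹ * t * g⁻¹⁻¹) * n) * g⁻¹ := by group
    rw [this, h2]
    group
  have hxCF : x ∈ CF := by
    refine Subgroup.mem_centralizer_iff.2 fun t ht => ?_
    have := hcen t ht 1
    simpa using this.eq
  have hKCF : K ≤ CF := Subgroup.normalClosure_le_normal (by simpa using hxCF)
  -- the Fitting subgroup of `K`
  let FK : Subgroup K := Cfsg.fittingSubgroup K
  have hFKc : FK.Characteristic := H07.fitting_characteristic K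
  have hFKnil : Group.IsNilpotent FK := H01.fitting_nilpotent
  let T : Subgroup Q := FK.map K.subtype
  have hTn : T.Normal := inferInstance
  have hTnil : Group.IsNilpotent T := by
    have e : FK ≃* T := FK.equivMapOfInjective K.subtype K.subtype_injective
    exact Group.nilpotent_of_mulEquiv e
  have hTF : T ≤ F0 := H01.le_fitting hTn hTnil
  have hall : ∀ a b : K, Commute a b := by
    have h1 : Subgroup.centralizer (FK : Set K) ≤ FK := H01.centralizer_fitting_le
    have h2 : ∀ k : K, k ∈ Subgroup.centralizer (FK : Set K) := by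
      intro k
      refine Subgroup.mem_centralizer_iff.2 fun t ht => ?_
      apply Subtype.ext
      have h3 : (t : Q) ∈ F0 := hTF (Subgroup.mem_map_of_mem _ ht)
      exact Subgroup.mem_centralizer_iff.1 (hKCF k.2) _ h3
    have h4 : ∀ k : K, k ∈ FK := fun k => h1 (h2 k)
    intro a b
    exact (Subgroup.mem_centralizer_iff.1 (h2 a) b (h4 b)).symm
  have hmem : ∀ g : Q, g * x * g⁻¹ ∈ K := by
    intro g
    exact (Subgroup.normalClosure_normal).conj_mem x (Subgroup.subset_normalClosure (by simp)) g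
  have := hall ⟨_, hmem g⟩ ⟨_, hmem h⟩
  exact congrArg Subtype.val this


/-- Let G be a finite group, p a prime and x an element whose conjugacy class has p-power size. Then for any two conjugates y and z of x, the commutator y z y⁻¹ z⁻¹ lies in O_p(G), the largest normal p-subgroup of G. -/
theorem result {G : Type*} [Group G] [Finite G] (p : ℕ) [Fact p.Prime]
    (x : G) (hx : ∃ a : ℕ, (Subgroup.centralizer ({x} : Set G)).index = p ^ a) (g h : G) :
    (g * x * g⁻¹) * (h * x * h⁻¹) * (g * x * g⁻¹)⁻¹ * (h * x * h⁻¹)⁻¹ ∈ Cfsg.pCore p G := by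
  classical
obtain ⟨a, ha⟩ := hx
have hp0 : p.Prime := Fact.out
set O := Cfsg.pCore p G with hO
haveI hOn : O.Normal := H01.pCore_normal p
have hOp : IsPGroup p O := H01.pCore_isPGroup p
have hbot : Cfsg.pCore p (G ⧸ O) = ⊥ :=
  H06.pCore_quotient_eq_bot _ (fun N hN hNp => H01.le_pCore hN hNp) hOp
let π := QuotientGroup.mk' O
have hπ : Function.Surjective π := QuotientGroup.mk'_surjective O
set C' := Subgroup.centralizer ({π x} : Set (G ⧸ O)) with hC'
have hle : Subgroup.centralizer ({x} : Set G) ≤ C'.comap π := by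
  intro y hy
  rw [Subgroup.mem_comap, hC', Subgroup.mem_centralizer_singleton_iff]
  rw [Subgroup.mem_centralizer_singleton_iff] at hy
  rw [← map_mul, hy, map_mul]
have hidx : C'.index ∣ p ^ a := by
  rw [← Subgroup.index_comap_of_surjective C' hπ, ← ha]
  exact Subgroup.index_dvd_of_le hle
obtain ⟨b, -, hb⟩ := (Nat.dvd_prime_pow hp0).1 hidx
have hcomm := conj_comm_of_core_bot hbot (π x) hb (π g) (π h)
have : π ((g * x * g⁻¹) * (h * x * h⁻¹) * (g * x * g⁻¹)⁻¹ * (h * x * h⁻¹)⁻¹) = 1 := by
  simp only [map_mul, map_inv]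
  rw [hcomm.eq]
  group
exact (QuotientGroup.eq_one_iff _).1 this

end Cfsg.Agent.S4364
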