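import Cfsg.Statements.S4365
import Cfsg.Agent.Lib.H20.Basic

set_option autoImplicit false
open Cfsg

namespace Cfsg.Agent.S4365

open scoped IsMulCommutative

open Finset in
lemma prod_range_mul_mod {N : Type*} [CommMonoid N] (p k : ℕ) (hk : Nat.Coprime k p) (hp : 0 < p)
    (F : ℕ → N) (hF : ∀ n, F (n % p) = F n) :
    ∏ j ∈ range p, F (j * k) = ∏ j ∈ range p, F j := by
  have h1 : ∏ j ∈ range p, F (j * k) = ∏ j ∈ range p, F ((j * k) % p) := by
    apply Finset.prod_congr rfl
    intro j _
    rw [hF]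
  rw [h1]
  have hinj : Set.InjOn (fun j => (j * k) % p) (range p : Set ℕ) := by
    intro a ha b hb hab
    simp only [coe_range, Set.mem_Iio] at ha hb
    have h2 : a * k ≡ b * k [MOD p] := hab
    have h3 : a ≡ b [MOD p] := Nat.ModEq.cancel_right_of_coprime (by rwa [Nat.coprime_comm, Nat.Coprime] at hk) h2
    exact Nat.ModEq.eq_of_lt_of_lt h3 ha hb
  have hmaps : Set.MapsTo (fun j => (j * k) % p) (range p : Set ℕ) (range p : Set ℕ) := by
    intro j _
    simp only [coe_range, Set.mem_Iio]
    exact Nat.mod_lt _ hp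
  apply Finset.prod_nbij (fun j => (j * k) % p)
  · intro j hj
    exact mem_coe.mp (hmaps (mem_coe.mpr hj))
  · exact hinj
  · exact surjOn_of_injOn_of_card_le _ hmaps hinj le_rfl
  · intro j _
    rfl

open Finset in
lemma norm_identity {M : Type*} [CommGroup M] (p : ℕ) (hp : p.Prime) (s t : MulAut M)
    (hst : Commute s t) (ht : t ^ p = 1) (a : M) :
    (∏ j ∈ range p, ∏ k ∈ range p, ((s * t ^ j) ^ k) a) * ∏ m ∈ range p, (t ^ m) a =
      a ^ p * ∏ k ∈ range p, ∏ m ∈ range p, (s ^ k * t ^ m) a := by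
  have h1 : ∀ j k : ℕ, (s * t ^ j) ^ k = s ^ k * t ^ (j * k) := by
    intro j k
    rw [(hst.pow_right j).mul_pow, pow_mul]
  simp_rw [h1]
  rw [Finset.prod_comm]
  obtain ⟨q, rfl⟩ : ∃ q, p = q + 1 := ⟨p - 1, by have := hp.pos; omega⟩
  rw [Finset.prod_range_succ', Finset.prod_range_succ' (fun k => ∏ m ∈ range (q + 1), (s ^ k * t ^ m) a)]
  have h2 : ∀ k ∈ range q, ∏ j ∈ range (q + 1), (s ^ (k + 1) * t ^ (j * (k + 1))) a =
      ∏ m ∈ range (q + 1), (s ^ (k + 1) * t ^ m) a := by
    intro k hk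
    have hk' : k + 1 < q + 1 := by simpa using hk
    have hcop : Nat.Coprime (k + 1) (q + 1) :=
      (Nat.coprime_of_lt_prime (by omega) hk' hp).symm
    exact prod_range_mul_mod (q + 1) (k + 1) hcop (by omega)
      (fun n => (s ^ (k + 1) * t ^ n) a) (by
        intro n
        rw [← pow_eq_pow_mod n ht])
  rw [Finset.prod_congr rfl h2]
  simp only [pow_zero, one_mul, mul_zero, Finset.prod_const, Finset.card_range, MulAut.one_apply]
  rw [mul_comm]
  simp only [mul_comm, mul_assoc, mul_left_comm]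

open Finset in
lemma pow_mem_of_norms {M : Type*} [CommGroup M] (p : ℕ) (hp : p.Prime) (s t : MulAut M)
    (hst : Commute s t) (ht : t ^ p = 1) (Zm : Subgroup M)
    (hZfix : ∀ w ∈ Zm, s w = w)
    (h1 : ∀ j < p, ∀ a : M, ∏ k ∈ range p, ((s * t ^ j) ^ k) a ∈ Zm)
    (h2 : ∀ a : M, ∏ m ∈ range p, (t ^ m) a ∈ Zm) (a : M) : a ^ p ∈ Zm := by
  have hid := norm_identity p hp s t hst ht a
  have hL : (∏ j ∈ range p, ∏ k ∈ range p, ((s * t ^ j) ^ k) a) * ∏ m ∈ range p, (t ^ m) a ∈ Zm := by
    apply Zm.mul_mem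
    · apply Subgroup.prod_mem
      intro j hj
      exact h1 j (Finset.mem_range.mp hj) a
    · exact h2 a
  rw [hid] at hL
  set w := ∏ m ∈ range p, (t ^ m) a with hw
  have hwZ : w ∈ Zm := h2 a
  have h3 : ∀ k : ℕ, (s ^ k) w = w := by
    intro k
    induction k with
    | zero => simp
    | succ n ih =>
      rw [pow_succ, MulAut.mul_apply, hZfix w hwZ, ih]
  have h4 : ∏ k ∈ range p, ∏ m ∈ range p, (s ^ k * t ^ m) a = w ^ p := by
    have : ∀ k ∈ range p, ∏ m ∈ range p, (s ^ k * t ^ m) a = w := by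
      intro k _
      conv_rhs => rw [← h3 k]
      rw [hw, map_prod]
      rfl
    rw [Finset.prod_congr rfl this]
    simp
  rw [h4] at hL
  have h5 : a ^ p = a ^ p * w ^ p * (w ^ p)⁻¹ := by simp
  rw [h5]
  exact Zm.mul_mem hL (Zm.inv_mem (Zm.pow_mem hwZ p))

open Finset in
lemma mul_pow_expand {P : Type*} [Group P] (A : Subgroup P) [A.Normal] [IsMulCommutative A]
    (u : P) (b : A) (n : ℕ) :
    ((b : P) * u) ^ n = ((∏ k ∈ range n, ((MulAut.conjNormal u : MulAut A) ^ k) b : A) : P) * u ^ n := by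
  induction n with
  | zero => simp
  | succ n ih =>
    rw [pow_succ, ih, Finset.prod_range_succ, Subgroup.coe_mul, ← map_pow, MulAut.conjNormal_apply]
    group

theorem mem_of_pow_mem_coprime {G : Type*} [Group G] (H : Subgroup G) {x : G} {a b : ℕ}
    (ha : x ^ a ∈ H) (hb : x ^ b ∈ H) (hc : a.Coprime b) : x ∈ H := by
  have h1 : ((Nat.gcd a b : ℕ) : ℤ) = a * Nat.gcdA a b + b * Nat.gcdB a b := Nat.gcd_eq_gcd_ab a b
  have h2 : (Nat.gcd a b : ℕ) = 1 := hc
  rw [h2] at h1
  have h3 : x = (x ^ a) ^ (Nat.gcdA a b) * (x ^ b) ^ (Nat.gcdB a b) := by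
    rw [← zpow_natCast x a, ← zpow_natCast x b, ← zpow_mul, ← zpow_mul, ← zpow_add, ← h1]
    simp
  rw [h3]
  exact H.mul_mem (H.zpow_mem ha _) (H.zpow_mem hb _)

theorem result {P : Type*} [Group P] [Finite P] (p : ℕ) [Fact p.Prime]
    (hP : IsPGroup p P) (a : ℕ) (ha : 1 ≤ a)
    (hcs : {k : ℕ | ∃ x : P, (Subgroup.centralizer ({x} : Set P)).index = k} = {1, p ^ a}) (x : P) :
    x ^ p ∈ Subgroup.center P := by
  classical
  have hpp : p.Prime := Fact.out
  set Z := Subgroup.center P with hZdef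
  let C : P → Subgroup P := fun y => Subgroup.centralizer ({y} : Set P)
  have memC : ∀ {y g : P}, g ∈ C y ↔ g * y = y * g := by
    intro y g
    exact Subgroup.mem_centralizer_singleton_iff
  have memZ : ∀ {y : P}, y ∈ Z ↔ ∀ g, g * y = y * g := by
    intro y
    rw [hZdef, Subgroup.mem_center_iff]
  have hCtop : ∀ y, y ∉ Z → C y ≠ ⊤ := by
    intro y hy htop
    apply hy
    rw [memZ]
    intro g
    exact memC.mp (by rw [htop]; trivial)
  have hidx : ∀ y, y ∉ Z → (C y).index = p ^ a := by
    intro y hy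
    have h1 : (C y).index ∈ ({1, p ^ a} : Set ℕ) := by
      rw [← hcs]; exact ⟨y, rfl⟩
    rcases h1 with h1 | h1
    · exact absurd (Subgroup.index_eq_one.mp h1) (hCtop y hy)
    · exact h1
  have hO1 : ∀ y w, y ∉ Z → w ∉ Z → C y ≤ C w → C y = C w := by
    intro y w hy hw hle
    apply Subgroup.eq_of_le_of_card_ge hle
    have h1 := Subgroup.card_mul_index (C y)
    have h2 := Subgroup.card_mul_index (C w)
    rw [hidx y hy] at h1
    rw [hidx w hw] at h2
    have hpos : 0 < p ^ a := pow_pos hpp.pos a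
    have : Nat.card (C y) = Nat.card (C w) := by
      apply Nat.eq_of_mul_eq_mul_right hpos
      rw [h1, h2]
    exact this.ge
  -- a noncentral element
  have hpa : p ^ a ≠ 1 := by
    have := Nat.one_lt_pow (by omega : a ≠ 0) hpp.one_lt
    omega
  obtain ⟨y0, hy0⟩ : ∃ y : P, (C y).index = p ^ a := by
    have h1 : p ^ a ∈ ({1, p ^ a} : Set ℕ) := Or.inr rfl
    rw [← hcs] at h1
    exact h1
  have hy0Z : y0 ∉ Z := by
    intro h
    have : C y0 = ⊤ := by
      rw [eq_top_iff]
      intro g _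
      exact memC.mpr ((memZ.mp h) g)
    rw [this, Subgroup.index_top] at hy0
    exact hpa hy0.symm
  -- choose z
  obtain ⟨z, hzZ, hzp, hzc⟩ : ∃ z : P, z ∉ Z ∧ z ^ p ∈ Z ∧ ∀ g : P, g * z * g⁻¹ * z⁻¹ ∈ Z := by
    have hQp : IsPGroup p (P ⧸ Z) := hP.to_quotient Z
    have hQnt : Nontrivial (P ⧸ Z) := by
      refine ⟨⟨(y0 : P ⧸ Z), 1, ?_⟩⟩
      intro h
      exact hy0Z ((QuotientGroup.eq_one_iff y0).mp h)
    have hcnt := hQp.center_nontrivial
    have hCp : IsPGroup p (Subgroup.center (P ⧸ Z)) := hQp.to_subgroup _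
    have hdvd : p ∣ Nat.card (Subgroup.center (P ⧸ Z)) := by
      rcases hCp.card_eq_or_dvd with h | h
      · exfalso
        have := (Finite.one_lt_card_iff_nontrivial (α := Subgroup.center (P ⧸ Z))).mpr hcnt
        omega
      · exact h
    obtain ⟨w, hw⟩ := exists_prime_orderOf_dvd_card' p hdvd
    obtain ⟨z, hz⟩ := QuotientGroup.mk'_surjective Z (w : P ⧸ Z)
    have hzw : (z : P ⧸ Z) = (w : P ⧸ Z) := hz
    have hwo : orderOf (w : P ⧸ Z) = p := by rw [Subgroup.orderOf_coe]; exact hw
    refine ⟨z, ?_, ?_, ?_⟩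
    · intro h
      have h1 : (w : P ⧸ Z) = 1 := by
        rw [← hzw]; exact (QuotientGroup.eq_one_iff z).mpr h
      rw [h1, orderOf_one] at hwo
      exact hpp.one_lt.ne hwo
    · rw [← QuotientGroup.eq_one_iff]
      rw [QuotientGroup.mk_pow, hzw, ← hwo, pow_orderOf_eq_one]
    · intro g
      rw [← QuotientGroup.eq_one_iff]
      simp only [QuotientGroup.mk_mul, QuotientGroup.mk_inv, hzw]
      have h1 := (Subgroup.mem_center_iff.mp w.2) (g : P ⧸ Z)
      rw [h1]
      group
  -- the hom c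
  have hcomm : ∀ c ∈ Z, ∀ g, c * g = g * c := fun c hc g => ((memZ.mp hc) g).symm
  let c : P →* Z :=
    { toFun := fun g => ⟨g * z * g⁻¹ * z⁻¹, hzc g⟩
      map_one' := by ext; simp
      map_mul' := fun g h => by
        ext
        show (g * h) * z * (g * h)⁻¹ * z⁻¹ = (g * z * g⁻¹ * z⁻¹) * (h * z * h⁻¹ * z⁻¹)
        have h1 := hcomm _ (hzc h) (g⁻¹ * z⁻¹)
        have h2 := hcomm _ (hzc h) (g * z * g⁻¹ * z⁻¹)
        have h3 : g * ((h * z * h⁻¹ * z⁻¹)) = (h * z * h⁻¹ * z⁻¹) * g := (hcomm _ (hzc h) g).symm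
        calc (g * h) * z * (g * h)⁻¹ * z⁻¹ = g * (h * z * h⁻¹ * z⁻¹) * z * g⁻¹ * z⁻¹ := by group
          _ = (h * z * h⁻¹ * z⁻¹) * g * z * g⁻¹ * z⁻¹ := by rw [h3]
          _ = (h * z * h⁻¹ * z⁻¹) * (g * z * g⁻¹ * z⁻¹) := by group
          _ = _ := h2 }
  set A := c.ker with hA
  have memA : ∀ {g : P}, g ∈ A ↔ g * z = z * g := by
    intro g
    rw [hA, MonoidHom.mem_ker, Subtype.ext_iff]
    show g * z * g⁻¹ * z⁻¹ = 1 ↔ _
    rw [mul_inv_eq_one, mul_inv_eq_iff_eq_mul]
  have hAC : A = C z := by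
    ext g
    exact memA.trans memC.symm
  have hZA : Z ≤ A := fun g hg => memA.mpr ((memZ.mp hg) z).symm
  have hzA : z ∈ A := memA.mpr rfl
  have hcp : ∀ g, (c g) ^ p = 1 := by
    intro g
    have h1 : ∀ n : ℕ, g * z ^ n * g⁻¹ = ((c g : P)) ^ n * z ^ n := by
      intro n
      induction n with
      | zero => simp
      | succ n ih =>
        have h2 : (c g : P) = g * z * g⁻¹ * z⁻¹ := rfl
        have h3 : g * z ^ (n + 1) * g⁻¹ = (g * z ^ n * g⁻¹) * (g * z * g⁻¹) := by
          rw [pow_succ]; group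
        have h4 : g * z * g⁻¹ = (c g : P) * z := by rw [h2]; group
        rw [h3, ih, h4, pow_succ, pow_succ]
        have h5 : z ^ n * (c g : P) = (c g : P) * z ^ n := (hcomm _ (c g).2 _).symm
        calc (c g : P) ^ n * z ^ n * ((c g : P) * z) = (c g : P) ^ n * (z ^ n * (c g : P)) * z := by group
          _ = _ := by rw [h5]; group
    have h2 := h1 p
    have h3 : g * z ^ p * g⁻¹ = z ^ p := by
      rw [(memZ.mp hzp) g]; group
    rw [h3] at h2
    ext
    have h4 : (c g : P) ^ p = 1 := by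
      have : (c g : P) ^ p * z ^ p = 1 * z ^ p := by rw [← h2, one_mul]
      exact mul_right_cancel this
    simpa using h4
  have hgpA : ∀ g, g ^ p ∈ A := by
    intro g
    rw [hA, MonoidHom.mem_ker, map_pow, hcp]
  -- (a)
  have ha' : ∀ t, t ∉ A → t ^ p ∈ Z := by
    intro t ht
    by_contra hcon
    have htZ : t ∉ Z := fun h => hcon (Z.pow_mem h p)
    have hle : C t ≤ C (t ^ p) := by
      intro g hg
      have h1 := memC.mp hg
      exact memC.mpr ((Commute.pow_right h1 p))
    have heq := hO1 t (t ^ p) htZ hcon hle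
    have hz1 : z ∈ C (t ^ p) := by
      have := memA.mp (hgpA t)
      exact memC.mpr this.symm
    rw [← heq] at hz1
    exact ht (memA.mpr (memC.mp hz1).symm)
  -- (b)
  have hb : ∀ y ∈ A, y ^ p ∉ Z → C y = A := by
    intro y hyA hyp
    have hyZ : y ∉ Z := fun h => hyp (Z.pow_mem h p)
    have hle : C y ≤ A := by
      intro t ht
      by_contra htA
      have h1 : y * t ∉ A := fun h => htA (by
        have := A.mul_mem (A.inv_mem hyA) h
        simpa using this)
      have h2 := ha' _ h1
      have h3 := ha' _ htA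
      have h4 : Commute y t := (memC.mp ht).symm
      rw [h4.mul_pow] at h2
      apply hyp
      have h5 := Z.mul_mem h2 (Z.inv_mem h3)
      simpa using h5
    rw [hAC] at hle ⊢
    exact hO1 y z hyZ hzZ hle
  by_contra hx
  have hxA : x ∈ A := by
    by_contra h
    exact hx (ha' x h)
  have hCx : C x = A := hb x hxA hx
  -- (c) A abelian
  have hAcomm : ∀ u ∈ A, ∀ v ∈ A, v * u = u * v := by
    intro u hu v hv
    by_cases hup : u ^ p ∈ Z
    · have hux : Commute x u := by
        have : u ∈ C x := by rw [hCx]; exact hu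
        exact (memC.mp this).symm
      have h1 : (x * u) ^ p ∉ Z := by
        rw [hux.mul_pow]
        intro h
        apply hx
        have := Z.mul_mem h (Z.inv_mem hup)
        simpa using this
      have h2 := hb (x * u) (A.mul_mem hxA hu) h1
      have h3 : v ∈ C (x * u) := by rw [h2]; exact hv
      have h4 : v ∈ C x := by rw [hCx]; exact hv
      have h5 := memC.mp h3
      have h6 := memC.mp h4
      have h7 : x * (v * u) = x * (u * v) := by
        rw [← mul_assoc, ← h6, mul_assoc, h5, mul_assoc]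
      exact mul_left_cancel h7
    · have h2 := hb u hu hup
      have h3 : v ∈ C u := by rw [h2]; exact hv
      exact memC.mp h3
  have : IsMulCommutative A := ⟨⟨fun u v => by
    ext
    exact hAcomm u u.2 v v.2 |>.symm⟩⟩
  -- (d)
  have hd : ∀ y ∈ A, y ∉ Z → C y = A := by
    intro y hy hyZ
    have hle : C z ≤ C y := by
      rw [← hAC]
      intro v hv
      exact memC.mpr (hAcomm y hy v hv)
    rw [hAC]
    exact (hO1 z y hzZ hyZ hle).symm
  -- (g)
  have hg' : ∀ g, g ∉ A → ∀ b ∈ A, g * b = b * g → b ∈ Z := by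
    intro g hg b hb' hcom
    by_contra hbZ
    have := hd b hb' hbZ
    have h1 : g ∈ C b := memC.mpr hcom
    rw [this] at h1
    exact hg h1
  have hAne : ∃ g, g ∉ A := by
    by_contra hcon
    push Not at hcon
    apply hzZ
    rw [memZ]
    intro g
    exact memA.mp (hcon g)
  obtain ⟨g, hgA⟩ := hAne
  have hgZ : g ∉ Z := fun h => hgA (hZA h)
  have hAindex : A.index = p ^ a := by rw [hAC]; exact hidx z hzZ
  -- case split
  by_cases ha1 : a = 1
  · subst ha1
    rw [pow_one] at hAindex
    let ZA : Subgroup A := Z.subgroupOf A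
    have h1 : ZA = (C g).subgroupOf A := by
      ext b
      rw [Subgroup.mem_subgroupOf, Subgroup.mem_subgroupOf]
      constructor
      · intro hb1
        exact memC.mpr ((memZ.mp hb1) g).symm |> fun h => by
          exact memC.mpr ((memZ.mp hb1) g |>.symm)
      · intro hb1
        exact hg' g hgA b b.2 (memC.mp hb1).symm
    have h2 : ZA.index ≤ p := by
      rw [h1]
      have h3 : (C g).relIndex A ≤ (C g).relIndex ⊤ :=
        Subgroup.relIndex_le_of_le_right le_top (by
          rw [Subgroup.relIndex_top_right]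
          exact Subgroup.index_ne_zero_of_finite)
      rw [Subgroup.relIndex_top_right, hidx g hgZ, pow_one] at h3
      exact h3
    have hZAnorm : ZA.Normal := by infer_instance
    have h3 : (⟨x, hxA⟩ : A) ^ ZA.index ∈ ZA := ZA.pow_index_mem _
    have h4 : x ^ ZA.index ∈ Z := by
      have := Subgroup.mem_subgroupOf.mp h3
      simpa using this
    have hAp : IsPGroup p A := hP.to_subgroup A
    have h5 : IsPGroup p (A ⧸ ZA) := hAp.to_quotient ZA
    obtain ⟨i, hi⟩ := IsPGroup.iff_card.mp h5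
    have hi' : ZA.index = p ^ i := hi
    rw [hi'] at h2 h4
    have hile : i ≤ 1 := by
      by_contra hcon
      have h6 : p ^ 2 ≤ p ^ i := Nat.pow_le_pow_right hpp.pos (by omega)
      have h7 : p ^ 2 = p * p := sq p
      have h8 := Nat.mul_lt_mul_of_lt_of_le hpp.one_lt (le_refl p) hpp.pos
      nlinarith
    apply hx
    have h6 : x ^ p = (x ^ p ^ i) ^ (p ^ (1 - i)) := by
      rw [← pow_mul, ← pow_add]
      congr 1
      have : i + (1 - i) = 1 := by omega
      rw [this, pow_one]
    rw [h6]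
    exact Z.pow_mem h4 _
  · -- a ≥ 2
    have ha2 : 2 ≤ a := by omega
    have hAnorm : A.Normal := by rw [hA]; infer_instance
    let E := P ⧸ A
    let gb : E := (g : E)
    have hgb : gb ≠ 1 := by
      intro h
      exact hgA ((QuotientGroup.eq_one_iff g).mp h)
    have hEexp : ∀ e : E, e ^ p = 1 := by
      intro e
      obtain ⟨u, rfl⟩ := QuotientGroup.mk'_surjective A e
      show ((u : E)) ^ p = 1
      rw [← QuotientGroup.mk_pow, QuotientGroup.eq_one_iff]
      exact hgpA u
    obtain ⟨hb0, hhb0⟩ : ∃ e : E, e ∉ Subgroup.zpowers gb := by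
      by_contra hcon
      push Not at hcon
      have h1 : Subgroup.zpowers gb = ⊤ := by
        rw [eq_top_iff]; intro e _; exact hcon e
      have h2 : Nat.card E = orderOf gb := by
        rw [← Nat.card_zpowers, h1, Subgroup.card_top]
      have h3 : orderOf gb ∣ p := orderOf_dvd_of_pow_eq_one (hEexp gb)
      have h4 : Nat.card E = p ^ a := hAindex
      rw [h2] at h4
      rw [h4] at h3
      have h5 : p ^ 2 ≤ p ^ a := Nat.pow_le_pow_right hpp.pos ha2
      have h6 := Nat.le_of_dvd hpp.pos h3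
      have h8 := Nat.mul_lt_mul_of_lt_of_le hpp.one_lt (le_refl p) hpp.pos
      nlinarith [sq p]
    obtain ⟨h, hh⟩ := QuotientGroup.mk'_surjective A hb0
    have hh' : (h : E) = hb0 := hh
    have hhA : h ∉ A := by
      intro hmem
      apply hhb0
      rw [← hh', (QuotientGroup.eq_one_iff h).mpr hmem]
      exact Subgroup.one_mem _
    have hghj : ∀ j < p, g * h ^ j ∉ A := by
      intro j hj hmem
      rcases Nat.eq_zero_or_pos j with rfl | hjpos
      · apply hgA; simpa using hmem
      · apply hhb0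
        have h1 : (g : E) * hb0 ^ j = 1 := by
          rw [← hh', ← QuotientGroup.mk_pow, ← QuotientGroup.mk_mul, QuotientGroup.eq_one_iff]
          exact hmem
        have h2 : hb0 ^ j ∈ Subgroup.zpowers gb := by
          have : hb0 ^ j = gb⁻¹ := eq_inv_of_mul_eq_one_right h1
          rw [this]
          exact Subgroup.inv_mem _ (Subgroup.mem_zpowers gb)
        have h3 : hb0 ^ p ∈ Subgroup.zpowers gb := by
          rw [hEexp]; exact Subgroup.one_mem _
        exact mem_of_pow_mem_coprime _ h2 h3 (Nat.coprime_of_lt_prime (by omega) hj hpp).symm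
    -- the action
    let σ : P →* MulAut A := MulAut.conjNormal
    have hσA : ∀ u ∈ A, σ u = 1 := by
      intro u hu
      ext b
      show u * (b : P) * u⁻¹ = b
      rw [hAcomm b b.2 u hu]
      simp
    have hσpow : ∀ u, (σ u) ^ p = 1 := by
      intro u
      rw [← map_pow]
      exact hσA _ (hgpA u)
    have hσcomm : ∀ u v, Commute (σ u) (σ v) := by
      intro u v
      show σ u * σ v = σ v * σ u
      rw [← map_mul, ← map_mul]
      have : (v * u)⁻¹ * (u * v) ∈ A := by
        rw [hA, MonoidHom.mem_ker, map_mul, map_inv, map_mul, map_mul]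
        have h1 : c v * c u = c u * c v := by
          ext
          exact hcomm _ (c v).2 _
        rw [h1]
        simp
      have h2 := hσA _ this
      rw [map_mul, map_inv, inv_mul_eq_one] at h2
      exact h2.symm
    have hnorm : ∀ u, u ∉ A → ∀ b : A, ((∏ k ∈ Finset.range p, ((σ u) ^ k) b : A) : P) ∈ Z := by
      intro u hu b
      have h1 : (b : P) * u ∉ A := fun h2 => hu (by
        have := A.mul_mem (A.inv_mem b.2) h2
        simpa using this)
      have h2 := ha' _ h1
      have h3 := ha' _ hu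
      rw [mul_pow_expand A u b p] at h2
      have h4 := Z.mul_mem h2 (Z.inv_mem h3)
      simpa using h4
    let ZA : Subgroup A := Z.subgroupOf A
    have key := pow_mem_of_norms p hpp (σ g) (σ h) (hσcomm g h) (hσpow h) ZA
      (by
        intro w hw
        ext
        show g * (w : P) * g⁻¹ = w
        have := (memZ.mp (Subgroup.mem_subgroupOf.mp hw)) g
        rw [this]
        simp)
      (by
        intro j hj b
        have h1 := hnorm (g * h ^ j) (hghj j hj) b
        rw [map_mul, map_pow] at h1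
        exact Subgroup.mem_subgroupOf.mpr h1)
      (by
        intro b
        exact Subgroup.mem_subgroupOf.mpr (hnorm h hhA b))
      ⟨x, hxA⟩
    apply hx
    have := Subgroup.mem_subgroupOf.mp key
    simpa using this

end Cfsg.Agent.S4365
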