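import Mathlib
import Cfsg.Agent.Lib.H14.UniqueSub
import Cfsg.Agent.Lib.H01.Fitting
import Cfsg.Agent.Lib.H06.FittingHall
import Cfsg.Statements.S4370

set_option autoImplicit false
set_option linter.unusedVariables false
set_option linter.style.haveILetI false
set_option linter.unusedSectionVars false
open Pointwise
open Cfsg

namespace Cfsg.Agent.S4370

open Subgroup

section Q
open QuaternionGroup

theorem two_mul_eq_zero {n : ℕ} [NeZero n] (z : ZMod (2 * n)) (h : 2 * z = 0) : z = 0 ∨ z = n := by
  haveI : NeZero (2 * n) := ⟨by have := NeZero.ne n; omega⟩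
  have h1 : ((2 * z.val : ℕ) : ZMod (2 * n)) = 0 := by
    push_cast
    rw [ZMod.natCast_zmod_val]
    exact h
  rw [ZMod.natCast_eq_zero_iff] at h1
  have hn : 0 < n := Nat.pos_of_ne_zero (NeZero.ne n)
  have h2 : n ∣ z.val := by
    obtain ⟨c, hc⟩ := h1
    exact ⟨c, by nlinarith⟩
  have h3 : z.val < 2 * n := ZMod.val_lt z
  obtain ⟨c, hc⟩ := h2
  have hc2 : c < 2 := by
    by_contra hh
    push Not at hh
    have : n * 2 ≤ n * c := Nat.mul_le_mul_left n hh
    omega
  have hc3 : c = 0 ∨ c = 1 := by omega
  rcases hc3 with rfl | rfl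
  · left
    have := ZMod.natCast_zmod_val z
    rw [hc, mul_zero] at this
    simpa using this.symm
  · right
    have := ZMod.natCast_zmod_val z
    rw [hc, mul_one] at this
    exact this.symm

theorem exists_gen {n : ℕ} [NeZero n] (q : QuaternionGroup n)
    (hq : ¬ ∀ y, y * q = q * y) : ∃ g : QuaternionGroup n, centralizer ({q} : Set _) ≤ zpowers g := by
  classical
  haveI : NeZero (2 * n) := ⟨by have := NeZero.ne n; omega⟩
  cases q with
  | a i =>
    refine ⟨a 1, ?_⟩
    intro y hy
    rw [Subgroup.mem_centralizer_singleton_iff] at hy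
    cases y with
    | a j =>
      have : (a j : QuaternionGroup n) = a 1 ^ j.val := by
        rw [a_one_pow, ZMod.natCast_zmod_val]
      rw [this]
      exact Subgroup.pow_mem _ (Subgroup.mem_zpowers _) _
    | xa j =>
      exfalso
      apply hq
      rw [xa_mul_a, a_mul_xa] at hy
      have h1 : j + i = j - i := xa.inj hy
      intro y
      cases y with
      | a l =>
        rw [a_mul_a, a_mul_a, add_comm]
      | xa l =>
        rw [xa_mul_a, a_mul_xa]
        congr 1
        linear_combination h1
  | xa i =>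
    refine ⟨xa i, ?_⟩
    intro y hy
    rw [Subgroup.mem_centralizer_singleton_iff] at hy
    have hpow2 : (xa i : QuaternionGroup n) ^ 2 = a n := xa_sq i
    have hnn : ((n : ZMod (2 * n)) + n) = 0 := by
      have := ZMod.natCast_self (2 * n)
      push_cast at this
      linear_combination this
    have hpow3 : (xa i : QuaternionGroup n) ^ 3 = xa (i + (n : ZMod (2 * n))) := by
      rw [pow_succ, hpow2, a_mul_xa]
      congr 1
      linear_combination (-1 : ZMod (2 * n)) * hnn
    cases y with
    | a j =>
      rw [a_mul_xa, xa_mul_a] at hy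
      have h1 : i - j = i + j := xa.inj hy
      have h2 : 2 * j = 0 := by
        linear_combination (-1 : ZMod (2 * n)) * h1
      rcases two_mul_eq_zero j h2 with rfl | rfl
      · rw [a_zero]; exact Subgroup.one_mem _
      · rw [← hpow2]; exact Subgroup.pow_mem _ (Subgroup.mem_zpowers _) _
    | xa j =>
      rw [xa_mul_xa, xa_mul_xa] at hy
      have h1 : (n : ZMod (2 * n)) + i - j = n + j - i := a.inj hy
      have h2 : 2 * (j - i) = 0 := by
        linear_combination (-1 : ZMod (2 * n)) * h1
      rcases two_mul_eq_zero (j - i) h2 with h | h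
      · have : j = i := sub_eq_zero.mp h
        rw [this]
        exact Subgroup.mem_zpowers _
      · have : j = i + (n : ZMod (2 * n)) := by rw [← h]; ring
        rw [this, ← hpow3]
        exact Subgroup.pow_mem _ (Subgroup.mem_zpowers _) _

end Q

/-- cyclicity of centralizers in `Q × C` -/
theorem cyclic_centralizer {k m : ℕ} (hk : 1 ≤ k) (hm : Odd m)
    (t : QuaternionGroup (2 ^ k) × Multiplicative (ZMod m))
    (ht : t ∉ center (QuaternionGroup (2 ^ k) × Multiplicative (ZMod m))) :
    IsCyclic (centralizer ({t} : Set (QuaternionGroup (2 ^ k) × Multiplicative (ZMod m)))) := by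
  classical
  haveI : NeZero (2 ^ k) := ⟨by positivity⟩
  haveI : NeZero m := ⟨by rintro rfl; simp at hm⟩
  obtain ⟨q, c⟩ := t
  have hq : ¬ ∀ y, y * q = q * y := by
    intro h
    apply ht
    rw [Subgroup.mem_center_iff]
    rintro ⟨y, d⟩
    apply Prod.ext
    · exact h y
    · exact mul_comm d c
  obtain ⟨g, hg⟩ := exists_gen q hq
  let S : Subgroup (QuaternionGroup (2 ^ k) × Multiplicative (ZMod m)) := (zpowers g).prod ⊤
  have hle : centralizer ({(q, c)} : Set (QuaternionGroup (2 ^ k) × Multiplicative (ZMod m))) ≤ S := by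
    rintro ⟨y, d⟩ hy
    rw [Subgroup.mem_centralizer_singleton_iff] at hy
    refine ⟨hg ?_, trivial⟩
    rw [Subgroup.mem_centralizer_singleton_iff]
    exact congrArg Prod.fst hy
  have hS : IsCyclic S := by
    have h1 : IsCyclic (zpowers g × (⊤ : Subgroup (Multiplicative (ZMod m)))) := by
      rw [Group.isCyclic_prod_iff]
      refine ⟨inferInstance, inferInstance, ?_⟩
      rw [Nat.card_zpowers, Subgroup.card_top, Nat.card_eq_fintype_card, Fintype.card_multiplicative,
        ZMod.card]
      have h2 : orderOf g ∣ 2 ^ (k + 2) := by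
        have h3 := orderOf_dvd_natCard g
        have h4 : Nat.card (QuaternionGroup (2 ^ k)) = 2 ^ (k + 2) := by
          rw [Nat.card_eq_fintype_card, QuaternionGroup.card]
          ring
        rwa [h4] at h3
      obtain ⟨b, _, hb⟩ := (Nat.dvd_prime_pow Nat.prime_two).mp h2
      rw [hb]
      exact Nat.Coprime.pow_left _ (Nat.coprime_two_left.mpr hm)
    exact isCyclic_of_surjective (Subgroup.prodEquiv (zpowers g) ⊤).symm.toMonoidHom
      (Subgroup.prodEquiv (zpowers g) ⊤).symm.surjective
  -- subgroup of a cyclic group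
  have h3 : IsCyclic ((centralizer ({(q, c)} : Set (QuaternionGroup (2 ^ k) × Multiplicative (ZMod m)))).subgroupOf S) :=
    Subgroup.isCyclic _
  exact isCyclic_of_surjective (Subgroup.subgroupOfEquivOfLe hle).toMonoidHom
    (Subgroup.subgroupOfEquivOfLe hle).surjective

/-- in a cyclic group, order `p` elements lie in each other's `zpowers` -/
theorem mem_zpowers_of_cyclic {C : Type*} [Group C] [Finite C] [IsCyclic C] {p : ℕ} (hp : 0 < p)
    (a b : C) (ha : orderOf a = p) (hb : b ^ p = 1) : b ∈ zpowers a := by
  classical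
  haveI : Fintype C := Fintype.ofFinite C
  have h1 := IsCyclic.card_pow_eq_one_le (α := C) hp
  let T : Finset C := Finset.univ.filter (fun x => x ^ p = 1)
  have hle : (zpowers a : Set C) ⊆ T := by
    rintro x hx
    obtain ⟨i, rfl⟩ := Subgroup.mem_zpowers_iff.mp hx
    simp only [T, Finset.coe_filter, Finset.mem_univ, true_and, Set.mem_ofPred_eq]
    rw [← zpow_natCast, ← zpow_mul, mul_comm, zpow_mul, zpow_natCast, ← ha, pow_orderOf_eq_one, one_zpow]
  have hcard : T.card ≤ p := h1
  have heq : (zpowers a : Set C) = T := by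
    apply Set.eq_of_subset_of_ncard_le hle
    rw [Set.ncard_coe_finset]
    have : (zpowers a : Set C).ncard = p := by
      rw [← Nat.card_coe_set_eq]
      show Nat.card (zpowers a) = p
      rw [Nat.card_zpowers, ha]
    omega
  have : b ∈ (T : Set C) := by
    simp [T, hb]
  rw [← heq] at this
  exact this

theorem forward {G : Type*} [Group G] [Finite G] (hG : Group.IsNilpotent G)
    (hna : ¬ IsMulCommutative G)
    (h : ∀ x : G, x ∉ Subgroup.center G → IsCyclic (Subgroup.centralizer ({x} : Set G))) :
    ∃ (k m : ℕ), 1 ≤ k ∧ Odd m ∧ Nonempty (G ≃* QuaternionGroup (2 ^ k) × Multiplicative (ZMod m)) := by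
  classical
  have hSn : ∀ (r : ℕ) [Fact r.Prime] (S : Sylow r G), (S : Subgroup G).Normal := fun r _ S =>
    Sylow.normal_of_normalizerCondition (Group.normalizerCondition_of_isNilpotent) S
  -- different primes commute
  have hdiff : ∀ (r s : ℕ) [Fact r.Prime] [Fact s.Prime] (hrs : r ≠ s) (R : Sylow r G) (S : Sylow s G),
      ∀ x ∈ (R : Subgroup G), ∀ y ∈ (S : Subgroup G), x * y = y * x := by
    intro r s _ _ hrs R S x hx y hy
    have hdis : Disjoint (R : Subgroup G) (S : Subgroup G) := by
      apply Subgroup.disjoint_of_coprime_natCard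
      rw [R.card_eq_multiplicity, S.card_eq_multiplicity]
      exact Nat.Coprime.pow _ _ ((Nat.coprime_primes Fact.out Fact.out).mpr hrs)
    exact Subgroup.commute_of_normal_of_disjoint _ _ (hSn r R) (hSn s S) hdis x y hx hy
  -- a nonabelian Sylow
  have hex : ∃ (p : ℕ) (_ : Fact p.Prime) (P : Sylow p G), ¬ ∀ x ∈ (P : Subgroup G), ∀ y ∈ (P : Subgroup G), x * y = y * x := by
    by_contra hno
    push Not at hno
    apply hna
    have hZ : center G = ⊤ := by
      apply Cfsg.Agent.H01.eq_top_of_forall_sylow_le
      intro r _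
      obtain ⟨R⟩ : Nonempty (Sylow r G) := inferInstance
      refine ⟨R, ?_⟩
      intro u hu
      rw [Subgroup.mem_center_iff]
      intro v
      have hC : centralizer ({u} : Set G) = ⊤ := by
        apply Cfsg.Agent.H01.eq_top_of_forall_sylow_le
        intro s _
        obtain ⟨S⟩ : Nonempty (Sylow s G) := inferInstance
        refine ⟨S, ?_⟩
        intro w hw
        rw [Subgroup.mem_centralizer_singleton_iff]
        by_cases hrs : r = s
        · subst hrs
          have hRS : R = S := by
            haveI := Sylow.unique_of_normal R (hSn r R)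
            exact Subsingleton.elim R S
          rw [← hRS] at hw
          exact hno r inferInstance R w hw u hu
        · exact (hdiff r s hrs R S u hu w hw).symm
      have : v ∈ centralizer ({u} : Set G) := by rw [hC]; trivial
      exact Subgroup.mem_centralizer_singleton_iff.mp this
    exact ⟨⟨fun a b => by
      have ha : a ∈ center G := by rw [hZ]; trivial
      exact (Subgroup.mem_center_iff.mp ha b).symm⟩⟩
  obtain ⟨p, hpF, P, hP⟩ := hex
  push Not at hP
  obtain ⟨x, hxP, y, hyP, hxy⟩ := hP
  have hp : p.Prime := Fact.out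
  have hxZ : x ∉ center G := fun h => hxy ((Subgroup.mem_center_iff.mp h y).symm)
  have hCx := h x hxZ
  have hPn := hSn p P
  set R : Subgroup G := pPrimeCore p G with hR
  have hRn : R.Normal := Subgroup.sSup_normal _ (fun _ h => h.1)
  have hRcop : (Nat.card R).Coprime p := Cfsg.Agent.H06.coprime_card_pPrimeCore p
  have hdisPR : Disjoint (P : Subgroup G) R := by
    apply Subgroup.disjoint_of_coprime_natCard
    rw [P.card_eq_multiplicity]
    exact (Nat.Coprime.pow_right _ hRcop).symm
  have hcomm : ∀ u ∈ (P : Subgroup G), ∀ v ∈ R, Commute u v := fun u hu v hv =>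
    Subgroup.commute_of_normal_of_disjoint _ _ hPn hRn hdisPR u v hu hv
  have hRC : R ≤ centralizer ({x} : Set G) := by
    intro v hv
    rw [Subgroup.mem_centralizer_singleton_iff]
    exact (hcomm x hxP v hv).symm.eq
  have hRc : IsCyclic R := by
    have h3 : IsCyclic (R.subgroupOf (centralizer ({x} : Set G))) := Subgroup.isCyclic _
    exact isCyclic_of_surjective (Subgroup.subgroupOfEquivOfLe hRC).toMonoidHom
      (Subgroup.subgroupOfEquivOfLe hRC).surjective
  -- a central element of order `p`
  haveI hPnt : Nontrivial (P : Subgroup G) := by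
    refine ⟨⟨x, hxP⟩, 1, ?_⟩
    intro e
    have : x = 1 := congrArg Subtype.val e
    rw [this] at hxy
    exact hxy (by group)
  haveI hZnt : Nontrivial (center (P : Subgroup G)) := P.isPGroup'.center_nontrivial
  have hpdvd : p ∣ Nat.card (center (P : Subgroup G)) := by
    obtain ⟨n, hn0, hn⟩ := (P.isPGroup'.to_subgroup (center (P : Subgroup G))).nontrivial_iff_card.mp hZnt
    rw [hn]
    exact dvd_pow_self p hn0.ne'
  obtain ⟨a, ha⟩ := exists_prime_orderOf_dvd_card' p hpdvd
  set a₀ : G := (((a : (P : Subgroup G))) : G) with ha₀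
  have ha₀P : a₀ ∈ (P : Subgroup G) := (a : (P : Subgroup G)).2
  have ha₀ord : orderOf a₀ = p := by
    rw [ha₀, Subgroup.orderOf_coe, Subgroup.orderOf_coe, ha]
  have ha₀comm : ∀ w ∈ (P : Subgroup G), a₀ * w = w * a₀ := by
    intro w hw
    have := Subgroup.mem_center_iff.mp a.2 ⟨w, hw⟩
    exact (congrArg Subtype.val this).symm
  have hkey : ∀ c : G, c ∉ center G → a₀ * c = c * a₀ → ∀ b : G, b ^ p = 1 → b * c = c * b →
      b ∈ zpowers a₀ := by
    intro c hc h1 b hb h2
    haveI hcyc := h c hc
    have hmem := mem_zpowers_of_cyclic hp.pos (⟨a₀, Subgroup.mem_centralizer_singleton_iff.mpr h1⟩ :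
      centralizer ({c} : Set G)) ⟨b, Subgroup.mem_centralizer_singleton_iff.mpr h2⟩
      (by rw [Subgroup.orderOf_mk, ha₀ord])
      (by apply Subtype.ext; simpa using hb)
    obtain ⟨i, hi⟩ := Subgroup.mem_zpowers_iff.mp hmem
    exact Subgroup.mem_zpowers_iff.mpr ⟨i, by simpa using congrArg Subtype.val hi⟩
  have hall : ∀ b ∈ (P : Subgroup G), b ^ p = 1 → b ∈ zpowers a₀ := by
    intro b hbP hb
    by_cases hbc : ∀ w ∈ (P : Subgroup G), b * w = w * b
    · exact hkey x hxZ (ha₀comm x hxP) b hb (hbc x hxP)
    · push Not at hbc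
      obtain ⟨w, hwP, hw⟩ := hbc
      have hbZ : b ∉ center G := fun h => hw ((Subgroup.mem_center_iff.mp h w).symm)
      exact hkey b hbZ (ha₀comm b hbP) b hb rfl
  have hU : Cfsg.Agent.H14.UniqueP p (P : Subgroup G) := by
    intro u v hu hv
    have hu' : orderOf (u : G) = p := by rw [Subgroup.orderOf_coe, hu]
    have hv' : orderOf (v : G) = p := by rw [Subgroup.orderOf_coe, hv]
    have h1 := hall u u.2 (by have := pow_orderOf_eq_one (u : G); rwa [hu'] at this)
    have h2 := hall v v.2 (by have := pow_orderOf_eq_one (v : G); rwa [hv'] at this)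
    have hmem := mem_zpowers_of_cyclic hp.pos (⟨u, h1⟩ : zpowers a₀) ⟨v, h2⟩
      (by rw [Subgroup.orderOf_mk, hu'])
      (by
        apply Subtype.ext
        have : (v : G) ^ p = 1 := by have := pow_orderOf_eq_one (v : G); rwa [hv'] at this
        simpa using this)
    obtain ⟨i, hi⟩ := Subgroup.mem_zpowers_iff.mp hmem
    refine Subgroup.mem_zpowers_iff.mpr ⟨i, ?_⟩
    apply Subtype.ext
    have := congrArg Subtype.val hi
    simpa using this
  rcases Cfsg.Agent.H14.isCyclic_or_quaternion P.isPGroup' hU with hcyc | ⟨rfl, k, hk, ⟨e⟩⟩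
  · exfalso
    haveI := hcyc
    apply hxy
    have := (IsCyclic.commGroup (α := (P : Subgroup G))).mul_comm ⟨x, hxP⟩ ⟨y, hyP⟩
    exact congrArg Subtype.val this
  refine ⟨k, Nat.card R, hk, Nat.Coprime.odd_of_right hRcop, ?_⟩
  have htop : (P : Subgroup G) ⊔ R = ⊤ := by
    apply Cfsg.Agent.H01.eq_top_of_forall_sylow_le
    intro s _
    by_cases hs : s = 2
    · subst hs
      exact ⟨P, le_sup_left⟩
    · obtain ⟨S⟩ : Nonempty (Sylow s G) := inferInstance
      refine ⟨S, le_trans ?_ le_sup_right⟩
      apply le_sSup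
      refine ⟨hSn s S, ?_⟩
      rw [S.card_eq_multiplicity]
      exact Nat.Coprime.pow_left _ ((Nat.coprime_primes Fact.out Nat.prime_two).mpr hs)
  let f : (↥(P : Subgroup G)) × R →* G :=
    MonoidHom.noncommCoprod (P : Subgroup G).subtype R.subtype (fun u v => hcomm u u.2 v v.2)
  have hfbij : Function.Bijective f := by
    constructor
    · rw [injective_iff_map_eq_one]
      rintro ⟨u, v⟩ huv
      have h1 : (u : G) * v = 1 := huv
      have h2 : (u : G) ∈ (P : Subgroup G) ⊓ R := by
        refine ⟨u.2, ?_⟩
        have : (u : G) = (v : G)⁻¹ := eq_inv_of_mul_eq_one_left h1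
        rw [this]
        exact R.inv_mem v.2
      rw [disjoint_iff.mp hdisPR, Subgroup.mem_bot] at h2
      have h3 : (v : G) = 1 := by rw [h2, one_mul] at h1; exact h1
      exact Prod.ext (Subtype.ext h2) (Subtype.ext h3)
    · intro g
      have hg : g ∈ ((P : Subgroup G) ⊔ R : Subgroup G) := by rw [htop]; trivial
      rw [← SetLike.mem_coe, Subgroup.mul_normal] at hg
      obtain ⟨u, hu, v, hv, rfl⟩ := hg
      exact ⟨(⟨u, hu⟩, ⟨v, hv⟩), rfl⟩
  exact ⟨(MulEquiv.ofBijective f hfbij).symm.trans
    (MulEquiv.prodCongr e (zmodCyclicMulEquiv hRc).symm)⟩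

/-- Let G be a finite non-abelian nilpotent group. Then the centralizer of every non-central element of G is cyclic if and only if G is isomorphic to the direct product of a generalized quaternion group and a cyclic group of odd order. -/
theorem result {G : Type*} [Group G] [Finite G] (hG : Group.IsNilpotent G)
    (hna : ¬ IsMulCommutative G) :
    (∀ x : G, x ∉ Subgroup.center G → IsCyclic (Subgroup.centralizer ({x} : Set G))) ↔
      ∃ (k m : ℕ), 1 ≤ k ∧ Odd m ∧ Nonempty (G ≃* QuaternionGroup (2 ^ k) × Multiplicative (ZMod m)) := by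
  constructor
  · exact forward hG hna
  · rintro ⟨k, m, hk, hm, ⟨e⟩⟩ x hx
    have hx' : e x ∉ center (QuaternionGroup (2 ^ k) × Multiplicative (ZMod m)) := by
      intro h
      apply hx
      rw [Subgroup.mem_center_iff] at h ⊢
      intro g
      have := h (e g)
      rw [← map_mul, ← map_mul] at this
      exact e.injective this
    haveI hc := cyclic_centralizer hk hm (e x) hx'
    -- transport
    let F : centralizer ({x} : Set G) →* centralizer ({e x} : Set (QuaternionGroup (2 ^ k) × Multiplicative (ZMod m))) :=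
      { toFun := fun y => ⟨e y, by
          rw [Subgroup.mem_centralizer_singleton_iff, ← map_mul, ← map_mul,
            Subgroup.mem_centralizer_singleton_iff.mp y.2]⟩
        map_one' := by
          apply Subtype.ext
          simp
        map_mul' := fun a b => by
          apply Subtype.ext
          simp }
    have hF : Function.Injective F := by
      intro a b hab
      apply Subtype.ext
      exact e.injective (congrArg Subtype.val hab)
    exact isCyclic_of_injective F hF

end Cfsg.Agent.S4370
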