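import Cfsg.Statements.S4376
import Cfsg.Agent.Lib.H17.OTF

set_option autoImplicit false
set_option maxRecDepth 100000
set_option maxHeartbeats 0
set_option synthInstance.maxSize 100000
set_option synthInstance.maxHeartbeats 0
open Cfsg

namespace Cfsg.Agent.S4376

/-- There are finite groups G and H having the same number of elements of each order (the same order type) with G solvable and H not solvable. -/
theorem result :
    ∃ (G : Type) (_ : Group G) (_ : Finite G) (H : Type) (_ : Group H) (_ : Finite H),
      Group.IsSolvable G ∧ ¬ Group.IsSolvable H ∧ ∀ n : ℕ, Nat.card {g : G // orderOf g = n} = Nat.card {h : H // orderOf h = n} := by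
  refine ⟨H17.OT.GG, inferInstance, ?_, H17.OT.HH, inferInstance, ?_, H17.OT.solvGG, H17.OT.not_solvHH,
    H17.OT.order_type_main⟩
  · unfold H17.OT.GG
    set_option synthInstance.maxSize 100000 in
    set_option synthInstance.maxHeartbeats 0 in
    infer_instance
  · unfold H17.OT.HH
    set_option synthInstance.maxSize 100000 in
    set_option synthInstance.maxHeartbeats 0 in
    infer_instance

end Cfsg.Agent.S4376
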