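import Cfsg.Statements.S4377

set_option autoImplicit false
open Cfsg

namespace Cfsg.Agent.S4377

theorem card_pow_eq_one {G : Type*} [Group G] [Finite G] (n : ℕ) (hn : n ≠ 0) :
    Nat.card {g : G // g ^ n = 1} = ∑ d ∈ n.divisors, Nat.card {g : G // orderOf g = d} := by
  classical
  have := Fintype.ofFinite G
  simp only [Nat.card_eq_fintype_card, Fintype.card_subtype]
  rw [Finset.card_eq_sum_card_fiberwise (f := orderOf) (t := n.divisors)]
  · refine Finset.sum_congr rfl (fun d hd => ?_)
    congr 1
    ext g
    simp only [Finset.mem_filter, Finset.mem_univ, true_and]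
    constructor
    · exact fun h => h.2
    · intro h
      refine ⟨?_, h⟩
      have : d ∣ n := Nat.dvd_of_mem_divisors hd
      rw [← h] at this
      exact orderOf_dvd_iff_pow_eq_one.mp this
  · intro g hg
    have hg' : g ^ n = 1 := by simpa using hg
    simp only [Finset.mem_coe, Nat.mem_divisors]
    exact ⟨orderOf_dvd_of_pow_eq_one hg', hn⟩

theorem card_pow_card {G : Type*} [Group G] [Finite G] (n : ℕ) (hn : Nat.card G ∣ n) :
    Nat.card {g : G // g ^ n = 1} = Nat.card G := by
  refine Nat.card_congr (Equiv.subtypeUnivEquiv (fun g => ?_))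
  exact orderOf_dvd_iff_pow_eq_one.mp ((orderOf_dvd_natCard g).trans hn)

/-- Two finite groups have the same number of elements of each order if and only if, for every n, they have the same number of elements g with gⁿ = 1. -/
theorem result {G H : Type*} [Group G] [Finite G] [Group H] [Finite H] :
    (∀ n : ℕ, Nat.card {g : G // orderOf g = n} = Nat.card {h : H // orderOf h = n}) ↔
      ∀ n : ℕ, Nat.card {g : G // g ^ n = 1} = Nat.card {h : H // h ^ n = 1} := by
  constructor
  · intro h
    have hpos : ∀ n : ℕ, n ≠ 0 →
        Nat.card {g : G // g ^ n = 1} = Nat.card {h : H // h ^ n = 1} := by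
      intro n hn
      rw [card_pow_eq_one n hn, card_pow_eq_one n hn]
      exact Finset.sum_congr rfl (fun d _ => h d)
    intro n
    by_cases hn : n = 0
    · subst hn
      have hN : Nat.card G * Nat.card H ≠ 0 := Nat.mul_ne_zero Nat.card_pos.ne' Nat.card_pos.ne'
      have h1 := hpos _ hN
      rw [card_pow_card _ (Dvd.intro _ rfl), card_pow_card _ (Dvd.intro_left _ rfl)] at h1
      simp only [pow_zero]
      rw [Nat.card_congr (Equiv.subtypeUnivEquiv (fun _ => trivial)),
        Nat.card_congr (Equiv.subtypeUnivEquiv (fun _ => trivial))]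
      exact h1
    · exact hpos n hn
  · intro h n
    induction n using Nat.strong_induction_on with
    | _ n ih =>
      by_cases hn : n = 0
      · subst hn
        have hG : IsEmpty {g : G // orderOf g = 0} := ⟨fun g => (orderOf_pos g.1).ne' g.2⟩
        have hH : IsEmpty {g : H // orderOf g = 0} := ⟨fun g => (orderOf_pos g.1).ne' g.2⟩
        rw [Nat.card_of_isEmpty, Nat.card_of_isEmpty]
      · have h1 := h n
        rw [card_pow_eq_one n hn, card_pow_eq_one n hn] at h1
        have hmem : n ∈ n.divisors := Nat.mem_divisors_self n hn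
        rw [← Finset.add_sum_erase _ _ hmem, ← Finset.add_sum_erase _ _ hmem] at h1
        have h2 : ∑ d ∈ n.divisors.erase n, Nat.card {g : G // orderOf g = d} =
            ∑ d ∈ n.divisors.erase n, Nat.card {g : H // orderOf g = d} := by
          refine Finset.sum_congr rfl (fun d hd => ?_)
          rw [Finset.mem_erase, Nat.mem_divisors] at hd
          exact ih d (lt_of_le_of_ne (Nat.le_of_dvd (Nat.pos_of_ne_zero hn) hd.2.1) hd.1)
        omega

end Cfsg.Agent.S4377
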