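import Cfsg.Statements.S4378
import Cfsg.Agent.Lib.H20.MaxComp
import Cfsg.Agent.Lib.H06.PSolvable

set_option autoImplicit false
set_option linter.unusedVariables false
open Cfsg

namespace Cfsg.Agent.S4378

theorem result {G : Type*} [Group G] [Finite G]
    (hG : Group.IsSolvable G)
    (hmax : ∀ M : Subgroup G, IsCoatom M → (∃ K : Subgroup ↥M, K.Normal ∧ ¬ 2 ∣ Nat.card K ∧ ∃ k : ℕ, K.index = 2 ^ k) ∨ (M.index).Prime) :
    ∃ A B C : Subgroup G, A.Normal ∧ B.Normal ∧ C.Normal ∧ A ≤ B ∧ B ≤ C ∧ Odd (Nat.card A) ∧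
      (∃ k : ℕ, A.relIndex B = 2 ^ k) ∧ Odd (B.relIndex C) ∧ ∃ k : ℕ, C.index = 2 ^ k := by
  haveI : Fact (Nat.Prime 2) := ⟨Nat.prime_two⟩
  obtain ⟨A, B, C, h⟩ := Cfsg.Agent.H20.main_ec _ G rfl (Cfsg.Agent.H06.isPSolvable_of_isSolvable 2 G) (Cfsg.Agent.H20.maxHyp_of hmax)
  obtain ⟨h1, h2, h3, h4⟩ := h.final
  refine ⟨A, B, C, h.an, h.bn, h.cn, h.ab, h.bc, ?_, h2, ?_, h4⟩
  · exact Nat.odd_iff.2 (by omega)
  · exact Nat.odd_iff.2 (by omega)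

end Cfsg.Agent.S4378
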