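import Cfsg.Statements.S4379
import Cfsg.Agent.Lib.H20.MaxComp

set_option autoImplicit false
set_option linter.unusedVariables false
open Cfsg

namespace Cfsg.Agent.S4379

theorem result {G : Type*} [Group G] [Finite G]
    (p : ℕ) [Fact p.Prime] (hp : p ≠ 2) (hG : Cfsg.IsPSolvable p G)
    (hmax : ∀ M : Subgroup G, IsCoatom M → (∃ K : Subgroup ↥M, K.Normal ∧ ¬ p ∣ Nat.card K ∧ ∃ k : ℕ, K.index = p ^ k) ∨ (M.index).Prime) :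
    ∃ A B C D : Subgroup G, A.Normal ∧ B.Normal ∧ C.Normal ∧ D.Normal ∧ A ≤ B ∧ B ≤ C ∧ C ≤ D ∧ ¬ p ∣ Nat.card A ∧
      (∃ k : ℕ, A.relIndex B = p ^ k) ∧ ¬ p ∣ B.relIndex C ∧ (∃ k : ℕ, C.relIndex D = p ^ k) ∧ ¬ p ∣ D.index := by
  obtain ⟨A, B, C, h⟩ := Cfsg.Agent.H20.main_ec _ G rfl hG (Cfsg.Agent.H20.maxHyp_of hmax)
  obtain ⟨h1, h2, h3, k, h4⟩ := h.final
  refine ⟨A, B, C, ⊤, h.an, h.bn, h.cn, inferInstance, h.ab, h.bc, le_top, h1, h2, h3, ⟨k, ?_⟩, ?_⟩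
  · rw [Subgroup.relIndex_top_right, h4]
  · rw [Subgroup.index_top]
    exact fun hd => (Fact.out : p.Prime).one_lt.ne' (Nat.dvd_one.1 hd)

end Cfsg.Agent.S4379
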