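import Mathlib
import Cfsg.Agent.Lib.H01.Coprime3
import Cfsg.Agent.Lib.H01.Basic
import Cfsg.Statements.S4381

set_option autoImplicit false
set_option linter.unusedVariables false
set_option linter.style.haveILetI false
set_option linter.unusedSectionVars false
open Pointwise
open Cfsg

namespace Cfsg.Agent.S4381

open Subgroup
open scoped commutatorElement

/-- invariant Sylow subgroups for an abstract coprime action -/
theorem exists_inv_sylow {A G : Type*} [Group A] [Finite A] [Group G] [Finite G]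
    [MulDistribMulAction A G] (hcop : (Nat.card A).Coprime (Nat.card G))
    (hsol : Group.IsSolvable A ∨ Group.IsSolvable G) (r : ℕ) [Fact r.Prime] :
    ∃ R : Subgroup G, (∀ a : A, ∀ x ∈ R, a • x ∈ R) ∧
      Nat.card R = r ^ (Nat.card G).factorization r := by
  classical
  let φ : A →* MulAut G := MulDistribMulAction.toMulAut A G
  let Γ := G ⋊[φ] A
  haveI : Finite Γ := Finite.of_equiv (G × A) SemidirectProduct.equivProd.symm
  let K : Subgroup Γ := (SemidirectProduct.inl : G →* Γ).range
  let B : Subgroup Γ := (SemidirectProduct.inr : A →* Γ).range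
  have hinl : Function.Injective (SemidirectProduct.inl : G →* Γ) := SemidirectProduct.inl_injective
  have hinr : Function.Injective (SemidirectProduct.inr : A →* Γ) := SemidirectProduct.inr_injective
  have hcardK : Nat.card K = Nat.card G := by
    rw [← Nat.card_congr (MonoidHom.ofInjective hinl).toEquiv]
  have hcardB : Nat.card B = Nat.card A := by
    rw [← Nat.card_congr (MonoidHom.ofInjective hinr).toEquiv]
  have hBK : B ≤ normalizer (K : Set Γ) := by
    have hKn : K.Normal := by
      have : K = (SemidirectProduct.rightHom : Γ →* A).ker := SemidirectProduct.range_inl_eq_ker_rightHom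
      rw [this]
      exact MonoidHom.normal_ker _
    rw [Subgroup.normalizer_eq_top_iff.mpr hKn]
    exact le_top
  have hsolv : Group.IsSolvable B ∨ Group.IsSolvable K := by
    rcases hsol with h | h
    · left
      exact Group.isSolvable_of_surjective (MonoidHom.rangeRestrict_surjective (SemidirectProduct.inr : A →* Γ))
    · right
      exact Group.isSolvable_of_surjective (MonoidHom.rangeRestrict_surjective (SemidirectProduct.inl : G →* Γ))
  obtain ⟨P, hP⟩ := Cfsg.Agent.H01.exists_invariant_sylow hBK (by rw [hcardB, hcardK]; exact hcop) hsolv r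
  let R : Subgroup G := ((P : Subgroup K).map K.subtype).comap SemidirectProduct.inl
  refine ⟨R, ?_, ?_⟩
  · intro a x hx
    have h1 : (SemidirectProduct.inr a : Γ) ∈ B := ⟨a, rfl⟩
    have h2 := hP h1
    rw [Subgroup.mem_normalizer_iff] at h2
    have h3 := (h2 _).1 hx
    show (SemidirectProduct.inl (a • x) : Γ) ∈ (P : Subgroup K).map K.subtype
    have h4 : (SemidirectProduct.inl (a • x) : Γ) =
        SemidirectProduct.inr a * SemidirectProduct.inl x * (SemidirectProduct.inr a)⁻¹ := by
      have := SemidirectProduct.inl_aut (φ := φ) a x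
      rw [map_inv] at this
      exact this
    rw [h4]
    exact h3
  · have h1 : Nat.card R = Nat.card (P : Subgroup K) := by
      have hle : (P : Subgroup K).map K.subtype ≤ K := by
        rintro _ ⟨x, _, rfl⟩
        exact x.2
      have h2 : R.map SemidirectProduct.inl = (P : Subgroup K).map K.subtype := by
        apply Subgroup.map_comap_eq_self
        exact hle
      calc Nat.card R = Nat.card (R.map (SemidirectProduct.inl : G →* Γ)) :=
            (Subgroup.card_map_of_injective hinl).symm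
        _ = Nat.card ((P : Subgroup K).map K.subtype) := by rw [h2]
        _ = Nat.card (P : Subgroup K) := Subgroup.card_map_of_injective K.subtype_injective
    rw [h1, P.card_eq_multiplicity, hcardK]

theorem exists_proj_mod {E : Type*} [AddCommGroup E] {p : ℕ} [Fact p.Prime] [Module (ZMod p) E]
    (U : Submodule (ZMod p) E) :
    ∃ π : E →ₗ[ZMod p] E, (∀ v, π v ∈ U) ∧ ∀ u ∈ U, π u = u := by
  obtain ⟨q, hq⟩ := Submodule.exists_isCompl U
  refine ⟨U.projection q hq, ?_, ?_⟩
  · intro v
    rw [Submodule.projection_apply]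
    exact (U.projectionOnto q hq v).2
  · intro u hu
    have h2 := Submodule.projectionOnto_apply_left hq ⟨u, hu⟩
    rw [Submodule.projection_apply, h2]

theorem exists_proj_add {E : Type*} [AddCommGroup E] [Finite E] {p : ℕ}
    [Fact p.Prime] (hE : ∀ x : E, p • x = 0) (U : AddSubgroup E) :
    ∃ π : E →+ E, (∀ v, π v ∈ U) ∧ ∀ u ∈ U, π u = u := by
  letI : Module (ZMod p) E := AddCommGroup.zmodModule hE
  obtain ⟨π, h1, h2⟩ := exists_proj_mod (p := p) (AddSubgroup.toZModSubmodule p U)
  exact ⟨π.toAddMonoidHom, h1, h2⟩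

theorem exists_proj {V : Type*} [CommGroup V] [Finite V] {p : ℕ}
    [Fact p.Prime] (hV : ∀ x : V, x ^ p = 1) (U : Subgroup V) :
    ∃ π : V →* V, (∀ v, π v ∈ U) ∧ ∀ u ∈ U, π u = u := by
  obtain ⟨π, h1, h2⟩ := exists_proj_add (E := Additive V) (p := p)
    (fun x => by
      show Additive.ofMul ((Additive.toMul x) ^ p) = 0
      rw [hV]; rfl) (Subgroup.toAddSubgroup U)
  refine ⟨{ toFun := fun v => Additive.toMul (π (Additive.ofMul v))
            map_one' := ?_
            map_mul' := ?_ }, ?_, ?_⟩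
  · have : Additive.ofMul (1 : V) = 0 := rfl
    rw [this, map_zero]
    rfl
  · intro x y
    have : Additive.ofMul (x * y) = Additive.ofMul x + Additive.ofMul y := rfl
    rw [this, map_add]
    rfl
  · intro v
    exact h1 (Additive.ofMul v)
  · intro u hu
    show Additive.toMul (π (Additive.ofMul u)) = u
    rw [h2 (Additive.ofMul u) hu]
    rfl

/-- Maschke by averaging, for a group of automorphisms `τ` of an elementary abelian group -/
theorem maschke_elem {A V : Type*} [Group A] [Finite A] [CommGroup V] [Finite V] {p : ℕ}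
    [Fact p.Prime] (hV : ∀ x : V, x ^ p = 1) (hcop : (Nat.card A).Coprime p)
    (τ : A →* MulAut V) (U : Subgroup V) (hU : ∀ a, ∀ u ∈ U, τ a u ∈ U) :
    ∃ W : Subgroup V, (∀ a, ∀ w ∈ W, τ a w ∈ W) ∧ U ⊓ W = ⊥ ∧ U ⊔ W = ⊤ := by
  classical
  haveI : Fintype A := Fintype.ofFinite A
  -- a projection
  obtain ⟨π, hπ1, hπ2⟩ := exists_proj hV U
  -- average
  let σ : V →* V :=
    { toFun := fun v => ∏ a : A, τ a (π ((τ a)⁻¹ v))
      map_one' := by simp
      map_mul' := fun x y => by
        simp only [map_mul, Finset.prod_mul_distrib] }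
  have hσ1 : ∀ v, σ v ∈ U := fun v => Subgroup.prod_mem _ (fun a _ => hU a _ (hπ1 _))
  have hσ2 : ∀ u ∈ U, σ u = u ^ Fintype.card A := by
    intro u hu
    have h1 : ∀ a : A, τ a (π ((τ a)⁻¹ u)) = u := by
      intro a
      have h3 : (τ a)⁻¹ u ∈ U := by
        have := hU a⁻¹ u hu
        rwa [map_inv] at this
      rw [hπ2 _ h3]
      simp
    show ∏ a : A, τ a (π ((τ a)⁻¹ u)) = _
    simp only [h1, Finset.prod_const, Finset.card_univ]
  have hσ3 : ∀ b v, σ (τ b v) = τ b (σ v) := by
    intro b v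
    show ∏ a : A, τ a (π ((τ a)⁻¹ (τ b v))) = τ b (∏ a : A, τ a (π ((τ a)⁻¹ v)))
    rw [map_prod]
    apply Fintype.prod_equiv (Equiv.mulLeft b⁻¹)
    intro a
    simp only [Equiv.coe_mulLeft, map_mul, map_inv, MulAut.mul_apply, mul_inv_rev, inv_inv,
      MulAut.inv_apply_self, MulAut.apply_inv_self]
  -- inverse of `|A|` modulo `p`
  have hp : p.Prime := Fact.out
  obtain ⟨n, hn⟩ : ∃ n : ℕ, Fintype.card A * n ≡ 1 [MOD p] := by
    rw [← Nat.card_eq_fintype_card]
    obtain ⟨n, -, hn⟩ := Nat.exists_mul_mod_eq_one_of_coprime hcop hp.one_lt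
    refine ⟨n, ?_⟩
    unfold Nat.ModEq
    rw [hn, Nat.mod_eq_of_lt hp.one_lt]
  let ρ : V →* V := σ ^ n
  have hρa : ∀ v, ρ v = σ v ^ n := fun v => rfl
  have hρ1 : ∀ v, ρ v ∈ U := fun v => by
    rw [hρa]
    exact U.pow_mem (hσ1 v) n
  have hρ2 : ∀ u ∈ U, ρ u = u := by
    intro u hu
    rw [hρa, hσ2 u hu, ← pow_mul]
    have h1 : orderOf u ∣ p := orderOf_dvd_of_pow_eq_one (hV u)
    have h2 : u ^ (Fintype.card A * n) = u ^ 1 := by
      apply pow_eq_pow_iff_modEq.mpr
      exact hn.of_dvd h1
    rw [h2, pow_one]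
  refine ⟨ρ.ker, ?_, ?_, ?_⟩
  · intro a w hw
    rw [MonoidHom.mem_ker] at hw ⊢
    rw [hρa, hσ3, ← map_pow, ← hρa, hw, map_one]
  · rw [eq_bot_iff]
    rintro u ⟨hu, hw⟩
    have hw' : ρ u = 1 := hw
    rw [hρ2 u hu] at hw'
    exact hw'
  · rw [eq_top_iff]
    intro v _
    have h1 : v = ρ v * ((ρ v)⁻¹ * v) := by group
    rw [h1]
    refine Subgroup.mul_mem _ (Subgroup.mem_sup_left (hρ1 v)) (Subgroup.mem_sup_right ?_)
    rw [MonoidHom.mem_ker, map_mul, map_inv, hρ2 _ (hρ1 v)]
    simp

section main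
variable {A G : Type*} [Group A] [Finite A] [Group G] [Finite G] [MulDistribMulAction A G]

/-- invariant under `A` -/
def Inv (A : Type*) {G : Type*} [Group G] [SMul A G] (M : Subgroup G) : Prop :=
  ∀ a : A, ∀ x ∈ M, a • x ∈ M

/-- maximal invariant -/
def MaxInv (A : Type*) {G : Type*} [Group G] [SMul A G] (M : Subgroup G) : Prop :=
  M ≠ ⊤ ∧ (∀ a : A, ∀ x ∈ M, a • x ∈ M) ∧ ∀ L : Subgroup G, M < L → (∀ a : A, ∀ x ∈ L, a • x ∈ L) → L = ⊤

theorem inv_frattini (a : A) (x : G) (hx : x ∈ frattini G) : a • x ∈ frattini G := by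
  have h := (inferInstance : (frattini G).Characteristic).fixed (MulDistribMulAction.toMulAut A G a)
  rw [← h] at hx
  have h2 : x ∈ (frattini G).comap (MulDistribMulAction.toMulAut A G a).toMonoidHom := hx
  exact h2

theorem frattini_le_maxInv (M : Subgroup G) (hM : MaxInv A M) : frattini G ≤ M := by
  obtain ⟨h1, h2, h3⟩ := hM
  obtain ⟨X, hX, hMX⟩ := (eq_top_or_exists_le_coatom M).resolve_left h1
  have hΦX : frattini G ≤ X := by
    intro x hx
    exact (Cfsg.Agent.H01.mem_frattini_iff.mp hx) X hX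
  by_contra hnot
  have hlt : M < M ⊔ frattini G := by
    refine lt_of_le_of_ne le_sup_left ?_
    intro e
    apply hnot
    rw [e]
    exact le_sup_right
  have hinv : ∀ a : A, ∀ x ∈ M ⊔ frattini G, a • x ∈ M ⊔ frattini G := by
    intro a x hx
    have hle : M ⊔ frattini G ≤ (M ⊔ frattini G).comap (MulDistribMulAction.toMulAut A G a).toMonoidHom := by
      apply sup_le
      · intro y hy
        exact Subgroup.mem_sup_left (h2 a y hy)
      · intro y hy
        exact Subgroup.mem_sup_right (inv_frattini a y hy)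
    exact hle hx
  have := h3 _ hlt hinv
  apply hX.1
  rw [eq_top_iff, ← this]
  exact sup_le hMX hΦX

theorem exists_maxInv_ge (L : Subgroup G) (hL : L ≠ ⊤) (hLinv : ∀ a : A, ∀ x ∈ L, a • x ∈ L) :
    ∃ M, MaxInv A M ∧ L ≤ M := by
  classical
  let PP : Set (Subgroup G) := {M | L ≤ M ∧ M ≠ ⊤ ∧ ∀ a : A, ∀ x ∈ M, a • x ∈ M}
  have hPP : PP.Nonempty := ⟨L, le_refl _, hL, hLinv⟩
  obtain ⟨M, hM⟩ := PP.toFinite.exists_maximal hPP
  obtain ⟨h1, h2, h3⟩ := hM.1
  refine ⟨M, ⟨h2, h3, ?_⟩, h1⟩
  intro K hMK hKinv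
  by_contra hK
  have hmem : K ∈ PP := ⟨h1.trans hMK.le, hK, hKinv⟩
  have := hM.2 hmem hMK.le
  exact absurd hMK (not_lt_of_ge this)

theorem exists_inv_compl {p : ℕ} [Fact p.Prime] (hG : IsPGroup p G) (hcop : (Nat.card A).Coprime p)
    (L : Subgroup G) (hLΦ : frattini G ≤ L) (hL : ∀ a : A, ∀ x ∈ L, a • x ∈ L) :
    ∃ W : Subgroup G, frattini G ≤ W ∧ (∀ a : A, ∀ x ∈ W, a • x ∈ W) ∧ L ⊓ W ≤ frattini G ∧ L ⊔ W = ⊤ := by
  classical
  have hcomm : commutator G ≤ frattini G := Cfsg.Agent.H01.commutator_le_frattini_of_isPGroup hG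
  letI commV : CommGroup (G ⧸ frattini G) :=
    { (inferInstance : Group (G ⧸ frattini G)) with
      mul_comm := by
        intro x y
        induction x using QuotientGroup.induction_on with
        | H x =>
        induction y using QuotientGroup.induction_on with
        | H y =>
        apply QuotientGroup.eq.mpr
        have h1 : ⁅y⁻¹, x⁻¹⁆ ∈ frattini G :=
          hcomm (Subgroup.commutator_mem_commutator (Subgroup.mem_top _) (Subgroup.mem_top _))
        have h2 : ((x : G) * y)⁻¹ * (y * x) = ⁅y⁻¹, x⁻¹⁆ := by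
          rw [commutatorElement_def]; group
        rw [h2]
        exact h1 }
  have hexp : ∀ x : G ⧸ frattini G, x ^ p = 1 := by
    intro x
    induction x using QuotientGroup.induction_on with
    | H x =>
      rw [← QuotientGroup.mk_pow]
      exact (QuotientGroup.eq_one_iff _).mpr (Cfsg.Agent.H01.pow_mem_frattini_of_isPGroup hG x)
  have hmap : ∀ a : A, (frattini G).map (MulDistribMulAction.toMulAut A G a).toMonoidHom = frattini G := by
    intro a
    exact (Subgroup.characteristic_iff_map_eq.mp inferInstance) _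
  let τ : A →* MulAut (G ⧸ frattini G) :=
    { toFun := fun a => QuotientGroup.congr (frattini G) (frattini G)
        (MulDistribMulAction.toMulAut A G a) (hmap a)
      map_one' := by
        ext x
        induction x using QuotientGroup.induction_on with
        | H x =>
          show ((((1 : A) • x : G)) : G ⧸ frattini G) = x
          rw [one_smul]
      map_mul' := by
        intro a b
        ext x
        induction x using QuotientGroup.induction_on with
        | H x =>
          show (((a * b) • x : G) : G ⧸ frattini G) = ((a • (b • x) : G) : G ⧸ frattini G)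
          rw [mul_smul] }
  have hτ : ∀ (a : A) (x : G), τ a (x : G ⧸ frattini G) = ((a • x : G) : G ⧸ frattini G) :=
    fun a x => rfl
  let U : Subgroup (G ⧸ frattini G) := L.map (QuotientGroup.mk' (frattini G))
  have hU : ∀ a, ∀ u ∈ U, τ a u ∈ U := by
    rintro a _ ⟨x, hx, rfl⟩
    exact ⟨a • x, hL a x hx, rfl⟩
  obtain ⟨W, hW1, hW2, hW3⟩ := maschke_elem hexp hcop τ U hU
  refine ⟨W.comap (QuotientGroup.mk' (frattini G)), ?_, ?_, ?_, ?_⟩
  · intro x hx
    rw [Subgroup.mem_comap]
    have : QuotientGroup.mk' (frattini G) x = 1 := (QuotientGroup.eq_one_iff x).mpr hx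
    rw [this]
    exact W.one_mem
  · intro a x hx
    rw [Subgroup.mem_comap] at hx ⊢
    exact hW1 a _ hx
  · rintro x ⟨hx1, hx2⟩
    have h1 : QuotientGroup.mk' (frattini G) x ∈ U ⊓ W := ⟨⟨x, hx1, rfl⟩, hx2⟩
    rw [hW2, Subgroup.mem_bot] at h1
    exact (QuotientGroup.eq_one_iff x).mp h1
  · rw [eq_top_iff]
    intro g _
    have h1 : ((g : G) : G ⧸ frattini G) ∈ U ⊔ W := by rw [hW3]; trivial
    obtain ⟨u, hu, w, hw, e⟩ := Subgroup.mem_sup.mp h1
    obtain ⟨l, hl, rfl⟩ := hu
    have h2 : g = l * (l⁻¹ * g) := by group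
    rw [h2]
    refine Subgroup.mul_mem _ (Subgroup.mem_sup_left hl) (Subgroup.mem_sup_right ?_)
    rw [Subgroup.mem_comap]
    have h3 : QuotientGroup.mk' (frattini G) (l⁻¹ * g) = w := by
      rw [map_mul, map_inv]
      have h4 : QuotientGroup.mk' (frattini G) g = QuotientGroup.mk' (frattini G) l * w := e.symm
      rw [h4]
      group
    rw [h3]
    exact hw

/-- Part 2 -/
theorem maxInv_iff (hirr : ∀ L : Subgroup G, frattini G < L → (∀ a : A, ∀ x ∈ L, a • x ∈ L) → L = ⊤)
    (M : Subgroup G) : MaxInv A M ↔ (M = frattini G ∧ M ≠ ⊤) := by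
  constructor
  · intro hM
    refine ⟨?_, hM.1⟩
    have h1 := frattini_le_maxInv M hM
    by_contra h2
    have h3 : frattini G < M := lt_of_le_of_ne h1 (Ne.symm h2)
    exact hM.1 (hirr M h3 hM.2.1)
  · rintro ⟨rfl, h2⟩
    exact ⟨h2, fun a x hx => inv_frattini a x hx, hirr⟩

end main

/-- Let the finite group A act by automorphisms on the finite group G with the orders of A and G coprime, and assume that A or G is solvable. Call a proper A-invariant subgroup of G maximal A-invariant when no A-invariant subgroup lies strictly between it and G. Then all maximal A-invariant subgroups of G are conjugate under elements of the fixed-point subgroup C_G(A) if and only if G is a p-group for some prime p and A leaves invariant no subgroup strictly between the Frattini subgroup of G and G. In that case, if G is nontrivial, the Frattini subgroup is the only maximal A-invariant subgroup (a trivial G has none). -/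
theorem result {A G : Type*} [Group A] [Finite A]
    [Group G] [Finite G] [MulDistribMulAction A G] (hcop : (Nat.card A).Coprime (Nat.card G)) (hsol : Group.IsSolvable A ∨ Group.IsSolvable G) :
    ((∀ M N : Subgroup G, (M ≠ ⊤ ∧ (∀ a : A, ∀ x ∈ M, a • x ∈ M) ∧ ∀ L : Subgroup G, M < L → (∀ a : A, ∀ x ∈ L, a • x ∈ L) → L = ⊤) → (N ≠ ⊤ ∧ (∀ a : A, ∀ x ∈ N, a • x ∈ N) ∧ ∀ L : Subgroup G, N < L → (∀ a : A, ∀ x ∈ L, a • x ∈ L) → L = ⊤) →
        ∃ c : G, (∀ a : A, a • c = c) ∧ N = MulAut.conj c • M) ↔
      ((∃ p : ℕ, p.Prime ∧ IsPGroup p G) ∧ ∀ L : Subgroup G, frattini G < L → (∀ a : A, ∀ x ∈ L, a • x ∈ L) → L = ⊤)) ∧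
    (((∃ p : ℕ, p.Prime ∧ IsPGroup p G) ∧ ∀ L : Subgroup G, frattini G < L → (∀ a : A, ∀ x ∈ L, a • x ∈ L) → L = ⊤) →
      ∀ M : Subgroup G, (M ≠ ⊤ ∧ (∀ a : A, ∀ x ∈ M, a • x ∈ M) ∧ ∀ L : Subgroup G, M < L → (∀ a : A, ∀ x ∈ L, a • x ∈ L) → L = ⊤) ↔ (M = frattini G ∧ M ≠ ⊤)) := by
  classical
  refine ⟨⟨?_, ?_⟩, ?_⟩
  · intro hconj
    by_cases htriv : Nat.card G = 1
    · haveI : Subsingleton G := (Nat.card_eq_one_iff_unique.mp htriv).1
      refine ⟨⟨2, Nat.prime_two, IsPGroup.of_card (n := 0) (by simpa using htriv)⟩, ?_⟩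
      intro L _ _
      exact Subsingleton.elim _ _
    -- a maximal invariant subgroup
    have hbot : (⊥ : Subgroup G) ≠ ⊤ := by
      intro h
      apply htriv
      have : Nat.card (⊥ : Subgroup G) = Nat.card (⊤ : Subgroup G) := by rw [h]
      rw [Subgroup.card_bot, Subgroup.card_top] at this
      exact this.symm
    obtain ⟨M, hM, -⟩ := exists_maxInv_ge (A := A) (⊥ : Subgroup G) hbot (by
      intro a x hx
      rw [Subgroup.mem_bot] at hx ⊢
      rw [hx, smul_one])
    -- `G` is a `p`-group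
    have hpg : ∃ p : ℕ, p.Prime ∧ IsPGroup p G := by
      by_contra hno
      push Not at hno
      apply hM.1
      apply Subgroup.eq_top_of_le_card
      apply Nat.le_of_dvd Nat.card_pos
      rw [← Nat.factorization_prime_le_iff_dvd Nat.card_pos.ne' Nat.card_pos.ne']
      intro r hr
      haveI : Fact r.Prime := ⟨hr⟩
      obtain ⟨R, hRinv, hRcard⟩ := exists_inv_sylow hcop hsol r
      have hRne : R ≠ ⊤ := by
        intro e
        apply hno r hr
        rw [IsPGroup.iff_card]
        refine ⟨(Nat.card G).factorization r, ?_⟩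
        rw [e, Subgroup.card_top] at hRcard
        exact hRcard
      obtain ⟨M', hM', hRM'⟩ := exists_maxInv_ge (A := A) R hRne hRinv
      obtain ⟨c, -, hc⟩ := hconj M' M hM' hM
      have h1 : MulAut.conj c • R ≤ M := by
        rw [hc]
        exact (Subgroup.pointwise_smul_le_pointwise_smul_iff).2 hRM'
      have h2 : r ^ (Nat.card G).factorization r ∣ Nat.card M := by
        rw [← hRcard]
        have h3 := Subgroup.card_dvd_of_le h1
        have h4 : Nat.card (MulAut.conj c • R : Subgroup G) = Nat.card R := by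
          exact Nat.card_congr (Subgroup.equivSMul (MulAut.conj c) R).toEquiv.symm
        rwa [h4] at h3
      exact (hr.pow_dvd_iff_le_factorization Nat.card_pos.ne').mp h2
    refine ⟨hpg, ?_⟩
    obtain ⟨p, hp, hpG⟩ := hpg
    haveI : Fact p.Prime := ⟨hp⟩
    intro L hΦL hLinv
    by_contra hne
    have hcop' : (Nat.card A).Coprime p := by
      have h1 : p ∣ Nat.card G := by
        obtain ⟨n, hn⟩ := IsPGroup.iff_card.mp hpG
        rw [hn] at htriv ⊢
        have : n ≠ 0 := by
          rintro rfl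
          simp at htriv
        exact dvd_pow_self p this
      exact Nat.Coprime.coprime_dvd_right h1 hcop
    obtain ⟨W, hΦW, hWinv, hLW, hLW2⟩ := exists_inv_compl hpG hcop' L hΦL.le hLinv
    have hWne : W ≠ ⊤ := by
      intro e
      rw [e, inf_top_eq] at hLW
      exact absurd hΦL (not_lt_of_ge hLW)
    obtain ⟨M₁, hM₁, hLM₁⟩ := exists_maxInv_ge (A := A) L hne hLinv
    obtain ⟨M₂, hM₂, hWM₂⟩ := exists_maxInv_ge (A := A) W hWne hWinv
    obtain ⟨c, -, hc⟩ := hconj M₁ M₂ hM₁ hM₂
    have hΦM₁ := frattini_le_maxInv M₁ hM₁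
    have hcomm : commutator G ≤ frattini G := Cfsg.Agent.H01.commutator_le_frattini_of_isPGroup hpG
    haveI hM₁n : M₁.Normal := by
      constructor
      intro x hx g
      have h1 : ⁅g, x⁆ ∈ M₁ :=
        hΦM₁ (hcomm (Subgroup.commutator_mem_commutator (Subgroup.mem_top _) (Subgroup.mem_top _)))
      have h2 : g * x * g⁻¹ = ⁅g, x⁆ * x := by
        rw [commutatorElement_def]; group
      rw [h2]
      exact M₁.mul_mem h1 hx
    have h3 : M₂ = M₁ := by rw [hc, Subgroup.Normal.conj_smul_eq_self]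
    apply hM₁.1
    rw [eq_top_iff, ← hLW2]
    exact sup_le hLM₁ (h3 ▸ hWM₂)
  · rintro ⟨-, hirr⟩ M N hM hN
    refine ⟨1, fun a => smul_one a, ?_⟩
    have h1 := (maxInv_iff hirr M).1 hM
    have h2 := (maxInv_iff hirr N).1 hN
    rw [map_one, one_smul, h1.1, h2.1]
  · rintro ⟨-, hirr⟩ M
    exact maxInv_iff hirr M

end Cfsg.Agent.S4381
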