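import Cfsg.Statements.S4387
import Cfsg.Agent.Lib.H20.Basic

set_option autoImplicit false
open Cfsg
open scoped Pointwise

namespace Cfsg.Agent.S4387

/-- Let G be a non-trivial finite group in which any two maximal subgroups are conjugate. Then G is cyclic of prime-power order. -/
theorem result {G : Type*} [Group G] [Finite G] [Nontrivial G]
    (h : ∀ M N : Subgroup G, IsCoatom M → IsCoatom N → ∃ g : G, N = MulAut.conj g • M) :
    IsCyclic G ∧ IsPrimePow (Nat.card G) := by
  -- a maximal subgroup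
  obtain ⟨M, hM⟩ : ∃ M : Subgroup G, IsCoatom M := by
    rcases eq_top_or_exists_le_coatom (⊥ : Subgroup G) with h0 | ⟨M, hM, -⟩
    · exact absurd h0 bot_ne_top
    · exact ⟨M, hM⟩
  obtain ⟨g, hg⟩ := H20.exists_not_mem_conj M hM.1
  have hgen : Subgroup.zpowers g = ⊤ := by
    rcases eq_top_or_exists_le_coatom (Subgroup.zpowers g) with h0 | ⟨N, hN, hle⟩
    · exact h0
    · exfalso
      obtain ⟨a, ha⟩ := h M N hM hN
      have hgN : g ∈ N := hle (Subgroup.mem_zpowers g)
      rw [ha, Subgroup.mem_pointwise_smul_iff_inv_smul_mem] at hgN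
      apply hg a
      simpa [MulAut.smul_def] using hgN
  have hcyc : IsCyclic G := by
    refine ⟨g, fun x => ?_⟩
    exact Subgroup.mem_zpowers_iff.mp (hgen ▸ Subgroup.mem_top x)
  refine ⟨hcyc, ?_⟩
  have hcomm : ∀ a b : G, a * b = b * a := fun a b => (IsCyclic.commGroup (α := G)).mul_comm a b
  have hconj : ∀ (K : Subgroup G) (a : G), MulAut.conj a • K = K := by
    intro K a
    ext y
    rw [Subgroup.mem_pointwise_smul_iff_inv_smul_mem]
    have : (MulAut.conj a)⁻¹ • y = y := by
      rw [MulAut.smul_def, ← map_inv, MulAut.conj_apply, hcomm a⁻¹ y, mul_assoc]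
      simp
    rw [this]
  have huniq : ∀ K L : Subgroup G, IsCoatom K → IsCoatom L → K = L := by
    intro K L hK hL
    obtain ⟨a, ha⟩ := h K L hK hL
    rw [ha, hconj]
  have hord : orderOf g = Nat.card G := by
    rw [← Nat.card_zpowers, hgen]
    exact Nat.card_congr Subgroup.topEquiv.toEquiv
  -- subgroup of prime index
  have hsub : ∀ r : ℕ, r.Prime → r ∣ Nat.card G → ∃ K : Subgroup G, K.index = r := by
    intro r hr hd
    refine ⟨Subgroup.zpowers (g ^ r), ?_⟩
    have h1 := Subgroup.card_mul_index (Subgroup.zpowers (g ^ r))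
    rw [Nat.card_zpowers, orderOf_pow_of_dvd hr.ne_zero (hord ▸ hd), hord] at h1
    have hpos : 0 < Nat.card G / r := Nat.div_pos (Nat.le_of_dvd Nat.card_pos hd) hr.pos
    have h2 : Nat.card G / r * r = Nat.card G := Nat.div_mul_cancel hd
    exact Nat.eq_of_mul_eq_mul_left hpos (h1.trans h2.symm)
  rw [isPrimePow_iff_unique_prime_dvd]
  obtain ⟨q, hq, hqd⟩ := Nat.exists_prime_and_dvd (Finite.one_lt_card (α := G)).ne'
  refine ⟨q, ⟨hq, hqd⟩, fun r hr => ?_⟩
  obtain ⟨K, hK⟩ := hsub q hq hqd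
  obtain ⟨L, hL⟩ := hsub r hr.1 hr.2
  have := huniq K L (H20.isCoatom_of_index_prime K (hK ▸ hq)) (H20.isCoatom_of_index_prime L (hL ▸ hr.1))
  rw [← hL, ← hK, this]

end Cfsg.Agent.S4387
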