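import Cfsg.Statements.S4396
import Cfsg.Agent.Lib.H26.FrobFree5
import Cfsg.Agent.Lib.H20.Frob
import Mathlib
set_option autoImplicit false
set_option linter.style.haveILetI false
set_option linter.unusedVariables false
open Cfsg
open Module
open scoped Pointwise

namespace Cfsg.Agent.S4396

/-- Let the finite group A act faithfully and linearly on a finite-dimensional vector space V over a field k, and suppose A is a Frobenius group with nilpotent kernel F (every Frobenius kernel is nilpotent) and complement H such that F fixes no nonzero vector. Then V is free as a module for H: there is a subspace W with V the direct sum of the translates hW, h ∈ H. (No assumption on the characteristic of k.) -/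
theorem result {k V A : Type*} [Field k] [AddCommGroup V] [Module k V] [FiniteDimensional k V] [Group A] [Finite A] [DecidableEq A]
    (ρ : Representation k A V) (hρ : Function.Injective ρ)
    (Fk Hc : Subgroup A) [Fk.Normal] (hHc : Cfsg.IsFrobeniusComplement Hc) (hker : Cfsg.frobeniusKernel Hc = (Fk : Set A)) (hnil : Group.IsNilpotent ↥Fk)
    (hCF : ∀ v : V, (∀ f ∈ Fk, ρ f v = v) → v = 0) :
    ∃ W : Submodule k V, DirectSum.IsInternal (fun h : ↥Hc => W.map (ρ (h : A))) := by
    classical
  obtain ⟨Φ₀, hΦn, hΦF, hΦc, hΦfix⟩ := H26.FrobFree.exists_good_core ρ Fk hnil hCF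
  haveI := hΦn
  haveI : Fintype Φ₀ := Fintype.ofFinite _
  haveI : Fintype Hc := Fintype.ofFinite _
  let α : Hc →* MulAut Φ₀ := (MulAut.conjNormal (H := Φ₀)).comp Hc.subtype
  have hα : ∀ (h : Hc) (f : Φ₀), ((α h f : Φ₀) : A) = (h : A) * f * (h : A)⁻¹ := fun _ _ => rfl
  have hfpf : ∀ h, h ≠ 1 → ∀ f, α h f = f → f = 1 := by
    intro h hh f hf
    by_contra hf1
    have hfne : (f : A) ≠ 1 := fun h1 => hf1 (Subtype.ext h1)
    have hfker : (f : A) ∈ Cfsg.frobeniusKernel Hc := by
      rw [hker]
      exact hΦF f.2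
    have hfnH : (f : A) ∉ Hc := by
      intro hfH
      rcases hfker with h1 | h2
      · exact hfne h1
      · apply h2 1
        rw [H20.mem_conj_smul_iff]
        simpa using hfH
    have hinf := hHc.2.2 (f : A) hfnH
    have hcomm : (h : A) * f * (h : A)⁻¹ = f := by
      rw [← hα, hf]
    have hmem : (h : A) ∈ Hc ⊓ (MulAut.conj (f : A) • Hc) := by
      refine Subgroup.mem_inf.mpr ⟨h.2, ?_⟩
      rw [H20.mem_conj_smul_iff]
      have h1 : (f : A)⁻¹ * h * f = h := by
        have h2 : (h : A) * f = f * h := by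
          rw [mul_inv_eq_iff_eq_mul] at hcomm
          exact hcomm
        rw [mul_assoc, h2]
        group
      rw [h1]
      exact h.2
    rw [hinf, Subgroup.mem_bot] at hmem
    exact hh (Subtype.ext hmem)
  have hnil' : Group.IsNilpotent Φ₀ :=
    Group.nilpotent_of_surjective (Subgroup.subgroupOfEquivOfLe hΦF).toMonoidHom
      (Subgroup.subgroupOfEquivOfLe hΦF).surjective
  let σ : Hc →* (V →ₗ[k] V) := ρ.comp Hc.subtype
  let τ : Φ₀ →* (V →ₗ[k] V) := ρ.comp Φ₀.subtype
  have hc : ∀ h f v, σ h (τ f v) = τ (α h f) (σ h v) := by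
    intro h f v
    show ρ (h : A) (ρ (f : A) v) = ρ ((h : A) * f * (h : A)⁻¹) (ρ (h : A) v)
    rw [← Module.End.mul_apply, ← Module.End.mul_apply, ← map_mul, ← map_mul]
    congr 2
    group
  have hsum : ∀ v, ∑ f, τ f v = 0 := by
    intro v
    apply hΦfix
    intro g hg
    rw [map_sum]
    refine Fintype.sum_equiv (Equiv.mulLeft (⟨g, hg⟩ : Φ₀)) _ _ ?_
    intro f
    show ρ g (ρ (f : A) v) = ρ (g * f) v
    rw [map_mul, Module.End.mul_apply]
  have hΦc' : (Fintype.card Φ₀ : k) ≠ 0 := by
    rwa [← Nat.card_eq_fintype_card]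
  obtain ⟨W, hW1, hW2⟩ :=
    H26.FrobFree.core α hfpf hnil' hΦc' (finrank k V) V σ τ hc hsum rfl
  exact ⟨W, H26.FrobFree.internal_of_dim σ W hW1 hW2⟩

end Cfsg.Agent.S4396
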