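import Cfsg.Statements.S4399
import Cfsg.Agent.Lib.H15.Cyc2
import Cfsg.Agent.Lib.Lead.SL2Quat
import Cfsg.Agent.Lib.H06.Nilp
import Cfsg.Agent.Lib.H20.Basic
import Cfsg.Agent.Lib.H18.MaxClass2

set_option autoImplicit false
set_option linter.unusedVariables false
set_option linter.style.haveILetI false
set_option linter.unusedSectionVars false
open Cfsg

namespace Cfsg.Agent.S4399

open scoped commutatorElement

universe u

/-- The commutator subgroup of a closure lies in any normalized subgroup containing the commutators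
of generators. -/
theorem commutator_closure_le {G : Type*} [Group G] {T : Subgroup G} {X : Set G}
    (hT : ∀ g ∈ Subgroup.closure X, ∀ t ∈ T, g * t * g⁻¹ ∈ T)
    (hX : ∀ x ∈ X, ∀ y ∈ X, x * y * x⁻¹ * y⁻¹ ∈ T) :
    ⁅Subgroup.closure X, Subgroup.closure X⁆ ≤ T := by
  have step : ∀ y ∈ Subgroup.closure X, (∀ x ∈ X, x * y * x⁻¹ * y⁻¹ ∈ T) →
      ∀ x ∈ Subgroup.closure X, x * y * x⁻¹ * y⁻¹ ∈ T := by
    intro y hy hgen x hx
    induction hx using Subgroup.closure_induction with
    | mem x hx => exact hgen x hx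
    | one => simp
    | mul x₁ x₂ h₁ h₂ ih₁ ih₂ =>
      have e : x₁ * x₂ * y * (x₁ * x₂)⁻¹ * y⁻¹ =
          (x₁ * (x₂ * y * x₂⁻¹ * y⁻¹) * x₁⁻¹) * (x₁ * y * x₁⁻¹ * y⁻¹) := by group
      rw [e]
      exact T.mul_mem (hT _ h₁ _ ih₂) ih₁
    | inv x h ih =>
      have e : x⁻¹ * y * x⁻¹⁻¹ * y⁻¹ = x⁻¹ * (x * y * x⁻¹ * y⁻¹)⁻¹ * x⁻¹⁻¹ := by group
      rw [e]
      exact hT _ (inv_mem h) _ (T.inv_mem ih)
  have hb : ∀ y ∈ X, ∀ x ∈ Subgroup.closure X, x * y * x⁻¹ * y⁻¹ ∈ T := fun y hy =>
    step y (Subgroup.subset_closure hy) (fun x hx => hX x hx y hy)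
  rw [Subgroup.commutator_le]
  intro x hx y hy
  have h1 := step y hy (by
    intro z hz
    have h2 := T.inv_mem (hb z hz y hy)
    have e : z * y * z⁻¹ * y⁻¹ = (y * z * y⁻¹ * z⁻¹)⁻¹ := by group
    rw [e]; exact h2) x hx
  simpa [commutatorElement_def] using h1

variable {S : Type u} [Group S] [Finite S]

/-- Counting lemma: `M` abelian normal of index two, `b ∉ M`. -/
theorem card_commutator_mul_le (M : Subgroup S) (hMn : M.Normal) (hMi : M.index = 2)
    (hMc : ∀ x ∈ M, ∀ y ∈ M, x * y = y * x) (b : S) (hb : b ∉ M) :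
    Nat.card (commutator S) * Nat.card (M ⊓ Subgroup.centralizer ({b} : Set S) : Subgroup S) ≤ Nat.card M := by
  classical
  let f : M → M := fun m => ⟨(m : S) * (b * (m : S)⁻¹ * b⁻¹), M.mul_mem m.2 (hMn.conj_mem _ (M.inv_mem m.2) b)⟩
  have hcomm : ∀ x y : M, (x : S) * y = y * x := fun x y => hMc x x.2 y y.2
  let φ : M →* M := MonoidHom.mk' f (by
    intro x y
    apply Subtype.ext
    show (x : S) * y * (b * ((x : S) * y)⁻¹ * b⁻¹) = ((x : S) * (b * (x : S)⁻¹ * b⁻¹)) * ((y : S) * (b * (y : S)⁻¹ * b⁻¹))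
    have h1 : (b * (x : S)⁻¹ * b⁻¹) * (y : S) = y * (b * (x : S)⁻¹ * b⁻¹) :=
      hMc _ (hMn.conj_mem _ (M.inv_mem x.2) b) _ y.2
    have h2 : (b * ((x : S) * y)⁻¹ * b⁻¹) = (b * (y : S)⁻¹ * b⁻¹) * (b * (x : S)⁻¹ * b⁻¹) := by group
    have h3 : (b * (y : S)⁻¹ * b⁻¹) * (b * (x : S)⁻¹ * b⁻¹) = (b * (x : S)⁻¹ * b⁻¹) * (b * (y : S)⁻¹ * b⁻¹) :=
      hMc _ (hMn.conj_mem _ (M.inv_mem y.2) b) _ (hMn.conj_mem _ (M.inv_mem x.2) b)
    rw [h2, h3]
    calc (x : S) * y * ((b * (x : S)⁻¹ * b⁻¹) * (b * (y : S)⁻¹ * b⁻¹))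
        = (x : S) * (y * (b * (x : S)⁻¹ * b⁻¹)) * (b * (y : S)⁻¹ * b⁻¹) := by group
      _ = (x : S) * ((b * (x : S)⁻¹ * b⁻¹) * y) * (b * (y : S)⁻¹ * b⁻¹) := by rw [h1]
      _ = _ := by group)
  have hφ : ∀ m : M, ((φ m : M) : S) = (m : S) * (b * (m : S)⁻¹ * b⁻¹) := fun m => rfl
  let D : Subgroup S := φ.range.map M.subtype
  have hDcard : Nat.card D = Nat.card φ.range :=
    (Nat.card_congr (Subgroup.equivMapOfInjective _ _ M.subtype_injective).toEquiv).symm
  have hker : Nat.card φ.ker = Nat.card (M ⊓ Subgroup.centralizer ({b} : Set S) : Subgroup S) := by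
    have hiff : ∀ m : M, φ m = 1 ↔ (m : S) * b = b * (m : S) := by
      intro m
      constructor
      · intro h
        have h1 : ((φ m : M) : S) = 1 := by rw [h]; rfl
        rw [hφ] at h1
        have h2 : (m : S) * (b * (m : S)⁻¹ * b⁻¹) * (b * m * b⁻¹ * m⁻¹ * m) = 1 * (b * m * b⁻¹ * m⁻¹ * m) := by rw [h1]
        have h3 : (m : S) = b * m * b⁻¹ := by
          have h4 : (m : S) * (b * (m : S)⁻¹ * b⁻¹) * (b * m * b⁻¹) = b * m * b⁻¹ := by
            rw [h1, one_mul]
          calc (m : S) = (m : S) * (b * (m : S)⁻¹ * b⁻¹) * (b * m * b⁻¹) := by group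
            _ = _ := h4
        calc (m : S) * b = b * m * b⁻¹ * b := by rw [← h3]
          _ = b * m := by group
      · intro h
        apply Subtype.ext
        rw [hφ]
        show (m : S) * (b * (m : S)⁻¹ * b⁻¹) = 1
        have h2 : b * (m : S)⁻¹ * b⁻¹ = (m : S)⁻¹ := by
          have h3 : (m : S)⁻¹ * b = b * (m : S)⁻¹ := (Commute.inv_left (show Commute (m : S) b from h)).eq
          rw [← h3]; group
        rw [h2, mul_inv_cancel]
    apply Nat.card_congr
    refine ⟨fun m => ⟨m.1.1, m.1.2, ?_⟩, fun m => ⟨⟨m.1, m.2.1⟩, ?_⟩, ?_, ?_⟩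
    · exact Subgroup.mem_centralizer_singleton_iff.2 ((hiff m.1).1 m.2)
    · rw [MonoidHom.mem_ker]
      exact (hiff _).2 (Subgroup.mem_centralizer_singleton_iff.1 m.2.2)
    · intro m; rfl
    · intro m; rfl
  have hcount : Nat.card φ.range * Nat.card φ.ker = Nat.card M := by
    have h1 := Subgroup.index_ker φ
    have h2 := Subgroup.card_mul_index φ.ker
    rw [h1] at h2
    rw [mul_comm]
    exact h2
  -- `S` is generated by `M` and `b`
  have hgen : Subgroup.closure ((M : Set S) ∪ {b}) = ⊤ := by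
    have hle : M ≤ Subgroup.closure ((M : Set S) ∪ {b}) := by
      intro x hx; exact Subgroup.subset_closure (Or.inl hx)
    have hlt : M < Subgroup.closure ((M : Set S) ∪ {b}) := by
      refine lt_of_le_of_ne hle ?_
      intro e
      apply hb
      rw [e]
      exact Subgroup.subset_closure (Or.inr rfl)
    have hco : IsCoatom M := Cfsg.Agent.H20.isCoatom_of_index_prime M (by rw [hMi]; exact Nat.prime_two)
    exact hco.2 _ hlt
  have hDmem : ∀ m : M, (m : S) * (b * (m : S)⁻¹ * b⁻¹) ∈ D := fun m => ⟨φ m, ⟨m, rfl⟩, rfl⟩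
  have hDM : D ≤ M := by rintro _ ⟨x, _, rfl⟩; exact x.2
  have hDnorm : ∀ g ∈ Subgroup.closure ((M : Set S) ∪ {b}), ∀ t ∈ D, g * t * g⁻¹ ∈ D := by
    intro g _ t ht
    have hbconj : ∀ t ∈ D, b * t * b⁻¹ ∈ D := by
      rintro _ ⟨y, ⟨m, rfl⟩, rfl⟩
      have hm' : b * (m : S) * b⁻¹ ∈ M := hMn.conj_mem _ m.2 b
      have e : b * ((m : S) * (b * (m : S)⁻¹ * b⁻¹)) * b⁻¹
          = (b * (m : S) * b⁻¹) * (b * (b * (m : S) * b⁻¹)⁻¹ * b⁻¹) := by group
      show b * ((m : S) * (b * (m : S)⁻¹ * b⁻¹)) * b⁻¹ ∈ D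
      rw [e]
      exact hDmem ⟨_, hm'⟩
    have hMconj : ∀ h ∈ M, ∀ t ∈ D, h * t * h⁻¹ = t := by
      intro h hh t ht
      rw [hMc h hh t (hDM ht)]; group
    by_cases hg : g ∈ M
    · rw [hMconj g hg t ht]; exact ht
    · have h1 : g * b⁻¹ ∈ M := by
        rw [Subgroup.mul_mem_iff_of_index_two hMi]
        constructor
        · intro h; exact absurd h hg
        · intro h; exact absurd (by simpa using M.inv_mem h) hb
      have e : g * t * g⁻¹ = (g * b⁻¹) * (b * t * b⁻¹) * (g * b⁻¹)⁻¹ := by group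
      rw [e, hMconj _ h1 _ (hbconj t ht)]
      exact hbconj t ht
  have hcomm_le : commutator S ≤ D := by
    have h1 := commutator_closure_le (T := D) (X := (M : Set S) ∪ {b}) hDnorm (by
      have hone : (1 : S) ∈ D := D.one_mem
      have hbm : ∀ m ∈ M, m * b * m⁻¹ * b⁻¹ ∈ D := by
        intro m hm
        have := hDmem ⟨m, hm⟩
        have e : (m : S) * (b * m⁻¹ * b⁻¹) = m * b * m⁻¹ * b⁻¹ := by group
        rwa [e] at this
      rintro x (hx | hx) y (hy | hy)
      · have e : x * y * x⁻¹ * y⁻¹ = 1 := by rw [hMc x hx y hy]; group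
        rw [e]; exact hone
      · rw [Set.mem_singleton_iff] at hy
        rw [hy]
        exact hbm x hx
      · rw [Set.mem_singleton_iff] at hx
        rw [hx]
        have e : b * y * b⁻¹ * y⁻¹ = (y * b * y⁻¹ * b⁻¹)⁻¹ := by group
        rw [e]
        exact D.inv_mem (hbm y hy)
      · rw [Set.mem_singleton_iff] at hx hy
        rw [hx, hy]
        have e : b * b * b⁻¹ * b⁻¹ = 1 := by group
        rw [e]; exact hone)
    rw [hgen] at h1
    exact h1
  have hle : Nat.card (commutator S) ≤ Nat.card D :=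
    Nat.le_of_dvd Nat.card_pos (Subgroup.card_dvd_of_le hcomm_le)
  rw [← hker, ← hcount, ← hDcard]
  exact Nat.mul_le_mul_right _ hle

theorem three_le_card_of {E : Subgroup S} {u v : S} (hu : u ∈ E) (hv : v ∈ E) (hu1 : u ≠ 1) (hv1 : v ≠ 1)
    (huv : u ≠ v) : 3 ≤ Nat.card E := by
  classical
  haveI := Fintype.ofFinite E
  rw [Nat.card_eq_fintype_card]
  have h1 : ({(1 : E), ⟨u, hu⟩, ⟨v, hv⟩} : Finset E).card = 3 := by
    rw [Finset.card_eq_three]
    refine ⟨1, ⟨u, hu⟩, ⟨v, hv⟩, ?_, ?_, ?_, rfl⟩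
    · intro h; exact hu1 (congrArg Subtype.val h).symm
    · intro h; exact hv1 (congrArg Subtype.val h).symm
    · intro h; exact huv (congrArg Subtype.val h)
  rw [← h1]
  exact Finset.card_le_univ _

/-- The existence of a cyclic subgroup of index two. -/
theorem exists_cyclic_index_two (n : ℕ) (hn : 3 ≤ n) :
    ∀ (S : Type u) [Group S] [Finite S], Nat.card S = 2 ^ n → (commutator S).index = 4 →
      (∀ g : S, g ^ 2 ∈ commutator S) → ∃ a : S, orderOf a = 2 ^ (n - 1) := by
  induction n, hn using Nat.le_induction with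
  | base =>
    intro S _ _ hS hi hsq
    by_contra hno
    push Not at hno
    have hall : ∀ g : S, g ^ 2 = 1 := by
      intro g
      have h1 : orderOf g ∣ 2 ^ 3 := by rw [← hS]; exact orderOf_dvd_natCard g
      obtain ⟨j, hj, hgj⟩ := (Nat.dvd_prime_pow Nat.prime_two).1 h1
      interval_cases j
      · have : g = 1 := orderOf_eq_one_iff.1 (by simpa using hgj)
        simp [this]
      · have : g ^ 2 = 1 := by
          rw [← pow_one (2 : ℕ), ← hgj]
          exact pow_orderOf_eq_one g
        exact this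
      · exact absurd (by simpa using hgj) (hno g)
      · exfalso
        apply hno (g ^ 2)
        rw [orderOf_pow_of_dvd (by norm_num) (by rw [hgj]; norm_num), hgj]
        norm_num
    have hcomm : commutator S = ⊥ := by
      rw [commutator_def, Subgroup.commutator_eq_bot_iff_le_centralizer]
      intro x _ y _
      have := Cfsg.Agent.H18.comm_of_sq_eq_one hall y x
      exact this
    rw [hcomm, Subgroup.index_bot, hS] at hi
    norm_num at hi
  | succ n hn ih =>
    intro S _ _ hS hi hsq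
    have h2S : IsPGroup 2 S := IsPGroup.of_card hS
    haveI : Fact (Nat.Prime 2) := ⟨Nat.prime_two⟩
    haveI : Group.IsNilpotent S := h2S.isNilpotent
    have hcC : Nat.card (commutator S) * 4 = 2 ^ (n + 1) := by
      rw [← hi, ← hS]; exact Subgroup.card_mul_index _
    have hpow : 2 ^ (n + 1) = 2 ^ (n - 1) * 4 := by
      obtain ⟨m, rfl⟩ : ∃ m, n = m + 1 := ⟨n - 1, by omega⟩
      simp only [Nat.add_sub_cancel]
      ring
    have hcC' : Nat.card (commutator S) = 2 ^ (n - 1) := by
      rw [hpow] at hcC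
      exact Nat.eq_of_mul_eq_mul_right (by norm_num) hcC
    have hne : commutator S ≠ ⊥ := by
      intro e
      rw [e, Subgroup.card_bot] at hcC'
      have : 1 < 2 ^ (n - 1) := Nat.one_lt_pow (by omega) (by norm_num)
      omega
    obtain ⟨y, hyC, hy1, hyZ⟩ := Cfsg.Agent.H06.exists_central_of_normal (Subgroup.commutator_normal _ _) hne
    -- an involution
    obtain ⟨z, hzC, hz2, hzZ⟩ : ∃ z ∈ commutator S, orderOf z = 2 ∧ z ∈ Subgroup.center S := by
      let C : Subgroup S := commutator S ⊓ Subgroup.center S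
      have hCp : IsPGroup 2 C := h2S.to_subgroup C
      have hCne : Nat.card C ≠ 1 := by
        intro h
        have h1 : C = ⊥ := Subgroup.card_eq_one.1 h
        have h2 : y ∈ C := ⟨hyC, hyZ⟩
        rw [h1] at h2
        exact hy1 h2
      have hd : 2 ∣ Nat.card C := (hCp.card_eq_or_dvd).resolve_left hCne
      obtain ⟨z, hz⟩ := exists_prime_orderOf_dvd_card' (G := C) 2 hd
      exact ⟨z, z.2.1, by rwa [Subgroup.orderOf_coe], z.2.2⟩
    have hzc : ∀ g : S, z * g = g * z := fun g => (Subgroup.mem_center_iff.1 hzZ g).symm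
    have hzsq : z ^ 2 = 1 := by rw [← hz2]; exact pow_orderOf_eq_one z
    let N : Subgroup S := Subgroup.zpowers z
    haveI hNn : N.Normal := by
      refine ⟨fun n hn g => ?_⟩
      obtain ⟨k, rfl⟩ := Subgroup.mem_zpowers_iff.1 hn
      have hc : Commute (z ^ k) g := Commute.zpow_left (show Commute z g from hzc g) k
      rw [← hc.eq]
      simpa using hn
    have hNcard : Nat.card N = 2 := by rw [Nat.card_zpowers, hz2]
    have hNC : N ≤ commutator S := by rw [Subgroup.zpowers_le]; exact hzC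
    have hsurj : Function.Surjective (QuotientGroup.mk' N) := QuotientGroup.mk'_surjective N
    have hker : (QuotientGroup.mk' N).ker = N := QuotientGroup.ker_mk' N
    have hcommQ : commutator (S ⧸ N) = (commutator S).map (QuotientGroup.mk' N) := by
      rw [commutator_def, commutator_def, Subgroup.map_commutator, Subgroup.map_top_of_surjective _ hsurj]
    have hQcard : Nat.card (S ⧸ N) = 2 ^ n := by
      have h1 : 2 * N.index = 2 * 2 ^ n := by
        rw [← hNcard, Subgroup.card_mul_index, hS, pow_succ, hNcard, mul_comm]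
      have h3 : N.index = 2 ^ n := Nat.eq_of_mul_eq_mul_left (by norm_num) h1
      exact h3
    obtain ⟨abar, habar⟩ := ih (S ⧸ N) hQcard
      (by
        have h0 := Subgroup.index_map_eq (H := commutator S) hsurj (by rw [hker]; exact hNC)
        rw [hcommQ]
        exact h0.trans hi)
      (by
        intro g
        obtain ⟨x, rfl⟩ := QuotientGroup.mk_surjective g
        rw [hcommQ]
        exact ⟨x ^ 2, hsq x, rfl⟩)
    obtain ⟨a, rfl⟩ := QuotientGroup.mk_surjective abar
    have hmkpow : ∀ k : ℤ, ((a : S ⧸ N) ^ k = 1 ↔ a ^ k ∈ N) := by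
      intro k
      rw [← QuotientGroup.mk_zpow, QuotientGroup.eq_one_iff]
    have hapow : a ^ 2 ^ (n - 1) ∈ N := by
      have h1 : ((a : S ⧸ N)) ^ 2 ^ (n - 1) = 1 := by
        rw [← habar]; exact pow_orderOf_eq_one _
      rw [← QuotientGroup.mk_pow, QuotientGroup.eq_one_iff] at h1
      exact h1
    -- squares of elements of `N` are trivial
    have hN2 : ∀ t ∈ N, t ^ 2 = 1 := by
      intro t ht
      obtain ⟨k, rfl⟩ := Subgroup.mem_zpowers_iff.1 ht
      rw [← zpow_natCast, ← zpow_mul, mul_comm, zpow_mul, zpow_natCast, hzsq, one_zpow]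
    have hord_dvd : orderOf a ∣ 2 ^ n := by
      apply orderOf_dvd_of_pow_eq_one
      have h1 := hN2 _ hapow
      rw [← pow_mul, ← pow_succ] at h1
      rwa [show n - 1 + 1 = n by omega] at h1
    have hdvd2 : 2 ^ (n - 1) ∣ orderOf a := by
      rw [← habar]
      exact orderOf_map_dvd (QuotientGroup.mk' N) a
    obtain ⟨j, hj, hoj⟩ := (Nat.dvd_prime_pow Nat.prime_two).1 hord_dvd
    have hj2 : n - 1 ≤ j := by
      rw [hoj] at hdvd2
      exact (Nat.pow_dvd_pow_iff_le_right (by norm_num)).1 hdvd2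
    by_cases hjn : j = n
    · exact ⟨a, by rw [hoj, hjn]; simp⟩
    exfalso
    have hjeq : j = n - 1 := by omega
    rw [hjeq] at hoj
    -- the subgroup `M`
    let M : Subgroup S := (Subgroup.zpowers (a : S ⧸ N)).comap (QuotientGroup.mk' N)
    have hMi : M.index = 2 := by
      have h1 := Subgroup.index_comap_of_surjective (Subgroup.zpowers (a : S ⧸ N)) hsurj
      rw [h1]
      have h2 := Subgroup.card_mul_index (Subgroup.zpowers (a : S ⧸ N))
      rw [Nat.card_zpowers, habar, hQcard] at h2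
      have h3 : 2 ^ n = 2 ^ (n - 1) * 2 := by
        rw [← pow_succ]; congr 1; omega
      rw [h3] at h2
      exact Nat.eq_of_mul_eq_mul_left (by positivity) h2
    have hMn : M.Normal := Subgroup.normal_of_index_eq_two hMi
    have hMcard : Nat.card M = 2 ^ n := by
      have h1 := Subgroup.card_mul_index M
      rw [hMi, hS, pow_succ] at h1
      exact Nat.eq_of_mul_eq_mul_right (by norm_num) h1
    have hMform : ∀ m ∈ M, ∃ k : ℤ, ∃ t ∈ N, m = a ^ k * t := by
      intro m hm
      obtain ⟨k, hk⟩ := Subgroup.mem_zpowers_iff.1 hm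
      refine ⟨k, (a ^ k)⁻¹ * m, ?_, by group⟩
      have h1 : ((QuotientGroup.mk' N) ((a ^ k)⁻¹ * m)) = 1 := by
        rw [map_mul, map_inv, ← hk, map_zpow]
        simp
      rw [← QuotientGroup.ker_mk' N]
      exact h1
    have hNc : ∀ t ∈ N, ∀ g : S, t * g = g * t := by
      intro t ht g
      obtain ⟨k, rfl⟩ := Subgroup.mem_zpowers_iff.1 ht
      exact ((Commute.zpow_left (show Commute z g from hzc g) k)).eq
    have hMc : ∀ x ∈ M, ∀ y ∈ M, x * y = y * x := by
      intro x hx y hy
      obtain ⟨k, t, ht, rfl⟩ := hMform x hx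
      obtain ⟨l, s, hs, rfl⟩ := hMform y hy
      have h1 : a ^ k * t * (a ^ l * s) = a ^ k * a ^ l * (t * s) := by
        rw [mul_assoc, mul_assoc, ← mul_assoc t, hNc t ht, mul_assoc]
      have h2 : a ^ l * s * (a ^ k * t) = a ^ l * a ^ k * (s * t) := by
        rw [mul_assoc, mul_assoc, ← mul_assoc s, hNc s hs, mul_assoc]
      rw [h1, h2, hNc t ht s, ← zpow_add, ← zpow_add, add_comm]
    have haM : a ∈ M := Subgroup.mem_zpowers (a : S ⧸ N)
    obtain ⟨b, hb⟩ : ∃ b, b ∉ M := by
      by_contra hall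
      push Not at hall
      have : M = ⊤ := eq_top_iff.2 (fun x _ => hall x)
      rw [this, Subgroup.index_top] at hMi
      omega
    -- the involution of `⟨a⟩`
    set w := a ^ 2 ^ (n - 2) with hw
    have hn2 : n - 1 = (n - 2) + 1 := by omega
    have hwsq : w ^ 2 = 1 := by
      rw [hw, ← pow_mul, ← pow_succ, ← hn2, ← hoj]
      exact pow_orderOf_eq_one a
    have hw1 : w ≠ 1 := by
      intro h
      have h1 : orderOf a ∣ 2 ^ (n - 2) := orderOf_dvd_of_pow_eq_one h
      rw [hoj] at h1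
      have := (Nat.pow_dvd_pow_iff_le_right (by norm_num : 1 < 2)).1 h1
      omega
    have hzne : z ≠ 1 := by
      intro h; rw [h, orderOf_one] at hz2; omega
    have hzw : z ≠ w := by
      intro h
      have h1 : (a : S ⧸ N) ^ 2 ^ (n - 2) = 1 := by
        rw [← QuotientGroup.mk_pow, QuotientGroup.eq_one_iff, ← hw, ← h]
        exact Subgroup.mem_zpowers z
      have h2 : orderOf (a : S ⧸ N) ∣ 2 ^ (n - 2) := orderOf_dvd_of_pow_eq_one h1
      rw [habar] at h2
      have := (Nat.pow_dvd_pow_iff_le_right (by norm_num : 1 < 2)).1 h2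
      omega
    have hbw : w * b = b * w := by
      obtain ⟨k, t, ht, hk⟩ := hMform (b * a * b⁻¹) (hMn.conj_mem a haM b)
      have h1 : b * w * b⁻¹ = w ^ k := by
        have h2 : b * w * b⁻¹ = (b * a * b⁻¹) ^ 2 ^ (n - 2) := by
          rw [hw, conj_pow]
        rw [h2, hk]
        have hcomm : Commute (a ^ k) t := (hNc t ht _).symm
        rw [hcomm.mul_pow]
        have ht1 : t ^ 2 ^ (n - 2) = 1 := by
          obtain ⟨m, hm⟩ : ∃ m, n - 2 = m + 1 := ⟨n - 3, by omega⟩
          rw [hm, pow_succ, mul_comm, pow_mul, hN2 t ht, one_pow]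
        rw [ht1, mul_one, hw, ← zpow_natCast, ← zpow_mul, ← zpow_natCast, ← zpow_mul, mul_comm]
      rcases Int.even_or_odd k with hk2 | hk2
      · exfalso
        obtain ⟨l, rfl⟩ := hk2
        have h3 : w ^ (l + l) = 1 := by
          rw [← two_mul, zpow_mul, zpow_ofNat, hwsq, one_zpow]
        rw [h3] at h1
        have h4 : w = 1 := by
          have h5 : b⁻¹ * (b * w * b⁻¹) * b = w := by group
          rw [h1] at h5
          simpa using h5.symm
        exact hw1 h4
      · obtain ⟨l, rfl⟩ := hk2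
        have h3 : w ^ (2 * l + 1) = w := by
          rw [zpow_add, zpow_mul, zpow_ofNat, hwsq, one_zpow, one_mul, zpow_one]
        rw [h3] at h1
        calc w * b = b * w * b⁻¹ * b := by rw [h1]
          _ = b * w := by group
    have hE := card_commutator_mul_le M hMn hMi hMc b hb
    rw [hcC', hMcard] at hE
    have h3 : 3 ≤ Nat.card (M ⊓ Subgroup.centralizer ({b} : Set S) : Subgroup S) :=
      three_le_card_of (u := z) (v := w)
        ⟨(show (QuotientGroup.mk' N) z ∈ Subgroup.zpowers (a : S ⧸ N) by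
            have h0 : (QuotientGroup.mk' N) z = 1 := (QuotientGroup.eq_one_iff z).2 (Subgroup.mem_zpowers z)
            rw [h0]; exact Subgroup.one_mem _),
          Subgroup.mem_centralizer_singleton_iff.2 (hzc b)⟩
        ⟨M.pow_mem haM _, Subgroup.mem_centralizer_singleton_iff.2 hbw⟩ hzne hw1 hzw
    have h4 : 2 ^ n = 2 ^ (n - 1) * 2 := by
      rw [← pow_succ]; congr 1; omega
    rw [h4] at hE
    have h5 : 0 < 2 ^ (n - 1) := by positivity
    have h6 := Nat.le_of_mul_le_mul_left hE h5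
    omega

theorem orderOf_zpowers_unique {a u v : S} (hu : u ∈ Subgroup.zpowers a) (hv : v ∈ Subgroup.zpowers a)
    (h1 : orderOf u = 2) (h2 : orderOf v = 2) : u = v :=
  Cfsg.Agent.H15.unique_involution_of_zpowers hu hv h1 h2

/-- Let S be a finite 2-group whose commutator quotient S/[S,S] is a Klein four-group (order 4 and exponent 2). Then S itself has order 4, or S is dihedral of order at least 8, semidihedral of order at least 16 (order 2^(k+4) with an element a of order 2^(k+3) and an involution b with b a b⁻¹ = a^(2^(k+2)−1)), or generalized quaternion of order at least 8. -/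
theorem result {S : Type*} [Group S] [Finite S] (h2 : IsPGroup 2 S) (hab : Nat.card (Abelianization S) = 4)
    (hexp : ∀ x : Abelianization S, x ^ 2 = 1) :
    Nat.card S = 4 ∨
    ((∃ k : ℕ, Nonempty (S ≃* DihedralGroup (2 ^ (k + 2)))) ∨
      (∃ k : ℕ, Nat.card S = 2 ^ (k + 4) ∧ ∃ a b : S, orderOf a = 2 ^ (k + 3) ∧ orderOf b = 2 ∧ b * a * b⁻¹ = a ^ (2 ^ (k + 2) - 1)) ∨
      (∃ k : ℕ, Nonempty (S ≃* QuaternionGroup (2 ^ (k + 1))))) := by
  classical
  have hi : (commutator S).index = 4 := hab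
  have hsq : ∀ g : S, g ^ 2 ∈ commutator S := by
    intro g
    have h1 := hexp (Abelianization.of g)
    rw [← map_pow] at h1
    have h3 : (QuotientGroup.mk (g ^ 2) : S ⧸ commutator S) = 1 := h1
    exact (QuotientGroup.eq_one_iff _).1 h3
  haveI : Fact (Nat.Prime 2) := ⟨Nat.prime_two⟩
  obtain ⟨n, hn⟩ := IsPGroup.iff_card.1 h2
  have hcC : Nat.card (commutator S) * 4 = 2 ^ n := by
    rw [← hi, ← hn]; exact Subgroup.card_mul_index _
  by_cases hn2 : n ≤ 2
  · left
    have : 4 ≤ 2 ^ n := by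
      have h0 : 0 < Nat.card (commutator S) := Nat.card_pos
      omega
    interval_cases n
    · norm_num at this
    · norm_num at this
    · rw [hn]; norm_num
  right
  have hn3 : 3 ≤ n := by omega
  obtain ⟨a, ha⟩ := exists_cyclic_index_two n hn3 S hn hi hsq
  obtain ⟨m, rfl⟩ : ∃ m, n = m + 3 := ⟨n - 3, by omega⟩
  have ha' : orderOf a = 2 ^ (m + 2) := by simpa [show m + 3 - 1 = m + 2 by omega] using ha
  have hcC' : Nat.card (commutator S) = 2 ^ (m + 1) := by
    have e : 2 ^ (m + 3) = 2 ^ (m + 1) * 4 := by ring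
    rw [e] at hcC
    exact Nat.eq_of_mul_eq_mul_right (by norm_num) hcC
  let C : Subgroup S := Subgroup.zpowers a
  have hCcard : Nat.card C = 2 ^ (m + 2) := by rw [Nat.card_zpowers, ha']
  have hCi : C.index = 2 := by
    have h1 := Subgroup.card_mul_index C
    rw [hCcard, hn, show 2 ^ (m + 3) = 2 ^ (m + 2) * 2 by ring] at h1
    exact Nat.eq_of_mul_eq_mul_left (by positivity) h1
  have hCn : C.Normal := Subgroup.normal_of_index_eq_two hCi
  have hCc : ∀ x ∈ C, ∀ y ∈ C, x * y = y * x := by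
    intro x hx y hy
    obtain ⟨k, rfl⟩ := Subgroup.mem_zpowers_iff.1 hx
    obtain ⟨l, rfl⟩ := Subgroup.mem_zpowers_iff.1 hy
    rw [← zpow_add, ← zpow_add, add_comm]
  obtain ⟨b, hb⟩ : ∃ b, b ∉ C := by
    by_contra hall
    push Not at hall
    have : C = ⊤ := eq_top_iff.2 (fun x _ => hall x)
    rw [this, Subgroup.index_top] at hCi
    omega
  have hE := card_commutator_mul_le C hCn hCi hCc b hb
  rw [hcC', hCcard] at hE
  have hE2 : Nat.card (C ⊓ Subgroup.centralizer ({b} : Set S) : Subgroup S) ≤ 2 := by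
    have e : 2 ^ (m + 2) = 2 ^ (m + 1) * 2 := by ring
    rw [e] at hE
    exact Nat.le_of_mul_le_mul_left hE (by positivity)
  -- the involution
  set w := a ^ 2 ^ (m + 1) with hw
  have hwC : w ∈ C := C.pow_mem (Subgroup.mem_zpowers a) _
  have hw2 : orderOf w = 2 := by
    rw [hw, orderOf_pow_of_dvd (by positivity) (by rw [ha']; exact pow_dvd_pow 2 (by omega)), ha']
    rw [show m + 2 = (m + 1) + 1 by omega, pow_succ]
    exact Nat.mul_div_cancel_left 2 (by positivity)
  have hwsq : w ^ 2 = 1 := by rw [← hw2]; exact pow_orderOf_eq_one w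
  have hw1 : w ≠ 1 := by
    intro h; rw [h, orderOf_one] at hw2; omega
  have hbw : b * w * b⁻¹ = w := by
    apply Cfsg.Agent.H15.unique_involution_of_zpowers (hCn.conj_mem w hwC b) hwC _ hw2
    rw [Cfsg.Agent.H15.orderOf_conj_eq]
    exact hw2
  have hwE : w ∈ C ⊓ Subgroup.centralizer ({b} : Set S) := by
    refine ⟨hwC, Subgroup.mem_centralizer_singleton_iff.2 ?_⟩
    calc w * b = b * w * b⁻¹ * b := by rw [hbw]
      _ = b * w := by group
  have hEcases : ∀ x, x ∈ C → x * b = b * x → x = 1 ∨ x = w := by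
    intro x hxC hxb
    by_contra hcon
    push Not at hcon
    have h3 := three_le_card_of (E := C ⊓ Subgroup.centralizer ({b} : Set S)) (u := x) (v := w)
      ⟨hxC, Subgroup.mem_centralizer_singleton_iff.2 hxb⟩ hwE hcon.1 hw1 hcon.2
    omega
  -- `b²`
  have hb2C : b ^ 2 ∈ C := by
    rw [pow_two, Subgroup.mul_mem_iff_of_index_two hCi]
  have hb2 : b ^ 2 = 1 ∨ b ^ 2 = w := hEcases _ hb2C (by
    rw [pow_two]; group)
  -- `a * bab⁻¹`
  have haC : a ∈ C := Subgroup.mem_zpowers a
  set c := b * a * b⁻¹ with hc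
  have hcC2 : c ∈ C := hCn.conj_mem a haC b
  have hcb : b * c * b⁻¹ = a := by
    have h1 : b ^ 2 * a = a * b ^ 2 := hCc _ hb2C _ haC
    rw [hc]
    calc b * (b * a * b⁻¹) * b⁻¹ = b ^ 2 * a * (b ^ 2)⁻¹ := by rw [pow_two]; group
      _ = a := by rw [h1]; group
  have hv : a * c = 1 ∨ a * c = w := hEcases _ (C.mul_mem haC hcC2) (by
    have h1 : b * (a * c) * b⁻¹ = c * a := by
      calc b * (a * c) * b⁻¹ = (b * a * b⁻¹) * (b * c * b⁻¹) := by group
        _ = c * a := by rw [hcb]
    have h2 : c * a = a * c := hCc _ hcC2 _ haC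
    calc a * c * b = b * (a * c) * b⁻¹ * b := by rw [h1, h2]
      _ = b * (a * c) := by group)
  have hbout : b ∉ Subgroup.zpowers a := hb
  rcases hv with hv | hv
  · -- `b` inverts `a`
    have hrel : b * a * b⁻¹ = a⁻¹ := eq_inv_of_mul_eq_one_right hv
    rcases hb2 with hb2 | hb2
    · left
      refine ⟨m, ?_⟩
      apply Cfsg.Agent.H15.dihedral_of a b _ (by positivity) ha'
      · rw [← pow_two]; exact hb2
      · exact hrel
      · rw [hn]; ring
      · exact hb
    · right; right
      refine ⟨m, ?_⟩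
      haveI : NeZero (2 ^ (m + 1)) := ⟨by positivity⟩
      obtain ⟨f, hf⟩ := Cfsg.Agent.Lead.quatHom_exists (2 ^ (m + 1)) a b
        (by rw [ha']; ring) (by rw [← pow_two, hb2]) hrel (by
          intro k hk
          apply hb
          rw [hk]
          exact C.pow_mem haC k)
      have hcardQ : Nat.card (QuaternionGroup (2 ^ (m + 1))) = Nat.card S := by
        rw [Nat.card_eq_fintype_card, QuaternionGroup.card, hn]; ring
      have hbij : Function.Bijective f := by
        refine ⟨hf, ?_⟩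
        exact ((Nat.bijective_iff_injective_and_card f).2 ⟨hf, hcardQ⟩).2
      exact ⟨(MulEquiv.ofBijective f hbij).symm⟩
  · -- the semidihedral case
    have hrel : b * a * b⁻¹ = a⁻¹ * w := by
      rw [← hc]
      exact eq_inv_mul_of_mul_eq hv
    have hm : m ≠ 0 := by
      rintro rfl
      -- `w = a²`, so `a` commutes with `b`
      have hw' : w = a ^ 2 := by simp [hw]
      have ha4 : a⁻¹ * w = a := by
        rw [hw', pow_two]; group
      rw [ha4] at hrel
      have h3 : a * b = b * a := by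
        calc a * b = b * a * b⁻¹ * b := by rw [hrel]
          _ = b * a := by group
      rcases hEcases a haC h3 with h4 | h4
      · rw [h4, orderOf_one] at ha'
        norm_num at ha'
      · rw [h4, hw2] at ha'
        norm_num at ha'
    obtain ⟨k, rfl⟩ : ∃ k, m = k + 1 := ⟨m - 1, by omega⟩
    right; left
    refine ⟨k, by rw [hn], ?_⟩
    have hpowform : a ^ (2 ^ (k + 2) - 1) = a⁻¹ * w := by
      have h1 : a ^ (2 ^ (k + 2) - 1) * a = a ^ 2 ^ (k + 2) := by
        rw [← pow_succ]; congr 1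
        have : 0 < 2 ^ (k + 2) := by positivity
        omega
      have h3 : w = a ^ 2 ^ (k + 2) := rfl
      rw [h3, ← h1]
      have hcm : a ^ (2 ^ (k + 2) - 1) * a = a * a ^ (2 ^ (k + 2) - 1) := ((Commute.refl a).pow_left _).eq
      rw [hcm, inv_mul_cancel_left]
    have hwa : w * a = a * w := hCc _ hwC _ haC
    rcases hb2 with hb2 | hb2
    · refine ⟨a, b, by simpa [show k + 1 + 2 = k + 3 by omega] using ha', ?_, ?_⟩
      · apply orderOf_eq_prime hb2
        rintro rfl
        exact hb C.one_mem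
      · rw [hpowform, hrel]
    · refine ⟨a, a * b, by simpa [show k + 1 + 2 = k + 3 by omega] using ha', ?_, ?_⟩
      · apply orderOf_eq_prime
        · have e : (a * b) ^ 2 = a * (b * a * b⁻¹) * b ^ 2 := by
            rw [pow_two, pow_two]; group
          rw [e, hrel, hb2]
          have e2 : a * (a⁻¹ * w) * w = w ^ 2 := by rw [pow_two]; group
          rw [e2, hwsq]
        · intro h1
          apply hb
          have : b = a⁻¹ := eq_inv_of_mul_eq_one_right h1
          rw [this]
          exact C.inv_mem haC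
      · rw [hpowform]
        have e : a * b * a * (a * b)⁻¹ = a * (b * a * b⁻¹) * a⁻¹ := by group
        rw [e, hrel]
        have e2 : a * (a⁻¹ * w) * a⁻¹ = w * a⁻¹ := by group
        rw [e2]
        have hw3 : w * a⁻¹ = a⁻¹ * w := by
          have := (Commute.inv_right (show Commute w a from hwa)).eq
          exact this
        rw [hw3]

end Cfsg.Agent.S4399
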