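import Cfsg.Statements.S4397
import Cfsg.Agent.S4399
import Cfsg.Agent.Lib.H06.Nilp
import Cfsg.Agent.Lib.H20.Basic

set_option autoImplicit false
set_option linter.unusedVariables false
set_option linter.style.haveILetI false
set_option linter.unusedSectionVars false
open Cfsg

namespace Cfsg.Agent.S4397

universe u

/-- transport of rank along isomorphisms -/
theorem prank_of_equiv {X Y : Type*} [Group X] [Group Y] (e : X ≃* Y) (hX : Cfsg.PRankLE 2 2 X) :
    Cfsg.PRankLE 2 2 Y := by
  intro A hA hexp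
  have hB : IsMulCommutative (A.comap e.toMonoidHom) := by
    refine ⟨⟨fun a b => ?_⟩⟩
    apply Subtype.ext
    apply e.injective
    have := (hA.is_comm.comm ⟨e a, a.2⟩ ⟨e b, b.2⟩)
    have h2 := congrArg Subtype.val this
    show e ((a : X) * b) = e ((b : X) * a)
    rw [map_mul, map_mul]
    exact h2
  have h1 := hX (A.comap e.toMonoidHom) hB (by
    intro a ha
    apply e.injective
    have := hexp (e a) ha
    simpa using this)
  refine le_trans (le_of_eq ?_) h1
  exact (Nat.card_congr (e.toEquiv.subtypeEquiv (fun a => Iff.rfl))).symm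

theorem sec_of_surj {S T : Type*} [Group S] [Group T] (f : S →* T) (hf : Function.Surjective f)
    (hr : Cfsg.SectionalPRankLE 2 2 S) : Cfsg.SectionalPRankLE 2 2 T := by
  intro H M _
  let g : ↥(H.comap f) →* H ⧸ M := (QuotientGroup.mk' M).comp (f.subgroupComap H)
  have hg : Function.Surjective g :=
    (QuotientGroup.mk'_surjective M).comp (f.subgroupComap_surjective_of_surjective H hf)
  exact prank_of_equiv (QuotientGroup.quotientKerEquivOfSurjective g hg) (hr _ _)

theorem card_quot_le {S : Type*} [Group S] (hr : Cfsg.SectionalPRankLE 2 2 S) (H : Subgroup S)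
    (N : Subgroup H) [N.Normal] (hs : ∀ a : H, a ^ 2 ∈ N) : N.index ≤ 4 := by
  have hsq : ∀ a : H ⧸ N, a ^ 2 = 1 := by
    intro a
    induction a using QuotientGroup.induction_on with
    | H a =>
      rw [← QuotientGroup.mk_pow]
      exact (QuotientGroup.eq_one_iff _).2 (hs a)
  have := hr H N ⊤ ⟨⟨fun a b => Subtype.ext (Cfsg.Agent.H18.comm_of_sq_eq_one hsq _ _)⟩⟩
    (fun a _ => hsq a)
  rw [Subgroup.card_top] at this
  exact this

/-- Cyclic if squares have index at most two. -/
theorem cyc_of {B : Type*} [Group B] [Finite B] (hB : IsPGroup 2 B) (hc : ∀ a b : B, a * b = b * a)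
    (Ψ : Subgroup B) (hi : Ψ.index ≤ 2) (hs : ∀ g ∈ Ψ, ∃ u : B, g = u ^ 2) : IsCyclic B := by
  have hex : ∃ b : B, ∀ g : B, g ∈ Ψ ∨ b⁻¹ * g ∈ Ψ := by
    by_cases hΨ : Ψ = ⊤
    · exact ⟨1, fun g => Or.inl (by rw [hΨ]; trivial)⟩
    · have hne : Ψ.index ≠ 1 := fun h => hΨ (Subgroup.index_eq_one.mp h)
      have h0 : Ψ.index ≠ 0 := Subgroup.index_ne_zero_of_finite
      have h2 : Ψ.index = 2 := by omega
      obtain ⟨b, hb⟩ : ∃ b, b ∉ Ψ := by
        by_contra hcon
        push Not at hcon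
        exact hΨ (eq_top_iff.mpr fun x _ => hcon x)
      refine ⟨b, fun g => ?_⟩
      by_cases hg : g ∈ Ψ
      · exact Or.inl hg
      · right
        have := Subgroup.mul_mem_iff_of_index_two h2 (a := b⁻¹) (b := g)
        rw [this]
        simp [hb, hg]
  obtain ⟨b, hb⟩ := hex
  haveI hn : (Subgroup.zpowers b).Normal := ⟨fun n hn g => by
    rw [hc g n, mul_inv_cancel_right]; exact hn⟩
  have hCp : IsPGroup 2 (B ⧸ Subgroup.zpowers b) := hB.to_quotient _
  have hsurj : Function.Surjective (fun c : B ⧸ Subgroup.zpowers b => c ^ 2) := by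
    intro c
    induction c using QuotientGroup.induction_on with
    | H g =>
      rcases hb g with h | h
      · obtain ⟨u, hu⟩ := hs g h
        exact ⟨(u : B ⧸ Subgroup.zpowers b), by rw [hu, QuotientGroup.mk_pow]⟩
      · obtain ⟨u, hu⟩ := hs _ h
        refine ⟨(u : B ⧸ Subgroup.zpowers b), ?_⟩
        have : g = b * u ^ 2 := by rw [← hu]; group
        rw [this, QuotientGroup.mk_mul, QuotientGroup.mk_pow]
        have h1 : ((b : B) : B ⧸ Subgroup.zpowers b) = 1 :=
          (QuotientGroup.eq_one_iff _).2 (Subgroup.mem_zpowers b)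
        rw [h1, one_mul]
  have hinj : Function.Injective (fun c : B ⧸ Subgroup.zpowers b => c ^ 2) :=
    Finite.injective_iff_surjective.mpr hsurj
  have hcard : Nat.card (B ⧸ Subgroup.zpowers b) = 1 := by
    by_contra hne
    rcases hCp.card_eq_or_dvd with h | h
    · exact hne h
    · haveI : Fact (Nat.Prime 2) := ⟨Nat.prime_two⟩
      obtain ⟨c, hc2⟩ := exists_prime_orderOf_dvd_card' 2 h
      have : c = 1 := hinj (by
        show c ^ 2 = 1 ^ 2
        rw [one_pow, ← hc2, pow_orderOf_eq_one])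
      rw [this, orderOf_one] at hc2
      omega
  have htop : Subgroup.zpowers b = ⊤ := by
    rw [← Subgroup.index_eq_one, Subgroup.index]
    exact hcard
  exact ⟨b, fun x => by
    show x ∈ Subgroup.zpowers b
    rw [htop]; trivial⟩

theorem quot_cyc {S : Type*} [Group S] [Finite S] (h2 : IsPGroup 2 S) (N : Subgroup S) [N.Normal]
    (hcomm : ∀ a b : S, a * b * a⁻¹ * b⁻¹ ∈ N) (Φ' : Subgroup S) (hi : Φ'.index ≤ 2)
    (hs : ∀ g ∈ Φ', ∃ u : S, (u ^ 2)⁻¹ * g ∈ N) : IsCyclic (S ⧸ N) := by
  have hsurj := QuotientGroup.mk'_surjective N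
  refine cyc_of (h2.to_quotient N) ?_ (Φ'.map (QuotientGroup.mk' N)) ?_ ?_
  · intro a b
    induction a using QuotientGroup.induction_on with
    | H a =>
    induction b using QuotientGroup.induction_on with
    | H b =>
      rw [← QuotientGroup.mk_mul, ← QuotientGroup.mk_mul, QuotientGroup.eq]
      have := hcomm b⁻¹ a⁻¹
      have e2 : (a * b)⁻¹ * (b * a) = b⁻¹ * a⁻¹ * b⁻¹⁻¹ * a⁻¹⁻¹ := by group
      rw [e2]
      exact this
  · exact le_trans (Nat.le_of_dvd (by have := Φ'.index_ne_zero_of_finite; omega)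
      (Subgroup.index_map_dvd Φ' hsurj)) hi
  · rintro _ ⟨g, hg, rfl⟩
    obtain ⟨u, hu⟩ := hs g hg
    refine ⟨(u : S ⧸ N), ?_⟩
    show (g : S ⧸ N) = _
    rw [← QuotientGroup.mk_pow, eq_comm, QuotientGroup.eq]
    exact hu

/-- The class two case. -/
theorem class2 {S : Type*} [Group S] [Finite S] (h2 : IsPGroup 2 S)
    (hE : ∀ E : Subgroup S, (∀ e ∈ E, e ^ 2 = 1) → Nat.card E ≤ 4)
    (hQ : ∀ N : Subgroup S, N.Normal → (∀ g : S, g ^ 2 ∈ N) → N.index ≤ 4)
    (z : S) (hz1 : z ≠ 1) (hz2 : z ^ 2 = 1) (hzc : ∀ g, g * z = z * g)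
    (hcomm : ∀ a b : S, a * b * a⁻¹ * b⁻¹ ∈ Subgroup.zpowers z) : Cfsg.IsMetacyclic S := by
  classical
  set Z := Subgroup.zpowers z with hZdef
  have hoz : orderOf z = 2 := orderOf_eq_prime hz2 hz1
  have hmemZ : ∀ g, g ∈ Z ↔ g = 1 ∨ g = z := by
    intro g
    constructor
    · rintro ⟨i, rfl⟩
      rcases Int.even_or_odd' i with ⟨k, rfl | rfl⟩
      · left
        show z ^ (2 * k) = 1
        rw [zpow_mul]
        have : z ^ (2 : ℤ) = 1 := by exact_mod_cast hz2
        rw [this, one_zpow]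
      · right
        show z ^ (2 * k + 1) = z
        rw [zpow_add, zpow_mul]
        have : z ^ (2 : ℤ) = 1 := by exact_mod_cast hz2
        rw [this, one_zpow, one_mul, zpow_one]
    · rintro (rfl | rfl)
      · exact Z.one_mem
      · exact Subgroup.mem_zpowers _
  have hcen : ∀ e ∈ Z, ∀ g, g * e = e * g := by
    intro e he g
    rcases (hmemZ e).1 he with rfl | rfl
    · simp
    · exact hzc g
  haveI hZn : Z.Normal := ⟨fun n hn g => by rw [hcen n hn g, mul_inv_cancel_right]; exact hn⟩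
  have hZcard : Nat.card Z = 2 := by
    rw [hZdef, Nat.card_zpowers, hoz]
  -- the homomorphism g ↦ (gZ)²
  have hAc : ∀ a b : S ⧸ Z, a * b = b * a := by
    intro a b
    induction a using QuotientGroup.induction_on with
    | H a =>
    induction b using QuotientGroup.induction_on with
    | H b =>
      rw [← QuotientGroup.mk_mul, ← QuotientGroup.mk_mul, QuotientGroup.eq]
      have := hcomm b⁻¹ a⁻¹
      have e2 : (a * b)⁻¹ * (b * a) = b⁻¹ * a⁻¹ * b⁻¹⁻¹ * a⁻¹⁻¹ := by group
      rw [e2]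
      exact this
  let ψ : S →* S ⧸ Z := MonoidHom.mk' (fun g => ((g : S ⧸ Z)) ^ 2) (by
    intro a b
    have h := hAc (a : S ⧸ Z) (b : S ⧸ Z)
    show (((a * b : S) : S ⧸ Z)) ^ 2 = _
    rw [QuotientGroup.mk_mul, sq, sq, sq]
    calc (a : S ⧸ Z) * b * (a * b) = a * (b * a) * b := by group
      _ = a * (a * b) * b := by rw [hAc (b : S ⧸ Z) a]
      _ = _ := by group)
  have hψ : ∀ g, ψ g = (g : S ⧸ Z) ^ 2 := fun g => rfl
  let R : Subgroup (S ⧸ Z) := ψ.range
  haveI hRn : R.Normal := ⟨fun n hn g => by rw [hAc g n, mul_inv_cancel_right]; exact hn⟩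
  let Φ : Subgroup S := R.comap (QuotientGroup.mk' Z)
  haveI hΦn : Φ.Normal := inferInstance
  have hΦmem : ∀ g, g ∈ Φ ↔ ∃ u : S, ∃ e ∈ Z, g = u ^ 2 * e := by
    intro g
    constructor
    · rintro ⟨u, hu⟩
      refine ⟨u, (u ^ 2)⁻¹ * g, ?_, by group⟩
      rw [← QuotientGroup.eq]
      rw [QuotientGroup.mk_pow]
      exact hu
    · rintro ⟨u, e, he, rfl⟩
      refine ⟨u, ?_⟩
      rw [hψ]
      show _ = ((u ^ 2 * e : S) : S ⧸ Z)
      rw [QuotientGroup.mk_mul, (QuotientGroup.eq_one_iff e).2 he, mul_one, QuotientGroup.mk_pow]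
  have hsurjmk : Function.Surjective (QuotientGroup.mk' Z) := QuotientGroup.mk'_surjective Z
  have hΦi : Φ.index = R.index := Subgroup.index_comap_of_surjective R hsurjmk
  -- counting
  have hT : Nat.card ψ.ker = 2 * Φ.index := by
    have h1 : Nat.card ψ.ker * Nat.card R = Nat.card S := by
      have := Subgroup.card_mul_index ψ.ker
      rw [Subgroup.index_ker] at this
      exact this
    have h2' : Nat.card R * R.index = Nat.card (S ⧸ Z) := Subgroup.card_mul_index R
    have h3 : Nat.card Z * Nat.card (S ⧸ Z) = Nat.card S := Subgroup.card_mul_index Z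
    rw [hZcard] at h3
    have hRpos : 0 < Nat.card R := Nat.card_pos
    rw [hΦi]
    apply Nat.eq_of_mul_eq_mul_right hRpos
    rw [h1, ← h3, ← h2']
    ring
  have hTmem : ∀ g, g ∈ ψ.ker ↔ g ^ 2 ∈ Z := by
    intro g
    rw [MonoidHom.mem_ker, hψ, ← QuotientGroup.mk_pow, QuotientGroup.eq_one_iff]
  -- maximal root of z
  have hex : ∃ k : ℕ, (∃ h : S, h ^ (2 ^ k) = z) ∧ ¬ ∃ u : S, u ^ (2 ^ (k + 1)) = z := by
    have hb : ∃ k : ℕ, ¬ ∃ u : S, u ^ (2 ^ (k + 1)) = z := by
      obtain ⟨n, hn⟩ := IsPGroup.iff_card.mp h2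
      refine ⟨n, ?_⟩
      rintro ⟨u, hu⟩
      apply hz1
      rw [← hu, pow_succ, pow_mul, ← hn, pow_card_eq_one', one_pow]
    classical
    refine ⟨Nat.find hb, ?_, Nat.find_spec hb⟩
    rcases hk : Nat.find hb with _ | m
    · exact ⟨z, by simp⟩
    · have := Nat.find_min hb (m := m) (by omega)
      push Not at this
      exact this
  obtain ⟨k, ⟨h, hh⟩, hmax⟩ := hex
  have hΦi4 : Φ.index ≤ 4 := by
    apply hQ Φ hΦn
    intro g
    refine (hΦmem _).2 ⟨g, 1, Z.one_mem, by simp⟩
  rcases k with _ | m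
  · -- z is not a square
    have hno : ¬ ∃ u : S, u ^ 2 = z := by simpa using hmax
    have hTexp : ∀ e ∈ ψ.ker, e ^ 2 = 1 := by
      intro e he
      rcases (hmemZ _).1 ((hTmem e).1 he) with h' | h'
      · exact h'
      · exact absurd ⟨e, h'⟩ hno
    have hc4 := hE _ hTexp
    rw [hT] at hc4
    have hi2 : Φ.index ≤ 2 := by omega
    have hcyc : IsCyclic (S ⧸ Z) := quot_cyc h2 Z hcomm Φ hi2 (by
      intro g hg
      obtain ⟨u, e, he, rfl⟩ := (hΦmem g).1 hg
      refine ⟨u, ?_⟩
      simpa using he)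
    exact ⟨Z, hZn, inferInstance, hcyc⟩
  · -- z is a proper power
    set H := Subgroup.zpowers h with hHdef
    have hzH : z ∈ H := ⟨((2 ^ (m + 1) : ℕ) : ℤ), by
      show h ^ (((2 ^ (m + 1) : ℕ) : ℤ)) = z
      rw [zpow_natCast]; exact hh⟩
    have hZH : Z ≤ H := by
      rw [hZdef, Subgroup.zpowers_le]; exact hzH
    haveI hHn : H.Normal := ⟨fun n hn g => by
      have := H.mul_mem (hZH (hcomm g n)) hn
      have e : g * n * g⁻¹ * n⁻¹ * n = g * n * g⁻¹ := by group
      rwa [e] at this⟩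
    have hhΦ : h ∉ Φ := by
      intro hmem
      obtain ⟨u, e, he, hu⟩ := (hΦmem h).1 hmem
      apply hmax
      refine ⟨u, ?_⟩
      rw [← hh]
      have e2 : e ^ 2 = 1 := by
        rcases (hmemZ e).1 he with rfl | rfl
        · simp
        · exact hz2
      have hsq : h ^ 2 = u ^ 4 := by
        rw [hu, sq, mul_assoc, ← mul_assoc e, ← hcen e he (u ^ 2), mul_assoc, ← sq, e2, mul_one]
        rw [← pow_add]
      have e3 : (2:ℕ) ^ (m + 1) = 2 * 2 ^ m := by rw [pow_succ]; ring
      have e4 : (2:ℕ) ^ (m + 1 + 1) = 4 * 2 ^ m := by rw [pow_succ, pow_succ]; ring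
      rw [e3, e4, pow_mul, pow_mul, hsq]
    let Φ' := Φ ⊔ H
    have hle : Φ ≤ Φ' := le_sup_left
    have hi2 : Φ'.index ≤ 2 := by
      have h1 := Subgroup.relIndex_mul_index hle
      have h3 : Φ.relIndex Φ' ≠ 1 := by
        intro h4
        rw [Subgroup.relIndex_eq_one] at h4
        exact hhΦ (h4 (Subgroup.mem_sup_right (Subgroup.mem_zpowers h)))
      have h5 : Φ.relIndex Φ' ≠ 0 := by
        intro h4
        rw [h4, zero_mul] at h1
        exact Φ.index_ne_zero_of_finite h1.symm
      have h6 : 2 ≤ Φ.relIndex Φ' := by omega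
      have h7 := Nat.mul_le_mul_right Φ'.index h6
      omega
    have hHcomm : ∀ a b : S, a * b * a⁻¹ * b⁻¹ ∈ H := fun a b => hZH (hcomm a b)
    have hcyc : IsCyclic (S ⧸ H) := quot_cyc h2 H hHcomm Φ' hi2 (by
      intro g hg
      have hg' : g ∈ (↑(Φ ⊔ H) : Set S) := hg
      rw [Subgroup.mul_normal] at hg'
      obtain ⟨φ, hφ, n, hn, rfl⟩ := hg'
      obtain ⟨u, e, he, rfl⟩ := (hΦmem φ).1 hφ
      refine ⟨u, ?_⟩
      have e5 : (u ^ 2)⁻¹ * (u ^ 2 * e * n) = e * n := by group
      rw [e5]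
      exact H.mul_mem (hZH he) hn)
    exact ⟨H, hHn, inferInstance, hcyc⟩

/-- Reduction to class two: a nonabelian group with metacyclic quotient by a central involution
in the derived subgroup is metacyclic, or has derived subgroup of order two. -/
theorem reduce {S : Type*} [Group S] [Finite S] (h2 : IsPGroup 2 S)
    (z : S) (hz1 : z ≠ 1) (hz2 : z ^ 2 = 1) (hzc : ∀ g, g * z = z * g) (hzS : z ∈ commutator S)
    [(Subgroup.zpowers z).Normal] (hm : Cfsg.IsMetacyclic (S ⧸ Subgroup.zpowers z)) :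
    Cfsg.IsMetacyclic S ∨ ∀ a b : S, a * b * a⁻¹ * b⁻¹ ∈ Subgroup.zpowers z := by
  classical
  obtain ⟨Nb, hNb, hc1, hc2⟩ := hm
  set Z := Subgroup.zpowers z with hZdef
  have hmemZ : ∀ g, g ∈ Z ↔ g = 1 ∨ g = z := by
    intro g
    constructor
    · rintro ⟨i, rfl⟩
      rcases Int.even_or_odd' i with ⟨k, rfl | rfl⟩
      · left
        show z ^ (2 * k) = 1
        rw [zpow_mul]
        have : z ^ (2 : ℤ) = 1 := by exact_mod_cast hz2
        rw [this, one_zpow]
      · right
        show z ^ (2 * k + 1) = z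
        rw [zpow_add, zpow_mul]
        have : z ^ (2 : ℤ) = 1 := by exact_mod_cast hz2
        rw [this, one_zpow, one_mul, zpow_one]
    · rintro (rfl | rfl)
      · exact Z.one_mem
      · exact Subgroup.mem_zpowers _
  have hcen : ∀ e ∈ Z, ∀ g, g * e = e * g := by
    intro e he g
    rcases (hmemZ e).1 he with rfl | rfl
    · simp
    · exact hzc g
  obtain ⟨⟨xb, hxb⟩, hxgen⟩ := hc1.exists_generator
  obtain ⟨x, rfl⟩ := QuotientGroup.mk_surjective xb
  obtain ⟨yb, hygen⟩ := hc2.exists_generator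
  obtain ⟨yb', rfl⟩ := QuotientGroup.mk_surjective yb
  obtain ⟨y, rfl⟩ := QuotientGroup.mk_surjective yb'
  let π₂ : S →* (S ⧸ Z) ⧸ Nb := (QuotientGroup.mk' Nb).comp (QuotientGroup.mk' Z)
  have hπ₂ : Function.Surjective π₂ :=
    (QuotientGroup.mk'_surjective Nb).comp (QuotientGroup.mk'_surjective Z)
  let L : Subgroup S := π₂.ker
  haveI hLn : L.Normal := inferInstance
  have hLmem : ∀ g, g ∈ L ↔ (g : S ⧸ Z) ∈ Nb := by
    intro g
    rw [MonoidHom.mem_ker]
    exact QuotientGroup.eq_one_iff _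
  have hLcyc : IsCyclic (S ⧸ L) :=
    (QuotientGroup.quotientKerEquivOfSurjective π₂ hπ₂).isCyclic.2 hc2
  have hxL : x ∈ L := (hLmem x).2 hxb
  have hzL : z ∈ L := (hLmem z).2 (by
    rw [(QuotientGroup.eq_one_iff z).2 (Subgroup.mem_zpowers z)]
    exact Nb.one_mem)
  have hLform : ∀ l ∈ L, ∃ i : ℤ, ∃ e ∈ Z, l = x ^ i * e := by
    intro l hl
    obtain ⟨i, hi⟩ := hxgen ⟨_, (hLmem l).1 hl⟩
    refine ⟨i, (x ^ i)⁻¹ * l, ?_, by group⟩
    rw [← QuotientGroup.eq, QuotientGroup.mk_zpow]
    have := congrArg Subtype.val hi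
    simpa using this
  have hLcomm : ∀ a ∈ L, ∀ b ∈ L, a * b = b * a := by
    intro a ha b hb
    obtain ⟨i, e, he, rfl⟩ := hLform a ha
    obtain ⟨j, f, hf, rfl⟩ := hLform b hb
    calc x ^ i * e * (x ^ j * f) = x ^ i * (e * (x ^ j)) * f := by group
      _ = x ^ i * (x ^ j * e) * f := by rw [hcen e he (x ^ j)]
      _ = x ^ i * x ^ j * (e * f) := by group
      _ = x ^ j * x ^ i * (f * e) := by rw [← zpow_add, ← zpow_add, add_comm, hcen e he f]
      _ = x ^ j * (x ^ i * f) * e := by group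
      _ = x ^ j * (f * x ^ i) * e := by rw [hcen f hf (x ^ i)]
      _ = _ := by group
  have hgy : ∀ g : S, ∃ j : ℤ, g * (y ^ j)⁻¹ ∈ L := by
    intro g
    obtain ⟨j, hj⟩ := hygen (π₂ g)
    refine ⟨j, ?_⟩
    rw [MonoidHom.mem_ker, map_mul, map_inv, map_zpow]
    have hy : π₂ y = ((y : S ⧸ Z) : (S ⧸ Z) ⧸ Nb) := rfl
    rw [hy]
    simp only at hj
    rw [hj]
    group
  by_cases hzx : z ∈ Subgroup.zpowers x
  · left
    have hLeq : L = Subgroup.zpowers x := by
      apply le_antisymm
      · intro l hl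
        obtain ⟨i, e, he, rfl⟩ := hLform l hl
        refine Subgroup.mul_mem _ (Subgroup.zpow_mem _ (Subgroup.mem_zpowers x) i) ?_
        rcases (hmemZ e).1 he with rfl | rfl
        · exact Subgroup.one_mem _
        · exact hzx
      · rw [Subgroup.zpowers_le]; exact hxL
    refine ⟨L, hLn, ?_, hLcyc⟩
    rw [hLeq]; infer_instance
  · right
    -- the commutator map
    let c : S := x * y * x⁻¹ * y⁻¹
    let φ : L →* S := MonoidHom.mk' (fun l => (l : S) * y * (l : S)⁻¹ * y⁻¹) (by
      intro a b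
      have hb' : y * (b : S)⁻¹ * y⁻¹ ∈ L := hLn.conj_mem _ (L.inv_mem b.2) y
      have ha' : y * (a : S)⁻¹ * y⁻¹ ∈ L := hLn.conj_mem _ (L.inv_mem a.2) y
      have h1 := hLcomm _ ha' _ b.2
      have h2 : ((a * b : L) : S) * y * ((a * b : L) : S)⁻¹ * y⁻¹ =
          (a : S) * ((b : S) * (y * (b : S)⁻¹ * y⁻¹)) * (y * (a : S)⁻¹ * y⁻¹) := by
        push_cast
        group
      have h3 := hLcomm _ ha' _ (L.mul_mem b.2 hb')
      rw [h2, mul_assoc, ← h3]
      group)
    have hφ : ∀ l : L, φ l = (l : S) * y * (l : S)⁻¹ * y⁻¹ := fun l => rfl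
    have hφx : φ ⟨x, hxL⟩ = c := rfl
    have hφz : ∀ e (he : e ∈ L), e ∈ Z → φ ⟨e, he⟩ = 1 := by
      intro e he heZ
      rw [hφ]
      show e * y * e⁻¹ * y⁻¹ = 1
      rw [← hcen e heZ y]
      group
    let W : Subgroup S := Subgroup.zpowers c
    have hcL : c ∈ L := by
      have h1 := hLn.conj_mem _ (L.inv_mem hxL) y
      have e : c = x * (y * x⁻¹ * y⁻¹) := by show x * y * x⁻¹ * y⁻¹ = _; group
      rw [e]
      exact L.mul_mem hxL h1
    have hφW : ∀ l : L, φ l ∈ W := by
      intro l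
      obtain ⟨i, e, he, hl⟩ := hLform l l.2
      have hxi : x ^ i ∈ L := L.zpow_mem hxL i
      have heL : e ∈ L := by
        have : e = (x ^ i)⁻¹ * l := by rw [hl]; group
        rw [this]; exact L.mul_mem (L.inv_mem hxi) l.2
      have hl2 : l = (⟨x, hxL⟩ : L) ^ i * ⟨e, heL⟩ := Subtype.ext (by
        push_cast
        exact hl)
      rw [hl2, map_mul, map_zpow, hφz e heL he, mul_one, hφx]
      exact Subgroup.zpow_mem _ (Subgroup.mem_zpowers c) i
    have hgL : ∀ g : S, ∃ l ∈ L, ∃ j : ℤ, g = l * y ^ j := by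
      intro g
      obtain ⟨j, hj⟩ := hgy g
      exact ⟨_, hj, j, by group⟩
    have hWnorm : Subgroup.normalizer (W : Set S) = ⊤ := by
      have hLle : L ≤ Subgroup.normalizer (W : Set S) := by
        intro l hl
        apply Cfsg.Agent.H20.mem_normalizer_of_conj_le
        intro w hw
        have hwL : w ∈ L := by
          have : W ≤ L := by
            show Subgroup.zpowers c ≤ L
            rw [Subgroup.zpowers_le]; exact hcL
          exact this hw
        rw [hLcomm l hl w hwL, mul_inv_cancel_right]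
        exact hw
      have hyn : y ∈ Subgroup.normalizer (W : Set S) := by
        apply Cfsg.Agent.H20.mem_normalizer_of_conj_le
        rintro _ ⟨i, rfl⟩
        have h1 : y * x * y⁻¹ ∈ L := hLn.conj_mem _ hxL y
        have h2 := hφW ⟨_, h1⟩
        rw [hφ] at h2
        have e : y * c * y⁻¹ = y * x * y⁻¹ * y * (y * x * y⁻¹)⁻¹ * y⁻¹ := by
          show y * (x * y * x⁻¹ * y⁻¹) * y⁻¹ = _
          group
        have h3 : y * c * y⁻¹ ∈ W := by rw [e]; exact h2
        have e2 : y * (fun k : ℤ => c ^ k) i * y⁻¹ = (y * c * y⁻¹) ^ i := by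
          show y * c ^ i * y⁻¹ = _
          rw [conj_zpow]
        rw [e2]
        exact W.zpow_mem h3 i
      rw [eq_top_iff]
      intro g _
      obtain ⟨l, hl, j, rfl⟩ := hgL g
      exact Subgroup.mul_mem _ (hLle hl) (Subgroup.zpow_mem _ hyn j)
    have hWn : W.Normal := Subgroup.normalizer_eq_top_iff.mp hWnorm
    have hcl : Subgroup.closure ((L : Set S) ∪ {y}) = ⊤ := by
      rw [eq_top_iff]
      intro g _
      obtain ⟨l, hl, j, rfl⟩ := hgL g
      have hy1 : y ∈ Subgroup.closure ((L : Set S) ∪ {y}) :=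
        Subgroup.subset_closure (Set.mem_union_right _ rfl)
      have hl1 : l ∈ Subgroup.closure ((L : Set S) ∪ {y}) :=
        Subgroup.subset_closure (Set.mem_union_left _ hl)
      exact Subgroup.mul_mem _ hl1 (Subgroup.zpow_mem _ hy1 j)
    have hcomW : commutator S ≤ W := by
      have h1 := Cfsg.Agent.S4399.commutator_closure_le (T := W) (X := (L : Set S) ∪ {y})
        (fun g _ t ht => hWn.conj_mem t ht g) (by
        have hlc : ∀ l ∈ L, l * y * l⁻¹ * y⁻¹ ∈ W := fun l hl => hφW ⟨l, hl⟩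
        rintro u (hu | hu) v (hv | hv)
        · have e : u * v * u⁻¹ * v⁻¹ = 1 := by rw [hLcomm u hu v hv]; group
          rw [e]; exact W.one_mem
        · rw [Set.mem_singleton_iff] at hv
          rw [hv]; exact hlc u hu
        · rw [Set.mem_singleton_iff] at hu
          rw [hu]
          have := W.inv_mem (hlc v hv)
          have e : y * v * y⁻¹ * v⁻¹ = (v * y * v⁻¹ * y⁻¹)⁻¹ := by group
          rw [e]; exact this
        · rw [Set.mem_singleton_iff] at hu hv
          rw [hu, hv]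
          have e : y * y * y⁻¹ * y⁻¹ = 1 := by group
          rw [e]; exact W.one_mem)
      rw [hcl] at h1
      exact h1
    obtain ⟨k, hk⟩ := hcomW hzS
    have hk' : c ^ k = z := hk
    obtain ⟨t, e, he, hct⟩ := hLform c hcL
    have hce : c = z := by
      rcases (hmemZ e).1 he with rfl | rfl
      · exfalso
        apply hzx
        rw [← hk', hct, mul_one]
        exact Subgroup.zpow_mem _ (Subgroup.zpow_mem _ (Subgroup.mem_zpowers x) t) k
      · have hcomm' : Commute (x ^ t) e := (hzc _)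
        rw [hct, hcomm'.mul_zpow] at hk'
        have hz2' : e ^ (2 : ℤ) = 1 := by exact_mod_cast hz2
        rcases Int.even_or_odd' k with ⟨n, rfl | rfl⟩
        · exfalso
          apply hzx
          rw [zpow_mul e, hz2', one_zpow, mul_one] at hk'
          rw [← hk']
          exact Subgroup.zpow_mem _ (Subgroup.zpow_mem _ (Subgroup.mem_zpowers x) t) _
        · rw [zpow_add e, zpow_mul e, hz2', one_zpow, one_mul, zpow_one] at hk'
          have h0 : (x ^ t) ^ (2 * n + 1) = 1 := mul_eq_right.mp hk'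
          obtain ⟨a, ha⟩ := IsPGroup.iff_orderOf.mp h2 (x ^ t)
          have h1 := orderOf_dvd_iff_zpow_eq_one.mpr h0
          rw [ha] at h1
          rcases a with _ | a
          · rw [pow_zero, orderOf_eq_one_iff] at ha
            rw [hct, ha, one_mul]
          · exfalso
            have h3 : (2 : ℤ) ∣ 2 * n + 1 := by
              refine dvd_trans ?_ h1
              push_cast
              exact dvd_pow_self _ (Nat.succ_ne_zero a)
            omega
    intro a b
    have : a * b * a⁻¹ * b⁻¹ ∈ W := hcomW (by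
      have h3 := Subgroup.commutator_mem_commutator (H₁ := ⊤) (H₂ := ⊤) (Subgroup.mem_top a) (Subgroup.mem_top b)
      exact h3)
    have hWZ : W = Z := by
      show Subgroup.zpowers c = Subgroup.zpowers z
      rw [hce]
    rw [← hWZ]
    exact this

theorem main : ∀ n : ℕ, ∀ (S : Type u) [Group S] [Finite S], Nat.card S = n → IsPGroup 2 S →
    Cfsg.SectionalPRankLE 2 2 S → Cfsg.IsMetacyclic S := by
  intro n
  induction n using Nat.strong_induction_on with
  | _ n ih =>
  intro S _ _ hn h2 hr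
  have hE : ∀ E : Subgroup S, (∀ e ∈ E, e ^ 2 = 1) → Nat.card E ≤ 4 := by
    intro E hexp
    have := card_quot_le hr E ⊥ (by
      intro a
      rw [Subgroup.mem_bot]
      exact Subtype.ext (hexp a a.2))
    rwa [Subgroup.index_bot] at this
  have hQ : ∀ N : Subgroup S, N.Normal → (∀ g : S, g ^ 2 ∈ N) → N.index ≤ 4 := by
    intro N hN hs
    have := card_quot_le hr ⊤ (N.subgroupOf ⊤) (by
      intro a
      rw [Subgroup.mem_subgroupOf]
      exact hs a)
    have e : (N.subgroupOf ⊤).index = N.relIndex ⊤ := rfl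
    rwa [e, Subgroup.relIndex_top_right] at this
  by_cases htriv : Subsingleton S
  · exact ⟨⊥, inferInstance, inferInstance, isCyclic_of_subsingleton⟩
  rw [not_subsingleton_iff_nontrivial] at htriv
  haveI : Fact (Nat.Prime 2) := ⟨Nat.prime_two⟩
  have hcard2 : 2 ∣ Nat.card S := by
    rcases h2.card_eq_or_dvd with h | h
    · exact absurd h Finite.one_lt_card.ne'
    · exact h
  by_cases hab : commutator S = ⊥
  · obtain ⟨z, hz⟩ := exists_prime_orderOf_dvd_card' 2 hcard2
    have hcm : ∀ a b : S, a * b * a⁻¹ * b⁻¹ = 1 := by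
      intro a b
      have h3 := Subgroup.commutator_mem_commutator (H₁ := ⊤) (H₂ := ⊤) (Subgroup.mem_top a) (Subgroup.mem_top b)
      have h4 : a * b * a⁻¹ * b⁻¹ ∈ commutator S := h3
      rw [hab, Subgroup.mem_bot] at h4
      exact h4
    have hz1 : z ≠ 1 := by
      rintro rfl
      rw [orderOf_one] at hz
      omega
    have hz2 : z ^ 2 = 1 := by rw [← hz]; exact pow_orderOf_eq_one z
    refine class2 h2 hE hQ z hz1 hz2 ?_ (fun a b => by rw [hcm]; exact Subgroup.one_mem _)
    intro g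
    have := hcm g z
    exact mul_inv_eq_one.mp (by rw [← this]; group)
  · haveI : Group.IsNilpotent S := h2.isNilpotent
    obtain ⟨y, hyS, hy1, hyc⟩ := Cfsg.Agent.H06.exists_central_of_normal
      (Subgroup.commutator_normal ⊤ ⊤) hab
    obtain ⟨a, ha⟩ := IsPGroup.iff_orderOf.mp h2 y
    rcases a with _ | a
    · rw [pow_zero, orderOf_eq_one_iff] at ha
      exact absurd ha hy1
    let z := y ^ (2 ^ a)
    have hoz : orderOf z = 2 := by
      have := orderOf_pow_of_dvd (x := y) (n := 2 ^ a) (by positivity) (by rw [ha]; exact pow_dvd_pow _ (Nat.le_succ a))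
      rw [show orderOf z = orderOf (y ^ (2 ^ a)) from rfl, this, ha, pow_succ]
      simp
    have hz1 : z ≠ 1 := by
      intro h
      rw [h, orderOf_one] at hoz
      omega
    have hz2 : z ^ 2 = 1 := by rw [← hoz]; exact pow_orderOf_eq_one z
    have hzc : ∀ g, g * z = z * g := by
      intro g
      exact (Subgroup.mem_center_iff.mp (Subgroup.pow_mem _ hyc _) g)
    have hzS : z ∈ commutator S := Subgroup.pow_mem _ hyS _
    haveI hZn : (Subgroup.zpowers z).Normal := by
      refine ⟨fun n hn g => ?_⟩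
      obtain ⟨i, rfl⟩ := hn
      have h5 : ∀ i : ℤ, g * z ^ i * g⁻¹ = z ^ i := by
        intro i
        rw [← conj_zpow]
        congr 1
        rw [hzc g, mul_inv_cancel_right]
      exact ⟨i, (h5 i).symm⟩
    have hlt : Nat.card (S ⧸ Subgroup.zpowers z) < n := by
      have h3 : Nat.card (Subgroup.zpowers z) * Nat.card (S ⧸ Subgroup.zpowers z) = Nat.card S :=
        Subgroup.card_mul_index _
      rw [Nat.card_zpowers, hoz, hn] at h3
      have : 0 < n := by rw [← hn]; exact Nat.card_pos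
      omega
    have hm := ih _ hlt (S ⧸ Subgroup.zpowers z) rfl (h2.to_quotient _)
      (sec_of_surj (QuotientGroup.mk' _) (QuotientGroup.mk'_surjective _) hr)
    rcases reduce h2 z hz1 hz2 hzc hzS hm with h | h
    · exact h
    · exact class2 h2 hE hQ z hz1 hz2 hzc h

/-- A finite 2-group of sectional 2-rank at most 2 (every section has no elementary abelian subgroup of order 8) is metacyclic: it has a cyclic normal subgroup with cyclic quotient. -/
theorem result {S : Type*} [Group S] [Finite S] (h2 : IsPGroup 2 S) (hr : Cfsg.SectionalPRankLE 2 2 S) : Cfsg.IsMetacyclic S :=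
  main _ S rfl h2 hr

end Cfsg.Agent.S4397
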