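import Cfsg.Statements.S4398
import Cfsg.Agent.S4397

set_option autoImplicit false
set_option linter.unusedVariables false
set_option linter.style.haveILetI false
set_option linter.unusedSectionVars false
open Cfsg

namespace Cfsg.Agent.S4398

theorem odd_mem {S : Type*} [Group S] [Finite S] (h2 : IsPGroup 2 S) (y : S) (e : ℤ) (he : Odd e) :
    y ∈ Subgroup.zpowers (y ^ e) := by
  obtain ⟨b, hb⟩ := IsPGroup.iff_orderOf.mp h2 y
  obtain ⟨q, rfl⟩ := he
  have h1 : IsCoprime (2 * q + 1) (2 : ℤ) := ⟨1, -q, by ring⟩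
  obtain ⟨A, B, hAB⟩ := h1.pow_right (n := b)
  refine ⟨A, ?_⟩
  show (y ^ (2 * q + 1)) ^ A = y
  have h3 : y ^ ((2 : ℤ) ^ b) = 1 := by
    have := pow_orderOf_eq_one y
    rw [hb] at this
    exact_mod_cast this
  have h4 : (2 * q + 1) * A = 1 - B * 2 ^ b := by linarith
  rw [← zpow_mul, h4, zpow_sub, zpow_one, mul_comm B, zpow_mul, h3, one_zpow, inv_one, mul_one]

theorem core {S : Type*} [Group S] [Finite S] (h2 : IsPGroup 2 S) (N : Subgroup S) [hNn : N.Normal]
    (hNc : IsCyclic N) (hQc : IsCyclic (S ⧸ N)) (u w : S) (huN : u ∈ N) (hu4 : orderOf u = 4)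
    (hwN : w ∉ N) (hw2 : w ^ 2 ∈ N) (huw : w * u ≠ u * w) :
    (commutator S).index = 4 ∧ ∀ g : S, g ^ 2 ∈ commutator S := by
  classical
  obtain ⟨⟨x, hxN⟩, hxgen⟩ := hNc.exists_generator
  have hNx : ∀ n ∈ N, ∃ i : ℤ, n = x ^ i := by
    intro n hn
    obtain ⟨i, hi⟩ := hxgen ⟨n, hn⟩
    refine ⟨i, ?_⟩
    have := congrArg Subtype.val hi
    simpa using this.symm
  have hcommN : ∀ a ∈ N, ∀ b ∈ N, a * b = b * a := by
    intro a ha b hb
    obtain ⟨i, rfl⟩ := hNx a ha
    obtain ⟨j, rfl⟩ := hNx b hb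
    rw [← zpow_add, ← zpow_add, add_comm]
  have hact : ∀ t : S, ∃ r : ℤ, ∀ n ∈ N, t * n * t⁻¹ = n ^ r := by
    intro t
    obtain ⟨r, hr⟩ := hNx _ (hNn.conj_mem x hxN t)
    refine ⟨r, ?_⟩
    intro n hn
    obtain ⟨i, rfl⟩ := hNx n hn
    rw [← conj_zpow, hr, ← zpow_mul, ← zpow_mul, mul_comm]
  have hu2 : u ^ 2 ≠ 1 := by
    intro h
    have := orderOf_dvd_of_pow_eq_one h
    rw [hu4] at this
    omega
  have hodd : ∀ t : S, ∀ r : ℤ, (∀ n ∈ N, t * n * t⁻¹ = n ^ r) → Odd r := by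
    intro t r hr
    rcases Int.even_or_odd' r with ⟨q, rfl | rfl⟩
    · exfalso
      apply hu2
      have h1 := hr u huN
      have h3 : (t * u * t⁻¹) ^ 2 = 1 := by
        rw [h1, ← zpow_natCast, ← zpow_mul]
        apply orderOf_dvd_iff_zpow_eq_one.mp
        rw [hu4]
        push_cast
        exact ⟨q, by ring⟩
      rw [conj_pow] at h3
      have h4 : t * u ^ 2 * t⁻¹ = 1 := h3
      have h5 : u ^ 2 = t⁻¹ * (t * u ^ 2 * t⁻¹) * t := by group
      rw [h5, h4]
      group
    · exact ⟨q, rfl⟩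
  have hsq : ∀ r : ℤ, Odd r → u ^ (r * r) = u := by
    rintro r ⟨q, rfl⟩
    have h1 : u ^ ((2 * q + 1) * (2 * q + 1) - 1) = 1 := by
      apply orderOf_dvd_iff_zpow_eq_one.mp
      rw [hu4]
      exact ⟨q * (q + 1), by push_cast; ring⟩
    rw [zpow_sub, zpow_one] at h1
    exact mul_inv_eq_one.mp h1
  -- index two
  have hidx : N.index = 2 := by
    by_contra hne
    obtain ⟨tb, htb⟩ := hQc.exists_generator
    obtain ⟨t, rfl⟩ := QuotientGroup.mk_surjective tb
    obtain ⟨j, hj⟩ := htb (w : S ⧸ N)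
    have hj' : ((t : S ⧸ N)) ^ j = (w : S ⧸ N) := hj
    have hord : orderOf (t : S ⧸ N) = N.index := by
      rw [orderOf_eq_card_of_forall_mem_zpowers htb]
      rfl
    obtain ⟨n, hn⟩ := IsPGroup.iff_card.mp (h2.to_quotient N)
    have hn' : N.index = 2 ^ n := hn
    have hw1 : (w : S ⧸ N) ^ 2 = 1 := by
      rw [← QuotientGroup.mk_pow]
      exact (QuotientGroup.eq_one_iff _).2 hw2
    have hjd : (N.index : ℤ) ∣ j * 2 := by
      rw [← hord]
      apply orderOf_dvd_iff_zpow_eq_one.mpr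
      rw [zpow_mul, hj']
      exact_mod_cast hw1
    have hn2 : 2 ≤ n := by
      by_contra hlt
      have : n = 0 ∨ n = 1 := by omega
      rcases this with rfl | rfl
      · have hi1 : N.index = 1 := by simpa using hn'
        rw [Subgroup.index_eq_one] at hi1
        exact hwN (by rw [hi1]; trivial)
      · exact hne (by simpa using hn')
    have hjev : (2 : ℤ) ∣ j := by
      obtain ⟨n', rfl⟩ : ∃ n', n = n' + 2 := ⟨n - 2, by omega⟩
      rw [hn'] at hjd
      have : ((2 : ℤ) ^ (n' + 1)) * 2 ∣ j * 2 := by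
        convert hjd using 1
        push_cast
        ring
      have h3 := Int.dvd_of_mul_dvd_mul_right (by norm_num) this
      exact dvd_trans (dvd_pow_self _ (Nat.succ_ne_zero n')) h3
    obtain ⟨j', rfl⟩ := hjev
    let τ := t ^ j'
    obtain ⟨r, hr⟩ := hact τ
    have hrodd := hodd τ r hr
    have hn0 : (τ ^ 2)⁻¹ * w ∈ N := by
      rw [← QuotientGroup.eq, QuotientGroup.mk_pow, QuotientGroup.mk_zpow, ← zpow_natCast, ← zpow_mul,
        ← hj']
      congr 1
      push_cast
      ring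
    apply huw
    obtain ⟨n₀, hn₀, hwτ⟩ : ∃ n₀ ∈ N, w = τ ^ 2 * n₀ := ⟨_, hn0, by group⟩
    have h1 : n₀ * u = u * n₀ := hcommN _ hn₀ _ huN
    have h4 : τ * τ * u * (τ * τ)⁻¹ = u := by
      have e : τ * τ * u * (τ * τ)⁻¹ = τ * (τ * u * τ⁻¹) * τ⁻¹ := by group
      rw [e, hr u huN, ← conj_zpow, hr u huN, ← zpow_mul, hsq r hrodd]
    have h5 : τ * τ * u = u * (τ * τ) := mul_inv_eq_iff_eq_mul.mp h4
    rw [hwτ, sq]
    calc τ * τ * n₀ * u = τ * τ * (n₀ * u) := by group
      _ = τ * τ * (u * n₀) := by rw [h1]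
      _ = (τ * τ * u) * n₀ := by group
      _ = u * (τ * τ) * n₀ := by rw [h5]
      _ = _ := by group
  -- action of w
  obtain ⟨s, hs⟩ := hact w
  obtain ⟨q₀, hq₀⟩ := hodd w s hs
  have hq₁ : Odd q₀ := by
    by_contra hev
    rw [Int.not_odd_iff_even] at hev
    obtain ⟨q, rfl⟩ := hev
    apply huw
    have h1 := hs u huN
    have h3 : u ^ s = u := by
      have h4 : u ^ (s - 1) = 1 := by
        apply orderOf_dvd_iff_zpow_eq_one.mp
        rw [hu4, hq₀]
        exact ⟨q, by push_cast; ring⟩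
      rw [zpow_sub, zpow_one] at h4
      exact mul_inv_eq_one.mp h4
    rw [h3] at h1
    exact mul_inv_eq_iff_eq_mul.mp h1
  obtain ⟨q, rfl⟩ := hq₁
  have hs3 : s = 4 * q + 3 := by rw [hq₀]; ring
  -- orders
  have h4x : 4 ∣ orderOf x := by
    rw [← hu4]
    obtain ⟨i, rfl⟩ := hNx u huN
    exact orderOf_dvd_of_mem_zpowers (Subgroup.zpow_mem _ (Subgroup.mem_zpowers x) i)
  -- K
  let K : Subgroup S := Subgroup.zpowers (x ^ 2)
  have hxcomm : x ^ 2 ∈ commutator S := by
    have hc0 : x * w * x⁻¹ * w⁻¹ ∈ commutator S :=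
      Subgroup.commutator_mem_commutator (H₁ := ⊤) (H₂ := ⊤) (Subgroup.mem_top x) (Subgroup.mem_top w)
    have e1 : x * w * x⁻¹ * w⁻¹ = (x ^ 2) ^ (-(2 * q + 1) : ℤ) := by
      have h1 : w * x⁻¹ * w⁻¹ = (x⁻¹) ^ s := hs _ (N.inv_mem hxN)
      have e2 : x * w * x⁻¹ * w⁻¹ = x * (w * x⁻¹ * w⁻¹) := by group
      rw [e2, h1, ← zpow_natCast, ← zpow_mul, inv_zpow, ← zpow_neg, ← zpow_one_add]
      congr 1
      rw [hs3]
      push_cast
      ring
    rw [e1] at hc0
    have h3 := odd_mem h2 (x ^ 2) (-(2 * q + 1)) (Odd.neg ⟨q, rfl⟩)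
    obtain ⟨k, hk⟩ := h3
    have h4 := Subgroup.zpow_mem _ hc0 k
    have h5 : ((x ^ 2) ^ (-(2 * q + 1) : ℤ)) ^ k = x ^ 2 := hk
    rwa [h5] at h4
  have hKS : K ≤ commutator S := by
    show Subgroup.zpowers (x ^ 2) ≤ _
    rw [Subgroup.zpowers_le]; exact hxcomm
  have hKn : K.Normal := by
    refine ⟨fun n hn g => ?_⟩
    obtain ⟨r, hr⟩ := hact g
    obtain ⟨i, rfl⟩ := hn
    show g * (x ^ 2) ^ i * g⁻¹ ∈ K
    rw [← conj_zpow]
    refine Subgroup.zpow_mem _ ?_ i
    have h1 := hr (x ^ 2) (N.pow_mem hxN 2)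
    rw [h1]
    exact Subgroup.zpow_mem _ (Subgroup.mem_zpowers _) r
  have hNcard : Nat.card N = orderOf x := by
    rw [← Nat.card_zpowers]
    apply Nat.card_congr
    refine Equiv.subtypeEquivRight (fun n => ?_)
    constructor
    · intro hn
      obtain ⟨i, rfl⟩ := hNx n hn
      exact Subgroup.zpow_mem _ (Subgroup.mem_zpowers x) i
    · rintro ⟨i, rfl⟩
      exact N.zpow_mem hxN i
  have hKcard : Nat.card K * 2 = orderOf x := by
    show Nat.card (Subgroup.zpowers (x ^ 2)) * 2 = _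
    rw [Nat.card_zpowers, orderOf_pow_of_dvd (by norm_num) (dvd_trans (by norm_num) h4x)]
    exact Nat.div_mul_cancel (dvd_trans (by norm_num) h4x)
  have hSc : Nat.card K * 4 = Nat.card S := by
    have h1 := Subgroup.card_mul_index N
    rw [hidx, hNcard, ← hKcard] at h1
    omega
  have hKi : K.index = 4 := by
    have h1 := Subgroup.card_mul_index K
    have hpos : 0 < Nat.card K := Nat.card_pos
    rw [← hSc] at h1
    exact Nat.eq_of_mul_eq_mul_left hpos h1
  have hSK : commutator S ≤ K := by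
    have hcardq : Nat.card (S ⧸ K) = 2 ^ 2 := by
      show K.index = _
      rw [hKi]; norm_num
    haveI : Fact (Nat.Prime 2) := ⟨Nat.prime_two⟩
    have hcq := IsPGroup.commutative_of_card_eq_prime_sq hcardq
    rw [commutator_def, Subgroup.commutator_le]
    intro a _ b _
    rw [← QuotientGroup.eq_one_iff]
    have := hcq (a : S ⧸ K) (b : S ⧸ K)
    rw [commutatorElement_def]
    simp only [QuotientGroup.mk_mul, QuotientGroup.mk_inv]
    rw [this]
    group
  have hKeq : commutator S = K := le_antisymm hSK hKS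
  refine ⟨by rw [hKeq]; exact hKi, ?_⟩
  intro g
  rw [hKeq]
  have hw2K : w ^ 2 ∈ K := by
    obtain ⟨i, hi⟩ := hNx _ hw2
    rcases Int.even_or_odd' i with ⟨k, rfl | rfl⟩
    · rw [hi, zpow_mul]
      have e : x ^ (2 : ℤ) = x ^ 2 := by exact_mod_cast rfl
      rw [e]
      exact Subgroup.zpow_mem _ (Subgroup.mem_zpowers _) k
    · exfalso
      have h1 : w * w ^ 2 * w⁻¹ = w ^ 2 := by
        rw [sq]; group
      rw [hs _ hw2, hi, ← zpow_mul] at h1
      have h3 : x ^ ((2 * k + 1) * s - (2 * k + 1)) = 1 := by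
        rw [zpow_sub, h1]; group
      have h4 := orderOf_dvd_iff_zpow_eq_one.mpr h3
      have h5 : (4 : ℤ) ∣ (2 * k + 1) * s - (2 * k + 1) := dvd_trans (by exact_mod_cast h4x) h4
      rw [hs3] at h5
      obtain ⟨c, hc⟩ := h5
      have : (2 * k + 1) * (4 * q + 3) - (2 * k + 1) = 4 * (2 * k * q + k + q) + 2 := by ring
      rw [this] at hc
      generalize 2 * k * q + k + q = m at hc
      omega
  by_cases hgN : g ∈ N
  · obtain ⟨i, rfl⟩ := hNx g hgN
    rw [← zpow_natCast, ← zpow_mul, mul_comm, zpow_mul, zpow_natCast]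
    exact Subgroup.zpow_mem _ (Subgroup.mem_zpowers _) i
  · have hgw : g * w⁻¹ ∈ N := by
      rw [Subgroup.mul_mem_iff_of_index_two hidx]
      simp [hgN, hwN]
    obtain ⟨i, hi⟩ := hNx _ hgw
    have hg : g = x ^ i * w := by rw [← hi]; group
    have e1 : g ^ 2 = x ^ i * (w * x ^ i * w⁻¹) * w ^ 2 := by
      rw [hg, sq, sq]; group
    rw [e1, hs _ (N.zpow_mem hxN i), ← zpow_mul, ← zpow_add]
    refine K.mul_mem ?_ hw2K
    have e : i + i * s = 2 * (i * (2 * q + 2)) := by rw [hs3]; ring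
    rw [e, zpow_mul]
    have e3 : x ^ (2 : ℤ) = x ^ 2 := by exact_mod_cast rfl
    rw [e3]
    exact Subgroup.zpow_mem _ (Subgroup.mem_zpowers _) _

/-- Let S be a finite 2-group of sectional 2-rank at most 2 that contains a subgroup isomorphic to the dihedral group of order 8 or to the quaternion group of order 8. Then S is dihedral of order at least 8, semidihedral of order at least 16 (order 2^(k+4) with an element a of order 2^(k+3) and an involution b with b a b⁻¹ = a^(2^(k+2)−1)), or generalized quaternion of order at least 8. -/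
theorem result {S : Type*} [Group S] [Finite S] (h2 : IsPGroup 2 S) (hr : Cfsg.SectionalPRankLE 2 2 S)
    (hsub : ∃ H : Subgroup S, Nonempty (↥H ≃* DihedralGroup 4) ∨ Nonempty (↥H ≃* QuaternionGroup 2)) :
    ((∃ k : ℕ, Nonempty (S ≃* DihedralGroup (2 ^ (k + 2)))) ∨
      (∃ k : ℕ, Nat.card S = 2 ^ (k + 4) ∧ ∃ a b : S, orderOf a = 2 ^ (k + 3) ∧ orderOf b = 2 ∧ b * a * b⁻¹ = a ^ (2 ^ (k + 2) - 1)) ∨
      (∃ k : ℕ, Nonempty (S ≃* QuaternionGroup (2 ^ (k + 1))))) := by
  classical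
  obtain ⟨N, hNn, hNc, hQc⟩ := Cfsg.Agent.S4397.result h2 hr
  have hH : ∃ H : Subgroup S, Nat.card H = 8 ∧ ∃ a b : H, a * b ≠ b * a := by
    obtain ⟨H, (⟨⟨e⟩⟩ | ⟨⟨e⟩⟩)⟩ := hsub
    · refine ⟨H, ?_, ?_⟩
      · rw [Nat.card_congr e.toEquiv, DihedralGroup.nat_card]
      · refine ⟨e.symm (DihedralGroup.r 1), e.symm (DihedralGroup.sr 0), ?_⟩
        intro h
        rw [← map_mul, ← map_mul] at h
        have := e.symm.injective h
        revert this
        decide
    · refine ⟨H, ?_, ?_⟩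
      · rw [Nat.card_congr e.toEquiv, Nat.card_eq_fintype_card, QuaternionGroup.card]
      · refine ⟨e.symm (QuaternionGroup.a 1), e.symm (QuaternionGroup.xa 0), ?_⟩
        intro h
        rw [← map_mul, ← map_mul] at h
        have := e.symm.injective h
        revert this
        decide
  obtain ⟨H, hH8, a, b, hab⟩ := hH
  let f : H →* S ⧸ N := (QuotientGroup.mk' N).comp H.subtype
  have hker : ∀ h : H, h ∈ f.ker ↔ (h : S) ∈ N := by
    intro h
    rw [MonoidHom.mem_ker]
    exact QuotientGroup.eq_one_iff _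
  have hnotcen : ¬ f.ker ≤ Subgroup.center H := fun hc =>
    hab ((f.isMulCommutative_of_isCyclic_of_ker_le_center hc).is_comm.comm a b)
  have hDc : IsCyclic f.ker := by
    let g : f.ker →* N := MonoidHom.mk' (fun d => ⟨((d : H) : S), (hker _).1 d.2⟩) (fun _ _ => rfl)
    refine isCyclic_of_injective g ?_
    intro d₁ d₂ h
    have := congrArg Subtype.val h
    exact Subtype.ext (Subtype.ext this)
  obtain ⟨⟨u₀, hu₀⟩, hgen⟩ := hDc.exists_generator
  have hw₀ : ∃ w : H, w * u₀ ≠ u₀ * w := by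
    by_contra hcon
    push Not at hcon
    apply hnotcen
    intro d hd
    obtain ⟨i, hi⟩ := hgen ⟨d, hd⟩
    have hd2 : d = u₀ ^ i := by
      have := congrArg Subtype.val hi
      simpa using this.symm
    rw [Subgroup.mem_center_iff]
    intro w
    rw [hd2]
    exact ((Commute.zpow_right (hcon w) i))
  obtain ⟨w₀, hw₀⟩ := hw₀
  have huN : ((u₀ : H) : S) ∈ N := (hker _).1 hu₀
  have hcommN : ∀ a ∈ N, ∀ b ∈ N, a * b = b * a := by
    intro a ha b hb
    have := (IsCyclic.isMulCommutative (α := N)).is_comm.comm ⟨a, ha⟩ ⟨b, hb⟩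
    exact congrArg Subtype.val this
  have hwN : (w₀ : S) ∉ N := by
    intro h
    apply hw₀
    exact Subtype.ext (hcommN _ h _ huN)
  -- the order of the kernel
  have hocard : orderOf (⟨u₀, hu₀⟩ : f.ker) = Nat.card f.ker := orderOf_eq_card_of_forall_mem_zpowers hgen
  have hcu : orderOf u₀ = Nat.card f.ker := by
    rw [← hocard]
    exact (Subgroup.orderOf_mk u₀ hu₀).symm
  have hdv : Nat.card f.ker ∣ 8 := by
    rw [← hH8]; exact Subgroup.card_subgroup_dvd_card _
  have hsub8 : Nat.card f.ker = 4 := by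
    have hle := Nat.le_of_dvd (by norm_num) hdv
    interval_cases hc : Nat.card f.ker
    · omega
    · exfalso
      apply hw₀
      rw [orderOf_eq_one_iff] at hcu
      rw [hcu]; simp
    · exfalso
      apply hw₀
      have hz2 : u₀ ^ 2 = 1 := by rw [← hcu]; exact pow_orderOf_eq_one _
      have hd : w₀ * u₀ * w₀⁻¹ ∈ f.ker := (MonoidHom.normal_ker f).conj_mem _ hu₀ _
      obtain ⟨i, hi⟩ := hgen ⟨_, hd⟩
      have hd2 : w₀ * u₀ * w₀⁻¹ = u₀ ^ i := by
        have := congrArg Subtype.val hi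
        simpa using this.symm
      have hu1 : u₀ ≠ 1 := by
        rintro h
        rw [h, orderOf_one] at hcu
        omega
      have hi2 : u₀ ^ i = 1 ∨ u₀ ^ i = u₀ := by
        rcases Int.even_or_odd' i with ⟨k, rfl | rfl⟩
        · left
          rw [zpow_mul]
          have : u₀ ^ (2 : ℤ) = 1 := by exact_mod_cast hz2
          rw [this, one_zpow]
        · right
          rw [zpow_add, zpow_mul]
          have : u₀ ^ (2 : ℤ) = 1 := by exact_mod_cast hz2
          rw [this, one_zpow, one_mul, zpow_one]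
      rcases hi2 with h | h
      · exfalso
        rw [h] at hd2
        apply hu1
        have : u₀ = w₀⁻¹ * (w₀ * u₀ * w₀⁻¹) * w₀ := by group
        rw [this, hd2]; group
      · rw [h] at hd2
        exact mul_inv_eq_iff_eq_mul.mp hd2
    · omega
    · rfl
    · omega
    · omega
    · omega
    · exfalso
      apply hwN
      have htop : f.ker = ⊤ := by
        apply Subgroup.eq_top_of_card_eq
        rw [hc, hH8]
      exact (hker _).1 (by rw [htop]; trivial)
  have hu4 : orderOf ((u₀ : H) : S) = 4 := by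
    rw [Subgroup.orderOf_coe, hcu, hsub8]
  have hidx2 : f.ker.index = 2 := by
    have := Subgroup.card_mul_index f.ker
    rw [hsub8, hH8] at this
    omega
  have hw2 : (w₀ : S) ^ 2 ∈ N := by
    have := Subgroup.sq_mem_of_index_two hidx2 w₀
    have h3 := (hker _).1 this
    simpa using h3
  have huw : (w₀ : S) * (u₀ : S) ≠ (u₀ : S) * w₀ := by
    intro h
    exact hw₀ (Subtype.ext h)
  obtain ⟨h4, hsq⟩ := core h2 N hNc hQc (u₀ : S) w₀ huN hu4 hwN hw2 huw
  have hcard : Nat.card (Abelianization S) = 4 := h4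
  have hexp : ∀ x : Abelianization S, x ^ 2 = 1 := by
    intro x
    obtain ⟨g, rfl⟩ := QuotientGroup.mk_surjective x
    have h6 : ((g : S ⧸ commutator S)) ^ 2 = 1 := by
      rw [← QuotientGroup.mk_pow]
      exact (QuotientGroup.eq_one_iff _).2 (hsq g)
    exact h6
  rcases Cfsg.Agent.S4399.result h2 hcard hexp with h | h
  · exfalso
    have h5 : Nat.card H ∣ Nat.card S := Subgroup.card_subgroup_dvd_card H
    rw [hH8, h] at h5
    omega
  · exact h

end Cfsg.Agent.S4398
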