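import Cfsg.Statements.S4400
import Cfsg.Agent.Lib.H20.Sect4

set_option autoImplicit false
set_option linter.unusedVariables false
set_option linter.style.haveILetI false
open Cfsg

namespace Cfsg.Agent.S4400

/-- Let S be a finite 2-group of sectional 2-rank at most 4, and let P and Q be normal non-abelian subgroups of S whose centres have order 2 and are different. Then P and Q commute elementwise and intersect trivially, and PQ contains its own centralizer in S. -/
theorem result {S : Type*} [Group S] [Finite S] (h2 : IsPGroup 2 S) (hr : Cfsg.SectionalPRankLE 2 4 S)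
    (P Q : Subgroup S) [P.Normal] [Q.Normal] (hP : ¬ IsMulCommutative ↥P) (hQ : ¬ IsMulCommutative ↥Q)
    (hZP : Nat.card ↥(Subgroup.center ↥P) = 2) (hZQ : Nat.card ↥(Subgroup.center ↥Q) = 2)
    (hne : (Subgroup.center ↥P).map P.subtype ≠ (Subgroup.center ↥Q).map Q.subtype) :
    ⁅P, Q⁆ = ⊥ ∧ P ⊓ Q = ⊥ ∧ Subgroup.centralizer ((P ⊔ Q : Subgroup S) : Set S) ≤ P ⊔ Q := by
  obtain ⟨z, hz, hzm⟩ := Cfsg.Agent.H20.exists_zdata P hP hZP
  obtain ⟨w, hw, hwm⟩ := Cfsg.Agent.H20.exists_zdata Q hQ hZQ
  have hzw : z ≠ w := by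
    rintro rfl
    exact hne (hzm.trans hwm.symm)
  obtain ⟨h1, h2', h3⟩ := Cfsg.Agent.H20.sect4_core h2 hr ⊤ P Q le_top le_top
    (fun g _ x hx => ‹P.Normal›.conj_mem x hx g) (fun g _ x hx => ‹Q.Normal›.conj_mem x hx g) z w hz hw hzw
  refine ⟨?_, h2', ?_⟩
  · rw [eq_bot_iff, Subgroup.commutator_le]
    intro a ha b hb
    rw [Subgroup.mem_bot, commutatorElement_eq_one_iff_mul_comm]
    exact h1 a ha b hb
  · intro c hc
    apply h3 c trivial
    · intro r hr'
      exact (Subgroup.mem_centralizer_iff.mp hc r (Subgroup.mem_sup_left hr')).symm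
    · intro r hr'
      exact (Subgroup.mem_centralizer_iff.mp hc r (Subgroup.mem_sup_right hr')).symm

end Cfsg.Agent.S4400
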