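import Cfsg.Statements.S4401
import Cfsg.Agent.Lib.H20.Sect4

set_option autoImplicit false
set_option linter.unusedVariables false
set_option linter.style.haveILetI false
set_option linter.unusedSectionVars false
open Cfsg
open Cfsg.Agent.H20

namespace Cfsg.Agent.S4401

variable {S : Type*} [Group S]

/-- conjugate subgroup -/
def cjg (g : S) (P : Subgroup S) : Subgroup S := P.map (MulAut.conj g).toMonoidHom

theorem mem_cjg {g y : S} {P : Subgroup S} : y ∈ cjg g P ↔ g⁻¹ * y * g ∈ P := by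
  constructor
  · rintro ⟨x, hx, rfl⟩
    have e : g⁻¹ * ((MulAut.conj g).toMonoidHom x) * g = x := by
      show g⁻¹ * (g * x * g⁻¹) * g = x
      group
    rwa [e]
  · intro h
    refine ⟨_, h, ?_⟩
    show g * (g⁻¹ * y * g) * g⁻¹ = y
    group

theorem conj_mem_cjg {g x : S} {P : Subgroup S} (hx : x ∈ P) : g * x * g⁻¹ ∈ cjg g P :=
  ⟨x, hx, rfl⟩

theorem card_cjg (g : S) (P : Subgroup S) : Nat.card (cjg g P) = Nat.card P :=
  Subgroup.card_map_of_injective (MulAut.conj g).injective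

/-- A subgroup with central involution `z`, normalized by the centralizer of `z`. -/
structure Good (P : Subgroup S) (z : S) : Prop where
  zd : ZData P z
  nor : ∀ a, a * z = z * a → ∀ x ∈ P, a * x * a⁻¹ ∈ P

theorem comm_conj {g a z : S} : a * (g * z * g⁻¹) = (g * z * g⁻¹) * a ↔
    (g⁻¹ * a * g) * z = z * (g⁻¹ * a * g) := by
  constructor
  · intro h
    calc (g⁻¹ * a * g) * z = g⁻¹ * (a * (g * z * g⁻¹)) * g := by group
      _ = g⁻¹ * ((g * z * g⁻¹) * a) * g := by rw [h]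
      _ = _ := by group
  · intro h
    calc a * (g * z * g⁻¹) = g * ((g⁻¹ * a * g) * z) * g⁻¹ := by group
      _ = g * (z * (g⁻¹ * a * g)) * g⁻¹ := by rw [h]
      _ = _ := by group

theorem Good.conj {P : Subgroup S} {z : S} (h : Good P z) (g : S) : Good (cjg g P) (g * z * g⁻¹) := by
  obtain ⟨hz, hn⟩ := h
  refine ⟨⟨conj_mem_cjg hz.mem, ?_, ?_, ?_, ?_, ?_⟩, ?_⟩
  · intro h1
    apply hz.ne
    have : z = g⁻¹ * (g * z * g⁻¹) * g := by group
    rw [this, h1]; group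
  · rw [conj_pow, hz.sq]; group
  · intro a ha
    have h1 := hz.comm _ (mem_cjg.mp ha)
    exact comm_conj.mpr h1
  · intro c hc hcom
    have h1 := hz.cen _ (mem_cjg.mp hc) (by
      intro a ha
      have h2 := hcom (g * a * g⁻¹) (conj_mem_cjg ha)
      calc g⁻¹ * c * g * a = g⁻¹ * (c * (g * a * g⁻¹)) * g := by group
        _ = g⁻¹ * ((g * a * g⁻¹) * c) * g := by rw [h2]
        _ = _ := by group)
    rcases h1 with h1 | h1
    · left
      have : c = g * (g⁻¹ * c * g) * g⁻¹ := by group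
      rw [this, h1]; group
    · right
      have : c = g * (g⁻¹ * c * g) * g⁻¹ := by group
      rw [this, h1]
  · obtain ⟨a, ha, b, hb, hab⟩ := hz.noncomm
    refine ⟨_, conj_mem_cjg (g := g) ha, _, conj_mem_cjg (g := g) hb, ?_⟩
    intro h1
    apply hab
    have e1 : g * a * g⁻¹ * (g * b * g⁻¹) = g * (a * b) * g⁻¹ := by group
    have e2 : g * b * g⁻¹ * (g * a * g⁻¹) = g * (b * a) * g⁻¹ := by group
    rw [e1, e2] at h1
    have h2 := mul_right_cancel h1
    exact mul_left_cancel h2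
  · intro a ha x hx
    rw [mem_cjg]
    have h1 := comm_conj.mp ha
    have h2 := hn _ h1 _ (mem_cjg.mp hx)
    have e : g⁻¹ * (a * x * a⁻¹) * g = g⁻¹ * a * g * (g⁻¹ * x * g) * (g⁻¹ * a * g)⁻¹ := by group
    rw [e]
    exact h2

/-- Two good subgroups commuting with each other's involution. -/
theorem good_pair [Finite S] (h2 : IsPGroup 2 S) (hr : Cfsg.SectionalPRankLE 2 4 S) {P Q : Subgroup S} {z w : S}
    (hP : Good P z) (hQ : Good Q w) (hne : z ≠ w) (h1 : ∀ x ∈ P, x * w = w * x) (h3 : ∀ x ∈ Q, x * z = z * x) :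
    (∀ a ∈ P, ∀ b ∈ Q, a * b = b * a) ∧ P ⊓ Q = ⊥ ∧
      ∀ c, c * z = z * c → c * w = w * c → (∀ r ∈ P, c * r = r * c) → (∀ r ∈ Q, c * r = r * c) → c ∈ P ⊔ Q := by
  let A : Subgroup S := Subgroup.centralizer ({z} : Set S) ⊓ Subgroup.centralizer ({w} : Set S)
  have hA : ∀ a, a ∈ A ↔ a * z = z * a ∧ a * w = w * a := by
    intro a
    show a ∈ Subgroup.centralizer ({z} : Set S) ∧ a ∈ Subgroup.centralizer ({w} : Set S) ↔ _
    rw [Subgroup.mem_centralizer_singleton_iff, Subgroup.mem_centralizer_singleton_iff]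
  obtain ⟨c1, c2, c3⟩ := sect4_core h2 hr A P Q
    (fun x hx => (hA x).2 ⟨hP.zd.comm x hx, h1 x hx⟩) (fun x hx => (hA x).2 ⟨h3 x hx, hQ.zd.comm x hx⟩)
    (fun g hg x hx => hP.nor g ((hA g).1 hg).1 x hx) (fun g hg x hx => hQ.nor g ((hA g).1 hg).2 x hx)
    z w hP.zd hQ.zd hne
  exact ⟨c1, c2, fun c hz hw => c3 c ((hA c).2 ⟨hz, hw⟩)⟩

/-- The structure of `C(z)` inside `T`. -/
structure Step (T P : Subgroup S) (z t : S) : Prop where
  good : Good P z
  le : ∀ a, a * z = z * a → a ∈ T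
  nor : ∀ a ∈ T, ∀ x, x * z = z * x → (a * x * a⁻¹) * z = z * (a * x * a⁻¹)
  two : ∀ a ∈ T, ∀ b ∈ T, a * z ≠ z * a → b * z ≠ z * b → (a * b) * z = z * (a * b)
  tmem : t ∈ T
  tnot : t * z ≠ z * t

theorem Step.conj {T U P : Subgroup S} {z t s : S} (h : Step T P z t)
    (hU : ∀ a ∈ U, ∀ x ∈ T, a * x * a⁻¹ ∈ T) (hs : s ∈ U) :
    Step T (cjg s P) (s * z * s⁻¹) (s * t * s⁻¹) := by
  have hsi : ∀ x ∈ T, s⁻¹ * x * s ∈ T := fun x hx => by
    have := hU s⁻¹ (U.inv_mem hs) x hx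
    rwa [inv_inv] at this
  refine ⟨h.good.conj s, ?_, ?_, ?_, hU s hs t h.tmem, ?_⟩
  · intro a ha
    have h1 := h.le _ (comm_conj.mp ha)
    have h3 := hU s hs _ h1
    have e : s * (s⁻¹ * a * s) * s⁻¹ = a := by group
    rwa [e] at h3
  · intro a ha x hx
    rw [comm_conj]
    have h1 := h.nor _ (hsi a ha) _ (comm_conj.mp hx)
    have e : s⁻¹ * (a * x * a⁻¹) * s = s⁻¹ * a * s * (s⁻¹ * x * s) * (s⁻¹ * a * s)⁻¹ := by group
    rw [e]
    exact h1
  · intro a ha b hb h1 h3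
    rw [comm_conj]
    have h4 := h.two _ (hsi a ha) _ (hsi b hb) (fun h5 => h1 (comm_conj.mpr h5)) (fun h5 => h3 (comm_conj.mpr h5))
    have e : s⁻¹ * (a * b) * s = s⁻¹ * a * s * (s⁻¹ * b * s) := by group
    rw [e]
    exact h4
  · intro h1
    apply h.tnot
    have h3 := comm_conj.mp h1
    have e : s⁻¹ * (s * t * s⁻¹) * s = t := by group
    rwa [e] at h3

section facts

variable {T P : Subgroup S} {z t : S}

theorem Step.inv_not (h : Step T P z t) {a : S} (ha : a * z ≠ z * a) : a⁻¹ * z ≠ z * a⁻¹ := by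
  intro h1
  apply ha
  calc a * z = a * (z * a⁻¹) * a := by group
    _ = a * (a⁻¹ * z) * a := by rw [h1]
    _ = _ := by group

/-- T normalizes C(z), inverse form. -/
theorem Step.nor' (h : Step T P z t) {a x : S} (ha : a ∈ T) (hx : x * z = z * x) :
    (a⁻¹ * x * a) * z = z * (a⁻¹ * x * a) := by
  have := h.nor a⁻¹ (T.inv_mem ha) x hx
  rwa [inv_inv] at this

/-- Conjugates by an element outside C(z). -/
theorem Step.swap_z (h : Step T P z t) {a : S} (ha : a ∈ T) (hn : a * z ≠ z * a) :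
    a * z * a⁻¹ = t * z * t⁻¹ := by
  have h1 := h.two a⁻¹ (T.inv_mem ha) t h.tmem (h.inv_not hn) h.tnot
  have h3 : (a⁻¹ * t) * z * (a⁻¹ * t)⁻¹ = z := by
    rw [h1]; group
  calc a * z * a⁻¹ = a * ((a⁻¹ * t) * z * (a⁻¹ * t)⁻¹) * a⁻¹ := by rw [h3]
    _ = _ := by group

theorem Step.swap_z2 (h : Step T P z t) {a : S} (ha : a ∈ T) (hn : a * z ≠ z * a) :
    a * (t * z * t⁻¹) * a⁻¹ = z := by
  have h1 := h.two a ha t h.tmem hn h.tnot
  have e : a * (t * z * t⁻¹) * a⁻¹ = (a * t) * z * (a * t)⁻¹ := by group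
  rw [e, h1]; group

theorem Step.comm_z2 (h : Step T P z t) {a : S} (ha : a * z = z * a) :
    a * (t * z * t⁻¹) = (t * z * t⁻¹) * a :=
  comm_conj.mpr (h.nor' h.tmem ha)

theorem Step.comm_of_z2 (h : Step T P z t) {a : S} (ha : a * (t * z * t⁻¹) = (t * z * t⁻¹) * a) :
    a * z = z * a := by
  have h1 := comm_conj.mp ha
  have h3 := h.nor t h.tmem _ h1
  have e : t * (t⁻¹ * a * t) * t⁻¹ = a := by group
  rwa [e] at h3

theorem Step.ne_z2 (h : Step T P z t) : z ≠ t * z * t⁻¹ := by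
  intro h1
  apply h.tnot
  have := mul_inv_eq_iff_eq_mul.mp h1.symm
  exact this

theorem Step.le_C (h : Step T P z t) : ∀ x ∈ cjg t P, x * z = z * x := by
  intro x hx
  have h1 := h.nor t h.tmem _ (h.good.zd.comm _ (mem_cjg.mp hx))
  have e : t * (t⁻¹ * x * t) * t⁻¹ = x := by group
  rwa [e] at h1

/-- The pair P, tPt⁻¹. -/
theorem Step.pair [Finite S] (h : Step T P z t) (h2 : IsPGroup 2 S) (hr : Cfsg.SectionalPRankLE 2 4 S) :
    (∀ a ∈ P, ∀ b ∈ cjg t P, a * b = b * a) ∧ P ⊓ cjg t P = ⊥ ∧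
      ∀ c, c * z = z * c → (∀ r ∈ P, c * r = r * c) → (∀ r ∈ cjg t P, c * r = r * c) → c ∈ P ⊔ cjg t P := by
  obtain ⟨c1, c2, c3⟩ := good_pair h2 hr h.good (h.good.conj t) h.ne_z2
    (fun x hx => h.comm_z2 (h.good.zd.comm x hx)) h.le_C
  exact ⟨c1, c2, fun c hc => c3 c hc (h.comm_z2 hc)⟩

/-- Elements of T permute the two conjugates. -/
theorem Step.swap_P (h : Step T P z t) {a x : S} (ha : a ∈ T) (hn : a * z ≠ z * a) (hx : x ∈ P) :
    a * x * a⁻¹ ∈ cjg t P := by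
  rw [mem_cjg]
  have h1 := h.two a⁻¹ (T.inv_mem ha) t h.tmem (h.inv_not hn) h.tnot
  have h3 := h.good.nor _ h1 x hx
  have e : t⁻¹ * (a * x * a⁻¹) * t = (a⁻¹ * t)⁻¹ * x * (a⁻¹ * t)⁻¹⁻¹ := by group
  rw [e]
  have h4 : (a⁻¹ * t)⁻¹ * z = z * (a⁻¹ * t)⁻¹ := by
    calc (a⁻¹ * t)⁻¹ * z = (a⁻¹ * t)⁻¹ * (z * (a⁻¹ * t)) * (a⁻¹ * t)⁻¹ := by group
      _ = (a⁻¹ * t)⁻¹ * ((a⁻¹ * t) * z) * (a⁻¹ * t)⁻¹ := by rw [h1]
      _ = _ := by group
  exact h.good.nor _ h4 x hx

theorem Step.swap_P2 (h : Step T P z t) {a x : S} (ha : a ∈ T) (hn : a * z ≠ z * a) (hx : x ∈ cjg t P) :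
    a * x * a⁻¹ ∈ P := by
  have h1 := h.two a ha t h.tmem hn h.tnot
  have h3 := h.good.nor _ h1 _ (mem_cjg.mp hx)
  have e : (a * t) * (t⁻¹ * x * t) * (a * t)⁻¹ = a * x * a⁻¹ := by group
  rwa [e] at h3

theorem Step.fix_P2 (h : Step T P z t) {a x : S} (ha : a * z = z * a) (hx : x ∈ cjg t P) :
    a * x * a⁻¹ ∈ cjg t P :=
  (h.good.conj t).nor a (h.comm_z2 ha) x hx

/-- T normalizes the join. -/
theorem Step.nor_R (h : Step T P z t) (hcomm : ∀ a ∈ P, ∀ b ∈ cjg t P, a * b = b * a) {a x : S} (ha : a ∈ T)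
    (hx : x ∈ P ⊔ cjg t P) : a * x * a⁻¹ ∈ P ⊔ cjg t P := by
  obtain ⟨p, hp, q, hq, rfl⟩ := Cfsg.Agent.H05.mem_sup_of_commute hcomm hx
  have e : a * (p * q) * a⁻¹ = (a * p * a⁻¹) * (a * q * a⁻¹) := by group
  rw [e]
  by_cases hn : a * z = z * a
  · exact Subgroup.mul_mem _ (Subgroup.mem_sup_left (h.good.nor a hn p hp))
      (Subgroup.mem_sup_right (h.fix_P2 hn hq))
  · exact Subgroup.mul_mem _ (Subgroup.mem_sup_right (h.swap_P ha hn hp))
      (Subgroup.mem_sup_left (h.swap_P2 ha hn hq))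

/-- z·z₂ is central in T. -/
theorem Step.central_prod (h : Step T P z t) (hcomm : ∀ a ∈ P, ∀ b ∈ cjg t P, a * b = b * a) {a : S} (ha : a ∈ T) :
    a * (z * (t * z * t⁻¹)) = (z * (t * z * t⁻¹)) * a := by
  have hzz : z * (t * z * t⁻¹) = (t * z * t⁻¹) * z :=
    hcomm z h.good.zd.mem _ (conj_mem_cjg h.good.zd.mem)
  by_cases hn : a * z = z * a
  · have h1 := h.comm_z2 hn
    calc a * (z * (t * z * t⁻¹)) = (a * z) * (t * z * t⁻¹) := by group
      _ = z * (a * (t * z * t⁻¹)) := by rw [hn]; group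
      _ = z * ((t * z * t⁻¹) * a) := by rw [h1]
      _ = _ := by group
  · have h1 := h.swap_z ha hn
    have h3 := h.swap_z2 ha hn
    have h4 : a * z = (t * z * t⁻¹) * a := mul_inv_eq_iff_eq_mul.mp h1
    have h5 : a * (t * z * t⁻¹) = z * a := mul_inv_eq_iff_eq_mul.mp h3
    calc a * (z * (t * z * t⁻¹)) = (a * z) * (t * z * t⁻¹) := by group
      _ = (t * z * t⁻¹) * (a * (t * z * t⁻¹)) := by rw [h4]; group
      _ = (t * z * t⁻¹) * (z * a) := by rw [h5]
      _ = ((t * z * t⁻¹) * z) * a := by group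
      _ = _ := by rw [hzz]

end facts

/-- A contradiction from two index-two steps. -/
theorem no_four [Finite S] (h2 : IsPGroup 2 S) (hr : Cfsg.SectionalPRankLE 2 4 S) {T U P : Subgroup S} {z t s : S}
    (hS : Step T P z t) (hU : ∀ a ∈ U, ∀ x ∈ T, a * x * a⁻¹ ∈ T) (hsU : s ∈ U) (hsT : s ∉ T)
    (hs2 : s ^ 2 ∈ T) : False := by
  classical
  have hzP := hS.good.zd.mem
  have hz1 := hS.good.zd.ne
  have hz2 := hS.good.zd.sq
  obtain ⟨comm₁, inf₁, cent₁⟩ := hS.pair h2 hr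
  have hS' := hS.conj hU hsU
  obtain ⟨comm₂, inf₂, cent₂⟩ := hS'.pair h2 hr
  set z₂ := t * z * t⁻¹ with hz₂
  set z₃ := s * z * s⁻¹ with hz₃
  set t₃ := s * t * s⁻¹ with ht₃
  set P₂ := cjg t P with hP₂
  set P₃ := cjg s P with hP₃
  set P₄ := cjg t₃ P₃ with hP₄
  set R := P ⊔ P₂ with hR
  set R' := P₃ ⊔ P₄ with hR'
  have hPT : ∀ x ∈ P, x ∈ T := fun x hx => hS.le x (hS.good.zd.comm x hx)
  have hP₂T : ∀ x ∈ P₂, x ∈ T := fun x hx => hS.le x (hS.le_C x hx)
  have hP₃T : ∀ x ∈ P₃, x ∈ T := fun x hx => hS'.le x (hS'.good.zd.comm x hx)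
  have hP₂good := hS.good.conj t
  have hP₃good := hS'.good
  have hz₃P₃ : z₃ ∈ P₃ := hP₃good.zd.mem
  have hz₃T : z₃ ∈ T := hP₃T _ hz₃P₃
  -- R' centralizes z₃
  have hR'C : ∀ y ∈ R', y * z₃ = z₃ * y := by
    intro y hy
    obtain ⟨p, hp, q, hq, rfl⟩ := Cfsg.Agent.H05.mem_sup_of_commute comm₂ hy
    have h1 := hP₃good.zd.comm p hp
    have h3 := (comm₂ z₃ hz₃P₃ q hq).symm
    calc p * q * z₃ = p * (q * z₃) := by group
      _ = p * (z₃ * q) := by rw [h3]
      _ = (p * z₃) * q := by group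
      _ = z₃ * p * q := by rw [h1]
      _ = _ := by group
  have hR'n : ∀ a ∈ T, ∀ x ∈ R', a * x * a⁻¹ ∈ R' := fun a ha x hx => hS'.nor_R comm₂ ha hx
  have hneq13 : z₃ ≠ z := by
    intro h
    apply hsT
    apply hS.le
    exact mul_inv_eq_iff_eq_mul.mp h
  have hneq23 : z₃ ≠ z₂ := by
    intro h
    apply hsT
    have h3 : (t⁻¹ * s) * z * (t⁻¹ * s)⁻¹ = z := by
      have e : (t⁻¹ * s) * z * (t⁻¹ * s)⁻¹ = t⁻¹ * (s * z * s⁻¹) * t := by group
      rw [e, show s * z * s⁻¹ = t * z * t⁻¹ from h]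
      group
    have h4 := hS.le _ (mul_inv_eq_iff_eq_mul.mp h3)
    have h5 := T.mul_mem hS.tmem h4
    rwa [mul_inv_cancel_left] at h5
  have hneq123 : z₃ ≠ z * z₂ := by
    intro h
    have h1 := hS.central_prod comm₁ hS'.tmem
    rw [← h] at h1
    exact hS'.tnot h1
  have hneq1 : z₃ ≠ 1 := hP₃good.zd.ne
  -- Claim 1
  have hclaim1 : z₃ * z = z * z₃ := by
    by_contra hne
    have hsq3 : z₃ ^ 2 = 1 := hP₃good.zd.sq
    have hexp : ∀ a ∈ P, a ^ 2 = 1 := by
      intro a ha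
      set a' := z₃ * a * z₃⁻¹ with ha'
      have ha'P : a' ∈ P₂ := hS.swap_P hz₃T hne ha
      have hy : a * z₃ * a⁻¹ * z₃⁻¹ ∈ R' :=
        R'.mul_mem (hR'n a (hPT a ha) z₃ (Subgroup.mem_sup_left hz₃P₃))
          (R'.inv_mem (Subgroup.mem_sup_left hz₃P₃))
      have hyc := hR'C _ hy
      have hinv : z₃⁻¹ = z₃ := by
        rw [inv_eq_iff_mul_eq_one, ← sq, hsq3]
      have hcom : a * a' = a' * a := comm₁ a ha a' ha'P
      have he1 : a * z₃ * a⁻¹ * z₃⁻¹ = a * a'⁻¹ := by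
        rw [ha']; group
      rw [he1] at hyc
      have he2 : z₃ * (a * a'⁻¹) * z₃⁻¹ = a' * a⁻¹ := by
        have e : z₃ * (a * a'⁻¹) * z₃⁻¹ = (z₃ * a * z₃⁻¹) * (z₃ * a'⁻¹ * z₃⁻¹) := by group
        have e2 : z₃ * a'⁻¹ * z₃⁻¹ = a⁻¹ := by
          rw [ha']
          have e3 : z₃ * (z₃ * a * z₃⁻¹)⁻¹ * z₃⁻¹ = (z₃ * z₃) * a⁻¹ * (z₃ * z₃)⁻¹ := by group
          rw [e3, ← sq, hsq3]
          group
        rw [e, e2]
      have he3 : a * a'⁻¹ = a' * a⁻¹ := by
        rw [← he2, ← hyc, mul_inv_cancel_right]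
      have he4 : a ^ 2 = a' ^ 2 := by
        have hcomi : a⁻¹ * a' = a' * a⁻¹ := by
          have : Commute a a' := hcom
          exact (this.inv_left).eq
        have : a * a = a' * a' := by
          calc a * a = (a * a'⁻¹) * (a' * a) := by group
            _ = (a' * a⁻¹) * (a' * a) := by rw [he3]
            _ = a' * (a⁻¹ * a') * a := by group
            _ = a' * (a' * a⁻¹) * a := by rw [hcomi]
            _ = _ := by group
        rw [sq, sq, this]
      have h5 : a ^ 2 ∈ P ⊓ P₂ := ⟨P.pow_mem ha 2, by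
        rw [he4]; exact Subgroup.pow_mem _ ha'P 2⟩
      rw [inf₁, Subgroup.mem_bot] at h5
      exact h5
    obtain ⟨a, ha, b, hb, hab⟩ := hS.good.zd.noncomm
    apply hab
    have hsq : ∀ g : P, g ^ 2 = 1 := fun g => Subtype.ext (by
      have := hexp g g.2
      simpa using this)
    have := Cfsg.Agent.H18.comm_of_sq_eq_one hsq ⟨a, ha⟩ ⟨b, hb⟩
    exact congrArg Subtype.val this
  have hz₃z₂ : z₃ * z₂ = z₂ * z₃ := hS.comm_z2 hclaim1
  -- Claim 2
  have hclaim2 : z ∈ R' := by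
    by_contra hnot
    have hPR : ∀ y ∈ P, y ∈ R' → y = 1 := by
      intro y hyP hyR
      by_contra hy1
      exact hnot (zdata_mem_of_ne_bot h2 hS.good.zd R' (fun g hg x hx => hR'n g (hPT g hg) x hx) y hyR hyP hy1)
    have hP₂R : ∀ y ∈ P₂, y ∈ R' → y = 1 := by
      intro y hyP hyR
      by_contra hy1
      have h1 := zdata_mem_of_ne_bot h2 hP₂good.zd R' (fun g hg x hx => hR'n g (hP₂T g hg) x hx) y hyR hyP hy1
      have h3 := hR'n t⁻¹ (T.inv_mem hS.tmem) _ h1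
      have e : t⁻¹ * (t * z * t⁻¹) * t⁻¹⁻¹ = z := by group
      rw [e] at h3
      exact hnot h3
    have hcP : ∀ r ∈ P, z₃ * r = r * z₃ := by
      intro r hr'
      have h1 : r * z₃ * r⁻¹ * z₃⁻¹ = 1 := by
        apply hPR
        · have e : r * z₃ * r⁻¹ * z₃⁻¹ = r * (z₃ * r⁻¹ * z₃⁻¹) := by group
          rw [e]
          exact P.mul_mem hr' (hS.good.nor z₃ hclaim1 _ (P.inv_mem hr'))
        · exact R'.mul_mem (hR'n r (hPT r hr') z₃ (Subgroup.mem_sup_left hz₃P₃))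
            (R'.inv_mem (Subgroup.mem_sup_left hz₃P₃))
      have h3 : r * z₃ * r⁻¹ = z₃ := mul_inv_eq_one.mp h1
      exact (mul_inv_eq_iff_eq_mul.mp h3).symm
    have hcP₂ : ∀ r ∈ P₂, z₃ * r = r * z₃ := by
      intro r hr'
      have h1 : r * z₃ * r⁻¹ * z₃⁻¹ = 1 := by
        apply hP₂R
        · have e : r * z₃ * r⁻¹ * z₃⁻¹ = r * (z₃ * r⁻¹ * z₃⁻¹) := by group
          rw [e]
          exact Subgroup.mul_mem _ hr' (hS.fix_P2 hclaim1 (Subgroup.inv_mem _ hr'))
        · exact R'.mul_mem (hR'n r (hP₂T r hr') z₃ (Subgroup.mem_sup_left hz₃P₃))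
            (R'.inv_mem (Subgroup.mem_sup_left hz₃P₃))
      have h3 : r * z₃ * r⁻¹ = z₃ := mul_inv_eq_one.mp h1
      exact (mul_inv_eq_iff_eq_mul.mp h3).symm
    have hmem := cent₁ z₃ hclaim1 hcP hcP₂
    obtain ⟨p, hp, q, hq, hpq⟩ := Cfsg.Agent.H05.mem_sup_of_commute comm₁ hmem
    have hpc : ∀ r ∈ P, p * r = r * p := by
      intro r hr'
      have h1 := hcP r hr'
      rw [hpq] at h1
      have h3 : q * r = r * q := (comm₁ r hr' q hq).symm
      have h5 : p * r * q = r * p * q := by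
        calc p * r * q = p * (r * q) := by group
          _ = p * (q * r) := by rw [h3]
          _ = p * q * r := by group
          _ = r * (p * q) := h1
          _ = _ := by group
      exact mul_right_cancel h5
    have hqc : ∀ r ∈ P₂, q * r = r * q := by
      intro r hr'
      have h1 := hcP₂ r hr'
      rw [hpq] at h1
      have h3 : p * r = r * p := comm₁ p hp r hr'
      have h5 : p * (q * r) = p * (r * q) := by
        calc p * (q * r) = p * q * r := by group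
          _ = r * (p * q) := h1
          _ = (r * p) * q := by group
          _ = (p * r) * q := by rw [h3]
          _ = _ := by group
      exact mul_left_cancel h5
    rcases hS.good.zd.cen p hp hpc with rfl | rfl <;> rcases hP₂good.zd.cen q hq hqc with rfl | rfl
    · apply hneq1; rw [hpq, mul_one]
    · apply hneq23; rw [hpq, one_mul]
    · apply hneq13; rw [hpq, mul_one]
    · exact hneq123 hpq
  -- Claim 3
  have hclaim3 : ∀ b ∈ P₃, b * z = z * b := by
    intro b hb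
    by_contra hn
    have hbT := hP₃T b hb
    have h1 := hS.swap_z hbT hn
    obtain ⟨u₃, hu₃, u₄, hu₄, hu⟩ := Cfsg.Agent.H05.mem_sup_of_commute comm₂ hclaim2
    have hbu : b * u₄ = u₄ * b := comm₂ b hb u₄ hu₄
    have hconj : b * z * b⁻¹ = (b * u₃ * b⁻¹) * u₄ := by
      rw [hu]
      calc b * (u₃ * u₄) * b⁻¹ = b * u₃ * (u₄ * b⁻¹) := by group
        _ = b * u₃ * (b⁻¹ * u₄) := by
          have : u₄ * b⁻¹ = b⁻¹ * u₄ := by
            have := comm₂ b⁻¹ (Subgroup.inv_mem _ hb) u₄ hu₄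
            exact this.symm
          rw [this]
        _ = _ := by group
    have he : z * z₂ ∈ P₃ := by
      have hz₂e : z₂ = (b * u₃ * b⁻¹) * u₄ := by rw [← hconj, h1]
      have hzinv : z⁻¹ = z := by
        rw [inv_eq_iff_mul_eq_one, ← sq, hz2]
      have hzz : z * z₂ = z₂ * z := comm₁ z hzP z₂ (conj_mem_cjg hzP)
      have e : z * z₂ = (b * u₃ * b⁻¹) * u₃⁻¹ := by
        rw [hzz]
        calc z₂ * z = z₂ * z⁻¹ := by rw [hzinv]
          _ = ((b * u₃ * b⁻¹) * u₄) * (u₃ * u₄)⁻¹ := by rw [← hz₂e, ← hu]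
          _ = _ := by group
      rw [e]
      exact Subgroup.mul_mem _ (Subgroup.mul_mem _ (Subgroup.mul_mem _ hb hu₃) (Subgroup.inv_mem _ hb))
        (Subgroup.inv_mem _ hu₃)
    have hcen := hP₃good.zd.cen _ he (by
      intro a ha
      exact (hS.central_prod comm₁ (hP₃T a ha)).symm)
    rcases hcen with h5 | h5
    · have : z₂ = z := by
        have hzinv : z⁻¹ = z := by
          rw [inv_eq_iff_mul_eq_one, ← sq, hz2]
        have h6 : z₂ = z⁻¹ := eq_inv_of_mul_eq_one_right h5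
        rw [h6, hzinv]
      exact hS.ne_z2 this.symm
    · exact hneq123 h5.symm
  -- P commutes with z₃
  have hPz₃ : ∀ x ∈ P, x * z₃ = z₃ * x := by
    intro x hx
    rw [hz₃, comm_conj]
    have h1 := hclaim3 _ (conj_mem_cjg (g := s) hx)
    have h3 := hS.nor' (a := s ^ 2) hs2 h1
    have e : (s ^ 2)⁻¹ * (s * x * s⁻¹) * s ^ 2 = s⁻¹ * x * s := by
      simp only [sq]; group
    rwa [e] at h3
  have hP₂z₃ : ∀ x ∈ P₂, x * z₃ = z₃ * x := by
    intro x hx
    have h1 := hPz₃ _ (mem_cjg.mp hx)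
    have h3 := hS'.nor t hS.tmem _ h1
    have e : t * (t⁻¹ * x * t) * t⁻¹ = x := by group
    rwa [e] at h3
  obtain ⟨c13, -, -⟩ := good_pair h2 hr hS.good hP₃good hneq13.symm hPz₃ hclaim3
  obtain ⟨c23, -, -⟩ := good_pair h2 hr hP₂good hP₃good hneq23.symm hP₂z₃
    (fun x hx => hS.comm_z2 (hclaim3 x hx))
  have hP₃R : ∀ c ∈ P₃, c ∈ R := by
    intro c hc
    exact cent₁ c (hclaim3 c hc) (fun r hr' => (c13 r hr' c hc).symm) (fun r hr' => (c23 r hr' c hc).symm)
  obtain ⟨a, ha, b, hb, hab⟩ := hP₃good.zd.noncomm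
  apply hab
  obtain ⟨p, hp, q, hq, rfl⟩ := Cfsg.Agent.H05.mem_sup_of_commute comm₁ (hP₃R a ha)
  have h1 := c13 p hp b hb
  have h3 := c23 q hq b hb
  calc p * q * b = p * (b * q) := by rw [mul_assoc, h3]
    _ = (p * b) * q := by group
    _ = b * p * q := by rw [h1]
    _ = _ := by group

theorem card_sup_of_comm [Finite S] {A B : Subgroup S} (hc : ∀ a ∈ A, ∀ b ∈ B, a * b = b * a) (hd : A ⊓ B = ⊥) :
    Nat.card (A ⊔ B : Subgroup S) = Nat.card A * Nat.card B := by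
  rw [← Nat.card_prod]
  symm
  let f : A × B → (A ⊔ B : Subgroup S) := fun u =>
    ⟨(u.1 : S) * u.2, Subgroup.mul_mem _ (Subgroup.mem_sup_left u.1.2) (Subgroup.mem_sup_right u.2.2)⟩
  apply Nat.card_congr (Equiv.ofBijective f ⟨?_, ?_⟩)
  · rintro ⟨⟨a, ha⟩, ⟨b, hb⟩⟩ ⟨⟨a', ha'⟩, ⟨b', hb'⟩⟩ h
    have h1 : a * b = a' * b' := congrArg Subtype.val h
    have h3 : a'⁻¹ * a ∈ A ⊓ B := by
      refine ⟨A.mul_mem (A.inv_mem ha') ha, ?_⟩
      have e : a'⁻¹ * a = b' * b⁻¹ := by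
        rw [inv_mul_eq_iff_eq_mul, ← mul_assoc, ← h1]; group
      rw [e]
      exact B.mul_mem hb' (B.inv_mem hb)
    rw [hd, Subgroup.mem_bot] at h3
    have h4 : a = a' := by
      rw [inv_mul_eq_one] at h3
      exact h3.symm
    subst h4
    have h5 : b = b' := mul_left_cancel h1
    subst h5
    rfl
  · rintro ⟨d, hd'⟩
    obtain ⟨p, hp, q, hq, rfl⟩ := Cfsg.Agent.H05.mem_sup_of_commute hc hd'
    exact ⟨(⟨p, hp⟩, ⟨q, hq⟩), rfl⟩

theorem prod_section [Finite S] (hr : Cfsg.SectionalPRankLE 2 4 S) (H₁ H₂ N₁ N₂ : Subgroup S)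
    (hc : ∀ a ∈ H₁, ∀ b ∈ H₂, a * b = b * a) (hd : H₁ ⊓ H₂ = ⊥) (hN₁ : N₁ ≤ H₁) (hN₂ : N₂ ≤ H₂)
    (hn₁ : ∀ a ∈ H₁, ∀ x ∈ N₁, a * x * a⁻¹ ∈ N₁) (hn₂ : ∀ a ∈ H₂, ∀ x ∈ N₂, a * x * a⁻¹ ∈ N₂)
    (hs₁ : ∀ a ∈ H₁, a ^ 2 ∈ N₁) (hs₂ : ∀ a ∈ H₂, a ^ 2 ∈ N₂) :
    Nat.card H₁ * Nat.card H₂ ≤ 16 * (Nat.card N₁ * Nat.card N₂) := by
  classical
  let W : Subgroup S := H₁ ⊔ H₂
  let N : Subgroup S := N₁ ⊔ N₂
  have hNc : ∀ a ∈ N₁, ∀ b ∈ N₂, a * b = b * a := fun a ha b hb => hc a (hN₁ ha) b (hN₂ hb)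
  have hNW : N ≤ W := sup_le_sup hN₁ hN₂
  have hNcard : Nat.card N ≤ Nat.card N₁ * Nat.card N₂ := by
    apply card_sup_le'
    intro p hp
    exact mem_norm_of_comm (hNc p hp)
  have hWcard : Nat.card W = Nat.card H₁ * Nat.card H₂ := card_sup_of_comm hc hd
  have hWf : ∀ g ∈ W, ∃ a ∈ H₁, ∃ b ∈ H₂, g = a * b := fun g hg =>
    Cfsg.Agent.H05.mem_sup_of_commute hc hg
  have hNf : ∀ g ∈ N, ∃ a ∈ N₁, ∃ b ∈ N₂, g = a * b := fun g hg =>
    Cfsg.Agent.H05.mem_sup_of_commute hNc hg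
  haveI hN₀ : (N.subgroupOf W).Normal := by
    refine ⟨fun n hn g => ?_⟩
    rw [Subgroup.mem_subgroupOf] at hn ⊢
    obtain ⟨a, ha, b, hb, hg⟩ := hWf g g.2
    obtain ⟨x, hx, y, hy, hn'⟩ := hNf n hn
    show (g : S) * n * (g : S)⁻¹ ∈ N
    rw [hg, hn']
    have e1 : b * x = x * b := (hc x (hN₁ hx) b hb).symm
    have e2 : a * y = y * a := hc a ha y (hN₂ hy)
    have e : a * b * (x * y) * (a * b)⁻¹ = (a * x * a⁻¹) * (b * y * b⁻¹) := by
      have e3 : a * b * (x * y) * (a * b)⁻¹ = a * (b * x) * y * b⁻¹ * a⁻¹ := by group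
      rw [e3, e1]
      have e4 : a * (x * b) * y * b⁻¹ * a⁻¹ = a * x * (b * y * b⁻¹) * a⁻¹ := by group
      rw [e4]
      have hyb : b * y * b⁻¹ ∈ N₂ := hn₂ b hb y hy
      have e5 : (b * y * b⁻¹) * a⁻¹ = a⁻¹ * (b * y * b⁻¹) := by
        have := hc a⁻¹ (H₁.inv_mem ha) _ (hN₂ hyb)
        exact this.symm
      calc a * x * (b * y * b⁻¹) * a⁻¹ = a * x * ((b * y * b⁻¹) * a⁻¹) := by group
        _ = a * x * (a⁻¹ * (b * y * b⁻¹)) := by rw [e5]
        _ = _ := by group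
    rw [e]
    exact N.mul_mem (Subgroup.mem_sup_left (hn₁ a ha x hx)) (Subgroup.mem_sup_right (hn₂ b hb y hy))
  have hidx := section_index_le hr W (N.subgroupOf W) (by
    intro g
    rw [Subgroup.mem_subgroupOf]
    obtain ⟨a, ha, b, hb, hg⟩ := hWf g g.2
    have hgg : ((g ^ 2 : W) : S) = (g : S) ^ 2 := rfl
    rw [hgg, hg]
    have hab : Commute a b := hc a ha b hb
    rw [hab.mul_pow]
    exact N.mul_mem (Subgroup.mem_sup_left (hs₁ a ha)) (Subgroup.mem_sup_right (hs₂ b hb)))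
  have hc3 := Subgroup.card_mul_index (N.subgroupOf W)
  have hc4 : Nat.card (N.subgroupOf W) = Nat.card N :=
    Nat.card_congr (Subgroup.subgroupOfEquivOfLe hNW).toEquiv
  rw [hc4] at hc3
  rw [← hWcard, ← hc3]
  calc Nat.card N * (N.subgroupOf W).index ≤ Nat.card N * 16 := Nat.mul_le_mul_left _ (by simpa using hidx)
    _ = 16 * Nat.card N := by ring
    _ ≤ _ := Nat.mul_le_mul_left _ hNcard

theorem index_two_facts [Finite S] (H K : Subgroup S) (hle : H ≤ K) (hc : Nat.card K = 2 * Nat.card H) :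
    (∀ a ∈ K, ∀ x ∈ H, a * x * a⁻¹ ∈ H) ∧ (∀ a ∈ K, ∀ b ∈ K, a ∉ H → b ∉ H → a * b ∈ H) := by
  have hi : (H.subgroupOf K).index = 2 := by
    have h1 := Subgroup.card_mul_index (H.subgroupOf K)
    have h3 : Nat.card (H.subgroupOf K) = Nat.card H :=
      Nat.card_congr (Subgroup.subgroupOfEquivOfLe hle).toEquiv
    rw [h3, hc, mul_comm 2] at h1
    exact Nat.eq_of_mul_eq_mul_left Nat.card_pos h1
  constructor
  · intro a ha x hx
    have hn := Subgroup.normal_of_index_eq_two hi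
    have h1 : (⟨x, hle hx⟩ : K) ∈ H.subgroupOf K := by
      rw [Subgroup.mem_subgroupOf]; exact hx
    have h3 := hn.conj_mem _ h1 ⟨a, ha⟩
    rw [Subgroup.mem_subgroupOf] at h3
    exact h3
  · intro a ha b hb hna hnb
    have h1 := Subgroup.mul_mem_iff_of_index_two hi (a := ⟨a, ha⟩) (b := ⟨b, hb⟩)
    have h3 : (⟨a, ha⟩ : K) ∉ H.subgroupOf K := by
      rw [Subgroup.mem_subgroupOf]; exact hna
    have h4 : (⟨b, hb⟩ : K) ∉ H.subgroupOf K := by
      rw [Subgroup.mem_subgroupOf]; exact hnb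
    have h5 : (⟨a, ha⟩ * ⟨b, hb⟩ : K) ∈ H.subgroupOf K := by
      rw [h1]; simp [h3, h4]
    rw [Subgroup.mem_subgroupOf] at h5
    exact h5

/-- Let S be a finite 2-group of sectional 2-rank at most 4 and P a proper non-abelian subgroup whose centre has order 2. Let S₀ be the centralizer in S of Z(P) and suppose P is normal in S₀. Then either S₀ = S, or P has sectional 2-rank at most 2 and S₀ has index 2 in S. -/
theorem result {S : Type*} [Group S] [Finite S] (h2 : IsPGroup 2 S) (hr : Cfsg.SectionalPRankLE 2 4 S)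
    (P : Subgroup S) (hPlt : P ≠ ⊤) (hP : ¬ IsMulCommutative ↥P) (hZP : Nat.card ↥(Subgroup.center ↥P) = 2)
    (S₀ : Subgroup S) (hS₀ : S₀ = Subgroup.centralizer (((Subgroup.center ↥P).map P.subtype : Subgroup S) : Set S))
    (hPn : ∀ s ∈ S₀, ∀ x ∈ P, s * x * s⁻¹ ∈ P) :
    S₀ = ⊤ ∨ (Cfsg.SectionalPRankLE 2 2 ↥P ∧ S₀.index = 2) := by
  classical
  haveI : Fact (Nat.Prime 2) := ⟨Nat.prime_two⟩
  obtain ⟨z, hz, hzm⟩ := exists_zdata P hP hZP
  have hS₀mem : ∀ a, a ∈ S₀ ↔ a * z = z * a := by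
    intro a
    rw [hS₀, hzm, Subgroup.mem_centralizer_iff]
    constructor
    · intro h
      exact (h z (Subgroup.mem_zpowers z)).symm
    · rintro h _ ⟨i, rfl⟩
      exact ((Commute.zpow_right h i).symm).eq
  have hgood : Good P z := ⟨hz, fun a ha x hx => hPn a ((hS₀mem a).2 ha) x hx⟩
  by_cases htop : S₀ = ⊤
  · exact Or.inl htop
  right
  obtain ⟨n, hn⟩ := IsPGroup.iff_card.mp h2
  obtain ⟨m, hm⟩ := IsPGroup.iff_card.mp (h2.to_subgroup S₀)
  have hmn : m < n := by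
    by_contra hle
    push Not at hle
    apply htop
    apply Subgroup.eq_top_of_card_eq
    have h5 := Subgroup.card_le_card_group S₀
    rw [hm, hn] at h5
    have h6 : m = n := le_antisymm ((Nat.pow_le_pow_iff_right (by norm_num)).mp h5) hle
    rw [hm, h6, hn]
  obtain ⟨T, hT, hST⟩ := Sylow.exists_subgroup_card_pow_prime_le 2 (m := m + 1)
    (by rw [hn]; exact pow_dvd_pow _ hmn) S₀ hm (Nat.le_succ m)
  have hTc : Nat.card T = 2 * Nat.card S₀ := by rw [hT, hm, pow_succ]; ring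
  obtain ⟨hT1, hT2⟩ := index_two_facts S₀ T hST hTc
  obtain ⟨t, htT, htS⟩ : ∃ t ∈ T, t ∉ S₀ := by
    by_contra hcon
    push Not at hcon
    have h1 : T = S₀ := le_antisymm (fun t ht => hcon t ht) hST
    rw [h1] at hTc
    have : 0 < Nat.card S₀ := Nat.card_pos
    omega
  have hStep : Step T P z t := by
    refine ⟨hgood, fun a ha => hST ((hS₀mem a).2 ha), ?_, ?_, htT, fun h => htS ((hS₀mem t).2 h)⟩
    · intro a ha x hx
      exact (hS₀mem _).1 (hT1 a ha x ((hS₀mem x).2 hx))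
    · intro a ha b hb h1 h3
      exact (hS₀mem _).1 (hT2 a ha b hb (fun h => h1 ((hS₀mem a).1 h)) (fun h => h3 ((hS₀mem b).1 h)))
  obtain ⟨comm₁, inf₁, -⟩ := hStep.pair h2 hr
  constructor
  · -- sectional rank
    intro H N hNn A hA hexp
    let π : H →* H ⧸ N := QuotientGroup.mk' N
    have hπ : Function.Surjective π := QuotientGroup.mk'_surjective N
    let M : Subgroup H := A.comap π
    have hNM : N ≤ M := by
      intro x hx
      show π x ∈ A
      have : π x = 1 := (QuotientGroup.eq_one_iff x).2 hx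
      rw [this]
      exact A.one_mem
    have hMc : Nat.card M = Nat.card A * Nat.card N := by
      have h1 : M.index = A.index := Subgroup.index_comap_of_surjective A hπ
      have h3 := Subgroup.card_mul_index M
      have h4 := Subgroup.card_mul_index N
      have h5 := Subgroup.card_mul_index A
      have h6 : Nat.card (H ⧸ N) = N.index := rfl
      rw [h6] at h5
      have hpos : 0 < A.index := Nat.pos_of_ne_zero A.index_ne_zero_of_finite
      apply Nat.eq_of_mul_eq_mul_right hpos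
      rw [← h1, h3, h1, ← h4, ← h5]
      ring
    let emb : H →* S := P.subtype.comp H.subtype
    have hemb : Function.Injective emb := P.subtype_injective.comp H.subtype_injective
    let H₁ : Subgroup S := M.map emb
    let N₁ : Subgroup S := N.map emb
    have hH₁c : Nat.card H₁ = Nat.card M := Subgroup.card_map_of_injective hemb
    have hN₁c : Nat.card N₁ = Nat.card N := Subgroup.card_map_of_injective hemb
    have hH₁P : H₁ ≤ P := by
      rintro _ ⟨x, -, rfl⟩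
      exact (x : P).2
    have h1 := prod_section hr H₁ (cjg t H₁) N₁ (cjg t N₁)
      (fun a ha b hb => comm₁ a (hH₁P ha) b (by
        rw [mem_cjg] at hb ⊢
        exact hH₁P hb))
      (by
        rw [eq_bot_iff, ← inf₁]
        rintro x ⟨hx1, hx2⟩
        refine ⟨hH₁P hx1, mem_cjg.mpr ?_⟩
        exact hH₁P (mem_cjg.mp hx2))
      (Subgroup.map_mono hNM)
      (fun x hx => by
        rw [mem_cjg] at hx ⊢
        exact Subgroup.map_mono hNM hx)
      (by
        rintro _ ⟨a, ha, rfl⟩ _ ⟨x, hx, rfl⟩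
        refine ⟨a * x * a⁻¹, ‹N.Normal›.conj_mem x hx a, ?_⟩
        simp only [map_mul, map_inv])
      (by
        intro a ha x hx
        rw [mem_cjg] at ha hx ⊢
        obtain ⟨a', ha', hae⟩ := ha
        obtain ⟨x', hx', hxe⟩ := hx
        refine ⟨a' * x' * a'⁻¹, ‹N.Normal›.conj_mem x' hx' a', ?_⟩
        simp only [map_mul, map_inv]
        rw [hae, hxe]
        group)
      (by
        rintro _ ⟨a, ha, rfl⟩
        have h3 : π a ∈ A := ha
        have h4 := hexp _ h3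
        have h5 : a ^ 2 ∈ N := by
          rw [← QuotientGroup.eq_one_iff]
          exact h4
        exact ⟨a ^ 2, h5, by simp⟩)
      (by
        intro a ha
        rw [mem_cjg] at ha ⊢
        obtain ⟨a', ha', hae⟩ := ha
        have h3 : π a' ∈ A := ha'
        have h4 := hexp _ h3
        have h5 : a' ^ 2 ∈ N := by
          rw [← QuotientGroup.eq_one_iff]
          exact h4
        refine ⟨a' ^ 2, h5, ?_⟩
        rw [map_pow, hae]
        simp only [sq]; group)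
    rw [card_cjg, card_cjg, hH₁c, hN₁c, hMc] at h1
    have hNpos : 0 < Nat.card N := Nat.card_pos
    have h7 : Nat.card A * Nat.card A ≤ 16 := by
      have h8 : (Nat.card A * Nat.card A) * (Nat.card N * Nat.card N) ≤ 16 * (Nat.card N * Nat.card N) := by
        calc (Nat.card A * Nat.card A) * (Nat.card N * Nat.card N)
            = Nat.card A * Nat.card N * (Nat.card A * Nat.card N) := by ring
          _ ≤ _ := h1
      exact Nat.le_of_mul_le_mul_right h8 (Nat.mul_pos hNpos hNpos)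
    have h9 : Nat.card A ≤ 4 := by
      by_contra hc
      push Not at hc
      have : 5 * 5 ≤ Nat.card A * Nat.card A := Nat.mul_le_mul hc hc
      omega
    simpa using h9
  · -- index two
    by_contra hne
    have hidx := Subgroup.card_mul_index S₀
    rw [hm, hn] at hidx
    have hmn2 : m + 2 ≤ n := by
      by_contra hc
      have hn' : n = m + 1 := by omega
      apply hne
      rw [hn', pow_succ] at hidx
      exact Nat.eq_of_mul_eq_mul_left (by positivity) hidx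
    obtain ⟨U, hU, hTU⟩ := Sylow.exists_subgroup_card_pow_prime_le 2 (m := m + 2)
      (by rw [hn]; exact pow_dvd_pow _ hmn2) T hT (Nat.le_succ _)
    have hUc : Nat.card U = 2 * Nat.card T := by rw [hU, hT, pow_succ]; ring
    obtain ⟨hU1, hU2⟩ := index_two_facts T U hTU hUc
    obtain ⟨s, hsU, hsT⟩ : ∃ s ∈ U, s ∉ T := by
      by_contra hcon
      push Not at hcon
      have h1 : U = T := le_antisymm (fun t ht => hcon t ht) hTU
      rw [h1] at hUc
      have : 0 < Nat.card T := Nat.card_pos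
      omega
    have hs2 : s ^ 2 ∈ T := by
      rw [sq]
      exact hU2 s hsU s hsU hsT hsT
    exact no_four h2 hr hStep hU1 hsU hsT hs2

end Cfsg.Agent.S4401
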