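import Cfsg.Statements.S4403
import Cfsg.Agent.Lib.H13.StrongP2
import Cfsg.Agent.Lib.H13.Isolated
import Cfsg.Agent.Lib.H19.CyclicSylow
import Cfsg.Agent.Lib.H20.Basic

set_option autoImplicit false
set_option linter.unusedVariables false
set_option linter.style.haveILetI false
set_option linter.unusedSectionVars false
open Cfsg

namespace Cfsg.Agent.S4403

variable {K : Type*} [Group K] [Finite K] {p : ℕ} [Fact p.Prime]

theorem sylow_abel (P : Subgroup K) (hP : IsCyclic P) : ∀ a ∈ P, ∀ b ∈ P, a * b = b * a := by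
  intro a ha b hb
  have := (IsCyclic.isMulCommutative (α := P)).is_comm.comm ⟨a, ha⟩ ⟨b, hb⟩
  exact congrArg Subtype.val this

/-- In a cyclic subgroup elements of equal order generate the same subgroup. -/
theorem mem_of_order (P : Subgroup K) (hP : IsCyclic P) {u v : K} (hu : u ∈ P) (hv : v ∈ P)
    (h : orderOf u = orderOf v) : u ∈ Subgroup.zpowers v := by
  have h1 : orderOf (⟨u, hu⟩ : P) = orderOf (⟨v, hv⟩ : P) := by
    rw [Subgroup.orderOf_mk, Subgroup.orderOf_mk, h]
  obtain ⟨i, hi⟩ := Cfsg.Agent.H13.mem_zpowers_of_orderOf_eq h1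
  refine ⟨i, ?_⟩
  have := congrArg Subtype.val hi
  simpa using this

theorem caseI (hO : pPrimeCore p K = ⊥) (P : Sylow p K) (hP : IsCyclic (P : Subgroup K))
    (hne : pCore p K ≠ ⊥) :
    (P : Subgroup K).Normal ∧ Subgroup.centralizer ((P : Subgroup K) : Set K) = (P : Subgroup K) ∧
      (∀ (_ : (P : Subgroup K).Normal), IsCyclic (K ⧸ (P : Subgroup K))) ∧
      (P : Subgroup K).index ∣ p - 1 := by
  classical
  have hpp : p.Prime := Fact.out
  haveI hQn : (pCore p K).Normal := Cfsg.Agent.H01.pCore_normal p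
  have hQp : IsPGroup p (pCore p K) := Cfsg.Agent.H01.pCore_isPGroup p
  have hQP : pCore p K ≤ (P : Subgroup K) := Cfsg.Agent.H01.pCore_le_sylow p P
  have hdvd : p ∣ Nat.card (pCore p K) := by
    rcases hQp.card_eq_or_dvd with h | h
    · exact absurd (Subgroup.card_eq_one.mp h) hne
    · exact h
  obtain ⟨z₀, hz₀⟩ := exists_prime_orderOf_dvd_card' p hdvd
  set z : K := (z₀ : K) with hzdef
  have hzo : orderOf z = p := by rw [hzdef, Subgroup.orderOf_coe, hz₀]
  have hzQ : z ∈ pCore p K := z₀.2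
  have hzP : z ∈ (P : Subgroup K) := hQP hzQ
  have habel := sylow_abel (P : Subgroup K) hP
  have hz1 : z ≠ 1 := by
    intro h
    rw [h, orderOf_one] at hzo
    exact hpp.one_lt.ne hzo
  let N : Subgroup K := Subgroup.zpowers z
  haveI hNn : N.Normal := by
    refine ⟨fun n hn g => ?_⟩
    obtain ⟨i, rfl⟩ := hn
    show g * z ^ i * g⁻¹ ∈ N
    rw [← conj_zpow]
    refine Subgroup.zpow_mem _ ?_ i
    have h1 : g * z * g⁻¹ ∈ (P : Subgroup K) := hQP (hQn.conj_mem _ hzQ g)
    have h2 : orderOf (g * z * g⁻¹) = orderOf z := by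
      have := orderOf_injective (MulAut.conj g).toMonoidHom (MulEquiv.injective _) z
      simpa using this
    exact mem_of_order (P : Subgroup K) hP h1 hzP h2
  let C : Subgroup K := Subgroup.centralizer (N : Set K)
  haveI hCn : C.Normal := Subgroup.normal_centralizer
  have hNP : N ≤ (P : Subgroup K) := by
    show Subgroup.zpowers z ≤ _
    rw [Subgroup.zpowers_le]; exact hzP
  have hPC : (P : Subgroup K) ≤ C := by
    intro π hπ
    rw [Subgroup.mem_centralizer_iff]
    intro h hh
    exact habel _ (hNP hh) _ hπ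
  let T : Sylow p C := P.subtype hPC
  have hTcoe : (T : Subgroup C) = (P : Subgroup K).subgroupOf C := Sylow.coe_subtype _ _
  have hTc : IsCyclic (T : Subgroup C) := by
    rw [hTcoe]
    exact isCyclic_of_surjective (Subgroup.subgroupOfEquivOfLe hPC).symm
      (Subgroup.subgroupOfEquivOfLe hPC).symm.surjective
  have hzC : z ∈ C := hPC hzP
  have hBurn : Subgroup.normalizer ((T : Subgroup C) : Set C) ≤
      Subgroup.centralizer ((T : Subgroup C) : Set C) := by
    intro g hg
    refine Cfsg.Agent.H13.normalizer_centralizes_cyclic T hTc (x := ⟨z, hzC⟩) ?_ ?_ ?_ hg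
    · rw [hTcoe, Subgroup.mem_subgroupOf]; exact hzP
    · intro h
      exact hz1 (congrArg Subtype.val h)
    · apply Subtype.ext
      have := Subgroup.mem_centralizer_iff.mp g.2 z (Subgroup.mem_zpowers z)
      exact this.symm
  obtain ⟨R, hRn, hRc⟩ := Cfsg.Agent.H19.burnside_complement T hBurn
  haveI := hRn
  obtain ⟨h1, h2, -⟩ := Cfsg.Agent.H19.normal_complement_facts C T R hRc
  have h3 : R.map C.subtype ≤ pPrimeCore p K := by
    apply Cfsg.Agent.H05.le_pp h1
    rw [Subgroup.card_map_of_injective C.subtype_injective]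
    exact h2
  rw [hO, le_bot_iff, Subgroup.map_eq_bot_iff_of_injective _ C.subtype_injective] at h3
  rw [h3, Subgroup.isComplement'_bot_left] at hRc
  have hCP : C = (P : Subgroup K) := by
    apply le_antisymm _ hPC
    intro c hc
    have : (⟨c, hc⟩ : C) ∈ (T : Subgroup C) := by rw [hRc]; trivial
    rw [hTcoe, Subgroup.mem_subgroupOf] at this
    exact this
  have hPn : (P : Subgroup K).Normal := hCP ▸ hCn
  have hNcard : Nat.card N = p := by
    show Nat.card (Subgroup.zpowers z) = p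
    rw [Nat.card_zpowers, hzo]
  haveI hNcyc : IsCyclic N := by
    show IsCyclic (Subgroup.zpowers z)
    infer_instance
  haveI hFp : Fact (Nat.Prime (Nat.card N)) := ⟨by rw [hNcard]; exact hpp⟩
  let φ : K →* (ZMod (Nat.card N))ˣ :=
    (IsCyclic.mulAutMulEquiv N).toMonoidHom.comp (MulAut.conjNormal (H := N))
  have hφ : ∀ g, φ g = 1 ↔ g ∈ (P : Subgroup K) := by
    intro g
    rw [← hCP]
    constructor
    · intro h
      have h4 : MulAut.conjNormal (H := N) g = 1 := by
        apply (IsCyclic.mulAutMulEquiv N).injective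
        rw [map_one]
        exact h
      rw [Subgroup.mem_centralizer_iff]
      intro n hn
      have h5 := congrArg (fun f : MulAut N => ((f ⟨n, hn⟩ : N) : K)) h4
      simp only [MulAut.conjNormal_apply, MulAut.one_apply] at h5
      rw [← mul_inv_eq_iff_eq_mul.mp h5]
    · intro h
      have h4 : MulAut.conjNormal (H := N) g = 1 := by
        ext n
        rw [MulAut.conjNormal_apply]
        have := Subgroup.mem_centralizer_iff.mp h (n : K) n.2
        rw [← this]
        simp
      show (IsCyclic.mulAutMulEquiv N).toMonoidHom (MulAut.conjNormal (H := N) g) = 1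
      rw [h4, map_one]
  have hlift : ∃ u : K ⧸ (P : Subgroup K) →* (ZMod (Nat.card N))ˣ, Function.Injective u := by
    haveI := hPn
    refine ⟨QuotientGroup.lift _ φ (fun x hx => MonoidHom.mem_ker.2 ((hφ x).2 hx)), ?_⟩
    rw [injective_iff_map_eq_one]
    intro a
    induction a using QuotientGroup.induction_on with
    | H g =>
      intro h
      have h' : φ g = 1 := h
      exact (QuotientGroup.eq_one_iff g).2 ((hφ g).1 h')
  obtain ⟨u, hu⟩ := hlift
  refine ⟨hPn, ?_, ?_, ?_⟩
  · apply le_antisymm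
    · have hh := Subgroup.centralizer_le (show (N : Set K) ⊆ ((P : Subgroup K) : Set K) from hNP)
      exact hh.trans hCP.le
    · intro π hπ
      rw [Subgroup.mem_centralizer_iff]
      intro h hh
      exact habel _ hh _ hπ
  · intro hPn'
    have h6 : hPn' = hPn := rfl
    exact isCyclic_of_injective u hu
  · have h7 := Subgroup.card_dvd_of_injective u hu
    rw [Nat.card_eq_fintype_card (α := (ZMod (Nat.card N))ˣ), ZMod.card_units (Nat.card N), hNcard] at h7
    exact h7

theorem caseII (hO : pPrimeCore p K = ⊥) (P : Sylow p K) (hP : IsCyclic (P : Subgroup K))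
    (hOp : pCore p K = ⊥) (hdvd : p ∣ Nat.card K) :
    IsSimpleGroup ↥(generalizedFittingSubgroup K) ∧ ¬ IsMulCommutative ↥(generalizedFittingSubgroup K) ∧
      ¬ p ∣ (generalizedFittingSubgroup K).index := by
  classical
  have hpp : p.Prime := Fact.out
  have hF : fittingSubgroup K = ⊥ := by
    have hnil := Cfsg.Agent.H01.fitting_nilpotent (G := K)
    haveI hFn : (fittingSubgroup K).Normal := Cfsg.Agent.H01.fitting_normal
    have hpg : IsPGroup p (fittingSubgroup K) := by
      apply Cfsg.Agent.H13.isPGroup_of_nilpotent_of_no_coprime (L := ⊤) hnil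
      · rw [Subgroup.normalizer_eq_top_iff.mpr inferInstance]
      · intro W _ hWc hWn
        rw [top_le_iff, Subgroup.normalizer_eq_top_iff] at hWn
        have := Cfsg.Agent.H05.le_pp hWn hWc
        rw [hO] at this
        exact le_bot_iff.mp this
    have := Cfsg.Agent.H13.le_pCore hFn hpg
    rw [hOp] at this
    exact le_bot_iff.mp this
  have hcenter : ∀ L : Subgroup K, IsComponent L → Subgroup.center L = ⊥ := by
    intro L hL
    have h1 : ((Subgroup.center L).map L.subtype).IsSubnormal := by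
      apply Subgroup.IsSubnormal.step _ L _ hL.1
      · show (Subgroup.comap L.subtype (Subgroup.map L.subtype _)).Normal
        rw [Subgroup.comap_map_eq_self_of_injective L.subtype_injective]
        infer_instance
      · exact Subgroup.map_subtype_le _
    have h2 : Group.IsNilpotent ((Subgroup.center L).map L.subtype) := by
      apply Cfsg.Agent.H05.nil_of_comm
      rintro ⟨_, a, ha, rfl⟩ ⟨_, b, hb, rfl⟩
      apply Subtype.ext
      show (a : K) * b = b * a
      have := (Subgroup.mem_center_iff.mp ha b)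
      exact (congrArg Subtype.val this).symm
    have h3 := Cfsg.Agent.H05.sn_nil_le_fitting h1 h2
    rw [hF, le_bot_iff, Subgroup.map_eq_bot_iff_of_injective _ L.subtype_injective] at h3
    exact h3
  have hcomp_dvd : ∀ L : Subgroup K, IsComponent L → p ∣ Nat.card L := by
    intro L hL
    by_contra hnd
    have hc : (Nat.card L).Coprime p := ((Nat.Prime.coprime_iff_not_dvd hpp).mpr hnd).symm
    have h1 := Cfsg.Agent.H05.sn_coprime_le_pp hL.1 hc
    rw [hO, le_bot_iff] at h1
    have h2 := hL.2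
    rw [h1] at h2
    haveI := Cfsg.Agent.H05.qs_nontrivial h2
    exact not_subsingleton (⊥ : Subgroup K) inferInstance
  have hne : ∃ L : Subgroup K, IsComponent L := by
    by_contra hno
    push Not at hno
    have h1 : layer K = ⊥ := by
      rw [eq_bot_iff]
      apply sSup_le
      intro L hL
      exact absurd hL (hno L)
    have h2 : generalizedFittingSubgroup K = ⊥ := by
      rw [generalizedFittingSubgroup, h1, hF, sup_bot_eq]
    have h3 := Cfsg.Agent.H05.centralizer_fstar_le (G := K)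
    rw [h2] at h3
    have h4 : Subgroup.centralizer ((⊥ : Subgroup K) : Set K) = ⊤ := by
      simp
    rw [h4, top_le_iff] at h3
    have h5 : Nat.card K = 1 := by
      rw [← Subgroup.card_top (G := K), ← h3, Subgroup.card_bot]
    rw [h5] at hdvd
    exact hpp.one_lt.ne' (Nat.dvd_one.mp hdvd)
  obtain ⟨L, hL⟩ := hne
  have huniq : ∀ L' : Subgroup K, IsComponent L' → L' = L := by
    intro L' hL'
    by_contra hne'
    have hcomm := (Cfsg.Agent.H05.comp_eq_or_comm hL' hL).resolve_left hne'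
    obtain ⟨z₁, hz₁⟩ := exists_prime_orderOf_dvd_card' p (hcomp_dvd L hL)
    obtain ⟨z₂, hz₂⟩ := exists_prime_orderOf_dvd_card' p (hcomp_dvd L' hL')
    have hz₁' : orderOf (z₁ : K) = p := by rw [Subgroup.orderOf_coe, hz₁]
    have hz₂' : orderOf (z₂ : K) = p := by rw [Subgroup.orderOf_coe, hz₂]
    have hcz : ∀ a ∈ L', ∀ b ∈ L, a * b = b * a := Cfsg.Agent.H05.comm_bot_iff.mp hcomm
    have hpz : ∀ z : K, orderOf z = p → IsPGroup p (Subgroup.zpowers z) := by
      intro z hz
      exact Cfsg.Agent.H13.isPGroup_zpowers_of_orderOf ⟨1, by rw [hz, pow_one]⟩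
    have hsup : IsPGroup p ((Subgroup.zpowers (z₁ : K)) ⊔ (Subgroup.zpowers (z₂ : K)) : Subgroup K) := by
      apply IsPGroup.to_sup_of_normal_right' (hpz _ hz₁') (hpz _ hz₂')
      rw [Subgroup.zpowers_le]
      apply Cfsg.Agent.H05.mem_normalizer_of_comm
      intro y hy
      obtain ⟨i, rfl⟩ := hy
      exact ((Commute.zpow_right (hcz (z₂ : K) z₂.2 (z₁ : K) z₁.2).symm i))
    obtain ⟨S, hS⟩ := hsup.exists_le_sylow
    have hScyc : IsCyclic (S : Subgroup K) := by
      obtain ⟨g, rfl⟩ := MulAction.exists_smul_eq K P S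
      exact isCyclic_of_surjective (Sylow.equivSMul P g) (Sylow.equivSMul P g).surjective
    have hz₁S : (z₁ : K) ∈ (S : Subgroup K) := hS (Subgroup.mem_sup_left (Subgroup.mem_zpowers _))
    have hz₂S : (z₂ : K) ∈ (S : Subgroup K) := hS (Subgroup.mem_sup_right (Subgroup.mem_zpowers _))
    have hmem := mem_of_order (S : Subgroup K) hScyc hz₁S hz₂S (hz₁'.trans hz₂'.symm)
    have hz₁L' : (z₁ : K) ∈ L' := (Subgroup.zpowers_le.mpr z₂.2) hmem
    have hcen : z₁ ∈ Subgroup.center L := by
      rw [Subgroup.mem_center_iff]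
      intro b
      apply Subtype.ext
      exact (hcz _ hz₁L' _ b.2).symm
    rw [hcenter L hL, Subgroup.mem_bot] at hcen
    rw [hcen, orderOf_one] at hz₁
    exact hpp.one_lt.ne hz₁
  have hlayer_eq : layer K = L :=
    le_antisymm (sSup_le (fun L' hL' => (huniq L' hL').le)) (Cfsg.Agent.H05.comp_le_layer hL)
  have hfstar : generalizedFittingSubgroup K = L := by
    rw [generalizedFittingSubgroup, hF, sup_bot_eq, hlayer_eq]
  haveI hLn : L.Normal := hlayer_eq ▸ Cfsg.Agent.H05.layer_normal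
  have hsimple : IsSimpleGroup L := by
    have e : L ⧸ Subgroup.center L ≃* L :=
      (QuotientGroup.quotientMulEquivOfEq (hcenter L hL)).trans QuotientGroup.quotientBot
    haveI := hL.2.2
    exact e.symm.isSimpleGroup
  have hnonab : ¬ IsMulCommutative L := by
    intro hc
    obtain ⟨a, b, hab⟩ := Cfsg.Agent.H05.qs_not_comm hL.2
    exact hab (hc.is_comm.comm _ _)
  rw [hfstar]
  refine ⟨hsimple, hnonab, ?_⟩
  -- the Sylow subgroup lies in L
  have habel := sylow_abel (P : Subgroup K) hP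
  have hQne : (P : Subgroup K) ⊓ L ≠ ⊥ :=
    Cfsg.Agent.H13.comp_inf_sylow_ne_bot hL P (hcomp_dvd L hL)
  have hT1 : IsPGroup p ((P : Subgroup K).subgroupOf L) := P.2.comap_of_injective L.subtype L.subtype_injective
  let T : Sylow p L := IsPGroup.toSylow hT1 (Cfsg.Agent.H02.sylow_subgroupOf_index p P hL.1)
  have hTcoe : (T : Subgroup L) = (P : Subgroup K).subgroupOf L := rfl
  have hex : ¬ Subgroup.normalizer ((T : Subgroup L) : Set L) ≤
      Subgroup.centralizer ((T : Subgroup L) : Set L) := by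
    intro hle
    obtain ⟨R, hRn, hRc⟩ := Cfsg.Agent.H19.burnside_complement T hle
    rcases hsimple.eq_bot_or_eq_top_of_normal R hRn with h | h
    · rw [h, Subgroup.isComplement'_bot_left, hTcoe] at hRc
      apply hnonab
      refine ⟨⟨fun a b => Subtype.ext ?_⟩⟩
      have h1 : (a : L) ∈ (P : Subgroup K).subgroupOf L := by rw [hRc]; trivial
      have h2 : (b : L) ∈ (P : Subgroup K).subgroupOf L := by rw [hRc]; trivial
      exact habel _ h1 _ h2
    · rw [h, Subgroup.isComplement'_top_left, hTcoe, Subgroup.subgroupOf_eq_bot] at hRc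
      apply hQne
      rw [eq_bot_iff]
      rintro x ⟨hx1, hx2⟩
      exact Subgroup.disjoint_def.mp hRc hx1 hx2
  obtain ⟨y, hyN, hyC⟩ := SetLike.not_le_iff_exists.mp hex
  -- y normalizes Q = P ∩ L and does not centralize it
  let Q : Subgroup K := (P : Subgroup K) ⊓ L
  have hQP : Q ≤ (P : Subgroup K) := inf_le_left
  have hyQ : ∀ q ∈ Q, (y : K) * q * (y : K)⁻¹ ∈ Q := by
    intro q hq
    have h1 : (⟨q, hq.2⟩ : L) ∈ (T : Subgroup L) := hq.1
    have h2 := (Subgroup.mem_normalizer_iff.mp hyN _).mp h1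
    exact ⟨h2, hLn.conj_mem _ hq.2 _⟩
  have hyQ' : ∀ q ∈ Q, (y : K)⁻¹ * q * (y : K) ∈ Q := by
    intro q hq
    have h1 : (⟨q, hq.2⟩ : L) ∈ (T : Subgroup L) := hq.1
    have h2 := (Subgroup.mem_normalizer_iff.mp (Subgroup.inv_mem _ hyN) _).mp h1
    have h3 : (y : K)⁻¹ * q * ((y : K)⁻¹)⁻¹ ∈ (P : Subgroup K) := h2
    rw [inv_inv] at h3
    have h4 := hLn.conj_mem _ hq.2 (y : K)⁻¹
    rw [inv_inv] at h4
    exact ⟨h3, h4⟩
  obtain ⟨q₀, hq₀Q, hq₀⟩ : ∃ q₀ ∈ Q, (y : K) * q₀ * (y : K)⁻¹ ≠ q₀ := by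
    rw [Subgroup.mem_centralizer_iff] at hyC
    push Not at hyC
    obtain ⟨t, ht, htn⟩ := hyC
    refine ⟨(t : K), ⟨ht, t.2⟩, ?_⟩
    intro h
    apply htn
    apply Subtype.ext
    exact (mul_inv_eq_iff_eq_mul.mp h).symm
  let J : Subgroup K := L ⊔ (P : Subgroup K)
  let A : Subgroup K := J ⊓ Subgroup.centralizer (Q : Set K)
  have hPA : (P : Subgroup K) ≤ A := by
    intro π hπ
    refine ⟨Subgroup.mem_sup_right hπ, Subgroup.mem_centralizer_iff.mpr ?_⟩
    intro q hq
    exact habel _ (hQP hq) _ hπ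
  let S : Subgroup K := (P : Subgroup K).map (MulAut.conj (y : K)).toMonoidHom
  have hSA : S ≤ A := by
    rintro _ ⟨π, hπ, rfl⟩
    have e : (MulAut.conj (y : K)).toMonoidHom π = (y : K) * π * (y : K)⁻¹ := rfl
    rw [e]
    refine ⟨?_, ?_⟩
    · have hyJ : (y : K) ∈ J := Subgroup.mem_sup_left y.2
      have hπJ : π ∈ J := Subgroup.mem_sup_right hπ
      exact J.mul_mem (J.mul_mem hyJ hπJ) (J.inv_mem hyJ)
    · refine Subgroup.mem_centralizer_iff.mpr ?_
      intro q hq
      have h1 := habel _ (hQP (hyQ' q hq)) _ hπ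
      have e1 : q = (y : K) * ((y : K)⁻¹ * q * (y : K)) * (y : K)⁻¹ := by group
      calc q * ((y : K) * π * (y : K)⁻¹)
          = (y : K) * (((y : K)⁻¹ * q * (y : K)) * π) * (y : K)⁻¹ := by group
        _ = (y : K) * (π * ((y : K)⁻¹ * q * (y : K))) * (y : K)⁻¹ := by rw [h1]
        _ = _ := by group
  have hbound : ∀ R : Subgroup K, IsPGroup p R → Nat.card R ≤ Nat.card (P : Subgroup K) := by
    intro R hR
    obtain ⟨S', hS'⟩ := hR.exists_le_sylow
    have h1 : Nat.card (S' : Subgroup K) = Nat.card (P : Subgroup K) := by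
      rw [Sylow.card_eq_multiplicity, Sylow.card_eq_multiplicity]
    rw [← h1]
    exact Subgroup.card_le_of_le hS'
  have hcardS : Nat.card S = Nat.card (P : Subgroup K) :=
    Subgroup.card_map_of_injective (MulAut.conj (y : K)).injective
  obtain ⟨a, haA, ha⟩ := Cfsg.Agent.H13.conj_of_bound (p := p) (A := A) (S := S) (T := (P : Subgroup K))
    hSA hPA (P.2.map _) P.2 (fun R _ hR => by rw [hcardS]; exact hbound R hR)
    (fun R _ hR => hbound R hR)
  let n : K := a * y
  have hnN : n ∈ Subgroup.normalizer ((P : Subgroup K) : Set K) := by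
    apply Cfsg.Agent.H20.mem_normalizer_of_conj_le
    intro π hπ
    rw [ha]
    refine ⟨(y : K) * π * (y : K)⁻¹, ⟨π, hπ, rfl⟩, ?_⟩
    show a * ((y : K) * π * (y : K)⁻¹) * a⁻¹ = n * π * n⁻¹
    show _ = a * y * π * (a * y)⁻¹
    group
  have hnJ : n ∈ J := J.mul_mem haA.1 (Subgroup.mem_sup_left y.2)
  have hnq : n * q₀ * n⁻¹ ≠ q₀ := by
    intro h
    apply hq₀
    have h1 := Subgroup.mem_centralizer_iff.mp haA.2 _ (hyQ q₀ hq₀Q)
    have e : n * q₀ * n⁻¹ = a * ((y : K) * q₀ * (y : K)⁻¹) * a⁻¹ := by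
      show a * y * q₀ * (a * y)⁻¹ = _
      group
    rw [e, ← h1, mul_inv_cancel_right] at h
    exact h
  -- element of order p in Q
  have hdvdQ : p ∣ Nat.card Q := by
    have hQp : IsPGroup p Q := P.2.to_le hQP
    rcases hQp.card_eq_or_dvd with h | h
    · exact absurd (Subgroup.card_eq_one.mp h) hQne
    · exact h
  obtain ⟨z₀, hz₀⟩ := exists_prime_orderOf_dvd_card' p hdvdQ
  have hzo : orderOf (z₀ : K) = p := by rw [Subgroup.orderOf_coe, hz₀]
  have hzP : (z₀ : K) ∈ (P : Subgroup K) := hQP z₀.2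
  have hz1 : (z₀ : K) ≠ 1 := by
    intro h
    rw [h, orderOf_one] at hzo
    exact hpp.one_lt.ne hzo
  have hnz : ¬ Commute n (z₀ : K) := by
    intro hc
    have h1 := Cfsg.Agent.H13.normalizer_centralizes_cyclic P hP hzP hz1 hc hnN
    have h2 := Subgroup.mem_centralizer_iff.mp h1 q₀ (hQP hq₀Q)
    apply hnq
    rw [← h2]
    group
  -- generator
  obtain ⟨⟨x, hxP⟩, hxgen⟩ := hP.exists_generator
  have hPx : ∀ u ∈ (P : Subgroup K), ∃ i : ℤ, u = x ^ i := by
    intro u hu
    obtain ⟨i, hi⟩ := hxgen ⟨u, hu⟩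
    refine ⟨i, ?_⟩
    have := congrArg Subtype.val hi
    simpa using this.symm
  obtain ⟨t, ht⟩ := hPx _ ((Subgroup.mem_normalizer_iff.mp hnN x).mp hxP)
  have hcomm : n * x * n⁻¹ * x⁻¹ ∈ L := by
    have hnJ' : n ∈ (↑(L ⊔ (P : Subgroup K)) : Set K) := hnJ
    rw [Subgroup.normal_mul] at hnJ'
    obtain ⟨l, hl, π, hπ, hnlπ⟩ := hnJ'
    have hnlπ' : n = l * π := hnlπ.symm
    have h1 := habel _ hπ _ hxP
    have e : n * x * n⁻¹ * x⁻¹ = l * (x * l⁻¹ * x⁻¹) := by
      rw [hnlπ']
      calc l * π * x * (l * π)⁻¹ * x⁻¹ = l * (π * x) * π⁻¹ * l⁻¹ * x⁻¹ := by group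
        _ = l * (x * π) * π⁻¹ * l⁻¹ * x⁻¹ := by rw [h1]
        _ = _ := by group
    rw [e]
    exact L.mul_mem hl (hLn.conj_mem _ (L.inv_mem hl) x)
  have hcomm2 : x ^ (t - 1) ∈ L := by
    rw [ht] at hcomm
    rw [zpow_sub, zpow_one]
    exact hcomm
  -- t - 1 is prime to p
  have hact : ∀ i : ℤ, n * x ^ i * n⁻¹ = (x ^ i) ^ t := by
    intro i
    rw [← conj_zpow, ht, ← zpow_mul, ← zpow_mul, mul_comm]
  have hnd : ¬ (p : ℤ) ∣ (t - 1) := by
    intro hd
    apply hnz
    obtain ⟨i, hi⟩ := hPx _ hzP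
    have h1 : ((z₀ : K)) ^ (t - 1) = 1 := by
      apply orderOf_dvd_iff_zpow_eq_one.mp
      rw [hzo]
      exact hd
    have h2 : n * (z₀ : K) * n⁻¹ = (z₀ : K) := by
      rw [hi, hact, ← hi]
      rw [zpow_sub, zpow_one] at h1
      exact mul_inv_eq_one.mp h1
    exact mul_inv_eq_iff_eq_mul.mp h2
  have hcop : IsCoprime (t - 1) ((orderOf x : ℕ) : ℤ) := by
    obtain ⟨b, hb⟩ := IsPGroup.iff_orderOf.mp P.2 ⟨x, hxP⟩
    have hb' : orderOf x = p ^ b := by rw [← hb, Subgroup.orderOf_mk]
    rw [hb']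
    push_cast
    apply IsCoprime.pow_right
    have h3 : Prime (p : ℤ) := Nat.prime_iff_prime_int.mp hpp
    exact ((Prime.coprime_iff_not_dvd h3).mpr hnd).symm
  obtain ⟨A₁, B₁, hAB⟩ := hcop
  have hxL : x ∈ L := by
    have h1 : x = (x ^ (t - 1)) ^ A₁ := by
      have h2 : x ^ ((orderOf x : ℕ) : ℤ) = 1 := by
        rw [zpow_natCast, pow_orderOf_eq_one]
      have h3 : (t - 1) * A₁ = 1 - B₁ * (orderOf x : ℕ) := by linarith
      rw [← zpow_mul, h3, zpow_sub, zpow_one, mul_comm B₁, zpow_mul, h2, one_zpow, inv_one, mul_one]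
    rw [h1]
    exact L.zpow_mem hcomm2 _
  have hPL : (P : Subgroup K) ≤ L := by
    intro u hu
    obtain ⟨i, rfl⟩ := hPx u hu
    exact L.zpow_mem hxL i
  intro hdiv
  exact P.not_dvd_index (hdiv.trans (Subgroup.index_dvd_of_le hPL))

/-- Let K be a finite group, p a prime dividing its order with O_{p'}(K) = 1 (no nontrivial normal subgroup of order prime to p), and P a cyclic Sylow p-subgroup of K. Then either P is normal and self-centralizing in K with K/P cyclic of order dividing p − 1 (so K is the semidirect product of P by a group of automorphisms of P of order dividing p − 1), or the generalized Fitting subgroup F*(K) is a non-abelian simple group and p does not divide the index of F*(K) in K. -/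
theorem result {K : Type*} [Group K] [Finite K] (p : ℕ) [Fact p.Prime] (hp : p ∣ Nat.card K) (hO : Cfsg.pPrimeCore p K = ⊥)
    (P : Sylow p K) (hP : IsCyclic ↥(P : Subgroup K)) :
    ((P : Subgroup K).Normal ∧ Subgroup.centralizer ((P : Subgroup K) : Set K) = (P : Subgroup K) ∧
      (∀ (_ : (P : Subgroup K).Normal), IsCyclic (K ⧸ (P : Subgroup K))) ∧ (P : Subgroup K).index ∣ p - 1) ∨
    (IsSimpleGroup ↥(Cfsg.generalizedFittingSubgroup K) ∧ ¬ IsMulCommutative ↥(Cfsg.generalizedFittingSubgroup K) ∧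
      ¬ p ∣ (Cfsg.generalizedFittingSubgroup K).index) := by
  by_cases h : pCore p K = ⊥
  · exact Or.inr (caseII hO P hP h hp)
  · exact Or.inl (caseI hO P hP h)

end Cfsg.Agent.S4403
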