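import Cfsg.Statements.S4405
import Cfsg.Agent.Lib.H13.Extra
import Cfsg.Agent.Lib.H01.Fitting
import Cfsg.Agent.Lib.H18.MaxClass2
import Cfsg.Agent.Lib.H20.Basic
import Cfsg.Agent.Lib.H20.Sect4

set_option autoImplicit false
set_option linter.unusedVariables false
set_option linter.style.haveILetI false
set_option linter.unusedSectionVars false
open Cfsg

namespace Cfsg.Agent.S4405

variable {G : Type*} [Group G]

/-- The elementary facts on the extraspecial subgroup. -/
structure Setup (H : Subgroup G) (z : G) : Prop where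
  z1 : z ≠ 1
  z2 : z ^ 2 = 1
  zc : ∀ g, g * z = z * g
  zH : z ∈ H
  sq : ∀ x ∈ H, x ^ 2 = 1 ∨ x ^ 2 = z
  comm : ∀ a ∈ H, ∀ b ∈ H, a * b = b * a ∨ a * b = z * (b * a)
  cen : ∀ c ∈ H, (∀ a ∈ H, c * a = a * c) → c = 1 ∨ c = z

variable {H : Subgroup G} {z : G}

theorem Setup.zinv (h : Setup H z) : z⁻¹ = z := by
  rw [inv_eq_iff_mul_eq_one, ← pow_two]; exact h.z2

theorem Setup.zz (h : Setup H z) : z * z = 1 := by
  rw [← pow_two]; exact h.z2

/-- congruence modulo z -/
def Eqz (z a b : G) : Prop := a = b ∨ a = b * z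

theorem Setup.eqz_symm (h : Setup H z) {a b : G} (hab : Eqz z a b) : Eqz z b a := by
  rcases hab with rfl | rfl
  · exact Or.inl rfl
  · right
    rw [mul_assoc, h.zz, mul_one]

theorem Setup.eqz_trans (h : Setup H z) {a b c : G} (hab : Eqz z a b) (hbc : Eqz z b c) : Eqz z a c := by
  rcases hab with rfl | rfl <;> rcases hbc with rfl | rfl
  · exact Or.inl rfl
  · exact Or.inr rfl
  · exact Or.inr rfl
  · left
    rw [mul_assoc, h.zz, mul_one]

theorem Setup.eqz_mul (h : Setup H z) {a b c d : G} (hab : Eqz z a b) (hcd : Eqz z c d) :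
    Eqz z (a * c) (b * d) := by
  rcases hab with rfl | rfl <;> rcases hcd with rfl | rfl
  · exact Or.inl rfl
  · right; rw [mul_assoc]
  · right
    calc b * z * c = b * (z * c) := by rw [mul_assoc]
      _ = b * (c * z) := by rw [h.zc c]
      _ = _ := by rw [mul_assoc]
  · left
    calc b * z * (d * z) = b * (z * d) * z := by group
      _ = b * (d * z) * z := by rw [h.zc d]
      _ = b * d * (z * z) := by group
      _ = _ := by rw [h.zz, mul_one]

theorem Setup.eqz_inv (h : Setup H z) {a b : G} (hab : Eqz z a b) : Eqz z a⁻¹ b⁻¹ := by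
  rcases hab with rfl | rfl
  · exact Or.inl rfl
  · right
    rw [mul_inv_rev, h.zinv, h.zc]

theorem Setup.eqz_conj (h : Setup H z) {a b : G} (g : G) (hab : Eqz z a b) :
    Eqz z (g * a * g⁻¹) (g * b * g⁻¹) := by
  rcases hab with rfl | rfl
  · exact Or.inl rfl
  · right
    calc g * (b * z) * g⁻¹ = g * b * (z * g⁻¹) := by group
      _ = g * b * (g⁻¹ * z) := by rw [h.zc g⁻¹]
      _ = _ := by group

/-- Elements of H commute modulo z. -/
theorem Setup.eqz_comm (h : Setup H z) {a b : G} (ha : a ∈ H) (hb : b ∈ H) : Eqz z (a * b) (b * a) := by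
  rcases h.comm a ha b hb with h1 | h1
  · exact Or.inl h1
  · right
    rw [h1, h.zc]

theorem Setup.eqz_conj_H (h : Setup H z) {a b : G} (ha : a ∈ H) (hb : b ∈ H) : Eqz z (a * b * a⁻¹) b := by
  rcases h.comm a ha b hb with h1 | h1
  · left
    rw [h1, mul_inv_cancel_right]
  · right
    rw [h1, h.zc b]
    group

/-- If a power of r fixing b modulo z has odd order, then r commutes with b. -/
theorem Setup.comm_of_eqz (h : Setup H z) {r b : G} (hr : r ^ 5 = 1) (hb : Eqz z (r * b * r⁻¹) b) :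
    r * b = b * r := by
  rcases hb with h1 | h1
  · exact mul_inv_eq_iff_eq_mul.mp h1
  · exfalso
    apply h.z1
    have h2 : ∀ k : ℕ, r ^ k * b * (r ^ k)⁻¹ = b * z ^ k := by
      intro k
      induction k with
      | zero => simp
      | succ k ih =>
        have e : r ^ (k + 1) * b * (r ^ (k + 1))⁻¹ = r ^ k * (r * b * r⁻¹) * (r ^ k)⁻¹ := by
          rw [pow_succ]; group
        rw [e, h1]
        calc r ^ k * (b * z) * (r ^ k)⁻¹ = r ^ k * b * (z * (r ^ k)⁻¹) := by group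
          _ = r ^ k * b * ((r ^ k)⁻¹ * z) := by rw [h.zc]
          _ = (r ^ k * b * (r ^ k)⁻¹) * z := by group
          _ = b * z ^ k * z := by rw [ih]
          _ = _ := by rw [pow_succ, mul_assoc]
    have h3 := h2 5
    rw [hr] at h3
    have e5 : z ^ 5 = z := by
      have : z ^ 5 = (z ^ 2) ^ 2 * z := by group
      rw [this, h.z2]; simp
    simp only [one_mul, inv_one, mul_one] at h3
    rw [e5] at h3
    exact (mul_eq_left.mp h3.symm)



section main
variable [Finite G]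

theorem exists_setup (hn : H.Normal) (hex : Cfsg.IsExtraspecial 2 ↥H) : ∃ z, Setup H z := by
  obtain ⟨z', h1, h2, h3, h4, h5, h6⟩ := Cfsg.Agent.H13.extraspecial_two_setup hex
  have hz1 : (z' : G) ≠ 1 := by simpa using h1
  refine ⟨(z' : G), ⟨hz1, ?_, ?_, z'.2, ?_, ?_, ?_⟩⟩
  · exact congrArg Subtype.val h2
  · intro g
    have hmem : g * z' * g⁻¹ ∈ H := hn.conj_mem _ z'.2 g
    have hcen : (⟨g * z' * g⁻¹, hmem⟩ : ↥H) ∈ Subgroup.center ↥H := by
      rw [Subgroup.mem_center_iff]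
      rintro ⟨b, hb⟩
      apply Subtype.ext
      show b * (g * z' * g⁻¹) = g * z' * g⁻¹ * b
      have hb' : g⁻¹ * b * g ∈ H := by
        have := hn.conj_mem b hb g⁻¹
        rwa [inv_inv] at this
      have h7 : (⟨g⁻¹ * b * g, hb'⟩ : ↥H) * z' = z' * ⟨g⁻¹ * b * g, hb'⟩ := h3 _
      have h8 : (g⁻¹ * b * g) * (z' : G) = z' * (g⁻¹ * b * g) := congrArg Subtype.val h7
      calc b * (g * z' * g⁻¹) = g * ((g⁻¹ * b * g) * (z' : G)) * g⁻¹ := by group
        _ = g * ((z' : G) * (g⁻¹ * b * g)) * g⁻¹ := by rw [h8]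
        _ = _ := by group
    rcases (h6 _).1 hcen with h9 | h9
    · exfalso
      have h10 : g * (z' : G) * g⁻¹ = 1 := congrArg Subtype.val h9
      apply hz1
      have : (z' : G) = g⁻¹ * (g * z' * g⁻¹) * g := by group
      rw [this, h10]; group
    · have h10 : g * (z' : G) * g⁻¹ = z' := congrArg Subtype.val h9
      exact mul_inv_eq_iff_eq_mul.mp h10
  · intro x hx
    rcases h4 ⟨x, hx⟩ with h7 | h7
    · left; exact congrArg Subtype.val h7
    · right; exact congrArg Subtype.val h7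
  · intro a ha b hb
    rcases h5 ⟨a, ha⟩ ⟨b, hb⟩ with h7 | h7
    · left; exact congrArg Subtype.val h7
    · right; exact congrArg Subtype.val h7
  · intro c hc hca
    have : (⟨c, hc⟩ : ↥H) ∈ Subgroup.center ↥H := by
      rw [Subgroup.mem_center_iff]
      rintro ⟨b, hb⟩
      apply Subtype.ext
      exact (hca b hb).symm
    rcases (h6 _).1 this with h7 | h7
    · left; exact congrArg Subtype.val h7
    · right; exact congrArg Subtype.val h7

theorem ord_five_not_mem (h2 : IsPGroup 2 H) {f : G} (hf : orderOf f = 5) : f ∉ H := by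
  intro hmem
  obtain ⟨k, hk⟩ := h2 ⟨f, hmem⟩
  have h1 : f ^ 2 ^ k = 1 := congrArg Subtype.val hk
  have h3 := orderOf_dvd_of_pow_eq_one h1
  rw [hf] at h3
  have h4 := (Nat.prime_dvd_prime_iff_eq (by norm_num) Nat.prime_two).1 ((by norm_num : Nat.Prime 5).dvd_of_dvd_pow h3)
  omega

theorem pow_five_inj_H (h2 : IsPGroup 2 H) {h : G} (hh : h ∈ H) (h5 : h ^ 5 = 1) : h = 1 := by
  obtain ⟨k, hk⟩ := h2 ⟨h, hh⟩
  have h1 : h ^ 2 ^ k = 1 := congrArg Subtype.val hk
  have h3 := orderOf_dvd_of_pow_eq_one h1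
  have h4 := orderOf_dvd_of_pow_eq_one h5
  have h6 : orderOf h ∣ Nat.gcd (2 ^ k) 5 := Nat.dvd_gcd h3 h4
  have h7 : Nat.gcd (2 ^ k) 5 = 1 := Nat.Coprime.pow_left k (by norm_num)
  rw [h7, Nat.dvd_one] at h6
  exact orderOf_eq_one_iff.mp h6

/-- fixed point count. -/
theorem cent_card (hn : H.Normal) (h32 : Nat.card H = 32) {f : G} (hf : orderOf f = 5) :
    Nat.card ↥(H ⊓ Subgroup.centralizer ({f} : Set G)) = 2 ∨
      Nat.card ↥(H ⊓ Subgroup.centralizer ({f} : Set G)) = 32 := by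
  classical
  haveI : Fact (Nat.Prime 5) := ⟨by norm_num⟩
  let Z : Subgroup G := Subgroup.zpowers f
  have hZN : Z ≤ Subgroup.normalizer (H : Set G) := by
    rw [Subgroup.normalizer_eq_top_iff.mpr hn]; exact le_top
  have hZp : IsPGroup 5 Z := by
    rintro ⟨x, hx⟩
    obtain ⟨k, rfl⟩ := Subgroup.mem_zpowers_iff.mp hx
    refine ⟨1, Subtype.ext ?_⟩
    show (f ^ k) ^ 5 ^ 1 = 1
    rw [pow_one, ← zpow_natCast, ← zpow_mul, mul_comm, zpow_mul]
    have : f ^ ((5 : ℕ) : ℤ) = 1 := by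
      rw [zpow_natCast, ← hf, pow_orderOf_eq_one]
    rw [this, one_zpow]
  let ψ : Z →* MulAut H := H.normalizerMonoidHom.comp (Subgroup.inclusion hZN)
  letI : MulAction Z H := MulAction.compHom H ψ
  have hmod := IsPGroup.card_modEq_card_fixedPoints hZp H
  have hfix : ∀ v : ↥H, v ∈ MulAction.fixedPoints Z H ↔ (v : G) ∈ Subgroup.centralizer ({f} : Set G) := by
    intro v
    rw [Subgroup.mem_centralizer_singleton_iff]
    constructor
    · intro hv
      have h1 : (⟨f, Subgroup.mem_zpowers f⟩ : Z) • v = v := hv _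
      have h3 : f * (v : G) * f⁻¹ = v := congrArg Subtype.val h1
      exact (mul_inv_eq_iff_eq_mul.mp h3).symm
    · intro hv
      rintro ⟨x, hx⟩
      obtain ⟨k, rfl⟩ := Subgroup.mem_zpowers_iff.mp hx
      apply Subtype.ext
      show f ^ k * (v : G) * (f ^ k)⁻¹ = v
      have : Commute (v : G) f := hv
      have h3 : Commute (v : G) (f ^ k) := this.zpow_right k
      rw [← h3.eq, mul_inv_cancel_right]
  have hcard : Nat.card (MulAction.fixedPoints Z H) = Nat.card ↥(H ⊓ Subgroup.centralizer ({f} : Set G)) := by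
    apply Nat.card_congr
    refine ⟨fun v => ⟨v.1.1, v.1.2, (hfix v.1).1 v.2⟩, fun v => ⟨⟨v.1, v.2.1⟩, (hfix ⟨v.1, v.2.1⟩).2 v.2.2⟩, ?_, ?_⟩
    · intro v; rfl
    · intro v; rfl
  rw [hcard, h32] at hmod
  have hdvd : Nat.card ↥(H ⊓ Subgroup.centralizer ({f} : Set G)) ∣ 32 := by
    rw [← h32]
    exact Subgroup.card_dvd_of_le inf_le_left
  have hle := Nat.le_of_dvd (by norm_num) hdvd
  generalize Nat.card ↥(H ⊓ Subgroup.centralizer ({f} : Set G)) = c at *
  have hm : 32 % 5 = c % 5 := hmod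
  interval_cases c <;> omega


theorem quot_facts (hn : H.Normal) (h32 : Nat.card H = 32) (hG : Nat.card G = 320) (h2 : IsPGroup 2 H)
    {f : G} (hf : orderOf f = 5) (g : G) : ∃ i : ℕ, g * f * g⁻¹ * (f ^ i)⁻¹ ∈ H := by
  classical
  haveI := hn
  have hQ : Nat.card (G ⧸ H) = 10 := by
    have := Subgroup.card_eq_card_quotient_mul_card_subgroup H
    rw [hG, h32] at this
    omega
  let φ : G ⧸ H := (f : G ⧸ H)
  have h5 : φ ^ 5 = 1 := by
    show ((f : G ⧸ H)) ^ 5 = 1
    rw [← QuotientGroup.mk_pow, ← hf, pow_orderOf_eq_one]; rfl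
  haveI : Fact (Nat.Prime 5) := ⟨by norm_num⟩
  have hord : orderOf φ = 5 := by
    apply orderOf_eq_prime h5
    intro h1
    apply ord_five_not_mem h2 hf
    exact (QuotientGroup.eq_one_iff f).1 h1
  have hcard : Nat.card (Subgroup.zpowers φ) = 5 := by rw [Nat.card_zpowers, hord]
  have hidx : (Subgroup.zpowers φ).index = 2 := by
    have := Subgroup.card_mul_index (Subgroup.zpowers φ)
    rw [hcard, hQ] at this
    omega
  haveI hnorm := Subgroup.normal_of_index_eq_two hidx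
  have hmem := hnorm.conj_mem φ (Subgroup.mem_zpowers φ) (g : G ⧸ H)
  rw [← mem_powers_iff_mem_zpowers, Submonoid.mem_powers_iff] at hmem
  obtain ⟨i, hi⟩ := hmem
  refine ⟨i, ?_⟩
  rw [← QuotientGroup.eq_one_iff]
  rw [QuotientGroup.mk_mul, QuotientGroup.mk_mul, QuotientGroup.mk_mul, QuotientGroup.mk_inv, QuotientGroup.mk_inv, QuotientGroup.mk_pow]
  show _ * φ * _ * (φ ^ i)⁻¹ = 1
  rw [← hi, mul_inv_cancel]

theorem not_central (hn : H.Normal) (h32 : Nat.card H = 32) (hG : Nat.card G = 320) (h2 : IsPGroup 2 H)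
    (hfit : ∀ N : Subgroup G, N.Normal → Group.IsNilpotent N → N ≤ H)
    {f : G} (hf : orderOf f = 5) (hc : ∀ h ∈ H, f * h = h * f) : False := by
  classical
  have hf5 : f ^ 5 = 1 := by rw [← hf, pow_orderOf_eq_one]
  have hconj : ∀ g : G, g * f * g⁻¹ ∈ Subgroup.zpowers f := by
    intro g
    obtain ⟨i, hi⟩ := quot_facts hn h32 hG h2 hf g
    set h := g * f * g⁻¹ * (f ^ i)⁻¹ with hh
    have e : g * f * g⁻¹ = h * f ^ i := by rw [hh]; group
    have hcomm : Commute h (f ^ i) := (Commute.pow_left (show Commute f h from hc h hi) i).symm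
    have e5 : (g * f * g⁻¹) ^ 5 = 1 := by
      rw [conj_pow, hf5]; simp
    rw [e, hcomm.mul_pow, ← pow_mul, mul_comm i 5, pow_mul, hf5, one_pow, mul_one] at e5
    have h1 := pow_five_inj_H h2 hi e5
    rw [e, h1, one_mul]
    exact Subgroup.pow_mem _ (Subgroup.mem_zpowers f) i
  have hnormal : (Subgroup.zpowers f).Normal := by
    refine ⟨fun x hx g => ?_⟩
    obtain ⟨k, rfl⟩ := Subgroup.mem_zpowers_iff.mp hx
    rw [← conj_zpow]
    exact Subgroup.zpow_mem _ (hconj g) k
  have hnil : Group.IsNilpotent (Subgroup.zpowers f) := by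
    letI : CommGroup (Subgroup.zpowers f) := { (inferInstance : Group (Subgroup.zpowers f)) with mul_comm := fun a b => (IsMulCommutative.is_comm.comm a b) }
    exact CommGroup.isNilpotent
  have hle := hfit _ hnormal hnil
  exact ord_five_not_mem h2 hf (hle (Subgroup.mem_zpowers f))

theorem T_inverts (hn : H.Normal) (h32 : Nat.card H = 32) (hG : Nat.card G = 320) (h2 : IsPGroup 2 H)
    (hO : ∀ N : Subgroup G, N.Normal → IsPGroup 2 N → N ≤ H)
    {f T : G} (hf : orderOf f = 5) (hT : orderOf T = 2) (hTH : T ∉ H) : T * f * T⁻¹ * f ∈ H := by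
  classical
  haveI := hn
  have hT2 : T ^ 2 = 1 := by rw [← hT, pow_orderOf_eq_one]
  have hQ : Nat.card (G ⧸ H) = 10 := by
    have := Subgroup.card_eq_card_quotient_mul_card_subgroup H
    rw [hG, h32] at this
    omega
  let φ : G ⧸ H := (f : G ⧸ H)
  let t : G ⧸ H := (T : G ⧸ H)
  have h5 : φ ^ 5 = 1 := by
    show ((f : G ⧸ H)) ^ 5 = 1
    rw [← QuotientGroup.mk_pow, ← hf, pow_orderOf_eq_one]; rfl
  haveI : Fact (Nat.Prime 5) := ⟨by norm_num⟩
  have hord : orderOf φ = 5 := by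
    apply orderOf_eq_prime h5
    intro h1
    apply ord_five_not_mem h2 hf
    exact (QuotientGroup.eq_one_iff f).1 h1
  have ht2 : t ^ 2 = 1 := by
    show ((T : G ⧸ H)) ^ 2 = 1
    rw [← QuotientGroup.mk_pow, hT2]; rfl
  have htord : orderOf t = 2 := by
    apply orderOf_eq_prime ht2
    intro h1
    exact hTH ((QuotientGroup.eq_one_iff T).1 h1)
  obtain ⟨i, hi⟩ := quot_facts hn h32 hG h2 hf T
  have hi' : t * φ * t⁻¹ = φ ^ i := by
    have := (QuotientGroup.eq_one_iff _).2 hi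
    rw [QuotientGroup.mk_mul, QuotientGroup.mk_mul, QuotientGroup.mk_mul, QuotientGroup.mk_inv, QuotientGroup.mk_inv, QuotientGroup.mk_pow] at this
    exact mul_inv_eq_one.mp this
  have hsq : φ ^ (i * i) = φ ^ 1 := by
    have e1 : t * (t * φ * t⁻¹) * t⁻¹ = φ := by
      have e2 : t⁻¹ = t := by
        rw [inv_eq_iff_mul_eq_one, ← pow_two]; exact ht2
      rw [e2]
      calc t * (t * φ * t) * t = (t * t) * φ * (t * t) := by simp only [mul_assoc]
        _ = (t ^ 2) * φ * (t ^ 2) := by rw [pow_two]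
        _ = φ := by rw [ht2]; group
    rw [pow_one, pow_mul]
    rw [hi', ← conj_pow, hi'] at e1
    exact e1
  rw [pow_eq_pow_iff_modEq, hord] at hsq
  have hsq' : (i % 5 * (i % 5)) % 5 = 1 := by
    have : (i * i) % 5 = 1 % 5 := hsq
    rw [Nat.mul_mod] at this
    exact this
  have hlt : i % 5 < 5 := Nat.mod_lt _ (by norm_num)
  have hcases : i % 5 = 1 ∨ i % 5 = 4 := by
    generalize i % 5 = c at *
    interval_cases c <;> simp_all
  rcases hcases with hc | hc
  · exfalso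
    -- t is central
    have hcomm : t * φ * t⁻¹ = φ := by
      rw [hi']
      have : φ ^ i = φ ^ 1 := by
        rw [pow_eq_pow_iff_modEq, hord]
        exact hc
      rw [this, pow_one]
    let K : Subgroup (G ⧸ H) := Subgroup.centralizer ({t} : Set (G ⧸ H))
    have hφK : φ ∈ K := by
      rw [Subgroup.mem_centralizer_singleton_iff]
      exact (mul_inv_eq_iff_eq_mul.mp hcomm).symm
    have htK : t ∈ K := by
      rw [Subgroup.mem_centralizer_singleton_iff]
    have h51 : 5 ∣ Nat.card K := by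
      rw [← hord]; exact Subgroup.orderOf_dvd_natCard K hφK
    have h52 : 2 ∣ Nat.card K := by
      rw [← htord]; exact Subgroup.orderOf_dvd_natCard K htK
    have h10 : 10 ∣ Nat.card K := by
      have : Nat.Coprime 5 2 := by norm_num
      have := this.mul_dvd_of_dvd_of_dvd h51 h52
      simpa using this
    have hKtop : K = ⊤ := by
      apply Subgroup.eq_top_of_le_card
      rw [hQ]
      exact Nat.le_of_dvd Nat.card_pos h10
    have hN : (Subgroup.zpowers t).Normal := by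
      refine ⟨fun x hx g => ?_⟩
      obtain ⟨k, rfl⟩ := Subgroup.mem_zpowers_iff.mp hx
      have hg : g ∈ K := by rw [hKtop]; exact Subgroup.mem_top g
      rw [Subgroup.mem_centralizer_singleton_iff] at hg
      have e : g * t ^ k * g⁻¹ = (g * t * g⁻¹) ^ k := by rw [conj_zpow]
      rw [e]
      have e3 : g * t * g⁻¹ = t := by
        rw [mul_inv_eq_iff_eq_mul]; exact hg
      rw [e3]
      exact Subgroup.zpow_mem _ (Subgroup.mem_zpowers t) k
    let L : Subgroup G := (Subgroup.zpowers t).comap (QuotientGroup.mk' H)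
    haveI hLn : L.Normal := Subgroup.Normal.comap hN _
    have hLidx : L.index = 5 := by
      have h6 : L.index = (Subgroup.zpowers t).index :=
        Subgroup.index_comap_of_surjective _ (QuotientGroup.mk'_surjective H)
      have h7 := Subgroup.card_mul_index (Subgroup.zpowers t)
      rw [Nat.card_zpowers, htord, hQ] at h7
      omega
    have hLcard : Nat.card L = 2 ^ 6 := by
      have := Subgroup.card_mul_index L
      rw [hLidx, hG] at this
      omega
    haveI : Fact (Nat.Prime 2) := ⟨Nat.prime_two⟩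
    have hLp : IsPGroup 2 L := IsPGroup.of_card hLcard
    have hLH := hO L hLn hLp
    apply hTH
    apply hLH
    show (QuotientGroup.mk' H) T ∈ Subgroup.zpowers t
    exact Subgroup.mem_zpowers t
  · rw [← QuotientGroup.eq_one_iff, QuotientGroup.mk_mul, QuotientGroup.mk_mul, QuotientGroup.mk_mul, QuotientGroup.mk_inv]
    show t * φ * t⁻¹ * φ = 1
    rw [hi', ← pow_succ]
    have : φ ^ (i + 1) = φ ^ 0 := by
      rw [pow_eq_pow_iff_modEq, hord]
      show (i + 1) % 5 = 0 % 5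
      omega
    rw [this, pow_zero]


theorem conj_mul' (T a b : G) : T * (a * b) * T⁻¹ = (T * a * T⁻¹) * (T * b * T⁻¹) := by group

/-- The subgroup of elements fixed by `T` modulo `z`. -/
def Asub (h : Setup H z) (hn : H.Normal) (T : G) : Subgroup G where
  carrier := {x | x ∈ H ∧ Eqz z (T * x * T⁻¹) x}
  mul_mem' := by
    rintro a b ⟨ha, ha'⟩ ⟨hb, hb'⟩
    refine ⟨H.mul_mem ha hb, ?_⟩
    rw [conj_mul']
    exact h.eqz_mul ha' hb'
  one_mem' := ⟨H.one_mem, Or.inl (by group)⟩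
  inv_mem' := by
    rintro a ⟨ha, ha'⟩
    refine ⟨H.inv_mem ha, ?_⟩
    have := h.eqz_inv ha'
    have e : T * a⁻¹ * T⁻¹ = (T * a * T⁻¹)⁻¹ := by group
    rw [e]
    exact this

theorem mem_Asub (h : Setup H z) (hn : H.Normal) {T x : G} :
    x ∈ Asub h hn T ↔ x ∈ H ∧ Eqz z (T * x * T⁻¹) x := Iff.rfl

theorem inter_key (h : Setup H z) (hn : H.Normal) {T f x y : G}
    (hη : T * f * T⁻¹ * f ∈ H) (hf5 : f ^ 5 = 1)
    (hcf : ∀ c ∈ H, f * c = c * f → c = 1 ∨ c = z)
    (hy : y ∈ Asub h hn T) (hx : x = f * y * f⁻¹) (hxA : x ∈ Asub h hn T) : x = 1 ∨ x = z := by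
  set η := T * f * T⁻¹ * f with hηd
  have hyH := hy.1
  have e0 : T * x * T⁻¹ = η * (f⁻¹ * (T * y * T⁻¹) * f) * η⁻¹ := by
    rw [hx, hηd]; group
  have hw : f⁻¹ * y * f ∈ H := by
    have := hn.conj_mem y hyH f⁻¹
    rwa [inv_inv] at this
  have e1 : Eqz z (f⁻¹ * (T * y * T⁻¹) * f) (f⁻¹ * y * f) := by
    have := h.eqz_conj f⁻¹ hy.2
    rwa [inv_inv] at this
  have e2 : Eqz z (η * (f⁻¹ * (T * y * T⁻¹) * f) * η⁻¹) (η * (f⁻¹ * y * f) * η⁻¹) := h.eqz_conj η e1
  have e3 : Eqz z (η * (f⁻¹ * y * f) * η⁻¹) (f⁻¹ * y * f) := h.eqz_conj_H hη hw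
  have e4 : Eqz z (T * x * T⁻¹) (f⁻¹ * y * f) := by
    rw [e0]; exact h.eqz_trans e2 e3
  have e5 : Eqz z (f⁻¹ * y * f) x := h.eqz_trans (h.eqz_symm e4) hxA.2
  have e6 : Eqz z (f * (f⁻¹ * y * f) * f⁻¹) (f * x * f⁻¹) := h.eqz_conj f e5
  have e7 : f * (f⁻¹ * y * f) * f⁻¹ = y := by group
  have e8 : f * x * f⁻¹ = f ^ 2 * y * (f ^ 2)⁻¹ := by
    rw [hx, pow_two]; group
  rw [e7, e8] at e6
  have e9 : (f ^ 2) ^ 5 = 1 := by
    rw [← pow_mul, mul_comm, pow_mul, hf5, one_pow]
  have e10 := h.comm_of_eqz e9 (h.eqz_symm e6)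
  have e11 : f = (f ^ 2) ^ 3 := by
    have : (f ^ 2) ^ 3 = f ^ 5 * f := by
      rw [← pow_mul, ← pow_succ]
    rw [this, hf5, one_mul]
  have e12 : f * y = y * f := by
    have hcomm : Commute (f ^ 2) y := e10
    have := hcomm.pow_left 3
    rw [← e11] at this
    exact this
  have hxy : x = y := by
    rw [hx, e12, mul_inv_cancel_right]
  rw [hxy]
  exact hcf y hyH e12

theorem card_A_le (h : Setup H z) (hn : H.Normal) (h32 : Nat.card H = 32) {T f : G}
    (hη : T * f * T⁻¹ * f ∈ H) (hf5 : f ^ 5 = 1)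
    (hcf : ∀ c ∈ H, f * c = c * f → c = 1 ∨ c = z) : Nat.card (Asub h hn T) ≤ 8 := by
  classical
  set A := Asub h hn T with hA
  let B : Subgroup G := A.map (MulAut.conj f).toMonoidHom
  have hAH : A ≤ H := fun x hx => hx.1
  have hBH : B ≤ H := by
    rintro _ ⟨y, hy, rfl⟩
    exact hn.conj_mem y hy.1 f
  have hcardB : Nat.card B = Nat.card A :=
    Subgroup.card_map_of_injective (MulAut.conj f).injective
  have hinter : A ⊓ B ≤ Subgroup.zpowers z := by
    rintro x ⟨hxA, hxB⟩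
    obtain ⟨y, hy, rfl⟩ := hxB
    rcases inter_key h hn hη hf5 hcf (x := (MulAut.conj f).toMonoidHom y) hy rfl hxA with h1 | h1
    · rw [h1]; exact Subgroup.one_mem _
    · rw [h1]; exact Subgroup.mem_zpowers z
  have hzord : orderOf z = 2 := orderOf_eq_prime h.z2 h.z1
  have hc2 : Nat.card ↥(A ⊓ B) ≤ 2 := by
    have := Subgroup.card_le_of_le hinter
    rwa [Nat.card_zpowers, hzord] at this
  have rel : ∀ K : Subgroup G, K ≤ H → Nat.card K * K.relIndex H = 32 := by
    intro K hK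
    have h1 := Subgroup.card_mul_index (K.subgroupOf H)
    have h2 : Nat.card (K.subgroupOf H) = Nat.card K := Nat.card_congr (Subgroup.subgroupOfEquivOfLe hK).toEquiv
    rw [h2, h32] at h1
    exact h1
  have r1 := rel A hAH
  have r2 := rel B hBH
  have r3 := rel (A ⊓ B) (inf_le_left.trans hAH)
  have r4 : (A ⊓ B).relIndex H ≤ A.relIndex H * B.relIndex H := Subgroup.relIndex_inf_le
  rw [hcardB] at r2
  have r5 : B.relIndex H = A.relIndex H := by
    have hpos : 0 < Nat.card A := Nat.card_pos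
    exact Nat.eq_of_mul_eq_mul_left hpos (r2.trans r1.symm)
  rw [r5] at r4
  by_contra hcon
  push Not at hcon
  -- |A| ≥ 9 so index ≤ 3
  have hi : A.relIndex H ≤ 3 := by
    by_contra h3
    push Not at h3
    nlinarith
  have hi2 : A.relIndex H * A.relIndex H ≤ 9 := Nat.mul_le_mul hi hi
  have hi3 : (A ⊓ B).relIndex H ≤ 9 := r4.trans hi2
  have : Nat.card ↥(A ⊓ B) * (A ⊓ B).relIndex H ≤ 2 * 9 := Nat.mul_le_mul hc2 hi3
  omega

theorem mem_zp (h : Setup H z) {x : G} (hx : x ∈ Subgroup.zpowers z) : x = 1 ∨ x = z := by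
  obtain ⟨k, rfl⟩ := Subgroup.mem_zpowers_iff.mp hx
  have h2 : z ^ (2 : ℤ) = 1 := by exact_mod_cast h.z2
  rcases Int.even_or_odd' k with ⟨m, rfl | rfl⟩
  · left
    rw [zpow_mul, h2, one_zpow]
  · right
    rw [zpow_add, zpow_mul, h2, one_zpow, one_mul, zpow_one]

/-- The last counting step. -/
theorem last_step (h : Setup H z) (hn : H.Normal) (h32 : Nat.card H = 32) (hG : Nat.card G = 320) {T : G}
    (hT2 : T ^ 2 = 1)
    (hA8 : Nat.card (Asub h hn T) = 8)
    (hCA : Asub h hn T = H ⊓ Subgroup.centralizer ({T} : Set G)) :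
    ∀ c ∈ H ⊓ Subgroup.centralizer ({T} : Set G), c ^ 2 = 1 := by
  classical
  have hTinv : T⁻¹ = T := by
    rw [inv_eq_iff_mul_eq_one, ← pow_two]; exact hT2
  have hwT : ∀ w ∈ H, T * w * T⁻¹ ∈ H := fun w hw => hn.conj_mem w hw T
  -- u(w) ∈ A
  have huA : ∀ w ∈ H, w * (T * w * T⁻¹) ∈ Asub h hn T := by
    intro w hw
    refine ⟨H.mul_mem hw (hwT w hw), ?_⟩
    have e : T * (w * (T * w * T⁻¹)) * T⁻¹ = (T * w * T⁻¹) * w := by
      calc T * (w * (T * w * T⁻¹)) * T⁻¹ = (T * w * T⁻¹) * (T * T * w * (T⁻¹ * T⁻¹)) := by group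
        _ = _ := by
          have e1 : T * T = 1 := by rw [← pow_two]; exact hT2
          have e2 : T⁻¹ * T⁻¹ = 1 := by rw [hTinv]; exact e1
          rw [e1, e2]; group
    rw [e]
    exact h.eqz_comm (hwT w hw) hw
  -- commute
  have hcomm : ∀ w ∈ H, (T * w * T⁻¹) * w = w * (T * w * T⁻¹) := by
    intro w hw
    have h1 := huA w hw
    rw [hCA] at h1
    have h2 : T * (w * (T * w * T⁻¹)) = (w * (T * w * T⁻¹)) * T :=
      (Subgroup.mem_centralizer_singleton_iff.1 h1.2).symm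
    have e1 : T * T = 1 := by rw [← pow_two]; exact hT2
    calc (T * w * T⁻¹) * w = T * (w * (T * w * T⁻¹)) * T⁻¹ := by
          calc (T * w * T⁻¹) * w = (T * w * T⁻¹) * (1 * w * 1) := by group
            _ = (T * w * T⁻¹) * (T * T * w * (T⁻¹ * T⁻¹)) := by
              have e2 : T⁻¹ * T⁻¹ = 1 := by rw [hTinv]; exact e1
              rw [e1, e2]
            _ = _ := by group
      _ = w * (T * w * T⁻¹) := by rw [h2, mul_inv_cancel_right]
  -- u(w)² = 1
  have husq : ∀ w ∈ H, (w * (T * w * T⁻¹)) ^ 2 = 1 := by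
    intro w hw
    have hc : Commute w (T * w * T⁻¹) := (hcomm w hw).symm
    rw [hc.mul_pow, conj_pow]
    rcases h.sq w hw with h1 | h1
    · rw [h1]; group
    · rw [h1]
      have : T * z * T⁻¹ = z := by
        rw [mul_inv_eq_iff_eq_mul]; exact h.zc T
      rw [this]; exact h.zz
  -- the quotient by z
  haveI hN : (Subgroup.zpowers z).Normal := by
    refine ⟨fun x hx g => ?_⟩
    rcases mem_zp h hx with rfl | rfl
    · rw [mul_one, mul_inv_cancel]; exact Subgroup.one_mem _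
    · have : g * x * g⁻¹ = x := by
        rw [mul_inv_eq_iff_eq_mul]; exact (h.zc g)
      rw [this]; exact Subgroup.mem_zpowers _
  let N : Subgroup G := Subgroup.zpowers z
  have hmkE : ∀ {a b : G}, Eqz z a b → (a : G ⧸ N) = (b : G ⧸ N) := by
    intro a b hab
    rcases hab with rfl | rfl
    · rfl
    · rw [QuotientGroup.eq]
      have : (b * z)⁻¹ * b = z⁻¹ := by group
      rw [this]
      exact Subgroup.inv_mem _ (Subgroup.mem_zpowers z)
  let ψ : ↥H →* G ⧸ N := MonoidHom.mk' (fun w => ((w * (T * w * T⁻¹) : G) : G ⧸ N)) (by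
    rintro ⟨a, ha⟩ ⟨b, hb⟩
    show (((a * b) * (T * (a * b) * T⁻¹) : G) : G ⧸ N) = (((a * (T * a * T⁻¹)) * (b * (T * b * T⁻¹)) : G) : G ⧸ N)
    apply hmkE
    have e1 : (a * b) * (T * (a * b) * T⁻¹) = a * (b * (T * a * T⁻¹)) * (T * b * T⁻¹) := by group
    have e2 : (a * (T * a * T⁻¹)) * (b * (T * b * T⁻¹)) = a * ((T * a * T⁻¹) * b) * (T * b * T⁻¹) := by group
    rw [e1, e2]
    apply h.eqz_mul _ (Or.inl rfl)
    apply h.eqz_mul (Or.inl rfl)
    exact h.eqz_comm hb (hwT a ha))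
  have hψ : ∀ w : ↥H, ψ w = (((w : G) * (T * w * T⁻¹) : G) : G ⧸ N) := fun w => rfl
  -- kernel = A
  have hker : ∀ w : ↥H, w ∈ ψ.ker ↔ (w : G) ∈ Asub h hn T := by
    rintro ⟨w, hw⟩
    rw [MonoidHom.mem_ker, hψ, QuotientGroup.eq_one_iff]
    constructor
    · intro h1
      refine ⟨hw, ?_⟩
      show Eqz z (T * w * T⁻¹) w
      -- w * w^T ∈ {1,z}; w² ∈ {1,z}
      have h2 : Eqz z (w * (T * w * T⁻¹)) 1 := by
        rcases mem_zp h h1 with h3 | h3
        · exact Or.inl h3
        · right; rw [h3, one_mul]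
      have h3 : Eqz z (w * w) 1 := by
        rw [← pow_two]
        rcases h.sq w hw with h4 | h4
        · exact Or.inl h4
        · right; rw [h4, one_mul]
      have h4 : Eqz z (w * (T * w * T⁻¹)) (w * w) := h.eqz_trans h2 (h.eqz_symm h3)
      have h5 := h.eqz_mul (show Eqz z w⁻¹ w⁻¹ from Or.inl rfl) h4
      simpa using h5
    · rintro ⟨_, h1⟩
      have h2 : Eqz z (T * w * T⁻¹) w := h1
      have h3 : Eqz z (w * (T * w * T⁻¹)) (w * w) := h.eqz_mul (Or.inl rfl) h2
      have h4 : Eqz z (w * w) 1 := by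
        rw [← pow_two]
        rcases h.sq w hw with h4 | h4
        · exact Or.inl h4
        · right; rw [h4, one_mul]
      rcases h.eqz_trans h3 h4 with h5 | h5
      · rw [h5]; exact Subgroup.one_mem _
      · rw [h5, one_mul]; exact Subgroup.mem_zpowers z
  have hkercard : Nat.card ψ.ker = 8 := by
    rw [← hA8]
    apply Nat.card_congr
    refine ⟨fun w => ⟨w.1.1, (hker w.1).1 w.2⟩, fun a => ⟨⟨a.1, a.2.1⟩, (hker _).2 a.2⟩, ?_, ?_⟩
    · intro w; rfl
    · intro a; rfl
  have hrange : Nat.card ψ.range = 4 := by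
    rw [← Subgroup.index_ker]
    have := Subgroup.card_mul_index ψ.ker
    rw [hkercard, h32] at this
    omega
  have hzord : orderOf z = 2 := orderOf_eq_prime h.z2 h.z1
  have hQ : Nat.card (G ⧸ N) = 160 := by
    have := Subgroup.card_eq_card_quotient_mul_card_subgroup N
    rw [hG, Nat.card_zpowers, hzord] at this
    omega
  let D : Subgroup G := ψ.range.comap (QuotientGroup.mk' N)
  have hDidx : D.index = 40 := by
    have h6 : D.index = ψ.range.index :=
      Subgroup.index_comap_of_surjective _ (QuotientGroup.mk'_surjective N)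
    have h7 := Subgroup.card_mul_index ψ.range
    rw [hrange, hQ] at h7
    omega
  have hDcard : Nat.card D = 8 := by
    have := Subgroup.card_mul_index D
    rw [hDidx, hG] at this
    omega
  have hDmem : ∀ d ∈ D, ∃ w ∈ H, d = w * (T * w * T⁻¹) ∨ d = w * (T * w * T⁻¹) * z := by
    intro d hd
    obtain ⟨⟨w, hw⟩, hwd⟩ := hd
    refine ⟨w, hw, ?_⟩
    have h1 : ((w * (T * w * T⁻¹) : G) : G ⧸ N) = (d : G ⧸ N) := hwd
    rw [QuotientGroup.eq] at h1
    rcases mem_zp h h1 with h2 | h2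
    · left
      exact (inv_mul_eq_one.mp h2).symm
    · right
      exact inv_mul_eq_iff_eq_mul.mp h2
  have hDA : D ≤ Asub h hn T := by
    intro d hd
    obtain ⟨w, hw, rfl | rfl⟩ := hDmem d hd
    · exact huA w hw
    · refine (Asub h hn T).mul_mem (huA w hw) ?_
      refine ⟨h.zH, Or.inl ?_⟩
      rw [mul_inv_eq_iff_eq_mul]; exact h.zc T
  have hDeq : D = Asub h hn T := by
    apply Subgroup.eq_of_le_of_card_ge hDA
    rw [hA8, hDcard]
  intro c hc
  rw [← hCA, ← hDeq] at hc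
  obtain ⟨w, hw, rfl | rfl⟩ := hDmem c hc
  · exact husq w hw
  · have hcm : Commute (w * (T * w * T⁻¹)) z := h.zc _
    rw [hcm.mul_pow, husq w hw, h.z2, one_mul]

end main

theorem result {G : Type*} [Group G] [Finite G]
    (hG : Nat.card G = 320) (hHF : Cfsg.pCore 2 G = Cfsg.fittingSubgroup G)
    (hex : Cfsg.IsExtraspecial 2 ↥(Cfsg.pCore 2 G)) (h32 : Nat.card ↥(Cfsg.pCore 2 G) = 32)
    (hminus : ∀ A : Subgroup G, A ≤ Cfsg.pCore 2 G → Cfsg.IsElementaryAbelian 2 A → Nat.card ↥A ≤ 4)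
    (T : G) (hT : orderOf T = 2) (hTH : T ∉ Cfsg.pCore 2 G)
    (V : Subgroup G) (hV : V ≤ Cfsg.pCore 2 G ⊓ Subgroup.centralizer ({T} : Set G)) (hV4 : Nat.card ↥V = 4) (hVe : Cfsg.IsElementaryAbelian 2 V) :
    Nat.card ↥(Cfsg.pCore 2 G ⊓ Subgroup.centralizer ({T} : Set G)) = 4 ∧
      Cfsg.IsElementaryAbelian 2 (Cfsg.pCore 2 G ⊓ Subgroup.centralizer ({T} : Set G)) := by
  classical
  haveI : Fact (Nat.Prime 2) := ⟨Nat.prime_two⟩
  haveI : Fact (Nat.Prime 5) := ⟨by norm_num⟩
  set H := Cfsg.pCore 2 G with hH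
  have hn : H.Normal := Cfsg.Agent.H01.pCore_normal 2
  have h2 : IsPGroup 2 H := Cfsg.Agent.H01.pCore_isPGroup 2
  have hO : ∀ N : Subgroup G, N.Normal → IsPGroup 2 N → N ≤ H := fun N hN hp => Cfsg.Agent.H01.le_pCore hN hp
  have hfit : ∀ N : Subgroup G, N.Normal → Group.IsNilpotent N → N ≤ H := by
    intro N hN hnil
    rw [hHF]
    exact Cfsg.Agent.H01.le_fitting hN hnil
  obtain ⟨z, S⟩ := exists_setup hn hex
  -- element of order five
  obtain ⟨f, hf⟩ : ∃ f : G, orderOf f = 5 := by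
    apply exists_prime_orderOf_dvd_card' 5
    rw [hG]; norm_num
  have hf5 : f ^ 5 = 1 := by rw [← hf, pow_orderOf_eq_one]
  -- centralizer of f in H
  have hcz : H ⊓ Subgroup.centralizer ({f} : Set G) ≤ Subgroup.zpowers z ∨
      ∀ h ∈ H, f * h = h * f := by
    rcases cent_card hn h32 hf with h1 | h1
    · left
      have hzm : z ∈ H ⊓ Subgroup.centralizer ({f} : Set G) :=
        ⟨S.zH, Subgroup.mem_centralizer_singleton_iff.2 (S.zc f).symm⟩
      have hzord : orderOf z = 2 := orderOf_eq_prime S.z2 S.z1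
      have hle : Subgroup.zpowers z ≤ H ⊓ Subgroup.centralizer ({f} : Set G) := by
        rw [Subgroup.zpowers_le]; exact hzm
      have := Subgroup.eq_of_le_of_card_ge hle (by rw [h1, Nat.card_zpowers, hzord])
      rw [this]
    · right
      have : H ⊓ Subgroup.centralizer ({f} : Set G) = H :=
        Subgroup.eq_of_le_of_card_ge inf_le_left (by rw [h1, h32])
      intro c hc
      rw [← this] at hc
      exact (Subgroup.mem_centralizer_singleton_iff.1 hc.2).symm
  have hcf : ∀ c ∈ H, f * c = c * f → c = 1 ∨ c = z := by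
    rcases hcz with h1 | h1
    · intro c hc hcomm
      apply mem_zp S
      exact h1 ⟨hc, Subgroup.mem_centralizer_singleton_iff.2 hcomm.symm⟩
    · exact (not_central hn h32 hG h2 hfit hf h1).elim
  have hη := T_inverts hn h32 hG h2 hO hf hT hTH
  have hA8 := card_A_le S hn h32 hη hf5 hcf
  have hT2 : T ^ 2 = 1 := by rw [← hT, pow_orderOf_eq_one]
  have hCA : H ⊓ Subgroup.centralizer ({T} : Set G) ≤ Asub S hn T := by
    rintro c ⟨hc, hc'⟩
    refine ⟨hc, Or.inl ?_⟩
    rw [mul_inv_eq_iff_eq_mul]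
    exact (Subgroup.mem_centralizer_singleton_iff.1 hc').symm
  have hcases : Nat.card ↥(H ⊓ Subgroup.centralizer ({T} : Set G)) = 4 := by
    by_contra hne
    have h4 : 4 ∣ Nat.card ↥(H ⊓ Subgroup.centralizer ({T} : Set G)) := by
      rw [← hV4]; exact Subgroup.card_dvd_of_le hV
    have hle1 : Nat.card ↥(H ⊓ Subgroup.centralizer ({T} : Set G)) ≤ Nat.card (Asub S hn T) :=
      Subgroup.card_le_of_le hCA
    have h8 : Nat.card ↥(H ⊓ Subgroup.centralizer ({T} : Set G)) = 8 := by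
      obtain ⟨k, hk⟩ := h4
      have hk0 : k ≠ 0 := by
        rintro rfl
        have : 0 < Nat.card ↥(H ⊓ Subgroup.centralizer ({T} : Set G)) := Nat.card_pos
        omega
      have hk2 : k ≤ 2 := by omega
      interval_cases k <;> omega
    have hA8' : Nat.card (Asub S hn T) = 8 := by omega
    have hCAeq : Asub S hn T = H ⊓ Subgroup.centralizer ({T} : Set G) :=
      (Subgroup.eq_of_le_of_card_ge hCA (by rw [hA8', h8])).symm
    have hall := last_step S hn h32 hG hT2 hA8' hCAeq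
    have hel : Cfsg.IsElementaryAbelian 2 (H ⊓ Subgroup.centralizer ({T} : Set G)) := by
      refine ⟨⟨⟨?_⟩⟩, hall⟩
      have hsq : ∀ g : ↥(H ⊓ Subgroup.centralizer ({T} : Set G)), g ^ 2 = 1 :=
        fun g => Subtype.ext (hall g.1 g.2)
      exact Cfsg.Agent.H18.comm_of_sq_eq_one hsq
    have := hminus _ inf_le_left hel
    omega
  have hVC : V = H ⊓ Subgroup.centralizer ({T} : Set G) :=
    Subgroup.eq_of_le_of_card_ge hV (by rw [hcases, hV4])
  refine ⟨hcases, ?_⟩
  rw [← hVC]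
  exact hVe

end Cfsg.Agent.S4405
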