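import Cfsg.Statements.S4406
import Cfsg.Agent.Lib.H20.Basic

set_option autoImplicit false
open Cfsg

namespace Cfsg.Agent.S4406

abbrev A4 := alternatingGroup (Fin 4)

def P (c e x1 y1 x2 y2 : A4) : Prop :=
    (c * x1 * c⁻¹ = x1 ∧ e * y1 * e⁻¹ = y1 ∨ c * x1 * c⁻¹ = x2 ∧ e * y1 * e⁻¹ = y2 ∨ c * x1 * c⁻¹ = x1 * x2 ∧ e * y1 * e⁻¹ = y1 * y2) ∧
    (c * x2 * c⁻¹ = x1 ∧ e * y2 * e⁻¹ = y1 ∨ c * x2 * c⁻¹ = x2 ∧ e * y2 * e⁻¹ = y2 ∨ c * x2 * c⁻¹ = x1 * x2 ∧ e * y2 * e⁻¹ = y1 * y2)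

instance (c d x1 y1 x2 y2 : A4) : Decidable (P c d x1 y1 x2 y2) := by unfold P; infer_instance

set_option maxRecDepth 1000000 in
set_option synthInstance.maxHeartbeats 0 in
set_option synthInstance.maxSize 100000 in
lemma key : ∀ c : A4, c ^ 3 = 1 → c ≠ 1 → ∀ d : A4, d ^ 3 = 1 → d ≠ 1 →
   ∀ x1 : A4, x1 ^ 2 = 1 → x1 ≠ 1 → ∀ y1 : A4, y1 ^ 2 = 1 → y1 ≠ 1 →
   ∀ x2 : A4, x2 ^ 2 = 1 → x2 ≠ 1 → x1 ≠ x2 → ∀ y2 : A4, y2 ^ 2 = 1 → y2 ≠ 1 → y1 ≠ y2 →
   P c d x1 y1 x2 y2 ∨ P c d⁻¹ x1 y1 x2 y2 := by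
  decide +kernel

lemma sq_or_cube : ∀ a : A4, a ^ 2 = 1 ∨ a ^ 3 = 1 := by decide +kernel

lemma card_A4 : Nat.card A4 = 12 := by
  rw [Nat.card_eq_fintype_card]; decide +kernel

lemma sq_of_two_element (a : A4) (k : ℕ) (h : a ^ 2 ^ k = 1) : a ^ 2 = 1 := by
  rcases sq_or_cube a with h2 | h3
  · exact h2
  · have h1 : orderOf a ∣ 2 ^ k := orderOf_dvd_of_pow_eq_one h
    have h4 : orderOf a ∣ 3 := orderOf_dvd_of_pow_eq_one h3
    have h5 : Nat.Coprime (2 ^ k) 3 := Nat.Coprime.pow_left k (by norm_num)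
    have h6 : orderOf a ∣ 1 := by
      have := Nat.dvd_gcd h1 h4
      rwa [h5.gcd_eq_one] at this
    have h7 : a = 1 := orderOf_eq_one_iff.mp (Nat.dvd_one.mp h6)
    simp [h7]

theorem result
    (X : Sylow 2 (↥(alternatingGroup (Fin 4)) × ↥(alternatingGroup (Fin 4))))
    (Q : Sylow 3 (↥(alternatingGroup (Fin 4)) × ↥(alternatingGroup (Fin 4))))
    (B : Subgroup (↥(alternatingGroup (Fin 4)) × ↥(alternatingGroup (Fin 4)))) (hBX : B ≤ (X : Subgroup _)) (hB4 : Nat.card ↥B = 4) :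
    B ⊓ ((X : Subgroup _) ⊓ Subgroup.prod ⊤ ⊥) ≠ ⊥ ∨ B ⊓ ((X : Subgroup _) ⊓ Subgroup.prod ⊥ ⊤) ≠ ⊥ ∨
      ∃ R : Subgroup (↥(alternatingGroup (Fin 4)) × ↥(alternatingGroup (Fin 4))), R ≤ (Q : Subgroup _) ∧ Nat.card ↥R = 3 ∧
        R ≠ (Q : Subgroup _) ⊓ Subgroup.prod ⊤ ⊥ ∧ R ≠ (Q : Subgroup _) ⊓ Subgroup.prod ⊥ ⊤ ∧ R ≤ Subgroup.normalizer (B : Set _) := by
  classical
  by_cases h1 : B ⊓ ((X : Subgroup _) ⊓ Subgroup.prod ⊤ ⊥) = ⊥
  swap
  · exact Or.inl h1
  by_cases h2 : B ⊓ ((X : Subgroup _) ⊓ Subgroup.prod ⊥ ⊤) = ⊥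
  swap
  · exact Or.inr (Or.inl h2)
  refine Or.inr (Or.inr ?_)
  have hB1 : ∀ a, ((a, 1) : A4 × A4) ∈ B → a = 1 := by
    intro a ha
    have : ((a, 1) : A4 × A4) ∈ B ⊓ ((X : Subgroup _) ⊓ Subgroup.prod ⊤ ⊥) :=
      ⟨ha, hBX ha, by simp [Subgroup.mem_prod]⟩
    rw [h1, Subgroup.mem_bot] at this
    exact congrArg Prod.fst this
  have hB2 : ∀ b, ((1, b) : A4 × A4) ∈ B → b = 1 := by
    intro a ha
    have : ((1, a) : A4 × A4) ∈ B ⊓ ((X : Subgroup _) ⊓ Subgroup.prod ⊥ ⊤) :=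
      ⟨ha, hBX ha, by simp [Subgroup.mem_prod]⟩
    rw [h2, Subgroup.mem_bot] at this
    exact congrArg Prod.snd this
  -- squares in B
  have hsq : ∀ g ∈ B, g ^ 2 = 1 := by
    intro g hg
    obtain ⟨k, hk⟩ := (X.isPGroup' ⟨g, hBX hg⟩)
    have hk' : g ^ 2 ^ k = 1 := by
      have := congrArg Subtype.val hk
      simpa using this
    have h3 : g.1 ^ 2 ^ k = 1 := by
      have := congrArg Prod.fst hk'
      simpa using this
    have h4 : g.2 ^ 2 ^ k = 1 := by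
      have := congrArg Prod.snd hk'
      simpa using this
    exact Prod.ext (by simpa using sq_of_two_element _ _ h3) (by simpa using sq_of_two_element _ _ h4)
  -- the Sylow 3-subgroup has order 9
  have hcardG : Nat.card (A4 × A4) = 144 := by
    rw [Nat.card_prod, card_A4]
  have hQ9 : Nat.card (Q : Subgroup (A4 × A4)) = 9 := by
    have hdvd : Nat.card (Q : Subgroup (A4 × A4)) ∣ 144 := by
      rw [← hcardG]; exact Subgroup.card_subgroup_dvd_card _
    obtain ⟨k, hk⟩ := (IsPGroup.iff_card.mp Q.isPGroup')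
    have hind : Nat.card (Q : Subgroup (A4 × A4)) * (Q : Subgroup (A4 × A4)).index = 144 := by
      rw [Subgroup.card_mul_index, hcardG]
    have hnd : ¬ 3 ∣ (Q : Subgroup (A4 × A4)).index := Q.not_dvd_index
    rw [hk] at hind hdvd ⊢
    match k, hind, hdvd with
    | 0, hi, _ =>
      exfalso; apply hnd
      have : (Q : Subgroup (A4 × A4)).index = 144 := by simpa using hi
      rw [this]; norm_num
    | 1, hi, _ =>
      exfalso; apply hnd
      have : (Q : Subgroup (A4 × A4)).index = 48 := by omega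
      rw [this]; norm_num
    | 2, _, _ => norm_num
    | (n + 3), _, hd =>
      exfalso
      have : 3 ^ 3 ∣ 144 := (pow_dvd_pow 3 (by omega)).trans hd
      norm_num at this
  let Q1 := (Q : Subgroup (A4 × A4)).map (MonoidHom.fst A4 A4)
  let Q2 := (Q : Subgroup (A4 × A4)).map (MonoidHom.snd A4 A4)
  have hQ1 : Nat.card Q1 ∣ 3 := by
    have h3 : Nat.card Q1 ∣ 9 := by rw [← hQ9]; exact Subgroup.card_map_dvd _ _
    have h4 : Nat.card Q1 ∣ 12 := by rw [← card_A4]; exact Subgroup.card_subgroup_dvd_card _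
    exact Nat.dvd_gcd h3 h4
  have hQ2 : Nat.card Q2 ∣ 3 := by
    have h3 : Nat.card Q2 ∣ 9 := by rw [← hQ9]; exact Subgroup.card_map_dvd _ _
    have h4 : Nat.card Q2 ∣ 12 := by rw [← card_A4]; exact Subgroup.card_subgroup_dvd_card _
    exact Nat.dvd_gcd h3 h4
  have hle : (Q : Subgroup (A4 × A4)) ≤ Q1.prod Q2 := by
    intro g hg
    exact ⟨⟨g, hg, rfl⟩, ⟨g, hg, rfl⟩⟩
  have hcardprod : Nat.card (Q1.prod Q2) = Nat.card Q1 * Nat.card Q2 := by
    rw [Nat.card_congr (Subgroup.prodEquiv Q1 Q2).toEquiv, Nat.card_prod]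
  have hQ1le : Nat.card Q1 ≤ 3 := Nat.le_of_dvd (by norm_num) hQ1
  have hQ2le : Nat.card Q2 ≤ 3 := Nat.le_of_dvd (by norm_num) hQ2
  have h9le : 9 ≤ Nat.card Q1 * Nat.card Q2 := by
    rw [← hcardprod, ← hQ9]
    exact Subgroup.card_le_of_le hle
  have hQ1' : Nat.card Q1 = 3 := by
    by_contra hne
    have : Nat.card Q1 ≤ 2 := by omega
    have := Nat.mul_le_mul this hQ2le
    omega
  have hQ2' : Nat.card Q2 = 3 := by
    by_contra hne
    have : Nat.card Q2 ≤ 2 := by omega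
    have := Nat.mul_le_mul hQ1le this
    omega
  have hQeq : (Q : Subgroup (A4 × A4)) = Q1.prod Q2 := by
    apply Subgroup.eq_of_le_of_card_ge hle
    rw [hcardprod, hQ1', hQ2', hQ9]
  have hexists : ∀ K : Subgroup A4, Nat.card K = 3 → ∃ c ∈ K, c ≠ 1 ∧ c ^ 3 = 1 := by
    intro K hK
    have : Nontrivial K := by
      rw [← Finite.one_lt_card_iff_nontrivial, hK]; norm_num
    obtain ⟨c, hc⟩ := exists_ne (1 : K)
    refine ⟨c, c.2, by simpa using hc, ?_⟩
    have := pow_card_eq_one' (x := c)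
    rw [hK] at this
    exact_mod_cast congrArg Subtype.val this
  obtain ⟨c, hcQ, hc1, hc3⟩ := hexists Q1 hQ1'
  obtain ⟨d, hdQ, hd1, hd3⟩ := hexists Q2 hQ2'
  -- two elements of B
  have hone_lt : 1 < Nat.card B := by omega
  have : Nontrivial B := Finite.one_lt_card_iff_nontrivial.mp hone_lt
  obtain ⟨u0, hu0⟩ := exists_ne (1 : B)
  obtain ⟨u, huB, hu1⟩ : ∃ u ∈ B, u ≠ 1 := ⟨u0.1, u0.2, by simpa using hu0⟩
  obtain ⟨v, hvB, hv1, hvu⟩ : ∃ v ∈ B, v ≠ 1 ∧ v ≠ u := by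
    by_contra hcon
    push Not at hcon
    have hsub : (B : Set (A4 × A4)) ⊆ ({1, u} : Finset (A4 × A4)) := by
      intro w hw
      by_cases hw1 : w = 1
      · simp [hw1]
      · simp [hcon w hw hw1]
    have h3 : Nat.card B ≤ 2 := by
      have := Set.ncard_le_ncard hsub (Finset.finite_toSet _)
      rw [Set.ncard_coe_finset] at this
      have h5 : Nat.card B = (B : Set (A4 × A4)).ncard := rfl
      have h6 : ({1, u} : Finset (A4 × A4)).card ≤ 2 := Finset.card_le_two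
      omega
    omega
  obtain ⟨x1, y1⟩ := u
  obtain ⟨x2, y2⟩ := v
  have hx1 : x1 ≠ 1 := by
    rintro rfl
    have := hB2 y1 huB
    exact hu1 (by simp [this])
  have hy1 : y1 ≠ 1 := by
    rintro rfl
    have := hB1 x1 huB
    exact hu1 (by simp [this])
  have hx2 : x2 ≠ 1 := by
    rintro rfl
    have := hB2 y2 hvB
    exact hv1 (by simp [this])
  have hy2 : y2 ≠ 1 := by
    rintro rfl
    have := hB1 x2 hvB
    exact hv1 (by simp [this])
  have hs1 := hsq _ huB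
  have hs2 := hsq _ hvB
  have hx1s : x1 ^ 2 = 1 := congrArg Prod.fst hs1
  have hy1s : y1 ^ 2 = 1 := congrArg Prod.snd hs1
  have hx2s : x2 ^ 2 = 1 := congrArg Prod.fst hs2
  have hy2s : y2 ^ 2 = 1 := congrArg Prod.snd hs2
  have hinv : ∀ a : A4, a ^ 2 = 1 → a⁻¹ = a := by
    intro a ha
    rw [inv_eq_iff_mul_eq_one, ← sq, ha]
  have huvB : ((x1, y1) * (x2, y2) : A4 × A4) ∈ B := B.mul_mem huB hvB
  have hxx : x1 ≠ x2 := by
    rintro rfl
    have h3 : ((1, y1 * y2) : A4 × A4) ∈ B := by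
      have : ((x1, y1) * (x1, y2) : A4 × A4) = (1, y1 * y2) := by
        simp [← sq, hx1s]
      rwa [this] at huvB
    have h4 := hB2 _ h3
    have h5 : y1 = y2 := by
      have := eq_inv_of_mul_eq_one_left h4
      rwa [hinv _ hy2s] at this
    exact hvu (by rw [h5])
  have hyy : y1 ≠ y2 := by
    rintro rfl
    have h3 : ((x1 * x2, 1) : A4 × A4) ∈ B := by
      have : ((x1, y1) * (x2, y1) : A4 × A4) = (x1 * x2, 1) := by
        simp [← sq, hy1s]
      rwa [this] at huvB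
    have h4 := hB1 _ h3
    have h5 : x1 = x2 := by
      have := eq_inv_of_mul_eq_one_left h4
      rwa [hinv _ hx2s] at this
    exact hvu (by rw [h5])
  have hkey := key c hc3 hc1 d hd3 hd1 x1 hx1s hx1 y1 hy1s hy1 x2 hx2s hx2 hxx y2 hy2s hy2 hyy
  obtain ⟨e, hed, hP⟩ : ∃ e : A4, (e = d ∨ e = d⁻¹) ∧ P c e x1 y1 x2 y2 := by
    rcases hkey with h | h
    · exact ⟨d, Or.inl rfl, h⟩
    · exact ⟨d⁻¹, Or.inr rfl, h⟩
  have he1 : e ≠ 1 := by
    rcases hed with rfl | rfl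
    · exact hd1
    · simpa using hd1
  have he3 : e ^ 3 = 1 := by
    rcases hed with rfl | rfl
    · exact hd3
    · simp [hd3]
  have heQ2 : e ∈ Q2 := by
    rcases hed with rfl | rfl
    · exact hdQ
    · exact Q2.inv_mem hdQ
  let g : A4 × A4 := (c, e)
  have hgQ : g ∈ (Q : Subgroup (A4 × A4)) := by
    rw [hQeq]
    exact ⟨hcQ, heQ2⟩
  have hg3 : g ^ 3 = 1 := Prod.ext hc3 he3
  have hg1 : g ≠ 1 := fun h => hc1 (congrArg Prod.fst h)
  have hconj1 : g * (x1, y1) * g⁻¹ ∈ B := by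
    rcases hP.1 with ⟨h3, h4⟩ | ⟨h3, h4⟩ | ⟨h3, h4⟩
    · have : g * (x1, y1) * g⁻¹ = (x1, y1) := Prod.ext h3 h4
      rwa [this]
    · have : g * (x1, y1) * g⁻¹ = (x2, y2) := Prod.ext h3 h4
      rwa [this]
    · have : g * (x1, y1) * g⁻¹ = (x1, y1) * (x2, y2) := Prod.ext h3 h4
      rwa [this]
  have hconj2 : g * (x2, y2) * g⁻¹ ∈ B := by
    rcases hP.2 with ⟨h3, h4⟩ | ⟨h3, h4⟩ | ⟨h3, h4⟩
    · have : g * (x2, y2) * g⁻¹ = (x1, y1) := Prod.ext h3 h4
      rwa [this]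
    · have : g * (x2, y2) * g⁻¹ = (x2, y2) := Prod.ext h3 h4
      rwa [this]
    · have : g * (x2, y2) * g⁻¹ = (x1, y1) * (x2, y2) := Prod.ext h3 h4
      rwa [this]
  have hBeq : ∀ w ∈ B, w = 1 ∨ w = (x1, y1) ∨ w = (x2, y2) ∨ w = (x1, y1) * (x2, y2) := by
    classical
    let S : Finset (A4 × A4) := {1, (x1, y1), (x2, y2), (x1, y1) * (x2, y2)}
    have hScard : S.card = 4 := by
      rw [Finset.card_insert_of_notMem, Finset.card_insert_of_notMem, Finset.card_insert_of_notMem,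
        Finset.card_singleton]
      · simp only [Finset.mem_singleton]
        intro h3
        have : (x1, y1) = (1 : A4 × A4) := by
          have h4 := hvu
          have : (x2, y2) = ((x1, y1) * (x2, y2) : A4 × A4) := h3
          have h5 := mul_eq_right.mp this.symm
          exact h5
        exact hu1 this
      · simp only [Finset.mem_insert, Finset.mem_singleton, not_or]
        refine ⟨Ne.symm hvu, ?_⟩
        intro h3
        have h5 := mul_eq_left.mp h3.symm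
        exact hv1 h5
      · simp only [Finset.mem_insert, Finset.mem_singleton, not_or]
        refine ⟨Ne.symm hu1, Ne.symm hv1, ?_⟩
        intro h3
        have h4 : ((x1, y1) : A4 × A4) * (x2, y2) = 1 := h3.symm
        have h5 : x1 * x2 = 1 := congrArg Prod.fst h4
        apply hxx
        have := eq_inv_of_mul_eq_one_left h5
        rwa [hinv _ hx2s] at this
    have hSB : (S : Set (A4 × A4)) ⊆ B := by
      intro w hw
      simp only [S, Finset.coe_insert, Finset.coe_singleton, Set.mem_insert_iff,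
        Set.mem_singleton_iff] at hw
      rcases hw with rfl | rfl | rfl | rfl
      · exact B.one_mem
      · exact huB
      · exact hvB
      · exact huvB
    have hSeq : (S : Set (A4 × A4)) = B := by
      apply Set.eq_of_subset_of_ncard_le hSB
      · have h5 : Nat.card B = (B : Set (A4 × A4)).ncard := rfl
        rw [Set.ncard_coe_finset, hScard, ← h5, hB4]
    intro w hw
    have : w ∈ (S : Set (A4 × A4)) := by rw [hSeq]; exact hw
    simpa [S] using this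
  have hnorm : g ∈ Subgroup.normalizer (B : Set (A4 × A4)) := by
    apply H20.mem_normalizer_of_conj_le
    intro w hw
    rcases hBeq w hw with rfl | rfl | rfl | rfl
    · simp [B.one_mem]
    · exact hconj1
    · exact hconj2
    · have : g * ((x1, y1) * (x2, y2)) * g⁻¹ = (g * (x1, y1) * g⁻¹) * (g * (x2, y2) * g⁻¹) := by
        group
      rw [this]
      exact B.mul_mem hconj1 hconj2
  refine ⟨Subgroup.zpowers g, ?_, ?_, ?_, ?_, ?_⟩
  · rw [Subgroup.zpowers_le]; exact hgQ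
  · rw [Nat.card_zpowers]
    have : Fact (Nat.Prime 3) := ⟨by norm_num⟩
    exact orderOf_eq_prime hg3 hg1
  · intro h3
    have : g ∈ (Q : Subgroup (A4 × A4)) ⊓ Subgroup.prod ⊤ ⊥ := by
      rw [← h3]; exact Subgroup.mem_zpowers g
    exact he1 (by simpa [Subgroup.mem_prod] using this.2.2)
  · intro h3
    have : g ∈ (Q : Subgroup (A4 × A4)) ⊓ Subgroup.prod ⊥ ⊤ := by
      rw [← h3]; exact Subgroup.mem_zpowers g
    exact hc1 (by simpa [Subgroup.mem_prod] using this.2.1)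
  · rw [Subgroup.zpowers_le]; exact hnorm

end Cfsg.Agent.S4406
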