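import Cfsg.Statements.S4407
import Cfsg.Agent.Lib.H20.FR2
import Mathlib

set_option autoImplicit false
set_option linter.unusedVariables false
set_option linter.unusedSectionVars false
set_option linter.style.haveILetI false

open Cfsg

namespace Cfsg.Agent.S4407

open Cfsg.Agent.H20.FR

abbrev D4 := DihedralGroup 4

def K0F : Finset D4 := {1, DihedralGroup.r 2, DihedralGroup.sr 0, DihedralGroup.sr 2}
def K1F : Finset D4 := {1, DihedralGroup.r 2, DihedralGroup.sr 1, DihedralGroup.sr 3}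

def K0 : Subgroup D4 where
  carrier := {x | x ∈ K0F}
  mul_mem' := by
    have : ∀ x ∈ K0F, ∀ y ∈ K0F, x * y ∈ K0F := by decide
    intro x y hx hy
    exact this x hx y hy
  one_mem' := by
    show 1 ∈ K0F
    decide
  inv_mem' := by
    have : ∀ x ∈ K0F, x⁻¹ ∈ K0F := by decide
    intro x hx
    exact this x hx

def K1 : Subgroup D4 where
  carrier := {x | x ∈ K1F}
  mul_mem' := by
    have : ∀ x ∈ K1F, ∀ y ∈ K1F, x * y ∈ K1F := by decide
    intro x y hx hy
    exact this x hx y hy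
  one_mem' := by
    show 1 ∈ K1F
    decide
  inv_mem' := by
    have : ∀ x ∈ K1F, x⁻¹ ∈ K1F := by decide
    intro x hx
    exact this x hx

theorem D4_klein : ∀ T : Finset D4, T.card = 4 → 1 ∈ T → (∀ x ∈ T, ∀ y ∈ T, x * y ∈ T) → (∀ x ∈ T, x * x = 1) →
    T = K0F ∨ T = K1F := by decide +kernel

theorem K0_card : Nat.card K0 = 4 := by
  show Nat.card {x // x ∈ K0F} = 4
  rw [Nat.card_eq_fintype_card, Fintype.card_coe]; decide

theorem K1_card : Nat.card K1 = 4 := by
  show Nat.card {x // x ∈ K1F} = 4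
  rw [Nat.card_eq_fintype_card, Fintype.card_coe]; decide

theorem K0_two : ∀ x ∈ K0, x ^ 2 = 1 := by
  have : ∀ x ∈ K0F, x ^ 2 = 1 := by decide
  exact this

theorem K1_two : ∀ x ∈ K1, x ^ 2 = 1 := by
  have : ∀ x ∈ K1F, x ^ 2 = 1 := by decide
  exact this

theorem mem_K0 {d : D4} (h : d ∈ K0) : d = 1 ∨ d = DihedralGroup.r 2 ∨ d = DihedralGroup.sr 0 ∨ d = DihedralGroup.sr 2 := by
  have : ∀ x ∈ K0F, x = 1 ∨ x = DihedralGroup.r 2 ∨ x = DihedralGroup.sr 0 ∨ x = DihedralGroup.sr 2 := by decide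
  exact this d h

theorem mem_K1 {d : D4} (h : d ∈ K1) : d = 1 ∨ d = DihedralGroup.r 2 ∨ d = DihedralGroup.sr 1 ∨ d = DihedralGroup.sr 3 := by
  have : ∀ x ∈ K1F, x = 1 ∨ x = DihedralGroup.r 2 ∨ x = DihedralGroup.sr 1 ∨ x = DihedralGroup.sr 3 := by decide
  exact this d h

theorem klein_cases (B : Subgroup D4) (h4 : Nat.card B = 4) (h2 : ∀ x ∈ B, x ^ 2 = 1) : B = K0 ∨ B = K1 := by
  classical
  let T : Finset D4 := Finset.univ.filter (· ∈ B)
  have hT : ∀ x, x ∈ T ↔ x ∈ B := by simp [T]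
  have hcard : T.card = 4 := by
    rw [← h4, Nat.card_eq_fintype_card, Fintype.card_subtype]
  rcases D4_klein T hcard ((hT 1).2 B.one_mem)
    (fun x hx y hy => (hT _).2 (B.mul_mem ((hT x).1 hx) ((hT y).1 hy)))
    (fun x hx => by rw [← sq]; exact h2 x ((hT x).1 hx)) with h | h
  · left; ext x; rw [← hT, h]; rfl
  · right; ext x; rw [← hT, h]; rfl

section finish
variable {S M : Type*} [Group S] [Finite S] [AddCommGroup M] [Module (ZMod 2) M] [Finite M]
  (ρ : Representation (ZMod 2) S M)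

theorem finish (X : Subgroup S) (e : ↥X ≃* D4) (Kg Kb : Subgroup D4)
    (hcases : ∀ B' : Subgroup D4, Nat.card B' = 4 → (∀ x ∈ B', x ^ 2 = 1) → B' = Kg ∨ B' = Kb)
    (hg4 : Nat.card Kg = 4) (hg2 : ∀ x ∈ Kg, x ^ 2 = 1) (u p q : M) (hu : u ≠ 0)
    (hg : ∀ m, (∀ d ∈ Kg, ρ (e.symm d : S) m = m) ↔ (m = 0 ∨ m = u))
    (hp : p ≠ 0) (hq : q ≠ 0) (hpq : p ≠ q)
    (hbp : ∀ d ∈ Kb, ρ (e.symm d : S) p = p) (hbq : ∀ d ∈ Kb, ρ (e.symm d : S) q = q) :
    ∃! B : Subgroup S, B ≤ X ∧ Nat.card ↥B = 4 ∧ (∀ b ∈ B, b ^ 2 = 1) ∧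
        Nat.card {m : M // ∀ b ∈ B, ρ b m = m} = 2 := by
  classical
  let ι : D4 →* S := X.subtype.comp e.symm.toMonoidHom
  have hι : Function.Injective ι := by
    intro x y h
    have : (e.symm x : S) = (e.symm y : S) := h
    exact e.symm.injective (Subtype.ext this)
  have hιd : ∀ d, ι d = (e.symm d : S) := fun d => rfl
  have hcard_map : ∀ K : Subgroup D4, Nat.card (K.map ι) = Nat.card K := by
    intro K
    exact (Nat.card_congr (K.equivMapOfInjective ι hι).toEquiv).symm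
  have hrange : ∀ B : Subgroup S, B ≤ X → (B.comap ι).map ι = B := by
    intro B hB
    apply Subgroup.map_comap_eq_self
    intro x hx
    have hxX : x ∈ X := hB hx
    exact ⟨e ⟨x, hxX⟩, by simp [hιd]⟩
  refine ⟨Kg.map ι, ⟨?_, ?_, ?_, ?_⟩, ?_⟩
  · rintro _ ⟨d, _, rfl⟩
    exact (e.symm d).2
  · rw [hcard_map, hg4]
  · rintro _ ⟨d, hd, rfl⟩
    rw [← map_pow, hg2 d hd, map_one]
  · rw [Nat.card_eq_two_iff]
    have hall : ∀ m, (∀ b ∈ Kg.map ι, ρ b m = m) ↔ (m = 0 ∨ m = u) := by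
      intro m
      rw [← hg m]
      constructor
      · intro h d hd
        exact h _ ⟨d, hd, rfl⟩
      · rintro h _ ⟨d, hd, rfl⟩
        exact h d hd
    refine ⟨⟨0, (hall 0).2 (Or.inl rfl)⟩, ⟨u, (hall u).2 (Or.inr rfl)⟩, ?_, ?_⟩
    · intro h
      exact hu (congrArg Subtype.val h).symm
    · ext ⟨m, hm⟩
      simp only [Set.mem_insert_iff, Set.mem_singleton_iff, Set.mem_univ, iff_true, Subtype.mk.injEq]
      exact (hall m).1 hm
  · rintro B ⟨hBX, hB4, hB2, hBfix⟩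
    have hc : Nat.card (B.comap ι) = 4 := by
      rw [← hcard_map, hrange B hBX, hB4]
    have h2' : ∀ x ∈ B.comap ι, x ^ 2 = 1 := by
      intro x hx
      apply hι
      rw [map_pow, map_one]
      exact hB2 _ hx
    rcases hcases _ hc h2' with h | h
    · rw [← hrange B hBX, h]
    · exfalso
      have hbb : ∀ y, (∀ d ∈ Kb, ρ (e.symm d : S) y = y) → ∀ b ∈ B, ρ b y = y := by
        intro y hy b hb
        have hbb' : b ∈ (B.comap ι).map ι := by rw [hrange B hBX]; exact hb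
        obtain ⟨d, hd, rfl⟩ := hbb'
        rw [h] at hd
        exact hy d hd
      haveI : Fintype {m : M // ∀ b ∈ B, ρ b m = m} := Fintype.ofFinite _
      have h3 : 2 < Fintype.card {m : M // ∀ b ∈ B, ρ b m = m} := by
        rw [Fintype.two_lt_card_iff]
        refine ⟨⟨0, fun b _ => map_zero _⟩, ⟨p, hbb p hbp⟩, ⟨q, hbb q hbq⟩, ?_, ?_, ?_⟩
        · intro h; exact hp (congrArg Subtype.val h).symm
        · intro h; exact hq (congrArg Subtype.val h).symm
        · intro h; exact hpq (congrArg Subtype.val h)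
      rw [Nat.card_eq_fintype_card] at hBfix
      omega

theorem fix_e {c : S} (hc : c ^ 3 = 1) (m : M) :
    ρ c (m + ρ c m + ρ c (ρ c m)) = m + ρ c m + ρ c (ρ c m) := by
  have e : c * c * c = 1 := by rw [← hc, pow_succ, sq]
  have h3 : ρ c (ρ c (ρ c m)) = m := by
    rw [← rep_mul, ← rep_mul, e, rep_one]
  rw [map_add, map_add, h3]
  abel

end finish

/-- S4407 -/
theorem result {S : Type*} [Group S] [Finite S]
    (A : Subgroup S) [A.Normal] (hA : Cfsg.IsElementaryAbelian 3 A) (hA9 : Nat.card ↥A = 9)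
    (hAC : Subgroup.centralizer (A : Set S) = A) (X : Subgroup S) (hX : Nonempty (↥X ≃* DihedralGroup 4)) (hAX : A ⊔ X = ⊤)
    {M : Type*} [AddCommGroup M] [Module (ZMod 2) M] [Finite M] (ρ : Representation (ZMod 2) S M)
    (hfaith : Function.Injective ρ)
    (hirr : ∀ N : Submodule (ZMod 2) M, (∀ s : S, ∀ m ∈ N, ρ s m ∈ N) → N = ⊥ ∨ N = ⊤) (hM : Nontrivial M) :
    Nat.card M = 16 ∧
      ∃! B : Subgroup S, B ≤ X ∧ Nat.card ↥B = 4 ∧ (∀ b ∈ B, b ^ 2 = 1) ∧
        Nat.card {m : M // ∀ b ∈ B, ρ b m = m} = 2 := by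
  classical
  obtain ⟨e⟩ := hX
  obtain ⟨a, b, haA, hbA, ha1, ha3, hb3, hab, hra, hrb, hta, htb, hAle⟩ :=
    frame_exists A hA hA9 hAC X e hAX
  obtain ⟨r, hr⟩ : ∃ r : S, r = (e.symm (DihedralGroup.r 1) : S) := ⟨_, rfl⟩
  obtain ⟨t, ht⟩ : ∃ t : S, t = (e.symm (DihedralGroup.sr 0) : S) := ⟨_, rfl⟩
  rw [← hr] at hra hrb
  rw [← ht] at hta htb
  have hrX : r ∈ X := by rw [hr]; exact (e.symm _).2
  have htX : t ∈ X := by rw [ht]; exact (e.symm _).2
  have hXcard : Nat.card X = 2 ^ 3 := by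
    rw [Nat.card_congr e.toEquiv, DihedralGroup.nat_card]; norm_num
  have hXp : IsPGroup 2 X := IsPGroup.of_card hXcard
  have hgen : Subgroup.closure ({r, t, a, b} : Set S) = ⊤ := by
    rw [eq_top_iff, ← hAX, sup_le_iff]
    constructor
    · refine hAle.trans (Subgroup.closure_mono ?_)
      intro x hx
      simp only [Set.mem_insert_iff, Set.mem_singleton_iff] at hx ⊢
      tauto
    · intro x hx
      have hdec : ∀ d : D4, ∃ i j : Fin 4, d = DihedralGroup.r 1 ^ i.val * DihedralGroup.sr 0 ^ j.val := by decide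
      obtain ⟨i, j, hd⟩ := hdec (e ⟨x, hx⟩)
      have hx' : x = r ^ i.val * t ^ j.val := by
        have h1 : (⟨x, hx⟩ : X) = e.symm (DihedralGroup.r 1 ^ i.val * DihedralGroup.sr 0 ^ j.val) := by
          rw [← hd]; simp
        have h2 := congrArg Subtype.val h1
        rw [map_mul, map_pow, map_pow] at h2
        simpa [hr, ht] using h2
      rw [hx']
      refine Subgroup.mul_mem _ (Subgroup.pow_mem _ (Subgroup.subset_closure ?_) _) (Subgroup.pow_mem _ (Subgroup.subset_closure ?_) _) <;> simp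
  have hne_of : ∀ c : S, c ≠ 1 → ∃ m, ρ c m ≠ m := by
    intro c hc
    by_contra hcon
    push Not at hcon
    apply hc
    apply hfaith
    rw [map_one]
    ext m
    exact hcon m
  have hmul := rep_mul ρ
  have hcomm : ∀ m, ρ a (ρ b m) = ρ b (ρ a m) := by
    intro m; rw [← hmul, ← hmul, hab]
  have hbr : ∀ m, ρ a m = m → ρ b (ρ r m) = ρ r m := by
    intro m hm
    rw [← hra, rep_conj, hm]
  have har : ∀ m, ρ b m = m → ρ a (ρ r m) = ρ r m := by
    intro m hm
    have e1 : a = r * b⁻¹ * r⁻¹ := by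
      have : r * b⁻¹ * r⁻¹ = (r * b * r⁻¹)⁻¹ := by group
      rw [this, hrb, inv_inv]
    rw [e1, rep_conj, rep_inv_fix ρ hm]
  have hat : ∀ m, ρ a m = m → ρ a (ρ t m) = ρ t m := by
    intro m hm
    nth_rw 1 [← hta]
    rw [rep_conj, hm]
  have hbt : ∀ m, ρ b m = m → ρ b (ρ t m) = ρ t m := by
    intro m hm
    have e1 : b = t * b⁻¹ * t⁻¹ := by
      have : t * b⁻¹ * t⁻¹ = (t * b * t⁻¹)⁻¹ := by group
      rw [this, htb, inv_inv]
    nth_rw 1 [e1]
    rw [rep_conj, rep_inv_fix ρ hm]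
  let W : Submodule (ZMod 2) M :=
    { carrier := {m | ∃ m₁ m₂, m = m₁ + m₂ ∧ ρ a m₁ = m₁ ∧ ρ b m₂ = m₂}
      add_mem' := by
        rintro x y ⟨x₁, x₂, rfl, hx₁, hx₂⟩ ⟨y₁, y₂, rfl, hy₁, hy₂⟩
        exact ⟨x₁ + y₁, x₂ + y₂, by abel, by rw [map_add, hx₁, hy₁], by rw [map_add, hx₂, hy₂]⟩
      zero_mem' := ⟨0, 0, by simp, map_zero _, map_zero _⟩
      smul_mem' := by
        rintro c x ⟨x₁, x₂, rfl, hx₁, hx₂⟩
        exact ⟨c • x₁, c • x₂, by rw [smul_add], by rw [map_smul, hx₁], by rw [map_smul, hx₂]⟩ }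
  have hWinv : ∀ s, ∀ m ∈ W, ρ s m ∈ W := by
    apply inv_of_gens ρ W _ hgen
    rintro g hg n ⟨x₁, x₂, rfl, hx₁, hx₂⟩
    simp only [Set.mem_insert_iff, Set.mem_singleton_iff] at hg
    rw [map_add]
    rcases hg with rfl | rfl | rfl | rfl
    · exact ⟨_, _, add_comm _ _, har x₂ hx₂, hbr x₁ hx₁⟩
    · exact ⟨_, _, rfl, hat x₁ hx₁, hbt x₂ hx₂⟩
    · refine ⟨x₁, ρ g x₂, by rw [hx₁], hx₁, ?_⟩
      rw [← hcomm, hx₂]
    · refine ⟨ρ g x₁, x₂, by rw [hx₂], ?_, hx₂⟩
      rw [hcomm, hx₁]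
  have hK0 := K0_card
  have hK1 := K1_card
  have hrr : r * r = (e.symm (DihedralGroup.r 2) : S) := by
    have : (DihedralGroup.r 2 : D4) = DihedralGroup.r 1 * DihedralGroup.r 1 := by decide
    rw [this, map_mul, hr]; rfl
  have hrt : r * t = (e.symm (DihedralGroup.sr 3) : S) := by
    have : (DihedralGroup.sr 3 : D4) = DihedralGroup.r 1 * DihedralGroup.sr 0 := by decide
    rw [this, map_mul, hr, ht]; rfl
  have hrrt : r * (r * t) = (e.symm (DihedralGroup.sr 2) : S) := by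
    have : (DihedralGroup.sr 2 : D4) = DihedralGroup.r 1 * DihedralGroup.sr 3 := by decide
    rw [this, map_mul, hrt, hr]; rfl
  have hone : (e.symm (1 : D4) : S) = 1 := by simp
  have hsr1 : (e.symm (DihedralGroup.sr 1) : S) = r * r * (r * t) := by
    have : (DihedralGroup.sr 1 : D4) = DihedralGroup.r 2 * DihedralGroup.sr 3 := by decide
    rw [this, map_mul, hrr, hrt]; rfl
  have hsr0 : (e.symm (DihedralGroup.sr 2) : S) = r * r * t := by
    have : (DihedralGroup.sr 2 : D4) = DihedralGroup.r 2 * DihedralGroup.sr 0 := by decide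
    rw [this, map_mul, hrr, ht]; rfl
  have hsr0' : (e.symm (DihedralGroup.sr 0) : S) = r * r * (r * (r * t)) := by
    have : (DihedralGroup.sr 0 : D4) = DihedralGroup.r 2 * DihedralGroup.sr 2 := by decide
    rw [this, map_mul, hrr, hrrt]; rfl
  have hsr3' : (e.symm (DihedralGroup.sr 1) : S) = r * r * (r * t) := hsr1
  rcases hirr W hWinv with hW | hW
  · -- second frame
    have hA0 : ∀ x, x + ρ a x + ρ a (ρ a x) = 0 := by
      intro x
      have hmem : x + ρ a x + ρ a (ρ a x) ∈ W := ⟨_, 0, (add_zero _).symm, fix_e ρ ha3 x, map_zero _⟩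
      rw [hW] at hmem
      simpa using hmem
    have hB0 : ∀ x, x + ρ b x + ρ b (ρ b x) = 0 := by
      intro x
      have hmem : x + ρ b x + ρ b (ρ b x) ∈ W := ⟨0, _, (zero_add _).symm, map_zero _, fix_e ρ hb3 x⟩
      rw [hW] at hmem
      simpa using hmem
    have h2 := char2 (M := M)
    have hc : Commute a b := hab
    have ha'3 : (a * b) ^ 3 = 1 := by rw [hc.mul_pow, ha3, hb3, one_mul]
    have hai : a⁻¹ = a * a := by
      rw [inv_eq_iff_mul_eq_one, ← ha3, pow_succ, sq, mul_assoc]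
    have hbi : b⁻¹ = b * b := by
      rw [inv_eq_iff_mul_eq_one, ← hb3, pow_succ, sq, mul_assoc]
    have hba : b * a = a * b := hab.symm
    have hba' : ∀ x, b * (a * x) = a * (b * x) := by
      intro x; rw [← mul_assoc, ← mul_assoc, hab]
    have ha3' : ∀ x, a * (a * (a * x)) = x := by
      intro x
      have : a * a * a = 1 := by rw [← ha3, pow_succ, sq]
      rw [← mul_assoc, ← mul_assoc, this, one_mul]
    have hb'e : b * a⁻¹ = a * a * b := by
      rw [hai]; simp only [mul_assoc, hba', hba]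
    have hb'3 : (b * a⁻¹) ^ 3 = 1 := by
      have hc2 : Commute b a⁻¹ := hc.symm.inv_right
      rw [hc2.mul_pow, hb3, inv_pow, ha3, inv_one, one_mul]
    have hb3'' : b * (b * b) = 1 := by
      rw [← mul_assoc, ← sq, ← pow_succ]; exact hb3
    have hgen' : Subgroup.closure ({r, r * t, a * b, b * a⁻¹} : Set S) = ⊤ := by
      rw [eq_top_iff, ← hgen, Subgroup.closure_le]
      have h1 : r ∈ Subgroup.closure ({r, r * t, a * b, b * a⁻¹} : Set S) :=
        Subgroup.subset_closure (by simp)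
      have h3 : r * t ∈ Subgroup.closure ({r, r * t, a * b, b * a⁻¹} : Set S) :=
        Subgroup.subset_closure (by simp)
      have h4 : a * b ∈ Subgroup.closure ({r, r * t, a * b, b * a⁻¹} : Set S) :=
        Subgroup.subset_closure (by simp)
      have h5 : b * a⁻¹ ∈ Subgroup.closure ({r, r * t, a * b, b * a⁻¹} : Set S) :=
        Subgroup.subset_closure (by simp)
      have ht' : t ∈ Subgroup.closure ({r, r * t, a * b, b * a⁻¹} : Set S) := by
        have e0 : r⁻¹ * (r * t) = t := by group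
        have hm := Subgroup.mul_mem _ (Subgroup.inv_mem _ h1) h3
        rwa [e0] at hm
      have ha' : a ∈ Subgroup.closure ({r, r * t, a * b, b * a⁻¹} : Set S) := by
        have : a = ((a * b) * (b * a⁻¹)⁻¹) ^ 2 := by
          have e1 : (b * a⁻¹)⁻¹ = a * (b * b) := by
            rw [← hbi]; group
          rw [e1, sq]
          simp only [mul_assoc, hba', hb3'', mul_one, ha3']
        have hm := Subgroup.pow_mem _ (Subgroup.mul_mem _ h4 (Subgroup.inv_mem _ h5)) 2
        rwa [← this] at hm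
      have hb' : b ∈ Subgroup.closure ({r, r * t, a * b, b * a⁻¹} : Set S) := by
        have hm := Subgroup.mul_mem _ (Subgroup.mul_mem _ h1 ha') (Subgroup.inv_mem _ h1)
        rwa [hra] at hm
      intro x hx
      simp only [Set.mem_insert_iff, Set.mem_singleton_iff] at hx
      rcases hx with rfl | rfl | rfl | rfl
      · exact h1
      · exact ht'
      · exact ha'
      · exact hb'
    have hra' : r * (a * b) * r⁻¹ = b * a⁻¹ := by
      have : r * (a * b) * r⁻¹ = (r * a * r⁻¹) * (r * b * r⁻¹) := by group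
      rw [this, hra, hrb]
    have hcinv : a⁻¹ * b⁻¹ = b⁻¹ * a⁻¹ := (hc.inv_left.inv_right).eq
    have hrb' : r * (b * a⁻¹) * r⁻¹ = (a * b)⁻¹ := by
      have : r * (b * a⁻¹) * r⁻¹ = (r * b * r⁻¹) * (r * a * r⁻¹)⁻¹ := by group
      rw [this, hra, hrb, mul_inv_rev, hcinv]
    have hta' : (r * t) * (a * b) * (r * t)⁻¹ = a * b := by
      have : (r * t) * (a * b) * (r * t)⁻¹ = r * (t * a * t⁻¹) * (t * b * t⁻¹) * r⁻¹ := by group
      rw [this, hta, htb]
      have : r * a * b⁻¹ * r⁻¹ = (r * a * r⁻¹) * (r * b * r⁻¹)⁻¹ := by group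
      rw [this, hra, hrb, inv_inv, hba]
    have htb' : (r * t) * (b * a⁻¹) * (r * t)⁻¹ = (b * a⁻¹)⁻¹ := by
      have : (r * t) * (b * a⁻¹) * (r * t)⁻¹ = r * (t * b * t⁻¹) * (t * a * t⁻¹)⁻¹ * r⁻¹ := by group
      rw [this, hta, htb]
      have : r * b⁻¹ * a⁻¹ * r⁻¹ = (r * b * r⁻¹)⁻¹ * (r * a * r⁻¹)⁻¹ := by group
      rw [this, hra, hrb, inv_inv, mul_inv_rev, inv_inv]
    have hab' : (a * b) * (b * a⁻¹) = (b * a⁻¹) * (a * b) := by
      rw [hai]; simp only [mul_assoc, hba', hba]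
    have hne' : a * b ≠ 1 := by
      intro h
      have hb' : b = a⁻¹ := eq_inv_of_mul_eq_one_right h
      rw [hb'] at hrb hra
      have e1 : r * a⁻¹ * r⁻¹ = (r * a * r⁻¹)⁻¹ := by group
      rw [e1, hra, inv_inv] at hrb
      -- now `a = a⁻¹`
      apply ha1
      have h4 : a * a = 1 := by
        nth_rw 1 [hrb]; exact inv_mul_cancel a
      have h5 : a * a * a = 1 := by rw [← ha3, pow_succ, sq]
      rw [h4, one_mul] at h5
      exact h5
    have hsplit' : ∀ m, ∃ m₁ m₂, m = m₁ + m₂ ∧ ρ (a * b) m₁ = m₁ ∧ ρ (b * a⁻¹) m₂ = m₂ := by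
      intro m
      refine ⟨_, _, ?_, fix_e ρ ha'3 m, fix_e ρ hb'3 m⟩
      have e1 : ρ (a * b) (ρ (a * b) m) = ρ a (ρ a (ρ b (ρ b m))) := by
        rw [← rep_mul, ← rep_mul, ← rep_mul, ← rep_mul]
        congr 2
        simp only [mul_assoc, hba', hba]
      have e2 : ρ (b * a⁻¹) m = ρ a (ρ a (ρ b m)) := by
        rw [hb'e, ← rep_mul, ← rep_mul, mul_assoc]
      have e3 : ρ (b * a⁻¹) (ρ (b * a⁻¹) m) = ρ a (ρ b (ρ b m)) := by
        rw [← rep_mul, hb'e, ← rep_mul, ← rep_mul]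
        congr 2
        simp only [mul_assoc, hba', hba, ha3']
      rw [e1, e3, e2, rep_mul]
      have h₁ := hA0 (ρ b m)
      have h₂ := hA0 (ρ b (ρ b m))
      have h₃ := hB0 m
      linear_combination (norm := abel) - h₁ - h₂ - h₃ + h2 (ρ b m) + h2 (ρ b (ρ b m))
    obtain ⟨u, p, q, hcard, hu, hfix, hp, hq, hpq, htp, htq, hzp, hzq⟩ :=
      core ρ hM hirr r (r * t) (a * b) (b * a⁻¹) X hXp hrX (X.mul_mem hrX htX) hgen' ha'3 hb'3 hab'
        hra' hrb' hta' htb' (hne_of _ hne') hsplit'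
    refine ⟨hcard, finish ρ X e K0 K1 klein_cases hK0 K0_two u p q hu ?_ hp hq hpq ?_ ?_⟩
    · intro m
      rw [← hfix m]
      constructor
      · intro h
        refine ⟨?_, ?_⟩
        · rw [hrr]; exact h _ (by show _ ∈ K0F; decide)
        · rw [hrrt]; exact h _ (by show _ ∈ K0F; decide)
      · rintro ⟨h1, h3⟩ d hd
        rcases mem_K0 hd with rfl | rfl | rfl | rfl
        · rw [hone, rep_one]
        · rw [← hrr]; exact h1
        · rw [hsr0', rep_mul, h3, h1]
        · rw [← hrrt]; exact h3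
    · intro d hd
      rcases mem_K1 hd with rfl | rfl | rfl | rfl
      · rw [hone, rep_one]
      · rw [← hrr]; exact hzp
      · rw [hsr1, rep_mul, htp, hzp]
      · rw [← hrt]; exact htp
    · intro d hd
      rcases mem_K1 hd with rfl | rfl | rfl | rfl
      · rw [hone, rep_one]
      · rw [← hrr]; exact hzq
      · rw [hsr1, rep_mul, htq, hzq]
      · rw [← hrt]; exact htq
  · have hsplit : ∀ m, ∃ m₁ m₂, m = m₁ + m₂ ∧ ρ a m₁ = m₁ ∧ ρ b m₂ = m₂ := by
      intro m
      have : m ∈ W := by rw [hW]; trivial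
      exact this
    obtain ⟨u, p, q, hcard, hu, hfix, hp, hq, hpq, htp, htq, hzp, hzq⟩ :=
      core ρ hM hirr r t a b X hXp hrX htX hgen ha3 hb3 hab
        hra hrb hta htb (hne_of _ ha1) hsplit
    refine ⟨hcard, finish ρ X e K1 K0 (fun B' h4 h2 => (klein_cases B' h4 h2).symm) hK1 K1_two u p q hu ?_ hp hq hpq ?_ ?_⟩
    · intro m
      rw [← hfix m]
      constructor
      · intro h
        refine ⟨?_, ?_⟩
        · rw [hrr]; exact h _ (by show _ ∈ K1F; decide)
        · rw [hrt]; exact h _ (by show _ ∈ K1F; decide)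
      · rintro ⟨h1, h3⟩ d hd
        rcases mem_K1 hd with rfl | rfl | rfl | rfl
        · rw [hone, rep_one]
        · rw [← hrr]; exact h1
        · rw [hsr1, rep_mul, h3, h1]
        · rw [← hrt]; exact h3
    · intro d hd
      rcases mem_K0 hd with rfl | rfl | rfl | rfl
      · rw [hone, rep_one]
      · rw [← hrr]; exact hzp
      · rw [← ht]; exact htp
      · rw [hsr0, rep_mul, htp, hzp]
    · intro d hd
      rcases mem_K0 hd with rfl | rfl | rfl | rfl
      · rw [hone, rep_one]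
      · rw [← hrr]; exact hzq
      · rw [← ht]; exact htq
      · rw [hsr0, rep_mul, htq, hzq]

end Cfsg.Agent.S4407
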