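import Mathlib
import Cfsg.Agent.Lib.H01.Solv2
import Cfsg.Agent.Lib.H18.Syl
import Cfsg.Agent.Lib.H20.Basic
import Cfsg.Statements.S4408

set_option autoImplicit false
set_option linter.unusedVariables false
set_option linter.style.haveILetI false
open Pointwise
open Cfsg

namespace Cfsg.Agent.S4408

open Subgroup
open scoped commutatorElement

theorem exists_central_of_normal {Q : Type*} [Group Q] [Group.IsNilpotent Q] (N : Subgroup Q)
    [hN : N.Normal] (hne : N ≠ ⊥) : ∃ z ∈ N, z ≠ 1 ∧ z ∈ center Q := by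
  classical
  obtain ⟨n, hn⟩ := (Subgroup.nilpotent_iff_lowerCentralSeries.mp (inferInstance : Group.IsNilpotent Q))
  have hex : ∃ m, N ⊓ (⊤ : Subgroup Q).lowerCentralSeries m = ⊥ := ⟨n, by rw [hn]; simp⟩
  have hm := Nat.find_spec hex
  have hmin := fun k => Nat.find_min (m := k) hex
  set m := Nat.find hex
  rcases Nat.eq_zero_or_pos m with h0 | hpos
  · rw [h0] at hm
    simp at hm
    exact absurd hm hne
  · obtain ⟨i, hi⟩ : ∃ i, m = i + 1 := ⟨m - 1, by omega⟩
    have h1 := hmin i (by omega)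
    obtain ⟨⟨x, hx⟩, hx1⟩ := (Subgroup.ne_bot_iff_exists_ne_one).mp h1
    have hx1 : x ≠ 1 := fun e => hx1 (Subtype.ext e)
    refine ⟨x, hx.1, hx1, ?_⟩
    rw [Subgroup.mem_center_iff]
    intro f
    have h2 : ⁅x, f⁆ ∈ N ⊓ (⊤ : Subgroup Q).lowerCentralSeries m := by
      constructor
      · have : ⁅x, f⁆ = x * (f * x⁻¹ * f⁻¹) := by
          rw [commutatorElement_def]; group
        rw [this]
        exact N.mul_mem hx.1 (hN.conj_mem _ (N.inv_mem hx.1) f)
      · rw [hi, Subgroup.lowerCentralSeries_succ]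
        exact Subgroup.subset_closure ⟨x, hx.2, f, trivial, rfl⟩
    rw [hm, Subgroup.mem_bot, commutatorElement_eq_one_iff_commute] at h2
    exact h2.symm.eq

section
variable {S : Type*} [Group S] [Finite S] (F I : Subgroup S)

/-- invariant under `I` -/
def Inv (X : Subgroup S) : Prop := ∀ T ∈ I, ∀ x ∈ X, T * x * T⁻¹ ∈ X

variable {F I}

theorem odd_eq_one (hF : Odd (Nat.card F)) {y : S} (hy : y ∈ F) (h : y * y = 1) : y = 1 := by
  have h1 : orderOf (⟨y, hy⟩ : F) ∣ Nat.card F := orderOf_dvd_natCard _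
  have h2 : orderOf y ∣ 2 := orderOf_dvd_of_pow_eq_one (by rw [pow_two, h])
  have h3 : orderOf (⟨y, hy⟩ : F) = orderOf y := Subgroup.orderOf_mk y hy
  rw [h3] at h1
  have h4 : orderOf y = 1 ∨ orderOf y = 2 := (Nat.dvd_prime Nat.prime_two).mp h2
  rcases h4 with h4 | h4
  · exact orderOf_eq_one_iff.mp h4
  · rw [h4] at h1
    exact absurd (hF.of_dvd_nat h1) (by decide)

/-- Key: an `I`-invariant abelian normal subgroup of `F` maximal with these properties is self-centralizing in `F`. -/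
theorem selfCentralizing [Group.IsNilpotent F] (hFI : Inv I F) (hFn : ∀ f ∈ F, ∀ x ∈ F, f * x * f⁻¹ ∈ F)
    (hI2 : ∀ T ∈ I, T * T = 1) (hIc : ∀ T ∈ I, ∀ T' ∈ I, T * T' = T' * T)
    (A : Subgroup S) (hAF : A ≤ F) (hAab : ∀ a ∈ A, ∀ b ∈ A, a * b = b * a) (hAI : Inv I A)
    (hAn : ∀ f ∈ F, ∀ a ∈ A, f * a * f⁻¹ ∈ A)
    (hmax : ∀ B : Subgroup S, A < B → B ≤ F → (∀ a ∈ B, ∀ b ∈ B, a * b = b * a) → Inv I B →
      (∀ f ∈ F, ∀ a ∈ B, f * a * f⁻¹ ∈ B) → False)
    (x : S) (hxF : x ∈ F) (hxC : ∀ a ∈ A, x * a = a * x) : x ∈ A := by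
  classical
  by_contra hxA
  have hinvT : ∀ T ∈ I, T⁻¹ = T := fun T hT => inv_eq_of_mul_eq_one_left (hI2 T hT)
  -- `C = C_F(A)`
  let C : Subgroup S := F ⊓ centralizer (A : Set S)
  have hCmem : ∀ y, y ∈ C ↔ y ∈ F ∧ ∀ a ∈ A, y * a = a * y := by
    intro y
    simp only [C, Subgroup.mem_inf, Subgroup.mem_centralizer_iff, SetLike.mem_coe]
    constructor
    · rintro ⟨h1, h2⟩
      exact ⟨h1, fun a ha => (h2 a ha).symm⟩
    · rintro ⟨h1, h2⟩
      exact ⟨h1, fun a ha => (h2 a ha).symm⟩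
  have hCn : ∀ f ∈ F, ∀ y ∈ C, f * y * f⁻¹ ∈ C := by
    intro f hf y hy
    rw [hCmem] at hy ⊢
    refine ⟨hFn f hf y hy.1, ?_⟩
    intro a ha
    have h1 : f⁻¹ * a * f⁻¹⁻¹ ∈ A := hAn _ (F.inv_mem hf) a ha
    have h2 := hy.2 _ h1
    simp only [inv_inv] at h2
    calc f * y * f⁻¹ * a = f * (y * (f⁻¹ * a * f)) * f⁻¹ := by group
      _ = f * ((f⁻¹ * a * f) * y) * f⁻¹ := by rw [h2]
      _ = a * (f * y * f⁻¹) := by group
  -- Quotient-free version of the central element
  have hA' : (A.subgroupOf F).Normal := by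
    constructor
    intro a ha f
    rw [Subgroup.mem_subgroupOf] at ha ⊢
    exact hAn f f.2 a ha
  have hstep : ∃ z ∈ C, z ∉ A ∧ ∀ f ∈ F, ⁅z, f⁆ ∈ A := by
    let Q := ↥F ⧸ A.subgroupOf F
    haveI : Group.IsNilpotent Q := Group.nilpotent_of_surjective (QuotientGroup.mk' (A.subgroupOf F))
      (QuotientGroup.mk'_surjective _)
    let N : Subgroup Q := (C.subgroupOf F).map (QuotientGroup.mk' (A.subgroupOf F))
    haveI hNn : N.Normal := by
      apply Subgroup.Normal.map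
      · constructor
        intro y hy f
        rw [Subgroup.mem_subgroupOf] at hy ⊢
        exact hCn f f.2 y hy
      · exact QuotientGroup.mk'_surjective _
    have hNne : N ≠ ⊥ := by
      intro h
      have hm : QuotientGroup.mk' (A.subgroupOf F) (⟨x, hxF⟩ : F) ∈ N :=
        ⟨⟨x, hxF⟩, Subgroup.mem_subgroupOf.mpr ((hCmem x).2 ⟨hxF, hxC⟩), rfl⟩
      rw [h, Subgroup.mem_bot] at hm
      have := (QuotientGroup.eq_one_iff _).mp hm
      rw [Subgroup.mem_subgroupOf] at this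
      exact hxA this
    obtain ⟨z, ⟨y, hy, rfl⟩, hz1, hzc⟩ := exists_central_of_normal N hNne
    refine ⟨(y : S), Subgroup.mem_subgroupOf.mp hy, ?_, ?_⟩
    · intro h
      apply hz1
      exact (QuotientGroup.eq_one_iff _).mpr (Subgroup.mem_subgroupOf.mpr h)
    · intro f hf
      have h1 := Subgroup.mem_center_iff.mp hzc (QuotientGroup.mk' _ (⟨f, hf⟩ : F))
      rw [← map_mul, ← map_mul] at h1
      have h2 : ((y * (⟨f, hf⟩ : F))⁻¹ * ((⟨f, hf⟩ : F) * y)) ∈ A.subgroupOf F := by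
        apply QuotientGroup.eq.mp
        exact h1.symm
      rw [Subgroup.mem_subgroupOf] at h2
      have h3 : ((y : S) * f)⁻¹ * (f * y) ∈ A := h2
      -- conjugate
      have h4 : ⁅(y : S), f⁆ = (y * f) * (((y : S) * f)⁻¹ * (f * y))⁻¹ * ((y : S) * f)⁻¹ := by
        rw [commutatorElement_def]; group
      rw [h4]
      exact hAn _ (F.mul_mem y.2 hf) _ (A.inv_mem h3)
  obtain ⟨z, hzC, hzA, hzf⟩ := hstep
  -- The big group `Z₁`
  let Z : Subgroup S :=
    { carrier := {y | y ∈ C ∧ ∀ f ∈ F, ⁅y, f⁆ ∈ A}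
      one_mem' := ⟨C.one_mem, fun f _ => by simp [A.one_mem]⟩
      mul_mem' := by
        rintro a b ⟨ha, ha'⟩ ⟨hb, hb'⟩
        refine ⟨C.mul_mem ha hb, fun f hf => ?_⟩
        have : ⁅a * b, f⁆ = a * ⁅b, f⁆ * a⁻¹ * ⁅a, f⁆ := by
          simp only [commutatorElement_def]; group
        rw [this]
        have haF : a ∈ F := ((hCmem a).1 ha).1
        exact A.mul_mem (hAn a haF _ (hb' f hf)) (ha' f hf)
      inv_mem' := by
        rintro a ⟨ha, ha'⟩
        refine ⟨C.inv_mem ha, fun f hf => ?_⟩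
        have : ⁅a⁻¹, f⁆ = a⁻¹ * ⁅a, f⁆⁻¹ * a⁻¹⁻¹ := by
          simp only [commutatorElement_def]; group
        rw [this]
        have haF : a ∈ F := ((hCmem a).1 ha).1
        exact hAn _ (F.inv_mem haF) _ (A.inv_mem (ha' f hf)) }
  have hZmem : ∀ y, y ∈ Z ↔ y ∈ C ∧ ∀ f ∈ F, ⁅y, f⁆ ∈ A := fun y => Iff.rfl
  have hAC : A ≤ C := by
    intro a ha
    rw [hCmem]
    exact ⟨hAF ha, fun b hb => hAab a ha b hb⟩
  have hAZ : A ≤ Z := by
    intro a ha
    refine ⟨hAC ha, fun f hf => ?_⟩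
    have : ⁅a, f⁆ = a * (f * a⁻¹ * f⁻¹) := by
      rw [commutatorElement_def]; group
    rw [this]
    exact A.mul_mem ha (hAn f hf _ (A.inv_mem ha))
  have hZI : Inv I Z := by
    intro T hT y hy
    have hyF : y ∈ F := ((hCmem y).1 hy.1).1
    refine ⟨(hCmem _).2 ⟨hFI T hT y hyF, ?_⟩, ?_⟩
    · intro a ha
      have h1 : T⁻¹ * a * T⁻¹⁻¹ ∈ A := hAI _ (I.inv_mem hT) a ha
      have h2 := ((hCmem y).1 hy.1).2 _ h1
      simp only [inv_inv] at h2
      calc T * y * T⁻¹ * a = T * (y * (T⁻¹ * a * T)) * T⁻¹ := by group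
        _ = T * ((T⁻¹ * a * T) * y) * T⁻¹ := by rw [h2]
        _ = a * (T * y * T⁻¹) := by group
    · intro f hf
      have h1 : T⁻¹ * f * T⁻¹⁻¹ ∈ F := hFI _ (I.inv_mem hT) f hf
      have h2 := hy.2 _ h1
      have h3 := hAI T hT _ h2
      have : ⁅T * y * T⁻¹, f⁆ = T * ⁅y, T⁻¹ * f * T⁻¹⁻¹⁆ * T⁻¹ := by
        simp only [commutatorElement_def]; group
      rw [this]
      exact h3
  have hZF : ∀ y ∈ Z, y ∈ F := fun y hy => ((hCmem y).1 hy.1).1
  -- minimal `B`
  let PP : Set (Subgroup S) := {B | A < B ∧ B ≤ Z ∧ Inv I B}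
  have hPP : PP.Nonempty := by
    refine ⟨Z, lt_of_le_of_ne hAZ ?_, le_refl _, hZI⟩
    intro e
    apply hzA
    rw [e]
    exact ⟨hzC, hzf⟩
  obtain ⟨B, hB⟩ := PP.toFinite.exists_minimal hPP
  obtain ⟨hAB, hBZ, hBI⟩ := hB.1
  obtain ⟨w, hwB, hwA⟩ := SetLike.exists_of_lt hAB
  -- each `t` acts as ±1 on `B/A`
  have hact : ∀ T ∈ I, ∀ y ∈ B, y⁻¹ * (T * y * T⁻¹) ∈ A ∨ y * (T * y * T⁻¹) ∈ A := by
    intro T hT y hy
    -- `B₊`
    let Bp : Subgroup S :=
      { carrier := {y | y ∈ B ∧ y⁻¹ * (T * y * T⁻¹) ∈ A}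
        one_mem' := ⟨B.one_mem, by simp [A.one_mem]⟩
        mul_mem' := by
          rintro a b ⟨ha, ha'⟩ ⟨hb, hb'⟩
          refine ⟨B.mul_mem ha hb, ?_⟩
          have : (a * b)⁻¹ * (T * (a * b) * T⁻¹) =
              b⁻¹ * (a⁻¹ * (T * a * T⁻¹)) * b⁻¹⁻¹ * (b⁻¹ * (T * b * T⁻¹)) := by group
          rw [this]
          exact A.mul_mem (hAn _ (F.inv_mem (hZF b (hBZ hb))) _ ha') hb'
        inv_mem' := by
          rintro a ⟨ha, ha'⟩
          refine ⟨B.inv_mem ha, ?_⟩
          have : a⁻¹⁻¹ * (T * a⁻¹ * T⁻¹) = a * (a⁻¹ * (T * a * T⁻¹))⁻¹ * a⁻¹ := by group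
          rw [this]
          exact hAn _ (hZF a (hBZ ha)) _ (A.inv_mem ha') }
    have hBpI : Inv I Bp := by
      rintro T' hT' a ⟨ha, ha'⟩
      refine ⟨hBI T' hT' a ha, ?_⟩
      have h1 := hAI T' hT' _ ha'
      have hc := hIc T hT T' hT'
      have : (T' * a * T'⁻¹)⁻¹ * (T * (T' * a * T'⁻¹) * T⁻¹) =
          T' * (a⁻¹ * (T * a * T⁻¹)) * T'⁻¹ := by
        have e : T * T' * a * T'⁻¹ * T⁻¹ = T' * T * a * T⁻¹ * T'⁻¹ := by
          have : T'⁻¹ * T⁻¹ = T⁻¹ * T'⁻¹ := by
            rw [← mul_inv_rev, ← mul_inv_rev, hc]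
          rw [hc]
          calc T' * T * a * T'⁻¹ * T⁻¹ = T' * T * a * (T'⁻¹ * T⁻¹) := by group
            _ = _ := by rw [this]; group
        calc (T' * a * T'⁻¹)⁻¹ * (T * (T' * a * T'⁻¹) * T⁻¹)
            = (T' * a * T'⁻¹)⁻¹ * (T * T' * a * T'⁻¹ * T⁻¹) := by group
          _ = (T' * a * T'⁻¹)⁻¹ * (T' * T * a * T⁻¹ * T'⁻¹) := by rw [e]
          _ = _ := by group
      rw [this]
      exact h1
    have hABp : A ≤ Bp := by
      intro a ha
      exact ⟨hAB.le ha, A.mul_mem (A.inv_mem ha) (hAI T hT a ha)⟩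
    by_cases hBpA : Bp = A
    · -- then `y t(y) ∈ A`
      right
      have hmem : y * (T * y * T⁻¹) ∈ Bp := by
        refine ⟨B.mul_mem hy (hBI T hT y hy), ?_⟩
        have e1 : T * (y * (T * y * T⁻¹)) * T⁻¹ = (T * y * T⁻¹) * y := by
          have : T * (y * (T * y * T⁻¹)) * T⁻¹ = T * y * T⁻¹ * (T * T) * y * T⁻¹ * T⁻¹ := by group
          rw [this, hI2 T hT, mul_one, mul_assoc _ y, mul_assoc _ (y * T⁻¹), mul_assoc y,
            ← mul_inv_rev, hI2 T hT]
          simp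
        rw [e1]
        -- a commutator
        have hu : T * y * T⁻¹ ∈ F := hZF _ (hBZ (hBI T hT y hy))
        have hy' := hBZ hy
        have h5 := hy'.2 _ (F.inv_mem hu)
        have h6 : (y * (T * y * T⁻¹))⁻¹ * (T * y * T⁻¹ * y) = ⁅(T * y * T⁻¹)⁻¹, y⁻¹⁆ := by
          rw [commutatorElement_def]; group
        rw [h6]
        have h7 := (hZI T hT y hy')
        have h8 : (T * y * T⁻¹)⁻¹ ∈ Z := Z.inv_mem h7
        exact h8.2 _ (F.inv_mem (hZF y hy'))
      rw [hBpA] at hmem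
      exact hmem
    · left
      have hle : Bp ≤ B := fun a ha => ha.1
      have hlt : A < Bp := lt_of_le_of_ne hABp (Ne.symm hBpA)
      have h1 : Bp ∈ PP := ⟨hlt, hle.trans hBZ, hBpI⟩
      have h2 : B ≤ Bp := hB.2 h1 hle
      exact (h2 hy).2
  -- `⟨w⟩A` is invariant
  let B' : Subgroup S := zpowers w ⊔ A
  have hB'I : Inv I B' := by
    intro T hT y hy
    have hle : B' ≤ B'.comap (MulAut.conj T).toMonoidHom := by
      apply sup_le
      · rw [Subgroup.zpowers_le, Subgroup.mem_comap]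
        show T * w * T⁻¹ ∈ B'
        rcases hact T hT w hwB with h | h
        · have : T * w * T⁻¹ = w * (w⁻¹ * (T * w * T⁻¹)) := by group
          rw [this]
          exact B'.mul_mem (Subgroup.mem_sup_left (Subgroup.mem_zpowers w)) (Subgroup.mem_sup_right h)
        · have : T * w * T⁻¹ = w⁻¹ * (w * (T * w * T⁻¹)) := by group
          rw [this]
          exact B'.mul_mem (Subgroup.mem_sup_left (Subgroup.inv_mem _ (Subgroup.mem_zpowers w)))
            (Subgroup.mem_sup_right h)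
      · intro a ha
        rw [Subgroup.mem_comap]
        exact Subgroup.mem_sup_right (hAI T hT a ha)
    exact hle hy
  have hB'le : B' ≤ B := sup_le ((Subgroup.zpowers_le).mpr hwB) hAB.le
  have hAB' : A < B' := by
    refine lt_of_le_of_ne le_sup_right ?_
    intro e
    apply hwA
    rw [e]
    exact Subgroup.mem_sup_left (Subgroup.mem_zpowers w)
  have hBB' : B ≤ B' := hB.2 ⟨hAB', hB'le.trans hBZ, hB'I⟩ hB'le
  have hBe : B = B' := le_antisymm hBB' hB'le
  -- contradiction with maximality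
  apply hmax B hAB (fun y hy => hZF y (hBZ hy))
  · -- commutative
    have hwC : ∀ a ∈ A, w * a = a * w := ((hCmem w).1 (hBZ hwB).1).2
    have h1 : B' ≤ centralizer (B' : Set S) := by
      apply sup_le
      · rw [Subgroup.le_centralizer_iff]
        apply sup_le
        · rw [Subgroup.zpowers_le, Subgroup.mem_centralizer_iff]
          intro y hy
          obtain ⟨k, rfl⟩ := Subgroup.mem_zpowers_iff.mp hy
          exact (Commute.zpow_right (Commute.refl w) k).symm.eq
        · rw [← Subgroup.le_centralizer_iff, Subgroup.zpowers_le, Subgroup.mem_centralizer_iff]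
          intro a ha
          exact (hwC a ha).symm
      · rw [Subgroup.le_centralizer_iff]
        apply sup_le
        · rw [Subgroup.zpowers_le, Subgroup.mem_centralizer_iff]
          intro a ha
          exact (hwC a ha).symm
        · intro a ha
          rw [Subgroup.mem_centralizer_iff]
          intro b hb
          exact hAab b hb a ha
    intro a ha b hb
    rw [hBe] at ha hb
    exact (Subgroup.mem_centralizer_iff.mp (h1 ha) b hb).symm
  · exact hBI
  · intro f hf y hy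
    have h1 := (hBZ hy).2 f hf
    have : f * y * f⁻¹ = ⁅f, y⁆ * y := by
      rw [commutatorElement_def]; group
    rw [this]
    have h2 : ⁅f, y⁆ = ⁅y, f⁆⁻¹ := by
      rw [commutatorElement_inv]
    rw [h2]
    exact B.mul_mem (hAB.le (A.inv_mem h1)) hy

/-- existence of a maximal `A` and faithfulness -/
theorem exists_faithful [Group.IsSolvable S] (hF : Odd (Nat.card (fittingSubgroup S)))
    (I : Subgroup S) (hI2 : ∀ T ∈ I, T * T = 1) (hIc : ∀ T ∈ I, ∀ T' ∈ I, T * T' = T' * T) :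
    ∃ A : Subgroup S, A ≤ fittingSubgroup S ∧ (∀ a ∈ A, ∀ b ∈ A, a * b = b * a) ∧ Inv I A ∧
      ∀ T ∈ I, (∀ a ∈ A, T * a * T⁻¹ = a) → T = 1 := by
  classical
  set F := fittingSubgroup S with hFdef
  haveI hFnorm : F.Normal := Cfsg.Agent.H01.fitting_normal
  haveI hFnil : Group.IsNilpotent F := Cfsg.Agent.H01.fitting_nilpotent
  have hFI : Inv I F := fun T _ x hx => hFnorm.conj_mem x hx T
  have hFn : ∀ f ∈ F, ∀ x ∈ F, f * x * f⁻¹ ∈ F := fun f _ x hx => hFnorm.conj_mem x hx f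
  let PP : Set (Subgroup S) := {A | A ≤ F ∧ (∀ a ∈ A, ∀ b ∈ A, a * b = b * a) ∧ Inv I A ∧
    ∀ f ∈ F, ∀ a ∈ A, f * a * f⁻¹ ∈ A}
  have hPP : PP.Nonempty := by
    refine ⟨⊥, bot_le, ?_, ?_, ?_⟩
    · intro a ha b hb
      rw [Subgroup.mem_bot] at ha hb
      rw [ha, hb]
    · intro T _ x hx
      rw [Subgroup.mem_bot] at hx ⊢
      rw [hx]; group
    · intro f _ x hx
      rw [Subgroup.mem_bot] at hx ⊢
      rw [hx]; group
  obtain ⟨A, hA⟩ := PP.toFinite.exists_maximal hPP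
  obtain ⟨hAF, hAab, hAI, hAn⟩ := hA.1
  have hself := selfCentralizing (F := F) (I := I) hFI hFn hI2 hIc A hAF hAab hAI hAn (by
    intro B hAB hBF hBab hBI hBn
    have : B ≤ A := hA.2 ⟨hBF, hBab, hBI, hBn⟩ hAB.le
    exact absurd hAB (not_lt_of_ge this))
  refine ⟨A, hAF, hAab, hAI, ?_⟩
  intro T hT hTA
  have hTinv : T⁻¹ = T := inv_eq_of_mul_eq_one_left (hI2 T hT)
  -- `T` centralizes `F`
  have hTF : ∀ x ∈ F, T * x * T⁻¹ = x := by
    intro x hx
    have hux : T * x * T⁻¹ ∈ F := hFI T hT x hx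
    set c := x⁻¹ * (T * x * T⁻¹) with hc
    have hcF : c ∈ F := F.mul_mem (F.inv_mem hx) hux
    have hcC : ∀ a ∈ A, c * a = a * c := by
      intro a ha
      have h1 : x * a * x⁻¹ ∈ A := hAn x hx a ha
      have h2 := hTA _ h1
      have h3 := hTA a ha
      -- `(T x T⁻¹) a (T x T⁻¹)⁻¹ = x a x⁻¹`
      have h4 : (T * x * T⁻¹) * a * (T * x * T⁻¹)⁻¹ = x * a * x⁻¹ := by
        calc (T * x * T⁻¹) * a * (T * x * T⁻¹)⁻¹
            = T * (x * (T⁻¹ * a * T) * x⁻¹) * T⁻¹ := by group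
          _ = T * (x * a * x⁻¹) * T⁻¹ := by
            have h5 : T⁻¹ * a * T = a := by
              calc T⁻¹ * a * T = T⁻¹ * (T * a * T⁻¹) * T := by rw [h3]
                _ = a := by group
            rw [h5]
          _ = x * a * x⁻¹ := h2
      calc c * a = x⁻¹ * ((T * x * T⁻¹) * a * (T * x * T⁻¹)⁻¹) * (T * x * T⁻¹) := by
            rw [hc]; group
        _ = x⁻¹ * (x * a * x⁻¹) * (T * x * T⁻¹) := by rw [h4]
        _ = a * c := by rw [hc]; group
    have hcA : c ∈ A := hself c hcF hcC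
    have hcT := hTA c hcA
    have hTx : T * x * T⁻¹ = x * c := by rw [hc]; group
    have h6 : x = x * c * c := by
      have : T * (T * x * T⁻¹) * T⁻¹ = x := by
        calc T * (T * x * T⁻¹) * T⁻¹ = (T * T) * x * (T⁻¹ * T⁻¹) := by group
          _ = x := by rw [hTinv, hI2 T hT]; group
      rw [hTx] at this
      have e : T * (x * c) * T⁻¹ = (T * x * T⁻¹) * (T * c * T⁻¹) := by group
      rw [e, hcT, hTx] at this
      exact this.symm
    have h7 : c * c = 1 := by
      have : x * (c * c) = x * 1 := by rw [mul_one, ← mul_assoc]; exact h6.symm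
      exact mul_left_cancel this
    have h8 : c = 1 := odd_eq_one hF hcF h7
    rw [hTx, h8, mul_one]
  have hTC : T ∈ centralizer (F : Set S) := by
    rw [Subgroup.mem_centralizer_iff]
    intro x hx
    have := hTF x hx
    calc x * T = (T * x * T⁻¹) * T := by rw [this]
      _ = T * x := by group
  have hTFit : T ∈ F := Cfsg.Agent.H01.centralizer_fitting_le hTC
  exact odd_eq_one hF hTFit (hI2 T hT)

theorem card_sup_of_commuting {M X : Subgroup S} (hc : ∀ a ∈ M, ∀ b ∈ X, a * b = b * a)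
    (hd : M ⊓ X = ⊥) : Nat.card (M ⊔ X : Subgroup S) = Nat.card M * Nat.card X := by
  classical
  have hle : M ≤ normalizer (X : Set S) := by
    intro a ha
    rw [Subgroup.mem_normalizer_iff]
    intro b
    constructor
    · intro hb
      have : a * b * a⁻¹ = b := by rw [hc a ha b hb]; group
      rw [this]; exact hb
    · intro hb
      have h1 : a⁻¹ * (a * b * a⁻¹) * a = b := by group
      have h2 : a⁻¹ * (a * b * a⁻¹) * a = a * b * a⁻¹ := by
        have h3 := hc a⁻¹ (M.inv_mem ha) _ hb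
        rw [h3]; group
      rw [← h1, h2]; exact hb
  have hcoe := Subgroup.coe_mul_of_left_le_normalizer_right M X hle
  let φ : M × X → (M ⊔ X : Subgroup S) := fun p => ⟨(p.1 : S) * p.2, by
    exact Subgroup.mul_mem _ (Subgroup.mem_sup_left p.1.2) (Subgroup.mem_sup_right p.2.2)⟩
  have hφ : Function.Bijective φ := by
    constructor
    · rintro ⟨a, b⟩ ⟨c, d⟩ e
      have e' : (a : S) * b = c * d := congrArg Subtype.val e
      have h1 : (c : S)⁻¹ * a = d * (b : S)⁻¹ := by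
        have : (a : S) = c * d * (b : S)⁻¹ := by rw [← e']; group
        rw [this]; group
      have h2 : (c : S)⁻¹ * a ∈ M ⊓ X :=
        ⟨M.mul_mem (M.inv_mem c.2) a.2, h1 ▸ X.mul_mem d.2 (X.inv_mem b.2)⟩
      rw [hd, Subgroup.mem_bot] at h2
      have h3 : (a : S) = c := (inv_mul_eq_one.mp h2).symm
      have h4 : (b : S) = d := by
        rw [h3] at e'
        exact mul_left_cancel e'
      exact Prod.ext (Subtype.ext h3) (Subtype.ext h4)
    · rintro ⟨y, hy⟩
      have hy' : y ∈ ((M ⊔ X : Subgroup S) : Set S) := hy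
      rw [hcoe] at hy'
      obtain ⟨a, ha, b, hb, rfl⟩ := hy'
      exact ⟨⟨⟨a, ha⟩, ⟨b, hb⟩⟩, rfl⟩
  rw [← Nat.card_prod]
  exact (Nat.card_congr (Equiv.ofBijective φ hφ)).symm

theorem sup_fin_cons {k : ℕ} (M : Subgroup S) (f : Fin k → Subgroup S) :
    (⨆ i, (Fin.cons M f : Fin (k + 1) → Subgroup S) i) = M ⊔ ⨆ i, f i := by
  apply le_antisymm
  · apply iSup_le
    intro i
    refine Fin.cases ?_ (fun j => ?_) i
    · simp
    · simp only [Fin.cons_succ]
      exact le_sup_of_le_right (le_iSup f j)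
  · apply sup_le
    · have := le_iSup (Fin.cons M f : Fin (k + 1) → Subgroup S) 0
      simpa using this
    · apply iSup_le
      intro j
      have := le_iSup (Fin.cons M f : Fin (k + 1) → Subgroup S) j.succ
      simpa using this

theorem mem_centralizer_sup (b : S) (M X : Subgroup S) :
    b ∈ centralizer ((M ⊔ X : Subgroup S) : Set S) ↔
      b ∈ centralizer (M : Set S) ∧ b ∈ centralizer (X : Set S) := by
  constructor
  · intro h
    constructor
    · rw [Subgroup.mem_centralizer_iff] at h ⊢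
      exact fun y hy => h y (Subgroup.mem_sup_left hy)
    · rw [Subgroup.mem_centralizer_iff] at h ⊢
      exact fun y hy => h y (Subgroup.mem_sup_right hy)
  · rintro ⟨h1, h2⟩
    have h3 : M ⊔ X ≤ centralizer ({b} : Set S) := by
      apply sup_le
      · intro y hy
        rw [Subgroup.mem_centralizer_singleton_iff]
        exact ((Subgroup.mem_centralizer_iff.mp h1) y hy)
      · intro y hy
        rw [Subgroup.mem_centralizer_singleton_iff]
        exact ((Subgroup.mem_centralizer_iff.mp h2) y hy)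
    rw [Subgroup.mem_centralizer_iff]
    intro y hy
    exact Subgroup.mem_centralizer_singleton_iff.mp (h3 hy)

/-- prime order eigen-subgroups -/
theorem exists_line (hF : Odd (Nat.card F)) (I : Subgroup S) (hI2 : ∀ T ∈ I, T * T = 1)
    (hIc : ∀ T ∈ I, ∀ T' ∈ I, T * T' = T' * T)
    (A : Subgroup S) (hAF : A ≤ F) (hAab : ∀ a ∈ A, ∀ b ∈ A, a * b = b * a) (hAI : Inv I A)
    (T : S) (hT : T ∈ I) (hTA : ¬ ∀ a ∈ A, T * a * T⁻¹ = a) :
    ∃ M : Subgroup S, M ≤ A ∧ (Nat.card M).Prime ∧ Inv I M ∧ (∀ y ∈ M, T * y * T⁻¹ = y⁻¹) ∧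
      ∀ T' ∈ I, (∀ y ∈ M, T' * y * T'⁻¹ = y) ∨ (∀ y ∈ M, T' * y * T'⁻¹ = y⁻¹) := by
  classical
  have hinv : ∀ T' ∈ I, T'⁻¹ = T' := fun T' hT' => inv_eq_of_mul_eq_one_left (hI2 T' hT')
  have hTT : T⁻¹ = T := hinv T hT
  push Not at hTA
  obtain ⟨a, ha, hne⟩ := hTA
  let M₀ : Subgroup S :=
    { carrier := {y | y ∈ A ∧ T * y * T⁻¹ = y⁻¹}
      one_mem' := ⟨A.one_mem, by group⟩
      mul_mem' := by
        rintro x y ⟨hx, hx'⟩ ⟨hy, hy'⟩
        refine ⟨A.mul_mem hx hy, ?_⟩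
        have : T * (x * y) * T⁻¹ = (T * x * T⁻¹) * (T * y * T⁻¹) := by group
        rw [this, hx', hy', mul_inv_rev]
        exact hAab _ (A.inv_mem hx) _ (A.inv_mem hy)
      inv_mem' := by
        rintro x ⟨hx, hx'⟩
        refine ⟨A.inv_mem hx, ?_⟩
        have : T * x⁻¹ * T⁻¹ = (T * x * T⁻¹)⁻¹ := by group
        rw [this, hx'] }
  have hM₀I : Inv I M₀ := by
    rintro T' hT' y ⟨hy, hy'⟩
    refine ⟨hAI T' hT' y hy, ?_⟩
    have hc := hIc T hT T' hT'
    calc T * (T' * y * T'⁻¹) * T⁻¹ = (T * T') * y * (T * T')⁻¹ := by group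
      _ = (T' * T) * y * (T' * T)⁻¹ := by rw [hc]
      _ = T' * (T * y * T⁻¹) * T'⁻¹ := by group
      _ = (T' * y * T'⁻¹)⁻¹ := by rw [hy']; group
  let c := a⁻¹ * (T * a * T⁻¹)
  have hcM₀ : c ∈ M₀ := by
    have h1 := hAI T hT a ha
    refine ⟨A.mul_mem (A.inv_mem ha) h1, ?_⟩
    have h2 : T * (T * a * T⁻¹) * T⁻¹ = a := by
      calc T * (T * a * T⁻¹) * T⁻¹ = (T * T) * a * (T⁻¹ * T⁻¹) := by group
        _ = a := by rw [hTT, hI2 T hT]; group
    have h3 : T * c * T⁻¹ = (T * a⁻¹ * T⁻¹) * (T * (T * a * T⁻¹) * T⁻¹) := by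
      simp only [c]; group
    rw [h3, h2]
    simp only [c]
    group
  have hc1 : c ≠ 1 := by
    intro h
    apply hne
    have : a⁻¹ * (T * a * T⁻¹) = 1 := h
    exact (inv_mul_eq_one.mp this).symm
  let PP : Set (Subgroup S) := {X | X ≠ ⊥ ∧ X ≤ M₀ ∧ Inv I X}
  have hPP : PP.Nonempty := by
    refine ⟨M₀, ?_, le_refl _, hM₀I⟩
    intro h
    rw [h, Subgroup.mem_bot] at hcM₀
    exact hc1 hcM₀
  obtain ⟨M, hM⟩ := PP.toFinite.exists_minimal hPP
  obtain ⟨hMne, hMM₀, hMI⟩ := hM.1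
  have hMA : M ≤ A := fun y hy => (hMM₀ hy).1
  have hpm : ∀ T' ∈ I, (∀ y ∈ M, T' * y * T'⁻¹ = y) ∨ (∀ y ∈ M, T' * y * T'⁻¹ = y⁻¹) := by
    intro T' hT'
    let Mf : Subgroup S :=
      { carrier := {y | y ∈ M ∧ T' * y * T'⁻¹ = y}
        one_mem' := ⟨M.one_mem, by group⟩
        mul_mem' := by
          rintro x y ⟨hx, hx'⟩ ⟨hy, hy'⟩
          refine ⟨M.mul_mem hx hy, ?_⟩
          have : T' * (x * y) * T'⁻¹ = (T' * x * T'⁻¹) * (T' * y * T'⁻¹) := by group
          rw [this, hx', hy']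
        inv_mem' := by
          rintro x ⟨hx, hx'⟩
          refine ⟨M.inv_mem hx, ?_⟩
          have : T' * x⁻¹ * T'⁻¹ = (T' * x * T'⁻¹)⁻¹ := by group
          rw [this, hx'] }
    have hMfI : Inv I Mf := by
      rintro T'' hT'' y ⟨hy, hy'⟩
      refine ⟨hMI T'' hT'' y hy, ?_⟩
      have hc := hIc T' hT' T'' hT''
      calc T' * (T'' * y * T''⁻¹) * T'⁻¹ = (T' * T'') * y * (T' * T'')⁻¹ := by group
        _ = (T'' * T') * y * (T'' * T')⁻¹ := by rw [hc]
        _ = T'' * (T' * y * T'⁻¹) * T''⁻¹ := by group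
        _ = T'' * y * T''⁻¹ := by rw [hy']
    by_cases hMf : Mf = ⊥
    · right
      intro y hy
      have h1 : T' * y * T'⁻¹ ∈ M := hMI T' hT' y hy
      have h2 : y * (T' * y * T'⁻¹) ∈ Mf := by
        refine ⟨M.mul_mem hy h1, ?_⟩
        have h3 : T' * (T' * y * T'⁻¹) * T'⁻¹ = y := by
          calc T' * (T' * y * T'⁻¹) * T'⁻¹ = (T' * T') * y * (T'⁻¹ * T'⁻¹) := by group
            _ = y := by rw [hinv T' hT', hI2 T' hT']; group
        have e : T' * (y * (T' * y * T'⁻¹)) * T'⁻¹ = (T' * y * T'⁻¹) * (T' * (T' * y * T'⁻¹) * T'⁻¹) := by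
          group
        rw [e, h3]
        exact hAab _ (hMA h1) _ (hMA hy)
      rw [hMf, Subgroup.mem_bot] at h2
      exact eq_inv_of_mul_eq_one_right h2
    · left
      have hle : Mf ≤ M := fun y hy => hy.1
      have h1 : Mf ∈ PP := ⟨hMf, hle.trans hMM₀, hMfI⟩
      have h2 : M ≤ Mf := hM.2 h1 hle
      exact fun y hy => (h2 hy).2
  have hcard1 : Nat.card M ≠ 1 := by
    intro h
    exact hMne (Subgroup.eq_bot_of_card_eq M h)
  obtain ⟨p, hp, hpd⟩ := Nat.exists_prime_and_dvd hcard1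
  haveI : Fact p.Prime := ⟨hp⟩
  obtain ⟨g, hg⟩ := exists_prime_orderOf_dvd_card' p hpd
  let X := zpowers (g : S)
  have hXM : X ≤ M := (Subgroup.zpowers_le).mpr g.2
  have hg1 : (g : S) ≠ 1 := by
    intro h
    have : orderOf (g : S) = 1 := orderOf_eq_one_iff.mpr h
    rw [← Subgroup.orderOf_coe, this] at hg
    exact absurd hg.symm hp.one_lt.ne'
  have hXne : X ≠ ⊥ := by
    intro h
    apply hg1
    have : (g : S) ∈ X := Subgroup.mem_zpowers _
    rw [h] at this
    exact this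
  have hXI : Inv I X := by
    intro T' hT' x hx
    rcases hpm T' hT' with h | h
    · rw [h x (hXM hx)]; exact hx
    · rw [h x (hXM hx)]; exact X.inv_mem hx
  have hMX : M ≤ X := hM.2 ⟨hXne, hXM.trans hMM₀, hXI⟩ hXM
  have hMe : M = X := le_antisymm hMX hXM
  refine ⟨M, hMA, ?_, hMI, fun y hy => (hMM₀ hy).2, hpm⟩
  rw [hMe, Nat.card_zpowers, Subgroup.orderOf_coe, hg]
  exact hp

theorem build (hF : Odd (Nat.card F)) (I : Subgroup S) (hI2 : ∀ T ∈ I, T * T = 1)
    (hIc : ∀ T ∈ I, ∀ T' ∈ I, T * T' = T' * T) (n : ℕ) (hIn : Nat.card I = 2 ^ n)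
    (A : Subgroup S) (hAF : A ≤ F) (hAab : ∀ a ∈ A, ∀ b ∈ A, a * b = b * a) (hAI : Inv I A)
    (hfaith : ∀ T ∈ I, (∀ a ∈ A, T * a * T⁻¹ = a) → T = 1) (k : ℕ) (hk : k ≤ n) :
    ∃ f : Fin k → Subgroup S, (∀ i, (Nat.card (f i)).Prime) ∧ (∀ i, f i ≤ A) ∧ (∀ i, Inv I (f i)) ∧
      Nat.card (⨆ i, f i : Subgroup S) = ∏ i, Nat.card (f i) ∧
      Nat.card (I ⊓ centralizer ((⨆ i, f i : Subgroup S) : Set S) : Subgroup S) * 2 ^ k = 2 ^ n := by
  classical
  induction k with
  | zero =>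
    refine ⟨fun i => i.elim0, fun i => i.elim0, fun i => i.elim0, fun i => i.elim0, ?_, ?_⟩
    · simp
    · have : (⨆ i : Fin 0, (Fin.elim0 i : Subgroup S)) = ⊥ := by simp
      simp only [this]
      have h0 : centralizer (((⊥ : Subgroup S) : Subgroup S) : Set S) = ⊤ := by
        rw [eq_top_iff]
        intro x _
        rw [Subgroup.mem_centralizer_iff]
        intro y hy
        have : y = 1 := hy
        rw [this]; group
      rw [h0, inf_top_eq, hIn]
      simp
  | succ k ih =>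
    obtain ⟨f, h1, h2, h3, h4, h5⟩ := ih (by omega)
    set X : Subgroup S := ⨆ i, f i with hX
    set K : Subgroup S := I ⊓ centralizer (X : Set S) with hK
    have hXA : X ≤ A := iSup_le h2
    have hcardK : Nat.card K = 2 ^ (n - k) := by
      have : 2 ^ n = 2 ^ (n - k) * 2 ^ k := by
        rw [← pow_add]; congr 1; omega
      rw [this] at h5
      exact Nat.eq_of_mul_eq_mul_right (by positivity) h5
    have hK1 : Nat.card K ≠ 1 := by
      rw [hcardK]
      have : n - k ≠ 0 := by omega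
      intro h
      have h' : 2 ^ (n - k) = 2 ^ 0 := by simpa using h
      have := Nat.pow_right_injective (le_refl 2) h'
      omega
    have hKne : K ≠ ⊥ := by
      intro h
      rw [h] at hK1
      simp at hK1
    obtain ⟨⟨T, hTK⟩, hT1⟩ := (Subgroup.ne_bot_iff_exists_ne_one).mp hKne
    have hT1 : T ≠ 1 := fun e => hT1 (Subtype.ext e)
    have hTI : T ∈ I := hTK.1
    have hTX : T ∈ centralizer (X : Set S) := hTK.2
    have hTA : ¬ ∀ a ∈ A, T * a * T⁻¹ = a := fun h => hT1 (hfaith T hTI h)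
    obtain ⟨M, hMA, hMp, hMI, hMT, hpm⟩ := exists_line hF I hI2 hIc A hAF hAab hAI T hTI hTA
    have hdisj : M ⊓ X = ⊥ := by
      rw [eq_bot_iff]
      rintro y ⟨hyM, hyX⟩
      rw [Subgroup.mem_bot]
      have h6 : T * y * T⁻¹ = y := by
        have := Subgroup.mem_centralizer_iff.mp hTX y hyX
        rw [← this]; group
      have h7 := hMT y hyM
      rw [h6] at h7
      apply odd_eq_one hF (hAF (hMA hyM))
      exact mul_eq_one_iff_eq_inv.mpr h7
    refine ⟨Fin.cons M f, ?_, ?_, ?_, ?_, ?_⟩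
    · intro i
      refine Fin.cases ?_ (fun j => ?_) i
      · simpa using hMp
      · simpa using h1 j
    · intro i
      refine Fin.cases ?_ (fun j => ?_) i
      · simpa using hMA
      · simpa using h2 j
    · intro i
      refine Fin.cases ?_ (fun j => ?_) i
      · simpa using hMI
      · simpa using h3 j
    · rw [sup_fin_cons, Fin.prod_univ_succ]
      simp only [Fin.cons_zero, Fin.cons_succ]
      rw [← h4]
      exact card_sup_of_commuting (fun a ha b hb => hAab a (hMA ha) b (hXA hb)) hdisj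
    · rw [sup_fin_cons]
      -- the index-two step
      set K' : Subgroup S := I ⊓ centralizer ((M ⊔ X : Subgroup S) : Set S) with hK'
      have hK'K : K' ≤ K := by
        rintro b ⟨hb1, hb2⟩
        exact ⟨hb1, ((mem_centralizer_sup b M X).1 hb2).2⟩
      have hmemK' : ∀ b ∈ K, (b ∈ K' ↔ ∀ y ∈ M, b * y * b⁻¹ = y) := by
        rintro b ⟨hb1, hb2⟩
        constructor
        · rintro ⟨_, hb3⟩ y hy
          have := Subgroup.mem_centralizer_iff.mp ((mem_centralizer_sup b M X).1 hb3).1 y hy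
          rw [← this]; group
        · intro h
          refine ⟨hb1, (mem_centralizer_sup b M X).2 ⟨?_, hb2⟩⟩
          rw [Subgroup.mem_centralizer_iff]
          intro y hy
          have := h y hy
          calc y * b = (b * y * b⁻¹) * b := by rw [this]
            _ = b * y := by group
      -- `M` contains an element with `y ≠ y⁻¹`
      have hMne : M ≠ ⊥ := by
        intro h
        rw [h] at hMp
        simp at hMp
        exact Nat.not_prime_one hMp
      obtain ⟨⟨y₀, hy₀⟩, hy₀1⟩ := (Subgroup.ne_bot_iff_exists_ne_one).mp hMne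
      have hy₀1 : y₀ ≠ 1 := fun e => hy₀1 (Subtype.ext e)
      have hy₀2 : y₀⁻¹ ≠ y₀ := by
        intro e
        apply hy₀1
        apply odd_eq_one hF (hAF (hMA hy₀))
        nth_rewrite 1 [← e]
        simp
      have hidx : (K'.subgroupOf K).index = 2 := by
        rw [Subgroup.index_eq_two_iff]
        refine ⟨⟨T, hTK⟩, ?_⟩
        rintro ⟨b, hb⟩
        rw [Subgroup.mem_subgroupOf, Subgroup.mem_subgroupOf]
        have hbT : b * T ∈ K := K.mul_mem hb hTK
        simp only [Subgroup.coe_mul]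
        rw [hmemK' _ hbT, hmemK' _ hb]
        rcases hpm b hb.1 with hb' | hb'
        · right
          refine ⟨hb', ?_⟩
          intro h
          have h1 := h y₀ hy₀
          have h2 : (b * T) * y₀ * (b * T)⁻¹ = b * (T * y₀ * T⁻¹) * b⁻¹ := by group
          rw [h2, hMT y₀ hy₀] at h1
          have h3 := hb' y₀⁻¹ (M.inv_mem hy₀)
          rw [h3] at h1
          exact hy₀2 h1
        · left
          refine ⟨?_, ?_⟩
          · intro y hy
            have h2 : (b * T) * y * (b * T)⁻¹ = b * (T * y * T⁻¹) * b⁻¹ := by group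
            rw [h2, hMT y hy, hb' y⁻¹ (M.inv_mem hy), inv_inv]
          · intro h
            have h1 := h y₀ hy₀
            rw [hb' y₀ hy₀] at h1
            exact hy₀2 h1
      have hcardK' : Nat.card K' * 2 = Nat.card K := by
        have := Cfsg.Agent.H18.card_inf_mul_relIndex K' K
        rw [inf_eq_left.mpr hK'K] at this
        rw [Subgroup.relIndex, hidx] at this
        exact this
      calc Nat.card K' * 2 ^ (k + 1) = (Nat.card K' * 2) * 2 ^ k := by ring
        _ = 2 ^ n := by rw [hcardK']; exact h5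

/-- Let S be a finite solvable group whose Fitting subgroup F(S) has odd order, and let I be an elementary abelian 2-subgroup of S of order 2ⁿ with n ≥ 1. Then F(S) contains subgroups A₁, …, Aₙ of prime order, each normalized by I, pairwise commuting and generating a subgroup A of order |A₁|⋯|Aₙ| (their internal direct product), such that no non-identity element of I centralizes A. -/
theorem result {S : Type*} [Group S] [Finite S]
    [Group.IsSolvable S] (hF : Odd (Nat.card ↥(Cfsg.fittingSubgroup S)))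
    (I : Subgroup S) (hI : Cfsg.IsElementaryAbelian 2 I) (n : ℕ) (hn : 1 ≤ n) (hIn : Nat.card ↥I = 2 ^ n) :
    ∃ f : Fin n → Subgroup S, (∀ i, (Nat.card ↥(f i)).Prime) ∧ (∀ i, f i ≤ Cfsg.fittingSubgroup S) ∧
      (∀ i, I ≤ Subgroup.normalizer ((f i) : Set S)) ∧ (∀ i j, i ≠ j → ∀ a ∈ f i, ∀ b ∈ f j, a * b = b * a) ∧
      Nat.card ↥(⨆ i, f i) = ∏ i, Nat.card ↥(f i) ∧ I ⊓ Subgroup.centralizer ((⨆ i, f i : Subgroup S) : Set S) = ⊥ := by
  classical
  obtain ⟨hIab, hIe⟩ := hI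
  have hI2 : ∀ T ∈ I, T * T = 1 := fun T hT => by rw [← pow_two]; exact hIe T hT
  have hIc : ∀ T ∈ I, ∀ T' ∈ I, T * T' = T' * T := fun T hT T' hT' =>
    congrArg Subtype.val (hIab.is_comm.comm ⟨T, hT⟩ ⟨T', hT'⟩)
  obtain ⟨A, hAF, hAab, hAI, hfaith⟩ := exists_faithful hF I hI2 hIc
  obtain ⟨f, h1, h2, h3, h4, h5⟩ := build hF I hI2 hIc n hIn A hAF hAab hAI hfaith n (le_refl n)
  refine ⟨f, h1, fun i => (h2 i).trans hAF, ?_, ?_, h4, ?_⟩
  · intro i T hT
    apply Cfsg.Agent.H20.mem_normalizer_of_conj_le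
    exact h3 i T hT
  · intro i j _ a ha b hb
    exact hAab a (h2 i ha) b (h2 j hb)
  · have h6 : Nat.card (I ⊓ centralizer ((⨆ i, f i : Subgroup S) : Set S) : Subgroup S) = 1 :=
      Nat.eq_of_mul_eq_mul_right (by positivity : 0 < 2 ^ n) (by rw [h5, one_mul])
    exact Subgroup.eq_bot_of_card_eq _ h6

end

end Cfsg.Agent.S4408
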