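import Cfsg.Statements.S4410
import Cfsg.Agent.Lib.H05.Sig2
import Cfsg.Agent.Lib.H05.Comp2
import Cfsg.Agent.Lib.H08.Bender2
import Cfsg.Agent.Lib.H01.Fitting
import Cfsg.Agent.Lib.H12.Core

set_option autoImplicit false
set_option linter.unusedVariables false
set_option linter.style.haveILetI false
set_option linter.unusedSectionVars false
open Cfsg

namespace Cfsg.Agent.S4410

variable {V : Type*} [AddCommGroup V] [Module (ZMod 2) V]

theorem add_self' (x : V) : x + x = 0 := by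
  rw [← two_smul (ZMod 2) x]
  have : (2 : ZMod 2) = 0 := rfl
  rw [this, zero_smul]

/-- `d` is a transvection with centre `c`. -/
def Tr (d : V ≃ₗ[ZMod 2] V) (c : V) : Prop := (∀ v, d v = v ∨ d v = v + c) ∧ d c = c

theorem Tr.sq {d : V ≃ₗ[ZMod 2] V} {c : V} (h : Tr d c) : d * d = 1 := by
  ext v
  show d (d v) = v
  rcases h.1 v with h1 | h1
  · rw [h1, h1]
  · rw [h1, map_add, h1, h.2, add_assoc, add_self', add_zero]

theorem mul_inv_apply (g : V ≃ₗ[ZMod 2] V) (v : V) : g (g⁻¹ v) = v := by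
  have : (g * g⁻¹) v = v := by rw [mul_inv_cancel]; rfl
  exact this

theorem Tr.conj {d : V ≃ₗ[ZMod 2] V} {c : V} (h : Tr d c) (g : V ≃ₗ[ZMod 2] V) :
    Tr (g * d * g⁻¹) (g c) := by
  constructor
  · intro v
    show g (d (g⁻¹ v)) = v ∨ g (d (g⁻¹ v)) = v + g c
    rcases h.1 (g⁻¹ v) with h1 | h1
    · left
      rw [h1, mul_inv_apply]
    · right
      rw [h1, map_add, mul_inv_apply]
  · show g (d (g⁻¹ (g c))) = g c
    have : g⁻¹ (g c) = c := by
      have : (g⁻¹ * g) c = c := by rw [inv_mul_cancel]; rfl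
      exact this
    rw [this, h.2]

theorem fourth {d e : V ≃ₗ[ZMod 2] V} {a b : V} (hd : Tr d a) (he : Tr e b) (hdb : d b = b) :
    (d * e) ^ 4 = 1 := by
  set w := d * e with hw
  have happ : ∀ v, w v = d (e v) := fun v => rfl
  have hwb : w b = b := by rw [happ, he.2, hdb]
  have hwa : w a = a ∨ w a = a + b := by
    rw [happ]
    rcases he.1 a with h1 | h1
    · left; rw [h1, hd.2]
    · right; rw [h1, map_add, hd.2, hdb]
  have hwv : ∀ v, w v = v ∨ w v = v + a ∨ w v = v + b ∨ w v = v + a + b := by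
    intro v
    rw [happ]
    rcases he.1 v with h1 | h1 <;> rcases hd.1 v with h3 | h3
    · left; rw [h1, h3]
    · right; left; rw [h1, h3]
    · right; right; left; rw [h1, map_add, h3, hdb]
    · right; right; right; rw [h1, map_add, h3, hdb]
  have haa := add_self' a
  have hbb := add_self' b
  have hw2 : ∀ v, w (w v) = v ∨ w (w v) = v + b := by
    intro v
    rcases hwv v with h1 | h1 | h1 | h1
    · left; rw [h1, h1]
    · rw [h1, map_add, h1]
      rcases hwa with h3 | h3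
      · left; rw [h3, add_assoc, haa, add_zero]
      · right
        rw [h3, add_assoc, ← add_assoc a, haa, zero_add]
    · left; rw [h1, map_add, h1, hwb, add_assoc, hbb, add_zero]
    · rw [h1, map_add, map_add, h1, hwb]
      rcases hwa with h3 | h3
      · left
        rw [h3]
        have e1 : v + a + b + a + b = v + (a + a) + (b + b) := by abel
        rw [e1, haa, hbb, add_zero, add_zero]
      · right
        rw [h3]
        have e1 : v + a + b + (a + b) + b = v + (a + a) + (b + b) + b := by abel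
        rw [e1, haa, hbb, add_zero, add_zero]
  ext v
  have e : (w ^ 4) v = w (w (w (w v))) := rfl
  rw [e]
  rcases hw2 v with h1 | h1
  · rw [h1, h1]
    rfl
  · rw [h1, map_add, map_add, h1, hwb, hwb, add_assoc, hbb, add_zero]
    rfl

theorem key {d e : V ≃ₗ[ZMod 2] V} {a b : V} (hd : Tr d a) (he : Tr e b) (hdb : d b = b)
    (hodd : Odd (orderOf (d * e))) : d = e := by
  have h1 := orderOf_dvd_of_pow_eq_one (fourth hd he hdb)
  have h2 : orderOf (d * e) = 1 := by
    have h3 : Nat.Coprime (orderOf (d * e)) 2 := (Nat.coprime_two_right).mpr hodd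
    have h4 : (4 : ℕ) = 2 ^ 2 := by norm_num
    rw [h4] at h1
    exact Nat.Coprime.eq_one_of_dvd (Nat.Coprime.pow_right 2 h3) h1
  rw [orderOf_eq_one_iff] at h2
  have h5 := he.sq
  calc d = d * (e * e) := by rw [h5, mul_one]
    _ = (d * e) * e := by rw [mul_assoc]
    _ = e := by rw [h2, one_mul]

theorem moved {d e : V ≃ₗ[ZMod 2] V} {a b : V} (hd : Tr d a) (he : Tr e b) (hne : d ≠ e)
    (hodd : Odd (orderOf (d * e))) : d b = b + a := by
  rcases hd.1 b with h | h
  · exact absurd (key hd he h hodd) hne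
  · exact h

/-- Let V be a finite-dimensional vector space over the field with two elements and S a solvable group of linear automorphisms of V with O₂(S) = 1. If P ∈ S has order 4 and (P − 1)³ = 0 on V, then the image of (P − 1)² has at least 4 elements; equivalently, in the decomposition of V into indecomposable modules for the cyclic group generated by P, at least two summands have dimension 3. -/
theorem result
    {V : Type*} [AddCommGroup V] [Module (ZMod 2) V] [Finite V]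
    (S : Subgroup (V ≃ₗ[ZMod 2] V)) (hS : Group.IsSolvable ↥S) (hO2 : Cfsg.pCore 2 ↥S = ⊥)
    (P : V ≃ₗ[ZMod 2] V) (hPS : P ∈ S) (hP4 : orderOf P = 4)
    (hcub : ((P : V →ₗ[ZMod 2] V) - LinearMap.id) ^ 3 = 0) :
    4 ≤ Nat.card ↥(LinearMap.range (((P : V →ₗ[ZMod 2] V) - LinearMap.id) ^ 2)) := by
  classical
  haveI : Fact (Nat.Prime 2) := ⟨Nat.prime_two⟩
  haveI : Finite (V ≃ₗ[ZMod 2] V) := Finite.of_injective (fun f => (f : V → V)) DFunLike.coe_injective
  by_contra hlt
  push Not at hlt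
  set t : V ≃ₗ[ZMod 2] V := P ^ 2 with ht
  have ht1 : t ≠ 1 := by
    intro h
    have := orderOf_dvd_of_pow_eq_one h
    rw [hP4] at this
    omega
  have ht2 : t * t = 1 := by
    rw [ht, ← pow_add]
    have : P ^ 4 = 1 := by rw [← hP4]; exact pow_orderOf_eq_one P
    exact this
  have hneg : ∀ x : V, -x = x := fun x => neg_eq_of_add_eq_zero_left (add_self' x)
  set Rg := LinearMap.range (((P : V →ₗ[ZMod 2] V) - LinearMap.id) ^ 2) with hRg
  have hsq : ∀ v, t v + v ∈ Rg := by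
    intro v
    refine ⟨v, ?_⟩
    have e : t v = P (P v) := rfl
    rw [e, sq, Module.End.mul_apply]
    simp only [LinearMap.sub_apply, LinearMap.id_apply, LinearEquiv.coe_coe, map_sub]
    rw [sub_eq_add_neg, sub_eq_add_neg, sub_eq_add_neg, hneg, hneg, hneg]
    have e2 : P (P v) + P v + (P v + v) = P (P v) + (P v + P v) + v := by abel
    rw [e2, add_self', add_zero]
  obtain ⟨v₀, hv₀⟩ : ∃ v, t v ≠ v := by
    by_contra hcon
    push Not at hcon
    exact ht1 (LinearEquiv.ext hcon)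
  set c := t v₀ + v₀ with hc
  have hc0 : c ≠ 0 := by
    intro h
    apply hv₀
    have h1 : t v₀ = -v₀ := eq_neg_of_add_eq_zero_left h
    rw [h1, hneg]
  have hcR : c ∈ Rg := hsq v₀
  have huniq : ∀ x ∈ Rg, x = 0 ∨ x = c := by
    intro x hx
    by_contra hcon
    push Not at hcon
    obtain ⟨hx0, hxc⟩ := hcon
    have hcx : c + x ≠ 0 := by
      intro h
      apply hxc
      have h1 : x = -c := eq_neg_of_add_eq_zero_right h
      rw [h1, hneg]
    have hcx2 : c + x ≠ c := by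
      intro h
      apply hx0
      exact add_eq_left.mp h
    have hcx3 : c + x ≠ x := by
      intro h
      apply hc0
      exact add_eq_right.mp h
    let s : Finset V := {0, c, x, c + x}
    have hs : s.card = 4 := by
      rw [Finset.card_insert_of_notMem, Finset.card_insert_of_notMem, Finset.card_insert_of_notMem,
        Finset.card_singleton]
      · simp [hcx3.symm]
      · simp [hxc.symm, hcx2.symm]
      · simp [hc0.symm, hx0.symm, hcx.symm]
    have hsub : (s : Set V) ⊆ (Rg : Set V) := by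
      intro y hy
      simp only [s, Finset.coe_insert, Finset.coe_singleton, Set.mem_insert_iff, Set.mem_singleton_iff] at hy
      rcases hy with rfl | rfl | rfl | rfl
      · exact Rg.zero_mem
      · exact hcR
      · exact hx
      · exact Rg.add_mem hcR hx
    have h3 : s.card ≤ Nat.card Rg := by
      have h4 := Set.ncard_le_ncard hsub (Set.toFinite _)
      rw [Set.ncard_coe_finset] at h4
      have h5 : Nat.card (Rg : Set V) = Set.ncard (Rg : Set V) := rfl
      exact h4.trans (le_of_eq h5.symm)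
    omega
  have hTr : Tr t c := by
    constructor
    · intro v
      rcases huniq _ (hsq v) with h | h
      · left
        have h1 : t v = -v := eq_neg_of_add_eq_zero_left h
        rw [h1, hneg]
      · right
        have h1 : t v = c + -v := eq_add_neg_of_add_eq h
        rw [h1, hneg, add_comm]
    · have e : t (t v₀) = v₀ := by
        have : (t * t) v₀ = v₀ := by rw [ht2]; rfl
        exact this
      rw [hc, map_add, e, add_comm]
  -- group theory
  let p : ↥S := ⟨P, hPS⟩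
  let τ : ↥S := p ^ 2
  have hτc : (τ : V ≃ₗ[ZMod 2] V) = t := rfl
  haveI : Finite ↥S := inferInstance
  have hτ1 : τ ≠ 1 := fun h => ht1 (congrArg Subtype.val h)
  have hτ2 : τ * τ = 1 := Subtype.ext ht2
  let F : Subgroup ↥S := fittingSubgroup ↥S
  haveI hFn : F.Normal := Cfsg.Agent.H01.fitting_normal
  have hFnil : Group.IsNilpotent F := Cfsg.Agent.H01.fitting_nilpotent
  have hCF : Subgroup.centralizer (F : Set ↥S) ≤ F := by
    have h1 := Cfsg.Agent.H05.centralizer_fstar_le (G := ↥S)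
    rw [generalizedFittingSubgroup, Cfsg.Agent.H05.layer_eq_bot_of_solvable hS, bot_sup_eq] at h1
    exact h1
  have hF2 : ∀ x ∈ F, (∃ k : ℕ, x ^ 2 ^ k = 1) → x = 1 := by
    intro x hx ⟨k, hk⟩
    have h1 : (⟨x, hx⟩ : F) ∈ pCore 2 F := Cfsg.Agent.H08.Bender.pelem_mem_pCore hFnil 2 ⟨k, Subtype.ext hk⟩
    have h2 : x ∈ (pCore 2 F).map F.subtype := ⟨_, h1, rfl⟩
    have h3 := Cfsg.Agent.H12.map_pCore_le_of_normal (p := 2) F h2
    rw [hO2, Subgroup.mem_bot] at h3
    exact h3
  have hFodd : ∀ x ∈ F, Odd (orderOf x) := by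
    intro x hx
    rw [← Nat.not_even_iff_odd]
    rintro ⟨m, hm⟩
    have hm' : orderOf x = 2 * m := by omega
    have hm0 : m ≠ 0 := by
      intro h
      rw [h] at hm'
      exact (orderOf_pos x).ne' (by omega)
    have h1 := hF2 (x ^ m) (F.pow_mem hx m) ⟨1, by
      rw [pow_one, ← pow_mul, mul_comm, ← hm', pow_orderOf_eq_one]⟩
    have h2 := orderOf_dvd_of_pow_eq_one h1
    rw [hm'] at h2
    have h3 := Nat.le_of_dvd (Nat.pos_of_ne_zero hm0) h2
    omega
  have hτF : τ ∉ F := by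
    intro h
    exact hτ1 (hF2 τ h ⟨1, by rw [pow_one, sq]; exact hτ2⟩)
  obtain ⟨a, haF, haτ⟩ : ∃ a ∈ F, a * τ ≠ τ * a := by
    by_contra hcon
    push Not at hcon
    apply hτF
    apply hCF
    rw [Subgroup.mem_centralizer_iff]
    intro h hh
    exact hcon h hh
  -- the family
  let E : ↥S → (V ≃ₗ[ZMod 2] V) := fun g => (g : V ≃ₗ[ZMod 2] V) * t * (g : V ≃ₗ[ZMod 2] V)⁻¹
  have hEtr : ∀ g : ↥S, Tr (E g) ((g : V ≃ₗ[ZMod 2] V) c) := fun g => hTr.conj _
  have hEcoe : ∀ g : ↥S, E g = ((g * τ * g⁻¹ : ↥S) : V ≃ₗ[ZMod 2] V) := fun g => rfl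
  have hEodd : ∀ g ∈ F, ∀ h ∈ F, Odd (orderOf (E g * E h)) := by
    intro g hg h hh
    have e : E g * E h = ((g * τ * g⁻¹ * (h * τ * h⁻¹) : ↥S) : V ≃ₗ[ZMod 2] V) := rfl
    rw [e, Subgroup.orderOf_coe]
    apply hFodd
    have e2 : g * τ * g⁻¹ * (h * τ * h⁻¹) = g * (τ * (g⁻¹ * h) * τ⁻¹) * (τ * τ) * h⁻¹ := by group
    rw [e2, hτ2, mul_one]
    exact F.mul_mem (F.mul_mem hg (hFn.conj_mem _ (F.mul_mem (F.inv_mem hg) hh) τ)) (F.inv_mem hh)
  have hE1 : E 1 = t := by
    show ((1 : ↥S) : V ≃ₗ[ZMod 2] V) * t * ((1 : ↥S) : V ≃ₗ[ZMod 2] V)⁻¹ = t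
    simp
  have h1F : (1 : ↥S) ∈ F := F.one_mem
  -- the elements
  let g₂ : ↥S := p * a * p⁻¹
  have hg₂ : g₂ ∈ F := hFn.conj_mem _ haF p
  let g₃ : ↥S := τ * g₂ * τ⁻¹
  have hg₃ : g₃ ∈ F := hFn.conj_mem _ hg₂ τ
  have hpτ : p * τ = τ * p := by
    show p * p ^ 2 = p ^ 2 * p
    exact (pow_succ' p 2).symm.trans (pow_succ p 2)
  have hPt : P * t = t * P := congrArg Subtype.val hpτ
  set d := E a with hd
  have hE₂ : E g₂ = P * d * P⁻¹ := by
    rw [hd, hEcoe, hEcoe]
    have e : g₂ * τ * g₂⁻¹ = p * (a * τ * a⁻¹) * p⁻¹ := by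
      show p * a * p⁻¹ * τ * (p * a * p⁻¹)⁻¹ = _
      have h5 : p⁻¹ * τ = τ * p⁻¹ := by
        calc p⁻¹ * τ = p⁻¹ * (τ * p) * p⁻¹ := by group
          _ = p⁻¹ * (p * τ) * p⁻¹ := by rw [hpτ]
          _ = _ := by group
      calc p * a * p⁻¹ * τ * (p * a * p⁻¹)⁻¹ = p * a * (p⁻¹ * τ) * (p * a * p⁻¹)⁻¹ := by group
        _ = p * a * (τ * p⁻¹) * (p * a * p⁻¹)⁻¹ := by rw [h5]
        _ = _ := by group
    rw [e]
    rfl
  have hE₃ : E g₃ = t * E g₂ * t⁻¹ := by
    rw [hEcoe, hEcoe]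
    have e : g₃ * τ * g₃⁻¹ = τ * (g₂ * τ * g₂⁻¹) * τ⁻¹ := by
      show τ * g₂ * τ⁻¹ * τ * (τ * g₂ * τ⁻¹)⁻¹ = _
      group
    rw [e]
    rfl
  have hdne : d ≠ t := by
    intro h
    apply haτ
    have h1 : ((a * τ * a⁻¹ : ↥S)) = τ := Subtype.ext h
    exact mul_inv_eq_iff_eq_mul.mp h1
  have hE₂ne : E g₂ ≠ t := by
    intro h
    apply hdne
    rw [hE₂] at h
    have h3 : P * d = t * P := mul_inv_eq_iff_eq_mul.mp h
    rw [← hPt] at h3
    exact mul_left_cancel h3
  have htinv : t⁻¹ = t := inv_eq_of_mul_eq_one_left ht2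
  by_cases hcase : E g₂ = d
  · -- t commutes with d
    have h1 : P * d = d * P := by
      rw [hE₂] at hcase
      exact mul_inv_eq_iff_eq_mul.mp hcase
    have h3 : t * d = d * t := by
      rw [ht, sq]
      calc P * P * d = P * (P * d) := by group
        _ = P * (d * P) := by rw [h1]
        _ = (P * d) * P := by group
        _ = d * P * P := by rw [h1]
        _ = _ := by group
    have h4 : (d * t) ^ 2 = 1 := by
      have hdd := (hEtr a).sq
      have hc' : Commute d t := h3.symm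
      rw [hc'.mul_pow, sq, sq]
      show d * d * (t * t) = 1
      rw [hdd, ht2, mul_one]
    have h5 := hEodd a haF 1 h1F
    rw [hE1] at h5
    have h6 := orderOf_dvd_of_pow_eq_one h4
    have h7 : orderOf (d * t) = 1 := by
      have h8 : Nat.Coprime (orderOf (d * t)) 2 := (Nat.coprime_two_right).mpr h5
      exact Nat.Coprime.eq_one_of_dvd h8 h6
    rw [orderOf_eq_one_iff] at h7
    apply hdne
    calc d = d * (t * t) := by rw [ht2, mul_one]
      _ = (d * t) * t := (mul_assoc d t t).symm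
      _ = t := by rw [h7, one_mul]
  · -- d moves the relevant centres
    have hA : (a : V ≃ₗ[ZMod 2] V) c = ((a : V ≃ₗ[ZMod 2] V) c) := rfl
    have hTr1 : Tr t (((1 : ↥S) : V ≃ₗ[ZMod 2] V) c) := hTr
    have hm1 : d c = c + (a : V ≃ₗ[ZMod 2] V) c :=
      moved (hEtr a) hTr hdne (by
        have := hEodd a haF 1 h1F
        rwa [hE1] at this)
    have hm2 : d ((g₂ : V ≃ₗ[ZMod 2] V) c) = (g₂ : V ≃ₗ[ZMod 2] V) c + (a : V ≃ₗ[ZMod 2] V) c :=
      moved (hEtr a) (hEtr g₂) (Ne.symm hcase) (hEodd a haF g₂ hg₂)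
    have hm3 : t ((g₂ : V ≃ₗ[ZMod 2] V) c) = (g₂ : V ≃ₗ[ZMod 2] V) c + c :=
      moved hTr (hEtr g₂) (Ne.symm hE₂ne) (by
        have := hEodd 1 h1F g₂ hg₂
        rwa [hE1] at this)
    have hc₃ : (g₃ : V ≃ₗ[ZMod 2] V) c = t ((g₂ : V ≃ₗ[ZMod 2] V) c) := by
      show t ((g₂ : V ≃ₗ[ZMod 2] V) (t⁻¹ c)) = _
      have : t⁻¹ c = c := by rw [htinv, hTr.2]
      rw [this]
    have hfix : d ((g₃ : V ≃ₗ[ZMod 2] V) c) = (g₃ : V ≃ₗ[ZMod 2] V) c := by
      rw [hc₃, hm3, map_add, hm2, hm1]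
      have e : (g₂ : V ≃ₗ[ZMod 2] V) c + (a : V ≃ₗ[ZMod 2] V) c + (c + (a : V ≃ₗ[ZMod 2] V) c) =
          (g₂ : V ≃ₗ[ZMod 2] V) c + c + ((a : V ≃ₗ[ZMod 2] V) c + (a : V ≃ₗ[ZMod 2] V) c) := by abel
      rw [e, add_self', add_zero]
    have heq : d = E g₃ := key (hEtr a) (hEtr g₃) hfix (hEodd a haF g₃ hg₃)
    apply hcase
    rw [hE₃, hE₂] at heq
    -- P³ d P⁻³ = d, so P commutes with d
    have h4 : (P ^ 4) = 1 := by rw [← hP4]; exact pow_orderOf_eq_one P
    have h5 : t * (P * d * P⁻¹) * t⁻¹ = P⁻¹ * d * P := by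
      have hPi : t * P = P⁻¹ := by
        rw [ht]
        apply eq_inv_of_mul_eq_one_left
        calc P ^ 2 * P * P = P ^ 4 := by simp only [pow_succ, pow_zero, one_mul]
          _ = 1 := h4
      have e : t * (P * d * P⁻¹) * t⁻¹ = (t * P) * d * (t * P)⁻¹ := by group
      rw [e, hPi, inv_inv]
    rw [h5] at heq
    rw [hE₂]
    have h6 : P * d = d * P := by
      calc P * d = P * (P⁻¹ * d * P) := by rw [← heq]
        _ = d * P := by group
    rw [h6, mul_inv_cancel_right]

end Cfsg.Agent.S4410
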