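import Cfsg.Statements.S4411
import Cfsg.Agent.Lib.H20.TQ3
import Mathlib

set_option autoImplicit false
set_option linter.unusedVariables false
set_option linter.style.haveILetI false
open Cfsg

namespace Cfsg.Agent.S4411

open Cfsg.Agent.H20.TQ

theorem relIndex_eq_of_cover {G : Type*} [Group G] [Finite G] (C X X₁ : Subgroup G) (h₁ : X₁ ≤ X)
    (hn : (C.subgroupOf X).Normal) (hcov : ∀ x ∈ X, ∃ c ∈ C, ∃ y ∈ X₁, x = c * y) :
    C.relIndex X = C.relIndex X₁ := by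
  have h1 : X₁.subgroupOf X ⊔ C.subgroupOf X = ⊤ := by
    rw [eq_top_iff]
    rintro ⟨x, hx⟩ -
    obtain ⟨c, hc, y, hy, rfl⟩ := hcov x hx
    have hcX : c ∈ X := by
      have h2 : c = (c * y) * y⁻¹ := by group
      rw [h2]
      exact X.mul_mem hx (X.inv_mem (h₁ hy))
    have e : (⟨c * y, hx⟩ : ↥X) = ⟨c, hcX⟩ * ⟨y, h₁ hy⟩ := rfl
    rw [e]
    exact Subgroup.mul_mem _ (Subgroup.mem_sup_right (Subgroup.mem_subgroupOf.2 hc))
      (Subgroup.mem_sup_left (Subgroup.mem_subgroupOf.2 hy))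
  have h2 := Subgroup.relIndex_sup_right (X₁.subgroupOf X) (C.subgroupOf X)
  rw [h1, Subgroup.relIndex_top_right, Subgroup.relIndex_subgroupOf h₁] at h2
  exact h2

/-- Let p and q be distinct primes with {p, q} ≠ {2, 3}, and let G be a finite group such that for every p-subgroup H of G the automizer N_G(H)/C_G(H) is p-solvable. If q divides the order of N_G(H)/C_G(H) for some p-subgroup H, then a Sylow p-subgroup of G has a normal subgroup K (normal in the Sylow subgroup) such that q divides the order of N_G(K)/C_G(K). -/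
theorem result {G : Type*} [Group G] [Finite G]
    (p q : ℕ) [Fact p.Prime] [Fact q.Prime] (hpq : p ≠ q) (h23 : ¬ ((p = 2 ∧ q = 3) ∨ (p = 3 ∧ q = 2)))
    (hsol : ∀ H : Subgroup G, IsPGroup p ↥H →
      Cfsg.IsPSolvable p (↥(Subgroup.normalizer (H : Set G)) ⧸ (Subgroup.centralizer (H : Set G)).subgroupOf (Subgroup.normalizer (H : Set G))))
    (H : Subgroup G) (hH : IsPGroup p ↥H)
    (hq : q ∣ ((Subgroup.centralizer (H : Set G)).subgroupOf (Subgroup.normalizer (H : Set G))).index)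
    (Gp : Sylow p G) :
    ∃ K : Subgroup G, K ≤ (Gp : Subgroup G) ∧ (Gp : Subgroup G) ≤ Subgroup.normalizer (K : Set G) ∧
      q ∣ ((Subgroup.centralizer (K : Set G)).subgroupOf (Subgroup.normalizer (K : Set G))).index := by
  classical
  have hpp : p.Prime := Fact.out
  have hqp : q.Prime := Fact.out
  obtain ⟨P, hPdef⟩ : ∃ P : Subgroup G, P = (Gp : Subgroup G) := ⟨_, rfl⟩
  rw [← hPdef]
  have hPp : IsPGroup p P := by
    rw [hPdef]; exact Gp.2
  -- conjugating into `P`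
  have hconjP : ∀ (A : Subgroup G), IsPGroup p A → ∃ g : G, ∀ a ∈ A, g * a * g⁻¹ ∈ P := by
    intro A hA
    obtain ⟨T₁, hT₁⟩ := hA.exists_le_sylow
    obtain ⟨g, hg⟩ := Cfsg.Agent.H20.sylow_conj Gp T₁
    refine ⟨g⁻¹, fun a ha => ?_⟩
    rw [hPdef, inv_inv]
    exact (hg a).1 (hT₁ ha)
  -- the family
  let F := {A : Subgroup G // A ≤ P ∧ q ∣ ai A}
  have hne : Nonempty F := by
    obtain ⟨g, hg⟩ := hconjP H hH
    refine ⟨⟨H.map (MulAut.conj g).toMonoidHom, ?_, hq.trans (ai_conj g H _ rfl)⟩⟩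
    rintro _ ⟨a, ha, rfl⟩
    exact hg a ha
  let m : F → ℕ := fun A => Nat.card (P ⊓ Subgroup.normalizer ((A : Subgroup G) : Set G) : Subgroup G) * (Nat.card G + 1) + Nat.card (A : Subgroup G)
  obtain ⟨⟨H₀, hH₀P, hH₀q⟩, hmax⟩ := Finite.exists_max m
  have hM1 : ∀ (A : Subgroup G), A ≤ P → q ∣ ai A →
      Nat.card (P ⊓ Subgroup.normalizer (A : Set G) : Subgroup G) ≤ Nat.card (P ⊓ Subgroup.normalizer (H₀ : Set G) : Subgroup G) := by
    intro A hAP hAq
    have h1 := hmax ⟨A, hAP, hAq⟩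
    simp only [m] at h1
    by_contra hcon
    push Not at hcon
    have h3 := Nat.mul_le_mul_right (Nat.card G + 1) (Nat.succ_le_of_lt hcon)
    have h4 : Nat.card H₀ ≤ Nat.card G := Subgroup.card_le_card_group H₀
    have e : (Nat.card (P ⊓ Subgroup.normalizer (H₀ : Set G) : Subgroup G)).succ * (Nat.card G + 1) =
      Nat.card (P ⊓ Subgroup.normalizer (H₀ : Set G) : Subgroup G) * (Nat.card G + 1) + (Nat.card G + 1) := by
      rw [Nat.succ_mul]
    omega
  have hM2 : ∀ (A : Subgroup G), A ≤ P → q ∣ ai A →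
      Nat.card (P ⊓ Subgroup.normalizer (H₀ : Set G) : Subgroup G) ≤ Nat.card (P ⊓ Subgroup.normalizer (A : Set G) : Subgroup G) →
      Nat.card A ≤ Nat.card H₀ := by
    intro A hAP hAq hc
    have h1 := hmax ⟨A, hAP, hAq⟩
    simp only [m] at h1
    have h3 := Nat.mul_le_mul_right (Nat.card G + 1) hc
    omega
  refine ⟨H₀, hH₀P, ?_, hH₀q⟩
  by_contra hnP
  obtain ⟨X, hX⟩ : ∃ X, X = Subgroup.normalizer (H₀ : Set G) := ⟨_, rfl⟩
  obtain ⟨C, hC⟩ : ∃ C, C = Subgroup.centralizer (H₀ : Set G) := ⟨_, rfl⟩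
  obtain ⟨N, hN⟩ : ∃ N, N = P ⊓ X := ⟨_, rfl⟩
  rw [← hX] at hnP
  rw [← hX, ← hN] at hM1 hM2
  have hNX : N ≤ X := by
    rw [hN]; exact inf_le_right
  have hNP : N ≤ P := by
    rw [hN]; exact inf_le_left
  have hH₀X : H₀ ≤ X := by
    rw [hX]; exact Subgroup.le_normalizer
  have hH₀N : H₀ ≤ N := by
    rw [hN]; exact le_inf hH₀P hH₀X
  have hNp : IsPGroup p N := hPp.to_le hNP
  have hH₀p : IsPGroup p H₀ := hPp.to_le hH₀P
  -- `N` is Sylow in `X`
  have hXconj : ∀ x ∈ X, ∀ h ∈ H₀, x * h * x⁻¹ ∈ H₀ := by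
    intro x hx h hh
    rw [hX] at hx
    exact (Subgroup.mem_normalizer_iff.1 hx h).1 hh
  obtain ⟨Q, hQ⟩ : ∃ Q : Sylow p ↥X, (Q : Subgroup ↥X).map X.subtype = N := by
    have hN' : IsPGroup p (N.subgroupOf X) := IsPGroup.comap_subtype hNp
    obtain ⟨Q, hQ⟩ := hN'.exists_le_sylow
    refine ⟨Q, ?_⟩
    obtain ⟨T, hT⟩ : ∃ T, T = (Q : Subgroup ↥X).map X.subtype := ⟨_, rfl⟩
    rw [← hT]
    have hTp : IsPGroup p T := by
      rw [hT]; exact Q.2.map _
    have hNT : N ≤ T := by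
      intro n hn
      rw [hT]
      exact ⟨⟨n, hNX hn⟩, hQ (Subgroup.mem_subgroupOf.2 hn), rfl⟩
    have hTX : T ≤ X := by
      rw [hT]
      rintro _ ⟨y, -, rfl⟩
      exact y.2
    obtain ⟨g, hg⟩ := hconjP T hTp
    obtain ⟨H', hH'⟩ : ∃ H', H' = H₀.map (MulAut.conj g).toMonoidHom := ⟨_, rfl⟩
    have hH'P : H' ≤ P := by
      rw [hH']
      rintro _ ⟨a, ha, rfl⟩
      exact hg a (hNT (hH₀N ha))
    have hH'q : q ∣ ai H' := hH₀q.trans (ai_conj g H₀ H' hH')
    have hT'le : T.map (MulAut.conj g).toMonoidHom ≤ P ⊓ Subgroup.normalizer (H' : Set G) := by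
      rintro _ ⟨t, ht, rfl⟩
      refine ⟨hg t ht, ?_⟩
      apply Cfsg.Agent.H20.mem_normalizer_of_conj_le
      intro y hy
      rw [hH'] at hy ⊢
      obtain ⟨h, hh, rfl⟩ := hy
      refine ⟨t * h * t⁻¹, hXconj t (hTX ht) h hh, ?_⟩
      simp only [MulEquiv.toMonoidHom_eq_coe, MonoidHom.coe_coe, MulAut.conj_apply]
      group
    have h1 : Nat.card T = Nat.card (T.map (MulAut.conj g).toMonoidHom) :=
      Nat.card_congr (Subgroup.equivMapOfInjective T _ (MulAut.conj g).injective).toEquiv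
    have h2 := Subgroup.card_le_of_le hT'le
    have h3 := hM1 H' hH'P hH'q
    exact (Subgroup.eq_of_le_of_card_ge hNT (by omega)).symm
  -- the subgroups in `X`
  obtain ⟨D, hD⟩ : ∃ D, D = C.subgroupOf X := ⟨_, rfl⟩
  haveI hDn : D.Normal := by
    rw [hD, hC, hX]; infer_instance
  obtain ⟨HY, hHY⟩ : ∃ HY, HY = H₀.subgroupOf X := ⟨_, rfl⟩
  haveI hHYn : HY.Normal := by
    rw [hHY, hX]; exact Subgroup.normal_in_normalizer
  have hQN : ∀ x : ↥X, x ∈ (Q : Subgroup ↥X) ↔ (x : G) ∈ N := by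
    intro x
    rw [← hQ]
    constructor
    · intro hx
      exact ⟨x, hx, rfl⟩
    · rintro ⟨y, hy, hyx⟩
      have : y = x := Subtype.ext hyx
      rwa [this] at hy
  -- `C_N(H) ≤ H`
  have hN₀ : N ⊓ C ≤ H₀ := by
    obtain ⟨R, hR⟩ := Cfsg.Agent.H13.exists_sylow_inf_normal Q D
    have hFrat := Sylow.normalizer_sup_eq_top R
    have hR' : ((R : Subgroup ↥D).map D.subtype : Subgroup ↥X) = (Q : Subgroup ↥X) ⊓ D := hR
    obtain ⟨H₂, hH₂⟩ : ∃ H₂, H₂ = H₀ ⊔ (N ⊓ C) := ⟨_, rfl⟩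
    obtain ⟨C₂, hC₂⟩ : ∃ C₂, C₂ = Subgroup.centralizer (H₂ : Set G) := ⟨_, rfl⟩
    have hH₂P : H₂ ≤ P := by
      rw [hH₂]
      exact sup_le hH₀P (inf_le_left.trans hNP)
    -- `X` normalizes `C`
    have hCconj : ∀ x ∈ X, ∀ c ∈ C, x * c * x⁻¹ ∈ C := by
      intro x hx c hc
      rw [hC] at hc ⊢
      refine Subgroup.mem_centralizer_iff.2 ?_
      intro h hh
      have h1 : x⁻¹ * h * x⁻¹⁻¹ ∈ H₀ := hXconj x⁻¹ (X.inv_mem hx) h hh
      have h2 := Subgroup.mem_centralizer_iff.1 hc _ h1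
      rw [inv_inv] at h2
      calc h * (x * c * x⁻¹) = x * ((x⁻¹ * h * x) * c) * x⁻¹ := by group
        _ = x * (c * (x⁻¹ * h * x)) * x⁻¹ := by rw [h2]
        _ = x * c * x⁻¹ * h := by group
    -- elements normalizing `H` and `N ⊓ C`
    have hnormH₂ : ∀ y, (∀ h ∈ H₀, y * h * y⁻¹ ∈ H₀) → (∀ z ∈ N ⊓ C, y * z * y⁻¹ ∈ N ⊓ C) →
        y ∈ Subgroup.normalizer (H₂ : Set G) := by
      intro y h1 h2
      apply Cfsg.Agent.H20.mem_normalizer_of_conj_le
      have hle : H₂ ≤ H₂.comap (MulAut.conj y).toMonoidHom := by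
        rw [hH₂]
        apply sup_le
        · intro h hh
          exact Subgroup.mem_sup_left (h1 h hh)
        · intro h hh
          exact Subgroup.mem_sup_right (h2 h hh)
      exact fun z hz => hle hz
    have hNnorm : N ≤ Subgroup.normalizer (H₂ : Set G) := by
      intro n hn
      apply hnormH₂ n (hXconj n (hNX hn))
      rintro z ⟨hz1, hz2⟩
      exact ⟨N.mul_mem (N.mul_mem hn hz1) (N.inv_mem hn), hCconj n (hNX hn) z hz2⟩
    -- the Frattini argument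
    obtain ⟨X₁', hX₁'⟩ : ∃ X₁', X₁' = Subgroup.normalizer (((Q : Subgroup ↥X) ⊓ D : Subgroup ↥X) : Set ↥X) := ⟨_, rfl⟩
    rw [hR', ← hX₁'] at hFrat
    obtain ⟨X₁, hX₁⟩ : ∃ X₁, X₁ = X₁'.map X.subtype := ⟨_, rfl⟩
    have hX₁X : X₁ ≤ X := by
      rw [hX₁]
      rintro _ ⟨y, -, rfl⟩
      exact y.2
    have hX₁H₂ : X₁ ≤ Subgroup.normalizer (H₂ : Set G) := by
      rw [hX₁]
      rintro _ ⟨y, hy, rfl⟩
      apply hnormH₂ (y : G) (hXconj y y.2)
      rintro z ⟨hz1, hz2⟩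
      have hzX : z ∈ X := hNX hz1
      have h1 : (⟨z, hzX⟩ : ↥X) ∈ ((Q : Subgroup ↥X) ⊓ D : Subgroup ↥X) :=
        ⟨(hQN _).2 hz1, by rw [hD]; exact Subgroup.mem_subgroupOf.2 hz2⟩
      rw [hX₁'] at hy
      obtain ⟨h2, h3⟩ := (Subgroup.mem_normalizer_iff.1 hy _).1 h1
      refine ⟨(hQN _).1 h2, ?_⟩
      rw [hD] at h3
      exact Subgroup.mem_subgroupOf.1 h3
    have hcov : ∀ x ∈ X, ∃ c ∈ C, ∃ y ∈ X₁, x = c * y := by
      intro x hx
      have h1 : (⟨x, hx⟩ : ↥X) ∈ D ⊔ X₁' := by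
        rw [sup_comm, hFrat]
        exact Subgroup.mem_top _
      obtain ⟨d, hd, y, hy, hdy⟩ := Cfsg.Agent.H01.exists_mul_of_mem_sup (by
        rw [Subgroup.normalizer_eq_top D]; exact le_top) h1
      refine ⟨d, ?_, y, ?_, ?_⟩
      · rw [hD] at hd
        exact Subgroup.mem_subgroupOf.1 hd
      · rw [hX₁]
        exact ⟨y, hy, rfl⟩
      · exact congrArg Subtype.val hdy
    have hCn : (C.subgroupOf X).Normal := by
      rw [← hD]; exact hDn
    have hrel := relIndex_eq_of_cover C X X₁ hX₁X hCn hcov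
    have hC₂C : C₂ ≤ C := by
      rw [hC₂, hC]
      apply Subgroup.centralizer_le
      rw [hH₂]
      exact fun h hh => Subgroup.mem_sup_left hh
    have h3 : C.relIndex X₁ ∣ C₂.relIndex X₁ := Subgroup.relIndex_dvd_of_le_left _ hC₂C
    have h4 : C₂.relIndex X₁ ∣ ai H₂ := by
      have h5 : (C₂.subgroupOf (Subgroup.normalizer (H₂ : Set G))).Normal := by
        rw [hC₂]; infer_instance
      have h6 := Subgroup.relIndex_dvd_index_of_normal (C₂.subgroupOf (Subgroup.normalizer (H₂ : Set G)))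
        (X₁.subgroupOf (Subgroup.normalizer (H₂ : Set G)))
      rw [Subgroup.relIndex_subgroupOf hX₁H₂] at h6
      rw [hC₂] at h6 ⊢
      exact h6
    have hqH₂ : q ∣ ai H₂ := by
      have h7 : ai H₀ = C.relIndex X := by
        rw [hC, hX]; rfl
      rw [h7, hrel] at hH₀q
      exact hH₀q.trans (h3.trans h4)
    have hle : N ≤ P ⊓ Subgroup.normalizer (H₂ : Set G) := le_inf hNP hNnorm
    have h8 := hM2 H₂ hH₂P hqH₂ (Subgroup.card_le_of_le hle)
    have h9 : H₀ = H₂ := Subgroup.eq_of_le_of_card_ge (by rw [hH₂]; exact le_sup_left) h8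
    rw [h9, hH₂]
    exact le_sup_right
  -- apply the model
  have hHYp : IsPGroup p HY := by
    rw [hHY]; exact IsPGroup.comap_subtype hH₀p
  have hDiff : ∀ y, y ∈ D ↔ ∀ h ∈ HY, y * h = h * y := by
    intro y
    rw [hD, hHY, Subgroup.mem_subgroupOf, hC]
    constructor
    · intro hy h hh
      apply Subtype.ext
      exact (Subgroup.mem_centralizer_iff.1 hy _ (Subgroup.mem_subgroupOf.1 hh)).symm
    · intro hy
      refine Subgroup.mem_centralizer_iff.2 ?_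
      intro h hh
      have h1 := hy ⟨h, hH₀X hh⟩ (Subgroup.mem_subgroupOf.2 hh)
      exact (congrArg Subtype.val h1).symm
  have hQD : (Q : Subgroup ↥X) ⊓ D ≤ HY := by
    rintro x ⟨hx1, hx2⟩
    rw [hHY]
    apply Subgroup.mem_subgroupOf.2
    refine hN₀ ⟨(hQN x).1 hx1, ?_⟩
    rw [hD] at hx2
    exact Subgroup.mem_subgroupOf.1 hx2
  have hsolD : IsPSolvable p (↥X ⧸ D) := by
    have h1 := hsol H₀ hH₀p
    subst hD hC hX
    exact h1
  have hqD : q ∣ D.index := by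
    rw [hD, hC, hX]
    rw [← hX]
    subst hX
    exact hH₀q
  obtain ⟨K', hK', hqK'⟩ := model hpq h23 HY D hHYp hDiff Q hQD hsolD hqD
  obtain ⟨K, hK⟩ : ∃ K, K = K'.map X.subtype := ⟨_, rfl⟩
  have hKch : IsCh N K := by
    have h1 := hK'.map X.subtype X.subtype_injective
    rwa [hQ, ← hK] at h1
  have hqK : q ∣ ai K := by
    rw [hK]
    exact hqK'.trans (ai_subgroup_dvd X K')
  -- an element of `N_P(N)` outside `N`
  have hlt : N.subgroupOf P < ⊤ := by
    rw [lt_top_iff_ne_top]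
    intro htop
    apply hnP
    intro x hx
    have h1 : (⟨x, hx⟩ : ↥P) ∈ N.subgroupOf P := by
      rw [htop]; exact Subgroup.mem_top _
    exact hNX (Subgroup.mem_subgroupOf.1 h1)
  haveI : Group.IsNilpotent ↥P := hPp.isNilpotent
  have hcond := Group.normalizerCondition_of_isNilpotent (G := ↥P) (N.subgroupOf P) hlt
  obtain ⟨w, hw1, hw2⟩ := SetLike.exists_of_lt hcond
  have hwN : (w : G) ∉ N := fun h => hw2 (Subgroup.mem_subgroupOf.2 h)
  have hw3 : ∀ x ∈ N, (w : G) * x * (w : G)⁻¹ ∈ N := by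
    intro x hx
    have h1 := (Subgroup.mem_normalizer_iff.1 hw1 ⟨x, hNP hx⟩).1 (Subgroup.mem_subgroupOf.2 hx)
    exact Subgroup.mem_subgroupOf.1 h1
  have hw4 : ∀ x ∈ N, (w : G)⁻¹ * x * (w : G) ∈ N := by
    intro x hx
    have e : w⁻¹ * ⟨x, hNP hx⟩ * w⁻¹⁻¹ = (w⁻¹ * ⟨x, hNP hx⟩ * w : ↥P) := by rw [inv_inv]
    have h1 := (Subgroup.mem_normalizer_iff.1 ((Subgroup.normalizer _).inv_mem hw1) ⟨x, hNP hx⟩).1 (Subgroup.mem_subgroupOf.2 hx)
    rw [inv_inv] at h1
    exact Subgroup.mem_subgroupOf.1 h1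
  let φ : ↥N ≃* ↥N :=
    { toFun := fun x => ⟨(w : G) * x * (w : G)⁻¹, hw3 x x.2⟩
      invFun := fun x => ⟨(w : G)⁻¹ * x * (w : G), hw4 x x.2⟩
      left_inv := by
        intro x
        apply Subtype.ext
        simp only
        group
      right_inv := by
        intro x
        apply Subtype.ext
        simp only
        group
      map_mul' := by
        intro x y
        apply Subtype.ext
        simp only [Subgroup.coe_mul]
        group }
  have hwK : (w : G) ∈ Subgroup.normalizer (K : Set G) := by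
    apply Cfsg.Agent.H20.mem_normalizer_of_conj_le
    intro k hk
    exact hKch.2 φ ⟨k, hKch.1 hk⟩ hk
  have hKP : K ≤ P := hKch.1.trans hNP
  have hNK : N ≤ P ⊓ Subgroup.normalizer (K : Set G) := le_inf hNP hKch.le_normalizer
  have h1 := hM1 K hKP hqK
  have h2 : N = P ⊓ Subgroup.normalizer (K : Set G) := Subgroup.eq_of_le_of_card_ge hNK h1
  apply hwN
  rw [h2]
  exact ⟨w.2, hwK⟩

end Cfsg.Agent.S4411
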