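import Cfsg.Statements.S4412
import Cfsg.Agent.Lib.H20.BurnsideBasis
import Mathlib

set_option autoImplicit false
set_option linter.unusedVariables false
set_option linter.style.haveILetI false
set_option linter.unusedSectionVars false
open Cfsg

namespace Cfsg.Agent.S4412

open Subgroup

section basics

variable {P : Type*} [Group P] [Finite P]

theorem eq_one_of_sq {p : ℕ} (hp : p.Prime) (hp2 : p ≠ 2) (hP : IsPGroup p P) {y : P}
    (h : y * y = 1) : y = 1 := by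
  obtain ⟨k, hk⟩ := hP y
  have h1 : orderOf y ∣ p ^ k := orderOf_dvd_of_pow_eq_one hk
  have h2 : orderOf y ∣ 2 := orderOf_dvd_of_pow_eq_one (by rw [pow_two]; exact h)
  have h3 : Nat.Coprime (p ^ k) 2 :=
    Nat.Coprime.pow_left _ ((Nat.coprime_primes hp Nat.prime_two).mpr hp2)
  exact orderOf_eq_one_iff.mp (Nat.eq_one_of_dvd_coprimes h3 h1 h2)

/-- An involution on an odd coset has a fixed point. -/
theorem exists_fixed_coset (T : MulAut P) (hT : ∀ x, T (T x) = x) {N : Subgroup P}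
    (hNodd : Odd (Nat.card N)) (hN : ∀ n ∈ N, T n ∈ N) (x : P) (hx : x⁻¹ * T x ∈ N) :
    ∃ y, x⁻¹ * y ∈ N ∧ T y = y := by
  classical
  haveI := Fintype.ofFinite P
  let α := {y : P // x⁻¹ * y ∈ N}
  haveI : Fintype α := Fintype.ofFinite α
  let f : Function.End α := fun y => ⟨T y.1, by
    have h1 : x⁻¹ * T y.1 = (x⁻¹ * T x) * T (x⁻¹ * y.1) := by
      simp [mul_assoc]
    rw [h1]
    exact N.mul_mem hx (hN _ y.2)⟩
  have hf : f ^ 2 ^ 1 = 1 := by
    funext y
    apply Subtype.ext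
    show T (T y.1) = y.1
    exact hT _
  haveI : Fact (Nat.Prime 2) := ⟨Nat.prime_two⟩
  have hmod := Equiv.Perm.card_fixedPoints_modEq (f := f) (p := 2) (n := 1) hf
  have hcard : Fintype.card α = Nat.card N := by
    rw [← Nat.card_eq_fintype_card]
    apply Nat.card_congr
    exact ⟨fun y => ⟨x⁻¹ * y.1, y.2⟩, fun n => ⟨x * n.1, by simp⟩,
      fun y => Subtype.ext (by simp), fun n => Subtype.ext (by simp)⟩
  rw [hcard] at hmod
  have hne : Fintype.card f.fixedPoints ≠ 0 := by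
    intro h0
    rw [h0] at hmod
    have := hmod.dvd
    obtain ⟨k, hk⟩ := hNodd
    have h1 : Nat.card N % 2 = 0 := hmod
    omega
  obtain ⟨y⟩ := Fintype.card_pos_iff.mp (Nat.pos_of_ne_zero hne)
  exact ⟨y.1.1, y.1.2, congrArg Subtype.val y.2⟩

/-- The Klein group in an abelian group of odd exponent. -/
theorem four_abstract {W : Type*} [Group W] (hcomm : ∀ a b : W, a * b = b * a) {p : ℕ} (hp2 : Odd p)
    (hexp : ∀ w : W, w ^ p = 1) (τ₁ τ₂ : W ≃* W) (h1 : ∀ w, τ₁ (τ₁ w) = w) (h2 : ∀ w, τ₂ (τ₂ w) = w)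
    (hc : ∀ w, τ₁ (τ₂ w) = τ₂ (τ₁ w)) (D : Subgroup W) (hD1 : ∀ w, τ₁ w = w → w ∈ D)
    (hD2 : ∀ w, τ₂ w = w → w ∈ D) (hD3 : ∀ w, τ₁ (τ₂ w) = w → w ∈ D) : ∀ w, w ∈ D := by
  letI : CommGroup W := { ‹Group W› with mul_comm := hcomm }
  obtain ⟨k, hk⟩ := hp2
  have hsq : ∀ w : W, w * w ∈ D → w ∈ D := by
    intro w hw
    have h3 : w = (w * w) ^ (k + 1) := by
      have h4 : (w * w) ^ (k + 1) = w ^ (2 * k + 2) := by
        rw [← pow_two, ← pow_mul, show 2 * (k + 1) = 2 * k + 2 by ring]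
      rw [h4, show 2 * k + 2 = (2 * k + 1) + 1 by ring, pow_succ, ← hk, hexp, one_mul]
    rw [h3]
    exact D.pow_mem hw _
  have hdec : ∀ (τ : W ≃* W) (w : W), (w * τ w) * (w * (τ w)⁻¹) = w * w := by
    intro τ w
    rw [mul_comm w (τ w)⁻¹, ← mul_assoc, mul_assoc w, mul_inv_cancel, mul_one]
  have step1 : ∀ y : W, τ₁ y = y⁻¹ → τ₂ y = y⁻¹ → y ∈ D := by
    intro y hy1 hy2
    apply hD3
    rw [hy2, map_inv, hy1, inv_inv]
  have step2 : ∀ u : W, τ₁ u = u⁻¹ → u ∈ D := by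
    intro u hu
    apply hsq
    rw [← hdec τ₂ u]
    refine D.mul_mem (hD2 _ ?_) (step1 _ ?_ ?_)
    · rw [map_mul, h2, mul_comm]
    · rw [map_mul, map_inv, hc, hu, map_inv, inv_inv, mul_inv_rev, inv_inv]
      exact mul_comm _ _
    · rw [map_mul, map_inv, h2, mul_inv_rev, inv_inv]
  intro w
  apply hsq
  rw [← hdec τ₁ w]
  refine D.mul_mem (hD1 _ ?_) (step2 _ ?_)
  · rw [map_mul, h1, mul_comm]
  · rw [map_mul, map_inv, h1, mul_inv_rev, inv_inv]

theorem four_gen {p : ℕ} [Fact p.Prime] (hp2 : p ≠ 2) (hP : IsPGroup p P) (E₁ E₂ : MulAut P)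
    (h1 : ∀ x, E₁ (E₁ x) = x) (h2 : ∀ x, E₂ (E₂ x) = x) (hc : ∀ x, E₁ (E₂ x) = E₂ (E₁ x))
    (g₁ g₂ g₃ : P) (hg1 : ∀ x, E₁ x = x ↔ x ∈ zpowers g₁) (hg2 : ∀ x, E₂ x = x ↔ x ∈ zpowers g₂)
    (hg3 : ∀ x, E₁ (E₂ x) = x ↔ x ∈ zpowers g₃) : closure {g₁, g₂, g₃} = ⊤ := by
  set Φ := frattini P with hΦ
  have hΦc : Φ.Characteristic := inferInstance
  have hmap : ∀ T : MulAut P, Φ.map T.toMonoidHom = Φ := fun T =>
    Subgroup.characteristic_iff_map_eq.mp hΦc T
  have hinv : ∀ T : MulAut P, ∀ n ∈ Φ, T n ∈ Φ := by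
    intro T n hn
    rw [← hmap T]
    exact Subgroup.mem_map_of_mem _ hn
  have hodd : Odd (Nat.card Φ) := by
    obtain ⟨k, hk⟩ := IsPGroup.iff_card.mp (hP.to_subgroup Φ)
    rw [hk]
    exact Odd.pow ((Fact.out : p.Prime).odd_of_ne_two hp2)
  let τ : MulAut P → ((P ⧸ Φ) ≃* (P ⧸ Φ)) := fun T => QuotientGroup.congr Φ Φ T (hmap T)
  have hτ : ∀ (T : MulAut P) (x : P), τ T (x : P ⧸ Φ) = (T x : P) := fun T x => rfl
  have hA : closure {g₁, g₂, g₃} ≤ ⊤ := le_top
  set A := closure {g₁, g₂, g₃} with hAdef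
  have hg1A : zpowers g₁ ≤ A := by
    rw [zpowers_le]; exact subset_closure (by simp)
  have hg2A : zpowers g₂ ≤ A := by
    rw [zpowers_le]; exact subset_closure (by simp)
  have hg3A : zpowers g₃ ≤ A := by
    rw [zpowers_le]; exact subset_closure (by simp)
  have hlift : ∀ (T : MulAut P), (∀ x, T (T x) = x) → (∀ x, T x = x → x ∈ A) →
      ∀ w : P ⧸ Φ, τ T w = w → w ∈ A.map (QuotientGroup.mk' Φ) := by
    intro T hT hTA w hw
    obtain ⟨x, rfl⟩ := QuotientGroup.mk_surjective w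
    rw [hτ] at hw
    have hx : x⁻¹ * T x ∈ Φ := by
      rw [← QuotientGroup.eq]; exact hw.symm
    obtain ⟨y, hy, hyf⟩ := exists_fixed_coset T hT hodd (hinv T) x hx
    refine ⟨y, hTA y hyf, ?_⟩
    exact (QuotientGroup.eq.mpr hy).symm
  have hall := four_abstract (W := P ⧸ Φ) (H20.frattini_quotient_comm hP)
    ((Fact.out : p.Prime).odd_of_ne_two hp2) (H20.frattini_quotient_exp hP) (τ E₁) (τ E₂)
    (by
      intro w
      obtain ⟨x, rfl⟩ := QuotientGroup.mk_surjective w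
      rw [hτ, hτ, h1])
    (by
      intro w
      obtain ⟨x, rfl⟩ := QuotientGroup.mk_surjective w
      rw [hτ, hτ, h2])
    (by
      intro w
      obtain ⟨x, rfl⟩ := QuotientGroup.mk_surjective w
      rw [hτ, hτ, hτ, hτ, hc])
    (A.map (QuotientGroup.mk' Φ))
    (hlift E₁ h1 (fun x hx => hg1A ((hg1 x).mp hx)))
    (hlift E₂ h2 (fun x hx => hg2A ((hg2 x).mp hx)))
    (by
      intro w hw
      apply hlift (E₁ * E₂) (by
        intro x
        simp only [MulAut.mul_apply]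
        rw [hc, h1, h2]) (fun x hx => hg3A ((hg3 x).mp hx))
      obtain ⟨x, rfl⟩ := QuotientGroup.mk_surjective w
      rw [hτ, hτ] at hw
      rw [hτ]
      exact hw)
  apply frattini_nongenerating
  rw [eq_top_iff]
  intro x _
  obtain ⟨a, ha, hax⟩ := hall (x : P ⧸ Φ)
  have h4 : a⁻¹ * x ∈ Φ := by
    rw [← QuotientGroup.eq]
    exact hax
  have h5 : x = a * (a⁻¹ * x) := by group
  rw [h5]
  exact Subgroup.mul_mem_sup ha h4

theorem sign_cyc {p : ℕ} (hp : p.Prime) (hp2 : p ≠ 2) (hP : IsPGroup p P) (T : MulAut P)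
    (hT : ∀ x, T (T x) = x) (g : P) (hg : T g ∈ zpowers g) : T g = g ∨ T g = g⁻¹ := by
  obtain ⟨k, hk⟩ := mem_zpowers_iff.mp hg
  have h1 : g ^ (k * k - 1) = 1 := by
    have h2 : T (g ^ k) = g := by rw [hk, hT]
    rw [map_zpow, ← hk, ← zpow_mul] at h2
    rw [zpow_sub, h2, zpow_one, mul_inv_cancel]
  have h3 : (orderOf g : ℤ) ∣ (k - 1) * (k + 1) := by
    rw [orderOf_dvd_iff_zpow_eq_one]
    convert h1 using 2
    ring
  haveI : Fact p.Prime := ⟨hp⟩
  obtain ⟨a, ha⟩ := (IsPGroup.iff_orderOf (p := p)).mp hP g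
  rw [ha] at h3
  have hpi : Prime (p : ℤ) := Nat.prime_iff_prime_int.mp hp
  push_cast at h3
  by_cases hd : (p : ℤ) ∣ k - 1
  · left
    have hnd : ¬ (p : ℤ) ∣ k + 1 := by
      intro hd2
      have h4 : (p : ℤ) ∣ 2 := by
        have := dvd_sub hd2 hd
        simpa using this
      have h5 : p ∣ 2 := by exact_mod_cast h4
      exact hp2 ((Nat.prime_dvd_prime_iff_eq hp Nat.prime_two).mp h5)
    have hco : IsCoprime ((p : ℤ) ^ a) (k + 1) :=
      IsCoprime.pow_left (hpi.irreducible.coprime_iff_not_dvd.mpr hnd)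
    have h6 := hco.dvd_of_dvd_mul_right h3
    have h7 : g ^ (k - 1) = 1 := by
      rw [← orderOf_dvd_iff_zpow_eq_one, ha]
      exact_mod_cast h6
    rw [← hk]
    rw [zpow_sub, zpow_one] at h7
    exact mul_inv_eq_one.mp h7
  · right
    have hco : IsCoprime ((p : ℤ) ^ a) (k - 1) :=
      IsCoprime.pow_left (hpi.irreducible.coprime_iff_not_dvd.mpr hd)
    have h6 := hco.dvd_of_dvd_mul_left h3
    have h7 : g ^ (k + 1) = 1 := by
      rw [← orderOf_dvd_iff_zpow_eq_one, ha]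
      exact_mod_cast h6
    rw [← hk]
    rw [zpow_add, zpow_one] at h7
    exact eq_inv_of_mul_eq_one_left h7

/-- A fixed point free involution on a subgroup. -/
theorem fpf_comm (R : Subgroup P) (T : MulAut P) (hT : ∀ x, T (T x) = x) (hR : ∀ x ∈ R, T x ∈ R)
    (hfix : ∀ y ∈ R, T y = y → y = 1) : ∀ a ∈ R, ∀ b ∈ R, a * b = b * a := by
  let φ : R → R := fun x => ⟨(x : P)⁻¹ * T x, R.mul_mem (R.inv_mem x.2) (hR _ x.2)⟩
  have hinj : Function.Injective φ := by
    intro x y hxy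
    have h1 : (x : P)⁻¹ * T x = (y : P)⁻¹ * T y := congrArg Subtype.val hxy
    have h2 : T ((y : P) * (x : P)⁻¹) = (y : P) * (x : P)⁻¹ := by
      rw [map_mul, map_inv]
      have h3 : T y = y * ((x : P)⁻¹ * T x) := by rw [h1]; group
      rw [h3]
      group
    have h4 := hfix _ (R.mul_mem y.2 (R.inv_mem x.2)) h2
    have h5 : (y : P) = x := mul_inv_eq_one.mp h4
    exact Subtype.ext h5.symm
  have hsurj := Finite.injective_iff_surjective.mp hinj
  have hinv : ∀ z ∈ R, T z = z⁻¹ := by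
    intro z hz
    obtain ⟨x, hx⟩ := hsurj ⟨z, hz⟩
    have h1 : (x : P)⁻¹ * T x = z := congrArg Subtype.val hx
    rw [← h1, map_mul, map_inv, hT]
    group
  intro a ha b hb
  have h1 : T (a * b) = (a * b)⁻¹ := hinv _ (R.mul_mem ha hb)
  rw [map_mul, hinv a ha, hinv b hb, mul_inv_rev] at h1
  have h2 : (a⁻¹ * b⁻¹)⁻¹ = (b⁻¹ * a⁻¹)⁻¹ := by rw [h1]
  simp only [mul_inv_rev, inv_inv] at h2
  exact h2.symm

end basics

section four

variable {M : Type*} [Group M] [Finite M]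

theorem exists_four (I I₀ : Subgroup M) (hI2 : ∀ a ∈ I, a * a = 1)
    (hIc : ∀ a ∈ I, ∀ b ∈ I, a * b = b * a) (hI8 : Nat.card I = 8) (hI₀ : I₀ < I) (Br : M → Prop)
    (h0 : ∀ T ∈ I₀, T ≠ 1 → ¬ Br T)
    (hpr : ∀ T ∈ I, ∀ T' ∈ I, T ≠ 1 → T' ≠ 1 → Br T → Br T' → T * T' ∈ I₀) :
    ∃ E₁ ∈ I, ∃ E₂ ∈ I, E₁ ≠ 1 ∧ E₂ ≠ 1 ∧ E₁ ≠ E₂ ∧ ¬ Br E₁ ∧ ¬ Br E₂ ∧ ¬ Br (E₁ * E₂) := by
  classical
  have avoid : ∀ S : Finset M, S.card < 8 → ∃ T ∈ I, T ∉ S := by
    intro S hS
    by_contra hcon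
    push Not at hcon
    have h1 : Nat.card I ≤ S.card := by
      haveI := Fintype.ofFinite I
      rw [Nat.card_eq_fintype_card, ← Fintype.card_coe S]
      exact Fintype.card_le_of_injective (fun x : I => (⟨x.1, hcon x.1 x.2⟩ : S))
        (fun a b h => Subtype.ext (congrArg (fun z : S => (z : M)) h))
    omega
  have hJcard : Nat.card I₀ ≤ 4 := by
    have h1 : Nat.card I₀ ∣ 8 := by
      rw [← hI8]; exact Subgroup.card_dvd_of_le hI₀.le
    have h2 : Nat.card I₀ ≠ 8 := by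
      intro h
      apply hI₀.ne
      apply Subgroup.eq_of_le_of_card_ge hI₀.le
      omega
    have h3 : Nat.card I₀ ≤ 8 := Nat.le_of_dvd (by norm_num) h1
    interval_cases h : Nat.card I₀ <;> omega
  have hinv1 : ∀ a ∈ I, a⁻¹ = a := fun a ha => inv_eq_of_mul_eq_one_right (hI2 a ha)
  by_cases hb : ∃ b ∈ I, b ≠ 1 ∧ Br b
  · obtain ⟨b, hbI, hb1, hbB⟩ := hb
    have hbad : ∀ T ∈ I, T ≠ 1 → (∀ j ∈ I₀, T ≠ b * j) → ¬ Br T := by
      intro T hT hT1 hTj hBr
      apply hTj (b * T) (hpr b hbI T hT hb1 hT1 hbB hBr)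
      rw [← mul_assoc, hI2 b hbI, one_mul]
    let Jf : Finset M := (Set.toFinite (I₀ : Set M)).toFinset
    have hJf : Jf.card ≤ 4 := by
      have h1 : Nat.card (I₀ : Set M) = Jf.card := Nat.card_eq_card_finite_toFinset _
      have h2 : Nat.card (I₀ : Set M) = Nat.card I₀ := rfl
      omega
    have hJmem : ∀ j, j ∈ Jf ↔ j ∈ I₀ := by
      intro j
      simp [Jf]
    by_cases hJ : ∃ E₁ ∈ I₀, E₁ ≠ 1
    · obtain ⟨E₁, hE₁J, hE₁1⟩ := hJ
      have hE₁I := hI₀.le hE₁J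
      obtain ⟨E₂, hE₂I, hE₂⟩ := avoid ({1, E₁} ∪ Jf.image (fun j => b * j)) (by
        have h1 := Finset.card_union_le ({1, E₁} : Finset M) (Jf.image (fun j => b * j))
        have h2 : ({1, E₁} : Finset M).card ≤ 2 := Finset.card_le_two
        have h3 := Finset.card_image_le (s := Jf) (f := fun j => b * j)
        omega)
      simp only [Finset.mem_union, Finset.mem_insert, Finset.mem_singleton, Finset.mem_image,
        hJmem, not_or, not_exists, not_and] at hE₂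
      obtain ⟨⟨hE₂1, hE₂2⟩, hE₂3⟩ := hE₂
      refine ⟨E₁, hE₁I, E₂, hE₂I, hE₁1, hE₂1, Ne.symm hE₂2, h0 _ hE₁J hE₁1, ?_, ?_⟩
      · exact hbad E₂ hE₂I hE₂1 (fun j hj h => hE₂3 j hj h.symm)
      · apply hbad _ (I.mul_mem hE₁I hE₂I)
        · intro h
          apply hE₂2
          have := eq_inv_of_mul_eq_one_right h
          rw [hinv1 _ hE₁I] at this
          exact this
        · intro j hj h
          apply hE₂3 (E₁ * j) (I₀.mul_mem hE₁J hj)
          have h2 : E₂ = E₁ * (b * j) := by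
            rw [← h, ← mul_assoc, hI2 _ hE₁I, one_mul]
          rw [h2, ← mul_assoc, ← mul_assoc, hIc b hbI E₁ hE₁I]
    · push Not at hJ
      have hJ1 : ∀ j ∈ I₀, j = 1 := hJ
      have hbad' : ∀ T ∈ I, T ≠ 1 → T ≠ b → ¬ Br T := by
        intro T hT hT1 hTb
        apply hbad T hT hT1
        intro j hj
        rw [hJ1 j hj, mul_one]
        exact hTb
      obtain ⟨E₁, hE₁I, hE₁⟩ := avoid {1, b} (by
        have h2 : ({1, b} : Finset M).card ≤ 2 := Finset.card_le_two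
        omega)
      simp only [Finset.mem_insert, Finset.mem_singleton, not_or] at hE₁
      obtain ⟨hE₁1, hE₁b⟩ := hE₁
      obtain ⟨E₂, hE₂I, hE₂⟩ := avoid {1, E₁, b, b * E₁} (by
        have h2 : ({1, E₁, b, b * E₁} : Finset M).card ≤ 4 := Finset.card_le_four
        omega)
      simp only [Finset.mem_insert, Finset.mem_singleton, not_or] at hE₂
      obtain ⟨hE₂1, hE₂2, hE₂3, hE₂4⟩ := hE₂
      refine ⟨E₁, hE₁I, E₂, hE₂I, hE₁1, hE₂1, Ne.symm hE₂2, hbad' _ hE₁I hE₁1 hE₁b,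
        hbad' _ hE₂I hE₂1 hE₂3, ?_⟩
      apply hbad' _ (I.mul_mem hE₁I hE₂I)
      · intro h
        apply hE₂2
        have := eq_inv_of_mul_eq_one_right h
        rw [hinv1 _ hE₁I] at this
        exact this
      · intro h
        apply hE₂4
        have h2 : E₂ = E₁ * b := by
          rw [← h, ← mul_assoc, hI2 _ hE₁I, one_mul]
        rw [h2, hIc E₁ hE₁I b hbI]
  · push Not at hb
    have hb' : ∀ T ∈ I, T ≠ 1 → ¬ Br T := fun T hT hT1 => hb T hT hT1
    obtain ⟨E₁, hE₁I, hE₁⟩ := avoid {1} (by simp)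
    simp only [Finset.mem_singleton] at hE₁
    obtain ⟨E₂, hE₂I, hE₂⟩ := avoid {1, E₁} (by
      have h2 : ({1, E₁} : Finset M).card ≤ 2 := Finset.card_le_two
      omega)
    simp only [Finset.mem_insert, Finset.mem_singleton, not_or] at hE₂
    obtain ⟨hE₂1, hE₂2⟩ := hE₂
    refine ⟨E₁, hE₁I, E₂, hE₂I, hE₁, hE₂1, Ne.symm hE₂2, hb' _ hE₁I hE₁, hb' _ hE₂I hE₂1, ?_⟩
    apply hb' _ (I.mul_mem hE₁I hE₂I)
    intro h
    apply hE₂2
    have := eq_inv_of_mul_eq_one_right h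
    rw [hinv1 _ hE₁I] at this
    exact this

end four

section counts

/-- Counting in a 2-generated abelian group of exponent `p`. -/
theorem card_le_of_two {W : Type*} [Group W] [Finite W] (hcomm : ∀ a b : W, a * b = b * a) {p : ℕ}
    [Fact p.Prime] (hexp : ∀ w : W, w ^ p = 1) (a b : W) (hab : closure {a, b} = ⊤) :
    Nat.card W ≤ p * p := by
  letI : CommGroup W := { ‹Group W› with mul_comm := hcomm }
  have hp0 : NeZero p := ⟨(Fact.out : p.Prime).ne_zero⟩
  let f : Fin p × Fin p → W := fun x => a ^ (x.1 : ℕ) * b ^ (x.2 : ℕ)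
  have hf : Function.Surjective f := by
    intro w
    have hw : w ∈ closure {a, b} := hab ▸ Subgroup.mem_top w
    obtain ⟨m, n, rfl⟩ := Subgroup.mem_closure_pair.mp hw
    have hp1 : (0 : ℤ) < p := by exact_mod_cast (Fact.out : p.Prime).pos
    have key : ∀ (c : W) (z : ℤ), ∃ i : Fin p, c ^ z = c ^ (i : ℕ) := by
      intro c z
      have h1 : c ^ (p : ℤ) = 1 := by rw [zpow_natCast]; exact hexp c
      have h2 : c ^ z = c ^ (z % p) := zpow_eq_zpow_emod _ h1
      have h3 := Int.emod_nonneg z hp1.ne'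
      have h4 := Int.emod_lt_of_pos z hp1
      refine ⟨⟨(z % p).toNat, by omega⟩, ?_⟩
      rw [h2]
      have h5 : ((z % p).toNat : ℤ) = z % p := Int.toNat_of_nonneg h3
      conv_lhs => rw [← h5]
      rw [zpow_natCast]
    obtain ⟨i, hi⟩ := key a m
    obtain ⟨j, hj⟩ := key b n
    exact ⟨(i, j), by simp only [f]; rw [hi, hj]⟩
  have := Nat.card_le_card_of_surjective f hf
  simpa using this

/-- Counting three independent eigenvectors. -/
theorem pow_three_le_card {W : Type*} [Group W] [Finite W] (hcomm : ∀ a b : W, a * b = b * a) {p : ℕ}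
    [Fact p.Prime] (hp2 : p ≠ 2) (hexp : ∀ w : W, w ^ p = 1) (x : Fin 3 → W)
    (τ : Fin 3 → (W ≃* W)) (hτ1 : ∀ l, τ l (x l) = (x l)⁻¹) (hτ2 : ∀ l m, l ≠ m → τ l (x m) = x m)
    (hx : ∀ l, x l ≠ 1) : p * p * p ≤ Nat.card W := by
  letI : CommGroup W := { ‹Group W› with mul_comm := hcomm }
  have hp0 : NeZero p := ⟨(Fact.out : p.Prime).ne_zero⟩
  let f : (Fin p × Fin p) × Fin p → W :=
    fun v => x 0 ^ (v.1.1 : ℕ) * x 1 ^ (v.1.2 : ℕ) * x 2 ^ (v.2 : ℕ)
  have hord : ∀ l, orderOf (x l) = p := fun l => orderOf_eq_prime (hexp _) (hx l)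
  have hcop : Nat.gcd p 2 = 1 := (Nat.coprime_primes Fact.out Nat.prime_two).mpr hp2
  have key : ∀ l (i j : Fin p), (x l) ^ (2 * (i : ℕ)) = (x l) ^ (2 * (j : ℕ)) → i = j := by
    intro l i j h
    have h1 := (pow_inj_mod (x := x l)).mp h
    rw [hord] at h1
    have h2 : 2 * (i : ℕ) ≡ 2 * (j : ℕ) [MOD p] := h1
    have h3 := Nat.ModEq.cancel_left_of_coprime hcop h2
    have h4 : (i : ℕ) = j := Nat.ModEq.eq_of_lt_of_lt h3 i.2 j.2
    exact Fin.ext h4
  have K : ∀ l (a b : ℕ) (C D : W), τ l C = C → τ l D = D → x l ^ a * C = x l ^ b * D →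
      x l ^ (2 * a) = x l ^ (2 * b) := by
    intro l a b C D hC hD h
    have h1 := congrArg (fun z => z * (τ l z)⁻¹) h
    simp only [map_mul, map_pow, hτ1, hC, hD] at h1
    have e : ∀ (a : ℕ) (C : W), x l ^ a * C * ((x l)⁻¹ ^ a * C)⁻¹ = x l ^ (2 * a) := by
      intro a C
      rw [mul_inv_rev, inv_pow, inv_inv, mul_assoc, mul_inv_cancel_left, two_mul, pow_add]
    rwa [e, e] at h1
  have hf : Function.Injective f := by
    rintro ⟨⟨i₀, i₁⟩, i₂⟩ ⟨⟨j₀, j₁⟩, j₂⟩ h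
    simp only [f] at h
    have h0 : i₀ = j₀ := by
      apply key 0
      refine K 0 _ _ (x 1 ^ (i₁ : ℕ) * x 2 ^ (i₂ : ℕ)) (x 1 ^ (j₁ : ℕ) * x 2 ^ (j₂ : ℕ)) ?_ ?_ ?_
      · simp [hτ2 0 1 (by decide), hτ2 0 2 (by decide)]
      · simp [hτ2 0 1 (by decide), hτ2 0 2 (by decide)]
      · rw [← mul_assoc, ← mul_assoc]; exact h
    have h1' : i₁ = j₁ := by
      apply key 1
      refine K 1 _ _ (x 0 ^ (i₀ : ℕ) * x 2 ^ (i₂ : ℕ)) (x 0 ^ (j₀ : ℕ) * x 2 ^ (j₂ : ℕ)) ?_ ?_ ?_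
      · simp [hτ2 1 0 (by decide), hτ2 1 2 (by decide)]
      · simp [hτ2 1 0 (by decide), hτ2 1 2 (by decide)]
      · rw [mul_left_comm, mul_left_comm (x 1 ^ (j₁ : ℕ)), ← mul_assoc, ← mul_assoc]; exact h
    have h2' : i₂ = j₂ := by
      apply key 2
      refine K 2 _ _ (x 0 ^ (i₀ : ℕ) * x 1 ^ (i₁ : ℕ)) (x 0 ^ (j₀ : ℕ) * x 1 ^ (j₁ : ℕ)) ?_ ?_ ?_
      · simp [hτ2 2 0 (by decide), hτ2 2 1 (by decide)]
      · simp [hτ2 2 0 (by decide), hτ2 2 1 (by decide)]
      · rw [mul_comm, mul_comm (x 2 ^ (j₂ : ℕ))]; exact h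
    rw [h0, h1', h2']
  have := Nat.card_le_card_of_injective f hf
  simpa using this

end counts

section main

variable {P : Type*} [Group P] [Finite P] {p : ℕ} [Fact p.Prime]

/-- The main structure, given the generators. -/
theorem main_struct (hp2 : p ≠ 2) (hP : IsPGroup p P)
    (I : Subgroup (MulAut P)) (hI2 : ∀ a ∈ I, ∀ x : P, a (a x) = x)
    (hIc : ∀ a ∈ I, ∀ b ∈ I, ∀ x, a (b x) = b (a x)) (hI8 : Nat.card ↥I = 8)
    (g : Fin 3 → P) (E : Fin 3 → MulAut P) (hE : ∀ i, E i ∈ I)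
    (hg : ∀ i x, E i x = x ↔ x ∈ zpowers (g i)) (hgen : closure (Set.range g) = ⊤) :
    ∃ B : Fin 3 → MulAut P, (∀ i, B i ∈ I) ∧ (∀ i, B i (g i) = (g i)⁻¹) ∧
      (∀ i j, i ≠ j → B i (g j) = g j) ∧ (∀ T ∈ I, ∀ i, T (g i) = g i ∨ T (g i) = (g i)⁻¹) ∧
      (∀ i, g i ≠ 1) ∧ (∀ i j, i ≠ j → E i (g j) = (g j)⁻¹) ∧
      (∀ T ∈ I, ∀ T' ∈ I, (∀ i, T (g i) = T' (g i)) → T = T') ∧
      (∀ a b : P, a * b = b * a) := by
  classical
  have hp := (Fact.out : p.Prime)
  have hsign : ∀ T ∈ I, ∀ i, T (g i) = g i ∨ T (g i) = (g i)⁻¹ := by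
    intro T hT i
    apply sign_cyc hp hp2 hP T (hI2 T hT)
    rw [← hg, hIc _ (hE i) _ hT, (hg i (g i)).mpr (mem_zpowers _)]
  have hagree : ∀ T ∈ I, ∀ T' ∈ I, (∀ i, T (g i) = T' (g i)) → T = T' := by
    intro T _ T' _ h
    have h1 : closure (Set.range g) ≤ (T.toMonoidHom).eqLocus T'.toMonoidHom := by
      rw [closure_le]
      rintro _ ⟨i, rfl⟩
      exact h i
    rw [hgen] at h1
    ext x
    exact h1 (Subgroup.mem_top x)
  let Ψ : I → (Fin 3 → Bool) := fun T i => decide ((T : MulAut P) (g i) = g i)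
  have hΨ : Function.Injective Ψ := by
    intro T T' h
    apply Subtype.ext
    apply hagree _ T.2 _ T'.2
    intro i
    have h1 : decide ((T : MulAut P) (g i) = g i) = decide ((T' : MulAut P) (g i) = g i) :=
      congrFun h i
    rcases hsign T T.2 i with h2 | h2
    · have h3 : (T' : MulAut P) (g i) = g i := by
        simpa [h2] using h1.symm
      rw [h2, h3]
    · rcases hsign T' T'.2 i with h3 | h3
      · have h4 : (T : MulAut P) (g i) = g i := by
          simpa [h3] using h1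
        rw [h4, h3]
      · rw [h2, h3]
  have hbij : Function.Bijective Ψ := by
    apply hΨ.bijective_of_nat_card_le
    rw [hI8]
    simp
  have hpat : ∀ s : Fin 3 → Bool, ∃ T ∈ I, ∀ i, (T (g i) = g i ↔ s i = true) := by
    intro s
    obtain ⟨T, hT⟩ := hbij.2 s
    refine ⟨T, T.2, fun i => ?_⟩
    rw [← hT]
    simp [Ψ]
  have hne : ∀ i, g i ≠ 1 := by
    intro i h
    obtain ⟨T, hT, h1⟩ := hpat (fun _ => false)
    have := (h1 i).mp (by rw [h, map_one])
    simp at this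
  let B : Fin 3 → MulAut P := fun i => (hpat (fun j => decide (j ≠ i))).choose
  have hBI : ∀ i, B i ∈ I := fun i => (hpat (fun j => decide (j ≠ i))).choose_spec.1
  have hBs : ∀ i j, (B i (g j) = g j ↔ j ≠ i) := by
    intro i j
    have : B i (g j) = g j ↔ decide (j ≠ i) = true :=
      (hpat (fun j => decide (j ≠ i))).choose_spec.2 j
    simpa using this
  have hB1 : ∀ i, B i (g i) = (g i)⁻¹ := by
    intro i
    rcases hsign _ (hBI i) i with h | h
    · exact absurd rfl ((hBs i i).mp h)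
    · exact h
  have hB2 : ∀ i j, i ≠ j → B i (g j) = g j := fun i j h => (hBs i j).mpr (Ne.symm h)
  have hnotin : ∀ i j, i ≠ j → g j ∉ zpowers (g i) := by
    intro i j hij hmem
    obtain ⟨T, hT, h1⟩ := hpat (fun k => decide (k = i))
    have h2 : T (g i) = g i := (h1 i).mpr (by simp)
    obtain ⟨k, hk⟩ := mem_zpowers_iff.mp hmem
    have h3 : T (g j) = g j := by rw [← hk, map_zpow, h2]
    have := (h1 j).mp h3
    simp at this
    exact hij this.symm
  have hEinv : ∀ i j, i ≠ j → E i (g j) = (g j)⁻¹ := by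
    intro i j hij
    rcases hsign _ (hE i) j with h | h
    · exact absurd ((hg i (g j)).mp h) (hnotin i j hij)
    · exact h
  have hodd : ∀ y : P, y⁻¹ = y → y = 1 := by
    intro y hy
    apply eq_one_of_sq hp hp2 hP
    nth_rewrite 1 [← hy]
    simp
  have hpair : ∀ i j k : Fin 3, i ≠ j → i ≠ k → j ≠ k → g i * g j = g j * g i := by
    intro i j k hij hik hjk
    set R := closure {g i, g j} with hR
    have hRi : g i ∈ R := subset_closure (by simp)
    have hRj : g j ∈ R := subset_closure (by simp)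
    have hEk : ∀ x ∈ R, E k x ∈ R := by
      have h1 : R ≤ R.comap (E k).toMonoidHom := by
        rw [hR, closure_le]
        rintro x (rfl | rfl)
        · show E k _ ∈ R
          rw [hEinv k _ (Ne.symm hik)]
          exact inv_mem hRi
        · show E k _ ∈ R
          rw [hEinv k _ (Ne.symm hjk)]
          exact inv_mem hRj
      exact fun x hx => h1 hx
    have hBk : ∀ x ∈ R, B k x = x := by
      have h1 : R ≤ (B k).toMonoidHom.eqLocus (MonoidHom.id P) := by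
        rw [hR, closure_le]
        rintro x (rfl | rfl)
        · exact hB2 k _ (Ne.symm hik)
        · exact hB2 k _ (Ne.symm hjk)
      exact fun x hx => h1 hx
    have hfix : ∀ y ∈ R, E k y = y → y = 1 := by
      intro y hy hy2
      have h1 := (hg k y).mp hy2
      obtain ⟨m, rfl⟩ := mem_zpowers_iff.mp h1
      apply hodd
      have h2 := hBk _ hy
      rw [map_zpow, hB1, inv_zpow] at h2
      exact h2
    exact fpf_comm R (E k) (hI2 _ (hE k)) hEk hfix _ hRi _ hRj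
  have hcomm_gen : ∀ i j, g i * g j = g j * g i := by
    intro i j
    by_cases hij : i = j
    · rw [hij]
    · obtain ⟨k, hk1, hk2⟩ : ∃ k : Fin 3, i ≠ k ∧ j ≠ k := by
        revert i j; decide
      exact hpair i j k hij hk1 hk2
  have hcent : closure (Set.range g) ≤ center P := by
    rw [closure_le]
    rintro _ ⟨i, rfl⟩
    have h1 : closure (Set.range g) ≤ centralizer {g i} := by
      rw [closure_le]
      rintro _ ⟨j, rfl⟩
      exact (mem_centralizer_singleton_iff.mpr (hcomm_gen j i))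
    rw [hgen] at h1
    refine Subgroup.mem_center_iff.mpr (fun x => ?_)
    exact mem_centralizer_singleton_iff.mp (h1 (Subgroup.mem_top x))
  rw [hgen] at hcent
  have hab : ∀ a b : P, a * b = b * a := fun a b =>
    (Subgroup.mem_center_iff.mp (hcent (Subgroup.mem_top a)) b).symm
  exact ⟨B, hBI, hB1, hB2, hsign, hne, hEinv, hagree, hab⟩

end main

section final

variable {P : Type*} [Group P] [Finite P] {p : ℕ} [Fact p.Prime]

theorem exists_other (k : Fin 3) : ∃ i j : Fin 3, i ≠ j ∧ i ≠ k ∧ j ≠ k := by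
  revert k; decide

theorem forall_fin3 {Q : Fin 3 → Prop} (h0 : Q 0) (h1 : Q 1) (h2 : Q 2) : ∀ i, Q i := by
  intro i
  fin_cases i
  · exact h0
  · exact h1
  · exact h2

/-- The classification of `I`, given the signs on generators. -/
theorem classify (I : Subgroup (MulAut P)) (g : Fin 3 → P) (B : Fin 3 → MulAut P)
    (hBI : ∀ i, B i ∈ I) (hB1 : ∀ i, B i (g i) = (g i)⁻¹) (hB2 : ∀ i j, i ≠ j → B i (g j) = g j)
    (hsign : ∀ T ∈ I, ∀ i, T (g i) = g i ∨ T (g i) = (g i)⁻¹)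
    (hagree : ∀ T ∈ I, ∀ T' ∈ I, (∀ i, T (g i) = T' (g i)) → T = T') :
    ∀ T ∈ I, T = 1 ∨ T = B 0 ∨ T = B 1 ∨ T = B 2 ∨ T = B 0 * B 1 ∨ T = B 0 * B 2 ∨
      T = B 1 * B 2 ∨ T = B 0 * B 1 * B 2 := by
  intro T hT
  have h0 := hsign T hT 0
  have h1 := hsign T hT 1
  have h2 := hsign T hT 2
  have a01 := hB2 0 1 (by decide)
  have a02 := hB2 0 2 (by decide)
  have a10 := hB2 1 0 (by decide)
  have a12 := hB2 1 2 (by decide)
  have a20 := hB2 2 0 (by decide)
  have a21 := hB2 2 1 (by decide)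
  have a00 := hB1 0
  have a11 := hB1 1
  have a22 := hB1 2
  have hh : ∀ T' ∈ I, T (g 0) = T' (g 0) → T (g 1) = T' (g 1) → T (g 2) = T' (g 2) → T = T' :=
    fun T' hT' c0 c1 c2 => hagree T hT T' hT' (forall_fin3 c0 c1 c2)
  rcases h0 with h0 | h0 <;> rcases h1 with h1 | h1 <;> rcases h2 with h2 | h2
  · left
    exact hh _ I.one_mem (by simpa using h0) (by simpa using h1) (by simpa using h2)
  · right; right; right; left
    exact hh _ (hBI 2) (by rw [h0, a20]) (by rw [h1, a21]) (by rw [h2, a22])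
  · right; right; left
    exact hh _ (hBI 1) (by rw [h0, a10]) (by rw [h1, a11]) (by rw [h2, a12])
  · right; right; right; right; right; right; left
    exact hh _ (I.mul_mem (hBI 1) (hBI 2)) (by rw [h0, MulAut.mul_apply, a20, a10])
      (by rw [h1, MulAut.mul_apply, a21, a11]) (by rw [h2, MulAut.mul_apply, a22, map_inv, a12])
  · right; left
    exact hh _ (hBI 0) (by rw [h0, a00]) (by rw [h1, a01]) (by rw [h2, a02])
  · right; right; right; right; right; left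
    exact hh _ (I.mul_mem (hBI 0) (hBI 2)) (by rw [h0, MulAut.mul_apply, a20, a00])
      (by rw [h1, MulAut.mul_apply, a21, a01]) (by rw [h2, MulAut.mul_apply, a22, map_inv, a02])
  · right; right; right; right; left
    exact hh _ (I.mul_mem (hBI 0) (hBI 1)) (by rw [h0, MulAut.mul_apply, a10, a00])
      (by rw [h1, MulAut.mul_apply, a11, map_inv, a01]) (by rw [h2, MulAut.mul_apply, a12, a02])
  · right; right; right; right; right; right; right
    exact hh _ (I.mul_mem (I.mul_mem (hBI 0) (hBI 1)) (hBI 2))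
      (by rw [h0, MulAut.mul_apply, MulAut.mul_apply, a20, a10, a00])
      (by rw [h1, MulAut.mul_apply, MulAut.mul_apply, a21, a11, map_inv, a01])
      (by rw [h2, MulAut.mul_apply, MulAut.mul_apply, a22, map_inv, map_inv, a12, a02])

/-- The rank bound. -/
theorem not_two_gen (hp2 : p ≠ 2) (hP : IsPGroup p P) (g : Fin 3 → P) (B : Fin 3 → MulAut P)
    (hB1 : ∀ i, B i (g i) = (g i)⁻¹) (hB2 : ∀ i j, i ≠ j → B i (g j) = g j)
    (hgen : closure (Set.range g) = ⊤) (hneinv : ∀ i, (g i)⁻¹ ≠ g i) :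
    ¬ ∃ a b : P, closure {a, b} = ⊤ := by
  rintro ⟨a, b, hcl⟩
  have hp := (Fact.out : p.Prime)
  set Φ := frattini P with hΦ
  have hΦc : Φ.Characteristic := inferInstance
  have hmap : ∀ T : MulAut P, Φ.map T.toMonoidHom = Φ := fun T =>
    Subgroup.characteristic_iff_map_eq.mp hΦc T
  let W := P ⧸ Φ
  have hcomm : ∀ u v : W, u * v = v * u := H20.frattini_quotient_comm hP
  have hexp : ∀ u : W, u ^ p = 1 := H20.frattini_quotient_exp hP
  have hcl2 : closure {(a : W), (b : W)} = ⊤ := by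
    have h1 : (closure ({a, b} : Set P)).map (QuotientGroup.mk' Φ) =
        closure ((QuotientGroup.mk' Φ) '' {a, b}) := MonoidHom.map_closure _ _
    rw [hcl, ← MonoidHom.range_eq_map, QuotientGroup.range_mk', Set.image_pair] at h1
    exact h1.symm
  have h2 := card_le_of_two hcomm hexp (a : W) b hcl2
  let τ : Fin 3 → (W ≃* W) := fun l => QuotientGroup.congr Φ Φ (B l) (hmap (B l))
  have hx : ∀ l, ((g l : P) : W) ≠ 1 := by
    intro l h
    have hmem : g l ∈ Φ := (QuotientGroup.eq_one_iff _).mp h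
    let K : Subgroup P := (B l).toMonoidHom.eqLocus (MonoidHom.id P)
    have hKΦ : K ⊔ Φ = ⊤ := by
      rw [eq_top_iff, ← hgen, closure_le]
      rintro _ ⟨m, rfl⟩
      by_cases hm : m = l
      · subst hm
        exact (le_sup_right : Φ ≤ K ⊔ Φ) hmem
      · exact (le_sup_left : K ≤ K ⊔ Φ) (hB2 l m (Ne.symm hm))
    have hK : K = ⊤ := frattini_nongenerating hKΦ
    have h3 : g l ∈ K := hK ▸ Subgroup.mem_top _
    have h4 : B l (g l) = g l := h3
    rw [hB1] at h4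
    exact hneinv l h4
  have h3 := pow_three_le_card hcomm hp2 hexp (fun l => ((g l : P) : W)) τ
    (fun l => by
      show ((B l (g l) : P) : W) = _
      rw [hB1, QuotientGroup.mk_inv])
    (fun l m hlm => by
      show ((B l (g m) : P) : W) = _
      rw [hB2 l m hlm]) hx
  have h5 := hp.two_le
  have h6 : p * p * 2 ≤ p * p * p := Nat.mul_le_mul_left _ h5
  have h7 : 0 < p * p := Nat.mul_pos hp.pos hp.pos
  omega

end final

/-- Let p be an odd prime, P a finite p-group and I an elementary abelian subgroup of order 8 of Aut(P). Call T ∈ I, T ≠ 1, broad when its fixed-point subgroup C_P(T) is not cyclic. Suppose I has a proper subgroup I₀ containing no broad element such that the product of any two broad elements lies in I₀. Then P is abelian of rank exactly 3 (generated by three elements but not by two), there are exactly three broad elements and they generate I, and I₀ is exactly the set of products of two broad elements.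 -/
theorem result
    {P : Type*} [Group P] [Finite P] (p : ℕ) (hp : p.Prime) (hp2 : p ≠ 2) (hP : IsPGroup p P)
    (I : Subgroup (MulAut P)) (hI : Cfsg.IsElementaryAbelian 2 I) (hI8 : Nat.card ↥I = 8)
    (I₀ : Subgroup (MulAut P)) (hI₀ : I₀ < I)
    (hdisj : ∀ T ∈ I₀, T ≠ 1 → ∃ g : P, ∀ x : P, (T x = x ↔ x ∈ Subgroup.zpowers g))
    (hprod : ∀ T ∈ I, ∀ T' ∈ I, T ≠ 1 → T' ≠ 1 → (¬ ∃ g : P, ∀ x : P, (T x = x ↔ x ∈ Subgroup.zpowers g)) →
      (¬ ∃ g : P, ∀ x : P, (T' x = x ↔ x ∈ Subgroup.zpowers g)) → T * T' ∈ I₀) :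
    IsMulCommutative P ∧ (∃ a b c : P, Subgroup.closure {a, b, c} = ⊤) ∧ (¬ ∃ a b : P, Subgroup.closure {a, b} = ⊤) ∧
      Nat.card {T : MulAut P // T ∈ I ∧ T ≠ 1 ∧ ¬ ∃ g : P, ∀ x : P, (T x = x ↔ x ∈ Subgroup.zpowers g)} = 3 ∧
      Subgroup.closure {T : MulAut P | T ∈ I ∧ T ≠ 1 ∧ ¬ ∃ g : P, ∀ x : P, (T x = x ↔ x ∈ Subgroup.zpowers g)} = I ∧
      (I₀ : Set (MulAut P)) = {S : MulAut P | ∃ T T' : MulAut P, T ∈ I ∧ T' ∈ I ∧ T ≠ 1 ∧ T' ≠ 1 ∧
        (¬ ∃ g : P, ∀ x : P, (T x = x ↔ x ∈ Subgroup.zpowers g)) ∧ (¬ ∃ g : P, ∀ x : P, (T' x = x ↔ x ∈ Subgroup.zpowers g)) ∧ S = T * T'} := by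
  classical
  haveI : Fact p.Prime := ⟨hp⟩
  have hI2m : ∀ a ∈ I, a * a = 1 := by
    intro a ha
    have := hI.2 a ha
    rwa [pow_two] at this
  have hIcm : ∀ a ∈ I, ∀ b ∈ I, a * b = b * a := by
    intro a ha b hb
    have h1 : (⟨a, ha⟩ : I) * ⟨b, hb⟩ = ⟨b, hb⟩ * ⟨a, ha⟩ := hI.1.is_comm.comm _ _
    exact Subtype.ext_iff.mp h1
  have hI2 : ∀ a ∈ I, ∀ x : P, a (a x) = x := by
    intro a ha x
    have := congrArg (fun t : MulAut P => t x) (hI2m a ha)
    simpa using this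
  have hIc : ∀ a ∈ I, ∀ b ∈ I, ∀ x, a (b x) = b (a x) := by
    intro a ha b hb x
    have := congrArg (fun t : MulAut P => t x) (hIcm a ha b hb)
    simpa using this
  obtain ⟨E₁, hE₁, E₂, hE₂, hE₁1, hE₂1, hE₁₂, hb1, hb2, hb3⟩ :=
    exists_four I I₀ hI2m hIcm hI8 hI₀
      (fun T => ¬ ∃ g : P, ∀ x : P, (T x = x ↔ x ∈ Subgroup.zpowers g))
      (fun T hT hT1 => by simpa using hdisj T hT hT1)
      (fun T hT T' hT' h1 h2 h3 h4 => hprod T hT T' hT' h1 h2 h3 h4)
  obtain ⟨g₁, hg1⟩ : ∃ g : P, ∀ x : P, (E₁ x = x ↔ x ∈ Subgroup.zpowers g) := by simpa using hb1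
  obtain ⟨g₂, hg2⟩ : ∃ g : P, ∀ x : P, (E₂ x = x ↔ x ∈ Subgroup.zpowers g) := by simpa using hb2
  obtain ⟨g₃, hg3⟩ : ∃ g : P, ∀ x : P, ((E₁ * E₂) x = x ↔ x ∈ Subgroup.zpowers g) := by
    simpa using hb3
  have hcl3 : closure {g₁, g₂, g₃} = ⊤ :=
    four_gen hp2 hP E₁ E₂ (hI2 _ hE₁) (hI2 _ hE₂) (hIc _ hE₁ _ hE₂) g₁ g₂ g₃ hg1 hg2
      (fun x => by simpa using hg3 x)
  obtain ⟨g, E, hEI, hgE, hgen⟩ : ∃ (g : Fin 3 → P) (E : Fin 3 → MulAut P), (∀ i, E i ∈ I) ∧
      (∀ i x, E i x = x ↔ x ∈ zpowers (g i)) ∧ closure (Set.range g) = ⊤ := by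
    refine ⟨![g₁, g₂, g₃], ![E₁, E₂, E₁ * E₂], ?_, ?_, ?_⟩
    · exact forall_fin3 hE₁ hE₂ (I.mul_mem hE₁ hE₂)
    · exact forall_fin3 hg1 hg2 hg3
    · rw [eq_top_iff, ← hcl3, closure_le]
      rintro x (rfl | rfl | rfl)
      · exact subset_closure ⟨0, rfl⟩
      · exact subset_closure ⟨1, rfl⟩
      · exact subset_closure ⟨2, rfl⟩
  obtain ⟨B, hBI, hB1, hB2, hsign, hne, hEinv, hagree, hab⟩ :=
    main_struct hp2 hP I hI2 hIc hI8 g E hEI hgE hgen
  have hodd : ∀ y : P, y⁻¹ = y → y = 1 := by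
    intro y hy
    apply eq_one_of_sq hp hp2 hP
    nth_rewrite 1 [← hy]
    simp
  have hneinv : ∀ i, (g i)⁻¹ ≠ g i := fun i h => hne i (hodd _ h)
  -- B k is not 1
  have hBne : ∀ k, B k ≠ 1 := by
    intro k h
    have := hB1 k
    rw [h] at this
    exact hneinv k this.symm
  -- B k is broad
  have hBbroad : ∀ k, ¬ ∃ g : P, ∀ x : P, (B k x = x ↔ x ∈ Subgroup.zpowers g) := by
    rintro k ⟨h, hh⟩
    obtain ⟨i, j, hij, hik, hjk⟩ := exists_other k
    have hi : g i ∈ zpowers h := (hh _).mp (hB2 k i (Ne.symm hik))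
    have hj : g j ∈ zpowers h := (hh _).mp (hB2 k j (Ne.symm hjk))
    have hhh : h ∈ zpowers h := mem_zpowers h
    have hT : (B j) h ∈ zpowers h := by
      rw [← hh, hIc _ (hBI k) _ (hBI j), (hh h).mpr hhh]
    obtain ⟨a, ha⟩ := mem_zpowers_iff.mp hi
    obtain ⟨b, hb⟩ := mem_zpowers_iff.mp hj
    rcases sign_cyc hp hp2 hP (B j) (hI2 _ (hBI j)) h hT with hs | hs
    · have h1 : B j (g j) = g j := by
        rw [← hb, map_zpow, hs]
      rw [hB1] at h1
      exact hneinv j h1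
    · have h1 : B j (g i) = (g i)⁻¹ := by
        rw [← ha, map_zpow, hs, inv_zpow]
      rw [hB2 j i hij.symm] at h1
      exact hneinv i h1.symm
  have hBB : ∀ j k, B j * B k ∈ I₀ := by
    intro j k
    exact hprod _ (hBI j) _ (hBI k) (hBne j) (hBne k) (hBbroad j) (hBbroad k)
  have hclass := classify I g B hBI hB1 hB2 hsign hagree
  have hBE : ∀ i j k : Fin 3, i ≠ j → i ≠ k → j ≠ k → B i * B j = E k := by
    intro i j k hij hik hjk
    apply hagree _ (I.mul_mem (hBI i) (hBI j)) _ (hEI k)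
    intro l
    have hl : l = i ∨ l = j ∨ l = k := by
      revert i j k l; decide
    rcases hl with rfl | rfl | rfl
    · rw [MulAut.mul_apply, hB2 j l hij.symm, hB1, hEinv k l hik.symm]
    · rw [MulAut.mul_apply, hB1, map_inv, hB2 i l hij, hEinv k l hjk.symm]
    · rw [MulAut.mul_apply, hB2 j l hjk, hB2 i l hik, (hgE l (g l)).mpr (mem_zpowers _)]
  have hnb : ∀ i j k : Fin 3, i ≠ j → i ≠ k → j ≠ k →
      ∃ h : P, ∀ x : P, ((B i * B j) x = x ↔ x ∈ Subgroup.zpowers h) := by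
    intro i j k hij hik hjk
    rw [hBE i j k hij hik hjk]
    exact ⟨g k, hgE k⟩
  have hDinv : ∀ x : P, (B 0 * B 1 * B 2) x = x⁻¹ := by
    intro x
    have hx : x ∈ closure (Set.range g) := hgen ▸ Subgroup.mem_top x
    induction hx using closure_induction with
    | mem x hx =>
      obtain ⟨i, rfl⟩ := hx
      have a01 := hB2 0 1 (by decide)
      have a02 := hB2 0 2 (by decide)
      have a10 := hB2 1 0 (by decide)
      have a12 := hB2 1 2 (by decide)
      have a20 := hB2 2 0 (by decide)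
      have a21 := hB2 2 1 (by decide)
      revert i
      refine forall_fin3 ?_ ?_ ?_
      · rw [MulAut.mul_apply, MulAut.mul_apply, a20, a10, hB1]
      · rw [MulAut.mul_apply, MulAut.mul_apply, a21, hB1, map_inv, a01]
      · rw [MulAut.mul_apply, MulAut.mul_apply, hB1, map_inv, map_inv, a12, a02]
    | one => simp
    | mul x y _ _ hx hy => rw [map_mul, hx, hy, mul_inv_rev, hab]
    | inv x _ hx => rw [map_inv, hx]
  have hDfx : ∃ h : P, ∀ x : P, ((B 0 * B 1 * B 2) x = x ↔ x ∈ Subgroup.zpowers h) := by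
    refine ⟨1, fun x => ?_⟩
    rw [hDinv, zpowers_one_eq_bot, Subgroup.mem_bot]
    constructor
    · exact hodd x
    · rintro rfl; simp
  have hbroadset : ∀ T : MulAut P, (T ∈ I ∧ T ≠ 1 ∧ ¬ ∃ g : P, ∀ x : P, (T x = x ↔ x ∈ Subgroup.zpowers g)) ↔
      (T = B 0 ∨ T = B 1 ∨ T = B 2) := by
    intro T
    constructor
    · rintro ⟨hT, hT1, hTb⟩
      rcases hclass T hT with h | h | h | h | h | h | h | h
      · exact absurd h hT1
      · exact Or.inl h
      · exact Or.inr (Or.inl h)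
      · exact Or.inr (Or.inr h)
      · rw [h] at hTb; exact absurd (hnb 0 1 2 (by decide) (by decide) (by decide)) hTb
      · rw [h] at hTb; exact absurd (hnb 0 2 1 (by decide) (by decide) (by decide)) hTb
      · rw [h] at hTb; exact absurd (hnb 1 2 0 (by decide) (by decide) (by decide)) hTb
      · rw [h] at hTb; exact absurd hDfx hTb
    · rintro (rfl | rfl | rfl)
      · exact ⟨hBI _, hBne _, hBbroad _⟩
      · exact ⟨hBI _, hBne _, hBbroad _⟩
      · exact ⟨hBI _, hBne _, hBbroad _⟩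
  have hBinj : Function.Injective B := by
    intro i j hij
    by_contra hne2
    have h1 := hB1 i
    rw [hij, hB2 j i (Ne.symm hne2)] at h1
    exact hneinv i h1.symm
  refine ⟨⟨⟨hab⟩⟩, ⟨g₁, g₂, g₃, hcl3⟩, not_two_gen hp2 hP g B hB1 hB2 hgen hneinv, ?_, ?_, ?_⟩
  · let f : Fin 3 → {T : MulAut P // T ∈ I ∧ T ≠ 1 ∧ ¬ ∃ g : P, ∀ x : P, (T x = x ↔ x ∈ Subgroup.zpowers g)} :=
      fun i => ⟨B i, hBI i, hBne i, hBbroad i⟩
    have hf : Function.Bijective f := by
      constructor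
      · intro i j hij
        exact hBinj (Subtype.ext_iff.mp hij)
      · rintro ⟨T, hT⟩
        rcases (hbroadset T).mp hT with rfl | rfl | rfl
        · exact ⟨0, rfl⟩
        · exact ⟨1, rfl⟩
        · exact ⟨2, rfl⟩
    rw [← Nat.card_congr (Equiv.ofBijective f hf)]
    simp
  · apply le_antisymm
    · rw [closure_le]
      intro T hT
      exact hT.1
    · have hmem : ∀ k, B k ∈ closure {T : MulAut P | T ∈ I ∧ T ≠ 1 ∧ ¬ ∃ g : P, ∀ x : P, (T x = x ↔ x ∈ Subgroup.zpowers g)} :=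
        fun k => subset_closure ⟨hBI k, hBne k, hBbroad k⟩
      intro T hT
      rcases hclass T hT with rfl | rfl | rfl | rfl | rfl | rfl | rfl | rfl
      · exact one_mem _
      · exact hmem _
      · exact hmem _
      · exact hmem _
      · exact mul_mem (hmem _) (hmem _)
      · exact mul_mem (hmem _) (hmem _)
      · exact mul_mem (hmem _) (hmem _)
      · exact mul_mem (mul_mem (hmem _) (hmem _)) (hmem _)
  · ext S
    constructor
    · intro hS
      have hSI : S ∈ I := hI₀.le hS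
      have hbr : ∀ k, B k ∉ I₀ := by
        intro k hk
        exact hBbroad k (hdisj _ hk (hBne k))
      have hpr : ∀ i j, ∃ T T' : MulAut P, T ∈ I ∧ T' ∈ I ∧ T ≠ 1 ∧ T' ≠ 1 ∧
        (¬ ∃ g : P, ∀ x : P, (T x = x ↔ x ∈ Subgroup.zpowers g)) ∧ (¬ ∃ g : P, ∀ x : P, (T' x = x ↔ x ∈ Subgroup.zpowers g)) ∧ B i * B j = T * T' :=
        fun i j => ⟨B i, B j, hBI i, hBI j, hBne i, hBne j, hBbroad i, hBbroad j, rfl⟩
      show ∃ T T' : MulAut P, T ∈ I ∧ T' ∈ I ∧ T ≠ 1 ∧ T' ≠ 1 ∧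
        (¬ ∃ g : P, ∀ x : P, (T x = x ↔ x ∈ Subgroup.zpowers g)) ∧ (¬ ∃ g : P, ∀ x : P, (T' x = x ↔ x ∈ Subgroup.zpowers g)) ∧ S = T * T'
      rcases hclass S hSI with rfl | rfl | rfl | rfl | rfl | rfl | rfl | rfl
      · have := hpr 0 0
        rwa [hI2m _ (hBI 0)] at this
      · exact absurd hS (hbr 0)
      · exact absurd hS (hbr 1)
      · exact absurd hS (hbr 2)
      · exact hpr _ _
      · exact hpr _ _
      · exact hpr _ _
      · exfalso
        apply hbr 2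
        have h1 : (B 0 * B 1)⁻¹ * (B 0 * B 1 * B 2) ∈ I₀ := mul_mem (inv_mem (hBB 0 1)) hS
        rwa [inv_mul_cancel_left] at h1
    · rintro ⟨T, T', h1, h2, h3, h4, h5, h6, rfl⟩
      exact hprod T h1 T' h2 h3 h4 h5 h6

end Cfsg.Agent.S4412
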