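import Cfsg.Statements.S5432
import Cfsg.Agent.Lib.H29.ExtraOut
-- import your own Cfsg.Agent.* helpers here

set_option autoImplicit false
open Cfsg

namespace Cfsg.Agent.S5432

open Cfsg.Agent.H29.XS

/-- The hyperbolic cocycle. -/
def cPlus (n : ℕ) : Coc (Fin n ⊕ Fin n) where
  β v w := ∑ i, v (.inr i) * w (.inl i)
  add_l u v w := by
    simp only [Pi.add_apply, add_mul, Finset.sum_add_distrib]
  add_r u v w := by
    simp only [Pi.add_apply, mul_add, Finset.sum_add_distrib]
  nondeg v hv := by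
    classical
    have : ∃ j, v j ≠ 0 := by
      by_contra hall
      push Not at hall
      exact hv (funext hall)
    obtain ⟨j, hj⟩ := this
    rcases j with i | i
    · refine ⟨Pi.single (.inr i) 1, ?_⟩
      have h1 : (∑ k : Fin n, v (.inr k) * (Pi.single (.inr i) 1 : Fin n ⊕ Fin n → ZMod 2) (.inl k)) = 0 := by
        simp [Pi.single_apply]
      have h2 : (∑ k : Fin n, (Pi.single (.inr i) 1 : Fin n ⊕ Fin n → ZMod 2) (.inr k) * v (.inl k)) = v (.inl i) := by
        simp [Pi.single_apply]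
      rw [h1, h2, zero_add]
      exact hj
    · refine ⟨Pi.single (.inl i) 1, ?_⟩
      have h1 : (∑ k : Fin n, v (.inr k) * (Pi.single (.inl i) 1 : Fin n ⊕ Fin n → ZMod 2) (.inl k)) = v (.inr i) := by
        simp [Pi.single_apply]
      have h2 : (∑ k : Fin n, (Pi.single (.inl i) 1 : Fin n ⊕ Fin n → ZMod 2) (.inr k) * v (.inl k)) = 0 := by
        simp [Pi.single_apply]
      rw [h1, h2, add_zero]
      exact hj

lemma qPlus_eq (n : ℕ) (v : Fin n ⊕ Fin n → ZMod 2) : Cfsg.quadFormPlus n (ZMod 2) v = (cPlus n).β v v := by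
  show ∑ i, v (.inl i) * v (.inr i) = ∑ i, v (.inr i) * v (.inl i)
  exact Finset.sum_congr rfl (fun i _ => mul_comm _ _)

lemma sum_local_plus : ∑ p : ZMod 2 × ZMod 2, chi2 (p.1 * p.2) = 2 := by
  decide

/-- The sign sum of the hyperbolic form. -/
lemma sum_plus (n : ℕ) : ∑ v : Fin n ⊕ Fin n → ZMod 2, chi2 (Cfsg.quadFormPlus n (ZMod 2) v) = 2 ^ n := by
  classical
  let E : (Fin n → ZMod 2 × ZMod 2) ≃ (Fin n ⊕ Fin n → ZMod 2) :=
    { toFun := fun w => Sum.elim (fun i => (w i).1) (fun i => (w i).2)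
      invFun := fun v i => (v (.inl i), v (.inr i))
      left_inv := fun w => by
        funext i
        rfl
      right_inv := fun v => by
        funext j
        rcases j with i | i <;> rfl }
  rw [← Equiv.sum_comp E]
  have h1 : ∀ w : Fin n → ZMod 2 × ZMod 2, chi2 (Cfsg.quadFormPlus n (ZMod 2) (E w)) =
      ∏ i, chi2 ((w i).1 * (w i).2) := by
    intro w
    show chi2 (∑ i, (w i).1 * (w i).2) = _
    rw [chi2_sum]
  simp only [h1]
  have h2 := Finset.prod_univ_sum (fun _ : Fin n => (Finset.univ : Finset (ZMod 2 × ZMod 2)))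
    (fun _ p => chi2 (p.1 * p.2))
  simp only [Fintype.piFinset_univ, sum_local_plus] at h2
  rw [← h2]
  simp

/-- The elliptic cocycle. -/
def cMinus (m : ℕ) : Coc ((Fin m ⊕ Fin m) ⊕ Fin 2) where
  β v w := (∑ i, v (.inl (.inr i)) * w (.inl (.inl i))) +
    (v (.inr 0) * w (.inr 0) + v (.inr 0) * w (.inr 1) + v (.inr 1) * w (.inr 1))
  add_l u v w := by
    simp only [Pi.add_apply, add_mul, Finset.sum_add_distrib]
    ring
  add_r u v w := by
    simp only [Pi.add_apply, mul_add, Finset.sum_add_distrib]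
    ring
  nondeg v hv := by
    classical
    have : ∃ j, v j ≠ 0 := by
      by_contra hall
      push Not at hall
      exact hv (funext hall)
    obtain ⟨j, hj⟩ := this
    rcases j with (i | i) | i
    · refine ⟨Pi.single (.inl (.inr i)) 1, ?_⟩
      simp [Pi.single_apply]
      exact hj
    · refine ⟨Pi.single (.inl (.inl i)) 1, ?_⟩
      simp [Pi.single_apply]
      exact hj
    · fin_cases i
      · refine ⟨Pi.single (.inr 1) 1, ?_⟩
        simp [Pi.single_apply]
        have hj' : v (.inr 0) ≠ 0 := hj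
        intro h
        apply hj'
        have := add2' (v (.inr 1))
        linear_combination h - this
      · refine ⟨Pi.single (.inr 0) 1, ?_⟩
        simp [Pi.single_apply]
        have hj' : v (.inr 1) ≠ 0 := hj
        intro h
        apply hj'
        have := add2' (v (.inr 0))
        linear_combination h - this

lemma qMinus_eq (m : ℕ) (v : (Fin m ⊕ Fin m) ⊕ Fin 2 → ZMod 2) :
    Cfsg.quadFormMinus m (ZMod 2) 1 1 v = (cMinus m).β v v := by
  show (∑ i, v (.inl (.inl i)) * v (.inl (.inr i))) +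
      (v (.inr 0) ^ 2 + 1 * v (.inr 0) * v (.inr 1) + 1 * v (.inr 1) ^ 2) =
    (∑ i, v (.inl (.inr i)) * v (.inl (.inl i))) +
    (v (.inr 0) * v (.inr 0) + v (.inr 0) * v (.inr 1) + v (.inr 1) * v (.inr 1))
  have : (∑ i, v (.inl (.inl i)) * v (.inl (.inr i))) = ∑ i, v (.inl (.inr i)) * v (.inl (.inl i)) :=
    Finset.sum_congr rfl (fun i _ => mul_comm _ _)
  rw [this]
  ring

lemma sum_local_minus : ∑ b : Fin 2 → ZMod 2, chi2 (b 0 ^ 2 + 1 * b 0 * b 1 + 1 * b 1 ^ 2) = -2 := by
  decide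

/-- The sign sum of the elliptic form. -/
lemma sum_minus (m : ℕ) : ∑ v : (Fin m ⊕ Fin m) ⊕ Fin 2 → ZMod 2, chi2 (Cfsg.quadFormMinus m (ZMod 2) 1 1 v) =
    -(2 ^ (m + 1)) := by
  classical
  rw [← Equiv.sum_comp (Equiv.sumArrowEquivProdArrow (Fin m ⊕ Fin m) (Fin 2) (ZMod 2)).symm]
  rw [Fintype.sum_prod_type]
  have h1 : ∀ (a : Fin m ⊕ Fin m → ZMod 2) (b : Fin 2 → ZMod 2),
      chi2 (Cfsg.quadFormMinus m (ZMod 2) 1 1 ((Equiv.sumArrowEquivProdArrow (Fin m ⊕ Fin m) (Fin 2) (ZMod 2)).symm (a, b))) =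
      chi2 (Cfsg.quadFormPlus m (ZMod 2) a) * chi2 (b 0 ^ 2 + 1 * b 0 * b 1 + 1 * b 1 ^ 2) := by
    intro a b
    rw [← chi2_add]
    rfl
  simp only [h1, ← Finset.mul_sum, sum_local_minus, ← Finset.sum_mul, sum_plus]
  ring

/-- From the model to the group. -/
theorem final_iso {E : Type*} [Group E] [Finite E] {z : E} (hxs : XS E z) {ι : Type} [Fintype ι] [DecidableEq ι]
    (c : Coc ι) (Q : (ι → ZMod 2) → ZMod 2) (hQ : ∀ v, Q v = c.β v v) (hc : Nat.card E = Nat.card (MM c))
    (hs : sq1 E = sq1 (MM c)) : Nonempty (Cfsg.Out E ≃* Cfsg.isometryGroup (ZMod 2) Q) := by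
  obtain ⟨e⟩ := iso_exists _ E z (MM c) _ hxs (MM.xs c) rfl hc.symm hs
  obtain ⟨f⟩ := out_congr e
  exact ⟨f.trans (outEquiv c Q hQ)⟩


/-- Let E be an extraspecial 2-group of order 2^(2n+1), n ≥ 1. If E contains an elementary abelian subgroup of order 2^(n+1) (plus type), then its outer automorphism group is isomorphic to the full isometry group of the hyperbolic quadratic form in dimension 2n over the field with two elements; otherwise (minus type) it is isomorphic to the full isometry group of the elliptic quadratic form in dimension 2n over that field. -/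
theorem result {E : Type*} [Group E] [Finite E] (hE : Cfsg.IsExtraspecial 2 E) (n : ℕ) (hn : 1 ≤ n) (hcard : Nat.card E = 2 ^ (2 * n + 1)) : ((∃ A : Subgroup E, Cfsg.IsElementaryAbelian 2 A ∧ Nat.card ↥A = 2 ^ (n + 1)) → Nonempty (Cfsg.Out E ≃* Cfsg.isometryGroup (ZMod 2) (Cfsg.quadFormPlus n (ZMod 2)))) ∧ ((¬ ∃ A : Subgroup E, Cfsg.IsElementaryAbelian 2 A ∧ Nat.card ↥A = 2 ^ (n + 1)) → Nonempty (Cfsg.Out E ≃* Cfsg.isometryGroup (ZMod 2) (Cfsg.quadFormMinus (n - 1) (ZMod 2) 1 1))) := by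
  obtain ⟨z, hxs, hnab⟩ := xs_of_extraspecial hE
  obtain ⟨m, ε, ht⟩ := ty_exists _ E z hxs rfl
  have hmn : m = n := by
    have h1 := ht.card
    rw [hcard] at h1
    have := Nat.pow_right_injective (le_refl 2) h1
    omega
  subst hmn
  have h4 : (2 : ℕ) ^ (2 * m) = 2 ^ (2 * m) := rfl
  constructor
  · rintro ⟨A, hA, hAc⟩
    have hε : ε = true := by
      cases ε
      · exfalso
        have h1 := ht.ub A (fun a ha => by rw [← pow_two]; exact hA.2 a ha)
        rw [hAc] at h1
        have h2 := Nat.pow_le_pow_iff_right (a := 2) (by norm_num) |>.1 h1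
        simp at h2
      · rfl
    subst hε
    apply final_iso hxs (cPlus m) _ (qPlus_eq m)
    · rw [card_MM, hcard]
      simp [two_mul]
    · have h1 := ht.nn
      simp only [cond_true, add_zero] at h1
      have h2 := sq1_MM (cPlus m)
      have h3 : ∑ v : Fin m ⊕ Fin m → ZMod 2, chi2 ((cPlus m).β v v) = 2 ^ m := by
        rw [← sum_plus m]
        exact Finset.sum_congr rfl (fun v _ => by rw [qPlus_eq])
      rw [h3] at h2
      have h5 : Fintype.card (Fin m ⊕ Fin m) = 2 * m := by simp [two_mul]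
      rw [h5] at h2
      have h6 : ((sq1 E : ℕ) : ℤ) = 2 ^ (2 * m) + 2 ^ m := by
        rw [h1]
        push_cast
        ring
      have h7 : ((sq1 E : ℕ) : ℤ) = sq1 (MM (cPlus m)) := by rw [h6, h2]
      exact_mod_cast h7
  · intro hnA
    have hε : ε = false := by
      cases ε
      · rfl
      · exfalso
        obtain ⟨A, hA, hAc⟩ := ht.ex
        apply hnA
        refine ⟨A, ⟨⟨⟨fun a b => Subtype.ext (comm_of_exp2 hA a.2 b.2)⟩⟩, fun a ha => by
          rw [pow_two]; exact hA a ha⟩, ?_⟩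
        rw [hAc]
        rfl
    subst hε
    obtain ⟨k, rfl⟩ : ∃ k, m = k + 1 := ⟨m - 1, by omega⟩
    apply final_iso hxs (cMinus k) _ (qMinus_eq k)
    · rw [card_MM, hcard]
      simp
      ring
    · have h1 := ht.nn
      simp only [cond_false, add_zero] at h1
      have h2 := sq1_MM (cMinus k)
      have h3 : ∑ v : (Fin k ⊕ Fin k) ⊕ Fin 2 → ZMod 2, chi2 ((cMinus k).β v v) = -(2 ^ (k + 1)) := by
        rw [← sum_minus k]
        exact Finset.sum_congr rfl (fun v _ => by rw [qMinus_eq])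
      rw [h3] at h2
      have h5 : Fintype.card ((Fin k ⊕ Fin k) ⊕ Fin 2) = 2 * (k + 1) := by
        simp
        ring
      rw [h5] at h2
      have h6 : ((sq1 E : ℕ) : ℤ) + 2 ^ (k + 1) = 2 ^ (2 * (k + 1)) := by
        exact_mod_cast h1
      have h7 : ((sq1 E : ℕ) : ℤ) = sq1 (MM (cMinus k)) := by
        rw [h2]
        linarith
      exact_mod_cast h7

end Cfsg.Agent.S5432
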