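import Cfsg.Statements.S4413
import Cfsg.Agent.S5432
import Cfsg.Agent.Lib.Lead.OrthoOrder
-- import your own Cfsg.Agent.* helpers here

set_option autoImplicit false
open Cfsg
open scoped Matrix

namespace Cfsg.Agent.S4413

abbrev Ix := (Fin 1 ⊕ Fin 1) ⊕ Fin 2

abbrev Qm : (Ix → ZMod 2) → ZMod 2 := Cfsg.quadFormMinus 1 (ZMod 2) 1 1

abbrev OO := Cfsg.isometryGroup (ZMod 2) Qm

/-- The non-zero singular vectors. -/
abbrev SS := {v : Ix → ZMod 2 // v ≠ 0 ∧ Qm v = 0}

lemma card_SS : Fintype.card SS = 5 := by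
  decide +kernel

lemma mulVec_inv (g : Matrix.GeneralLinearGroup Ix (ZMod 2)) (v : Ix → ZMod 2) :
    ((g⁻¹ : Matrix.GeneralLinearGroup Ix (ZMod 2)) : Matrix Ix Ix (ZMod 2)) *ᵥ
      ((g : Matrix Ix Ix (ZMod 2)) *ᵥ v) = v := by
  rw [Matrix.mulVec_mulVec]
  have : ((g⁻¹ : Matrix.GeneralLinearGroup Ix (ZMod 2)) : Matrix Ix Ix (ZMod 2)) * (g : Matrix Ix Ix (ZMod 2)) = 1 :=
    g.inv_mul
  rw [this, Matrix.one_mulVec]

lemma mem_SS_image (g : OO) (v : Ix → ZMod 2) (hv : v ≠ 0 ∧ Qm v = 0) :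
    ((g.1 : Matrix Ix Ix (ZMod 2)) *ᵥ v) ≠ 0 ∧ Qm ((g.1 : Matrix Ix Ix (ZMod 2)) *ᵥ v) = 0 := by
  constructor
  · intro h
    apply hv.1
    rw [← mulVec_inv g.1 v, h, Matrix.mulVec_zero]
  · have := g.2 v 0
    change Qm ((g.1 : Matrix Ix Ix (ZMod 2)) *ᵥ v) = Qm v at this
    rw [this]
    exact hv.2

/-- The action on the singular vectors. -/
def act : OO →* Equiv.Perm SS where
  toFun g :=
    { toFun := fun v => ⟨(g.1 : Matrix Ix Ix (ZMod 2)) *ᵥ v.1, mem_SS_image g v.1 v.2⟩
      invFun := fun v => ⟨((g⁻¹ : OO).1 : Matrix Ix Ix (ZMod 2)) *ᵥ v.1, mem_SS_image g⁻¹ v.1 v.2⟩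
      left_inv := fun v => Subtype.ext (mulVec_inv g.1 v.1)
      right_inv := fun v => Subtype.ext (by
        have := mulVec_inv (g⁻¹ : OO).1 v.1
        have h2 : ((g⁻¹ : OO).1)⁻¹ = g.1 := by simp
        rw [h2] at this
        exact this) }
  map_one' := by
    apply Equiv.ext
    intro v
    apply Subtype.ext
    exact Matrix.one_mulVec v.1
  map_mul' g h := by
    apply Equiv.ext
    intro v
    apply Subtype.ext
    show (((g * h : OO).1 : Matrix Ix Ix (ZMod 2))) *ᵥ v.1 =
      (g.1 : Matrix Ix Ix (ZMod 2)) *ᵥ ((h.1 : Matrix Ix Ix (ZMod 2)) *ᵥ v.1)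
    rw [Matrix.mulVec_mulVec]
    rfl

lemma act_inj : Function.Injective act := by
  rw [injective_iff_map_eq_one]
  intro g hg
  have hfix : ∀ v (hv : v ≠ 0 ∧ Qm v = 0), (g.1 : Matrix Ix Ix (ZMod 2)) *ᵥ v = v := by
    intro v hv
    have := congrArg (fun p : Equiv.Perm SS => (p ⟨v, hv⟩ : SS).1) hg
    exact this
  let vv : ZMod 2 → ZMod 2 → ZMod 2 → ZMod 2 → (Ix → ZMod 2) := fun x y a b =>
    Sum.elim (Sum.elim (fun _ => x) (fun _ => y)) ![a, b]
  have h1 := hfix (vv 1 0 0 0) (by decide +kernel)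
  have h2 := hfix (vv 0 1 0 0) (by decide +kernel)
  have h3 := hfix (vv 1 1 1 0) (by decide +kernel)
  have h4 := hfix (vv 1 1 0 1) (by decide +kernel)
  apply Subtype.ext
  apply Units.ext
  apply Matrix.ext_of_mulVec_single
  intro i
  rw [show ((1 : OO).1 : Matrix Ix Ix (ZMod 2)) = 1 from rfl, Matrix.one_mulVec]
  rcases i with (i | i) | i
  · have : (Pi.single (Sum.inl (Sum.inl i)) 1 : Ix → ZMod 2) = vv 1 0 0 0 := by
      revert i
      decide +kernel
    rw [this, h1]
  · have : (Pi.single (Sum.inl (Sum.inr i)) 1 : Ix → ZMod 2) = vv 0 1 0 0 := by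
      revert i
      decide +kernel
    rw [this, h2]
  · fin_cases i
    · have : (Pi.single (Sum.inr 0) 1 : Ix → ZMod 2) = vv 1 1 1 0 + vv 1 0 0 0 + vv 0 1 0 0 := by
        decide +kernel
      show _ *ᵥ (Pi.single (Sum.inr 0) 1 : Ix → ZMod 2) = (Pi.single (Sum.inr 0) 1 : Ix → ZMod 2)
      rw [this, Matrix.mulVec_add, Matrix.mulVec_add, h1, h2, h3]
    · have : (Pi.single (Sum.inr 1) 1 : Ix → ZMod 2) = vv 1 1 0 1 + vv 1 0 0 0 + vv 0 1 0 0 := by
        decide +kernel
      show _ *ᵥ (Pi.single (Sum.inr 1) 1 : Ix → ZMod 2) = (Pi.single (Sum.inr 1) 1 : Ix → ZMod 2)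
      rw [this, Matrix.mulVec_add, Matrix.mulVec_add, h1, h2, h4]

lemma card_OO : Nat.card OO = 120 := by
  have h := Lead.Ortho.card_GO_minus (F := ZMod 2) (q := 2) (by simp) 2 (by norm_num) 1 1 (by decide)
  simpa [Finset.prod_range_succ] using h

/-- The isometry group is the symmetric group of degree five. -/
theorem OO_equiv : Nonempty (OO ≃* Equiv.Perm (Fin 5)) := by
  classical
  have hc : Nat.card OO = Nat.card (Equiv.Perm SS) := by
    rw [card_OO, Nat.card_eq_fintype_card, Fintype.card_perm, card_SS]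
    rfl
  have hb : Function.Bijective act := by
    rw [Nat.bijective_iff_injective_and_card]
    exact ⟨act_inj, hc⟩
  have e5 : SS ≃ Fin 5 := Fintype.equivFinOfCardEq card_SS
  exact ⟨(MulEquiv.ofBijective act hb).trans (Equiv.permCongrHom e5)⟩


/-- Let P be an extraspecial 2-group of order 32 with no elementary abelian subgroup of order 8 (the central product of a dihedral and a quaternion group of order 8). Then the inner automorphism group of P has order 16 and the outer automorphism group Aut(P)/Inn(P) is isomorphic to the symmetric group of degree 5; in particular Aut(P) has order 1920. -/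
theorem result {P : Type*} [Group P] [Finite P]
    (hex : Cfsg.IsExtraspecial 2 P) (h32 : Nat.card P = 32)
    (hminus : ∀ A : Subgroup P, Cfsg.IsElementaryAbelian 2 A → Nat.card ↥A ≤ 4)
    [(MulAut.conj : P →* MulAut P).range.Normal] :
    Nat.card ↥(MulAut.conj : P →* MulAut P).range = 16 ∧ Nat.card (MulAut P) = 1920 ∧
      Nonempty ((MulAut P ⧸ (MulAut.conj : P →* MulAut P).range) ≃* Equiv.Perm (Fin 5)) := by
  classical
  have hn : Nat.card P = 2 ^ (2 * 2 + 1) := by rw [h32]; norm_num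
  -- the outer automorphism group
  have hno : ¬ ∃ A : Subgroup P, Cfsg.IsElementaryAbelian 2 A ∧ Nat.card ↥A = 2 ^ (2 + 1) := by
    rintro ⟨A, hA, hAc⟩
    have := hminus A hA
    rw [hAc] at this
    norm_num at this
  obtain ⟨e₁⟩ := (S5432.result hex 2 (by norm_num) hn).2 hno
  obtain ⟨e₂⟩ := OO_equiv
  let e : Cfsg.Out P ≃* Equiv.Perm (Fin 5) := e₁.trans e₂
  -- the inner automorphism group
  have hker : (MulAut.conj : P →* MulAut P).ker = Subgroup.center P := by
    ext g
    rw [MonoidHom.mem_ker, Subgroup.mem_center_iff]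
    constructor
    · intro h x
      have := congrArg (fun f : MulAut P => f x) h
      have h2 : g * x * g⁻¹ = x := this
      rw [mul_inv_eq_iff_eq_mul] at h2
      exact h2.symm
    · intro h
      apply MulEquiv.ext
      intro x
      show g * x * g⁻¹ = x
      rw [mul_inv_eq_iff_eq_mul]
      exact (h x).symm
  have hrange : Nat.card ↥(MulAut.conj : P →* MulAut P).range = 16 := by
    have h1 := Subgroup.card_eq_card_quotient_mul_card_subgroup (MulAut.conj : P →* MulAut P).ker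
    rw [Nat.card_congr (QuotientGroup.quotientKerEquivRange _).toEquiv, hker, hex.2, h32] at h1
    omega
  have hOut : Nat.card (Cfsg.Out P) = 120 := by
    rw [Nat.card_congr e.toEquiv, Nat.card_eq_fintype_card, Fintype.card_perm]
    rfl
  refine ⟨hrange, ?_, ⟨e⟩⟩
  have h1 := Subgroup.card_eq_card_quotient_mul_card_subgroup (Cfsg.Inn P)
  rw [h1, hOut]
  show 120 * Nat.card ↥(MulAut.conj : P →* MulAut P).range = 1920
  rw [hrange]

end Cfsg.Agent.S4413
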