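import Cfsg.Statements.S4417
import Cfsg.Agent.Lib.H12.LinDL
import Mathlib

set_option autoImplicit false
set_option linter.unusedVariables false
set_option linter.style.haveILetI false
set_option linter.unusedSectionVars false
open Cfsg

namespace Cfsg.Agent.S4417

open Cfsg.Agent.H12.LinDL

universe u v w

/-- The bound. -/
def bd (e n : ℕ) : ℕ := if n < e then 0 else Nat.log 2 (n / e) + 1

theorem bd_mono {e m n : ℕ} (h : m ≤ n) : bd e m ≤ bd e n := by
  unfold bd
  by_cases h1 : m < e
  · simp [h1]
  · have h2 : ¬ n < e := by omega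
    simp only [h1, h2, if_false]
    have := Nat.log_mono_right (b := 2) (Nat.div_le_div_right (c := e) h)
    omega

theorem card_eq_pow {K : Type*} {V : Type*} [Field K] [Finite K] [AddCommGroup V] [Module K V]
    [Finite V] : Nat.card V = Nat.card K ^ Module.finrank K V := by
  classical
  haveI := Fintype.ofFinite K
  haveI := Fintype.ofFinite V
  rw [Nat.card_eq_fintype_card, Nat.card_eq_fintype_card, Module.card_eq_pow_finrank (K := K) (V := V)]

/-- The base change to an algebraic closure. -/
theorem dl_of_field {E : Type w} [Field E] {p : ℕ} [Fact p.Prime] (hpE : (p : E) ≠ 0)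
    {V : Type u} [AddCommGroup V] [Module E V] [FiniteDimensional E V] [Nontrivial V]
    {P : Type v} [Group P] [Finite P] (hP : IsPGroup p P) (ρ : P →* Module.End E V) :
    ∀ x ∈ derivedSeries P (Nat.log 2 (Module.finrank E V) + 1), ρ x = 1 := by
  intro x hx
  set m := Module.finrank E V with hm
  have hm1 : 1 ≤ m := Module.finrank_pos
  let b := Module.finBasis E V
  let Ebar := AlgebraicClosure E
  let φ : Module.End E V →+* Module.End Ebar (Fin m → Ebar) :=
    ((Matrix.toLinAlgEquiv' (R := Ebar) (n := Fin m)).toRingEquiv.toRingHom).comp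
      (((algebraMap E Ebar).mapMatrix).comp
        ((LinearMap.toMatrixAlgEquiv b).toRingEquiv.toRingHom))
  have hφ : Function.Injective φ := by
    intro a c h
    have h1 := (Matrix.toLinAlgEquiv' (R := Ebar) (n := Fin m)).injective h
    have h2 : (LinearMap.toMatrixAlgEquiv b a).map (algebraMap E Ebar) =
        (LinearMap.toMatrixAlgEquiv b c).map (algebraMap E Ebar) := h1
    have h3 := Matrix.map_injective (algebraMap E Ebar).injective h2
    exact (LinearMap.toMatrixAlgEquiv b).injective h3
  have hp' : (p : Ebar) ≠ 0 := by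
    intro h
    apply hpE
    apply (algebraMap E Ebar).injective
    rw [map_natCast, h, map_zero]
  have h1 := main_alg (F := Ebar) p hp' m (Fin m → Ebar) (by simp) hm1 P hP
    (φ.toMonoidHom.comp ρ) x hx
  apply hφ
  rw [map_one]
  exact h1

section main

variable {F : Type u} [Field F] [Finite F]

/-- The `p`-group acts trivially in small dimension. -/
theorem trivial_of_lt {V : Type u} [AddCommGroup V] [Module F V] [FiniteDimensional F V]
    {q p e : ℕ} [Fact p.Prime] (hq : Nat.card F = q) (hpq : ¬ p ∣ q) (he : e = orderOf (q : ZMod p))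
    {P : Type v} [Group P] [Finite P] (hP : IsPGroup p P) (ρ : P →* Module.End F V)
    (hn : Module.finrank F V < e) : ∀ g, ρ g = 1 := by
  haveI : Finite V := Module.finite_of_finite F
  letI act : MulAction P V :=
    { smul := fun g v => ρ g v
      one_smul := fun v => by show ρ 1 v = v; simp
      mul_smul := fun g h v => by show ρ (g * h) v = ρ g (ρ h v); simp }
  let W : Submodule F V :=
    { carrier := {v | ∀ g, ρ g v = v}
      add_mem' := fun {a b} ha hb g => by rw [map_add, ha g, hb g]
      zero_mem' := fun g => by simp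
      smul_mem' := fun c v hv g => by rw [map_smul, hv g] }
  have hfix : Nat.card (MulAction.fixedPoints P V) = Nat.card W := by
    apply Nat.card_congr
    exact ⟨fun v => ⟨v.1, fun g => v.2 g⟩, fun v => ⟨v.1, fun g => v.2 g⟩, fun _ => rfl, fun _ => rfl⟩
  have hmod := hP.card_modEq_card_fixedPoints V
  rw [hfix, card_eq_pow (K := F) (V := V), card_eq_pow (K := F) (V := W), hq] at hmod
  have hle : Module.finrank F W ≤ Module.finrank F V := Submodule.finrank_le W
  by_cases hc : Module.finrank F W = Module.finrank F V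
  · have htop : W = ⊤ := Submodule.eq_top_of_finrank_eq hc
    intro g
    ext1 v
    have : v ∈ W := by rw [htop]; trivial
    exact this g
  · exfalso
    set c := Module.finrank F W
    set n := Module.finrank F V
    have hpos : 0 < n - c := by omega
    have hcop : Nat.gcd p (q ^ c) = 1 :=
      Nat.Coprime.pow_right _ ((Nat.Prime.coprime_iff_not_dvd Fact.out).mpr hpq)
    have h1 : q ^ c * q ^ (n - c) ≡ q ^ c * 1 [MOD p] := by
      rw [← pow_add, mul_one, show c + (n - c) = n by omega]
      exact hmod
    have h2 := Nat.ModEq.cancel_left_of_coprime hcop h1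
    have h3 : (q : ZMod p) ^ (n - c) = 1 := by
      have := (ZMod.natCast_eq_natCast_iff _ _ p).mpr h2
      simpa using this
    have h4 : e ∣ n - c := he ▸ orderOf_dvd_of_pow_eq_one h3
    have := Nat.le_of_dvd hpos h4
    omega

theorem natCast_prime_ne_zero {K : Type*} [Field K] [Finite K] {p : ℕ} [Fact p.Prime]
    (h : ¬ p ∣ Nat.card K) : (p : K) ≠ 0 := by
  intro h0
  apply h
  have h1 : addOrderOf (1 : K) ∣ p := addOrderOf_dvd_of_nsmul_eq_zero (by simpa using h0)
  have h2 : addOrderOf (1 : K) ∣ Nat.card K := addOrderOf_dvd_natCard _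
  rcases (Nat.dvd_prime (Fact.out : p.Prime)).mp h1 with h3 | h3
  · rw [AddMonoid.addOrderOf_eq_one_iff] at h3
    exact absurd h3 one_ne_zero
  · rwa [h3] at h2

/-- Scalars from a field commuting with the group. -/
theorem via_hom {K : Type u} [Field K] [Finite K] {V : Type u} [AddCommGroup V] [Module F V]
    [FiniteDimensional F V] [Nontrivial V] {q p e : ℕ} [Fact p.Prime] (hq : Nat.card F = q)
    (hpq : ¬ p ∣ q) (he : e = orderOf (q : ZMod p)) (he0 : 0 < e)
    {P : Type v} [Group P] [Finite P] (hP : IsPGroup p P) (ρ : P →* Module.End F V)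
    (ι : K →+* Module.End F V) (hι : ∀ k g, ι k * ρ g = ρ g * ι k) (c : K) (hc1 : ι c ≠ 1)
    (hcp : (ι c) ^ p = 1) (t : ℕ) (ht : Nat.card K = q ^ t) :
    ∀ x ∈ derivedSeries P (Nat.log 2 (Module.finrank F V / e) + 1), ρ x = 1 := by
  haveI : Finite V := Module.finite_of_finite F
  have hq2 : 1 < q := by rw [← hq]; exact Finite.one_lt_card
  letI mK : Module K V := Module.compHom V ι
  have hsmul : ∀ (k : K) (v : V), k • v = ι k v := fun _ _ => rfl
  haveI : FiniteDimensional K V := Module.Finite.of_finite
  let ρ' : P →* Module.End K V :=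
    { toFun := fun g =>
        { toFun := ρ g
          map_add' := map_add _
          map_smul' := fun k v => by
            show ρ g (k • v) = k • ρ g v
            rw [hsmul, hsmul]
            have := congrArg (fun f : Module.End F V => f v) (hι k g)
            simpa using this.symm }
      map_one' := by ext v; simp
      map_mul' := fun a b => by ext v; simp }
  have hρ' : ∀ g v, ρ' g v = ρ g v := fun _ _ => rfl
  have hinj : Function.Injective ι := ι.injective
  have hc1' : c ≠ 1 := fun h => hc1 (by rw [h, map_one])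
  have hcp' : c ^ p = 1 := hinj (by rw [map_pow, hcp, map_one])
  have hpK : ¬ p ∣ Nat.card K := by
    rw [ht]
    intro h
    exact hpq ((Fact.out : p.Prime).dvd_of_dvd_pow h)
  have hcK := natCast_prime_ne_zero hpK
  have hmain := dl_of_field (E := K) hcK (V := V) hP ρ'
  have h1 : Nat.card V = q ^ Module.finrank F V := by rw [card_eq_pow (K := F), hq]
  have h2 : Nat.card V = (q ^ t) ^ Module.finrank K V := by rw [card_eq_pow (K := K), ht]
  rw [h1, ← pow_mul] at h2
  have h3 := Nat.pow_right_injective hq2 h2
  have ht0 : 0 < t := by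
    rcases Nat.eq_zero_or_pos t with h | h
    · exfalso
      rw [h, pow_zero] at ht
      have : 1 < Nat.card K := Finite.one_lt_card
      omega
    · exact h
  have hc0 : c ≠ 0 := by
    rintro rfl
    rw [zero_pow (Fact.out : p.Prime).ne_zero] at hcp'
    exact zero_ne_one hcp'
  have hord : orderOf (Units.mk0 c hc0) = p := by
    apply orderOf_eq_prime
    · ext; simpa using hcp'
    · intro h
      apply hc1'
      have := congrArg Units.val h
      simpa using this
  have hdvd : p ∣ q ^ t - 1 := by
    have h4 := orderOf_dvd_natCard (Units.mk0 c hc0)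
    rwa [hord, Nat.card_units, ht] at h4
  have hone : 1 ≤ q ^ t := Nat.one_le_pow _ _ (by omega)
  have hz : (q : ZMod p) ^ t = 1 := by
    have h5 := (ZMod.natCast_eq_zero_iff _ _).mpr hdvd
    rw [Nat.cast_sub hone] at h5
    have h6 : ((q ^ t : ℕ) : ZMod p) = 1 := by
      have := sub_eq_zero.mp h5
      simpa using this
    simpa using h6
  have het : e ≤ t := Nat.le_of_dvd ht0 (he ▸ orderOf_dvd_of_pow_eq_one hz)
  intro x hx
  have h7 : Module.finrank K V ≤ Module.finrank F V / e := by
    rw [h3]
    calc Module.finrank K V = t * Module.finrank K V / t := by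
          rw [Nat.mul_div_cancel_left _ ht0]
      _ ≤ t * Module.finrank K V / e := Nat.div_le_div_left het he0
  have h8 := Nat.log_mono_right (b := 2) h7
  have h9 := hmain x (derivedSeries_antitone (G := P) (by omega) hx)
  ext1 v
  rw [← hρ', h9]
  rfl

/-- The irreducible case. -/
theorem irreducible_case {V : Type u} [AddCommGroup V] [Module F V] [FiniteDimensional F V]
    [Nontrivial V] {q p e : ℕ} [Fact p.Prime] (hq : Nat.card F = q) (hpq : ¬ p ∣ q)
    (he : e = orderOf (q : ZMod p)) (he0 : 0 < e)
    {P : Type v} [Group P] [Finite P] (hP : IsPGroup p P) (ρ : P →* Module.End F V)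
    (hirr : ∀ W : Submodule F V, (∀ g, ∀ w ∈ W, ρ g w ∈ W) → W = ⊥ ∨ W = ⊤)
    (hnt : ¬ ∀ g, ρ g = 1) :
    ∀ x ∈ derivedSeries P (Nat.log 2 (Module.finrank F V / e) + 1), ρ x = 1 := by
  classical
  haveI : Finite V := Module.finite_of_finite F
  have hq2 : 1 < q := by rw [← hq]; exact Finite.one_lt_card
  -- the central element
  let R := ρ.toHomUnits.range
  haveI : Finite R :=
    Finite.of_surjective ρ.toHomUnits.rangeRestrict ρ.toHomUnits.rangeRestrict_surjective
  have hRp : IsPGroup p R :=
    IsPGroup.of_surjective hP ρ.toHomUnits.rangeRestrict ρ.toHomUnits.rangeRestrict_surjective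
  have hRnt : Nontrivial R := by
    push Not at hnt
    obtain ⟨g, hg⟩ := hnt
    refine ⟨⟨⟨ρ.toHomUnits g, g, rfl⟩, 1, fun h => hg ?_⟩⟩
    have h1 := congrArg (fun u : R => ((u : (Module.End F V)ˣ) : Module.End F V)) h
    simpa using h1
  haveI := hRp.center_nontrivial
  have hCp : IsPGroup p (Subgroup.center R) := hRp.to_subgroup _
  obtain ⟨k, hk, hcard⟩ := hCp.nontrivial_iff_card.mp inferInstance
  have hpd : p ∣ Nat.card (Subgroup.center R) := by
    rw [hcard]; exact dvd_pow_self p (by omega)
  obtain ⟨z, hz⟩ := exists_prime_orderOf_dvd_card' p hpd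
  -- the field
  let E : Subalgebra F (Module.End F V) := Subalgebra.centralizer F (Set.range ρ)
  have hEmem : ∀ φ : Module.End F V, φ ∈ E ↔ ∀ g, ρ g * φ = φ * ρ g := by
    intro φ
    show φ ∈ Subalgebra.centralizer F (Set.range ρ) ↔ _
    rw [Subalgebra.mem_centralizer_iff]
    simp
  have hinj : ∀ φ : E, φ ≠ 0 → Function.Injective (φ : Module.End F V) := by
    intro φ hφ
    rw [← LinearMap.ker_eq_bot]
    have hinv : ∀ g, ∀ w ∈ LinearMap.ker (φ : Module.End F V),
        ρ g w ∈ LinearMap.ker (φ : Module.End F V) := by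
      intro g w hw
      rw [LinearMap.mem_ker] at hw ⊢
      have h1 := congrArg (fun f : Module.End F V => f w) ((hEmem _).mp φ.2 g)
      simp only [Module.End.mul_apply, hw, map_zero] at h1
      exact h1.symm
    rcases hirr _ hinv with h | h
    · exact h
    · exfalso
      apply hφ
      apply Subtype.ext
      exact LinearMap.ker_eq_top.mp h
  haveI : Finite (Module.End F V) :=
    Finite.of_injective (fun f : Module.End F V => (f : V → V)) DFunLike.coe_injective
  haveI hEnd : Nontrivial E := inferInstance
  have hNZ : NoZeroDivisors E := by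
    refine ⟨fun {a c} h => ?_⟩
    by_contra hcon
    push Not at hcon
    obtain ⟨ha, hc⟩ := hcon
    apply hc
    apply Subtype.ext
    ext1 v
    apply hinj a ha
    have h1 := congrArg (fun f : E => (f : Module.End F V) v) h
    simpa using h1
  haveI : IsDomain E := NoZeroDivisors.to_isDomain E
  have hfield : IsField E := Finite.isDomain_to_isField E
  letI fE : Field E := hfield.toField
  let ι : E →+* Module.End F V :=
    { toFun := Subtype.val
      map_one' := rfl
      map_mul' := fun _ _ => rfl
      map_zero' := rfl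
      map_add' := fun _ _ => rfl }
  have hzE : (((z : Subgroup.center R) : R) : (Module.End F V)ˣ).val ∈ E := by
    rw [hEmem]
    intro g
    have h1 := (Subgroup.mem_center_iff.mp z.2) ⟨ρ.toHomUnits g, g, rfl⟩
    have h2 := congrArg (fun u : R => ((u : (Module.End F V)ˣ) : Module.End F V)) h1
    simpa using h2
  have hcE : Nat.card E = q ^ Module.finrank F E := by
    rw [card_eq_pow (K := F), hq]
  refine via_hom hq hpq he he0 hP ρ ι (fun k g => ?_) ⟨_, hzE⟩ ?_ ?_ _ hcE
  · have h1 := (hEmem _).mp k.2 g
    exact h1.symm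
  · intro h
    have h1 : ((z : Subgroup.center R) : R) = 1 := by
      apply Subtype.ext
      apply Units.ext
      exact h
    have h2 : z = 1 := Subtype.ext h1
    rw [h2, orderOf_one] at hz
    exact (Fact.out : p.Prime).one_lt.ne hz
  · show ((((z : Subgroup.center R) : R) : (Module.End F V)ˣ).val) ^ p = 1
    have h1 : z ^ p = 1 := by rw [← hz]; exact pow_orderOf_eq_one z
    have h2 := congrArg (fun u : Subgroup.center R =>
      (((u : Subgroup.center R) : R) : (Module.End F V)ˣ).val) h1
    simpa using h2

/-- The main theorem in the language of modules. -/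
theorem main_mod {q p e : ℕ} [Fact p.Prime] (hq : Nat.card F = q) (hpq : ¬ p ∣ q)
    (he : e = orderOf (q : ZMod p)) (he0 : 0 < e) :
    ∀ n : ℕ, ∀ (V : Type u) [AddCommGroup V] [Module F V] [FiniteDimensional F V],
      Module.finrank F V = n → ∀ (P : Type v) [Group P] [Finite P], IsPGroup p P →
      ∀ ρ : P →* Module.End F V, ∀ x ∈ derivedSeries P (bd e n), ρ x = 1 := by
  intro n
  induction n using Nat.strong_induction_on with
  | _ n IH =>
  intro V _ _ _ hV P _ _ hP ρ x hx
  by_cases hne : n < e
  · exact trivial_of_lt hq hpq he hP ρ (by omega) x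
  by_cases hn0 : n = 0
  · exfalso; omega
  have hbd : bd e n = Nat.log 2 (n / e) + 1 := by simp [bd, hne]
  haveI : Nontrivial V := Module.nontrivial_of_finrank_pos (R := F) (by omega)
  by_cases hred : ∃ W : Submodule F V, (∀ g, ∀ w ∈ W, ρ g w ∈ W) ∧ W ≠ ⊥ ∧ W ≠ ⊤
  · obtain ⟨W, hW, hW0, hW1⟩ := hred
    have ha : 0 < Module.finrank F W := by
      rw [Module.finrank_pos_iff_exists_ne_zero]
      obtain ⟨w, hw, hw0⟩ := (Submodule.ne_bot_iff W).mp hW0
      exact ⟨⟨w, hw⟩, by simpa using hw0⟩
    have hb : 0 < Module.finrank F (V ⧸ W) := by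
      haveI : Nontrivial (V ⧸ W) := Submodule.Quotient.nontrivial_iff.mpr hW1
      exact Module.finrank_pos
    have hab := Submodule.finrank_quotient_add_finrank W
    rw [hV] at hab
    have hanti := derivedSeries_antitone (G := P)
    have h1 : resRep ρ W hW x = 1 :=
      IH _ (by omega) W rfl P hP _ x (hanti (bd_mono (by omega)) hx)
    have h2 : quotRep ρ W hW x = 1 :=
      IH _ (by omega) (V ⧸ W) rfl P hP _ x (hanti (bd_mono (by omega)) hx)
    obtain ⟨k, hk⟩ := (IsPGroup.iff_orderOf.mp hP) x
    have hpF : (p : F) ≠ 0 := natCast_prime_ne_zero (by rwa [hq])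
    exact eq_one_of_res_quot ρ W hW hpF k x (by rw [← hk, pow_orderOf_eq_one]) h1 h2
  · have hirr : ∀ W : Submodule F V, (∀ g, ∀ w ∈ W, ρ g w ∈ W) → W = ⊥ ∨ W = ⊤ := by
      intro W hW
      by_contra hc
      push Not at hc
      exact hred ⟨W, hW, hc.1, hc.2⟩
    by_cases hnt : ∀ g, ρ g = 1
    · exact hnt x
    · rw [hbd, ← hV] at hx
      exact irreducible_case hq hpq he he0 hP ρ hirr hnt x hx

end main

/-- Let F be a field with q elements, p a prime not dividing q, and e the multiplicative order of q modulo p; assume e ≤ n. Then every p-subgroup of GL_n(F) has derived length at most ⌊log₂(n/e)⌋ + 1: that term of its derived series is trivial (n/e is the integer quotient). -/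
theorem result {F : Type*} [Field F] [Fintype F] (q : ℕ) (hF : Fintype.card F = q) (p : ℕ) [Fact p.Prime] (hpq : ¬ p ∣ q) (n e : ℕ) (he : e = orderOf (q : ZMod p)) (hen : e ≤ n) (P : Subgroup (GL (Fin n) F)) (hP : IsPGroup p P) : derivedSeries ↥P (Nat.log 2 (n / e) + 1) = ⊥ := by
  have hq : Nat.card F = q := by rw [Nat.card_eq_fintype_card, hF]
  have he0 : 0 < e := by
    rw [he, orderOf_pos_iff, isOfFinOrder_iff_pow_eq_one]
    have hc : (q : ZMod p) ≠ 0 := by
      rw [Ne, ZMod.natCast_eq_zero_iff]
      exact hpq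
    exact ⟨p - 1, (by have := (Fact.out : p.Prime).two_le; omega), ZMod.pow_card_sub_one_eq_one hc⟩
  have hbd : bd e n = Nat.log 2 (n / e) + 1 := by
    simp [bd, show ¬ n < e by omega]
  let ρ : P →* Module.End F (Fin n → F) :=
    ((Matrix.toLinAlgEquiv' (R := F) (n := Fin n)).toRingEquiv.toRingHom.toMonoidHom).comp
      ((Units.coeHom _).comp P.subtype)
  have hρ : ∀ x : P, ρ x = 1 → x = 1 := by
    intro x hx
    have h1 : (Matrix.toLinAlgEquiv' (R := F) (n := Fin n)) ((x : GL (Fin n) F) : Matrix (Fin n) (Fin n) F) =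
        (Matrix.toLinAlgEquiv' (R := F) (n := Fin n)) 1 := by
      rw [map_one]; exact hx
    have h2 := (Matrix.toLinAlgEquiv' (R := F) (n := Fin n)).injective h1
    apply Subtype.ext
    apply Units.ext
    exact h2
  rw [eq_bot_iff]
  intro x hx
  rw [Subgroup.mem_bot]
  apply hρ
  refine main_mod hq hpq he he0 n (Fin n → F) (by simp) P hP ρ x ?_
  rwa [hbd]

end Cfsg.Agent.S4417
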