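import Cfsg.Statements.S4420

set_option autoImplicit false
open Cfsg

namespace Cfsg.Agent.S4420

variable {H : Type*} [Group H]

theorem comm_of_exp_two (h : ∀ x : H, x ^ 2 = 1) (a b : H) : a * b = b * a := by
  have h1 := h (b * a)
  have h2 := h a
  have h3 := h b
  rw [pow_two] at h1 h2 h3
  calc a * b = a * b * (b * a * (b * a)) := by rw [h1]; simp
    _ = a * (b * b) * a * (b * a) := by group
    _ = b * a := by rw [h3, mul_one, h2, one_mul]

theorem exists_index_two [Finite H] (hne : ∃ x : H, x ≠ 1) (h : ∀ x : H, x ^ 2 = 1) :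
    ∃ K : Subgroup H, K.index = 2 := by
  have : Fact (Nat.Prime 2) := ⟨Nat.prime_two⟩
  have hP : IsPGroup 2 H := fun x => ⟨1, by simpa using h x⟩
  obtain ⟨n, hn⟩ := IsPGroup.iff_card.mp hP
  have hn0 : n ≠ 0 := by
    rintro rfl
    obtain ⟨x, hx⟩ := hne
    rw [pow_zero, Nat.card_eq_one_iff_unique] at hn
    exact hx (hn.1.elim _ _)
  obtain ⟨m, rfl⟩ : ∃ m, n = m + 1 := ⟨n - 1, by omega⟩
  obtain ⟨K, hK⟩ := Sylow.exists_subgroup_card_pow_prime (G := H) 2 (n := m) (by
    rw [hn]; exact pow_dvd_pow 2 (by omega))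
  refine ⟨K, ?_⟩
  have := Subgroup.card_mul_index K
  rw [hK, hn, pow_succ] at this
  exact Nat.eq_of_mul_eq_mul_left (by positivity) this

/-- Structure of groups in which every element outside some proper subgroup has square 1. Let H be a finite group with a proper subgroup A such that every element outside A has square 1. Then H has an abelian normal subgroup B of index 2 such that every element outside B is an involution inverting every element of B; and if H is not an elementary abelian 2-group, B is the only abelian normal subgroup of index 2 with this property. -/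
theorem result {H : Type*} [Group H] [Finite H] (A : Subgroup H) (hA : A ≠ ⊤) (hD : ∀ x : H, x ∉ A → x ^ 2 = 1) :
    ∃ B : Subgroup H, B.Normal ∧ IsMulCommutative ↥B ∧ B.index = 2 ∧
      (∀ x : H, x ∉ B → x ^ 2 = 1 ∧ ∀ b ∈ B, x * b * x⁻¹ = b⁻¹) ∧
      (¬ (IsMulCommutative H ∧ ∀ x : H, x ^ 2 = 1) →
        ∀ B' : Subgroup H, B'.Normal → IsMulCommutative ↥B' → B'.index = 2 →
          (∀ x : H, x ∉ B' → x ^ 2 = 1 ∧ ∀ b ∈ B', x * b * x⁻¹ = b⁻¹) → B' = B) := by
  have hinv1 : ∀ x : H, x ^ 2 = 1 → x⁻¹ = x := fun x hx => by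
    rw [inv_eq_iff_mul_eq_one, ← pow_two]; exact hx
  -- every `x ∉ A` inverts `A`
  have hinvert : ∀ x : H, x ∉ A → ∀ a ∈ A, x * a * x⁻¹ = a⁻¹ := by
    intro x hx a ha
    have hax : a * x ∉ A := fun h => hx (by simpa using A.mul_mem (A.inv_mem ha) h)
    have h1 := hD _ hax
    have h2 := hD _ hx
    rw [hinv1 x h2]
    rw [pow_two] at h1 h2
    calc x * a * x = a⁻¹ * (a * x * (a * x)) := by group
      _ = a⁻¹ := by rw [h1, mul_one]
  have hAcomm : ∀ x : H, x ∉ A → ∀ a ∈ A, ∀ b ∈ A, a * b = b * a := by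
    intro x hx a ha b hb
    have h1 := hinvert x hx _ (A.mul_mem ha hb)
    have h2 : x * (a * b) * x⁻¹ = (x * a * x⁻¹) * (x * b * x⁻¹) := by group
    rw [h2, hinvert x hx a ha, hinvert x hx b hb, mul_inv_rev] at h1
    have h3 := congrArg (fun w => w⁻¹) h1
    simp only [mul_inv_rev, inv_inv] at h3
    exact h3.symm
  -- the uniqueness part is independent of `B`
  have huniq : ∀ B : Subgroup H, B.index = 2 →
      (∀ x : H, x ∉ B → x ^ 2 = 1 ∧ ∀ b ∈ B, x * b * x⁻¹ = b⁻¹) →
      (¬ (IsMulCommutative H ∧ ∀ x : H, x ^ 2 = 1) →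
        ∀ B' : Subgroup H, B'.Normal → IsMulCommutative ↥B' → B'.index = 2 →
          (∀ x : H, x ∉ B' → x ^ 2 = 1 ∧ ∀ b ∈ B', x * b * x⁻¹ = b⁻¹) → B' = B) := by
    intro B hB hBp hnot B' _ _ hB' hB'p
    by_contra hne
    have hle : ∀ C D : Subgroup H, C.index = 2 → D.index = 2 → C ≤ D → C = D := by
      intro C D hC hD hCD
      have h1 := Subgroup.relIndex_mul_index hCD
      rw [hC, hD] at h1
      have h2 : C.relIndex D = 1 := by omega
      exact le_antisymm hCD (Subgroup.relIndex_eq_one.mp h2)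
    have h1 : ¬ B ≤ B' := fun h => hne (hle _ _ hB hB' h).symm
    have h2 : ¬ B' ≤ B := fun h => hne (hle _ _ hB' hB h)
    obtain ⟨b, hb, hb'⟩ := SetLike.not_le_iff_exists.mp h1
    obtain ⟨c, hc, hc'⟩ := SetLike.not_le_iff_exists.mp h2
    have hsq : ∀ z : H, z ^ 2 = 1 := by
      intro z
      by_cases hzB : z ∈ B
      · by_cases hzB' : z ∈ B'
        · have e1 := (hBp c hc').2 z hzB
          have e2 := (hB'p b hb').2 z⁻¹ (B'.inv_mem hzB')
          have hbc : b * c ∉ B := fun h => hc' (by simpa using B.mul_mem (B.inv_mem hb) h)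
          have e3 := (hBp _ hbc).2 z hzB
          have e4 : b * c * z * (b * c)⁻¹ = b * (c * z * c⁻¹) * b⁻¹ := by group
          rw [e4, e1, e2] at e3
          rw [inv_inv] at e3
          rw [pow_two]
          nth_rewrite 1 [e3]
          exact inv_mul_cancel z
        · exact (hB'p z hzB').1
      · exact (hBp z hzB).1
    exact hnot ⟨⟨⟨comm_of_exp_two hsq⟩⟩, hsq⟩
  by_cases hc : ∃ x y : H, x ∉ A ∧ y ∉ A ∧ x * y ∉ A
  · obtain ⟨x, y, hx, hy, hxy⟩ := hc
    have hsq : ∀ z : H, z ^ 2 = 1 := by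
      intro z
      by_cases hz : z ∈ A
      · have e1 := hinvert _ hxy z hz
        have e2 : x * y * z * (x * y)⁻¹ = x * (y * z * y⁻¹) * x⁻¹ := by group
        rw [e2, hinvert y hy z hz, hinvert x hx _ (A.inv_mem hz), inv_inv] at e1
        rw [pow_two]
        nth_rewrite 1 [e1]
        exact inv_mul_cancel z
      · exact hD z hz
    have hcomm := comm_of_exp_two hsq
    obtain ⟨B, hB⟩ := exists_index_two ⟨x, fun h => hx (h ▸ A.one_mem)⟩ hsq
    refine ⟨B, ⟨fun a ha g => ?_⟩, ⟨⟨fun a b => Subtype.ext (hcomm _ _)⟩⟩, hB, ?_, ?_⟩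
    · rw [hcomm g a, mul_assoc, mul_inv_cancel, mul_one]; exact ha
    · intro w _
      refine ⟨hsq w, fun b _ => ?_⟩
      rw [hcomm w b, mul_assoc, mul_inv_cancel, mul_one]
      exact (hinv1 b (hsq b)).symm
    · intro hn
      exact absurd ⟨⟨⟨hcomm⟩⟩, hsq⟩ hn
  · push Not at hc
    obtain ⟨x₀, hx₀⟩ : ∃ x, x ∉ A := by
      by_contra hcon
      push Not at hcon
      exact hA (eq_top_iff.mpr (fun x _ => hcon x))
    have hidx : A.index = 2 := by
      rw [Subgroup.index_eq_two_iff]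
      refine ⟨x₀, fun b => ?_⟩
      by_cases hb : b ∈ A
      · right
        exact ⟨hb, fun h => hx₀ (by simpa using A.mul_mem (A.inv_mem hb) h)⟩
      · left
        exact ⟨hc b x₀ hb hx₀, hb⟩
    refine ⟨A, Subgroup.normal_of_index_eq_two hidx,
      ⟨⟨fun a b => Subtype.ext (hAcomm x₀ hx₀ _ a.2 _ b.2)⟩⟩, hidx, ?_, huniq A hidx ?_⟩
    · exact fun w hw => ⟨hD w hw, hinvert w hw⟩
    · exact fun w hw => ⟨hD w hw, hinvert w hw⟩

end Cfsg.Agent.S4420
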