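import Cfsg.Statements.S4652
import Cfsg.Agent.Lib.H22.NormalP

set_option linter.style.haveILetI false

namespace Cfsg.Agent.S4652

open Cfsg.Agent.H21 Cfsg.Agent.H22

theorem result {G : Type*} [Group G] [Fintype G] (p : ℕ) [Fact p.Prime] (M : Ideal Cfsg.AlgInt) (hM : Cfsg.IsPModular p M) (D : Subgroup G) : Cfsg.IsDefectGroup p M (Cfsg.principalBlock M G) D ↔ ∃ S : Sylow p G, (S : Subgroup G) = D := by
  classical
  haveI : Fintype (Cfsg.IrrCharacter G) := Fintype.ofFinite _
  haveI : M.IsPrime := hM.2.1.isPrime
  have hone : ∀ g : G, Cfsg.IsDefectClass M (Cfsg.principalBlock M G) g →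
      ¬ p ∣ (Subgroup.centralizer ({g} : Set G)).index := by
    intro g hg hdvd
    have h1 := hg.2.2 (oneIrr G) oneIrr_mem_principal
    apply h1
    have h2 : Cfsg.centralChar (oneIrr G : G → ℂ) g =
        ((Subgroup.centralizer ({g} : Set G)).index : ℂ) := by
      unfold Cfsg.centralChar oneIrr
      simp
    rw [h2, mli_natCast_iff hM]
    exact hdvd
  have hcard : ∀ g : G, ¬ p ∣ (Subgroup.centralizer ({g} : Set G)).index →
      (Nat.card G).factorization p =
        (Nat.card (Subgroup.centralizer ({g} : Set G))).factorization p := by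
    intro g hg
    have h1 := Subgroup.card_mul_index (Subgroup.centralizer ({g} : Set G))
    have h2 : Nat.card (Subgroup.centralizer ({g} : Set G)) ≠ 0 := Nat.card_pos.ne'
    have h3 : (Subgroup.centralizer ({g} : Set G)).index ≠ 0 :=
      Subgroup.index_ne_zero_of_finite
    rw [← h1, Nat.factorization_mul h2 h3]
    simp [Nat.factorization_eq_zero_of_not_dvd hg]
  constructor
  · rintro ⟨g, hg, P, rfl⟩
    have hp := hone g hg
    have h1 := hcard g hp
    have h2 : Nat.card ((P : Subgroup (Subgroup.centralizer ({g} : Set G))).map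
        (Subgroup.centralizer ({g} : Set G)).subtype) = p ^ (Nat.card G).factorization p := by
      rw [Subgroup.card_map_of_injective (Subgroup.subtype_injective _), h1]
      exact P.card_eq_multiplicity
    exact ⟨Sylow.ofCard _ h2, rfl⟩
  · rintro ⟨S, rfl⟩
    obtain ⟨g, hg⟩ := exists_defectClass (M := M) (principalBlock_isBlock (M := M) (G := G))
    have hp := hone g hg
    have h1 := hcard g hp
    obtain ⟨T⟩ : Nonempty (Sylow p (Subgroup.centralizer ({g} : Set G))) := inferInstance
    have h2 : Nat.card ((T : Subgroup (Subgroup.centralizer ({g} : Set G))).map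
        (Subgroup.centralizer ({g} : Set G)).subtype) = p ^ (Nat.card G).factorization p := by
      rw [Subgroup.card_map_of_injective (Subgroup.subtype_injective _), h1]
      exact T.card_eq_multiplicity
    let T' : Sylow p G := Sylow.ofCard _ h2
    obtain ⟨x, hx⟩ := MulAction.exists_smul_eq G T' S
    have hT' : ((x • T' : Sylow p G) : Subgroup G) = (S : Subgroup G) := by rw [hx]
    rw [Sylow.coe_subgroup_smul] at hT'
    have hSle : (S : Subgroup G) ≤ Subgroup.centralizer ({x * g * x⁻¹} : Set G) := by
      rw [← hT']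
      intro s hs
      obtain ⟨t, ht, rfl⟩ := Subgroup.mem_map.mp hs
      obtain ⟨t', ht', rfl⟩ := Subgroup.mem_map.mp ht
      rw [Subgroup.mem_centralizer_iff]
      intro y hy
      rw [Set.mem_singleton_iff.mp hy]
      have hcom : g * (t' : G) = (t' : G) * g := by
        exact (Subgroup.mem_centralizer_iff.mp t'.2 g (Set.mem_singleton g))
      simp only [Subgroup.subtype_apply, MulEquiv.coe_toMonoidHom, MulAut.smul_def, MulAut.conj_apply]
      calc x * g * x⁻¹ * (x * (t' : G) * x⁻¹) = x * (g * (t' : G)) * x⁻¹ := by group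
        _ = x * ((t' : G) * g) * x⁻¹ := by rw [hcom]
        _ = x * (t' : G) * x⁻¹ * (x * g * x⁻¹) := by group
    have hdc : Cfsg.IsDefectClass M (Cfsg.principalBlock M G) (x * g * x⁻¹) := by
      have hb : Cfsg.blockCoeff (Cfsg.principalBlock M G) (x * g * x⁻¹) =
          Cfsg.blockCoeff (Cfsg.principalBlock M G) g := blockCoeff_isClass _ g x
      have hcc : ∀ χ : Cfsg.IrrCharacter G, Cfsg.centralChar (χ : G → ℂ) (x * g * x⁻¹) =
          Cfsg.centralChar (χ : G → ℂ) g := by
        intro χ
        have h3 : cc (x * g * x⁻¹) = cc g := by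
          apply ofOm_injective
          rw [ofOm_cc, ofOm_cc]
          funext y
          unfold classIndicator
          have : IsConj y (x * g * x⁻¹) ↔ IsConj y g := by
            have h4 : IsConj g (x * g * x⁻¹) := isConj_iff.mpr ⟨x, rfl⟩
            exact ⟨fun h => h.trans h4.symm, fun h => h.trans h4⟩
          simp only [this]
        exact congrFun h3 χ
      refine ⟨?_, ?_, ?_⟩
      · rw [hb]
        exact hg.1
      · rw [hb]
        exact hg.2.1
      · intro χ hχ
        rw [hcc]
        exact hg.2.2 χ hχ
    refine ⟨x * g * x⁻¹, hdc, ?_⟩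
    have hp' := hone _ hdc
    have h1' := hcard _ hp'
    have h3 : Nat.card (((S : Subgroup G).subgroupOf
        (Subgroup.centralizer ({x * g * x⁻¹} : Set G))) : Subgroup _) =
        p ^ (Nat.card (Subgroup.centralizer ({x * g * x⁻¹} : Set G))).factorization p := by
      rw [← h1', ← S.card_eq_multiplicity]
      rw [← Subgroup.card_map_of_injective (Subgroup.subtype_injective
        (Subgroup.centralizer ({x * g * x⁻¹} : Set G))),
        Subgroup.map_subgroupOf_eq_of_le hSle]
    refine ⟨Sylow.ofCard _ h3, ?_⟩
    show (S : Subgroup G) = (((S : Subgroup G).subgroupOf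
        (Subgroup.centralizer ({x * g * x⁻¹} : Set G)))).map _
    rw [Subgroup.map_subgroupOf_eq_of_le hSle]

end Cfsg.Agent.S4652
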