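import Cfsg.Statements.S4520
import Cfsg.Agent.Lib.H21.RealMax
import Cfsg.Agent.Lib.H21.KnorrFull
import Cfsg.Agent.S4652
import Cfsg.Agent.Lib.H22.NormalPrincipal

set_option autoImplicit false
open Cfsg

namespace Cfsg.Agent.S4520

/-- Let N be a normal subgroup of odd index in the finite group G, M a maximal ideal of the algebraic integers containing 2, and k coprime to the order of G with k ^ (2 ^ e) ≡ 1 modulo the order of G for some e and g ^ k = g⁻¹ for every element g of odd order. Let θ be an irreducible character of N and χ an irreducible character of G over θ, both unchanged by composing with g ↦ g ^ k. Then χ lies in the principal 2-block of G if and only if θ lies in the principal 2-block of N. -/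
theorem result {G : Type*} [Group G] [Fintype G] (M : Ideal Cfsg.AlgInt) (hM : Cfsg.IsPModular 2 M) (N : Subgroup G) [N.Normal] [Fintype N] (hidx : Odd N.index) (k e : ℕ) (hk : Nat.Coprime k (Nat.card G)) (hke : k ^ (2 ^ e) ≡ 1 [MOD Nat.card G]) (hk₂ : ∀ g : G, Odd (orderOf g) → g ^ k = g⁻¹) (θ : Cfsg.IrrCharacter N) (hθ : ∀ n : N, (θ : N → ℂ) (n ^ k) = (θ : N → ℂ) n) (χ : Cfsg.IrrCharacter G) (hχ : ∀ g : G, (χ : G → ℂ) (g ^ k) = (χ : G → ℂ) g) (hover : Cfsg.classInner (fun n : N => (χ : G → ℂ) n) (θ : N → ℂ) ≠ 0) : χ ∈ Cfsg.principalBlock M G ↔ θ ∈ Cfsg.principalBlock M N := by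
  have hp2 : Fact (Nat.Prime 2) := ⟨Nat.prime_two⟩
  have hMp : M.IsPrime := hM.2.1.isPrime
  haveI : Fintype (Cfsg.IrrCharacter G) := Fintype.ofFinite _
  haveI : Fintype (Cfsg.IrrCharacter N) := Fintype.ofFinite _
  have hover' := (H21.inner_ne_iff _ _).1 hover
  constructor
  · intro hχ0
    exact H22.principal_constituent hM N hχ0 hover'
  · intro hθ0
    classical
    obtain ⟨P₀⟩ : Nonempty (Sylow 2 N) := inferInstance
    let Q : Subgroup G := (P₀ : Subgroup N).map N.subtype
    have hQN : Q ≤ N := by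
      rintro _ ⟨x, _, rfl⟩
      exact x.2
    have hQsub : Q.subgroupOf N = (P₀ : Subgroup N) :=
      Subgroup.comap_map_eq_self_of_injective N.subtype_injective _
    have hdef : Cfsg.IsDefectGroup 2 M (Cfsg.principalBlock M N) (Q.subgroupOf N) :=
      (Cfsg.Agent.S4652.result 2 M hM _).2 ⟨P₀, hQsub.symm⟩
    obtain ⟨D, hD, hDN⟩ := H21.knorr_full hM N (Cfsg.principalBlock M N) H22.principalBlock_isBlock Q hQN hdef
      (Cfsg.blockOf M χ.1) (H22.isBlock_blockOf χ) ⟨χ, H22.self_mem_blockOf χ, θ, hθ0, hover⟩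
    have hD2 : IsPGroup 2 D := H22.defect_isPGroup hD
    have hQD : Q ≤ D := hDN ▸ inf_le_left
    have hQidx : ¬ 2 ∣ Q.index := by
      have h1 : Q.relIndex N * N.index = Q.index := Subgroup.relIndex_mul_index hQN
      have h2 : Q.relIndex N = (P₀ : Subgroup N).index := by
        show (Q.subgroupOf N).index = _
        rw [hQsub]
      rw [← h1, h2]
      intro h3
      rcases (Nat.Prime.dvd_mul Nat.prime_two).1 h3 with h4 | h4
      · exact P₀.not_dvd_index h4
      · exact (Nat.not_even_iff_odd.2 hidx) (even_iff_two_dvd.2 h4)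
    have hDidx : ¬ 2 ∣ D.index := fun h => hQidx (h.trans (Subgroup.index_dvd_of_le hQD))
    let P : Sylow 2 G := hD2.toSylow hDidx
    have hP : (P : Subgroup G) = D := rfl
    refine H21.principal_of_real_on_odd hM χ P hD ?_
    intro o _ ho
    rw [← hk₂ o ho]
    exact hχ o

end Cfsg.Agent.S4520
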