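import Cfsg.Statements.S4521
import Cfsg.Agent.Lib.H21.ProdPrincipal
import Cfsg.Agent.Lib.H21.CentralProd

set_option autoImplicit false
open Cfsg

namespace Cfsg.Agent.S4521

/-- Let the finite group G be generated by subgroups U₁ and U₂ that commute elementwise and whose intersection is a p-group, and let M be a maximal ideal of the algebraic integers containing the prime p. If the irreducible character χ of G has the irreducible constituents ψ₁ on U₁ and ψ₂ on U₂, then χ lies in the principal block of G if and only if ψ₁ and ψ₂ lie in the principal blocks of U₁ and U₂. -/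
theorem result {G : Type*} [Group G] [Fintype G] (p : ℕ) [Fact p.Prime] (M : Ideal Cfsg.AlgInt) (hM : Cfsg.IsPModular p M) (U₁ U₂ : Subgroup G) [Fintype U₁] [Fintype U₂] (hcomm : ∀ u ∈ U₁, ∀ v ∈ U₂, u * v = v * u) (hgen : U₁ ⊔ U₂ = ⊤) (hZ : IsPGroup p ↥(U₁ ⊓ U₂)) (χ : Cfsg.IrrCharacter G) (ψ₁ : Cfsg.IrrCharacter U₁) (ψ₂ : Cfsg.IrrCharacter U₂) (h₁ : Cfsg.classInner (fun u : U₁ => (χ : G → ℂ) u) (ψ₁ : U₁ → ℂ) ≠ 0) (h₂ : Cfsg.classInner (fun u : U₂ => (χ : G → ℂ) u) (ψ₂ : U₂ → ℂ) ≠ 0) : χ ∈ Cfsg.principalBlock M G ↔ (ψ₁ ∈ Cfsg.principalBlock M U₁ ∧ ψ₂ ∈ Cfsg.principalBlock M U₂) := by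
  have hMp : M.IsPrime := hM.2.1.isPrime
  have hs₁ : U₁ ⊔ Subgroup.centralizer (U₁ : Set G) = ⊤ := by
    rw [eq_top_iff, ← hgen]
    refine sup_le_sup_left ?_ _
    intro v hv u hu
    exact hcomm u hu v hv
  have hs₂ : U₂ ⊔ Subgroup.centralizer (U₂ : Set G) = ⊤ := by
    rw [eq_top_iff, ← hgen, sup_comm]
    refine sup_le_sup_left ?_ _
    intro u hu v hv
    exact (hcomm u hu v hv).symm
  haveI hn₁ : U₁.Normal := H21.normal_of_sup hs₁
  haveI hn₂ : U₂.Normal := H21.normal_of_sup hs₂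
  have hdec : ∀ g : G, ∃ u ∈ U₁, ∃ v ∈ U₂, g = u * v := by
    intro g
    have h1 : g ∈ ((U₁ ⊔ U₂ : Subgroup G) : Set G) := by
      rw [hgen]
      trivial
    rw [Subgroup.mul_normal] at h1
    obtain ⟨u, hu, v, hv, he⟩ := Set.mem_mul.1 h1
    exact ⟨u, hu, v, hv, he.symm⟩
  have h₁' := (H21.inner_ne_iff _ _).1 h₁
  have h₂' := (H21.inner_ne_iff _ _).1 h₂
  constructor
  · intro hχ
    exact ⟨H22.principal_constituent hM U₁ hχ h₁', H22.principal_constituent hM U₂ hχ h₂'⟩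
  · rintro ⟨hψ₁, hψ₂⟩
    exact H21.principal_of_constituents U₁ U₂ hM hcomm hdec hZ χ ψ₁ ψ₂ h₁' h₂' hψ₁ hψ₂

end Cfsg.Agent.S4521
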