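import Cfsg.Statements.S4566
import Cfsg.Agent.Lib.H21.CharLinear

set_option autoImplicit false
open Cfsg

namespace Cfsg.Agent.S4566

/-- Let N be a central subgroup of the finite group G, ψ a faithful irreducible (hence degree-one) character of N, and χ an irreducible character of G whose restriction to N contains ψ. If g ∈ G and some x ∈ G has commutator x⁻¹ g⁻¹ x g in N but different from 1, then χ g = 0. -/
theorem result {G : Type*} [Group G] [Fintype G] (N : Subgroup G) [Fintype N] (hN : N ≤ Subgroup.center G) (ψ : Cfsg.IrrCharacter ↥N) (hfaith : ∀ n : ↥N, (ψ : ↥N → ℂ) n = (ψ : ↥N → ℂ) 1 → n = 1) (χ : Cfsg.IrrCharacter G) (hover : Cfsg.classInner (fun n : ↥N => (χ : G → ℂ) n) (ψ : ↥N → ℂ) ≠ 0) (g x : G) (hcomm : x⁻¹ * g⁻¹ * x * g ∈ N) (hne : x⁻¹ * g⁻¹ * x * g ≠ 1) : (χ : G → ℂ) g = 0 := by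
  classical
  have hχ := H21.isCharacter_of_irr χ.2
  have hdpos : 0 < charDegree (χ : G → ℂ) := H21.irr_charDegree_pos χ.2
  have hdne : (charDegree (χ : G → ℂ) : ℂ) ≠ 0 := by exact_mod_cast hdpos.ne'
  have hNcomm : ∀ a b : N, a * b = b * a := by
    intro a b
    apply Subtype.ext
    exact (Subgroup.mem_center_iff.1 (hN a.2) b).symm
  have hψdeg := H21.irr_degree_one_of_comm hNcomm ψ.2
  have hψchar := H21.isCharacter_of_irr ψ.2
  let lam : N → ℂ := fun n => (χ : G → ℂ) n / (charDegree (χ : G → ℂ) : ℂ)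
  have lam_mul : ∀ a b, lam (a * b) = lam a * lam b := by
    intro a b
    have h := H21.irr_central_mul χ.2 (hN a.2) (b : G)
    simp only [lam]
    push_cast
    field_simp
    linear_combination h
  have hfun : (fun n : N => (χ : G → ℂ) n) = (charDegree (χ : G → ℂ) : ℂ) • lam := by
    funext n
    simp only [lam, Pi.smul_apply, smul_eq_mul]
    field_simp
  have hinner : classInner lam (ψ : N → ℂ) ≠ 0 := by
    intro h0
    apply hover
    rw [hfun, H21.classInner_smul_left, h0, mul_zero]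
  have hlam : lam = (ψ : N → ℂ) := H21.linear_inner_ne_zero_imp lam_mul hψchar hψdeg hinner
  by_contra hne0
  have hcz : ∀ y : G, x⁻¹ * g⁻¹ * x * g * y = y * (x⁻¹ * g⁻¹ * x * g) := fun y =>
    (Subgroup.mem_center_iff.1 (hN hcomm) y).symm
  have h1 := H21.irr_central_mul χ.2 (hN hcomm) (x⁻¹ * g * x)
  have h2 : x⁻¹ * g⁻¹ * x * g * (x⁻¹ * g * x) = g := by
    rw [hcz]; group
  rw [h2] at h1
  have h3 : (χ : G → ℂ) (x⁻¹ * g * x) = (χ : G → ℂ) g := by
    have := H21.isCharacter_conj hχ g x⁻¹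
    simpa using this
  rw [h3] at h1
  have h4 : (charDegree (χ : G → ℂ) : ℂ) = (χ : G → ℂ) (x⁻¹ * g⁻¹ * x * g) := by
    apply mul_left_cancel₀ hne0
    rw [h1]; ring
  have h5 : lam ⟨_, hcomm⟩ = 1 := by
    simp only [lam]
    rw [← h4]
    exact div_self hdne
  rw [hlam] at h5
  have h6 : (ψ : N → ℂ) ⟨_, hcomm⟩ = (ψ : N → ℂ) 1 := by
    rw [h5, H21.linear_one hψchar hψdeg]
  have h7 := hfaith _ h6
  apply hne
  exact congrArg Subtype.val h7

end Cfsg.Agent.S4566
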