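import Cfsg.Statements.S4583
import Cfsg.Agent.Lib.H21.CoverP

set_option autoImplicit false
open Cfsg

namespace Cfsg.Agent.S4583

/-- Let N be a normal subgroup of the finite group G, p a prime, M a maximal ideal of the algebraic integers containing p, and P a Sylow p-subgroup of G. Let θ be an irreducible character of N of degree prime to p lying in the principal p-block of N, and suppose θ extends to the subgroup NP (some irreducible character of NP restricts to θ). Then some irreducible character χ of G of degree prime to p in the principal p-block of G lies over θ (θ is a constituent of the restriction of χ to N). -/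
theorem result {G : Type*} [Group G] [Finite G] (N : Subgroup G) [N.Normal] (p : ℕ) [Fact p.Prime] (M : Ideal Cfsg.AlgInt) (hM : Cfsg.IsPModular p M) (P : Sylow p G)
    (θ : Cfsg.IrrCharacter N) (hθ : θ ∈ Cfsg.principalBlock M N) (hdeg : ¬ p ∣ Cfsg.charDegree (θ : N → ℂ))
    (hext : ∃ η : Cfsg.IrrCharacter ↥(N ⊔ (P : Subgroup G)), ∀ n : N, (η : ↥(N ⊔ (P : Subgroup G)) → ℂ) (Subgroup.inclusion le_sup_left n) = (θ : N → ℂ) n) :
    ∃ χ : Cfsg.IrrCharacter G, χ ∈ Cfsg.principalBlock M G ∧ ¬ p ∣ Cfsg.charDegree (χ : G → ℂ) ∧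
      haveI := Fintype.ofFinite N; Cfsg.classInner (fun n : N => (χ : G → ℂ) n) (θ : N → ℂ) ≠ 0 := by
  classical
  obtain ⟨η, hη⟩ := hext
  have hNH : N ≤ N ⊔ (P : Subgroup G) := le_sup_left
  have hPH : (P : Subgroup G) ≤ N ⊔ (P : Subgroup G) := le_sup_right
  have hMp : M.IsPrime := hM.2.1.isPrime
  have hidx : ∃ k : ℕ, (N.subgroupOf (N ⊔ (P : Subgroup G))).index = p ^ k := by
    have h1 : (N.subgroupOf (N ⊔ (P : Subgroup G))).index = N.relIndex (N ⊔ (P : Subgroup G)) := rfl
    have h2 : N.relIndex (N ⊔ (P : Subgroup G)) = N.relIndex (P : Subgroup G) := by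
      rw [sup_comm]
      exact Subgroup.relIndex_sup_right _ _
    have h3 : N.relIndex (P : Subgroup G) ∣ Nat.card (P : Subgroup G) := Subgroup.relIndex_dvd_card _ _
    obtain ⟨n, hn⟩ := IsPGroup.iff_card.1 P.isPGroup'
    rw [hn] at h3
    obtain ⟨k, -, hk⟩ := (Nat.dvd_prime_pow (Fact.out : p.Prime)).1 h3
    exact ⟨k, by rw [h1, h2, hk]⟩
  obtain ⟨χ, hχ, hχd, hne⟩ := H21.exists_principal_over_aux (M := M) hM N P (N ⊔ (P : Subgroup G)) hNH hPH hidx θ hθ hdeg η
    (fun n => hη n)
  refine ⟨χ, hχ, hχd, ?_⟩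
  exact (H21.inner_ne_iff (inst := Fintype.ofFinite N) _ _).2 hne

end Cfsg.Agent.S4583
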