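import Cfsg.Statements.S4585
import Cfsg.Agent.Lib.H21.PGroup4

set_option autoImplicit false
open Cfsg

namespace Cfsg.Agent.S4585

/-- Let p be a prime and P a group of order p^4. Then P' has index p^2 in P if and only if P has maximal nilpotency class, that is, nilpotency class exactly 3. -/
theorem result {P : Type*} [Group P] [Finite P] (p : ℕ) [Fact p.Prime] (hP : Nat.card P = p ^ 4) :
    (commutator P).index = p ^ 2 ↔ Group.nilpotencyClass P = 3 := by
  have hpp : p.Prime := Fact.out
  have hp1 := hpp.one_lt
  haveI nil : Group.IsNilpotent P := (IsPGroup.of_card hP).isNilpotent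
  set γ : ℕ → Subgroup P := fun i => (⊤ : Subgroup P).lowerCentralSeries i with hγ
  have hγ1 : γ 1 = commutator P := rfl
  have hγs : ∀ i, γ (i + 1) = ⁅γ i, (⊤ : Subgroup P)⁆ := fun i => rfl
  have hle_class : ∀ n, γ n = ⊥ ↔ Group.nilpotencyClass P ≤ n := fun n =>
    Subgroup.lowerCentralSeries_eq_bot_iff_nilpotencyClass_le
  have hγn : ∀ i, (γ i).Normal := by
    intro i
    exact Subgroup.lowerCentralSeries_normal _ _ 
  have hstep : ∀ i, γ (i + 1) ≤ γ i := by
    intro i
    haveI := hγn i
    rw [hγs]
    exact Subgroup.commutator_le_left _ _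
  have hcardP' : ∀ i, Nat.card (γ i) ∣ p ^ 4 := by
    intro i
    rw [← hP]
    exact Subgroup.card_subgroup_dvd_card _
  have hstrict : ∀ i, γ i ≠ ⊥ → Nat.card (γ (i + 1)) * p ≤ Nat.card (γ i) := by
    intro i hi
    have hne : γ (i + 1) ≠ γ i := by
      rw [hγs]
      exact H21.commutator_top_ne hi
    have hd : Nat.card (γ (i + 1)) ∣ Nat.card (γ i) := Subgroup.card_dvd_of_le (hstep i)
    obtain ⟨a, _, ha⟩ := (Nat.dvd_prime_pow hpp).1 (hcardP' i)
    obtain ⟨b, _, hb⟩ := (Nat.dvd_prime_pow hpp).1 (hcardP' (i + 1))
    rw [ha, hb] at hd ⊢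
    have hab : b ≤ a := (Nat.pow_dvd_pow_iff_le_right hp1).1 hd
    have hba : b ≠ a := by
      intro e
      apply hne
      apply Subgroup.eq_of_le_of_card_ge (hstep i)
      rw [ha, hb, e]
    rw [← pow_succ]
    exact Nat.pow_le_pow_right hpp.pos (by omega)
  have hcard_idx : (commutator P).index * Nat.card (commutator P) = p ^ 4 := by
    rw [mul_comm, Subgroup.card_mul_index, hP]
  constructor
  · intro hidx
    have hA : Nat.card (commutator P) = p ^ 2 := by
      rw [hidx] at hcard_idx
      apply Nat.eq_of_mul_eq_mul_left (pow_pos hpp.pos 2)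
      rw [hcard_idx]; ring
    have hA' : Nat.card (γ 1) = p ^ 2 := hA
    have hne1 : γ 1 ≠ ⊥ := by
      intro e
      rw [e, Subgroup.card_bot] at hA'
      have : p ^ 2 > 1 := by nlinarith
      omega
    have h2 := hstrict 1 hne1
    rw [hA'] at h2
    have h2' : Nat.card (γ 2) ≤ p := by
      refine Nat.le_of_mul_le_mul_right ?_ hpp.pos
      calc Nat.card (γ 2) * p ≤ p ^ 2 := h2
        _ = p * p := by ring
    have hne2 : γ 2 ≠ ⊥ := by
      intro e
      -- then `P' ≤ Z(P)`
      have hZ : commutator P ≤ Subgroup.center P := by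
        intro c hc
        rw [Subgroup.mem_center_iff]
        intro g
        have h8 : c * g * c⁻¹ * g⁻¹ ∈ γ 2 :=
          Subgroup.commutator_mem_commutator (show c ∈ γ 1 from hc) (Subgroup.mem_top g)
        rw [e, Subgroup.mem_bot] at h8
        have h9 := mul_inv_eq_one.1 h8
        exact (mul_inv_eq_iff_eq_mul.1 h9).symm
      have hnc : ¬ ((Subgroup.center P).index = 1 ∨ (Subgroup.center P).index = p) := by
        intro hor
        exact hne1 (H21.commutator_eq_bot_of_comm (H21.comm_of_center_index (p := p) hor))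
      have hdvd : (Subgroup.center P).index ∣ p ^ 2 := by
        rw [← hidx]
        exact Subgroup.index_dvd_of_le hZ
      obtain ⟨k, hk2, hk⟩ := (Nat.dvd_prime_pow hpp).1 hdvd
      interval_cases k
      · exact hnc (Or.inl (by simpa using hk))
      · exact hnc (Or.inr (by simpa using hk))
      · have h10 := H21.card_commutator_of_index_center hP hk
        rw [hA] at h10
        have : p ^ 2 > p := by nlinarith
        omega
    have h3 : γ 3 = ⊥ := by
      have h4 := hstrict 2 hne2
      have h5 : Nat.card (γ 3) * p ≤ p := le_trans h4 h2'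
      have h6 : Nat.card (γ 3) ≤ 1 := by
        refine Nat.le_of_mul_le_mul_right ?_ hpp.pos
        simpa using h5
      have h7 : Nat.card (γ 3) = 1 := le_antisymm h6 Nat.card_pos
      exact Subgroup.eq_bot_of_card_eq _ h7
    have c1 := (hle_class 3).1 h3
    have c2 : ¬ Group.nilpotencyClass P ≤ 2 := fun hc => hne2 ((hle_class 2).2 hc)
    omega
  · intro hcl
    have hne2 : γ 2 ≠ ⊥ := fun e => by
      have := (hle_class 2).1 e
      omega
    have hne1 : γ 1 ≠ ⊥ := by
      intro e
      apply hne2
      have h3 := hstep 1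
      rw [e] at h3
      exact le_bot_iff.1 h3
    have h1 := hstrict 1 hne1
    have h2 : p ≤ Nat.card (γ 2) := by
      obtain ⟨b, _, hb⟩ := (Nat.dvd_prime_pow hpp).1 (hcardP' 2)
      rw [hb]
      rcases Nat.eq_zero_or_pos b with h0 | h0
      · exfalso
        apply hne2
        rw [h0, pow_zero] at hb
        exact Subgroup.eq_bot_of_card_eq _ hb
      · calc p = p ^ 1 := (pow_one p).symm
          _ ≤ p ^ b := Nat.pow_le_pow_right hpp.pos h0
    have h3 : p ^ 2 ≤ Nat.card (commutator P) := by
      calc p ^ 2 = p * p := by ring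
        _ ≤ Nat.card (γ 2) * p := Nat.mul_le_mul_right p h2
        _ ≤ Nat.card (γ 1) := h1
    -- `P/P'` is not cyclic
    have hnotcyc : ¬ IsCyclic (P ⧸ commutator P) := by
      intro hc
      have hnn : (commutator P).Normal := inferInstance
      have h4 : commutator P ≤ γ 2 := by
        haveI := hγn 2
        apply H21.commutator_le_of_central_mod (N := commutator P) (R := γ 2) (hstep 1) hc
        intro n hn g
        exact Subgroup.commutator_mem_commutator hn (Subgroup.mem_top g)
      exact H21.commutator_top_ne hne1 (le_antisymm (hstep 1) h4)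
    have hd : (commutator P).index ∣ p ^ 4 := by
      rw [← hP]; exact Subgroup.index_dvd_card _
    obtain ⟨k, hk4, hk⟩ := (Nat.dvd_prime_pow hpp).1 hd
    have hk2 : k ≤ 2 := by
      by_contra hcon
      have : p ^ 3 ≤ p ^ k := Nat.pow_le_pow_right hpp.pos (by omega)
      rw [hk] at hcard_idx
      have h5 : p ^ 3 * p ^ 2 ≤ p ^ k * Nat.card (commutator P) := Nat.mul_le_mul this h3
      rw [hcard_idx] at h5
      have h6 : p ^ 5 ≤ p ^ 4 := by
        calc p ^ 5 = p ^ 3 * p ^ 2 := by ring
          _ ≤ _ := h5
      have := (Nat.pow_le_pow_iff_right hp1).1 h6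
      omega
    interval_cases k
    · exfalso
      apply hnotcyc
      have h1 : Nat.card (P ⧸ commutator P) = 1 := by
        have : (commutator P).index = 1 := by rw [hk, pow_zero]
        exact this
      haveI : Subsingleton (P ⧸ commutator P) := (Nat.card_eq_one_iff_unique.1 h1).1
      exact isCyclic_of_subsingleton
    · exfalso
      apply hnotcyc
      have h1 : Nat.card (P ⧸ commutator P) = p := by
        have : (commutator P).index = p := by rw [hk, pow_one]
        exact this
      exact isCyclic_of_prime_card (p := p) h1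
    · exact hk

end Cfsg.Agent.S4585
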