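import Cfsg.Statements.S4586
import Cfsg.Agent.Lib.H21.PGroupSmall

set_option autoImplicit false
open Cfsg

namespace Cfsg.Agent.S4586

/-- Let p be a prime, P a finite p-group and N a normal subgroup of P of index p. For x ∈ P write c(x) for the number of elements n of N whose commutator x n x⁻¹ n⁻¹ lies in the derived subgroup N' (so c(x)/#N' is the order of the centralizer of x acting on N/N'). Then [P : P'] = p² if and only if c(x) = p·#N' for every x ∈ P outside N, and also if and only if c(x) = p·#N' for some x ∈ P outside N. -/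
theorem result {P : Type*} [Group P] [Finite P] (p : ℕ) [Fact p.Prime] (hP : IsPGroup p P) (N : Subgroup P) [N.Normal] (hN : N.index = p) :
    ((commutator P).index = p ^ 2 ↔ ∀ x : P, x ∉ N →
        Nat.card {n : N // x * n * x⁻¹ * (n : P)⁻¹ ∈ (commutator N).map N.subtype} = p * Nat.card (commutator N)) ∧
    ((commutator P).index = p ^ 2 ↔ ∃ x : P, x ∉ N ∧
        Nat.card {n : N // x * n * x⁻¹ * (n : P)⁻¹ ∈ (commutator N).map N.subtype} = p * Nat.card (commutator N)) := by
  have hp0 : 0 < p := (Fact.out : p.Prime).pos
  have hd : 0 < Nat.card (commutator N) := Nat.card_pos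
  have hkey : ∀ x : P, x ∉ N → ((commutator P).index = p ^ 2 ↔
      Nat.card {n : N // x * n * x⁻¹ * (n : P)⁻¹ ∈ (commutator N).map N.subtype}
        = p * Nat.card (commutator N)) := by
    intro x hx
    have h := H21.index_commutator_mul_card N hN hx
    constructor
    · intro e
      rw [e] at h
      apply Nat.eq_of_mul_eq_mul_left hp0
      rw [← h]
      ring
    · intro e
      rw [e] at h
      apply Nat.eq_of_mul_eq_mul_right hd
      rw [h]
      ring
  have hex : ∃ x : P, x ∉ N := by
    by_contra hall
    push Not at hall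
    have : N = ⊤ := eq_top_iff.2 (fun x _ => hall x)
    rw [this, Subgroup.index_top] at hN
    exact (Fact.out : p.Prime).one_lt.ne hN
  obtain ⟨x₀, hx₀⟩ := hex
  constructor
  · constructor
    · intro e x hx
      exact (hkey x hx).1 e
    · intro h
      exact (hkey x₀ hx₀).2 (h x₀ hx₀)
  · constructor
    · intro e
      exact ⟨x₀, hx₀, (hkey x₀ hx₀).1 e⟩
    · rintro ⟨x, hx, h⟩
      exact (hkey x hx).2 h

end Cfsg.Agent.S4586
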