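import Mathlib
import Cfsg.Agent.Lib.H03.PSolv
import Cfsg.Agent.Lib.H01.Coprime3
import Cfsg.Agent.Lib.H18.Syl
import Cfsg.Agent.Lib.H13.Residual
import Cfsg.Agent.Lib.H06.PSolvable
import Cfsg.Agent.Lib.H08.PCoreL
import Cfsg.Agent.Lib.H01.Fitting
import Cfsg.Agent.Lib.H13.Large
import Cfsg.Agent.Lib.H03.PConstr
import Cfsg.Statements.S4601
-- import your own Cfsg.Agent.* helpers here

set_option autoImplicit false
open Cfsg

namespace Cfsg.Agent.S4601

open scoped Pointwise

universe u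

/-- lifting prime-power order elements -/
theorem lift_q {G : Type*} [Group G] [Finite G] {q : ℕ} [hq' : Fact q.Prime] (N : Subgroup G) [N.Normal]
    (y : G ⧸ N) {k : ℕ} (hy : orderOf y = q ^ k) :
    ∃ x : G, (QuotientGroup.mk' N) x = y ∧ ∃ j : ℕ, orderOf x = q ^ j := by
  obtain ⟨x₀, rfl⟩ := QuotientGroup.mk'_surjective N y
  have hq : q.Prime := hq'.out
  rcases Nat.eq_zero_or_pos k with rfl | hk
  · refine ⟨1, ?_, 0, by simp⟩
    rw [pow_zero, orderOf_eq_one_iff] at hy
    rw [hy, map_one]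
  set o := orderOf x₀ with ho
  have hopos : 0 < o := orderOf_pos x₀
  obtain ⟨a, m, hm, hom⟩ := Nat.exists_eq_pow_mul_and_not_dvd (n := o) hopos.ne' q hq.ne_one
  have hcop : Nat.Coprime m (q ^ k) :=
    Nat.Coprime.pow_right k ((Nat.Prime.coprime_iff_not_dvd hq).mpr hm).symm
  have hk1 : 1 < q ^ k := Nat.one_lt_pow hk.ne' hq.one_lt
  obtain ⟨r, -, hr⟩ := Nat.exists_mul_mod_eq_one_of_coprime hcop hk1
  refine ⟨x₀ ^ (m * r), ?_, ?_⟩
  · rw [map_pow]
    have : ((QuotientGroup.mk' N) x₀) ^ (m * r) = ((QuotientGroup.mk' N) x₀) ^ 1 := by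
      rw [pow_eq_pow_iff_modEq, hy]
      unfold Nat.ModEq
      rw [hr, Nat.mod_eq_of_lt hk1]
    rwa [pow_one] at this
  · have h1 : (x₀ ^ (m * r)) ^ q ^ a = 1 := by
      rw [← pow_mul]
      have : m * r * q ^ a = o * r := by rw [hom]; ring
      rw [this, pow_mul, ho, pow_orderOf_eq_one, one_pow]
    obtain ⟨j, -, hj⟩ := (Nat.dvd_prime_pow hq).1 (orderOf_dvd_of_pow_eq_one h1)
    exact ⟨j, hj⟩

theorem two_sylow {G : Type*} [Group G] [Finite G] {q : ℕ} [Fact q.Prime] (N : Subgroup G) [hN : N.Normal]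
    (Q Q' : Sylow q G) (h : (Q' : Subgroup G) ≤ (Q : Subgroup G) ⊔ N) :
    ∃ n ∈ N, n • Q = Q' := by
  have h1 : (Q : Subgroup G) ≤ (Q : Subgroup G) ⊔ N := le_sup_left
  obtain ⟨b, hb⟩ := MulAction.exists_smul_eq (↥((Q : Subgroup G) ⊔ N)) (Q.subtype h1) (Q'.subtype h)
  rw [Sylow.smul_subtype] at hb
  have hb' : (b : G) • Q = Q' := Sylow.subtype_injective hb
  have hmem : (b : G) ∈ ((N ⊔ (Q : Subgroup G) : Subgroup G) : Set G) := by
    rw [sup_comm]; exact b.2
  rw [Subgroup.normal_mul] at hmem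
  obtain ⟨n, hn, h', hh', hbe⟩ := Set.mem_mul.mp hmem
  refine ⟨n, hn, ?_⟩
  rw [← hb', ← hbe, mul_smul]
  congr 1
  exact (Sylow.smul_eq_iff_mem_normalizer.mpr (Subgroup.le_normalizer hh')).symm

theorem lemA {G : Type*} [Group G] [Finite G] {p q : ℕ} [Fact p.Prime] [Fact q.Prime] (N : Subgroup G) [hN : N.Normal]
    (Q : Sylow q G) (P : Subgroup G) (hP : IsPGroup p P)
    (hPQ : ∀ x ∈ P, (MulAut.conj x • (Q : Subgroup G)) ≤ (Q : Subgroup G) ⊔ N)
    (hcount : ¬ p ∣ (Subgroup.centralizer ((Q : Subgroup G) : Set G)).relIndex N) :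
    ∃ Q' : Sylow q G, P ≤ Subgroup.normalizer ((Q' : Subgroup G) : Set G) := by
  classical
  have hinv : ∀ x : P, ∀ s ∈ MulAction.orbit N Q, x • s ∈ MulAction.orbit N Q := by
    rintro ⟨x, hx⟩ s ⟨n, rfl⟩
    obtain ⟨n₀, hn₀, hn₀e⟩ := two_sylow N Q ((x : G) • Q) (by
      rw [Sylow.coe_subgroup_smul]; exact hPQ x hx)
    refine ⟨⟨x * n * x⁻¹ * n₀, N.mul_mem (hN.conj_mem _ n.2 x) hn₀⟩, ?_⟩
    show ((x * n * x⁻¹ * n₀ : G)) • Q = x • ((n : G) • Q)
    rw [mul_smul, hn₀e, ← mul_smul, ← mul_smul]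
    congr 1
    group
  let S : SubMulAction P (Sylow q G) :=
    { carrier := MulAction.orbit N Q
      smul_mem' := fun x s hs => hinv x s hs }
  have hcard : ¬ p ∣ Nat.card S := by
    have h1 : Nat.card S = (MulAction.stabilizer N Q).index := by
      rw [MulAction.index_stabilizer]
      rfl
    rw [h1]
    intro hd
    apply hcount
    refine hd.trans (Subgroup.index_dvd_of_le ?_)
    intro n hn
    rw [MulAction.mem_stabilizer_iff]
    show (n : G) • Q = Q
    rw [Sylow.smul_eq_iff_mem_normalizer]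
    have hn' : (n : G) ∈ Subgroup.centralizer ((Q : Subgroup G) : Set G) := hn
    exact Cfsg.Agent.H13.centralizer_le_normalizer_of_le _ hn'
  obtain ⟨s, hs⟩ := hP.nonempty_fixed_point_of_prime_not_dvd_card S hcard
  refine ⟨s.1, ?_⟩
  intro x hx
  have := hs ⟨x, hx⟩
  have h2 : (x : G) • s.1 = s.1 := congrArg Subtype.val this
  exact Sylow.smul_eq_iff_mem_normalizer.mp h2

theorem hyp_quot {G : Type*} [Group G] [Finite G] {p q : ℕ} [Fact q.Prime] (N : Subgroup G) [hN : N.Normal]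
    (h : ∀ y : G, (∃ k : ℕ, orderOf y = q ^ k) → ¬ p ∣ (Subgroup.centralizer ({y} : Set G)).index) :
    ∀ y : G ⧸ N, (∃ k : ℕ, orderOf y = q ^ k) → ¬ p ∣ (Subgroup.centralizer ({y} : Set (G ⧸ N))).index := by
  rintro y ⟨k, hk⟩ hd
  obtain ⟨x, rfl, j, hj⟩ := lift_q N y hk
  apply h x ⟨j, hj⟩
  refine hd.trans (dvd_trans (Subgroup.index_dvd_of_le ?_)
    (Subgroup.index_map_dvd (f := QuotientGroup.mk' N) _ (QuotientGroup.mk'_surjective N)))
  rintro _ ⟨c, hc, rfl⟩
  rw [SetLike.mem_coe, Subgroup.mem_centralizer_singleton_iff] at hc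
  rw [Subgroup.mem_centralizer_singleton_iff, ← map_mul, hc, map_mul]

theorem exists_le_centralizer {G : Type*} [Group G] [Finite G] {p : ℕ} [Fact p.Prime] (y : G)
    (h : ¬ p ∣ (Subgroup.centralizer ({y} : Set G)).index) :
    ∃ S : Sylow p G, (S : Subgroup G) ≤ Subgroup.centralizer ({y} : Set G) := by
  obtain ⟨R⟩ : Nonempty (Sylow p G) := inferInstance
  obtain ⟨g, hg⟩ := Cfsg.Agent.H18.exists_sylow_le_conj R _ h
  refine ⟨g⁻¹ • R, ?_⟩
  rw [Sylow.coe_subgroup_smul]
  intro x hx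
  obtain ⟨r, hr, rfl⟩ := Subgroup.mem_smul_pointwise_iff_exists _ _ _ |>.mp hx
  obtain ⟨c, hc, rfl⟩ := hg hr
  have : MulAut.conj g⁻¹ • (MulAut.conj g).toMonoidHom c = c := by
    simp [MulAut.smul_def]; group
  rw [this]
  exact hc

theorem hcount_core {G : Type*} [Group G] [Finite G] {p q : ℕ} [hp' : Fact p.Prime] [hq' : Fact q.Prime] (hpq : p ≠ q)
    (h : ∀ y : G, (∃ k : ℕ, orderOf y = q ^ k) → ¬ p ∣ (Subgroup.centralizer ({y} : Set G)).index)
    (Q : Sylow q G) :
    ¬ p ∣ (Subgroup.centralizer ((Q : Subgroup G) : Set G)).relIndex (Cfsg.pPrimeCore q G) := by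
  classical
  set N := Cfsg.pPrimeCore q G with hNdef
  haveI hN : N.Normal := Cfsg.Agent.H03.pPrimeCore_normal'
  have hcop : (Nat.card Q).Coprime (Nat.card N) := by
    obtain ⟨a, ha⟩ := IsPGroup.iff_card.mp Q.2
    have : (Nat.card (Q : Subgroup G)).Coprime (Nat.card N) := by
      rw [ha]
      exact Nat.Coprime.pow_left a (Cfsg.Agent.H06.coprime_card_pPrimeCore q).symm
    exact this
  haveI hQnil : Group.IsNilpotent (Q : Subgroup G) := IsPGroup.isNilpotent Q.2
  have hQsolv : Group.IsSolvable (Q : Subgroup G) := inferInstance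
  have hQN : (Q : Subgroup G) ≤ Subgroup.normalizer (N : Set G) := Subgroup.le_normalizer_of_normal
  obtain ⟨R, hR⟩ := Cfsg.Agent.H01.exists_invariant_sylow (A := (Q : Subgroup G)) (K := N) hQN hcop (Or.inl hQsolv) p
  -- every `y ∈ Q` centralizes `R`
  have hcent : ∀ y ∈ (Q : Subgroup G), ∀ r ∈ (R : Subgroup N), y * (r : G) = (r : G) * y := by
    intro y hy r hr
    have hyq : ∃ k : ℕ, orderOf y = q ^ k := by
      have := (Q.2 ⟨y, hy⟩)
      obtain ⟨k, hk⟩ := this
      obtain ⟨j, -, hj⟩ := (Nat.dvd_prime_pow hq'.out).1 (orderOf_dvd_of_pow_eq_one (by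
        have := congrArg Subtype.val hk
        simpa using this) : orderOf y ∣ q ^ k)
      exact ⟨j, hj⟩
    obtain ⟨S, hS⟩ := exists_le_centralizer (p := p) y (h y hyq)
    obtain ⟨R₁, hR₁⟩ := Cfsg.Agent.H13.exists_sylow_inf_normal S N
    have hA : Subgroup.zpowers y ≤ (Q : Subgroup G) := (Subgroup.zpowers_le).2 hy
    have hcopA : (Nat.card (Subgroup.zpowers y)).Coprime (Nat.card N) :=
      Nat.Coprime.coprime_dvd_left (Subgroup.card_dvd_of_le hA) hcop
    have hsA : Group.IsSolvable (Subgroup.zpowers y) := Cfsg.Agent.H01.isSolvable_of_le hA hQsolv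
    have hR₁n : Subgroup.zpowers y ≤ Subgroup.normalizer ((R₁ : Subgroup N).map N.subtype : Set G) := by
      rw [Subgroup.zpowers_le, hR₁]
      apply Cfsg.Agent.H13.centralizer_le_normalizer_of_le
      rw [Subgroup.mem_centralizer_iff]
      intro t ht
      have := hS ht.1
      rw [Subgroup.mem_centralizer_singleton_iff] at this
      exact this
    have hRn : Subgroup.zpowers y ≤ Subgroup.normalizer ((R : Subgroup N).map N.subtype : Set G) :=
      hA.trans hR
    obtain ⟨c, hc, hce⟩ := Cfsg.Agent.H01.conj_invariant_sylow (A := Subgroup.zpowers y) (K := N)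
      (hA.trans hQN) hcopA (Or.inl hsA) p R₁ R hR₁n hRn
    have hrm : r ∈ MulAut.conj c • (R₁ : Subgroup N) := by
      rw [← Sylow.pointwise_smul_def, hce]; exact hr
    obtain ⟨r₁, hr₁, rfl⟩ := Subgroup.mem_smul_pointwise_iff_exists _ _ _ |>.mp hrm
    have hr₁m : (r₁ : G) ∈ (R₁ : Subgroup N).map N.subtype := ⟨r₁, hr₁, rfl⟩
    rw [hR₁] at hr₁m
    have h1 := hS hr₁m.1
    rw [Subgroup.mem_centralizer_singleton_iff] at h1
    have h2 : (c : G) * y = y * c := by
      have := (Subgroup.mem_centralizer_iff.mp hc) y (Subgroup.mem_zpowers y)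
      exact this.symm
    have h3 : ((MulAut.conj c • r₁ : N) : G) = (c : G) * r₁ * (c : G)⁻¹ := rfl
    rw [h3]
    have h4 : (c : G)⁻¹ * y = y * (c : G)⁻¹ := by
      rw [inv_mul_eq_iff_eq_mul, ← mul_assoc, h2, mul_assoc, mul_inv_cancel, mul_one]
    calc y * ((c : G) * r₁ * (c : G)⁻¹) = (y * c) * r₁ * (c : G)⁻¹ := by group
      _ = c * (y * r₁) * (c : G)⁻¹ := by rw [← h2]; group
      _ = c * (r₁ * y) * (c : G)⁻¹ := by rw [h1]
      _ = c * r₁ * (y * (c : G)⁻¹) := by group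
      _ = c * r₁ * ((c : G)⁻¹ * y) := by rw [h4]
      _ = _ := by group
  intro hd
  have hle : (R : Subgroup N) ≤ (Subgroup.centralizer ((Q : Subgroup G) : Set G)).subgroupOf N := by
    intro r hr
    rw [Subgroup.mem_subgroupOf, Subgroup.mem_centralizer_iff]
    intro y hy
    exact hcent y hy r hr
  exact R.not_dvd_index (hd.trans (Subgroup.index_dvd_of_le hle))

theorem hPQ_of_quot {G : Type*} [Group G] {N : Subgroup G} [N.Normal]
    (Q : Subgroup G) (x : G)
    (hx : (QuotientGroup.mk' N) x ∈ Subgroup.normalizer ((Q.map (QuotientGroup.mk' N) : Subgroup (G ⧸ N)) : Set (G ⧸ N))) :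
    MulAut.conj x • Q ≤ Q ⊔ N := by
  intro t ht
  obtain ⟨y, hy, rfl⟩ := Subgroup.mem_smul_pointwise_iff_exists _ _ _ |>.mp ht
  have h1 : (QuotientGroup.mk' N) y ∈ Q.map (QuotientGroup.mk' N) := ⟨y, hy, rfl⟩
  have h2 := (Subgroup.mem_normalizer_iff.mp hx _).mp h1
  obtain ⟨h, hh, he⟩ := h2
  have h3 : h⁻¹ * (MulAut.conj x • y) ∈ N := by
    rw [← QuotientGroup.ker_mk' N, MonoidHom.mem_ker, map_mul, map_inv, he]
    simp [MulAut.smul_def]; group
  have h4 : (MulAut.conj x • y) = h * (h⁻¹ * (MulAut.conj x • y)) := by group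
  rw [h4]
  exact Subgroup.mul_mem _ (Subgroup.mem_sup_left hh) (Subgroup.mem_sup_right h3)

theorem qsolv {p q : ℕ} [hp' : Fact p.Prime] [hq' : Fact q.Prime] (hpq : p ≠ q) (n : ℕ) :
    ∀ (G : Type u) [Group G] [Finite G], Nat.card G = n → Cfsg.IsPSolvable q G →
    (∀ y : G, (∃ k : ℕ, orderOf y = q ^ k) → ¬ p ∣ (Subgroup.centralizer ({y} : Set G)).index) →
    ∃ (P : Sylow p G) (Q : Sylow q G), (P : Subgroup G) ≤ Subgroup.normalizer ((Q : Subgroup G) : Set G) := by
  induction n using Nat.strong_induction_on with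
  | _ n ih =>
    intro G _ _ hn hs h
    classical
    -- reduction step
    have key : ∀ (N : Subgroup G) [N.Normal], N ≠ ⊥ →
        (∀ Q : Sylow q G, ¬ p ∣ (Subgroup.centralizer ((Q : Subgroup G) : Set G)).relIndex N) →
        ∃ (P : Sylow p G) (Q : Sylow q G), (P : Subgroup G) ≤ Subgroup.normalizer ((Q : Subgroup G) : Set G) := by
      intro N _ hN1 hc
      have hlt : Nat.card (G ⧸ N) < n := by
        rw [← hn]
        have h1 : Nat.card G = Nat.card N * Nat.card (G ⧸ N) := by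
          rw [mul_comm]; exact Subgroup.card_eq_card_quotient_mul_card_subgroup N
        have h2 : 1 < Nat.card N := by
          rw [Finite.one_lt_card_iff_nontrivial]
          exact (Subgroup.nontrivial_iff_ne_bot N).mpr hN1
        have h3 : 0 < Nat.card (G ⧸ N) := Nat.card_pos
        nlinarith
      have hf : Function.Surjective (QuotientGroup.mk' N) := QuotientGroup.mk'_surjective N
      obtain ⟨Pb, Qb, hPb⟩ := ih _ hlt (G ⧸ N) rfl
        (Cfsg.Agent.H03.isPSolvable_of_surjective hf hs) (hyp_quot N h)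
      obtain ⟨P, rfl⟩ := Sylow.mapSurjective_surjective hf p Pb
      obtain ⟨Q, rfl⟩ := Sylow.mapSurjective_surjective hf q Qb
      obtain ⟨Q', hQ'⟩ := lemA N Q (P : Subgroup G) P.2 (fun x hx => by
        apply hPQ_of_quot
        rw [Sylow.coe_mapSurjective, Sylow.coe_mapSurjective] at hPb
        exact hPb ⟨x, hx, rfl⟩) (hc Q)
      exact ⟨P, Q', hQ'⟩
    by_cases hT : Cfsg.pCore q G = ⊥
    · by_cases hN : Cfsg.pPrimeCore q G = ⊥
      · -- trivial group
        have h1 := Cfsg.Agent.H03.centralizer_pCore_le_of_isPSolvable hs hN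
        rw [hT] at h1
        have h2 : ∀ x : G, x = 1 := by
          intro x
          have : x ∈ Subgroup.centralizer ((⊥ : Subgroup G) : Set G) := by
            rw [Subgroup.mem_centralizer_iff]
            intro h hh
            have : h = 1 := hh
            simp [this]
          exact h1 this
        obtain ⟨P⟩ : Nonempty (Sylow p G) := inferInstance
        obtain ⟨Q⟩ : Nonempty (Sylow q G) := inferInstance
        refine ⟨P, Q, ?_⟩
        intro x _
        rw [h2 x]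
        exact Subgroup.one_mem _
      · haveI : (Cfsg.pPrimeCore q G).Normal := Cfsg.Agent.H03.pPrimeCore_normal'
        exact key _ hN (hcount_core hpq h)
    · haveI : (Cfsg.pCore q G).Normal := Cfsg.Agent.H01.pCore_normal q
      refine key _ hT (fun Q hd => ?_)
      have h1 := hd.trans (Subgroup.relIndex_dvd_card _ _)
      obtain ⟨a, ha⟩ := IsPGroup.iff_card.mp (Cfsg.Agent.H01.pCore_isPGroup q (G := G))
      rw [ha] at h1
      exact hpq ((Nat.prime_dvd_prime_iff_eq hp'.out hq'.out).mp (hp'.out.dvd_of_dvd_pow h1))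

theorem psolv {G : Type*} [Group G] [Finite G] {p q : ℕ} [hp' : Fact p.Prime] [hq' : Fact q.Prime] (hpq : p ≠ q)
    (hs : Cfsg.IsPSolvable p G)
    (h : ∀ y : G, (∃ k : ℕ, orderOf y = q ^ k) → ¬ p ∣ (Subgroup.centralizer ({y} : Set G)).index) :
    ∃ (P : Sylow p G) (Q : Sylow q G), (P : Subgroup G) ≤ Subgroup.normalizer ((Q : Subgroup G) : Set G) := by
  classical
  set K := Cfsg.pPrimeCore p G with hK
  haveI hKn : K.Normal := Cfsg.Agent.H03.pPrimeCore_normal'
  have hf : Function.Surjective (QuotientGroup.mk' K) := QuotientGroup.mk'_surjective K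
  have hsb : Cfsg.IsPSolvable p (G ⧸ K) := Cfsg.Agent.H03.isPSolvable_of_surjective hf hs
  have hOb : Cfsg.pPrimeCore p (G ⧸ K) = ⊥ := Cfsg.Agent.H08.pPrimeCore_quotient_eq_bot p
  have hC := Cfsg.Agent.H03.centralizer_pCore_le_of_isPSolvable hsb hOb
  have hnot : ¬ q ∣ Nat.card (G ⧸ K) := by
    intro hd
    obtain ⟨yb, hyb⟩ := exists_prime_orderOf_dvd_card' q hd
    obtain ⟨x, rfl, j, hj⟩ := lift_q (k := 1) K yb (by rw [hyb, pow_one])
    obtain ⟨S, hS⟩ := exists_le_centralizer (p := p) x (h x ⟨j, hj⟩)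
    have hle := Cfsg.Agent.H01.pCore_le_sylow p (S.mapSurjective hf)
    rw [Sylow.coe_mapSurjective] at hle
    have hmem : (QuotientGroup.mk' K) x ∈ Cfsg.pCore p (G ⧸ K) := by
      apply hC
      rw [Subgroup.mem_centralizer_iff]
      intro t ht
      obtain ⟨s, hs, rfl⟩ := hle ht
      have := hS hs
      rw [Subgroup.mem_centralizer_singleton_iff] at this
      rw [← map_mul, ← map_mul, this]
    have hp1 := Cfsg.Agent.H01.pCore_isPGroup p (G := G ⧸ K)
    obtain ⟨a, ha⟩ := hp1 ⟨_, hmem⟩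
    have h3 : ((QuotientGroup.mk' K) x) ^ p ^ a = 1 := by
      have := congrArg Subtype.val ha
      simpa using this
    have h4 := orderOf_dvd_of_pow_eq_one h3
    rw [hyb] at h4
    exact hpq ((Nat.prime_dvd_prime_iff_eq hq'.out hp'.out).mp (hq'.out.dvd_of_dvd_pow h4)).symm
  obtain ⟨P⟩ : Nonempty (Sylow p G) := inferInstance
  obtain ⟨Q⟩ : Nonempty (Sylow q G) := inferInstance
  have hQK : ∀ t : Subgroup G, IsPGroup q t → t ≤ K := by
    intro t ht x hx
    obtain ⟨a, ha⟩ := ht ⟨x, hx⟩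
    have h3 : x ^ q ^ a = 1 := by
      have := congrArg Subtype.val ha
      simpa using this
    have h4 : ((QuotientGroup.mk' K) x) ^ q ^ a = 1 := by rw [← map_pow, h3, map_one]
    have h5 := orderOf_dvd_of_pow_eq_one h4
    have h6 : orderOf ((QuotientGroup.mk' K) x) ∣ Nat.card (G ⧸ K) := orderOf_dvd_natCard _
    have h7 : Nat.Coprime (q ^ a) (Nat.card (G ⧸ K)) :=
      Nat.Coprime.pow_left a ((Nat.Prime.coprime_iff_not_dvd hq'.out).mpr hnot)
    have h8 : orderOf ((QuotientGroup.mk' K) x) = 1 := Nat.eq_one_of_dvd_coprimes h7 h5 h6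
    rw [orderOf_eq_one_iff] at h8
    rw [← QuotientGroup.ker_mk' K, MonoidHom.mem_ker]
    exact h8
  obtain ⟨Q', hQ'⟩ := lemA K Q (P : Subgroup G) P.2 (fun x hx => by
      refine le_trans (hQK _ ?_) le_sup_right
      have := ((x • Q : Sylow q G)).2
      rwa [Sylow.coe_subgroup_smul] at this) (by
      intro hd
      have h1 := hd.trans (Subgroup.relIndex_dvd_card _ _)
      have h2 : (Nat.card K).Coprime p := Cfsg.Agent.H06.coprime_card_pPrimeCore p
      exact (Nat.Prime.coprime_iff_not_dvd hp'.out).mp h2.symm h1)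
  exact ⟨P, Q', hQ'⟩

/-- Let p and q be primes and G a finite group that is p-solvable or q-solvable, in which no q-element has conjugacy class size divisible by p. Then some Sylow p-subgroup of G normalizes some Sylow q-subgroup of G. -/
theorem result {G : Type*} [Group G] [Finite G] (p q : ℕ) [Fact p.Prime] [Fact q.Prime] (hsolv : Cfsg.IsPSolvable p G ∨ Cfsg.IsPSolvable q G)
    (h : ∀ y : G, (∃ k : ℕ, orderOf y = q ^ k) → ¬ p ∣ (Subgroup.centralizer ({y} : Set G)).index) :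
    ∃ (P : Sylow p G) (Q : Sylow q G), (P : Subgroup G) ≤ Subgroup.normalizer ((Q : Subgroup G) : Set G) := by

  by_cases hpq : p = q
  · subst hpq
    obtain ⟨P⟩ : Nonempty (Sylow p G) := inferInstance
    exact ⟨P, P, Subgroup.le_normalizer⟩
  · rcases hsolv with hs | hs
    · exact psolv hpq hs h
    · exact qsolv hpq _ G rfl hs h


end Cfsg.Agent.S4601
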