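import Cfsg.Statements.S4602
import Cfsg.Agent.Lib.H01.Coprime3
import Cfsg.Agent.Lib.H01.Fitting
import Cfsg.Agent.Lib.H03.PSolv
import Cfsg.Agent.Lib.H03.PConstr
import Cfsg.Agent.Lib.H06.FittingHall
import Cfsg.Agent.Lib.H08.PCoreL
import Cfsg.Agent.Lib.H08.HallHigman
-- import your own Cfsg.Agent.* helpers here

set_option autoImplicit false
open Cfsg

namespace Cfsg.Agent.S4602

/-- Let G be a finite p-solvable group and q a prime different from p. Some Sylow p-subgroup of G normalizes some Sylow q-subgroup of G if and only if q does not divide the order of G/O_{p'}(G), the quotient by the largest normal subgroup of order prime to p. -/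
theorem result {G : Type*} [Group G] [Finite G] (p q : ℕ) [Fact p.Prime] [Fact q.Prime] (hpq : p ≠ q) (hsolv : Cfsg.IsPSolvable p G) :
    (∃ (P : Sylow p G) (Q : Sylow q G), (P : Subgroup G) ≤ Subgroup.normalizer ((Q : Subgroup G) : Set G)) ↔ ¬ q ∣ (Cfsg.pPrimeCore p G).index := by
  classical
have hKn : (Cfsg.pPrimeCore p G).Normal := Cfsg.Agent.H03.pPrimeCore_normal'
have hKc : (Nat.card ↥(Cfsg.pPrimeCore p G)).Coprime p := Cfsg.Agent.H06.coprime_card_pPrimeCore p
set K := Cfsg.pPrimeCore p G with hK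
constructor
· rintro ⟨P, Q, hPQ⟩ hq
  let π : G →* G ⧸ K := QuotientGroup.mk' K
  have hπ : Function.Surjective π := QuotientGroup.mk'_surjective K
  have hsolv' : Cfsg.IsPSolvable p (G ⧸ K) := Cfsg.Agent.H03.isPSolvable_of_surjective hπ hsolv
  have hbot : Cfsg.pPrimeCore p (G ⧸ K) = ⊥ := Cfsg.Agent.H08.pPrimeCore_quotient_eq_bot p
  have hHH := Cfsg.Agent.H08.hall_higman hsolv' hbot
  set R := Cfsg.pCore p (G ⧸ K) with hR
  have hRn : R.Normal := Cfsg.Agent.H01.pCore_normal p
  have hRp : IsPGroup p R := Cfsg.Agent.H01.pCore_isPGroup p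
  have hRP : R ≤ (P.mapSurjective hπ : Subgroup (G ⧸ K)) := Cfsg.Agent.H01.pCore_le_sylow p _
  have hRP' : R ≤ (P : Subgroup G).map π := by
    simpa [Sylow.coe_mapSurjective] using hRP
  have hQp : IsPGroup q ((Q : Subgroup G).map π) := Q.isPGroup'.map π
  have hdis : Disjoint R ((Q : Subgroup G).map π) :=
    IsPGroup.disjoint_of_ne p q hpq _ _ hRp hQp
  have hcen : (Q : Subgroup G).map π ≤ Subgroup.centralizer (R : Set (G ⧸ K)) := by
    intro x hx
    rw [Subgroup.mem_centralizer_iff]
    intro r hr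
    have h1 : r * x * r⁻¹ * x⁻¹ ∈ R := by
      have : r * (x * r⁻¹ * x⁻¹) ∈ R := R.mul_mem hr (hRn.conj_mem _ (R.inv_mem hr) x)
      simpa [mul_assoc] using this
    have h2 : r * x * r⁻¹ * x⁻¹ ∈ (Q : Subgroup G).map π := by
      obtain ⟨g, hg, rfl⟩ := hRP' hr
      obtain ⟨y, hy, rfl⟩ := hx
      refine ⟨g * y * g⁻¹ * y⁻¹, ?_, by simp⟩
      refine Subgroup.mul_mem _ ?_ (Subgroup.inv_mem _ hy)
      exact (Subgroup.mem_normalizer_iff.1 (hPQ hg) y).1 hy
    have h3 : r * x * r⁻¹ * x⁻¹ = 1 := by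
      have := Subgroup.disjoint_def.1 hdis h1 h2
      exact this
    have h4 : r * x * r⁻¹ = x := by
      have := mul_eq_one_iff_eq_inv.1 h3
      simpa using this
    calc r * x = r * x * r⁻¹ * r := by group
      _ = x * r := by rw [h4]
  have hQK : (Q : Subgroup G).map π = ⊥ := by
    rw [eq_bot_iff]
    intro x hx
    have hxR : x ∈ R := hHH (hcen hx)
    exact Subgroup.disjoint_def.1 hdis hxR hx
  have hQle : (Q : Subgroup G) ≤ K := by
    intro g hg
    have : π g ∈ (Q : Subgroup G).map π := ⟨g, hg, rfl⟩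
    rw [hQK, Subgroup.mem_bot] at this
    simpa [π] using this
  have hidx : (Q : Subgroup G).index = (Q : Subgroup G).relIndex K * K.index :=
    (Subgroup.relIndex_mul_index hQle).symm
  have hnd := Q.not_dvd_index
  exact hnd (hidx ▸ Dvd.dvd.mul_left hq _)
· intro hq
  obtain ⟨P⟩ : Nonempty (Sylow p G) := inferInstance
  have hPK : (P : Subgroup G) ≤ Subgroup.normalizer (K : Set G) := by
    rw [Subgroup.normalizer_eq_top_iff.2 hKn]; exact le_top
  have hcop : (Nat.card (P : Subgroup G)).Coprime (Nat.card K) := by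
    obtain ⟨n, hn⟩ := IsPGroup.iff_card.1 P.isPGroup'
    rw [hn]
    exact Nat.Coprime.pow_left _ hKc.symm
  have hPsolv : Group.IsSolvable (P : Subgroup G) ∨ Group.IsSolvable K := by
    left
    haveI := P.isPGroup'.isNilpotent
    infer_instance
  obtain ⟨R, hR⟩ := Cfsg.Agent.H01.exists_invariant_sylow hPK hcop hPsolv q
  have hcardK : Nat.card K * K.index = Nat.card G := K.card_mul_index
  have hKpos : Nat.card K ≠ 0 := Nat.card_pos.ne'
  have hidxpos : K.index ≠ 0 := Subgroup.index_ne_zero_of_finite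
  have hfac : (Nat.card G).factorization q = (Nat.card K).factorization q := by
    rw [← hcardK, Nat.factorization_mul hKpos hidxpos]
    simp [Nat.factorization_eq_zero_of_not_dvd hq]
  have hcardR : Nat.card ((R : Subgroup K).map K.subtype) = q ^ (Nat.card G).factorization q := by
    rw [Nat.card_congr (Subgroup.equivMapOfInjective (R : Subgroup K) K.subtype K.subtype_injective).symm.toEquiv]
    rw [hfac]
    exact Sylow.card_eq_multiplicity R
  let Q₀ : Sylow q G := Sylow.ofCard ((R : Subgroup K).map K.subtype) hcardR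
  refine ⟨P, Q₀, ?_⟩
  have : ((Q₀ : Subgroup G)) = (R : Subgroup K).map K.subtype := Sylow.coe_ofCard _ _
  rw [this]
  exact hR

end Cfsg.Agent.S4602
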