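import Cfsg.Statements.S4604
import Cfsg.Agent.Lib.H21.PowCongr

set_option autoImplicit false
open Cfsg

namespace Cfsg.Agent.S4604

/-- Let G be a finite group, p a prime and p^a the p-part of the order of G. Let x, y ∈ G and let x′, y′ be their p-regular parts: x′ has order prime to p, commutes with x·x′⁻¹, and x·x′⁻¹ has p-power order (likewise for y). Then x′ and y′ are conjugate in G if and only if for every irreducible character χ of G the algebraic integer χ(x)^(p^a) − χ(y)^(p^a) is p times an algebraic integer. -/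
theorem result {G : Type*} [Group G] [Finite G] (p : ℕ) [Fact p.Prime] (x y x' y' : G)
    (hx : (∃ k : ℕ, orderOf (x * x'⁻¹) = p ^ k) ∧ Commute (x * x'⁻¹) x' ∧ ¬ p ∣ orderOf x')
    (hy : (∃ k : ℕ, orderOf (y * y'⁻¹) = p ^ k) ∧ Commute (y * y'⁻¹) y' ∧ ¬ p ∣ orderOf y') :
    IsConj x' y' ↔ ∀ χ : Cfsg.IrrCharacter G, ∃ γ : Cfsg.AlgInt,
      (χ : G → ℂ) x ^ (p ^ (Nat.card G).factorization p) - (χ : G → ℂ) y ^ (p ^ (Nat.card G).factorization p) = (p : ℂ) * (γ : ℂ) := by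
  classical
  have hpp : p.Prime := Fact.out
  set e := (Nat.card G).factorization p with he
  have hN0 : Nat.card G ≠ 0 := Nat.card_pos.ne'
  have hfrob : ∀ a a' : G, (∃ k : ℕ, orderOf (a * a'⁻¹) = p ^ k) → Commute (a * a'⁻¹) a' →
      a ^ (p ^ e) = a' ^ (p ^ e) := by
    rintro a a' ⟨k, hk⟩ hc
    have h1 : (a * a'⁻¹) ^ (p ^ e) = 1 := by
      apply orderOf_dvd_iff_pow_eq_one.1
      rw [hk]
      apply pow_dvd_pow
      exact (Nat.Prime.pow_dvd_iff_le_factorization hpp hN0).1 (hk ▸ orderOf_dvd_natCard _)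
    have h2 : a = (a * a'⁻¹) * a' := by group
    conv_lhs => rw [h2, hc.mul_pow, h1, one_mul]
  have hx1 := hfrob x x' hx.1 hx.2.1
  have hy1 := hfrob y y' hy.1 hy.2.1
  constructor
  · intro hconj χ
    have hχ := H21.isCharacter_of_irr χ.2
    obtain ⟨γ1, h1⟩ := H21.character_pow_congr hχ x hpp e
    obtain ⟨γ2, h2⟩ := H21.character_pow_congr hχ y hpp e
    have h3 : (χ : G → ℂ) (x ^ p ^ e) = (χ : G → ℂ) (y ^ p ^ e) := by
      rw [hx1, hy1]
      obtain ⟨c, hc⟩ := isConj_iff.1 (hconj.pow (p ^ e))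
      rw [← hc, H21.isCharacter_conj hχ]
    refine ⟨γ1 - γ2, ?_⟩
    have hsub : ((γ1 - γ2 : Cfsg.AlgInt) : ℂ) = (γ1 : ℂ) - (γ2 : ℂ) := rfl
    rw [hsub, mul_sub, ← h1, ← h2, h3]
    ring
  · intro h
    have hu : ¬ p ∣ orderOf (x' ^ p ^ e) := fun hd => hx.2.2 (hd.trans (orderOf_pow_dvd _))
    have hv : ¬ p ∣ orderOf (y' ^ p ^ e) := fun hd => hy.2.2 (hd.trans (orderOf_pow_dvd _))
    have huv : IsConj (x' ^ p ^ e) (y' ^ p ^ e) := by
      apply H21.isConj_of_congr p _ _ hu hv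
      intro χ
      have hχ := H21.isCharacter_of_irr χ.2
      obtain ⟨γ1, h1⟩ := H21.character_pow_congr hχ x hpp e
      obtain ⟨γ2, h2⟩ := H21.character_pow_congr hχ y hpp e
      obtain ⟨γ, h3⟩ := h χ
      refine ⟨γ - γ1 + γ2, ?_⟩
      have hsub : ((γ - γ1 + γ2 : Cfsg.AlgInt) : ℂ) = (γ : ℂ) - (γ1 : ℂ) + (γ2 : ℂ) := rfl
      rw [hsub, mul_add, mul_sub, ← h1, ← h2, ← h3, hx1, hy1]
      ring
    -- recover x', y'
    set N' := ordCompl[p] (Nat.card G) with hN'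
    have hN'pos : 0 < N' := Nat.ordCompl_pos p hN0
    have hNeq : p ^ e * N' = Nat.card G := Nat.ordProj_mul_ordCompl_eq_self _ _
    have hcop : Nat.Coprime (p ^ e) N' :=
      Nat.Coprime.pow_left _ (Nat.coprime_ordCompl hpp hN0)
    have hdvd : ∀ z : G, ¬ p ∣ orderOf z → orderOf z ∣ N' := by
      intro z hz
      have h1 : orderOf z ∣ p ^ e * N' := hNeq ▸ orderOf_dvd_natCard z
      have h2 : Nat.Coprime (orderOf z) (p ^ e) :=
        Nat.Coprime.pow_right _ ((Nat.Prime.coprime_iff_not_dvd hpp).2 hz).symm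
      exact h2.dvd_of_dvd_mul_left h1
    have hmod : (p ^ e) ^ N'.totient ≡ 1 [MOD N'] := Nat.ModEq.pow_totient hcop
    have hback : ∀ z : G, ¬ p ∣ orderOf z → (z ^ p ^ e) ^ (p ^ e) ^ (N'.totient - 1) = z := by
      intro z hz
      rw [← pow_mul, ← pow_succ', Nat.sub_add_cancel (Nat.totient_pos.2 hN'pos)]
      have := (pow_eq_pow_iff_modEq (x := z) (n := (p ^ e) ^ N'.totient) (m := 1)).2
        (hmod.of_dvd (hdvd z hz))
      rwa [pow_one] at this
    have := huv.pow ((p ^ e) ^ (N'.totient - 1))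
    rwa [hback x' hx.2.2, hback y' hy.2.2] at this

end Cfsg.Agent.S4604
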