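import Cfsg.Statements.S4611
import Cfsg.Agent.Lib.H21.BlockBasics
import Cfsg.Agent.Lib.H08.PCoreL
import Cfsg.Agent.Lib.H05.PComp3
import Cfsg.Agent.Lib.H01.Solv2
import Cfsg.Agent.Lib.H21.SelfCent

set_option autoImplicit false
open Cfsg

namespace Cfsg.Agent.S4611

/-- Let G be a finite solvable group and π a nonempty set of primes, each dividing the order of G; fix for each p in π a maximal ideal M p of the algebraic integers containing p. Then the only irreducible character lying in the principal p-block for every p in π is the principal character if and only if G is generated by the subgroups O_{p'}(G), p in π (the largest normal subgroups of order prime to p). -/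
theorem result {G : Type*} [Group G] [Finite G] [Group.IsSolvable G] (π : Set ℕ) (hπ : ∀ p ∈ π, p.Prime ∧ p ∣ Nat.card G) (hne : π.Nonempty) (M : ℕ → Ideal Cfsg.AlgInt) (hM : ∀ p ∈ π, Cfsg.IsPModular p (M p)) :
    (∀ χ : Cfsg.IrrCharacter G, (∀ p ∈ π, χ ∈ Cfsg.principalBlock (M p) G) → (χ : G → ℂ) = fun _ => 1) ↔
      ⨆ p ∈ π, Cfsg.pPrimeCore p G = ⊤ := by
  classical
  haveI := Fintype.ofFinite G
  haveI := Fintype.ofFinite (Cfsg.IrrCharacter G)
  have hnormal : ∀ p, (Cfsg.pPrimeCore p G).Normal := fun p => H21.pPrimeCore_isNormal p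
  constructor
  · intro h
    set N : Subgroup G := ⨆ p ∈ π, Cfsg.pPrimeCore p G with hN
    haveI hNn : N.Normal := Subgroup.biSup_normal π _ (fun p _ => hnormal p)
    have htriv : ∀ χ' : Cfsg.IrrCharacter (G ⧸ N), χ'.1 = fun _ => 1 := by
      intro χ'
      let χ : Cfsg.IrrCharacter G := ⟨χ'.1 ∘ QuotientGroup.mk' N, H21.isIrr_inflate N χ'.2⟩
      have hχ1 : χ.1 = fun _ => 1 := h χ (by
        intro p hp
        obtain ⟨hpp, _⟩ := hπ p hp
        haveI : Fact p.Prime := ⟨hpp⟩
        haveI : (M p).IsPrime := (hM p hp).2.1.isPrime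
        set L := Cfsg.pPrimeCore p G with hL
        haveI : L.Normal := hnormal p
        have hLN : L ≤ N := le_iSup₂_of_le p hp le_rfl
        have hker : ∀ n ∈ L, χ.1 n = χ.1 1 := by
          intro n hn
          show χ'.1 (QuotientGroup.mk' N n) = χ'.1 (QuotientGroup.mk' N 1)
          have h1 : QuotientGroup.mk' N n = 1 := (QuotientGroup.eq_one_iff n).2 (hLN hn)
          rw [h1, map_one]
        obtain ⟨χ'', hχ'', hc⟩ := H21.exists_descend L χ.2 hker
        have hbot : Cfsg.pPrimeCore p (G ⧸ L) = ⊥ := H08.pPrimeCore_quotient_eq_bot p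
        have hF := H05.fitting_eq_pCore_of_pp_bot hbot
        have hC := H01.centralizer_fitting_le (G := G ⧸ L)
        rw [hF] at hC
        haveI := H01.pCore_normal (G := G ⧸ L) p
        haveI := Fintype.ofFinite (G ⧸ L)
        have hs : Cfsg.SameBlock (M p) (H22.oneIrr (G ⧸ L)).1 χ'' :=
          H21.sameBlock_of_centralizer_le (hM p hp) (Cfsg.pCore p (G ⧸ L)) (H01.pCore_isPGroup p) hC
            (H22.oneIrr (G ⧸ L)) ⟨χ'', hχ''⟩
        have := H21.sameBlock_inflate L hs
        rw [hc] at this
        exact this)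
      funext z
      obtain ⟨g, rfl⟩ := QuotientGroup.mk'_surjective N z
      exact congrFun hχ1 g
    rw [eq_top_iff]
    intro g _
    haveI := Fintype.ofFinite (G ⧸ N)
    haveI := Fintype.ofFinite (Cfsg.IrrCharacter (G ⧸ N))
    have hconj : IsConj (g : G ⧸ N) 1 := H22.isConj_of_forall_irr_eq (fun χ => by rw [htriv χ])
    have h1 : (g : G ⧸ N) = 1 := isConj_one_right.1 hconj.symm
    exact (QuotientGroup.eq_one_iff g).1 h1
  · intro h χ hχ
    have hχc : IsCharacter G χ.1 := H21.isCharacter_of_irr χ.2
    have hle : (⨆ p ∈ π, Cfsg.pPrimeCore p G) ≤ H21.charKer χ.1 hχc := by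
      refine iSup₂_le fun p hp => ?_
      intro n hn
      haveI := hnormal p
      exact H21.principal_trivial_on_normal (hM p hp) _ (H21.card_pPrimeCore_coprime p) χ (hχ p hp) n hn
    rw [h] at hle
    have hall : ∀ g, χ.1 g = χ.1 1 := fun g => hle (Subgroup.mem_top g)
    have hinner : Cfsg.classInner χ.1 (H22.oneIrr G).1 ≠ 0 := by
      have h1 : Cfsg.classInner χ.1 (H22.oneIrr G).1 = χ.1 1 := by
        unfold Cfsg.classInner
        have h2 : ∀ g : G, χ.1 g * (starRingEnd ℂ) ((H22.oneIrr G).1 g) = χ.1 1 := by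
          intro g
          rw [hall g]
          simp [H22.oneIrr]
        simp only [h2]
        rw [Finset.sum_const, Finset.card_univ, ← Nat.card_eq_fintype_card, nsmul_eq_mul]
        have hne : (Nat.card G : ℂ) ≠ 0 := by simp [Nat.card_pos.ne']
        field_simp
      rw [h1]
      exact H22.irr_one_ne_zero' χ
    have h3 := H21.classInner_irr χ (H22.oneIrr G)
    split_ifs at h3 with h4
    · rw [h4]; rfl
    · exact absurd h3 hinner

end Cfsg.Agent.S4611
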