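import Cfsg.Statements.S4619
import Mathlib

set_option autoImplicit false
open scoped Pointwise
open Cfsg

namespace Cfsg.Agent.S4619

/-- Let P be a Sylow p-subgroup of the finite group G that is a trivial-intersection set: P meets each conjugate g P g⁻¹ with g outside N_G(P) trivially. Then for every nontrivial subgroup Q of P the normalizer of Q lies in the normalizer of P, and any g ∈ G conjugating Q into P lies in N_G(P). -/
theorem result {G : Type*} [Group G] [Finite G] (p : ℕ) [Fact p.Prime] (P : Sylow p G) (hTI : (∀ g : G, g ∉ Subgroup.normalizer ((P : Subgroup G) : Set G) → (P : Subgroup G) ⊓ (MulAut.conj g • (P : Subgroup G)) = ⊥)) (Q : Subgroup G) (hQ : Q ≤ (P : Subgroup G)) (hQ1 : Q ≠ ⊥) :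
    Subgroup.normalizer (Q : Set G) ≤ Subgroup.normalizer ((P : Subgroup G) : Set G) ∧
      ∀ g : G, MulAut.conj g • Q ≤ (P : Subgroup G) → g ∈ Subgroup.normalizer ((P : Subgroup G) : Set G) := by
  have key : ∀ g : G, MulAut.conj g • Q ≤ (P : Subgroup G) →
      g ∈ Subgroup.normalizer ((P : Subgroup G) : Set G) := by
    intro g hg
    by_contra hn
    have hb := hTI g hn
    obtain ⟨y, hy, hy1⟩ := (Subgroup.bot_or_exists_ne_one Q).resolve_left hQ1
    have h1 : MulAut.conj g • y ∈ MulAut.conj g • Q := Subgroup.smul_mem_pointwise_smul _ _ _ hy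
    have h2 : MulAut.conj g • y ∈ MulAut.conj g • (P : Subgroup G) :=
      Subgroup.smul_mem_pointwise_smul _ _ _ (hQ hy)
    have h3 : MulAut.conj g • y ∈ (P : Subgroup G) ⊓ (MulAut.conj g • (P : Subgroup G)) :=
      ⟨hg h1, h2⟩
    rw [hb, Subgroup.mem_bot] at h3
    apply hy1
    simpa [MulAut.smul_def] using h3
  refine ⟨?_, key⟩
  intro g hg
  apply key
  rintro _ ⟨y, hy, rfl⟩
  apply hQ
  exact (Subgroup.mem_normalizer_iff.1 hg y).1 hy

end Cfsg.Agent.S4619
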