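import Cfsg.Statements.S4743
import Cfsg.Agent.Lib.H22.TwoPrime

set_option autoImplicit false
set_option linter.style.haveILetI false
set_option linter.unusedSectionVars false

open Cfsg

namespace Cfsg.Agent.S4743

open Cfsg.Agent.H21 Cfsg.Agent.H22
open scoped ComplexConjugate

theorem result {G : Type*} [Group G] [Finite G] (p q : ℕ) [Fact p.Prime] [Fact q.Prime] (hppq : p ≠ q) (hpG : p ∣ Nat.card G) (hqG : q ∣ Nat.card G) (hC : ∀ g : G, g ≠ 1 → (∃ k : ℕ, orderOf g = p ^ k) → ¬ q ∣ Nat.card ↥(Subgroup.centralizer ({g} : Set G))) (hsolv : Cfsg.IsPSolvable p G ∨ Cfsg.IsPSolvable q G) : (∃ χ : Cfsg.IrrCharacter G, (Cfsg.charDegree (χ : G → ℂ)).factorization p = (Nat.card G).factorization p) ∨ (∃ χ : Cfsg.IrrCharacter G, (Cfsg.charDegree (χ : G → ℂ)).factorization q = (Nat.card G).factorization q) := by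
  classical
  have hC' : ∀ g : G, g ≠ 1 → (∃ k : ℕ, orderOf g = q ^ k) →
      ¬ p ∣ Nat.card ↥(Subgroup.centralizer ({g} : Set G)) :=
    fun g hg hk => not_dvd_card_centralizer_swap (Fact.out) (Fact.out) hC g hg hk
  have hfin : ∀ (N : Subgroup G), N.Normal → (p ∣ Nat.card N ∧ ¬ q ∣ Nat.card N) ∨
      (q ∣ Nat.card N ∧ ¬ p ∣ Nat.card N) → (∃ χ : Cfsg.IrrCharacter G, (Cfsg.charDegree (χ : G → ℂ)).factorization p = (Nat.card G).factorization p) ∨ (∃ χ : Cfsg.IrrCharacter G, (Cfsg.charDegree (χ : G → ℂ)).factorization q = (Nat.card G).factorization q) := by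
    intro N hN h
    rcases h with ⟨h1, h2⟩ | ⟨h1, h2⟩
    · exact Or.inr (defect_zero_of_normal (Fact.out) (Fact.out) hC N h1 h2)
    · exact Or.inl (defect_zero_of_normal (Fact.out) (Fact.out) hC' N h1 h2)
  rcases hsolv with h | h
  · obtain ⟨N, hN, hh⟩ := exists_normal_of_solvable (Fact.out) (Fact.out) hppq hpG hqG h
    exact hfin N hN hh
  · obtain ⟨N, hN, hh⟩ := exists_normal_of_solvable (Fact.out) (Fact.out) hppq.symm hqG hpG h
    exact hfin N hN hh.symm

end Cfsg.Agent.S4743
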