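import Cfsg.Statements.S4744
import Cfsg.Agent.Lib.H22.TwoPrime

set_option autoImplicit false
set_option linter.style.haveILetI false
set_option linter.unusedSectionVars false

open Cfsg

namespace Cfsg.Agent.S4744

open Cfsg.Agent.H21 Cfsg.Agent.H22
open scoped ComplexConjugate

theorem result {G : Type*} [Group G] [Finite G] (p : ℕ) [Fact p.Prime] (hp2 : p ≠ 2) (hpG : p ∣ Nat.card G) (h2G : 2 ∣ Nat.card G) (hC : ∀ g : G, g ≠ 1 → (∃ k : ℕ, orderOf g = p ^ k) → Odd (Nat.card ↥(Subgroup.centralizer ({g} : Set G)))) : (∃ χ : Cfsg.IrrCharacter G, (Cfsg.charDegree (χ : G → ℂ)).factorization p = (Nat.card G).factorization p) ∨ ∀ P : Sylow p G, Even (Nat.card ↥(Subgroup.normalizer ((P : Subgroup G) : Set G))) ∧ IsMulCommutative ↥(P : Subgroup G) := by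
  classical
  by_cases h : ∃ χ : Cfsg.IrrCharacter G, (Cfsg.charDegree (χ : G → ℂ)).factorization p = (Nat.card G).factorization p
  · exact Or.inl h
  · right
    intro P
    obtain ⟨g, y, hg, hy1, hy, hgy⟩ := exists_inverted_of_no_defect h2G hC h
    obtain ⟨j, hj, hji⟩ := exists_inverting_sylow hC hg hy1 hy hgy P
    constructor
    · have hmem : j ∈ Subgroup.normalizer ((P : Subgroup G) : Set G) := by
        rw [Subgroup.mem_normalizer_iff]
        intro x
        constructor
        · intro hx
          rw [hji x hx]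
          exact (P : Subgroup G).inv_mem hx
        · intro hx
          have h1 := hji _ hx
          have h2 : j * (j * x * j⁻¹) * j⁻¹ = x := by
            calc j * (j * x * j⁻¹) * j⁻¹ = (j * j) * x * (j * j)⁻¹ := by group
              _ = x := by rw [involution_mul_self hj]; group
          rw [h2] at h1
          rw [h1]
          exact (P : Subgroup G).inv_mem hx
      have h2 := Subgroup.orderOf_dvd_natCard _ hmem
      rw [hj] at h2
      exact even_iff_two_dvd.2 h2
    · refine ⟨⟨fun a b => ?_⟩⟩
      apply Subtype.ext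
      have h1 := hji _ ((P : Subgroup G).mul_mem a.2 b.2)
      have h2 := hji _ a.2
      have h3 := hji _ b.2
      have h4 : j * ((a : G) * b) * j⁻¹ = (j * a * j⁻¹) * (j * b * j⁻¹) := by group
      rw [h4, h2, h3, mul_inv_rev] at h1
      have h5 : (a : G) * b = ((b : G)⁻¹ * (a : G)⁻¹)⁻¹ := by group
      have h6 : (b : G) * a = ((a : G)⁻¹ * (b : G)⁻¹)⁻¹ := by group
      show (a : G) * b = b * a
      rw [h5, h6, h1]

end Cfsg.Agent.S4744
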