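import Cfsg.Statements.S4754
import Cfsg.Agent.Lib.H22.Ord

set_option autoImplicit false
open Cfsg

namespace Cfsg.Agent.S4754

open Cfsg.Agent.H21 Cfsg.Agent.H22 in
/-- For elements x, y of a finite group G, the conjugacy class of x y equals the set of all products of a conjugate of x with a conjugate of y if and only if χ(1) χ(a x a⁻¹ b y b⁻¹) = χ(x) χ(y) for all a, b ∈ G and every irreducible character χ. -/
theorem result {G : Type*} [Group G] [Finite G] (x y : G) : (∀ z : G, IsConj (x * y) z ↔ ∃ a b : G, z = a * x * a⁻¹ * (b * y * b⁻¹)) ↔ ∀ (a b : G) (χ : Cfsg.IrrCharacter G), (χ : G → ℂ) 1 * (χ : G → ℂ) (a * x * a⁻¹ * (b * y * b⁻¹)) = (χ : G → ℂ) x * (χ : G → ℂ) y := by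
  classical
  have : Fintype G := Fintype.ofFinite G
  have : Fintype (IrrCharacter G) := Fintype.ofFinite _
  constructor
  · intro h a b χ
    have hcl : ∀ (a b : G), χ.1 (a * x * a⁻¹ * (b * y * b⁻¹)) = χ.1 (x * y) := by
      intro a b
      obtain ⟨c, hc⟩ := isConj_iff.mp ((h _).mpr ⟨a, b, rfl⟩)
      rw [← hc, irr_conj']
    have h1 := sum_conj_mul_char χ y x
    have h2 : ∀ b : G, χ.1 (b * y * b⁻¹ * x) = χ.1 (x * y) := by
      intro b
      rw [irr_mul_comm, ← hcl 1 b]
      simp
    simp only [h2, Finset.sum_const, Finset.card_univ, nsmul_eq_mul, ← Nat.card_eq_fintype_card] at h1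
    have h0 := card_ne_zero_C (G := G)
    have h3 := irr_one_ne_zero' χ
    rw [hcl]
    field_simp at h1
    linear_combination h1
  · intro h z
    constructor
    · intro hz
      obtain ⟨c, rfl⟩ := isConj_iff.mp hz
      exact ⟨c, c, by group⟩
    · rintro ⟨a, b, rfl⟩
      apply isConj_of_forall_irr_eq
      intro χ
      have h1 := h a b χ
      have h2 := h 1 1 χ
      simp only [one_mul, inv_one, mul_one] at h2
      exact mul_left_cancel₀ (irr_one_ne_zero' χ) (h2.trans h1.symm)

end Cfsg.Agent.S4754
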