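import Cfsg.Statements.S4755
import Cfsg.Agent.Lib.H22.Ord

set_option autoImplicit false
open Cfsg

namespace Cfsg.Agent.S4755

open Cfsg.Agent.H21 Cfsg.Agent.H22 in
open scoped ComplexConjugate in
/-- If the irreducible characters are multiplicative on products of conjugates of x and y, then the class of x y is the set of these products, nonlinear characters vanish at x y, and the class of x y is the coset of the commutator subgroup. -/
theorem result {G : Type*} [Group G] [Finite G] (x y : G) (hx : x ≠ 1) (hy : y ≠ 1) (h : ∀ (a b : G) (χ : Cfsg.IrrCharacter G), (χ : G → ℂ) (a * x * a⁻¹ * (b * y * b⁻¹)) = (χ : G → ℂ) (a * x * a⁻¹) * (χ : G → ℂ) (b * y * b⁻¹)) : (∀ z : G, IsConj (x * y) z ↔ ∃ a b : G, z = a * x * a⁻¹ * (b * y * b⁻¹)) ∧ (∀ χ : Cfsg.IrrCharacter G, (χ : G → ℂ) 1 ≠ 1 → (χ : G → ℂ) (x * y) = 0) ∧ (∀ z : G, IsConj (x * y) z ↔ (x * y)⁻¹ * z ∈ commutator G) := by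
  classical
  have : Fintype G := Fintype.ofFinite G
  have : Fintype (IrrCharacter G) := Fintype.ofFinite _
  have hval : ∀ (a b : G) (χ : IrrCharacter G), χ.1 (a * x * a⁻¹ * (b * y * b⁻¹)) = χ.1 x * χ.1 y := by
    intro a b χ
    rw [h, irr_conj', irr_conj']
  have hxy : ∀ χ : IrrCharacter G, χ.1 (x * y) = χ.1 x * χ.1 y := by
    intro χ
    have := hval 1 1 χ
    simpa using this
  have h2 : ∀ χ : IrrCharacter G, χ.1 1 ≠ 1 → χ.1 (x * y) = 0 := by
    intro χ hχ
    have h1 := sum_conj_mul_char χ y x
    have h3 : ∀ b : G, χ.1 (b * y * b⁻¹ * x) = χ.1 x * χ.1 y := by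
      intro b
      rw [irr_mul_comm, ← hval 1 b χ]
      simp
    simp only [h3, Finset.sum_const, Finset.card_univ, nsmul_eq_mul, ← Nat.card_eq_fintype_card] at h1
    have h0 := card_ne_zero_C (G := G)
    have h4 := irr_one_ne_zero' χ
    rw [hxy]
    field_simp at h1
    have h5 : (χ.1 x * χ.1 y) * (χ.1 1 - 1) = 0 := by
      linear_combination h1
    exact (mul_eq_zero.mp h5).resolve_right (sub_ne_zero.mpr hχ)
  refine ⟨?_, h2, ?_⟩
  · intro z
    constructor
    · intro hz
      obtain ⟨c, rfl⟩ := isConj_iff.mp hz
      exact ⟨c, c, by group⟩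
    · rintro ⟨a, b, rfl⟩
      apply isConj_of_forall_irr_eq
      intro χ
      rw [hval, hxy]
  · -- the class of `x y` is a coset of the commutator subgroup
    -- number of linear characters and the centralizer order
    have hcent : Nat.card (Subgroup.centralizer ({x * y} : Set G)) = (commutator G).index := by
      have h3 := column_orthogonality_of_isConj (IsConj.refl (x * y))
      have h4 : ∀ χ : IrrCharacter G, χ.1 (x * y) * conj (χ.1 (x * y))
          = if charDegree χ.1 = 1 then 1 else 0 := by
        intro χ
        have hc := isCharacter_of_irr χ.2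
        by_cases hd : charDegree χ.1 = 1
        · rw [if_pos hd, Complex.mul_conj, Complex.normSq_eq_norm_sq, linear_norm hc hd]
          simp
        · rw [if_neg hd, h2 χ, zero_mul]
          rw [one_eq_charDegree hc]
          intro h5
          exact hd (by exact_mod_cast h5)
      simp only [h4] at h3
      rw [Finset.sum_boole] at h3
      have h5 : ((Finset.univ.filter fun χ : IrrCharacter G => charDegree χ.1 = 1).card : ℂ)
          = (Nat.card (Subgroup.centralizer ({x * y} : Set G)) : ℂ) := h3
      have h6 : (Finset.univ.filter fun χ : IrrCharacter G => charDegree χ.1 = 1).card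
          = Nat.card (Subgroup.centralizer ({x * y} : Set G)) := by exact_mod_cast h5
      rw [← h6, ← card_linear_eq_index]
      rw [Nat.card_eq_fintype_card, Fintype.card_subtype]
    intro z
    have hforward : ∀ z, IsConj (x * y) z → (x * y)⁻¹ * z ∈ commutator G := by
      intro z hz
      obtain ⟨c, rfl⟩ := isConj_iff.mp hz
      exact inv_mul_conj_mem_commutator _ _
    refine ⟨hforward z, fun hz => ?_⟩
    -- counting
    let K : Finset G := Finset.univ.filter fun w => IsConj (x * y) w
    let L : Finset G := Finset.univ.filter fun w => (x * y)⁻¹ * w ∈ commutator G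
    have hKL : K ⊆ L := fun w hw => by
      simp only [K, L, Finset.mem_filter, Finset.mem_univ, true_and] at hw ⊢
      exact hforward w hw
    have hKcard : K.card = (Subgroup.centralizer ({x * y} : Set G)).index := by
      have h7 := card_isConj_eq_index (x * y)
      have h8 : K.card = Nat.card {w : G // IsConj w (x * y)} := by
        rw [Nat.card_eq_fintype_card, Fintype.card_subtype]
        congr 1
        ext w
        simp only [K, Finset.mem_filter, Finset.mem_univ, true_and]
        exact ⟨fun h => h.symm, fun h => h.symm⟩
      rw [h8]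
      exact_mod_cast h7
    have hLcard : L.card = Nat.card (commutator G) := by
      have : Nat.card (commutator G) = Nat.card {w : G // (x * y)⁻¹ * w ∈ commutator G} := by
        refine Nat.card_congr ⟨fun w => ⟨(x * y) * w.1, by rw [inv_mul_cancel_left]; exact w.2⟩,
          fun w => ⟨(x * y)⁻¹ * w.1, w.2⟩, fun w => Subtype.ext (inv_mul_cancel_left _ _), fun w => Subtype.ext (mul_inv_cancel_left _ _)⟩
      rw [this, Nat.card_eq_fintype_card, Fintype.card_subtype]
    have hcardEq : K.card = L.card := by
      have h9 := index_mul_card_centralizer (x * y)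
      have h10 := Subgroup.card_mul_index (commutator G)
      rw [hcent] at h9
      rw [hKcard, hLcard]
      have hpos : 0 < (commutator G).index := Nat.pos_of_ne_zero (by
        intro h0
        rw [h0, mul_zero] at h10
        exact Nat.card_pos.ne' h10.symm)
      have h11 : (Subgroup.centralizer ({x * y} : Set G)).index * (commutator G).index
          = Nat.card (commutator G) * (commutator G).index := by rw [h9, h10]
      exact Nat.eq_of_mul_eq_mul_right hpos h11
    have hEq : K = L := Finset.eq_of_subset_of_card_le hKL hcardEq.ge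
    have hzL : z ∈ L := by
      simp only [L, Finset.mem_filter, Finset.mem_univ, true_and]
      exact hz
    rw [← hEq] at hzL
    simpa only [K, Finset.mem_filter, Finset.mem_univ, true_and] using hzL

end Cfsg.Agent.S4755
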