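import Cfsg.Statements.S4762
import Cfsg.Agent.Lib.H22.ExtraUnique

set_option autoImplicit false
set_option linter.style.haveILetI false
set_option linter.unusedSectionVars false

open Cfsg

namespace Cfsg.Agent.S4762

open Cfsg.Agent.H21 Cfsg.Agent.H22
open scoped ComplexConjugate

theorem result {G : Type*} [Group G] [Finite G] [Group.IsNilpotent G] (p : ℕ) [Fact p.Prime] : Nat.card {χ : Cfsg.IrrCharacter G // p ∣ Cfsg.charDegree (χ : G → ℂ)} = 1 ↔ (p = 2 ∧ Cfsg.IsExtraspecial 2 G) := by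
  classical
  constructor
  · intro hone
    obtain ⟨hs, hn⟩ := Nat.card_eq_one_iff_unique.1 hone
    obtain ⟨χ⟩ := hn
    have hu : ∀ ψ : IrrCharacter G, p ∣ charDegree ψ.1 → ψ = χ.1 := fun ψ h =>
      congrArg Subtype.val (hs.elim ⟨ψ, h⟩ χ)
    have hP : IsPGroup p G := isPGroup_of_unique_nilpotent χ.1 χ.2 hu
    have hpp := (Fact.out : p.Prime)
    have hχ : charDegree χ.1.1 ≠ 1 := by
      intro h
      have h2 := χ.2
      rw [h] at h2
      exact hpp.one_lt.ne' (Nat.dvd_one.1 h2)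
    refine extraspecial_of_unique_nonlinear hP χ.1 hχ fun ψ hψ => hu ψ ?_
    have h1 := charDegree_dvd_card ψ
    obtain ⟨k, hk⟩ := IsPGroup.iff_card.1 hP
    rw [hk] at h1
    obtain ⟨j, -, hj⟩ := (Nat.dvd_prime_pow hpp).1 h1
    rw [hj] at hψ ⊢
    rcases j with _ | j
    · simp at hψ
    · exact Dvd.intro_left (p ^ j) (by rw [pow_succ])
  · rintro ⟨rfl, hE⟩
    exact unique_of_extraspecial hE

end Cfsg.Agent.S4762
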