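import Cfsg.Statements.S4763
import Mathlib
import Cfsg.Agent.Lib.H18.Syl
import Cfsg.Agent.Lib.H23.NormComp
import Cfsg.Agent.Lib.H23.Ito2
import Cfsg.Agent.Lib.H21.Residual
import Cfsg.Agent.Lib.H21.CoprimeCount

set_option autoImplicit false
open Cfsg

namespace Cfsg.Agent.S4763


set_option linter.unusedSectionVars false
set_option linter.style.haveILetI false
open Cfsg Cfsg.Agent.H21

universe u

theorem card_split {α : Type*} [Finite α] (q : α → Prop) :
    Nat.card {x // q x} + Nat.card {x // ¬ q x} = Nat.card α := by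
  classical
  rw [← Nat.card_sum]
  exact Nat.card_congr (Equiv.sumCompl q)

theorem card_carrier' {G : Type*} [Group G] (g : G) :
    Nat.card (ConjClasses.mk g).carrier * Nat.card (Subgroup.centralizer ({g} : Set G))
      = Nat.card G := by
  have h1 := (MulAction.stabilizer (ConjAct G) g).card_mul_index
  rw [MulAction.index_stabilizer, ConjAct.orbit_eq_carrier_conjClasses, ← Nat.card_coe_set_eq,
    ← Subgroup.nat_card_centralizer_nat_card_stabilizer] at h1
  rw [mul_comm, h1]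
  rfl

theorem deg_cast {G : Type*} [Group G] {χ : G → ℂ} (hχ : IsCharacter G χ) :
    χ 1 = (charDegree χ : ℂ) := by
  exact H21.one_eq_charDegree hχ

theorem irr_one_ne {G : Type*} [Group G] [Finite G] {χ : G → ℂ} (hχ : IsIrrCharacter G χ) : χ 1 ≠ 0 := by
  rw [H21.one_eq_charDegree (H21.isCharacter_of_irr hχ)]
  exact_mod_cast (H21.irr_charDegree_pos hχ).ne'

/-- The Sylow subgroup is abelian. -/
theorem sylow_comm {G : Type u} [Group G] [Finite G] (p : ℕ) [hp : Fact p.Prime]
    (hnil : ¬ Group.IsNilpotent G) (N : Subgroup G) [hNn : N.Normal]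
    (P : Subgroup G) (k : ℕ) (hk : N.index = p ^ k) (hcard : Nat.card P = p ^ k)
    (hsup : N ⊔ P = ⊤) (hinf : N ⊓ P = ⊥)
    (huniq : ∀ χ χ' : IrrCharacter G, p ∣ charDegree χ.1 → p ∣ charDegree χ'.1 → χ = χ') :
    ∀ a b : P, a * b = b * a := by
  classical
  haveI := Fintype.ofFinite G
  haveI : Fintype N := Fintype.ofFinite _
  haveI : Fintype P := Fintype.ofFinite _
  haveI : Fintype (IrrCharacter G) := Fintype.ofFinite _
  haveI : Fintype (IrrCharacter N) := Fintype.ofFinite _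
  by_contra hne
  obtain ⟨β, hβ⟩ : ∃ β : IrrCharacter P, charDegree β.1 ≠ 1 := by
    by_contra hcon
    push Not at hcon
    exact hne (H22.comm_of_degrees_one hcon)
  have hβp : p ∣ charDegree β.1 := by
    haveI : Fintype (IrrCharacter P) := Fintype.ofFinite _
    have h1 := H22.charDegree_dvd_card β
    rw [hcard] at h1
    obtain ⟨t, -, ht⟩ := (Nat.dvd_prime_pow hp.out).1 h1
    rcases t with _ | t
    · rw [pow_zero] at ht; exact absurd ht hβ
    · rw [ht]; exact dvd_pow_self p (Nat.succ_ne_zero t)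
  obtain ⟨π, hπ1, hπ2, -⟩ := H21.exists_retraction N P hsup hinf
  have hπs : Function.Surjective π := fun h => ⟨h, hπ1 h⟩
  let χ₀ : IrrCharacter G := ⟨fun g => β.1 (π g), H21.isIrrCharacter_comp_of_surjective π hπs β.2⟩
  have hχ₀1 : χ₀.1 1 = β.1 1 := by
    show β.1 (π 1) = _
    rw [map_one]
  have hχ₀N : ∀ n ∈ N, χ₀.1 n = β.1 1 := by
    intro n hn
    show β.1 (π n) = _
    rw [hπ2 n hn]
  have hdeg₀ : charDegree χ₀.1 = charDegree β.1 := by
    unfold charDegree; rw [hχ₀1]
  have hχ₀p : p ∣ charDegree χ₀.1 := hdeg₀ ▸ hβp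
  have hNbot : N ≠ ⊥ := by
    intro h
    apply hnil
    have h1 : Nat.card G = p ^ k := by
      rw [← hk, h, Subgroup.index_bot]
    exact (IsPGroup.of_card h1).isNilpotent
  obtain ⟨n, hnN, hn1⟩ := N.bot_or_exists_ne_one.resolve_left hNbot
  obtain ⟨χ, hχn⟩ : ∃ χ : IrrCharacter G, χ.1 n ≠ χ.1 1 := by
    by_contra hcon
    push Not at hcon
    have := H23.mem_of_forall_irr_ker (⊥ : Subgroup G) n (fun θ _ => hcon θ)
    exact hn1 (Subgroup.mem_bot.1 this)
  have hχχ₀ : χ ≠ χ₀ := by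
    rintro rfl
    exact hχn ((hχ₀N n hnN).trans hχ₀1.symm)
  have hχp : ¬ p ∣ charDegree χ.1 := fun h => hχχ₀ (huniq _ _ h hχ₀p)
  obtain ⟨θ, hθinv, hθ⟩ := H21.res_irr_of_pprime N hk χ hχp
  have hirr1 : IsIrrCharacter N (fun _ => (1 : ℂ)) := H21.isIrrCharacter_one
  have hprod : IsIrrCharacter N ((fun _ => (1 : ℂ)) * θ.1) := by
    have : ((fun _ => (1 : ℂ)) * θ.1) = θ.1 := by
      funext x; simp
    rw [this]; exact θ.2
  have hφinv : ∀ t : G, H06.twist N (fun _ : N => (1 : ℂ)) t = fun _ => 1 := by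
    intro t; rfl
  have hϑinv : ∀ t : G, H06.twist N θ.1 t = θ.1 := H04.Cliff.twist_of_inv N hθinv
  have hbij := H04.Cliff.gallagher_bij N hirr1 hprod hφinv hϑinv (H21.isCharacter_of_irr χ.2) hθ
  have hmem : χ₀.1 ∈ {β : G → ℂ | IsIrrCharacter G β ∧
      classInner (indFun N (fun _ : N => (1 : ℂ))) β ≠ 0} := by
    refine ⟨χ₀.2, ?_⟩
    rw [H21.frobenius_reciprocity N _ _ (H21.isClassFunction_of_isCharacter (H21.isCharacter_of_irr χ₀.2))]
    have : (fun h : N => χ₀.1 h) = (β.1 1) • (fun _ : N => (1 : ℂ)) := by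
      funext h
      simp [hχ₀N h h.2]
    rw [this, H21.classInner_smul_right, H06.classInner_irr_self hirr1]
    have hβ1 := irr_one_ne β.2
    simpa using hβ1
  have hirrμ := (hbij.mapsTo hmem).1
  let μ : IrrCharacter G := ⟨χ₀.1 * χ.1, hirrμ⟩
  have hμ1 : μ.1 1 = (charDegree χ₀.1 : ℂ) * (charDegree χ.1 : ℂ) := by
    show χ₀.1 1 * χ.1 1 = _
    rw [deg_cast (H21.isCharacter_of_irr χ₀.2), deg_cast (H21.isCharacter_of_irr χ.2)]
  have hμd : charDegree μ.1 = charDegree χ₀.1 * charDegree χ.1 := by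
    unfold charDegree at *
    rw [hμ1]
    have : ((⌊(χ₀.1 1).re⌋₊ : ℂ) * (⌊(χ.1 1).re⌋₊ : ℂ)) = ((⌊(χ₀.1 1).re⌋₊ * ⌊(χ.1 1).re⌋₊ : ℕ) : ℂ) := by
      push_cast; ring
    rw [this, Complex.natCast_re, Nat.floor_natCast]
  have hμp : p ∣ charDegree μ.1 := by
    rw [hμd]; exact Dvd.dvd.mul_right hχ₀p _
  have hμeq : μ = χ₀ := huniq _ _ hμp hχ₀p
  have hval : χ₀.1 n * χ.1 n = χ₀.1 n := congrFun (congrArg Subtype.val hμeq) n
  have hval1 : χ₀.1 1 * χ.1 1 = χ₀.1 1 := congrFun (congrArg Subtype.val hμeq) 1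
  have hne0 : χ₀.1 1 ≠ 0 := irr_one_ne χ₀.2
  have hn0 : χ₀.1 n ≠ 0 := by
    rw [hχ₀N n hnN, ← hχ₀1]; exact hne0
  have h1 : χ.1 n = 1 := mul_left_cancel₀ hn0 (by rw [hval, mul_one])
  have h2 : χ.1 1 = 1 := mul_left_cancel₀ hne0 (by rw [hval1, mul_one])
  exact hχn (h1.trans h2.symm)


/-- Let p be a prime and G a finite group that is not nilpotent and has a normal p-complement (a normal subgroup of order prime to p and index a power of p). If G has exactly one irreducible complex character of degree divisible by p, then G has exactly one conjugacy class whose size is divisible by p. -/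
theorem result {G : Type*} [Group G] [Finite G] (p : ℕ) [Fact p.Prime] (hnil : ¬ Group.IsNilpotent G) (N : Subgroup G) [N.Normal] (hN : (Nat.card N).Coprime p) (hidx : ∃ k : ℕ, N.index = p ^ k) (hone : Nat.card {χ : Cfsg.IrrCharacter G // p ∣ Cfsg.charDegree (χ : G → ℂ)} = 1) : Nat.card {C : ConjClasses G // p ∣ Nat.card C.carrier} = 1 := by
  classical
haveI := Fintype.ofFinite G
haveI : Fintype (IrrCharacter G) := Fintype.ofFinite _
obtain ⟨k, hk⟩ := hidx
have hpp := (inferInstance : Fact p.Prime).out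
obtain ⟨P⟩ : Nonempty (Sylow p G) := inferInstance
have hNp : ¬ p ∣ Nat.card N := fun h =>
  (Nat.Prime.coprime_iff_not_dvd hpp).1 hN.symm h
-- the order of `P`
have h1 : Nat.card N * p ^ k = Nat.card G := by rw [← hk]; exact N.card_mul_index
have hPk : Nat.card (P : Subgroup G) = p ^ k := by
  apply Nat.dvd_antisymm
  · obtain ⟨j, hj⟩ := IsPGroup.iff_card.1 P.isPGroup'
    have h2 : Nat.card (P : Subgroup G) ∣ Nat.card N * p ^ k := by
      rw [h1]; exact Subgroup.card_subgroup_dvd_card _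
    have h3 : (Nat.card (P : Subgroup G)).Coprime (Nat.card N) := by
      rw [hj]; exact (Nat.Coprime.pow_left j hN.symm)
    exact h3.dvd_of_dvd_mul_left h2
  · have h2 : p ^ k ∣ Nat.card (P : Subgroup G) * (P : Subgroup G).index := by
      rw [(P : Subgroup G).card_mul_index, ← h1]; exact Dvd.intro_left _ rfl
    have h3 : (p ^ k).Coprime (P : Subgroup G).index :=
      Nat.Coprime.pow_left k ((Nat.Prime.coprime_iff_not_dvd hpp).2 P.not_dvd_index)
    exact h3.dvd_of_dvd_mul_right h2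
have hcop : (Nat.card N).Coprime (Nat.card (P : Subgroup G)) := by
  rw [hPk]; exact Nat.Coprime.pow_right k hN
have hcompl : Subgroup.IsComplement' N (P : Subgroup G) :=
  Subgroup.isComplement'_of_coprime (by rw [hPk]; exact h1) hcop
have hsup := hcompl.sup_eq_top
have hinf : N ⊓ (P : Subgroup G) = ⊥ := (Subgroup.disjoint_of_coprime_natCard hcop).eq_bot
-- uniqueness of the character of degree divisible by `p`
have huniq : ∀ χ χ' : IrrCharacter G, p ∣ charDegree χ.1 → p ∣ charDegree χ'.1 → χ = χ' := by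
  intro χ χ' h h'
  haveI := (Nat.card_eq_one_iff_unique.1 hone).1
  exact congrArg Subtype.val (Subsingleton.elim (⟨χ, h⟩ : {χ : IrrCharacter G // p ∣ charDegree (χ : G → ℂ)}) ⟨χ', h'⟩)
have hcomm := sylow_comm p hnil N (P : Subgroup G) k hk hPk hsup hinf huniq
-- `k ≠ 0`
have hk0 : k ≠ 0 := by
  rintro rfl
  have hex := (Nat.card_eq_one_iff_unique.1 hone).2
  obtain ⟨⟨χ, hχ⟩⟩ := hex
  have h2 := H22.charDegree_dvd_card χ
  have h3 : p ∣ Nat.card G := dvd_trans hχ h2
  rw [← h1, pow_zero, mul_one] at h3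
  exact hNp h3
have hdeg : ∀ d : ℕ, d.Coprime (Nat.card (P : Subgroup G)) ↔ ¬ p ∣ d := by
  intro d
  rw [hPk, Nat.coprime_pow_right_iff (Nat.pos_of_ne_zero hk0), Nat.coprime_comm]
  exact Nat.Prime.coprime_iff_not_dvd hpp
-- solvable
have hsolv : Group.IsSolvable (P : Subgroup G) := by
  haveI := P.isPGroup'.isNilpotent
  infer_instance
have hmc := H21.card_coprime_complement N (P : Subgroup G) hsup hcop hsolv
set C := Subgroup.normalizer ((P : Subgroup G) : Set G) with hC
have hPC : (P : Subgroup G) ≤ C := Subgroup.le_normalizer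
-- `C` centralizes `P`
have hcen : ∀ x ∈ C, ∀ u ∈ (P : Subgroup G), x * u = u * x := by
  intro x hx u hu
  have hxtop : x ∈ ((N ⊔ (P : Subgroup G) : Subgroup G) : Set G) := by
    rw [hsup]; exact Subgroup.mem_top x
  rw [Subgroup.normal_mul, Set.mem_mul] at hxtop
  obtain ⟨n, hn, y, hy, rfl⟩ := hxtop
  have hnC : n ∈ C := by
    have : n = (n * y) * y⁻¹ := by group
    rw [this]
    exact C.mul_mem hx (C.inv_mem (hPC hy))
  have h2 : n * u * n⁻¹ ∈ (P : Subgroup G) := (Subgroup.mem_normalizer_iff.1 hnC u).1 hu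
  have h3 : n * u * n⁻¹ * u⁻¹ ∈ (P : Subgroup G) := (P : Subgroup G).mul_mem h2 ((P : Subgroup G).inv_mem hu)
  have h4 : n * u * n⁻¹ * u⁻¹ ∈ N := by
    have e : n * u * n⁻¹ * u⁻¹ = n * (u * n⁻¹ * u⁻¹) := by group
    rw [e]
    exact N.mul_mem hn ((inferInstance : N.Normal).conj_mem _ (N.inv_mem hn) u)
  have h5 : n * u * n⁻¹ * u⁻¹ ∈ N ⊓ (P : Subgroup G) := ⟨h4, h3⟩
  rw [hinf, Subgroup.mem_bot] at h5
  have h6 : n * u = u * n := by
    have : n * u = (n * u * n⁻¹ * u⁻¹) * (u * n) := by group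
    rw [this, h5, one_mul]
  have h7 : y * u = u * y := by
    have := hcomm ⟨y, hy⟩ ⟨u, hu⟩
    exact congrArg Subtype.val this
  calc n * y * u = n * (y * u) := by group
    _ = n * (u * y) := by rw [h7]
    _ = (n * u) * y := by group
    _ = (u * n) * y := by rw [h6]
    _ = u * (n * y) := by group
have hcenC : ∀ x : G, (∀ u ∈ (P : Subgroup G), x * u = u * x) → x ∈ C := by
  intro x hx
  rw [hC, Subgroup.mem_normalizer_iff]
  intro u
  constructor
  · intro hu
    have e : x * u * x⁻¹ = u := by rw [hx u hu]; group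
    rwa [e]
  · intro hu
    have h2 := hx _ hu
    have e : u = x⁻¹ * (x * u * x⁻¹) * x := by group
    have e2 : x⁻¹ * (x * u * x⁻¹) * x = x * u * x⁻¹ := by
      calc x⁻¹ * (x * u * x⁻¹) * x = x⁻¹ * ((x * u * x⁻¹) * x) := by group
        _ = x⁻¹ * (x * (x * u * x⁻¹)) := by rw [h2]
        _ = x * u * x⁻¹ := by group
    rw [e, e2]; exact hu
-- classes of `C`
have hnd : ∀ x ∈ C, ¬ p ∣ Nat.card (ConjClasses.mk x).carrier := by
  intro x hxC
  have hle : (P : Subgroup G) ≤ Subgroup.centralizer ({x} : Set G) := by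
    intro u hu
    rw [Subgroup.mem_centralizer_iff]
    intro y hy
    rw [Set.mem_singleton_iff.1 hy]
    exact hcen x hxC u hu
  have h2 := card_carrier' x
  obtain ⟨m, hm⟩ := Subgroup.card_dvd_of_le hle
  have h3 := (P : Subgroup G).card_mul_index
  rw [← h3, hm] at h2
  have hpos : 0 < Nat.card (P : Subgroup G) := Nat.card_pos
  have h4 : Nat.card (ConjClasses.mk x).carrier * m = (P : Subgroup G).index := by
    apply Nat.eq_of_mul_eq_mul_left hpos
    rw [← h2]; ring
  intro hd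
  exact P.not_dvd_index (h4 ▸ Dvd.dvd.mul_right hd m)
let e : ConjClasses C → {D : ConjClasses G // ¬ p ∣ Nat.card D.carrier} := fun c =>
  ⟨ConjClasses.map C.subtype c, by
    obtain ⟨x, rfl⟩ := ConjClasses.mk_surjective c
    exact hnd x x.2⟩
have hebij : Function.Bijective e := by
  constructor
  · intro c c' hcc
    obtain ⟨x, rfl⟩ := ConjClasses.mk_surjective c
    obtain ⟨y, rfl⟩ := ConjClasses.mk_surjective c'
    have h2 : ConjClasses.mk (x : G) = ConjClasses.mk (y : G) := congrArg Subtype.val hcc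
    rw [ConjClasses.mk_eq_mk_iff_isConj, isConj_iff] at h2
    obtain ⟨g, hg⟩ := h2
    rw [ConjClasses.mk_eq_mk_iff_isConj, isConj_iff]
    -- Burnside
    let L := Subgroup.centralizer ({(y : G)} : Set G)
    have hPL : (P : Subgroup G) ≤ L := by
      intro u hu
      rw [Subgroup.mem_centralizer_iff]
      intro z hz
      rw [Set.mem_singleton_iff.1 hz]
      exact hcen y y.2 u hu
    have hQL : ((H18.sylowConj P g : Sylow p G) : Subgroup G) ≤ L := by
      rw [H18.coe_sylowConj]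
      rintro _ ⟨u, hu, rfl⟩
      rw [Subgroup.mem_centralizer_iff]
      intro z hz
      rw [Set.mem_singleton_iff.1 hz, ← hg]
      have hc := hcen x x.2 u hu
      show g * x * g⁻¹ * (g * u * g⁻¹) = g * u * g⁻¹ * (g * x * g⁻¹)
      calc g * x * g⁻¹ * (g * u * g⁻¹) = g * (x * u) * g⁻¹ := by group
        _ = g * (u * x) * g⁻¹ := by rw [hc]
        _ = _ := by group
    obtain ⟨c, hcL, hcQ⟩ := H18.exists_conj_of_sylows_le P (H18.sylowConj P g) L hPL hQL
    rw [H18.coe_sylowConj] at hcQ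
    have hcy : c * (y : G) = y * c := by
      have := Subgroup.mem_centralizer_iff.1 hcL (y : G) rfl
      exact this.symm
    have htC : c⁻¹ * g ∈ C := by
      rw [hC, Subgroup.mem_normalizer_iff]
      intro u
      constructor
      · intro hu
        have h3 : g * u * g⁻¹ ∈ (P : Subgroup G).map (MulAut.conj g).toMonoidHom := ⟨u, hu, rfl⟩
        rw [hcQ] at h3
        obtain ⟨u', hu', h4⟩ := h3
        have h5 : g * u * g⁻¹ = c * u' * c⁻¹ := h4.symm
        have h6 : c⁻¹ * g * u * (c⁻¹ * g)⁻¹ = u' := by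
          calc c⁻¹ * g * u * (c⁻¹ * g)⁻¹ = c⁻¹ * (g * u * g⁻¹) * c := by group
            _ = c⁻¹ * (c * u' * c⁻¹) * c := by rw [h5]
            _ = u' := by group
        rwa [h6]
      · intro hu
        have h3 : c * (c⁻¹ * g * u * (c⁻¹ * g)⁻¹) * c⁻¹ ∈ (P : Subgroup G).map (MulAut.conj c).toMonoidHom :=
          ⟨_, hu, rfl⟩
        rw [← hcQ] at h3
        obtain ⟨u', hu', h4⟩ := h3
        have h5 : g * u' * g⁻¹ = c * (c⁻¹ * g * u * (c⁻¹ * g)⁻¹) * c⁻¹ := h4
        have h6 : u = u' := by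
          have h7 : g * u' * g⁻¹ = g * u * g⁻¹ := by rw [h5]; group
          have h8 := mul_left_cancel (mul_right_cancel h7)
          exact h8.symm
        rwa [h6]
    refine ⟨⟨c⁻¹ * g, htC⟩, ?_⟩
    apply Subtype.ext
    show c⁻¹ * g * x * (c⁻¹ * g)⁻¹ = y
    calc c⁻¹ * g * x * (c⁻¹ * g)⁻¹ = c⁻¹ * (g * x * g⁻¹) * c := by group
      _ = c⁻¹ * (y * c) := by rw [hg, mul_assoc]
      _ = c⁻¹ * (c * y) := by rw [hcy]
      _ = y := by group
  · rintro ⟨D, hD⟩
    obtain ⟨g, rfl⟩ := ConjClasses.mk_surjective D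
    have h2 := card_carrier' g
    have h3 := (Subgroup.centralizer ({g} : Set G)).card_mul_index
    have hidxZ : (Subgroup.centralizer ({g} : Set G)).index = Nat.card (ConjClasses.mk g).carrier := by
      apply Nat.eq_of_mul_eq_mul_left (Nat.card_pos (α := Subgroup.centralizer ({g} : Set G)))
      rw [h3, ← h2]; ring
    obtain ⟨h₀, hh₀⟩ := H18.exists_sylow_le_conj P (Subgroup.centralizer ({g} : Set G)) (by rw [hidxZ]; exact hD)
    have hxC : h₀ * g * h₀⁻¹ ∈ C := by
      apply hcenC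
      intro u hu
      obtain ⟨z, hz, rfl⟩ := hh₀ hu
      have hzg := Subgroup.mem_centralizer_iff.1 hz g rfl
      show h₀ * g * h₀⁻¹ * (h₀ * z * h₀⁻¹) = h₀ * z * h₀⁻¹ * (h₀ * g * h₀⁻¹)
      calc h₀ * g * h₀⁻¹ * (h₀ * z * h₀⁻¹) = h₀ * (g * z) * h₀⁻¹ := by group
        _ = h₀ * (z * g) * h₀⁻¹ := by rw [hzg]
        _ = _ := by group
    refine ⟨ConjClasses.mk ⟨_, hxC⟩, ?_⟩
    apply Subtype.ext
    show ConjClasses.mk (h₀ * g * h₀⁻¹) = ConjClasses.mk g
    rw [ConjClasses.mk_eq_mk_iff_isConj, isConj_comm, isConj_iff]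
    exact ⟨h₀, rfl⟩
-- counting
haveI : Fintype C := Fintype.ofFinite _
have hA := card_split (α := IrrCharacter G) (fun χ => p ∣ charDegree χ.1)
have hB := card_split (α := ConjClasses G) (fun D => p ∣ Nat.card D.carrier)
have hirrG := H21.card_irr_eq_card_conjClasses (G := G)
have hirrC := H21.card_irr_eq_card_conjClasses (G := C)
have hD : Nat.card {D : ConjClasses G // ¬ p ∣ Nat.card D.carrier} = Nat.card (ConjClasses C) :=
  (Nat.card_congr (Equiv.ofBijective e hebij)).symm
have hb : Nat.card {χ : IrrCharacter G // ¬ p ∣ charDegree χ.1} =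
    Nat.card {χ : IrrCharacter G // (charDegree χ.1).Coprime (Nat.card (P : Subgroup G))} :=
  Nat.card_congr (Equiv.subtypeEquivRight (fun χ => (hdeg _).symm))
have hall : ∀ η : IrrCharacter C, (charDegree η.1).Coprime (Nat.card (P : Subgroup G)) := by
  intro η
  rw [hdeg]
  intro hd
  let A : Subgroup C := (P : Subgroup G).subgroupOf C
  haveI hAn : A.Normal := Subgroup.normal_in_normalizer
  have hAc : ∀ a ∈ A, ∀ b ∈ A, a * b = b * a := by
    intro a ha b hb
    apply Subtype.ext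
    have := congrArg Subtype.val (hcomm ⟨a, ha⟩ ⟨b, hb⟩)
    exact this
  have h2 := H23.ito_dvd η.2 A hAc
  have h3 : A.index ∣ (P : Subgroup G).index := by
    have := Subgroup.relIndex_mul_index hPC
    exact Dvd.intro _ this
  exact P.not_dvd_index (dvd_trans hd (dvd_trans h2 h3))
have hC' : Nat.card {η : IrrCharacter C // (charDegree η.1).Coprime (Nat.card (P : Subgroup G))} =
    Nat.card (IrrCharacter C) := Nat.card_congr (Equiv.subtypeUnivEquiv hall)
rw [hb, hmc, hC', hirrC, ← hD, hone] at hA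
rw [← hirrG] at hB
have hfin : Nat.card {C : ConjClasses G // p ∣ Nat.card C.carrier} + Nat.card {D : ConjClasses G // ¬ p ∣ Nat.card D.carrier} =
    1 + Nat.card {D : ConjClasses G // ¬ p ∣ Nat.card D.carrier} := by
  rw [hB, hA]
omega

end Cfsg.Agent.S4763
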