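import Cfsg.Statements.S4774
import Cfsg.Agent.Lib.H22.SL2Deg

set_option autoImplicit false
set_option linter.style.haveILetI false
set_option linter.unusedSectionVars false

open Cfsg

namespace Cfsg.Agent.S4774

open Cfsg.Agent.H21 Cfsg.Agent.H22
open scoped ComplexConjugate

theorem result (F : Type*) [Field F] [Fintype F] (t : ℕ) [Fact t.Prime] [CharP F t] (ht : t ≠ 2) (q : ℕ) (hq : Fintype.card F = q) (h5 : 5 < q) {S : Type*} [Group S] [Finite S] (hS : Nonempty (S ≃* Matrix.ProjectiveSpecialLinearGroup (Fin 2) F) ∨ Nonempty (S ≃* Matrix.SpecialLinearGroup (Fin 2) F)) : Cfsg.degreePrimes S = {r : ℕ | r.Prime ∧ r ∣ q * (q ^ 2 - 1)} ∧ ∀ r s : ℕ, (Cfsg.degreeGraph S).Adj r s ↔ (r ≠ s ∧ r.Prime ∧ s.Prime ∧ r ∣ q ^ 2 - 1 ∧ s ∣ q ^ 2 - 1 ∧ (r = 2 ∨ s = 2 ∨ (r ∣ q + 1 ∧ s ∣ q + 1) ∨ (r ∣ q - 1 ∧ s ∣ q - 1))) := by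
  subst hq
  obtain ⟨n, -, hn⟩ := FiniteField.card F t
  have hodd : Odd (Fintype.card F) := by
    rw [hn]
    exact Odd.pow (Nat.Prime.odd_of_ne_two (Fact.out) ht)
  obtain ⟨m, hm⟩ := hodd
  have hq1 : 1 ≤ Fintype.card F := Fintype.card_pos
  rcases hS with ⟨⟨e⟩⟩ | ⟨⟨e⟩⟩
  · have hd := charDegrees_congr e
    obtain ⟨h1, h2, h3⟩ := charDegrees_PSL_sup ⟨m, hm⟩ m hm h5
    refine graph_odd hm Fact.out hn hq1 ?_ ?_ ?_ ?_
    · rw [hd]; exact charDegrees_PSL_sub ⟨m, hm⟩ m hm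
    · rw [hd]; exact h1
    · rw [hd]; exact h2
    · rw [hd]; exact h3
  · have hd := charDegrees_congr e
    obtain ⟨h1, h2, h3⟩ := charDegrees_SL_sup ⟨m, hm⟩ m hm h5
    refine graph_odd hm Fact.out hn hq1 ?_ ?_ ?_ ?_
    · rw [hd]; exact charDegrees_SL_sub ⟨m, hm⟩ m hm
    · rw [hd]; exact h1
    · rw [hd]; exact h2
    · rw [hd]; exact h3

end Cfsg.Agent.S4774
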