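import Cfsg.Statements.S4797
import Cfsg.Agent.Lib.H22.Codegree

set_option autoImplicit false
set_option linter.style.haveILetI false
set_option linter.unusedSectionVars false

open Cfsg

namespace Cfsg.Agent.S4797

open Cfsg.Agent.H21 Cfsg.Agent.H22
open scoped ComplexConjugate

theorem result {G : Type*} [Group G] [Finite G] [Nontrivial G] : commutator G = ⊤ ↔ ∀ χ : Cfsg.IrrCharacter G, ¬ ((Nat.card G / (Nat.card {g : G // (χ : G → ℂ) g = (χ : G → ℂ) 1} * Cfsg.charDegree (χ : G → ℂ)))).Prime := by
  constructor
  · intro h χ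
    exact no_prime_codegree_of_perfect h χ
  · intro h
    by_contra hne
    obtain ⟨χ, hχ⟩ := exists_prime_codegree_of_not_perfect hne
    exact h χ hχ

end Cfsg.Agent.S4797
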