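import Cfsg.Statements.S4798
import Cfsg.Agent.Lib.H22.Ord2

set_option autoImplicit false
set_option linter.style.haveILetI false
open Cfsg

namespace Cfsg.Agent.S4798

open Cfsg.Agent.H21 Cfsg.Agent.H22 in
/-- Let p be a prime and χ a faithful irreducible complex character of the finite group G (χ(g) = χ(1) only for g = 1), so that its codegree is #G / χ(1). Then #G / χ(1) is a power of p if and only if χ is induced from a character of a Sylow p-subgroup of G. -/
theorem result {G : Type*} [Group G] [Fintype G] (p : ℕ) [Fact p.Prime] (χ : Cfsg.IrrCharacter G) (hfaith : ∀ g : G, (χ : G → ℂ) g = (χ : G → ℂ) 1 → g = 1) : (∃ k : ℕ, Nat.card G = p ^ k * Cfsg.charDegree (χ : G → ℂ)) ↔ ∃ (P : Sylow p G) (θ : ↥(P : Subgroup G) → ℂ), Cfsg.IsCharacter ↥(P : Subgroup G) θ ∧ (χ : G → ℂ) = Cfsg.indFun (P : Subgroup G) θ := by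
  classical
  have hp : p.Prime := Fact.out
  constructor
  · rintro ⟨k, hk⟩
    let P : Sylow p G := default
    have hP : IsPGroup p (P : Subgroup G) := P.isPGroup'
    obtain ⟨a, ha⟩ := IsPGroup.iff_card.mp hP
    have hn : ¬ p ∣ (P : Subgroup G).index := P.not_dvd_index
    have hcard : Nat.card G = p ^ a * (P : Subgroup G).index := by
      rw [← ha]; exact (Subgroup.card_mul_index _).symm
    have hka : k ≤ a := by
      by_contra hka
      push Not at hka
      have h1 : p ^ a * (P : Subgroup G).index = p ^ a * (p ^ (k - a) * charDegree χ.1) := by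
        rw [← hcard, hk, ← mul_assoc, ← pow_add]
        congr 2
        omega
      have h2 := Nat.eq_of_mul_eq_mul_left (pow_pos hp.pos a) h1
      apply hn
      rw [h2]
      exact dvd_mul_of_dvd_left (dvd_pow_self p (by omega)) _
    have hdeg : charDegree χ.1 = p ^ (a - k) * (P : Subgroup G).index := by
      have h1 : p ^ k * charDegree χ.1 = p ^ k * (p ^ (a - k) * (P : Subgroup G).index) := by
        rw [← hk, hcard, ← mul_assoc, ← pow_add]
        congr 2
        omega
      exact Nat.eq_of_mul_eq_mul_left (pow_pos hp.pos k) h1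
    haveI : Fintype (P : Subgroup G) := Fintype.ofFinite _
    haveI : Fintype (IrrCharacter (P : Subgroup G)) := Fintype.ofFinite _
    haveI : Fintype (IrrCharacter G) := Fintype.ofFinite _
    have hres := isCharacter_restrict (P : Subgroup G) (isCharacter_of_irr χ.2)
    obtain ⟨m, hf, hm⟩ := isCharacter_decomp hres
    have hd := charDegree_decomp m hf hres
    have hresdeg : charDegree (fun x : (P : Subgroup G) => χ.1 x) = charDegree χ.1 := by
      simp [charDegree]
    have hex : ∃ θ : IrrCharacter (P : Subgroup G), m θ ≠ 0 ∧ ¬ p ^ (a - k + 1) ∣ charDegree θ.1 := by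
      by_contra hcon
      push Not at hcon
      apply hn
      have h1 : p ^ (a - k + 1) ∣ charDegree χ.1 := by
        rw [← hresdeg, hd]
        refine Finset.dvd_sum fun θ _ => ?_
        by_cases h0 : m θ = 0
        · simp [h0]
        · exact dvd_mul_of_dvd_right (hcon θ h0) _
      rw [hdeg, pow_succ] at h1
      exact Nat.dvd_of_mul_dvd_mul_left (pow_pos hp.pos _) h1
    obtain ⟨θ, hθ0, hθ⟩ := hex
    refine ⟨P, θ.1, isCharacter_of_irr θ.2, ?_⟩
    have hθdvd : charDegree θ.1 ∣ p ^ a := ha ▸ charDegree_dvd_card θ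
    obtain ⟨e, _, he⟩ := (Nat.dvd_prime_pow hp).mp hθdvd
    have hele : e ≤ a - k := by
      by_contra hcon
      apply hθ
      rw [he]
      exact pow_dvd_pow p (by omega)
    have hind := isCharacter_indFun (P : Subgroup G) (isCharacter_of_irr θ.2)
    have hinner : classInner (indFun (P : Subgroup G) θ.1) χ.1 ≠ 0 := by
      rw [frobenius_reciprocity (P : Subgroup G) θ.1 χ.1 (isClassFunction_of_isCharacter (isCharacter_of_irr χ.2))]
      intro h0
      have h1 := classInner_comm_conj θ.1 (fun x : (P : Subgroup G) => χ.1 x)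
      rw [h0, map_zero, hm θ] at h1
      exact hθ0 (by exact_mod_cast h1.symm)
    refine (eq_of_inner_ne_zero_of_degree_le hind χ hinner ?_).symm
    rw [charDegree_indFun _ (isCharacter_of_irr θ.2), hdeg, he, mul_comm]
    exact Nat.mul_le_mul_right _ (Nat.pow_le_pow_right hp.pos hele)
  · rintro ⟨P, θ, hθ, hχ⟩
    have hP : IsPGroup p (P : Subgroup G) := P.isPGroup'
    obtain ⟨a, ha⟩ := IsPGroup.iff_card.mp hP
    have hirr := isIrr_of_indFun_irr (P : Subgroup G) hθ χ hχ
    haveI : Fintype (P : Subgroup G) := Fintype.ofFinite _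
    haveI : Fintype (IrrCharacter (P : Subgroup G)) := Fintype.ofFinite _
    have hdvd : charDegree θ ∣ p ^ a := ha ▸ charDegree_dvd_card ⟨θ, hirr⟩
    obtain ⟨e, hea, he⟩ := (Nat.dvd_prime_pow hp).mp hdvd
    refine ⟨a - e, ?_⟩
    have hdeg : charDegree χ.1 = (P : Subgroup G).index * p ^ e := by
      rw [hχ, charDegree_indFun _ hθ, he]
    rw [hdeg, ← Subgroup.card_mul_index (P : Subgroup G), ha]
    calc p ^ a * (P : Subgroup G).index = p ^ (a - e + e) * (P : Subgroup G).index := by
          rw [Nat.sub_add_cancel hea]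
      _ = _ := by rw [pow_add]; ring

end Cfsg.Agent.S4798
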