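import Cfsg.Statements.S4802
import Cfsg.Agent.Lib.H22.Ord2

set_option autoImplicit false
set_option linter.style.haveILetI false
open Cfsg

namespace Cfsg.Agent.S4802

open Cfsg.Agent.H21 Cfsg.Agent.H22
open scoped ComplexConjugate

/-- Let N < M be normal subgroups of the finite group G and g ∈ M ∖ N. Then the conjugacy class of g is exactly M ∖ N if and only if every irreducible complex character of G whose kernel contains N takes the same value at all elements of M ∖ N, and every irreducible complex character of G whose kernel does not contain N vanishes at g. -/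
theorem result {G : Type*} [Group G] [Finite G] (N M : Subgroup G) [N.Normal] [M.Normal] (hNM : N < M) (g : G) (hgM : g ∈ M) (hgN : g ∉ N) : {h : G | IsConj g h} = (M : Set G) \ (N : Set G) ↔ ((∀ χ : Cfsg.IrrCharacter G, (∀ x ∈ N, (χ : G → ℂ) x = (χ : G → ℂ) 1) → ∀ x ∈ M, x ∉ N → ∀ y ∈ M, y ∉ N → (χ : G → ℂ) x = (χ : G → ℂ) y) ∧ (∀ χ : Cfsg.IrrCharacter G, (∃ x ∈ N, (χ : G → ℂ) x ≠ (χ : G → ℂ) 1) → (χ : G → ℂ) g = 0)) := by
  classical
  haveI : Fintype G := Fintype.ofFinite G
  haveI : Fintype (IrrCharacter G) := Fintype.ofFinite _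
  constructor
  · intro hset
    have hconj : ∀ x ∈ M, x ∉ N → IsConj g x := by
      intro x hx hx'
      have : x ∈ {h : G | IsConj g h} := by
        rw [hset]
        exact ⟨hx, hx'⟩
      exact this
    constructor
    · intro χ _ x hx hx' y hy hy'
      obtain ⟨c, hc⟩ := isConj_iff.mp (hconj x hx hx')
      obtain ⟨d, hd⟩ := isConj_iff.mp (hconj y hy hy')
      rw [← hc, ← hd, irr_conj', irr_conj']
    · intro χ hχ
      have h1 := sum_normal_mul_eq_zero N χ hχ g
      have h2 : ∑ n : G, (if n ∈ N then χ.1 (n * g) else 0) = ∑ n : G, (if n ∈ N then χ.1 g else 0) := by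
        refine Finset.sum_congr rfl fun n _ => ?_
        by_cases hn : n ∈ N
        · rw [if_pos hn, if_pos hn]
          have h3 : n * g ∈ M := M.mul_mem (hNM.le hn) hgM
          have h4 : n * g ∉ N := fun h => hgN (by simpa [hn] using N.mul_mem (N.inv_mem hn) h)
          obtain ⟨c, hc⟩ := isConj_iff.mp (hconj _ h3 h4)
          rw [← hc, irr_conj']
        · rw [if_neg hn, if_neg hn]
      rw [h1] at h2
      rw [Finset.sum_ite, Finset.sum_const_zero, add_zero, Finset.sum_const, nsmul_eq_mul] at h2
      have h5 : ((Finset.univ.filter (· ∈ N)).card : ℂ) ≠ 0 := by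
        have : 0 < (Finset.univ.filter (· ∈ N)).card :=
          Finset.card_pos.mpr ⟨1, by simp [N.one_mem]⟩
        exact_mod_cast this.ne'
      exact (mul_eq_zero.mp h2.symm).resolve_left h5
  · rintro ⟨hA, hB⟩
    ext h
    simp only [Set.mem_ofPred_eq, Set.mem_sdiff, SetLike.mem_coe]
    constructor
    · intro hh
      obtain ⟨c, rfl⟩ := isConj_iff.mp hh
      refine ⟨Subgroup.Normal.conj_mem inferInstance g hgM c, fun h1 => hgN ?_⟩
      have := Subgroup.Normal.conj_mem (inferInstance : N.Normal) _ h1 c⁻¹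
      simpa [mul_assoc] using this
    · rintro ⟨hh, hh'⟩
      by_contra hc
      have h1 := column_orthogonality_of_not_isConj hc
      have h2 : ∑ χ : IrrCharacter G, χ.1 g * conj (χ.1 h) = ∑ χ : IrrCharacter G, χ.1 g * conj (χ.1 g) := by
        refine Finset.sum_congr rfl fun χ _ => ?_
        by_cases hχ : ∀ x ∈ N, χ.1 x = χ.1 1
        · rw [hA χ hχ g hgM hgN h hh hh']
        · push Not at hχ
          rw [hB χ hχ, zero_mul, zero_mul]
      rw [h2] at h1
      exact sum_norm_sq_ne_zero g h1

end Cfsg.Agent.S4802
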