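import Cfsg.Statements.S4808
import Cfsg.Agent.Lib.H22.DefectZero

set_option autoImplicit false
set_option linter.style.haveILetI false
open Cfsg

namespace Cfsg.Agent.S4808

open Cfsg.Agent.H21 Cfsg.Agent.H22
open scoped ComplexConjugate

/-- The codegree of an irreducible complex character χ of a finite group G is [G : ker χ] / χ(1), where ker χ is the set of elements at which χ takes the value χ(1). A prime divides the order of G if and only if it divides the codegree of some irreducible complex character of G. -/
theorem result {G : Type*} [Group G] [Finite G] (p : ℕ) (hp : p.Prime) : p ∣ Nat.card G ↔ ∃ χ : Cfsg.IrrCharacter G, p ∣ (Nat.card G / (Nat.card {g : G // (χ : G → ℂ) g = (χ : G → ℂ) 1} * Cfsg.charDegree (χ : G → ℂ))) := by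
  classical
  haveI : Fact p.Prime := ⟨hp⟩
  haveI : Fintype G := Fintype.ofFinite G
  haveI : Fintype (IrrCharacter G) := Fintype.ofFinite _
  -- the quotient by the kernel
  have hquot : ∀ χ : IrrCharacter G, ∃ (Q : Type _) (_ : Group Q) (_ : Fintype Q)
      (_ : Fintype (IrrCharacter Q)) (π : G →* Q) (_ : Function.Surjective π)
      (χ' : IrrCharacter Q), χ'.1 ∘ π = χ.1 ∧ (∀ g, π g = 1 ↔ χ.1 g = χ.1 1) ∧
      Nat.card G = Nat.card Q * Nat.card {g : G // χ.1 g = χ.1 1} := by
    intro χ
    let K := charKer χ.1 (isCharacter_of_irr χ.2)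
    let π : G →* G ⧸ K := QuotientGroup.mk' K
    have hπ : Function.Surjective π := QuotientGroup.mk'_surjective K
    obtain ⟨χ', hχ', hc⟩ := isIrrCharacter_descend π hπ χ.2 (by
      intro k hk
      have : k ∈ π.ker := hk
      rw [show π.ker = K from QuotientGroup.ker_mk' K] at this
      exact this)
    haveI : Fintype (G ⧸ K) := Fintype.ofFinite _
    haveI : Fintype (IrrCharacter (G ⧸ K)) := Fintype.ofFinite _
    refine ⟨G ⧸ K, inferInstance, inferInstance, inferInstance, π, hπ, ⟨χ', hχ'⟩, hc, ?_, ?_⟩
    · intro g
      constructor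
      · intro h
        have : g ∈ π.ker := h
        rw [show π.ker = K from QuotientGroup.ker_mk' K] at this
        exact this
      · intro h
        have : g ∈ K := h
        rw [← show π.ker = K from QuotientGroup.ker_mk' K] at this
        exact this
    · have h1 := Subgroup.card_mul_index K
      have h2 : Nat.card K = Nat.card {g : G // χ.1 g = χ.1 1} := rfl
      rw [← h2, ← h1, Subgroup.index, mul_comm]
  constructor
  · intro hdvd
    by_contra hcon
    push Not at hcon
    obtain ⟨x, hx⟩ := exists_prime_orderOf_dvd_card' p hdvd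
    have hx1 : x ≠ 1 := by
      rintro rfl
      rw [orderOf_one] at hx
      exact hp.one_lt.ne hx
    have hval : ∀ χ : IrrCharacter G, χ.1 x = χ.1 1 ∨ χ.1 x = 0 := by
      intro χ
      by_cases hk : χ.1 x = χ.1 1
      · exact Or.inl hk
      right
      obtain ⟨Q, _, _, _, π, hπ, χ', hc, hker, hcard⟩ := hquot χ
      have hd : charDegree χ'.1 = charDegree χ.1 := by
        unfold charDegree
        rw [← hc]
        simp
      have hQ : Nat.card G / (Nat.card {g : G // χ.1 g = χ.1 1} * charDegree χ.1)
          = Nat.card Q / charDegree χ'.1 := by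
        rw [hd, hcard, mul_comm (Nat.card Q)]
        haveI : Nonempty {g : G // χ.1 g = χ.1 1} := ⟨⟨1, rfl⟩⟩
        exact Nat.mul_div_mul_left _ _ Nat.card_pos
      have h1 := hcon χ
      rw [hQ] at h1
      obtain ⟨M, hM⟩ := exists_pModular hp
      haveI : M.IsPrime := hM.2.1.isPrime
      have hord : p ∣ orderOf (π x) := by
        have h2 : orderOf (π x) ∣ p := by
          rw [← hx]
          exact orderOf_map_dvd π x
        have h3 : π x ≠ 1 := fun h => hk ((hker x).mp h)
        rcases (Nat.dvd_prime hp).mp h2 with h4 | h4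
        · rw [orderOf_eq_one_iff] at h4
          exact absurd h4 h3
        · rw [h4]
      have h5 := irr_eq_zero_of_defect_zero hM χ' h1 hord
      rw [← hc]
      exact h5
    have hsum := sum_degree_mul_value_ne hx1 (G := G)
    have hre : ∀ χ : IrrCharacter G, 0 ≤ ((charDegree χ.1 : ℂ) * χ.1 x).re := by
      intro χ
      rcases hval χ with h | h
      · rw [h, one_eq_charDegree (isCharacter_of_irr χ.2)]
        norm_cast
        positivity
      · rw [h]
        simp
    have h6 := congrArg Complex.re hsum
    rw [Complex.re_sum, Complex.zero_re] at h6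
    have h7 := (Finset.sum_eq_zero_iff_of_nonneg (fun χ _ => hre χ)).mp h6 (oneIrr G) (Finset.mem_univ _)
    have h8 : charDegree (oneIrr G).1 = 1 := by
      simp [oneIrr, charDegree]
    rw [h8] at h7
    simp [oneIrr] at h7
  · rintro ⟨χ, hχ⟩
    obtain ⟨Q, _, _, _, π, hπ, χ', hc, hker, hcard⟩ := hquot χ
    have hd : charDegree χ'.1 = charDegree χ.1 := by
      unfold charDegree
      rw [← hc]
      simp
    have h1 : Nat.card {g : G // χ.1 g = χ.1 1} * charDegree χ.1 ∣ Nat.card G := by
      rw [hcard, mul_comm, ← hd]
      exact Nat.mul_dvd_mul_right (charDegree_dvd_card χ') _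
    exact hχ.trans (Nat.div_dvd_of_dvd h1)

end Cfsg.Agent.S4808
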