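import Cfsg.Statements.S4813
import Cfsg.Agent.Lib.H20.PD4
import Mathlib

set_option autoImplicit false
set_option linter.style.haveILetI false
open Cfsg

namespace Cfsg.Agent.S4813

open Cfsg.Agent.H21 Cfsg.Agent.H20.PD
open scoped commutatorElement

/-- If every irreducible complex character of the finite group G of degree greater than one has prime degree, then G has at most three distinct irreducible character degrees. -/
theorem result {G : Type*} [Group G] [Finite G] (hprime : ∀ d ∈ Cfsg.charDegrees G, d = 1 ∨ d.Prime) : Nat.card ↥(Cfsg.charDegrees G) ≤ 3 := by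
  classical
  have hdeg : ∀ χ : IrrCharacter G, charDegree χ.1 = 1 ∨ (charDegree χ.1).Prime :=
    fun χ => hprime _ ⟨χ, rfl⟩
  haveI hsolv : Group.IsSolvable G := solvable_of_prime_degrees _ G rfl hdeg
  -- it is enough to find the degrees inside a set of three numbers
  have hfin : ∀ r f : ℕ, Cfsg.charDegrees G ⊆ {1, r, f} → Nat.card ↥(Cfsg.charDegrees G) ≤ 3 := by
    intro r f hsub
    rw [Nat.card_coe_set_eq]
    refine (Set.ncard_le_ncard hsub (Set.toFinite _)).trans ?_
    refine (Set.ncard_insert_le _ _).trans ?_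
    have := Set.ncard_insert_le r ({f} : Set ℕ)
    rw [Set.ncard_singleton] at this
    omega
  by_cases hcomm : ∀ a b : G, a * b = b * a
  · refine hfin 1 1 ?_
    rintro d ⟨χ, rfl⟩
    exact Or.inl (irr_degree_one_of_comm hcomm χ.2)
  have hcne : commutator G ≠ ⊥ := by
    push Not at hcomm
    obtain ⟨a, b, hab⟩ := hcomm
    intro h
    have h1 : ⁅a, b⁆ ∈ commutator G := Subgroup.commutator_mem_commutator (Subgroup.mem_top a) (Subgroup.mem_top b)
    rw [h, Subgroup.mem_bot, commutatorElement_eq_one_iff_mul_comm] at h1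
    exact hab h1
  -- a maximal normal subgroup with non-abelian quotient
  let T := {K : Subgroup G // K.Normal ∧ ¬ commutator G ≤ K}
  haveI : Nonempty T := ⟨⟨⊥, inferInstance, fun h => hcne (le_bot_iff.1 h)⟩⟩
  obtain ⟨K₀, hmax⟩ := Finite.exists_max (fun K : T => Nat.card K.1)
  obtain ⟨K, hKn, hKc⟩ := K₀
  haveI := hKn
  have hmax' : ∀ N : Subgroup G, N.Normal → ¬ commutator G ≤ N → Nat.card N ≤ Nat.card K :=
    fun N hN hc => hmax ⟨N, hN, hc⟩
  have hna : ∃ a b : G ⧸ K, a * b ≠ b * a := by
    by_contra hcon
    push Not at hcon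
    apply hKc
    rw [commutator_def, Subgroup.commutator_le]
    intro a _ b _
    have h1 := hcon (a : G ⧸ K) (b : G ⧸ K)
    rw [← QuotientGroup.eq_one_iff, commutatorElement_def]
    simp only [QuotientGroup.mk_mul, QuotientGroup.mk_inv]
    rw [h1]
    group
  have hU : ∀ N : Subgroup (G ⧸ K), N.Normal → N ≠ ⊥ → commutator (G ⧸ K) ≤ N := by
    intro N hN hN1
    have hNc : (N.comap (QuotientGroup.mk' K)).Normal := hN.comap _
    have hKle : K ≤ N.comap (QuotientGroup.mk' K) := by
      intro x hx
      rw [Subgroup.mem_comap, QuotientGroup.mk'_apply, (QuotientGroup.eq_one_iff x).2 hx]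
      exact N.one_mem
    by_cases hc : commutator G ≤ N.comap (QuotientGroup.mk' K)
    · rw [commutator_def, Subgroup.commutator_le]
      intro a _ b _
      induction a using QuotientGroup.induction_on with
      | _ a =>
        induction b using QuotientGroup.induction_on with
        | _ b =>
          have h1 : ⁅a, b⁆ ∈ N.comap (QuotientGroup.mk' K) :=
            hc (Subgroup.commutator_mem_commutator (Subgroup.mem_top a) (Subgroup.mem_top b))
          rw [Subgroup.mem_comap, QuotientGroup.mk'_apply] at h1
          simpa [commutatorElement_def] using h1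
    · exfalso
      have h1 := hmax' _ hNc hc
      have h2 : K = N.comap (QuotientGroup.mk' K) :=
        Subgroup.eq_of_le_of_card_ge hKle h1
      apply hN1
      rw [eq_bot_iff]
      intro x hx
      induction x using QuotientGroup.induction_on with
      | _ x =>
        have h3 : x ∈ N.comap (QuotientGroup.mk' K) := hx
        rw [← h2] at h3
        rw [Subgroup.mem_bot]
        exact (QuotientGroup.eq_one_iff x).2 h3
  have hdegX := degree_quot K hdeg
  haveI : Group.IsSolvable (G ⧸ K) := inferInstance
  obtain ⟨r, f, hrf⟩ := primes_of_quot hU hna hdegX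
  -- `K` is abelian
  have hβ : ∃ β : IrrCharacter (G ⧸ K), charDegree β.1 ≠ 1 := by
    by_contra hcon
    push Not at hcon
    obtain ⟨a, b, hab⟩ := hna
    exact hab (Cfsg.Agent.H22.comm_of_degrees_one hcon a b)
  obtain ⟨β, hβ⟩ := hβ
  have hKab : ∀ a ∈ K, ∀ b ∈ K, a * b = b * a := by
    intro a ha b hb
    have := normal_abelian_of_quot K hdeg β hβ ⟨a, ha⟩ ⟨b, hb⟩
    exact congrArg Subtype.val this
  refine hfin r f ?_
  rintro d ⟨χ, rfl⟩
  rcases hdeg χ with h | h
  · exact Or.inl h
  · haveI := Fintype.ofFinite G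
    have hd := Cfsg.Agent.H23.ito_dvd χ.2 K hKab
    rw [Subgroup.index_eq_card] at hd
    rcases hrf _ h hd with h1 | h1
    · exact Or.inr (Or.inl h1)
    · exact Or.inr (Or.inr h1)

end Cfsg.Agent.S4813
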