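import Cfsg.Statements.S4814
import Cfsg.Agent.Lib.H22.Ord2

set_option autoImplicit false
set_option linter.style.haveILetI false
open Cfsg

namespace Cfsg.Agent.S4814

open Cfsg.Agent.H21 Cfsg.Agent.H22
open scoped ComplexConjugate

/-- Let G be a finite group such that the sum, over the irreducible complex characters χ of G, of 1/χ(1)² is less than 2. Then every element of G is a product of two commutators. -/
theorem result {G : Type*} [Group G] [Finite G]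
    (h : ∑ᶠ χ : Cfsg.IrrCharacter G, 1 / ‖(χ : G → ℂ) 1‖ ^ 2 < (2 : ℝ)) (g : G) :
    ∃ a b c d : G, (a * b * a⁻¹ * b⁻¹) * (c * d * c⁻¹ * d⁻¹) = g := by
  classical
  haveI : Fintype G := Fintype.ofFinite G
  haveI : Fintype (IrrCharacter G) := Fintype.ofFinite _
  let c : G → ℂ := fun g => ∑ a : G, ∑ b : G, if a * b * a⁻¹ * b⁻¹ = g then 1 else 0
  have hc : IsClassFunction G c := by
    intro x k
    simp only [c]
    refine Fintype.sum_equiv (Equiv.mulLeft k⁻¹ * Equiv.mulRight k : Equiv.Perm G) _ _ fun a => ?_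
    refine Fintype.sum_equiv (Equiv.mulLeft k⁻¹ * Equiv.mulRight k : Equiv.Perm G) _ _ fun b => ?_
    show (if a * b * a⁻¹ * b⁻¹ = k * x * k⁻¹ then (1 : ℂ) else 0)
      = if (k⁻¹ * (a * k)) * (k⁻¹ * (b * k)) * (k⁻¹ * (a * k))⁻¹ * (k⁻¹ * (b * k))⁻¹ = x then 1 else 0
    have h1 : (k⁻¹ * (a * k)) * (k⁻¹ * (b * k)) * (k⁻¹ * (a * k))⁻¹ * (k⁻¹ * (b * k))⁻¹
        = k⁻¹ * (a * b * a⁻¹ * b⁻¹) * k := by group
    rw [h1]
    by_cases h2 : a * b * a⁻¹ * b⁻¹ = k * x * k⁻¹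
    · rw [if_pos h2, if_pos (by rw [h2]; group)]
    · rw [if_neg h2, if_neg]
      intro h3
      apply h2
      rw [← h3]
      group
  have hsum : ∀ f : G → ℂ, ∑ x, c x * f x = ∑ a, ∑ b, f (a * b * a⁻¹ * b⁻¹) := by
    intro f
    simp only [c, Finset.sum_mul]
    rw [Finset.sum_comm]
    refine Finset.sum_congr rfl fun a _ => ?_
    rw [Finset.sum_comm]
    refine Finset.sum_congr rfl fun b _ => ?_
    rw [Finset.sum_eq_single (a * b * a⁻¹ * b⁻¹)]
    · simp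
    · intro x _ hx
      rw [if_neg (Ne.symm hx), zero_mul]
    · intro h
      exact absurd (Finset.mem_univ _) h
  have h0 := card_ne_zero_C (G := G)
  have hom : ∀ χ : IrrCharacter G, om χ c = (Nat.card G : ℂ) ^ 2 / χ.1 1 ^ 2 := by
    intro χ
    unfold om
    rw [hsum χ.1]
    have h1 := irr_one_ne_zero' χ
    have h2 : ∀ b : G, ∑ a, χ.1 (a * b * a⁻¹ * b⁻¹) = (Nat.card G : ℂ) * χ.1 b * conj (χ.1 b) / χ.1 1 := by
      intro b
      rw [sum_conj_mul_char χ b b⁻¹, irr_inv']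
    rw [Finset.sum_comm]
    simp only [h2]
    have h3 : ∑ b, (Nat.card G : ℂ) * χ.1 b * conj (χ.1 b) / χ.1 1 = (Nat.card G : ℂ) * (Nat.card G : ℂ) / χ.1 1 := by
      rw [← sum_char_mul_conj χ, Finset.mul_sum, Finset.sum_div]
      refine Finset.sum_congr rfl fun b _ => ?_
      ring
    rw [h3]
    field_simp
  -- the convolution of `c` with itself
  have hconv : conv c c = ofOm (fun χ => (om χ c) * (om χ c)) := by
    have h1 := ofOm_mul (fun χ => om χ c) (fun χ => om χ c)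
    rw [ofOm_om c hc] at h1
    exact h1.symm
  have hval : conv c c g = (Nat.card G : ℂ) ^ 3 * ∑ χ : IrrCharacter G, conj (χ.1 g) / χ.1 1 ^ 3 := by
    rw [hconv]
    unfold ofOm
    rw [Finset.mul_sum, Finset.mul_sum]
    refine Finset.sum_congr rfl fun χ _ => ?_
    beta_reduce
    rw [hom]
    have h1 := irr_one_ne_zero' χ
    field_simp
  -- positivity
  let one : IrrCharacter G := oneIrr G
  have hdeg : ∀ χ : IrrCharacter G, ‖χ.1 1‖ = (charDegree χ.1 : ℝ) := by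
    intro χ
    rw [one_eq_charDegree (isCharacter_of_irr χ.2)]
    simp
  have hfin : ∑ᶠ χ : IrrCharacter G, 1 / ‖χ.1 1‖ ^ 2 = ∑ χ : IrrCharacter G, 1 / ‖χ.1 1‖ ^ 2 :=
    finsum_eq_sum_of_fintype _
  rw [hfin, ← Finset.add_sum_erase _ _ (Finset.mem_univ one)] at h
  have hone : ‖one.1 1‖ = 1 := by
    show ‖(1 : ℂ)‖ = 1
    simp
  rw [hone] at h
  have hrest : ∑ χ ∈ Finset.univ.erase one, 1 / ‖χ.1 1‖ ^ 2 < 1 := by
    norm_num at h ⊢
    linarith
  have hT : ∑ χ : IrrCharacter G, conj (χ.1 g) / χ.1 1 ^ 3 ≠ 0 := by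
    rw [← Finset.add_sum_erase _ _ (Finset.mem_univ one)]
    have hone' : conj (one.1 g) / one.1 1 ^ 3 = 1 := by
      show conj (1 : ℂ) / (1 : ℂ) ^ 3 = 1
      simp
    rw [hone']
    intro h1
    have h2 : ∑ χ ∈ Finset.univ.erase one, conj (χ.1 g) / χ.1 1 ^ 3 = -1 := by
      linear_combination h1
    have h3 : ‖∑ χ ∈ Finset.univ.erase one, conj (χ.1 g) / χ.1 1 ^ 3‖ = 1 := by
      rw [h2]; simp
    have h4 : ‖∑ χ ∈ Finset.univ.erase one, conj (χ.1 g) / χ.1 1 ^ 3‖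
        ≤ ∑ χ ∈ Finset.univ.erase one, 1 / ‖χ.1 1‖ ^ 2 := by
      refine (norm_sum_le _ _).trans (Finset.sum_le_sum fun χ _ => ?_)
      have h5 := isCharacter_norm_le (isCharacter_of_irr χ.2) g
      have h6 : (0 : ℝ) < ‖χ.1 1‖ := norm_pos_iff.mpr (irr_one_ne_zero' χ)
      rw [norm_div, norm_pow, Complex.norm_conj]
      have h7 : ‖χ.1 g‖ ≤ ‖χ.1 1‖ := by
        rw [hdeg χ]
        simpa using h5
      rw [div_le_div_iff₀ (by positivity) (by positivity)]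
      calc ‖χ.1 g‖ * ‖χ.1 1‖ ^ 2 ≤ ‖χ.1 1‖ * ‖χ.1 1‖ ^ 2 := by gcongr
        _ = 1 * ‖χ.1 1‖ ^ 3 := by ring
    linarith
  have hne : conv c c g ≠ 0 := by
    rw [hval]
    exact mul_ne_zero (pow_ne_zero _ h0) hT
  unfold conv at hne
  obtain ⟨x, _, hx⟩ := Finset.exists_ne_zero_of_sum_ne_zero hne
  have hx1 : c x ≠ 0 := left_ne_zero_of_mul hx
  have hx2 : c (x⁻¹ * g) ≠ 0 := right_ne_zero_of_mul hx
  have hex : ∀ y, c y ≠ 0 → ∃ a b : G, a * b * a⁻¹ * b⁻¹ = y := by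
    intro y hy
    obtain ⟨a, _, ha⟩ := Finset.exists_ne_zero_of_sum_ne_zero hy
    obtain ⟨b, _, hb⟩ := Finset.exists_ne_zero_of_sum_ne_zero ha
    refine ⟨a, b, ?_⟩
    by_contra hcon
    exact hb (if_neg hcon)
  obtain ⟨a, b, hab⟩ := hex _ hx1
  obtain ⟨c', d, hcd⟩ := hex _ hx2
  refine ⟨a, b, c', d, ?_⟩
  rw [hab, hcd]
  group

end Cfsg.Agent.S4814
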