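import Cfsg.Statements.S4825
import Cfsg.Agent.Lib.H22.OverTheta

set_option autoImplicit false
set_option linter.style.haveILetI false
set_option linter.unusedSectionVars false

open Cfsg

namespace Cfsg.Agent.S4825

open Cfsg.Agent.H21 Cfsg.Agent.H22
open scoped ComplexConjugate

theorem result {G : Type*} [Group G] [Fintype G] (p : ℕ) [Fact p.Prime] (P : Sylow p G) (M : Ideal Cfsg.AlgInt) (hM : Cfsg.IsPModular p M) (B : Set (Cfsg.IrrCharacter G)) (hB : Cfsg.IsPBlock M B) (hBP : Cfsg.IsDefectGroup p M B P) (N : Subgroup G) [N.Normal] [Fintype N] (hPN : ¬ (P : Subgroup G) ≤ N) (θ : Cfsg.IrrCharacter N) :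
    (Nat.card {χ : Cfsg.IrrCharacter G // χ ∈ B ∧ ¬ p ∣ Cfsg.charDegree (χ : G → ℂ) ∧ Cfsg.classInner (fun n : N => (χ : G → ℂ) n) (θ : N → ℂ) ≠ 0} = 0 ∨
      2 ≤ Nat.card {χ : Cfsg.IrrCharacter G // χ ∈ B ∧ ¬ p ∣ Cfsg.charDegree (χ : G → ℂ) ∧ Cfsg.classInner (fun n : N => (χ : G → ℂ) n) (θ : N → ℂ) ≠ 0}) ∧
    (p ≤ 3 → p ∣ Nat.card {χ : Cfsg.IrrCharacter G // χ ∈ B ∧ ¬ p ∣ Cfsg.charDegree (χ : G → ℂ) ∧ Cfsg.classInner (fun n : N => (χ : G → ℂ) n) (θ : N → ℂ) ≠ 0}) := by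
  classical
  rename_i instN
  have hfinN : Finite N := Subtype.finite
  obtain rfl : instN = @fintypeOfFiniteH22 N hfinN := Subsingleton.elim _ _
  haveI : M.IsPrime := hM.2.1.isPrime
  have hp' : p.Prime := Fact.out
  have hdvd : p ∣ N.index := dvd_index_of_not_le N P hPN
  have hsum := sum_sq_over_dvd hM hB N hdvd θ
  set Z : Finset (IrrCharacter G) := Finset.univ.filter
      (fun χ => χ ∈ B ∧ ∑ n : N, conj (θ.1 n) * χ.1 n ≠ 0) with hZ
  set Y : Finset (IrrCharacter G) := Z.filter (fun χ => ¬ p ∣ charDegree χ.1) with hY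
  have hcard : Nat.card {χ : Cfsg.IrrCharacter G // χ ∈ B ∧ ¬ p ∣ Cfsg.charDegree (χ : G → ℂ) ∧ Cfsg.classInner (fun n : N => (χ : G → ℂ) n) (θ : N → ℂ) ≠ 0} = Y.card := by
    rw [Nat.card_eq_fintype_card, Fintype.card_subtype]
    congr 1
    ext χ
    simp only [hY, hZ, Finset.mem_filter, Finset.mem_univ, true_and]
    rw [inner_ne_iff]
    tauto
  have hsumY : p ∣ ∑ χ ∈ Y, (charDegree χ.1) ^ 2 := by
    have h1 : ∑ χ ∈ Z, (charDegree χ.1) ^ 2 =
        ∑ χ ∈ Y, (charDegree χ.1) ^ 2 + ∑ χ ∈ Z.filter (fun χ => ¬ ¬ p ∣ charDegree χ.1), (charDegree χ.1) ^ 2 :=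
      (Finset.sum_filter_add_sum_filter_not Z _ _).symm
    have h2 : p ∣ ∑ χ ∈ Z.filter (fun χ => ¬ ¬ p ∣ charDegree χ.1), (charDegree χ.1) ^ 2 := by
      refine Finset.dvd_sum fun χ hχ => ?_
      have := (Finset.mem_filter.mp hχ).2
      exact dvd_pow (not_not.mp this) two_ne_zero
    exact (Nat.dvd_add_left h2).mp (h1 ▸ hsum)
  rw [hcard]
  constructor
  · by_contra hcon
    push Not at hcon
    obtain ⟨h0, h2⟩ := hcon
    have h1 : Y.card = 1 := by omega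
    obtain ⟨χ, hχ⟩ := Finset.card_eq_one.mp h1
    rw [hχ, Finset.sum_singleton] at hsumY
    have h3 : χ ∈ Y := by rw [hχ]; exact Finset.mem_singleton_self χ
    exact (Finset.mem_filter.mp h3).2 (hp'.dvd_of_dvd_pow hsumY)
  · intro h3
    have h1 : ∑ χ ∈ Y, (charDegree χ.1) ^ 2 ≡ ∑ χ ∈ Y, 1 [MOD p] := by
      refine Nat.ModEq.sum fun χ hχ => ?_
      have hnd := (Finset.mem_filter.mp hχ).2
      have h4 : p = 2 ∨ p = 3 := by
        have := hp'.two_le
        interval_cases p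
        · exact Or.inl rfl
        · exact Or.inr rfl
      rcases h4 with rfl | rfl
      · have : charDegree χ.1 % 2 = 1 := by omega
        simp [Nat.ModEq, Nat.pow_mod, this]
      · have : charDegree χ.1 % 3 = 1 ∨ charDegree χ.1 % 3 = 2 := by omega
        rcases this with h | h <;> simp [Nat.ModEq, Nat.pow_mod, h]
    have h2 : p ∣ ∑ χ ∈ Y, 1 := (Nat.modEq_zero_iff_dvd.mp (h1.symm.trans ((Nat.modEq_zero_iff_dvd).mpr hsumY)))
    simpa using h2


end Cfsg.Agent.S4825
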