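import Cfsg.Statements.S4837
import Cfsg.Agent.Lib.H23.TwoClass4

set_option autoImplicit false
open Cfsg

namespace Cfsg.Agent.S4837

open Cfsg.Agent

/-- Let G be a finite group of order greater than 2 with an irreducible character χ nonzero on exactly two conjugacy classes, and let N be the set of elements where χ is nonzero, given as a nontrivial normal p-subgroup of G for the prime p. Then for every nonidentity x in N the centralizer C_G(x) is a Sylow p-subgroup of G, and for every irreducible character λ ≠ 1 of N the stabilizer of λ in G (its inertia group) is a Sylow p-subgroup of G. -/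
theorem result {G : Type*} [Group G] [Finite G] (hG : 2 < Nat.card G) (χ : Cfsg.IrrCharacter G) (hχ : Nat.card {C : ConjClasses G // ∃ g ∈ C.carrier, (χ : G → ℂ) g ≠ 0} = 2) (p : ℕ) [Fact p.Prime] (N : Subgroup G) [N.Normal] (hN : ∀ g : G, g ∈ N ↔ (χ : G → ℂ) g ≠ 0) (hNp : IsPGroup p N) (hN1 : N ≠ ⊥) :
    (∀ x ∈ N, x ≠ 1 → ∃ P : Sylow p G, Subgroup.centralizer ({x} : Set G) = P) ∧
      (∀ μ : Cfsg.IrrCharacter N, (μ : N → ℂ) ≠ (fun _ => (1 : ℂ)) → ∃ P : Sylow p G, ∀ g : G, g ∈ (P : Subgroup G) ↔ ∀ n n' : N, (n' : G) = g * n * g⁻¹ → (μ : N → ℂ) n' = (μ : N → ℂ) n) := by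
  classical
  haveI : Fintype G := Fintype.ofFinite _
  obtain ⟨x₀, hx₀⟩ := H23.exists_twoClass hG χ hχ
  have h : H23.TC (χ : G → ℂ) x₀ N := ⟨hx₀, hN⟩
  constructor
  · intro y hy hy1
    have h' := h.of_mem hy hy1
    refine ⟨(h'.centralizer_isPGroup hNp).toSylow (h'.not_dvd_index hNp), ?_⟩
    rw [IsPGroup.toSylow_coe]
  · intro μ hμ
    refine ⟨(h.inertia_isPGroup hNp μ.2 hμ).toSylow (h.inertia_not_dvd_index hNp μ.2 hμ), ?_⟩
    intro g
    rw [IsPGroup.toSylow_coe, H23.TC.mem_inertia]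
    constructor
    · intro hg n n' hn'
      have h1 := congrFun hg n
      rw [H06.twist_def] at h1
      simp only at h1
      have h2 : (⟨g * (n : G) * g⁻¹, ‹N.Normal›.conj_mem n n.2 g⟩ : N) = n' := Subtype.ext hn'.symm
      rw [h2] at h1
      exact h1
    · intro hg
      funext n
      rw [H06.twist_def]
      exact hg n ⟨g * (n : G) * g⁻¹, ‹N.Normal›.conj_mem n n.2 g⟩ rfl

end Cfsg.Agent.S4837
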