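import Cfsg.Statements.S4840
import Mathlib
import Cfsg.Agent.Lib.H03.TCC
import Cfsg.Agent.Lib.H23.TwoClass7

set_option autoImplicit false
open Cfsg

namespace Cfsg.Agent.S4840

/-- Conclusion from the triviality of `p`-elements in the derived subgroup. -/
theorem conclude {Q : Type*} [Group Q] [Finite Q] {p : ℕ} [hp : Fact p.Prime]
    (hkey : ∀ y ∈ commutator Q, ∀ f : ℕ, orderOf y = p ^ f → y = 1) :
    Cfsg.HasNormalPComplement p Q ∧ ∀ P : Sylow p Q, IsMulCommutative (P : Subgroup Q) := by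
  classical
  have hcomm : ∀ (P : Sylow p Q) (a b : Q), b ∈ (P : Subgroup Q) → a * b * a⁻¹ * b⁻¹ ∈ (P : Subgroup Q) →
      a * b = b * a := by
    intro P a b _ hc
    have h1 : a * b * a⁻¹ * b⁻¹ ∈ commutator Q := by
      rw [commutator_def]
      exact Subgroup.commutator_mem_commutator (Subgroup.mem_top a) (Subgroup.mem_top b)
    obtain ⟨f, hf⟩ := (IsPGroup.iff_orderOf.1 P.isPGroup') ⟨_, hc⟩
    have h2 := hkey _ h1 f (by rw [← hf]; exact (Subgroup.orderOf_mk _ hc).symm)
    have h3 : a * b * a⁻¹ = b := by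
      rwa [mul_inv_eq_one] at h2
    calc a * b = a * b * a⁻¹ * a := by group
      _ = b * a := by rw [h3]
  constructor
  · obtain ⟨P⟩ : Nonempty (Sylow p Q) := inferInstance
    have hP : Subgroup.normalizer ((P : Subgroup Q) : Set Q) ≤ Subgroup.centralizer ((P : Subgroup Q) : Set Q) := by
      intro n hn
      rw [Subgroup.mem_centralizer_iff]
      intro b hb
      have hb' : b ∈ (P : Subgroup Q) := hb
      have h1 : n * b * n⁻¹ ∈ (P : Subgroup Q) := (Subgroup.mem_normalizer_iff.1 hn b).1 hb'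
      have h2 := hcomm P n b hb' (Subgroup.mul_mem _ h1 (Subgroup.inv_mem _ hb'))
      exact h2.symm
    exact ⟨P, _, MonoidHom.normal_ker _, MonoidHom.ker_transferSylow_isComplement' P hP⟩
  · intro P
    refine ⟨⟨fun a b => Subtype.ext ?_⟩⟩
    have hb := b.2
    exact hcomm P a b hb (Subgroup.mul_mem _ (Subgroup.mul_mem _ (Subgroup.mul_mem _ a.2 b.2)
      (Subgroup.inv_mem _ a.2)) (Subgroup.inv_mem _ b.2))

/-- The `p`-core of the quotient by the `p`-core is trivial. -/
theorem pCore_quot {G : Type*} [Group G] [Finite G] {p : ℕ} [hp : Fact p.Prime] :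
    Cfsg.pCore p (G ⧸ Cfsg.pCore p G) = ⊥ := by
  haveI hLn : (Cfsg.pCore p G).Normal := H01.pCore_normal p
  set L := Cfsg.pCore p G with hL
  set K := Cfsg.pCore p (G ⧸ L) with hK
  haveI hKn : K.Normal := H01.pCore_normal p
  have hKp : IsPGroup p K := H01.pCore_isPGroup p
  have hcomap : IsPGroup p (K.comap (QuotientGroup.mk' L)) := by
    exact hKp.comap_of_ker_isPGroup (QuotientGroup.mk' L) (by
      rw [QuotientGroup.ker_mk']; exact H01.pCore_isPGroup p)
  have hle : K.comap (QuotientGroup.mk' L) ≤ L := H01.le_pCore (Subgroup.Normal.comap hKn _) hcomap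
  rw [eq_bot_iff]
  intro x hx
  obtain ⟨g, rfl⟩ := QuotientGroup.mk_surjective x
  have h1 : g ∈ K.comap (QuotientGroup.mk' L) := hx
  exact (QuotientGroup.eq_one_iff g).2 (hle h1)

/-- Let G be a finite solvable group of order greater than 2 with an irreducible character nonzero on exactly two conjugacy classes. Then there is exactly one prime p with O_p(G) ≠ 1, and the quotient G/O_p(G) has a normal p-complement and commutative Sylow p-subgroups. -/
theorem result {G : Type*} [Group G] [Finite G] [hs : Group.IsSolvable G] (hG : 2 < Nat.card G) (χ : Cfsg.IrrCharacter G) (hχ : Nat.card {C : ConjClasses G // ∃ g ∈ C.carrier, (χ : G → ℂ) g ≠ 0} = 2) :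
    ∃ p : ℕ, p.Prime ∧ (∀ q : ℕ, q.Prime → (Cfsg.pCore q G ≠ ⊥ ↔ q = p)) ∧
      Cfsg.HasNormalPComplement p (G ⧸ Cfsg.pCore p G) ∧ ∀ Q : Sylow p (G ⧸ Cfsg.pCore p G), IsMulCommutative (Q : Subgroup (G ⧸ Cfsg.pCore p G)) := by
  classical
  haveI : Fintype G := Fintype.ofFinite _
  obtain ⟨x₀, hx₀⟩ := H23.exists_twoClass hG χ hχ
  let N := hx₀.suppSubgroup
  have h : H23.TC (χ : G → ℂ) x₀ N := ⟨hx₀, fun g => Iff.rfl⟩
  obtain ⟨p, hp, hpx⟩ := h.exists_prime
  haveI hpf : Fact p.Prime := ⟨hp⟩
  have hNp : IsPGroup p N := h.isPGroup hpx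
  haveI hNn : N.Normal := h.normal
  have hx₀1 := hx₀.ne_one
  refine ⟨p, hp, ?_, ?_⟩
  · intro q hq
    constructor
    · intro hne
      haveI hqf : Fact q.Prime := ⟨hq⟩
      haveI hRn : (Cfsg.pCore q G).Normal := H01.pCore_normal q
      have h1 : N ≤ Cfsg.pCore q G := h.le_of_normal _ hne
      have h2 : x₀ ∈ Cfsg.pCore q G := h1 h.x_mem
      obtain ⟨f, hf⟩ := IsPGroup.iff_orderOf.1 (H01.pCore_isPGroup q) ⟨x₀, h2⟩
      have h3 : orderOf x₀ = q ^ f := by
        rw [← hf]
        exact (Subgroup.orderOf_mk x₀ h2).symm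
      rw [hpx] at h3
      have h4 : q ∣ p := by
        rw [h3]
        rcases Nat.eq_zero_or_pos f with rfl | hf0
        · rw [pow_zero] at h3
          exact absurd h3 hp.one_lt.ne'
        · exact dvd_pow_self q hf0.ne'
      exact (Nat.prime_dvd_prime_iff_eq hq hp).1 h4
    · rintro rfl
      intro hbot
      have h1 : N ≤ Cfsg.pCore q G := H01.le_pCore hNn hNp
      rw [hbot] at h1
      exact hx₀1 (Subgroup.mem_bot.1 (h1 h.x_mem))
  -- the quotient
  haveI hLn : (Cfsg.pCore p G).Normal := H01.pCore_normal p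
  set L := Cfsg.pCore p G with hL
  have hLp : IsPGroup p L := H01.pCore_isPGroup p
  have hNL : N ≤ L := H01.le_pCore hNn hNp
  -- `L` centralises `N`
  have hLcent : ∀ l ∈ L, ∀ n ∈ N, l * n = n * l := by
    set K := L ⊓ Subgroup.centralizer (L : Set G) with hK
    haveI hcn : (Subgroup.centralizer (L : Set G)).Normal := Subgroup.normal_centralizer
    haveI hKn : K.Normal := Subgroup.normal_inf_normal _ _
    have hKne : K ≠ ⊥ := by
      haveI : Nontrivial L := ⟨⟨⟨x₀, hNL h.x_mem⟩, 1, fun he => hx₀1 (congrArg Subtype.val he)⟩⟩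
      haveI := hLp.center_nontrivial
      obtain ⟨c, hc⟩ := exists_ne (1 : Subgroup.center L)
      intro hbot
      have hcm : ((c : L) : G) ∈ K := by
        refine Subgroup.mem_inf.2 ⟨(c : L).2, ?_⟩
        rw [Subgroup.mem_centralizer_iff]
        intro l hl
        have h1 := (Subgroup.mem_center_iff.1 c.2) ⟨l, hl⟩
        exact congrArg Subtype.val h1
      rw [hbot] at hcm
      apply hc
      apply Subtype.ext
      apply Subtype.ext
      exact Subgroup.mem_bot.1 hcm
    have h1 : N ≤ K := h.le_of_normal K hKne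
    intro l hl n hn
    have h2 : n ∈ Subgroup.centralizer (L : Set G) := (Subgroup.mem_inf.1 (h1 hn)).2
    rw [Subgroup.mem_centralizer_iff] at h2
    exact h2 l hl
  have hCL : ∀ g : G, (∀ n ∈ N, g * n = n * g) → g ∈ L := by
    have h1 : IsPGroup p (Subgroup.centralizer (N : Set G)) := by
      apply (h.centralizer_isPGroup hNp).to_le
      apply Subgroup.centralizer_le
      simpa using h.x_mem
    have h2 : Subgroup.centralizer (N : Set G) ≤ L := H01.le_pCore Subgroup.normal_centralizer h1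
    intro g hg
    apply h2
    rw [Subgroup.mem_centralizer_iff]
    intro n hn
    exact (hg n hn).symm
  letI : CommGroup N := { (inferInstance : Group N) with
    mul_comm := fun a b => Subtype.ext (h.comm a.2 b.2) }
  let φ₀ : G →* MulAut N := MulAut.conjNormal
  have hφ₀ : ∀ (g : G) (n : N), ((φ₀ g n : N) : G) = g * n * g⁻¹ := fun _ _ => rfl
  have hker : ∀ l ∈ L, φ₀ l = 1 := by
    intro l hl
    ext n
    rw [hφ₀]
    show l * n * l⁻¹ = n
    rw [hLcent l hl n n.2, mul_inv_cancel_right]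
  let φ : G ⧸ L →* MulAut N := QuotientGroup.lift L φ₀ hker
  have hφ : ∀ (g : G) (n : N), ((φ (g : G ⧸ L) n : N) : G) = g * n * g⁻¹ := fun _ _ => rfl
  have hLT : Cfsg.Agent.H03.TC.LT p φ := by
    refine ⟨?_, ?_, ?_, ?_⟩
    · rw [injective_iff_map_eq_one]
      intro x hx
      obtain ⟨g, rfl⟩ := QuotientGroup.mk_surjective x
      rw [QuotientGroup.eq_one_iff]
      apply hCL
      intro n hn
      have h1 := hφ g ⟨n, hn⟩
      rw [hx] at h1
      have h2 : g * n * g⁻¹ = n := h1.symm
      rw [mul_inv_eq_iff_eq_mul] at h2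
      exact h2
    · intro v
      exact Subtype.ext (h.pow_eq_one hpx v.2)
    · intro v w hv hw
      have hv' : (v : G) ≠ 1 := fun he => hv (Subtype.ext he)
      have hw' : (w : G) ≠ 1 := fun he => hw (Subtype.ext he)
      have h1 : IsConj (v : G) (w : G) :=
        (h.conj_of_mem v.2 hv').symm.trans (h.conj_of_mem w.2 hw')
      obtain ⟨c, hc⟩ := isConj_iff.1 h1
      refine ⟨(c : G ⧸ L), Subtype.ext ?_⟩
      rw [hφ, hc]
    · intro v x hv hx
      obtain ⟨g, rfl⟩ := QuotientGroup.mk_surjective x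
      have hv' : (v : G) ≠ 1 := fun he => hv (Subtype.ext he)
      have h' := h.of_mem v.2 hv'
      have h1 : g ∈ Subgroup.centralizer ({(v : G)} : Set G) := by
        rw [Subgroup.mem_centralizer_singleton_iff]
        have h2 := hφ g v
        rw [hx] at h2
        have h3 : g * v * g⁻¹ = v := h2.symm
        rw [mul_inv_eq_iff_eq_mul] at h3
        exact h3
      obtain ⟨f, hf⟩ := IsPGroup.iff_orderOf.1 (h'.centralizer_isPGroup hNp) ⟨g, h1⟩
      have h2 : orderOf g = p ^ f := by
        rw [← hf]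
        exact (Subgroup.orderOf_mk g h1).symm
      have h3 : orderOf ((g : G ⧸ L)) ∣ p ^ f := by
        rw [← h2]
        exact orderOf_map_dvd (QuotientGroup.mk' L) g
      obtain ⟨j, -, hj⟩ := (Nat.dvd_prime_pow hp).1 h3
      exact ⟨j, hj⟩
  exact conclude (fun y hy f hf =>
    Cfsg.Agent.H03.TC.comm_pelt_trivial hLT pCore_quot hy hf)

end Cfsg.Agent.S4840
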