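import Cfsg.Statements.S4856
import Cfsg.Agent.Lib.H22.Ord
import Cfsg.Agent.Lib.H06.CharClifford

set_option autoImplicit false
open Cfsg

namespace Cfsg.Agent.S4856

open Cfsg.Agent Cfsg.Agent.H21
open scoped ComplexConjugate

/-- For an element z of a finite group G, the number of pairs (x, y) of elements with x y x⁻¹ y⁻¹ = z equals the order of G times the sum over the irreducible characters χ of χ(z)/χ(1). -/
theorem result {G : Type*} [Group G] [Finite G] (z : G) : (Nat.card {xy : G × G // xy.1 * xy.2 * xy.1⁻¹ * xy.2⁻¹ = z} : ℂ) = (Nat.card G : ℂ) * ∑ᶠ χ : Cfsg.IrrCharacter G, (χ : G → ℂ) z / (χ : G → ℂ) 1 := by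
  classical
  haveI : Fintype G := Fintype.ofFinite _
  haveI : Fintype (IrrCharacter G) := Fintype.ofFinite _
  rw [finsum_eq_sum_of_fintype]
  let N : G → ℂ := fun z => ∑ xy : G × G, if xy.1 * xy.2 * xy.1⁻¹ * xy.2⁻¹ = z then 1 else 0
  have hN : ∀ z, (Nat.card {xy : G × G // xy.1 * xy.2 * xy.1⁻¹ * xy.2⁻¹ = z} : ℂ) = N z := by
    intro z
    simp only [N]
    rw [Nat.card_eq_fintype_card, Fintype.card_subtype, Finset.sum_boole]
  have hcl : IsClassFunction G N := by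
    intro g k
    simp only [N]
    refine Fintype.sum_equiv (Equiv.prodCongr (MulAut.conj k⁻¹).toEquiv (MulAut.conj k⁻¹).toEquiv) _ _ fun xy => ?_
    simp only [Equiv.prodCongr_apply, Prod.map, MulEquiv.toEquiv_eq_coe, MulEquiv.coe_toEquiv, MulAut.conj_apply, inv_inv]
    have : (xy.1 * xy.2 * xy.1⁻¹ * xy.2⁻¹ = k * g * k⁻¹) ↔ (k⁻¹ * xy.1 * k * (k⁻¹ * xy.2 * k) * (k⁻¹ * xy.1 * k)⁻¹ * (k⁻¹ * xy.2 * k)⁻¹ = g) := by
      have e : k⁻¹ * xy.1 * k * (k⁻¹ * xy.2 * k) * (k⁻¹ * xy.1 * k)⁻¹ * (k⁻¹ * xy.2 * k)⁻¹ = k⁻¹ * (xy.1 * xy.2 * xy.1⁻¹ * xy.2⁻¹) * k := by group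
      rw [e]
      constructor
      · intro h; rw [h]; group
      · intro h; rw [← h]; group
    simp only [this]
  have hcard : (Nat.card G : ℂ) ≠ 0 := by exact_mod_cast Nat.card_pos.ne'
  have hinner : ∀ χ : IrrCharacter G, classInner N (χ : G → ℂ) = (Nat.card G : ℂ) / (χ : G → ℂ) 1 := by
    intro χ
    have h1 : ∑ z : G, N z * conj ((χ : G → ℂ) z) = ∑ xy : G × G, (χ : G → ℂ) (xy.2 * xy.1 * xy.2⁻¹ * xy.1⁻¹) := by
      simp only [N, Finset.sum_mul]
      rw [Finset.sum_comm]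
      refine Finset.sum_congr rfl fun xy _ => ?_
      rw [Finset.sum_eq_single (xy.1 * xy.2 * xy.1⁻¹ * xy.2⁻¹)]
      · rw [if_pos rfl, one_mul, ← isCharacter_inv (isCharacter_of_irr χ.2)]
        congr 1; group
      · intro b _ hb
        rw [if_neg (Ne.symm hb), zero_mul]
      · intro h; exact absurd (Finset.mem_univ _) h
    have h2 : ∑ xy : G × G, (χ : G → ℂ) (xy.2 * xy.1 * xy.2⁻¹ * xy.1⁻¹) = ∑ x : G, (Nat.card G : ℂ) * (χ : G → ℂ) x * (χ : G → ℂ) x⁻¹ / (χ : G → ℂ) 1 := by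
      rw [Fintype.sum_prod_type]
      refine Finset.sum_congr rfl fun x _ => ?_
      exact H22.sum_conj_mul_char χ x x⁻¹
    have h3 : ∑ x : G, (χ : G → ℂ) x * conj ((χ : G → ℂ) x) = (Nat.card G : ℂ) := by
      have := classInner_self_irr χ
      unfold classInner at this
      field_simp at this
      simpa using this
    have h0 : ((χ : G → ℂ) 1) ≠ 0 := H06.irr_one_ne_zero' χ.2
    unfold classInner
    rw [h1, h2]
    simp only [isCharacter_inv (isCharacter_of_irr χ.2)]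
    have h4 : ∑ x : G, (Nat.card G : ℂ) * (χ : G → ℂ) x * conj ((χ : G → ℂ) x) / (χ : G → ℂ) 1 = (Nat.card G : ℂ) * (∑ x : G, (χ : G → ℂ) x * conj ((χ : G → ℂ) x)) / (χ : G → ℂ) 1 := by
      rw [Finset.mul_sum, Finset.sum_div]
      refine Finset.sum_congr rfl fun x _ => ?_
      ring
    rw [h4, h3]
    field_simp
  rw [hN]
  have hexp := congrFun (classFunction_expansion N hcl) z
  rw [hexp]
  simp only [Finset.sum_apply, Pi.smul_apply, smul_eq_mul, hinner, Finset.mul_sum]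
  refine Finset.sum_congr rfl fun χ _ => ?_
  ring

end Cfsg.Agent.S4856
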