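import Cfsg.Statements.S4866
import Cfsg.Agent.Lib.H23.RealOrbits

set_option autoImplicit false
open Cfsg

namespace Cfsg.Agent.S4866

open Cfsg.Agent

/-- Let K be a normal subgroup of odd index in the finite group G. Then G has as many orbits on the real-valued irreducible complex characters of K (acting by conjugation) as it has orbits on the conjugacy classes of K that are real in K; equivalently, the number of G-orbits of real-valued irreducible characters of K equals the number of G-conjugacy classes of elements of K that are conjugate in K to their inverses. -/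
theorem result {G : Type*} [Group G] [Finite G] (K : Subgroup G) [K.Normal] (hodd : Odd K.index) : Nat.card (Quot (fun θ η : {θ : Cfsg.IrrCharacter ↥K // (∀ k : ↥K, ((θ : ↥K → ℂ) k).im = 0)} => ∃ g : G, ∀ k k' : ↥K, (k' : G) = g * (k : G) * g⁻¹ → (η.1 : ↥K → ℂ) k' = (θ.1 : ↥K → ℂ) k)) = Nat.card (Quot (fun x y : {x : ↥K // IsConj x x⁻¹} => ∃ g : G, (y.1 : G) = g * x.1 * g⁻¹)) := by
    classical
    haveI : Fintype G := Fintype.ofFinite _
    haveI : Fintype K := Fintype.ofFinite _
    letI a1 := H23.realIrrAction (G := G) K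
    letI a2 := H23.realClAction (G := G) K
    have hmain := H23.card_orbits_real_eq (G := G) K hodd
    have h1 : Nat.card (Quot (fun θ η : {θ : Cfsg.IrrCharacter ↥K // (∀ k : ↥K, ((θ : ↥K → ℂ) k).im = 0)} => ∃ g : G, ∀ k k' : ↥K, (k' : G) = g * (k : G) * g⁻¹ → (η.1 : ↥K → ℂ) k' = (θ.1 : ↥K → ℂ) k))
        = Nat.card (MulAction.orbitRel.Quotient G (H23.RealIrr K)) := by
      refine Nat.card_congr (Quot.congrRight (fun a b => ?_))
      change _ ↔ (MulAction.orbitRel G (H23.RealIrr K)) a b
      rw [MulAction.orbitRel_apply, MulAction.mem_orbit_iff]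
      constructor
      · rintro ⟨g, hg⟩
        refine ⟨g⁻¹, ?_⟩
        apply Subtype.ext; apply Subtype.ext
        funext k
        have h2 := hg k ⟨g * k * g⁻¹, (inferInstance : K.Normal).conj_mem k k.2 g⟩ rfl
        refine Eq.trans ?_ h2
        change b.1.1 ⟨(g⁻¹)⁻¹ * k * (g⁻¹)⁻¹⁻¹, _⟩ = _
        congr 2
        simp
      · rintro ⟨x, hx⟩
        refine ⟨x⁻¹, fun k k' hk => ?_⟩
        have h2 := congrFun (congrArg (fun y : H23.RealIrr K => y.1.1) hx) k
        have h3 : k' = ⟨x⁻¹ * k * x⁻¹⁻¹, (inferInstance : K.Normal).conj_mem k k.2 x⁻¹⟩ := Subtype.ext hk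
        rw [h3]
        exact h2
    have h2 : Nat.card (Quot (fun x y : {x : ↥K // IsConj x x⁻¹} => ∃ g : G, (y.1 : G) = g * x.1 * g⁻¹))
        = Nat.card (MulAction.orbitRel.Quotient G (H23.RealCl K)) := by
      have hreal : ∀ x : {x : ↥K // IsConj x x⁻¹}, ∀ r, ConjClasses.mk r = ConjClasses.mk x.1 → IsConj r r⁻¹ := by
        intro x r hr
        have h3 : IsConj r x.1 := ConjClasses.mk_eq_mk_iff_isConj.1 hr
        exact h3.trans (x.2.trans (H23.isConj_inv_inv h3.symm))
      let f : Quot (fun x y : {x : ↥K // IsConj x x⁻¹} => ∃ g : G, (y.1 : G) = g * x.1 * g⁻¹) →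
          MulAction.orbitRel.Quotient G (H23.RealCl K) :=
        Quot.lift (fun x => Quotient.mk (MulAction.orbitRel G (H23.RealCl K)) ⟨ConjClasses.mk x.1, hreal x⟩) (by
          rintro x y ⟨g, hg⟩
          apply Quotient.sound
          change (MulAction.orbitRel G (H23.RealCl K)) _ _
          rw [MulAction.orbitRel_apply, MulAction.mem_orbit_iff]
          refine ⟨g⁻¹, ?_⟩
          apply Subtype.ext
          change ConjClasses.mk (MulAut.conjNormal g⁻¹ y.1) = ConjClasses.mk x.1
          congr 1
          apply Subtype.ext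
          rw [MulAut.conjNormal_apply, hg]
          group)
      refine Nat.card_congr (Equiv.ofBijective f ⟨?_, ?_⟩)
      · intro a b
        induction a using Quot.ind with
        | mk x =>
        induction b using Quot.ind with
        | mk y =>
        intro hab
        have h3 : (MulAction.orbitRel G (H23.RealCl K)) _ _ := Quotient.exact hab
        rw [MulAction.orbitRel_apply, MulAction.mem_orbit_iff] at h3
        obtain ⟨g, hg⟩ := h3
        have h4 : ConjClasses.mk (MulAut.conjNormal g y.1) = ConjClasses.mk x.1 :=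
          congrArg Subtype.val hg
        have h5 : IsConj (MulAut.conjNormal g y.1 : K) x.1 := ConjClasses.mk_eq_mk_iff_isConj.1 h4
        obtain ⟨c, hc⟩ := isConj_iff.1 h5
        symm
        apply Quot.sound
        refine ⟨(c : G) * g, ?_⟩
        have h6 := congrArg Subtype.val hc
        simp only [Subgroup.coe_mul, Subgroup.coe_inv, MulAut.conjNormal_apply] at h6
        rw [← h6]
        group
      · intro b
        induction b using Quotient.ind with
        | _ C =>
        obtain ⟨C, hC⟩ := C
        obtain ⟨r, rfl⟩ := ConjClasses.mk_surjective C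
        exact ⟨Quot.mk _ ⟨r, hC r rfl⟩, rfl⟩
    rw [h1, h2]
    exact hmain

end Cfsg.Agent.S4866
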