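import Cfsg.Statements.S4870
import Cfsg.Agent.Lib.H23.LinInd

set_option autoImplicit false
open Cfsg

namespace Cfsg.Agent.S4870

open Cfsg.Agent

/-- Let G be a finite group with a non-abelian minimal normal subgroup N, and let φ be an irreducible complex character of N with stabilizer I in G (the elements g with φ(g n g⁻¹) = φ(n) for all n ∈ N) such that φ extends to an irreducible character of I. Put d = φ(1)·[G : I]. Then the number of linear characters of G is at most [G : I] times the number of irreducible characters of G of degree d. -/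
theorem result {G : Type*} [Group G] [Finite G] (N : Subgroup G) (hN : N.Normal) (hN1 : N ≠ ⊥) (hmin : ∀ M : Subgroup G, M.Normal → M ≤ N → M = ⊥ ∨ M = N) (hna : ¬ IsMulCommutative ↥N) (φ : Cfsg.IrrCharacter ↥N) (I : Subgroup G) (hI : ∀ g : G, g ∈ I ↔ ∀ n n' : ↥N, (n' : G) = g * (n : G) * g⁻¹ → (φ : ↥N → ℂ) n' = (φ : ↥N → ℂ) n) (hNI : N ≤ I) (hext : ∃ ψ : Cfsg.IrrCharacter ↥I, ∀ n : ↥N, (ψ : ↥I → ℂ) (Subgroup.inclusion hNI n) = (φ : ↥N → ℂ) n) : Nat.card {χ : Cfsg.IrrCharacter G // Cfsg.charDegree (χ : G → ℂ) = 1} ≤ I.index * Nat.card {χ : Cfsg.IrrCharacter G // Cfsg.charDegree (χ : G → ℂ) = Cfsg.charDegree (φ : ↥N → ℂ) * I.index} := by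
    classical
    haveI : Fintype G := Fintype.ofFinite _
    haveI : Fintype N := Fintype.ofFinite _
    haveI : Fintype I := Fintype.ofFinite _
    haveI : Fintype (Cfsg.IrrCharacter G) := Fintype.ofFinite _
    haveI := hN
    obtain ⟨ψ, hψ⟩ := hext
    have hT : ∀ g : G, g ∈ I ↔ ∀ h : N, φ.1 ⟨g * h * g⁻¹, hN.conj_mem h h.2 g⟩ = φ.1 h := by
      intro g
      rw [hI g]
      constructor
      · intro h n
        exact h n _ rfl
      · intro h n n' hn'
        have h1 : n' = ⟨g * n * g⁻¹, hN.conj_mem n n.2 g⟩ := Subtype.ext hn'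
        rw [h1]
        exact h n
    have hExt : H23.IsIrrExt N I hNI φ.1 ψ.1 := ⟨ψ.2, hψ⟩
    rw [Nat.card_eq_fintype_card, Nat.card_eq_fintype_card, Fintype.card_subtype, Fintype.card_subtype]
    refine H23.card_linear_ind_le hNI φ.2 hT hExt _ _ ?_ ?_
    · intro l hl
      have hl1 := (Finset.mem_filter.1 hl).2
      exact ⟨hl1, H23.linear_trivial_of_minimal hmin hna l hl1⟩
    · intro l hl
      have hl1 := (Finset.mem_filter.1 hl).2
      have h2 := hExt.linear_mul (H21.isCharacter_of_irr l.2) hl1 (H23.linear_trivial_of_minimal hmin hna l hl1)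
      refine ⟨⟨_, h2.ind_irr φ.2 hT⟩, ?_, rfl⟩
      exact Finset.mem_filter.2 ⟨Finset.mem_univ _, h2.degree φ.2⟩

end Cfsg.Agent.S4870
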