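import Cfsg.Statements.S4871
import Cfsg.Agent.Lib.H23.AcdTwo

set_option autoImplicit false
open Cfsg

namespace Cfsg.Agent.S4871

open Cfsg.Agent

/-- Let G be a finite group that is the semidirect product of a normal elementary abelian subgroup N of odd order by a non-trivial 2-subgroup P, with N the unique minimal normal subgroup of G. Consider the strongly real irreducible complex characters of G (Frobenius–Schur indicator +1) whose degree is 1 or even. Then their average degree is at least 4/3: four times their number is at most three times the sum of their degrees. -/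
theorem result {G : Type*} [Group G] [Finite G] (N P : Subgroup G) (hN : N.Normal) (q : ℕ) [Fact q.Prime] (hq : q ≠ 2) (hNel : Cfsg.IsElementaryAbelian q N) (hP : IsPGroup 2 ↥P) (hP1 : P ≠ ⊥) (hdisj : N ⊓ P = ⊥) (hprod : N ⊔ P = ⊤) (hmin : N ≠ ⊥ ∧ ∀ M : Subgroup G, M.Normal → M ≠ ⊥ → N ≤ M) : 4 * Nat.card {χ : Cfsg.IrrCharacter G // (Cfsg.charDegree (χ : G → ℂ) = 1 ∨ 2 ∣ Cfsg.charDegree (χ : G → ℂ)) ∧ (Nat.card G : ℂ)⁻¹ * ∑ᶠ g : G, (χ : G → ℂ) (g * g) = 1} ≤ 3 * (∑ᶠ χ : {χ : Cfsg.IrrCharacter G // (Cfsg.charDegree (χ : G → ℂ) = 1 ∨ 2 ∣ Cfsg.charDegree (χ : G → ℂ)) ∧ (Nat.card G : ℂ)⁻¹ * ∑ᶠ g : G, (χ : G → ℂ) (g * g) = 1}, Cfsg.charDegree (χ.1 : G → ℂ)) := by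
    classical
    haveI : Fintype G := Fintype.ofFinite _
    haveI : Fintype N := Fintype.ofFinite _
    haveI : Fintype P := Fintype.ofFinite _
    haveI : Fintype (Cfsg.IrrCharacter G) := Fintype.ofFinite _
    haveI := hN
    have hab : ∀ a b : N, a * b = b * a := fun a b => hNel.1.is_comm.comm a b
    have hcomp : Subgroup.IsComplement' N P :=
      Subgroup.isComplement'_of_disjoint_and_mul_eq_univ (disjoint_iff.2 hdisj) (by
        rw [← Subgroup.normal_mul, hprod]; rfl)
    -- an involution
    obtain ⟨z, hzo⟩ : ∃ z : P, orderOf z = 2 := by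
      obtain ⟨k, hk⟩ := IsPGroup.iff_card.1 hP
      have h2 : 2 ∣ Nat.card P := by
        rw [hk]
        refine dvd_pow_self 2 ?_
        rintro rfl
        apply hP1
        have h1 : Nat.card P = 1 := by simpa using hk
        exact (Subgroup.card_eq_one).1 h1
      exact exists_prime_orderOf_dvd_card' 2 h2
    have hz2 : (z : G) * z = 1 := by
      have h1 := pow_orderOf_eq_one z
      rw [hzo, sq] at h1
      exact congrArg Subtype.val h1
    have hzne : (z : G) ≠ 1 := by
      intro h
      have h1 : z = 1 := Subtype.ext h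
      rw [h1, orderOf_one] at hzo
      omega
    have hzinv : (z : G)⁻¹ = z := inv_eq_of_mul_eq_one_left hz2
    -- nontrivial action
    obtain ⟨n₀, hn₀⟩ : ∃ n₀ : N, (n₀ : G) * z ≠ z * n₀ := by
      by_contra hc
      push Not at hc
      have hC : (P ⊓ Subgroup.centralizer (N : Set G)).Normal := by
        refine ⟨fun c hc' g => ?_⟩
        obtain ⟨hcP, hcC⟩ := Subgroup.mem_inf.1 hc'
        obtain ⟨⟨n, p⟩, rfl⟩ := hcomp.2 g
        simp only
        have hcomm : ∀ m ∈ N, m * ((p : G) * c * (p : G)⁻¹) = ((p : G) * c * (p : G)⁻¹) * m := by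
          intro m hm
          have h1 : (p : G)⁻¹ * m * (p : G) ∈ N := by
            have := hN.conj_mem m hm (p : G)⁻¹
            simpa using this
          have h2 := Subgroup.mem_centralizer_iff.1 hcC _ h1
          calc m * ((p : G) * c * (p : G)⁻¹) = (p : G) * (((p : G)⁻¹ * m * (p : G)) * c) * (p : G)⁻¹ := by group
            _ = (p : G) * (c * ((p : G)⁻¹ * m * (p : G))) * (p : G)⁻¹ := by rw [h2]
            _ = _ := by group
        have h3 : ((n : G) * (p : G)) * c * ((n : G) * (p : G))⁻¹ = (p : G) * c * (p : G)⁻¹ := by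
          have h4 := hcomm n n.2
          calc ((n : G) * (p : G)) * c * ((n : G) * (p : G))⁻¹
              = (n : G) * ((p : G) * c * (p : G)⁻¹) * (n : G)⁻¹ := by group
            _ = ((p : G) * c * (p : G)⁻¹) * (n : G) * (n : G)⁻¹ := by rw [h4]
            _ = _ := by group
        rw [h3]
        refine Subgroup.mem_inf.2 ⟨P.mul_mem (P.mul_mem p.2 hcP) (P.inv_mem p.2), ?_⟩
        exact Subgroup.mem_centralizer_iff.2 hcomm
      have hne : P ⊓ Subgroup.centralizer (N : Set G) ≠ ⊥ := by
        intro h0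
        have h1 : (z : G) ∈ P ⊓ Subgroup.centralizer (N : Set G) :=
          Subgroup.mem_inf.2 ⟨z.2, Subgroup.mem_centralizer_iff.2 fun m hm => hc ⟨m, hm⟩⟩
        rw [h0] at h1
        exact hzne (Subgroup.mem_bot.1 h1)
      have h1 := hmin.2 _ hC hne
      apply hmin.1
      rw [eq_bot_iff, ← hdisj]
      exact le_inf le_rfl (le_trans h1 inf_le_left)
    -- the linear character
    have hn₀M : n₀ ∉ (Subgroup.centralizer ({(z : G)} : Set G)).subgroupOf N := by
      rw [Subgroup.mem_subgroupOf, Subgroup.mem_centralizer_singleton_iff]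
      exact hn₀
    obtain ⟨ω, hω1, hω2⟩ := H06.exists_hom_trivial_ne hab _ hn₀M
    have hzω : ∀ n : N, ω n * ω (MulAut.conjNormal (z : G) n) = 1 := by
      intro n
      rw [← map_mul]
      apply hω1
      rw [Subgroup.mem_subgroupOf, Subgroup.mem_centralizer_singleton_iff]
      simp only [Subgroup.coe_mul, MulAut.conjNormal_apply, hzinv]
      have h1 : ∀ a b : N, (a : G) * b = b * a := fun a b => congrArg Subtype.val (hab a b)
      have h2 := h1 n (MulAut.conjNormal (z : G) n)
      simp only [MulAut.conjNormal_apply, hzinv] at h2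
      calc (n : G) * ((z : G) * n * z) * z = (n : G) * ((z : G) * n) * ((z : G) * z) := by group
        _ = (n : G) * ((z : G) * n) := by rw [hz2, mul_one]
        _ = (n : G) * ((z : G) * n * z) * z := by
            rw [mul_assoc (n : G), mul_assoc (z : G) (n : G) (z : G), mul_assoc (z : G) ((n : G) * z) z, mul_assoc (n : G) z z, hz2, mul_one]
        _ = ((z : G) * n * z) * (n : G) * z := by rw [h2]
        _ = (z : G) * ((n : G) * z * n * z) := by group
        _ = (z : G) * ((n : G) * ((z : G) * n * z)) := by group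
    have hqodd : ∃ k, q = 2 * k + 1 := by
      obtain ⟨k, hk⟩ := (Fact.out : q.Prime).odd_of_ne_two hq
      exact ⟨k, hk⟩
    obtain ⟨k, hk⟩ := hqodd
    have hNq : ∀ n : N, n ^ q = 1 := fun n => Subtype.ext (by simpa using hNel.2 n n.2)
    let T : Subgroup G := H23.stabT ω
    have hNT : N ≤ T := H23.le_stabT hab ω
    haveI : Fintype T := Fintype.ofFinite _
    let φ : N → ℂ := fun n => (ω n : ℂ)
    have hφ : IsIrrCharacter N φ := H23.isIrrCharacter_hom ω
    have hT : ∀ g : G, g ∈ T ↔ ∀ h : N, φ ⟨g * h * g⁻¹, hN.conj_mem h h.2 g⟩ = φ h := by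
      intro g
      constructor
      · intro hg h
        have h1 := hg h
        have h2 : MulAut.conjNormal g h = ⟨g * h * g⁻¹, hN.conj_mem h h.2 g⟩ := Subtype.ext (by
          simp [MulAut.conjNormal_apply])
        rw [h2] at h1
        exact congrArg Units.val h1
      · intro hg h
        have h2 : MulAut.conjNormal g h = ⟨g * h * g⁻¹, hN.conj_mem h h.2 g⟩ := Subtype.ext (by
          simp [MulAut.conjNormal_apply])
        rw [h2]
        exact Units.ext (hg h)
    let ψ : T → ℂ := fun t => (H23.zetaHom hcomp hab ω t : ℂ)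
    have hExt : H23.IsIrrExt N T hNT φ ψ := by
      refine ⟨H23.isIrrCharacter_hom _, fun n => ?_⟩
      change ((ω (H23.compN hcomp (n : G)) : ℂˣ) : ℂ) = _
      rw [H23.compN_of_mem]
    -- `z` does not stabilise `ω`
    have hzT : (z : G) ∉ T := by
      intro hz
      have h1 : ∀ n : N, ω n * ω n = 1 := fun n => by
        have h2 := hzω n
        rwa [hz n] at h2
      apply hω2
      have h3 := congrArg ω (hNq n₀)
      rw [map_pow, map_one, hk, pow_succ, pow_mul, sq, h1, one_pow, one_mul] at h3
      exact h3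
    -- the index
    have hd1 : T.index ≠ 1 := by
      intro h
      rw [Subgroup.index_eq_one] at h
      apply hzT
      rw [h]
      exact Subgroup.mem_top _
    have hd2 : 2 ∣ T.index := by
      obtain ⟨j, hj⟩ := IsPGroup.iff_card.1 hP
      have h1 : T.index ∣ N.index := Subgroup.index_dvd_of_le hNT
      have h2 : N.index = Nat.card P := by
        exact hcomp.symm.index_eq_card
      rw [h2, hj] at h1
      obtain ⟨i, -, hi⟩ := (Nat.dvd_prime_pow Nat.prime_two).1 h1
      rw [hi]
      refine dvd_pow_self 2 ?_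
      rintro rfl
      exact hd1 (by simpa using hi)
    have hd0 : T.index ≠ 0 := Subgroup.index_ne_zero_of_finite
    obtain ⟨e, he⟩ : ∃ e, T.index = e + 2 := by
      obtain ⟨c, hc⟩ := hd2
      refine ⟨T.index - 2, ?_⟩
      have : c ≠ 0 := by
        rintro rfl
        exact hd0 (by simpa using hc)
      omega
    -- linear characters with indicator one
    have hreal : ∀ l : Cfsg.IrrCharacter G, H23.fsInd l.1 = 1 → charDegree l.1 = 1 →
        (∀ g, l.1 (g * g) = 1) ∧ (∀ n ∈ N, l.1 n = 1) := by
      intro l hl2 hl1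
      have hlc := H21.isCharacter_of_irr l.2
      have hlr := H23.real_of_fsInd_ne_zero l (by rw [hl2]; norm_num)
      have hsq : ∀ g : G, l.1 (g * g) = 1 := by
        intro g
        rw [H21.linear_mul hlc hl1]
        have h3 : l.1 g * (starRingEnd ℂ) (l.1 g) = 1 := by
          rw [Complex.mul_conj, Complex.normSq_eq_norm_sq, H21.linear_norm hlc hl1]
          simp
        rwa [hlr g] at h3
      refine ⟨hsq, fun n hn => ?_⟩
      have h1 := hNq ⟨n, hn⟩
      have h2 : n ^ q = 1 := congrArg Subtype.val h1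
      have h3 : l.1 (n ^ q) = (l.1 n) ^ q := by
        have hp : ∀ m : ℕ, l.1 (n ^ m) = (l.1 n) ^ m := by
          intro m
          induction m with
          | zero => simp [H21.linear_one hlc hl1]
          | succ m ih => rw [pow_succ, H21.linear_mul hlc hl1, ih, pow_succ]
        exact hp q
      rw [h2, H21.linear_one hlc hl1, hk, pow_succ, pow_mul, sq, ← H21.linear_mul hlc hl1, hsq n, one_pow, one_mul] at h3
      exact h3.symm
    have e' : ∀ (p : Cfsg.IrrCharacter G → Prop) [DecidablePred p], Nat.card {χ // p χ} = (Finset.univ.filter p).card := fun p _ => by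
      rw [Nat.card_eq_fintype_card, Fintype.card_subtype]
    let Q : Cfsg.IrrCharacter G → Prop := fun χ => (charDegree χ.1 = 1 ∨ 2 ∣ charDegree χ.1) ∧ (Nat.card G : ℂ)⁻¹ * ∑ᶠ g : G, χ.1 (g * g) = 1
    change 4 * Nat.card {χ // Q χ} ≤ 3 * ∑ᶠ χ : {χ // Q χ}, charDegree χ.1.1
    rw [finsum_eq_sum_of_fintype]
    have hsum : ∑ χ : {χ // Q χ}, charDegree χ.1.1 = ∑ χ ∈ Finset.univ.filter Q, charDegree χ.1 := by
      rw [Finset.sum_subtype (Finset.univ.filter Q) (p := Q) (f := fun χ : Cfsg.IrrCharacter G => charDegree χ.1)]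
      intro x
      simp
    rw [hsum, e']
    set S := Finset.univ.filter Q with hS
    set L := S.filter (fun χ => charDegree χ.1 = 1) with hL
    set B := S.filter (fun χ => ¬ charDegree χ.1 = 1) with hB
    set S₂ := B.filter (fun χ => charDegree χ.1 = T.index) with hS₂
    have hcard : S.card = L.card + B.card := (Finset.card_filter_add_card_filter_not _).symm
    have hsumS : ∑ χ ∈ S, charDegree χ.1 = ∑ χ ∈ L, charDegree χ.1 + ∑ χ ∈ B, charDegree χ.1 :=
      (Finset.sum_filter_add_sum_filter_not _ _ _).symm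
    have hLs : ∑ χ ∈ L, charDegree χ.1 = L.card := by
      rw [Finset.card_eq_sum_ones]
      exact Finset.sum_congr rfl fun χ hχ => (Finset.mem_filter.1 hχ).2
    have hQfs : ∀ χ ∈ S, H23.fsInd χ.1 = 1 := by
      intro χ hχ
      have h1 : Q χ := (Finset.mem_filter.1 hχ).2
      have h2 := h1.2
      rw [finsum_eq_sum_of_fintype] at h2
      exact h2
    have hlL : L.card ≤ T.index * S₂.card := by
      refine H23.card_linear_ind_le hNT hφ hT hExt L S₂ ?_ ?_
      · intro l hl
        have h1 := Finset.mem_filter.1 hl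
        exact ⟨h1.2, (hreal l (hQfs l h1.1) h1.2).2⟩
      · intro l hl
        have h1 := Finset.mem_filter.1 hl
        have h2 := hreal l (hQfs l h1.1) h1.2
        have hlc := H21.isCharacter_of_irr l.2
        have hE := hExt.linear_mul hlc h1.2 h2.2
        let y : Cfsg.IrrCharacter G := ⟨indFun T (fun i : T => l.1 i * ψ i), hE.ind_irr hφ hT⟩
        have hydeg : charDegree y.1 = T.index := by
          have := hE.degree hφ
          rw [show charDegree φ = 1 from H23.charDegree_hom ω, one_mul] at this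
          exact this
        have hyfs : H23.fsInd y.1 = 1 := H23.fsInd_ind_zeta hcomp hab ω z hz2 hzω l.1 h2.1
        refine ⟨y, ?_, rfl⟩
        refine Finset.mem_filter.2 ⟨Finset.mem_filter.2 ⟨Finset.mem_filter.2 ⟨Finset.mem_univ _, Or.inr (hydeg ▸ hd2), by
          rw [finsum_eq_sum_of_fintype]
          exact hyfs⟩, ?_⟩, hydeg⟩
        rw [hydeg]
        exact hd1
    have hs2B : S₂.card ≤ B.card := Finset.card_filter_le _ _
    have hBs : 2 * B.card + e * S₂.card ≤ ∑ χ ∈ B, charDegree χ.1 := by
      have h1 : ∑ χ ∈ B, (2 + (if charDegree χ.1 = T.index then e else 0)) ≤ ∑ χ ∈ B, charDegree χ.1 := by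
        refine Finset.sum_le_sum fun χ hχ => ?_
        have h2 := Finset.mem_filter.1 hχ
        have h3 : Q χ := (Finset.mem_filter.1 h2.1).2
        have h4 : 2 ∣ charDegree χ.1 := h3.1.resolve_left h2.2
        have h5 := H21.irr_charDegree_pos χ.2
        split_ifs with h6
        · rw [h6, he]; omega
        · obtain ⟨c, hc⟩ := h4
          omega
      rw [Finset.sum_add_distrib, Finset.sum_const, smul_eq_mul, Finset.sum_ite, Finset.sum_const, Finset.sum_const_zero, smul_eq_mul] at h1
      have h7 : B.card * 2 = 2 * B.card := mul_comm _ _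
      have h8 : S₂.card * e = e * S₂.card := mul_comm _ _
      rw [← hS₂] at h1
      omega
    rw [hcard, hsumS, hLs]
    rw [he] at hlL
    nlinarith [Nat.zero_le (e * S₂.card)]

end Cfsg.Agent.S4871
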