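import Cfsg.Statements.S4873
import Cfsg.Agent.Lib.H23.RealOver

set_option autoImplicit false
open Cfsg

namespace Cfsg.Agent.S4873

open Cfsg.Agent

/-- Let N be a normal subgroup of odd index in the finite group G. Then every irreducible complex character of N with Frobenius–Schur indicator +1 lies under exactly one irreducible character of G with Frobenius–Schur indicator +1. -/
theorem result {G : Type*} [Group G] [Finite G] (N : Subgroup G) [N.Normal] (hodd : Odd N.index) (φ : Cfsg.IrrCharacter ↥N) (hφ : (Nat.card ↥N : ℂ)⁻¹ * ∑ᶠ g : ↥N, (φ : ↥N → ℂ) (g * g) = 1) : ∃! χ : Cfsg.IrrCharacter G, (Nat.card G : ℂ)⁻¹ * ∑ᶠ g : G, (χ : G → ℂ) (g * g) = 1 ∧ (∑ᶠ n : ↥N, (χ : G → ℂ) n * (starRingEnd ℂ) ((φ : ↥N → ℂ) n)) ≠ 0 := by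
    classical
    haveI : Fintype G := Fintype.ofFinite _
    haveI : Fintype N := Fintype.ofFinite _
    haveI : Fintype (Cfsg.IrrCharacter G) := Fintype.ofFinite _
    haveI : Fintype (Cfsg.IrrCharacter N) := Fintype.ofFinite _
    have hν : H23.fsInd φ.1 = 1 := by
      simpa only [H23.fsInd, finsum_eq_sum_of_fintype] using hφ
    have hNne : (Nat.card N : ℂ) ≠ 0 := by exact_mod_cast Nat.card_pos.ne'
    have key : ∀ χ : Cfsg.IrrCharacter G, ((∑ᶠ n : N, (χ : G → ℂ) n * (starRingEnd ℂ) ((φ : N → ℂ) n)) ≠ 0) ↔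
        Cfsg.classInner (fun n : N => χ.1 n) φ.1 ≠ 0 := by
      intro χ
      rw [finsum_eq_sum_of_fintype, Cfsg.classInner]
      simp [hNne]
    obtain ⟨χ₀, ⟨h1, h2⟩, h3⟩ := H23.existsUnique_fs_over (G := G) N hodd φ hν
    refine ⟨χ₀, ⟨?_, (key χ₀).2 h2⟩, ?_⟩
    · simpa only [H23.fsInd, finsum_eq_sum_of_fintype] using h1
    · rintro χ ⟨h4, h5⟩
      refine h3 χ ⟨?_, (key χ).1 h5⟩
      simpa only [H23.fsInd, finsum_eq_sum_of_fintype] using h4

end Cfsg.Agent.S4873
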