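import Cfsg.Statements.S4911
import Cfsg.Agent.Lib.H23.RealGlaub

set_option autoImplicit false
open Cfsg

namespace Cfsg.Agent.S4911

open Cfsg.Agent

/-- Let P and K be subgroups of a finite group with P a p-group normalizing K and K of order prime to p. Then the number of P-invariant real-valued irreducible complex characters of K equals the number of conjugacy classes of K that are real (closed under inversion) and P-invariant. Moreover, if every real-valued irreducible character of K is P-invariant, then every real element of K (one conjugate in K to its inverse) is conjugate in K to an element centralized by P. -/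
theorem result {G : Type*} [Group G] [Finite G] (p : ℕ) [Fact p.Prime] (P K : Subgroup G) (hP : IsPGroup p ↥P) (hK : ¬ p ∣ Nat.card ↥K) (hPK : P ≤ Subgroup.normalizer (K : Set G)) : Nat.card {θ : Cfsg.IrrCharacter ↥K // (∀ k : ↥K, ((θ : ↥K → ℂ) k).im = 0) ∧ (∀ x ∈ P, ∀ k k' : ↥K, (k' : G) = x * (k : G) * x⁻¹ → (θ : ↥K → ℂ) k' = (θ : ↥K → ℂ) k)} = Nat.card {c : ConjClasses ↥K // (∀ k : ↥K, ConjClasses.mk k = c → IsConj k k⁻¹) ∧ ∀ k : ↥K, ConjClasses.mk k = c → ∀ x ∈ P, ∀ k' : ↥K, (k' : G) = x * (k : G) * x⁻¹ → ConjClasses.mk k' = c} ∧ ((∀ θ : Cfsg.IrrCharacter ↥K, (∀ k : ↥K, ((θ : ↥K → ℂ) k).im = 0) → (∀ x ∈ P, ∀ k k' : ↥K, (k' : G) = x * (k : G) * x⁻¹ → (θ : ↥K → ℂ) k' = (θ : ↥K → ℂ) k)) → ∀ k : ↥K, IsConj k k⁻¹ → ∃ k' : ↥K, IsConj k k' ∧ ∀ x ∈ P, x * (k' : G) * x⁻¹ = (k' : G)) := by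
  classical
  haveI : Fintype K := Fintype.ofFinite _
  have hnorm : ∀ s ∈ P, ∀ g ∈ K, s * g * s⁻¹ ∈ K := by
    intro s hs g hg
    have := hPK hs
    rw [Subgroup.mem_normalizer_iff] at this
    exact (this g).1 hg
  let φ := H21.conjHom K P hnorm
  let Cs : Subgroup K := H21.fixedSub (Set.range φ)
  haveI : Fintype Cs := Fintype.ofFinite _
  haveI : Fintype (Cfsg.IrrCharacter K) := Fintype.ofFinite _
  haveI : Fintype (Cfsg.IrrCharacter Cs) := Fintype.ofFinite _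
  have hset : H21.CopSetup φ Cs.subtype p := by
    refine ⟨Subtype.val_injective, ?_, hP, hK⟩
    intro g
    constructor
    · intro h
      refine ⟨⟨g, ?_⟩, rfl⟩
      rintro _ ⟨t, rfl⟩
      exact h t
    · rintro ⟨c, rfl⟩ a
      exact c.2 _ ⟨a, rfl⟩
  have h1 := H23.card_real_inv hset
  have h2 := H23.card_real_inv_class hset
  have h3 := H23.card_real_irr_eq (G := Cs)
  have hinvχ : ∀ θ : Cfsg.IrrCharacter K, (∀ x ∈ P, ∀ k k' : ↥K, (k' : G) = x * (k : G) * x⁻¹ → (θ : ↥K → ℂ) k' = (θ : ↥K → ℂ) k) ↔ ∀ (a : P) g, θ.1 (φ a g) = θ.1 g := fun θ => H21.inv_iff K P hnorm θ.1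
  have hinvc : ∀ c : ConjClasses K, (∀ k : ↥K, ConjClasses.mk k = c → ∀ x ∈ P, ∀ k' : ↥K, (k' : G) = x * (k : G) * x⁻¹ → ConjClasses.mk k' = c) ↔ ∀ (a : P) g, ConjClasses.mk g = c → ConjClasses.mk (φ a g) = c := by
    intro c
    constructor
    · intro h a g hg
      exact h g hg a.1 a.2 _ rfl
    · intro h k hk x hx k' hk'
      have : k' = φ ⟨x, hx⟩ k := Subtype.ext hk'
      rw [this]
      exact h ⟨x, hx⟩ k hk
  have e1 : Nat.card {θ : Cfsg.IrrCharacter ↥K // (∀ k : ↥K, ((θ : ↥K → ℂ) k).im = 0) ∧ (∀ x ∈ P, ∀ k k' : ↥K, (k' : G) = x * (k : G) * x⁻¹ → (θ : ↥K → ℂ) k' = (θ : ↥K → ℂ) k)} = Nat.card {χ : Cfsg.IrrCharacter K // (∀ g, (χ.1 g).im = 0) ∧ ∀ (a : P) g, χ.1 (φ a g) = χ.1 g} := by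
    apply Nat.card_congr
    apply Equiv.subtypeEquivRight
    intro θ
    rw [hinvχ θ]
  have e2 : Nat.card {c : ConjClasses ↥K // (∀ k : ↥K, ConjClasses.mk k = c → IsConj k k⁻¹) ∧ ∀ k : ↥K, ConjClasses.mk k = c → ∀ x ∈ P, ∀ k' : ↥K, (k' : G) = x * (k : G) * x⁻¹ → ConjClasses.mk k' = c} = Nat.card {K' : ConjClasses K // (∀ g, ConjClasses.mk g = K' → IsConj g g⁻¹) ∧ ∀ (a : P) g, ConjClasses.mk g = K' → ConjClasses.mk (φ a g) = K'} := by
    apply Nat.card_congr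
    apply Equiv.subtypeEquivRight
    intro c
    rw [hinvc c]
  refine ⟨by rw [e1, e2, h1, h2, h3], ?_⟩
  intro hall k hk
  have h4 := H23.card_real_irr_eq (G := K)
  have h5 : Nat.card {χ : Cfsg.IrrCharacter K // (∀ g, (χ.1 g).im = 0) ∧ ∀ (a : P) g, χ.1 (φ a g) = χ.1 g} = Nat.card {χ : Cfsg.IrrCharacter K // ∀ g, (χ.1 g).im = 0} := by
    apply Nat.card_congr
    apply Equiv.subtypeEquivRight
    intro θ
    constructor
    · exact fun h => h.1
    · exact fun h => ⟨h, (hinvχ θ).1 (hall θ h)⟩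
  have h6 : Nat.card {K' : ConjClasses K // ∀ g, ConjClasses.mk g = K' → IsConj g g⁻¹} ≤ Nat.card {K' : ConjClasses K // (∀ g, ConjClasses.mk g = K' → IsConj g g⁻¹) ∧ ∀ (a : P) g, ConjClasses.mk g = K' → ConjClasses.mk (φ a g) = K'} := by
    rw [h2, ← h3, ← h1, h5, h4]
  let j : {K' : ConjClasses K // (∀ g, ConjClasses.mk g = K' → IsConj g g⁻¹) ∧ ∀ (a : P) g, ConjClasses.mk g = K' → ConjClasses.mk (φ a g) = K'} → {K' : ConjClasses K // ∀ g, ConjClasses.mk g = K' → IsConj g g⁻¹} := fun c => ⟨c.1, c.2.1⟩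
  have hj : Function.Injective j := by
    intro a b e
    apply Subtype.ext
    exact (congrArg (fun z => z.1) e :)
  have hb := hj.bijective_of_nat_card_le h6
  have hreal : ∀ g, ConjClasses.mk g = ConjClasses.mk k → IsConj g g⁻¹ := by
    intro g hg
    have h7 : IsConj g k := ConjClasses.mk_eq_mk_iff_isConj.1 hg
    exact h7.trans (hk.trans (H23.isConj_inv_inv h7).symm)
  obtain ⟨⟨c, hc1, hc2⟩, hc⟩ := hb.2 ⟨ConjClasses.mk k, hreal⟩
  have hcc : c = ConjClasses.mk k := congrArg Subtype.val hc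
  subst hcc
  obtain ⟨y, hy⟩ := H23.exists_fixed_of_inv_class hset k (fun a x hx => ConjClasses.mk_eq_mk_iff_isConj.1 (hc2 a x (ConjClasses.mk_eq_mk_iff_isConj.2 hx)))
  refine ⟨y.1, hy.symm, fun x hx => ?_⟩
  have := y.2 (φ ⟨x, hx⟩) ⟨⟨x, hx⟩, rfl⟩
  exact congrArg Subtype.val this

end Cfsg.Agent.S4911
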