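import Cfsg.Statements.S4912
import Cfsg.Agent.Lib.H23.FSign

set_option autoImplicit false
open Cfsg

namespace Cfsg.Agent.S4912

open Cfsg.Agent

/-- Let G be a finite group with a non-abelian minimal normal subgroup N, and let φ be an irreducible complex character of N with stabilizer I in G such that φ extends to an irreducible character of I with Frobenius–Schur indicator +1. Put d = φ(1)·[G : I]. Then the number of linear characters of G with Frobenius–Schur indicator +1 is at most [G : I] times the number of irreducible characters of G of degree d with Frobenius–Schur indicator +1. -/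
theorem result {G : Type*} [Group G] [Finite G] (N : Subgroup G) (hN : N.Normal) (hN1 : N ≠ ⊥) (hmin : ∀ M : Subgroup G, M.Normal → M ≤ N → M = ⊥ ∨ M = N) (hna : ¬ IsMulCommutative ↥N) (φ : Cfsg.IrrCharacter ↥N) (I : Subgroup G) (hI : ∀ g : G, g ∈ I ↔ ∀ n n' : ↥N, (n' : G) = g * (n : G) * g⁻¹ → (φ : ↥N → ℂ) n' = (φ : ↥N → ℂ) n) (hNI : N ≤ I) (hext : ∃ ψ : Cfsg.IrrCharacter ↥I, (Nat.card ↥I : ℂ)⁻¹ * ∑ᶠ g : ↥I, (ψ : ↥I → ℂ) (g * g) = 1 ∧ ∀ n : ↥N, (ψ : ↥I → ℂ) (Subgroup.inclusion hNI n) = (φ : ↥N → ℂ) n) : Nat.card {χ : Cfsg.IrrCharacter G // Cfsg.charDegree (χ : G → ℂ) = 1 ∧ (Nat.card G : ℂ)⁻¹ * ∑ᶠ g : G, (χ : G → ℂ) (g * g) = 1} ≤ I.index * Nat.card {χ : Cfsg.IrrCharacter G // Cfsg.charDegree (χ : G → ℂ) = Cfsg.charDegree (φ : ↥N → ℂ) * I.index ∧ (Nat.card G : ℂ)⁻¹ * ∑ᶠ g : G, (χ : G → ℂ) (g * g) = 1} := by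
    classical
    haveI : Fintype G := Fintype.ofFinite _
    haveI : Fintype N := Fintype.ofFinite _
    haveI : Fintype I := Fintype.ofFinite _
    haveI : Fintype (Cfsg.IrrCharacter G) := Fintype.ofFinite _
    haveI := hN
    obtain ⟨ψ, hψν, hψ⟩ := hext
    have hT : ∀ g : G, g ∈ I ↔ ∀ h : N, φ.1 ⟨g * h * g⁻¹, hN.conj_mem h h.2 g⟩ = φ.1 h := by
      intro g
      rw [hI g]
      constructor
      · intro h n
        exact h n _ rfl
      · intro h n n' hn'
        have h1 : n' = ⟨g * n * g⁻¹, hN.conj_mem n n.2 g⟩ := Subtype.ext hn'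
        rw [h1]
        exact h n
    have hExt : H23.IsIrrExt N I hNI φ.1 ψ.1 := ⟨ψ.2, hψ⟩
    have hψν' : H23.fsInd ψ.1 = 1 := by
      simpa only [H23.fsInd, finsum_eq_sum_of_fintype] using hψν
    simp only [finsum_eq_sum_of_fintype]
    have e : ∀ (p : Cfsg.IrrCharacter G → Prop) [DecidablePred p], Nat.card {χ // p χ} = (Finset.univ.filter p).card := fun p _ => by
      rw [Nat.card_eq_fintype_card, Fintype.card_subtype]
    rw [e, e]
    refine H23.card_linear_ind_le hNI φ.2 hT hExt _ _ ?_ ?_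
    · intro l hl
      have hl1 := (Finset.mem_filter.1 hl).2.1
      exact ⟨hl1, H23.linear_trivial_of_minimal hmin hna l hl1⟩
    · intro l hl
      obtain ⟨hl1, hl2⟩ := (Finset.mem_filter.1 hl).2
      have hlc := H21.isCharacter_of_irr l.2
      have h2 := hExt.linear_mul hlc hl1 (H23.linear_trivial_of_minimal hmin hna l hl1)
      have hlr := H23.real_of_fsInd_ne_zero l (by
        change (Nat.card G : ℂ)⁻¹ * ∑ g : G, l.1 (g * g) ≠ 0
        rw [hl2]; norm_num)
      have hsq : ∀ g : G, l.1 (g * g) = 1 := by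
        intro g
        rw [H21.linear_mul hlc hl1]
        have h3 : l.1 g * (starRingEnd ℂ) (l.1 g) = 1 := by
          rw [Complex.mul_conj, Complex.normSq_eq_norm_sq, H21.linear_norm hlc hl1]
          simp
        rwa [hlr g] at h3
      let ξ : Cfsg.IrrCharacter I := ⟨_, h2.1⟩
      have hξν : H23.fsInd ξ.1 = 1 := by
        rw [← hψν']
        simp only [H23.fsInd, ξ]
        congr 1
        refine Finset.sum_congr rfl fun g _ => ?_
        have : l.1 ((g : G) * (g : G)) = 1 := hsq g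
        simp only [Subgroup.coe_mul, this, one_mul]
      have hirr := h2.ind_irr φ.2 hT
      refine ⟨⟨_, hirr⟩, ?_, rfl⟩
      refine Finset.mem_filter.2 ⟨Finset.mem_univ _, h2.degree φ.2, ?_⟩
      exact H23.fsInd_ind_of_irr ξ hξν hirr

end Cfsg.Agent.S4912
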