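import Cfsg.Statements.S4914
import Cfsg.Agent.Lib.H23.SylAct4
import Cfsg.Agent.Lib.H21.GlaubConj

set_option autoImplicit false
open Cfsg

namespace Cfsg.Agent.S4914

open Cfsg.Agent

/-- Let P and K be subgroups of a finite group G with P a p-group normalizing K, and suppose K has a normal Sylow p-subgroup Q. Let C be the subgroup of those k ∈ K whose commutator with every element of P lies in Q (so that C/Q is the fixed-point subgroup of P on K/Q). Then there is a bijection f from the P-invariant irreducible complex characters of K onto the P-invariant irreducible complex characters of C such that, for every P-invariant irreducible character χ of K, the multiplicity of f(χ) in the restriction of χ to C is a natural number congruent to 1 or to −1 modulo p, every other P-invariant irreducible character of C occurs in that restriction with multiplicity divisible by p, and the degrees of χ and f(χ) are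 congruent modulo p up to sign. -/
theorem result {G : Type*} [Group G] [Finite G] (p : ℕ) [Fact p.Prime] (P K Q C : Subgroup G) (hP : IsPGroup p ↥P) (hPK : P ≤ Subgroup.normalizer (K : Set G)) (hQK : Q ≤ K) (hQn : ∀ k ∈ K, ∀ q ∈ Q, k * q * k⁻¹ ∈ Q) (hQp : ∃ a : ℕ, Nat.card ↥Q = p ^ a) (hQsyl : ¬ p ∣ Q.relIndex K) (hCK : C ≤ K) (hC : ∀ k : G, k ∈ C ↔ (k ∈ K ∧ ∀ x ∈ P, x * k * x⁻¹ * k⁻¹ ∈ Q)) : ∃ f : {χ : Cfsg.IrrCharacter ↥K // (∀ x ∈ P, ∀ k k' : ↥K, (k' : G) = x * (k : G) * x⁻¹ → (χ : ↥K → ℂ) k' = (χ : ↥K → ℂ) k)} → {ξ : Cfsg.IrrCharacter ↥C // (∀ x ∈ P, ∀ k k' : ↥C, (k' : G) = x * (k : G) * x⁻¹ → (ξ : ↥C → ℂ) k' = (ξ : ↥C → ℂ) k)}, Function.Bijective f ∧ ∀ χ, (∀ ξ : {ξ : Cfsg.IrrCharacter ↥C // (∀ x ∈ P, ∀ k k' : ↥C, (k' : G) = x * (k : G) * x⁻¹ → (ξ : ↥C → ℂ) k' = (ξ : ↥C → ℂ) k)}, ∃ m : ℕ, (Nat.card ↥C : ℂ)⁻¹ * ∑ᶠ c : ↥C, (χ.1 : ↥K → ℂ) (Subgroup.inclusion hCK c) * (starRingEnd ℂ) ((ξ.1 : ↥C → ℂ) c)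 = (m : ℂ) ∧ (ξ = f χ → ((m : ZMod p) = 1 ∨ (m : ZMod p) = -1)) ∧ (ξ ≠ f χ → p ∣ m)) ∧ ((Cfsg.charDegree ((f χ).1 : ↥C → ℂ) : ZMod p) = (Cfsg.charDegree (χ.1 : ↥K → ℂ) : ZMod p) ∨ (Cfsg.charDegree ((f χ).1 : ↥C → ℂ) : ZMod p) = -(Cfsg.charDegree (χ.1 : ↥K → ℂ) : ZMod p)) := by
  classical
    have hp : p.Prime := Fact.out
    haveI : Fintype C := Fintype.ofFinite _
    have hnK : ∀ s ∈ P, ∀ g ∈ K, s * g * s⁻¹ ∈ K := fun s hs g hg =>
      (Subgroup.mem_normalizer_iff.1 (hPK hs) g).1 hg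
    haveI hQ'n : (Q.subgroupOf K).Normal := ⟨fun n hn g => by
      rw [Subgroup.mem_subgroupOf] at hn ⊢
      exact hQn g.1 g.2 n.1 hn⟩
    have hi : ¬ p ∣ (Q.subgroupOf K).index := hQsyl
    obtain ⟨a, ha⟩ := hQp
    have hQconj : ∀ x ∈ P, ∀ q ∈ Q, x * q * x⁻¹ ∈ Q := by
      intro x hx q hq
      have hyK : x * q * x⁻¹ ∈ K := hnK x hx q (hQK hq)
      have h0 : q ^ (p ^ a) = 1 := by
        have h1 : (⟨q, hq⟩ : Q) ^ (Nat.card Q) = 1 := pow_card_eq_one'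
        rw [ha] at h1
        exact congrArg Subtype.val h1
      have h1 : (x * q * x⁻¹) ^ (p ^ a) = 1 := by
        rw [conj_pow, h0]
        group
      have h2 : (((⟨x * q * x⁻¹, hyK⟩ : K) : K ⧸ Q.subgroupOf K)) ^ (p ^ a) = 1 := by
        rw [← QuotientGroup.mk_pow]
        have h3 : (⟨x * q * x⁻¹, hyK⟩ : K) ^ (p ^ a) = 1 := Subtype.ext h1
        rw [h3]
        rfl
      have hco : (p ^ a).Coprime (Q.subgroupOf K).index :=
        Nat.Coprime.pow_left _ ((Nat.Prime.coprime_iff_not_dvd hp).2 hi)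
      have h3 : orderOf ((⟨x * q * x⁻¹, hyK⟩ : K) : K ⧸ Q.subgroupOf K) ∣ (Q.subgroupOf K).index := by
        rw [Subgroup.index_eq_card]
        exact orderOf_dvd_natCard _
      have h4 := Nat.eq_one_of_dvd_coprimes hco (orderOf_dvd_of_pow_eq_one h2) h3
      have h5 := orderOf_eq_one_iff.1 h4
      have h6 := (QuotientGroup.eq_one_iff _).1 h5
      exact Subgroup.mem_subgroupOf.1 h6
    have hnC : ∀ s ∈ P, ∀ c ∈ C, s * c * s⁻¹ ∈ C := by
      intro s hs c hc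
      refine (hC _).2 ⟨hnK s hs c (hCK hc), fun x hx => ?_⟩
      have hq := ((hC c).1 hc).2 s hs
      have hxc := ((hC c).1 hc).2 x hx
      have h1 : x * (s * c * s⁻¹) * x⁻¹ * (s * c * s⁻¹)⁻¹ =
          (x * (s * c * s⁻¹ * c⁻¹) * x⁻¹) * ((x * c * x⁻¹ * c⁻¹) * (s * c * s⁻¹ * c⁻¹)⁻¹) := by
        group
      rw [h1]
      exact Q.mul_mem (hQconj x hx _ hq) (Q.mul_mem hxc (Q.inv_mem hq))
    have hequi : ∀ x c, (Subgroup.inclusion hCK) (H21.conjHom C P hnC x c) =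
        H21.conjHom K P hnK x (Subgroup.inclusion hCK c) := fun _ _ => rfl
    have hφ : ∀ d, ∀ q ∈ Q.subgroupOf K, H21.conjHom K P hnK d q ∈ Q.subgroupOf K := by
      intro d q hq
      rw [Subgroup.mem_subgroupOf] at hq ⊢
      exact hQconj d.1 d.2 q.1 hq
    have hr : ∀ k, k ∈ (Subgroup.inclusion hCK).range ↔
        ∀ x, H21.conjHom K P hnK x k * k⁻¹ ∈ Q.subgroupOf K := by
      intro k
      constructor
      · rintro ⟨c, rfl⟩ x
        rw [Subgroup.mem_subgroupOf]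
        exact ((hC c.1).1 c.2).2 x.1 x.2
      · intro h
        have hk : k.1 ∈ C := (hC _).2 ⟨k.2, fun x hx => by
          have := h ⟨x, hx⟩
          rw [Subgroup.mem_subgroupOf] at this
          exact this⟩
        exact ⟨⟨k.1, hk⟩, Subtype.ext rfl⟩
    obtain ⟨F, hF, hFm⟩ := H23.corr_main hp hP (H21.conjHom C P hnC) (Nat.card K) K
      (H21.conjHom K P hnK) (Q.subgroupOf K) hi hφ (Subgroup.inclusion hCK)
      (Subgroup.inclusion_injective hCK) hequi hr le_rfl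
    let e1 : {χ : Cfsg.IrrCharacter ↥K // (∀ x ∈ P, ∀ k k' : ↥K, (k' : G) = x * (k : G) * x⁻¹ →
        (χ : ↥K → ℂ) k' = (χ : ↥K → ℂ) k)} ≃ H23.InvIrr (H21.conjHom K P hnK) :=
      Equiv.subtypeEquivRight (fun χ => H21.inv_iff K P hnK χ.1)
    let e2 : {ξ : Cfsg.IrrCharacter ↥C // (∀ x ∈ P, ∀ k k' : ↥C, (k' : G) = x * (k : G) * x⁻¹ →
        (ξ : ↥C → ℂ) k' = (ξ : ↥C → ℂ) k)} ≃ H23.InvIrr (H21.conjHom C P hnC) :=
      Equiv.subtypeEquivRight (fun ξ => H21.inv_iff C P hnC ξ.1)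
    refine ⟨fun χ => e2.symm (F (e1 χ)), e2.symm.bijective.comp (hF.comp e1.bijective),
      fun χ => ⟨fun ξ => ?_, ?_⟩⟩
    · obtain ⟨m, hm, hs, hd⟩ := hFm (e1 χ) (e2 ξ)
      refine ⟨m, ?_, fun h => hs ?_, fun h => hd ?_⟩
      · rw [finsum_eq_sum_of_fintype]
        exact hm
      · rw [h, Equiv.apply_symm_apply]
      · intro h'
        apply h
        show ξ = e2.symm (F (e1 χ))
        rw [← h', Equiv.symm_apply_apply]
    · exact H23.corr_degree hp hP (H21.conjHom C P hnC) (H21.conjHom K P hnK)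
        (Subgroup.inclusion hCK) hequi (e1 χ) (F (e1 χ)) (hFm (e1 χ))

end Cfsg.Agent.S4914
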