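import Cfsg.Statements.S4916
import Cfsg.Agent.Lib.H22.Osima2
import Cfsg.Agent.Lib.H22.DefectZero
import Cfsg.Agent.Lib.H21.ModP

set_option autoImplicit false
open Cfsg

namespace Cfsg.Agent.S4916

open Cfsg.Agent
open scoped ComplexConjugate

/-- Let G be a finite group, p a prime and M a maximal ideal of the algebraic integers containing p. Then the principal character is the only irreducible character of degree prime to p in the principal p-block of G if and only if p does not divide the order of G. -/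
theorem result {G : Type*} [Group G] [Finite G] (p : ℕ) [Fact p.Prime] (M : Ideal Cfsg.AlgInt) (hM : Cfsg.IsPModular p M) : (∀ χ : Cfsg.IrrCharacter G, χ ∈ Cfsg.principalBlock M G → ¬ p ∣ Cfsg.charDegree (χ : G → ℂ) → (χ : G → ℂ) = fun _ => (1 : ℂ)) ↔ ¬ p ∣ Nat.card G := by
  classical
  haveI : Fintype G := Fintype.ofFinite _
  haveI : Fintype (IrrCharacter G) := Fintype.ofFinite _
  haveI hMprime : M.IsPrime := hM.2.1.isPrime
  have hp := (Fact.out : p.Prime)
  constructor
  · intro h hdiv
    obtain ⟨y, hy⟩ := exists_prime_orderOf_dvd_card' (G := G) p hdiv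
    have hy' : p ∣ orderOf y := by rw [hy]
    have hB : IsPBlock M (principalBlock M G) := H22.principalBlock_isBlock
    have h0 := H22.blockCoeff_eq_zero_of_singular hM hB hy'
    unfold blockCoeff at h0
    rw [H22.finsum_mem_irr] at h0
    have hcard : (Nat.card G : ℂ) ≠ 0 := by exact_mod_cast Nat.card_pos.ne'
    have h1 : ∑ χ : IrrCharacter G, H22.eB (principalBlock M G) χ * ((χ : G → ℂ) 1 * conj ((χ : G → ℂ) y)) = 0 :=
      (mul_eq_zero.mp h0).resolve_left (inv_ne_zero hcard)
    -- reduction modulo M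
    have hcong : ∀ χ : IrrCharacter G, MemLocalIdeal M (conj ((χ : G → ℂ) y) - ((charDegree (χ : G → ℂ) : ℕ) : ℂ)) := by
      intro χ
      have hchar := H21.isCharacter_of_irr χ.2
      have hord : orderOf y⁻¹ = p ^ 1 := by rw [orderOf_inv, hy, pow_one]
      obtain ⟨a, ha, ha'⟩ := H21.character_sub_degree_mem hM hchar hord
      rw [H21.isCharacter_inv hchar] at ha'
      rw [← ha']
      exact H22.mli_of_mem ha
    let T : Finset (IrrCharacter G) := Finset.univ.filter (fun χ => χ ∈ principalBlock M G)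
    have hT : ∀ χ, H22.eB (principalBlock M G) χ = if χ ∈ T then 1 else 0 := by
      intro χ
      by_cases hχ : χ ∈ principalBlock M G
      · rw [H22.eB_apply_mem hχ, if_pos (by simp [T, hχ])]
      · rw [H22.eB_apply_not_mem hχ, if_neg (by simp [T, hχ])]
    have h2 : MemLocalIdeal M (((∑ χ ∈ T, charDegree (χ : G → ℂ) ^ 2 : ℕ)) : ℂ) := by
      have h3 : ((∑ χ ∈ T, charDegree (χ : G → ℂ) ^ 2 : ℕ) : ℂ) = - ∑ χ : IrrCharacter G, H22.eB (principalBlock M G) χ * ((χ : G → ℂ) 1 * (conj ((χ : G → ℂ) y) - ((charDegree (χ : G → ℂ) : ℕ) : ℂ))) := by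
        have h4 : ∀ χ : IrrCharacter G, H22.eB (principalBlock M G) χ * ((χ : G → ℂ) 1 * (conj ((χ : G → ℂ) y) - ((charDegree (χ : G → ℂ) : ℕ) : ℂ))) = H22.eB (principalBlock M G) χ * ((χ : G → ℂ) 1 * conj ((χ : G → ℂ) y)) - (if χ ∈ T then ((charDegree (χ : G → ℂ) : ℂ) ^ 2) else 0) := by
          intro χ
          rw [hT χ, H21.one_eq_charDegree (H21.isCharacter_of_irr χ.2)]
          split_ifs <;> ring
        simp only [h4, Finset.sum_sub_distrib, h1]
        simp [T, Finset.sum_ite]
      rw [h3]
      apply H22.mli_neg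
      apply H22.mli_sum
      intro χ _
      apply H22.mli_mul_left _ _
      · apply H22.mli_mul_left (hcong χ)
        exact H22.mlr_of_isIntegral (H21.isCharacter_isIntegral (H21.isCharacter_of_irr χ.2) 1)
      · rw [hT χ]
        split_ifs
        · exact H22.mlr_one
        · exact H22.mlr_zero
    have hdvd := (H22.mli_natCast_iff hM _).mp h2
    have hone : H22.oneIrr G ∈ T := by simp [T, H22.oneIrr_mem_principal]
    rw [← Finset.add_sum_erase T _ hone] at hdvd
    have hrest : p ∣ ∑ χ ∈ T.erase (H22.oneIrr G), charDegree (χ : G → ℂ) ^ 2 := by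
      apply Finset.dvd_sum
      intro χ hχ
      have hχ1 := Finset.mem_erase.mp hχ
      have hχB : χ ∈ principalBlock M G := by simpa [T] using hχ1.2
      apply dvd_pow _ two_ne_zero
      by_contra hnd
      exact hχ1.1 (Subtype.ext (h χ hχB hnd))
    have hone' : charDegree ((H22.oneIrr G : IrrCharacter G) : G → ℂ) = 1 := by
      simp [charDegree, H22.oneIrr]
    rw [hone'] at hdvd
    have := (Nat.dvd_add_left hrest).mp hdvd
    simp only [one_pow] at this
    exact hp.one_lt.ne' (Nat.dvd_one.mp this)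
  · intro hnd χ hχ _
    have hχ' : χ ∈ blockOf M ((H22.oneIrr G : IrrCharacter G) : G → ℂ) := hχ
    have hnd' : ¬ p ∣ Nat.card G / charDegree ((H22.oneIrr G : IrrCharacter G) : G → ℂ) := by
      have hone' : charDegree ((H22.oneIrr G : IrrCharacter G) : G → ℂ) = 1 := by
        simp [charDegree, H22.oneIrr]
      rw [hone', Nat.div_one]
      exact hnd
    have := H22.eq_of_mem_block_of_defect_zero hM (H22.oneIrr G) hnd' hχ'
    rw [this]
    rfl

end Cfsg.Agent.S4916
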