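import Cfsg.Statements.S4937
import Cfsg.Agent.Lib.H23.CovApp

set_option autoImplicit false
open Cfsg

namespace Cfsg.Agent.S4937

open Cfsg.Agent Cfsg.Agent.H22

/-- Let G be a finite group, p a prime, M a maximal ideal of the algebraic integers containing p, N a normal subgroup of G and P a Sylow p-subgroup of N such that G = N·C_G(P). Let θ be an irreducible character in the principal p-block of N that is the restriction of some irreducible character of G. Then θ is the restriction of an irreducible character χ of G lying in the principal p-block of G such that, for every subgroup J of G containing N, the restriction of χ to J is an irreducible character of J lying in the principal p-block of J. -/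
theorem result {G : Type*} [Group G] [Finite G] (p : ℕ) [Fact p.Prime] (M : Ideal Cfsg.AlgInt) (hM : Cfsg.IsPModular p M) (N : Subgroup G) [N.Normal] (P : Sylow p ↥N)
    (hcov : N ⊔ Subgroup.centralizer (((P : Subgroup ↥N).map N.subtype : Subgroup G) : Set G) = ⊤)
    (θ : Cfsg.IrrCharacter ↥N) (hθ : θ ∈ Cfsg.principalBlock M ↥N)
    (hext : ∃ ψ : Cfsg.IrrCharacter G, ∀ x : ↥N, (ψ : G → ℂ) x = (θ : ↥N → ℂ) x) :
    ∃ χ : Cfsg.IrrCharacter G, χ ∈ Cfsg.principalBlock M G ∧ (∀ x : ↥N, (χ : G → ℂ) x = (θ : ↥N → ℂ) x) ∧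
      ∀ J : Subgroup G, N ≤ J → ∃ ξ : Cfsg.IrrCharacter ↥J, ξ ∈ Cfsg.principalBlock M ↥J ∧ ∀ y : ↥J, (ξ : ↥J → ℂ) y = (χ : G → ℂ) y := by
  classical
  letI := Fintype.ofFinite G
  obtain ⟨ψ, hψ⟩ := hext
  obtain ⟨n, ρ, hρ, hc⟩ := ψ.2
  have hchar : Representation.character (MonoidHom.comp ρ N.subtype : Representation ℂ N (Fin n → ℂ)) = θ.1 := by
    funext x
    rw [← hψ x, ← hc]
    rfl
  have hirr := H23.cov_irr_of_char _ θ.2 hchar
  have hnt : Nontrivial (Fin n → ℂ) := by
    by_contra h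
    rw [not_nontrivial_iff_subsingleton] at h
    exact (bot_ne_top : (⊥ : Subrepresentation ρ) ≠ ⊤)
      (Subrepresentation.toSubmodule_injective (Subsingleton.elim _ _))
  have hd : (Module.finrank ℂ (Fin n → ℂ) : ℂ) ≠ 0 := by
    have := Module.finrank_pos (R := ℂ) (M := Fin n → ℂ)
    exact_mod_cast this.ne'
  have hψ1 : ψ.1 1 = (Module.finrank ℂ (Fin n → ℂ) : ℂ) := by
    rw [← hc, Representation.character, map_one, LinearMap.trace_one]
  have hθ1 : θ.1 1 = (Module.finrank ℂ (Fin n → ℂ) : ℂ) := by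
    rw [← hψ 1]
    exact hψ1
  have hcr : ∀ g, H23.covχ ρ g = ψ.1 g := fun g => by rw [← hc]; rfl
  have H : H23.CovHyp p M N ρ (fun _ => 1) (fun v => ψ.1 v / (Module.finrank ℂ (Fin n → ℂ) : ℂ)) := by
    refine ⟨hM, inferInstance, hirr, hd, by simp, by simp, ⟨1, hM.1.one_lt.ne' ∘ Nat.dvd_one.1, by simp⟩, ?_, ?_, ?_⟩
    · intro v _
      rw [hcr]
      field_simp
    · intro A hA1 hA2
      refine H23.cov_hB hM.2.1.isPrime N θ hθ _ (fun x => ?_) A hA1 hA2
      rw [hψ x, hθ1]
    · intro g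
      have hg : g ∈ N ⊔ Subgroup.centralizer (((P : Subgroup ↥N).map N.subtype : Subgroup G) : Set G) := by
        rw [hcov]
        trivial
      rw [← SetLike.mem_coe, Subgroup.normal_mul, Set.mem_mul] at hg
      obtain ⟨a, ha, c, hc', rfl⟩ := hg
      refine ⟨c, by simpa using ha, ?_⟩
      rw [H23.covS_eq_relIndex, Subgroup.relIndex]
      intro hdvd
      have hle : (P : Subgroup ↥N) ≤ (Subgroup.centralizer ({c} : Set G)).subgroupOf N := by
        intro x hx
        rw [Subgroup.mem_subgroupOf, Subgroup.mem_centralizer_singleton_iff]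
        have h1 : (x : G) ∈ (P : Subgroup ↥N).map N.subtype := ⟨x, hx, rfl⟩
        have := (Subgroup.mem_centralizer_iff.1 hc') (x : G) h1
        exact this
      exact P.not_dvd_index (hdvd.trans (Subgroup.index_dvd_of_le hle))
  obtain ⟨Λ, e, he, hΛ, hΛN, hΛm⟩ := H.core
  have hP : M.IsPrime := hM.2.1.isPrime
  haveI := hP
  let χf : G → ℂ := fun g => (((Λ⁻¹) g : ℂˣ) : ℂ) * ψ.1 g
  have hχirr : IsIrrCharacter G χf :=
    H06.isIrr_linear_mul ψ.2 (H23.isCharacter_hom Λ⁻¹) (H23.charDegree_hom Λ⁻¹)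
  have hχ1 : χf 1 = (Module.finrank ℂ (Fin n → ℂ) : ℂ) := by
    simp only [χf, map_one, Units.val_one, one_mul]
    exact hψ1
  have hχN : ∀ x : N, χf x = θ.1 x := by
    intro x
    have h1 : (Λ (x : G) : ℂ) = 1 := hΛN x x.2
    have h2 : Λ (x : G) = 1 := Units.ext h1
    simp only [χf, MonoidHom.inv_apply, h2, inv_one, Units.val_one, one_mul]
    exact hψ x
  have hmli : ∀ y : G, MemLocalIdeal M ((H23.covS N y : ℂ) * χf y / χf 1 - H23.covS N y) := by
    intro y
    rw [hχ1]
    have h1 := hΛm y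
    have hinv : MemLocalRing M (((Λ⁻¹) y : ℂˣ) : ℂ) := by
      refine H23.cov_mlr_of_root hP (e := e) (fun h0 => he (h0 ▸ dvd_zero p)) ?_
      simp only [MonoidHom.inv_apply, Units.val_inv_eq_inv_val, inv_pow, hΛ y, inv_one]
    have h2 := mli_mul_left h1 hinv
    convert h2 using 1
    have hu : (Λ y : ℂ) ≠ 0 := (Λ y).ne_zero
    simp only [H23.covμ, hcr, χf, MonoidHom.inv_apply, Units.val_inv_eq_inv_val]
    field_simp
  refine ⟨⟨χf, hχirr⟩, ?_, hχN, ?_⟩
  · refine H23.cov_mem_principal hP ⟨χf, hχirr⟩ fun y => ?_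
    have h3 : H23.covS N y ∣ (Subgroup.centralizer ({y} : Set G)).index := by
      rw [H23.covS_eq_relIndex]
      exact H23.cov_relIndex_dvd N _
    obtain ⟨a, ha⟩ := h3
    exact ⟨H23.covS N y, a, by rw [ha, mul_comm], hmli y⟩
  · intro J hJ
    obtain ⟨n', ρ', hρ', hc'⟩ := hχirr
    have hcr' : Representation.character (MonoidHom.comp ρ' N.subtype : Representation ℂ N (Fin n' → ℂ)) = θ.1 := by
      funext x
      rw [← hχN x, ← hc']
      rfl
    have hirr' := H23.cov_irr_of_char _ θ.2 hcr'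
    let ρJ : Representation ℂ J (Fin n' → ℂ) := MonoidHom.comp ρ' J.subtype
    have hJirr : Representation.IsIrreducible ρJ := H04.Cliff.irr_of_restrict hirr' (fun m => ⟨1, ⟨m, hJ m.2⟩, by simp [ρJ]⟩)
    have hJc : Representation.character ρJ = fun y : J => χf y := by
      funext y
      rw [← hc']
      rfl
    refine ⟨⟨fun y : J => χf y, n', ρJ, hJirr, hJc⟩, ?_, fun y => rfl⟩
    refine H23.cov_mem_principal hP _ fun y => ?_
    have h3 : H23.covS N (y : G) ∣ (Subgroup.centralizer ({y} : Set J)).index := by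
      rw [H23.covS_eq_relIndex]
      have hC : Subgroup.centralizer ({y} : Set J) = (Subgroup.centralizer ({(y : G)} : Set G)).subgroupOf J := by
        ext x
        rw [Subgroup.mem_subgroupOf, Subgroup.mem_centralizer_singleton_iff, Subgroup.mem_centralizer_singleton_iff]
        exact Subtype.ext_iff
      rw [hC, ← Subgroup.relIndex_subgroupOf hJ]
      haveI : (N.subgroupOf J).Normal := inferInstance
      exact H23.cov_relIndex_dvd (N.subgroupOf J) _
    obtain ⟨a, ha⟩ := h3
    exact ⟨H23.covS N (y : G), a, by rw [ha, mul_comm], hmli y⟩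

end Cfsg.Agent.S4937
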