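import Cfsg.Statements.S4969
import Cfsg.Agent.Lib.H21.CharBasis

set_option autoImplicit false
open Cfsg

namespace Cfsg.Agent.S4969

open Cfsg.Agent Cfsg.Agent.H21
open scoped ComplexConjugate

/-- Let G be a finite group with k conjugacy classes, g ∈ G, and N > 0. Then the sum over the irreducible complex characters χ of G with χ(1) ≥ N of |χ(g)|/χ(1) is at most √(k · #C_G(g)) / N. -/
theorem result {G : Type*} [Group G] [Finite G] (g : G) (N : ℝ) (hN : 0 < N) :
    ∑ᶠ χ : Cfsg.IrrCharacter G, (if N ≤ ‖(χ : G → ℂ) 1‖ then ‖(χ : G → ℂ) g‖ / ‖(χ : G → ℂ) 1‖ else 0) ≤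
      Real.sqrt ((Nat.card (ConjClasses G) : ℝ) * (Nat.card ↥(Subgroup.centralizer ({g} : Set G)) : ℝ)) / N := by
  classical
  haveI : Fintype G := Fintype.ofFinite _
  haveI : Fintype (IrrCharacter G) := Fintype.ofFinite _
  rw [finsum_eq_sum_of_fintype]
  have hsq : ∑ χ : IrrCharacter G, ‖(χ : G → ℂ) g‖ ^ 2 = (Nat.card ↥(Subgroup.centralizer ({g} : Set G)) : ℝ) := by
    have h := column_orthogonality_of_isConj (G := G) (IsConj.refl g)
    have h2 : ∑ χ : IrrCharacter G, (χ : G → ℂ) g * conj ((χ : G → ℂ) g) = ((∑ χ : IrrCharacter G, ‖(χ : G → ℂ) g‖ ^ 2 : ℝ) : ℂ) := by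
      push_cast
      refine Finset.sum_congr rfl fun χ _ => ?_
      rw [Complex.mul_conj, Complex.normSq_eq_norm_sq]
      push_cast; rfl
    rw [h2] at h
    exact_mod_cast h
  have hcard : (Finset.univ : Finset (IrrCharacter G)).card = Nat.card (ConjClasses G) := by
    rw [Finset.card_univ, ← Nat.card_eq_fintype_card, card_irr_eq_card_conjClasses]
  have hcs := Real.sum_mul_le_sqrt_mul_sqrt (Finset.univ : Finset (IrrCharacter G)) (fun _ => (1 : ℝ)) (fun χ => ‖(χ : G → ℂ) g‖)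
  simp only [one_pow, Finset.sum_const, smul_eq_mul, mul_one, one_mul, nsmul_eq_mul, hsq, hcard] at hcs
  rw [← Real.sqrt_mul (by positivity)] at hcs
  rw [le_div_iff₀ hN, Finset.sum_mul]
  refine le_trans (Finset.sum_le_sum fun χ _ => ?_) hcs
  split_ifs with h
  · have h1 : 0 < ‖(χ : G → ℂ) 1‖ := lt_of_lt_of_le hN h
    rw [div_mul_eq_mul_div, div_le_iff₀ h1]
    exact mul_le_mul_of_nonneg_left h (norm_nonneg _)
  · simp

end Cfsg.Agent.S4969
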