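import Cfsg.Statements.S4989
import Cfsg.Agent.Lib.H23.CharRows

set_option autoImplicit false
open Cfsg

namespace Cfsg.Agent.S4989

open Cfsg.Agent

/-- Let H be a subgroup of the finite group G and χ an irreducible complex character of G. Then the inner product of the restriction of χ to H with itself, (1/#H)·Σ_{h ∈ H} |χ(h)|², is at most 1 + #(Z ∖ H)/#H, where Z is the set of zeros of χ in G. -/
theorem result {G : Type*} [Group G] [Finite G] (H : Subgroup G) (χ : Cfsg.IrrCharacter G) : (Nat.card ↥H : ℝ)⁻¹ * ∑ᶠ h : ↥H, ‖(χ : G → ℂ) h‖ ^ 2 ≤ 1 + (Set.ncard ({x : G | (χ : G → ℂ) x = 0} \ (H : Set G)) : ℝ) / (Nat.card ↥H : ℝ) := by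
  classical
  haveI : Fintype G := Fintype.ofFinite _
  have hχ := χ.2
  set c : G → ℂ := (χ : G → ℂ) with hc
  rw [finsum_eq_sum_of_fintype]
  have hHcard : (0 : ℝ) < (Nat.card ↥H : ℝ) := by exact_mod_cast Nat.card_pos
  let S : Finset G := Finset.univ.filter (fun g => g ∉ H ∧ c g ≠ 0)
  let Z : Finset G := Finset.univ.filter (fun g => g ∉ H ∧ c g = 0)
  have hZ : Set.ncard ({x : G | c x = 0} \ (H : Set G)) = Z.card := by
    rw [← Set.ncard_coe_finset]
    congr 1
    ext x
    simp [Z, and_comm]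
  have hS := H23.card_le_sum_norm_sq (H21.isCharacter_of_irr hχ) S
    (fun g hg => (Finset.mem_filter.mp hg).2.2)
    (fun u g hg => by
      have h := (Finset.mem_filter.mp hg).2
      refine Finset.mem_filter.mpr ⟨Finset.mem_univ _, ?_, ?_⟩
      · rw [H23.mem_subgroup_pow_unit_iff]; exact h.1
      · exact (H21.character_galois (H21.isCharacter_of_irr hχ) g h.2).1 u)
  have htotal := H23.sum_norm_sq_eq hχ
  -- split the total sum
  have hsplit : ∑ g : G, ‖c g‖ ^ 2 = ∑ h : ↥H, ‖c h‖ ^ 2 + ∑ g ∈ S, ‖c g‖ ^ 2 := by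
    have h1 : ∑ g : G, ‖c g‖ ^ 2 = ∑ g ∈ Finset.univ.filter (fun g => g ∈ H), ‖c g‖ ^ 2 + ∑ g ∈ Finset.univ.filter (fun g => g ∉ H), ‖c g‖ ^ 2 :=
      (Finset.sum_filter_add_sum_filter_not _ _ _).symm
    have h2 : ∑ g ∈ Finset.univ.filter (fun g => g ∈ H), ‖c g‖ ^ 2 = ∑ h : ↥H, ‖c h‖ ^ 2 := by
      refine (Finset.sum_subtype _ (fun x => ?_) _)
      simp
    have h3 : ∑ g ∈ Finset.univ.filter (fun g => g ∉ H), ‖c g‖ ^ 2 = ∑ g ∈ S, ‖c g‖ ^ 2 := by
      symm
      apply Finset.sum_subset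
      · intro x hx
        simp only [S, Finset.mem_filter, Finset.mem_univ, true_and] at hx ⊢
        exact hx.1
      · intro x hx hx'
        simp only [S, Finset.mem_filter, Finset.mem_univ, true_and, not_and, not_not] at hx hx'
        rw [hx' hx]
        simp
    rw [h1, h2, h3]
  have hcount : (Nat.card G : ℝ) = Nat.card ↥H + S.card + Z.card := by
    have h1 : Nat.card G = (Finset.univ.filter (fun g : G => g ∈ H)).card + (Finset.univ.filter (fun g : G => g ∉ H)).card := by
      rw [Finset.card_filter_add_card_filter_not, Finset.card_univ, Nat.card_eq_fintype_card]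
    have h2 : (Finset.univ.filter (fun g : G => g ∈ H)).card = Nat.card ↥H := by
      rw [Nat.card_eq_fintype_card, Fintype.card_subtype]
    have h3 : (Finset.univ.filter (fun g : G => g ∉ H)).card = S.card + Z.card := by
      rw [← Finset.card_filter_add_card_filter_not (s := Finset.univ.filter (fun g : G => g ∉ H)) (fun g => c g ≠ 0)]
      congr 2
      · ext x; simp [S]
      · ext x; simp [Z]
    rw [h1, h2, h3]
    push_cast
    ring
  have key : ∑ h : ↥H, ‖c h‖ ^ 2 ≤ (Nat.card ↥H : ℝ) + Z.card := by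
    linarith
  rw [hZ, inv_mul_le_iff₀ hHcard, mul_add, mul_one, mul_div_cancel₀ _ hHcard.ne']
  exact key

end Cfsg.Agent.S4989
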