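import Cfsg.Statements.S4996
import Cfsg.Agent.Lib.H23.CharAvg
import Cfsg.Agent.Lib.H21.CharLinear

set_option autoImplicit false
open Cfsg

namespace Cfsg.Agent.S4996

open Cfsg.Agent
open scoped ComplexConjugate

/-- Let N be a normal subgroup of the finite group G and χ an irreducible complex character of G. Then the restriction of χ to N is not irreducible if and only if χ vanishes on some whole coset Nx of N in G. -/
theorem result {G : Type*} [Group G] [Finite G] (N : Subgroup G) [N.Normal] (χ : Cfsg.IrrCharacter G) : ¬ Cfsg.IsIrrCharacter ↥N (fun n : ↥N => (χ : G → ℂ) n) ↔ ∃ x : G, ∀ n : ↥N, (χ : G → ℂ) ((n : G) * x) = 0 := by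
  classical
  haveI : Fintype G := Fintype.ofFinite _
  haveI : Fintype ↥N := Fintype.ofFinite _
  haveI : Fintype (IrrCharacter G) := Fintype.ofFinite _
  haveI : Fintype (IrrCharacter ↥N) := Fintype.ofFinite _
  have hχ := χ.2
  set c : G → ℂ := (χ : G → ℂ) with hc
  have hcc := H21.isCharacter_of_irr hχ
  let ψ : G → ℂ := c * (fun g => conj (c g))
  have hψ : IsCharacter G ψ := H21.isCharacter_mul hcc (H23.isCharacter_conjFun hcc)
  have hτ := H23.isCharacter_nAvg N hψ
  set τ := H23.nAvg N ψ with hτdef
  have hNpos : (0 : ℝ) < (Nat.card N : ℝ) := by exact_mod_cast Nat.card_pos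
  let a : G → ℝ := fun g => (Nat.card N : ℝ)⁻¹ * ∑ n : N, ‖c (n * g)‖ ^ 2
  have ha : ∀ g, τ g = (a g : ℂ) := by
    intro g
    simp only [τ, a, H23.nAvg, ψ, Pi.mul_apply]
    push_cast
    congr 1
    refine Finset.sum_congr rfl fun n _ => ?_
    rw [Complex.mul_conj, Complex.normSq_eq_norm_sq]
    push_cast; rfl
  have hanon : ∀ g, 0 ≤ a g := fun g => by positivity
  have hnorm : ∀ g, ‖τ g‖ = a g := fun g => by
    rw [ha, Complex.norm_real, Real.norm_of_nonneg (hanon g)]
  -- the norm of the restriction
  let θ : N → ℂ := fun n => c n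
  have hθ : IsCharacter N θ := H21.isCharacter_restrict N hcc
  have hθθ : classInner θ θ = τ 1 := by
    simp only [τ, θ, classInner, H23.nAvg, ψ, Pi.mul_apply, mul_one]
  have hdeg : τ 1 = (charDegree τ : ℂ) := H21.one_eq_charDegree hτ
  constructor
  · intro hnot
    by_contra hall
    push Not at hall
    have hτ0 : ∀ g, τ g ≠ 0 := by
      intro g h0
      obtain ⟨n, hn⟩ := hall g
      have h1 : a g = 0 := by
        have := ha g
        rw [h0] at this
        exact_mod_cast this.symm
      simp only [a] at h1
      have h2 : ∑ n : N, ‖c (n * g)‖ ^ 2 = 0 := by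
        rcases mul_eq_zero.mp h1 with h | h
        · exact absurd h (inv_ne_zero hNpos.ne')
        · exact h
      have h3 := (Finset.sum_eq_zero_iff_of_nonneg (fun n _ => by positivity)).mp h2 n (Finset.mem_univ _)
      exact hn (by simpa using h3)
    let S : Finset G := Finset.univ.filter (fun g => g ∉ N)
    have hS := H23.card_le_sum_norm_pow hτ S 1 (fun g _ => hτ0 g)
      (fun u g hg => by
        have h := (Finset.mem_filter.mp hg).2
        refine Finset.mem_filter.mpr ⟨Finset.mem_univ _, ?_⟩
        rw [H23.mem_subgroup_pow_unit_iff]; exact h)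
    simp only [pow_one, hnorm] at hS
    -- total sum
    have htotal : ∑ g : G, a g = (Nat.card G : ℝ) := by
      simp only [a, ← Finset.mul_sum]
      rw [Finset.sum_comm]
      have h1 : ∀ n : N, ∑ g : G, ‖c (n * g)‖ ^ 2 = (Nat.card G : ℝ) := by
        intro n
        rw [← H23.sum_norm_sq_eq hχ]
        exact Fintype.sum_equiv (Equiv.mulLeft (n : G)) _ _ fun g => rfl
      simp only [h1, Finset.sum_const, Finset.card_univ, nsmul_eq_mul, ← Nat.card_eq_fintype_card]
      field_simp
    have hon : ∀ m : N, a m = a 1 := by
      intro m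
      have := H23.nAvg_mul_left N ψ m 1
      have h2 : τ m = τ 1 := by simpa [τ] using this
      rw [ha, ha] at h2
      exact_mod_cast h2
    have hsplit : ∑ g : G, a g = (Nat.card N : ℝ) * a 1 + ∑ g ∈ S, a g := by
      rw [← Finset.sum_filter_add_sum_filter_not Finset.univ (fun g => g ∈ N)]
      congr 1
      have h2 : ∑ g ∈ Finset.univ.filter (fun g => g ∈ N), a g = ∑ h : ↥N, a h := by
        refine (Finset.sum_subtype _ (fun x => ?_) _)
        simp
      rw [h2]
      simp only [hon, Finset.sum_const, Finset.card_univ, nsmul_eq_mul, ← Nat.card_eq_fintype_card]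
    have hcount : (Nat.card G : ℝ) = Nat.card N + S.card := by
      have h1 : Nat.card G = (Finset.univ.filter (fun g : G => g ∈ N)).card + S.card := by
        rw [Finset.card_filter_add_card_filter_not, Finset.card_univ, Nat.card_eq_fintype_card]
      have h2 : (Finset.univ.filter (fun g : G => g ∈ N)).card = Nat.card ↥N := by
        rw [Nat.card_eq_fintype_card, Fintype.card_subtype]
      rw [h1, h2]
      push_cast
      ring
    have hle : a 1 ≤ 1 := by
      have : (Nat.card N : ℝ) * a 1 ≤ (Nat.card N : ℝ) * 1 := by linarith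
      exact le_of_mul_le_mul_left this hNpos
    -- a 1 is a positive integer
    have hpos : 0 < charDegree τ := by
      rcases Nat.eq_zero_or_pos (charDegree τ) with h | h
      · exact absurd (by rw [hdeg, h]; simp) (hτ0 1)
      · exact h
    have hone : τ 1 = 1 := by
      have h1 : (charDegree τ : ℝ) = a 1 := by
        have := ha 1
        rw [hdeg] at this
        exact_mod_cast this
      have h2 : charDegree τ = 1 := by
        have : (charDegree τ : ℝ) ≤ 1 := by rw [h1]; exact hle
        have h3 : charDegree τ ≤ 1 := by exact_mod_cast this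
        omega
      rw [hdeg, h2]; simp
    exact hnot (H21.isIrrCharacter_of_inner_self_eq_one hθ (by rw [hθθ, hone]))
  · rintro ⟨x, hx⟩ hirr
    have h1 : τ 1 = 1 := by
      rw [← hθθ]
      exact H06.classInner_irr_self hirr
    have h2 : charDegree τ = 1 := by
      rw [hdeg] at h1
      exact_mod_cast h1
    have h3 := H21.linear_norm hτ h2 x
    rw [hnorm] at h3
    have h4 : a x = 0 := by
      simp only [a, hx]
      simp
    rw [h4] at h3
    exact zero_ne_one h3

end Cfsg.Agent.S4996
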