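import Cfsg.Statements.S5001
import Cfsg.Agent.Lib.H23.HeightZero

set_option autoImplicit false
open Cfsg

namespace Cfsg.Agent.S5001

open Cfsg.Agent

/-- Let p be a prime, G a finite group and B a p-block of G (relative to a maximal ideal M of the algebraic integers containing p) with defect group D. Let Z be a central p-subgroup of G contained in D and λ a linear character of Z (a homomorphism to the nonzero complex numbers). Say an irreducible character χ of G lies over λ when χ(z) = χ(1)λ(z) for all z ∈ Z. If some irreducible character in B lying over λ has height zero, then λ extends to a linear character of D. -/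
theorem result {G : Type*} [Group G] [Finite G] (p : ℕ) [Fact p.Prime] (M : Ideal Cfsg.AlgInt) (hM : Cfsg.IsPModular p M) (B : Set (Cfsg.IrrCharacter G)) (hB : Cfsg.IsPBlock M B) (D : Subgroup G) (hD : Cfsg.IsDefectGroup p M B D) (Z : Subgroup G) (hZc : Z ≤ Subgroup.center G) (hZp : IsPGroup p ↥Z) (hZD : Z ≤ D) (lam : ↥Z →* ℂˣ) (χ : Cfsg.IrrCharacter G) (hχ : χ ∈ B) (hover : (∀ z : ↥Z, (χ : G → ℂ) z = (χ : G → ℂ) 1 * (lam z : ℂ))) (h0 : Cfsg.blockHeight p B (χ : G → ℂ) = 0) : (∃ μ : ↥D →* ℂˣ, ∀ z : ↥Z, μ ⟨(z : G), hZD z.2⟩ = lam z) := by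
  classical
  haveI : Fintype G := Fintype.ofFinite _
  haveI : Fintype D := Fintype.ofFinite _
  haveI hMp : M.IsPrime := hM.2.1.isPrime
  haveI : Fintype (Cfsg.IrrCharacter D) := Fintype.ofFinite _
  obtain ⟨y, hy, P, rfl⟩ := hD
  set D := (P : Subgroup (Subgroup.centralizer ({y} : Set G))).map (Subgroup.centralizer ({y} : Set G)).subtype with hDdef
  have hDp : IsPGroup p D := P.isPGroup'.map _
  have hDy : ∀ d ∈ D, Commute d y := by
    intro d hd
    obtain ⟨c, -, rfl⟩ := Subgroup.mem_map.1 hd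
    exact Subgroup.mem_centralizer_singleton_iff.1 c.2
  have hχy : ¬ Cfsg.MemLocalIdeal M (χ.1 y) := by
    have h1 := H21.height_zero_not_mli hM hB hy hχ (H21.height_zero_iff hχ h0) (x := 1) (Commute.one_left y) (k := 0) (by simp)
    simpa using h1
  obtain ⟨μ, hμ1, hμ⟩ := H23.exists_linear_of_not_mli hM D hDp y hDy (H21.isCharacter_of_irr χ.2) hχy
  have hμc := H21.isCharacter_of_irr μ.2
  have hχc := H21.isCharacter_of_irr χ.2
  have hS : ∑ d : D, χ.1 d * (starRingEnd ℂ) (μ.1 d) ≠ 0 := by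
    intro h
    apply hμ
    rw [Cfsg.classInner, h, mul_zero]
  let μ₀ : D →* ℂ :=
    { toFun := μ.1
      map_one' := H21.linear_one hμc hμ1
      map_mul' := H21.linear_mul hμc hμ1 }
  refine ⟨μ₀.toHomUnits, fun z => ?_⟩
  apply Units.ext
  rw [MonoidHom.coe_toHomUnits]
  change μ.1 _ = _
  set zD : D := ⟨(z : G), hZD z.2⟩ with hzD
  have hd0 : (Cfsg.charDegree χ.1 : ℂ) ≠ 0 := by exact_mod_cast (H21.irr_charDegree_pos χ.2).ne'
  have hzval : ∀ g : G, χ.1 ((z : G) * g) = (lam z : ℂ) * χ.1 g := by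
    intro g
    have h1 := H21.irr_central_mul χ.2 (hZc z.2) g
    rw [hover z, H21.one_eq_charDegree hχc] at h1
    apply mul_right_cancel₀ hd0
    rw [h1]
    ring
  have hsum : ∑ d : D, χ.1 d * (starRingEnd ℂ) (μ.1 d) =
      (lam z : ℂ) * (starRingEnd ℂ) (μ.1 zD) * ∑ d : D, χ.1 d * (starRingEnd ℂ) (μ.1 d) := by
    rw [Finset.mul_sum]
    refine (Fintype.sum_equiv (Equiv.mulLeft zD) _ _ fun d => ?_).symm
    simp only [Equiv.coe_mulLeft, Subgroup.coe_mul]
    rw [H21.linear_mul hμc hμ1, map_mul, hzval]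
    ring
  have h1 : (lam z : ℂ) * (starRingEnd ℂ) (μ.1 zD) = 1 := by
    have := mul_right_cancel₀ hS ((one_mul _).trans hsum)
    exact this.symm
  have h2 : μ.1 zD * (starRingEnd ℂ) (μ.1 zD) = 1 := by
    rw [Complex.mul_conj, Complex.normSq_eq_norm_sq, H21.linear_norm hμc hμ1]
    simp
  have h3 : (starRingEnd ℂ) (μ.1 zD) ≠ 0 := by
    intro h0
    rw [h0, mul_zero] at h2
    exact zero_ne_one h2
  exact mul_right_cancel₀ h3 (h2.trans h1.symm)

end Cfsg.Agent.S5001
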