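import Cfsg.Statements.S5011
import Mathlib

set_option autoImplicit false
open Cfsg

namespace Cfsg.Agent.S5011

theorem result {G : Type*} [Group G] [Finite G] [IsSimpleGroup G]
    (hG : ¬ IsMulCommutative G) {V : Type*} [AddCommGroup V] [Module ℂ V] [FiniteDimensional ℂ V]
    (ρ : Representation ℂ G V)
    (hirr : ∀ W : Submodule ℂ V, (∀ x : G, ∀ v ∈ W, ρ x v ∈ W) → W = ⊥ ∨ W = ⊤)
    (hdim : 1 < Module.finrank ℂ V) (g : G) (hg : g ≠ 1) :
    ∃ W : Submodule ℂ V, W ≠ ⊥ ∧ W ≠ ⊤ ∧ ∀ c ∈ Subgroup.centralizer ({g} : Set G), ∀ v ∈ W, ρ c v ∈ W := by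
  classical
  by_contra hcon
  push Not at hcon
  have hnt : Nontrivial V := Module.nontrivial_of_finrank_pos (R := ℂ) (by omega)
  -- `ρ g` has an eigenvalue
  obtain ⟨μ, hμ⟩ := Module.End.exists_eigenvalue (ρ g)
  set W := Module.End.eigenspace (ρ g) μ with hW
  have hWne : W ≠ ⊥ := hμ
  -- the eigenspace is invariant under the centralizer
  have hWinv : ∀ c ∈ Subgroup.centralizer ({g} : Set G), ∀ v ∈ W, ρ c v ∈ W := by
    intro c hc v hv
    rw [hW, Module.End.mem_eigenspace_iff] at hv ⊢
    have hcg : c * g = g * c := by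
      have := Subgroup.mem_centralizer_iff.mp hc g (by simp)
      exact this.symm
    have h1 : ρ g (ρ c v) = ρ (g * c) v := by simp [map_mul]
    rw [h1, ← hcg, map_mul, Module.End.mul_apply, hv, map_smul]
  have hWtop : W = ⊤ := by
    by_contra hne
    obtain ⟨c, hc, v, hv, hcv⟩ := hcon W hWne hne
    exact hcv (hWinv c hc v hv)
  -- hence `ρ g` is a scalar
  have hscal : ∀ v, ρ g v = μ • v := by
    intro v
    have hv : v ∈ W := by rw [hWtop]; trivial
    rwa [hW, Module.End.mem_eigenspace_iff] at hv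
  have hinvapp : ∀ (y : G) (v : V), ρ y (ρ y⁻¹ v) = v := by
    intro y v
    rw [← Module.End.mul_apply, ← map_mul]; simp
  obtain ⟨u, hu⟩ := exists_ne (0 : V)
  have hμ0 : μ ≠ 0 := by
    intro h0
    have h1 := hinvapp g u
    rw [hscal, h0, zero_smul] at h1
    exact hu h1.symm
  have hginv : ∀ v, ρ g⁻¹ v = μ⁻¹ • v := by
    intro v
    have h1 := hinvapp g v
    rw [hscal] at h1
    calc ρ g⁻¹ v = μ⁻¹ • (μ • ρ g⁻¹ v) := by rw [smul_smul, inv_mul_cancel₀ hμ0, one_smul]
      _ = μ⁻¹ • v := by rw [h1]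
  -- kernel of ρ
  let K : Subgroup G := (Representation.asGroupHom ρ).ker
  have hKn : K.Normal := MonoidHom.normal_ker _
  have hKmem : ∀ x, x ∈ K ↔ ∀ v, ρ x v = v := by
    intro x
    constructor
    · intro hx v
      have : Representation.asGroupHom ρ x = 1 := hx
      have h2 := congrArg (fun u : (V →ₗ[ℂ] V)ˣ => (u : V →ₗ[ℂ] V) v) this
      simpa [Representation.asGroupHom_apply] using h2
    · intro hx
      show Representation.asGroupHom ρ x = 1
      ext v
      simp [Representation.asGroupHom_apply, hx v]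
  rcases hKn.eq_bot_or_eq_top with hbot | htop
  · -- ρ faithful, so g is central
    have hcentral : g ∈ Subgroup.center G := by
      rw [Subgroup.mem_center_iff]
      intro x
      have hmem : x * g * x⁻¹ * g⁻¹ ∈ K := by
        rw [hKmem]
        intro v
        have h1 : ρ (x * g * x⁻¹ * g⁻¹) v = ρ x (ρ g (ρ x⁻¹ (ρ g⁻¹ v))) := by
          simp only [map_mul, Module.End.mul_apply]
        rw [h1, hginv, map_smul, hscal, map_smul, map_smul, hinvapp, smul_smul,
          mul_inv_cancel₀ hμ0, one_smul]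
      rw [hbot, Subgroup.mem_bot] at hmem
      have h3 : x * g * x⁻¹ = g := by
        rwa [mul_inv_eq_one] at hmem
      rw [mul_inv_eq_iff_eq_mul] at h3
      exact h3
    have hZn : (Subgroup.center G).Normal := inferInstance
    rcases hZn.eq_bot_or_eq_top with hZ | hZ
    · rw [hZ, Subgroup.mem_bot] at hcentral
      exact hg hcentral
    · apply hG
      constructor
      constructor
      intro a b
      have : b ∈ Subgroup.center G := by rw [hZ]; trivial
      exact (Subgroup.mem_center_iff.mp this a)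
  · -- ρ trivial: any line is invariant
    have h1 : (∀ x : G, ∀ v ∈ (ℂ ∙ u), ρ x v ∈ (ℂ ∙ u)) := by
      intro x v hv
      have hx : x ∈ K := by rw [htop]; trivial
      rw [(hKmem x).mp hx v]; exact hv
    rcases hirr _ h1 with h | h
    · rw [Submodule.span_singleton_eq_bot] at h
      exact hu h
    · have := finrank_span_singleton (K := ℂ) hu
      rw [h, finrank_top] at this
      omega

end Cfsg.Agent.S5011
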