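import Cfsg.Statements.S5121
import Cfsg.Agent.Lib.H25.NS5

set_option autoImplicit false
open Cfsg

namespace Cfsg.Agent.S5121

open Cfsg.Agent.H25 Cfsg.FusionSystem

/-- Let G be a finite group with Sylow p-subgroup S and C_G(O_p(G)) ≤ O_p(G). For every subgroup T ≤ S and every normal subsystem E over T of the fusion system of G on S there is exactly one normal subgroup H of G containing T as a Sylow p-subgroup whose fusion system on T is E. -/
theorem result {G : Type*} [Group G] [Finite G] (p : ℕ) [Fact p.Prime] (S : Sylow p G) (hG : Subgroup.centralizer ((Cfsg.pCore p G : Subgroup G) : Set G) ≤ Cfsg.pCore p G) (T : Subgroup G) (hTS : T ≤ S) (E : Cfsg.FusionSystem T) (hE : E.IsNormalIn (Cfsg.groupFusionSystem (S : Subgroup G)) p) : ∃ H : Subgroup G, (∃ hTH : T ≤ H, H.Normal ∧ (∃ R : Sylow p H, (R : Subgroup H) = T.subgroupOf H) ∧ ∀ P : Subgroup G, E.Hom P = (Cfsg.fusionSystemOfSubgroup H T hTH).Hom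 P) ∧ ∀ H' : Subgroup G, (∃ hTH' : T ≤ H', H'.Normal ∧ (∃ R : Sylow p H', (R : Subgroup H') = T.subgroupOf H') ∧ ∀ P : Subgroup G, E.Hom P = (Cfsg.fusionSystemOfSubgroup H' T hTH').Hom P) → H' = H := by
  have hI := hE.1.2.2
  have hEs := hE.1.1
  have c := mkCtx hI hG
  have hN : E.IsNormal (nA (pCore p G) T) :=
    haveI hQn0 := Cfsg.Agent.H01.pCore_normal (G := G) p
    inf_isNormal S.isPGroup' hEs hI (Cfsg.Agent.H24.normal_of_normal_pgroup S _ (Cfsg.Agent.H01.pCore_isPGroup p))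
  refine ⟨c.nH E hI, ⟨c.T_le_H hI, c.H_normal hI, c.T_sylow hI hEs, fun P =>
    Set.Subset.antisymm (c.E_le hI hE.2 hEs hN P) (c.le_E hI hE.2 hEs P)⟩, ?_⟩
  rintro H' ⟨hTH', hNH', ⟨R₀, hR₀⟩, hH'⟩
  haveI := hNH'
  haveI hQn := Cfsg.Agent.H01.pCore_normal (G := G) p
  have hUn := c.U_normal
  have hDn := c.D_normal
  -- `H' ∩ Q ≤ T`
  have hQT : ∀ x ∈ H', x ∈ pCore p G → x ∈ T := by
    intro x hx hxQ
    have hp : IsPGroup p ((pCore p G).subgroupOf H') :=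
      IsPGroup.comap_of_injective (Cfsg.Agent.H01.pCore_isPGroup p) H'.subtype (Subgroup.subtype_injective _)
    have h1 := hp.le_sylow_of_normal R₀
    have h2 : (⟨x, hx⟩ : H') ∈ (R₀ : Subgroup H') := h1 (Subgroup.mem_subgroupOf.2 hxQ)
    rw [hR₀] at h2
    exact Subgroup.mem_subgroupOf.1 h2
  -- `H' ∩ D ≤ Z`
  have hDZ : ∀ x ∈ H', x ∈ nD (pCore p G) T → x ∈ nZ (pCore p G) T := by
    intro x hx hxD
    have hp : IsPGroup p ↥(H' ⊓ nD (pCore p G) T) := by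
      refine isPGroup_of_no_coprime _ (fun y hy hco => c.Y_D hco hy.2 (fun u hu => ?_))
      have hU : y * u * y⁻¹ * u⁻¹ ∈ nU (pCore p G) T :=
        (nU (pCore p G) T).mul_mem (hUn.conj_mem _ hu y) ((nU (pCore p G) T).inv_mem hu)
      have hH : y * u * y⁻¹ * u⁻¹ ∈ H' := by
        have e : y * u * y⁻¹ * u⁻¹ = y * (u * y⁻¹ * u⁻¹) := by group
        rw [e]
        exact H'.mul_mem hy.1 (hNH'.conj_mem _ (H'.inv_mem hy.1) u)
      exact ⟨⟨hU.1, hQT _ hH hU.1⟩, hU.2⟩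
    have hle := c.hQmax _ (Subgroup.normal_inf_normal _ _) hp
    exact c.T_D (hQT x hx (hle ⟨hx, hxD⟩)) hxD
  -- `H' ≤ H₁`
  have hH1 : H' ≤ c.nH1 E hI := by
    intro h hh
    refine ⟨⟨conjHom _ h, ?_, fun _ => rfl⟩, fun d hd => ?_⟩
    · rw [hH']
      exact ⟨NCtx.A_le_T, fun x => NCtx.A_le_T (c.A_conj h x x.2), h, hh, fun _ => rfl⟩
    · refine hDZ _ ?_ ((nD _ _).mul_mem (hDn.conj_mem _ hd h) ((nD _ _).inv_mem hd))
      have e : h * d * h⁻¹ * d⁻¹ = h * (d * h⁻¹ * d⁻¹) := by group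
      rw [e]
      exact H'.mul_mem hh (hNH'.conj_mem _ (H'.inv_mem hh) d)
  -- coprime elements of `H₁` lie in `H'`
  have hcop : ∀ x ∈ c.nH1 E hI, Nat.Coprime (orderOf x) p → x ∈ H' := by
    intro x hx hco
    obtain ⟨φ, hφ, hφx⟩ := hx.1
    rw [hH'] at hφ
    obtain ⟨-, -, h, hh, hφh⟩ := hφ
    have hw : h⁻¹ * x ∈ nD (pCore p G) T := by
      rw [NCtx.mem_D]
      intro a ha
      have e1 := (hφh ⟨a, ha⟩).symm.trans (hφx ⟨a, ha⟩)
      have e2 : h * a * h⁻¹ = x * a * x⁻¹ := e1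
      calc a * (h⁻¹ * x) = h⁻¹ * (h * a * h⁻¹) * x := by group
        _ = h⁻¹ * (x * a * x⁻¹) * x := by rw [e2]
        _ = h⁻¹ * x * a := by group
    have hwH : h⁻¹ * x ∈ c.nH1 E hI ⊓ nD (pCore p G) T :=
      ⟨(c.nH1 E hI).mul_mem ((c.nH1 E hI).inv_mem (hH1 hh)) hx, hw⟩
    obtain ⟨k, hk⟩ := c.W_isP hI ⟨_, hwH⟩
    have hk' : (h⁻¹ * x) ^ p ^ k = 1 := by simpa using congrArg Subtype.val hk
    let π : G →* G ⧸ H' := QuotientGroup.mk' H'
    have hπh : π h = 1 := (QuotientGroup.eq_one_iff h).2 hh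
    have h1 : π x ^ p ^ k = 1 := by
      have e3 := congrArg π hk'
      rw [map_pow, map_mul, map_inv, hπh, inv_one, one_mul, map_one] at e3
      exact e3
    have h2 : π x ^ orderOf x = 1 := by rw [← map_pow, pow_orderOf_eq_one, map_one]
    have h3 : orderOf (π x) ∣ 1 := by
      have h4 := Nat.dvd_gcd (orderOf_dvd_of_pow_eq_one h1) (orderOf_dvd_of_pow_eq_one h2)
      have h5 : Nat.Coprime (p ^ k) (orderOf x) := (Nat.Coprime.pow_right k hco).symm
      rwa [h5] at h4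
    exact (QuotientGroup.eq_one_iff x).1 (orderOf_eq_one_iff.1 (Nat.dvd_one.1 h3))
  have hle1 : c.nH E hI ≤ H' := by
    refine sup_le ?_ hTH'
    rw [NCtx.nR, Subgroup.map_le_iff_le_comap]
    refine (Subgroup.closure_le _).2 ?_
    intro y hy
    refine hcop _ y.2 ?_
    have h1 : orderOf ((c.nH1 E hI).subtype y) = orderOf y := Subgroup.orderOf_coe y
    rw [h1]
    exact hy
  refine le_antisymm ?_ hle1
  intro x hx
  obtain ⟨h, hh, hhv⟩ := c.surj hI hE.2 hEs (hH1 hx).1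
  have hD : h⁻¹ * x ∈ nD (pCore p G) T := by
    rw [NCtx.mem_D]
    intro a ha
    have e2 := hhv a ha
    calc a * (h⁻¹ * x) = h⁻¹ * (h * a * h⁻¹) * x := by group
      _ = h⁻¹ * (x * a * x⁻¹) * x := by rw [e2]
      _ = h⁻¹ * x * a := by group
  have hZ := hDZ _ (H'.mul_mem (H'.inv_mem (hle1 hh)) hx) hD
  have e : x = h * (h⁻¹ * x) := by group
  rw [e]
  exact (c.nH E hI).mul_mem hh (NCtx.Z_le_H c hI hZ)

end Cfsg.Agent.S5121
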