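import Cfsg.Statements.S5244
import Cfsg.Agent.Lib.H25.AxH

set_option autoImplicit false
open Cfsg
open scoped commutatorElement

namespace Cfsg.Agent.S5244

open Cfsg.Agent.H25 Cfsg.FusionSystem

/-- Let p be an odd prime, S a finite nonabelian p-group with a unique abelian subgroup A of index p, and F a saturated fusion system over S with no nontrivial normal subgroup (O_p(F) = 1) in which A is not F-essential. Then some subgroup Z(S)⟨x⟩ with x ∈ S outside A is F-essential, the centre Z(S) is contained in the commutator subgroup of S, and S has maximal nilpotency class (if S has order pⁿ with n ≥ 3, the term of index n − 2 of its lower central series, counting S itself as the term of index 0, is nontrivial). -/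
theorem result {Ω : Type*} [Group Ω] {S : Subgroup Ω} [Finite S] (p : ℕ) [Fact p.Prime] (hS : IsPGroup p S) (F : Cfsg.FusionSystem S) (hF : F.IsSaturated p) (hp : p ≠ 2) (hna : ¬ IsMulCommutative ↥S) (A : Subgroup Ω) (hA : A ≤ S ∧ IsMulCommutative ↥A ∧ (A.subgroupOf S).index = p) (huniq : ∀ B : Subgroup Ω, B ≤ S → IsMulCommutative ↥B → (B.subgroupOf S).index = p → B = A) (hcore : F.core = ⊥) (hAe : ¬ F.IsEssential p A) : (∃ x ∈ S, x ∉ A ∧ F.IsEssential p ((S ⊓ Subgroup.centralizer (S : Set Ω)) ⊔ Subgroup.zpowers x)) ∧ (S ⊓ Subgroup.centralizer (S : Set Ω)) ≤ (commutator ↥S).map S.subtype ∧ ∀ n : ℕ, Nat.card S = p ^ n → 3 ≤ n → Subgroup.lowerCentralSeries S (n - 2) ≠ ⊥ := by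
  classical
  have C := mkAxC hS hna hA
  have uq := mkUq huniq
  have hess : ∀ E, F.IsEssential p E → (∃ x ∈ E, x ∉ A ∧ AxP C F E x ∧ E = ZS S ⊔ Subgroup.zpowers x) ∨ CCx F E := by
    intro E hE
    have hne : E ≠ A := fun h => hAe (h ▸ hE)
    obtain ⟨h1, hB, x, hxE, hxA, hc⟩ := ax_main C hF hE hne
    have hZ2 := C.Z2_le uq hB
    rw [inf_eq_right.mpr hZ2] at hB
    rcases hc with ⟨h2, h3, h4⟩ | ⟨-, -, h4⟩
    · exact Or.inl ⟨x, hxE, hxA, ⟨hF, hE, hxE, hxA, h4, h2, hZ2, hB, h1⟩, h3⟩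
    · exact Or.inr ⟨hE.1, h4⟩
  have hstE : ∀ E, F.IsEssential p E → ZS S ≤ E := fun E hE z hz =>
    hE.1.2 E (isConj_refl hE.1.1) (mem_centralizerIn.mpr ⟨hz.1, fun y hy => (mem_ZS.mp hz).2 y (hE.1.1 hy)⟩)
  -- the centre of `S` is nontrivial
  have hZne : ∃ z ∈ ZS S, z ≠ 1 := by
    haveI : Nontrivial S := by
      obtain ⟨s, hs, t, ht, hst⟩ := C.na
      refine ⟨⟨⟨s, hs⟩, ⟨t, ht⟩, fun h => hst ?_⟩⟩
      have e : s = t := congrArg Subtype.val h
      rw [e]
    haveI := hS.center_nontrivial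
    obtain ⟨⟨z, hz⟩, hz1⟩ := exists_ne (1 : Subgroup.center S)
    refine ⟨z, mem_ZS.mpr ⟨z.2, fun s hs => ?_⟩, fun h => hz1 (Subtype.ext (Subtype.ext h))⟩
    exact congrArg Subtype.val (Subgroup.mem_center_iff.1 hz ⟨s, hs⟩)
  -- an abelian essential subgroup
  obtain ⟨P, x, hxP, hxA, hD, hPeq⟩ : ∃ P x, x ∈ P ∧ x ∉ A ∧ AxP C F P x ∧ P = ZS S ⊔ Subgroup.zpowers x := by
    by_contra hcon
    obtain ⟨z, hz, hz1⟩ := hZne
    have h1 : ZS S ≤ F.core := by
      refine le_core_of_stable hS hF inf_le_left (fun β hβ z hz => iso_ZS hβ hz) (fun E hE => ⟨hstE E hE, fun b hb y hy => ?_⟩)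
      rcases hess E hE with ⟨x, hx1, hx2, hx3, hx4⟩ | hcc
      · exact absurd ⟨E, x, hx1, hx2, hx3, hx4⟩ hcon
      · have h2 := hcc.maps_Z C (Iso.of_mem_autGroup hE.1.1 hb) hy
        rwa [toFun_aut] at h2
    rw [hcore] at h1
    exact hz1 (h1 hz)
  have hxS : x ∈ S := hD.hxS
  have hP : F.IsEssential p P := hD.hE
  -- the complement vanishes
  obtain ⟨Z₁, hZ₁, hint, hsup, hst⟩ := hD.exists_compl
  have hZ₁c : Z₁ ≤ F.core := by
    refine le_core_of_stable hS hF (hZ₁.trans inf_le_left) hst (fun E hE => ⟨hZ₁.trans (hstE E hE), fun b hb y hy => ?_⟩)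
    rcases hess E hE with ⟨x', -, -, hx3, -⟩ | hcc
    · exact hx3.stable hp hZ₁ hint hst hb y hy
    · obtain ⟨β, hβ, hβe⟩ := ext_center C hF (Nat.card S) _ _ _ (by omega) hcc (Iso.of_mem_autGroup hE.1.1 hb)
      have h2 := hβe y (hZ₁ hy)
      rw [toFun_aut] at h2
      rw [h2]
      exact hst β hβ y hy
  rw [hcore] at hZ₁c
  have hZK : ZS S = ZK S := by
    apply le_antisymm _ inf_le_left
    intro z hz
    obtain ⟨k, hk, w, hw, rfl⟩ := hsup z hz
    have hw1 : w = 1 := hZ₁c hw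
    rw [hw1, mul_one]
    exact hk
  refine ⟨⟨x, hxS, hxA, hPeq ▸ hP⟩, ?_, ?_⟩
  · exact hZK.le.trans inf_le_right
  · intro n hn hn3
    have hZ2 := hD.hZ2
    have hB := hD.hB
    have hcardZ : Nat.card (ZS S) = p := by
      rw [hZK]
      exact C.card_inf hxS hxA hZ2 hB
    haveI : Finite ↥A := finite_of_le C.le
    haveI : Finite ↥(ZS S) := finite_of_le inf_le_left
    have h1 := Subgroup.card_mul_index (A.subgroupOf S)
    have h2 := Subgroup.card_mul_index ((ZS S).subgroupOf A)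
    have h3 := Subgroup.card_mul_index ((ZS S).subgroupOf S)
    rw [show Nat.card ↥(A.subgroupOf S) = Nat.card A from Nat.card_congr (Subgroup.subgroupOfEquivOfLe C.le).toEquiv, C.idx] at h1
    rw [show Nat.card ↥((ZS S).subgroupOf A) = Nat.card (ZS S) from Nat.card_congr (Subgroup.subgroupOfEquivOfLe C.zl).toEquiv, hcardZ] at h2
    rw [show Nat.card ↥((ZS S).subgroupOf S) = Nat.card (ZS S) from Nat.card_congr (Subgroup.subgroupOfEquivOfLe inf_le_left).toEquiv, hcardZ] at h3
    have hpp : 0 < p := (Fact.out : p.Prime).pos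
    have hn4 : n ≠ 3 := by
      rintro rfl
      apply C.idx_ne uq
      have h4 : (p * p) * ((ZS S).subgroupOf A).index = (p * p) * p := by
        calc (p * p) * ((ZS S).subgroupOf A).index = (p * ((ZS S).subgroupOf A).index) * p := by ring
          _ = Nat.card S := by rw [h2, h1]
          _ = _ := by rw [hn]; ring
      exact Nat.eq_of_mul_eq_mul_left (Nat.mul_pos hpp hpp) h4
    have hm : ((ZS S).subgroupOf S).index = p ^ (n - 1) := by
      apply Nat.eq_of_mul_eq_mul_left hpp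
      rw [h3, hn, ← pow_succ']
      congr 1
      omega
    have h5 := C.lcs_not_le hxS hxA hZ2 hB (n - 1) hm (by omega)
    obtain ⟨y, hy, hyZ⟩ := SetLike.not_le_iff_exists.1 h5
    have hlcs : ∀ k, Subgroup.lowerCentralSeries S k ≤ S := by
      intro k
      induction k with
      | zero => exact le_rfl
      | succ k ih =>
        rw [Subgroup.lowerCentralSeries_succ, Subgroup.commutator_le]
        intro g₁ h₁ g₂ h₂
        rw [commutatorElement_def]
        exact S.mul_mem (S.mul_mem (S.mul_mem (ih h₁) h₂) (S.inv_mem (ih h₁))) (S.inv_mem h₂)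
    have hyS : y ∈ S := hlcs _ hy
    obtain ⟨s, hs, hsy⟩ : ∃ s ∈ S, y * s ≠ s * y := by
      by_contra hcon
      push Not at hcon
      exact hyZ (mem_ZS.mpr ⟨hyS, fun s hs => (hcon s hs).symm⟩)
    intro hbot
    have h6 : ⁅y, s⁆ ∈ Subgroup.lowerCentralSeries S (n - 1 - 2 + 1) := by
      rw [Subgroup.lowerCentralSeries_succ]
      exact Subgroup.commutator_mem_commutator hy hs
    have e : n - 1 - 2 + 1 = n - 2 := by omega
    rw [e, hbot, Subgroup.mem_bot, commutatorElement_eq_one_iff_mul_comm] at h6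
    exact hsy h6

end Cfsg.Agent.S5244
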