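import Cfsg.Statements.S5247
import Cfsg.Agent.Lib.H25.FusStable

set_option autoImplicit false
open Cfsg

namespace Cfsg.Agent.S5247

open Cfsg.Agent.H25 Cfsg.FusionSystem

/-- Let p be an odd prime and F a saturated fusion system over a finite p-group S. Call a fusion system E (over any subgroup) p-stable when, for every fully E-normalized subgroup Q and every χ ∈ Aut_E(Q) with χ(a⁻¹)·a·χ(a⁻¹)·χ(χ(a)) = 1 for all a ∈ Q (χ acts quadratically), χ lies in O_p(Aut_E(Q)). Then F is p-stable if and only if every normalizer fusion system N_F(R) of every non-cyclic fully F-normalized subgroup R of S is p-stable. -/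
theorem result {Ω : Type*} [Group Ω] {S : Subgroup Ω} [Finite S] (p : ℕ) [Fact p.Prime] (hS : IsPGroup p S) (F : Cfsg.FusionSystem S) (hF : F.IsSaturated p) (hp : p ≠ 2) : (∀ Q : Subgroup Ω, F.IsFullyNormalized Q → ∀ χ : MulAut ↥Q, χ ∈ F.autGroup Q → (∀ a : ↥Q, (χ a⁻¹) * a * (χ a⁻¹) * (χ (χ a)) = 1) → χ ∈ ((Cfsg.pCore p ↥(F.autGroup Q)).map (F.autGroup Q).subtype : Subgroup (MulAut ↥Q))) ↔ ∀ R : Subgroup Ω, F.IsFullyNormalized R → ¬ IsCyclic ↥R → ∀ N : Cfsg.FusionSystem (Cfsg.FusionSystem.normalizerIn S R), F.IsNormalizerSystem R N → (∀ Q : Subgroup Ω, N.IsFullyNormalized Q → ∀ χ : MulAut ↥Q, χ ∈ N.autGroup Q → (∀ a : ↥Q, (χ a⁻¹) * a * (χ a⁻¹) * (χ (χ a)) = 1) → χ ∈ ((Cfsg.pCore p ↥(N.autGroup Q)).map (N.autGroup Q).subtype : Subgroup (MulAut ↥Q))) := by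
  constructor
  · intro h R _ _ N hN
    exact PS.of_normalizerSystem (F := F) h hN
  · intro h Q hQ χ hχ hq
    have hQS := hQ.1
    haveI : Finite Q := finite_of_le hQS
    by_cases hcyc : IsCyclic ↥Q
    · exact quad_cyclic (hS.to_le hQS) hχ hq
    · obtain ⟨N, hN⟩ := exists_isNormalizerSystem (F := F) hQS
      haveI : Finite (normalizerIn S Q) := finite_of_le inf_le_left
      have hfn : N.IsFullyNormalized Q := fullyNormalized_of_normal (le_normalizerIn hQS) normalizerIn_le_normalizer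
      have heq := aut_eq_normalizerSys hN le_rfl hQS ExtAll.refl
      have h1 := h Q hQ hcyc N hN Q hfn χ (by rw [heq]; exact hχ) hq
      rw [heq] at h1
      exact h1

end Cfsg.Agent.S5247
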