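import Cfsg.Statements.S5251
import Cfsg.Agent.Lib.H25.FusStable
import Cfsg.Agent.Lib.H24.FusAG2

set_option autoImplicit false
open Cfsg

namespace Cfsg.Agent.S5251

open Cfsg.Agent.H25 Cfsg.FusionSystem

variable {Ω : Type*} [Group Ω] {S : Subgroup Ω} {F : Cfsg.FusionSystem S}

theorem sc_mp {T R : Subgroup Ω} {f : Ω → Ω} (hT : F.StronglyClosed T) (hRT : R ≤ T) (hf : Mp F R f) :
    ∀ x ∈ R, f x ∈ T := by
  intro x hx
  obtain ⟨φ, hφ, hφf⟩ := hf
  have := hT.2 R hRT φ hφ ⟨x, hx⟩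
  rwa [hφf] at this

theorem W1_le_pCoreOf [Finite S] {p : ℕ} [Fact p.Prime] (hS : IsPGroup p S) {R Q₁ : Subgroup Ω} [Finite R] (hRS : R ≤ S)
    (hQ₁R : Q₁ ≤ R) (hinv : ∀ a ∈ F.autGroup R, ∀ x : R, (x : Ω) ∈ Q₁ → ((a x : R) : Ω) ∈ Q₁) :
    W1 R Q₁ ⊓ F.autGroup R ≤ pCoreOf p (F.autGroup R) := by
  apply Cfsg.Agent.H13.le_pCoreOf inf_le_right
  · exact (W1_isPGroup hS hRS (hQ₁R.trans hRS)).to_le inf_le_left
  · intro a ha
    have key : ∀ b ∈ F.autGroup R, ∀ γ ∈ W1 R Q₁ ⊓ F.autGroup R, b * γ * b⁻¹ ∈ W1 R Q₁ ⊓ F.autGroup R := by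
      intro b hb γ hγ
      obtain ⟨⟨⟨q, hq, h1⟩, h2⟩, h3⟩ := hγ
      have hbinv := (F.autGroup R).inv_mem hb
      refine ⟨⟨⟨((b ⟨q, hQ₁R hq⟩ : R) : Ω), hinv b hb _ hq, fun x hx => ?_⟩, fun x => ?_⟩,
        (F.autGroup R).mul_mem ((F.autGroup R).mul_mem hb h3) hbinv⟩
      · have hbx := hinv _ hbinv x hx
        have h4 := h1 _ hbx
        show ((b (γ (b⁻¹ x)) : R) : Ω) = _
        have h5 : γ (b⁻¹ x) = ⟨q, hQ₁R hq⟩ * (b⁻¹ x) * (⟨q, hQ₁R hq⟩ : R)⁻¹ := Subtype.ext h4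
        rw [h5, map_mul, map_mul, map_inv]
        simp
      · have h4 := h2 (b⁻¹ x)
        have h5 : (x : Ω)⁻¹ * (((b * γ * b⁻¹) x : R) : Ω) = ((b ((b⁻¹ x)⁻¹ * γ (b⁻¹ x)) : R) : Ω) := by
          show _ = ((b ((b⁻¹ x)⁻¹ * γ (b⁻¹ x)) : R) : Ω)
          rw [map_mul, map_inv]
          simp
        rw [h5]
        apply hinv b hb
        exact h4
    rw [Subgroup.mem_normalizer_iff]
    intro γ
    refine ⟨fun h => key a ha γ h, fun h => ?_⟩
    have := key a⁻¹ ((F.autGroup R).inv_mem ha) _ h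
    simpa [mul_assoc] using this

/-- Let F be a saturated fusion system over a finite p-group S, E a normal subsystem of F over T, and P an F-centric subgroup of S such that P ∩ T is not E-centric. Then some F-conjugate P* of P satisfies Out_S(P*) ∩ O_p(Out_F(P*)) ≠ 1: there is an element of N_S(P*) outside P* whose conjugation action on P* lies in O_p(Aut_F(P*)). In particular P is not both centric and radical in F. -/
theorem result {Ω : Type*} [Group Ω] {S : Subgroup Ω} [Finite S] (p : ℕ) [Fact p.Prime] (hS : IsPGroup p S) (F : Cfsg.FusionSystem S) (hF : F.IsSaturated p) {T : Subgroup Ω} (E : Cfsg.FusionSystem T) (hE : E.IsNormalIn F p) (P : Subgroup Ω) (hP : F.IsCentric P) (hPT : ¬ E.IsCentric (P ⊓ T)) : (∃ φ ∈ F.Hom P, ∃ x ∈ S ⊓ Subgroup.normalizer (φ.range : Set Ω), x ∉ φ.range ∧ ∃ α ∈ ((Cfsg.pCore p ↥(F.autGroup φ.range)).map (F.autGroup φ.range).subtype : Subgroup (MulAut ↥φ.range)),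 ∀ y : ↥φ.range, ((α y : ↥φ.range) : Ω) = x * (y : Ω) * x⁻¹) ∧ ¬ F.IsRadical p P := by
  classical
  have hsub := hE.1.2.2.1
  have hTsc := hE.1.2.2.2.1
  have hTS := hTsc.1
  have hTN := Cfsg.Agent.H24.normalizer_of_stronglyClosed hTsc
  have hPS := hP.1
  have hQP : P ⊓ T ≤ P := inf_le_left
  have hQT : P ⊓ T ≤ T := inf_le_right
  have hQS := hQP.trans hPS
  -- a non-centric `E`-conjugate
  obtain ⟨Q', hQQ', hQ'⟩ : ∃ Q', E.IsConj (P ⊓ T) Q' ∧ ¬ centralizerIn T Q' ≤ Q' := by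
    by_contra hcon
    push Not at hcon
    exact hPT ⟨hQT, fun Q' h => hcon Q' h⟩
  have hFconj : F.IsConj (P ⊓ T) Q' := by
    obtain ⟨φ, hφ, hr⟩ := hQQ'
    exact ⟨φ, hsub _ hφ, hr⟩
  obtain ⟨Q₁, f₀, hQ₁, hf₀⟩ := exists_far hF hQS
  have hQQ₁ : F.IsConj (P ⊓ T) Q₁ := isConj_iff.mpr ⟨f₀, hf₀⟩
  obtain ⟨a, ha, haI⟩ := exists_ext_normalizer hS hQ₁ hQQ₁
  have hPN : P ≤ normalizerIn S (P ⊓ T) := by
    intro x hx
    refine mem_normalizerIn.mpr ⟨hPS hx, ?_⟩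
    rw [Subgroup.mem_normalizer_iff]
    have key : ∀ t ∈ P, ∀ y ∈ P ⊓ T, t * y * t⁻¹ ∈ P ⊓ T := by
      intro t ht y hy
      exact ⟨P.mul_mem (P.mul_mem ht hy.1) (P.inv_mem ht), conj_mem_of_normalizer (hTN (hPS ht)) hy.2⟩
    intro y
    refine ⟨key x hx y, fun h => ?_⟩
    have := key x⁻¹ (P.inv_mem hx) _ h
    simpa [mul_assoc] using this
  have haP := ha.restrict hPN
  have hI := Iso.of_mp haP
  obtain ⟨k, hk, hk1, hk2⟩ := hI.inv
  have hRS : haP.img ≤ S := fun y hy => by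
    obtain ⟨x, hx, rfl⟩ := hI.surj y hy
    exact haP.mem hx
  have hQ₁T : Q₁ ≤ T := by
    intro y hy
    obtain ⟨x, hx, rfl⟩ := haI.surj y hy
    exact sc_mp hTsc hQT haI.mp x hx
  have hQ₁R : Q₁ ≤ haP.img := by
    intro y hy
    obtain ⟨x, hx, rfl⟩ := haI.surj y hy
    exact hI.maps x hx.1
  have hRT : haP.img ⊓ T = Q₁ := by
    apply le_antisymm
    · rintro y ⟨hy1, hy2⟩
      have h1 : k y ∈ T := sc_mp hTsc (inf_le_right : haP.img ⊓ T ≤ T) (hk.mp.restrict inf_le_left) y ⟨hy1, hy2⟩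
      have h2 : k y ∈ P := hk.maps y hy1
      rw [← hk2 y hy1]
      exact haI.maps _ ⟨h2, h1⟩
    · intro y hy
      exact ⟨hQ₁R hy, hQ₁T hy⟩
  -- `C_T(Q₁)` is not in `Q₁`
  have hC : ¬ centralizerIn T Q₁ ≤ Q₁ := by
    intro hle
    apply hQ'
    have hconj := isConj_trans (isConj_symm hFconj) hQQ₁
    obtain ⟨g, hg⟩ := isConj_iff.mp hconj
    have hQ'S : Q' ≤ S := hg.mp.le
    obtain ⟨e, he, heg⟩ := recept_ext (K := Q' ⊔ centralizerIn S Q') hQ₁.recep hg le_sup_left (by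
      refine sup_le (fun x hx => Subgroup.subset_closure (mem_good_of_mem hg hx)) ?_
      intro c hcc
      obtain ⟨hcS, hc'⟩ := mem_centralizerIn.mp hcc
      exact Subgroup.subset_closure (mem_good_of_centralizes hg hcS (fun x hx => (hc' x hx).symm)))
    have hIe : Iso F Q' Q₁ e := hg.congr fun x hx => (heg x hx).symm
    intro c hc
    obtain ⟨hcT, hc'⟩ := mem_centralizerIn.mp hc
    have hcK : c ∈ Q' ⊔ centralizerIn S Q' :=
      Subgroup.mem_sup_right (mem_centralizerIn.mpr ⟨hTS hcT, hc'⟩)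
    have hecT : e c ∈ T := by
      have hz : Subgroup.zpowers c ≤ Q' ⊔ centralizerIn S Q' := Subgroup.zpowers_le.mpr hcK
      exact sc_mp hTsc (Subgroup.zpowers_le.mpr hcT) (he.restrict hz) c (Subgroup.mem_zpowers c)
    have hec : e c ∈ centralizerIn T Q₁ := by
      refine mem_centralizerIn.mpr ⟨hecT, fun y hy => ?_⟩
      obtain ⟨x, hx, rfl⟩ := hIe.surj y hy
      rw [← he.map_mul (Subgroup.mem_sup_left hx) hcK, ← he.map_mul hcK (Subgroup.mem_sup_left hx), hc' x hx]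
    obtain ⟨x, hx, hxe⟩ := hIe.surj _ (hle hec)
    have := he.inj (Subgroup.mem_sup_left hx) hcK hxe
    rw [← this]
    exact hx
  obtain ⟨c, hc, hcQ₁⟩ := SetLike.not_le_iff_exists.mp hC
  obtain ⟨hcT, hcc⟩ := mem_centralizerIn.mp hc
  have hcR : c ∉ haP.img := fun h => hcQ₁ (hRT ▸ (⟨h, hcT⟩ : c ∈ haP.img ⊓ T))
  -- `R` normalizes `C_T(Q₁)`
  have hRNC : haP.img ≤ Subgroup.normalizer (centralizerIn T Q₁ : Set Ω) := by
    have hRNQ : ∀ r ∈ haP.img, ∀ y ∈ Q₁, r * y * r⁻¹ ∈ Q₁ := by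
      intro r hr y hy
      rw [← hRT] at hy ⊢
      exact ⟨Subgroup.mul_mem _ (Subgroup.mul_mem _ hr hy.1) (Subgroup.inv_mem _ hr),
        conj_mem_of_normalizer (hTN (hRS hr)) hy.2⟩
    have key : ∀ r ∈ haP.img, ∀ d ∈ centralizerIn T Q₁, r * d * r⁻¹ ∈ centralizerIn T Q₁ := by
      intro r hr d hd
      obtain ⟨hdT, hd'⟩ := mem_centralizerIn.mp hd
      refine mem_centralizerIn.mpr ⟨conj_mem_of_normalizer (hTN (hRS hr)) hdT, fun y hy => ?_⟩
      have h1 := hRNQ r⁻¹ (Subgroup.inv_mem _ hr) y hy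
      rw [inv_inv] at h1
      have h2 := hd' _ h1
      calc y * (r * d * r⁻¹) = r * ((r⁻¹ * y * r) * d) * r⁻¹ := by group
        _ = r * (d * (r⁻¹ * y * r)) * r⁻¹ := by rw [h2]
        _ = _ := by group
    intro r hr
    rw [Subgroup.mem_normalizer_iff]
    intro d
    refine ⟨key r hr d, fun h => ?_⟩
    have := key r⁻¹ (Subgroup.inv_mem _ hr) _ h
    simpa [mul_assoc] using this
  -- the element `x`
  have hLS : haP.img ⊔ centralizerIn T Q₁ ≤ S := sup_le hRS (inf_le_left.trans hTS)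
  haveI : Finite ↥(haP.img ⊔ centralizerIn T Q₁) := finite_of_le hLS
  have hRne : haP.img ≠ haP.img ⊔ centralizerIn T Q₁ := by
    intro h
    exact hcR (h ▸ Subgroup.mem_sup_right hc)
  obtain ⟨z, hz, hzR⟩ := exists_normalizer_not_mem (S := haP.img ⊔ centralizerIn T Q₁) (hS.to_le hLS) le_sup_left hRne
  obtain ⟨hzL, hzN⟩ := mem_normalizerIn.mp hz
  obtain ⟨r, hr, x, hx, rfl⟩ := mem_sup_of_le_normalizer hRNC hzL
  have hxN : x ∈ Subgroup.normalizer (haP.img : Set Ω) := by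
    have h1 := Subgroup.mul_mem _ ((Subgroup.le_normalizer : haP.img ≤ _) (Subgroup.inv_mem _ hr)) hzN
    simpa using h1
  have hxR : x ∉ haP.img := fun h => hzR (Subgroup.mul_mem _ hr h)
  obtain ⟨hxT, hxc⟩ := mem_centralizerIn.mp hx
  have hxS := hTS hxT
  haveI hRfin : Finite haP.img := finite_of_le hRS
  haveI : Finite P := finite_of_le hPS
  -- the automorphism
  have hαI := Iso.conj_normalizer (F := F) hRS hxS hxN
  have hαF := autOfIso_mem hαI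
  have hαW : autOfIso hαI ∈ W1 haP.img Q₁ := by
    refine ⟨⟨1, Q₁.one_mem, fun y hy => ?_⟩, fun y => ?_⟩
    · rw [autOfIso_apply, ← hxc y hy]
      group
    · rw [autOfIso_apply]
      rw [← hRT]
      have h1 : (y : Ω)⁻¹ * (x * y * x⁻¹) ∈ T := by
        have h2 := conj_mem_of_normalizer (hTN (hRS (Subgroup.inv_mem _ y.2))) hxT
        have h3 : ((y : Ω)⁻¹ * x * (y : Ω)⁻¹⁻¹) * x⁻¹ ∈ T := T.mul_mem h2 (T.inv_mem hxT)
        simpa [mul_assoc] using h3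
      have h4 : (y : Ω)⁻¹ * (x * y * x⁻¹) ∈ haP.img :=
        Subgroup.mul_mem _ (Subgroup.inv_mem _ y.2) (conj_mem_of_normalizer hxN y.2)
      exact ⟨h4, h1⟩
  have hinv : ∀ b ∈ F.autGroup haP.img, ∀ y : haP.img, (y : Ω) ∈ Q₁ → ((b y : haP.img) : Ω) ∈ Q₁ := by
    intro b hb y hy
    rw [← hRT] at hy ⊢
    refine ⟨(b y).2, ?_⟩
    have h1 := Iso.of_mem_autGroup hRS hb
    have h2 := sc_mp hTsc (inf_le_right : haP.img ⊓ T ≤ T) (h1.mp.restrict inf_le_left) y hy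
    rwa [toFun_aut] at h2
  have hαO : autOfIso hαI ∈ pCoreOf p (F.autGroup haP.img) :=
    W1_le_pCoreOf hS hRS hQ₁R hinv ⟨hαW, hαF⟩
  refine ⟨⟨haP.choose, haP.choose_spec.1, x, ⟨hxS, hxN⟩, hxR, autOfIso hαI, hαO, fun y => rfl⟩, fun hrad => ?_⟩
  -- `P` is not radical
  have hα₀ : (MulAut.congr (isoEquiv hI)).symm (autOfIso hαI) ∈ pCoreOf p (F.autGroup P) := by
    rw [pCoreOf_congr_iff (p := p) hI, MulEquiv.apply_symm_apply]
    exact hαO
  have hInn : (MulAut.congr (isoEquiv hI)).symm (autOfIso hαI) ∈ Inn P := by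
    have h1 := hrad.2
    have h2 : pCoreOf p (F.autGroup P) = Inn P := h1
    rw [← h2]
    exact hα₀
  obtain ⟨y, hy, hyC⟩ := IsC.of_inn hInn
  have hRc : F.IsCentric haP.img := IsCentric.of_conj hP (isConj_iff.mpr ⟨a, hI⟩)
  have hc2 : (a y)⁻¹ * x ∈ centralizerIn S haP.img := by
    refine mem_centralizerIn.mpr ⟨S.mul_mem (S.inv_mem (hRS (hI.maps y hy))) hxS, fun r' hr' => ?_⟩
    obtain ⟨t, ht, rfl⟩ := hI.surj r' hr'
    have h1 := congr_apply_eq hI ((MulAut.congr (isoEquiv hI)).symm (autOfIso hαI)) (hI.maps t ht) ht rfl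
    rw [MulEquiv.apply_symm_apply, autOfIso_apply, hyC ⟨t, ht⟩] at h1
    have h2 : x * a t * x⁻¹ = a y * a t * (a y)⁻¹ := by
      rw [h1, haP.map_mul (P.mul_mem hy ht) (P.inv_mem hy), haP.map_mul hy ht, haP.map_inv hy]
    have h3 : x * a t = a y * a t * (a y)⁻¹ * x := by
      rw [← h2]; group
    calc a t * ((a y)⁻¹ * x) = (a y)⁻¹ * (a y * a t * (a y)⁻¹ * x) := by group
      _ = (a y)⁻¹ * (x * a t) := by rw [h3]
      _ = _ := by group
  have h5 := hRc.2 _ (isConj_refl hRS) hc2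
  apply hxR
  have h6 := Subgroup.mul_mem _ (hI.maps y hy) h5
  simpa using h6

end Cfsg.Agent.S5251
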