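import Cfsg.Statements.S5254
import Cfsg.Agent.Lib.H25.AxF

set_option autoImplicit false
open Cfsg

namespace Cfsg.Agent.S5254

open Cfsg.Agent.H25 Cfsg.FusionSystem

/-- Let p be an odd prime, S a finite nonabelian p-group with a unique abelian subgroup A of index p, and F a saturated fusion system over S. Then every F-essential subgroup P is A, or Z(S)⟨x⟩ for some x ∈ S outside A, or (when the second centre Z₂(S) lies in A) Z₂(S)⟨x⟩ for some x ∈ S outside A; and P has index p in its normalizer in S. -/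
theorem result {Ω : Type*} [Group Ω] {S : Subgroup Ω} [Finite S] (p : ℕ) [Fact p.Prime] (hS : IsPGroup p S) (F : Cfsg.FusionSystem S) (hF : F.IsSaturated p) (hp : p ≠ 2) (hna : ¬ IsMulCommutative ↥S) (A : Subgroup Ω) (hA : A ≤ S ∧ IsMulCommutative ↥A ∧ (A.subgroupOf S).index = p) (huniq : ∀ B : Subgroup Ω, B ≤ S → IsMulCommutative ↥B → (B.subgroupOf S).index = p → B = A) (P : Subgroup Ω) (hP : F.IsEssential p P) : (P = A ∨ (∃ x ∈ S, x ∉ A ∧ P = (S ⊓ Subgroup.centralizer (S : Set Ω)) ⊔ Subgroup.zpowers x) ∨ (((upperCentralSeries ↥S 2).map S.subtype) ≤ A ∧ ∃ x ∈ S, x ∉ A ∧ P = ((upperCentralSeries ↥S 2).map S.subtype) ⊔ Subgroup.zpowers x)) ∧ (P.subgroupOf (S ⊓ Subgroup.normalizer (P : Set Ω))).index = p := by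
  have C := mkAxC hS hna hA
  have uq := mkUq huniq
  by_cases hne : P = A
  · subst hne
    refine ⟨Or.inl rfl, ?_⟩
    rw [inf_eq_left.mpr C.normal]
    exact hA.2.2
  · obtain ⟨h1, hB, x, hxP, hxA, hc⟩ := ax_main C hF hP hne
    have hxS : x ∈ S := hP.1.1 hxP
    refine ⟨Or.inr ?_, h1⟩
    rcases hc with ⟨-, h2, -⟩ | ⟨-, h2, -⟩
    · exact Or.inl ⟨x, hxS, hxA, h2⟩
    · have hZ2 := C.Z2_le uq hB
      rw [inf_eq_right.mpr hZ2] at h2
      exact Or.inr ⟨hZ2, x, hxS, hxA, h2⟩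

end Cfsg.Agent.S5254
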