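import Cfsg.Statements.S5257
import Cfsg.Agent.Lib.H25.AxF

set_option autoImplicit false
open Cfsg

namespace Cfsg.Agent.S5257

open Cfsg.Agent.H25 Cfsg.FusionSystem

/-- Let p be an odd prime, S a finite nonabelian p-group with a unique abelian subgroup A of index p, and F a saturated fusion system over S having an F-essential subgroup other than A. Then the second centre Z₂(S) lies in A; Z(S) ∩ [S, S] has order p; Z(S)[S, S] has index p in A; Z(S) has index p in Z₂(S); and S/Z(S) has maximal nilpotency class (if S/Z(S) has order pᵐ with m ≥ 3 then the term of index m − 2 of the lower central series of S, counting S as index 0, is not contained in Z(S)). -/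
theorem result {Ω : Type*} [Group Ω] {S : Subgroup Ω} [Finite S] (p : ℕ) [Fact p.Prime] (hS : IsPGroup p S) (F : Cfsg.FusionSystem S) (hF : F.IsSaturated p) (hp : p ≠ 2) (hna : ¬ IsMulCommutative ↥S) (A : Subgroup Ω) (hA : A ≤ S ∧ IsMulCommutative ↥A ∧ (A.subgroupOf S).index = p) (huniq : ∀ B : Subgroup Ω, B ≤ S → IsMulCommutative ↥B → (B.subgroupOf S).index = p → B = A) (P : Subgroup Ω) (hP : F.IsEssential p P) (hPA : P ≠ A) : ((upperCentralSeries ↥S 2).map S.subtype) ≤ A ∧ Nat.card ↥((S ⊓ Subgroup.centralizer (S : Set Ω)) ⊓ ((commutator ↥S).map S.subtype)) = p ∧ (((S ⊓ Subgroup.centralizer (S : Set Ω)) ⊔ ((commutator ↥S).map S.subtype)).subgroupOf A).index = p ∧ (((S ⊓ Subgroup.centralizer (S : Set Ω))).subgroupOf ((upperCentralSeries ↥S 2).map S.subtype)).index = p ∧ ∀ m : ℕ, ((S ⊓ Subgroup.centralizer (S : Set Ω)).subgroupOf S).index = p ^ m → 3 ≤ m → ¬ Subgroup.lowerCentralSeries S (m - 2) ≤ (S ⊓ Subgroup.centralizer (S : Set Ω)) := by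
  have C := mkAxC hS hna hA
  have uq := mkUq huniq
  obtain ⟨h1, hB, x, hxP, hxA, hc⟩ := ax_main C hF hP hPA
  have hxS : x ∈ S := hP.1.1 hxP
  have hZ2 := C.Z2_le uq hB
  rw [inf_eq_right.mpr hZ2] at hB
  have hcA : (commutator ↥S).map S.subtype ≤ A := by
    rw [C.comm_eq hxS hxA]
    rintro _ ⟨a, rfl⟩
    exact tauOn_mem C hxS le_rfl a
  have hcard := C.card_inf hxS hxA hZ2 hB
  refine ⟨hZ2, hcard, C.idx_sup C.zl hcA hcard (C.card_comm hxS hxA).symm, hB, ?_⟩
  intro m hm hm3
  exact C.lcs_not_le hxS hxA hZ2 hB m hm hm3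

end Cfsg.Agent.S5257
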