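import Cfsg.Statements.S5290
import Cfsg.Agent.Lib.H25.FusNormal

set_option autoImplicit false
open Cfsg

namespace Cfsg.Agent.S5290

open Cfsg.FusionSystem Cfsg.Agent.H25

/-- Let F be a saturated fusion system over a finite p-group S and Q a subgroup of S. Then Q is normal in F (F = N_F(Q)) if and only if the inner fusion system of Q, consisting of the conjugations by elements of Q on subgroups of Q, is a weakly normal subsystem of F (both saturated, Q strongly closed, invariant under F-conjugation, with the Frattini property). -/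
theorem result {Ω : Type*} [Group Ω] {S : Subgroup Ω} [Finite S] (p : ℕ) [Fact p.Prime] (hS : IsPGroup p S)
    (F : Cfsg.FusionSystem S) (hF : F.IsSaturated p)
    (Q : Subgroup Ω) (hQ : Q ≤ S) :
    F.IsNormal Q ↔ (Cfsg.innerFusionSystem Q).IsWeaklyNormalIn F p := by
  have hfinQ : Finite Q := finite_of_le hQ
  constructor
  · rintro ⟨-, hN⟩
    have hsc : F.StronglyClosed Q := by
      refine ⟨hQ, fun R hRQ φ hφ x => ?_⟩
      obtain ⟨ĥ, -, h2, h3⟩ := normalExt_iff.mp (hN R φ hφ)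
      rw [← h2 x]
      exact h3.1 _ (hRQ x.2)
    refine ⟨inner_isSaturated (hS.to_le hQ), hF, inner_invariant hsc ?_⟩
    intro P hPQ f hf
    obtain ⟨φ, hφ, hφf⟩ := hf
    obtain ⟨ĥ, h1, h2, h3⟩ := normalExt_iff.mp (hN P φ hφ)
    rw [sup_eq_right.mpr hPQ] at h1
    exact ⟨ĥ, ⟨h1, h3.1, h3.2⟩, fun x hx => by rw [h2 ⟨x, hx⟩, hφf]⟩
  · rintro ⟨-, -, -, hsc, -, hfrat⟩
    have strong : ∀ {P : Subgroup Ω} {h : Ω → Ω}, P ≤ Q → Mp F P h → ∀ x ∈ P, h x ∈ Q := by
      intro P h hR hh x hx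
      obtain ⟨φ, hφ, hφh⟩ := hh
      have := hsc.2 P hR φ hφ ⟨x, hx⟩
      rwa [hφh ⟨x, hx⟩] at this
    have hSN : S ≤ Subgroup.normalizer (Q : Set Ω) := by
      intro s hs
      apply mem_normalizer_of_conj
      · intro x hx
        exact strong (le_refl Q) (Mp.conj hQ hs) x hx
      · intro x hx
        exact strong (le_refl Q) (Mp.conj hQ (S.inv_mem hs)) x hx |> fun h => by simpa using h
    have hgood : ∀ {P : Subgroup Ω} {f : Ω → Ω}, Q ≤ P → Mp F P f → GoodN Q f := by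
      intro P f hQP hf
      have h1 : ∀ x ∈ Q, f x ∈ Q := fun x hx => strong (le_refl Q) (hf.restrict hQP) x hx
      exact ⟨h1, (Iso.of_maps (hf.restrict hQP) h1).surj⟩
    have hfr : ∀ P, P ≤ Q → ∀ f, Mp F P f → ∃ f', Mp F Q f' ∧ (∀ x ∈ Q, f' x ∈ Q) ∧ ∀ x ∈ P, f' x = f x := by
      intro P hPQ f hf
      obtain ⟨φ, hφ, hφf⟩ := hf
      obtain ⟨α, hα, φ₀, ⟨-, g, hg, hgφ⟩, h3⟩ := hfrat P hPQ φ hφ
      have hI := Iso.of_mem_autGroup hQ hα
      have hc : Iso F Q Q (fun x => g * x * g⁻¹) :=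
        Iso.conj_normalizer hQ (hQ hg) (le_normalizerIn hQ hg).2
      refine ⟨_, (hc.comp hI).mp, (hc.comp hI).maps, fun x hx => ?_⟩
      have h4 : φ₀ ⟨x, hx⟩ = g * x * g⁻¹ := hgφ ⟨x, hx⟩
      have h5 : φ₀ ⟨x, hx⟩ ∈ Q := by
        rw [h4]
        exact Q.mul_mem (Q.mul_mem hg (hPQ hx)) (Q.inv_mem hg)
      rw [← hφf ⟨x, hx⟩, h3 ⟨x, hx⟩ h5]
      simp only [Function.comp]
      rw [toFun_aut _ ⟨g * x * g⁻¹, Q.mul_mem (Q.mul_mem hg (hPQ hx)) (Q.inv_mem hg)⟩]
      simp only [h4]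
    refine isNormal_of_le_normSys hQ hSN (alperin hS hF ?_ ?_)
    · intro α hα
      have hI := Iso.of_mem_autGroup (le_refl S) hα
      refine mem_autGroup_of_mp (mp_normSys_of_le hQ hSN hI.mp hQ (hgood hQ hI.mp)) ?_
      intro x
      rw [toFun_aut]
    · intro R hR
      have hrad := isRadical_of_essential hS hR
      have hRc : centralizerIn S R ≤ R := hR.1.2 R (isConj_refl hR.1.1)
      have hQR : Q ≤ R := le_of_radical_centric hS hsc hfr hrad hRc
      intro α hα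
      have hI := Iso.of_mem_autGroup hR.1.1 hα
      refine mem_autGroup_of_mp (mp_normSys_of_le hQ hSN hI.mp hQR (hgood hQR hI.mp)) ?_
      intro x
      rw [toFun_aut]

end Cfsg.Agent.S5290
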