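import Cfsg.Statements.S5291
import Cfsg.Agent.Lib.H25.InvB

set_option autoImplicit false
open Cfsg

namespace Cfsg.Agent.S5291

open Cfsg.Agent.H25 Cfsg.FusionSystem

/-- Let F be a saturated fusion system over a finite p-group S and E a weakly normal subsystem of F over a subgroup T. Suppose a subgroup R of T is normal in E (E = N_E(R)), and let R* be the subgroup of T generated by the images of R under all maps of F with source R. Then R* is normal in F (F = N_F(R*)). -/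
theorem result {Ω : Type*} [Group Ω] {S : Subgroup Ω} [Finite S] (p : ℕ) [Fact p.Prime] (hS : IsPGroup p S)
    (F : Cfsg.FusionSystem S) (hF : F.IsSaturated p)
    {T : Subgroup Ω} (E : Cfsg.FusionSystem T) (hE : E.IsWeaklyNormalIn F p)
    (R : Subgroup Ω) (hR : E.IsNormal R) :
    F.IsNormal (Subgroup.closure {x : Ω | ∃ φ ∈ F.Hom R, ∃ r : R, x = φ r}) := by
  classical
  obtain ⟨hEs, -, hI⟩ := hE
  have hRT : R ≤ T := hR.1
  have hTS := inv_le hI
  haveI : Finite T := finite_of_le hTS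
  obtain ⟨H, hH⟩ : ∃ H, H = Subgroup.closure {x : Ω | ∃ φ ∈ F.Hom R, ∃ r : R, x = φ r} := ⟨_, rfl⟩
  rw [← hH]
  have hsup : H = sSup {Q : Subgroup Ω | ∃ φ ∈ F.Hom R, Q = φ.range} := by
    rw [hH]
    apply le_antisymm
    · rw [Subgroup.closure_le]
      rintro _ ⟨φ, hφ, r, rfl⟩
      have h1 : φ.range ≤ sSup {Q : Subgroup Ω | ∃ φ ∈ F.Hom R, Q = φ.range} := le_sSup ⟨φ, hφ, rfl⟩
      exact h1 ⟨r, rfl⟩
    · refine sSup_le ?_
      rintro _ ⟨φ, hφ, rfl⟩ _ ⟨r, rfl⟩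
      exact Subgroup.subset_closure ⟨φ, hφ, r, rfl⟩
  have hHE : E.IsNormal H := by
    rw [hsup]
    refine isNormal_sSup ?_
    rintro _ ⟨φ, hφ, rfl⟩
    obtain ⟨α, hα, f₀, hf₀, e⟩ := inv_frat hI hRT (mp_of_mem hφ)
    have hg := normal_good hR le_rfl hf₀
    have h1 : φ.range = imT α R := by
      ext y
      rw [mem_imT hRT]
      constructor
      · rintro ⟨r, rfl⟩
        have h2 := e r r.2
        rw [toFun_coe φ r] at h2
        exact ⟨f₀ r, hg.1 _ r.2, h2.symm⟩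
      · rintro ⟨x, hx, rfl⟩
        obtain ⟨r, hr, rfl⟩ := hg.2 x hx
        have h2 := e r hr
        rw [toFun_coe φ ⟨r, hr⟩] at h2
        exact ⟨⟨r, hr⟩, h2⟩
    rw [h1]
    exact isNormal_transport hI hα hR
  have hHT : H ≤ T := hHE.1
  have hHα : ∀ α ∈ F.autGroup T, ∀ h ∈ H, tf α h ∈ H := by
    intro α hα h hh
    have hαm : Mp F T (tf α) := Mp.of_mem_autGroup hTS hα
    have hh' : h ∈ Subgroup.closure {x : Ω | ∃ φ ∈ F.Hom R, ∃ r : R, x = φ r} := by
      rw [← hH]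
      exact hh
    refine (Subgroup.closure_induction (p := fun w _ => w ∈ T ∧ tf α w ∈ H) ?_ ?_ ?_ ?_ hh').2
    · rintro _ ⟨φ, hφ, r, rfl⟩
      have hm : φ r ∈ T := by
        have h1 := hI.2.1.2 R hRT φ hφ r
        exact h1
      refine ⟨hm, ?_⟩
      have hc : Mp F R (tf α ∘ toFun φ) := (mp_of_mem hφ).comp (fun x hx => by
        rw [toFun_coe φ ⟨x, hx⟩]
        exact hI.2.1.2 R hRT φ hφ ⟨x, hx⟩) hαm
      obtain ⟨φ', hφ', e⟩ := hc
      rw [hH]
      refine Subgroup.subset_closure ⟨φ', hφ', r, ?_⟩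
      rw [e r]
      show _ = tf α (toFun φ r)
      rw [toFun_coe φ r]
    · refine ⟨T.one_mem, ?_⟩
      rw [hαm.map_one]
      exact H.one_mem
    · rintro a b - - ⟨ha, ha'⟩ ⟨hb, hb'⟩
      refine ⟨T.mul_mem ha hb, ?_⟩
      rw [hαm.map_mul ha hb]
      exact H.mul_mem ha' hb'
    · rintro a - ⟨ha, ha'⟩
      refine ⟨T.inv_mem ha, ?_⟩
      rw [hαm.map_inv ha]
      exact H.inv_mem ha'
  exact isNormal_of_inv hI hHE hHα hS hF

end Cfsg.Agent.S5291
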