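import Cfsg.Statements.S5294
import Cfsg.Agent.Lib.H25.FusSub
import Cfsg.Agent.Lib.H25.FusTrace
import Cfsg.Agent.Lib.H24.FusAG2

set_option autoImplicit false
universe u
open Cfsg

namespace Cfsg.Agent.S5294

open Cfsg.Agent.H25

/-- Let F be a saturated fusion system over a finite p-group S whose centre Z(S) lies in the largest subgroup O_p(F) normal in F. Then the centre Z(F) of F is a direct factor of Z(S): there is a subgroup K of Z(S) with Z(F) ∩ K = 1 and Z(F)K = Z(S). -/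
theorem result {Ω : Type u} [Group Ω] {S : Subgroup Ω} [Finite S] (p : ℕ) [Fact p.Prime] (hS : IsPGroup p S)
    (F : Cfsg.FusionSystem S) (hF : F.IsSaturated p) (hZ : (S ⊓ Subgroup.centralizer (S : Set Ω)) ≤ F.core) :
    ∃ K : Subgroup Ω, K ≤ (S ⊓ Subgroup.centralizer (S : Set Ω)) ∧ F.center ⊓ K = ⊥ ∧ F.center ⊔ K = (S ⊓ Subgroup.centralizer (S : Set Ω)) := by
  classical
  set Q := F.core with hQdef
  set Z := S ⊓ Subgroup.centralizer (S : Set Ω) with hZdef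
  have hN : F.IsNormal Q := Cfsg.Agent.H24.isNormal_core
  have hQS : Q ≤ S := hN.1
  have hSN : S ≤ Subgroup.normalizer (Q : Set Ω) := Cfsg.Agent.H24.normalizer_of_isNormal hN
  have hFN : F.IsFullyNormalized Q := by
    refine ⟨hQS, fun R _ => ?_⟩
    have h1 : Cfsg.FusionSystem.normalizerIn S Q = S := le_antisymm inf_le_left (le_inf le_rfl hSN)
    rw [h1]
    exact card_le_of_le le_rfl normalizerIn_le
  have hFar := far_of_fullyNormalized hS hF hFN
  obtain ⟨P₀, hP₀⟩ := hFar.auto.2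
  haveI : Finite Q := finite_of_le hQS
  haveI hMf : Finite (MulAut Q) := inferInstance
  let V := Subgroup.center Q
  letI instV : CommGroup V := { V.toGroup with mul_comm := fun a b => Subtype.ext (Subgroup.mem_center_iff.mp a.2 (b : Q)).symm }
  let A := F.autGroup Q
  let ρ : A →* MulAut V :=
    { toFun := fun a => Subgroup.centerCongr (a : MulAut Q)
      map_one' := by ext x; rfl
      map_mul' := fun a b => by ext x; rfl }
  have hρ : ∀ (a : A) (v : V), (((ρ a v : V) : Q) : Ω) = (((a : MulAut Q) (v : Q) : Q) : Ω) := fun _ _ => rfl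
  have hVp : IsPGroup p V := IsPGroup.to_subgroup (hS.to_le hQS) _
  obtain ⟨K, hK1, hK2, hK3⟩ := Cfsg.Agent.H25.fixed_split (V := V) ρ hVp P₀
  -- elements of the centre of `S`
  have hZmem : ∀ z ∈ Z, z ∈ S ∧ ∀ s ∈ S, s * z * s⁻¹ = z := by
    intro z hz
    refine ⟨hz.1, fun s hs => ?_⟩
    have h1 := Subgroup.mem_centralizer_iff.mp hz.2 s hs
    rw [h1]
    group
  have hZV : ∀ z ∈ Z, z ∈ Q ∧ ∀ x ∈ Q, x * z = z * x := by
    intro z hz
    refine ⟨hZ hz, fun x hx => ?_⟩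
    exact Subgroup.mem_centralizer_iff.mp hz.2 x (hQS hx)
  have hVmk : ∀ z, ∀ (hz : z ∈ Q) (_ : ∀ x ∈ Q, x * z = z * x), ((⟨z, hz⟩ : Q) ∈ Subgroup.center Q) := by
    intro z hz hc
    rw [Subgroup.mem_center_iff]
    intro x
    exact Subtype.ext (hc x x.2)
  -- the automorphisms induced by `S`
  have hSa : ∀ s (hs : s ∈ S), ∃ a ∈ (P₀ : Subgroup A), ∀ x : Q, (((a : MulAut Q) x : Q) : Ω) = s * x * s⁻¹ := by
    intro s hs
    have h1 : Cfsg.Agent.H24.autOfNormalizer Q (hSN hs) ∈ autInducedBy S Q :=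
      Cfsg.Agent.H24.autOfNormalizer_mem (hSN hs) hs
    refine ⟨⟨_, autInducedBy_le hQS h1⟩, ?_, fun x => rfl⟩
    rw [hP₀]
    exact h1
  have hPa : ∀ a ∈ (P₀ : Subgroup A), ∃ s ∈ S, ∀ x : Q, (((a : MulAut Q) x : Q) : Ω) = s * x * s⁻¹ := by
    intro a ha
    rw [hP₀] at ha
    exact exists_of_mem_autInducedBy ha
  have hZfix : ∀ v : V, ((v : Q) : Ω) ∈ Z → ∀ a ∈ (P₀ : Subgroup A), ρ a v = v := by
    intro v hv a ha
    obtain ⟨s, hs, hsa⟩ := hPa a ha
    apply Subtype.ext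
    apply Subtype.ext
    rw [hρ, hsa]
    exact (hZmem _ hv).2 s hs
  have hfixZ : ∀ v : V, (∀ a ∈ (P₀ : Subgroup A), ρ a v = v) → ((v : Q) : Ω) ∈ Z := by
    intro v hv
    refine Subgroup.mem_inf.mpr ⟨hQS (v : Q).2, Subgroup.mem_centralizer_iff.mpr ?_⟩
    intro s hs
    obtain ⟨a, ha, hae⟩ := hSa s hs
    have h1 := hv a ha
    have h2 : (((a : MulAut Q) (v : Q) : Q) : Ω) = ((v : Q) : Ω) := by
      have := congrArg (fun w : V => ((w : Q) : Ω)) h1
      simpa [hρ] using this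
    rw [hae] at h2
    calc s * ((v : Q) : Ω) = (s * ((v : Q) : Ω) * s⁻¹) * s := by group
      _ = _ := by rw [h2]
  -- the centre of `F`
  have hcen := Cfsg.Agent.H24.isCentral_center (F := F)
  have hcenZ : F.center ≤ Z := by
    intro x hx
    refine Subgroup.mem_inf.mpr ⟨hcen.1 hx, Subgroup.mem_centralizer_iff.mpr ?_⟩
    intro s hs
    obtain ⟨ψ, hψ, h1, h2⟩ := hcen.2 S (conjHom S s) (F.conj_mem le_rfl hs)
    have h3 := h1 ⟨x, hcen.1 hx⟩
    have h4 := h2 ⟨x, hx⟩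
    have h5 : Subgroup.inclusion (le_sup_left : S ≤ S ⊔ F.center) ⟨x, hcen.1 hx⟩ =
        Subgroup.inclusion (le_sup_right : F.center ≤ S ⊔ F.center) ⟨x, hx⟩ := rfl
    rw [h5, h4] at h3
    have h6 : x = s * x * s⁻¹ := h3
    calc s * x = (s * x * s⁻¹) * s := by group
      _ = x * s := by rw [← h6]
  have hcenfix : ∀ x (hx : x ∈ F.center) (a : A), (((a : MulAut Q) ⟨x, hZ (hcenZ hx)⟩ : Q) : Ω) = x := by
    intro x hx a
    have hxQ : x ∈ Q := hZ (hcenZ hx)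
    obtain ⟨ψ, hψ, h1, h2⟩ := hcen.2 Q (Q.subtype.comp (a : MulAut Q).toMonoidHom) (by
      have := Mp.of_mem_autGroup hQS a.2
      exact mem_hom_iff.mpr this)
    have h3 := h1 ⟨x, hxQ⟩
    have h4 := h2 ⟨x, hx⟩
    have h5 : Subgroup.inclusion (le_sup_left : Q ≤ Q ⊔ F.center) ⟨x, hxQ⟩ =
        Subgroup.inclusion (le_sup_right : F.center ≤ Q ⊔ F.center) ⟨x, hx⟩ := rfl
    rw [h5, h4] at h3
    exact h3.symm
  have hfixcen : ∀ v : V, (∀ a, ρ a v = v) → ((v : Q) : Ω) ∈ F.center := by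
    intro v hv
    have hvS := hQS (v : Q).2
    have hcY : F.IsCentral (Subgroup.zpowers ((v : Q) : Ω)) := by
      refine ⟨Subgroup.zpowers_le.mpr hvS, fun P φ hφ => ?_⟩
      apply centralExt_iff.mpr
      obtain ⟨ψ, hψ, h1, h2⟩ := hN.2 P φ hφ
      obtain ⟨ĥ, hĥ, hĥ1, hĥ2, hĥ3⟩ := normalExt_iff.mp ⟨ψ, hψ, h1, h2⟩
      have hle : P ⊔ Subgroup.zpowers ((v : Q) : Ω) ≤ P ⊔ Q :=
        sup_le_sup_left (Subgroup.zpowers_le.mpr (v : Q).2) _
      have hI : Iso F Q Q ĥ := ⟨hĥ.restrict le_sup_right, hĥ2, hĥ3⟩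
      have hvfix : ĥ ((v : Q) : Ω) = ((v : Q) : Ω) := by
        have h5 := hv ⟨autOfIso hI, autOfIso_mem hI⟩
        have h6 := congrArg (fun w : V => ((w : Q) : Ω)) h5
        simp only [hρ] at h6
        rw [autOfIso_apply] at h6
        exact h6
      refine ⟨ĥ, hĥ.restrict hle, hĥ1, fun y hy => ?_⟩
      obtain ⟨i, rfl⟩ := Subgroup.mem_zpowers_iff.mp hy
      show ĥ (((v : Q) : Ω) ^ i) = _
      rw [(hĥ.restrict (le_sup_right : Q ≤ P ⊔ Q)).map_zpow (v : Q).2, hvfix]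
    exact (le_sSup hcY : Subgroup.zpowers ((v : Q) : Ω) ≤ F.center) (Subgroup.mem_zpowers _)
  -- the complement
  refine ⟨(K.map V.subtype).map Q.subtype, ?_, ?_, ?_⟩
  · rintro _ ⟨_, ⟨v, hv, rfl⟩, rfl⟩
    exact hfixZ v (hK1 v hv)
  · rw [eq_bot_iff]
    rintro x ⟨hx1, hx2⟩
    obtain ⟨_, ⟨v, hv, rfl⟩, rfl⟩ := hx2
    have h1 : v = 1 := by
      apply hK2 v hv
      intro a
      apply Subtype.ext
      apply Subtype.ext
      rw [hρ]
      exact hcenfix _ hx1 a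
    rw [h1]
    exact Subgroup.one_mem _
  · apply le_antisymm
    · refine sup_le hcenZ ?_
      rintro _ ⟨_, ⟨v, hv, rfl⟩, rfl⟩
      exact hfixZ v (hK1 v hv)
    · intro z hz
      obtain ⟨hzQ, hzc⟩ := hZV z hz
      let v : V := ⟨⟨z, hzQ⟩, hVmk z hzQ hzc⟩
      obtain ⟨u, w, hu, hw, hvuw⟩ := hK3 v (hZfix v hz)
      have h1 : z = ((u : Q) : Ω) * ((w : Q) : Ω) := by
        have := congrArg (fun t : V => ((t : Q) : Ω)) hvuw
        exact this
      rw [h1]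
      exact Subgroup.mul_mem _ (Subgroup.mem_sup_left (hfixcen u hu))
        (Subgroup.mem_sup_right ⟨_, ⟨w, hw, rfl⟩, rfl⟩)

end Cfsg.Agent.S5294
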