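import Cfsg.Statements.S5296
import Cfsg.Agent.Lib.H25.FusSmall

set_option autoImplicit false
universe u
open Cfsg

namespace Cfsg.Agent.S5296

/-- Small-exponent abelian subgroups of the hyperfocal subgroup control fusion. Let E and F be saturated fusion systems over the same finite p-group S with E contained in F. Suppose that E and F have the same maps between A and B for all subgroups A, B of the hyperfocal subgroup of F that are elementary abelian when p is odd, respectively abelian of exponent dividing 4 when p = 2. Then E = F. -/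
theorem result {Ω : Type u} [Group Ω] {S : Subgroup Ω} [Finite S] (p : ℕ) [Fact p.Prime] (hS : IsPGroup p S)
    (E F : Cfsg.FusionSystem S) (hE : E.IsSaturated p) (hF : F.IsSaturated p) (hEF : E.IsSubsystemOf F)
    (hodd : p ≠ 2 → ∀ A B : Subgroup Ω, A ≤ (F.hyperfocalSubgroup p) → B ≤ (F.hyperfocalSubgroup p) →
      Cfsg.IsElementaryAbelian p A → Cfsg.IsElementaryAbelian p B → E.homSet A B = F.homSet A B)
    (htwo : p = 2 → ∀ A B : Subgroup Ω, A ≤ (F.hyperfocalSubgroup p) → B ≤ (F.hyperfocalSubgroup p) →
      IsMulCommutative ↥A → IsMulCommutative ↥B → (∀ a ∈ A, a ^ 4 = 1) → (∀ b ∈ B, b ^ 4 = 1) → E.homSet A B = F.homSet A B) :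
    ∀ P : Subgroup Ω, E.Hom P = F.Hom P := by
  have hle : F ≤ E := H25.small_control hS hE hF hEF (by
    intro A B hA hB hcA hcB heA heB φ hφ hφB
    have hφ' : φ ∈ F.homSet A B := ⟨hφ, hφB⟩
    by_cases h2 : p = 2
    · subst h2
      have h4 : H25.critExp 2 = 4 := rfl
      rw [h4] at heA heB
      have := htwo rfl A B hA hB hcA hcB heA heB
      rw [← this] at hφ'
      exact hφ'.1
    · have h4 : H25.critExp p = p := by simp [H25.critExp, h2]
      rw [h4] at heA heB
      have := hodd h2 A B hA hB ⟨hcA, heA⟩ ⟨hcB, heB⟩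
      rw [← this] at hφ'
      exact hφ'.1)
  intro P
  exact Set.Subset.antisymm (hEF P) (hle P)

end Cfsg.Agent.S5296
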