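import Cfsg.Statements.S5301
import Cfsg.Agent.Lib.H25.FusEss

set_option autoImplicit false
universe u
open Cfsg

namespace Cfsg.Agent.S5301

open Cfsg.FusionSystem Cfsg.Agent.H25

/-- Let F be a saturated fusion system over a finite p-group S. If for every subgroup P of S that is fully normalized, centric and radical in F the automorphism group that F induces on P has a normal Sylow p-subgroup, then S is normal in F. -/
theorem result {Ω : Type u} [Group Ω] {S : Subgroup Ω} [Finite S] (p : ℕ) [Fact p.Prime] (hS : IsPGroup p S)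
    (F : Cfsg.FusionSystem S) (hF : F.IsSaturated p)
    (hcl : ∀ P : Subgroup Ω, F.IsFullyNormalized P → F.IsCentric P → F.IsRadical p P →
      ∃ R : Sylow p ↥(F.autGroup P), (R : Subgroup ↥(F.autGroup P)).Normal) :
    F.IsNormal S := by
  have hSN : S ≤ Subgroup.normalizer (S : Set Ω) := fun x hx =>
    (le_normalizerIn (le_refl S) hx).2
  refine isNormal_of_le_normSys (le_refl S) hSN ?_
  refine alperin hS hF ?_ ?_
  · intro α hα
    have hI := Iso.of_mem_autGroup (le_refl S) hα
    refine mem_autGroup_of_mp (mp_normSys_of_le (le_refl S) hSN hI.mp (le_refl S) ⟨hI.maps, hI.surj⟩) ?_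
    intro x
    rw [toFun_aut]
  · intro Q hQ
    exfalso
    have hrad := isRadical_of_essential hS hQ
    obtain ⟨hcent, hFN, hN, Y, hY⟩ := hQ
    obtain ⟨R, hR⟩ := hcl Q hFN hcent hrad
    have hQS := hcent.1
    have : Finite Q := finite_of_le hQS
    let A := F.autGroup Q
    let Nn : Subgroup A := (Inn Q).subgroupOf A
    let π := QuotientGroup.mk' Nn
    have hπ : Function.Surjective π := QuotientGroup.mk'_surjective Nn
    let T : Sylow p (A ⧸ Nn) := R.mapSurjective hπ
    have hbot : (T : Subgroup (A ⧸ Nn)) = ⊥ :=
      stronglyEmbedded_normal_bot hY (hR.map π hπ) T.2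
    have h1 := T.not_dvd_index
    rw [hbot, Subgroup.index_bot] at h1
    exact h1 hY.1

end Cfsg.Agent.S5301
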