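import Cfsg.Statements.S5330
import Cfsg.Agent.Lib.H25.FusAb

set_option autoImplicit false
open Cfsg

namespace Cfsg.Agent.S5330

open Cfsg.FusionSystem Cfsg.Agent.H25

/-- Let F be a saturated fusion system over a finite abelian p-group S. Then S is the internal direct product of the centre of the system and the focal subgroup: Z(F) ∩ foc(F) = 1 and Z(F)·foc(F) = S. -/
theorem result {Ω : Type*} [Group Ω] {S : Subgroup Ω} [Finite S] (p : ℕ) [Fact p.Prime] (hS : IsPGroup p S) (F : Cfsg.FusionSystem S) (hF : F.IsSaturated p) (hab : ∀ x ∈ S, ∀ y ∈ S, x * y = y * x) : F.center ⊓ F.focalSubgroup = ⊥ ∧ F.center ⊔ F.focalSubgroup = S := by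
  have hcop0 := ab_coprime hS hab hF
  obtain ⟨n, hn⟩ := IsPGroup.iff_card.mp hS
  have hcop : Nat.Coprime (Nat.card (F.autGroup S)) (Nat.card S) := by
    rw [hn]; exact hcop0.pow_right n
  have hV : ∀ x y : S, x * y = y * x := fun x y => Subtype.ext (hab x x.2 y y.2)
  obtain ⟨h1, h2⟩ := coprime_decomp hV (F.autGroup S) hcop
  rw [ab_focal_eq hS hab hF]
  have hcS : F.center ≤ S := by
    intro x hx
    exact ((ab_mem_center_iff hS hab hF).mp hx).1
  constructor
  · rw [eq_bot_iff]
    rintro x ⟨hx1, hx2⟩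
    obtain ⟨hxS, hx1'⟩ := (ab_mem_center_iff hS hab hF).mp hx1
    obtain ⟨y, hy, rfl⟩ := hx2
    have hy' : (⟨S.subtype y, hxS⟩ : S) = y := rfl
    simp only [hy'] at hx1'
    have := h2 y (fun α hα => Subtype.ext (hx1' α hα)) hy
    rw [this]
    exact Subgroup.one_mem _
  · apply le_antisymm
    · refine sup_le hcS ?_
      rintro _ ⟨d, -, rfl⟩
      exact d.2
    · intro x hx
      obtain ⟨c, d, hc, hd, hcd⟩ := h1 ⟨x, hx⟩
      have e : x = (c : Ω) * (d : Ω) := congrArg Subtype.val hcd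
      rw [e]
      refine Subgroup.mul_mem _ (Subgroup.mem_sup_left ?_) (Subgroup.mem_sup_right ⟨d, hd, rfl⟩)
      refine (ab_mem_center_iff hS hab hF).mpr ⟨c.2, fun α hα => ?_⟩
      exact congrArg Subtype.val (hc α hα)

end Cfsg.Agent.S5330
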