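import Cfsg.Statements.S5331
import Cfsg.Agent.Lib.H25.FusAb
import Cfsg.Agent.Lib.H25.FusInner

set_option autoImplicit false
open Cfsg

namespace Cfsg.Agent.S5331

section Alg

variable {V : Type*} [AddCommGroup V]

theorem iter_add (σ : V ≃+ V) {x w : V} (hw : σ x = x + w) (hσw : σ w = w) (k : ℕ) :
    σ^[k] x = x + k • w := by
  induction k with
  | zero => simp
  | succ k ih =>
    rw [Function.iterate_succ_apply', ih, map_add, hw, map_nsmul, hσw, succ_nsmul]
    abel

theorem fix_of_two (σ : V ≃+ V) {m : ℕ} (hm : Odd m) (hσ : ∀ x, σ^[m] x = x) {x w : V}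
    (hw : σ x = x + w) (hσw : σ w = w) (h2 : 2 • w = 0) : w = 0 := by
  have h1 := iter_add σ hw hσw m
  rw [hσ x] at h1
  have h3 : m • w = 0 := by
    have : x + m • w = x + 0 := by rw [← h1, add_zero]
    exact add_left_cancel this
  obtain ⟨l, rfl⟩ := hm
  have h4 : (2 * l + 1) • w = l • (2 • w) + w := by
    rw [add_smul, one_smul, mul_comm, mul_smul]
  rw [h4, h2, smul_zero, zero_add] at h3
  exact h3

end Alg

theorem zmod_two_torsion {b j : ℕ} (hb : b = j + 1) (z : ZMod (2 ^ b)) (hz : 2 • z = 0) :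
    z = 0 ∨ z = ((2 ^ j : ℕ) : ZMod (2 ^ b)) := by
  subst hb
  haveI : NeZero (2 ^ (j + 1)) := ⟨by positivity⟩
  have hv : z.val < 2 ^ (j + 1) := ZMod.val_lt z
  have h1 : ((2 * z.val : ℕ) : ZMod (2 ^ (j + 1))) = 0 := by
    push_cast
    rw [ZMod.natCast_zmod_val]
    rw [two_nsmul] at hz
    rw [two_mul]
    exact hz
  rw [ZMod.natCast_eq_zero_iff] at h1
  have h2 : 2 ^ j ∣ z.val := by
    have h1' : 2 * 2 ^ j ∣ 2 * z.val := by
      have e : 2 * 2 ^ j = 2 ^ (j + 1) := by ring
      rw [e]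
      exact h1
    exact Nat.dvd_of_mul_dvd_mul_left (by norm_num) h1'
  obtain ⟨t, ht⟩ := h2
  have ht2 : t < 2 := by
    have : 2 ^ j * t < 2 ^ j * 2 := by rw [← ht, ← pow_succ]; exact hv
    exact Nat.lt_of_mul_lt_mul_left this
  have hzv : z = ((z.val : ℕ) : ZMod (2 ^ (j + 1))) := (ZMod.natCast_zmod_val z).symm
  interval_cases t
  · left
    rw [hzv, ht]
    simp
  · right
    rw [hzv, ht]
    simp

theorem zmod_divisible {b j : ℕ} (hj : j < b) (z : ZMod (2 ^ b)) (hz : 2 • z = 0) :
    ∃ u : ZMod (2 ^ b), z = (2 ^ j : ℕ) • u := by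
  obtain ⟨c, rfl⟩ : ∃ c, b = c + 1 := ⟨b - 1, by omega⟩
  rcases zmod_two_torsion rfl z hz with rfl | h
  · exact ⟨0, by simp⟩
  · refine ⟨((2 ^ (c - j) : ℕ) : ZMod (2 ^ (c + 1))), ?_⟩
    rw [h, nsmul_eq_mul, ← Nat.cast_mul, ← pow_add]
    congr 2
    omega

section Main

variable {n : ℕ} {a : Fin n → ℕ}

theorem pow_smul_eq_zero {i : Fin n} {j : ℕ} (h : a i ≤ j) (u : ZMod (2 ^ a i)) : (2 ^ j : ℕ) • u = 0 := by
  rw [nsmul_eq_mul]
  have : ((2 ^ j : ℕ) : ZMod (2 ^ a i)) = 0 := by
    rw [ZMod.natCast_eq_zero_iff]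
    exact pow_dvd_pow 2 h
  rw [this, zero_mul]

/-- The filtration of the elements of order 2. -/
theorem mem_W_iff (ha1 : ∀ i, 1 ≤ a i) {j : ℕ} (x : ∀ i, ZMod (2 ^ a i)) (h2 : 2 • x = 0) :
    (∀ i, a i ≤ j → x i = 0) ↔ ∃ u : ∀ i, ZMod (2 ^ a i), x = (2 ^ j : ℕ) • u := by
  constructor
  · intro h
    have key : ∀ i, ∃ ui : ZMod (2 ^ a i), x i = (2 ^ j : ℕ) • ui := by
      intro i
      by_cases hi : a i ≤ j
      · exact ⟨0, by rw [h i hi]; simp⟩
      · exact zmod_divisible (not_le.mp hi) (x i) (congrFun h2 i)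
    choose u hu using key
    exact ⟨u, funext hu⟩
  · rintro ⟨u, rfl⟩ i hi
    exact pow_smul_eq_zero hi (u i)

theorem trivial_on_W (ha : StrictMono a) (ha1 : ∀ i, 1 ≤ a i) (σ : (∀ i, ZMod (2 ^ a i)) ≃+ (∀ i, ZMod (2 ^ a i)))
    {m : ℕ} (hm : Odd m) (hσ : ∀ x, σ^[m] x = x) (d j : ℕ) (hd : ∀ i, a i ≤ j + d) :
    ∀ x, 2 • x = 0 → (∀ i, a i ≤ j → x i = 0) → σ x = x := by
  induction d generalizing j with
  | zero =>
    intro x _ hx
    have : x = 0 := funext fun i => hx i (hd i)
    rw [this, map_zero]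
  | succ d ih =>
    have IH := ih (j + 1) (fun i => by have := hd i; omega)
    intro x hx2 hx
    -- stability
    have stable : ∀ y, 2 • y = 0 → (∀ i, a i ≤ j → y i = 0) → 2 • σ y = 0 ∧ ∀ i, a i ≤ j → σ y i = 0 := by
      intro y hy2 hy
      have h3 : 2 • σ y = 0 := by rw [← map_nsmul, hy2, map_zero]
      refine ⟨h3, ?_⟩
      obtain ⟨u, hu⟩ := (mem_W_iff ha1 y hy2).mp hy
      refine (mem_W_iff ha1 _ h3).mpr ⟨σ u, ?_⟩
      rw [hu, map_nsmul]
    obtain ⟨hs2, hs⟩ := stable x hx2 hx
    set w := σ x - x with hw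
    have hw2 : 2 • w = 0 := by rw [hw, smul_sub, hs2, hx2, sub_zero]
    have hwj : ∀ i, a i ≤ j + 1 → w i = 0 := by
      intro i hi
      by_cases hij : a i ≤ j
      · show σ x i - x i = 0
        rw [hs i hij, hx i hij, sub_zero]
      · have hi' : a i = j + 1 := by omega
        show σ x i - x i = 0
        have hzero_of : ∀ y, 2 • y = 0 → (∀ i, a i ≤ j → y i = 0) → y i = 0 → σ y = y := by
          intro y hy2 hy hyi
          apply IH y hy2
          intro k hk
          by_cases hkj : a k ≤ j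
          · exact hy k hkj
          · have : a k = a i := by omega
            rw [← ha.injective this] at hyi
            exact hyi
        rcases zmod_two_torsion hi' (x i) (congrFun hx2 i) with h1 | h1 <;>
          rcases zmod_two_torsion hi' (σ x i) (congrFun hs2 i) with h2 | h2
        · rw [h1, h2, sub_zero]
        · have := hzero_of x hx2 hx h1
          rw [this, sub_self]
        · have h3 := hzero_of (σ x) hs2 hs h2
          have h4 : σ x = x := σ.injective h3
          rw [h4, sub_self]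
        · rw [h1, h2, sub_self]
    have hwfix : σ w = w := IH w hw2 hwj
    have : w = 0 := fix_of_two σ hm hσ (x := x) (by rw [hw]; abel) hwfix hw2
    rw [hw, sub_eq_zero] at this
    exact this

theorem trivial_all (ha : StrictMono a) (ha1 : ∀ i, 1 ≤ a i) (σ : (∀ i, ZMod (2 ^ a i)) ≃+ (∀ i, ZMod (2 ^ a i)))
    {m : ℕ} (hm : Odd m) (hσ : ∀ x, σ^[m] x = x) (x : ∀ i, ZMod (2 ^ a i)) : σ x = x := by
  -- a large exponent
  obtain ⟨K, hK⟩ : ∃ K, ∀ i, a i ≤ K := ⟨∑ i, a i, fun i => Finset.single_le_sum (f := a) (fun _ _ => Nat.zero_le _) (Finset.mem_univ i)⟩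
  have h1 : ∀ y, 2 • y = 0 → σ y = y := by
    intro y hy
    exact trivial_on_W ha ha1 σ hm hσ K 0 (fun i => by have := hK i; omega) y hy (fun i hi => by
      have := ha1 i; omega)
  have key : ∀ k : ℕ, ∀ y : ∀ i, ZMod (2 ^ a i), (2 ^ k : ℕ) • y = 0 → σ y = y := by
    intro k
    induction k with
    | zero =>
      intro y hy
      have : y = 0 := by simpa using hy
      rw [this, map_zero]
    | succ k ih =>
      intro y hy
      have h2 : (2 ^ k : ℕ) • (2 • y) = 0 := by
        rw [← mul_smul, ← pow_succ]; exact hy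
      have h3 := ih _ h2
      rw [map_nsmul] at h3
      set w := σ y - y with hw
      have hw2 : 2 • w = 0 := by rw [hw, smul_sub, h3, sub_self]
      have : w = 0 := fix_of_two σ hm hσ (x := y) (by rw [hw]; abel) (h1 w hw2) hw2
      rw [hw, sub_eq_zero] at this
      exact this
  refine key K x (funext fun i => ?_)
  exact pow_smul_eq_zero (hK i) (x i)

end Main

open Cfsg.FusionSystem Cfsg.Agent.H25

/-- Let S be a finite abelian 2-group that is a direct product of cyclic groups of pairwise distinct orders 2^{a_1} < 2^{a_2} < ⋯ < 2^{a_n} (all a_i ≥ 1). Then every saturated fusion system over S is the inner one: its maps are exactly the conjugations by elements of S. -/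
theorem result {Ω : Type*} [Group Ω] {S : Subgroup Ω} [Finite S] (n : ℕ) (a : Fin n → ℕ) (ha : StrictMono a) (ha1 : ∀ i, 1 ≤ a i) (e : ↥S ≃* Multiplicative ((i : Fin n) → ZMod (2 ^ a i))) (F : Cfsg.FusionSystem S) (hF : F.IsSaturated 2) (P : Subgroup Ω) : F.Hom P = (Cfsg.innerFusionSystem S).Hom P := by
  classical
  have hab : ∀ x ∈ S, ∀ y ∈ S, x * y = y * x := by
    intro x hx y hy
    have h1 : e (⟨x, hx⟩ * ⟨y, hy⟩) = e (⟨y, hy⟩ * ⟨x, hx⟩) := by
      rw [map_mul, map_mul, mul_comm]
    have h2 := e.injective h1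
    exact congrArg Subtype.val h2
  obtain ⟨K, hK⟩ : ∃ K, ∀ i, a i ≤ K :=
    ⟨∑ i, a i, fun i => Finset.single_le_sum (f := a) (fun _ _ => Nat.zero_le _) (Finset.mem_univ i)⟩
  have hS : IsPGroup 2 S := by
    intro x
    refine ⟨K, ?_⟩
    apply e.injective
    rw [map_pow, map_one]
    apply Multiplicative.toAdd.injective
    rw [toAdd_pow]
    exact funext fun i => pow_smul_eq_zero (hK i) _
  have hcop := ab_coprime hS hab hF
  -- triviality of automorphisms
  have htriv : ∀ α ∈ F.autGroup S, α = 1 := by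
    intro α hα
    let σ : (∀ i, ZMod (2 ^ a i)) ≃+ (∀ i, ZMod (2 ^ a i)) :=
      { toFun := fun x => Multiplicative.toAdd (e (α (e.symm (Multiplicative.ofAdd x))))
        invFun := fun x => Multiplicative.toAdd (e (α⁻¹ (e.symm (Multiplicative.ofAdd x))))
        left_inv := fun x => by simp
        right_inv := fun x => by simp
        map_add' := fun x y => by
          rw [ofAdd_add, map_mul, map_mul, map_mul, toAdd_mul] }
    have hσ : ∀ k x, σ^[k] x = Multiplicative.toAdd (e ((α ^ k) (e.symm (Multiplicative.ofAdd x)))) := by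
      intro k x
      induction k with
      | zero => simp
      | succ k ih =>
        rw [Function.iterate_succ_apply', ih, pow_succ']
        show Multiplicative.toAdd (e (α (e.symm (Multiplicative.ofAdd (Multiplicative.toAdd _))))) = _
        simp
    have hm : Odd (orderOf (⟨α, hα⟩ : F.autGroup S)) := by
      have h1 : orderOf (⟨α, hα⟩ : F.autGroup S) ∣ Nat.card (F.autGroup S) := orderOf_dvd_natCard _
      have h2 : Nat.Coprime (orderOf (⟨α, hα⟩ : F.autGroup S)) 2 := Nat.Coprime.coprime_dvd_left h1 hcop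
      exact Nat.Coprime.odd_of_right h2
    have hm' : α ^ orderOf (⟨α, hα⟩ : F.autGroup S) = 1 := by
      have := pow_orderOf_eq_one (⟨α, hα⟩ : F.autGroup S)
      exact congrArg Subtype.val this
    have hall := trivial_all ha ha1 σ hm (fun x => by
      rw [hσ, hm']
      simp)
    apply MulEquiv.ext
    intro x
    have h1 := hall (Multiplicative.toAdd (e x))
    have h2 : Multiplicative.toAdd (e (α x)) = Multiplicative.toAdd (e x) := by
      have : σ (Multiplicative.toAdd (e x)) = Multiplicative.toAdd (e (α x)) := by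
        show Multiplicative.toAdd (e (α (e.symm (Multiplicative.ofAdd (Multiplicative.toAdd (e x)))))) = _
        simp
      rw [← this]
      exact h1
    exact e.injective (Multiplicative.toAdd.injective h2)
  ext φ
  constructor
  · intro hφ
    have hP := (F.le_of_mem hφ).1
    obtain ⟨h, hh, hhφ⟩ := ab_extends hS hab hF (mp_of_mem hφ)
    have h1 := htriv _ (autOfIso_mem hh)
    refine ⟨hP, 1, S.one_mem, fun x => ?_⟩
    have h2 : ((autOfIso hh ⟨x, hP x.2⟩ : S) : Ω) = x := by
      rw [h1]; rfl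
    have h3 : h x = x := h2
    rw [hhφ x x.2, toFun_coe] at h3
    rw [h3]
    group
  · exact fun h => inner_le (F := F) (le_refl S) P h

end Cfsg.Agent.S5331
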