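import Cfsg.Statements.S5600
import Cfsg.Agent.Lib.H27.GolaySix

set_option autoImplicit false
open scoped Pointwise
open Cfsg

namespace Cfsg.Agent.S5600

open Cfsg.Agent.H27.Golay

theorem mem_stab_iff {E : Finset GolayPt} {g : ↥M24} :
    g ∈ MulAction.stabilizer M24 E ↔ (g : Equiv.Perm GolayPt) • E = E := Iff.rfl

theorem stab_apply_iff {E : Finset GolayPt} {g : Equiv.Perm GolayPt} (h : g • E = E) (x : GolayPt) :
    g x ∈ E ↔ x ∈ E := apply_mem_of_smul_eq h

/-- The action of the setwise stabiliser on the set. -/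
noncomputable def restrictHom (E : Finset GolayPt) : ↥(MulAction.stabilizer M24 E) →* Equiv.Perm ↥E :=
  MonoidHom.mk' (fun g => Equiv.Perm.subtypePerm ((g : ↥M24) : Equiv.Perm GolayPt)
      (fun x => stab_apply_iff (mem_stab_iff.1 g.2) x))
    (fun a b => by
      rw [Equiv.Perm.subtypePerm_mul]
      rfl)

theorem card_stab_eq (E : Finset GolayPt) (hE : E.card = 6)
    (hsurj : ∀ σ : Equiv.Perm ↥E, ∃ g ∈ M24, ∀ p : ↥E, g p = σ p) :
    Nat.card ↥(MulAction.stabilizer M24 E) =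
      Nat.card {g : Equiv.Perm GolayPt // g ∈ M24 ∧ ∀ p ∈ E, g p = p} * 720 := by
  classical
  have hs : Function.Surjective (restrictHom E) := by
    intro σ
    obtain ⟨g, hg, hgσ⟩ := hsurj σ
    have hgE : g • E = E := by
      apply Finset.eq_of_subset_of_card_le
      · intro q hq
        obtain ⟨p, hp, rfl⟩ := Finset.mem_smul_finset.1 hq
        show g p ∈ E
        rw [hgσ ⟨p, hp⟩]
        exact (σ ⟨p, hp⟩).2
      · rw [Finset.card_smul_finset]
    refine ⟨⟨⟨g, hg⟩, mem_stab_iff.2 hgE⟩, ?_⟩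
    exact Equiv.ext fun p => Subtype.ext (hgσ p)
  have h1 : Nat.card (restrictHom E).ker * (restrictHom E).ker.index =
      Nat.card ↥(MulAction.stabilizer M24 E) := Subgroup.card_mul_index _
  have h2 : (restrictHom E).ker.index = 720 := by
    rw [Subgroup.index_ker, MonoidHom.range_eq_top.2 hs]
    simp only [Subgroup.card_top]
    rw [Nat.card_eq_fintype_card, Fintype.card_perm, Fintype.card_coe, hE]
    rfl
  have h3 : Nat.card (restrictHom E).ker =
      Nat.card {g : Equiv.Perm GolayPt // g ∈ M24 ∧ ∀ p ∈ E, g p = p} := by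
    apply Nat.card_congr
    refine ⟨fun g => ⟨((g.1 : ↥M24) : Equiv.Perm GolayPt), g.1.1.2, ?_⟩, fun g => ⟨⟨⟨g.1, g.2.1⟩, ?_⟩, ?_⟩, ?_, ?_⟩
    · intro p hp
      have hk := g.2
      rw [MonoidHom.mem_ker] at hk
      have := congrArg (fun f : Equiv.Perm ↥E => ((f ⟨p, hp⟩ : ↥E) : GolayPt)) hk
      exact this
    · apply mem_stab_iff.2
      apply Finset.eq_of_subset_of_card_le
      · intro q hq
        obtain ⟨p, hp, rfl⟩ := Finset.mem_smul_finset.1 hq
        show g.1 p ∈ E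
        rw [g.2.2 p hp]
        exact hp
      · rw [Finset.card_smul_finset]
    · rw [MonoidHom.mem_ker]
      exact Equiv.ext fun p => Subtype.ext (g.2.2 p p.2)
    · intro g
      rfl
    · intro g
      rfl
  rw [← h1, h2, h3]


/-- Although the group of the length-24 code is only 5-transitive on the 24 points, it induces the full symmetric group on every 6-element subset: every permutation of a 6-set E is the restriction of an element of the group mapping E to itself. The pointwise stabiliser of E has order 16 when E lies in an octad and order 3 otherwise; in the latter case the setwise stabiliser of E has order 2160. -/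
theorem result (E : Finset Cfsg.GolayPt) (hE : E.card = 6) : (∀ σ : Equiv.Perm ↥E, ∃ g ∈ Cfsg.M24, ∀ p : ↥E, g p = σ p) ∧ ((∃ o ∈ Cfsg.octads, E ⊆ o) → Nat.card {g : Equiv.Perm Cfsg.GolayPt // g ∈ Cfsg.M24 ∧ ∀ p ∈ E, g p = p} = 16) ∧ ((¬ ∃ o ∈ Cfsg.octads, E ⊆ o) → Nat.card {g : Equiv.Perm Cfsg.GolayPt // g ∈ Cfsg.M24 ∧ ∀ p ∈ E, g p = p} = 3 ∧ Nat.card ↥(MulAction.stabilizer Cfsg.M24 E) = 2160) := by
  classical
  let e : Fin 6 ≃ ↥E := (E.equivFinOfCardEq hE).symm
  let x : Fin 6 → GolayPt := fun i => (e i : GolayPt)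
  have hx : Function.Injective x := fun i j h => e.injective (Subtype.ext h)
  have hxE : ∀ i, x i ∈ E := fun i => (e i).2
  have hEx : ∀ p ∈ E, ∃ i, x i = p := by
    intro p hp
    refine ⟨e.symm ⟨p, hp⟩, ?_⟩
    simp [x]
  have hoct : (∃ o ∈ octads, ∀ i, x i ∈ o) ↔ ∃ o ∈ octads, E ⊆ o := by
    constructor
    · rintro ⟨o, ho, h⟩
      refine ⟨o, ho, fun p hp => ?_⟩
      obtain ⟨i, rfl⟩ := hEx p hp
      exact h i
    · rintro ⟨o, ho, h⟩
      exact ⟨o, ho, fun i => h (hxE i)⟩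
  have hperm : ∀ σ : Equiv.Perm ↥E, ∃ g ∈ M24, ∀ p : ↥E, g p = σ p := by
    intro σ
    let y : Fin 6 → GolayPt := fun i => (σ (e i) : GolayPt)
    have hy : Function.Injective y := fun i j h => e.injective (σ.injective (Subtype.ext h))
    have hyE : ∀ p ∈ E, ∃ i, y i = p := by
      intro p hp
      refine ⟨e.symm (σ.symm ⟨p, hp⟩), ?_⟩
      simp [y]
    have hoct' : (∃ o ∈ octads, ∀ i, y i ∈ o) ↔ ∃ o ∈ octads, E ⊆ o := by
      constructor
      · rintro ⟨o, ho, h⟩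
        refine ⟨o, ho, fun p hp => ?_⟩
        obtain ⟨i, rfl⟩ := hyE p hp
        exact h i
      · rintro ⟨o, ho, h⟩
        exact ⟨o, ho, fun i => h (σ (e i)).2⟩
    have key : ∀ (b : Fin 6 → GolayPt) (g₁ g₂ : Equiv.Perm GolayPt), g₁ ∈ M24 → g₂ ∈ M24 →
        (∀ i, g₁ (b i) = x i) → (∀ i, g₂ (b i) = y i) →
        ∃ g ∈ M24, ∀ p : ↥E, g p = σ p := by
      intro b g₁ g₂ h₁ h₂ e₁ e₂
      refine ⟨g₂ * g₁⁻¹, M24.mul_mem h₂ (M24.inv_mem h₁), ?_⟩
      intro p
      obtain ⟨i, hi⟩ := hEx p.1 p.2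
      have h3 : e i = p := Subtype.ext hi
      have h4 : g₁⁻¹ p = b i := by
        rw [Equiv.Perm.inv_eq_iff_eq, e₁, hi]
      rw [Equiv.Perm.mul_apply, h4, e₂]
      show ((σ (e i)) : GolayPt) = _
      rw [h3]
    by_cases h : ∃ o ∈ octads, E ⊆ o
    · obtain ⟨g₁, h₁, e₁⟩ := (exists_image_six hx).1 (hoct.2 h)
      obtain ⟨g₂, h₂, e₂⟩ := (exists_image_six hy).1 (hoct'.2 h)
      exact key _ g₁ g₂ h₁ h₂ e₁ e₂
    · obtain ⟨g₁, h₁, e₁⟩ := (exists_image_six hx).2 (fun hh => h (hoct.1 hh))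
      obtain ⟨g₂, h₂, e₂⟩ := (exists_image_six hy).2 (fun hh => h (hoct'.1 hh))
      exact key _ g₁ g₂ h₁ h₂ e₁ e₂
  refine ⟨hperm, ?_, ?_⟩
  · intro h
    obtain ⟨g, hg, e₁⟩ := (exists_image_six hx).1 (hoct.2 h)
    rw [card_pointwise_conj (l := [5, 3, 2, 1, 0, 23]) hg, card_fix6]
    intro p
    constructor
    · intro hp
      obtain ⟨i, rfl⟩ := hEx p hp
      rw [← e₁ i]
      fin_cases i
      · exact ⟨23, by simp, rfl⟩
      · exact ⟨0, by simp, rfl⟩
      · exact ⟨1, by simp, rfl⟩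
      · exact ⟨2, by simp, rfl⟩
      · exact ⟨3, by simp, rfl⟩
      · exact ⟨5, by simp, rfl⟩
    · rintro ⟨i, hi, rfl⟩
      have h2 : ∀ i ∈ [5, 3, 2, 1, 0, 23], ∃ j, pt i = bS j := by decide
      obtain ⟨j, hj⟩ := h2 i hi
      rw [hj, e₁ j]
      exact hxE j
  · intro h
    obtain ⟨g, hg, e₁⟩ := (exists_image_six hx).2 (fun hh => h (hoct.1 hh))
    have hc : Nat.card {g : Equiv.Perm GolayPt // g ∈ M24 ∧ ∀ p ∈ E, g p = p} = 3 := by
      rw [card_pointwise_conj (l := [4, 3, 2, 1, 0, 23]) hg, card_fix6b]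
      intro p
      constructor
      · intro hp
        obtain ⟨i, rfl⟩ := hEx p hp
        rw [← e₁ i]
        fin_cases i
        · exact ⟨23, by simp, rfl⟩
        · exact ⟨0, by simp, rfl⟩
        · exact ⟨1, by simp, rfl⟩
        · exact ⟨2, by simp, rfl⟩
        · exact ⟨3, by simp, rfl⟩
        · exact ⟨4, by simp, rfl⟩
      · rintro ⟨i, hi, rfl⟩
        have h2 : ∀ i ∈ [4, 3, 2, 1, 0, 23], ∃ j, pt i = bU j := by decide
        obtain ⟨j, hj⟩ := h2 i hi
        rw [hj, e₁ j]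
        exact hxE j
    refine ⟨hc, ?_⟩
    rw [card_stab_eq E hE hperm, hc]

end Cfsg.Agent.S5600
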