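import Cfsg.Statements.S5521
import Mathlib
import Cfsg.Agent.S5600
import Cfsg.Agent.Lib.H27.GolayChain

set_option autoImplicit false
set_option linter.unusedSimpArgs false
set_option linter.unusedVariables false
open Cfsg

namespace Cfsg.Agent.S5521

open Cfsg.Agent.H27.Golay

theorem result :
    (∀ B : Finset Cfsg.GolayPt, B.card ≤ 6 → ∃ g ∈ Cfsg.M24, g ≠ 1 ∧ ∀ b ∈ B, g b = b) ∧
    (∃ B : Finset Cfsg.GolayPt, B.card = 7 ∧ ∀ g ∈ Cfsg.M24, (∀ b ∈ B, g b = b) → g = 1) := by
  classical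
  constructor
  · intro B hB
    have hcard : (6 : ℕ) ≤ (Finset.univ : Finset GolayPt).card := by decide
    obtain ⟨E, hBE, -, hE⟩ := Finset.exists_subsuperset_card_eq (Finset.subset_univ B) hB hcard
    obtain ⟨-, h16, h3⟩ := Cfsg.Agent.S5600.result E hE
    have hgt : 1 < Nat.card {g : Equiv.Perm GolayPt // g ∈ M24 ∧ ∀ p ∈ E, g p = p} := by
      by_cases ho : ∃ o ∈ octads, E ⊆ o
      · rw [h16 ho]; norm_num
      · rw [(h3 ho).1]; norm_num
    haveI : Finite {g : Equiv.Perm GolayPt // g ∈ M24 ∧ ∀ p ∈ E, g p = p} := inferInstance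
    have hnt := Finite.one_lt_card_iff_nontrivial.1 hgt
    obtain ⟨a, b, hab⟩ := hnt.exists_pair_ne
    by_cases ha : (a : Equiv.Perm GolayPt) = 1
    · have hb : (b : Equiv.Perm GolayPt) ≠ 1 := by
        intro hb
        exact hab (Subtype.ext (ha.trans hb.symm))
      exact ⟨b, b.2.1, hb, fun x hx => b.2.2 x (hBE hx)⟩
    · exact ⟨a, a.2.1, ha, fun x hx => a.2.2 x (hBE hx)⟩
  · refine ⟨{pt 4, pt 5, pt 3, pt 2, pt 1, pt 0, pt 23}, by decide, ?_⟩
    intro g hg hfix
    have h : g ∈ fixG baseL := by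
      refine ⟨hg, ?_⟩
      intro i hi
      apply hfix
      simp only [baseL, List.mem_cons, List.not_mem_nil, or_false] at hi
      rcases hi with rfl | rfl | rfl | rfl | rfl | rfl | rfl <;> simp
    rw [fix_base_trivial, Subgroup.mem_bot] at h
    exact h

end Cfsg.Agent.S5521
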