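import Cfsg.Statements.S5529
import Mathlib
import Cfsg.Agent.Lib.H26.M23GenData
import Cfsg.Agent.Lib.H26.Ree

set_option autoImplicit false
set_option linter.unusedSimpArgs false
set_option linter.unusedVariables false
set_option linter.style.haveILetI false
set_option maxRecDepth 100000
open Cfsg
open scoped Pointwise

namespace Cfsg.Agent.S5529

open Cfsg.Agent.H27.Golay Cfsg.Agent.H26.Ree Cfsg.Agent.H26.M23Gen Module

/-- Evaluation of a word in a list of permutation codes. -/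
def evalW (G : List ℕ) (w : List ℕ) : ℕ :=
  List.rec (motive := fun _ => ℕ) idCode (fun i _ ih => pcomp (G.getD i idCode) ih) w

theorem idCode_ok : permOK idCode = true := isM24_permOK idCode_spec

theorem evalW_mem {H : Subgroup (Equiv.Perm GolayPt)} {G : List ℕ}
    (hG : ∀ g ∈ G, permOK g = true ∧ P g ∈ H) (w : List ℕ) :
    permOK (evalW G w) = true ∧ P (evalW G w) ∈ H := by
  induction w with
  | nil =>
    show permOK idCode = true ∧ P idCode ∈ H
    exact ⟨idCode_ok, by rw [P_idCode]; exact H.one_mem⟩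
  | cons i w ih =>
    have hi : permOK (G.getD i idCode) = true ∧ P (G.getD i idCode) ∈ H := by
      by_cases hl : i < G.length
      · rw [List.getD_eq_getElem _ _ hl]
        exact hG _ (List.getElem_mem _)
      · rw [List.getD_eq_default _ _ (by omega)]
        exact ⟨idCode_ok, by rw [P_idCode]; exact H.one_mem⟩
    show permOK (pcomp (G.getD i idCode) (evalW G w)) = true ∧ P (pcomp (G.getD i idCode) (evalW G w)) ∈ H
    refine ⟨permOK_pcomp hi.1 ih.1, ?_⟩
    rw [P_pcomp hi.1 ih.1]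
    exact H.mul_mem hi.2 ih.2

/-- The generators and their inverses. -/
def gensOf (x y : ℕ) : List ℕ := [x, y, pinv x, pinv y]

theorem gensOf_mem {H : Subgroup (Equiv.Perm GolayPt)} {x y : ℕ} (hx : permOK x = true)
    (hy : permOK y = true) (hxH : P x ∈ H) (hyH : P y ∈ H) :
    ∀ g ∈ gensOf x y, permOK g = true ∧ P g ∈ H := by
  intro g hg
  simp only [gensOf, List.mem_cons, List.not_mem_nil, or_false] at hg
  rcases hg with rfl | rfl | rfl | rfl
  · exact ⟨hx, hxH⟩
  · exact ⟨hy, hyH⟩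
  · exact ⟨permOK_pinv hx, by rw [P_pinv hx]; exact H.inv_mem hxH⟩
  · exact ⟨permOK_pinv hy, by rw [P_pinv hy]; exact H.inv_mem hyH⟩

theorem W2_eq : W2.map (evalW (gensOf genA genB)) = T2 := by decide +kernel
theorem W3_eq : W3.map (evalW (gensOf genA genB)) = T3 := by decide +kernel
theorem W4_eq : W4.map (evalW (gensOf genA genB)) = T4 := by decide +kernel
theorem W5_eq : W5.map (evalW (gensOf genA genB)) = T5 := by decide +kernel
theorem W6_eq : W6.map (evalW (gensOf genA genB)) = T6 := by decide +kernel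
theorem W7_eq : W7.map (evalW (gensOf genA genB)) = T7 := by decide +kernel

theorem genA_ok : isM24 genA = true := by decide +kernel
theorem genB_ok : isM24 genB = true := by decide +kernel

/-- The generators generate the point stabiliser. -/
theorem fixG_le_of_gens {H : Subgroup (Equiv.Perm GolayPt)} (hA : P genA ∈ H) (hB : P genB ∈ H) :
    fixG [23] ≤ H := by
  have hG := gensOf_mem (isM24_permOK genA_ok) (isM24_permOK genB_ok) hA hB
  have hT : ∀ {L : List (List ℕ)} {T : List ℕ}, L.map (evalW (gensOf genA genB)) = T →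
      ∀ t ∈ T, P t ∈ H := by
    intro L T h t ht
    rw [← h, List.mem_map] at ht
    obtain ⟨w, _, rfl⟩ := ht
    exact (evalW_mem hG w).2
  intro g hg
  obtain ⟨t2, ht2, _, g2, hg2, rfl⟩ := level2.exists_mul hg
  obtain ⟨t3, ht3, _, g3, hg3, rfl⟩ := level3.exists_mul hg2
  obtain ⟨t4, ht4, _, g4, hg4, rfl⟩ := level4.exists_mul hg3
  obtain ⟨t5, ht5, _, g5, hg5, rfl⟩ := level5.exists_mul hg4
  obtain ⟨t6, ht6, _, g6, hg6, rfl⟩ := level6.exists_mul hg5
  obtain ⟨t7, ht7, _, g7, hg7, rfl⟩ := level7.exists_mul hg6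
  have h7 : g7 = 1 := by
    have hb : fixG baseL = ⊥ := fix_base_trivial
    have : g7 ∈ fixG baseL := hg7
    rw [hb] at this
    exact this
  rw [h7, mul_one]
  exact H.mul_mem (hT W2_eq _ ht2) (H.mul_mem (hT W3_eq _ ht3) (H.mul_mem (hT W4_eq _ ht4)
    (H.mul_mem (hT W5_eq _ ht5) (H.mul_mem (hT W6_eq _ ht6) (hT W7_eq _ ht7)))))

theorem mem_M23_iff {g : Equiv.Perm GolayPt} : g ∈ Spor.M23 ↔ g ∈ fixG [23] := by
  have hpt : pt 23 = none := by decide
  constructor
  · intro h
    refine ⟨h.1, ?_⟩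
    intro i hi
    simp only [List.mem_singleton] at hi
    subst hi
    rw [hpt]
    exact h.2
  · intro h
    refine ⟨h.1, ?_⟩
    have := h.2 23 (by simp)
    rwa [hpt] at this

/-- Iterated composition. -/
def powC (x n : ℕ) : ℕ := Nat.rec (motive := fun _ => ℕ) idCode (fun _ ih => pcomp x ih) n

theorem powC_spec {x : ℕ} (hx : permOK x = true) (n : ℕ) :
    permOK (powC x n) = true ∧ P (powC x n) = P x ^ n := by
  induction n with
  | zero =>
    exact ⟨idCode_ok, by rw [pow_zero]; exact P_idCode⟩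
  | succ n ih =>
    show permOK (pcomp x (powC x n)) = true ∧ P (pcomp x (powC x n)) = _
    refine ⟨permOK_pcomp hx ih.1, ?_⟩
    rw [P_pcomp hx ih.1, ih.2, pow_succ']

theorem orderOf_of_check {x p : ℕ} [Fact p.Prime] (hx : permOK x = true)
    (h1 : sameCode (powC x p) idCode = true) (h2 : sameCode x idCode = false) :
    orderOf (P x) = p := by
  apply orderOf_eq_prime
  · rw [← (powC_spec hx p).2, P_eq_of_sameCode (powC_spec hx p).1 idCode_ok h1, P_idCode]
  · intro h
    have := sameCode_of_P_eq hx idCode_ok (by rw [h, P_idCode])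
    rw [this] at h2
    cases h2

/-- The statement for a given triple. -/
def Triple (p q r : ℕ) : Prop :=
  ∃ x y z : Spor.M23, orderOf x = p ∧ orderOf y = q ∧ orderOf z = r ∧ x * y * z = 1 ∧
    Subgroup.closure {x, y} = ⊤

/-- The certificate test. -/
def certOK (p q r x y : ℕ) (wa wb : List ℕ) : Bool :=
  isM24 x && isM24 y && Nat.beq (pa x 23) 23 && Nat.beq (pa y 23) 23 &&
    sameCode (powC x p) idCode && !(sameCode x idCode) &&
    sameCode (powC y q) idCode && !(sameCode y idCode) &&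
    sameCode (powC (pcomp x y) r) idCode && !(sameCode (pcomp x y) idCode) &&
    sameCode (evalW (gensOf x y) wa) genA && sameCode (evalW (gensOf x y) wb) genB

theorem P_mem_fix23 {x : ℕ} (h1 : isM24 x = true) (h2 : Nat.beq (pa x 23) 23 = true) :
    P x ∈ Spor.M23 := by
  rw [mem_M23_iff]
  refine ⟨P_mem_M24 h1, ?_⟩
  intro i hi
  simp only [List.mem_singleton] at hi
  subst hi
  rw [P_pt (isM24_permOK h1) (by norm_num), Nat.eq_of_beq_eq_true h2]

theorem closure_eq_top {x y : Spor.M23}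
    (h : fixG [23] ≤ Subgroup.closure {(x : Equiv.Perm GolayPt), (y : Equiv.Perm GolayPt)}) :
    Subgroup.closure {x, y} = ⊤ := by
  rw [eq_top_iff]
  intro g _
  have h1 : (g : Equiv.Perm GolayPt) ∈ Subgroup.closure {(x : Equiv.Perm GolayPt), (y : Equiv.Perm GolayPt)} :=
    h (mem_M23_iff.1 g.2)
  have h2 : Subgroup.closure {(x : Equiv.Perm GolayPt), (y : Equiv.Perm GolayPt)} =
      (Subgroup.closure {x, y}).map Spor.M23.subtype := by
    rw [MonoidHom.map_closure]
    congr 1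
    simp [Set.image_insert_eq]
  rw [h2] at h1
  obtain ⟨g', hg', he⟩ := h1
  have : g' = g := Subtype.ext he
  rwa [← this]

theorem triple_of_cert {p q r : ℕ} (hp : p.Prime) (hq : q.Prime) (hr : r.Prime) (x y : ℕ)
    (wa wb : List ℕ) (h : certOK p q r x y wa wb = true) : Triple p q r := by
  simp only [certOK, Bool.and_eq_true, Bool.not_eq_true'] at h
  obtain ⟨⟨⟨⟨⟨⟨⟨⟨⟨⟨⟨h1, h2⟩, h3⟩, h4⟩, h5⟩, h6⟩, h7⟩, h8⟩, h9⟩, h10⟩, h11⟩, h12⟩ := h
  have hx := isM24_permOK h1
  have hy := isM24_permOK h2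
  have hxy := permOK_pcomp hx hy
  haveI : Fact p.Prime := ⟨hp⟩
  haveI : Fact q.Prime := ⟨hq⟩
  haveI : Fact r.Prime := ⟨hr⟩
  have hx' := P_mem_fix23 h1 h3
  have hy' := P_mem_fix23 h2 h4
  refine ⟨⟨P x, hx'⟩, ⟨P y, hy'⟩, (⟨P x, hx'⟩ * ⟨P y, hy'⟩)⁻¹, ?_, ?_, ?_, ?_, ?_⟩
  · rw [Subgroup.orderOf_mk]
    exact orderOf_of_check hx h5 h6
  · rw [Subgroup.orderOf_mk]
    exact orderOf_of_check hy h7 h8
  · rw [orderOf_inv]
    have : (⟨P x, hx'⟩ * ⟨P y, hy'⟩ : Spor.M23) = ⟨P (pcomp x y), by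
        rw [P_pcomp hx hy]; exact Spor.M23.mul_mem hx' hy'⟩ := by
      apply Subtype.ext
      exact (P_pcomp hx hy).symm
    rw [this, Subgroup.orderOf_mk]
    exact orderOf_of_check hxy h9 h10
  · rw [mul_inv_cancel]
  · apply closure_eq_top
    apply fixG_le_of_gens
    · set H := Subgroup.closure {(⟨P x, hx'⟩ : Spor.M23).1, (⟨P y, hy'⟩ : Spor.M23).1} with hH
      have hG := gensOf_mem (H := H) hx hy (Subgroup.subset_closure (by simp))
        (Subgroup.subset_closure (by simp))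
      have h13 := (evalW_mem hG wa)
      rw [← P_eq_of_sameCode h13.1 (isM24_permOK genA_ok) h11]
      exact h13.2
    · set H := Subgroup.closure {(⟨P x, hx'⟩ : Spor.M23).1, (⟨P y, hy'⟩ : Spor.M23).1} with hH
      have hG := gensOf_mem (H := H) hx hy (Subgroup.subset_closure (by simp))
        (Subgroup.subset_closure (by simp))
      have h13 := (evalW_mem hG wb)
      rw [← P_eq_of_sameCode h13.1 (isM24_permOK genB_ok) h12]
      exact h13.2

/-! ### The Riemann–Hurwitz bound -/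

abbrev K2 := ZMod 2

theorem act_sub_mem_closure {x y : Equiv.Perm GolayPt} {D : Submodule K2 (GolayPt → K2)}
    (hx : ∀ v, act K2 x v - v ∈ D) (hy : ∀ v, act K2 y v - v ∈ D)
    {g : Equiv.Perm GolayPt} (hg : g ∈ Subgroup.closure {x, y}) : ∀ v, act K2 g v - v ∈ D := by
  induction hg using Subgroup.closure_induction with
  | mem g hg =>
    simp only [Set.mem_insert_iff, Set.mem_singleton_iff] at hg
    rcases hg with rfl | rfl
    · exact hx
    · exact hy
  | one =>
    intro v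
    rw [act_one, sub_self]
    exact D.zero_mem
  | mul a b _ _ ha hb =>
    intro v
    rw [act_mul]
    have : act K2 a (act K2 b v) - v = (act K2 a (act K2 b v) - act K2 b v) + (act K2 b v - v) := by
      abel
    rw [this]
    exact D.add_mem (ha _) (hb _)
  | inv a _ ha =>
    intro v
    have h1 := ha (act K2 a⁻¹ v)
    rw [← act_mul, mul_inv_cancel, act_one] at h1
    have h2 := D.neg_mem h1
    simpa using h2

theorem act_fix_closure {x y : Equiv.Perm GolayPt} {f : GolayPt → K2}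
    (hx : act K2 x f = f) (hy : act K2 y f = f)
    {g : Equiv.Perm GolayPt} (hg : g ∈ Subgroup.closure {x, y}) : act K2 g f = f := by
  induction hg using Subgroup.closure_induction with
  | mem g hg =>
    simp only [Set.mem_insert_iff, Set.mem_singleton_iff] at hg
    rcases hg with rfl | rfl
    · exact hx
    · exact hy
  | one => exact act_one f
  | mul a b _ _ ha hb => rw [act_mul, hb, ha]
  | inv a _ ha =>
    have h1 := congrArg (act K2 a⁻¹) ha
    rw [← act_mul, inv_mul_cancel, act_one] at h1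
    exact h1.symm

theorem act_single (g : Equiv.Perm GolayPt) (b : GolayPt) :
    act K2 g (Pi.single b 1) = Pi.single (g b) 1 := by
  funext c
  simp only [act_apply, Pi.single_apply]
  by_cases h : c = g b
  · subst h
    simp
  · have : g⁻¹ c ≠ b := by
      intro h'
      apply h
      rw [← h']
      simp
    rw [if_neg this, if_neg h]

theorem exists_trans {a : GolayPt} (ha : a ≠ none) : ∃ g ∈ fixG [23], g (pt 0) = a := by
  have h1 : ∀ a : GolayPt, a ≠ none → a ∈ fs 8388607 := by decide +kernel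
  obtain ⟨t, _, h2, _, h3⟩ := level2.exists_mem (h1 a ha)
  exact ⟨P t, h2, h3⟩

/-- Ree's bound for generating triples. -/
theorem ree_bound (x y z : Equiv.Perm GolayPt) (hxyz : x * y * z = 1)
    (hgen : fixG [23] ≤ Subgroup.closure {x, y}) :
    44 ≤ finrank K2 ↥(LinearMap.range (act K2 x - LinearMap.id)) +
      (finrank K2 ↥(LinearMap.range (act K2 y - LinearMap.id)) +
        finrank K2 ↥(LinearMap.range (act K2 z - LinearMap.id))) := by
  classical
  have hS := scott3 (act K2 x) (act K2 y) (act K2 z) (by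
    intro v
    rw [← act_mul, ← act_mul, hxyz, act_one])
  have hV : finrank K2 (GolayPt → K2) = 24 := by
    rw [finrank_fintype_fun_eq_card]
    rfl
  rw [hV] at hS
  set K := LinearMap.ker (act K2 x - LinearMap.id) ⊓ LinearMap.ker (act K2 y - LinearMap.id) with hK
  set D := LinearMap.range (act K2 x - LinearMap.id) ⊔ LinearMap.range (act K2 y - LinearMap.id) with hD
  have hK2 : finrank K2 ↥K ≤ 2 := by
    have hfix : ∀ f ∈ K, ∀ a, a ≠ none → f a = f (pt 0) := by
      intro f hf a ha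
      obtain ⟨g, hg, rfl⟩ := exists_trans ha
      have h1 : act K2 x f = f := by
        have h0 : (act K2 x - (LinearMap.id : (GolayPt → K2) →ₗ[K2] (GolayPt → K2))) f = 0 := hf.1
        rw [LinearMap.sub_apply, sub_eq_zero] at h0
        exact h0
      have h2 : act K2 y f = f := by
        have h0 : (act K2 y - (LinearMap.id : (GolayPt → K2) →ₗ[K2] (GolayPt → K2))) f = 0 := hf.2
        rw [LinearMap.sub_apply, sub_eq_zero] at h0
        exact h0
      have h3 := act_fix_closure h1 h2 (hgen hg)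
      have h4 := congrFun h3 (g (pt 0))
      have h5 : g⁻¹ (g (pt 0)) = pt 0 := by simp
      rw [act_apply, h5] at h4
      exact h4.symm
    let ψ : ↥K →ₗ[K2] K2 × K2 :=
      (LinearMap.prod (LinearMap.proj none) (LinearMap.proj (pt 0))) ∘ₗ K.subtype
    have hψ : Function.Injective ψ := by
      rw [← LinearMap.ker_eq_bot, LinearMap.ker_eq_bot']
      rintro ⟨f, hf⟩ h0
      have h1 : f none = 0 := congrArg Prod.fst h0
      have h2 : f (pt 0) = 0 := congrArg Prod.snd h0
      apply Subtype.ext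
      funext a
      by_cases ha : a = none
      · subst ha
        exact h1
      · show f a = 0
        rw [hfix f hf a ha, h2]
    have := LinearMap.finrank_le_finrank_of_injective hψ
    simpa using this
  have hD22 : 22 ≤ finrank K2 ↥D := by
    have hx : ∀ v, act K2 x v - v ∈ D := fun v =>
      Submodule.mem_sup_left ⟨v, rfl⟩
    have hy : ∀ v, act K2 y v - v ∈ D := fun v =>
      Submodule.mem_sup_right ⟨v, rfl⟩
    let S := {a : GolayPt // a ≠ none ∧ a ≠ pt 0}
    have hS22 : Fintype.card S = 22 := by decide +kernel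
    let e0 : GolayPt → K2 := Pi.single (pt 0) 1
    let v : S → (GolayPt → K2) := fun a => Pi.single a.1 1 - e0
    have hvD : ∀ a, v a ∈ D := by
      intro a
      obtain ⟨g, hg, hga⟩ := exists_trans a.2.1
      have h1 := act_sub_mem_closure hx hy (hgen hg) e0
      rw [act_single, hga] at h1
      exact h1
    let ρ : (S → K2) →ₗ[K2] ↥D :=
      { toFun := fun f => ⟨∑ a, f a • v a, D.sum_mem fun a _ => D.smul_mem _ (hvD a)⟩
        map_add' := by
          intro f g
          apply Subtype.ext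
          simp [add_smul, Finset.sum_add_distrib]
        map_smul' := by
          intro c f
          apply Subtype.ext
          simp [Finset.smul_sum, mul_smul] }
    have hρ : Function.Injective ρ := by
      rw [← LinearMap.ker_eq_bot, LinearMap.ker_eq_bot']
      intro f hf
      funext b
      have h1 : (∑ a, f a • v a) b.1 = 0 := by
        have := congrArg Subtype.val hf
        exact congrFun this b.1
      rw [Finset.sum_apply, Finset.sum_eq_single b] at h1
      · simpa [v, e0, Pi.single_apply, b.2.2] using h1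
      · intro a _ hab
        have hne : b.1 ≠ a.1 := fun h => hab (Subtype.ext h.symm)
        simp [v, e0, Pi.single_apply, b.2.2, hne]
      · simp
    have := LinearMap.finrank_le_finrank_of_injective hρ
    rwa [finrank_fintype_fun_eq_card, hS22] at this
  omega

theorem rank_mul_le (g : Equiv.Perm GolayPt) (p : ℕ) [Fact p.Prime] (ho : orderOf g = p) :
    finrank K2 ↥(LinearMap.range (act K2 g - LinearMap.id)) * p +
      (24 + (p - 1) * (Finset.univ.filter fun a => g a = a).card) ≤ 24 * p := by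
  classical
  have h1 := card_orbits_le (k := K2) g
  have h2 := card_orbits_prime g p ho
  have h24 : Fintype.card GolayPt = 24 := rfl
  rw [h24] at h1 h2
  have h3 : (finrank K2 ↥(LinearMap.range (act K2 g - LinearMap.id)) +
      Fintype.card (Quotient (MulAction.orbitRel (Subgroup.zpowers g) GolayPt))) * p ≤ 24 * p :=
    Nat.mul_le_mul_right _ h1
  rw [add_mul, h2] at h3
  convert h3 using 4

theorem fix_pos {g : Equiv.Perm GolayPt} (hg : g ∈ Spor.M23) :
    0 < (Finset.univ.filter fun a => g a = a).card := by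
  apply Finset.card_pos.2
  exact ⟨none, Finset.mem_filter.2 ⟨Finset.mem_univ _, hg.2⟩⟩

/-- The rank of `g - 1` for `g` of prime order in the point stabiliser. -/
def rk : ℕ → ℕ
  | 2 => 8
  | 3 => 12
  | 5 => 16
  | 7 => 18
  | 11 => 20
  | 23 => 22
  | _ => 0

theorem rank_le {g : Equiv.Perm GolayPt} (hg : g ∈ Spor.M23) {p : ℕ}
    (hp : p = 2 ∨ p = 3 ∨ p = 5 ∨ p = 7 ∨ p = 11 ∨ p = 23) (ho : orderOf g = p) :
    finrank K2 ↥(LinearMap.range (act K2 g - LinearMap.id)) ≤ rk p := by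
  classical
  have hF := fix_pos hg
  have hg24 := hg.1
  rcases hp with rfl | rfl | rfl | rfl | rfl | rfl
  · haveI : Fact (Nat.Prime 2) := ⟨by norm_num⟩
    have h1 := rank_mul_le g 2 ho
    have h2 := fix_order2 hg24 ho
    have h3 : (Finset.univ.filter fun a => g a = a).card = 8 := by
      rcases h2 with h2 | h2
      · rw [h2] at hF
        omega
      · exact h2
    rw [h3] at h1
    show _ ≤ 8
    omega
  · haveI : Fact (Nat.Prime 3) := ⟨by norm_num⟩
    have h1 := rank_mul_le g 3 ho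
    have h2 := fix_order3 hg24 ho
    have h3 : (Finset.univ.filter fun a => g a = a).card = 6 := by
      rcases h2 with h2 | h2
      · rw [h2] at hF
        omega
      · exact h2
    rw [h3] at h1
    show _ ≤ 12
    omega
  · haveI : Fact (Nat.Prime 5) := ⟨by norm_num⟩
    have h1 := rank_mul_le g 5 ho
    have h2 := fix_modEq g 5 (by rw [← ho]; exact pow_orderOf_eq_one g)
    unfold Nat.ModEq at h2
    show _ ≤ 16
    omega
  · haveI : Fact (Nat.Prime 7) := ⟨by norm_num⟩
    have h1 := rank_mul_le g 7 ho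
    have h2 := fix_modEq g 7 (by rw [← ho]; exact pow_orderOf_eq_one g)
    unfold Nat.ModEq at h2
    show _ ≤ 18
    omega
  · haveI : Fact (Nat.Prime 11) := ⟨by norm_num⟩
    have h1 := rank_mul_le g 11 ho
    have h2 := fix_modEq g 11 (by rw [← ho]; exact pow_orderOf_eq_one g)
    unfold Nat.ModEq at h2
    show _ ≤ 20
    omega
  · haveI : Fact (Nat.Prime 23) := ⟨by norm_num⟩
    have h1 := rank_mul_le g 23 ho
    have h2 := fix_modEq g 23 (by rw [← ho]; exact pow_orderOf_eq_one g)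
    unfold Nat.ModEq at h2
    show _ ≤ 22
    omega

/-- No generating triple with a small sum of ranks. -/
theorem no_triple {p q r : ℕ} (hp : p = 2 ∨ p = 3 ∨ p = 5 ∨ p = 7 ∨ p = 11 ∨ p = 23)
    (hq : q = 2 ∨ q = 3 ∨ q = 5 ∨ q = 7 ∨ q = 11 ∨ q = 23)
    (hr : r = 2 ∨ r = 3 ∨ r = 5 ∨ r = 7 ∨ r = 11 ∨ r = 23)
    (hs : rk p + (rk q + rk r) < 44) : ¬ Triple p q r := by
  rintro ⟨x, y, z, h1, h2, h3, h4, h5⟩
  have h6 : fixG [23] ≤ Subgroup.closure {(x : Equiv.Perm GolayPt), (y : Equiv.Perm GolayPt)} := by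
    intro g hg
    have h7 : Subgroup.closure {(x : Equiv.Perm GolayPt), (y : Equiv.Perm GolayPt)} =
        (Subgroup.closure {x, y}).map Spor.M23.subtype := by
      rw [MonoidHom.map_closure]
      congr 1
      simp [Set.image_insert_eq]
    rw [h7, h5]
    exact ⟨⟨g, mem_M23_iff.2 hg⟩, trivial, rfl⟩
  have h8 : (x : Equiv.Perm GolayPt) * y * z = 1 := by
    have := congrArg Subtype.val h4
    simpa using this
  have h9 := ree_bound _ _ _ h8 h6
  have h10 := rank_le x.2 hp (by rw [← h1]; exact Subgroup.orderOf_coe x)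
  have h11 := rank_le y.2 hq (by rw [← h2]; exact Subgroup.orderOf_coe y)
  have h12 := rank_le z.2 hr (by rw [← h3]; exact Subgroup.orderOf_coe z)
  omega

theorem c_2_5_11 : Triple 2 5 11 :=
  triple_of_cert (by norm_num) (by norm_num) (by norm_num) 984805329143595020694614473516885024 971184230311629105095998407379823303
    [0, 1, 0, 1, 0, 1, 1, 0, 3, 0, 3, 0, 3, 0, 1, 0, 1, 0, 1, 0, 3, 3, 0, 3, 0, 3, 0]
    [1, 0, 3, 0, 3, 0, 1, 0, 3, 3, 0, 1, 0, 1, 1, 0, 3, 0, 3] (by decide +kernel)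

theorem c_2_5_23 : Triple 2 5 23 :=
  triple_of_cert (by norm_num) (by norm_num) (by norm_num) 984047379121870168806603060567921824 975568153733310569088664442749866019
    [1, 0, 1, 0, 1, 0, 3, 0, 3, 0, 3, 0, 1, 0, 1, 0, 1, 0, 3, 0, 3, 0, 3]
    [1, 1, 0, 3, 0, 3, 3, 0, 1, 1, 0, 1, 1, 0, 3, 3, 0, 1, 1, 0, 3, 0, 1, 1, 0, 1, 1] (by decide +kernel)

theorem c_2_7_7 : Triple 2 7 7 :=
  triple_of_cert (by norm_num) (by norm_num) (by norm_num) 969790242334956570868356858214261280 984006354748856444872247509716910635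
    [3, 3, 3, 0, 3, 0, 1, 1, 0, 1, 0, 3, 0, 3, 3, 0, 1, 0, 1, 1, 1]
    [1, 0, 3, 3, 0, 1, 1, 1, 0, 3, 3, 3, 0, 3, 0, 1, 1, 1, 0, 1, 1] (by decide +kernel)

theorem c_2_7_11 : Triple 2 7 11 :=
  triple_of_cert (by norm_num) (by norm_num) (by norm_num) 984331148589348515053398421907015716 973927186878726670158974632773835083
    [1, 0, 3, 0, 1, 1, 0, 3, 0, 3, 0, 1, 0, 1, 1, 1, 0, 1, 1, 0, 1, 0, 1, 1, 1]
    [1, 0, 1, 1, 0, 3, 0, 3, 0, 1, 1, 1, 0, 3, 3, 0, 1, 0, 3, 3, 0, 3, 3, 0] (by decide +kernel)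

theorem c_2_7_23 : Triple 2 7 23 :=
  triple_of_cert (by norm_num) (by norm_num) (by norm_num) 958511949025712159807673182309177696 964004012910654660093263567411289142
    [0, 3, 0, 3, 3, 3, 0, 1, 1, 0, 1, 1, 0, 1, 1, 0, 3, 3, 0, 1, 0]
    [0, 1, 0, 1, 0, 1, 0, 1, 0, 1, 0, 1, 0, 1, 1, 1, 0, 1, 0, 1, 1, 1, 0, 3] (by decide +kernel)

theorem c_2_11_11 : Triple 2 11 11 :=
  triple_of_cert (by norm_num) (by norm_num) (by norm_num) 984818205923863427753765695672851564 960018605960422546073635253593060815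
    [3, 0, 1, 0, 3, 3, 0, 3, 0, 1, 0, 3, 3, 0, 1, 0, 3, 0, 1, 0, 1, 1]
    [1, 0, 3, 3, 3, 0, 3, 0, 3, 0, 3, 3, 0, 3, 0, 1, 0, 1, 0, 1, 1] (by decide +kernel)

theorem c_2_11_23 : Triple 2 11 23 :=
  triple_of_cert (by norm_num) (by norm_num) (by norm_num) 976907355495675249715004443122055539 965790792382554410066941530978212359
    [1, 0, 3, 0, 1, 0, 3, 0, 3, 3, 3, 3, 0, 1, 1, 0, 1, 1, 1, 1, 0, 3, 0, 3, 3]
    [1, 1, 1, 0, 3, 0, 1, 0, 3, 3, 0, 3, 3, 0, 3, 3, 3, 3, 0, 1, 0, 3] (by decide +kernel)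

theorem c_2_23_23 : Triple 2 23 23 :=
  triple_of_cert (by norm_num) (by norm_num) (by norm_num) 977759248181629214425604038922963552 966424138986650898708237504579028075
    [0, 3, 3, 3, 3, 3, 0, 1, 0, 3, 3, 0, 3, 0, 3, 3, 3, 0, 3, 3, 0, 1, 1]
    [0, 3, 3, 3, 0, 3, 3, 3, 3, 3, 0, 1, 0, 3, 3, 0, 3, 3, 0, 3] (by decide +kernel)

theorem c_3_3_11 : Triple 3 3 11 :=
  triple_of_cert (by norm_num) (by norm_num) (by norm_num) 983949968231539873391259676024716563 983224650224071833850561121017694388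
    [1, 2, 3, 2, 1, 2, 1, 2, 3, 0, 1, 2, 3, 0, 3, 2, 1, 2, 3, 2, 1, 2]
    [0, 1, 2, 1, 2, 1, 2, 3, 2, 1, 0, 1, 2, 3, 0, 3, 2, 1, 0, 1, 2] (by decide +kernel)

theorem c_3_3_23 : Triple 3 3 23 :=
  triple_of_cert (by norm_num) (by norm_num) (by norm_num) 984164677146933948037135595993139604 956057351417796691417391995758650405
    [0, 3, 0, 1, 2, 1, 0, 3, 2, 3, 2, 3, 2, 3, 2, 3, 0, 1, 2, 1]
    [2, 1, 0, 3, 0, 3, 2, 3, 0, 1, 0, 1, 0, 3, 2, 3, 0, 1, 2, 3, 0, 1, 0, 1] (by decide +kernel)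

theorem c_3_5_5 : Triple 3 5 5 :=
  triple_of_cert (by norm_num) (by norm_num) (by norm_num) 965346795814934768315816359304171560 960029330577808494673097985943426336
    [0, 3, 0, 1, 2, 1, 1, 0, 1, 0, 1, 1, 0, 3, 2, 1, 0, 1, 0]
    [2, 1, 1, 0, 1, 1, 1, 2, 1, 0, 3, 3, 2, 1, 1] (by decide +kernel)

theorem c_3_5_7 : Triple 3 5 7 :=
  triple_of_cert (by norm_num) (by norm_num) (by norm_num) 979534223729250671493686585398103499 975266222212085603561238317863884909
    [3, 2, 3, 0, 3, 3, 2, 3, 0, 3, 2, 3, 3, 0, 3, 0, 3]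
    [1, 2, 3, 3, 2, 3, 2, 3, 0, 1, 2, 1, 1, 2, 1, 1] (by decide +kernel)

theorem c_3_5_11 : Triple 3 5 11 :=
  triple_of_cert (by norm_num) (by norm_num) (by norm_num) 960778518122656208576908448379283118 977793034772997522941013363917849703
    [2, 1, 0, 1, 1, 2, 1, 2, 1, 2, 3, 0, 1, 0, 1, 1, 2, 1]
    [0, 3, 2, 1, 1, 0, 3, 0, 1, 1, 2, 3, 2, 1, 0, 1, 1] (by decide +kernel)

theorem c_3_5_23 : Triple 3 5 23 :=
  triple_of_cert (by norm_num) (by norm_num) (by norm_num) 972527099054265161677798007106112081 970152394890925486607076458714633223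
    [2, 3, 3, 2, 1, 0, 1, 2, 3, 3, 2, 3, 0, 1, 2, 1, 2, 1, 0]
    [3, 2, 1, 1, 2, 3, 0, 3, 0, 3, 3, 2, 3, 0, 3, 0, 1, 2] (by decide +kernel)

theorem c_3_7_7 : Triple 3 7 7 :=
  triple_of_cert (by norm_num) (by norm_num) (by norm_num) 961930794379654525869615332609982921 967111069411306481151095111826031315
    [0, 1, 2, 3, 0, 1, 1, 1, 0, 1, 2, 1, 1, 2, 1, 1, 1, 2, 1]
    [1, 0, 1, 1, 2, 1, 1, 2, 3, 3, 0, 1, 1, 1, 2, 3, 0, 3, 3] (by decide +kernel)

theorem c_3_7_11 : Triple 3 7 11 :=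
  triple_of_cert (by norm_num) (by norm_num) (by norm_num) 957353837885787425823394059747887508 970174135441990763906442255428263490
    [1, 0, 1, 0, 3, 2, 1, 0, 1, 1, 0, 3, 0, 3, 3, 3]
    [3, 2, 1, 1, 1, 2, 3, 3, 2, 3, 3, 3, 2, 1, 1, 1, 0] (by decide +kernel)

theorem c_3_7_23 : Triple 3 7 23 :=
  triple_of_cert (by norm_num) (by norm_num) (by norm_num) 984817984024056823005404390041694246 965014491526747907501709023630613154
    [0, 3, 0, 3, 2, 3, 0, 1, 1, 0, 1, 0, 3, 0, 3, 0, 1, 1, 1, 2]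
    [1, 0, 1, 1, 2, 1, 2, 3, 2, 3, 2, 1, 2, 3, 3, 3, 2] (by decide +kernel)

theorem c_3_11_11 : Triple 3 11 11 :=
  triple_of_cert (by norm_num) (by norm_num) (by norm_num) 975245610160561222399490021477417009 975409290029116452058128945649238129
    [2, 3, 0, 3, 2, 1, 2, 3, 3, 0, 1, 0, 1, 0, 3, 2, 3, 0, 3]
    [2, 3, 0, 3, 2, 1, 0, 1, 1, 2, 1, 0, 1, 0, 3, 0] (by decide +kernel)

theorem c_3_11_23 : Triple 3 11 23 :=
  triple_of_cert (by norm_num) (by norm_num) (by norm_num) 961250062977417107761978456866627970 979445723263420656101710467454864661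
    [3, 3, 3, 3, 2, 1, 2, 1, 2, 3, 2, 3, 3, 0, 3, 3, 0]
    [2, 3, 3, 3, 3, 2, 3, 2, 1, 2, 1, 0, 3, 2, 1, 1, 2] (by decide +kernel)

theorem c_3_23_23 : Triple 3 23 23 :=
  triple_of_cert (by norm_num) (by norm_num) (by norm_num) 984811893405311156048079923080103104 959367179597001321500847658228990596
    [3, 3, 3, 0, 1, 1, 0, 3, 2, 3, 0, 1, 1, 0, 3, 2, 1, 1]
    [3, 3, 2, 1, 0, 3, 0, 1, 0, 3, 3, 0, 1, 2, 1] (by decide +kernel)

theorem c_5_5_5 : Triple 5 5 5 :=
  triple_of_cert (by norm_num) (by norm_num) (by norm_num) 971783552372325445524714106864549461 984688448983664761958768327794099491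
    [3, 0, 1, 1, 2, 1, 1, 2, 2, 2, 1, 0, 0, 1, 1, 0]
    [0, 0, 3, 3, 0, 1, 1, 0, 0, 3, 2, 1, 2, 3, 3] (by decide +kernel)

theorem c_5_5_7 : Triple 5 5 7 :=
  triple_of_cert (by norm_num) (by norm_num) (by norm_num) 970273734252437683295831639474984356 984026828385174080688042495171366097
    [2, 1, 0, 1, 1, 2, 1, 2, 2, 1, 1, 0, 3, 0, 1, 0, 0, 1]
    [1, 0, 3, 0, 1, 0, 3, 2, 3, 3, 2, 1, 2, 2, 3, 2] (by decide +kernel)

theorem c_5_5_11 : Triple 5 5 11 :=
  triple_of_cert (by norm_num) (by norm_num) (by norm_num) 957538997427558917984638398658522752 984477227640449210541451904997982770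
    [1, 1, 2, 2, 1, 0, 0, 0, 0, 3, 2, 2, 1, 0, 1, 1]
    [1, 1, 2, 1, 2, 1, 0, 1, 3, 0, 3, 3, 2, 1, 2] (by decide +kernel)

theorem c_5_5_23 : Triple 5 5 23 :=
  triple_of_cert (by norm_num) (by norm_num) (by norm_num) 972669666538749575689356647425227808 959690153396409607250374842745797910
    [0, 0, 3, 3, 0, 1, 2, 1, 2, 2, 1, 1, 2, 2, 1, 2]
    [3, 0, 1, 0, 0, 3, 2, 2, 1, 0, 0, 1, 0, 3, 3, 2] (by decide +kernel)

theorem c_5_7_7 : Triple 5 7 7 :=
  triple_of_cert (by norm_num) (by norm_num) (by norm_num) 978305017959174378629293510432899110 958243775701894429669454674921988751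
    [3, 0, 1, 1, 1, 2, 1, 1, 0, 1, 0, 0, 1, 0, 0, 3, 3]
    [1, 1, 2, 3, 3, 3, 2, 2, 2, 1, 1, 2, 3, 3, 0, 3] (by decide +kernel)

theorem c_5_7_11 : Triple 5 7 11 :=
  triple_of_cert (by norm_num) (by norm_num) (by norm_num) 960825408998047143272029648259273767 977938508633016092566841521277616743
    [2, 3, 0, 0, 1, 1, 2, 2, 3, 2, 1, 1, 0, 0, 3, 0]
    [3, 3, 3, 2, 2, 3, 0, 0, 1, 0, 1, 1, 1, 0, 0, 1] (by decide +kernel)

theorem c_5_7_23 : Triple 5 7 23 :=
  triple_of_cert (by norm_num) (by norm_num) (by norm_num) 962735632006166020601584629289553331 970435519894505643802905580342525313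
    [3, 0, 0, 3, 0, 1, 2, 1, 1, 0, 1, 0, 0, 1, 1, 2, 2]
    [3, 0, 1, 2, 2, 3, 3, 0, 1, 0, 3, 2, 3, 2, 3, 3] (by decide +kernel)

theorem c_5_11_11 : Triple 5 11 11 :=
  triple_of_cert (by norm_num) (by norm_num) (by norm_num) 970174087303173893536551276532830322 969053803605650485977843538518448563
    [1, 0, 1, 2, 3, 0, 1, 2, 3, 3, 2, 2, 1, 0, 1]
    [3, 2, 3, 3, 0, 3, 0, 3, 0, 3, 2, 2, 1, 1, 2] (by decide +kernel)

theorem c_5_11_23 : Triple 5 11 23 :=
  triple_of_cert (by norm_num) (by norm_num) (by norm_num) 984087467102123110043574707723583046 980637141517869134808223581031565876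
    [2, 3, 0, 3, 2, 1, 2, 1, 0, 3, 0, 3, 3, 0, 3]
    [3, 3, 3, 0, 3, 2, 3, 3, 2, 3, 3, 2, 2, 3, 0, 0] (by decide +kernel)

theorem c_5_23_23 : Triple 5 23 23 :=
  triple_of_cert (by norm_num) (by norm_num) (by norm_num) 959464835932162676316269875059753345 978233555418854922331827663794679235
    [2, 1, 2, 3, 3, 2, 2, 3, 3, 3, 2, 1, 2, 3, 0, 3]
    [1, 2, 3, 0, 1, 1, 0, 0, 3, 3, 0, 1, 2, 3, 2] (by decide +kernel)

theorem c_7_7_7 : Triple 7 7 7 :=
  triple_of_cert (by norm_num) (by norm_num) (by norm_num) 958361113684600083139944138274094181 979164224281947146232044529107081845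
    [1, 2, 3, 2, 3, 0, 0, 0, 0, 3, 3, 0, 1, 1]
    [3, 2, 1, 0, 0, 1, 1, 1, 2, 2, 3, 2, 1, 1, 2, 3] (by decide +kernel)

theorem c_7_7_11 : Triple 7 7 11 :=
  triple_of_cert (by norm_num) (by norm_num) (by norm_num) 980553949196392799335202072916559114 968876224112699716411965835219097135
    [2, 2, 3, 0, 3, 0, 0, 0, 3, 2, 2, 3, 0, 0, 1, 2]
    [1, 0, 1, 1, 2, 1, 3, 3, 0, 1, 2, 3, 2] (by decide +kernel)

theorem c_7_7_23 : Triple 7 7 23 :=
  triple_of_cert (by norm_num) (by norm_num) (by norm_num) 984477948342114846316354144043374638 967150724056880950689243722863094375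
    [3, 0, 3, 0, 3, 0, 1, 0, 0, 1, 2, 3, 2, 3]
    [0, 1, 0, 1, 2, 2, 1, 0, 3, 0, 0, 1, 2, 3, 2, 2] (by decide +kernel)

theorem c_7_11_11 : Triple 7 11 11 :=
  triple_of_cert (by norm_num) (by norm_num) (by norm_num) 961023808870119275924301321719939781 970443905129656021472514422580816274
    [3, 3, 3, 0, 3, 2, 1, 0, 0, 1, 2, 1, 1, 2, 2, 2]
    [1, 1, 1, 2, 3, 3, 0, 3, 3, 2, 3, 3, 2, 3, 2, 2] (by decide +kernel)

theorem c_7_11_23 : Triple 7 11 23 :=
  triple_of_cert (by norm_num) (by norm_num) (by norm_num) 963796119719759643405626304901521001 976480614498904235056859345902548434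
    [1, 2, 3, 0, 0, 0, 1, 1, 1, 2, 2, 3, 0, 1, 1, 1]
    [2, 3, 0, 3, 3, 3, 2, 1, 0, 3, 0, 0, 1, 0] (by decide +kernel)

theorem c_7_23_23 : Triple 7 23 23 :=
  triple_of_cert (by norm_num) (by norm_num) (by norm_num) 964514327925483583011094892909211910 966148157507010409194234547004299698
    [0, 1, 0, 0, 3, 0, 1, 2, 2, 0, 1, 0, 3, 0, 3, 0]
    [0, 3, 2, 1, 0, 3, 3, 3, 2, 3, 3, 2, 3, 2, 1, 2] (by decide +kernel)

theorem c_11_11_11 : Triple 11 11 11 :=
  triple_of_cert (by norm_num) (by norm_num) (by norm_num) 958633591435456343279650779955640646 984318017173288046289118996930607636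
    [3, 0, 1, 0, 0, 0, 3, 2, 3, 2, 1, 2, 3, 3, 3, 3]
    [0, 0, 0, 1, 1, 0, 3, 3, 1, 0, 0, 0, 1, 0, 3, 0] (by decide +kernel)

theorem c_11_11_23 : Triple 11 11 23 :=
  triple_of_cert (by norm_num) (by norm_num) (by norm_num) 971658831124471560562470788877684942 972610121599918576164772617211418772
    [0, 1, 1, 0, 3, 2, 2, 1, 3, 0, 1, 1, 0, 3, 2, 2]
    [3, 3, 0, 0, 1, 0, 1, 1, 2, 1, 2, 2, 2, 1, 1, 0] (by decide +kernel)

theorem c_11_23_23 : Triple 11 23 23 :=
  triple_of_cert (by norm_num) (by norm_num) (by norm_num) 957520554615147302311573712408883657 975760240325417997222858928047002945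
    [3, 0, 3, 0, 3, 3, 2, 3, 2, 2, 2, 3, 3, 0]
    [1, 2, 2, 1, 0, 3, 0, 1, 0, 0, 3, 0, 1, 0, 0, 1, 2] (by decide +kernel)

theorem c_23_23_23 : Triple 23 23 23 :=
  triple_of_cert (by norm_num) (by norm_num) (by norm_num) 971501500126760873312358157944836693 955734297680565916029915332082273513
    [0, 3, 2, 3, 0, 1, 1, 0, 0, 0, 1, 1, 2, 1, 1, 2]
    [1, 0, 3, 3, 3, 0, 3, 2, 3, 3, 0, 3, 3] (by decide +kernel)

theorem primes_of_dvd {p : ℕ} (hp : p.Prime) (h : p ∣ 10200960) :
    p = 2 ∨ p = 3 ∨ p = 5 ∨ p = 7 ∨ p = 11 ∨ p = 23 := by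
  have h1 : (10200960 : ℕ) = 2 ^ 7 * 3 ^ 2 * 5 * 7 * 11 * 23 := by norm_num
  rw [h1] at h
  have h2 : ∀ q : ℕ, q.Prime → p ∣ q → p = q := fun q hq hd =>
    (Nat.prime_dvd_prime_iff_eq hp hq).1 hd
  rcases (Nat.Prime.dvd_mul hp).1 h with h | h
  · rcases (Nat.Prime.dvd_mul hp).1 h with h | h
    · rcases (Nat.Prime.dvd_mul hp).1 h with h | h
      · rcases (Nat.Prime.dvd_mul hp).1 h with h | h
        · rcases (Nat.Prime.dvd_mul hp).1 h with h | h
          · exact Or.inl (h2 2 (by norm_num) (hp.dvd_of_dvd_pow h))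
          · exact Or.inr (Or.inl (h2 3 (by norm_num) (hp.dvd_of_dvd_pow h)))
        · exact Or.inr (Or.inr (Or.inl (h2 5 (by norm_num) h)))
      · exact Or.inr (Or.inr (Or.inr (Or.inl (h2 7 (by norm_num) h))))
    · exact Or.inr (Or.inr (Or.inr (Or.inr (Or.inl (h2 11 (by norm_num) h)))))
  · exact Or.inr (Or.inr (Or.inr (Or.inr (Or.inr (h2 23 (by norm_num) h)))))

/-- Generation of the Mathieu group M₂₃ (the stabiliser of a point in the Mathieu group M₂₄ acting on 24 points) by triples of prime orders. Let p ≤ q ≤ r be primes dividing |M₂₃| = 10200960 = 2⁷·3²·5·7·11·23, not both p and q equal to 2. Then M₂₃ contains elements x, y, z of orders p, q, r with xyz = 1 and ⟨x, y⟩ = M₂₃ if and only if (p, q, r) is none of: (2, 3, r) for any r, (2, 5, 5), (2, 5, 7), (3, 3, 3), (3, 3, 5), (3, 3, 7). -/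
theorem result (p q r : ℕ) (hp : p.Prime) (hq : q.Prime)
    (hr : r.Prime) (hpq : p ≤ q) (hqr : q ≤ r) (hp2 : ¬ (p = 2 ∧ q = 2))
    (hdvd : p ∣ 10200960 ∧ q ∣ 10200960 ∧ r ∣ 10200960) :
    (∃ x y z : Cfsg.Spor.M23, orderOf x = p ∧ orderOf y = q ∧ orderOf z = r ∧ x * y * z = 1 ∧
        Subgroup.closure {x, y} = ⊤) ↔
      ¬ ((p = 2 ∧ q = 3) ∨ (p = 2 ∧ q = 5 ∧ r = 5) ∨ (p = 2 ∧ q = 5 ∧ r = 7) ∨ (p = 3 ∧ q = 3 ∧ r ≤ 7)) := by
  have hp' := primes_of_dvd hp hdvd.1
  have hq' := primes_of_dvd hq hdvd.2.1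
  have hr' := primes_of_dvd hr hdvd.2.2
  show Triple p q r ↔ _
  constructor
  · intro ht hbad
    refine no_triple hp' hq' hr' ?_ ht
    rcases hbad with ⟨rfl, rfl⟩ | ⟨rfl, rfl, rfl⟩ | ⟨rfl, rfl, rfl⟩ | ⟨rfl, rfl, hle⟩
    · rcases hr' with rfl | rfl | rfl | rfl | rfl | rfl <;> first | decide | omega
    · decide
    · decide
    · rcases hr' with rfl | rfl | rfl | rfl | rfl | rfl <;> first | decide | omega
  · intro hnot
    rcases hp' with rfl | rfl | rfl | rfl | rfl | rfl <;>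
    rcases hq' with rfl | rfl | rfl | rfl | rfl | rfl <;>
    rcases hr' with rfl | rfl | rfl | rfl | rfl | rfl <;>
    first
    | omega
    | (exfalso; apply hnot; norm_num; done)
    | (exfalso; apply hp2; simp; done)
    | exact c_2_5_11
    | exact c_2_5_23
    | exact c_2_7_7
    | exact c_2_7_11
    | exact c_2_7_23
    | exact c_2_11_11
    | exact c_2_11_23
    | exact c_2_23_23
    | exact c_3_3_11
    | exact c_3_3_23
    | exact c_3_5_5
    | exact c_3_5_7
    | exact c_3_5_11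
    | exact c_3_5_23
    | exact c_3_7_7
    | exact c_3_7_11
    | exact c_3_7_23
    | exact c_3_11_11
    | exact c_3_11_23
    | exact c_3_23_23
    | exact c_5_5_5
    | exact c_5_5_7
    | exact c_5_5_11
    | exact c_5_5_23
    | exact c_5_7_7
    | exact c_5_7_11
    | exact c_5_7_23
    | exact c_5_11_11
    | exact c_5_11_23
    | exact c_5_23_23
    | exact c_7_7_7
    | exact c_7_7_11
    | exact c_7_7_23
    | exact c_7_11_11
    | exact c_7_11_23
    | exact c_7_23_23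
    | exact c_11_11_11
    | exact c_11_11_23
    | exact c_11_23_23
    | exact c_23_23_23

end Cfsg.Agent.S5529
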