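import Cfsg.Statements.S5562
import Mathlib

set_option autoImplicit false
set_option linter.unusedSimpArgs false
open Cfsg

namespace Cfsg.Agent.S5562

private lemma inv_of_order_two {G : Type*} [Group G] {x : G} (hx : orderOf x = 2) : x⁻¹ = x := by
  have : x ^ 2 = 1 := by rw [← hx]; exact pow_orderOf_eq_one x
  rw [inv_eq_iff_mul_eq_one]
  rwa [pow_two] at this

private lemma order_of_conj {G : Type*} [Group G] {a b : G} (h : IsConj a b) : orderOf a = orderOf b := by
  obtain ⟨c, hc⟩ := h
  exact SemiconjBy.orderOf_eq (c : G) hc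

/-- Let G be a finite group, d an involution of G whose conjugates pairwise have products of odd order, and x any involution of G. Then the conjugacy class of d is the disjoint union, over the conjugates a of d commuting with x, of the sets of conjugates of d commuting with ax: every conjugate of d commutes with ax for exactly one conjugate a of d that commutes with x. -/
theorem result {G : Type*} [Group G] [Finite G] (d : G) (hd : orderOf d = 2)
    (hodd : ∀ a ∈ conjugatesOf d, ∀ b ∈ conjugatesOf d, Odd (orderOf (a * b)))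
    (x : G) (hx : orderOf x = 2) :
    ∀ e ∈ conjugatesOf d,
      ∃! a : G, a ∈ conjugatesOf d ∧ Commute a x ∧ Commute e (a * x) := by
  intro e he
  have heconj : IsConj d e := he
  have ie : e⁻¹ = e := inv_of_order_two (by rw [← order_of_conj heconj]; exact hd)
  have ix : x⁻¹ = x := inv_of_order_two hx
  have ee : e * e = 1 := by
    have := mul_inv_cancel e; rwa [ie] at this
  have xx : x * x = 1 := by
    have := mul_inv_cancel x; rwa [ix] at this
  have ee' : ∀ z, e * (e * z) = z := fun z => by rw [← mul_assoc, ee, one_mul]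
  have xx' : ∀ z, x * (x * z) = z := fun z => by rw [← mul_assoc, xx, one_mul]
  -- the conjugate y and the odd element ρ
  set y : G := x * e * x with hy
  have hyconj : y ∈ conjugatesOf d := by
    have : IsConj e y := isConj_iff.2 ⟨x, by rw [hy, ix]⟩
    exact heconj.trans this
  set ρ : G := e * y with hρ
  have hρ' : ρ = e * (x * (e * x)) := by rw [hρ, hy]; simp only [mul_assoc]
  have hρinv : ρ⁻¹ = x * (e * (x * e)) := by
    rw [hρ']; simp only [mul_inv_rev, ie, ix, mul_assoc]
  have hm : Odd (orderOf ρ) := hodd e he y hyconj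
  have hρm : ρ ^ (orderOf ρ) = 1 := pow_orderOf_eq_one ρ
  obtain ⟨k₀, hk₀⟩ := hm
  obtain ⟨k, hk⟩ : ∃ k, k = k₀ + 1 := ⟨_, rfl⟩
  have h2k : 2 * k = orderOf ρ + 1 := by omega
  set τ : G := ρ ^ k with hτ
  have hττ : τ * τ = ρ := by
    rw [hτ, ← pow_add, show k + k = 2 * k by ring, h2k, pow_succ, hρm, one_mul]
  have heρ : e * ρ * e⁻¹ = ρ⁻¹ := by
    rw [hρinv, hρ', ie]; simp only [mul_assoc, ee', xx', xx, ee, mul_one]
  have hxρ : x * ρ * x⁻¹ = ρ⁻¹ := by
    rw [hρinv, hρ', ix]; simp only [mul_assoc, ee', xx', xx, ee, mul_one]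
  have heτ : e * τ * e⁻¹ = τ⁻¹ := by
    rw [hτ, ← conj_pow, heρ, inv_pow]
  have hxτ : x * τ * x⁻¹ = τ⁻¹ := by
    rw [hτ, ← conj_pow, hxρ, inv_pow]
  have hτm : τ ^ (orderOf ρ) = 1 := by
    rw [hτ, ← pow_mul, mul_comm, pow_mul, hρm, one_pow]
  set σ : G := τ ^ k with hσ
  have hσσ : σ * σ = τ := by
    rw [hσ, ← pow_add, show k + k = 2 * k by ring, h2k, pow_succ, hτm, one_mul]
  have heσ : e * σ * e⁻¹ = σ⁻¹ := by
    rw [hσ, ← conj_pow, heτ, inv_pow]
  -- the element a
  have haconj : e * τ ∈ conjugatesOf d := by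
    have : IsConj e (e * τ) := by
      refine isConj_iff.2 ⟨σ⁻¹, ?_⟩
      rw [← hσσ, inv_inv]
      have h1 : σ⁻¹ = e * σ * e⁻¹ := heσ.symm
      calc σ⁻¹ * e * σ = (e * σ * e⁻¹) * e * σ := by rw [← h1]
        _ = e * (σ * σ) := by group
    exact heconj.trans this
  have hτx : τ * x = x * τ⁻¹ := by
    calc τ * x = x * (x * τ * x⁻¹) := by rw [ix]; simp only [mul_assoc, xx', xx, mul_one]
      _ = x * τ⁻¹ := by rw [hxτ]
  have hτe : τ * e = e * τ⁻¹ := by
    calc τ * e = e * (e * τ * e⁻¹) := by rw [ie]; simp only [mul_assoc, ee', ee, mul_one]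
      _ = e * τ⁻¹ := by rw [heτ]
  have hax : Commute (e * τ) x := by
    show e * τ * x = x * (e * τ)
    have h1 : e * x = x * (e * ρ) := by
      rw [hρ']; simp only [mul_assoc, ee', xx']
    calc e * τ * x = e * (τ * x) := by rw [mul_assoc]
      _ = e * (x * τ⁻¹) := by rw [hτx]
      _ = (e * x) * τ⁻¹ := by rw [mul_assoc]
      _ = (x * (e * ρ)) * τ⁻¹ := by rw [h1]
      _ = x * (e * (τ * τ)) * τ⁻¹ := by rw [hττ]
      _ = x * (e * τ) := by group
  have hyeq : e * ρ = y := by rw [hρ, ← mul_assoc, ee, one_mul]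
  have hay : e * τ * y = e * (e * τ) := by
    rw [← hyeq, ← hττ]
    calc e * τ * (e * (τ * τ)) = e * (τ * e) * (τ * τ) := by simp only [mul_assoc]
      _ = e * (e * τ⁻¹) * (τ * τ) := by rw [hτe]
      _ = τ⁻¹ * (τ * τ) := by rw [ee']
      _ = τ := by group
      _ = e * (e * τ) := by rw [ee']
  have hxe : x * e = y * x := by
    rw [hy]; simp only [mul_assoc, xx, mul_one]
  refine ⟨e * τ, ⟨haconj, hax, ?_⟩, ?_⟩
  · show e * (e * τ * x) = e * τ * x * e
    calc e * (e * τ * x) = (e * (e * τ)) * x := by simp only [mul_assoc]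
      _ = (e * τ * y) * x := by rw [hay]
      _ = e * τ * (y * x) := by simp only [mul_assoc]
      _ = e * τ * (x * e) := by rw [hxe]
      _ = e * τ * x * e := by simp only [mul_assoc]
  · rintro a' ⟨ha'conj, ha'x, ha'e⟩
    have ha'conj' : IsConj d a' := ha'conj
    have ia' : a'⁻¹ = a' := inv_of_order_two (by rw [← order_of_conj ha'conj']; exact hd)
    have a'a' : a' * a' = 1 := by
      have := mul_inv_cancel a'; rwa [ia'] at this
    have h1 : e * a' = a' * y := by
      have h := ha'e
      have h' : e * (a' * x) = a' * x * e := h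
      calc e * a' = e * (a' * x) * x := by simp only [mul_assoc, xx, mul_one]
        _ = a' * x * e * x := by rw [h']
        _ = a' * y := by rw [hy]; simp only [mul_assoc]
    have h2 : ρ = (e * a') * (e * a') := by
      rw [hρ]
      have : y = a' * (e * a') := by
        rw [h1]; simp only [← mul_assoc, a'a', one_mul]
      rw [this]; simp only [mul_assoc]
    set w := e * a' with hw
    have hwodd : Odd (orderOf w) := hodd e he a' ha'conj
    have hρw : orderOf ρ = orderOf w := by
      rw [h2, ← pow_two]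
      have hc : Nat.Coprime (orderOf w) 2 := hwodd.coprime_two_right
      exact hc.orderOf_pow
    have hwτ : τ = w := by
      rw [hτ, h2, ← pow_two, ← pow_mul, h2k, hρw, pow_succ, pow_orderOf_eq_one, one_mul]
    have : a' = e * w := by rw [hw, ee']
    rw [this, hwτ]

end Cfsg.Agent.S5562
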