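import Cfsg.Statements.S5713
import Cfsg.Agent.Lib.H19.Babai

set_option autoImplicit false
open Cfsg

namespace Cfsg.Agent.S5713

/-- A classification-free minimal-degree bound. Let G be a finite group acting faithfully and primitively on a finite set Ω with n elements, and suppose that the image of G in the symmetric group on Ω does not contain the alternating group on Ω. Then every non-identity element of G moves at least (√n − 1)/2 points of Ω, that is, it fixes at most n − (√n − 1)/2 points. -/
theorem result {G Ω : Type*} [Group G] [Finite G] [MulAction G Ω] [FaithfulSMul G Ω] [Fintype Ω] [DecidableEq Ω]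
    (hprim : MulAction.IsPreprimitive G Ω)
    (hA : ¬ alternatingGroup Ω ≤ (MulAction.toPermHom G Ω).range)
    (g : G) (hg : g ≠ 1) :
    (Real.sqrt (Fintype.card Ω) - 1) / 2 ≤ (Fintype.card Ω : ℝ) - Nat.card (MulAction.fixedBy Ω g) := by
  
  classical
  obtain ⟨α, hα⟩ : ∃ α : Ω, g • α ≠ α := by
    by_contra h
    push Not at h
    exact hg (FaithfulSMul.eq_of_smul_eq_smul (α := Ω) (by simpa using h))
  have h1 := Cfsg.Agent.H19.Babai.main_bound hprim (by convert hA) g α hα
  set m := (Cfsg.Agent.H19.Babai.moved g : Finset Ω).card with hm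
  have hfix : Nat.card (MulAction.fixedBy Ω g) + m = Fintype.card Ω := by
    have h2 : Nat.card (MulAction.fixedBy Ω g) = (Finset.univ.filter (fun z : Ω => g • z = z)).card := by
      rw [Nat.card_eq_fintype_card]
      exact Fintype.card_of_subtype _ (by simp)
    rw [h2, hm]
    unfold Cfsg.Agent.H19.Babai.moved
    have h3 := Finset.card_filter_add_card_filter_not (s := (Finset.univ : Finset Ω)) (fun z : Ω => g • z = z)
    rw [Finset.card_univ] at h3
    rw [← h3]
    congr 2
    ext z
    simp
  have h4 : Real.sqrt (Fintype.card Ω) ≤ 2 * (m : ℝ) + 1 := by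
    apply Real.sqrt_le_iff.2
    refine ⟨by positivity, ?_⟩
    exact_mod_cast h1
  have h5 : (Fintype.card Ω : ℝ) - Nat.card (MulAction.fixedBy Ω g) = m := by
    rw [← hfix]
    push_cast
    ring
  rw [h5]
  linarith

end Cfsg.Agent.S5713
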