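import Cfsg.Statements.S5729

set_option autoImplicit false
open Cfsg

namespace Cfsg.Agent.S5729



/-- Let a finite group G act faithfully and transitively on a set with n ≥ 3 points. Then either G is a Frobenius permutation group (Frobenius as a permutation group: transitive, some non-identity element fixes a point, and no non-identity element fixes two points) of order n(n − 1) and exactly |G|/n of its elements are derangements (fix no point), or the number of derangements is greater than |G|/n. -/
theorem result {G Ω : Type*} [Group G] [Finite G] [MulAction G Ω] [FaithfulSMul G Ω] [Fintype Ω] (htr : MulAction.IsPretransitive G Ω) (hn : 3 ≤ Fintype.card Ω) :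
    ((MulAction.IsPretransitive G Ω ∧ (∃ g : G, g ≠ 1 ∧ ∃ ω : Ω, g • ω = ω) ∧ ∀ g : G, g ≠ 1 → Nat.card (MulAction.fixedBy Ω g) ≤ 1) ∧ Nat.card G = Fintype.card Ω * (Fintype.card Ω - 1) ∧ Fintype.card Ω * Nat.card {g : G // ∀ ω : Ω, g • ω ≠ ω} = Nat.card G) ∨
    Nat.card G < Fintype.card Ω * Nat.card {g : G // ∀ ω : Ω, g • ω ≠ ω} := by
  classical
  have := Fintype.ofFinite G
  set n := Fintype.card Ω with hn'
  let π : G → ℕ := fun g => Fintype.card (MulAction.fixedBy Ω g)
  let Qu := MulAction.orbitRel.Quotient G Ω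
  let Qu2 := MulAction.orbitRel.Quotient G (Ω × Ω)
  have hS1 : ∑ g : G, π g = Fintype.card G := by
    have := MulAction.sum_card_fixedBy_eq_card_orbits_mul_card_group G Ω
    have h1 : Fintype.card (MulAction.orbitRel.Quotient G Ω) = 1 := by
      rw [Fintype.card_eq_one_iff]
      have hne : Nonempty Ω := by
        apply Fintype.card_pos_iff.mp
        omega
      obtain ⟨a⟩ := hne
      refine ⟨Quotient.mk'' a, ?_⟩
      intro q
      induction q using Quotient.inductionOn' with
      | h b =>
        apply Quotient.sound'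
        rw [MulAction.orbitRel_apply]
        exact MulAction.exists_smul_eq G a b |>.imp fun g h => h
    rw [h1, one_mul] at this
    exact this
  have hpair : ∀ g : G, Fintype.card (MulAction.fixedBy (Ω × Ω) g) = π g * π g := by
    intro g
    have e : (MulAction.fixedBy (Ω × Ω) g) ≃ (MulAction.fixedBy Ω g) × (MulAction.fixedBy Ω g) :=
      { toFun := fun p => (⟨p.1.1, by
            have := p.2
            rw [MulAction.mem_fixedBy, Prod.ext_iff] at this
            exact this.1⟩, ⟨p.1.2, by
            have := p.2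
            rw [MulAction.mem_fixedBy, Prod.ext_iff] at this
            exact this.2⟩)
        invFun := fun p => ⟨(p.1.1, p.2.1), by
            rw [MulAction.mem_fixedBy, Prod.ext_iff]
            exact ⟨p.1.2, p.2.2⟩⟩
        left_inv := fun p => by simp
        right_inv := fun p => by simp }
    rw [Fintype.card_congr e, Fintype.card_prod]
  have hS2 : ∑ g : G, π g * π g = Fintype.card Qu2 * Fintype.card G := by
    have := MulAction.sum_card_fixedBy_eq_card_orbits_mul_card_group G (Ω × Ω)
    rw [← this]
    exact Finset.sum_congr rfl (fun g _ => (hpair g).symm)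
  have hmk : ∀ x y : Ω × Ω, (Quotient.mk'' x : Qu2) = Quotient.mk'' y ↔ ∃ g : G, g • y = x := by
    intro x y
    rw [Quotient.eq'', MulAction.orbitRel_apply]
    simp [MulAction.mem_orbit_iff]
  obtain ⟨a, b, c, hab, hac, hbc⟩ : ∃ a b c : Ω, a ≠ b ∧ a ≠ c ∧ b ≠ c :=
    Fintype.two_lt_card_iff.mp (by omega)
  have hdiag : ∀ (x y z : Ω), y ≠ z → (Quotient.mk'' (x, x) : Qu2) ≠ Quotient.mk'' (y, z) := by
    intro x y z hyz h
    obtain ⟨g, hg⟩ := (hmk _ _).mp h
    rw [Prod.ext_iff] at hg
    simp only [Prod.smul_fst, Prod.smul_snd] at hg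
    exact hyz (smul_left_cancel g (hg.1.trans hg.2.symm))
  have hr2 : 2 ≤ Fintype.card Qu2 := by
    have : 1 < Fintype.card Qu2 := Fintype.one_lt_card_iff.mpr ⟨_, _, hdiag a a b hab⟩
    omega
  have hGpos : 0 < Fintype.card G := Fintype.card_pos
  -- the main inequality
  let A : G → ℤ := fun g => ((π g : ℤ) - 1) * ((π g : ℤ) - n)
  let Bd : G → ℤ := fun g => if π g = 0 then (n : ℤ) else 0
  have hπle : ∀ g, π g ≤ n := by
    intro g
    exact Fintype.card_subtype_le _
  have hAB : ∀ g ∈ (Finset.univ : Finset G), A g ≤ Bd g := by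
    intro g _
    simp only [A, Bd]
    split_ifs with h
    · rw [h]; simp
    · have h1 : (1 : ℤ) ≤ π g := by exact_mod_cast Nat.one_le_iff_ne_zero.mpr h
      have h2 : (π g : ℤ) ≤ n := by exact_mod_cast hπle g
      nlinarith
  have hSA : ∑ g : G, A g = ((Fintype.card Qu2 : ℤ) - 1) * Fintype.card G := by
    have h1 : ∀ g, A g = (π g : ℤ) * π g - (n + 1) * π g + n := by
      intro g; simp only [A]; ring
    simp only [h1, Finset.sum_sub_distrib, Finset.sum_add_distrib, ← Finset.mul_sum,
      Finset.sum_const, Finset.card_univ]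
    have h2 : (∑ g : G, (π g : ℤ) * π g) = (Fintype.card Qu2 : ℤ) * Fintype.card G := by
      exact_mod_cast hS2
    have h3 : (∑ g : G, (π g : ℤ)) = Fintype.card G := by
      exact_mod_cast hS1
    rw [h2, h3]
    simp only [nsmul_eq_mul]
    ring
  have hD : Nat.card {g : G // ∀ ω : Ω, g • ω ≠ ω} =
      (Finset.univ.filter (fun g : G => π g = 0)).card := by
    rw [Nat.card_eq_fintype_card, Fintype.card_subtype]
    congr 1
    ext g
    simp only [Finset.mem_filter, Finset.mem_univ, true_and, π]
    rw [Fintype.card_eq_zero_iff]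
    constructor
    · intro h
      exact ⟨fun x => h x.1 x.2⟩
    · intro h ω hω
      exact h.false ⟨ω, hω⟩
  have hSB : ∑ g : G, Bd g = n * Nat.card {g : G // ∀ ω : Ω, g • ω ≠ ω} := by
    rw [hD]
    simp only [Bd]
    rw [Finset.sum_ite, Finset.sum_const_zero, add_zero, Finset.sum_const, nsmul_eq_mul]
    ring
  have hle := Finset.sum_le_sum hAB
  rw [hSA, hSB] at hle
  by_cases hlt : Nat.card G < n * Nat.card {g : G // ∀ ω : Ω, g • ω ≠ ω}
  · exact Or.inr hlt
  left
  rw [Nat.card_eq_fintype_card] at hlt
  have hGz : (0 : ℤ) < Fintype.card G := by exact_mod_cast hGpos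
  have hr2z : (2 : ℤ) ≤ Fintype.card Qu2 := by exact_mod_cast hr2
  have hlt' : ((n * Nat.card {g : G // ∀ ω : Ω, g • ω ≠ ω} : ℕ) : ℤ) ≤ Fintype.card G := by
    exact_mod_cast not_lt.mp hlt
  push_cast at hlt'
  have hr : (Fintype.card Qu2 : ℤ) = 2 := by
    by_contra hne
    have h3 : (3 : ℤ) ≤ Fintype.card Qu2 := by omega
    nlinarith
  have hcardeq : (n : ℤ) * Nat.card {g : G // ∀ ω : Ω, g • ω ≠ ω} = Fintype.card G := by
    rw [hr] at hle
    linarith
  have hsumeq : ∑ g : G, A g = ∑ g : G, Bd g := by
    rw [hSA, hSB, hr, hcardeq]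
    ring
  have hpt := (Finset.sum_eq_sum_iff_of_le hAB).mp hsumeq
  have hone : ∀ g : G, g ≠ 1 → π g ≤ 1 := by
    intro g hg
    by_contra hc
    have hc' : 2 ≤ π g := by omega
    have h0 : π g ≠ 0 := by omega
    have := hpt g (Finset.mem_univ _)
    simp only [A, Bd, h0, if_false] at this
    have h1 : (π g : ℤ) - 1 ≠ 0 := by
      have : (2 : ℤ) ≤ π g := by exact_mod_cast hc'
      omega
    have h2 : (π g : ℤ) - n = 0 := by
      rcases mul_eq_zero.mp this with h | h
      · exact absurd h h1
      · exact h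
    have h3 : π g = n := by omega
    apply hg
    have hall : ∀ ω : Ω, g • ω = ω := by
      intro ω
      have : Fintype.card (MulAction.fixedBy Ω g) = Fintype.card Ω := h3
      rw [Fintype.card_subtype] at this
      have h4 := Finset.filter_card_eq this ω (Finset.mem_univ _)
      exact h4
    apply FaithfulSMul.eq_of_smul_eq_smul (α := Ω)
    intro ω
    rw [hall ω, one_smul]
  have h2tr : ∀ a b c d : Ω, a ≠ b → c ≠ d → ∃ g : G, g • c = a ∧ g • d = b := by
    intro a' b' c' d' hab' hcd'
    have hq : (Quotient.mk'' (a', b') : Qu2) = Quotient.mk'' (c', d') := by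
      by_contra hne
      have : 2 < Fintype.card Qu2 := Fintype.two_lt_card_iff.mpr
        ⟨Quotient.mk'' (a', a'), Quotient.mk'' (a', b'), Quotient.mk'' (c', d'),
          hdiag _ _ _ hab', hdiag _ _ _ hcd', hne⟩
      have h' : (2 : ℤ) < Fintype.card Qu2 := by exact_mod_cast this
      omega
    obtain ⟨g, hg⟩ := (hmk _ _).mp hq
    rw [Prod.ext_iff] at hg
    exact ⟨g, hg.1, hg.2⟩
  refine ⟨⟨htr, ?_, ?_⟩, ?_, ?_⟩
  · obtain ⟨g, h1, h2⟩ := h2tr a c a b hac hab
    refine ⟨g, ?_, a, h1⟩
    rintro rfl
    rw [one_smul] at h2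
    exact hbc h2
  · intro g hg
    rw [Nat.card_eq_fintype_card]
    exact hone g hg
  · -- |G| = n (n-1)
    let φ : G → {p : Ω × Ω // p.1 ≠ p.2} := fun g => ⟨(g • a, g • b), by
      intro h
      exact hab (smul_left_cancel g h)⟩
    have hbij : Function.Bijective φ := by
      constructor
      · intro g g' hgg
        have h1 : g • a = g' • a := congrArg (fun p => p.1.1) hgg
        have h2 : g • b = g' • b := congrArg (fun p => p.1.2) hgg
        by_contra hne
        have hne' : g'⁻¹ * g ≠ 1 := by
          intro h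
          exact hne (inv_mul_eq_one.mp h).symm
        have h3 := hone _ hne'
        have h4 : 1 < π (g'⁻¹ * g) := by
          apply Fintype.one_lt_card_iff.mpr
          refine ⟨⟨a, ?_⟩, ⟨b, ?_⟩, ?_⟩
          · rw [MulAction.mem_fixedBy, mul_smul, h1, inv_smul_smul]
          · rw [MulAction.mem_fixedBy, mul_smul, h2, inv_smul_smul]
          · intro h
            exact hab (congrArg Subtype.val h)
        omega
      · rintro ⟨⟨c', d'⟩, hcd⟩
        obtain ⟨g, h1, h2⟩ := h2tr c' d' a b hcd hab
        exact ⟨g, Subtype.ext (Prod.ext h1 h2)⟩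
    rw [Nat.card_eq_fintype_card, Fintype.card_of_bijective hbij]
    have : Fintype.card {p : Ω × Ω // p.1 ≠ p.2} = (Finset.univ : Finset Ω).offDiag.card := by
      rw [Fintype.card_subtype]
      congr 1
      ext p
      simp
    rw [this, Finset.offDiag_card, Finset.card_univ, ← hn']
    have : 1 ≤ n := by omega
    cases n with
    | zero => omega
    | succ m => simp; ring_nf; omega
  · rw [Nat.card_eq_fintype_card (α := G)]
    exact_mod_cast hcardeq

end Cfsg.Agent.S5729
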