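import Cfsg.Statements.S5747

set_option autoImplicit false
open Cfsg

namespace Cfsg.Agent.S5747


section ibis

variable {G Ω : Type*} [Group G] [MulAction G Ω]

/-- pointwise stabiliser trivial -/
def Bs (G : Type*) [Group G] {Ω : Type*} [MulAction G Ω] (S : Set Ω) : Prop :=
  ∀ g : G, (∀ x ∈ S, g • x = x) → g = 1

/-- irredundant tuples -/
def Irr (G : Type*) [Group G] {Ω : Type*} [MulAction G Ω] {t : ℕ} (f : Fin t → Ω) : Prop :=
  ∀ i : Fin t, ∃ g : G, (∀ j : Fin t, j < i → g • f j = f j) ∧ g • f i ≠ f i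

/-- independence of a set -/
def Ind (G : Type*) [Group G] {Ω : Type*} [MulAction G Ω] (S : Set Ω) : Prop :=
  ∀ x ∈ S, ∃ g : G, (∀ y ∈ S, y ≠ x → g • y = y) ∧ g • x ≠ x

theorem Irr.injective {t : ℕ} {f : Fin t → Ω} (h : Irr G f) : Function.Injective f := by
  intro i j hij
  by_contra hne
  rcases lt_or_gt_of_ne hne with hlt | hlt
  · obtain ⟨g, h1, h2⟩ := h j
    exact h2 (by rw [← hij]; exact h1 i hlt)
  · obtain ⟨g, h1, h2⟩ := h i
    exact h2 (by rw [hij]; exact h1 j hlt)

theorem Irr.snoc {t : ℕ} {p : Fin t → Ω} {a : Ω} (hp : Irr G p)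
    (ha : ∃ g : G, (∀ j, g • p j = p j) ∧ g • a ≠ a) :
    Irr G (Fin.snoc (α := fun _ => Ω) p a) := by
  intro i
  induction i using Fin.lastCases with
  | last =>
    obtain ⟨g, h1, h2⟩ := ha
    refine ⟨g, ?_, by simpa using h2⟩
    intro j _
    induction j using Fin.lastCases with
    | last => exact absurd ‹_› (lt_irrefl _)
    | cast j => simpa using h1 j
  | cast i =>
    obtain ⟨g, h1, h2⟩ := hp i
    refine ⟨g, ?_, by simpa using h2⟩
    intro j hj
    induction j using Fin.lastCases with
    | last =>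
      exact absurd hj (not_lt.mpr (Fin.le_last _))
    | cast j =>
      simpa using h1 j (by simpa using hj)

theorem bs_range_snoc {t : ℕ} {p : Fin t → Ω} {a : Ω} (g : G) :
    (∀ i, g • (Fin.snoc (α := fun _ => Ω) p a : Fin (t + 1) → Ω) i =
      (Fin.snoc (α := fun _ => Ω) p a : Fin (t + 1) → Ω) i) ↔
    (∀ j, g • p j = p j) ∧ g • a = a := by
  rw [Fin.forall_fin_succ']
  simp

/-- enumeration of a finset is irredundant when the finset is independent -/
theorem irr_enum [DecidableEq Ω] {T : Finset Ω} (h : Ind G (T : Set Ω)) :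
    Irr G (fun i : Fin T.card => (T.equivFin.symm i : Ω)) := by
  intro i
  obtain ⟨g, h1, h2⟩ := h _ (T.equivFin.symm i).2
  refine ⟨g, ?_, h2⟩
  intro j hj
  apply h1 _ (T.equivFin.symm j).2
  intro he
  have : T.equivFin.symm j = T.equivFin.symm i := Subtype.ext he
  exact absurd (T.equivFin.symm.injective this) (ne_of_lt hj)

theorem mem_enum [DecidableEq Ω] {T : Finset Ω} {x : Ω} :
    x ∈ T ↔ ∃ i : Fin T.card, (T.equivFin.symm i : Ω) = x := by
  constructor
  · intro hx
    exact ⟨T.equivFin ⟨x, hx⟩, by simp⟩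
  · rintro ⟨i, rfl⟩
    exact (T.equivFin.symm i).2

/-- every base contains an independent base -/
theorem exists_ind_base [DecidableEq Ω] (S : Finset Ω) (hS : Bs G (S : Set Ω)) :
    ∃ S₀ ⊆ S, Bs G (S₀ : Set Ω) ∧ Ind G (S₀ : Set Ω) := by
  induction S using Finset.strongInduction with
  | H S ih =>
    by_cases hI : Ind G (S : Set Ω)
    · exact ⟨S, subset_rfl, hS, hI⟩
    · simp only [Ind, not_forall, not_exists, not_and] at hI
      obtain ⟨x, hx, hI⟩ := hI
      have hB : Bs G ((S.erase x : Finset Ω) : Set Ω) := by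
        intro g hg
        apply hS g
        intro y hy
        by_cases hyx : y = x
        · subst hyx
          by_contra hc
          have : ¬ (∀ z ∈ (S : Set Ω), z ≠ y → g • z = z) := by
            intro h'
            exact (not_not.mp (hI g h' |> not_not.mpr |> fun h => fun hh => hh h)) |> fun _ =>
              hc (by simpa using hI g h')
          apply this
          intro z hz hzy
          exact hg z (by simp [hzy]; exact hz)
        · exact hg y (by simp [hyx]; exact hy)
      obtain ⟨S₀, hsub, h1, h2⟩ := ih (S.erase x) (Finset.erase_ssubset (by simpa using hx)) hB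
      exact ⟨S₀, hsub.trans (Finset.erase_subset _ _), h1, h2⟩


/-- under the reordering hypothesis, the image of an irredundant base is independent -/
theorem ind_image [DecidableEq Ω]
    (hre : ∀ (t : ℕ) (f : Fin t → Ω) (σ : Equiv.Perm (Fin t)),
      (Bs G (Set.range f) ∧ Irr G f) → (Bs G (Set.range (f ∘ σ)) ∧ Irr G (f ∘ σ)))
    {t : ℕ} {f : Fin t → Ω} (h : Bs G (Set.range f) ∧ Irr G f) : Ind G (Set.range f) := by
  rintro x ⟨i, rfl⟩
  have hpos : 0 < t := i.pos
  obtain ⟨n, rfl⟩ : ∃ n, t = n + 1 := ⟨t - 1, by omega⟩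
  have h2 := (hre _ f (Equiv.swap i (Fin.last n)) h).2 (Fin.last n)
  obtain ⟨g, h3, h4⟩ := h2
  refine ⟨g, ?_, by simpa using h4⟩
  rintro y ⟨k, rfl⟩ hne
  have hk : k ≠ i := fun e => hne (by rw [e])
  have hlt : (Equiv.swap i (Fin.last n)) k < Fin.last n := by
    apply lt_of_le_of_ne (Fin.le_last _)
    intro he
    have h5 : (Equiv.swap i (Fin.last n)) ((Equiv.swap i (Fin.last n)) k) = k :=
      Equiv.swap_apply_self _ _ _
    rw [he, Equiv.swap_apply_right] at h5
    exact hk h5.symm
  have := h3 _ hlt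
  simpa using this

theorem ind_coe_image [DecidableEq Ω] {t : ℕ} {f : Fin t → Ω}
    (h : Ind G (Set.range f)) : Ind G ((Finset.univ.image f : Finset Ω) : Set Ω) := by
  simpa using h

theorem exchange [DecidableEq Ω]
    (hre : ∀ (t : ℕ) (f : Fin t → Ω) (σ : Equiv.Perm (Fin t)),
      (Bs G (Set.range f) ∧ Irr G f) → (Bs G (Set.range (f ∘ σ)) ∧ Irr G (f ∘ σ)))
    {S S' : Finset Ω} (hS : Bs G (S : Set Ω)) (hI : Ind G (S : Set Ω))
    (hS' : Bs G (S' : Set Ω)) {x : Ω} (hx : x ∈ S) (hx' : x ∉ S') :
    ∃ y ∈ S', y ∉ S ∧ Bs G ((insert y (S.erase x) : Finset Ω) : Set Ω) ∧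
      Ind G ((insert y (S.erase x) : Finset Ω) : Set Ω) := by
  classical
  obtain ⟨h, hfix, hmove⟩ := hI x hx
  have hne : h ≠ 1 := by
    rintro rfl
    exact hmove (one_smul _ _)
  have : ∃ y ∈ S', h • y ≠ y := by
    by_contra hc
    push Not at hc
    exact hne (hS' h (by simpa using hc))
  obtain ⟨y, hy, hyh⟩ := this
  have hyS : y ∉ S := by
    intro hyS
    have hyx : y ≠ x := fun e => hx' (e ▸ hy)
    exact hyh (hfix y (by simpa using hyS) hyx)
  have hIe : Ind G ((S.erase x : Finset Ω) : Set Ω) := by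
    intro z hz
    have hz' : z ∈ S := Finset.mem_of_mem_erase (Finset.mem_coe.mp hz)
    obtain ⟨g, h1, h2⟩ := hI z hz'
    refine ⟨g, ?_, h2⟩
    intro w hw hwz
    exact h1 w (Finset.mem_of_mem_erase (Finset.mem_coe.mp hw)) hwz
  set e := fun i : Fin (S.erase x).card => (((S.erase x).equivFin.symm i : _) : Ω) with he
  have he1 : ∀ w, w ∈ S.erase x ↔ ∃ i, e i = w := fun w => mem_enum
  have hirr : Irr G e := irr_enum hIe
  have hey : ∀ j, h • e j = e j := by
    intro j
    have hj : e j ∈ S.erase x := (he1 _).mpr ⟨j, rfl⟩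
    exact hfix _ (Finset.mem_of_mem_erase hj) (Finset.ne_of_mem_erase hj)
  have hirr2 : Irr G (Fin.snoc (α := fun _ => Ω) e y) := hirr.snoc ⟨h, hey, hyh⟩
  have hrange : ∀ p : Ω, p ∈ Set.range (Fin.snoc (α := fun _ => Ω) e y : Fin _ → Ω) ↔
      p = y ∨ p ∈ S.erase x := by
    intro p
    constructor
    · rintro ⟨i, rfl⟩
      induction i using Fin.lastCases with
      | last => left; simp
      | cast i => right; simpa using (he1 _).mpr ⟨i, rfl⟩
    · rintro (rfl | hp)
      · exact ⟨Fin.last _, by simp⟩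
      · obtain ⟨i, rfl⟩ := (he1 _).mp hp
        exact ⟨i.castSucc, by simp⟩
  have hB1 : Bs G ((insert y (S.erase x) : Finset Ω) : Set Ω) := by
    intro g hg
    by_contra hg1
    -- the tuple `e, y, x` is an irredundant base
    have hgS : g • x ≠ x := by
      intro hgx
      apply hg1
      apply hS g
      intro z hz
      by_cases hzx : z = x
      · rw [hzx]; exact hgx
      · exact hg z (by simp [hzx]; right; exact hz)
    have hirr3 : Irr G (Fin.snoc (α := fun _ => Ω) (Fin.snoc (α := fun _ => Ω) e y) x) := by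
      apply hirr2.snoc
      refine ⟨g, ?_, hgS⟩
      intro j
      apply hg
      have := (hrange _).mp ⟨j, rfl⟩
      rcases this with h1 | h1
      · simp [h1]
      · simp only [Finset.coe_insert, Set.mem_insert_iff, Finset.mem_coe]
        right; exact h1
    have hrange3 : ∀ p : Ω, p ∈ Set.range (Fin.snoc (α := fun _ => Ω)
        (Fin.snoc (α := fun _ => Ω) e y : Fin _ → Ω) x : Fin _ → Ω) ↔ p = y ∨ p ∈ S := by
      intro p
      constructor
      · rintro ⟨i, rfl⟩
        induction i using Fin.lastCases with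
        | last => right; simpa using hx
        | cast i =>
          have := (hrange _).mp ⟨i, rfl⟩
          rcases this with h1 | h1
          · left; simpa using h1
          · right
            simpa using Finset.mem_of_mem_erase h1
      · rintro (rfl | hp)
        · obtain ⟨i, hi⟩ := (hrange _).mpr (Or.inl rfl)
          exact ⟨i.castSucc, by simpa using hi⟩
        · by_cases hpx : p = x
          · exact ⟨Fin.last _, by simp [hpx]⟩
          · obtain ⟨i, hi⟩ := (hrange p).mpr (Or.inr (by simp [hpx, hp]))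
            exact ⟨i.castSucc, by simpa using hi⟩
    have hB3 : Bs G (Set.range (Fin.snoc (α := fun _ => Ω)
        (Fin.snoc (α := fun _ => Ω) e y : Fin _ → Ω) x : Fin _ → Ω)) := by
      intro g' hg'
      apply hS g'
      intro z hz
      exact hg' z ((hrange3 z).mpr (Or.inr hz))
    have hind := ind_image hre ⟨hB3, hirr3⟩
    obtain ⟨g', h1, h2⟩ := hind y ((hrange3 y).mpr (Or.inl rfl))
    have : g' = 1 := by
      apply hS g'
      intro z hz
      apply h1 z ((hrange3 z).mpr (Or.inr hz))
      rintro rfl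
      exact hyS hz
    rw [this] at h2
    exact h2 (one_smul _ _)
  refine ⟨y, hy, hyS, hB1, ?_⟩
  have hB2 : Bs G (Set.range (Fin.snoc (α := fun _ => Ω) e y : Fin _ → Ω)) := by
    intro g hg
    apply hB1 g
    intro z hz
    apply hg
    apply (hrange z).mpr
    exact Finset.mem_insert.mp (Finset.mem_coe.mp hz)
  have hind := ind_image hre ⟨hB2, hirr2⟩
  have hset : ((insert y (S.erase x) : Finset Ω) : Set Ω) =
      Set.range (Fin.snoc (α := fun _ => Ω) e y : Fin _ → Ω) := by
    ext p
    rw [hrange p, Finset.mem_coe, Finset.mem_insert]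
  rw [hset]
  exact hind

theorem card_eq_of_ind [DecidableEq Ω]
    (hre : ∀ (t : ℕ) (f : Fin t → Ω) (σ : Equiv.Perm (Fin t)),
      (Bs G (Set.range f) ∧ Irr G f) → (Bs G (Set.range (f ∘ σ)) ∧ Irr G (f ∘ σ)))
    {S' : Finset Ω} (hS' : Bs G (S' : Set Ω)) (hI' : Ind G (S' : Set Ω)) :
    ∀ (n : ℕ) (S : Finset Ω), (S \ S').card = n → Bs G (S : Set Ω) → Ind G (S : Set Ω) →
      S.card = S'.card := by
  intro n
  induction n with
  | zero =>
    intro S hn hS hI
    have hsub : S ⊆ S' := by
      rw [Finset.card_eq_zero, Finset.sdiff_eq_empty_iff_subset] at hn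
      exact hn
    have hsub' : S' ⊆ S := by
      intro z hz
      by_contra hzS
      obtain ⟨g, h1, h2⟩ := hI' z hz
      have : g = 1 := by
        apply hS g
        intro w hw
        apply h1 w (hsub hw)
        rintro rfl
        exact hzS hw
      rw [this] at h2
      exact h2 (one_smul _ _)
    rw [Finset.Subset.antisymm hsub hsub']
  | succ n ih =>
    intro S hn hS hI
    have : (S \ S').Nonempty := by
      rw [← Finset.card_pos]; omega
    obtain ⟨x, hx⟩ := this
    rw [Finset.mem_sdiff] at hx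
    obtain ⟨y, hy, hyS, hB1, hI1⟩ := exchange hre hS hI hS' hx.1 hx.2
    have hcard : (insert y (S.erase x)).card = S.card := by
      rw [Finset.card_insert_of_notMem (fun h => hyS (Finset.mem_of_mem_erase h)),
        Finset.card_erase_of_mem hx.1]
      have : 0 < S.card := Finset.card_pos.mpr ⟨x, hx.1⟩
      omega
    have hsd : (insert y (S.erase x)) \ S' = (S \ S').erase x := by
      ext z
      simp only [Finset.mem_sdiff, Finset.mem_insert, Finset.mem_erase]
      constructor
      · rintro ⟨rfl | h1, h2⟩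
        · exact absurd hy h2
        · exact ⟨h1.1, h1.2, h2⟩
      · rintro ⟨h1, h2, h3⟩
        exact ⟨Or.inr ⟨h1, h2⟩, h3⟩
    have hn' : ((insert y (S.erase x)) \ S').card = n := by
      rw [hsd, Finset.card_erase_of_mem (Finset.mem_sdiff.mpr hx), hn]; rfl
    rw [← hcard]
    exact ih _ hn' hB1 hI1

end ibis


/-- Let a finite group G act on a finite set Ω. An irredundant base is a sequence of points ω₁, …, ω_t whose pointwise stabiliser is trivial and in which each ω_i is moved by some element fixing ω₁, …, ω_{i−1}. Then all irredundant bases have the same length if and only if every reordering of an irredundant base is again an irredundant base. -/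
theorem result {G Ω : Type*} [Group G] [Finite G] [MulAction G Ω] [Fintype Ω] :
    (∀ (t t' : ℕ) (f : Fin t → Ω) (f' : Fin t' → Ω), ((∀ g : G, (∀ i : Fin t, g • f i = f i) → g = 1) ∧ ∀ i : Fin t, ∃ g : G, (∀ j : Fin t, j < i → g • f j = f j) ∧ g • f i ≠ f i) → ((∀ g : G, (∀ i : Fin t', g • f' i = f' i) → g = 1) ∧ ∀ i : Fin t', ∃ g : G, (∀ j : Fin t', j < i → g • f' j = f' j) ∧ g • f' i ≠ f' i) → t = t') ↔
    (∀ (t : ℕ) (f : Fin t → Ω) (σ : Equiv.Perm (Fin t)), ((∀ g : G, (∀ i : Fin t, g • f i = f i) → g = 1) ∧ ∀ i : Fin t, ∃ g : G, (∀ j : Fin t, j < i → g • f j = f j) ∧ g • f i ≠ f i) → ((∀ g : G, (∀ i : Fin t, g • (f ∘ σ) i = (f ∘ σ) i) → g = 1) ∧ ∀ i : Fin t, ∃ g : G, (∀ j : Fin t, j < i → g • (f ∘ σ) j = (f ∘ σ) j) ∧ g • (f ∘ σ) i ≠ (f ∘ σ) i)) := by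
  classical
  have conv : ∀ (t : ℕ) (f : Fin t → Ω), ((∀ g : G, (∀ i : Fin t, g • f i = f i) → g = 1) ∧ ∀ i : Fin t, ∃ g : G, (∀ j : Fin t, j < i → g • f j = f j) ∧ g • f i ≠ f i) ↔ (Bs G (Set.range f) ∧ Irr G f) := by
    intro t f
    refine and_congr ?_ Iff.rfl
    simp [Bs]
  simp only [conv]
  constructor
  · intro hsame t f σ hf
    have hB : Bs G (Set.range (f ∘ σ)) := by
      rw [EquivLike.range_comp]
      exact hf.1
    refine ⟨hB, ?_⟩
    by_contra hc
    simp only [Irr, not_forall, not_exists, not_and, not_not] at hc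
    obtain ⟨i, hi⟩ := hc
    set x := f (σ i) with hx
    have hinj := hf.2.injective
    have hBe : Bs G (((Finset.univ.image f).erase x : Finset Ω) : Set Ω) := by
      intro g hg
      apply hf.1 g
      have hfix : ∀ k, k ≠ σ i → g • f k = f k := by
        intro k hk
        apply hg
        simp only [Finset.coe_erase, Finset.coe_image, Finset.coe_univ, Set.image_univ,
          Set.mem_diff, Set.mem_range, Set.mem_singleton_iff]
        exact ⟨⟨k, rfl⟩, fun h => hk (hinj h)⟩
      rintro z ⟨k, rfl⟩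
      by_cases hk : k = σ i
      · rw [hk]
        apply hi g
        intro j hj
        exact hfix _ (fun h => absurd (σ.injective h) (ne_of_lt hj))
      · exact hfix k hk
    obtain ⟨S₀, hsub, h1, h2⟩ := exists_ind_base _ hBe
    have hirr := irr_enum h2
    have hB0 : Bs G (Set.range fun i : Fin S₀.card => ((S₀.equivFin.symm i : _) : Ω)) := by
      intro g hg
      apply h1 g
      intro z hz
      apply hg
      exact (mem_enum (T := S₀)).mp hz
    have heq := hsame t S₀.card f _ hf ⟨hB0, hirr⟩
    have hc1 : S₀.card ≤ ((Finset.univ.image f).erase x).card := Finset.card_le_card hsub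
    rw [Finset.card_erase_of_mem (by simp [hx]), Finset.card_image_of_injective _ hinj,
      Finset.card_univ, Fintype.card_fin] at hc1
    have : 0 < t := (σ i).pos
    omega
  · intro hre t t' f f' hf hf'
    have hS := ind_image hre hf
    have hS' := ind_image hre hf'
    have hB : Bs G ((Finset.univ.image f : Finset Ω) : Set Ω) := by
      simpa using hf.1
    have hB' : Bs G ((Finset.univ.image f' : Finset Ω) : Set Ω) := by
      simpa using hf'.1
    have := card_eq_of_ind hre hB' (ind_coe_image hS') _ _ rfl hB (ind_coe_image hS)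
    rw [Finset.card_image_of_injective _ hf.2.injective, Finset.card_image_of_injective _ hf'.2.injective] at this
    simpa using this

end Cfsg.Agent.S5747
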