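import Cfsg.Statements.S5754

set_option autoImplicit false
open Cfsg

namespace Cfsg.Agent.S5754


section
open QuadraticMap

variable {F V : Type*} [Field F] [AddCommGroup V] [Module F V] (Q : QuadraticForm F V)

theorem Q_add (x y : V) : Q (x + y) = Q x + Q y + polar Q x y := by
  simp [polar]

/-- dimension bound from Chevalley--Warning -/
theorem finrank_le_two [Finite F] [Module.Finite F V] (hQ : Q.Anisotropic) :
    Module.finrank F V ≤ 2 := by
  classical
  by_contra hc
  push Not at hc
  let _ : Fintype F := Fintype.ofFinite F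
  obtain ⟨p, hp⟩ := CharP.exists F
  let b := Module.finBasis F V
  let v : Fin 3 → V := fun i => b (Fin.castLE (by omega) i)
  have hv : LinearIndependent F v :=
    b.linearIndependent.comp _ (Fin.castLE_injective _)
  let v0 := v 0
  let v1 := v 1
  let v2 := v 2
  let f : MvPolynomial (Fin 3) F :=
    MvPolynomial.C (Q v0) * MvPolynomial.X 0 * MvPolynomial.X 0 +
    MvPolynomial.C (Q v1) * MvPolynomial.X 1 * MvPolynomial.X 1 +
    MvPolynomial.C (Q v2) * MvPolynomial.X 2 * MvPolynomial.X 2 +
    MvPolynomial.C (polar Q v0 v1) * MvPolynomial.X 0 * MvPolynomial.X 1 +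
    MvPolynomial.C (polar Q v0 v2) * MvPolynomial.X 0 * MvPolynomial.X 2 +
    MvPolynomial.C (polar Q v1 v2) * MvPolynomial.X 1 * MvPolynomial.X 2
  have hterm : ∀ (c : F) (i j : Fin 3),
      (MvPolynomial.C c * MvPolynomial.X i * MvPolynomial.X j : MvPolynomial (Fin 3) F).totalDegree ≤ 2 := by
    intro c i j
    calc _ ≤ (MvPolynomial.C c * MvPolynomial.X i : MvPolynomial (Fin 3) F).totalDegree +
          (MvPolynomial.X j : MvPolynomial (Fin 3) F).totalDegree := MvPolynomial.totalDegree_mul _ _
      _ ≤ ((MvPolynomial.C c : MvPolynomial (Fin 3) F).totalDegree +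
          (MvPolynomial.X i : MvPolynomial (Fin 3) F).totalDegree) +
          (MvPolynomial.X j : MvPolynomial (Fin 3) F).totalDegree :=
            Nat.add_le_add_right (MvPolynomial.totalDegree_mul _ _) _
      _ = 2 := by simp [MvPolynomial.totalDegree_C, MvPolynomial.totalDegree_X]
  have hdeg : f.totalDegree < Fintype.card (Fin 3) := by
    rw [Fintype.card_fin]
    have h1 := MvPolynomial.totalDegree_add (σ := Fin 3)
      (MvPolynomial.C (Q v0) * MvPolynomial.X 0 * MvPolynomial.X 0 +
      MvPolynomial.C (Q v1) * MvPolynomial.X 1 * MvPolynomial.X 1 +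
      MvPolynomial.C (Q v2) * MvPolynomial.X 2 * MvPolynomial.X 2 +
      MvPolynomial.C (polar Q v0 v1) * MvPolynomial.X 0 * MvPolynomial.X 1 +
      MvPolynomial.C (polar Q v0 v2) * MvPolynomial.X 0 * MvPolynomial.X 2)
      (MvPolynomial.C (polar Q v1 v2) * MvPolynomial.X 1 * MvPolynomial.X 2)
    have h2 := MvPolynomial.totalDegree_add (σ := Fin 3)
      (MvPolynomial.C (Q v0) * MvPolynomial.X 0 * MvPolynomial.X 0 +
      MvPolynomial.C (Q v1) * MvPolynomial.X 1 * MvPolynomial.X 1 +
      MvPolynomial.C (Q v2) * MvPolynomial.X 2 * MvPolynomial.X 2 +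
      MvPolynomial.C (polar Q v0 v1) * MvPolynomial.X 0 * MvPolynomial.X 1)
      (MvPolynomial.C (polar Q v0 v2) * MvPolynomial.X 0 * MvPolynomial.X 2)
    have h3 := MvPolynomial.totalDegree_add (σ := Fin 3)
      (MvPolynomial.C (Q v0) * MvPolynomial.X 0 * MvPolynomial.X 0 +
      MvPolynomial.C (Q v1) * MvPolynomial.X 1 * MvPolynomial.X 1 +
      MvPolynomial.C (Q v2) * MvPolynomial.X 2 * MvPolynomial.X 2)
      (MvPolynomial.C (polar Q v0 v1) * MvPolynomial.X 0 * MvPolynomial.X 1)
    have h4 := MvPolynomial.totalDegree_add (σ := Fin 3)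
      (MvPolynomial.C (Q v0) * MvPolynomial.X 0 * MvPolynomial.X 0 +
      MvPolynomial.C (Q v1) * MvPolynomial.X 1 * MvPolynomial.X 1)
      (MvPolynomial.C (Q v2) * MvPolynomial.X 2 * MvPolynomial.X 2)
    have h5 := MvPolynomial.totalDegree_add (σ := Fin 3)
      (MvPolynomial.C (Q v0) * MvPolynomial.X 0 * MvPolynomial.X 0)
      (MvPolynomial.C (Q v1) * MvPolynomial.X 1 * MvPolynomial.X 1)
    have t1 := hterm (Q v0) 0 0
    have t2 := hterm (Q v1) 1 1
    have t3 := hterm (Q v2) 2 2
    have t4 := hterm (polar Q v0 v1) 0 1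
    have t5 := hterm (polar Q v0 v2) 0 2
    have t6 := hterm (polar Q v1 v2) 1 2
    have s1 := h5.trans (max_le t1 t2)
    have s2 := h4.trans (max_le s1 t3)
    have s3 := h3.trans (max_le s2 t4)
    have s4 := h2.trans (max_le s3 t5)
    have hfin : f.totalDegree ≤ 2 := h1.trans (max_le s4 t6)
    omega
  have hdvd := char_dvd_card_solutions p hdeg
  have heval : ∀ x : Fin 3 → F, MvPolynomial.eval x f = Q (x 0 • v0 + x 1 • v1 + x 2 • v2) := by
    intro x
    simp only [f, map_add, map_mul, MvPolynomial.eval_C, MvPolynomial.eval_X]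
    rw [Q_add, Q_add, QuadraticMap.map_smul, QuadraticMap.map_smul, QuadraticMap.map_smul]
    simp only [polar_add_left, polar_smul_left, polar_smul_right, smul_eq_mul]
    ring
  have h0 : (MvPolynomial.eval (0 : Fin 3 → F) f) = 0 := by
    rw [heval]; simp
  have hpos : 0 < Fintype.card {x : Fin 3 → F // MvPolynomial.eval x f = 0} :=
    Fintype.card_pos_iff.mpr ⟨⟨0, h0⟩⟩
  have hpp : p.Prime :=
    (CharP.char_is_prime_or_zero F p).resolve_right (CharP.char_ne_zero_of_finite F p)
  have hp2 : 1 < Fintype.card {x : Fin 3 → F // MvPolynomial.eval x f = 0} := by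
    have hle := Nat.le_of_dvd hpos hdvd
    have := hpp.two_le
    omega
  obtain ⟨⟨x, hx⟩, hne⟩ := Fintype.exists_ne_of_one_lt_card hp2 ⟨0, h0⟩
  have hx0 : x ≠ 0 := fun h => hne (Subtype.ext h)
  rw [heval] at hx
  have hzero := hQ _ hx
  have hli := Fintype.linearIndependent_iff.mp hv x (by
    rw [Fin.sum_univ_three]
    exact hzero)
  exact hx0 (funext hli)

/-- the sum lemma -/
theorem Q_sum_eq {ι : Type*} (W W' : ι → V)
    (h1 : ∀ i, Q (W i) = Q (W' i)) (h2 : ∀ i j, polar Q (W i) (W j) = polar Q (W' i) (W' j))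
    (a : ι → F) (s : Finset ι) :
    Q (∑ i ∈ s, a i • W i) = Q (∑ i ∈ s, a i • W' i) := by
  classical
  have hp : ∀ j (t : Finset ι), polar Q (W j) (∑ i ∈ t, a i • W i) =
      polar Q (W' j) (∑ i ∈ t, a i • W' i) := by
    intro j t
    induction t using Finset.induction_on with
    | empty => simp [polar_zero_right]
    | insert i t hi ih =>
      rw [Finset.sum_insert hi, Finset.sum_insert hi, polar_add_right, polar_add_right, ih,
        polar_smul_right, polar_smul_right, h2]
  induction s using Finset.induction_on with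
  | empty => simp
  | insert i t hi ih =>
    rw [Finset.sum_insert hi, Finset.sum_insert hi, Q_add, Q_add, ih, QuadraticMap.map_smul,
      QuadraticMap.map_smul, h1, polar_smul_left, polar_smul_left, hp]

end


/-- Let V be a finite-dimensional vector space over a finite field F carrying an anisotropic quadratic form Q (Q(v) = 0 only for v = 0). Then the group of all maps v ↦ φ(v) + c, with φ an isometry of Q and c ∈ V, acts on V as a binary permutation group: given n ≥ 2 and two n-tuples u, u' of vectors such that every pair of corresponding entries of u is carried to that of u' by such a map, one such map carries u to u'. -/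
theorem result {F V : Type*} [Field F] [Finite F] [AddCommGroup V] [Module F V] [Module.Finite F V]
    (Q : QuadraticForm F V) (hQ : Q.Anisotropic) (n : ℕ) (hn : 2 ≤ n) (u u' : Fin n → V)
    (h2 : ∀ i j : Fin n, i ≠ j → ∃ (φ : Q.IsometryEquiv Q) (c : V), φ (u i) + c = u' i ∧ φ (u j) + c = u' j) :
    ∃ (φ : Q.IsometryEquiv Q) (c : V), ∀ i, φ (u i) + c = u' i := by
  classical
  have i00 : 0 < n := by omega
  let i0 : Fin n := ⟨0, i00⟩
  let W : Fin n → V := fun i => u i - u i0
  let W' : Fin n → V := fun i => u' i - u' i0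
  have hWi0 : W i0 = 0 := sub_self _
  have hW'i0 : W' i0 = 0 := sub_self _
  have hu : ∀ i, u i = W i + u i0 := fun i => by simp [W]
  have hu' : ∀ i, u' i = W' i + u' i0 := fun i => by simp [W']
  have hdiff : ∀ i j, Q (u i - u j) = Q (u' i - u' j) := by
    intro i j
    by_cases hij : i = j
    · subst hij; simp
    · obtain ⟨φ, c, h1, h3⟩ := h2 i j hij
      have : u' i - u' j = φ (u i - u j) := by
        rw [← h1, ← h3, map_sub]; abel
      rw [this, QuadraticMap.IsometryEquiv.map_app]
  have hQW : ∀ i, Q (W i) = Q (W' i) := fun i => hdiff i i0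
  have hQWW : ∀ i j, Q (W i - W j) = Q (W' i - W' j) := by
    intro i j
    have e1 : W i - W j = u i - u j := by simp [W]
    have e2 : W' i - W' j = u' i - u' j := by simp [W']
    rw [e1, e2]; exact hdiff i j
  have hpol : ∀ i j, QuadraticMap.polar Q (W i) (W j) = QuadraticMap.polar Q (W' i) (W' j) := by
    intro i j
    have key : ∀ a b : V, QuadraticMap.polar Q a b = Q a + Q b - Q (a - b) := by
      intro a b
      have h4 := Q_add Q a (-b)
      rw [← sub_eq_add_neg, QuadraticMap.map_neg, QuadraticMap.polar_neg_right] at h4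
      rw [h4]; ring
    rw [key, key, hQW, hQW, hQWW]
  let A : (Fin n → F) →ₗ[F] V := Fintype.linearCombination F W
  let A' : (Fin n → F) →ₗ[F] V := Fintype.linearCombination F W'
  have hA : ∀ a, A a = ∑ i, a i • W i := fun a => Fintype.linearCombination_apply _ _ _
  have hA' : ∀ a, A' a = ∑ i, a i • W' i := fun a => Fintype.linearCombination_apply _ _ _
  have hQA : ∀ a, Q (A a) = Q (A' a) := by
    intro a
    rw [hA, hA']
    exact Q_sum_eq Q W W' hQW hpol a _
  have hker : ∀ a, A a = 0 → A' a = 0 := by
    intro a ha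
    apply hQ
    rw [← hQA, ha, map_zero]
  have hAs : ∀ i, A (Pi.single i 1) = W i := by
    intro i
    simp [A, Fintype.linearCombination_apply_single]
  have hAs' : ∀ i, A' (Pi.single i 1) = W' i := by
    intro i
    simp [A', Fintype.linearCombination_apply_single]
  by_cases hsurj : LinearMap.range A = ⊤
  · -- the spanning case: build the isometry directly
    obtain ⟨R, hR⟩ := LinearMap.exists_rightInverse_of_surjective A hsurj
    have hRx : ∀ x, A (R x) = x := fun x => LinearMap.congr_fun hR x
    let φ₀ : V →ₗ[F] V := A' ∘ₗ R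
    have hφA : ∀ a, φ₀ (A a) = A' a := by
      intro a
      have h3 : A (R (A a) - a) = 0 := by rw [map_sub, hRx, sub_self]
      have h4 := hker _ h3
      rw [map_sub, sub_eq_zero] at h4
      exact h4
    have hφQ : ∀ x, Q (φ₀ x) = Q x := by
      intro x
      change Q (A' (R x)) = Q x
      rw [← hQA, hRx]
    have hφinj : Function.Injective φ₀ := by
      rw [injective_iff_map_eq_zero]
      intro x hx
      apply hQ
      rw [← hφQ, hx, map_zero]
    let φ : Q.IsometryEquiv Q :=
      { LinearEquiv.ofInjectiveEndo φ₀ hφinj with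
        map_app' := fun m => hφQ m }
    have hφ : ∀ x, φ x = φ₀ x := fun x => rfl
    refine ⟨φ, u' i0 - φ (u i0), fun i => ?_⟩
    rw [hu i, map_add, hφ (W i), ← hAs, hφA, hAs', hu' i]
    abel
  · -- at most one-dimensional span
    have hlt : Module.finrank F (LinearMap.range A) < Module.finrank F V :=
      Submodule.finrank_lt hsurj
    have hle1 : Module.finrank F (LinearMap.range A) ≤ 1 := by
      have := finrank_le_two Q hQ
      omega
    by_cases hall : ∀ i, W i = 0
    · have hall' : ∀ i, W' i = 0 := by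
        intro i
        apply hQ
        rw [← hQW, hall, map_zero]
      refine ⟨QuadraticMap.IsometryEquiv.refl Q, u' i0 - u i0, fun i => ?_⟩
      rw [hu i, hu' i, hall, hall']
      change (0 + u i0) + (u' i0 - u i0) = 0 + u' i0
      abel
    · push Not at hall
      obtain ⟨i₁, hi₁⟩ := hall
      have hne : i₁ ≠ i0 := by
        rintro rfl
        exact hi₁ hWi0
      obtain ⟨φ, c, h3, h4⟩ := h2 i₁ i0 hne
      have hφ1 : φ (W i₁) = W' i₁ := by
        change φ (u i₁ - u i0) = u' i₁ - u' i0
        rw [map_sub, ← h3, ← h4]; abel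
      -- every `W i` is a multiple of `W i₁`
      have hmult : ∀ i, ∃ b : F, W i = b • W i₁ := by
        intro i
        obtain ⟨v, hv⟩ := finrank_le_one_iff.mp hle1
        have hm : ∀ j, W j ∈ LinearMap.range A := fun j => ⟨_, hAs j⟩
        obtain ⟨c1, hc1⟩ := hv ⟨W i₁, hm i₁⟩
        obtain ⟨c2, hc2⟩ := hv ⟨W i, hm i⟩
        have e1 : c1 • (v : V) = W i₁ := congrArg Subtype.val hc1
        have e2 : c2 • (v : V) = W i := congrArg Subtype.val hc2
        have hc10 : c1 ≠ 0 := by
          rintro rfl
          apply hi₁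
          rw [← e1, zero_smul]
        refine ⟨c2 * c1⁻¹, ?_⟩
        rw [← e1, ← e2, smul_smul, mul_assoc, inv_mul_cancel₀ hc10, mul_one]
      refine ⟨φ, c, fun i => ?_⟩
      obtain ⟨b, hb⟩ := hmult i
      have hb' : W' i = b • W' i₁ := by
        have h5 : A (Pi.single i 1 - b • Pi.single i₁ 1) = 0 := by
          rw [map_sub, map_smul, hAs, hAs, hb, sub_self]
        have h6 := hker _ h5
        rw [map_sub, map_smul, hAs', hAs', sub_eq_zero] at h6
        exact h6
      rw [hu i, map_add, hb, map_smul, hφ1, ← hb', add_assoc, h4, ← hu' i]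

end Cfsg.Agent.S5754
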