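import Cfsg.Statements.S5885
-- import your own Cfsg.Agent.* helpers here

set_option autoImplicit false
open Cfsg

namespace Cfsg.Agent.S5885

open MulAction

theorem core {G Ω : Type*} [Group G] [MulAction G Ω] [Fintype Ω] [DecidableEq Ω]
    (hodd : Odd (Fintype.card Ω))
    (M K H L : Subgroup G) (a₀ : Ω) (hMstab : ∀ g, g ∈ M ↔ g • a₀ = a₀)
    (hAlt : ∀ g : Equiv.Perm Ω, Equiv.Perm.sign g = 1 → ∃ h : G, ∀ ω, h • ω = g ω)
    (hmax : ∀ S : Subgroup G, H ≤ S → S ≤ M → S = H ∨ S = M)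
    (hKM : K ⊓ M = H) (hHL : H ≤ L) (hLK : L ≤ K) (hLH : L ≠ H) : L = K := by
  classical
  by_contra hne
  have hstabK : ∀ g ∈ K, g • a₀ = a₀ → g ∈ H := fun g hg h0 => hKM ▸ ⟨hg, (hMstab g).mpr h0⟩
  let B : Set Ω := {ω | ∃ l ∈ L, l • a₀ = ω}
  have ha₀B : a₀ ∈ B := ⟨1, one_mem _, one_smul _ _⟩
  have hblock : ∀ k ∈ K, ∀ ω ∈ B, k • ω ∈ B → k ∈ L := by
    rintro k hk ω ⟨l, hl, rfl⟩ ⟨l', hl', h⟩
    have h1 : l'⁻¹ * k * l ∈ H := hstabK _ (K.mul_mem (K.mul_mem (K.inv_mem (hLK hl')) hk) (hLK hl)) (by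
      rw [mul_smul, mul_smul, ← h, inv_smul_smul])
    have h2 : l'⁻¹ * k * l ∈ L := hHL h1
    have h3 : k = l' * (l'⁻¹ * k * l) * l⁻¹ := by group
    rw [h3]
    exact L.mul_mem (L.mul_mem hl' h2) (L.inv_mem hl)
  have hLB : ∀ l ∈ L, ∀ ω ∈ B, l • ω ∈ B := by
    rintro l hl ω ⟨l', hl', rfl⟩
    exact ⟨l * l', L.mul_mem hl hl', mul_smul _ _ _⟩
  obtain ⟨l, hl, hlH⟩ : ∃ l ∈ L, l ∉ H := by
    by_contra hcon
    push Not at hcon
    exact hLH (le_antisymm hcon hHL)
  set x := l • a₀ with hx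
  have hxa : x ≠ a₀ := fun h => hlH (hstabK l (hLK hl) h)
  have hxB : x ∈ B := ⟨l, hl, rfl⟩
  obtain ⟨k, hk, hkL⟩ : ∃ k ∈ K, k ∉ L := by
    by_contra hcon
    push Not at hcon
    exact hne (le_antisymm hLK hcon)
  set y := k • a₀ with hy
  set y' := k • x with hy'
  have hyB : y ∉ B := fun h => hkL (hblock k hk a₀ ha₀B h)
  have hy'B : y' ∉ B := fun h => hkL (hblock k hk x hxB h)
  have hyy' : y ≠ y' := fun h => hxa (smul_left_cancel k h).symm
  have hxy : x ≠ y := fun h => hyB (h ▸ hxB)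
  have hxy' : x ≠ y' := fun h => hy'B (h ▸ hxB)
  have hay : a₀ ≠ y := fun h => hyB (h ▸ ha₀B)
  have hay' : a₀ ≠ y' := fun h => hy'B (h ▸ ha₀B)
  -- `H` is the stabiliser of `B` in `M`
  let S : Subgroup G :=
    { carrier := {g | g ∈ M ∧ ∀ ω, g • ω ∈ B ↔ ω ∈ B}
      mul_mem' := by
        rintro a b ⟨ha1, ha2⟩ ⟨hb1, hb2⟩
        refine ⟨M.mul_mem ha1 hb1, fun ω => ?_⟩
        rw [mul_smul, ha2, hb2]
      one_mem' := ⟨one_mem _, fun ω => by rw [one_smul]⟩
      inv_mem' := by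
        rintro a ⟨ha1, ha2⟩
        refine ⟨M.inv_mem ha1, fun ω => ?_⟩
        rw [← ha2 (a⁻¹ • ω), smul_inv_smul] }
  have hHS : H ≤ S := by
    intro h hh
    have hhL := hHL hh
    refine ⟨(hKM ▸ hh : h ∈ K ⊓ M).2, fun ω => ⟨fun hω => ?_, hLB h hhL ω⟩⟩
    have := hLB h⁻¹ (L.inv_mem hhL) _ hω
    rwa [inv_smul_smul] at this
  have hSM : S ≤ M := fun g hg => hg.1
  have hS3 : Equiv.Perm.sign (Equiv.swap x y * Equiv.swap x y') = 1 := by
    rw [map_mul, Equiv.Perm.sign_swap hxy, Equiv.Perm.sign_swap hxy']; rfl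
  have hSne : S ≠ M := by
    intro hSeq
    obtain ⟨h, hh⟩ := hAlt _ hS3
    have h1 : h ∈ M := by
      rw [hMstab, hh, Equiv.Perm.mul_apply, Equiv.swap_apply_of_ne_of_ne hxa.symm hay',
        Equiv.swap_apply_of_ne_of_ne hxa.symm hay]
    have h2 : h ∈ S := hSeq ▸ h1
    have h3 := (h2.2 x).mpr hxB
    rw [hh, Equiv.Perm.mul_apply, Equiv.swap_apply_left,
      Equiv.swap_apply_of_ne_of_ne hxy'.symm hyy'.symm] at h3
    exact hy'B h3
  have hSH : S = H := (hmax S hHS hSM).resolve_right hSne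
  have key : ∀ g : Equiv.Perm Ω, Equiv.Perm.sign g = 1 → (∀ ω ∈ B, g ω = ω) →
      ∃ h ∈ H, ∀ ω, h • ω = g ω := by
    intro g hg hfix
    obtain ⟨h, hh⟩ := hAlt g hg
    refine ⟨h, ?_, hh⟩
    rw [← hSH]
    refine ⟨by rw [hMstab, hh, hfix a₀ ha₀B], fun ω => ⟨fun hω => ?_, fun hω => ?_⟩⟩
    · rw [hh] at hω
      have h1 := hfix _ hω
      rw [← g.injective h1]
      exact hω
    · rw [hh, hfix ω hω]
      exact hω
  -- a point outside `B` and `kB`
  let B₂ : Set Ω := (fun ω => k • ω) '' B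
  have hzex : ∃ z, z ∉ B ∧ z ∉ B₂ := by
    by_contra hcon
    push Not at hcon
    have hunion : B ∪ B₂ = Set.univ := Set.eq_univ_of_forall fun ω => by
      by_cases h : ω ∈ B
      · exact Or.inl h
      · exact Or.inr (hcon ω h)
    have hdisj : Disjoint B B₂ := by
      rw [Set.disjoint_left]
      rintro ω hω ⟨ω', hω', rfl⟩
      exact hkL (hblock k hk ω' hω' hω)
    have hcard : B.ncard + B₂.ncard = Fintype.card Ω := by
      rw [← Set.ncard_union_eq hdisj (Set.toFinite _) (Set.toFinite _), hunion, Set.ncard_univ,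
        Nat.card_eq_fintype_card]
    have hcard2 : B₂.ncard = B.ncard := Set.ncard_image_of_injective _ (MulAction.injective k)
    rw [hcard2] at hcard
    rcases hodd with ⟨r, hr⟩
    omega
  obtain ⟨z, hzB, hzB₂⟩ := hzex
  have hyB₂ : y ∈ B₂ := ⟨a₀, ha₀B, rfl⟩
  have hy'B₂ : y' ∈ B₂ := ⟨x, hxB, rfl⟩
  have hzy : z ≠ y := fun h => hzB₂ (h ▸ hyB₂)
  have hzy' : z ≠ y' := fun h => hzB₂ (h ▸ hy'B₂)
  have hoff : ∀ a b c : Ω, a ∉ B → b ∉ B → c ∉ B → ∀ ω ∈ B,
      (Equiv.swap a b * Equiv.swap a c) ω = ω := by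
    intro a b c ha hb hc ω hω
    have h1 : ω ≠ a := fun h => ha (h ▸ hω)
    have h2 : ω ≠ b := fun h => hb (h ▸ hω)
    have h3 : ω ≠ c := fun h => hc (h ▸ hω)
    rw [Equiv.Perm.mul_apply, Equiv.swap_apply_of_ne_of_ne h1 h3, Equiv.swap_apply_of_ne_of_ne h1 h2]
  -- `z` lies in the `K`-orbit of `a₀`
  have hsign1 : Equiv.Perm.sign (Equiv.swap y' y * Equiv.swap y' z) = 1 := by
    rw [map_mul, Equiv.Perm.sign_swap hyy'.symm, Equiv.Perm.sign_swap hzy'.symm]; rfl
  obtain ⟨h₁, hh₁, hh₁'⟩ := key _ hsign1 (hoff _ _ _ hy'B hyB hzB)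
  have hz1 : h₁ • y' = z := by
    rw [hh₁', Equiv.Perm.mul_apply, Equiv.swap_apply_left, Equiv.swap_apply_of_ne_of_ne hzy' hzy]
  have hh₁K : h₁ ∈ K := (hKM ▸ hh₁ : h₁ ∈ K ⊓ M).1
  set k₃ := h₁ * k * l with hk₃
  have hk₃K : k₃ ∈ K := K.mul_mem (K.mul_mem hh₁K hk) (hLK hl)
  have hk₃a : k₃ • a₀ = z := by
    rw [hk₃, mul_smul, mul_smul, ← hz1]
  set z' := k₃ • x with hz'
  have hzz' : z ≠ z' := by
    intro h
    rw [← hk₃a] at h
    exact hxa (smul_left_cancel k₃ h).symm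
  have hz'B : z' ∉ B := by
    intro h
    have h1 := hblock k₃ hk₃K x hxB h
    have h2 := hLB k₃ h1 a₀ ha₀B
    rw [hk₃a] at h2
    exact hzB h2
  have hz'B₂ : z' ∉ B₂ := by
    rintro ⟨ω, hω, hω'⟩
    have h0 : (k⁻¹ * k₃) • x = ω := by
      rw [mul_smul, ← hz', ← hω', inv_smul_smul]
    have h1 := hblock (k⁻¹ * k₃) (K.mul_mem (K.inv_mem hk) hk₃K) x hxB (by rw [h0]; exact hω)
    have h2 := hLB _ h1 a₀ ha₀B
    apply hzB₂
    refine ⟨_, h2, ?_⟩
    change k • ((k⁻¹ * k₃) • a₀) = z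
    rw [mul_smul, smul_inv_smul, hk₃a]
  -- the final three-cycle
  have hy'z : y' ≠ z := hzy'.symm
  have hy'z' : y' ≠ z' := fun h => hz'B₂ (h ▸ hy'B₂)
  have hyz' : y ≠ z' := fun h => hz'B₂ (h ▸ hyB₂)
  have hsign2 : Equiv.Perm.sign (Equiv.swap y' z * Equiv.swap y' z') = 1 := by
    rw [map_mul, Equiv.Perm.sign_swap hy'z, Equiv.Perm.sign_swap hy'z']; rfl
  obtain ⟨h₂, hh₂, hh₂'⟩ := key _ hsign2 (hoff _ _ _ hy'B hzB hz'B)
  have hh₂K : h₂ ∈ K := (hKM ▸ hh₂ : h₂ ∈ K ⊓ M).1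
  have hy2 : h₂ • y = y := by
    rw [hh₂', Equiv.Perm.mul_apply, Equiv.swap_apply_of_ne_of_ne hyy' hyz',
      Equiv.swap_apply_of_ne_of_ne hyy' hzy.symm]
  have hy'2 : h₂ • y' = z' := by
    rw [hh₂', Equiv.Perm.mul_apply, Equiv.swap_apply_left,
      Equiv.swap_apply_of_ne_of_ne hy'z'.symm hzz'.symm]
  have hconj : k⁻¹ * h₂ * k ∈ H := by
    refine hstabK _ (K.mul_mem (K.mul_mem (K.inv_mem hk) hh₂K) hk) ?_
    rw [mul_smul, mul_smul, ← hy, hy2, hy, inv_smul_smul]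
  have hmemB := hLB _ (hHL hconj) x hxB
  rw [mul_smul, mul_smul, ← hy', hy'2] at hmemB
  apply hz'B₂
  exact ⟨_, hmemB, smul_inv_smul k z'⟩


/-- Let n be an odd positive integer such that every primitive permutation group of degree n contains the alternating group (so the symmetric and alternating groups are the only primitive groups of degree n). Let G be a finite group, M a maximal subgroup of G of index n, and H a maximal subgroup of M. Then H is a second maximal subgroup of G: H is maximal in every maximal subgroup K of G containing H. -/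
theorem result {G : Type*} [Group G]
    [Finite G] (n : ℕ) (hodd : Odd n)
    (hA : ∀ P : Subgroup (Equiv.Perm (Fin n)), MulAction.IsPreprimitive P (Fin n) → alternatingGroup (Fin n) ≤ P)
    (M : Subgroup G) (hM : IsCoatom M) (hn : M.index = n) (H : Subgroup G) (hHM : H ≤ M)
    (hmax : IsCoatom (H.subgroupOf M)) (K : Subgroup G) (hK : IsCoatom K) (hHK : H ≤ K) :
    IsCoatom (H.subgroupOf K) := by
    classical
  -- reformulate maximality of `H` in `M`
  have hmax' : ∀ S : Subgroup G, H ≤ S → S ≤ M → S = H ∨ S = M := by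
    intro S hHS hSM
    by_cases h : S.subgroupOf M = H.subgroupOf M
    · left
      apply le_antisymm _ hHS
      intro x hx
      have : (⟨x, hSM hx⟩ : M) ∈ S.subgroupOf M := hx
      rw [h] at this
      exact this
    · right
      have hlt : H.subgroupOf M < S.subgroupOf M :=
        lt_of_le_of_ne (fun x hx => hHS hx) (Ne.symm h)
      have htop := hmax.2 _ hlt
      apply le_antisymm hSM
      intro x hx
      have : (⟨x, hx⟩ : M) ∈ S.subgroupOf M := htop ▸ Subgroup.mem_top _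
      exact this
  by_cases hKeq : K = M
  · subst hKeq
    exact hmax
  -- `K ⊓ M = H`
  have hKMne : K ⊓ M ≠ M := by
    intro h
    have hle : M ≤ K := inf_eq_right.mp h
    rcases eq_or_lt_of_le hle with h1 | h1
    · exact hKeq h1.symm
    · exact hK.1 (hM.2 K h1)
  have hKM : K ⊓ M = H := (hmax' _ (le_inf hHK hHM) inf_le_right).resolve_right hKMne
  -- the action on `Ω = G ⧸ M`
  let Ω := G ⧸ M
  have hcardΩ : Nat.card Ω = n := hn
  haveI : Finite Ω := inferInstance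
  haveI : Fintype Ω := Fintype.ofFinite Ω
  let a₀ : Ω := ((1 : G) : G ⧸ M)
  have hstab : MulAction.stabilizer G a₀ = M := MulAction.stabilizer_quotient M
  have hMstab : ∀ g, g ∈ M ↔ g • a₀ = a₀ := by
    intro g
    rw [← MulAction.mem_stabilizer_iff, hstab]
  have hn1 : n ≠ 1 := by
    intro h
    rw [h] at hn
    exact hM.1 (Subgroup.index_eq_one.mp hn)
  have hn0 : n ≠ 0 := by
    rintro rfl
    exact (Nat.not_odd_iff_even.mpr (Nat.even_iff.mpr rfl)) hodd
  haveI hnt : Nontrivial Ω := by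
    apply Finite.one_lt_card_iff_nontrivial.mp
    rw [hcardΩ]
    omega
  haveI hprim : MulAction.IsPreprimitive G Ω := by
    rw [← MulAction.isCoatom_stabilizer_iff_preprimitive G a₀, hstab]
    exact hM
  -- transport to `Fin n`
  let e : Ω ≃ Fin n := Finite.equivFinOfCardEq hcardΩ
  let ρ : G →* Equiv.Perm Ω := MulAction.toPermHom G Ω
  let ψ : G →* Equiv.Perm (Fin n) := (e.permCongrHom.toMonoidHom).comp ρ
  let P : Subgroup (Equiv.Perm (Fin n)) := ψ.range
  let φ : G → P := ψ.rangeRestrict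
  have hφ : Function.Surjective φ := MonoidHom.rangeRestrict_surjective ψ
  have heq : ∀ (g : G) (ω : Ω), e (g • ω) = (φ g) • e ω := by
    intro g ω
    change e (g • ω) = (ψ g) (e ω)
    simp [ψ, ρ, Equiv.permCongrHom_coe, Equiv.permCongr_apply]
  let f : Ω →ₑ[φ] Fin n := { toFun := e, map_smul' := heq }
  have hPprim : MulAction.IsPreprimitive P (Fin n) :=
    MulAction.IsPreprimitive.of_surjective (f := f) e.surjective
  have hAn := hA P hPprim
  have hAlt : ∀ g : Equiv.Perm Ω, Equiv.Perm.sign g = 1 → ∃ h : G, ∀ ω, h • ω = g ω := by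
    intro g hg
    have h1 : e.permCongr g ∈ alternatingGroup (Fin n) := by
      rw [Equiv.Perm.mem_alternatingGroup, Equiv.Perm.sign_permCongr]
      exact hg
    obtain ⟨h, hh⟩ := hAn h1
    refine ⟨h, fun ω => ?_⟩
    have h2 : (ψ h) (e ω) = e.permCongr g (e ω) := by rw [hh]
    apply e.injective
    have h3 : (ψ h) (e ω) = e (h • ω) := by
      simp [ψ, ρ, Equiv.permCongrHom_coe, Equiv.permCongr_apply]
    rw [← h3, h2]
    simp [Equiv.permCongr_apply]
  have hcard' : Odd (Fintype.card Ω) := by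
    rw [← Nat.card_eq_fintype_card, hcardΩ]
    exact hodd
  -- conclude
  refine ⟨?_, ?_⟩
  · intro htop
    have hKH : K ≤ H := by
      intro x hx
      have : (⟨x, hx⟩ : K) ∈ H.subgroupOf K := htop ▸ Subgroup.mem_top _
      exact this
    have hKle : K ≤ M := hKH.trans hHM
    rcases eq_or_lt_of_le hKle with h1 | h1
    · exact hKeq h1
    · exact hM.1 (hK.2 M h1)
  · intro L' hL'
    let L : Subgroup G := L'.map K.subtype
    have hLK : L ≤ K := by
      rintro _ ⟨x, _, rfl⟩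
      exact x.2
    have hHL : H ≤ L := by
      intro x hx
      exact ⟨⟨x, hHK hx⟩, hL'.le hx, rfl⟩
    have hLH : L ≠ H := by
      intro h
      apply hL'.ne
      apply le_antisymm hL'.le
      intro x hx
      have : (x : G) ∈ L := ⟨x, hx, rfl⟩
      rw [h] at this
      exact this
    have hfinal := core hcard' M K H L a₀ hMstab hAlt hmax' hKM hHL hLK hLH
    rw [eq_top_iff]
    intro x _
    have : (x : G) ∈ L := by rw [hfinal]; exact x.2
    obtain ⟨y, hy, hxy⟩ := this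
    have : y = x := Subtype.ext hxy
    exact this ▸ hy

end Cfsg.Agent.S5885
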