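import Cfsg.Statements.S5887
-- import your own Cfsg.Agent.* helpers here

set_option autoImplicit false
open Cfsg

namespace Cfsg.Agent.S5887

open Matrix Module

section A

variable {ι : Type} [Fintype ι] [DecidableEq ι] {F : Type*} [Field F]

/-- commutative division subalgebra -/
def IsF (E : Subalgebra F (Matrix ι ι F)) : Prop :=
  (∀ x ∈ E, ∀ y ∈ E, x * y = y * x) ∧ (∀ x ∈ E, x ≠ 0 → ∃ y ∈ E, x * y = 1)

theorem mat_ext (A B : Matrix ι ι F) (h : ∀ v, A *ᵥ v = B *ᵥ v) : A = B :=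
  Matrix.toLin'.injective (LinearMap.ext h)

theorem eq_zero_of_mulVec (E : Subalgebra F (Matrix ι ι F)) (hE : IsF E) (k : Matrix ι ι F)
    (hk : k ∈ E) (a : ι → F) (ha : a ≠ 0) (h : k *ᵥ a = 0) : k = 0 := by
  by_contra h0
  obtain ⟨y, hy, hky⟩ := hE.2 k hk h0
  have h1 : y * k = 1 := by rw [hE.1 y hy k hk, hky]
  apply ha
  calc a = (y * k) *ᵥ a := by rw [h1, one_mulVec]
    _ = y *ᵥ (k *ᵥ a) := (mulVec_mulVec _ _ _).symm
    _ = 0 := by rw [h, mulVec_zero]

theorem det_eq_one_of_sq_zero [Fintype F] [Nonempty ι] (M : Matrix ι ι F) (hM : M * M = 0) :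
    (1 + M).det = 1 := by
  obtain ⟨p, hp⟩ := CharP.exists F
  have hpp : p.Prime := (CharP.char_is_prime_or_zero F p).resolve_right (CharP.ringChar_ne_zero_of_finite F ∘ fun h => by
    rw [ringChar.eq F p, h])
  have hfact : Fact p.Prime := ⟨hpp⟩
  have h1 : (1 + M) ^ p = 1 := by
    rw [add_pow_char_of_commute p (Commute.one_left M), one_pow]
    have : M ^ p = 0 := by
      obtain ⟨t, ht⟩ : ∃ t, p = 2 + t := ⟨p - 2, by have := hpp.two_le; omega⟩
      rw [ht, pow_add, pow_two, hM, zero_mul]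
    rw [this, add_zero]
  have h2 := congrArg Matrix.det h1
  rw [det_pow, det_one] at h2
  have h3 : frobenius F p (1 + M).det = frobenius F p 1 := by
    rw [frobenius_def, h2, map_one]
  exact (frobenius F p).injective h3

theorem exists_g_abs {L : Type*} [Field L] (j : L →+* Matrix ι ι F) [Nonempty ι]
    (W : Set (ι → F)) (h0 : (0 : ι → F) ∈ W) (hadd : ∀ u ∈ W, ∀ v ∈ W, u + v ∈ W)
    (hsmul : ∀ l, ∀ w ∈ W, j l *ᵥ w ∈ W) (b : ι → F) (hb : b ∉ W) :
    ∃ g : (ι → F) → Matrix ι ι F, (∀ v, g v ∈ Set.range j) ∧ (∀ u v, g (u + v) = g u + g v) ∧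
      (∀ l v, g (j l *ᵥ v) = j l * g v) ∧ g b ≠ 0 ∧ ∀ w ∈ W, g w = 0 := by
  classical
  letI modL : Module L (ι → F) :=
    { smul := fun e v => j e *ᵥ v
      one_smul := fun v => by
        show j 1 *ᵥ v = v
        rw [map_one, one_mulVec]
      mul_smul := fun x y v => by
        show j (x * y) *ᵥ v = j x *ᵥ (j y *ᵥ v)
        rw [map_mul, mulVec_mulVec]
      smul_zero := fun x => mulVec_zero _
      smul_add := fun x u v => mulVec_add _ u v
      add_smul := fun x y v => by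
        show j (x + y) *ᵥ v = j x *ᵥ v + j y *ᵥ v
        rw [map_add, add_mulVec]
      zero_smul := fun v => by
        show j 0 *ᵥ v = 0
        rw [map_zero, zero_mulVec] }
  let W' : Submodule L (ι → F) :=
    { carrier := W
      add_mem' := fun hu hv => hadd _ hu _ hv
      zero_mem' := h0
      smul_mem' := fun c x hx => hsmul c x hx }
  obtain ⟨f, hfb, hfW⟩ := Submodule.exists_dual_map_eq_bot_of_notMem (p := W') hb inferInstance
  refine ⟨fun v => j (f v), fun v => ⟨_, rfl⟩, ?_, ?_, ?_, ?_⟩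
  · intro u v
    simp only [map_add]
  · intro l v
    have := f.map_smul l v
    have h2 : l • v = j l *ᵥ v := rfl
    rw [h2, smul_eq_mul] at this
    simp only [this, map_mul]
  · intro h
    apply hfb
    have hinj : Function.Injective j := j.injective
    exact hinj (h.trans (map_zero j).symm)
  · intro w hw
    have h1 : f w ∈ W'.map f := Submodule.mem_map_of_mem hw
    rw [hfW, Submodule.mem_bot] at h1
    show j (f w) = 0
    rw [h1, map_zero]

theorem exists_g [Nonempty ι] (E : Subalgebra F (Matrix ι ι F)) (hE : IsF E)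
    (W : Set (ι → F)) (h0 : (0 : ι → F) ∈ W) (hadd : ∀ u ∈ W, ∀ v ∈ W, u + v ∈ W)
    (hsmul : ∀ e ∈ E, ∀ w ∈ W, e *ᵥ w ∈ W) (b : ι → F) (hb : b ∉ W) :
    ∃ g : (ι → F) → Matrix ι ι F, (∀ v, g v ∈ E) ∧ (∀ u v, g (u + v) = g u + g v) ∧
      (∀ e ∈ E, ∀ v, g (e *ᵥ v) = e * g v) ∧ g b ≠ 0 ∧ ∀ w ∈ W, g w = 0 := by
  obtain ⟨i₀⟩ := ‹Nonempty ι›
  have hne01 : (0 : Matrix ι ι F) ≠ 1 := by
    intro h
    have h1 := congrFun (congrFun h i₀) i₀
    simp at h1
  have hfE : IsField E := by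
    refine ⟨⟨0, 1, fun h => hne01 (congrArg Subtype.val h)⟩, ?_, ?_⟩
    · intro x y
      exact Subtype.ext (hE.1 _ x.2 _ y.2)
    · intro x hx
      obtain ⟨y, hy, hxy⟩ := hE.2 x.1 x.2 (fun h => hx (Subtype.ext h))
      exact ⟨⟨y, hy⟩, Subtype.ext hxy⟩
  obtain ⟨g, h1, h2, h3, h4, h5⟩ := @exists_g_abs ι _ _ F _ E hfE.toField E.val.toRingHom ⟨i₀⟩ W h0 hadd
    (fun l w hw => hsmul l.1 l.2 w hw) b hb
  refine ⟨g, ?_, h2, ?_, h4, h5⟩
  · intro v
    obtain ⟨l, hl⟩ := h1 v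
    rw [← hl]
    exact l.2
  · intro e he v
    exact h3 ⟨e, he⟩ v

theorem exists_x [Fintype F] [Nonempty ι] (E E' : Subalgebra F (Matrix ι ι F)) (hE : IsF E)
    (hE' : IsF E') (hle : E ≤ E') (k₀ : Matrix ι ι F) (hk₀ : k₀ ∈ E') (hk₀' : k₀ ∉ E)
    (hdim : finrank F E' < Fintype.card ι) :
    ∃ x : GL ι F, Matrix.GeneralLinearGroup.det x = 1 ∧
      (∀ e ∈ E, (x : Matrix ι ι F) * e = e * (x : Matrix ι ι F)) ∧
      x ∉ Cfsg.Geo.subalgebraNormalizer E' := by
  classical
  obtain ⟨i₀⟩ := ‹Nonempty ι›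
  let a : ι → F := Pi.single i₀ 1
  have ha : a ≠ 0 := by
    intro h
    have h1 := congrFun h i₀
    simp [a] at h1
  let W : Set (ι → F) := {v | ∃ k ∈ E', v = k *ᵥ a}
  have hexb : ∃ b, b ∉ W := by
    by_contra hcon
    push Not at hcon
    let T : E' →ₗ[F] (ι → F) :=
      { toFun := fun k => k.1 *ᵥ a
        map_add' := fun x y => add_mulVec _ _ _
        map_smul' := fun c x => smul_mulVec _ _ _ }
    have hT : Function.Surjective T := by
      intro v
      obtain ⟨k, hk, rfl⟩ := hcon v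
      exact ⟨⟨k, hk⟩, rfl⟩
    have h1 := LinearMap.finrank_le_finrank_of_surjective hT
    rw [Module.finrank_fintype_fun_eq_card] at h1
    omega
  obtain ⟨b, hb⟩ := hexb
  obtain ⟨g, hgE, hgadd, hge, hgb, hgW⟩ := exists_g E hE W ⟨0, E'.zero_mem, (zero_mulVec _).symm⟩
    (by
      rintro _ ⟨k, hk, rfl⟩ _ ⟨l, hl, rfl⟩
      exact ⟨k + l, E'.add_mem hk hl, (add_mulVec _ _ _).symm⟩)
    (by
      rintro e he _ ⟨k, hk, rfl⟩
      exact ⟨e * k, E'.mul_mem (hle he) hk, by rw [mulVec_mulVec]⟩) b hb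
  have hf0 : ∀ k ∈ E', g (k *ᵥ a) = 0 := fun k hk => hgW _ ⟨k, hk, rfl⟩
  have hfc : ∀ (c : F) (v : ι → F), g (c • v) = c • g v := by
    intro c v
    have h1 : c • v = (algebraMap F (Matrix ι ι F) c) *ᵥ v := by
      rw [Algebra.algebraMap_eq_smul_one, smul_mulVec, one_mulVec]
    rw [h1, hge _ (E.algebraMap_mem c), Algebra.algebraMap_eq_smul_one, smul_mul, one_mul]
  let N : (ι → F) →ₗ[F] (ι → F) :=
    { toFun := fun v => g v *ᵥ a
      map_add' := by
        intro x y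
        rw [hgadd]
        exact add_mulVec _ _ _
      map_smul' := by
        intro c x
        rw [hfc]
        exact smul_mulVec _ _ _ }
  let M : Matrix ι ι F := LinearMap.toMatrix' N
  have hM : ∀ v, M *ᵥ v = g v *ᵥ a := by
    intro v
    show LinearMap.toMatrix' N *ᵥ v = _
    rw [LinearMap.toMatrix'_mulVec]
    rfl
  have hMM : M * M = 0 := by
    apply mat_ext
    intro v
    rw [← mulVec_mulVec, hM v, zero_mulVec, hM, hf0 _ (hle (hgE v))]
    exact zero_mulVec _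
  have hMe : ∀ e ∈ E, M * e = e * M := by
    intro e he
    apply mat_ext
    intro v
    rw [← mulVec_mulVec, ← mulVec_mulVec, hM, hM, hge e he, mulVec_mulVec]
  have hinv1 : (1 + M) * (1 - M) = 1 := by
    rw [add_mul, mul_sub, mul_sub, hMM]
    simp
  have hinv2 : (1 - M) * (1 + M) = 1 := by
    rw [sub_mul, mul_add, mul_add, hMM]
    simp
  let x : GL ι F := ⟨1 + M, 1 - M, hinv1, hinv2⟩
  have hxv : (x : Matrix ι ι F) = 1 + M := rfl
  have hxi : ((x⁻¹ : GL ι F) : Matrix ι ι F) = 1 - M := rfl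
  have hxmv : ∀ v, (x : Matrix ι ι F) *ᵥ v = v + g v *ᵥ a := by
    intro v
    rw [hxv, add_mulVec, one_mulVec, hM]
  refine ⟨x, ?_, ?_, ?_⟩
  · apply Units.ext
    show (x : Matrix ι ι F).det = 1
    rw [hxv]
    exact det_eq_one_of_sq_zero M hMM
  · intro e he
    rw [hxv, add_mul, mul_add, one_mul, mul_one, hMe e he]
  · intro hxN
    -- `x` fixes `E' a`
    have hfix : ∀ k ∈ E', (x : Matrix ι ι F) *ᵥ (k *ᵥ a) = k *ᵥ a := by
      intro k hk
      rw [hxmv, hf0 k hk, zero_mulVec, add_zero]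
    have hcomm : ∀ k ∈ E', (x : Matrix ι ι F) * k = k * x := by
      intro k hk
      have h1 := (hxN k).mp hk
      set k' := (x : Matrix ι ι F) * k * ((x⁻¹ : GL ι F) : Matrix ι ι F) with hk'
      have h2 : (x : Matrix ι ι F) * k = k' * x := by
        rw [hk', mul_assoc _ _ (x : Matrix ι ι F), Units.inv_mul, mul_one]
      have h3 : k *ᵥ a = k' *ᵥ a := by
        have h4 := hfix k hk
        rw [mulVec_mulVec, h2, ← mulVec_mulVec] at h4
        have h5 := hfix 1 E'.one_mem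
        rw [one_mulVec] at h5
        rw [h5] at h4
        exact h4.symm
      have h6 : k' - k = 0 := by
        apply eq_zero_of_mulVec E' hE' _ (E'.sub_mem h1 hk) a ha
        rw [sub_mulVec, h3, sub_self]
      have h7 : k' = k := sub_eq_zero.mp h6
      rw [h2, h7]
    apply hk₀'
    have h1 := hcomm k₀ hk₀
    have h2 : (x : Matrix ι ι F) *ᵥ (k₀ *ᵥ b) = k₀ *ᵥ ((x : Matrix ι ι F) *ᵥ b) := by
      rw [mulVec_mulVec, h1, ← mulVec_mulVec]
    rw [hxmv, hxmv, mulVec_add, mulVec_mulVec a k₀ _] at h2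
    have h3 := add_left_cancel h2
    have h4 : g (k₀ *ᵥ b) = k₀ * g b := by
      have h5 : g (k₀ *ᵥ b) - k₀ * g b = 0 := by
        apply eq_zero_of_mulVec E' hE' _ (E'.sub_mem (hle (hgE _)) (E'.mul_mem hk₀ (hle (hgE b)))) a ha
        rw [sub_mulVec, h3, sub_self]
      exact sub_eq_zero.mp h5
    obtain ⟨c, hc, hbc⟩ := hE.2 _ (hgE b) hgb
    have h5 : k₀ = g (k₀ *ᵥ b) * c := by
      rw [h4, mul_assoc, hbc, mul_one]
    rw [h5]
    exact E.mul_mem (hgE _) hc

end A

theorem exists_gen_abs {K : Type*} [Field K] [Fintype K] :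
    ∃ g : K, ∀ m : ℕ, g ^ m = 1 ↔ (Fintype.card K - 1) ∣ m := by
  classical
  obtain ⟨u, hu⟩ := IsCyclic.exists_generator (α := Kˣ)
  refine ⟨(u : K), fun m => ?_⟩
  have h1 : orderOf u = Fintype.card K - 1 := by
    rw [orderOf_eq_card_of_forall_mem_zpowers hu, Nat.card_eq_fintype_card, Fintype.card_units]
  rw [← h1, orderOf_dvd_iff_pow_eq_one, ← Units.val_pow_eq_pow_val, Units.val_eq_one]

section B

variable {ι : Type} [Fintype ι] [DecidableEq ι] {F : Type*} [Field F] [Fintype F]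

theorem exists_gen [Nonempty ι] (K : Subalgebra F (Matrix ι ι F)) (hK : IsF K) :
    ∃ g ∈ K, ∀ m : ℕ, g ^ m = 1 ↔ (Fintype.card F ^ finrank F K - 1) ∣ m := by
  obtain ⟨i₀⟩ := ‹Nonempty ι›
  have hne01 : (0 : Matrix ι ι F) ≠ 1 := by
    intro h
    have h1 := congrFun (congrFun h i₀) i₀
    simp at h1
  have hfE : IsField K := by
    refine ⟨⟨0, 1, fun h => hne01 (congrArg Subtype.val h)⟩, ?_, ?_⟩
    · intro x y
      exact Subtype.ext (hK.1 _ x.2 _ y.2)
    · intro x hx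
      obtain ⟨y, hy, hxy⟩ := hK.2 x.1 x.2 (fun h => hx (Subtype.ext h))
      exact ⟨⟨y, hy⟩, Subtype.ext hxy⟩
  have hfinM : Finite (Matrix ι ι F) := inferInstance
  let fin : Fintype K := Fintype.ofFinite K
  have hcard : Fintype.card K = Fintype.card F ^ finrank F K :=
    Module.card_eq_pow_finrank (K := F) (V := K)
  obtain ⟨g, hg⟩ := @exists_gen_abs K hfE.toField fin
  refine ⟨g.1, g.2, fun m => ?_⟩
  rw [← hcard, ← hg m]
  constructor
  · intro h
    exact Subtype.ext h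
  · intro h
    exact congrArg Subtype.val h

/-- the subfield of `Q`-torsion-type fixed points of `x ↦ x ^ Q` -/
def Lsub (K : Subalgebra F (Matrix ι ι F)) (hK : IsF K) (Q p t : ℕ) [hp : Fact p.Prime] [Nonempty ι]
    [CharP F p] (hQ : Q = p ^ t) (hF : ∀ c : F, c ^ Q = c) : Subalgebra F (Matrix ι ι F) where
  carrier := {k | k ∈ K ∧ k ^ Q = k}
  mul_mem' := by
    rintro a b ⟨ha, ha2⟩ ⟨hb, hb2⟩
    refine ⟨K.mul_mem ha hb, ?_⟩
    have : Commute a b := hK.1 a ha b hb
    rw [this.mul_pow, ha2, hb2]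
  add_mem' := by
    rintro a b ⟨ha, ha2⟩ ⟨hb, hb2⟩
    refine ⟨K.add_mem ha hb, ?_⟩
    have : Commute a b := hK.1 a ha b hb
    rw [hQ] at ha2 hb2 ⊢
    rw [add_pow_char_pow_of_commute p t this, ha2, hb2]
  algebraMap_mem' := by
    intro c
    refine ⟨K.algebraMap_mem c, ?_⟩
    rw [← map_pow, hF]

theorem isF_bot [Nonempty ι] : IsF (⊥ : Subalgebra F (Matrix ι ι F)) := by
  constructor
  · intro x hx y hy
    obtain ⟨a, rfl⟩ := Algebra.mem_bot.mp hx
    obtain ⟨b, rfl⟩ := Algebra.mem_bot.mp hy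
    rw [← map_mul, ← map_mul, mul_comm]
  · intro x hx hx0
    obtain ⟨a, rfl⟩ := Algebra.mem_bot.mp hx
    have ha : a ≠ 0 := by
      rintro rfl
      exact hx0 (map_zero _)
    refine ⟨algebraMap F _ a⁻¹, Algebra.mem_bot.mpr ⟨_, rfl⟩, ?_⟩
    rw [← map_mul, mul_inv_cancel₀ ha, map_one]

end B


/-- Let F be a finite field, n a positive integer and r a composite number (r > 1, not prime) that divides n with r < n. Let K be a subalgebra of the algebra of n × n matrices over F which is a field of degree r over F (commutative, every non-zero element invertible, of dimension r over F). Then the normaliser N of K in GL_n(F) (a group of type ΓL_{n/r}(F_{q^r})) is not a maximal subgroup of GL_n(F), and N ∩ SL_n(F) is not a maximal subgroup of SL_n(F): both lie properly inside the normaliser of an intermediate subfield of prime degree over F. -/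
theorem result {F : Type*} [Field F]
    [Fintype F] (n r : ℕ) (hr1 : 1 < r) (hrp : ¬ r.Prime) (hrn : r ∣ n) (hlt : r < n)
    (K : Subalgebra F (Matrix (Fin n) (Fin n) F)) (hK : Cfsg.Geo.IsFieldSubalgebra r K) :
    ¬ IsCoatom (Cfsg.Geo.subalgebraNormalizer K) ∧
      ¬ Cfsg.Geo.IsMaximalIn (Cfsg.Geo.specialLinear (Fin n) F)
        (Cfsg.Geo.subalgebraNormalizer K ⊓ Cfsg.Geo.specialLinear (Fin n) F) := by
  classical
  have hn : 0 < n := by omega
  haveI : Nonempty (Fin n) := ⟨⟨0, hn⟩⟩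
  have hKF : IsF K := ⟨hK.comm, hK.inv⟩
  obtain ⟨p, hchar⟩ := CharP.exists F
  obtain ⟨f, hpp, hq⟩ := FiniteField.card F p
  haveI hfact : Fact p.Prime := ⟨hpp⟩
  set q := Fintype.card F with hqdef
  have hq2 : 2 ≤ q := Fintype.one_lt_card
  let s := r.minFac
  have hsp : s.Prime := Nat.minFac_prime (by omega)
  have hsr : s ∣ r := Nat.minFac_dvd r
  have hslt : s < r := by
    refine lt_of_le_of_ne (Nat.le_of_dvd (by omega) hsr) ?_
    intro h
    apply hrp
    rw [← h]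
    exact hsp
  have hs2 : 2 ≤ s := hsp.two_le
  set Q := q ^ s with hQ
  have hQp : Q = p ^ ((f : ℕ) * s) := by rw [hQ, hq, pow_mul]
  have hFQ : ∀ c : F, c ^ Q = c := fun c => FiniteField.pow_card_pow s c
  let L := Lsub K hKF Q p _ hQp hFQ
  have hL : ∀ k, k ∈ L ↔ k ∈ K ∧ k ^ Q = k := fun k => Iff.rfl
  have hLK : L ≤ K := fun k hk => hk.1
  have hLF : IsF L := by
    refine ⟨fun x hx y hy => hKF.1 x hx.1 y hy.1, ?_⟩
    intro x hx hx0
    obtain ⟨y, hy, hxy⟩ := hKF.2 x hx.1 hx0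
    refine ⟨y, ⟨hy, ?_⟩, hxy⟩
    have hyx : y * x = 1 := by rw [hKF.1 y hy x hx.1, hxy]
    have hc : Commute x y := hKF.1 x hx.1 y hy
    have h1 : x ^ Q * y ^ Q = 1 := by rw [← hc.mul_pow, hxy, one_pow]
    rw [hx.2] at h1
    calc y ^ Q = (y * x) * y ^ Q := by rw [hyx, one_mul]
      _ = y * (x * y ^ Q) := mul_assoc _ _ _
      _ = y := by rw [h1, mul_one]
  have hNN : Cfsg.Geo.subalgebraNormalizer K ≤ Cfsg.Geo.subalgebraNormalizer L := by
    intro g hg k
    have hg' := hg k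
    rw [hL, hL, Units.conj_pow]
    constructor
    · rintro ⟨h1, h2⟩
      exact ⟨hg'.mp h1, by rw [h2]⟩
    · rintro ⟨h1, h2⟩
      refine ⟨hg'.mpr h1, ?_⟩
      have h3 := congrArg (fun z => ((g⁻¹ : GL (Fin n) F) : Matrix (Fin n) (Fin n) F) * z * (g : Matrix (Fin n) (Fin n) F)) h2
      simpa [mul_assoc] using h3
  obtain ⟨g, hgK, hg⟩ := exists_gen K hKF
  rw [hK.finrank_eq, ← hqdef] at hg
  have hNpos : 0 < q ^ r - 1 := by
    have := Nat.one_lt_pow (by omega : r ≠ 0) (by omega : 1 < q)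
    omega
  have hgN : g ^ (q ^ r - 1) = 1 := (hg _).mpr dvd_rfl
  have hgunit : IsUnit g := by
    refine ⟨⟨g, g ^ (q ^ r - 1 - 1), ?_, ?_⟩, rfl⟩
    · rw [← pow_succ', Nat.sub_add_cancel hNpos, hgN]
    · rw [← pow_succ, Nat.sub_add_cancel hNpos, hgN]
  have hcancel : ∀ a b : ℕ, b ≤ a → g ^ a = g ^ b → g ^ (a - b) = 1 := by
    intro a b hab h
    have h1 : g ^ b * g ^ (a - b) = g ^ b * 1 := by
      rw [← pow_add, Nat.add_sub_cancel' hab, h, mul_one]
    exact (hgunit.pow b).mul_left_cancel h1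
  have hQ1 : 1 ≤ Q := Nat.one_le_pow _ _ (by omega)
  have hgL : g ∉ L := by
    intro h
    have h1 : g ^ Q = g ^ 1 := by rw [h.2, pow_one]
    have h2 := (hg _).mp (hcancel Q 1 hQ1 h1)
    have h3 : Q - 1 > 0 := by
      have := Nat.one_lt_pow (by omega : s ≠ 0) (by omega : 1 < q)
      omega
    have h4 := Nat.le_of_dvd h3 h2
    have h5 : Q < q ^ r := Nat.pow_lt_pow_right (by omega) hslt
    omega
  obtain ⟨d, hd⟩ : Q - 1 ∣ q ^ r - 1 := by
    rw [hQ]
    exact Nat.pow_sub_one_dvd_pow_sub_one _ hsr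
  have hlL : g ^ d ∈ L := by
    refine ⟨K.pow_mem hgK d, ?_⟩
    have h1 : g ^ d * g ^ (d * (Q - 1)) = g ^ d := by
      rw [mul_comm d, ← hd, hgN, mul_one]
    rw [← pow_mul, mul_comm d Q]
    conv_rhs => rw [← h1]
    rw [← pow_add]
    congr 1
    rw [mul_comm d (Q-1), Nat.sub_mul]
    have : d ≤ Q * d := Nat.le_mul_of_pos_left _ (by omega)
    rw [Nat.one_mul, mul_comm Q d]
    have h9 : d ≤ d * Q := by nlinarith
    omega
  have hlbot : g ^ d ∉ (⊥ : Subalgebra F (Matrix (Fin n) (Fin n) F)) := by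
    intro h
    obtain ⟨c, hc⟩ := Algebra.mem_bot.mp h
    have h1 : (g ^ d) ^ q = g ^ d := by
      rw [← hc, ← map_pow, FiniteField.pow_card]
    rw [← pow_mul] at h1
    have hq3 : d * q - d = d * (q - 1) := by rw [Nat.mul_sub, mul_one]
    have h2 := (hg _).mp (hcancel (d * q) d (Nat.le_mul_of_pos_right _ (by omega)) h1)
    rw [hq3, hd] at h2
    have hdpos : 0 < d := by
      rcases Nat.eq_zero_or_pos d with h0 | h0
      · rw [h0, mul_zero] at hd
        omega
      · exact h0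
    have h4 : (Q - 1) * d ∣ (q - 1) * d := by
      rwa [mul_comm d (q - 1)] at h2
    have h5 : Q - 1 ∣ q - 1 := Nat.dvd_of_mul_dvd_mul_right hdpos h4
    have h6 := Nat.le_of_dvd (by omega) h5
    have h7 : q ^ 1 < Q := Nat.pow_lt_pow_right (by omega) (by omega)
    rw [pow_one] at h7
    omega
  have hrankK : finrank F K < Fintype.card (Fin n) := by
    rw [hK.finrank_eq, Fintype.card_fin]
    exact hlt
  have hrankL : finrank F L < Fintype.card (Fin n) := by
    refine lt_of_le_of_lt ?_ hrankK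
    exact Submodule.finrank_mono (R := F) (M := Matrix (Fin n) (Fin n) F) (s := Subalgebra.toSubmodule L) (t := Subalgebra.toSubmodule K) hLK
  obtain ⟨x, hxdet, hxL, hxK⟩ := exists_x L K hLF hKF hLK g hgK hgL hrankK
  obtain ⟨y, hydet, -, hyL⟩ := exists_x ⊥ L isF_bot hLF bot_le _ hlL hlbot hrankL
  have hxNL : x ∈ Cfsg.Geo.subalgebraNormalizer L := by
    intro k
    constructor
    · intro hk
      rw [hxL k hk, mul_assoc, Units.mul_inv, mul_one]
      exact hk
    · intro hk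
      have h1 := hxL _ hk
      set k' := (x : Matrix (Fin n) (Fin n) F) * k * ((x⁻¹ : GL (Fin n) F) : Matrix (Fin n) (Fin n) F) with hk'
      have h2 : k' * x = x * k := by
        rw [hk', mul_assoc, Units.inv_mul, mul_one]
      have h3 : k = k' := by
        have h4 : (x : Matrix (Fin n) (Fin n) F) * k = x * k' := by rw [← h2, h1]
        exact (Units.isUnit x).mul_left_cancel h4
      rw [h3]
      exact hk
  constructor
  · intro hc
    have hlt1 : Cfsg.Geo.subalgebraNormalizer K < Cfsg.Geo.subalgebraNormalizer L :=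
      lt_of_le_of_ne hNN (fun h => hxK (h ▸ hxNL))
    have := hc.2 _ hlt1
    apply hyL
    rw [this]
    trivial
  · rintro ⟨-, hmax⟩
    rcases hmax (Cfsg.Geo.subalgebraNormalizer L ⊓ Cfsg.Geo.specialLinear (Fin n) F)
      (inf_le_inf_right _ hNN) inf_le_right with h | h
    · have h1 : x ∈ Cfsg.Geo.subalgebraNormalizer L ⊓ Cfsg.Geo.specialLinear (Fin n) F :=
        ⟨hxNL, hxdet⟩
      rw [h] at h1
      exact hxK h1.1
    · have h1 : y ∈ Cfsg.Geo.specialLinear (Fin n) F := hydet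
      rw [← h] at h1
      exact hyL h1.1

end Cfsg.Agent.S5887
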