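import Cfsg.Statements.S5895
-- import your own Cfsg.Agent.* helpers here

set_option autoImplicit false
open Cfsg

namespace Cfsg.Agent.S5895

open SemidirectProduct MulAction
open scoped LinearAlgebra.Projectivization

section Affine

variable {k V : Type} [Field k] [AddCommGroup V] [Module k V]

theorem exists_equiv_apply [FiniteDimensional k V] (v w : V) (hv : v ≠ 0) (hw : w ≠ 0) :
    ∃ g : V ≃ₗ[k] V, g v = w := by
  let e₁ := LinearEquiv.toSpanNonzeroSingleton k V v hv
  let e₂ := LinearEquiv.toSpanNonzeroSingleton k V w hw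
  obtain ⟨g, hg⟩ := Submodule.exists_linearEquiv_restrict_eq (e₁.symm.trans e₂)
  refine ⟨g, ?_⟩
  have h1 := hg (e₁ 1)
  simp only [LinearEquiv.trans_apply, LinearEquiv.symm_apply_apply] at h1
  have h2 : ((e₁ 1 : _) : V) = v := by simp [e₁]
  have h3 : ((e₂ 1 : _) : V) = w := by simp [e₂]
  rw [h2, h3] at h1
  exact h1.symm

/-- the action underlying the affine group -/
noncomputable def aφ (k V : Type) [Field k] [AddCommGroup V] [Module k V] :
    (V ≃ₗ[k] V) →* MulAut (Multiplicative V) where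
  toFun g := AddEquiv.toMultiplicative g.toAddEquiv
  map_one' := by ext; rfl
  map_mul' a b := by ext; rfl

abbrev Aff (k V : Type) [Field k] [AddCommGroup V] [Module k V] :=
  Multiplicative V ⋊[aφ k V] (V ≃ₗ[k] V)

theorem aφ_apply (g : V ≃ₗ[k] V) (v : V) :
    aφ k V g (Multiplicative.ofAdd v) = Multiplicative.ofAdd (g v) := rfl

theorem coatom_M [FiniteDimensional k V] [Nontrivial V] :
    IsCoatom ((inr : (V ≃ₗ[k] V) →* Aff k V).range) := by
  constructor
  · intro h
    obtain ⟨v, hv⟩ := exists_ne (0 : V)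
    have h1 : (inl (Multiplicative.ofAdd v) : Aff k V) ∈ (inr : (V ≃ₗ[k] V) →* Aff k V).range := by
      rw [h]; trivial
    obtain ⟨g, hg⟩ := h1
    have := congrArg SemidirectProduct.left hg
    simp only [left_inr, left_inl] at this
    exact hv (Multiplicative.ofAdd.injective this.symm)
  · intro X hX
    obtain ⟨hle, x, hxX, hxM⟩ := SetLike.lt_iff_le_and_exists.mp hX
    have hinr : ∀ g : V ≃ₗ[k] V, (inr g : Aff k V) ∈ X := fun g => hle ⟨g, rfl⟩
    have h1 : (inl x.left : Aff k V) ∈ X := by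
      have : (inl x.left : Aff k V) = x * (inr x.right)⁻¹ := by
        rw [eq_mul_inv_iff_mul_eq]
        exact inl_left_mul_inr_right x
      rw [this]
      exact X.mul_mem hxX (X.inv_mem (hinr _))
    have hx0 : Multiplicative.toAdd x.left ≠ 0 := by
      intro h0
      apply hxM
      refine ⟨x.right, ?_⟩
      have h2 : x.left = 1 := Multiplicative.toAdd.injective h0
      conv_rhs => rw [← inl_left_mul_inr_right x, h2]
      simp
    have hinl : ∀ w : V, (inl (Multiplicative.ofAdd w) : Aff k V) ∈ X := by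
      intro w
      by_cases hw : w = 0
      · subst hw
        have : (Multiplicative.ofAdd (0 : V)) = 1 := rfl
        rw [this, map_one]
        exact X.one_mem
      obtain ⟨g, hg⟩ := exists_equiv_apply (k := k) _ w hx0 hw
      have h2 := inl_aut (φ := aφ k V) g x.left
      have h3 : aφ k V g x.left = Multiplicative.ofAdd w := by
        rw [← hg]; rfl
      rw [h3] at h2
      rw [h2]
      exact X.mul_mem (X.mul_mem (hinr _) h1) (hinr _)
    rw [eq_top_iff]
    intro y _
    rw [← inl_left_mul_inr_right y]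
    exact X.mul_mem (hinl _) (hinr _)

theorem index_M [Finite V] [FiniteDimensional k V] [Finite k] :
    ((inr : (V ≃ₗ[k] V) →* Aff k V).range).index = Nat.card V := by
  have hfin : Finite (V ≃ₗ[k] V) := Finite.of_injective (fun g => (g : V → V)) (fun a b h => by
    ext x; exact congrFun h x)
  have h1 := Subgroup.index_mul_card ((inr : (V ≃ₗ[k] V) →* Aff k V).range)
  rw [SemidirectProduct.card] at h1
  have h2 : Nat.card ((inr : (V ≃ₗ[k] V) →* Aff k V).range) = Nat.card (V ≃ₗ[k] V) :=
    Nat.card_congr (MonoidHom.ofInjective inr_injective).toEquiv.symm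
  rw [h2] at h1
  have h3 : Nat.card (V ≃ₗ[k] V) ≠ 0 := Nat.card_pos.ne'
  have h4 : Nat.card (Multiplicative V) = Nat.card V := rfl
  rw [h4] at h1
  exact Nat.eq_of_mul_eq_mul_right (Nat.pos_of_ne_zero h3) h1

end Affine

/-- Coatoms transfer along an injective hom to its range. -/
theorem coatom_subgroupOf_range {L G : Type*} [Group L] [Group G] (f : L →* G)
    (hf : Function.Injective f) (H : Subgroup L) (hH : IsCoatom H) :
    IsCoatom ((H.map f).subgroupOf f.range) := by
  have h1 : (H.map f).subgroupOf f.range = H.map (MonoidHom.ofInjective hf : L ≃* f.range).toMonoidHom := by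
    ext ⟨x, hx⟩
    simp only [Subgroup.mem_subgroupOf, Subgroup.mem_map]
    constructor
    · rintro ⟨a, ha, rfl⟩
      exact ⟨a, ha, Subtype.ext rfl⟩
    · rintro ⟨a, ha, h⟩
      exact ⟨a, ha, congrArg Subtype.val h⟩
  rw [h1]
  exact ((MonoidHom.ofInjective hf : L ≃* f.range).mapSubgroup.isCoatom_iff H).mpr hH

section Main

variable {k V : Type} [Field k] [AddCommGroup V] [Module k V]

theorem stab_span (e : V) (he : e ≠ 0) (g : V ≃ₗ[k] V)
    (hg : g ∈ stabilizer (V ≃ₗ[k] V) (Projectivization.mk k e he)) (v : V)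
    (hv : v ∈ Submodule.span k {e}) : g v ∈ Submodule.span k {e} := by
  rw [mem_stabilizer_iff, Projectivization.smul_mk, Projectivization.mk_eq_mk_iff] at hg
  obtain ⟨a, ha⟩ := hg
  obtain ⟨c, rfl⟩ := Submodule.mem_span_singleton.mp hv
  rw [map_smul]
  apply Submodule.smul_mem
  have h1 : g e = a • e := ha.symm
  rw [h1]
  exact Submodule.smul_mem _ _ (Submodule.mem_span_singleton_self e)

/-- The intermediate subgroup `⟨e⟩ ⋊ H₀`. -/
def Jsub (e : V) (he : e ≠ 0) : Subgroup (Aff k V) where
  carrier := {x | Multiplicative.toAdd x.left ∈ Submodule.span k {e} ∧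
    x.right ∈ stabilizer (V ≃ₗ[k] V) (Projectivization.mk k e he)}
  mul_mem' := by
    rintro a b ⟨ha1, ha2⟩ ⟨hb1, hb2⟩
    refine ⟨?_, Subgroup.mul_mem _ ha2 hb2⟩
    rw [mul_left]
    exact Submodule.add_mem _ ha1 (stab_span e he _ ha2 _ hb1)
  one_mem' := ⟨Submodule.zero_mem _, Subgroup.one_mem _⟩
  inv_mem' := by
    rintro a ⟨ha1, ha2⟩
    refine ⟨?_, Subgroup.inv_mem _ ha2⟩
    rw [inv_left]
    exact stab_span e he _ (Subgroup.inv_mem _ ha2) _ (Submodule.neg_mem _ ha1)

theorem main_aff [FiniteDimensional k V] (e w : V) (he : e ≠ 0) (hw : w ∉ Submodule.span k {e}) :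
    ∃ (H K : Subgroup (Aff k V)), H ≤ (inr : (V ≃ₗ[k] V) →* Aff k V).range ∧
      IsCoatom (H.subgroupOf (inr : (V ≃ₗ[k] V) →* Aff k V).range) ∧ IsCoatom K ∧ H ≤ K ∧
      ¬ IsCoatom (H.subgroupOf K) := by
  have hw0 : w ≠ 0 := fun h => hw (h ▸ Submodule.zero_mem _)
  have hnt : Nontrivial (ℙ k V) := by
    refine ⟨⟨Projectivization.mk k e he, Projectivization.mk k w hw0, ?_⟩⟩
    intro h
    rw [Projectivization.mk_eq_mk_iff] at h
    obtain ⟨a, ha⟩ := h
    apply hw
    have h1 : a • w = e := ha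
    have h2 : w = (a⁻¹ : kˣ) • e := by rw [← h1]; simp
    rw [h2]
    exact Submodule.smul_mem _ _ (Submodule.mem_span_singleton_self e)
  have hprim : IsPreprimitive (V ≃ₗ[k] V) (ℙ k V) :=
    isPreprimitive_of_is_two_pretransitive (Projectivization.linearEquiv_is_two_pretransitive k V)
  set H₀ := stabilizer (V ≃ₗ[k] V) (Projectivization.mk k e he) with hH₀
  have hH₀c : IsCoatom H₀ := IsPreprimitive.isCoatom_stabilizer_of_isPreprimitive _ _
  refine ⟨H₀.map inr, H₀.comap rightHom, ?_, ?_, ?_, ?_, ?_⟩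
  · rintro _ ⟨g, _, rfl⟩
    exact ⟨g, rfl⟩
  · exact coatom_subgroupOf_range inr inr_injective H₀ hH₀c
  · exact Subgroup.isCoatom_comap_of_surjective rightHom_surjective hH₀c
  · rintro _ ⟨g, hg, rfl⟩
    simpa [Subgroup.mem_comap, rightHom_inr] using hg
  · intro hc
    have hJ1 : (H₀.map inr).subgroupOf (H₀.comap rightHom) ≤ (Jsub (k := k) e he).subgroupOf (H₀.comap rightHom) := by
      rintro ⟨x, hx⟩ hx2
      rw [Subgroup.mem_subgroupOf] at hx2 ⊢
      obtain ⟨g, hg, rfl⟩ := hx2
      exact ⟨Submodule.zero_mem _, hg⟩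
    have hmemK : ∀ v : V, (inl (Multiplicative.ofAdd v) : Aff k V) ∈ H₀.comap rightHom := by
      intro v
      rw [Subgroup.mem_comap, rightHom_inl]
      exact Subgroup.one_mem _
    have hJ2 : (H₀.map inr).subgroupOf (H₀.comap rightHom) < (Jsub (k := k) e he).subgroupOf (H₀.comap rightHom) := by
      refine lt_of_le_of_ne hJ1 ?_
      intro h
      have h1 : (⟨inl (Multiplicative.ofAdd e), hmemK e⟩ : H₀.comap rightHom) ∈
          (Jsub (k := k) e he).subgroupOf (H₀.comap rightHom) := by
        rw [Subgroup.mem_subgroupOf]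
        exact ⟨Submodule.mem_span_singleton_self e, Subgroup.one_mem _⟩
      rw [← h, Subgroup.mem_subgroupOf] at h1
      obtain ⟨g, hg, hg2⟩ := h1
      have h2 := congrArg SemidirectProduct.left hg2
      simp only [left_inr, left_inl] at h2
      exact he (Multiplicative.ofAdd.injective h2.symm)
    have h3 := hc.2 _ hJ2
    have h4 : (⟨inl (Multiplicative.ofAdd w), hmemK w⟩ : H₀.comap rightHom) ∈
        (Jsub (k := k) e he).subgroupOf (H₀.comap rightHom) := by
      rw [h3]; trivial
    rw [Subgroup.mem_subgroupOf] at h4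
    exact hw h4.1

end Main


/-- For every prime p and every d ≥ 2 there is a finite group G with a maximal subgroup M of index p^d and a maximal subgroup H of M that is not second maximal in G: some maximal subgroup K of G contains H without H being maximal in K. (One may take G the affine group V ⋊ GL(V) of V = 𝔽_p^d, M = GL(V), H the stabiliser in M of a line W of V, and K = V ⋊ H, with H < W ⋊ H < K.) So the prime-index hypothesis in the second-maximality criterion cannot be relaxed to prime-power index. -/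
theorem result (p d : ℕ) (hp : p.Prime)
    (hd : 2 ≤ d) :
    ∃ (G : Type) (_ : Group G) (_ : Finite G) (M H K : Subgroup G), IsCoatom M ∧ M.index = p ^ d ∧ H ≤ M ∧
      IsCoatom (H.subgroupOf M) ∧ IsCoatom K ∧ H ≤ K ∧ ¬ IsCoatom (H.subgroupOf K) := by
  have hfact : Fact p.Prime := ⟨hp⟩
  let V := Fin d → ZMod p
  have hd0 : 0 < d := by omega
  let i₀ : Fin d := ⟨0, hd0⟩
  let i₁ : Fin d := ⟨1, by omega⟩
  let e : V := Pi.single i₀ 1
  let w : V := Pi.single i₁ 1
  have hne : i₀ ≠ i₁ := by simp [i₀, i₁, Fin.ext_iff]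
  have he : e ≠ 0 := by
    intro h
    have h1 : (Pi.single i₀ (1 : ZMod p) : Fin d → ZMod p) i₀ = (0 : Fin d → ZMod p) i₀ := congrFun h i₀
    rw [Pi.single_eq_same] at h1
    exact one_ne_zero h1
  have hw : w ∉ Submodule.span (ZMod p) {e} := by
    intro h
    obtain ⟨c, hc⟩ := Submodule.mem_span_singleton.mp h
    have h1 : c * (Pi.single i₀ (1 : ZMod p) : Fin d → ZMod p) i₁ = (Pi.single i₁ (1 : ZMod p) : Fin d → ZMod p) i₁ := congrFun hc i₁
    rw [Pi.single_eq_same, Pi.single_eq_of_ne hne.symm, mul_zero] at h1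
    exact zero_ne_one h1
  have hnt : Nontrivial V := ⟨⟨e, 0, he⟩⟩
  obtain ⟨H, K, h1, h2, h3, h4, h5⟩ := main_aff (k := ZMod p) e w he hw
  refine ⟨Aff (ZMod p) V, inferInstance, ?_, (inr : (V ≃ₗ[ZMod p] V) →* Aff (ZMod p) V).range, H, K, coatom_M, ?_, h1, h2, h3, h4, h5⟩
  · have hfin : Finite (V ≃ₗ[ZMod p] V) := Finite.of_injective (fun g => (g : V → V)) (fun a b h => by
      ext x; exact congrFun (congrFun h x) _)
    exact Finite.of_equiv _ (SemidirectProduct.equivProd (φ := aφ (ZMod p) V)).symm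
  · rw [index_M]
    simp [V]

end Cfsg.Agent.S5895
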