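import Cfsg.Statements.S5896
-- import your own Cfsg.Agent.* helpers here

set_option autoImplicit false
open Cfsg

namespace Cfsg.Agent.S5896

open SemidirectProduct MulAction
open scoped commutatorElement

section Step

variable {G : Type} [Group G] {N : Type} [AddCommGroup N] (φ : G →* MulAut (Multiplicative N))

/-- the additive action attached to `φ` -/
def act (g : G) (u : N) : N := Multiplicative.toAdd (φ g (Multiplicative.ofAdd u))

theorem act_add (g : G) (u v : N) : act φ g (u + v) = act φ g u + act φ g v := by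
  simp only [act, ofAdd_add, map_mul, toAdd_mul]

theorem act_mul (g h : G) (u : N) : act φ (g * h) u = act φ g (act φ h u) := by
  simp only [act, map_mul, ofAdd_toAdd, MulAut.mul_apply]

theorem act_one (u : N) : act φ 1 u = u := by
  simp only [act, map_one, MulAut.one_apply, toAdd_ofAdd]

theorem act_sub (g : G) (u v : N) : act φ g (u - v) = act φ g u - act φ g v := by
  simp only [act, ofAdd_sub, map_div, toAdd_div]

theorem act_pow (g : G) (m : ℕ) (u w : N) (h1 : act φ g u = u + w) (h2 : act φ g w = w) :
    act φ (g ^ m) u = u + m • w := by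
  induction m with
  | zero => simp [act_one]
  | succ m ih =>
    rw [pow_succ, act_mul, h1, act_add, ih]
    have h3 : ∀ k : ℕ, act φ (g ^ k) w = w := by
      intro k
      induction k with
      | zero => simp [act_one]
      | succ k ihk => rw [pow_succ, act_mul, h2, ihk]
    rw [h3, succ_nsmul]
    abel

theorem conj_inl (z : Multiplicative N ⋊[φ] G) (n : Multiplicative N) :
    z * inl n * z⁻¹ = inl (φ z.right n) := by
  have h1 : z = inl z.left * inr z.right := (inl_left_mul_inr_right z).symm
  have h2 : (inr z.right : Multiplicative N ⋊[φ] G) * inl n * (inr z.right)⁻¹ = inl (φ z.right n) := by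
    rw [inl_aut]; simp
  calc z * inl n * z⁻¹ = inl z.left * ((inr z.right : Multiplicative N ⋊[φ] G) * inl n * (inr z.right)⁻¹) * (inl z.left)⁻¹ := by
        conv_lhs => rw [h1]
        group
    _ = inl (z.left * φ z.right n * z.left⁻¹) := by rw [h2, map_mul, map_mul, map_inv]
    _ = inl (φ z.right n) := by rw [mul_comm z.left, mul_assoc, mul_inv_cancel, mul_one]

theorem comm_inl (z : Multiplicative N ⋊[φ] G) (u : N) :
    ⁅z, (inl (Multiplicative.ofAdd u) : Multiplicative N ⋊[φ] G)⁆ =
      inl (Multiplicative.ofAdd (act φ z.right u - u)) := by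
  rw [commutatorElement_def, conj_inl, ← map_inv, ← map_mul]
  congr 1
  simp only [act, ofAdd_sub, ofAdd_toAdd, div_eq_mul_inv]

theorem perfect_step (ha : ∀ u : N, u ∈ AddSubgroup.closure {w | ∃ (g : G) (v : N), w = act φ g v - v})
    (hcomm : commutator G = ⊤) : commutator (Multiplicative N ⋊[φ] G) = ⊤ := by
  set C := commutator (Multiplicative N ⋊[φ] G) with hC
  have hinl : ∀ u : N, (inl (Multiplicative.ofAdd u) : Multiplicative N ⋊[φ] G) ∈ C := by
    intro u
    induction ha u using AddSubgroup.closure_induction with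
    | mem w hw =>
      obtain ⟨g, v, rfl⟩ := hw
      have h1 := comm_inl φ (inr g) v
      rw [right_inr] at h1
      rw [← h1]
      exact Subgroup.commutator_mem_commutator (Subgroup.mem_top _) (Subgroup.mem_top _)
    | zero => exact C.one_mem
    | add a b _ _ ha hb =>
      rw [ofAdd_add, map_mul]
      exact C.mul_mem ha hb
    | neg a _ ha =>
      rw [ofAdd_neg, map_inv]
      exact C.inv_mem ha
  have hinr : ∀ g : G, (inr g : Multiplicative N ⋊[φ] G) ∈ C := by
    intro g
    have h1 : g ∈ commutator G := by rw [hcomm]; trivial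
    have h2 : (commutator G).map (inr : G →* Multiplicative N ⋊[φ] G) ≤ C := by
      rw [commutator_def, Subgroup.map_commutator]
      exact Subgroup.commutator_mono le_top le_top
    exact h2 ⟨g, h1, rfl⟩
  rw [eq_top_iff]
  intro z _
  rw [← inl_left_mul_inr_right z]
  exact C.mul_mem (hinl _) (hinr _)

theorem solvable_step (H : Subgroup G) (hsolv : Group.IsSolvable H) :
    Group.IsSolvable (H.comap (rightHom : Multiplicative N ⋊[φ] G →* G)) := by
  let f : Multiplicative N →* H.comap (rightHom : Multiplicative N ⋊[φ] G →* G) :=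
    MonoidHom.codRestrict inl _ (fun n => by
      rw [Subgroup.mem_comap, rightHom_inl]; exact H.one_mem)
  let g := (rightHom : Multiplicative N ⋊[φ] G →* G).subgroupComap H
  refine Group.isSolvable_of_ker_le_range f g ?_
  rintro ⟨z, hz⟩ hz2
  have h1 : z.right = 1 := congrArg Subtype.val (MonoidHom.mem_ker.mp hz2)
  refine ⟨z.left, Subtype.ext ?_⟩
  show inl z.left = z
  rw [← inl_left_mul_inr_right z, h1]
  simp

theorem length_step [Finite G] (hN : ∀ w : N, (Nat.card G) • w = 0 → w = 0)
    (hb : ∀ x : G, x ≠ 1 → ∃ u : N, act φ x u ≠ u) (H : Subgroup G) (d : ℕ)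
    (hd : derivedSeries H d ≠ ⊥) :
    derivedSeries (H.comap (rightHom : Multiplicative N ⋊[φ] G →* G)) (d + 1) ≠ ⊥ := by
  set H' := H.comap (rightHom : Multiplicative N ⋊[φ] G →* G) with hH'
  obtain ⟨x, hx⟩ := Subgroup.ne_bot_iff_exists_ne_one.mp hd
  have hxmem : (x : H) ∈ derivedSeries H d := x.2
  have hx1 : ((x : H) : G) ≠ 1 := by
    intro h
    exact hx (Subtype.ext (Subtype.ext h))
  set X : G := ((x : H) : G) with hX
  let T : N → N := fun u => act φ X u - u
  have hfix : ∀ u, T u ≠ 0 → T (T u) ≠ 0 := by
    intro u hu h0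
    apply hu
    have h1 : act φ X (T u) = T u := sub_eq_zero.mp h0
    have h2 : act φ X u = u + T u := by simp [T]
    have h3 := act_pow φ X (Nat.card G) u (T u) h2 h1
    rw [pow_card_eq_one', act_one] at h3
    exact hN _ (left_eq_add.mp h3)
  obtain ⟨u₀, hu₀⟩ := hb X hx1
  have hT0 : T u₀ ≠ 0 := sub_ne_zero.mpr hu₀
  have hTne : ∀ j : ℕ, T (T^[j] u₀) ≠ 0 := by
    intro j
    induction j with
    | zero => exact hT0
    | succ j ih =>
      rw [Function.iterate_succ_apply']
      exact hfix _ ih
  let π := (rightHom : Multiplicative N ⋊[φ] G →* G).subgroupComap H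
  have hπ : Function.Surjective π :=
    MonoidHom.subgroupComap_surjective_of_surjective _ _ rightHom_surjective
  have hinl : ∀ u : N, (inl (Multiplicative.ofAdd u) : Multiplicative N ⋊[φ] G) ∈ H' := by
    intro u
    rw [hH', Subgroup.mem_comap, rightHom_inl]
    exact H.one_mem
  have hclaim : ∀ j : ℕ, j ≤ d + 1 → ∀ u : N,
      (⟨inl (Multiplicative.ofAdd (T^[j] u)), hinl _⟩ : H') ∈ derivedSeries H' j := by
    intro j
    induction j with
    | zero =>
      intro _ u
      rw [derivedSeries_zero]
      trivial
    | succ j ih =>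
      intro hj u
      have hxj : (x : H) ∈ derivedSeries H j :=
        derivedSeries_antitone (G := H) (by omega : j ≤ d) hxmem
      rw [← map_derivedSeries_eq hπ] at hxj
      obtain ⟨z, hz, hzx⟩ := hxj
      have hzr : (z : Multiplicative N ⋊[φ] G).right = X := by
        have := congrArg Subtype.val hzx
        exact this
      have h1 := ih (by omega) u
      rw [derivedSeries_succ]
      have h2 := Subgroup.commutator_mem_commutator hz h1
      have h3 : ⁅z, (⟨inl (Multiplicative.ofAdd (T^[j] u)), hinl _⟩ : H')⁆ =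
          (⟨inl (Multiplicative.ofAdd (T^[j + 1] u)), hinl _⟩ : H') := by
        apply Subtype.ext
        show ⁅(z : Multiplicative N ⋊[φ] G), (inl (Multiplicative.ofAdd (T^[j] u)) : Multiplicative N ⋊[φ] G)⁆ = _
        rw [comm_inl, hzr, Function.iterate_succ_apply']
      rw [h3] at h2
      exact h2
  have h4 := hclaim (d + 1) le_rfl u₀
  intro h5
  rw [h5, Subgroup.mem_bot] at h4
  have h6 := congrArg (fun z : H' => (z : Multiplicative N ⋊[φ] G).left) h4
  simp only [left_inl] at h6
  have h7 : T^[d + 1] u₀ = 0 := Multiplicative.ofAdd.injective h6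
  rw [Function.iterate_succ_apply'] at h7
  exact hTne d h7

end Step

section Sumzero

variable (G : Type) [Group G] [Fintype G] (p : ℕ)

/-- Sum-zero functions. -/
def Isum : AddSubgroup (G → ZMod p) where
  carrier := {f | ∑ y, f y = 0}
  add_mem' := by
    intro a b ha hb
    simp only [Set.mem_ofPred_eq, Pi.add_apply, Finset.sum_add_distrib] at *
    rw [ha, hb, add_zero]
  zero_mem' := by simp
  neg_mem' := by
    intro a ha
    simp only [Set.mem_ofPred_eq, Pi.neg_apply, Finset.sum_neg_distrib] at *
    rw [ha, neg_zero]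

variable {G p}

theorem sum_shift (g : G) (f : G → ZMod p) : ∑ y, f (g * y) = ∑ y, f y :=
  Equiv.sum_comp (Equiv.mulLeft g) f

/-- translation on `Isum` -/
def actI (g : G) : Isum G p ≃+ Isum G p where
  toFun u := ⟨fun y => u.1 (g⁻¹ * y), by
    show ∑ y, u.1 (g⁻¹ * y) = 0
    rw [sum_shift]; exact u.2⟩
  invFun u := ⟨fun y => u.1 (g * y), by
    show ∑ y, u.1 (g * y) = 0
    rw [sum_shift]; exact u.2⟩
  left_inv u := by
    apply Subtype.ext
    funext y
    simp
  right_inv u := by
    apply Subtype.ext
    funext y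
    simp
  map_add' a b := by
    apply Subtype.ext
    funext y
    rfl

/-- the action hom on `Multiplicative (Isum G p)` -/
def φI (G : Type) [Group G] [Fintype G] (p : ℕ) : G →* MulAut (Multiplicative (Isum G p)) where
  toFun g := AddEquiv.toMultiplicative (actI g)
  map_one' := by
    ext u y
    show (Multiplicative.toAdd u).1 (1⁻¹ * y) = (Multiplicative.toAdd u).1 y
    simp
  map_mul' a b := by
    ext u y
    show (Multiplicative.toAdd u).1 ((a * b)⁻¹ * y) = (Multiplicative.toAdd u).1 (b⁻¹ * (a⁻¹ * y))
    simp [mul_assoc]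

theorem act_φI_apply (g : G) (u : Isum G p) (y : G) : (act (φI G p) g u).1 y = u.1 (g⁻¹ * y) := rfl

end Sumzero

section Instance

set_option linter.unusedSectionVars false

variable {G : Type} [Group G] [Fintype G] {p : ℕ} [hp : Fact p.Prime]

theorem hN_I (hm : ((Fintype.card G : ℕ) : ZMod p) ≠ 0) (w : Isum G p)
    (h : (Nat.card G) • w = 0) : w = 0 := by
  apply Subtype.ext
  funext y
  have h1 := congrFun (congrArg Subtype.val h) y
  have h2 : ((Fintype.card G : ℕ) : ZMod p) * w.1 y = 0 := by
    have h3 : ((Nat.card G) • w).1 y = (Nat.card G) • (w.1 y) := rfl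
    rw [h3, Nat.card_eq_fintype_card, nsmul_eq_mul] at h1
    exact h1
  exact (mul_eq_zero.mp h2).resolve_left hm

theorem ha_I (hm : ((Fintype.card G : ℕ) : ZMod p) ≠ 0) (u : Isum G p) :
    u ∈ AddSubgroup.closure {w | ∃ (g : G) (v : Isum G p), w = act (φI G p) g v - v} := by
  classical
  set c : ZMod p := ((Fintype.card G : ℕ) : ZMod p)⁻¹ with hc
  have hcu : ∑ y : G, c * u.1 y = 0 := by
    rw [← Finset.mul_sum]
    have : ∑ y, u.1 y = 0 := u.2
    rw [this, mul_zero]
  let v : Isum G p := ⟨fun y => -(c * u.1 y), by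
    show ∑ y, -(c * u.1 y) = 0
    rw [Finset.sum_neg_distrib, hcu, neg_zero]⟩
  have h1 : u = ∑ g : G, (act (φI G p) g v - v) := by
    apply Subtype.ext
    funext y
    have h2 : ((∑ g : G, (act (φI G p) g v - v) : Isum G p) : G → ZMod p) y
        = ∑ g : G, (-(c * u.1 (g⁻¹ * y)) + c * u.1 y) := by
      rw [AddSubmonoidClass.coe_finsetSum, Finset.sum_apply]
      apply Finset.sum_congr rfl
      intro g _
      show -(c * u.1 (g⁻¹ * y)) - -(c * u.1 y) = _
      ring
    rw [h2, Finset.sum_add_distrib, Finset.sum_const, Finset.card_univ, nsmul_eq_mul]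
    have h3 : ∑ g : G, u.1 (g⁻¹ * y) = 0 := by
      have : ∑ g : G, u.1 (g⁻¹ * y) = ∑ z, u.1 z :=
        Equiv.sum_comp ((Equiv.inv G).trans (Equiv.mulRight y)) u.1
      rw [this]; exact u.2
    rw [Finset.sum_neg_distrib, ← Finset.mul_sum, h3, mul_zero, neg_zero, zero_add, hc, ← mul_assoc,
      mul_inv_cancel₀ hm, one_mul]
  rw [h1]
  exact AddSubgroup.sum_mem _ fun g _ => AddSubgroup.subset_closure ⟨g, v, rfl⟩

theorem hb_I (hp2 : (2 : ZMod p) ≠ 0) (x : G) (hx : x ≠ 1) :
    ∃ u : Isum G p, act (φI G p) x u ≠ u := by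
  classical
  let u : Isum G p := ⟨Pi.single 1 1 - Pi.single x 1, by
    show ∑ y, (Pi.single (1 : G) (1 : ZMod p) - Pi.single x 1 : G → ZMod p) y = 0
    simp [Finset.sum_sub_distrib]⟩
  refine ⟨u, fun h => ?_⟩
  have h1 := congrFun (congrArg Subtype.val h) x
  have h2 : (act (φI G p) x u).1 x = u.1 (x⁻¹ * x) := rfl
  rw [h2, inv_mul_cancel] at h1
  have h3 : u.1 1 = 1 := by
    show (Pi.single (1 : G) (1 : ZMod p) - Pi.single x 1 : G → ZMod p) 1 = 1
    simp [Pi.single_apply, hx.symm]
  have h4 : u.1 x = -1 := by
    show (Pi.single (1 : G) (1 : ZMod p) - Pi.single x 1 : G → ZMod p) x = -1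
    simp [Pi.single_apply, hx]
  rw [h3, h4] at h1
  apply hp2
  linear_combination h1

end Instance

section Base

open Equiv.Perm in
theorem solvable_A4 {α : Type} [Fintype α] [DecidableEq α] (h : Nat.card α = 4) :
    Group.IsSolvable (alternatingGroup α) := by
  have h1 := alternatingGroup.kleinFour_eq_commutator h
  have h2 := alternatingGroup.kleinFour_isKleinFour h
  have h3 : Group.IsSolvable (commutator (alternatingGroup α)) := by
    rw [← h1]
    have : IsMulCommutative (alternatingGroup.kleinFour α) := IsKleinFour.isMulCommutative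
    exact Group.isSolvable_of_comm (fun a b => this.is_comm.comm a b)
  have h4 : Group.IsSolvable (Abelianization (alternatingGroup α)) :=
    Group.isSolvable_of_comm (fun a b => mul_comm a b)
  refine Group.isSolvable_of_ker_le_range (commutator (alternatingGroup α)).subtype
    (Abelianization.of : alternatingGroup α →* Abelianization (alternatingGroup α)) ?_
  rw [Abelianization.ker_of, Subgroup.range_subtype]

theorem solvable_stab {α : Type} [Fintype α] [DecidableEq α] (h : Nat.card α = 5) (a : α) :
    Group.IsSolvable (stabilizer (alternatingGroup α) a) := by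
  classical
  have hc : Nat.card {x : α // x ≠ a} = 4 := by
    rw [Nat.card_eq_fintype_card] at h ⊢
    rw [Fintype.card_subtype_compl, h]
    simp
  have hs := solvable_A4 hc
  have hfix : ∀ g : stabilizer (alternatingGroup α) a, (g.1.1 : Equiv.Perm α) a = a := fun g => g.2
  have hp : ∀ g : stabilizer (alternatingGroup α) a, ∀ x, (g.1.1 : Equiv.Perm α) x ≠ a ↔ x ≠ a := by
    intro g x
    rw [not_iff_not]
    constructor
    · intro hx
      have := (g.1.1 : Equiv.Perm α).injective (hx.trans (hfix g).symm)
      exact this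
    · rintro rfl
      exact hfix g
  let f : stabilizer (alternatingGroup α) a →* alternatingGroup {x : α // x ≠ a} :=
    { toFun := fun g => ⟨(g.1.1 : Equiv.Perm α).subtypePerm (hp g), by
        rw [Equiv.Perm.mem_alternatingGroup, Equiv.Perm.sign_subtypePerm]
        · exact g.1.2
        · intro x hx hxa
          subst hxa
          exact hx (hfix g)⟩
      map_one' := by
        apply Subtype.ext
        ext x
        rfl
      map_mul' := by
        intro x y
        apply Subtype.ext
        ext z
        rfl }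
  refine Group.isSolvable_of_isSolvable_injective (f := f) ?_
  intro x y hxy
  apply Subtype.ext
  apply Subtype.ext
  ext z
  by_cases hz : z = a
  · subst hz
    rw [hfix x, hfix y]
  · have h1 := congrArg Subtype.val hxy
    have h2 := congrArg (fun p : Equiv.Perm {x : α // x ≠ a} => (p ⟨z, hz⟩ : α)) h1
    exact h2

end Base

theorem exists_all (d : ℕ) : ∃ (G : Type) (_ : Group G) (_ : Finite G) (H : Subgroup G),
    commutator G = ⊤ ∧ IsCoatom H ∧ Group.IsSolvable H ∧ derivedSeries H d ≠ ⊥ := by
  induction d with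
  | zero =>
    refine ⟨alternatingGroup (Fin 5), inferInstance, inferInstance, stabilizer _ (4 : Fin 5),
      ?_, ?_, solvable_stab (by simp) _, ?_⟩
    · exact commutator_alternatingGroup_eq_top (by simp)
    · have : IsPreprimitive (alternatingGroup (Fin 5)) (Fin 5) :=
        alternatingGroup.isPreprimitive_of_three_le_card _ (by simp)
      exact IsPreprimitive.isCoatom_stabilizer_of_isPreprimitive _ _
    · rw [derivedSeries_zero]
      intro h
      have h1 : (⟨⟨Equiv.swap 0 1 * Equiv.swap 1 2, Equiv.Perm.mem_alternatingGroup.mpr (by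
            rw [map_mul, Equiv.Perm.sign_swap (by decide), Equiv.Perm.sign_swap (by decide)]; rfl)⟩,
            (by show (Equiv.swap (0 : Fin 5) 1 * Equiv.swap (1 : Fin 5) 2 : Equiv.Perm (Fin 5)) 4 = 4; decide)⟩ :
          stabilizer (alternatingGroup (Fin 5)) (4 : Fin 5)) ∈
            (⊤ : Subgroup (stabilizer (alternatingGroup (Fin 5)) (4 : Fin 5))) := trivial
      rw [h, Subgroup.mem_bot] at h1
      have h2 := congrArg (fun x : stabilizer (alternatingGroup (Fin 5)) (4 : Fin 5) => (x.1.1 : Equiv.Perm (Fin 5)) 0) h1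
      revert h2
      decide
  | succ d ih =>
    obtain ⟨G, _, _, H, hc, hcoat, hs, hd⟩ := ih
    have := Fintype.ofFinite G
    obtain ⟨p, hpbig, hpp⟩ := Nat.exists_infinite_primes (Fintype.card G + 3)
    have : Fact p.Prime := ⟨hpp⟩
    have hm : ((Fintype.card G : ℕ) : ZMod p) ≠ 0 := by
      rw [Ne, ZMod.natCast_eq_zero_iff]
      exact Nat.not_dvd_of_pos_of_lt Fintype.card_pos (by omega)
    have h2 : (2 : ZMod p) ≠ 0 := by
      have : (2 : ZMod p) = ((2 : ℕ) : ZMod p) := by norm_cast
      rw [this, Ne, ZMod.natCast_eq_zero_iff]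
      exact Nat.not_dvd_of_pos_of_lt (by norm_num) (by omega)
    refine ⟨Multiplicative (Isum G p) ⋊[φI G p] G, inferInstance, ?_,
      H.comap (rightHom : Multiplicative (Isum G p) ⋊[φI G p] G →* G),
      perfect_step _ (ha_I hm) hc, Subgroup.isCoatom_comap_of_surjective rightHom_surjective hcoat,
      solvable_step _ _ hs, length_step _ (hN_I hm) (hb_I h2) H d hd⟩
    exact Finite.of_equiv _ (SemidirectProduct.equivProd (φ := φI G p)).symm


/-- Finite perfect groups have solvable maximal subgroups of unbounded derived length: for every d there is a finite perfect group G (equal to its commutator subgroup) with a solvable maximal subgroup H whose derived length exceeds d, i.e. the d-th term of the derived series of H is non-trivial. (Take the derived subgroup of a wreath product S ≀ A₅ with S solvable of large derived length, and H the preimage of a maximal subgroup of A₅.) -/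
theorem result (d : ℕ) :
    ∃ (G : Type) (_ : Group G) (_ : Finite G) (H : Subgroup G), commutator G = ⊤ ∧ IsCoatom H ∧ Group.IsSolvable H ∧
      derivedSeries H d ≠ ⊥ := by
  exact exists_all d

end Cfsg.Agent.S5896
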