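import Cfsg.Statements.S5901
-- import your own Cfsg.Agent.* helpers here

set_option autoImplicit false
open Cfsg

namespace Cfsg.Agent.S5901

/-- Let G be a finite group and T ≤ X subgroups with X proper. Suppose the interval [T, X] of the subgroup lattice is complemented (every Y with T ≤ Y ≤ X has some C with T ≤ C ≤ X, Y ⊔ C = X and Y ⊓ C = T), and that X lies in exactly one maximal subgroup M of G. Then every subgroup H of G with H not contained in M and H ⊓ T = 1 has a complement in the subgroup lattice of G: some C with H ⊔ C = G and H ⊓ C = 1. -/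
theorem result {G : Type*} [Group G] [Finite G] (T X M : Subgroup G)
    (hTX : T ≤ X) (hX : X ≠ ⊤)
    (hint : ∀ Y : Subgroup G, T ≤ Y → Y ≤ X → ∃ C : Subgroup G, T ≤ C ∧ C ≤ X ∧ Y ⊔ C = X ∧ Y ⊓ C = T)
    (hM : IsCoatom M) (hXM : X ≤ M) (huniq : ∀ M' : Subgroup G, IsCoatom M' → X ≤ M' → M' = M)
    (H : Subgroup G) (hH : ¬ H ≤ M) (hHT : H ⊓ T = ⊥) :
    ∃ C : Subgroup G, H ⊔ C = ⊤ ∧ H ⊓ C = ⊥ := by
    classical
  -- the complement of Y = (H ⊓ X) ⊔ T in the interval [T, X]
  obtain ⟨C, hTC, hCX, hYC, hYC'⟩ := hint ((H ⊓ X) ⊔ T) le_sup_right (sup_le inf_le_right hTX)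
  refine ⟨C, ?_, ?_⟩
  · by_contra hne
    -- H ⊔ C contains X
    have hX' : X ≤ H ⊔ C := by
      rw [← hYC]
      refine sup_le (sup_le (inf_le_left.trans le_sup_left) (hTC.trans le_sup_right)) le_sup_right
    obtain ⟨M', hM', hle⟩ := (eq_top_or_exists_le_coatom (H ⊔ C)).resolve_left hne
    have hXM' : X ≤ M' := hX'.trans hle
    have := huniq M' hM' hXM'
    subst this
    exact hH (le_sup_left.trans hle)
  · -- H ⊓ C ≤ (H ⊓ X) ⊔ T ⊓ C = T, so H ⊓ C ≤ H ⊓ T = ⊥
    have h1 : H ⊓ C ≤ ((H ⊓ X) ⊔ T) ⊓ C := by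
      refine le_inf ?_ inf_le_right
      refine le_trans ?_ le_sup_left
      exact le_inf inf_le_left (inf_le_right.trans hCX)
    rw [hYC'] at h1
    rw [eq_bot_iff, ← hHT]
    exact le_inf inf_le_left h1

end Cfsg.Agent.S5901
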