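import Cfsg.Statements.S5902
import Cfsg.Agent.S5901
-- import your own Cfsg.Agent.* helpers here

set_option autoImplicit false
open Cfsg

namespace Cfsg.Agent.S5902

/-- Let G be a finite group, X a subgroup whose own subgroup lattice is complemented, and suppose X lies in exactly one maximal subgroup M of G. Then every subgroup H of G not contained in the normal core of M has a complement in the subgroup lattice of G (some C with H ⊔ C = G and H ⊓ C = 1); in particular the subgroup lattice of G modulo the normal core of M is complemented. -/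
theorem result {G : Type*} [Group G] [Finite G] (X M : Subgroup G)
    (hK : ComplementedLattice (Subgroup X))
    (hM : IsCoatom M) (hXM : X ≤ M) (huniq : ∀ M' : Subgroup G, IsCoatom M' → X ≤ M' → M' = M) :
    (∀ H : Subgroup G, ¬ H ≤ M.normalCore → ∃ C : Subgroup G, H ⊔ C = ⊤ ∧ H ⊓ C = ⊥) ∧
    ComplementedLattice (Subgroup (G ⧸ M.normalCore)) := by
    classical
  have hXtop : X ≠ ⊤ := fun h => hM.1 (top_le_iff.mp (h ▸ hXM))
  -- complements in `G` of subgroups outside `M`
  have key : ∀ H : Subgroup G, ¬ H ≤ M → ∃ C : Subgroup G, H ⊔ C = ⊤ ∧ H ⊓ C = ⊥ := by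
    intro H hH
    refine Cfsg.Agent.S5901.result ⊥ X M bot_le hXtop ?_ hM hXM huniq H hH (inf_bot_eq H)
    intro Y _ hYX
    obtain ⟨D, hD⟩ := hK.exists_isCompl (Y.subgroupOf X)
    refine ⟨D.map X.subtype, bot_le, ?_, ?_, ?_⟩
    · rintro _ ⟨x, _, rfl⟩
      exact x.2
    · have h := congrArg (Subgroup.map X.subtype) hD.sup_eq_top
      rw [Subgroup.map_sup, Subgroup.map_subgroupOf_eq_of_le hYX] at h
      rw [h]
      ext x
      simp
    · have h := congrArg (Subgroup.map X.subtype) hD.inf_eq_bot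
      rw [Subgroup.map_inf _ _ _ X.subtype_injective, Subgroup.map_subgroupOf_eq_of_le hYX] at h
      simpa using h
  have part1 : ∀ H : Subgroup G, ¬ H ≤ M.normalCore → ∃ C : Subgroup G, H ⊔ C = ⊤ ∧ H ⊓ C = ⊥ := by
    intro H hH
    obtain ⟨h, hhH, hhn⟩ := SetLike.not_le_iff_exists.mp hH
    have : ∃ b : G, b * h * b⁻¹ ∉ M := by
      by_contra hcon
      push Not at hcon
      exact hhn (fun b => hcon b)
    obtain ⟨b, hb⟩ := this
    set φ : G ≃* G := MulAut.conj b with hφ
    have hH' : ¬ φ.mapSubgroup H ≤ M := by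
      intro hle
      apply hb
      apply hle
      exact ⟨h, hhH, rfl⟩
    obtain ⟨C, hC1, hC2⟩ := key _ hH'
    refine ⟨φ.symm.mapSubgroup C, ?_, ?_⟩
    · have h1 := congrArg φ.symm.mapSubgroup hC1
      rw [map_sup, ← MulEquiv.symm_mapSubgroup, OrderIso.symm_apply_apply, OrderIso.map_top] at h1
      exact h1
    · have h1 := congrArg φ.symm.mapSubgroup hC2
      rw [map_inf, ← MulEquiv.symm_mapSubgroup, OrderIso.symm_apply_apply, OrderIso.map_bot] at h1
      exact h1
  refine ⟨part1, ⟨fun A => ?_⟩⟩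
  set N := M.normalCore with hN
  set π : G →* G ⧸ N := QuotientGroup.mk' N with hπ
  have hπs : Function.Surjective π := QuotientGroup.mk'_surjective N
  by_cases hA : A = ⊥
  · subst hA
    exact ⟨⊤, isCompl_bot_top⟩
  have hH : ¬ A.comap π ≤ N := by
    intro hle
    apply hA
    rw [eq_bot_iff]
    intro x hx
    obtain ⟨g, rfl⟩ := hπs x
    have hg : g ∈ N := hle hx
    have : π g = 1 := (QuotientGroup.eq_one_iff g).mpr hg
    rw [this]
    exact Subgroup.mem_bot.mpr rfl
  obtain ⟨C, hC1, hC2⟩ := part1 _ hH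
  refine ⟨C.map π, ?_⟩
  constructor
  · rw [Subgroup.disjoint_def]
    intro x hx hxC
    obtain ⟨c, hc, rfl⟩ := hxC
    have hc' : c ∈ A.comap π ⊓ C := ⟨hx, hc⟩
    rw [hC2] at hc'
    rw [Subgroup.mem_bot.mp hc', map_one]
  · rw [codisjoint_iff, eq_top_iff]
    intro x _
    obtain ⟨g, rfl⟩ := hπs x
    have hg : g ∈ A.comap π ⊔ C := by rw [hC1]; trivial
    have := Subgroup.mem_map_of_mem π hg
    rw [Subgroup.map_sup, Subgroup.map_comap_eq_self_of_surjective hπs] at this
    exact this

end Cfsg.Agent.S5902
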