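import Cfsg.Statements.S5903
import Cfsg.Agent.S5901
-- import your own Cfsg.Agent.* helpers here

set_option autoImplicit false
open Cfsg

namespace Cfsg.Agent.S5903

/-- Let G be a finite simple group, X a subgroup lying in exactly one maximal subgroup M of G, and N a subgroup of prime order with N ≤ X that is central in M. If the subgroup lattice of X/N is complemented, then the subgroup lattice of G is complemented. -/
theorem result {G : Type*} [Group G] [Finite G] [IsSimpleGroup G] (X M N : Subgroup G)
    (hM : IsCoatom M) (hXM : X ≤ M) (huniq : ∀ M' : Subgroup G, IsCoatom M' → X ≤ M' → M' = M)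
    (hNX : N ≤ X) (hN : (Nat.card N).Prime) (hcen : ∀ n ∈ N, ∀ m ∈ M, m * n = n * m)
    [(N.subgroupOf X).Normal] (hK : ComplementedLattice (Subgroup (X ⧸ N.subgroupOf X))) :
    ComplementedLattice (Subgroup G) := by
    classical
  have hXtop : X ≠ ⊤ := fun h => hM.1 (top_le_iff.mp (h ▸ hXM))
  have hNbot : N ≠ ⊥ := by
    intro h
    rw [h] at hN
    simp at hN
    exact Nat.not_prime_one hN
  -- the interval `[N, X]` is complemented
  have hint : ∀ Y : Subgroup G, N ≤ Y → Y ≤ X → ∃ C : Subgroup G, N ≤ C ∧ C ≤ X ∧ Y ⊔ C = X ∧ Y ⊓ C = N := by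
    intro Y hNY hYX
    set π : X →* X ⧸ N.subgroupOf X := QuotientGroup.mk' (N.subgroupOf X) with hπ
    have hπs : Function.Surjective π := QuotientGroup.mk'_surjective _
    have hker : ∀ x : X, π x = 1 ↔ (x : G) ∈ N := by
      intro x
      rw [hπ, QuotientGroup.mk'_apply, QuotientGroup.eq_one_iff]
      exact Subgroup.mem_subgroupOf
    obtain ⟨D, hD⟩ := hK.exists_isCompl ((Y.subgroupOf X).map π)
    have hmemN : ∀ x : X, (x : G) ∈ N → x ∈ D.comap π := by
      intro x hx
      rw [Subgroup.mem_comap, (hker x).mpr hx]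
      exact one_mem _
    refine ⟨(D.comap π).map X.subtype, ?_, ?_, ?_, ?_⟩
    · intro n hn
      exact ⟨⟨n, hNX hn⟩, hmemN ⟨n, hNX hn⟩ hn, rfl⟩
    · rintro _ ⟨x, _, rfl⟩
      exact x.2
    · apply le_antisymm
      · refine sup_le hYX ?_
        rintro _ ⟨x, _, rfl⟩
        exact x.2
      · intro x hx
        have hx' : π ⟨x, hx⟩ ∈ (Y.subgroupOf X).map π ⊔ D := by
          rw [hD.sup_eq_top]; trivial
        have h2 : (⟨x, hx⟩ : X) ∈ (Y.subgroupOf X) ⊔ D.comap π := by
          have : Y.subgroupOf X ⊔ D.comap π = (((Y.subgroupOf X).map π) ⊔ D).comap π := by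
            have hk : π.ker ≤ Y.subgroupOf X ⊔ D.comap π := by
              intro z hz
              refine (le_sup_right : D.comap π ≤ _) ?_
              rw [Subgroup.mem_comap, MonoidHom.mem_ker.mp hz]
              exact one_mem _
            conv_rhs => rw [← Subgroup.map_comap_eq_self_of_surjective hπs D, ← Subgroup.map_sup, Subgroup.comap_map_eq]
            exact (sup_eq_left.mpr hk).symm
          rw [this]
          exact hx'
        have h3 := Subgroup.mem_map_of_mem X.subtype h2
        rw [Subgroup.map_sup, Subgroup.map_subgroupOf_eq_of_le hYX] at h3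
        exact h3
    · apply le_antisymm
      · rintro g ⟨hgY, x, hx, rfl⟩
        have hxY : x ∈ Y.subgroupOf X := hgY
        have h1 : π x ∈ (Y.subgroupOf X).map π ⊓ D := ⟨⟨x, hxY, rfl⟩, hx⟩
        rw [hD.inf_eq_bot] at h1
        exact (hker x).mp (Subgroup.mem_bot.mp h1)
      · intro n hn
        exact ⟨hNY hn, ⟨n, hNX hn⟩, hmemN ⟨n, hNX hn⟩ hn, rfl⟩
  -- complements below `M` for subgroups which avoid `N`
  have key : ∀ H : Subgroup G, ¬ H ≤ M → H ⊓ N = ⊥ → ∃ C : Subgroup G, H ⊔ C = ⊤ ∧ H ⊓ C = ⊥ :=
    fun H hH hHN => Cfsg.Agent.S5901.result N X M hNX hXtop hint hM hXM huniq H hH hHN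
  refine ⟨fun H => ?_⟩
  by_cases hHtop : H = ⊤
  · subst hHtop; exact ⟨⊥, isCompl_top_bot⟩
  by_cases hHbot : H = ⊥
  · subst hHbot; exact ⟨⊤, isCompl_bot_top⟩
  -- find a good conjugate
  have hex : ∃ b : G, ¬ MulEquiv.mapSubgroup (MulAut.conj b) H ≤ M ∧
      MulEquiv.mapSubgroup (MulAut.conj b) H ⊓ N = ⊥ := by
    by_contra hcon
    push Not at hcon
    -- every conjugate of `N` lies in `H` or centralises `H`
    have hprime : ∀ K : Subgroup G, K ⊓ N ≠ ⊥ → N ≤ K := by
      intro K hK
      have : Nat.card ((K ⊓ N).subgroupOf N) ∣ Nat.card N := Subgroup.card_subgroup_dvd_card _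
      have hcard := (Nat.dvd_prime hN).mp this
      rcases hcard with h1 | h1
      · exfalso
        apply hK
        have : (K ⊓ N).subgroupOf N = ⊥ := Subgroup.eq_bot_of_card_eq _ h1
        rw [eq_bot_iff]
        intro x hx
        have : (⟨x, hx.2⟩ : N) ∈ (K ⊓ N).subgroupOf N := hx
        rw [‹(K ⊓ N).subgroupOf N = ⊥›] at this
        have h3 := Subgroup.mem_bot.mp this
        exact Subgroup.mem_bot.mpr (congrArg Subtype.val h3)
      · have : (K ⊓ N).subgroupOf N = ⊤ := Subgroup.eq_top_of_card_eq _ h1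
        intro n hn
        have h2 : (⟨n, hn⟩ : N) ∈ (K ⊓ N).subgroupOf N := by rw [this]; trivial
        exact h2.1
    have hD : ∀ g : G, ∀ n ∈ N, g * n * g⁻¹ ∈ H ∨ ∀ h ∈ H, h * (g * n * g⁻¹) = (g * n * g⁻¹) * h := by
      intro g n hn
      by_cases hle : MulEquiv.mapSubgroup (MulAut.conj g⁻¹) H ≤ M
      · right
        intro h hh
        have h1 : g⁻¹ * h * g ∈ M := by
          apply hle
          refine ⟨h, hh, ?_⟩
          simp [MulAut.conj_apply]
        have h2 := hcen n hn _ h1
        calc h * (g * n * g⁻¹) = g * ((g⁻¹ * h * g) * n) * g⁻¹ := by group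
          _ = g * (n * (g⁻¹ * h * g)) * g⁻¹ := by rw [h2]
          _ = (g * n * g⁻¹) * h := by group
      · left
        have h3 := hcon g⁻¹ hle
        have h4 := hprime _ h3 hn
        obtain ⟨h, hh, hh'⟩ := h4
        have : h = g * n * g⁻¹ := by
          rw [← hh']
          simp [MulAut.conj_apply]
          group
        rw [← this]
        exact hh
    set D : Set G := Group.conjugatesOfSet (N : Set G) with hDdef
    have hDtop : Subgroup.closure D = ⊤ := by
      have h0 : (Subgroup.normalClosure (N : Set G)).Normal := Subgroup.normalClosure_normal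
      rcases h0.eq_bot_or_eq_top with h1 | h1
      · exfalso
        apply hNbot
        rw [eq_bot_iff]
        exact fun x hx => h1 ▸ Subgroup.subset_normalClosure hx
      · exact h1
    have hDmem : ∀ x ∈ D, x ∈ H ∨ ∀ h ∈ H, h * x = x * h := by
      intro x hx
      obtain ⟨n, hn, hconj⟩ := Group.mem_conjugatesOfSet_iff.mp hx
      obtain ⟨g, rfl⟩ := isConj_iff.mp hconj
      exact hD g n hn
    set A : Subgroup G := Subgroup.closure (D ∩ (H : Set G)) with hA
    set Zc : Subgroup G := Subgroup.centralizer (H : Set G) with hZc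
    set B : Subgroup G := Subgroup.closure (D ∩ (Zc : Set G)) with hB
    have hAH : A ≤ H := (Subgroup.closure_le _).mpr Set.inter_subset_right
    have hBZ : B ≤ Zc := (Subgroup.closure_le _).mpr Set.inter_subset_right
    have hAB : A ⊔ B = ⊤ := by
      rw [eq_top_iff, ← hDtop, Subgroup.closure_le]
      intro x hx
      rcases hDmem x hx with h1 | h1
      · exact (le_sup_left : A ≤ A ⊔ B) (Subgroup.subset_closure ⟨hx, h1⟩)
      · refine (le_sup_right : B ≤ A ⊔ B) (Subgroup.subset_closure ⟨hx, ?_⟩)
        rw [SetLike.mem_coe, hZc, Subgroup.mem_centralizer_iff]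
        exact h1
    have hcomm : ∀ a ∈ A, ∀ b ∈ B, a * b = b * a := by
      intro a ha b hb
      exact ((Subgroup.mem_centralizer_iff.mp (hBZ hb)) a (hAH ha))
    -- normality
    have hAnormal : A.Normal := by
      have hnorm : Subgroup.normalizer (A : Set G) = ⊤ := by
        rw [eq_top_iff, ← hAB]
        refine sup_le Subgroup.le_normalizer ?_
        intro b hb
        rw [Subgroup.mem_normalizer_iff]
        intro a
        constructor
        · intro ha
          have := hcomm a ha b hb
          rw [← this]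
          simpa using ha
        · intro ha
          have := hcomm _ ha b⁻¹ (B.inv_mem hb)
          have h2 : a = b⁻¹ * (b * a * b⁻¹) * b := by group
          rw [h2, ← this]
          simpa using ha
      exact Subgroup.normalizer_eq_top_iff.mp hnorm
    rcases hAnormal.eq_bot_or_eq_top with h1 | h1
    · -- A = ⊥, B = ⊤: H is central, so normal
      rw [h1, bot_sup_eq] at hAB
      have hZtop : Zc = ⊤ := top_le_iff.mp (hAB ▸ hBZ)
      have hHnormal : H.Normal := by
        constructor
        intro n hn g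
        have : g ∈ Zc := by rw [hZtop]; trivial
        have h2 := (Subgroup.mem_centralizer_iff.mp this) n hn
        rw [← h2]
        simpa using hn
      exact (hHnormal.eq_bot_or_eq_top).elim hHbot hHtop
    · exact hHtop (top_le_iff.mp (h1 ▸ hAH))
  obtain ⟨b, hb1, hb2⟩ := hex
  obtain ⟨C, hC1, hC2⟩ := key _ hb1 hb2
  set φ : G ≃* G := MulAut.conj b with hφ
  refine ⟨φ.symm.mapSubgroup C, ?_⟩
  constructor
  · rw [disjoint_iff]
    have h1 := congrArg φ.symm.mapSubgroup hC2
    rw [map_inf, ← MulEquiv.symm_mapSubgroup, OrderIso.symm_apply_apply, OrderIso.map_bot] at h1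
    exact h1
  · rw [codisjoint_iff]
    have h1 := congrArg φ.symm.mapSubgroup hC1
    rw [map_sup, ← MulEquiv.symm_mapSubgroup, OrderIso.symm_apply_apply, OrderIso.map_top] at h1
    exact h1

end Cfsg.Agent.S5903
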