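import Cfsg.Statements.S5909
import Cfsg.Agent.Lib.H29.Fibre
-- import your own Cfsg.Agent.* helpers here

set_option autoImplicit false
open Cfsg

namespace Cfsg.Agent.S5909

open Cfsg.Agent.H29 Equiv Equiv.Perm MulAction
open scoped Pointwise

section Tools

variable {Ω : Type*} [Fintype Ω] [DecidableEq Ω] {a b : ℕ} {f : Ω → Fin b}

/-- even elements of the partition stabiliser -/
abbrev G0 (f : Ω → Fin b) : Subgroup (Perm Ω) := fibW f ⊓ alternatingGroup Ω

omit [Fintype Ω] [DecidableEq Ω] in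
lemma exists_label {b : ℕ} (s : Finset (Fin b)) (h : s.card < b) : ∃ m, m ∉ s := by
  by_contra hcon
  push Not at hcon
  have : s = Finset.univ := Finset.eq_univ_of_forall hcon
  rw [this, Finset.card_univ, Fintype.card_fin] at h
  omega

lemma spare1 (ha : 2 ≤ a) (hb : 2 ≤ b) (hf : ∀ i : Fin b, Nat.card {x : Ω // f x = i} = a) (x : Ω) :
    ∃ t t', t ≠ t' ∧ f t = f t' ∧ t ≠ x ∧ t' ≠ x := by
  obtain ⟨j, hj⟩ := exists_label ({f x} : Finset (Fin b)) (by simp; omega)
  simp only [Finset.mem_singleton] at hj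
  obtain ⟨t, t', h1, h2, h3⟩ := exists_two_in_fibre ha f hf j
  exact ⟨t, t', h3, h1.trans h2.symm, fun h => hj (by rw [← h1, h]), fun h => hj (by rw [← h2, h])⟩

lemma sign_mul_swap_of_neg (g : Perm Ω) (h : sign g ≠ 1) {t t' : Ω} (htt : t ≠ t') :
    sign (g * swap t t') = 1 := by
  rw [map_mul, sign_swap htt]
  rcases Int.units_eq_one_or (sign g) with h1 | h1
  · exact absurd h1 h
  · rw [h1]; rfl

lemma adj1 (ha : 2 ≤ a) (hb : 2 ≤ b) (hf : ∀ i : Fin b, Nat.card {x : Ω // f x = i} = a)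
    {g : Perm Ω} (hg : g ∈ fibW f) (x : Ω) : ∃ g' ∈ G0 f, g' x = g x := by
  by_cases h : sign g = 1
  · exact ⟨g, ⟨hg, h⟩, rfl⟩
  · obtain ⟨t, t', h1, h2, h3, h4⟩ := spare1 ha hb hf x
    refine ⟨g * swap t t', ⟨mul_mem hg (swap_mem_fibW h2), sign_mul_swap_of_neg g h h1⟩, ?_⟩
    rw [Perm.mul_apply, swap_apply_of_ne_of_ne h3.symm h4.symm]

lemma exists_two_avoid (ha : 3 ≤ a) (hf : ∀ i : Fin b, Nat.card {x : Ω // f x = i} = a)
    (i : Fin b) (x : Ω) : ∃ t t', t ≠ t' ∧ f t = i ∧ f t' = i ∧ t ≠ x ∧ t' ≠ x := by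
  let e := (fibEquiv f hf).symm
  have hfe : ∀ c, f (e (i, c)) = i := fun c => fibEquiv_symm f hf _
  have hne : ∀ c d : Fin a, c ≠ d → e (i, c) ≠ e (i, d) := by
    intro c d hcd h
    have := e.injective h
    simp only [Prod.mk.injEq, true_and] at this
    exact hcd this
  let c0 : Fin a := ⟨0, by omega⟩
  let c1 : Fin a := ⟨1, by omega⟩
  let c2 : Fin a := ⟨2, by omega⟩
  have h01 : c0 ≠ c1 := by simp [c0, c1, Fin.ext_iff]
  have h02 : c0 ≠ c2 := by simp [c0, c2, Fin.ext_iff]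
  have h12 : c1 ≠ c2 := by simp [c1, c2, Fin.ext_iff]
  by_cases hx0 : e (i, c0) = x
  · refine ⟨e (i, c1), e (i, c2), hne _ _ h12, hfe _, hfe _, ?_, ?_⟩
    · rw [← hx0]; exact hne _ _ h01.symm
    · rw [← hx0]; exact hne _ _ h02.symm
  · by_cases hx1 : e (i, c1) = x
    · refine ⟨e (i, c0), e (i, c2), hne _ _ h02, hfe _, hfe _, hx0, ?_⟩
      rw [← hx1]; exact hne _ _ h12.symm
    · exact ⟨e (i, c0), e (i, c1), hne _ _ h01, hfe _, hfe _, hx0, hx1⟩

lemma spare2 (ha : 2 ≤ a) (hb : 2 ≤ b) (h3 : 3 ≤ a ∨ 3 ≤ b)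
    (hf : ∀ i : Fin b, Nat.card {x : Ω // f x = i} = a) (x y : Ω) :
    ∃ t t', t ≠ t' ∧ f t = f t' ∧ t ≠ x ∧ t' ≠ x ∧ t ≠ y ∧ t' ≠ y := by
  by_cases hb3 : 3 ≤ b
  · obtain ⟨j, hj⟩ := exists_label ({f x, f y} : Finset (Fin b))
      (lt_of_le_of_lt (Finset.card_le_two) (by omega))
    simp only [Finset.mem_insert, Finset.mem_singleton, not_or] at hj
    obtain ⟨t, t', h1, h2, h3⟩ := exists_two_in_fibre ha f hf j
    exact ⟨t, t', h3, h1.trans h2.symm, fun h => hj.1 (by rw [← h1, h]),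
      fun h => hj.1 (by rw [← h2, h]), fun h => hj.2 (by rw [← h1, h]),
      fun h => hj.2 (by rw [← h2, h])⟩
  · have ha3 : 3 ≤ a := h3.resolve_right hb3
    by_cases hxy : f x = f y
    · obtain ⟨t, t', h1, h2, h3, h4⟩ := spare1 ha hb hf x
      -- use a label different from `f x`
      obtain ⟨j, hj⟩ := exists_label ({f x} : Finset (Fin b)) (by simp; omega)
      simp only [Finset.mem_singleton] at hj
      obtain ⟨t, t', h1, h2, h3⟩ := exists_two_in_fibre ha f hf j
      exact ⟨t, t', h3, h1.trans h2.symm, fun h => hj (by rw [← h1, h]),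
        fun h => hj (by rw [← h2, h]), fun h => hj (by rw [← h1, h, hxy]),
        fun h => hj (by rw [← h2, h, hxy])⟩
    · obtain ⟨t, t', h1, h2, h3, h4, h5⟩ := exists_two_avoid ha3 hf (f x) x
      exact ⟨t, t', h1, h2.trans h3.symm, h4, h5, fun h => hxy (by rw [← h2, h]),
        fun h => hxy (by rw [← h3, h])⟩

lemma adj2 (ha : 2 ≤ a) (hb : 2 ≤ b) (h3 : 3 ≤ a ∨ 3 ≤ b)
    (hf : ∀ i : Fin b, Nat.card {x : Ω // f x = i} = a)
    {g : Perm Ω} (hg : g ∈ fibW f) (x y : Ω) : ∃ g' ∈ G0 f, g' x = g x ∧ g' y = g y := by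
  by_cases h : sign g = 1
  · exact ⟨g, ⟨hg, h⟩, rfl, rfl⟩
  · obtain ⟨t, t', h1, h2, h3, h4, h5, h6⟩ := spare2 ha hb h3 hf x y
    refine ⟨g * swap t t', ⟨mul_mem hg (swap_mem_fibW h2), sign_mul_swap_of_neg g h h1⟩, ?_, ?_⟩
    · rw [Perm.mul_apply, swap_apply_of_ne_of_ne h3.symm h4.symm]
    · rw [Perm.mul_apply, swap_apply_of_ne_of_ne h5.symm h6.symm]

lemma fibLift_fix (hf : ∀ i : Fin b, Nat.card {x : Ω // f x = i} = a) (σ : Perm (Fin b)) (x : Ω)
    (h : σ (f x) = f x) : fibLift f hf σ x = x := by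
  simp only [fibLift, Equiv.trans_apply]
  have h1 : (Equiv.prodCongr σ (Equiv.refl (Fin a))) (fibEquiv f hf x) = fibEquiv f hf x := by
    ext1
    · simp only [Equiv.prodCongr_apply, Prod.map_fst]
      rw [fibEquiv_fst, h]
    · rfl
  rw [h1, Equiv.symm_apply_apply]

lemma move_W (hf : ∀ i : Fin b, Nat.card {x : Ω // f x = i} = a) (x z : Ω) :
    ∃ g ∈ fibW f, g x = z := by
  let σ := swap (f x) (f z)
  let τ := fibLift f hf σ
  have h1 : f (τ x) = f z := by
    rw [f_fibLift f hf]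
    exact swap_apply_left _ _
  refine ⟨swap (τ x) z * τ, mul_mem (swap_mem_fibW h1) (fibLift_mem f hf σ), ?_⟩
  rw [Perm.mul_apply, swap_apply_left]

lemma move_outside (hf : ∀ i : Fin b, Nat.card {x : Ω // f x = i} = a) {x y z : Ω}
    (hy : f y ≠ f x) (hz : f z ≠ f x) : ∃ g ∈ fibW f, g x = x ∧ g y = z := by
  let σ := swap (f y) (f z)
  let τ := fibLift f hf σ
  have h1 : f (τ y) = f z := by
    rw [f_fibLift f hf]
    exact swap_apply_left _ _
  have h2 : τ x = x := fibLift_fix hf σ x (swap_apply_of_ne_of_ne hy.symm hz.symm)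
  refine ⟨swap (τ y) z * τ, mul_mem (swap_mem_fibW h1) (fibLift_mem f hf σ), ?_, ?_⟩
  · rw [Perm.mul_apply, h2, swap_apply_of_ne_of_ne]
    · intro h
      apply hz
      rw [← h1, ← h]
    · intro h
      apply hz
      rw [h]
  · rw [Perm.mul_apply, swap_apply_left]

lemma move_inside {x y z : Ω} (hy : f y = f x) (hz : f z = f x) (hyx : y ≠ x) (hzx : z ≠ x) :
    ∃ g ∈ fibW f, g x = x ∧ g y = z :=
  ⟨swap y z, swap_mem_fibW (hy.trans hz.symm), swap_apply_of_ne_of_ne hyx.symm hzx.symm,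
    swap_apply_left _ _⟩

theorem isPreprimitive_X (ha : 2 ≤ a) (hb : 2 ≤ b) (h3 : 3 ≤ a ∨ 3 ≤ b)
    (hf : ∀ i : Fin b, Nat.card {x : Ω // f x = i} = a) (X : Subgroup (Perm Ω))
    (hle : G0 f ≤ X) (hnot : ¬ X ≤ fibW f) : IsPreprimitive X Ω := by
  have htrans : ∀ x z : Ω, ∃ g ∈ G0 f, g x = z := by
    intro x z
    obtain ⟨g, hg, hgx⟩ := move_W hf x z
    obtain ⟨g', hg', h⟩ := adj1 ha hb hf hg x
    exact ⟨g', hg', h.trans hgx⟩
  haveI hpre : IsPretransitive X Ω := ⟨fun x z => by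
    obtain ⟨g, hg, hgx⟩ := htrans x z
    exact ⟨⟨g, hle hg⟩, hgx⟩⟩
  refine { isTrivialBlock_of_isBlock := ?_ }
  intro B hB
  have hB' := isBlock_iff_smul_eq_of_mem.mp hB
  have hstab : ∀ g ∈ G0 f, ∀ p ∈ B, g p = p → ∀ q ∈ B, g q ∈ B := by
    intro g hg p hp hgp q hq
    have h1 : (⟨g, hle hg⟩ : X) • p ∈ B := by
      show g p ∈ B
      rw [hgp]; exact hp
    have h2 := hB' hp h1
    have h4 : (⟨g, hle hg⟩ : X) • q ∈ (⟨g, hle hg⟩ : X) • B := Set.smul_mem_smul_set hq
    rw [h2] at h4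
    exact h4
  by_cases hs : B.Subsingleton
  · exact Or.inl hs
  right
  rw [Set.not_subsingleton_iff] at hs
  obtain ⟨x, hx, y, hy, hxy⟩ := hs
  -- step 1
  have step1 : ∀ p ∈ B, ∀ q ∈ B, f q ≠ f p → ∀ z, f z ≠ f p → z ∈ B := by
    intro p hp q hq hqp z hz
    obtain ⟨g, hg, hgp, hgq⟩ := move_outside hf hqp hz
    obtain ⟨g', hg', h1, h2⟩ := adj2 ha hb h3 hf hg p q
    rw [← hgq, ← h2]
    exact hstab g' hg' p hp (h1.trans hgp) q hq
  by_cases hcross : ∃ p ∈ B, ∃ q ∈ B, f q ≠ f p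
  · obtain ⟨p, hp, q, hq, hpq⟩ := hcross
    rw [Set.eq_univ_iff_forall]
    intro z
    by_cases hz : f z = f p
    · exact step1 q hq p hp hpq.symm z (by rw [hz]; exact hpq.symm)
    · exact step1 p hp q hq hpq z hz
  · push Not at hcross
    exfalso
    apply hnot
    have hfB : ∀ p ∈ B, f p = f x := fun p hp => hcross x hx p hp
    -- `B` is the fibre of `x`
    have hfib : ∀ z, f z = f x → z ∈ B := by
      intro z hz
      by_cases hzx : z = x
      · rw [hzx]; exact hx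
      obtain ⟨g, hg, hgp, hgq⟩ := move_inside (hfB y hy) hz hxy.symm hzx
      obtain ⟨g', hg', h1, h2⟩ := adj2 ha hb h3 hf hg x y
      rw [← hgq, ← h2]
      exact hstab g' hg' x hx (h1.trans hgp) y hy
    have hmain : ∀ g ∈ X, ∀ p q, f p = f q → f (g p) = f (g q) := by
      intro g hg p q hpq
      obtain ⟨h₁, hh₁, hh₁x⟩ := htrans x p
      obtain ⟨h₂, hh₂, hh₂x⟩ := htrans x (g p)
      have hw : h₁⁻¹ q ∈ B := by
        apply hfib
        have h5 := (hh₁.1 (h₁⁻¹ q) x)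
        rw [h5, hh₁x]
        simp [hpq]
      let k : X := ⟨h₂⁻¹ * g * h₁, X.mul_mem (X.mul_mem (X.inv_mem (hle hh₂)) hg) (hle hh₁)⟩
      have hkx : k • x = x := by
        show (h₂⁻¹ * g * h₁) x = x
        simp only [Perm.mul_apply]
        rw [hh₁x, ← hh₂x]
        simp
      have hkB := hB' hx (by rw [hkx]; exact hx : k • x ∈ B)
      have h6 : k • (h₁⁻¹ q) ∈ k • B := Set.smul_mem_smul_set hw
      rw [hkB] at h6
      have h7 : k • (h₁⁻¹ q) = h₂⁻¹ (g q) := by
        show (h₂⁻¹ * g * h₁) (h₁⁻¹ q) = _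
        simp
      rw [h7] at h6
      have h8 := hfB _ h6
      have h9 := (hh₂.1 (h₂⁻¹ (g q)) x).mp h8
      rw [hh₂x] at h9
      have h10 : h₂ (h₂⁻¹ (g q)) = g q := by simp
      rw [h10] at h9
      exact h9.symm
    intro g hg p q
    refine ⟨hmain g hg p q, fun h => ?_⟩
    have := hmain g⁻¹ (X.inv_mem hg) (g p) (g q) h
    simpa using this

end Tools

section Cycles

variable {Ω : Type*} [Fintype Ω] [DecidableEq Ω] {a b : ℕ} {f : Ω → Fin b}

lemma partner (ha : 2 ≤ a) (hf : ∀ i : Fin b, Nat.card {x : Ω // f x = i} = a) (v : Ω) :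
    ∃ v', v' ≠ v ∧ f v' = f v := by
  obtain ⟨t, t', h1, h2, h3⟩ := exists_two_in_fibre ha f hf (f v)
  by_cases ht : t = v
  · exact ⟨t', fun h => h3 (ht.trans h.symm), h2⟩
  · exact ⟨t, ht, h1⟩

lemma swap_swap_mem_G0 {p q r s : Ω} (h1 : p ≠ q) (h2 : r ≠ s) (h3 : f p = f q) (h4 : f r = f s) :
    swap p q * swap r s ∈ G0 f :=
  Subgroup.mem_inf.mpr ⟨mul_mem (swap_mem_fibW h3) (swap_mem_fibW h4), mem_alternatingGroup.mpr (by
    rw [map_mul, sign_swap h1, sign_swap h2]; rfl)⟩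

lemma swap_conj (g : Perm Ω) (x y : Ω) : g * swap x y * g⁻¹ = swap (g x) (g y) :=
  (Equiv.swap_apply_apply g x y).symm

theorem threeCycle_of_not_W (ha : 2 ≤ a) (hb : 5 ≤ b)
    (hf : ∀ i : Fin b, Nat.card {x : Ω // f x = i} = a) (X : Subgroup (Perm Ω))
    (hle : G0 f ≤ X) (hnot : ¬ X ≤ fibW f) : ∃ c ∈ X, IsThreeCycle c := by
  have hexg : ∃ g ∈ X, ∃ x x' : Ω, f x = f x' ∧ f (g x) ≠ f (g x') := by
    rw [SetLike.not_le_iff_exists] at hnot
    obtain ⟨g, hg, hgW⟩ := hnot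
    have hnot2 : ¬ ∀ x y, f x = f y ↔ f (g x) = f (g y) := hgW
    push Not at hnot2
    obtain ⟨p, q, h⟩ := hnot2
    rcases h with ⟨h1, h2⟩ | ⟨h1, h2⟩
    · exact ⟨g, hg, p, q, h1, h2⟩
    · refine ⟨g⁻¹, X.inv_mem hg, g p, q |> g, h2, ?_⟩
      simpa using h1
  obtain ⟨g, hg, x, x', hxx, huv⟩ := hexg
  set u := g x with hu
  set v := g x' with hv
  have hxx' : x ≠ x' := fun h => huv (by rw [hu, hv, h])
  obtain ⟨v', hv'1, hv'2⟩ := partner ha hf v
  obtain ⟨u', hu'1, hu'2⟩ := partner ha hf u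
  obtain ⟨j, hj⟩ := exists_label ({f x, f (g⁻¹ u'), f (g⁻¹ v')} : Finset (Fin b))
    (lt_of_le_of_lt Finset.card_le_three (by omega))
  simp only [Finset.mem_insert, Finset.mem_singleton, not_or] at hj
  obtain ⟨hj1, hj2, hj3⟩ := hj
  obtain ⟨y, y', hy, hy', hyy⟩ := exists_two_in_fibre ha f hf j
  set c := g y with hc
  set d := g y' with hd
  have hcd : c ≠ d := fun h => hyy (g.injective h)
  have hne_pt : ∀ t, f t = j → g t ≠ u ∧ g t ≠ v ∧ g t ≠ u' ∧ g t ≠ v' := by
    intro t ht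
    refine ⟨fun h => ?_, fun h => ?_, fun h => ?_, fun h => ?_⟩
    · have := g.injective h
      apply hj1
      rw [← ht, this]
    · have := g.injective h
      apply hj1
      rw [← ht, this, hxx]
    · apply hj2
      rw [← ht, ← h]
      simp
    · apply hj3
      rw [← ht, ← h]
      simp
  obtain ⟨hcu, hcv, hcu', hcv'⟩ := hne_pt y hy
  obtain ⟨hdu, hdv, hdu', hdv'⟩ := hne_pt y' hy'
  have hr : swap u v * swap c d ∈ X := by
    have h1 : swap x x' * swap y y' ∈ G0 f := swap_swap_mem_G0 hxx' hyy hxx (hy.trans hy'.symm)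
    have h2 : g * (swap x x' * swap y y') * g⁻¹ ∈ X := X.mul_mem (X.mul_mem hg (hle h1)) (X.inv_mem hg)
    have h3 : g * (swap x x' * swap y y') * g⁻¹ = swap u v * swap c d := by
      rw [hu, hv, hc, hd, ← swap_conj, ← swap_conj]
      group
    rwa [h3] at h2
  obtain ⟨l, hl⟩ := exists_label ({f u, f v, f c, f d} : Finset (Fin b))
    (lt_of_le_of_lt Finset.card_le_four (by omega))
  simp only [Finset.mem_insert, Finset.mem_singleton, not_or] at hl
  obtain ⟨hl1, hl2, hl3, hl4⟩ := hl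
  obtain ⟨s, s', hs, hs', hss⟩ := exists_two_in_fibre ha f hf l
  have hlne : ∀ t, f t ≠ l → t ≠ s ∧ t ≠ s' := fun t ht =>
    ⟨fun h => ht (by rw [h, hs]), fun h => ht (by rw [h, hs'])⟩
  have hw : swap v v' * swap s s' ∈ G0 f :=
    swap_swap_mem_G0 hv'1.symm hss hv'2.symm (hs.trans hs'.symm)
  set w := swap v v' * swap s s' with hwdef
  have hwfix : ∀ t, f t ≠ l → t ≠ v → t ≠ v' → w t = t := by
    intro t ht h1 h2
    obtain ⟨h3, h4⟩ := hlne t ht
    rw [hwdef, Perm.mul_apply, swap_apply_of_ne_of_ne h3 h4, swap_apply_of_ne_of_ne h1 h2]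
  have huv' : u ≠ v' := fun h => huv (by rw [h, hv'2])
  have huv0 : u ≠ v := fun h => huv (by rw [h])
  have hwu : w u = u := hwfix u (Ne.symm hl1) huv0 huv'
  have hwc : w c = c := hwfix c (Ne.symm hl3) hcv hcv'
  have hwd : w d = d := hwfix d (Ne.symm hl4) hdv hdv'
  have hwv : w v = v' := by
    obtain ⟨h3, h4⟩ := hlne v (Ne.symm hl2)
    rw [hwdef, Perm.mul_apply, swap_apply_of_ne_of_ne h3 h4, swap_apply_left]
  have hr2 : swap u v' * swap c d ∈ X := by
    have h2 : w * (swap u v * swap c d) * w⁻¹ ∈ X := X.mul_mem (X.mul_mem (hle hw) hr) (X.inv_mem (hle hw))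
    have h3 : w * (swap u v * swap c d) * w⁻¹ = swap u v' * swap c d := by
      have h4 : w * (swap u v * swap c d) * w⁻¹ = (w * swap u v * w⁻¹) * (w * swap c d * w⁻¹) := by
        group
      rw [h4, swap_conj, swap_conj, hwu, hwv, hwc, hwd]
    rwa [h3] at h2
  refine ⟨swap u v * swap u v', ?_, isThreeCycle_swap_mul_swap_same huv0 huv' hv'1.symm⟩
  have hfinal : (swap u v * swap c d) * (swap u v' * swap c d) = swap u v * swap u v' := by
    have hcu2 : c ≠ u := hcu
    have hcv2 : c ≠ v' := hcv'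
    have hdu2 : d ≠ u := hdu
    have hdv2 : d ≠ v' := hdv'
    have hdisj : Disjoint (swap c d) (swap u v') :=
      disjoint_swap_swap (by simp [hcd, hcu2, hcv2, hdu2, hdv2, huv'])
    rw [mul_assoc, ← mul_assoc (swap c d), hdisj.commute.eq, mul_assoc, swap_mul_self, mul_one]
  rw [← hfinal]
  exact X.mul_mem hr hr2

theorem A_le_of_primitive_case (ha : 2 ≤ a) (hb : 2 ≤ b) (hcase : 3 ≤ a ∨ 5 ≤ b)
    (hf : ∀ i : Fin b, Nat.card {x : Ω // f x = i} = a) (X : Subgroup (Perm Ω))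
    (hle : G0 f ≤ X) (hnot : ¬ X ≤ fibW f) : alternatingGroup Ω ≤ X := by
  have hprim := isPreprimitive_X ha hb (hcase.imp id (fun h => by omega)) hf X hle hnot
  obtain ⟨c, hc, hc3⟩ : ∃ c ∈ X, IsThreeCycle c := by
    by_cases h3 : 3 ≤ a
    · let x : Fin b := ⟨0, by omega⟩
      obtain ⟨t, ht⟩ := exists_in_fibre (by omega) f hf x
      obtain ⟨p, p', h1, h2, h3', h4, h5⟩ := exists_two_avoid h3 hf x t
      exact ⟨swap t p * swap t p', hle (swap_swap_mem_G0 h4.symm h5.symm (ht.trans h2.symm)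
        (ht.trans h3'.symm)), isThreeCycle_swap_mul_swap_same h4.symm h5.symm h1⟩
    · have hb5 : 5 ≤ b := hcase.resolve_left h3
      exact threeCycle_of_not_W ha hb5 hf X hle hnot
  exact alternatingGroup_le_of_isPreprimitive_of_isThreeCycle_mem hprim hc3 hc

end Cycles

section Count

variable {Ω : Type*} [Fintype Ω] [DecidableEq Ω] {a b n : ℕ} {f : Ω → Fin b}

lemma card_Omega (hf : ∀ i : Fin b, Nat.card {x : Ω // f x = i} = a) : Nat.card Ω = b * a := by
  rw [Nat.card_congr (fibEquiv f hf), Nat.card_prod, Nat.card_fin, Nat.card_fin]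

/-- Transitive means the degree divides the order. -/
lemma card_dvd_of_transitive (H : Subgroup (Perm Ω)) (h : ∀ x z : Ω, ∃ g ∈ H, g x = z) (x : Ω) :
    Nat.card Ω ∣ Nat.card H := by
  haveI hpre : IsPretransitive H Ω := ⟨fun x z => by
    obtain ⟨g, hg, hgx⟩ := h x z
    exact ⟨⟨g, hg⟩, hgx⟩⟩
  rw [← MulAction.index_stabilizer_of_transitive H x]
  exact Subgroup.index_dvd_card _

lemma transitive_G0 (ha : 2 ≤ a) (hb : 2 ≤ b) (hf : ∀ i : Fin b, Nat.card {x : Ω // f x = i} = a)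
    (x z : Ω) : ∃ g ∈ G0 f, g x = z := by
  obtain ⟨g, hg, hgx⟩ := move_W hf x z
  obtain ⟨g', hg', h⟩ := adj1 ha hb hf hg x
  exact ⟨g', hg', h.trans hgx⟩

lemma card_le_index_fact {A : Type*} [Group A] [Finite A] [IsSimpleGroup A] (X : Subgroup A)
    (hX : X ≠ ⊤) : Nat.card A ∣ (X.index).factorial := by
  have hfinq : Finite (A ⧸ X) := inferInstance
  let φ := MulAction.toPermHom A (A ⧸ X)
  rcases (IsSimpleGroup.eq_bot_or_eq_top_of_normal φ.ker φ.normal_ker) with h | h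
  · have hinj : Function.Injective φ := (MonoidHom.ker_eq_bot_iff φ).mp h
    have h1 := Subgroup.card_dvd_of_injective φ hinj
    rw [Nat.card_perm] at h1
    exact h1
  · exfalso
    apply hX
    rw [eq_top_iff]
    intro a _
    have h2 : a ∈ φ.ker := by rw [h]; trivial
    have h3 : φ a = 1 := h2
    have h4 : a • ((1 : A) : A ⧸ X) = ((1 : A) : A ⧸ X) := by
      have := congrArg (fun p : Perm (A ⧸ X) => p ((1 : A) : A ⧸ X)) h3
      exact this
    rw [MulAction.Quotient.smul_coe, smul_eq_mul, mul_one] at h4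
    have h5 : ((a : A) : A ⧸ X) = ((1 : A) : A ⧸ X) := h4
    rw [QuotientGroup.eq] at h5
    simpa using X.inv_mem h5

lemma card_alt (hn : Nat.card Ω = n) (hn2 : 2 ≤ n) : 2 * Nat.card (alternatingGroup Ω) = n.factorial := by
  have : Nontrivial Ω := by
    apply Finite.one_lt_card_iff_nontrivial.mp
    omega
  rw [two_mul_nat_card_alternatingGroup, Nat.card_perm, hn]

theorem A_le_22 (hf : ∀ i : Fin b, Nat.card {x : Ω // f x = i} = a) (ha : a = 2) (hb : b = 2)
    (X : Subgroup (Perm Ω)) (hle : G0 f ≤ X) (hX : X ≤ alternatingGroup Ω) (hnot : ¬ X ≤ fibW f) :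
    alternatingGroup Ω ≤ X := by
  subst ha hb
  have hcard : Nat.card Ω = 4 := by rw [card_Omega hf]
  obtain ⟨x⟩ : Nonempty Ω := by
    obtain ⟨x, _⟩ := exists_in_fibre (by omega) f hf 0
    exact ⟨x⟩
  have h4 : 4 ∣ Nat.card (G0 f) := by
    rw [← hcard]
    exact card_dvd_of_transitive _ (transitive_G0 (by omega) (by omega) hf) x
  have h5 : 2 * Nat.card (alternatingGroup Ω) = Nat.factorial 4 := card_alt hcard (by omega)
  have h6 : Nat.card (alternatingGroup Ω) = 12 := by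
    simp only [Nat.factorial] at h5
    omega
  have h7 : Nat.card X ∣ 12 := by
    rw [← h6]
    exact Subgroup.card_dvd_of_le hX
  have h8 : Nat.card (G0 f) ∣ Nat.card X := Subgroup.card_dvd_of_le hle
  have h9 : Nat.card (G0 f) < Nat.card X := by
    refine lt_of_le_of_ne (Nat.le_of_dvd Nat.card_pos h8) ?_
    intro h
    have := Subgroup.eq_of_le_of_card_ge hle h.symm.le
    apply hnot
    rw [← this]
    exact inf_le_left
  have h10 : 0 < Nat.card (G0 f) := Nat.card_pos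
  have h11 : Nat.card X = 12 := by
    obtain ⟨k, hk⟩ := h7
    have h12 : Nat.card X ≤ 12 := Nat.le_of_dvd (by norm_num) ⟨k, hk⟩
    obtain ⟨t, ht⟩ := h4
    have h13 : 4 ∣ Nat.card X := dvd_trans ⟨t, ht⟩ h8
    obtain ⟨t', ht'⟩ := h13
    have : t' ≤ 3 := by omega
    rw [ht'] at hk
    interval_cases t' <;> omega
  exact (Subgroup.eq_of_le_of_card_ge hX (by rw [h6, h11])).ge

lemma dvd_card_G0_23 (hf : ∀ i : Fin b, Nat.card {x : Ω // f x = i} = a) (ha : a = 2) (hb : b = 3) :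
    24 ∣ Nat.card (G0 f) := by
  subst ha hb
  have hcard : Nat.card Ω = 6 := by rw [card_Omega hf]
  obtain ⟨x, _⟩ := exists_in_fibre (by omega) f hf 0
  haveI hpre : IsPretransitive (G0 f) Ω := ⟨fun x z => by
    obtain ⟨g, hg, hgx⟩ := transitive_G0 (by omega) (by omega) hf x z
    exact ⟨⟨g, hg⟩, hgx⟩⟩
  have h1 : (stabilizer (G0 f) x).index = 6 := by
    rw [MulAction.index_stabilizer_of_transitive, hcard]
  have h2 := Subgroup.index_mul_card (stabilizer (G0 f) x)
  rw [h1] at h2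
  obtain ⟨j, hj⟩ := exists_label ({f x} : Finset (Fin 3)) (by simp)
  simp only [Finset.mem_singleton] at hj
  obtain ⟨y, hy⟩ := exists_in_fibre (by omega) f hf j
  have hyx : f y ≠ f x := by rw [hy]; exact hj
  have horb : orbit (stabilizer (G0 f) x) y = {z | f z ≠ f x} := by
    ext z
    constructor
    · rintro ⟨s, rfl⟩
      have hs : (s.1 : Perm Ω) x = x := s.2
      have h3 := (s.1.2.1 y x)
      show f ((s.1 : Perm Ω) y) ≠ f x
      intro h4
      apply hyx
      rw [hs] at h3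
      exact h3.mpr h4
    · intro hz
      obtain ⟨g, hg, hgp, hgq⟩ := move_outside hf hyx hz
      obtain ⟨g', hg', h1', h2'⟩ := adj2 (by omega) (by omega) (Or.inr le_rfl) hf hg x y
      exact ⟨⟨⟨g', hg'⟩, h1'.trans hgp⟩, h2'.trans hgq⟩
  have h3 : (orbit (stabilizer (G0 f) x) y).ncard = 4 := by
    rw [horb]
    have h4 : {z | f z ≠ f x} = ({z | f z = f x} : Set Ω)ᶜ := rfl
    rw [h4, Set.ncard_compl, hcard]
    have h5 : ({z | f z = f x} : Set Ω).ncard = 2 := by
      rw [← Nat.card_coe_set_eq]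
      exact hf (f x)
    rw [h5]
  have h4 := Subgroup.index_dvd_card (stabilizer (stabilizer (G0 f) x) y)
  rw [MulAction.index_stabilizer, h3] at h4
  rw [← h2]
  obtain ⟨t, ht⟩ := h4
  exact ⟨t, by rw [ht]; ring⟩

theorem A_le_23 (hf : ∀ i : Fin b, Nat.card {x : Ω // f x = i} = a) (ha : a = 2) (hb : b = 3)
    (X : Subgroup (Perm Ω)) (hle : G0 f ≤ X) (hX : X ≤ alternatingGroup Ω) (hnot : ¬ X ≤ fibW f) :
    alternatingGroup Ω ≤ X := by
  have h24 := dvd_card_G0_23 hf ha hb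
  subst ha hb
  have hcard : Nat.card Ω = 6 := by rw [card_Omega hf]
  have h5 : 2 * Nat.card (alternatingGroup Ω) = Nat.factorial 6 := card_alt hcard (by omega)
  have h6 : Nat.card (alternatingGroup Ω) = 360 := by
    simp only [Nat.factorial] at h5
    omega
  have hsimple : IsSimpleGroup (alternatingGroup Ω) :=
    alternatingGroup.isSimpleGroup (by omega)
  have h8 : Nat.card (G0 f) ∣ Nat.card X := Subgroup.card_dvd_of_le hle
  have h9 : Nat.card (G0 f) < Nat.card X := by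
    refine lt_of_le_of_ne (Nat.le_of_dvd Nat.card_pos h8) ?_
    intro h
    have := Subgroup.eq_of_le_of_card_ge hle h.symm.le
    apply hnot
    rw [← this]
    exact inf_le_left
  have h10 : 0 < Nat.card (G0 f) := Nat.card_pos
  have hcardX : Nat.card (X.subgroupOf (alternatingGroup Ω)) = Nat.card X :=
    Nat.card_congr (Subgroup.subgroupOfEquivOfLe hX).toEquiv
  have h11 := Subgroup.index_mul_card (X.subgroupOf (alternatingGroup Ω))
  rw [hcardX, h6] at h11
  by_contra hcon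
  have hne : X.subgroupOf (alternatingGroup Ω) ≠ ⊤ := by
    intro h
    exact hcon (Subgroup.subgroupOf_eq_top.mp h)
  have h12 := card_le_index_fact _ hne
  rw [h6] at h12
  set m := (X.subgroupOf (alternatingGroup Ω)).index with hm
  have h13 : 24 ∣ Nat.card X := dvd_trans h24 h8
  obtain ⟨k, hk⟩ := h13
  rw [hk] at h11
  have hkm : m * k = 15 := by
    have : 24 * (m * k) = 24 * 15 := by
      rw [← h11.trans (by norm_num : 360 = 24 * 15)]
      ring
    omega
  have hk2 : k ≠ 1 := by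
    rintro rfl
    obtain ⟨t, ht⟩ := h24
    have : t = 0 := by omega
    omega
  have hkle : k ≤ 15 := by
    have : 0 < m := by
      rcases Nat.eq_zero_or_pos m with h | h
      · rw [h] at hkm; omega
      · exact h
    nlinarith
  interval_cases k <;> first | omega | skip
  · have hm5 : m = 5 := by omega
    rw [hm5] at h12
    revert h12
    decide
  · have hm3 : m = 3 := by omega
    rw [hm3] at h12
    revert h12
    decide
  · have hm1 : m = 1 := by omega
    rw [hm1] at h12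
    revert h12
    decide

end Count


/-- Let Ω be a finite set whose size is not 8, and f : Ω → Fin b a labelling with b ≥ 2 whose fibres all have the same size a ≥ 2 (a partition into b blocks of size a). Then the even permutations preserving the partition — the intersection of the imprimitive wreath product S_a ≀ S_b with the alternating group — form a maximal subgroup of the alternating group on Ω. -/
theorem result {Ω : Type*} [Fintype Ω] [DecidableEq Ω] (h8 : Fintype.card Ω ≠ 8) (a b : ℕ) (ha : 2 ≤ a) (hb : 2 ≤ b)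
    (f : Ω → Fin b) (hf : ∀ i : Fin b, Nat.card {x : Ω // f x = i} = a) :
    IsCoatom ((Subgroup.closure {g : Equiv.Perm Ω | ∀ x y : Ω, f x = f y ↔ f (g x) = f (g y)} ⊓ alternatingGroup Ω).subgroupOf (alternatingGroup Ω)) := by
  classical
  rw [closure_fibSet]
  have hn : Fintype.card Ω = b * a := by
    rw [← Nat.card_eq_fintype_card, card_Omega hf]
  have hmain : ∀ X : Subgroup (Perm Ω), G0 f ≤ X → X ≤ alternatingGroup Ω → ¬ X ≤ fibW f →
      alternatingGroup Ω ≤ X := by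
    intro X h1 h2 h3
    by_cases ha3 : 3 ≤ a
    · exact A_le_of_primitive_case ha hb (Or.inl ha3) hf X h1 h3
    have ha2 : a = 2 := by omega
    by_cases hb5 : 5 ≤ b
    · exact A_le_of_primitive_case ha hb (Or.inr hb5) hf X h1 h3
    by_cases hb2 : b = 2
    · exact A_le_22 hf ha2 hb2 X h1 h2 h3
    by_cases hb3 : b = 3
    · exact A_le_23 hf ha2 hb3 X h1 h2 h3
    exfalso
    have hb4 : b = 4 := by omega
    apply h8
    rw [hn, hb4, ha2]
  constructor
  · intro htop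
    let i : Fin b := ⟨0, by omega⟩
    let j : Fin b := ⟨1, by omega⟩
    have hij : i ≠ j := by simp [i, j, Fin.ext_iff]
    obtain ⟨x, z, hx, hz, hxz⟩ := exists_two_in_fibre ha f hf i
    obtain ⟨y, hy⟩ := exists_in_fibre (by omega) f hf j
    have hxy : x ≠ y := fun h => hij (by rw [← hx, ← hy, h])
    have hzy : z ≠ y := fun h => hij (by rw [← hz, ← hy, h])
    have hc : swap x y * swap x z ∈ alternatingGroup Ω := mem_alternatingGroup.mpr (by
      rw [map_mul, sign_swap hxy, sign_swap hxz]; rfl)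
    have h1 : (⟨_, hc⟩ : alternatingGroup Ω) ∈ (fibW f ⊓ alternatingGroup Ω).subgroupOf (alternatingGroup Ω) := by
      rw [htop]; trivial
    rw [Subgroup.mem_subgroupOf] at h1
    have h2 := (h1.1 x z).mp (hx.trans hz.symm)
    simp only [Perm.mul_apply, swap_apply_left, swap_apply_right] at h2
    rw [swap_apply_of_ne_of_ne hxz.symm hzy] at h2
    rw [hz, hy] at h2
    exact hij h2
  · intro Y hY
    obtain ⟨hle, y, hyY, hyG⟩ := SetLike.lt_iff_le_and_exists.mp hY
    let X := Y.map (alternatingGroup Ω).subtype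
    have h1 : G0 f ≤ X := by
      intro g hg
      have hgA : g ∈ alternatingGroup Ω := hg.2
      exact ⟨⟨g, hgA⟩, hle (Subgroup.mem_subgroupOf.mpr hg), rfl⟩
    have h2 : X ≤ alternatingGroup Ω := by
      rintro _ ⟨a, _, rfl⟩
      exact a.2
    have h3 : ¬ X ≤ fibW f := by
      intro h
      apply hyG
      rw [Subgroup.mem_subgroupOf]
      exact ⟨h ⟨y, hyY, rfl⟩, y.2⟩
    have h4 := hmain X h1 h2 h3
    rw [eq_top_iff]
    intro a _
    obtain ⟨a', ha', h5⟩ := h4 a.2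
    have : a' = a := Subtype.ext h5
    rwa [← this]

end Cfsg.Agent.S5909
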