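import Cfsg.Statements.S5910
import Cfsg.Agent.Lib.H29.Fibre
-- import your own Cfsg.Agent.* helpers here

set_option autoImplicit false
open Cfsg

namespace Cfsg.Agent.S5910

open Cfsg.Agent.H29 Equiv Equiv.Perm

/-- the model of the affine 3-space over `𝔽₂` with its distinguished direction -/
abbrev B2 := Fin 2 × Fin 2
abbrev V2 := B2 × Fin 2

/-- the affine group of `V2`, as preserving the relation `p+q+r+s=0`. -/
def T₁ : Subgroup (Perm V2) where
  carrier := {g | ∀ p q r s, p + q + r + s = 0 ↔ g p + g q + g r + g s = 0}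
  mul_mem' := by
    intro a b ha hb p q r s
    exact (hb p q r s).trans (ha (b p) (b q) (b r) (b s))
  one_mem' := fun _ _ _ _ => Iff.rfl
  inv_mem' := by
    intro a ha p q r s
    have h := ha (a⁻¹ p) (a⁻¹ q) (a⁻¹ r) (a⁻¹ s)
    have hh : ∀ x, a (a⁻¹ x) = x := fun x => by simp
    rw [hh, hh, hh, hh] at h
    exact h.symm

theorem K1 : ∀ π : Perm B2, ∀ i₁ i₂ i₃ i₄ : B2,
    (i₁ + i₂ + i₃ + i₄ = 0 ↔ π i₁ + π i₂ + π i₃ + π i₄ = 0) := by
  decide +kernel

theorem K2 : ∀ c : B2 → Fin 2, ∑ i, c i = 0 → ∀ i₁ i₂ i₃ i₄ : B2,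
    i₁ + i₂ + i₃ + i₄ = 0 → c i₁ + c i₂ + c i₃ + c i₄ = 0 := by
  decide +kernel

theorem K3 : ∀ c : B2 → Fin 2, (∏ i, sign (Equiv.addRight (c i))) = 1 → ∑ i, c i = 0 := by
  decide +kernel


theorem K4 : ∀ a b : Fin 2, a ≠ b → b = a + 1 := by decide

theorem key_T₁ (g : Perm V2) (h : ∀ x y : V2, x.1 = y.1 ↔ (g x).1 = (g y).1) (hs : sign g = 1) :
    g ∈ T₁ := by
  -- the permutation of the base
  let π₀ : B2 → B2 := fun i => (g (i, 0)).1
  have hπinj : Function.Injective π₀ := by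
    intro i i' hii
    exact (h (i, 0) (i', 0)).mpr hii
  let π : Perm B2 := Equiv.ofBijective π₀ (Finite.injective_iff_bijective.mp hπinj)
  have hπ : ∀ i, π i = (g (i, 0)).1 := fun _ => rfl
  let c : B2 → Fin 2 := fun i => (g (i, 0)).2
  have hg : ∀ i s, g (i, s) = (π i, s + c i) := by
    intro i s
    have h1 : (g (i, s)).1 = π i := (h (i, s) (i, 0)).mp rfl
    by_cases hs0 : s = 0
    · subst hs0
      apply Prod.ext
      · exact h1
      · simp [c]
    · have hs1 : s = 1 := by omega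
      subst hs1
      apply Prod.ext
      · exact h1
      · have hne : (g (i, 0)).2 ≠ (g (i, 1)).2 := by
          intro h2
          have h3 : g (i, 0) = g (i, 1) := Prod.ext ((h1.trans (hπ i)).symm) h2
          have h4 := g.injective h3
          simp at h4
        have h5 := K4 _ _ hne
        show (g (i, 1)).2 = 1 + (g (i, 0)).2
        rw [h5, add_comm]
  -- parity
  have hfac : g = (Equiv.prodCongrLeft (fun _ : Fin 2 => π)) * (Equiv.prodCongrRight (fun i => Equiv.addRight (c i))) := by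
    ext1 ⟨i, s⟩
    rw [hg, Perm.mul_apply, Equiv.prodCongrRight_apply]
    rfl
  have hsum : ∑ i, c i = 0 := by
    apply K3
    rw [hfac, map_mul, sign_prodCongrLeft, sign_prodCongrRight] at hs
    have h1 : ∏ _k : Fin 2, sign π = 1 := by
      rw [Fin.prod_univ_two]
      exact Int.units_mul_self _
    rw [h1, one_mul] at hs
    exact hs
  intro ⟨i₁, s₁⟩ ⟨i₂, s₂⟩ ⟨i₃, s₃⟩ ⟨i₄, s₄⟩
  rw [hg, hg, hg, hg]
  constructor
  · intro h1
    have h2 : i₁ + i₂ + i₃ + i₄ = 0 := congrArg Prod.fst h1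
    have h3 : s₁ + s₂ + s₃ + s₄ = 0 := congrArg Prod.snd h1
    have h4 := K2 c hsum _ _ _ _ h2
    apply Prod.ext
    · exact (K1 π _ _ _ _).mp h2
    · show s₁ + c i₁ + (s₂ + c i₂) + (s₃ + c i₃) + (s₄ + c i₄) = 0
      have : s₁ + c i₁ + (s₂ + c i₂) + (s₃ + c i₃) + (s₄ + c i₄) = (s₁ + s₂ + s₃ + s₄) + (c i₁ + c i₂ + c i₃ + c i₄) := by abel
      rw [this, h3, h4, add_zero]
  · intro h1
    have h2 : π i₁ + π i₂ + π i₃ + π i₄ = 0 := congrArg Prod.fst h1
    have h3 : s₁ + c i₁ + (s₂ + c i₂) + (s₃ + c i₃) + (s₄ + c i₄) = 0 := congrArg Prod.snd h1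
    have h5 : i₁ + i₂ + i₃ + i₄ = 0 := (K1 π _ _ _ _).mpr h2
    have h4 := K2 c hsum _ _ _ _ h5
    apply Prod.ext
    · exact h5
    · show s₁ + s₂ + s₃ + s₄ = 0
      have : s₁ + c i₁ + (s₂ + c i₂) + (s₃ + c i₃) + (s₄ + c i₄) = (s₁ + s₂ + s₃ + s₄) + (c i₁ + c i₂ + c i₃ + c i₄) := by abel
      rw [this, h4, add_zero] at h3
      exact h3

/-- an element of `T₁` moving the direction: a transvection with direction ≠ `((0,0),1)`. -/
def t₁ : Perm V2 := swap ((0, 0), 1) ((1, 0), 1) * swap ((0, 1), 1) ((1, 1), 1)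

theorem t₁_mem : t₁ ∈ T₁ := by
  show ∀ p q r s, p + q + r + s = 0 ↔ t₁ p + t₁ q + t₁ r + t₁ s = 0
  decide +kernel

theorem t₁_sign : sign t₁ = 1 := by
  rw [t₁, map_mul, sign_swap (by decide), sign_swap (by decide)]
  rfl

theorem t₁_move : (t₁ ((0, 0), 0)).1 ≠ (t₁ ((0, 0), 1)).1 := by decide +kernel

/-- a three-cycle not in `T₁`. -/
def c₁ : Perm V2 := swap ((0, 0), 0) ((0, 0), 1) * swap ((0, 0), 0) ((0, 1), 0)

theorem c₁_not_mem : c₁ ∉ T₁ := by
  intro h
  have h1 : ∀ p q r s, p + q + r + s = 0 ↔ c₁ p + c₁ q + c₁ r + c₁ s = 0 := h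
  revert h1
  decide +kernel

theorem c₁_sign : sign c₁ = 1 := by
  rw [c₁, map_mul, sign_swap (by decide), sign_swap (by decide)]
  rfl


/-- Let Ω be a set with 8 elements and f : Ω → Fin 4 a labelling whose four fibres all have size 2 (a partition of the 8 points into 4 pairs). Then the group of even permutations preserving this partition, (S₂ ≀ S₄) ∩ A₈, is not a maximal subgroup of the alternating group A₈ (it lies in a subgroup isomorphic to the affine group AGL₃(2)). -/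
theorem result {Ω : Type*} [Fintype Ω] [DecidableEq Ω] (h8 : Fintype.card Ω = 8)
    (f : Ω → Fin 4) (hf : ∀ i : Fin 4, Nat.card {x : Ω // f x = i} = 2) :
    ¬ IsCoatom ((Subgroup.closure {g : Equiv.Perm Ω | ∀ x y : Ω, f x = f y ↔ f (g x) = f (g y)} ⊓ alternatingGroup Ω).subgroupOf (alternatingGroup Ω)) := by
  classical
  rw [closure_fibSet]
  intro hc
  let j : Fin 4 ≃ B2 := (finProdFinEquiv : Fin 2 × Fin 2 ≃ Fin (2 * 2)).symm
  let e : Ω ≃ V2 := (fibEquiv f hf).trans (Equiv.prodCongr j (Equiv.refl _))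
  have he1 : ∀ x, (e x).1 = j (f x) := fun _ => rfl
  let T : Subgroup (Perm Ω) := T₁.comap (e.permCongrHom : Perm Ω →* Perm V2)
  have hmemT : ∀ g : Perm Ω, g ∈ T ↔ e.permCongr g ∈ T₁ := fun _ => Iff.rfl
  have hconj : ∀ (g : Perm Ω) (x : V2), e.permCongr g x = e (g (e.symm x)) := fun _ _ => rfl
  -- the group between
  let T' : Subgroup (Perm Ω) := T ⊓ alternatingGroup Ω
  have hG : fibW f ⊓ alternatingGroup Ω ≤ T' := by
    rintro g ⟨hg1, hg2⟩
    refine ⟨?_, hg2⟩
    apply (hmemT g).mpr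
    apply key_T₁
    · intro x y
      rw [hconj, hconj, he1, he1]
      have hx : x.1 = j (f (e.symm x)) := by
        have := he1 (e.symm x)
        rwa [Equiv.apply_symm_apply] at this
      have hy : y.1 = j (f (e.symm y)) := by
        have := he1 (e.symm y)
        rwa [Equiv.apply_symm_apply] at this
      rw [hx, hy, j.injective.eq_iff, j.injective.eq_iff]
      exact hg1 _ _
    · rw [sign_permCongr]
      exact hg2
  -- elements
  let t : Perm Ω := e.symm.permCongr t₁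
  have htT : e.permCongr t = t₁ := by
    ext1 x
    simp [t, hconj, Equiv.permCongr_apply]
  have ht2 : t ∈ alternatingGroup Ω := by
    rw [mem_alternatingGroup, sign_permCongr]
    exact t₁_sign
  have ht1 : t ∈ T := by
    rw [hmemT, htT]
    exact t₁_mem
  have htW : t ∉ fibW f := by
    intro h
    have h1 := (h (e.symm ((0, 0), 0)) (e.symm ((0, 0), 1))).mp (by
      apply j.injective
      rw [← he1, ← he1, Equiv.apply_symm_apply, Equiv.apply_symm_apply])
    have hy : ∀ x, j (f (t (e.symm x))) = (t₁ x).1 := by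
      intro x
      rw [← he1, ← hconj, htT]
    have h2 := congrArg j h1
    rw [hy, hy] at h2
    exact t₁_move h2
  let u : Perm Ω := e.symm.permCongr c₁
  have huT : e.permCongr u = c₁ := by
    ext1 x
    simp [u, hconj, Equiv.permCongr_apply]
  have hu2 : u ∈ alternatingGroup Ω := by
    rw [mem_alternatingGroup, sign_permCongr]
    exact c₁_sign
  have hu1 : u ∉ T := by
    rw [hmemT, huT]
    exact c₁_not_mem
  have hlt : (fibW f ⊓ alternatingGroup Ω).subgroupOf (alternatingGroup Ω) < T'.subgroupOf (alternatingGroup Ω) := by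
    refine lt_of_le_of_ne (fun g hg => hG hg) ?_
    intro h
    have h1 : (⟨t, ht2⟩ : alternatingGroup Ω) ∈ T'.subgroupOf (alternatingGroup Ω) := ⟨ht1, ht2⟩
    rw [← h] at h1
    exact htW h1.1
  have h2 := hc.2 _ hlt
  have h3 : (⟨u, hu2⟩ : alternatingGroup Ω) ∈ T'.subgroupOf (alternatingGroup Ω) := by
    rw [h2]; trivial
  exact hu1 h3.1

end Cfsg.Agent.S5910
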