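import Cfsg.Statements.S5911
import Cfsg.Agent.Lib.H29.SymAut
-- import your own Cfsg.Agent.* helpers here

set_option autoImplicit false
open Cfsg

namespace Cfsg.Agent.S5911

open Cfsg.Agent.H29 Equiv Equiv.Perm MulAction

lemma unique_fix_fin4 : ∀ g : Perm (Fin 4), g ^ 3 = 1 → g ≠ 1 → ∃ x, g x = x ∧ ∀ y, g y = y → y = x := by
  decide

lemma unique_fix {Ω : Type*} [Fintype Ω] [DecidableEq Ω] (hn : Fintype.card Ω = 4) (g : Perm Ω)
    (h3 : g ^ 3 = 1) (h1 : g ≠ 1) : ∃ x, g x = x ∧ ∀ y, g y = y → y = x := by
  let e : Ω ≃ Fin 4 := Fintype.equivFinOfCardEq hn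
  have hc : ∀ z, e.permCongr g z = e (g (e.symm z)) := fun _ => rfl
  obtain ⟨x, hx1, hx2⟩ := unique_fix_fin4 (e.permCongrHom g) (by
    rw [← map_pow, h3, map_one]) (by
    intro h
    apply h1
    apply e.permCongrHom.injective
    rw [h, map_one])
  refine ⟨e.symm x, ?_, ?_⟩
  · have : e (g (e.symm x)) = x := hx1
    exact (Equiv.eq_symm_apply e).mpr this
  · intro y hy
    have := hx2 (e y) (by
      show e (g (e.symm (e y))) = e y
      simp [hy])
    rw [← this]
    simp

theorem small_four {Ω : Type*} [Fintype Ω] [DecidableEq Ω] (hn : Fintype.card Ω = 4)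
    (H : Subgroup (Perm Ω)) (hH : H.index = 4) : ∃ x : Ω, H ≤ stabilizer (Perm Ω) x := by
  classical
  have hcardH : Nat.card H = 6 := by
    have h1 := Subgroup.index_mul_card H
    have h0 : Nat.card Ω = 4 := by rw [Nat.card_eq_fintype_card, hn]
    rw [hH, Nat.card_perm, h0] at h1
    have : Nat.factorial 4 = 24 := rfl
    omega
  haveI : Fact (Nat.Prime 3) := ⟨by norm_num⟩
  obtain ⟨g, hg⟩ := exists_prime_orderOf_dvd_card' 3 (by rw [hcardH]; norm_num : 3 ∣ Nat.card H)
  have hg3 : ((g : H) : Perm Ω) ^ 3 = 1 := by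
    have := pow_orderOf_eq_one g
    rw [hg] at this
    have h2 := congrArg Subtype.val this
    simpa using h2
  have hg1 : ((g : H) : Perm Ω) ≠ 1 := by
    intro h
    have h2 : g = 1 := Subtype.ext h
    rw [h2, orderOf_one] at hg
    omega
  obtain ⟨x, hx1, hx2⟩ := unique_fix hn _ hg3 hg1
  refine ⟨x, ?_⟩
  intro h hh
  by_contra hmove
  set f : Perm Ω := (g : Perm Ω) with hf
  have hmove' : h x ≠ x := hmove
  set y := h x with hy
  have h1 : f y ≠ y := fun h => hmove' (hx2 y h)
  have hf3 : ∀ z, f (f (f z)) = z := by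
    intro z
    have := congrArg (fun k : Perm Ω => k z) hg3
    simpa [pow_three] using this
  have h2 : f (f y) ≠ y := by
    intro h3
    apply h1
    have := hf3 y
    rw [h3] at this
    exact this
  have h3 : f (f y) ≠ f y := fun h => h1 (f.injective h)
  have h4 : f y ≠ x := by
    intro h5
    apply hmove'
    apply f.injective
    rw [h5, hx1]
  have h5 : f (f y) ≠ x := by
    intro h6
    apply h4
    apply f.injective
    rw [h6, hx1]
  have hsub : (({x, y, f y, f (f y)} : Finset Ω) : Set Ω) ⊆ orbit H x := by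
    intro z hz
    simp only [Finset.coe_insert, Finset.coe_singleton, Set.mem_insert_iff, Set.mem_singleton_iff] at hz
    rcases hz with rfl | rfl | rfl | rfl
    · exact ⟨1, rfl⟩
    · exact ⟨⟨h, hh⟩, rfl⟩
    · exact ⟨g * ⟨h, hh⟩, rfl⟩
    · exact ⟨g * g * ⟨h, hh⟩, rfl⟩
  have hcard4 : ({x, y, f y, f (f y)} : Finset Ω).card = 4 := by
    rw [Finset.card_insert_of_notMem, Finset.card_insert_of_notMem, Finset.card_insert_of_notMem,
      Finset.card_singleton]
    · simp [Ne.symm h3]
    · simp [Ne.symm h1, Ne.symm h2]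
    · simp [Ne.symm hmove', Ne.symm h4, Ne.symm h5]
  have hle := Set.ncard_le_ncard hsub (Set.toFinite _)
  rw [Set.ncard_coe_finset, hcard4] at hle
  have hle2 : (orbit H x).ncard ≤ 4 := by
    have := Set.ncard_le_card (orbit H x)
    rwa [Nat.card_eq_fintype_card, hn] at this
  have hd := Subgroup.index_dvd_card (stabilizer H x)
  rw [MulAction.index_stabilizer, hcardH] at hd
  have h6 : (orbit H x).ncard = 4 := le_antisymm hle2 hle
  rw [h6] at hd
  omega



/-- Let Ω be a finite set whose size n is not 6. Then every subgroup of the symmetric group on Ω of index n is the stabilizer of a point. -/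
theorem result {Ω : Type*} [Fintype Ω] [DecidableEq Ω] (h6 : Fintype.card Ω ≠ 6)
    (H : Subgroup (Equiv.Perm Ω)) (hH : H.index = Fintype.card Ω) :
    ∃ x : Ω, H = MulAction.stabilizer (Equiv.Perm Ω) x := by
  classical
  set n := Fintype.card Ω with hn
  have hn0 : n ≠ 0 := by
    intro h0
    rw [h0] at hH
    exact Subgroup.index_ne_zero_of_finite hH
  have hnonempty : Nonempty Ω := Fintype.card_pos_iff.mp (Nat.pos_of_ne_zero hn0)
  by_cases h5 : 5 ≤ n
  · haveI : Fintype (Perm Ω ⧸ H) := Fintype.ofFinite _
    have htwo : 2 ≤ n := by omega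
    obtain ⟨p, q, hpq⟩ : ∃ p q : Ω, p ≠ q := by
      have : Nontrivial Ω := Fintype.one_lt_card_iff_nontrivial.mp (by omega)
      exact exists_pair_ne Ω
    have ht : (swap p q).IsSwap := ⟨p, q, hpq, rfl⟩
    rcases cosetRep_swap_image H h5 hH ht with h | ⟨hfpf, hlt⟩
    · exact eq_stabilizer_of_swap_image H h5 hH ht h
    · exfalso
      have hX : Fintype.card (Perm Ω ⧸ H) = n := by
        rw [← Nat.card_eq_fintype_card, ← Subgroup.index_eq_card, hH]
      have hsq : (cosetRep H (swap p q)) ^ 2 = 1 := by
        rw [← map_pow, pow_two, swap_mul_self, map_one]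
      have h2 := two_dvd_card_support hsq
      have huniv : (cosetRep H (swap p q)).support = Finset.univ := by
        rw [Finset.eq_univ_iff_forall]
        intro x
        exact Equiv.Perm.mem_support.mpr (hfpf x)
      rw [huniv, Finset.card_univ, hX] at h2
      omega
  · have hle : ∃ x : Ω, H ≤ MulAction.stabilizer (Perm Ω) x := by
      by_cases h4 : n = 4
      · exact small_four h4 H (hH.trans h4)
      by_cases h3 : n = 3
      · have hcardH : Nat.card H = 2 := by
          have h1 := Subgroup.index_mul_card H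
          have h0 : Nat.card Ω = n := by rw [Nat.card_eq_fintype_card]
          rw [hH, Nat.card_perm, h0, h3] at h1
          have : Nat.factorial 3 = 6 := rfl
          omega
        have hp : IsPGroup 2 H := by
          apply IsPGroup.of_card (n := 1)
          rw [hcardH]; norm_num
        haveI : Fact (Nat.Prime 2) := ⟨by norm_num⟩
        have h0' : Nat.card Ω = n := by rw [Nat.card_eq_fintype_card]
        obtain ⟨x, hx⟩ := hp.nonempty_fixed_point_of_prime_not_dvd_card Ω (by
          rw [h0', h3]; norm_num)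
        exact ⟨x, fun g hg => hx ⟨g, hg⟩⟩
      · have hn12 : n = 1 ∨ n = 2 := by omega
        have hcardH : Nat.card H = 1 := by
          have h1 := Subgroup.index_mul_card H
          have h0 : Nat.card Ω = n := by rw [Nat.card_eq_fintype_card]
          rw [hH, Nat.card_perm, h0] at h1
          rcases hn12 with h | h
          · rw [h] at h1
            have : Nat.factorial 1 = 1 := rfl
            rw [this] at h1
            omega
          · rw [h] at h1
            have : Nat.factorial 2 = 2 := rfl
            rw [this] at h1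
            omega
        have hbot : H = ⊥ := Subgroup.eq_bot_of_card_eq H hcardH
        obtain ⟨x⟩ := hnonempty
        exact ⟨x, by rw [hbot]; exact bot_le⟩
    obtain ⟨x, hx⟩ := hle
    exact ⟨x, eq_stabilizer_of_le H hx hH⟩

end Cfsg.Agent.S5911
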