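import Cfsg.Statements.S5912
import Cfsg.Agent.Lib.H29.SixExotic
import Cfsg.Agent.Lib.H29.SixIndex
-- import your own Cfsg.Agent.* helpers here

set_option autoImplicit false
open Cfsg

namespace Cfsg.Agent.S5912

open Cfsg.Agent.H29 Equiv Equiv.Perm MulAction


/-- The symmetric group on a 6-element set Ω has exactly two conjugacy classes of subgroups of index 6: there are two non-conjugate subgroups of index 6 (a point stabilizer and a transitive subgroup isomorphic to S₅), and every subgroup of index 6 is conjugate to one of them. -/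
theorem result {Ω : Type*} [Fintype Ω] [DecidableEq Ω] (h6 : Fintype.card Ω = 6) :
    ∃ H₁ H₂ : Subgroup (Equiv.Perm Ω), H₁.index = 6 ∧ H₂.index = 6 ∧
      (¬ ∃ g : Equiv.Perm Ω, Subgroup.map (MulAut.conj g).toMonoidHom H₁ = H₂) ∧
      ∀ H : Subgroup (Equiv.Perm Ω), H.index = 6 →
        ∃ g : Equiv.Perm Ω, Subgroup.map (MulAut.conj g).toMonoidHom H₁ = H ∨ Subgroup.map (MulAut.conj g).toMonoidHom H₂ = H := by
  classical
  let e : Ω ≃ Fin 6 := Fintype.equivFinOfCardEq h6
  obtain ⟨a₀⟩ : Nonempty Ω := Fintype.card_pos_iff.mp (by omega)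
  let H₁ := stabilizer (Perm Ω) a₀
  let H₂ := exoticS6.comap (e.permCongrHom : Perm Ω →* Perm (Fin 6))
  have h1 : H₁.index = 6 := by
    rw [MulAction.index_stabilizer_of_transitive, Nat.card_eq_fintype_card, h6]
  have h2 : H₂.index = 6 := by
    rw [← exoticS6_index]
    exact Subgroup.index_comap_of_surjective _ e.permCongrHom.surjective
  have hno2 : ∀ s ∈ H₂, ¬ s.IsSwap := by
    rintro s hs ⟨u, v, huv, rfl⟩
    have h3 : e.permCongr (swap u v) ∈ exoticS6 := hs
    have h4 : e.permCongr (swap u v) = swap (e u) (e v) := Equiv.symm_trans_swap_trans u v e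
    rw [h4] at h3
    exact exoticS6_no_swap _ _ (fun h => huv (e.injective h)) h3
  refine ⟨H₁, H₂, h1, h2, ?_, ?_⟩
  · rintro ⟨g, hg⟩
    obtain ⟨s, hs, hs2⟩ := exists_swap_mem_stabilizer (by omega) a₀
    apply hno2 (g * s * g⁻¹)
    · rw [← hg]
      exact ⟨s, hs, rfl⟩
    · exact isSwap_conj hs2 g
  · intro H hH
    by_cases hs : ∃ s ∈ H, s.IsSwap
    · obtain ⟨s, hs1, hs2⟩ := hs
      obtain ⟨a, ha⟩ := eq_stabilizer_of_swap_mem (by omega) (by omega) H (by rw [hH, h6]) hs2 hs1
      refine ⟨swap a₀ a, Or.inl ?_⟩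
      have h3 := MulAction.stabilizer_smul_eq_stabilizer_map_conj (swap a₀ a) a₀
      have h4 : swap a₀ a • a₀ = a := by
        show swap a₀ a a₀ = a
        exact swap_apply_left _ _
      rw [h4] at h3
      rw [ha, h3]
    · push Not at hs
      obtain ⟨x, hx⟩ := eq_stabilizer_coset h6 H₂ H h2 hH hno2 hs
      obtain ⟨g, rfl⟩ := QuotientGroup.mk_surjective x
      refine ⟨g, Or.inr ?_⟩
      rw [hx]
      have h3 := MulAction.stabilizer_smul_eq_stabilizer_map_conj g ((1 : Perm Ω) : Perm Ω ⧸ H₂)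
      rw [MulAction.Quotient.smul_coe, smul_eq_mul, mul_one, MulAction.stabilizer_quotient] at h3
      exact h3.symm

end Cfsg.Agent.S5912
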