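import Cfsg.Statements.S5913
-- import your own Cfsg.Agent.* helpers here

set_option autoImplicit false
open Cfsg

namespace Cfsg.Agent.S5913

/-- Let S be a non-abelian simple group and n a natural number. Every normal subgroup N of the direct power S^n (functions Fin n → S) is a subproduct: there is a set T of coordinates such that N consists exactly of the elements whose coordinates outside T are trivial. In particular the minimal normal subgroups of S^n are its n factors. -/
theorem result {S : Type*} [Group S] [IsSimpleGroup S] (hS : ¬ IsMulCommutative S) (n : ℕ)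
    (N : Subgroup (Fin n → S)) [N.Normal] :
    ∃ T : Finset (Fin n), ∀ x : Fin n → S, x ∈ N ↔ ∀ i, i ∉ T → x i = 1 := by
    classical
  -- the centre of `S` is trivial
  have hcenter : Subgroup.center S = ⊥ := by
    rcases (inferInstance : (Subgroup.center S).Normal).eq_bot_or_eq_top with h | h
    · exact h
    · exfalso
      apply hS
      refine ⟨⟨fun a b => ?_⟩⟩
      have : a ∈ Subgroup.center S := h ▸ Subgroup.mem_top a
      exact (Subgroup.mem_center_iff.mp this b).symm
  -- each factor met non-trivially is contained in `N`
  have hfactor : ∀ (y : Fin n → S) (i : Fin n), y ∈ N → y i ≠ 1 → ∀ s : S, Pi.mulSingle i s ∈ N := by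
    intro y i hy hyi
    have hnc : y i ∉ Subgroup.center S := by
      rw [hcenter]
      simpa using hyi
    rw [Subgroup.mem_center_iff] at hnc
    push Not at hnc
    obtain ⟨s, hs⟩ := hnc
    -- the commutator
    let L : Subgroup S := N.comap (MonoidHom.mulSingle (fun _ : Fin n => S) i)
    haveI : L.Normal := by
      constructor
      intro a ha g
      rw [Subgroup.mem_comap] at ha ⊢
      have := (inferInstance : N.Normal).conj_mem _ ha (Pi.mulSingle i g)
      have heq : (MonoidHom.mulSingle (fun _ : Fin n => S) i) (g * a * g⁻¹) = Pi.mulSingle i g * (MonoidHom.mulSingle (fun _ : Fin n => S) i) a * (Pi.mulSingle i g)⁻¹ := by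
        simp only [map_mul, map_inv, MonoidHom.mulSingle_apply]
      rw [heq]
      exact this
    have hne : L ≠ ⊥ := by
      intro hL
      have hmem : Pi.mulSingle i (s⁻¹ * (y i)⁻¹ * s * y i) ∈ N := by
        have h1 : y⁻¹ ∈ N := N.inv_mem hy
        have h2 : (Pi.mulSingle i s)⁻¹ * (y⁻¹ * Pi.mulSingle i s) * y ∈ N := by
          have h3 := (inferInstance : N.Normal).conj_mem _ h1 ((Pi.mulSingle i s)⁻¹)
          have h4 := N.mul_mem h3 hy
          simpa [mul_assoc] using h4
        have : (Pi.mulSingle i s)⁻¹ * (y⁻¹ * Pi.mulSingle i s) * y = Pi.mulSingle i (s⁻¹ * (y i)⁻¹ * s * y i) := by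
          funext j
          by_cases hj : j = i
          · subst hj
            simp [mul_assoc]
          · simp [Pi.mulSingle_eq_of_ne hj]
        rwa [this] at h2
      have hmem' : (s⁻¹ * (y i)⁻¹ * s * y i) ∈ L := hmem
      rw [hL, Subgroup.mem_bot] at hmem'
      apply hs
      have h5 : (y i)⁻¹ * s * y i = s := by
        have := congrArg (fun t => s * t) hmem'
        simpa [mul_assoc] using this
      calc s * y i = y i * ((y i)⁻¹ * s * y i) := by group
        _ = y i * s := by rw [h5]
    have htop : L = ⊤ := (inferInstance : L.Normal).eq_bot_or_eq_top.resolve_left hne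
    intro s'
    have : s' ∈ L := htop ▸ Subgroup.mem_top s'
    exact this
  refine ⟨Finset.univ.filter (fun i => ∃ x ∈ N, x i ≠ 1), fun x => ⟨?_, ?_⟩⟩
  · intro hx i hi
    by_contra hne
    exact hi (Finset.mem_filter.mpr ⟨Finset.mem_univ _, x, hx, hne⟩)
  · intro hx
    -- induct on the support
    have hind : ∀ (U : Finset (Fin n)) (x : Fin n → S), (∀ i, i ∉ U → x i = 1) →
        (∀ i ∈ U, ∀ s : S, Pi.mulSingle i s ∈ N) → x ∈ N := by
      intro U
      induction U using Finset.induction_on with
      | empty =>
        intro x hx _
        have : x = 1 := funext fun i => hx i (Finset.notMem_empty i)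
        rw [this]
        exact one_mem _
      | insert a U ha ih =>
        intro x hx hU
        have hx' : Function.update x a 1 ∈ N := by
          apply ih
          · intro i hi
            by_cases hia : i = a
            · subst hia; simp
            · rw [Function.update_of_ne hia]
              exact hx i (by simp [hia, hi])
          · intro i hi
            exact hU i (Finset.mem_insert_of_mem hi)
        have heq : x = Function.update x a 1 * Pi.mulSingle a (x a) := by
          funext j
          by_cases hja : j = a
          · subst hja; simp
          · simp [hja]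
        rw [heq]
        exact N.mul_mem hx' (hU a (Finset.mem_insert_self _ _) _)
    refine hind _ x hx ?_
    intro i hi s
    obtain ⟨-, y, hy, hyi⟩ := Finset.mem_filter.mp hi
    exact hfactor y i hy hyi s

end Cfsg.Agent.S5913
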