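import Cfsg.Statements.S5914
import Cfsg.Agent.S5913
-- import your own Cfsg.Agent.* helpers here

set_option autoImplicit false
open Cfsg

namespace Cfsg.Agent.S5914

/-- A type synonym of `Fin n` without algebraic structure. -/
def FinCarrier (n : ℕ) : Type := Fin n

instance (n : ℕ) : Fintype (FinCarrier n) := inferInstanceAs (Fintype (Fin n))

section Forward

variable {G : Type*} [Group G] [Finite G]

lemma exists_min_normal [Nontrivial G] :
    ∃ N : Subgroup G, N.Normal ∧ N ≠ ⊥ ∧ ∀ T : Subgroup G, T.Normal → T ≤ N → T = ⊥ ∨ T = N := by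
  classical
  let S : Set (Subgroup G) := {N | N.Normal ∧ N ≠ ⊥}
  have hne : S.Nonempty := ⟨⊤, inferInstance, top_ne_bot⟩
  obtain ⟨N, hN⟩ := S.toFinite.exists_minimal hne
  refine ⟨N, hN.prop.1, hN.prop.2, fun T hT hTN => ?_⟩
  by_cases hbot : T = ⊥
  · exact Or.inl hbot
  · exact Or.inr (le_antisymm hTN (hN.le_of_le ⟨hT, hbot⟩ hTN))

/-- `k` coordinates: an embedding of `N^k` in `G` with normal image. -/
def ExtDat (N : Subgroup G) (k : ℕ) : Prop :=
  ∃ ι : (Fin k → N) →* G, Function.Injective ι ∧ ι.range.Normal

lemma extDat_zero (N : Subgroup G) : ExtDat N 0 := by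
  refine ⟨1, ?_, ?_⟩
  · intro x y _
    exact Subsingleton.elim x y
  · rw [MonoidHom.range_one]
    infer_instance

lemma extDat_succ {N : Subgroup G} (hN : N.Normal)
    (hmin : ∀ T : Subgroup G, T.Normal → T ≤ N → T = ⊥ ∨ T = N) {k : ℕ}
    (ι : (Fin k → N) →* G) (hι : Function.Injective ι) (hnorm : ι.range.Normal)
    (σ : G ≃* G) (hσ : ¬ N.map σ.toMonoidHom ≤ ι.range) : ExtDat N (k + 1) := by
  classical
  have hMnorm : (N.map σ.toMonoidHom).Normal := hN.map _ σ.surjective
  have hdisj : N.map σ.toMonoidHom ⊓ ι.range = ⊥ := by
    have h1 : ((N.map σ.toMonoidHom ⊓ ι.range).comap σ.toMonoidHom).Normal := by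
      haveI := hMnorm
      haveI := hnorm
      exact (Subgroup.normal_inf_normal _ _).comap _
    have h2 : (N.map σ.toMonoidHom ⊓ ι.range).comap σ.toMonoidHom ≤ N := by
      intro x hx
      obtain ⟨y, hy, hxy⟩ := hx.1
      have : y = x := σ.injective hxy
      exact this ▸ hy
    rcases hmin _ h1 h2 with h3 | h3
    · rw [eq_bot_iff]
      rintro g ⟨⟨n, hn, rfl⟩, hg⟩
      have : n ∈ (N.map σ.toMonoidHom ⊓ ι.range).comap σ.toMonoidHom :=
        ⟨⟨n, hn, rfl⟩, hg⟩
      rw [h3] at this
      rw [Subgroup.mem_bot.mp this, map_one]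
      exact Subgroup.one_mem _
    · exfalso
      apply hσ
      rintro _ ⟨n, hn, rfl⟩
      have : n ∈ (N.map σ.toMonoidHom ⊓ ι.range).comap σ.toMonoidHom := by
        rw [h3]; exact hn
      exact this.2
  have hcomm : ∀ (n : N) (t : Fin k → N), Commute (σ (n : G)) (ι t) := by
    intro n t
    refine Subgroup.commute_of_normal_of_disjoint _ _ hMnorm hnorm ?_ _ _ ⟨n, n.2, rfl⟩ ⟨t, rfl⟩
    exact disjoint_iff.mpr hdisj
  let ι' : (Fin (k + 1) → N) →* G :=
    { toFun := fun x => σ ((x 0 : N) : G) * ι (Fin.tail x)
      map_one' := by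
        have : (Fin.tail (1 : Fin (k + 1) → N)) = 1 := rfl
        simp [this]
      map_mul' := by
        intro x y
        have h1 : (Fin.tail (x * y)) = Fin.tail x * Fin.tail y := rfl
        have h2 := (hcomm (y 0) (Fin.tail x)).eq
        simp only [Pi.mul_apply, Subgroup.coe_mul, map_mul, h1]
        calc σ (x 0 : G) * σ (y 0 : G) * (ι (Fin.tail x) * ι (Fin.tail y))
            = σ (x 0 : G) * (σ (y 0 : G) * ι (Fin.tail x)) * ι (Fin.tail y) := by group
          _ = σ (x 0 : G) * (ι (Fin.tail x) * σ (y 0 : G)) * ι (Fin.tail y) := by rw [h2]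
          _ = _ := by group }
  have hι'apply : ∀ x, ι' x = σ ((x 0 : N) : G) * ι (Fin.tail x) := fun _ => rfl
  refine ⟨ι', ?_, ?_⟩
  · rw [injective_iff_map_eq_one]
    intro x hx
    rw [hι'apply] at hx
    have h1 : σ (x 0 : G) = (ι (Fin.tail x))⁻¹ := eq_inv_of_mul_eq_one_left hx
    have h2 : σ (x 0 : G) ∈ N.map σ.toMonoidHom ⊓ ι.range :=
      ⟨⟨x 0, (x 0).2, rfl⟩, h1 ▸ Subgroup.inv_mem _ ⟨_, rfl⟩⟩
    rw [hdisj, Subgroup.mem_bot] at h2
    have h3 : (x 0 : G) = 1 := σ.injective (by rw [h2, map_one])
    have h4 : ι (Fin.tail x) = 1 := by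
      rw [h2, one_mul] at hx
      exact hx
    have h5 : Fin.tail x = 1 := hι (by rw [h4, map_one])
    funext i
    refine Fin.cases ?_ (fun j => ?_) i
    · exact Subtype.ext h3
    · exact congrFun h5 j
  · constructor
    rintro _ ⟨x, rfl⟩ g
    rw [hι'apply]
    have h1 : g * σ (x 0 : G) * g⁻¹ ∈ N.map σ.toMonoidHom := hMnorm.conj_mem _ ⟨x 0, (x 0).2, rfl⟩ g
    obtain ⟨n, hn, hn'⟩ := h1
    have h2 : g * ι (Fin.tail x) * g⁻¹ ∈ ι.range := hnorm.conj_mem _ ⟨_, rfl⟩ g
    obtain ⟨t, ht⟩ := h2
    refine ⟨Fin.cons ⟨n, hn⟩ t, ?_⟩
    rw [hι'apply]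
    simp only [Fin.cons_zero, Fin.tail_cons]
    rw [ht]
    change σ n * (g * ι (Fin.tail x) * g⁻¹) = _
    have hn2 : σ n = g * σ (x 0 : G) * g⁻¹ := hn'
    rw [hn2]
    group

end Forward

lemma mem_normalizer_of_centralizes {G : Type*} [Group G] {T' N : Subgroup G} (hT' : T' ≤ N) {g : G}
    (hg : ∀ n ∈ N, g * n = n * g) : g ∈ Subgroup.normalizer (T' : Set G) := by
  rw [Subgroup.mem_normalizer_iff]
  intro t
  constructor
  · intro ht
    have h1 : g * t * g⁻¹ = t := by
      rw [hg t (hT' ht), mul_inv_cancel_right]
    rw [h1]
    exact ht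
  · intro ht
    have hs := hT' ht
    have h2 := hg _ hs
    have h3 : t = g * t * g⁻¹ := by
      have h4 : g⁻¹ * (g * (g * t * g⁻¹)) = g⁻¹ * (g * t * g⁻¹ * g) := by rw [h2]
      rw [inv_mul_cancel_left] at h4
      rw [h4]
      group
    rw [h3]
    exact ht

section Backward

variable {S : Type*} [Group S] {n : ℕ}

/-- Permuting the coordinates. -/
def coordAut (τ : Equiv.Perm (Fin n)) : (Fin n → S) ≃* (Fin n → S) where
  toFun x := x ∘ τ
  invFun x := x ∘ τ.symm
  left_inv x := by funext i; simp
  right_inv x := by funext i; simp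
  map_mul' x y := rfl

end Backward

section Transvect

variable {S : Type*} [Group S] [IsMulCommutative S] {n : ℕ}

/-- A transvection of `S^n` for abelian `S`. -/
def transvect (i j : Fin n) (hij : i ≠ j) : (Fin n → S) ≃* (Fin n → S) where
  toFun x := Function.update x j (x j * x i)
  invFun x := Function.update x j (x j * (x i)⁻¹)
  left_inv x := by
    classical
    funext k
    by_cases hk : k = j
    · subst hk
      simp [Function.update_of_ne hij]
    · simp [Function.update_of_ne hk]
  right_inv x := by
    classical
    funext k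
    by_cases hk : k = j
    · subst hk
      simp [Function.update_of_ne hij]
    · simp [Function.update_of_ne hk]
  map_mul' x y := by
    classical
    funext k
    by_cases hk : k = j
    · subst hk
      simp only [Function.update_self, Pi.mul_apply]
      have hc : ∀ a b : S, a * b = b * a := fun a b => mul_comm' a b
      calc x k * y k * (x i * y i) = x k * (y k * x i) * y i := by group
        _ = x k * (x i * y k) * y i := by rw [hc (y k) (x i)]
        _ = x k * x i * (y k * y i) := by group
    · simp [Function.update_of_ne hk]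

end Transvect


/-- A non-trivial finite group G is characteristically simple (its only characteristic subgroups are 1 and G) if and only if G is isomorphic to a direct power S^n (n ≥ 1) of some simple group S (possibly cyclic of prime order). -/
theorem result {G : Type*} [Group G] [Finite G] [Nontrivial G] :
    (∀ H : Subgroup G, H.Characteristic → H = ⊥ ∨ H = ⊤) ↔
    ∃ (S : Type) (_ : Group S) (_ : IsSimpleGroup S) (n : ℕ), 1 ≤ n ∧ Nonempty (G ≃* (Fin n → S)) := by
  classical
  constructor
  · intro hchar
    obtain ⟨N, hN, hNbot, hmin⟩ := exists_min_normal (G := G)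
    -- the characteristic closure of `N`
    let C : Subgroup G := ⨆ σ : G ≃* G, N.map σ.toMonoidHom
    have hCchar : C.Characteristic := by
      rw [Subgroup.characteristic_iff_map_le]
      intro φ
      rw [Subgroup.map_iSup]
      refine iSup_le fun σ => ?_
      refine le_iSup_of_le (σ.trans φ) ?_
      rw [Subgroup.map_map]
      rfl
    have hCtop : C = ⊤ := by
      rcases hchar C hCchar with h | h
      · exfalso
        apply hNbot
        rw [eq_bot_iff]
        intro x hx
        have : x ∈ C := Subgroup.mem_iSup_of_mem (MulEquiv.refl G) ⟨x, hx, rfl⟩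
        rwa [h] at this
      · exact h
    -- maximal `k`
    obtain ⟨k, hk⟩ : ∃ k, ExtDat N k ∧ ¬ ExtDat N (k + 1) := by
      by_contra hcon
      push Not at hcon
      have hall : ∀ k, ExtDat N k := by
        intro k
        induction k with
        | zero => exact extDat_zero N
        | succ k ih => exact hcon k ih
      obtain ⟨ι, hι, -⟩ := hall (Nat.card G)
      have h1 := Nat.card_le_card_of_injective ι hι
      rw [Nat.card_fun, Nat.card_fin] at h1
      have hN2 : 2 ≤ Nat.card N := by
        have : Nontrivial N := (Subgroup.nontrivial_iff_ne_bot N).mpr hNbot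
        exact Finite.one_lt_card
      have h2 : Nat.card G < 2 ^ Nat.card G := Nat.lt_two_pow_self
      have h3 : 2 ^ Nat.card G ≤ Nat.card N ^ Nat.card G := Nat.pow_le_pow_left hN2 _
      omega
    obtain ⟨⟨ι, hι, hnorm⟩, hkmax⟩ := hk
    have hle : ∀ σ : G ≃* G, N.map σ.toMonoidHom ≤ ι.range := by
      intro σ
      by_contra hcon
      exact hkmax (extDat_succ hN hmin ι hι hnorm σ hcon)
    have hrange : ι.range = ⊤ := by
      rw [eq_top_iff, ← hCtop]
      exact iSup_le hle
    have hbij : Function.Bijective ι := ⟨hι, MonoidHom.range_eq_top.mp hrange⟩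
    let e := MulEquiv.ofBijective ι hbij
    have hk1 : 1 ≤ k := by
      by_contra h
      have h0 : k = 0 := by omega
      subst h0
      obtain ⟨x, y, hxy⟩ := exists_pair_ne G
      apply hxy
      apply e.symm.injective
      exact Subsingleton.elim _ _
    -- `N` is simple
    have hNsimple : IsSimpleGroup N := by
      have hnt : Nontrivial N := (Subgroup.nontrivial_iff_ne_bot N).mpr hNbot
      refine ⟨fun T hT => ?_⟩
      let T' : Subgroup G := T.map N.subtype
      have hT'N : T' ≤ N := by
        rintro _ ⟨t, _, rfl⟩
        exact t.2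
      have hT'norm : T'.Normal := by
        rw [← Subgroup.normalizer_eq_top_iff, eq_top_iff, ← hCtop]
        refine iSup_le fun σ => ?_
        have hMnorm : (N.map σ.toMonoidHom).Normal := hN.map _ σ.surjective
        have hinfnorm : (N.map σ.toMonoidHom ⊓ N).Normal := by
          haveI := hMnorm
          haveI := hN
          exact Subgroup.normal_inf_normal _ _
        rcases hmin (N.map σ.toMonoidHom ⊓ N) hinfnorm inf_le_right with h | h
        · -- `σ N` centralises `N`
          have hdisj : Disjoint (N.map σ.toMonoidHom) N := disjoint_iff.mpr h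
          intro g hg
          refine mem_normalizer_of_centralizes hT'N fun n hn => ?_
          exact (Subgroup.commute_of_normal_of_disjoint _ _ hMnorm hN hdisj g n hg hn).eq
        · -- `σ N = N`
          have hle2 : N ≤ N.map σ.toMonoidHom := inf_eq_right.mp h
          have hcard : Nat.card (N.map σ.toMonoidHom) = Nat.card N :=
            Subgroup.card_map_of_injective σ.injective
          have heq : N = N.map σ.toMonoidHom := Subgroup.eq_of_le_of_card_ge hle2 hcard.le
          rw [← heq]
          intro g hg
          rw [Subgroup.mem_normalizer_iff]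
          have hone : ∀ (g : G), g ∈ N → ∀ t, t ∈ T' → g * t * g⁻¹ ∈ T' := by
            rintro g hg _ ⟨t, ht, rfl⟩
            have := hT.conj_mem t ht ⟨g, hg⟩
            exact ⟨_, this, rfl⟩
          intro t
          constructor
          · exact hone g hg t
          · intro ht
            have := hone g⁻¹ (N.inv_mem hg) _ ht
            have h2 : g⁻¹ * (g * t * g⁻¹) * g⁻¹⁻¹ = t := by group
            rwa [h2] at this
      rcases hmin T' hT'norm hT'N with h | h
      · left
        rw [eq_bot_iff]
        intro x hx
        have : (x : G) ∈ T' := ⟨x, hx, rfl⟩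
        rw [h, Subgroup.mem_bot] at this
        exact Subgroup.mem_bot.mpr (Subtype.ext this)
      · right
        rw [eq_top_iff]
        intro x _
        have : (x : G) ∈ T' := by rw [h]; exact x.2
        obtain ⟨y, hy, hyx⟩ := this
        have : y = x := Subtype.ext hyx
        exact this ▸ hy
    -- a model of `N` in `Type`
    let eN : FinCarrier (Nat.card N) ≃ N := (Finite.equivFin N).symm
    letI gS : Group (FinCarrier (Nat.card N)) := eN.group
    let eS : FinCarrier (Nat.card N) ≃* N := eN.mulEquiv
    have hS : IsSimpleGroup (FinCarrier (Nat.card N)) := (MulEquiv.isSimpleGroup_congr eS).mpr hNsimple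
    refine ⟨FinCarrier (Nat.card N), gS, hS, k, hk1, ⟨?_⟩⟩
    exact e.symm.trans (MulEquiv.piCongrRight fun _ => eS.symm)
  · rintro ⟨S, _, hS, n, hn, ⟨e⟩⟩ H hH
    -- transport to the product
    let N : Subgroup (Fin n → S) := H.map e.toMonoidHom
    have hNchar : ∀ α : (Fin n → S) ≃* (Fin n → S), ∀ x ∈ N, α x ∈ N := by
      rintro α _ ⟨h, hh, rfl⟩
      have h1 : H.map ((e.trans (α.trans e.symm)).toMonoidHom) ≤ H :=
        (Subgroup.characteristic_iff_map_le.mp hH) _
      have h2 : e.symm (α (e h)) ∈ H := h1 ⟨h, hh, rfl⟩
      exact ⟨_, h2, by simp⟩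
    haveI hNnormal : N.Normal := by
      constructor
      intro x hx g
      exact hNchar (MulAut.conj g) x hx
    by_cases hNbot : N = ⊥
    · left
      rw [eq_bot_iff]
      intro h hh
      have : e h ∈ N := ⟨h, hh, rfl⟩
      rw [hNbot, Subgroup.mem_bot] at this
      exact Subgroup.mem_bot.mpr (e.map_eq_one_iff.mp this)
    right
    -- some `L_j` is nontrivial
    let Lj : Fin n → Subgroup S := fun j => N.comap (MonoidHom.mulSingle (fun _ : Fin n => S) j)
    have hLnorm : ∀ j, (Lj j).Normal := by
      intro j
      exact Subgroup.Normal.comap hNnormal _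
    obtain ⟨x, hx, hx1⟩ : ∃ x ∈ N, x ≠ 1 := by
      by_contra hcon
      push Not at hcon
      exact hNbot ((Subgroup.eq_bot_iff_forall _).mpr hcon)
    obtain ⟨i, hi⟩ : ∃ i, x i ≠ 1 := by
      by_contra hcon
      push Not at hcon
      exact hx1 (funext hcon)
    have hex : ∃ j, Lj j ≠ ⊥ := by
      by_cases hcomm : IsMulCommutative S
      · by_cases hj : ∃ j, j ≠ i
        · obtain ⟨j, hji⟩ := hj
          refine ⟨j, fun hL => ?_⟩
          have h1 : (transvect i j hji.symm) x * x⁻¹ = Pi.mulSingle j (x i) := by
            funext k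
            by_cases hk : k = j
            · subst hk
              simp [transvect]
              rw [mul_comm' (x k) (x i)]
              group
            · simp [transvect, Function.update_of_ne hk, Pi.mulSingle_eq_of_ne hk]
          have h2 : Pi.mulSingle j (x i) ∈ N := by
            rw [← h1]
            exact N.mul_mem (hNchar _ _ hx) (N.inv_mem hx)
          have h3 : x i ∈ Lj j := h2
          rw [hL, Subgroup.mem_bot] at h3
          exact hi h3
        · push Not at hj
          refine ⟨i, fun hL => ?_⟩
          have h1 : x = Pi.mulSingle i (x i) := by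
            funext k
            rw [hj k, Pi.mulSingle_eq_same]
          have h2 : x i ∈ Lj i := by
            change Pi.mulSingle i (x i) ∈ N
            rwa [← h1]
          rw [hL, Subgroup.mem_bot] at h2
          exact hi h2
      · obtain ⟨T, hT⟩ := Cfsg.Agent.S5913.result hcomm n N
        have hiT : i ∈ T := by
          by_contra hcon
          exact hi ((hT x).mp hx i hcon)
        refine ⟨i, fun hL => ?_⟩
        obtain ⟨s, hs⟩ := exists_ne (1 : S)
        have h2 : Pi.mulSingle i s ∈ N := by
          rw [hT]
          intro k hk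
          have : k ≠ i := fun h => hk (h ▸ hiT)
          exact Pi.mulSingle_eq_of_ne this _
        have h3 : s ∈ Lj i := h2
        rw [hL, Subgroup.mem_bot] at h3
        exact hs h3
    obtain ⟨j, hj⟩ := hex
    have hjtop : Lj j = ⊤ := ((hLnorm j).eq_bot_or_eq_top).resolve_left hj
    have hall : ∀ k (s : S), (Pi.mulSingle k s : Fin n → S) ∈ N := by
      intro k s
      have h1 : (Pi.mulSingle j s : Fin n → S) ∈ N := by
        have : s ∈ Lj j := by rw [hjtop]; trivial
        exact this
      have h2 := hNchar (coordAut (Equiv.swap j k)) _ h1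
      have h3 : (coordAut (Equiv.swap j k)) (Pi.mulSingle j s : Fin n → S) = Pi.mulSingle k s := by
        funext l
        change (Pi.mulSingle j s : Fin n → S) (Equiv.swap j k l) = _
        by_cases hl : l = k
        · subst hl; simp
        · have : Equiv.swap j k l ≠ j := by
            intro h
            apply hl
            have := congrArg (Equiv.swap j k) h
            simpa using this
          rw [Pi.mulSingle_eq_of_ne this, Pi.mulSingle_eq_of_ne hl]
      rwa [h3] at h2
    have hNtop : N = ⊤ := by
      rw [eq_top_iff]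
      intro y _
      have hind : ∀ (U : Finset (Fin n)) (x : Fin n → S), (∀ i, i ∉ U → x i = 1) → x ∈ N := by
        intro U
        induction U using Finset.induction_on with
        | empty =>
          intro x hx
          have : x = 1 := funext fun i => hx i (Finset.notMem_empty i)
          rw [this]
          exact one_mem _
        | insert a U ha ih =>
          intro x hx
          have hx' : Function.update x a 1 ∈ N := by
            apply ih
            intro i hi
            by_cases hia : i = a
            · subst hia; simp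
            · rw [Function.update_of_ne hia]
              exact hx i (by simp [hia, hi])
          have heq : x = Function.update x a 1 * Pi.mulSingle a (x a) := by
            funext j
            by_cases hja : j = a
            · subst hja; simp
            · simp [hja]
          rw [heq]
          exact N.mul_mem hx' (hall a _)
      exact hind Finset.univ y (fun i hi => absurd (Finset.mem_univ i) hi)
    rw [eq_top_iff]
    intro h _
    have : e h ∈ N := by rw [hNtop]; trivial
    obtain ⟨h', hh', hh''⟩ := this
    have : h' = h := e.injective hh''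
    exact this ▸ hh'

end Cfsg.Agent.S5914
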