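import Cfsg.Statements.S5939
import Cfsg.Agent.Lib.H09.Dick11
import Cfsg.Agent.S0804

set_option autoImplicit false
open Cfsg

namespace Cfsg.Agent.S5939

open Cfsg.Agent.H09.Dick Cfsg.Agent.H11.SL2X MulAction

set_option maxHeartbeats 2000000 in
/-- Let p be a prime and F a finite field of characteristic p such that either F has p elements and p ≡ ±1 (mod 10), or F has p² elements and p ≡ ±3 (mod 10). Then PSL_2(F) has a maximal subgroup isomorphic to the alternating group A_5. -/
theorem result {F : Type*} [Field F] [Fintype F] (p : ℕ) [Fact p.Prime] [CharP F p] (h : (Fintype.card F = p ∧ (p % 10 = 1 ∨ p % 10 = 9)) ∨ (Fintype.card F = p ^ 2 ∧ (p % 10 = 3 ∨ p % 10 = 7))) : ∃ H : Subgroup (Matrix.ProjectiveSpecialLinearGroup (Fin 2) F), IsCoatom H ∧ Nonempty (H ≃* alternatingGroup (Fin 5)) := by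
  classical
  have hpp : p.Prime := Fact.out
  obtain ⟨q, hq⟩ : ∃ q, q = Fintype.card F := ⟨_, rfl⟩
  rw [← hq] at h
  have hF : Fintype.card F = q := hq.symm
  have hq9 : 9 ≤ q := by
    rcases h with ⟨rfl, h⟩ | ⟨rfl, h⟩
    · have := hpp.two_le
      by_contra hlt
      have : q = 2 ∨ q = 3 ∨ q = 4 ∨ q = 5 ∨ q = 6 ∨ q = 7 ∨ q = 8 := by omega
      omega
    · have : 3 ≤ p := by
        have := hpp.two_le
        by_contra hlt
        have : p = 2 := by omega
        omega
      nlinarith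
  have h5 : 5 ∣ q * (q ^ 2 - 1) := by
    rw [five_dvd_iff (by omega)]
    rcases h with ⟨rfl, h⟩ | ⟨rfl, h⟩
    · omega
    · right
      right
      have h1 : p % 5 = 2 ∨ p % 5 = 3 := by omega
      rw [Nat.pow_mod]
      rcases h1 with h1 | h1 <;> rw [h1]
  obtain ⟨M, ⟨e⟩⟩ := (Cfsg.Agent.S0804.result hF).2 h5
  have hM := card_of_iso e
  rw [card_A5] at hM
  have hN := card_PS2 F
  rw [hF] at hN
  have hN60 : 61 ≤ Nat.card (PS2 F) := by
    have hd : Nat.gcd 2 (q - 1) ≤ 2 := Nat.gcd_le_left _ (by norm_num)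
    have h7 : q * (q ^ 2 - 1) ≤ Nat.card (PS2 F) * 2 := by
      rw [← hN]
      exact Nat.mul_le_mul_left _ hd
    have h8 : 80 ≤ q ^ 2 - 1 := by
      have : 81 ≤ q ^ 2 := by nlinarith
      omega
    have h9 : 9 * 80 ≤ q * (q ^ 2 - 1) := Nat.mul_le_mul hq9 h8
    omega
  refine ⟨M, ⟨?_, fun H hlt => ?_⟩, ⟨e⟩⟩
  · rintro rfl
    rw [Subgroup.card_top] at hM
    change Nat.card (PS2 F) = 60 at hM
    omega
  by_contra hH
  obtain ⟨hc1, hc2⟩ := card_lt_of_lt hlt
  rw [hM] at hc1 hc2
  let ι : alternatingGroup (Fin 5) →* H := (Subgroup.inclusion hlt.le).comp e.symm.toMonoidHom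
  have hι : Function.Injective ι := (Subgroup.inclusion_injective hlt.le).comp e.symm.injective
  have hns : ¬ Group.IsSolvable H := by
    intro hs
    exact not_solvable_A5 (Group.isSolvable_of_isSolvable_injective hι)
  rcases dickson_int hF p H with ⟨k, hk, ha'⟩ | ⟨x, hx⟩ | ⟨⟨e'⟩⟩ | ⟨⟨e'⟩⟩ | ⟨⟨e'⟩⟩ | ⟨K, i1, i2, m, hm, hres⟩
  · apply hns
    rcases ha' with ⟨hcyc, -⟩ | ⟨⟨d⟩⟩
    · exact Group.isSolvable_of_comm (fun a b => (IsCyclic.commGroup (α := H)).mul_comm a b)
    · haveI := solvable_dihedral k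
      exact solvable_of_mulEquiv d
  · exact hns (solvable_of_fix hx)
  · have h12 : Nat.card H = 12 := (card_of_iso e').trans card_A4
    omega
  · have h12 : Nat.card H = 24 := (card_of_iso e').trans card_S4
    omega
  · have h12 : Nat.card H = 60 := (card_of_iso e').trans card_A5
    omega
  · rcases h with ⟨rfl, h⟩ | ⟨rfl, h⟩
    · exact hH (top_of_prime_card (by rw [hF]; exact hpp) (by rw [hm, hF]) hres)
    · have hc1' : 1 < Fintype.card K := Fintype.one_lt_card
      rcases m_eq_one hpp (Or.inr Nat.prime_two) hm hc1' with h1 | h1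
      · subst h1
        rw [pow_one] at hm
        exact hH (top_of_same_card K (by rw [hm, hF]) hres)
      · exfalso
        have h60 : 5 ∣ Nat.card H := (by norm_num : 5 ∣ 60).trans hc2
        have h6 : 5 ∣ p * (p ^ 2 - 1) := by
          rcases hres with ⟨⟨e'⟩⟩ | ⟨⟨e'⟩⟩
          · have h7 := card_PS2 K
            rw [h1] at h7
            rw [← h7, ← card_of_iso e']
            exact h60.trans (Dvd.intro _ rfl)
          · have h7 := card_PGL K
            rw [h1] at h7
            rw [← h7, ← card_of_iso e']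
            exact h60
        rw [five_dvd_iff hpp.pos] at h6
        omega

end Cfsg.Agent.S5939
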