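import Cfsg.Statements.S5940
import Cfsg.Agent.Lib.H09.Dick11
import Cfsg.Agent.S0802
import Cfsg.Agent.S0803
import Cfsg.Agent.S0804

set_option autoImplicit false
open Cfsg

namespace Cfsg.Agent.S5940

open Cfsg.Agent.H09.Dick Cfsg.Agent.H11.SL2X MulAction

set_option maxHeartbeats 2000000 in
/-- Let p ≥ 5 be a prime with p ≡ ±3 (mod 8) and p ≢ ±1 (mod 10), and F a field with p elements. Then PSL_2(F) has a maximal subgroup isomorphic to the alternating group A_4. -/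
theorem result {F : Type*} [Field F] [Fintype F] (p : ℕ) [Fact p.Prime] (hF : Fintype.card F = p) (h5 : 5 ≤ p) (h8 : p % 8 = 3 ∨ p % 8 = 5) (h10 : p % 10 ≠ 1 ∧ p % 10 ≠ 9) : ∃ H : Subgroup (Matrix.ProjectiveSpecialLinearGroup (Fin 2) F), IsCoatom H ∧ Nonempty (H ≃* alternatingGroup (Fin 4)) := by
  classical
  haveI : CharP F p := charP_of_card_prime (Fact.out) hF
  have hpp : p.Prime := Fact.out
  obtain ⟨M, ⟨e⟩⟩ := (Cfsg.Agent.S0802.result p 1 (by rw [hF, pow_one])).2 (by rintro ⟨h2, -⟩; omega)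
  have hM := card_of_iso e
  rw [card_A4] at hM
  have hN := card_PS2 F
  rw [hF] at hN
  have hN60 : 60 ≤ Nat.card (PS2 F) := by
    have hd : Nat.gcd 2 (p - 1) ≤ 2 := Nat.gcd_le_left _ (by norm_num)
    have h7 : p * (p ^ 2 - 1) ≤ Nat.card (PS2 F) * 2 := by
      rw [← hN]
      exact Nat.mul_le_mul_left _ hd
    have h8 : 24 ≤ p ^ 2 - 1 := by
      have : 25 ≤ p ^ 2 := by nlinarith
      omega
    have h9 : 5 * 24 ≤ p * (p ^ 2 - 1) := Nat.mul_le_mul h5 h8
    omega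
  refine ⟨M, ⟨?_, fun H hlt => ?_⟩, ⟨e⟩⟩
  · rintro rfl
    rw [Subgroup.card_top] at hM
    change Nat.card (PS2 F) = 12 at hM
    omega
  by_contra hH
  obtain ⟨hc1, hc2⟩ := card_lt_of_lt hlt
  rw [hM] at hc1 hc2
  obtain ⟨a, b, ha, hb, hab⟩ : ∃ a b : alternatingGroup (Fin 4), a * a ≠ 1 ∧ b * b ≠ 1 ∧ a * b ≠ b * a :=
    ⟨⟨Equiv.swap 0 1 * Equiv.swap 1 2, by rw [Equiv.Perm.mem_alternatingGroup]; decide⟩,
     ⟨Equiv.swap 1 2 * Equiv.swap 2 3, by rw [Equiv.Perm.mem_alternatingGroup]; decide⟩, by decide, by decide, by decide⟩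
  let ι : alternatingGroup (Fin 4) →* H := (Subgroup.inclusion hlt.le).comp e.symm.toMonoidHom
  have hι : Function.Injective ι := (Subgroup.inclusion_injective hlt.le).comp e.symm.injective
  rcases dickson_int hF p H with ⟨k, hk, ha'⟩ | ⟨x, hx⟩ | ⟨⟨e'⟩⟩ | ⟨⟨e'⟩⟩ | ⟨⟨e'⟩⟩ | ⟨K, i1, i2, m, hm, hres⟩
  · rcases ha' with ⟨hcyc, -⟩ | ⟨⟨d⟩⟩
    · apply hab
      apply hι
      rw [map_mul, map_mul]
      exact (IsCyclic.commGroup (α := H)).mul_comm _ _
    · exact no_emb_dihedral ha hb hab (d.toMonoidHom.comp ι) (d.injective.comp hι)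
  · have hco : ¬ p ∣ Nat.card M := by
      rw [hM]
      intro hd
      have h2 : p ∣ 2 ^ 2 * 3 := by simpa using hd
      rcases (Nat.Prime.dvd_mul hpp).1 h2 with h3 | h3
      · have := (Nat.prime_dvd_prime_iff_eq hpp Nat.prime_two).1 (hpp.dvd_of_dvd_pow h3)
        omega
      · have := (Nat.prime_dvd_prime_iff_eq hpp Nat.prime_three).1 h3
        omega
    have hcomm := comm_of_fix p (M := M) (x := x) (fun h hh => hx h (hlt.le hh)) hco (e.symm a) (e.symm b)
    apply hab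
    apply e.symm.injective
    rw [map_mul, map_mul]
    exact hcomm
  · have h12 : Nat.card H = 12 := (card_of_iso e').trans card_A4
    omega
  · have h3 := (Cfsg.Agent.S0803.result hF).1 ⟨H, ⟨e'⟩⟩
    have h1 : p % 16 = 3 ∨ p % 16 = 5 ∨ p % 16 = 11 ∨ p % 16 = 13 := by omega
    rw [Nat.pow_mod] at h3
    rcases h1 with h | h | h | h <;> rw [h] at h3 <;> omega
  · have h12 : Nat.card H = 60 := (card_of_iso e').trans card_A5
    have h3 := (Cfsg.Agent.S0804.result hF).1 ⟨H, ⟨e'⟩⟩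
    rw [five_dvd_iff (by omega)] at h3
    have h4 : p % 5 = 0 := by omega
    have h6 : p = 5 := by
      have h7 : 5 ∣ p := Nat.dvd_of_mod_eq_zero h4
      exact ((Nat.prime_dvd_prime_iff_eq (by norm_num) hpp).1 h7).symm
    subst h6
    apply hH
    apply Subgroup.eq_top_of_card_eq
    rw [h12]
    have e0 : Nat.gcd 2 (5 - 1) = 2 := by norm_num
    rw [e0] at hN
    change 60 = Nat.card (PS2 F)
    omega
  · exact hH (top_of_prime_card (by rw [hF]; exact hpp) (by rw [hm, hF]) hres)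

end Cfsg.Agent.S5940
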