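import Cfsg.Statements.S5946
-- import your own Cfsg.Agent.* helpers here

set_option autoImplicit false
open Cfsg

namespace Cfsg.Agent.S5946

/-- Let F ⊆ K be finite fields with [K : F] = n ≥ 2 and regard K as an n-dimensional F-vector space. The Singer group M ≤ GL_F(K) of multiplications by the non-zero elements of K is self-centralizing: every F-linear automorphism of K commuting with all of M lies in M. -/
theorem result {F K : Type*} [Field F] [Fintype F] [Field K] [Fintype K] [Algebra F K] (n : ℕ) (hn : 2 ≤ n) (hdim : Module.finrank F K = n) :
    Subgroup.centralizer (((Units.map ((Algebra.lmul F K : K →ₐ[F] Module.End F K) : K →* Module.End F K)).range : Subgroup (Module.End F K)ˣ) : Set (Module.End F K)ˣ) = (Units.map ((Algebra.lmul F K : K →ₐ[F] Module.End F K) : K →* Module.End F K)).range := by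
    classical
  set φ : K →* Module.End F K := ((Algebra.lmul F K : K →ₐ[F] Module.End F K) : K →* Module.End F K) with hφ
  have hφapply : ∀ (k x : K), (φ k) x = k * x := fun k x => rfl
  apply le_antisymm
  · intro g hg
    rw [Subgroup.mem_centralizer_iff] at hg
    -- `g` is `K`-linear
    have hlin : ∀ (k x : K), (g : Module.End F K) (k * x) = k * (g : Module.End F K) x := by
      intro k x
      by_cases hk : k = 0
      · subst hk; simp
      · let u : Kˣ := Units.mk0 k hk
        have h1 := hg (Units.map φ u) ⟨u, rfl⟩
        have h2 := congrArg (fun y : (Module.End F K)ˣ => (y : Module.End F K) x) h1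
        change ((Units.map φ u : (Module.End F K)ˣ) : Module.End F K) ((g : Module.End F K) x) =
          (g : Module.End F K) (((Units.map φ u : (Module.End F K)ˣ) : Module.End F K) x) at h2
        simpa [Units.coe_map, hφapply, u] using h2.symm
    -- the multiplier
    have hg1 : (g : Module.End F K) 1 ≠ 0 := by
      intro h0
      have hinj : Function.Injective (g : Module.End F K) := by
        have hleft : ∀ x, ((g⁻¹ : (Module.End F K)ˣ) : Module.End F K) ((g : Module.End F K) x) = x := by
          intro x
          have : ((g⁻¹ * g : (Module.End F K)ˣ) : Module.End F K) x = x := by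
            rw [inv_mul_cancel]; rfl
          exact this
        exact Function.LeftInverse.injective hleft
      have : (g : Module.End F K) 1 = (g : Module.End F K) 0 := by rw [h0, map_zero]
      exact one_ne_zero (hinj this)
    refine ⟨Units.mk0 _ hg1, ?_⟩
    apply Units.ext
    apply LinearMap.ext
    intro x
    have : (g : Module.End F K) x = x * (g : Module.End F K) 1 := by
      have := hlin x 1
      rwa [mul_one] at this
    rw [this]
    simp [Units.coe_map, hφapply, mul_comm]
  · rintro _ ⟨u, rfl⟩
    rw [Subgroup.mem_centralizer_iff]
    rintro _ ⟨v, rfl⟩
    apply Units.ext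
    apply LinearMap.ext
    intro x
    simp [Units.coe_map, hφapply, mul_left_comm]

end Cfsg.Agent.S5946
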