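import Cfsg.Statements.S5947
-- import your own Cfsg.Agent.* helpers here

set_option autoImplicit false
open Cfsg

namespace Cfsg.Agent.S5947

open Module

set_option linter.unusedSectionVars false

section CardBound

universe u v w

variable {F : Type w} [Field F] [Fintype F] {A : Type v} [Group A] [Finite A]

/-- Acting trivially on an invariant subspace and on the quotient forces acting trivially. -/
theorem eq_of_restrict_quot {W : Type u} [AddCommGroup W] [Module F W]
    (hA : ((Nat.card A : ℕ) : F) ≠ 0) (ρ : A →* End F W) (W₁ : Submodule F W)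
    (x : A) (h1 : ∀ w ∈ W₁, ρ x w = w) (h2 : ∀ w, ρ x w - w ∈ W₁) : ρ x = 1 := by
  set N : End F W := ρ x - 1 with hN
  have hNN : N * N = 0 := by
    ext w
    have h3 : N w ∈ W₁ := by simpa [hN] using h2 w
    have : N (N w) = ρ x (N w) - N w := by simp [hN]
    simp [this, h1 _ h3]
  have hpow : ∀ m : ℕ, (ρ x) ^ m = 1 + (m : F) • N := by
    intro m
    induction m with
    | zero => simp
    | succ m ih =>
      have hx : ρ x = 1 + N := by simp [hN]
      rw [pow_succ, ih]
      calc (1 + (m : F) • N) * ρ x = (1 + (m : F) • N) * (1 + N) := by rw [← hx]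
        _ = 1 + ((m : F) + 1) • N := by
            simp only [mul_add, add_mul, one_mul, mul_one, smul_mul_assoc, hNN, smul_zero, add_zero,
              add_smul, one_smul]
            abel
        _ = _ := by push_cast; rfl
  have h4 := hpow (Nat.card A)
  rw [← map_pow, pow_card_eq_one', map_one] at h4
  have h5 : ((Nat.card A : ℕ) : F) • N = 0 := by
    have := h4
    exact (add_eq_left.mp this.symm)
  have h6 : N = 0 := (smul_eq_zero.mp h5).resolve_left hA
  rw [hN] at h6
  exact sub_eq_zero.mp h6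

/-- Restriction to an invariant subspace. -/
noncomputable def resHom {W : Type u} [AddCommGroup W] [Module F W] (ρ : A →* End F W)
    (W₁ : Submodule F W) (h : ∀ a, ∀ w ∈ W₁, ρ a w ∈ W₁) : A →* End F W₁ where
  toFun a := (ρ a).restrict (h a)
  map_one' := by ext w; simp
  map_mul' a b := by ext w; simp

/-- Action on the quotient by an invariant subspace. -/
noncomputable def quotHom {W : Type u} [AddCommGroup W] [Module F W] (ρ : A →* End F W)
    (W₁ : Submodule F W) (h : ∀ a, ∀ w ∈ W₁, ρ a w ∈ W₁) : A →* End F (W ⧸ W₁) where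
  toFun a := W₁.mapQ W₁ (ρ a) (fun w hw => h a w hw)
  map_one' := by
    ext w
    simp
  map_mul' a b := by
    ext w
    simp

theorem resHom_apply {W : Type u} [AddCommGroup W] [Module F W] (ρ : A →* End F W)
    (W₁ : Submodule F W) (h : ∀ a, ∀ w ∈ W₁, ρ a w ∈ W₁) (a : A) (w : W₁) :
    (resHom ρ W₁ h a w : W) = ρ a w := rfl

theorem quotHom_apply {W : Type u} [AddCommGroup W] [Module F W] (ρ : A →* End F W)
    (W₁ : Submodule F W) (h : ∀ a, ∀ w ∈ W₁, ρ a w ∈ W₁) (a : A) (w : W) :
    quotHom ρ W₁ h a (W₁.mkQ w) = W₁.mkQ (ρ a w) := rfl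

theorem rho_eq_of {W : Type u} [AddCommGroup W] [Module F W]
    (hA : ((Nat.card A : ℕ) : F) ≠ 0) (ρ : A →* End F W) (W₁ : Submodule F W)
    (h : ∀ a, ∀ w ∈ W₁, ρ a w ∈ W₁) (a b : A)
    (h1 : resHom ρ W₁ h a = resHom ρ W₁ h b) (h2 : quotHom ρ W₁ h a = quotHom ρ W₁ h b) :
    ρ a = ρ b := by
  have h3 : ρ (a⁻¹ * b) = 1 := by
    apply eq_of_restrict_quot hA ρ W₁
    · intro w hw
      have h4 := congrArg (fun f => ((f ⟨w, hw⟩ : W₁) : W)) h1
      simp only [resHom_apply] at h4
      rw [map_mul, Module.End.mul_apply, ← h4, ← Module.End.mul_apply, ← map_mul]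
      simp
    · intro w
      have h4 := congrArg (fun f => f (W₁.mkQ w)) h2
      simp only [quotHom_apply] at h4
      have h5 : ρ a w - ρ b w ∈ W₁ := by
        rw [← Submodule.Quotient.mk_eq_zero, Submodule.Quotient.mk_sub, sub_eq_zero]
        exact h4
      have h6 := h a⁻¹ _ h5
      rw [map_sub, ← Module.End.mul_apply, ← Module.End.mul_apply, ← map_mul, ← map_mul] at h6
      simp only [inv_mul_cancel, map_one, Module.End.one_apply] at h6
      have := W₁.neg_mem h6
      simpa using this
  have h4 : ρ b = ρ a * ρ (a⁻¹ * b) := by rw [← map_mul]; simp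
  rw [h4, h3, mul_one]

theorem card_range_lt_of_invariant {W : Type u} [AddCommGroup W] [Module F W]
    [FiniteDimensional F W]
    (hA : ((Nat.card A : ℕ) : F) ≠ 0) (ρ : A →* End F W) (W₁ : Submodule F W)
    (h : ∀ a, ∀ w ∈ W₁, ρ a w ∈ W₁) (hbot : W₁ ≠ ⊥) (htop : W₁ ≠ ⊤)
    (h1 : Nat.card (Set.range (resHom ρ W₁ h)) ≤ Fintype.card F ^ finrank F W₁ - 1)
    (h2 : Nat.card (Set.range (quotHom ρ W₁ h)) ≤ Fintype.card F ^ finrank F (W ⧸ W₁) - 1) :
    Nat.card (Set.range ρ) < Fintype.card F ^ finrank F W - 1 := by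
  have hq : 2 ≤ Fintype.card F := Fintype.one_lt_card
  have ha : 1 ≤ finrank F W₁ := by
    have := Submodule.one_le_finrank_iff.mpr hbot
    exact this
  have hb : 1 ≤ finrank F (W ⧸ W₁) := by
    have : Nontrivial (W ⧸ W₁) := Submodule.Quotient.nontrivial_iff.mpr htop
    exact Nat.succ_le_of_lt Module.finrank_pos
  have hsum : finrank F W = finrank F (W ⧸ W₁) + finrank F W₁ := by
    rw [Submodule.finrank_quotient_add_finrank]
  have hle : Nat.card (Set.range ρ) ≤ Nat.card (Set.range (resHom ρ W₁ h)) * Nat.card (Set.range (quotHom ρ W₁ h)) := by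
    rw [← Nat.card_prod]
    have hfin : Finite ((Set.range (resHom ρ W₁ h)) × (Set.range (quotHom ρ W₁ h))) := inferInstance
    refine Nat.card_le_card_of_injective
      (fun x => (⟨resHom ρ W₁ h x.2.choose, ⟨_, rfl⟩⟩,
        ⟨quotHom ρ W₁ h x.2.choose, ⟨_, rfl⟩⟩)) ?_
    intro x y hxy
    simp only [Prod.mk.injEq, Subtype.mk.injEq] at hxy
    have h3 := rho_eq_of hA ρ W₁ h _ _ (Subtype.ext_iff.mp hxy.1) (Subtype.ext_iff.mp hxy.2)
    rw [x.2.choose_spec, y.2.choose_spec] at h3
    exact Subtype.ext h3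
  rw [hsum, pow_add]
  set a := finrank F W₁
  set b := finrank F (W ⧸ W₁)
  set q := Fintype.card F
  have hP : 2 ≤ q ^ a := le_trans hq (Nat.le_self_pow (by omega) q)
  have hQ : 2 ≤ q ^ b := le_trans hq (Nat.le_self_pow (by omega) q)
  obtain ⟨P, hP'⟩ : ∃ P, q ^ a = P + 2 := ⟨q ^ a - 2, by omega⟩
  obtain ⟨Q, hQ'⟩ : ∃ Q, q ^ b = Q + 2 := ⟨q ^ b - 2, by omega⟩
  have h3 : Nat.card (Set.range ρ) ≤ (q ^ a - 1) * (q ^ b - 1) :=
    le_trans hle (Nat.mul_le_mul h1 h2)
  rw [hP', hQ'] at h3 ⊢
  have e1 : P + 2 - 1 = P + 1 := by omega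
  have e2 : Q + 2 - 1 = Q + 1 := by omega
  rw [e1, e2] at h3
  have e3 : (Q + 2) * (P + 2) - 1 = (P + 1) * (Q + 1) + P + Q + 2 := by
    have : (Q + 2) * (P + 2) = (P + 1) * (Q + 1) + P + Q + 3 := by ring
    omega
  rw [e3]
  omega

theorem card_range_le_of_irr {W : Type u} [AddCommGroup W] [Module F W]
    [FiniteDimensional F W] [Nontrivial W] (ρ : A →* End F W)
    (hcomm : ∀ a b, Commute (ρ a) (ρ b))
    (hirr : ∀ W₁ : Submodule F W, (∀ a, ∀ w ∈ W₁, ρ a w ∈ W₁) → W₁ = ⊥ ∨ W₁ = ⊤) (v : W)
    (hv : v ≠ 0) :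
    Function.Injective (fun x : Set.range ρ => (⟨x.1 v, by
      obtain ⟨x, a, rfl⟩ := x
      intro h0
      have hu' : ρ a⁻¹ * ρ a = 1 := by rw [← map_mul]; simp
      have h1 : v = ρ a⁻¹ (ρ a v) := by simp [← Module.End.mul_apply, hu']
      rw [h0, map_zero] at h1
      exact hv h1⟩ : {w : W // w ≠ 0})) := by
  rintro ⟨_, a, rfl⟩ ⟨_, b, rfl⟩ hxy
  simp only [Subtype.mk.injEq] at hxy
  have hker : (LinearMap.ker (ρ a - ρ b)) = ⊤ := by
    refine (hirr (LinearMap.ker (ρ a - ρ b)) ?_).resolve_left ?_
    · intro c w hw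
      rw [LinearMap.mem_ker] at hw ⊢
      have h1 : (ρ a - ρ b) * ρ c = ρ c * (ρ a - ρ b) := by
        rw [sub_mul, mul_sub, (hcomm a c).eq, (hcomm b c).eq]
      rw [← Module.End.mul_apply, h1, Module.End.mul_apply, hw, map_zero]
    · intro h0
      have : v ∈ LinearMap.ker (ρ a - ρ b) := by
        rw [LinearMap.mem_ker, LinearMap.sub_apply, hxy, sub_self]
      rw [h0, Submodule.mem_bot] at this
      exact hv this
  apply Subtype.ext
  ext w
  have : w ∈ LinearMap.ker (ρ a - ρ b) := by rw [hker]; trivial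
  rw [LinearMap.mem_ker, LinearMap.sub_apply, sub_eq_zero] at this
  exact this

theorem card_nonzero {W : Type u} [AddCommGroup W] [Module F W] [FiniteDimensional F W] :
    Nat.card {w : W // w ≠ 0} = Fintype.card F ^ finrank F W - 1 := by
  classical
  have : Fintype W := Module.fintypeOfFintype (Module.finBasis F W)
  rw [Nat.card_eq_fintype_card, Fintype.card_subtype_compl, Module.card_eq_pow_finrank (K := F) (V := W)]
  simp

theorem card_range_le {A : Type v} [Group A] [Finite A] (hA : ((Nat.card A : ℕ) : F) ≠ 0)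
    (d : ℕ) : ∀ (W : Type u) [AddCommGroup W] [Module F W] [FiniteDimensional F W]
    (ρ : A →* End F W) (_ : ∀ a b, Commute (ρ a) (ρ b)), finrank F W = d → 1 ≤ d →
    Nat.card (Set.range ρ) ≤ Fintype.card F ^ d - 1 := by
  induction d using Nat.strong_induction_on with
  | _ d ih =>
    intro W _ _ _ ρ hcomm hd hd1
    by_cases hirr : ∀ W₁ : Submodule F W, (∀ a, ∀ w ∈ W₁, ρ a w ∈ W₁) → W₁ = ⊥ ∨ W₁ = ⊤
    · have hnt : Nontrivial W := by
        apply Module.nontrivial_of_finrank_pos (R := F)
        omega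
      obtain ⟨v, hv⟩ := exists_ne (0 : W)
      have : Finite W := Module.finite_of_finite F
      have := Nat.card_le_card_of_injective _ (card_range_le_of_irr ρ hcomm hirr v hv)
      rwa [card_nonzero (F := F), hd] at this
    · push Not at hirr
      obtain ⟨W₁, h, hbot, htop⟩ := hirr
      have hsum : finrank F W = finrank F (W ⧸ W₁) + finrank F W₁ := by
        rw [Submodule.finrank_quotient_add_finrank]
      have ha : 1 ≤ finrank F W₁ := Submodule.one_le_finrank_iff.mpr hbot
      have hb : 1 ≤ finrank F (W ⧸ W₁) := by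
        have : Nontrivial (W ⧸ W₁) := Submodule.Quotient.nontrivial_iff.mpr htop
        exact Nat.succ_le_of_lt Module.finrank_pos
      have hc1 : ∀ a b, Commute (resHom ρ W₁ h a) (resHom ρ W₁ h b) := by
        intro a b
        have : resHom ρ W₁ h a * resHom ρ W₁ h b = resHom ρ W₁ h b * resHom ρ W₁ h a := by
          rw [← map_mul, ← map_mul]
          ext w
          simp only [resHom_apply, map_mul, Module.End.mul_apply]
          have := congrArg (fun f => f (w : W)) (hcomm a b).eq
          simpa using this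
        exact this
      have hc2 : ∀ a b, Commute (quotHom ρ W₁ h a) (quotHom ρ W₁ h b) := by
        intro a b
        have : quotHom ρ W₁ h a * quotHom ρ W₁ h b = quotHom ρ W₁ h b * quotHom ρ W₁ h a := by
          rw [← map_mul, ← map_mul]
          ext w
          simp only [LinearMap.coe_comp, Function.comp_apply, quotHom_apply, map_mul,
            Module.End.mul_apply]
          have := congrArg (fun f => f w) (hcomm a b).eq
          simp only [Module.End.mul_apply] at this
          rw [this]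
        exact this
      have h1 := ih (finrank F W₁) (by omega) W₁ (resHom ρ W₁ h) hc1 rfl ha
      have h2 := ih (finrank F (W ⧸ W₁)) (by omega) (W ⧸ W₁) (quotHom ρ W₁ h) hc2 rfl hb
      have := card_range_lt_of_invariant hA ρ W₁ h hbot htop h1 h2
      rw [hd] at this
      omega

theorem irr_of_card {A : Type v} [Group A] [Finite A] (hA : ((Nat.card A : ℕ) : F) ≠ 0)
    {W : Type u} [AddCommGroup W] [Module F W] [FiniteDimensional F W]
    (ρ : A →* End F W) (hcomm : ∀ a b, Commute (ρ a) (ρ b))
    (hcard : Nat.card (Set.range ρ) = Fintype.card F ^ finrank F W - 1) :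
    ∀ W₁ : Submodule F W, (∀ a, ∀ w ∈ W₁, ρ a w ∈ W₁) → W₁ = ⊥ ∨ W₁ = ⊤ := by
  intro W₁ h
  by_contra hcon
  push Not at hcon
  obtain ⟨hbot, htop⟩ := hcon
  have hsum : finrank F W = finrank F (W ⧸ W₁) + finrank F W₁ := by
    rw [Submodule.finrank_quotient_add_finrank]
  have ha : 1 ≤ finrank F W₁ := Submodule.one_le_finrank_iff.mpr hbot
  have hb : 1 ≤ finrank F (W ⧸ W₁) := by
    have : Nontrivial (W ⧸ W₁) := Submodule.Quotient.nontrivial_iff.mpr htop
    exact Nat.succ_le_of_lt Module.finrank_pos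
  have hc1 : ∀ a b, Commute (resHom ρ W₁ h a) (resHom ρ W₁ h b) := by
    intro a b
    have : resHom ρ W₁ h a * resHom ρ W₁ h b = resHom ρ W₁ h b * resHom ρ W₁ h a := by
      rw [← map_mul, ← map_mul]
      ext w
      simp only [resHom_apply, map_mul, Module.End.mul_apply]
      have := congrArg (fun f => f (w : W)) (hcomm a b).eq
      simpa using this
    exact this
  have hc2 : ∀ a b, Commute (quotHom ρ W₁ h a) (quotHom ρ W₁ h b) := by
    intro a b
    have : quotHom ρ W₁ h a * quotHom ρ W₁ h b = quotHom ρ W₁ h b * quotHom ρ W₁ h a := by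
      rw [← map_mul, ← map_mul]
      ext w
      simp only [LinearMap.coe_comp, Function.comp_apply, quotHom_apply, map_mul,
        Module.End.mul_apply]
      have := congrArg (fun f => f w) (hcomm a b).eq
      simp only [Module.End.mul_apply] at this
      rw [this]
    exact this
  have h1 := card_range_le (F := F) hA (finrank F W₁) W₁ (resHom ρ W₁ h) hc1 rfl ha
  have h2 := card_range_le (F := F) hA (finrank F (W ⧸ W₁)) (W ⧸ W₁) (quotHom ρ W₁ h) hc2 rfl hb
  have := card_range_lt_of_invariant hA ρ W₁ h hbot htop h1 h2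
  omega

end CardBound

theorem algEquiv_of_card {F K C : Type*} [Field F] [Field K] [Fintype K] [Field C] [Fintype C]
    [Algebra F K] [Algebra F C] (h : Fintype.card K = Fintype.card C) : Nonempty (K ≃ₐ[F] C) := by
  classical
  have h1 := FiniteField.isSplittingField_sub K F
  have h2 := FiniteField.isSplittingField_sub C F
  rw [← h] at h2
  exact ⟨(Polynomial.IsSplittingField.algEquiv K (Polynomial.X ^ Fintype.card K - Polynomial.X)).trans
    (Polynomial.IsSplittingField.algEquiv C (Polynomial.X ^ Fintype.card K - Polynomial.X)).symm⟩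


/-- Let F ⊆ K be finite fields with |F| = q and [K : F] = n ≥ 2, regard K as an n-dimensional F-vector space, and let M ≤ GL_F(K) be the Singer group of multiplications by non-zero elements of K (cyclic of order q^n − 1). Assume (n, q) ≠ (6, 2), and that it is not the case that n = 2 with q a prime such that q + 1 is a power of 2. Then every abelian subgroup of GL_F(K) of order q^n − 1 is conjugate to M. -/
theorem result {F K : Type*} [Field F] [Fintype F] [Field K] [Fintype K] [Algebra F K] (n : ℕ) (hn : 2 ≤ n) (hdim : Module.finrank F K = n)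
    (hex1 : ¬ (n = 6 ∧ Fintype.card F = 2))
    (hex2 : ¬ (n = 2 ∧ (Fintype.card F).Prime ∧ ∃ a : ℕ, Fintype.card F + 1 = 2 ^ a))
    (U : Subgroup (Module.End F K)ˣ) (hU : IsMulCommutative U) (hcard : Nat.card U = Fintype.card K - 1) :
    ∃ g : (Module.End F K)ˣ, U.map (MulAut.conj g).toMonoidHom = (Units.map ((Algebra.lmul F K : K →ₐ[F] Module.End F K) : K →* Module.End F K)).range := by
  classical
  set q := Fintype.card F with hq
  have hK : Fintype.card K = q ^ n := by
    rw [← hdim]; exact Module.card_eq_pow_finrank (K := F) (V := K)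
  have hfd : FiniteDimensional F K := Module.Finite.of_finite
  have hfinEnd : Finite (End F K) := Module.finite_of_finite F
  have hfinUnits : Finite (End F K)ˣ := Finite.of_injective _ Units.val_injective
  let ρ : U →* End F K := (Units.coeHom _).comp U.subtype
  have hρ : ∀ a : U, ρ a = ((a : (Module.End F K)ˣ) : Module.End F K) := fun _ => rfl
  have hcomm : ∀ a b : U, Commute (ρ a) (ρ b) := by
    intro a b
    have h1 : a * b = b * a := hU.is_comm.comm a b
    have : ρ a * ρ b = ρ b * ρ a := by rw [← map_mul, ← map_mul, h1]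
    exact this
  have hinj : Function.Injective ρ := by
    intro a b hab
    exact Subtype.ext (Units.ext hab)
  have hcardF : ((q : ℕ) : F) = 0 := FiniteField.cast_card_eq_zero F
  have hm : ((Nat.card U : ℕ) : F) ≠ 0 := by
    rw [hcard, hK]
    have h1 : 1 ≤ q ^ n := Nat.one_le_pow _ _ Fintype.card_pos
    rw [Nat.cast_sub h1, Nat.cast_pow, hcardF, zero_pow (by omega)]
    simp
  have hrange : Nat.card (Set.range ρ) = q ^ finrank F K - 1 := by
    rw [hdim, ← hK, ← hcard]
    exact Nat.card_congr (Equiv.ofInjective ρ hinj).symm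
  have hirr := irr_of_card hm ρ hcomm hrange
  have hinj2 := card_range_le_of_irr ρ hcomm hirr (1 : K) one_ne_zero
  have hsurj : Function.Surjective _ := (Function.Injective.bijective_of_nat_card_le hinj2 (by
    rw [hrange, card_nonzero (F := F)])).2
  have hreg : ∀ k : K, k ≠ 0 → ∃ a : U, ρ a 1 = k := by
    intro k hk
    obtain ⟨⟨_, a, rfl⟩, ha⟩ := hsurj ⟨k, hk⟩
    exact ⟨a, congrArg Subtype.val ha⟩
  -- the centralizer
  let C : Subalgebra F (End F K) := Subalgebra.centralizer F (Set.range ρ)
  have hC : ∀ e : End F K, e ∈ C ↔ ∀ a : U, ρ a * e = e * ρ a := by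
    intro e
    rw [Subalgebra.mem_centralizer_iff]
    constructor
    · intro h a
      exact h _ ⟨a, rfl⟩
    · rintro h _ ⟨a, rfl⟩
      exact h a
  have hρC : ∀ a : U, ρ a ∈ C := by
    intro a
    rw [hC]
    intro b
    exact (hcomm b a).eq
  have hzero : ∀ e ∈ C, e 1 = 0 → e = 0 := by
    intro e he h1
    have hker : LinearMap.ker e = ⊤ := by
      refine (hirr (LinearMap.ker e) ?_).resolve_left ?_
      · intro a w hw
        rw [LinearMap.mem_ker] at hw ⊢
        have h2 := congrArg (fun f => f w) ((hC e).mp he a)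
        simp only [Module.End.mul_apply] at h2
        rw [← h2, hw, map_zero]
      · intro h0
        have : (1 : K) ∈ LinearMap.ker e := h1
        rw [h0, Submodule.mem_bot] at this
        exact one_ne_zero this
    ext w
    have : w ∈ LinearMap.ker e := by rw [hker]; trivial
    simpa using this
  have hCU : ∀ e ∈ C, e ≠ 0 → ∃ a : U, e = ρ a := by
    intro e he he0
    have h1 : e 1 ≠ 0 := fun h => he0 (hzero e he h)
    obtain ⟨a, ha⟩ := hreg _ h1
    refine ⟨a, ?_⟩
    have := hzero (e - ρ a) (C.sub_mem he (hρC a)) (by simp [ha])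
    exact sub_eq_zero.mp this
  have hfield : IsField C := by
    refine ⟨⟨0, 1, ?_⟩, ?_, ?_⟩
    · intro h
      have h1 := congrArg (fun e : C => (e : End F K) 1) h
      simp at h1
    · intro x y
      by_cases hx : (x : End F K) = 0
      · have : x = 0 := Subtype.ext hx
        simp [this]
      by_cases hy : (y : End F K) = 0
      · have : y = 0 := Subtype.ext hy
        simp [this]
      obtain ⟨a, ha⟩ := hCU x x.2 hx
      obtain ⟨b, hb⟩ := hCU y y.2 hy
      apply Subtype.ext
      show (x : End F K) * y = y * x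
      rw [ha, hb]
      exact (hcomm a b).eq
    · intro x hx
      have hx' : (x : End F K) ≠ 0 := fun h => hx (Subtype.ext h)
      obtain ⟨a, ha⟩ := hCU x x.2 hx'
      refine ⟨⟨ρ a⁻¹, hρC _⟩, ?_⟩
      apply Subtype.ext
      show (x : End F K) * ρ a⁻¹ = 1
      rw [ha, ← map_mul]
      simp
  let fieldC : Field C := hfield.toField
  let fintC : Fintype C := Fintype.ofFinite C
  have hev_bij : Function.Bijective (fun e : C => (e : End F K) 1) := by
    constructor
    · intro x y hxy
      have := hzero ((x : End F K) - y) (C.sub_mem x.2 y.2) (by simpa [sub_eq_zero] using hxy)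
      exact Subtype.ext (sub_eq_zero.mp this)
    · intro k
      by_cases hk : k = 0
      · exact ⟨0, by simp [hk]⟩
      · obtain ⟨a, ha⟩ := hreg k hk
        exact ⟨⟨ρ a, hρC a⟩, ha⟩
  have hcardC : Fintype.card K = Fintype.card C :=
    (Fintype.card_of_bijective hev_bij).symm
  obtain ⟨ψ⟩ := algEquiv_of_card (F := F) hcardC
  -- `τ k = ψ k 1`
  let τl : K →ₗ[F] K :=
    { toFun := fun k => ((ψ k : C) : End F K) 1
      map_add' := by
        intro x y
        rw [map_add]
        rfl
      map_smul' := by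
        intro c x
        rw [map_smul]
        rfl }
  have hτ_apply : ∀ k, τl k = ((ψ k : C) : End F K) 1 := fun _ => rfl
  have hτ_bij : Function.Bijective τl := hev_bij.comp ψ.bijective
  let τ : K ≃ₗ[F] K := LinearEquiv.ofBijective τl hτ_bij
  have hτ : ∀ k, τ k = ((ψ k : C) : End F K) 1 := fun _ => rfl
  have hmul : ∀ (k x : K), ((ψ k : C) : End F K) (τ x) = τ (k * x) := by
    intro k x
    rw [hτ, hτ, map_mul]
    rfl
  let g : (Module.End F K)ˣ := LinearMap.GeneralLinearGroup.ofLinearEquiv τ.symm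
  have hg : ∀ x, (g : End F K) x = τ.symm x := fun _ => rfl
  have hginv : ∀ x, ((g⁻¹ : (Module.End F K)ˣ) : End F K) x = τ x := fun _ => rfl
  -- key relation
  have hkey : ∀ k : K, ∀ u : (Module.End F K)ˣ, (u : End F K) = ((ψ k : C) : End F K) →
      ((g * u * g⁻¹ : (Module.End F K)ˣ) : End F K) = Algebra.lmul F K k := by
    intro k u hu
    ext x
    show (g : End F K) ((u : End F K) (((g⁻¹ : (Module.End F K)ˣ) : End F K) x)) = k * x
    rw [hginv, hu, hmul, hg, τ.symm_apply_apply]
  refine ⟨g, ?_⟩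
  ext w
  constructor
  · rintro ⟨u, hu, rfl⟩
    have hu' : ((⟨u, hu⟩ : U) : (Module.End F K)ˣ) = u := rfl
    have h1 : ρ ⟨u, hu⟩ ∈ C := hρC _
    obtain ⟨k, hk⟩ := ψ.surjective ⟨ρ ⟨u, hu⟩, h1⟩
    have hk0 : k ≠ 0 := by
      rintro rfl
      rw [map_zero] at hk
      have h2 := congrArg (fun e : C => (e : End F K) 1) hk
      simp only [ZeroMemClass.coe_zero, LinearMap.zero_apply] at h2
      have h3 : ρ ⟨u, hu⟩ = (u : End F K) := rfl
      have h4 : (u : End F K) 1 ≠ 0 := by
        intro h5
        have h6 := congrArg (fun f => ((u⁻¹ : (Module.End F K)ˣ) : End F K) f) h5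
        simp only [map_zero] at h6
        rw [← Module.End.mul_apply, Units.inv_mul] at h6
        exact one_ne_zero h6
      rw [h3] at h2
      exact h4 h2.symm
    refine ⟨Units.mk0 k hk0, ?_⟩
    apply Units.ext
    have h5 := hkey k u (by rw [hk]; rfl)
    show Algebra.lmul F K k = _
    rw [← h5]
    rfl
  · rintro ⟨k, rfl⟩
    have hk0 : (ψ (k : K) : C) ≠ 0 := by
      intro h
      exact k.ne_zero ((map_eq_zero_iff ψ ψ.injective).mp h)
    have h1 : ((ψ (k : K) : C) : End F K) ≠ 0 := fun h => hk0 (Subtype.ext h)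
    obtain ⟨a, ha⟩ := hCU _ (ψ (k : K) : C).2 h1
    refine ⟨a, a.2, ?_⟩
    apply Units.ext
    have h5 := hkey (k : K) a ha.symm
    show _ = Algebra.lmul F K (k : K)
    rw [← h5]
    rfl

end Cfsg.Agent.S5947
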